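import Cfsg.Statements.S0039
import Mathlib

set_option autoImplicit false
open Cfsg
open Pointwise

namespace Cfsg.Agent.S0039

theorem mem_conj {G : Type*} [Group G] (g x : G) (H : Subgroup G) :
    x ∈ MulAut.conj g • H ↔ g⁻¹ * x * g ∈ H := by
  rw [Subgroup.mem_pointwise_smul_iff_inv_smul_mem]
  simp [MulAut.smul_def]

/-- In a finite group that is a semidirect product of a normal subgroup K by a nontrivial subgroup H, H is a Frobenius complement exactly when each nonidentity element of H acts without nonidentity fixed points on K by conjugation. -/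
theorem result {G : Type*} [Group G] [Finite G] (K H : Subgroup G) [K.Normal]
    (hc : Subgroup.IsComplement' K H) (hK : K ≠ ⊥) (hH : H ≠ ⊥) :
    Cfsg.IsFrobeniusComplement H ↔ ∀ h ∈ H, h ≠ 1 → K ⊓ Subgroup.centralizer {h} = ⊥ := by
  have hdisj : K ⊓ H = ⊥ := disjoint_iff.mp hc.disjoint
  have hKH : ∀ x, x ∈ K → x ∈ H → x = 1 := by
    intro x hxK hxH
    have : x ∈ K ⊓ H := ⟨hxK, hxH⟩
    rw [hdisj] at this
    exact Subgroup.mem_bot.mp this
  constructor
  · rintro ⟨-, -, hF⟩ h hh hh1
    rw [eq_bot_iff]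
    intro k hk
    obtain ⟨hkK, hkC⟩ := Subgroup.mem_inf.mp hk
    rw [Subgroup.mem_bot]
    by_contra hk1
    have hkH : k ∉ H := fun hkH => hk1 (hKH k hkK hkH)
    have hcomm : h * k = k * h := by
      rw [Subgroup.mem_centralizer_iff] at hkC
      exact hkC h (Set.mem_singleton h)
    have hmem : h ∈ H ⊓ (MulAut.conj k • H) := by
      refine Subgroup.mem_inf.mpr ⟨hh, ?_⟩
      rw [mem_conj]
      have : k⁻¹ * h * k = h := by rw [mul_assoc, hcomm, ← mul_assoc, inv_mul_cancel, one_mul]
      rw [this]; exact hh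
    rw [hF k hkH] at hmem
    exact hh1 (Subgroup.mem_bot.mp hmem)
  · intro hfpf
    refine ⟨hH, ?_, ?_⟩
    · intro htop
      apply hK
      rw [htop, inf_top_eq] at hdisj
      exact hdisj
    · intro g hg
      have hmul : (K : Set G) * (H : Set G) = Set.univ := by
        rw [← Subgroup.normal_mul, hc.sup_eq_top, Subgroup.coe_top]
      have hg' : g ∈ (K : Set G) * (H : Set G) := by rw [hmul]; exact Set.mem_univ g
      obtain ⟨k, hk, h₀, hh₀, rfl⟩ := Set.mem_mul.mp hg'
      have hk1 : k ≠ 1 := by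
        rintro rfl
        apply hg
        rw [one_mul]; exact hh₀
      rw [eq_bot_iff]
      intro x hx
      obtain ⟨hxH, hxc⟩ := Subgroup.mem_inf.mp hx
      rw [Subgroup.mem_bot]
      rw [mem_conj] at hxc
      -- h := (k h₀)⁻¹ x (k h₀) ∈ H ; then k⁻¹ x k = h₀ h h₀⁻¹ ∈ H
      have hy : k⁻¹ * x * k ∈ H := by
        have : k⁻¹ * x * k = h₀ * ((k * h₀)⁻¹ * x * (k * h₀)) * h₀⁻¹ := by group
        rw [this]
        exact H.mul_mem (H.mul_mem hh₀ hxc) (H.inv_mem hh₀)
      set y := k⁻¹ * x * k with hydef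
      -- x * y⁻¹ ∈ K ∩ H
      have hxy : x * y⁻¹ ∈ K := by
        have : x * y⁻¹ = (x * k⁻¹ * x⁻¹) * k := by rw [hydef]; group
        rw [this]
        exact K.mul_mem (Subgroup.Normal.conj_mem inferInstance _ (K.inv_mem hk) x) hk
      have hxy1 : x * y⁻¹ = 1 := hKH _ hxy (H.mul_mem hxH (H.inv_mem hy))
      have hxy2 : x = y := by
        have := congrArg (fun t => t * y) hxy1
        simpa using this
      by_contra hx1
      have hkc : k ∈ K ⊓ Subgroup.centralizer {x} := by
        refine Subgroup.mem_inf.mpr ⟨hk, ?_⟩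
        rw [Subgroup.mem_centralizer_iff]
        intro z hz
        rw [Set.mem_singleton_iff] at hz
        subst hz
        have : k * y = z * k := by rw [hydef]; group
        rw [← hxy2] at this
        exact this.symm
      rw [hfpf x hxH hx1] at hkc
      exact hk1 (Subgroup.mem_bot.mp hkc)

end Cfsg.Agent.S0039
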