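import Cfsg.Statements.S0077
import Mathlib

set_option autoImplicit false
open Pointwise
open Cfsg

namespace Cfsg.Agent.S0077

open scoped commutatorElement

theorem mem_smul_sylow {G : Type*} [Group G] {p : ℕ} (g x : G) (P : Sylow p G) : x ∈ ((g • P : Sylow p G) : Subgroup G) ↔ g⁻¹ * x * g ∈ (P : Subgroup G) := by
  rw [Sylow.coe_subgroup_smul, Subgroup.mem_pointwise_smul_iff_inv_smul_mem]
  simp [MulAut.smul_def]

theorem two_in_sylow {G : Type*} [Group G] [Finite G] {p : ℕ} [Fact p.Prime]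
    (H A B : Subgroup G) (hA : A ≤ H) (hB : B ≤ H) (hpA : IsPGroup p A) (hpB : IsPGroup p B) :
    ∃ h ∈ H, ∃ Q : Sylow p G, A ≤ (Q : Subgroup G) ∧ ∀ b ∈ B, h * b * h⁻¹ ∈ (Q : Subgroup G) := by
  have hA' : IsPGroup p (A.subgroupOf H) := hpA.comap_subtype
  have hB' : IsPGroup p (B.subgroupOf H) := hpB.comap_subtype
  obtain ⟨S, hS⟩ := hA'.exists_le_sylow
  obtain ⟨T, hT⟩ := hB'.exists_le_sylow
  obtain ⟨m, hm⟩ := MulAction.exists_smul_eq H T S
  have hSp : IsPGroup p ((S : Subgroup H).map H.subtype) := S.2.map H.subtype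
  obtain ⟨Q, hQ⟩ := hSp.exists_le_sylow
  refine ⟨m, m.2, Q, ?_, ?_⟩
  · intro a ha
    apply hQ
    exact ⟨⟨a, hA ha⟩, hS (Subgroup.mem_subgroupOf.mpr ha), rfl⟩
  · intro b hb
    apply hQ
    have h1 : (⟨b, hB hb⟩ : H) ∈ (T : Subgroup H) := hT (Subgroup.mem_subgroupOf.mpr hb)
    have h2 : m * (⟨b, hB hb⟩ : H) * m⁻¹ ∈ ((m • T : Sylow p H) : Subgroup H) := by
      rw [mem_smul_sylow]
      have e : m⁻¹ * (m * (⟨b, hB hb⟩ : H) * m⁻¹) * m = ⟨b, hB hb⟩ := by group
      rw [e]; exact h1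
    rw [hm] at h2
    exact ⟨_, h2, rfl⟩

/-- fusion of elements of P is controlled by the normalizer of a weakly closed central subgroup -/
theorem fusion {G : Type*} [Group G] [Finite G] {p : ℕ} [Fact p.Prime] (P : Sylow p G) (Z : Subgroup G)
    (hZ : Z ≤ Subgroup.centralizer (P : Set G)) (hW : Cfsg.IsWeaklyClosed Z P)
    (x u : G) (hx : x ∈ (P : Subgroup G)) (hy : u * x * u⁻¹ ∈ (P : Subgroup G)) :
    ∃ n ∈ Subgroup.normalizer (Z : Set G), n * x * n⁻¹ = u * x * u⁻¹ := by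
  obtain ⟨hZP, hWc⟩ := hW
  have hZp : IsPGroup p Z := P.2.to_le hZP
  set y := u * x * u⁻¹ with hydef
  let H := Subgroup.centralizer ({y} : Set G)
  let B : Subgroup G := Z.map (MulAut.conj u).toMonoidHom
  have hBp : IsPGroup p B := hZp.map _
  have hZH : Z ≤ H := by
    intro z hz
    rw [Subgroup.mem_centralizer_iff]
    intro w hw
    rw [Set.mem_singleton_iff] at hw
    subst hw
    exact (Subgroup.mem_centralizer_iff.mp (hZ hz) y hy)
  have hBH : B ≤ H := by
    rintro _ ⟨z, hz, rfl⟩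
    rw [Subgroup.mem_centralizer_iff]
    intro w hw
    rw [Set.mem_singleton_iff] at hw
    subst hw
    have hzx : x * z = z * x := (Subgroup.mem_centralizer_iff.mp (hZ hz) x hx)
    simp only [MulEquiv.coe_toMonoidHom, MulAut.conj_apply]
    calc u * x * u⁻¹ * (u * z * u⁻¹) = u * (x * z) * u⁻¹ := by group
      _ = u * (z * x) * u⁻¹ := by rw [hzx]
      _ = u * z * u⁻¹ * (u * x * u⁻¹) := by group
  obtain ⟨h, hh, Q, hZQ, hBQ⟩ := two_in_sylow H Z B hZH hBH hZp hBp
  obtain ⟨k, hk⟩ := MulAction.exists_smul_eq G P Q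
  -- Z ≤ k P k⁻¹, so k⁻¹ Z k ≤ P
  have h1 : Z.map (MulAut.conj k⁻¹).toMonoidHom = Z := by
    apply hWc
    rintro _ ⟨z, hz, rfl⟩
    have := hZQ hz
    rw [← hk, mem_smul_sylow] at this
    simpa using this
  have h2 : Z.map (MulAut.conj (k⁻¹ * h * u)).toMonoidHom = Z := by
    apply hWc
    rintro _ ⟨z, hz, rfl⟩
    have := hBQ (u * z * u⁻¹) ⟨z, hz, rfl⟩
    rw [← hk, mem_smul_sylow] at this
    simp only [MulEquiv.coe_toMonoidHom, MulAut.conj_apply]
    have e : k⁻¹ * h * u * z * (k⁻¹ * h * u)⁻¹ = k⁻¹ * (h * (u * z * u⁻¹) * h⁻¹) * k := by group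
    rw [e]; exact this
  have hkn : k⁻¹ ∈ Subgroup.normalizer (Z : Set G) := by
    rw [Subgroup.mem_normalizer_iff_map_conj_eq]
    exact h1
  have hkn2 : k⁻¹ * h * u ∈ Subgroup.normalizer (Z : Set G) := by
    rw [Subgroup.mem_normalizer_iff_map_conj_eq]
    exact h2
  refine ⟨h * u, ?_, ?_⟩
  · have := Subgroup.mul_mem _ (Subgroup.inv_mem _ hkn) hkn2
    have e : k⁻¹⁻¹ * (k⁻¹ * h * u) = h * u := by group
    rwa [e] at this
  · have hc : y * h = h * y := Subgroup.mem_centralizer_iff.mp hh y rfl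
    calc h * u * x * (h * u)⁻¹ = h * (u * x * u⁻¹) * h⁻¹ := by group
      _ = h * y * h⁻¹ := rfl
      _ = y := by rw [← hc]; group

/-- If a subgroup Z of the centre of a Sylow p-subgroup P is weakly closed in P, then P meets the derived subgroup of G exactly where it meets the derived subgroup of the normalizer of Z. -/
theorem result {G : Type*} [Group G] [Finite G] {p : ℕ} [Fact p.Prime] (P : Sylow p G) (Z : Subgroup G) (hZ : Z ≤ Subgroup.centralizer (P : Set G)) (hW : Cfsg.IsWeaklyClosed Z P) : commutator G ⊓ (P : Subgroup G) = ⁅Subgroup.normalizer (Z : Set G), Subgroup.normalizer (Z : Set G)⁆ ⊓ (P : Subgroup G) := by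
  apply le_antisymm
  · rw [Subgroup.commutator_inf_eq_focalSubgroup, Subgroup.focalSubgroup_def, Subgroup.closure_le]
    rintro g ⟨hgP, x, hx, u, rfl⟩
    refine Subgroup.mem_inf.mpr ⟨?_, hgP⟩
    have hy : u * x * u⁻¹ ∈ (P : Subgroup G) := by
      have h1 : x⁻¹ * ⁅x, u⁆ ∈ (P : Subgroup G) := Subgroup.mul_mem _ (Subgroup.inv_mem _ hx) hgP
      have e : x⁻¹ * ⁅x, u⁆ = (u * x * u⁻¹)⁻¹ := by rw [commutatorElement_def]; group
      rw [e] at h1
      simpa using Subgroup.inv_mem _ h1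
    obtain ⟨n, hn, hnx⟩ := fusion P Z hZ hW x u hx hy
    have hPN : (P : Subgroup G) ≤ Subgroup.normalizer (Z : Set G) := by
      intro a ha
      rw [Subgroup.mem_normalizer_iff_map_conj_eq]
      ext w
      constructor
      · rintro ⟨z, hz, rfl⟩
        have hc := (Subgroup.mem_centralizer_iff.mp (hZ hz) a ha)
        show a * z * a⁻¹ ∈ Z
        rw [hc]; simpa using hz
      · intro hw
        have hc := (Subgroup.mem_centralizer_iff.mp (hZ hw) a ha)
        refine ⟨w, hw, ?_⟩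
        show a * w * a⁻¹ = w
        rw [hc]; group
    have e : ⁅x, u⁆ = ⁅x, n⁆ := by
      rw [commutatorElement_def, commutatorElement_def]
      have e1 : x * u * x⁻¹ * u⁻¹ = x * (u * x * u⁻¹)⁻¹ := by group
      have e2 : x * n * x⁻¹ * n⁻¹ = x * (n * x * n⁻¹)⁻¹ := by group
      rw [e1, e2, hnx]
    rw [e]
    exact Subgroup.commutator_mem_commutator (hPN hx) hn
  · apply inf_le_inf_right
    rw [commutator_def]
    exact Subgroup.commutator_mono le_top le_top

end Cfsg.Agent.S0077
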