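import Cfsg.Statements.S0078
import Cfsg.Agent.Lib.lead.Tate
import Cfsg.Agent.Lib.lead.Frobenius
import Cfsg.Agent.S0077
import Mathlib

set_option autoImplicit false
open Cfsg

namespace Cfsg.Agent.S0078

open scoped commutatorElement Pointwise
open Cfsg.Agent.Lib.lead

/-- In a p-normal group, a Sylow p-subgroup P meets O^p(G) exactly where it meets O^p(V), for any subgroup V containing the normalizer of the centre of P. -/
theorem result {G : Type*} [Group G] [Finite G] {p : ℕ} [Fact p.Prime] (P : Sylow p G) (hn : ∀ Q : Sylow p G, (P : Subgroup G) ⊓ Subgroup.centralizer (P : Set G) ≤ (Q : Subgroup G) → (Q : Subgroup G) ⊓ Subgroup.centralizer (Q : Set G) = (P : Subgroup G) ⊓ Subgroup.centralizer (P : Set G)) (V : Subgroup G) (hV : Subgroup.normalizer (((P : Subgroup G) ⊓ Subgroup.centralizer (P : Set G) : Subgroup G) : Set G) ≤ V) : (P : Subgroup G) ⊓ Cfsg.pResidual p G = (P : Subgroup G) ⊓ (Cfsg.pResidual p V).map V.subtype := by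
  set Z : Subgroup G := (P : Subgroup G) ⊓ Subgroup.centralizer (P : Set G) with hZ
  -- Z is weakly closed in P
  have hW : Cfsg.IsWeaklyClosed Z (P : Subgroup G) := by
    refine ⟨inf_le_left, ?_⟩
    intro g hg
    -- Q = g⁻¹ • P contains Z
    have hZQ : Z ≤ ((g⁻¹ • P : Sylow p G) : Subgroup G) := by
      intro z hz
      rw [mem_smul_sylow, inv_inv]
      apply hg
      exact ⟨z, hz, by simp [MulAut.conj_apply]⟩
    have h1 := hn (g⁻¹ • P) hZQ
    -- Z(Q) = g⁻¹ Z g
    apply le_antisymm
    · rintro x ⟨z, hz, rfl⟩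
      show g * z * g⁻¹ ∈ Z
      -- z ∈ Z = Z(Q); then z = g⁻¹ w g with ... show g z g⁻¹ ∈ Z(P)
      have hzQ := hz
      rw [← h1] at hzQ
      obtain ⟨hz1, hz2⟩ := Subgroup.mem_inf.mp hzQ
      refine Subgroup.mem_inf.mpr ⟨?_, ?_⟩
      · rw [mem_smul_sylow, inv_inv] at hz1
        exact hz1
      · rw [Subgroup.mem_centralizer_iff] at hz2 ⊢
        intro y hy
        have hy' : g⁻¹ * y * g ∈ ((g⁻¹ • P : Sylow p G) : Subgroup G) := by
          rw [mem_smul_sylow, inv_inv]
          have e : g * (g⁻¹ * y * g) * g⁻¹ = y := by group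
          rw [e]; exact hy
        have h2 := hz2 _ hy'
        calc y * (g * z * g⁻¹) = g * ((g⁻¹ * y * g) * z) * g⁻¹ := by group
          _ = g * (z * (g⁻¹ * y * g)) * g⁻¹ := by rw [h2]
          _ = g * z * g⁻¹ * y := by group
    · -- Z ≤ g Z g⁻¹ : by cardinality (map is injective)
      intro x hx
      have hcard : Nat.card (Z.map (MulAut.conj g).toMonoidHom) = Nat.card Z :=
        Subgroup.card_map_of_injective (MulAut.conj g).injective
      have hle : Z.map (MulAut.conj g).toMonoidHom ≤ Z := by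
        rintro x ⟨z, hz, rfl⟩
        show g * z * g⁻¹ ∈ Z
        have hzQ := hz
        rw [← h1] at hzQ
        obtain ⟨hz1, hz2⟩ := Subgroup.mem_inf.mp hzQ
        refine Subgroup.mem_inf.mpr ⟨?_, ?_⟩
        · rw [mem_smul_sylow, inv_inv] at hz1
          exact hz1
        · rw [Subgroup.mem_centralizer_iff] at hz2 ⊢
          intro y hy
          have hy' : g⁻¹ * y * g ∈ ((g⁻¹ • P : Sylow p G) : Subgroup G) := by
            rw [mem_smul_sylow, inv_inv]
            have e : g * (g⁻¹ * y * g) * g⁻¹ = y := by group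
            rw [e]; exact hy
          have h2 := hz2 _ hy'
          calc y * (g * z * g⁻¹) = g * ((g⁻¹ * y * g) * z) * g⁻¹ := by group
            _ = g * (z * (g⁻¹ * y * g)) * g⁻¹ := by rw [h2]
            _ = g * z * g⁻¹ * y := by group
      have heq := Subgroup.eq_of_le_of_card_ge hle (le_of_eq hcard.symm)
      rw [heq]; exact hx
  have hZc : Z ≤ Subgroup.centralizer (P : Set G) := inf_le_right
  have hG := Cfsg.Agent.S0077.result P Z hZc hW
  -- P ≤ N(Z) ≤ V
  have hPN : (P : Subgroup G) ≤ Subgroup.normalizer (Z : Set G) := by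
    intro u hu
    rw [Subgroup.mem_normalizer_iff]
    intro z
    have key : ∀ w ∈ Z, u * w * u⁻¹ = w := by
      intro w hw
      have h1 := Subgroup.mem_centralizer_iff.mp (hZc hw) u hu
      rw [h1, mul_inv_cancel_right]
    constructor
    · intro hz; rw [key z hz]; exact hz
    · intro hz
      have h1 : u⁻¹ * (u * z * u⁻¹) * u = z := by group
      have h2 := key _ hz
      -- u (u z u⁻¹) u⁻¹ = u z u⁻¹ ⇒ z = u⁻¹ (u z u⁻¹) u: and u z u⁻¹ commutes with u
      have h3 : u * z * u⁻¹ = z := by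
        have h4 : u * (u * z * u⁻¹) = (u * z * u⁻¹) * u := by
          have := h2
          calc u * (u * z * u⁻¹) = (u * (u * z * u⁻¹) * u⁻¹) * u := by group
            _ = (u * z * u⁻¹) * u := by rw [h2]
        calc u * z * u⁻¹ = u⁻¹ * (u * (u * z * u⁻¹)) := by group
          _ = u⁻¹ * ((u * z * u⁻¹) * u) := by rw [h4]
          _ = z := by group
      rw [← h3]; exact hz
  have hPV : (P : Subgroup G) ≤ V := hPN.trans hV
  have hyp : commutator G ⊓ (P : Subgroup G) ≤ ⁅V, V⁆ := by
    rw [hG]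
    exact inf_le_left.trans (Subgroup.commutator_mono hV hV)
  have ht := tate P V hPV hyp
  apply le_antisymm
  · intro x hx
    obtain ⟨hx1, hx2⟩ := Subgroup.mem_inf.mp hx
    exact Subgroup.mem_inf.mpr ⟨hx1, ht (Subgroup.mem_inf.mpr ⟨hx2, hx1⟩)⟩
  · refine inf_le_inf_left _ ?_
    rw [← presIn_eq_map]
    unfold presIn Cfsg.pResidual
    apply Subgroup.closure_mono
    rintro g ⟨-, hg⟩
    exact hg

end Cfsg.Agent.S0078
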