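import Cfsg.Statements.S2570
-- import your own Cfsg.Agent.* helpers here
import Mathlib
import Cfsg.Agent.Lib.helper18.JordanGL

set_option autoImplicit false
open Cfsg

namespace Cfsg.Agent.S2570


open Cfsg.Agent.Lib.helper18.Jordan Matrix

theorem nilp_zero_iff {F : Type*} [Field F] {n : ℕ} (g : GL (Fin n) F) : nilp g ^ 1 = 0 ↔ g = 1 := by
  rw [nilp_pow_eq_zero_iff, pow_one, sub_eq_zero]
  constructor
  · intro h; exact Units.ext h
  · intro h; rw [h]; rfl

theorem order_p_iff {F : Type*} [Field F] (p : ℕ) [Fact p.Prime] [CharP F p] {n : ℕ} (g : GL (Fin n) F) :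
    orderOf g = p ↔ IsNilpotent (nilp g) ∧ (∀ a ∈ ut g, a ≤ p) ∧ ¬ (∀ a ∈ ut g, a ≤ 1) := by
  have hp : p.Prime := Fact.out
  constructor
  · intro h
    have hnil : IsNilpotent (nilp g) := (isNilpotent_nilp_iff p g).2 ⟨1, by rw [h, pow_one]⟩
    refine ⟨hnil, ?_, ?_⟩
    · rw [ut_eq g hnil, ← pow_eq_zero_iff_jtype, nilp_pow_eq_zero_iff]
      have h1 := sub_one_pow_char p g 1
      rw [pow_one] at h1
      rw [h1, ← h, pow_orderOf_eq_one, Units.val_one, sub_self]
    · rw [ut_eq g hnil, ← pow_eq_zero_iff_jtype, nilp_zero_iff]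
      rintro rfl
      rw [orderOf_one] at h
      exact hp.one_lt.ne h
  · rintro ⟨hnil, h1, h2⟩
    rw [ut_eq g hnil, ← pow_eq_zero_iff_jtype, nilp_pow_eq_zero_iff] at h1
    rw [ut_eq g hnil, ← pow_eq_zero_iff_jtype, nilp_zero_iff] at h2
    have h3 := sub_one_pow_char p g 1
    rw [pow_one] at h3
    rw [h3, sub_eq_zero] at h1
    exact orderOf_eq_prime (Units.ext h1) h2

theorem card_ones (n : ℕ) :
    (Finset.univ.filter (fun μ : Nat.Partition n => ∀ a ∈ μ.parts, a ≤ 1)).card = 1 := by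
  rw [Finset.card_eq_one]
  refine ⟨⟨Multiset.replicate n 1, fun {i} hi => by rw [Multiset.eq_of_mem_replicate hi]; exact Nat.one_pos,
    by simp⟩, ?_⟩
  ext μ
  simp only [Finset.mem_filter, Finset.mem_univ, true_and, Finset.mem_singleton]
  constructor
  · intro h
    apply Nat.Partition.ext
    show μ.parts = Multiset.replicate n 1
    have h1 : μ.parts = Multiset.replicate (Multiset.card μ.parts) 1 := by
      rw [Multiset.eq_replicate_card]
      intro a ha
      have := h a ha
      have := μ.parts_pos ha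
      omega
    have h2 := μ.parts_sum
    rw [h1, Multiset.sum_replicate, smul_eq_mul, mul_one] at h2
    rw [h1, h2]
  · rintro rfl a ha
    exact (Multiset.eq_of_mem_replicate ha).le

theorem main {F : Type*} [Field F] [Fintype F] {p : ℕ} [Fact p.Prime] [CharP F p] (n : ℕ) :
    Nat.card {C : ConjClasses (GL (Fin n) F) // ∃ g : GL (Fin n) F, ConjClasses.mk g = C ∧ orderOf g = p} =
      (Finset.univ.filter (fun μ : Nat.Partition n => ∀ a ∈ μ.parts, a ≤ p)).card - 1 := by
  classical
  have hp : p.Prime := Fact.out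
  have hcount : (Finset.univ.filter (fun μ : Nat.Partition n => ∀ a ∈ μ.parts, a ≤ p)).card - 1 =
      Nat.card {μ : Nat.Partition n // (∀ a ∈ μ.parts, a ≤ p) ∧ ¬ (∀ a ∈ μ.parts, a ≤ 1)} := by
    rw [Nat.card_eq_fintype_card, Fintype.card_subtype]
    have h1 := Finset.card_filter_add_card_filter_not
      (s := Finset.univ.filter (fun μ : Nat.Partition n => ∀ a ∈ μ.parts, a ≤ p))
      (fun μ : Nat.Partition n => ∀ a ∈ μ.parts, a ≤ 1)
    rw [Finset.filter_filter, Finset.filter_filter] at h1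
    have h2 : (Finset.univ.filter (fun μ : Nat.Partition n => (∀ a ∈ μ.parts, a ≤ p) ∧ ∀ a ∈ μ.parts, a ≤ 1)) =
        Finset.univ.filter (fun μ : Nat.Partition n => ∀ a ∈ μ.parts, a ≤ 1) := by
      ext μ
      simp only [Finset.mem_filter, Finset.mem_univ, true_and]
      constructor
      · intro h; exact h.2
      · intro h; exact ⟨fun a ha => le_trans (h a ha) hp.one_lt.le, h⟩
    rw [h2, card_ones] at h1
    omega
  rw [hcount]
  apply Nat.card_congr
  have hspec : ∀ C : {C : ConjClasses (GL (Fin n) F) // ∃ g : GL (Fin n) F, ConjClasses.mk g = C ∧ orderOf g = p},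
      IsNilpotent (nilp C.2.choose) ∧ (∀ a ∈ ut C.2.choose, a ≤ p) ∧ ¬ (∀ a ∈ ut C.2.choose, a ≤ 1) :=
    fun C => (order_p_iff p _).1 C.2.choose_spec.2
  refine Equiv.ofBijective (fun C => (⟨⟨ut C.2.choose, fun {i} hi => ut_pos _ i hi,
    ut_sum _ (hspec C).1⟩, (hspec C).2⟩ :
      {μ : Nat.Partition n // (∀ a ∈ μ.parts, a ≤ p) ∧ ¬ (∀ a ∈ μ.parts, a ≤ 1)})) ⟨?_, ?_⟩
  · intro C C' h
    have h1 : ut C.2.choose = ut C'.2.choose :=
      congrArg (fun μ : {μ : Nat.Partition n // (∀ a ∈ μ.parts, a ≤ p) ∧ ¬ (∀ a ∈ μ.parts, a ≤ 1)} =>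
        μ.1.parts) h
    have h2 := (isConj_iff_ut _ _ (hspec C).1 (hspec C').1).2 h1
    apply Subtype.ext
    rw [← C.2.choose_spec.1, ← C'.2.choose_spec.1]
    exact ConjClasses.mk_eq_mk_iff_isConj.2 h2
  · rintro ⟨μ, hμ1, hμ2⟩
    obtain ⟨g, hg, hgm⟩ := exists_ut (F := F) μ.parts (fun a ha => μ.parts_pos ha) μ.parts_sum
    have hu : orderOf g = p := (order_p_iff p g).2 ⟨hg, by rw [hgm]; exact hμ1, by rw [hgm]; exact hμ2⟩
    have hex : ∃ g' : GL (Fin n) F, ConjClasses.mk g' = ConjClasses.mk g ∧ orderOf g' = p := ⟨g, rfl, hu⟩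
    refine ⟨⟨ConjClasses.mk g, hex⟩, ?_⟩
    apply Subtype.ext
    apply Nat.Partition.ext
    show ut hex.choose = μ.parts
    have h1 : IsConj hex.choose g := ConjClasses.mk_eq_mk_iff_isConj.1 hex.choose_spec.1
    rw [← hgm]
    exact (isConj_iff_ut _ _ ((order_p_iff p _).1 hex.choose_spec.2).1 hg).1 h1



/-- Number of conjugacy classes of elements of order p in GL_n over a finite field of characteristic p: they correspond to the Jordan types, that is, to the partitions of n with all parts at most p other than the partition into ones, so there are (number of partitions of n with parts ≤ p) − 1 of them. -/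
theorem result {F : Type*} [Field F] [Fintype F] {p : ℕ} [Fact p.Prime] [CharP F p] (n : ℕ) : Nat.card {C : ConjClasses (GL (Fin n) F) // ∃ g : GL (Fin n) F, ConjClasses.mk g = C ∧ orderOf g = p} = (Finset.univ.filter (fun μ : Nat.Partition n => ∀ a ∈ μ.parts, a ≤ p)).card - 1 := by
  exact main n

end Cfsg.Agent.S2570
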