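import Cfsg.Statements.S2588
-- import your own Cfsg.Agent.* helpers here
import Mathlib
import Cfsg.Agent.Lib.helper4.UBasic

set_option autoImplicit false
open Cfsg

namespace Cfsg.Agent.S2588


open Matrix


open Cfsg.Agent.Lib.helper4

variable {K : Type*} [Field K] {n : ℕ}

/-- conjugate transpose w.r.t. a ring hom σ -/
def st (σ : K →+* K) (M : Matrix (Fin n) (Fin n) K) : Matrix (Fin n) (Fin n) K :=
  (M.map σ)ᵀ

theorem st_apply (σ : K →+* K) (M : Matrix (Fin n) (Fin n) K) (i j : Fin n) :
    st σ M i j = σ (M j i) := rfl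

theorem st_mul (σ : K →+* K) (M N : Matrix (Fin n) (Fin n) K) :
    st σ (M * N) = st σ N * st σ M := by
  unfold st
  rw [Matrix.map_mul, Matrix.transpose_mul]

theorem st_add (σ : K →+* K) (M N : Matrix (Fin n) (Fin n) K) :
    st σ (M + N) = st σ M + st σ N := by
  ext i j; simp [st_apply]

theorem st_sub (σ : K →+* K) (M N : Matrix (Fin n) (Fin n) K) :
    st σ (M - N) = st σ M - st σ N := by
  ext i j; simp [st_apply]

theorem st_one (σ : K →+* K) : st σ (1 : Matrix (Fin n) (Fin n) K) = 1 := by
  ext i j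
  rw [st_apply, Matrix.one_apply, Matrix.one_apply]
  by_cases h : i = j
  · subst h; simp
  · have : ¬ j = i := fun h' => h h'.symm
    simp [h, this]

theorem st_smul (σ : K →+* K) (a : K) (M : Matrix (Fin n) (Fin n) K) :
    st σ (a • M) = σ a • st σ M := by
  ext i j; simp [st_apply]

theorem st_pow (σ : K →+* K) (M : Matrix (Fin n) (Fin n) K) (k : ℕ) :
    st σ (M ^ k) = (st σ M) ^ k := by
  induction k with
  | zero => simp [st_one]
  | succ k ih => rw [pow_succ, st_mul, ih, pow_succ']

theorem st_st (σ : K →+* K) (hσ : ∀ a, σ (σ a) = a) (M : Matrix (Fin n) (Fin n) K) :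
    st σ (st σ M) = M := by
  ext i j; simp [st_apply, hσ]

theorem exists_idem_pow {M : Type*} [Monoid M] [Finite M] (u : M) :
    ∃ k : ℕ, 1 ≤ k ∧ u ^ k * u ^ k = u ^ k := by
  obtain ⟨i, j, hij, he⟩ : ∃ i j : ℕ, i < j ∧ u ^ i = u ^ j := by
    have := not_injective_infinite_finite (fun k : ℕ => u ^ k)
    rw [Function.not_injective_iff] at this
    obtain ⟨a, b, hab, hne⟩ := this
    rcases lt_or_gt_of_ne hne with h | h
    · exact ⟨a, b, h, hab⟩
    · exact ⟨b, a, h, hab.symm⟩
  obtain ⟨d, rfl⟩ : ∃ d, j = i + d := ⟨j - i, by omega⟩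
  have hd : 1 ≤ d := by omega
  have h1 : ∀ m, i ≤ m → u ^ (m + d) = u ^ m := by
    intro m hm
    obtain ⟨e, rfl⟩ : ∃ e, m = i + e := ⟨m - i, by omega⟩
    rw [show i + e + d = (i + d) + e by ring, pow_add, ← he, ← pow_add]
  have h2 : ∀ t m, i ≤ m → u ^ (m + t * d) = u ^ m := by
    intro t
    induction t with
    | zero => intro m hm; simp
    | succ t ih =>
      intro m hm
      rw [show m + (t + 1) * d = (m + t * d) + d by ring, h1 _ (by omega), ih m hm]
  refine ⟨(i + 1) * d, ?_, ?_⟩
  · exact Nat.mul_pos (by omega) hd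
  · rw [← pow_add]
    exact h2 (i + 1) ((i + 1) * d) (by nlinarith)

theorem herm_exists [Finite K] (σ : K →+* K) (hσ : ∀ a, σ (σ a) = a) (lam : K) (hlam : σ lam ≠ lam)
    (A Ai g gi : Matrix (Fin n) (Fin n) K) (hA : A * Ai = 1) (hg : g * gi = 1)
    (hinv : st σ A * g * A = g) :
    ∃ H : Matrix (Fin n) (Fin n) K, st σ H = H ∧ IsUnit H ∧ st σ A * H * A = H := by
  have hg' : gi * g = 1 := mul_eq_one_comm.mp hg
  have hA' : Ai * A = 1 := mul_eq_one_comm.mp hA
  set h := gi * st σ g with hh
  set hi := st σ gi * g with hhi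
  have hhhi : h * hi = 1 := by
    rw [hh, hhi]
    calc gi * st σ g * (st σ gi * g) = gi * (st σ g * st σ gi) * g := by simp only [mul_assoc]
      _ = gi * st σ (gi * g) * g := by rw [st_mul]
      _ = 1 := by rw [hg', st_one, mul_one, hg']
  have hhih : hi * h = 1 := mul_eq_one_comm.mp hhhi
  have hc : st σ g = g * h := by rw [hh, ← mul_assoc, hg, one_mul]
  have hb : st σ h * g = g * hi := by
    rw [hh, st_mul, st_st σ hσ, hhi, mul_assoc]
  have h1 : st σ g = st σ A * st σ g * A := by
    have := congrArg (st σ) hinv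
    rw [st_mul, st_mul, st_st σ hσ] at this
    rw [mul_assoc]
    exact this.symm
  have h2 : gi * st σ A = Ai * gi := by
    have e1 : st σ A * g = g * Ai := by
      calc st σ A * g = st σ A * g * (A * Ai) := by rw [hA, mul_one]
        _ = (st σ A * g * A) * Ai := by simp only [mul_assoc]
        _ = g * Ai := by rw [hinv]
    calc gi * st σ A = gi * st σ A * (g * gi) := by rw [hg, mul_one]
      _ = gi * (st σ A * g) * gi := by simp only [mul_assoc]
      _ = gi * (g * Ai) * gi := by rw [e1]
      _ = (gi * g) * Ai * gi := by simp only [mul_assoc]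
      _ = Ai * gi := by rw [hg', one_mul]
  have hcomm : A * h = h * A := by
    calc A * h = A * (gi * st σ g) := rfl
      _ = A * (gi * (st σ A * st σ g * A)) := by rw [← h1]
      _ = A * ((gi * st σ A) * st σ g * A) := by simp only [mul_assoc]
      _ = A * ((Ai * gi) * st σ g * A) := by rw [h2]
      _ = (A * Ai) * (gi * st σ g) * A := by simp only [mul_assoc]
      _ = h * A := by rw [hA, one_mul]
  set u := 1 + h with hu
  obtain ⟨k, hk1, hk⟩ := exists_idem_pow u
  set f := u ^ k with hf
  have cuh : Commute u h := (Commute.one_left h).add_left (Commute.refl h)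
  have cfh : Commute f h := cuh.pow_left k
  have cfu : Commute f u := (Commute.refl u).pow_left k
  have chhi : Commute h hi := by show h * hi = hi * h; rw [hhhi, hhih]
  have cuhi : Commute u hi := (Commute.one_left hi).add_left chhi
  have cfhi : Commute f hi := cuhi.pow_left k
  have hd1 : st σ u * g = g * (hi * u) := by
    rw [hu, st_add, st_one, add_mul, one_mul, hb, mul_add hi, mul_one, hhih, mul_add, mul_one,
      add_comm]
  have hd2 : st σ f * g = g * (hi ^ k * f) := by
    have e0 : SemiconjBy g (hi * u) (st σ u) := hd1.symm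
    have e1 := e0.pow_right k
    rw [hf, st_pow]
    have e : (hi * u) ^ k = hi ^ k * u ^ k := (cuhi.symm).mul_pow k
    rw [← e]; exact e1.symm
  have hf' : hi ^ k * f = f := by
    set X := hi ^ k * f with hX
    have e1 : st σ f * st σ f = st σ f := by rw [← st_mul, hk]
    have e2 : g * (X * X) = g * X := by
      calc g * (X * X) = (g * X) * X := (mul_assoc g X X).symm
        _ = (st σ f * g) * X := by rw [hd2]
        _ = st σ f * (g * X) := mul_assoc _ _ _
        _ = st σ f * (st σ f * g) := by rw [hd2]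
        _ = st σ f * g := by rw [← mul_assoc, e1]
        _ = g * X := hd2
    have e3 : X * X = X := by
      calc X * X = (gi * g) * (X * X) := by rw [hg', one_mul]
        _ = gi * (g * (X * X)) := mul_assoc _ _ _
        _ = gi * (g * X) := by rw [e2]
        _ = (gi * g) * X := (mul_assoc _ _ _).symm
        _ = X := by rw [hg', one_mul]
    have e4 : h ^ k * hi ^ k = 1 := by rw [← chhi.mul_pow, hhhi, one_pow]
    have e5 : hi ^ k * X = X := by
      have e50 : f * hi ^ k = hi ^ k * f := (cfhi.pow_right k).eq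
      calc hi ^ k * X = hi ^ k * (hi ^ k * (f * f)) := by rw [hk]
        _ = hi ^ k * ((hi ^ k * f) * f) := by rw [mul_assoc]
        _ = hi ^ k * ((f * hi ^ k) * f) := by rw [e50]
        _ = hi ^ k * (f * (hi ^ k * f)) := by rw [mul_assoc]
        _ = (hi ^ k * f) * (hi ^ k * f) := (mul_assoc _ _ _).symm
        _ = X := e3
    calc X = h ^ k * hi ^ k * X := by rw [e4, one_mul]
      _ = h ^ k * (hi ^ k * X) := by rw [mul_assoc]
      _ = h ^ k * X := by rw [e5]
      _ = h ^ k * hi ^ k * f := (mul_assoc _ _ _).symm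
      _ = f := by rw [e4, one_mul]
  set l := lam • (1 : Matrix (Fin n) (Fin n) K) + σ lam • h with hl
  set l' := σ lam • (1 : Matrix (Fin n) (Fin n) K) + lam • hi with hl'
  have he1 : st σ l * g = g * l' := by
    rw [hl, st_add, st_smul, st_smul, st_one, hσ, add_mul, smul_mul_assoc, smul_mul_assoc, one_mul,
      hb, hl', mul_add, mul_smul_comm, mul_smul_comm, mul_one]
  have he2 : l' * h = l := by
    rw [hl', add_mul, smul_mul_assoc, smul_mul_assoc, one_mul, hhih, hl, add_comm]
  have hd3 : (1 + hi) * h = u := by rw [add_mul, one_mul, hhih, hu, add_comm]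
  set c := u * f + l * (1 - f) with hc_def
  have clf : Commute f l :=
    ((Commute.one_right f).smul_right lam).add_right (cfh.smul_right (σ lam))
  have hstc : st σ c * g = g * (f * (1 + hi) + l' - f * l') := by
    have e1 : st σ u * g = g * (1 + hi) := by
      rw [hd1, mul_add hi, mul_one, hhih, add_comm]
    rw [hc_def, st_add, st_mul, st_mul, st_sub, st_one, add_mul, mul_assoc, mul_assoc, he1, e1,
      ← mul_assoc, hd2, hf', sub_mul, one_mul, ← mul_assoc (st σ f), hd2, hf']
    simp only [mul_add, mul_sub, mul_assoc]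
    abel
  have hH : st σ (g * c) = g * c := by
    rw [st_mul, hc, ← mul_assoc, hstc, mul_assoc]
    congr 1
    rw [sub_mul, add_mul, mul_assoc, hd3, he2, mul_assoc, he2, hc_def, mul_sub, mul_one, cfu.eq,
      clf.eq]
    abel
  have hcu : IsUnit c := by
    rw [← Matrix.mulVec_injective_iff_isUnit]
    have key : ∀ v, c *ᵥ v = 0 → v = 0 := by
      intro v hv
      have e1 : f * c = u * f := by
        rw [hc_def, mul_add, ← mul_assoc, cfu.eq, mul_assoc, hk, ← mul_assoc, clf.eq, mul_assoc,
          mul_sub, mul_one, hk, sub_self, mul_zero, add_zero]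
      have e2 : (u * f) *ᵥ v = 0 := by
        rw [← e1, ← Matrix.mulVec_mulVec, hv, Matrix.mulVec_zero]
      have e3 : f *ᵥ v = 0 := by
        have : f = u ^ (k - 1) * (u * f) := by
          rw [← mul_assoc, ← pow_succ, Nat.sub_add_cancel hk1, ← hf, hk]
        rw [this, ← Matrix.mulVec_mulVec, e2, Matrix.mulVec_zero]
      have e4 : l *ᵥ v = 0 := by
        have : c *ᵥ v = l *ᵥ v := by
          rw [hc_def, Matrix.add_mulVec, e2, zero_add, ← Matrix.mulVec_mulVec, Matrix.sub_mulVec,
            Matrix.one_mulVec, e3, sub_zero]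
        rw [← this, hv]
      have hs0 : σ lam ≠ 0 := by
        intro h0
        apply hlam
        have := hσ lam
        rw [h0, map_zero] at this
        rw [h0, ← this]
      have e5 : u *ᵥ v = (-(lam - σ lam) / σ lam) • v := by
        have : l = (lam - σ lam) • (1 : Matrix (Fin n) (Fin n) K) + σ lam • u := by
          rw [hl, hu, smul_add, sub_smul]; abel
        rw [this, Matrix.add_mulVec, Matrix.smul_mulVec, Matrix.smul_mulVec, Matrix.one_mulVec]
          at e4
        have e6 : σ lam • u *ᵥ v = -((lam - σ lam) • v) := by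
          rw [eq_neg_iff_add_eq_zero, add_comm]; exact e4
        have e7 : u *ᵥ v = (σ lam)⁻¹ • (σ lam • u *ᵥ v) := by
          rw [smul_smul, inv_mul_cancel₀ hs0, one_smul]
        rw [e7, e6, smul_neg, smul_smul, ← neg_smul]
        congr 1
        field_simp
      have e6 : ∀ j : ℕ, (u ^ j) *ᵥ v = ((-(lam - σ lam) / σ lam) ^ j) • v := by
        intro j
        induction j with
        | zero => simp
        | succ j ih =>
          rw [pow_succ, ← Matrix.mulVec_mulVec, e5, Matrix.mulVec_smul, ih, smul_smul, pow_succ,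
            mul_comm]
      have e7 := e6 k
      rw [← hf, e3] at e7
      have hκ : (-(lam - σ lam) / σ lam) ≠ 0 := by
        apply div_ne_zero _ hs0
        rw [neg_ne_zero, sub_ne_zero]
        exact fun h => hlam h.symm
      rcases smul_eq_zero.mp e7.symm with h0 | h0
      · exact absurd h0 (pow_ne_zero k hκ)
      · exact h0
    intro v w hvw
    have := key (v - w) (by rw [Matrix.mulVec_sub, hvw, sub_self])
    exact sub_eq_zero.mp this
  have hgu : IsUnit g := ⟨⟨g, gi, hg, hg'⟩, rfl⟩
  refine ⟨g * c, hH, hgu.mul hcu, ?_⟩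
  have cAh : Commute A h := hcomm
  have cAu : Commute A u := (Commute.one_right A).add_right cAh
  have cAf : Commute A f := cAu.pow_right k
  have cAl : Commute A l :=
    ((Commute.one_right A).smul_right lam).add_right (cAh.smul_right (σ lam))
  have cAc : Commute A c :=
    (cAu.mul_right cAf).add_right (cAl.mul_right ((Commute.one_right A).sub_right cAf))
  calc st σ A * (g * c) * A = st σ A * g * (c * A) := by simp only [mul_assoc]
    _ = st σ A * g * (A * c) := by rw [cAc.eq]
    _ = (st σ A * g * A) * c := by simp only [mul_assoc]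
    _ = g * c := by rw [hinv]


theorem exists_ortho [Finite K] (σ : K →+* K) (hσ : σ ≠ RingHom.id K) (hσ2 : ∀ a, σ (σ a) = a)
    (H : Matrix (Fin n) (Fin n) K) (hH : st σ H = H) (hHu : IsUnit H) :
    ∃ P : Matrix (Fin n) (Fin n) K, st σ P * H * P = 1 := by
  classical
  let B : (Fin n → K) →ₛₗ[σ] (Fin n → K) →ₗ[K] K :=
    LinearMap.mk₂'ₛₗ σ (RingHom.id K) (fun x y => (fun i => σ (x i)) ⬝ᵥ (H *ᵥ y))
      (fun x x' y => by
        have : (fun i => σ ((x + x') i)) = (fun i => σ (x i)) + (fun i => σ (x' i)) := by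
          ext i; simp
        rw [this, add_dotProduct])
      (fun c x y => by
        have : (fun i => σ ((c • x) i)) = σ c • (fun i => σ (x i)) := by
          ext i; simp
        rw [this, smul_dotProduct])
      (fun x y y' => by rw [Matrix.mulVec_add, dotProduct_add])
      (fun c x y => by rw [Matrix.mulVec_smul, dotProduct_smul]; rfl)
  have hBa : ∀ x y, B x y = (fun i => σ (x i)) ⬝ᵥ (H *ᵥ y) := fun x y => rfl
  have hHe : ∀ i j, σ (H i j) = H j i := by
    intro i j
    have := congrFun (congrFun hH j) i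
    rw [st_apply] at this
    exact this
  have hS : B.IsSymm := by
    refine ⟨fun x y => ?_⟩
    rw [hBa, hBa]
    simp only [dotProduct, Matrix.mulVec, map_sum, map_mul, hσ2, Finset.mul_sum, hHe]
    rw [Finset.sum_comm]
    refine Finset.sum_congr rfl fun i _ => Finset.sum_congr rfl fun j _ => ?_
    ring
  have hR : ∀ y, (∀ x, B x y = 0) → y = 0 := by
    intro y hy
    have h1 : H *ᵥ y = 0 := by
      ext i
      have := hy (Pi.single i 1)
      rw [hBa] at this
      have e : (fun j => σ ((Pi.single i 1 : Fin n → K) j)) = Pi.single i 1 := by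
        ext j
        by_cases h : j = i
        · subst h; simp
        · simp [Pi.single_apply, h]
      rw [e, single_one_dotProduct] at this
      exact this
    have h2 := (Matrix.mulVec_injective_iff_isUnit.mpr hHu)
    apply h2
    rw [h1, Matrix.mulVec_zero]
  have hB : B.Nondegenerate := by
    refine ⟨fun x hx => ?_, fun y hy => hR y hy⟩
    apply hR x
    intro y
    have := hS.eq x y
    rw [hx y, map_zero] at this
    exact this.symm
  obtain ⟨b, hb⟩ := Cfsg.Agent.S0755.result σ hσ hσ2 B hS hB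
  let e : Fin n ≃ Fin (Module.finrank K (Fin n → K)) := finCongr (Module.finrank_fin_fun K).symm
  refine ⟨Matrix.of (fun i j => b (e j) i), ?_⟩
  ext j k
  have := hb (e j) (e k)
  rw [hBa] at this
  rw [Matrix.one_apply]
  have e2 : (e j = e k) ↔ j = k := e.injective.eq_iff
  simp only [e2] at this
  rw [← this, mul_assoc, Matrix.mul_apply, dotProduct]
  refine Finset.sum_congr rfl fun i _ => ?_
  rw [st_apply, Matrix.of_apply]
  congr 1

theorem herm_eq {q : ℕ} (σ : K →+* K) (hσq : ∀ x, σ x = x ^ q) (u v : Fin n → K) :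
    Cfsg.hermForm n K q u v = u ⬝ᵥ (fun i => σ (v i)) := by
  unfold Cfsg.hermForm dotProduct
  simp [hσq]

theorem sv_mulVec (σ : K →+* K) (M : Matrix (Fin n) (Fin n) K) (v : Fin n → K) :
    (fun i => σ ((M *ᵥ v) i)) = (M.map σ) *ᵥ (fun i => σ (v i)) := by
  ext i; simp [Matrix.mulVec, dotProduct, map_sum]

theorem herm_mulVec {q : ℕ} (σ : K →+* K) (hσq : ∀ x, σ x = x ^ q)
    (M : Matrix (Fin n) (Fin n) K) (u v : Fin n → K) :
    Cfsg.hermForm n K q (M *ᵥ u) (M *ᵥ v) = u ⬝ᵥ ((Mᵀ * M.map σ) *ᵥ (fun i => σ (v i))) := by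
  rw [herm_eq σ hσq, sv_mulVec, ← Matrix.vecMul_transpose, ← Matrix.dotProduct_mulVec,
    Matrix.mulVec_mulVec]

theorem gu_of_st {q : ℕ} (σ : K →+* K) (hσq : ∀ x, σ x = x ^ q)
    (M : Matrix (Fin n) (Fin n) K) (hM : st σ M * M = 1) (u v : Fin n → K) :
    Cfsg.hermForm n K q (M *ᵥ u) (M *ᵥ v) = Cfsg.hermForm n K q u v := by
  have h1 : Mᵀ * M.map σ = 1 := by
    have := congrArg Matrix.transpose hM
    rw [Matrix.transpose_mul, Matrix.transpose_one] at this
    exact this
  rw [herm_mulVec σ hσq, h1, Matrix.one_mulVec, herm_eq σ hσq]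

theorem st_of_gu {q : ℕ} (σ : K →+* K) (hσq : ∀ x, σ x = x ^ q)
    (M : Matrix (Fin n) (Fin n) K)
    (hM : ∀ u v, Cfsg.hermForm n K q (M *ᵥ u) (M *ᵥ v) = Cfsg.hermForm n K q u v) :
    st σ M * M = 1 := by
  classical
  have h1 : Mᵀ * M.map σ = 1 := by
    ext j k
    have := hM (Pi.single j 1) (Pi.single k 1)
    rw [herm_mulVec σ hσq, herm_eq σ hσq] at this
    have e : (fun i => σ ((Pi.single k 1 : Fin n → K) i)) = Pi.single k 1 := by
      ext i
      by_cases h : i = k
      · subst h; simp
      · simp [Pi.single_apply, h]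
    rw [e, single_one_dotProduct, single_one_dotProduct, Matrix.mulVec_single_one] at this
    rw [Matrix.one_apply]
    simpa [Pi.single_apply] using this
  have := congrArg Matrix.transpose h1
  rw [Matrix.transpose_mul, Matrix.transpose_transpose, Matrix.transpose_one] at this
  exact this

theorem main {K : Type*} [Field K] [Fintype K] {q n : ℕ} (hK : Fintype.card K = q ^ 2) (A : GL (Fin n) K) : (∃ B : ↥(Cfsg.GU n K q), IsConj A (B : GL (Fin n) K)) ↔ IsConj (A : Matrix (Fin n) (Fin n) K) (((A : Matrix (Fin n) (Fin n) K).map (fun x : K => x ^ q)).transpose)⁻¹ := by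
  classical
  set σ := ufrob hK with hσdef
  have hσq : ∀ x, σ x = x ^ q := ufrob_apply hK
  have hσ2 : ∀ a, σ (σ a) = a := ufrob_invol hK
  have hσne : σ ≠ RingHom.id K := ufrob_ne_id hK
  have hmap : ((A : Matrix (Fin n) (Fin n) K).map (fun x : K => x ^ q)).transpose
      = st σ (A : Matrix (Fin n) (Fin n) K) := by
    unfold st
    congr 1
    ext i j
    simp [hσq]
  rw [hmap]
  set Am : Matrix (Fin n) (Fin n) K := (A : Matrix (Fin n) (Fin n) K) with hAm
  set Ai : Matrix (Fin n) (Fin n) K := ((A⁻¹ : GL (Fin n) K) : Matrix (Fin n) (Fin n) K) with hAi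
  have hAAi : Am * Ai = 1 := by
    rw [hAm, hAi, ← Units.val_mul, mul_inv_cancel, Units.val_one]
  have hAiA : Ai * Am = 1 := by
    rw [hAm, hAi, ← Units.val_mul, inv_mul_cancel, Units.val_one]
  have hstinv : (st σ Am)⁻¹ = st σ Ai := by
    apply Matrix.inv_eq_right_inv
    rw [← st_mul, hAiA, st_one]
  have hstinv' : st σ Ai * st σ Am = 1 := by rw [← st_mul, hAAi, st_one]
  rw [hstinv]
  constructor
  · rintro ⟨⟨B, hB⟩, hconj⟩
    obtain ⟨c, hc⟩ := isConj_iff.mp hconj
    have hBst : st σ (B : Matrix (Fin n) (Fin n) K) * (B : Matrix (Fin n) (Fin n) K) = 1 :=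
      st_of_gu σ hσq _ hB
    set cm : Matrix (Fin n) (Fin n) K := (c : Matrix (Fin n) (Fin n) K) with hcm
    set ci : Matrix (Fin n) (Fin n) K := ((c⁻¹ : GL (Fin n) K) : Matrix (Fin n) (Fin n) K) with hci
    have hcci : cm * ci = 1 := by
      rw [hcm, hci, ← Units.val_mul, mul_inv_cancel, Units.val_one]
    have hcic : ci * cm = 1 := by
      rw [hcm, hci, ← Units.val_mul, inv_mul_cancel, Units.val_one]
    have hcA : cm * Am = (B : Matrix (Fin n) (Fin n) K) * cm := by
      have hc' : c * A * c⁻¹ = B := hc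
      have : c * A = B * c := by rw [← hc']; group
      have := congrArg (fun x : GL (Fin n) K => (x : Matrix (Fin n) (Fin n) K)) this
      simpa using this
    -- X = st cm * cm
    have hX : st σ Am * (st σ cm * cm) * Am = st σ cm * cm := by
      calc st σ Am * (st σ cm * cm) * Am = st σ Am * st σ cm * (cm * Am) := by
            simp only [mul_assoc]
        _ = st σ (cm * Am) * (cm * Am) := by rw [st_mul]
        _ = st σ ((B : Matrix (Fin n) (Fin n) K) * cm) * ((B : Matrix (Fin n) (Fin n) K) * cm) := by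
            rw [hcA]
        _ = st σ cm * (st σ (B : Matrix (Fin n) (Fin n) K) * (B : Matrix (Fin n) (Fin n) K)) * cm := by
            rw [st_mul]; simp only [mul_assoc]
        _ = st σ cm * cm := by rw [hBst, mul_one]
    have hXu : IsUnit (st σ cm * cm) := by
      refine ⟨⟨st σ cm * cm, ci * st σ ci, ?_, ?_⟩, rfl⟩
      · calc st σ cm * cm * (ci * st σ ci) = st σ cm * (cm * ci) * st σ ci := by
              simp only [mul_assoc]
          _ = 1 := by rw [hcci, mul_one, ← st_mul, hcic, st_one]
      · calc ci * st σ ci * (st σ cm * cm) = ci * (st σ ci * st σ cm) * cm := by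
              simp only [mul_assoc]
          _ = 1 := by rw [← st_mul, hcci, st_one, mul_one, hcic]
    obtain ⟨X, hXe⟩ := hXu
    refine ⟨X, ?_⟩
    show (X : Matrix (Fin n) (Fin n) K) * Am = st σ Ai * (X : Matrix (Fin n) (Fin n) K)
    rw [hXe]
    calc st σ cm * cm * Am = (st σ Ai * st σ Am) * (st σ cm * cm * Am) := by
          rw [hstinv', one_mul]
      _ = st σ Ai * (st σ Am * (st σ cm * cm) * Am) := by simp only [mul_assoc]
      _ = st σ Ai * (st σ cm * cm) := by rw [hX]
  · rintro ⟨g, hg⟩
    have hg' : (g : Matrix (Fin n) (Fin n) K) * Am = st σ Ai * (g : Matrix (Fin n) (Fin n) K) := hg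
    have hst1 : st σ Am * st σ Ai = 1 := by rw [← st_mul, hAiA, st_one]
    have hinv : st σ Am * (g : Matrix (Fin n) (Fin n) K) * Am = (g : Matrix (Fin n) (Fin n) K) := by
      rw [mul_assoc, hg', ← mul_assoc, hst1, one_mul]
    obtain ⟨lam, hlam⟩ : ∃ lam : K, σ lam ≠ lam := by
      by_contra hcon
      push Not at hcon
      exact hσne (RingHom.ext hcon)
    obtain ⟨H, hH, hHu, hHA⟩ := herm_exists σ hσ2 lam hlam Am Ai (g : Matrix (Fin n) (Fin n) K)
      ((g⁻¹ : (Matrix (Fin n) (Fin n) K)ˣ) : Matrix (Fin n) (Fin n) K) hAAi (by simp) hinv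
    obtain ⟨P, hP⟩ := exists_ortho σ hσne hσ2 H hH hHu
    set R := st σ P * H with hR
    have hRP : R * P = 1 := hP
    have hPR : P * R = 1 := mul_eq_one_comm.mp hRP
    have hHR : st σ R * R = H := by
      rw [hR, st_mul, st_st σ hσ2, hH]
      calc H * P * (st σ P * H) = H * (P * R) := by rw [hR]; simp only [mul_assoc]
        _ = H := by rw [hPR, mul_one]
    set Bm := R * Am * P with hBm
    have hBst : st σ Bm * Bm = 1 := by
      calc st σ Bm * Bm = st σ P * (st σ Am * (st σ R * R) * Am) * P := by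
            rw [hBm, st_mul, st_mul]; simp only [mul_assoc]
        _ = st σ P * H * P := by rw [hHR, hHA]
        _ = 1 := hP
    have hB1 : Bm * (R * Ai * P) = 1 := by
      calc Bm * (R * Ai * P) = R * Am * (P * R) * Ai * P := by rw [hBm]; simp only [mul_assoc]
        _ = R * (Am * Ai) * P := by rw [hPR, mul_one]; simp only [mul_assoc]
        _ = 1 := by rw [hAAi, mul_one, hRP]
    have hB2 : (R * Ai * P) * Bm = 1 := mul_eq_one_comm.mp hB1
    let Bg : GL (Fin n) K := ⟨Bm, R * Ai * P, hB1, hB2⟩
    have hBg : Bg ∈ Cfsg.GU n K q := by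
      intro u v
      exact gu_of_st σ hσq Bm hBst u v
    refine ⟨⟨Bg, hBg⟩, ?_⟩
    rw [isConj_iff]
    let r : GL (Fin n) K := ⟨R, P, hRP, hPR⟩
    refine ⟨r, ?_⟩
    apply Units.ext
    rfl



/-- An invertible matrix A over the field with q² elements is conjugate in GL_n(q²) to an element of the general unitary group GU_n(q) (isometries of the Hermitian form Σ u_i v_i^q) if and only if A is similar to the inverse transpose of its entrywise q-th power (A ~ A^(−qT), the image of A under the map sending a matrix to the inverse transpose of its entrywise q-th power — inverse transpose composed with the field automorphism — whose fixed points form GU_n(q)). -/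
theorem result {K : Type*} [Field K] [Fintype K] {q n : ℕ} (hK : Fintype.card K = q ^ 2) (A : GL (Fin n) K) : (∃ B : ↥(Cfsg.GU n K q), IsConj A (B : GL (Fin n) K)) ↔ IsConj (A : Matrix (Fin n) (Fin n) K) (((A : Matrix (Fin n) (Fin n) K).map (fun x : K => x ^ q)).transpose)⁻¹ := by
  exact main hK A

end Cfsg.Agent.S2588
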