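import Cfsg.Statements.S2390
import Mathlib
import Cfsg.Agent.Lib.helper10.GUDet

set_option autoImplicit false
open Cfsg

namespace Cfsg.Agent.S2390

open Matrix Polynomial Cfsg.Agent.Lib.helper10.GUConj Cfsg.Agent.Lib.helper10.GUDet
  Cfsg.Agent.Lib.helper18.RCF

theorem su_unitary {F : Type*} [Field F] {q n : ℕ} (σ : F →+* F) (hq : ∀ a, σ a = a ^ q)
    (g : ↥(Cfsg.SU n F q)) :
    dag σ ((g : Matrix.SpecialLinearGroup (Fin n) F) : Matrix (Fin n) (Fin n) F) *
      ((g : Matrix.SpecialLinearGroup (Fin n) F) : Matrix (Fin n) (Fin n) F) = 1 := by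
  have h1 : Matrix.SpecialLinearGroup.toGL (g : Matrix.SpecialLinearGroup (Fin n) F) ∈
      Cfsg.GU n F q := g.2
  exact (mem_GU_iff σ q hq _).mp h1

theorem mk_su {F : Type*} [Field F] {q n : ℕ} (σ : F →+* F) (hq : ∀ a, σ a = a ^ q)
    (M : Matrix (Fin n) (Fin n) F) (hdet : M.det = 1) (hM : dag σ M * M = 1) :
    ∃ s : ↥(Cfsg.SU n F q),
      ((s : Matrix.SpecialLinearGroup (Fin n) F) : Matrix (Fin n) (Fin n) F) = M := by
  have h1 : Matrix.SpecialLinearGroup.toGL (⟨M, hdet⟩ : Matrix.SpecialLinearGroup (Fin n) F) ∈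
      Cfsg.GU n F q := (mem_GU_iff σ q hq _).mpr hM
  exact ⟨⟨⟨M, hdet⟩, h1⟩, rfl⟩

theorem main {F : Type*} [Field F] [Fintype F] {q : ℕ} (hF : Fintype.card F = q ^ 2) (p : ℕ)
    [Fact p.Prime] [CharP F p] (n : ℕ)
    (g h : ↥(Cfsg.SU n F q)) (hg : (orderOf g).Coprime p) (hh : (orderOf h).Coprime p)
    (hc : ((g : Matrix.SpecialLinearGroup (Fin n) F) : Matrix (Fin n) (Fin n) F).charpoly =
      ((h : Matrix.SpecialLinearGroup (Fin n) F) : Matrix (Fin n) (Fin n) F).charpoly) :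
    IsConj g h := by
  rcases Nat.eq_zero_or_pos n with hn | hn
  · subst hn
    have : g = h := Subtype.ext (Subtype.ext (Subsingleton.elim _ _))
    rw [this]
  · obtain ⟨σ, hq, hσ, ω₀, hω₀⟩ := exists_sigma hF
    have hau := su_unitary σ hq g
    have hbu := su_unitary σ hq h
    have hA : ((g : Matrix.SpecialLinearGroup (Fin n) F) : Matrix (Fin n) (Fin n) F) ^ orderOf g
        = 1 := by
      rw [← Matrix.SpecialLinearGroup.coe_pow, ← Subgroup.coe_pow, pow_orderOf_eq_one]; rfl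
    have hB : ((h : Matrix.SpecialLinearGroup (Fin n) F) : Matrix (Fin n) (Fin n) F) ^ orderOf h
        = 1 := by
      rw [← Matrix.SpecialLinearGroup.coe_pow, ← Subgroup.coe_pow, pow_orderOf_eq_one]; rfl
    obtain ⟨a, ha⟩ : ∃ a : Matrix (Fin n) (Fin n) F,
      a = ((g : Matrix.SpecialLinearGroup (Fin n) F) : Matrix (Fin n) (Fin n) F) := ⟨_, rfl⟩
    obtain ⟨b, hb⟩ : ∃ b : Matrix (Fin n) (Fin n) F,
      b = ((h : Matrix.SpecialLinearGroup (Fin n) F) : Matrix (Fin n) (Fin n) F) := ⟨_, rfl⟩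
    rw [← ha] at hau hA hc
    rw [← hb] at hbu hB hc
    have hmg := cast_ne_zero_of_coprime (F := F) p _ hg
    have hmh := cast_ne_zero_of_coprime (F := F) p _ hh
    obtain ⟨C, D, h1, h2, h3⟩ := ss_conj_mat a b _ _ hmg hmh hA hB hc
    -- GL elements
    have hai : a * dag σ a = 1 := mul_eq_one_comm.mp hau
    have hbi : b * dag σ b = 1 := mul_eq_one_comm.mp hbu
    obtain ⟨A', hA'⟩ : ∃ A' : GL (Fin n) F, (A' : Matrix (Fin n) (Fin n) F) = a :=
      ⟨⟨a, dag σ a, hai, hau⟩, rfl⟩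
    obtain ⟨B', hB'⟩ : ∃ B' : GL (Fin n) F, (B' : Matrix (Fin n) (Fin n) F) = b :=
      ⟨⟨b, dag σ b, hbi, hbu⟩, rfl⟩
    obtain ⟨x, hx⟩ : ∃ x : GL (Fin n) F, (x : Matrix (Fin n) (Fin n) F) = C :=
      ⟨⟨C, D, h1, h2⟩, rfl⟩
    have hA'U : A' ∈ Cfsg.GU n F q := by rw [mem_GU_iff σ q hq, hA']; exact hau
    have hB'U : B' ∈ Cfsg.GU n F q := by rw [mem_GU_iff σ q hq, hB']; exact hbu
    have hxAB : x * A' * x⁻¹ = B' := by
      rw [mul_inv_eq_iff_eq_mul]
      apply Units.ext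
      rw [Units.val_mul, Units.val_mul, hx, hA', hB']
      exact h3
    obtain ⟨g₀, hg₀U, hg₀⟩ := gu_conj σ q hq hσ ω₀ hω₀ A' B' hA'U hB'U x hxAB
    rw [mem_GU_iff σ q hq] at hg₀U
    obtain ⟨G₀, hG₀⟩ : ∃ G₀ : Matrix (Fin n) (Fin n) F, G₀ = (g₀ : Matrix (Fin n) (Fin n) F) :=
      ⟨_, rfl⟩
    rw [← hG₀] at hg₀U
    have hG₀ab : G₀ * a = b * G₀ := by
      have h5 := congrArg (fun u : GL (Fin n) F => (u : Matrix (Fin n) (Fin n) F))
        (mul_inv_eq_iff_eq_mul.mp hg₀)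
      simp only [Units.val_mul] at h5
      rw [hA', hB', ← hG₀] at h5
      exact h5
    have hdet0 : σ G₀.det * G₀.det = 1 := by
      have := congrArg Matrix.det hg₀U
      rw [Matrix.det_mul, det_dag, Matrix.det_one] at this
      exact this
    have hδ : σ G₀.det * σ (σ G₀.det) = 1 := by rw [hσ]; exact hdet0
    obtain ⟨c, hc1, hc2, hc3⟩ := exists_centralizer_det σ hσ ω₀ hω₀ a hau _ hmg hA hn
      (σ G₀.det) hδ
    have hkdet : (G₀ * c).det = 1 := by
      rw [Matrix.det_mul, hc3, mul_comm]; exact hdet0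
    have hku : dag σ (G₀ * c) * (G₀ * c) = 1 := by
      rw [dag_mul]
      calc dag σ c * dag σ G₀ * (G₀ * c) = dag σ c * (dag σ G₀ * G₀) * c := by
            simp only [mul_assoc]
        _ = 1 := by rw [hg₀U, mul_one, hc1]
    obtain ⟨s, hs⟩ := mk_su (q := q) σ hq (G₀ * c) hkdet hku
    rw [isConj_iff]
    refine ⟨s, ?_⟩
    rw [mul_inv_eq_iff_eq_mul]
    apply Subtype.ext
    apply Subtype.ext
    show ((s : Matrix.SpecialLinearGroup (Fin n) F) : Matrix (Fin n) (Fin n) F) *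
      ((g : Matrix.SpecialLinearGroup (Fin n) F) : Matrix (Fin n) (Fin n) F) =
      ((h : Matrix.SpecialLinearGroup (Fin n) F) : Matrix (Fin n) (Fin n) F) *
      ((s : Matrix.SpecialLinearGroup (Fin n) F) : Matrix (Fin n) (Fin n) F)
    rw [hs, ← ha, ← hb, mul_assoc, hc2, ← mul_assoc, hG₀ab, mul_assoc]

/-- In the special unitary group `SU_n(q)` (inside `SL_n` over the field with `q²` elements), `q` a power of the prime `p`, two elements of order prime to `p` with the same characteristic polynomial are conjugate in `SU_n(q)`. -/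
theorem result {F : Type*} [Field F] [Fintype F] {q : ℕ} (hF : Fintype.card F = q ^ 2) (p : ℕ) [Fact p.Prime] [CharP F p] (n : ℕ)
    (g h : ↥(Cfsg.SU n F q)) (hg : (orderOf g).Coprime p) (hh : (orderOf h).Coprime p)
    (hc : ((g : Matrix.SpecialLinearGroup (Fin n) F) : Matrix (Fin n) (Fin n) F).charpoly =
      ((h : Matrix.SpecialLinearGroup (Fin n) F) : Matrix (Fin n) (Fin n) F).charpoly) : IsConj g h := by
  exact main hF p n g h hg hh hc

end Cfsg.Agent.S2390
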