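import Cfsg.Statements.S1949
import Cfsg.Agent.Lib.helper10.CritExp

set_option autoImplicit false
open Cfsg

namespace Cfsg.Agent.S1949

open Cfsg.Agent.Lib.helper10 in
open scoped commutatorElement in

/-- Let P be a finite p-group and G a group of automorphisms of P containing the inner automorphisms. Then there is a G-invariant subgroup D of P, contained in the subgroup generated by the elements x⁻¹α(x) with x in P and α in O^p(G), of exponent dividing p when p is odd and dividing 4 when p = 2, with [D, P] ≤ Z(D), such that every automorphism in G of order prime to p that fixes D elementwise is the identity; moreover every maximal abelian subgroup A of D is normal in P and every automorphism in G fixing A elementwise has p-power order. -/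
theorem result {P : Type*} [Group P] [Finite P] {p : ℕ} [Fact p.Prime] (hP : IsPGroup p P)
    (G : Subgroup (MulAut P)) (hG : Cfsg.Inn P ≤ G) :
    ∃ D : Subgroup P,
      (∀ α ∈ G, D.map α.toMonoidHom = D) ∧
      D ≤ Subgroup.closure {y : P | ∃ α ∈ Cfsg.pResidual p ↥G, ∃ x : P, y = x⁻¹ * (α : MulAut P) x} ∧
      (∀ d ∈ D, d ^ p = 1 ∨ (p = 2 ∧ d ^ 4 = 1)) ∧
      ⁅D, (⊤ : Subgroup P)⁆ ≤ D ⊓ Subgroup.centralizer (D : Set P) ∧
      (∀ α ∈ G, (orderOf α).Coprime p → (∀ d ∈ D, α d = d) → α = 1) ∧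
      ∀ A : Subgroup P, A ≤ D → IsMulCommutative ↥A →
        (∀ B : Subgroup P, A ≤ B → B ≤ D → IsMulCommutative ↥B → B = A) →
        A.Normal ∧ ∀ α ∈ G, (∀ a ∈ A, α a = a) → ∃ k : ℕ, orderOf α = p ^ k := by
  classical
  have hp : p.Prime := Fact.out
  obtain ⟨C, hCchar, hCfr, hCcomm, hCcent⟩ := Cfsg.Agent.S0093.result hP
  haveI := hCchar
  have hCn : C.Normal := inferInstance
  haveI hOn : (Cfsg.pResidual p ↥G).Normal := Cfsg.Agent.S0075.pResidual_normal p
  obtain ⟨q, hpq, hq, hqexp⟩ := ce_exists_q hP C hCfr hCcomm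
  have hCinv : ∀ α : MulAut P, ∀ x ∈ C, α x ∈ C := by
    intro α x hx
    have h := hCchar.fixed α
    rw [← h] at hx
    exact hx
  set C₁ : Subgroup P := Subgroup.closure
    {y : P | ∃ α ∈ Cfsg.pResidual p ↥G, ∃ x ∈ C, y = x⁻¹ * (α : MulAut P) x} with hC₁
  have hC₁C : C₁ ≤ C := by
    rw [hC₁, Subgroup.closure_le]
    rintro y ⟨α, -, x, hx, rfl⟩
    exact C.mul_mem (C.inv_mem hx) (hCinv _ x hx)
  have hC₁inv : ∀ β ∈ G, ∀ y ∈ C₁, β y ∈ C₁ := by
    intro β hβ y hy
    have hle : C₁ ≤ C₁.comap β.toMonoidHom := by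
      apply (Subgroup.closure_le _).mpr
      rintro y ⟨α, hα, x, hx, rfl⟩
      have e : β (x⁻¹ * (α : MulAut P) x)
          = (β x)⁻¹ * (((⟨β, hβ⟩ : G) * α * (⟨β, hβ⟩ : G)⁻¹ : G) : MulAut P) (β x) := by
        simp [MulAut.mul_apply]
      show β (x⁻¹ * (α : MulAut P) x) ∈ C₁
      rw [e]
      exact Subgroup.subset_closure ⟨_, hOn.conj_mem α hα ⟨β, hβ⟩, β x, hCinv β x hx, rfl⟩
    exact hle hy
  let D : Subgroup P :=
    { carrier := {x | x ∈ C₁ ∧ x ^ q = 1}
      mul_mem' := by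
        rintro a b ⟨ha, ha'⟩ ⟨hb, hb'⟩
        exact ⟨C₁.mul_mem ha hb, by rw [hq a (hC₁C ha) b (hC₁C hb), ha', hb', one_mul]⟩
      one_mem' := ⟨C₁.one_mem, one_pow q⟩
      inv_mem' := by
        rintro a ⟨ha, ha'⟩
        exact ⟨C₁.inv_mem ha, by rw [inv_pow, ha', inv_one]⟩ }
  have hDinv : ∀ β ∈ G, ∀ y ∈ D, β y ∈ D := by
    intro β hβ y hy
    exact ⟨hC₁inv β hβ y hy.1, by rw [← map_pow, hy.2, map_one]⟩
  have hDC : D ≤ C := fun x hx => hC₁C hx.1
  have hconjG : ∀ g : P, MulAut.conj g ∈ G := fun g => hG ⟨g, rfl⟩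
  have hDn : ∀ g : P, ∀ d ∈ D, g * d * g⁻¹ ∈ D := by
    intro g d hd
    have := hDinv _ (hconjG g) d hd
    rwa [MulAut.conj_apply] at this
  -- (e)
  have hE : ∀ α ∈ G, (orderOf α).Coprime p → (∀ d ∈ D, α d = d) → α = 1 := by
    intro α hαG hα hfix
    have h1 : ∀ x ∈ C₁, α x = x :=
      ce_pow_ker_fix hP C q hpq hq α hα (Nat.card C₁) C₁ le_rfl hC₁C (hC₁inv α hαG)
        (fun x hx hx' => hfix x ⟨hx, hx'⟩)
    have hαO : (⟨α, hαG⟩ : G) ∈ Cfsg.pResidual p ↥G := by
      apply Subgroup.subset_closure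
      show Nat.Coprime (orderOf (⟨α, hαG⟩ : G)) p
      rw [Subgroup.orderOf_mk]
      exact hα
    have h2 : ∀ x ∈ C, α x = x := by
      intro x hx
      have hc : x⁻¹ * α x ∈ C₁ := Subgroup.subset_closure ⟨⟨α, hαG⟩, hαO, x, hx, rfl⟩
      have h := ce_fix_trick hP α hα x (x⁻¹ * α x) (by group) (h1 _ hc)
      exact (inv_mul_eq_one.mp h).symm
    have h3 : ∀ g : P, α g = g := by
      intro g
      have hc : g⁻¹ * α g ∈ Subgroup.centralizer (C : Set P) := by
        rw [Subgroup.mem_centralizer_iff]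
        intro x hx
        have hx' : g * x * g⁻¹ ∈ C := hCn.conj_mem x hx g
        have e1 := h2 _ hx'
        rw [map_mul, map_mul, map_inv, h2 x hx] at e1
        have e2 : g⁻¹ * α g * x = g⁻¹ * (α g * x * (α g)⁻¹) * α g := by group
        rw [e2, e1]; group
      have h := ce_fix_trick hP α hα g (g⁻¹ * α g) (by group) (h2 _ (hCcent hc))
      exact (inv_mul_eq_one.mp h).symm
    exact MulEquiv.ext h3
  have hDcomm : ⁅D, (⊤ : Subgroup P)⁆ ≤ D ⊓ Subgroup.centralizer (D : Set P) := by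
    rw [Subgroup.commutator_le]
    intro d hd g _
    refine ⟨?_, ?_⟩
    · have e : ⁅d, g⁆ = d * (g * d⁻¹ * g⁻¹) := by rw [commutatorElement_def]; group
      rw [e]
      exact D.mul_mem hd (hDn g _ (D.inv_mem hd))
    · have h := hCcomm (Subgroup.commutator_mem_commutator (hDC hd) (Subgroup.mem_top g))
      exact Subgroup.centralizer_le (SetLike.coe_subset_coe.mpr hDC) h.2
  refine ⟨D, ?_, ?_, ?_, hDcomm, hE, ?_⟩
  · intro α hα
    apply le_antisymm
    · rintro _ ⟨x, hx, rfl⟩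
      exact hDinv α hα x hx
    · intro x hx
      refine ⟨α⁻¹ x, hDinv α⁻¹ (G.inv_mem hα) x hx, ?_⟩
      simp
  · intro x hx
    have h : C₁ ≤ Subgroup.closure
        {y : P | ∃ α ∈ Cfsg.pResidual p ↥G, ∃ x : P, y = x⁻¹ * (α : MulAut P) x} := by
      apply Subgroup.closure_mono
      rintro y ⟨α, hα, x, -, rfl⟩
      exact ⟨α, hα, x, rfl⟩
    exact h hx.1
  · intro d hd
    exact hqexp d hd.2
  · intro A hAD hA hmax
    have hZA : ∀ z ∈ D, z ∈ Subgroup.centralizer (D : Set P) → z ∈ A := by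
      intro z hz hzc
      apply ce_max_abelian_mem hAD hA hmax z hz
      intro a ha
      exact Subgroup.mem_centralizer_iff.mp hzc a (hAD ha)
    have hAn : ∀ g : P, ∀ a ∈ A, g * a * g⁻¹ ∈ A := by
      intro g a ha
      have h1 : ⁅g, a⁆ ∈ D ⊓ Subgroup.centralizer (D : Set P) := by
        have h2 : ⁅a, g⁆ ∈ D ⊓ Subgroup.centralizer (D : Set P) :=
          hDcomm (Subgroup.commutator_mem_commutator (hAD ha) (Subgroup.mem_top g))
        have h3 : ⁅g, a⁆ = (⁅a, g⁆)⁻¹ := by rw [commutatorElement_inv]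
        rw [h3]
        exact Subgroup.inv_mem _ h2
      have e : g * a * g⁻¹ = ⁅g, a⁆ * a := by rw [commutatorElement_def]; group
      rw [e]
      exact A.mul_mem (hZA _ h1.1 h1.2) ha
    refine ⟨⟨fun a ha g => hAn g a ha⟩, ?_⟩
    intro α hαG hαA
    have hfin : Finite (MulAut P) := inferInstance
    have hn0 : orderOf α ≠ 0 := (orderOf_pos α).ne'
    obtain ⟨e, m, hm, hem⟩ := Nat.exists_eq_pow_mul_and_not_dvd hn0 p hp.ne_one
    have hβG : α ^ (p ^ e) ∈ G := G.pow_mem hαG _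
    have hβm : (α ^ (p ^ e)) ^ m = 1 := by
      rw [← pow_mul, ← hem, pow_orderOf_eq_one]
    have hβco : (orderOf (α ^ (p ^ e))).Coprime p := by
      have h1 : orderOf (α ^ (p ^ e)) ∣ m := orderOf_dvd_of_pow_eq_one hβm
      have h2 : Nat.Coprime m p := ((Nat.Prime.coprime_iff_not_dvd hp).mpr hm).symm
      exact Nat.Coprime.coprime_dvd_left h1 h2
    have hpowA : ∀ n : ℕ, ∀ a ∈ A, (α ^ n) a = a := by
      intro n
      induction n with
      | zero => intro a _; simp
      | succ n ih =>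
        intro a ha
        rw [pow_succ, MulAut.mul_apply, hαA a ha, ih a ha]
    have hβD : ∀ d ∈ D, (α ^ (p ^ e)) d = d := by
      intro d hd
      set β := α ^ (p ^ e) with hβ
      have hβA : ∀ a ∈ A, β a = a := hpowA (p ^ e)
      have hcD : d⁻¹ * β d ∈ D := D.mul_mem (D.inv_mem hd) (hDinv β hβG d hd)
      have hcA : d⁻¹ * β d ∈ A := by
        apply ce_max_abelian_mem hAD hA hmax _ hcD
        intro a ha
        have hx' : d * a * d⁻¹ ∈ A := hAn d a ha
        have e1 := hβA _ hx'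
        rw [map_mul, map_mul, map_inv, hβA a ha] at e1
        have e2 : d⁻¹ * β d * a = d⁻¹ * (β d * a * (β d)⁻¹) * β d := by group
        rw [e2, e1]; group
      have h := ce_fix_trick hP β hβco d (d⁻¹ * β d) (by group) (hβA _ hcA)
      exact (inv_mul_eq_one.mp h).symm
    have hβ1 := hE _ hβG hβco hβD
    have hdvd : orderOf α ∣ p ^ e := orderOf_dvd_of_pow_eq_one hβ1
    obtain ⟨k, -, hk⟩ := (Nat.dvd_prime_pow hp).mp hdvd
    exact ⟨k, hk⟩

end Cfsg.Agent.S1949
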