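import Cfsg.Statements.S3056
import Cfsg.Agent.Lib.helper9.StrEmb3

set_option autoImplicit false
open Cfsg

namespace Cfsg.Agent.S3056

open Cfsg.Agent.Lib.helper9

variable {G : Type*} [Group G]

def E (p : ℕ) (U V : Sylow p G) : Prop := U ≠ V ∧ (U : Subgroup G) ⊓ (V : Subgroup G) ≠ ⊥

theorem rtg_symm {α : Type*} {r : α → α → Prop} (hs : ∀ a b, r a b → r b a) {a b : α}
    (h : Relation.ReflTransGen r a b) : Relation.ReflTransGen r b a := by
  induction h with
  | refl => exact Relation.ReflTransGen.refl
  | tail _ hbc ih => exact Relation.ReflTransGen.head (hs _ _ hbc) ih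

theorem E_symm (p : ℕ) (U V : Sylow p G) (h : E p U V) : E p V U :=
  ⟨h.1.symm, by rw [inf_comm]; exact h.2⟩

theorem mem_smul_iff {p : ℕ} (g : G) (S : Sylow p G) (x : G) :
    x ∈ ((g • S : Sylow p G) : Subgroup G) ↔ g⁻¹ * x * g ∈ (S : Subgroup G) := by
  constructor
  · intro h
    have := sylow_smul_mem' g⁻¹ (g • S) S (inv_smul_smul g S) x h
    simpa using this
  · intro h
    have := sylow_smul_mem' g S (g • S) rfl _ h
    have e : g * (g⁻¹ * x * g) * g⁻¹ = x := by group
    rwa [e] at this

theorem E_smul {p : ℕ} (g : G) {U V : Sylow p G} (h : E p U V) : E p (g • U) (g • V) := by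
  refine ⟨fun he => h.1 (smul_left_cancel g he), ?_⟩
  intro hb
  apply h.2
  rw [eq_bot_iff] at hb ⊢
  intro x hx
  have h1 : g * x * g⁻¹ ∈ ((g • U : Sylow p G) : Subgroup G) ⊓ ((g • V : Sylow p G) : Subgroup G) := by
    refine Subgroup.mem_inf.mpr ⟨(mem_smul_iff g U _).mpr ?_, (mem_smul_iff g V _).mpr ?_⟩
    · have e : g⁻¹ * (g * x * g⁻¹) * g = x := by group
      rw [e]; exact (Subgroup.mem_inf.mp hx).1
    · have e : g⁻¹ * (g * x * g⁻¹) * g = x := by group
      rw [e]; exact (Subgroup.mem_inf.mp hx).2
  have h2 := hb h1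
  rw [Subgroup.mem_bot] at h2 ⊢
  have e : x = g⁻¹ * (g * x * g⁻¹) * g := by group
  rw [e, h2]; group

theorem rtg_smul {p : ℕ} (g : G) {U V : Sylow p G} (h : Relation.ReflTransGen (E p) U V) :
    Relation.ReflTransGen (E p) (g • U) (g • V) := by
  induction h with
  | refl => exact Relation.ReflTransGen.refl
  | tail _ hbc ih => exact ih.tail (E_smul g hbc)

theorem rtg_of_chain {α : Type*} (r : α → α → Prop) : ∀ (n : ℕ) (c : Fin (n + 1) → α),
    (∀ i : Fin n, r (c i.castSucc) (c i.succ)) → Relation.ReflTransGen r (c 0) (c (Fin.last n))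
  | 0, c, _ => Relation.ReflTransGen.refl
  | n + 1, c, h => by
    have ih := rtg_of_chain r n (fun i => c i.castSucc) (fun i => by
      have := h i.castSucc
      rwa [Fin.succ_castSucc] at this)
    have h1 := h (Fin.last n)
    rw [Fin.succ_last] at h1
    exact Relation.ReflTransGen.tail ih h1

theorem chain_of_rtg {α : Type*} (r : α → α → Prop) {a b : α} (h : Relation.ReflTransGen r a b) :
    ∃ (n : ℕ) (c : Fin (n + 1) → α), c 0 = a ∧ c (Fin.last n) = b ∧
      ∀ i : Fin n, r (c i.castSucc) (c i.succ) := by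
  induction h with
  | refl => exact ⟨0, fun _ => a, rfl, rfl, fun i => i.elim0⟩
  | @tail b₁ c₁ _ hbc ih =>
    obtain ⟨n, c, h0, hl, hc⟩ := ih
    refine ⟨n + 1, @Fin.snoc (n + 1) (fun _ => α) c c₁, ?_, ?_, ?_⟩
    · have e : (0 : Fin (n + 2)) = (0 : Fin (n + 1)).castSucc := rfl
      rw [e, Fin.snoc_castSucc, h0]
    · rw [Fin.snoc_last]
    · intro i
      refine Fin.lastCases ?_ (fun j => ?_) i
      · rw [Fin.succ_last, Fin.snoc_last, Fin.snoc_castSucc, hl]; exact hbc
      · rw [Fin.succ_castSucc, Fin.snoc_castSucc, Fin.snoc_castSucc]; exact hc j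

/-- The stabilizer of the component of `S`. -/
def stab (p : ℕ) (S : Sylow p G) : Subgroup G where
  carrier := {g | Relation.ReflTransGen (E p) S (g • S)}
  mul_mem' := by
    intro g h hg hh
    have h1 := rtg_smul g hh
    rw [← mul_smul] at h1
    exact hg.trans h1
  one_mem' := by
    show Relation.ReflTransGen (E p) S ((1 : G) • S)
    rw [one_smul]
  inv_mem' := by
    intro g hg
    have h1 := rtg_smul g⁻¹ hg
    rw [inv_smul_smul] at h1
    exact rtg_symm (E_symm p) h1

theorem mem_stab {p : ℕ} {S : Sylow p G} {g : G} :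
    g ∈ stab p S ↔ Relation.ReflTransGen (E p) S (g • S) := Iff.rfl

theorem le_stab {p : ℕ} (S : Sylow p G) : (S : Subgroup G) ≤ stab p S := by
  intro g hg
  rw [mem_stab]
  have : g • S = S := Sylow.smul_eq_iff_mem_normalizer.mpr (Subgroup.le_normalizer hg)
  rw [this]

/-- Let G be a finite group and p a prime. Join two Sylow p-subgroups when they are distinct and meet nontrivially. This graph on the Sylow p-subgroups is disconnected (the Sylow p-subgroups are not chain-connected through nontrivial intersections) if and only if G has a strongly p-embedded subgroup in the classical sense: a proper subgroup H of order divisible by p such that H ∩ gHg⁻¹ has order prime to p for every g outside H. -/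
theorem result {G : Type*} [Group G] [Finite G]
    (p : ℕ) [Fact p.Prime] :
    ¬ Cfsg.IsSylowChainConnected p G ↔
      ∃ H : Subgroup G, H ≠ ⊤ ∧ p ∣ Nat.card H ∧
        ∀ g : G, g ∉ H → ¬ p ∣ Nat.card ↥(H ⊓ H.map (MulAut.conj g).toMonoidHom) := by
  constructor
  · intro hnc
    have hex : ∃ S T : Sylow p G, ¬ Relation.ReflTransGen (E p) S T := by
      by_contra hall
      push Not at hall
      apply hnc
      intro S T
      by_cases hST : S = T
      · exact ⟨0, fun _ => S, rfl, hST, fun _ => inf_le_left, fun i => i.elim0⟩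
      by_cases hb : (S : Subgroup G) ⊓ (T : Subgroup G) = ⊥
      · obtain ⟨n, c, h0, hl, hc⟩ := chain_of_rtg (E p) (hall S T)
        exact ⟨n, c, h0, hl, fun i => by rw [hb]; exact bot_le, hc⟩
      · refine ⟨1, ![S, T], rfl, rfl, ?_, ?_⟩
        · intro i
          fin_cases i
          · exact inf_le_left
          · exact inf_le_right
        · intro i
          fin_cases i
          exact ⟨hST, hb⟩
    obtain ⟨S, T, hST⟩ := hex
    have hSne : (S : Subgroup G) ≠ ⊥ := by
      intro hS
      apply hST
      have hT : (T : Subgroup G) = ⊥ := by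
        rw [← Subgroup.card_eq_one, Sylow.card_eq_multiplicity, ← Sylow.card_eq_multiplicity S,
          hS, Subgroup.card_bot]
      have : S = T := Sylow.ext (by rw [hS, hT])
      rw [this]
    have hN : NormProp p (stab p S) := by
      intro A hA hpA hAne n hn
      obtain ⟨h, hh, hc⟩ := conj_mem_sylow_of_le (stab p S) S (le_stab S) A hA hpA
      have h1 : Relation.ReflTransGen (E p) S (h⁻¹ • S) := mem_stab.mp (inv_mem hh)
      have hA1 : A ≤ ((h⁻¹ • S : Sylow p G) : Subgroup G) := by
        intro a ha
        rw [mem_smul_iff, inv_inv]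
        exact hc a ha
      have hA2 : A ≤ ((n • h⁻¹ • S : Sylow p G) : Subgroup G) := by
        intro a ha
        rw [mem_smul_iff]
        apply hA1
        have hn' : n⁻¹ ∈ Subgroup.normalizer (A : Set G) := inv_mem hn
        have := (Subgroup.mem_normalizer_iff.mp hn' a).mp ha
        rwa [inv_inv] at this
      have h2 : Relation.ReflTransGen (E p) (h⁻¹ • S) (n • h⁻¹ • S) := by
        by_cases he : h⁻¹ • S = n • h⁻¹ • S
        · rw [← he]
        · refine Relation.ReflTransGen.single ⟨he, ?_⟩
          intro hb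
          apply hAne
          rw [eq_bot_iff, ← hb]
          exact le_inf hA1 hA2
      have h3 := rtg_smul n h1
      rw [mem_stab]
      exact (h1.trans h2).trans (rtg_symm (E_symm p) h3)
    refine ⟨stab p S, ?_, ?_, fun g hg => normProp_inter hN hg⟩
    · intro htop
      obtain ⟨g, hg⟩ := MulAction.exists_smul_eq G S T
      apply hST
      rw [← hg]
      exact mem_stab.mp (htop ▸ Subgroup.mem_top g)
    · have h1 : p ∣ Nat.card (S : Subgroup G) := by
        rcases S.isPGroup'.card_eq_or_dvd with h | h
        · exact absurd (Subgroup.card_eq_one.mp h) hSne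
        · exact h
      exact h1.trans (Subgroup.card_dvd_of_le (le_stab S))
  · rintro ⟨H, hH, hpH, hint⟩ hconn
    have hN : NormProp p H := normProp_of_inter hint
    have hse : IsStronglyPEmbedded p H := se_of_normProp hH hpH hN
    obtain ⟨P, hPH, -⟩ := se_exists_sylow_le hse
    obtain ⟨g, hg⟩ : ∃ g : G, g ∉ H := by
      by_contra hc
      push Not at hc
      exact hH (eq_top_iff.mpr fun g _ => hc g)
    obtain ⟨n, c, h0, hl, -, hc⟩ := hconn P (g • P)
    have key : ∀ i : Fin (n + 1), (c i : Subgroup G) ≤ H := by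
      intro i
      induction i using Fin.induction with
      | zero => rw [h0]; exact hPH
      | succ i ih =>
        obtain ⟨-, hne⟩ := hc i
        obtain ⟨x, hx1⟩ := (Subgroup.ne_bot_iff_exists_ne_one).mp hne
        have hx' := Subgroup.mem_inf.mp x.2
        refine pGroup_le_of_inter hN (c i.succ).isPGroup' hx'.2 (ih hx'.1) ?_
        intro h
        apply hx1
        exact Subtype.ext h
    have hgP : ((g • P : Sylow p G) : Subgroup G) ≤ H := by
      have := key (Fin.last n)
      rwa [hl] at this
    have hPne : (P : Subgroup G) ≠ ⊥ :=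
      P.ne_bot_of_dvd_card (hpH.trans (Subgroup.card_subgroup_dvd_card H))
    obtain ⟨x, hx1⟩ := (Subgroup.ne_bot_iff_exists_ne_one).mp hPne
    have hx1' : (x : G) ≠ 1 := fun h => hx1 (Subtype.ext h)
    apply hg
    refine mem_of_conj_mem hN (hPH x.2) hx1' (P.isPGroup'.to_le (Subgroup.zpowers_le.mpr x.2)) ?_
    apply hgP
    rw [mem_smul_iff]
    have e : g⁻¹ * (g * (x : G) * g⁻¹) * g = x := by group
    rw [e]; exact x.2

end Cfsg.Agent.S3056
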