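import Cfsg.Statements.S3058
-- import your own Cfsg.Agent.* helpers here
import Cfsg.Agent.S3056
import Cfsg.Agent.S1324
import Cfsg.Agent.Lib.helper15.SylGen
import Cfsg.Agent.Lib.helper8.CoprimeAction

set_option autoImplicit false
open Cfsg

namespace Cfsg.Agent.S3058

open Cfsg.Agent.Lib.helper15 Cfsg.Agent.Lib.helper8

theorem exists_order_p {G : Type*} [Group G] [Finite G] (p : ℕ) [Fact p.Prime]
    (S : Sylow p G) (N : Subgroup G) [N.Normal] (hN : p ∣ Nat.card N) :
    (S : Subgroup G) ⊓ N ≠ ⊥ ∧ ∃ a : G, a ∈ (S : Subgroup G) ∧ a ∈ N ∧ orderOf a = p := by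
  have hp : p.Prime := Fact.out
  obtain ⟨-, Q, hQ⟩ := frattini_inf S N
  have hQ1 : (Q : Subgroup ↥N) ≠ ⊥ := Q.ne_bot_of_dvd_card hN
  have hA1 : (S : Subgroup G) ⊓ N ≠ ⊥ := by
    rw [← hQ]
    intro h0
    exact hQ1 ((Subgroup.map_eq_bot_iff_of_injective _ N.subtype_injective).mp h0)
  refine ⟨hA1, ?_⟩
  have hAp : IsPGroup p ↥((S : Subgroup G) ⊓ N) := S.2.to_le inf_le_left
  obtain ⟨k, hk⟩ := IsPGroup.iff_card.mp hAp
  have hk0 : k ≠ 0 := by
    rintro rfl
    rw [pow_zero] at hk
    exact hA1 (Subgroup.card_eq_one.mp hk)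
  have hdvd : p ∣ Nat.card ↥((S : Subgroup G) ⊓ N) := by
    rw [hk]; exact dvd_pow_self p hk0
  obtain ⟨x, hx⟩ := exists_prime_orderOf_dvd_card' p hdvd
  refine ⟨(x : G), x.2.1, x.2.2, ?_⟩
  rw [Subgroup.orderOf_coe]; exact hx

/-- Let p be a prime and G a finite group whose Sylow p-subgroups are not chain-connected through nontrivial intersections (so G has a strongly p-embedded subgroup). If N and M are normal subgroups of G whose orders are both divisible by p, then the order of N ∩ M is divisible by p. Consequently, among the normal subgroups of G whose order is divisible by p there is a smallest one (the intersection of all of them). -/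
theorem result {G : Type*} [Group G] [Finite G]
    (p : ℕ) [Fact p.Prime] (hG : ¬ Cfsg.IsSylowChainConnected p G)
    (N M : Subgroup G) [N.Normal] [M.Normal] (hN : p ∣ Nat.card N) (hM : p ∣ Nat.card M) :
    p ∣ Nat.card ↥(N ⊓ M) := by
  have hp : p.Prime := Fact.out
  obtain ⟨H, hHtop, hpH, hse⟩ := (Cfsg.Agent.S3056.result p).mp hG
  by_contra hD
  apply hHtop
  obtain ⟨S, hSH⟩ := se_exists_sylow_le' p H hpH hse
  have hloc : ∀ Q : Subgroup G, Q ≤ (S : Subgroup G) → Q ≠ ⊥ →
      Subgroup.normalizer (Q : Set G) ≤ H := fun Q hQS hQ1 =>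
    se_normalizer_le p H hse Q (S.2.to_le hQS) (hQS.trans hSH) hQ1
  have hDcop : (Nat.card ↥(N ⊓ M)).Coprime (Nat.card ↥(S : Subgroup G)) := by
    obtain ⟨k, hk⟩ := IsPGroup.iff_card.mp S.2
    rw [hk]
    exact Nat.Coprime.pow_right k ((Nat.Prime.coprime_iff_not_dvd hp).mpr hD).symm
  obtain ⟨hA1, a, haS, haN, hao⟩ := exists_order_p p S N hN
  obtain ⟨hB1, b, hbS, hbM, hbo⟩ := exists_order_p p S M hM
  have hfrN := (frattini_inf S N).1
  -- elements of S ⊓ N and S ⊓ M commute
  have hcomm : ∀ x ∈ (S : Subgroup G) ⊓ N, ∀ y ∈ (S : Subgroup G) ⊓ M, x * y = y * x := by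
    intro x hx y hy
    have hc : x * y * x⁻¹ * y⁻¹ = 1 := by
      apply eq_one_of_coprime hDcop
      · constructor
        · have h1 : y * x⁻¹ * y⁻¹ ∈ N :=
            Subgroup.Normal.conj_mem inferInstance _ (N.inv_mem hx.2) y
          have e : x * y * x⁻¹ * y⁻¹ = x * (y * x⁻¹ * y⁻¹) := by group
          rw [e]; exact N.mul_mem hx.2 h1
        · have h1 : x * y * x⁻¹ ∈ M := Subgroup.Normal.conj_mem inferInstance _ hy.2 x
          exact M.mul_mem h1 (M.inv_mem hy.2)
      · exact Subgroup.mul_mem _ (Subgroup.mul_mem _ (Subgroup.mul_mem _ hx.1 hy.1)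
          (Subgroup.inv_mem _ hx.1)) (Subgroup.inv_mem _ hy.1)
    have e : x * y = (x * y * x⁻¹ * y⁻¹) * (y * x) := by group
    rw [e, hc, one_mul]
  have hab : a * b = b * a := hcomm a ⟨haS, haN⟩ b ⟨hbS, hbM⟩
  -- the subgroup E generated by a and b
  set E : Subgroup G := Subgroup.closure {a, b} with hE
  have hEcomm : IsMulCommutative ↥E := by
    apply Subgroup.isMulCommutative_closure
    intro x hx y hy
    rcases hx with rfl | rfl <;> rcases hy with rfl | rfl
    · rfl
    · exact hab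
    · exact hab.symm
    · rfl
  have hES : E ≤ (S : Subgroup G) := by
    rw [hE, Subgroup.closure_le]
    rintro x (rfl | rfl)
    · exact haS
    · exact hbS
  have hEp : ∀ e ∈ E, e ^ p = 1 := by
    intro e he
    induction he using Subgroup.closure_induction with
    | mem w hw =>
      rcases hw with rfl | rfl
      · rw [← hao]; exact pow_orderOf_eq_one _
      · rw [← hbo]; exact pow_orderOf_eq_one _
    | one => exact one_pow _
    | mul x y hx hy ihx ihy =>
      have hxy : Commute x y := setLike_mul_comm hx hy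
      rw [hxy.mul_pow, ihx, ihy, one_mul]
    | inv x _ ih => rw [inv_pow, ih, inv_one]
  have hEA : Cfsg.IsElementaryAbelian p E := ⟨hEcomm, hEp⟩
  have haE : a ∈ E := Subgroup.subset_closure (Set.mem_insert a {b})
  have hbE : b ∈ E := Subgroup.subset_closure (Set.mem_insert_of_mem a rfl)
  have hb1 : b ≠ 1 := by
    intro h
    rw [h, orderOf_one] at hbo
    exact hp.one_lt.ne hbo
  have hE2 : p ^ 2 ≤ Nat.card ↥E := by
    obtain ⟨k, hk⟩ := IsPGroup.iff_card.mp (S.2.to_le hES)
    rw [hk]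
    apply Nat.pow_le_pow_right hp.pos
    by_contra hk2
    have hk1 : k ≤ 1 := by omega
    have hle : Subgroup.zpowers a ≤ E := Subgroup.zpowers_le.mpr haE
    have hca : Nat.card ↥(Subgroup.zpowers a) = p := by rw [Nat.card_zpowers, hao]
    have hge : Nat.card ↥E ≤ Nat.card ↥(Subgroup.zpowers a) := by
      rw [hca, hk]
      calc p ^ k ≤ p ^ 1 := Nat.pow_le_pow_right hp.pos hk1
        _ = p := pow_one p
    have heq := Subgroup.eq_of_le_of_card_ge hle hge
    have hbz : b ∈ Subgroup.zpowers a := heq ▸ hbE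
    have hzN : Subgroup.zpowers a ≤ N := Subgroup.zpowers_le.mpr haN
    exact hb1 (eq_one_of_coprime hDcop ⟨hzN hbz, hbM⟩ hbS)
  -- N ⊓ M is generated by centralizers of nontrivial subgroups of E, all inside H
  have hDH : N ⊓ M ≤ H := by
    have hnorm : E ≤ Subgroup.normalizer ((N ⊓ M : Subgroup G) : Set G) := by
      rw [Subgroup.normalizer_eq_top]; exact le_top
    have hgen := Cfsg.Agent.S1324.result p E (N ⊓ M) hEA hE2 hD hnorm
    rw [hgen]
    apply iSup_le
    rintro ⟨B, hBE, hBp⟩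
    have hB1 : B ≠ ⊥ := by
      rintro rfl
      rw [Subgroup.relIndex_bot_left] at hBp
      have : p < p ^ 2 := by
        calc p = p ^ 1 := (pow_one p).symm
          _ < p ^ 2 := Nat.pow_lt_pow_right hp.one_lt (by norm_num)
      omega
    exact inf_le_right.trans ((Subgroup.centralizer_le_normalizer _).trans
      (hloc B (hBE.trans hES) hB1))
  -- N ≤ H
  have hNH : N ≤ H := by
    intro n hn
    have hBp : IsPGroup p ↥((S : Subgroup G) ⊓ M) := S.2.to_le inf_le_left
    have hnormD : (S : Subgroup G) ⊓ M ≤ Subgroup.normalizer ((N ⊓ M : Subgroup G) : Set G) := by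
      rw [Subgroup.normalizer_eq_top]; exact le_top
    have hcop : (Nat.card ↥((S : Subgroup G) ⊓ M)).Coprime (Nat.card ↥(N ⊓ M)) := by
      obtain ⟨k, hk⟩ := IsPGroup.iff_card.mp hBp
      rw [hk]
      exact Nat.Coprime.pow_left k ((Nat.Prime.coprime_iff_not_dvd hp).mpr hD)
    have hsolv : Group.IsSolvable ↥((S : Subgroup G) ⊓ M) ∨ Group.IsSolvable ↥(N ⊓ M) := by
      left
      have := hBp.isNilpotent
      infer_instance
    obtain ⟨d, hd, hfix⟩ := coset_fix ((S : Subgroup G) ⊓ M) (N ⊓ M) hnormD hcop hsolv n (by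
      intro y hy
      constructor
      · have h1 : y * n * y⁻¹ ∈ N := Subgroup.Normal.conj_mem inferInstance _ hn y
        have e : n⁻¹ * y * n * y⁻¹ = n⁻¹ * (y * n * y⁻¹) := by group
        rw [e]; exact N.mul_mem (N.inv_mem hn) h1
      · have h1 : n⁻¹ * y * n⁻¹⁻¹ ∈ M := Subgroup.Normal.conj_mem inferInstance _ hy.2 n⁻¹
        rw [inv_inv] at h1
        exact M.mul_mem h1 (M.inv_mem hy.2))
    have hc : n * d ∈ Subgroup.centralizer (((S : Subgroup G) ⊓ M : Subgroup G) : Set G) := by
      rw [Subgroup.mem_centralizer_iff]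
      intro y hy
      exact hfix y hy
    have h1 : n * d ∈ H :=
      hloc _ inf_le_left hB1 (Subgroup.centralizer_le_normalizer _ hc)
    have e : n = (n * d) * d⁻¹ := by group
    rw [e]
    exact H.mul_mem h1 (H.inv_mem (hDH hd))
  rw [eq_top_iff, ← hfrN]
  exact sup_le (hloc _ inf_le_left hA1) hNH


end Cfsg.Agent.S3058
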