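import Cfsg.Statements.S1280
import Cfsg.Agent.Lib.helper7.Sup

set_option autoImplicit false
open Cfsg

namespace Cfsg.Agent.S1280

open Subgroup Cfsg.Agent.Lib.helper7 Cfsg.Agent.Lib.helper8 in
theorem aux {G : Type*} [Group G] [Finite G] (p : ℕ) [Fact p.Prime] (A : Subgroup G)
    (hA : Cfsg.IsElementaryAbelian p A) (θ : G → Subgroup G)
    (X Y : Subgroup G) (hX : X ∈ Cfsg.signalizerFamily p A θ)
    (hY : Y ∈ Cfsg.signalizerFamily p A θ) (hn : Y ≤ Subgroup.normalizer (X : Set G)) :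
    X ⊔ Y ∈ Cfsg.signalizerFamily p A θ := by
  obtain ⟨hXs, hXp, hXA, hXθ⟩ := hX
  obtain ⟨hYs, hYp, hYA, hYθ⟩ := hY
  have hp : p.Prime := Fact.out
  have hcard : ¬ p ∣ Nat.card (X ⊔ Y : Subgroup G) := by
    intro h
    have h1 := h.trans (card_sup_dvd_of_le_normalizer X Y hn)
    rcases (Nat.Prime.dvd_mul hp).mp h1 with h2 | h2
    · exact hXp h2
    · exact hYp h2
  have hinv : ∀ b ∈ A, ∀ u ∈ X ⊔ Y, b * u * b⁻¹ ∈ X ⊔ Y := by
    intro b hb u hu
    have h1 : (X ⊔ Y).map (MulAut.conj b).toMonoidHom ≤ X ⊔ Y := by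
      rw [Subgroup.map_sup]
      apply sup_le_sup
      · rintro _ ⟨x, hx, rfl⟩; exact hXA b hb x hx
      · rintro _ ⟨x, hx, rfl⟩; exact hYA b hb x hx
    exact h1 ⟨u, hu, rfl⟩
  refine ⟨isSolvable_sup_of_le_normalizer X Y hn, hcard, hinv, ?_⟩
  intro a ha ha1
  rintro u hu
  obtain ⟨huK, huc⟩ := Subgroup.mem_inf.mp hu
  obtain ⟨x, hx, y, hy, rfl⟩ := (mem_sup_iff_of_le_normalizer hn u).mp huK
  have hap : a ^ p = 1 := hA.2 a ha
  have hainv : a⁻¹ ∈ A := inv_mem ha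
  have hnX : zpowers a ≤ normalizer (X : Set G) :=
    zpowers_le_normalizer_of_conj (hXA a ha) (fun x hx => by simpa using hXA a⁻¹ hainv x hx)
  have hnY : zpowers a ≤ normalizer (Y : Set G) :=
    zpowers_le_normalizer_of_conj (hYA a ha) (fun x hx => by simpa using hYA a⁻¹ hainv x hx)
  have hxy : x * y ∈ centralizer ((zpowers a : Subgroup G) : Set G) := by
    rw [centralizer_zpowers_eq]; exact huc
  obtain ⟨x', hx', y', hy', hxy'⟩ := coprime_fixed_mul (zpowers a) (X ⊔ Y)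
    (coprime_zpowers_of_pow_eq_one hap hcard) (Or.inl (isSolvable_zpowers a)) X Y le_sup_left
    hnX hnY x y hx hy hxy
  rw [centralizer_zpowers_eq] at hx' hy'
  rw [hxy']
  exact mul_mem (hXθ a ha ha1 hx') (hYθ a ha ha1 hy')

/-- Let θ be a solvable A-signalizer functor (A a noncyclic elementary abelian p-subgroup of the finite group G), and X, Y members of its family with Y ≤ N_G(X). Then X ⊔ Y (= XY) is again in the family. -/
theorem result {G : Type*} [Group G] [Finite G] (p : ℕ) [Fact p.Prime] (A : Subgroup G) (hA : Cfsg.IsElementaryAbelian p A) (hA2 : p ^ 2 ≤ Nat.card ↥A) (θ : G → Subgroup G) (hθ : Cfsg.IsSolvableSignalizerFunctor p A θ) (X Y : Subgroup G) (hX : X ∈ Cfsg.signalizerFamily p A θ) (hY : Y ∈ Cfsg.signalizerFamily p A θ) (hn : Y ≤ Subgroup.normalizer (X : Set G)) : X ⊔ Y ∈ Cfsg.signalizerFamily p A θ := by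
  exact aux p A hA θ X Y hX hY hn

end Cfsg.Agent.S1280
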