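import Cfsg.Statements.S2353
-- import your own Cfsg.Agent.* helpers here
import Mathlib

set_option autoImplicit false
open Cfsg

namespace Cfsg.Agent.S2353

open Polynomial

/-- upper unipotent -/
def uM {R : Type*} [CommRing R] (f : R) : Matrix.SpecialLinearGroup (Fin 2) R :=
  ⟨!![1, f; 0, 1], by simp [Matrix.det_fin_two]⟩

/-- lower unipotent -/
def lM {R : Type*} [CommRing R] (g : R) : Matrix.SpecialLinearGroup (Fin 2) R :=
  ⟨!![1, 0; g, 1], by simp [Matrix.det_fin_two]⟩

theorem u_mul_00 {R : Type*} [CommRing R] (f : R) (Q : Matrix.SpecialLinearGroup (Fin 2) R) :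
    (uM f * Q).1 0 0 = Q.1 0 0 + f * Q.1 1 0 := by
  rw [Matrix.SpecialLinearGroup.coe_mul]
  simp [uM, Matrix.mul_apply, Fin.sum_univ_two]

theorem u_mul_10 {R : Type*} [CommRing R] (f : R) (Q : Matrix.SpecialLinearGroup (Fin 2) R) :
    (uM f * Q).1 1 0 = Q.1 1 0 := by
  rw [Matrix.SpecialLinearGroup.coe_mul]
  simp [uM, Matrix.mul_apply, Fin.sum_univ_two]

theorem l_mul_00 {R : Type*} [CommRing R] (g : R) (Q : Matrix.SpecialLinearGroup (Fin 2) R) :
    (lM g * Q).1 0 0 = Q.1 0 0 := by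
  rw [Matrix.SpecialLinearGroup.coe_mul]
  simp [lM, Matrix.mul_apply, Fin.sum_univ_two]

theorem l_mul_10 {R : Type*} [CommRing R] (g : R) (Q : Matrix.SpecialLinearGroup (Fin 2) R) :
    (lM g * Q).1 1 0 = g * Q.1 0 0 + Q.1 1 0 := by
  rw [Matrix.SpecialLinearGroup.coe_mul]
  simp [lM, Matrix.mul_apply, Fin.sum_univ_two]

theorem u_mul_u {R : Type*} [CommRing R] (f f' : R) : uM f * uM f' = uM (f + f') := by
  apply Subtype.ext
  rw [Matrix.SpecialLinearGroup.coe_mul]
  ext i j
  fin_cases i <;> fin_cases j <;> simp [uM, Matrix.mul_apply, Fin.sum_univ_two, add_comm]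

theorem l_mul_l {R : Type*} [CommRing R] (g g' : R) : lM g * lM g' = lM (g + g') := by
  apply Subtype.ext
  rw [Matrix.SpecialLinearGroup.coe_mul]
  ext i j
  fin_cases i <;> fin_cases j <;> simp [lM, Matrix.mul_apply, Fin.sum_univ_two, add_comm]

theorem u_zero {R : Type*} [CommRing R] : uM (0 : R) = 1 :=
  Subtype.ext (by simp [uM, Matrix.one_fin_two])

theorem l_zero {R : Type*} [CommRing R] : lM (0 : R) = 1 :=
  Subtype.ext (by simp [lM, Matrix.one_fin_two])

theorem u_inv {R : Type*} [CommRing R] (f : R) : (uM f)⁻¹ = uM (-f) :=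
  inv_eq_of_mul_eq_one_right (by rw [u_mul_u, add_neg_cancel, u_zero])

theorem l_inv {R : Type*} [CommRing R] (g : R) : (lM g)⁻¹ = lM (-g) :=
  inv_eq_of_mul_eq_one_right (by rw [l_mul_l, add_neg_cancel, l_zero])

theorem map_uM {R S : Type*} [CommRing R] [CommRing S] (φ : R →+* S) (f : R) :
    Matrix.SpecialLinearGroup.map φ (uM f) = uM (φ f) := by
  apply Subtype.ext
  rw [Matrix.SpecialLinearGroup.map_apply_coe]
  ext i j
  fin_cases i <;> fin_cases j <;> simp [uM]

theorem map_lM {R S : Type*} [CommRing R] [CommRing S] (φ : R →+* S) (g : R) :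
    Matrix.SpecialLinearGroup.map φ (lM g) = lM (φ g) := by
  apply Subtype.ext
  rw [Matrix.SpecialLinearGroup.map_apply_coe]
  ext i j
  fin_cases i <;> fin_cases j <;> simp [lM]

/-- image of the `i`-th generator -/
noncomputable def gen (R : Type*) [CommRing R] (i : ℕ) : Matrix.SpecialLinearGroup (Fin 2) R[X] :=
  uM (X ^ (i + 1)) * lM (X ^ (i + 1))

theorem gen_inv (R : Type*) [CommRing R] (i : ℕ) :
    (gen R i)⁻¹ = lM (-(X ^ (i + 1))) * uM (-(X ^ (i + 1))) := by
  rw [gen, mul_inv_rev, l_inv, u_inv]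

theorem deg_step {F : Type*} [Field F] (a b c : F[X]) (hab : a.degree < b.degree)
    (hc : 0 < c.natDegree) : b.degree < (a + c * b).degree := by
  have hb : b ≠ 0 := by
    rintro rfl
    simp at hab
  have hc0 : c ≠ 0 := by
    rintro rfl
    simp at hc
  have h1 : b.degree < (c * b).degree := by
    rw [Polynomial.degree_mul, Polynomial.degree_eq_natDegree hb,
      Polynomial.degree_eq_natDegree hc0]
    exact_mod_cast (by omega : b.natDegree < c.natDegree + b.natDegree)
  rw [Polynomial.degree_add_eq_right_of_degree_lt (hab.trans h1)]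
  exact h1

theorem deg_step' {F : Type*} [Field F] (a b c : F[X]) (hab : a.degree < b.degree)
    (hc : 0 < c.natDegree) : b.degree < (c * b + a).degree := by
  rw [add_comm]
  exact deg_step a b c hab hc

theorem natDeg_sub {F : Type*} [Field F] (i j : ℕ) (h : j ≠ i) :
    0 < ((X : F[X]) ^ (j + 1) + -(X ^ (i + 1))).natDegree := by
  rw [← sub_eq_add_neg]
  rcases lt_or_gt_of_ne h with h1 | h1
  · rw [Polynomial.natDegree_sub_eq_right_of_natDegree_lt (by simp; omega)]
    simp
  · rw [Polynomial.natDegree_sub_eq_left_of_natDegree_lt (by simp; omega)]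
    simp

/-- the invariant -/
def Inv {F : Type*} [Field F] :
    List (ℕ × Bool) → Matrix.SpecialLinearGroup (Fin 2) F[X] → Prop
  | [], P => P = 1
  | (i, true) :: _, P => ∃ Q : Matrix.SpecialLinearGroup (Fin 2) F[X],
      P = uM (X ^ (i + 1)) * Q ∧ (Q.1 0 0).degree < (Q.1 1 0).degree
  | (i, false) :: _, P => ∃ Q : Matrix.SpecialLinearGroup (Fin 2) F[X],
      P = lM (-(X ^ (i + 1))) * Q ∧ (Q.1 1 0).degree < (Q.1 0 0).degree

theorem inv_step_true {F : Type*} [Field F] (j : ℕ) (L' : List (ℕ × Bool))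
    (hred : FreeGroup.IsReduced ((j, true) :: L')) (P' : Matrix.SpecialLinearGroup (Fin 2) F[X])
    (h : Inv L' P') :
    ((lM (X ^ (j + 1)) * P').1 0 0).degree < ((lM (X ^ (j + 1)) * P').1 1 0).degree := by
  rcases L' with _ | ⟨⟨i, b⟩, L''⟩
  · have hP : P' = 1 := h
    subst hP
    rw [mul_one]
    have h00 : (lM ((X : F[X]) ^ (j + 1))).1 0 0 = 1 := by simp [lM]
    have h10 : (lM ((X : F[X]) ^ (j + 1))).1 1 0 = X ^ (j + 1) := by simp [lM]
    rw [h00, h10, Polynomial.degree_one, Polynomial.degree_X_pow]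
    exact_mod_cast Nat.succ_pos j
  · cases b
    · obtain ⟨Q, rfl, hQ⟩ := h
      have hij : j ≠ i := by
        rw [FreeGroup.isReduced_cons_cons] at hred
        intro e
        have := hred.1 e
        simp at this
      rw [← mul_assoc, l_mul_l, l_mul_00, l_mul_10]
      exact deg_step' _ _ _ hQ (natDeg_sub i j hij)
    · obtain ⟨Q, rfl, hQ⟩ := h
      rw [l_mul_00, l_mul_10, u_mul_00, u_mul_10]
      have h1 := deg_step _ _ (X ^ (i + 1)) hQ (by simp)
      exact deg_step' _ _ _ h1 (by simp)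

theorem inv_step_false {F : Type*} [Field F] (j : ℕ) (L' : List (ℕ × Bool))
    (hred : FreeGroup.IsReduced ((j, false) :: L')) (P' : Matrix.SpecialLinearGroup (Fin 2) F[X])
    (h : Inv L' P') :
    ((uM (-(X ^ (j + 1))) * P').1 1 0).degree < ((uM (-(X ^ (j + 1))) * P').1 0 0).degree := by
  rcases L' with _ | ⟨⟨i, b⟩, L''⟩
  · have hP : P' = 1 := h
    subst hP
    rw [mul_one]
    have h00 : (uM (-((X : F[X]) ^ (j + 1)))).1 0 0 = 1 := by simp [uM]
    have h10 : (uM (-((X : F[X]) ^ (j + 1)))).1 1 0 = 0 := by simp [uM]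
    rw [h00, h10, Polynomial.degree_one, Polynomial.degree_zero]
    exact WithBot.bot_lt_coe 0
  · cases b
    · obtain ⟨Q, rfl, hQ⟩ := h
      rw [u_mul_00, u_mul_10, l_mul_00, l_mul_10]
      have h1 := deg_step' _ _ (-(X ^ (i + 1))) hQ (by simp)
      exact deg_step _ _ _ h1 (by simp)
    · obtain ⟨Q, rfl, hQ⟩ := h
      have hij : i ≠ j := by
        rw [FreeGroup.isReduced_cons_cons] at hred
        intro e
        have := hred.1 e.symm
        simp at this
      rw [← mul_assoc, u_mul_u, u_mul_00, u_mul_10, add_comm (-(X ^ (j + 1))) (X ^ (i + 1))]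
      exact deg_step _ _ _ hQ (natDeg_sub j i hij)

theorem inv_prod {F : Type*} [Field F] : ∀ (L : List (ℕ × Bool)), FreeGroup.IsReduced L →
    Inv L (L.map fun x => cond x.2 (gen F x.1) (gen F x.1)⁻¹).prod
  | [], _ => by
      change (List.map _ []).prod = 1
      simp
  | (j, true) :: L', hred => by
      have hredL : FreeGroup.IsReduced L' := hred.infix ⟨[(j, true)], [], by simp⟩
      have ih := inv_prod (F := F) L' hredL
      simp only [List.map_cons, List.prod_cons, cond_true]
      exact (show ∃ Q : Matrix.SpecialLinearGroup (Fin 2) F[X],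
        gen F j * (L'.map fun x => cond x.2 (gen F x.1) (gen F x.1)⁻¹).prod =
          uM (X ^ (j + 1)) * Q ∧ (Q.1 0 0).degree < (Q.1 1 0).degree from
        ⟨_, by rw [gen, mul_assoc], inv_step_true j L' hred _ ih⟩)
  | (j, false) :: L', hred => by
      have hredL : FreeGroup.IsReduced L' := hred.infix ⟨[(j, false)], [], by simp⟩
      have ih := inv_prod (F := F) L' hredL
      simp only [List.map_cons, List.prod_cons, cond_false]
      exact (show ∃ Q : Matrix.SpecialLinearGroup (Fin 2) F[X],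
        (gen F j)⁻¹ * (L'.map fun x => cond x.2 (gen F x.1) (gen F x.1)⁻¹).prod =
          lM (-(X ^ (j + 1))) * Q ∧ (Q.1 1 0).degree < (Q.1 0 0).degree from
        ⟨_, by rw [gen_inv, mul_assoc], inv_step_false j L' hred _ ih⟩)

theorem entry_ne_zero {F : Type*} [Field F] (L : List (ℕ × Bool)) (hred : FreeGroup.IsReduced L)
    (hne : L ≠ []) :
    ((L.map fun x => cond x.2 (gen F x.1) (gen F x.1)⁻¹).prod).1 1 0 ≠ 0 := by
  have h := inv_prod (F := F) L hred
  rcases L with _ | ⟨⟨i, b⟩, L'⟩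
  · exact absurd rfl hne
  · cases b
    · obtain ⟨Q, hQ, hdeg⟩ := h
      rw [hQ, l_mul_10]
      intro h0
      have := deg_step' _ _ (-(X ^ (i + 1))) hdeg (by simp)
      rw [h0] at this
      simp at this
    · obtain ⟨Q, hQ, hdeg⟩ := h
      rw [hQ, u_mul_10]
      intro h0
      rw [h0] at hdeg
      simp at hdeg

/-- the word map into `SL₂(R[X])` -/
noncomputable def Phi (R : Type*) [CommRing R] :
    FreeGroup ℕ →* Matrix.SpecialLinearGroup (Fin 2) R[X] :=
  FreeGroup.lift (gen R)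

theorem Phi_eq_prod {F : Type*} [Field F] (w : FreeGroup ℕ) :
    Phi F w = (w.toWord.map fun x => cond x.2 (gen F x.1) (gen F x.1)⁻¹).prod := by
  conv_lhs => rw [← FreeGroup.mk_toWord (x := w)]
  exact FreeGroup.lift_mk

theorem map_gen {R S : Type*} [CommRing R] [CommRing S] (φ : R →+* S) (i : ℕ) :
    Matrix.SpecialLinearGroup.map (Polynomial.mapRingHom φ) (gen R i) = gen S i := by
  rw [gen, map_mul, map_uM, map_lM]
  simp [gen]

theorem Phi_map {R S : Type*} [CommRing R] [CommRing S] (φ : R →+* S) :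
    (Matrix.SpecialLinearGroup.map (Polynomial.mapRingHom φ)).comp (Phi R) = Phi S := by
  apply FreeGroup.ext_hom
  intro i
  simp [Phi, map_gen]

theorem aux (w : FreeGroup ℕ) (hw : w ≠ 1) :
    ∃ N : ℕ, ∀ (F : Type*) [Field F] [Fintype F], N ≤ Fintype.card F →
      ∃ f : ℕ → Matrix.ProjectiveSpecialLinearGroup (Fin 2) F, FreeGroup.lift f w ≠ 1 := by
  refine ⟨((Phi ℤ w).1 1 0).natDegree + 1, ?_⟩
  intro F _ _ hcard
  have hne : w.toWord ≠ [] := fun h => hw (FreeGroup.toWord_eq_nil_iff.1 h)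
  have h1 : (Phi F w).1 1 0 ≠ 0 := by
    rw [Phi_eq_prod]
    exact entry_ne_zero _ FreeGroup.isReduced_toWord hne
  have h2 : (Phi F w).1 1 0 = ((Phi ℤ w).1 1 0).map (Int.castRingHom F) := by
    have h := DFunLike.congr_fun (Phi_map (Int.castRingHom F)) w
    rw [← h, MonoidHom.comp_apply, Matrix.SpecialLinearGroup.map_apply_coe]
    simp
  have h3 : ((Phi F w).1 1 0).natDegree < Fintype.card F := by
    rw [h2]
    exact lt_of_le_of_lt (Polynomial.natDegree_map_le) (by omega)
  obtain ⟨c, hc⟩ := Polynomial.exists_eval_ne_zero_of_natDegree_lt_card _ h1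
    (by rw [Cardinal.mk_fintype]; exact_mod_cast h3)
  obtain ⟨Ψ, hΨ⟩ : ∃ Ψ : FreeGroup ℕ →* Matrix.SpecialLinearGroup (Fin 2) F,
      Ψ = (Matrix.SpecialLinearGroup.map (Polynomial.evalRingHom c)).comp (Phi F) := ⟨_, rfl⟩
  obtain ⟨π, hπ⟩ : ∃ π : Matrix.SpecialLinearGroup (Fin 2) F →*
      Matrix.ProjectiveSpecialLinearGroup (Fin 2) F,
      π = QuotientGroup.mk' (Subgroup.center (Matrix.SpecialLinearGroup (Fin 2) F)) := ⟨_, rfl⟩
  refine ⟨fun i => π (Ψ (FreeGroup.of i)), ?_⟩
  have hcomp : FreeGroup.lift (fun i => π (Ψ (FreeGroup.of i))) = π.comp Ψ := by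
    apply FreeGroup.ext_hom
    intro a
    simp
  rw [hcomp, MonoidHom.comp_apply]
  intro h
  have hcen : Ψ w ∈ Subgroup.center (Matrix.SpecialLinearGroup (Fin 2) F) := by
    rw [hπ] at h
    exact (QuotientGroup.eq_one_iff (Ψ w)).1 h
  obtain ⟨r, -, hr⟩ := Matrix.SpecialLinearGroup.mem_center_iff.1 hcen
  have h4 : (Ψ w).1 1 0 = 0 := by
    rw [← hr]
    simp
  have h5 : (Ψ w).1 1 0 = ((Phi F w).1 1 0).eval c := by
    rw [hΨ, MonoidHom.comp_apply, Matrix.SpecialLinearGroup.map_apply_coe]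
    simp
  rw [h5] at h4
  exact hc h4


/-- A non-trivial law holds in PSL_2 over only finitely many finite fields: for every non-trivial element w of the free group on countably many generators there is N such that over every finite field with at least N elements some substitution of elements of PSL_2 into w is not the identity. -/
theorem result (w : FreeGroup ℕ) (hw : w ≠ 1) :
    ∃ N : ℕ, ∀ (F : Type*) [Field F] [Fintype F], N ≤ Fintype.card F →
      ∃ f : ℕ → Matrix.ProjectiveSpecialLinearGroup (Fin 2) F, FreeGroup.lift f w ≠ 1 := by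
  exact aux w hw

end Cfsg.Agent.S2353
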