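import Cfsg.Statements.S2623
import Mathlib
import Cfsg.Agent.Lib.helper13.QuadNormal
import Cfsg.Agent.S2620

set_option autoImplicit false
open Cfsg

namespace Cfsg.Agent.S2623

section Helpers

open Cfsg.Agent.S2562 Cfsg.Agent.S2616 Cfsg.Agent.S2617 Cfsg.Agent.Lib.helper13

universe u v

variable {F : Type u} [Field F]

/-- a nondegenerate quadratic form of dimension at least two over a finite field represents `1` -/
lemma rep_one [Finite F] {V : Type v} [AddCommGroup V] [Module F V] [FiniteDimensional F V]
    (Q : QuadraticForm F V) (hQ : (QuadraticMap.polarBilin Q).Nondegenerate)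
    (hV : 2 ≤ Module.finrank F V) : ∃ x, Q x = 1 := by
  by_cases hsing : ∃ e : V, e ≠ 0 ∧ Q e = 0
  · obtain ⟨e, he0, he⟩ := hsing
    obtain ⟨f, hf, hef⟩ := exists_partner Q hQ e he0 he
    refine ⟨e + f, ?_⟩
    have : Q (e + f) = Q e + Q f + QuadraticMap.polar Q e f := by simp [QuadraticMap.polar]
    rw [this, he, hf, hef]
    ring
  · push Not at hsing
    have han : ∀ v : V, Q v = 0 → v = 0 := fun v hv => by
      by_contra h
      exact hsing v h hv
    have h2 : Module.finrank F V = 2 := by
      by_contra h
      obtain ⟨v, hv0, hv⟩ := exists_singular Q (by omega)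
      exact hv0 (han v hv)
    exact exists_Q_one Q h2 han

/-- normalized orthogonal basis in odd characteristic -/
lemma orth_basis [Finite F] (h2 : (2 : F) ≠ 0) : ∀ (n : ℕ) {V : Type v} [AddCommGroup V]
    [Module F V] [FiniteDimensional F V] (Q : QuadraticForm F V), Module.finrank F V = n →
    (QuadraticMap.polarBilin Q).Nondegenerate →
    ∃ b : Module.Basis (Fin n) F V, (∀ i j, i ≠ j → QuadraticMap.polar Q (b i) (b j) = 0) ∧
      (∀ i : Fin n, (i : ℕ) + 1 < n → Q (b i) = 1) ∧ ∀ i, Q (b i) ≠ 0 := by
  intro n
  induction n with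
  | zero =>
    intro V _ _ _ Q hV hQ
    exact ⟨Module.finBasisOfFinrankEq F V hV, fun i => i.elim0, fun i => i.elim0, fun i => i.elim0⟩
  | succ n ih =>
    intro V _ _ _ Q hV hQ
    obtain ⟨x, hx0, hx1⟩ : ∃ x : V, Q x ≠ 0 ∧ (1 ≤ n → Q x = 1) := by
      by_cases hn : 1 ≤ n
      · obtain ⟨x, hx⟩ := rep_one Q hQ (by omega)
        exact ⟨x, by rw [hx]; exact one_ne_zero, fun _ => hx⟩
      · obtain ⟨x, hx⟩ : ∃ x : V, x ≠ 0 := by
          have : Nontrivial V := Module.nontrivial_of_finrank_pos (R := F) (by omega)
          exact exists_ne 0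
        refine ⟨x, ?_, fun h => absurd h hn⟩
        intro h0
        apply hx
        apply hQ.1
        intro z
        have h1 : Module.finrank F V = 1 := by omega
        obtain ⟨c, rfl⟩ := (finrank_eq_one_iff_of_nonzero' x hx).mp h1 z
        rw [QuadraticMap.polarBilin_apply_apply, QuadraticMap.polar_smul_right,
          QuadraticMap.polar_self, h0]
        simp
    have hxx : QuadraticMap.polar Q x x ≠ 0 := by
      rw [QuadraticMap.polar_self]
      simp [h2, hx0]
    have hfin : Module.finrank F (LinearMap.ker (QuadraticMap.polarBilin Q x)) = n := by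
      have h1 := LinearMap.finrank_range_add_finrank_ker (QuadraticMap.polarBilin Q x)
      have h3 : LinearMap.range (QuadraticMap.polarBilin Q x) = ⊤ := by
        rw [LinearMap.range_eq_top]
        intro c
        refine ⟨(c / QuadraticMap.polar Q x x) • x, ?_⟩
        rw [map_smul, QuadraticMap.polarBilin_apply_apply, smul_eq_mul]
        field_simp
      rw [h3, finrank_top, Module.finrank_self, hV] at h1
      omega
    have hmem : ∀ y : LinearMap.ker (QuadraticMap.polarBilin Q x), QuadraticMap.polar Q x y = 0 :=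
      fun y => y.2
    have hnd : (QuadraticMap.polarBilin (res Q (LinearMap.ker (QuadraticMap.polarBilin Q x)))).Nondegenerate := by
      apply nondeg_of_sep
      intro y hy
      apply Subtype.ext
      apply hQ.1
      intro z
      have hz : z - (QuadraticMap.polar Q x z / QuadraticMap.polar Q x x) • x ∈
          LinearMap.ker (QuadraticMap.polarBilin Q x) := by
        show QuadraticMap.polarBilin Q x (z - (QuadraticMap.polar Q x z / QuadraticMap.polar Q x x) • x) = 0
        rw [map_sub, map_smul, QuadraticMap.polarBilin_apply_apply,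
          QuadraticMap.polarBilin_apply_apply, smul_eq_mul]
        field_simp
        ring
      have h1 := hy ⟨_, hz⟩
      rw [polar_res] at h1
      have hyx : QuadraticMap.polar Q (y : V) x = 0 := by
        rw [QuadraticMap.polar_comm]; exact hmem y
      simp only [QuadraticMap.polar_sub_right, QuadraticMap.polar_smul_right, hyx] at h1
      simpa using h1
    obtain ⟨b', hb1, hb2, hb3⟩ := ih (res Q (LinearMap.ker (QuadraticMap.polarBilin Q x))) hfin hnd
    let b := Module.Basis.mkFinCons x b' (by
        intro c y hy h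
        have h3 := congrArg (QuadraticMap.polarBilin Q x) h
        have hy' : QuadraticMap.polarBilin Q x y = 0 := hy
        rw [map_add, map_smul, hy', map_zero, add_zero, QuadraticMap.polarBilin_apply_apply,
          smul_eq_mul] at h3
        exact (mul_eq_zero.mp h3).resolve_right hxx)
      (by
        intro z
        refine ⟨-(QuadraticMap.polar Q x z / QuadraticMap.polar Q x x), ?_⟩
        show QuadraticMap.polarBilin Q x (z + -(QuadraticMap.polar Q x z / QuadraticMap.polar Q x x) • x) = 0
        rw [map_add, map_smul, QuadraticMap.polarBilin_apply_apply,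
          QuadraticMap.polarBilin_apply_apply, smul_eq_mul]
        field_simp
        ring)
    have hb : (b : Fin (n + 1) → V) = Fin.cons x (Subtype.val ∘ b') :=
      Module.Basis.coe_mkFinCons _ _ _ _
    refine ⟨b, ?_, ?_, ?_⟩
    · intro i j
      rw [hb]
      refine Fin.cases ?_ (fun i' => ?_) i <;> refine Fin.cases ?_ (fun j' => ?_) j
      · intro h; exact absurd rfl h
      · intro _
        simpa using hmem (b' j')
      · intro _
        have := hmem (b' i')
        rw [QuadraticMap.polar_comm] at this
        simpa using this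
      · intro hij
        have h1 := hb1 i' j' (fun h => hij (by rw [h]))
        rw [polar_res] at h1
        simpa using h1
    · intro i
      rw [hb]
      refine Fin.cases ?_ (fun i' => ?_) i
      · intro h
        have hn : 1 ≤ n := by
          simp at h
          omega
        simpa using hx1 hn
      · intro h
        have h1 := hb2 i' (by simpa using h)
        simpa [res_apply] using h1
    · intro i
      rw [hb]
      refine Fin.cases ?_ (fun i' => ?_) i
      · simpa using hx0
      · have h1 := hb3 i'
        simpa [res_apply] using h1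

/-- the polar form in matrix form -/
lemma polar_matrix {n : ℕ} (Q : QuadraticForm F (Fin n → F)) (u v : Fin n → F) :
    QuadraticMap.polar Q u v = u ⬝ᵥ ((Matrix.of (fun i j : Fin n =>
      QuadraticMap.polar Q (Pi.single i 1) (Pi.single j 1))).mulVec v) := by
  have h1 : Matrix.of (fun i j : Fin n => QuadraticMap.polar Q (Pi.single i 1) (Pi.single j 1)) =
      LinearMap.BilinForm.toMatrix' (QuadraticMap.polarBilin Q) := by
    ext i j
    rw [LinearMap.BilinForm.toMatrix'_apply]
    rfl
  rw [h1, ← Matrix.toBilin'_apply', Matrix.toBilin'_toMatrix']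
  rfl

end Helpers

/-- Over a finite field of odd order, two quadratic forms on F^n with non-degenerate polar forms are isometric (related by an invertible linear change of variables) if and only if their discriminants (determinants of the Gram matrices of their polar forms) lie in the same square class. -/
theorem result {F : Type*} [Field F] [Fintype F] (h2 : (2 : F) ≠ 0) {n : ℕ} (Q₁ Q₂ : QuadraticForm F (Fin n → F)) (h₁ : (QuadraticMap.polarBilin Q₁).Nondegenerate) (h₂ : (QuadraticMap.polarBilin Q₂).Nondegenerate) : (∃ g : (Fin n → F) ≃ₗ[F] (Fin n → F), ∀ v, Q₂ (g v) = Q₁ v) ↔ IsSquare ((Matrix.of (fun i j : Fin n => QuadraticMap.polar ⇑Q₁ (Pi.single i 1) (Pi.single j 1))).det * (Matrix.of (fun i j : Fin n => QuadraticMap.polar ⇑Q₂ (Pi.single i 1) (Pi.single j 1))).det) := by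
  classical
  set S₁ := Matrix.of (fun i j : Fin n => QuadraticMap.polar Q₁ (Pi.single i 1) (Pi.single j 1)) with hS₁
  set S₂ := Matrix.of (fun i j : Fin n => QuadraticMap.polar Q₂ (Pi.single i 1) (Pi.single j 1)) with hS₂
  constructor
  · rintro ⟨g, hg⟩
    let b : Module.Basis (Fin n) F (Fin n → F) := (Pi.basisFun F (Fin n)).map g
    obtain ⟨d, hd, hdet⟩ := Cfsg.Agent.S2620.gram_det S₂ (QuadraticMap.polar Q₂)
      (fun u v => polar_matrix Q₂ u v) b
    have hgram : Matrix.of (fun i j : Fin n => QuadraticMap.polar Q₂ (b i) (b j)) = S₁ := by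
      ext i j
      simp only [Matrix.of_apply, hS₁, b, Module.Basis.map_apply, Pi.basisFun_apply]
      simp only [QuadraticMap.polar, ← map_add, hg]
    rw [hgram] at hdet
    exact ⟨d * S₂.det, by rw [hdet]; ring⟩
  · rintro ⟨r, hr⟩
    rcases Nat.eq_zero_or_pos n with rfl | hn
    · refine ⟨LinearEquiv.refl F _, fun v => ?_⟩
      have hv : v = 0 := Subsingleton.elim _ _
      show Q₂ v = Q₁ v
      rw [hv, map_zero, map_zero]
    obtain ⟨n', rfl⟩ : ∃ n', n = n' + 1 := ⟨n - 1, by omega⟩
    have hV : Module.finrank F (Fin (n' + 1) → F) = n' + 1 := by simp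
    obtain ⟨b₁, ho₁, hone₁, hne₁⟩ := orth_basis h2 (n' + 1) Q₁ hV h₁
    obtain ⟨b₂, ho₂, hone₂, hne₂⟩ := orth_basis h2 (n' + 1) Q₂ hV h₂
    have hone₁' : ∀ i, i ≠ Fin.last n' → Q₁ (b₁ i) = 1 := fun i hi =>
      hone₁ i (by have := Fin.val_lt_last hi; omega)
    have hone₂' : ∀ i, i ≠ Fin.last n' → Q₂ (b₂ i) = 1 := fun i hi =>
      hone₂ i (by have := Fin.val_lt_last hi; omega)
    -- Gram determinants
    have hgram : ∀ (Q : QuadraticForm F (Fin (n' + 1) → F)) (b : Module.Basis (Fin (n' + 1)) F (Fin (n' + 1) → F)),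
        (∀ i j, i ≠ j → QuadraticMap.polar Q (b i) (b j) = 0) →
        (∀ i, i ≠ Fin.last n' → Q (b i) = 1) →
        (Matrix.of (fun i j : Fin (n' + 1) => QuadraticMap.polar Q (b i) (b j))).det =
          2 ^ (n' + 1) * Q (b (Fin.last n')) := by
      intro Q b ho hone
      have h3 : Matrix.of (fun i j : Fin (n' + 1) => QuadraticMap.polar Q (b i) (b j)) =
          Matrix.diagonal (fun i => 2 * Q (b i)) := by
        ext i j
        by_cases hij : i = j
        · subst hij
          simp [QuadraticMap.polar_self]
        · simp [Matrix.diagonal_apply_ne _ hij, ho i j hij]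
      rw [h3, Matrix.det_diagonal, Finset.prod_mul_distrib, Finset.prod_const, Finset.card_univ,
        Fintype.card_fin, Finset.prod_eq_single (Fin.last n')]
      · intro i _ hi
        exact hone i hi
      · intro h
        exact absurd (Finset.mem_univ _) h
    obtain ⟨c₁, hc₁, hdet₁⟩ := Cfsg.Agent.S2620.gram_det S₁ (QuadraticMap.polar Q₁)
      (fun u v => polar_matrix Q₁ u v) b₁
    obtain ⟨c₂, hc₂, hdet₂⟩ := Cfsg.Agent.S2620.gram_det S₂ (QuadraticMap.polar Q₂)
      (fun u v => polar_matrix Q₂ u v) b₂
    rw [hgram Q₁ b₁ ho₁ hone₁'] at hdet₁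
    rw [hgram Q₂ b₂ ho₂ hone₂'] at hdet₂
    set d₁ := Q₁ (b₁ (Fin.last n')) with hd₁
    set d₂ := Q₂ (b₂ (Fin.last n')) with hd₂
    have hd₁0 : d₁ ≠ 0 := hne₁ _
    have hd₂0 : d₂ ≠ 0 := hne₂ _
    have h2n : (2 : F) ^ (n' + 1) ≠ 0 := pow_ne_zero _ h2
    -- s with s * s * d₂ = d₁
    obtain ⟨s, hs⟩ : ∃ s : F, s * s * d₂ = d₁ := by
      have e1 : (2 : F) ^ (n' + 1) * d₁ * (2 ^ (n' + 1) * d₂) = (c₁ * c₂ * r) * (c₁ * c₂ * r) := by
        rw [hdet₁, hdet₂]
        have : c₁ * c₁ * S₁.det * (c₂ * c₂ * S₂.det) = c₁ * c₁ * c₂ * c₂ * (S₁.det * S₂.det) := by ring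
        rw [this, hr]
        ring
      refine ⟨c₁ * c₂ * r / (2 ^ (n' + 1) * d₂), ?_⟩
      rw [div_mul_div_comm, ← e1]
      field_simp
    let w : Fin (n' + 1) → F := fun i => if i = Fin.last n' then s else 1
    let g : (Fin (n' + 1) → F) →ₗ[F] (Fin (n' + 1) → F) := b₁.constr F (fun i => w i • b₂ i)
    have hgb : ∀ i, g (b₁ i) = w i • b₂ i := fun i => Module.Basis.constr_basis b₁ F _ i
    have hval : ∀ i, Q₂ (w i • b₂ i) = Q₁ (b₁ i) := by
      intro i
      rw [QuadraticMap.map_smul]
      by_cases hi : i = Fin.last n'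
      · subst hi
        simp only [w, if_true, smul_eq_mul]
        exact hs
      · simp only [w, hi, if_false, smul_eq_mul, hone₁' i hi, hone₂' i hi]
        ring
    have hcomp : Q₂.comp g = Q₁ := by
      apply Cfsg.Agent.Lib.helper13.quad_ext_basis b₁
      · intro i
        rw [QuadraticMap.comp_apply, hgb, hval]
      · intro i j
        rw [Cfsg.Agent.Lib.helper13.polar_comp', hgb, hgb]
        by_cases hij : i = j
        · subst hij
          rw [QuadraticMap.polar_self, QuadraticMap.polar_self, hval]
        · rw [QuadraticMap.polar_smul_left, QuadraticMap.polar_smul_right, ho₂ i j hij, ho₁ i j hij]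
          simp
    have hgQ : ∀ v, Q₂ (g v) = Q₁ v := fun v => by
      rw [← hcomp]
      rfl
    have hinj : Function.Injective g := by
      rw [injective_iff_map_eq_zero]
      intro v hv
      apply h₁.1
      intro u
      rw [QuadraticMap.polarBilin_apply_apply]
      have : QuadraticMap.polar Q₁ v u = QuadraticMap.polar Q₂ (g v) (g u) := by
        simp only [QuadraticMap.polar, ← map_add, hgQ]
      rw [this, hv]
      simp
    exact ⟨LinearEquiv.ofInjectiveEndo g hinj, fun v => hgQ v⟩

end Cfsg.Agent.S2623
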