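import Cfsg.Statements.S4499
import Cfsg.Agent.Lib.helper22.BlockDeg

set_option autoImplicit false
open Cfsg

namespace Cfsg.Agent.S4499

open Cfsg.Agent.Lib.helper22 Cfsg.Agent.Lib.helper23

theorem result {G : Type*} [Group G] [Finite G] (p : ℕ) [Fact p.Prime] (M : Ideal Cfsg.AlgInt) (hM : Cfsg.IsPModular p M) (hpa : p ∣ Nat.card G) (B : Set (Cfsg.IrrCharacter G)) (hB : Cfsg.IsPBlock M B) (χ : Cfsg.IrrCharacter G) (hχ : χ ∈ B) (hdiv : p ^ ((Nat.card G).factorization p - 1) ∣ Cfsg.charDegree (χ : G → ℂ)) (ψ : Cfsg.IrrCharacter G) (hψ : ψ ∈ B) : p ^ ((Nat.card G).factorization p - 1) ∣ Cfsg.charDegree (ψ : G → ℂ) := by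
  obtain ⟨χ₀, rfl⟩ := hB
  have hMp := isPModular_isPrime hM
  apply block_degree_pow p M hM χ ψ ?_ hdiv
  intro g
  have h1 : Cfsg.MemLocalIdeal M (Cfsg.centralChar χ₀.1 g - Cfsg.centralChar χ.1 g) := hχ g
  have h2 : Cfsg.MemLocalIdeal M (Cfsg.centralChar χ₀.1 g - Cfsg.centralChar ψ.1 g) := hψ g
  have h3 := memLocalIdeal_sub hMp h2 h1
  have e : Cfsg.centralChar χ₀.1 g - Cfsg.centralChar ψ.1 g
      - (Cfsg.centralChar χ₀.1 g - Cfsg.centralChar χ.1 g)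
      = Cfsg.centralChar χ.1 g - Cfsg.centralChar ψ.1 g := by ring
  rw [e] at h3
  exact h3

end Cfsg.Agent.S4499
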