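import Cfsg.Statements.S1618

import Cfsg.Agent.Lib.helper16.ZStar
import Cfsg.Agent.Lib.helper8.CoprimeAction
import Cfsg.Agent.Lib.helper9.PPrimeCore
set_option autoImplicit false
open Cfsg

namespace Cfsg.Agent.S1618

open scoped commutatorElement

theorem card_inverted {G : Type*} [Group G] [Finite G] (K : Subgroup G) (d : G) (hdd : d * d = 1)
    (hK : ∀ k ∈ K, d * k * d⁻¹ ∈ K) (hodd : Odd (Nat.card K)) :
    Nat.card K = Nat.card {a : G // a ∈ K ∧ d * a * d⁻¹ = a⁻¹} *
      Nat.card ↥(K ⊓ Subgroup.centralizer ({d} : Set G)) := by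
  obtain ⟨m, hm⟩ := hodd
  have hdinv : d⁻¹ = d := inv_eq_of_mul_eq_one_left hdd
  have hpow : ∀ k ∈ K, k ^ (2 * m + 1) = 1 := by
    intro k hk
    have := pow_card_eq_one' (G := ↥K) (x := ⟨k, hk⟩)
    rw [hm] at this
    exact congrArg Subtype.val this
  have hsq : ∀ k ∈ K, (k * k) ^ (m + 1) = k := by
    intro k hk
    have : (k * k) ^ (m + 1) = k ^ (2 * m + 1) * k := by
      rw [← pow_two, ← pow_mul, ← pow_succ]; congr 1
    rw [this, hpow k hk, one_mul]
  have key : ∀ a c : G, d * a * d⁻¹ = a⁻¹ → c * d = d * c → (a * c) * d * (a * c)⁻¹ = a * a * d := by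
    intro a c hai hcd
    have h1 : d * a⁻¹ = a * d := by
      calc d * a⁻¹ = (d * a * d⁻¹)⁻¹ * d := by group
        _ = a * d := by rw [hai, inv_inv]
    calc (a * c) * d * (a * c)⁻¹ = a * (c * d) * c⁻¹ * a⁻¹ := by group
      _ = a * (d * c) * c⁻¹ * a⁻¹ := by rw [hcd]
      _ = a * (d * a⁻¹) := by group
      _ = a * (a * d) := by rw [h1]
      _ = a * a * d := by group
  rw [← Nat.card_prod]
  symm
  apply Nat.card_eq_of_bijective (fun x : {a : G // a ∈ K ∧ d * a * d⁻¹ = a⁻¹} ×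
    ↥(K ⊓ Subgroup.centralizer ({d} : Set G)) =>
      (⟨x.1.1 * x.2.1, K.mul_mem x.1.2.1 (Subgroup.mem_inf.mp x.2.2).1⟩ : ↥K))
  constructor
  · rintro ⟨⟨a, ha, hai⟩, ⟨c, hc⟩⟩ ⟨⟨a', ha', hai'⟩, ⟨c', hc'⟩⟩ h
    have h' : a * c = a' * c' := congrArg Subtype.val h
    have hcd : c * d = d * c := Subgroup.mem_centralizer_singleton_iff.mp (Subgroup.mem_inf.mp hc).2
    have hcd' : c' * d = d * c' :=
      Subgroup.mem_centralizer_singleton_iff.mp (Subgroup.mem_inf.mp hc').2
    have e1 := key a c hai hcd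
    have e2 := key a' c' hai' hcd'
    rw [h'] at e1
    have haa : a * a = a' * a' := mul_right_cancel (e1.symm.trans e2)
    have haeq : a = a' := by rw [← hsq a ha, ← hsq a' ha', haa]
    subst haeq
    have hceq : c = c' := mul_left_cancel h'
    subst hceq
    rfl
  · rintro ⟨k, hk⟩
    have ht : k * (d * k⁻¹ * d⁻¹) ∈ K := K.mul_mem hk (hK _ (K.inv_mem hk))
    obtain ⟨t, htdef⟩ : ∃ t, t = k * (d * k⁻¹ * d⁻¹) := ⟨_, rfl⟩
    have htK : t ∈ K := htdef ▸ ht
    have hti : d * t * d⁻¹ = t⁻¹ := by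
      rw [htdef, hdinv]
      have : (k * (d * k⁻¹ * d))⁻¹ = d⁻¹ * k * d⁻¹ * k⁻¹ := by group
      rw [this, hdinv]
      calc d * (k * (d * k⁻¹ * d)) * d = d * k * d * k⁻¹ * (d * d) := by group
        _ = d * k * d * k⁻¹ := by rw [hdd, mul_one]
    obtain ⟨b, hbdef⟩ : ∃ b, b = t ^ (m + 1) := ⟨_, rfl⟩
    have hbK : b ∈ K := hbdef ▸ K.pow_mem htK _
    have hbb : b * b = t := by
      rw [hbdef, ← pow_add]
      have : m + 1 + (m + 1) = (2 * m + 1) + 1 := by ring
      rw [this, pow_succ, hpow t htK, one_mul]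
    have hbi : d * b * d⁻¹ = b⁻¹ := by
      rw [hbdef]
      have : d * t ^ (m + 1) * d⁻¹ = (d * t * d⁻¹) ^ (m + 1) := by rw [conj_pow]
      rw [this, hti, inv_pow]
    have hc : b⁻¹ * k ∈ K ⊓ Subgroup.centralizer ({d} : Set G) := by
      refine Subgroup.mem_inf.mpr ⟨K.mul_mem (K.inv_mem hbK) hk, ?_⟩
      rw [Subgroup.mem_centralizer_singleton_iff]
      have h0 : d * b⁻¹ = b * d := by
        calc d * b⁻¹ = (d * b * d⁻¹)⁻¹ * d := by group
          _ = b * d := by rw [hbi, inv_inv]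
      have h1 : b * d * b⁻¹ = b * b * d := by
        calc b * d * b⁻¹ = b * (d * b⁻¹) := by group
          _ = b * (b * d) := by rw [h0]
          _ = b * b * d := by group
      have h2 : t * d = k * d * k⁻¹ := by rw [htdef]; group
      have h3 : b * d * b⁻¹ = k * d * k⁻¹ := by rw [h1, hbb, h2]
      calc b⁻¹ * k * d = b⁻¹ * (k * d * k⁻¹) * k := by group
        _ = b⁻¹ * (b * d * b⁻¹) * k := by rw [h3]
        _ = d * (b⁻¹ * k) := by group
    exact ⟨(⟨b, hbK, hbi⟩, ⟨b⁻¹ * k, hc⟩), by apply Subtype.ext; simp⟩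

/-- A group generated by a class of involutions whose pairwise products (of distinct members) have p-power order for a fixed odd prime p has nilpotent derived subgroup. -/
theorem result {G : Type*} [Group G] [Finite G] (p : ℕ) (hp : p.Prime) (hodd : p ≠ 2) {D : Set G} (hinv : ∀ d ∈ D, orderOf d = 2) (hconj : ∃ d ∈ D, D = conjugatesOf d) (hgen : Subgroup.closure D = ⊤) (hprod : ∀ x ∈ D, ∀ y ∈ D, x ≠ y → ∃ k : ℕ, orderOf (x * y) = p ^ k) : Group.IsNilpotent ↥(commutator G) := by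

  classical
  haveI : Fact p.Prime := ⟨hp⟩
  obtain ⟨d, hdD, hDeq⟩ := hconj
  have hd2 : orderOf d = 2 := hinv d hdD
  have hdd : d * d = 1 := by rw [← sq, ← hd2]; exact pow_orderOf_eq_one d
  have hdinv : d⁻¹ = d := inv_eq_of_mul_eq_one_left hdd
  have hDconj : ∀ g : G, g * d * g⁻¹ ∈ D := by
    intro g; rw [hDeq]; exact isConj_iff.mpr ⟨g, rfl⟩
  have hDform : ∀ x ∈ D, ∃ g : G, g * d * g⁻¹ = x := by
    intro x hx; rw [hDeq] at hx; exact isConj_iff.mp hx
  have hxx : ∀ x ∈ D, x * x = 1 := by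
    intro x hx; rw [← sq, ← hinv x hx]; exact pow_orderOf_eq_one x
  have hpodd : Odd p := hp.odd_of_ne_two hodd
  have hprodOdd : ∀ x ∈ D, Odd (orderOf (d * x)) := by
    intro x hx
    by_cases hxd : x = d
    · rw [hxd, hdd, orderOf_one]; exact odd_one
    · obtain ⟨k, hk⟩ := hprod d hdD x hx (fun e => hxd e.symm)
      rw [hk]; exact hpodd.pow
  have hcomm : ∀ g : G, d * g * d⁻¹ * g⁻¹ = d * (g * d * g⁻¹) := by
    intro g; rw [hdinv]; group
  have hZ : ∀ g : G, d * (g * d * g⁻¹) ∈ Cfsg.pPrimeCore 2 G := by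
    intro g
    rw [← hcomm]
    apply Cfsg.Agent.Lib.helper16.ZStar.zstar d hd2
    intro g'
    rw [hcomm]
    exact hprodOdd _ (hDconj g')
  have hKodd : Odd (Nat.card (Cfsg.pPrimeCore 2 G)) :=
    Nat.coprime_two_right.mp (Cfsg.Agent.Lib.helper9.pPrimeCore_coprime 2 G)
  obtain ⟨M, hMdef⟩ : ∃ M : Subgroup G, M = Subgroup.closure {a : G | ∃ x ∈ D, a = d * x} :=
    ⟨_, rfl⟩
  have hIM : ∀ x ∈ D, d * x ∈ M := fun x hx => by
    rw [hMdef]; exact Subgroup.subset_closure ⟨x, hx, rfl⟩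
  have hMK : M ≤ Cfsg.pPrimeCore 2 G := by
    rw [hMdef, Subgroup.closure_le]
    rintro a ⟨x, hx, rfl⟩
    obtain ⟨g, rfl⟩ := hDform x hx
    exact hZ g
  have hModd : Odd (Nat.card M) := Odd.of_dvd_nat hKodd (Subgroup.card_dvd_of_le hMK)
  have hinvgen : ∀ x ∈ D, d * (d * x) * d⁻¹ = (d * x)⁻¹ := by
    intro x hx
    have hxinv : x⁻¹ = x := inv_eq_of_mul_eq_one_left (hxx x hx)
    rw [mul_inv_rev, hxinv, hdinv]
    calc d * (d * x) * d = (d * d) * x * d := by group
      _ = x * d := by rw [hdd, one_mul]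
  have hdM : ∀ m ∈ M, d * m * d⁻¹ ∈ M := by
    intro m hm
    rw [hMdef] at hm
    induction hm using Subgroup.closure_induction with
    | mem a ha =>
      obtain ⟨x, hx, rfl⟩ := ha
      rw [hinvgen x hx]; exact M.inv_mem (hIM x hx)
    | one => rw [mul_one, mul_inv_cancel]; exact M.one_mem
    | mul a b _ _ iha ihb =>
      have : d * (a * b) * d⁻¹ = (d * a * d⁻¹) * (d * b * d⁻¹) := by group
      rw [this]; exact M.mul_mem iha ihb
    | inv a _ iha =>
      have : d * a⁻¹ * d⁻¹ = (d * a * d⁻¹)⁻¹ := by group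
      rw [this]; exact M.inv_mem iha
  have hxM : ∀ x ∈ D, ∀ m ∈ M, x * m * x⁻¹ ∈ M := by
    intro x hx m hm
    have e : x * m * x⁻¹ = d * ((d * x) * m * (d * x)⁻¹) * d⁻¹ := by
      have : x = d * (d * x) := by rw [← mul_assoc, hdd, one_mul]
      conv_lhs => rw [this]
      group
    rw [e]
    exact hdM _ (M.mul_mem (M.mul_mem (hIM x hx) hm) (M.inv_mem (hIM x hx)))
  have hnormal : M.Normal := by
    constructor
    intro n hn g
    have hg : g ∈ Subgroup.closure D := by rw [hgen]; exact Subgroup.mem_top g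
    have : ∀ m ∈ M, g * m * g⁻¹ ∈ M ∧ g⁻¹ * m * g ∈ M := by
      induction hg using Subgroup.closure_induction with
      | mem x hx =>
        intro m hm
        have hxinv : x⁻¹ = x := inv_eq_of_mul_eq_one_left (hxx x hx)
        have h1 := hxM x hx m hm
        refine ⟨h1, ?_⟩
        rw [hxinv] at h1 ⊢
        exact h1
      | one => intro m hm; simpa using hm
      | mul a b _ _ iha ihb =>
        intro m hm
        constructor
        · have : a * b * m * (a * b)⁻¹ = a * (b * m * b⁻¹) * a⁻¹ := by group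
          rw [this]; exact (iha _ (ihb m hm).1).1
        · have : (a * b)⁻¹ * m * (a * b) = b⁻¹ * (a⁻¹ * m * a) * b := by group
          rw [this]; exact (ihb _ (iha m hm).2).2
      | inv a _ iha =>
        intro m hm
        constructor
        · have : a⁻¹ * m * a⁻¹⁻¹ = a⁻¹ * m * a := by group
          rw [this]; exact (iha m hm).2
        · have : a⁻¹⁻¹ * m * a⁻¹ = a * m * a⁻¹ := by group
          rw [this]; exact (iha m hm).1
    exact (this n hn).1
  have hcommM : commutator G ≤ M := by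
    haveI := hnormal
    have hpow : ∀ g : G, ∃ n : ℕ, (QuotientGroup.mk' M g) = (QuotientGroup.mk' M d) ^ n := by
      intro g
      have hg : g ∈ Subgroup.closure D := by rw [hgen]; exact Subgroup.mem_top g
      induction hg using Subgroup.closure_induction with
      | mem x hx =>
        refine ⟨1, ?_⟩
        rw [pow_one]
        have : x = d * (d * x) := by rw [← mul_assoc, hdd, one_mul]
        conv_lhs => rw [this]
        rw [map_mul]
        have h1 : QuotientGroup.mk' M (d * x) = 1 := (QuotientGroup.eq_one_iff (d * x)).mpr (hIM x hx)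
        rw [h1, mul_one]
      | one => exact ⟨0, by simp⟩
      | mul a b _ _ iha ihb =>
        obtain ⟨n, hn⟩ := iha
        obtain ⟨k, hk⟩ := ihb
        exact ⟨n + k, by rw [map_mul, hn, hk, pow_add]⟩
      | inv a _ iha =>
        obtain ⟨n, hn⟩ := iha
        refine ⟨n, ?_⟩
        rw [map_inv, hn]
        exact inv_eq_of_mul_eq_one_right
          (by rw [← pow_add, ← two_mul, pow_mul, pow_two, ← map_mul, hdd, map_one, one_pow])
    rw [commutator_def, Subgroup.commutator_le]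
    intro g₁ _ g₂ _
    obtain ⟨n, hn⟩ := hpow g₁
    obtain ⟨k, hk⟩ := hpow g₂
    have h1 : QuotientGroup.mk' M ⁅g₁, g₂⁆ = 1 := by
      rw [map_commutatorElement, hn, hk]
      exact commutatorElement_eq_one_iff_commute.mpr ((Commute.refl _).pow_pow n k)
    exact (QuotientGroup.eq_one_iff _).mp h1
  have hMp : IsPGroup p M := by
    have hinvM : ∀ a ∈ M, d * a * d⁻¹ = a⁻¹ → ∃ x ∈ D, a = d * x := by
      intro a ha hai
      obtain ⟨m, hm⟩ := hModd
      have hpow : a ^ (2 * m + 1) = 1 := by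
        have := pow_card_eq_one' (G := ↥M) (x := ⟨a, ha⟩)
        rw [hm] at this
        exact congrArg Subtype.val this
      obtain ⟨b, hbdef⟩ : ∃ b, b = a⁻¹ ^ (m + 1) := ⟨_, rfl⟩
      have hbb : b * b = a⁻¹ := by
        rw [hbdef, ← pow_add]
        have : m + 1 + (m + 1) = (2 * m + 1) + 1 := by ring
        rw [this, pow_succ, inv_pow, hpow, inv_one, one_mul]
      have hbi : d * b * d⁻¹ = b⁻¹ := by
        rw [hbdef]
        have h1 : d * a⁻¹ ^ (m + 1) * d⁻¹ = (d * a⁻¹ * d⁻¹) ^ (m + 1) := by rw [conj_pow]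
        have h2 : d * a⁻¹ * d⁻¹ = a := by
          calc d * a⁻¹ * d⁻¹ = (d * a * d⁻¹)⁻¹ := by group
            _ = a := by rw [hai, inv_inv]
        rw [h1, h2, inv_pow, inv_inv]
      refine ⟨d * a, ?_, by rw [← mul_assoc, hdd, one_mul]⟩
      rw [hDeq]
      refine isConj_iff.mpr ⟨b, ?_⟩
      have h3 : d * b⁻¹ = b * d := by
        calc d * b⁻¹ = (d * b * d⁻¹)⁻¹ * d := by group
          _ = b * d := by rw [hbi, inv_inv]
      have h4 : d * a = a⁻¹ * d := by
        calc d * a = (d * a * d⁻¹) * d := by group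
          _ = a⁻¹ * d := by rw [hai]
      calc b * d * b⁻¹ = b * (d * b⁻¹) := by group
        _ = b * (b * d) := by rw [h3]
        _ = (b * b) * d := by group
        _ = d * a := by rw [hbb, h4]
    have hppow : ∀ a ∈ M, d * a * d⁻¹ = a⁻¹ → ∃ k : ℕ, orderOf a = p ^ k := by
      intro a ha hai
      obtain ⟨x, hx, rfl⟩ := hinvM a ha hai
      by_cases hxd : x = d
      · exact ⟨0, by rw [hxd, hdd, orderOf_one, pow_zero]⟩
      · exact hprod d hdD x hx (fun e => hxd e.symm)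
    have hcount := card_inverted M d hdd hdM hModd
    obtain ⟨IM, hIMdef⟩ : ∃ n : ℕ, n = Nat.card {a : G // a ∈ M ∧ d * a * d⁻¹ = a⁻¹} := ⟨_, rfl⟩
    obtain ⟨cC, hcC⟩ : ∃ n : ℕ, n = Nat.card ↥(M ⊓ Subgroup.centralizer ({d} : Set G)) :=
      ⟨_, rfl⟩
    rw [← hIMdef, ← hcC] at hcount
    have hMpos : 0 < Nat.card M := Nat.card_pos
    have hIMpos : IM ≠ 0 := by rintro rfl; rw [zero_mul] at hcount; omega
    have hcCpos : cC ≠ 0 := by rintro rfl; rw [mul_zero] at hcount; omega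
    have hzn : Subgroup.zpowers d ≤ Subgroup.normalizer (M : Set G) := by
      rw [Subgroup.normalizer_eq_top_iff.mpr hnormal]; exact le_top
    have hzc : Nat.card (Subgroup.zpowers d) = 2 := by rw [Nat.card_zpowers, hd2]
    have hzcop : (Nat.card (Subgroup.zpowers d)).Coprime (Nat.card M) := by
      rw [hzc]; exact Nat.coprime_two_left.mpr hModd
    have hzsolv : Group.IsSolvable ↥(Subgroup.zpowers d) := by
      apply Group.isSolvable_of_comm
      rintro ⟨a, ha⟩ ⟨b, hb⟩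
      apply Subtype.ext
      obtain ⟨i, rfl⟩ := Subgroup.mem_zpowers_iff.mp ha
      obtain ⟨j, rfl⟩ := Subgroup.mem_zpowers_iff.mp hb
      exact zpow_mul_comm d i j
    have hIMp : ∀ q : ℕ, q.Prime → q ∣ IM → q = p := by
      intro q hq hqd
      by_contra hqp
      haveI : Fact q.Prime := ⟨hq⟩
      obtain ⟨Q, hQ⟩ := Cfsg.Agent.Lib.helper8.exists_invariant_sylow (p := q)
        (Subgroup.zpowers d) M hzn hzcop (Or.inl hzsolv)
      obtain ⟨Q₀, hQ₀⟩ : ∃ Q₀ : Subgroup G, Q₀ = (Q : Subgroup M).map M.subtype := ⟨_, rfl⟩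
      rw [← hQ₀] at hQ
      have hQ₀M : Q₀ ≤ M := by rw [hQ₀]; exact Subgroup.map_subtype_le _
      have hQ₀card : Nat.card Q₀ = q ^ (Nat.card M).factorization q := by
        rw [hQ₀]; exact Cfsg.Agent.Lib.helper8.card_sylow_map M Q
      have hQ₀p : IsPGroup q Q₀ := by rw [hQ₀]; exact Q.isPGroup'.map _
      have hdQ : ∀ y ∈ Q₀, d * y * d⁻¹ ∈ Q₀ := fun y hy =>
        Cfsg.Agent.Lib.helper8.conj_mem_of_mem_normalizer (hQ (Subgroup.mem_zpowers d)) hy
      have hQC : Q₀ ≤ M ⊓ Subgroup.centralizer ({d} : Set G) := by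
        intro y hy
        refine Subgroup.mem_inf.mpr ⟨hQ₀M hy, ?_⟩
        have ht : y * (d * y⁻¹ * d⁻¹) ∈ Q₀ := Q₀.mul_mem hy (hdQ _ (Q₀.inv_mem hy))
        have hti : d * (y * (d * y⁻¹ * d⁻¹)) * d⁻¹ = (y * (d * y⁻¹ * d⁻¹))⁻¹ := by
          rw [hdinv]
          have : (y * (d * y⁻¹ * d))⁻¹ = d⁻¹ * y * d⁻¹ * y⁻¹ := by group
          rw [this, hdinv]
          calc d * (y * (d * y⁻¹ * d)) * d = d * y * d * y⁻¹ * (d * d) := by group
            _ = d * y * d * y⁻¹ := by rw [hdd, mul_one]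
        obtain ⟨k, hk⟩ := hppow _ (hQ₀M ht) hti
        obtain ⟨j, hj⟩ := (IsPGroup.iff_orderOf.mp hQ₀p) ⟨_, ht⟩
        rw [Subgroup.orderOf_mk, hk] at hj
        have hk0 : k = 0 := by
          by_contra hk0
          have h1 : p ∣ q ^ j := by rw [← hj]; exact dvd_pow_self p hk0
          exact hqp ((Nat.prime_dvd_prime_iff_eq hp hq).mp (hp.dvd_of_dvd_pow h1)).symm
        rw [hk0, pow_zero, orderOf_eq_one_iff] at hk
        rw [Subgroup.mem_centralizer_singleton_iff]
        calc y * d = y * (d * y⁻¹ * d⁻¹) * (d * y) := by group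
          _ = d * y := by rw [hk, one_mul]
      have hdvd : q ^ (Nat.card M).factorization q ∣ cC := by
        rw [← hQ₀card, hcC]; exact Subgroup.card_dvd_of_le hQC
      have h1 : (Nat.card M).factorization q ≤ cC.factorization q :=
        (hq.pow_dvd_iff_le_factorization hcCpos).mp hdvd
      have h2 : (Nat.card M).factorization q = IM.factorization q + cC.factorization q := by
        rw [hcount, Nat.factorization_mul hIMpos hcCpos]; rfl
      have h3 : 0 < IM.factorization q := hq.factorization_pos_of_dvd hIMpos hqd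
      omega
    obtain ⟨n, hn⟩ : ∃ n : ℕ, IM = p ^ n :=
      ⟨_, Nat.eq_prime_pow_of_unique_prime_dvd hIMpos (fun {q} hq hqd => hIMp q hq hqd)⟩
    obtain ⟨P, hP⟩ := Cfsg.Agent.Lib.helper8.exists_invariant_sylow (p := p)
      (Subgroup.zpowers d) M hzn hzcop (Or.inl hzsolv)
    obtain ⟨P₀, hP₀⟩ : ∃ P₀ : Subgroup G, P₀ = (P : Subgroup M).map M.subtype := ⟨_, rfl⟩
    rw [← hP₀] at hP
    have hP₀M : P₀ ≤ M := by rw [hP₀]; exact Subgroup.map_subtype_le _
    have hP₀card : Nat.card P₀ = p ^ (Nat.card M).factorization p := by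
      rw [hP₀]; exact Cfsg.Agent.Lib.helper8.card_sylow_map M P
    have hP₀p : IsPGroup p P₀ := by rw [hP₀]; exact P.isPGroup'.map _
    have hdP : ∀ y ∈ P₀, d * y * d⁻¹ ∈ P₀ := fun y hy =>
      Cfsg.Agent.Lib.helper8.conj_mem_of_mem_normalizer (hP (Subgroup.mem_zpowers d)) hy
    have hP₀odd : Odd (Nat.card P₀) := Odd.of_dvd_nat hModd (Subgroup.card_dvd_of_le hP₀M)
    have hcountP := card_inverted P₀ d hdd hdP hP₀odd
    have hCP : Nat.card ↥(P₀ ⊓ Subgroup.centralizer ({d} : Set G)) ∣ cC := by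
      rw [hcC]; exact Subgroup.card_dvd_of_le (inf_le_inf_right _ hP₀M)
    obtain ⟨c, hc⟩ : ∃ c : ℕ, Nat.card ↥(P₀ ⊓ Subgroup.centralizer ({d} : Set G)) = p ^ c := by
      have : IsPGroup p ↥(P₀ ⊓ Subgroup.centralizer ({d} : Set G)) := hP₀p.to_le inf_le_left
      exact (IsPGroup.iff_card.mp this)
    have hc_le : c ≤ cC.factorization p := by
      rw [hc] at hCP
      exact (hp.pow_dvd_iff_le_factorization hcCpos).mp hCP
    have hvM : (Nat.card M).factorization p = n + cC.factorization p := by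
      rw [hcount, Nat.factorization_mul hIMpos hcCpos, hn, hp.factorization_pow]
      simp
    have hIPge : IM ≤ Nat.card {a : G // a ∈ P₀ ∧ d * a * d⁻¹ = a⁻¹} := by
      rw [hP₀card, hvM, hc] at hcountP
      have e : p ^ (n + cC.factorization p) = p ^ (n + cC.factorization p - c) * p ^ c := by
        rw [← pow_add]; congr 1; omega
      rw [e] at hcountP
      have hX := Nat.eq_of_mul_eq_mul_right (pow_pos hp.pos c) hcountP
      rw [hn, ← hX]
      exact Nat.pow_le_pow_right hp.pos (by omega)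
    have hinj : Function.Injective (fun a : {a : G // a ∈ P₀ ∧ d * a * d⁻¹ = a⁻¹} =>
        (⟨a.1, hP₀M a.2.1, a.2.2⟩ : {a : G // a ∈ M ∧ d * a * d⁻¹ = a⁻¹})) := by
      intro a b h
      have h' := congrArg (fun z : {a : G // a ∈ M ∧ d * a * d⁻¹ = a⁻¹} => (z : G)) h
      exact Subtype.ext h'
    have hbij := hinj.bijective_of_nat_card_le (by rw [← hIMdef]; exact hIPge)
    have hMP : M ≤ P₀ := by
      rw [hMdef, Subgroup.closure_le]
      rintro a ⟨x, hx, rfl⟩
      obtain ⟨⟨a', ha'⟩, h⟩ := hbij.2 ⟨d * x, hIM x hx, hinvgen x hx⟩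
      have : a' = d * x := congrArg Subtype.val h
      rw [← this]; exact ha'.1
    exact hP₀p.to_le hMP
  have hfin : IsPGroup p ↥(commutator G) := hMp.to_le hcommM
  exact hfin.isNilpotent

end Cfsg.Agent.S1618
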