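import Cfsg.Statements.S4494
import Cfsg.Agent.Lib.helper22.BlockDeg
import Cfsg.Agent.Lib.helper23.PTruncHeight

set_option autoImplicit false
open Cfsg

namespace Cfsg.Agent.S4494

open Cfsg.Agent.Lib.helper24 Cfsg.Agent.Lib.helper23 Cfsg.Agent.Lib.helper22 Cfsg.Agent.Lib.helper5
open scoped ComplexConjugate

universe u

theorem inner_ptrunc_eq_mreg {G : Type u} [Group G] [Fintype G] (p : ℕ) (θ θ' : G → ℂ) :
    classInner (ptrunc p θ) θ'
      = ((p ^ (Nat.card G).factorization p : ℕ) : ℂ) * mreg p θ θ' := by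
  rw [mreg_eq]
  unfold classInner ptrunc
  rw [mul_left_comm]
  congr 1
  rw [Finset.mul_sum]
  apply Finset.sum_congr rfl
  intro x _
  show (if p ∣ orderOf x then (0 : ℂ)
    else ((p ^ (Nat.card G).factorization p : ℕ) : ℂ) * θ x) * conj (θ' x) = _
  split_ifs
  · rw [zero_mul, mul_zero]
  · ring

theorem ptrunc_parseval {G : Type u} [Group G] [Fintype G] [Fintype (IrrCharacter G)]
    (p : ℕ) [hp : Fact p.Prime] (χ : IrrCharacter G) (n : IrrCharacter G → ℤ)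
    (hn : ∀ ξ : IrrCharacter G, classInner (ptrunc p χ.1) ξ.1 = n ξ) :
    ∑ ξ : IrrCharacter G, n ξ ^ 2 = ((p ^ (Nat.card G).factorization p : ℕ) : ℤ) * n χ := by
  have hpa : ((p ^ (Nat.card G).factorization p : ℕ) : ℂ) ≠ 0 := by
    exact_mod_cast (pow_pos hp.out.pos _).ne'
  have hm : ∀ ξ : IrrCharacter G, mreg p χ.1 ξ.1
      = (n ξ : ℂ) / ((p ^ (Nat.card G).factorization p : ℕ) : ℂ) := by
    intro ξ
    rw [← hn ξ, inner_ptrunc_eq_mreg]
    field_simp
  have h := mreg_parseval p χ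
  have h2 : ∑ ξ : IrrCharacter G, ((n ξ : ℂ)) ^ 2
      = ((p ^ (Nat.card G).factorization p : ℕ) : ℂ) * (n χ : ℂ) := by
    have h3 : ∀ ξ : IrrCharacter G, (n ξ : ℂ) ^ 2
        = ((p ^ (Nat.card G).factorization p : ℕ) : ℂ) ^ 2
          * (mreg p χ.1 ξ.1 * conj (mreg p χ.1 ξ.1)) := by
      intro ξ
      rw [hm ξ, map_div₀, map_intCast, map_natCast]
      field_simp
    rw [Finset.sum_congr rfl (fun ξ _ => h3 ξ), ← Finset.mul_sum, h, hm χ]
    field_simp
  exact_mod_cast h2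

theorem bf_bound {G : Type u} [Group G] [Finite G] (p : ℕ) [hp : Fact p.Prime]
    (M : Ideal AlgInt) (hM : IsPModular p M) (B : Set (IrrCharacter G)) (hB : IsPBlock M B) :
    4 * Nat.card B ≤ p ^ (2 * blockDefect p B) + 4 := by
  classical
  have := Fintype.ofFinite G
  have := Fintype.ofFinite (IrrCharacter G)
  have hBne : B.Nonempty := by
    obtain ⟨χ₀, rfl⟩ := hB
    refine ⟨χ₀, ?_⟩
    intro g
    rw [sub_self]
    exact memLocalIdeal_zero (isPModular_isPrime hM).ne_top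
  have himne : ((fun χ : IrrCharacter G => (charDegree χ.1).factorization p) '' B).Nonempty :=
    hBne.image _
  obtain ⟨χ₁, hχ₁B, hχ₁⟩ := Nat.sInf_mem himne
  obtain ⟨e, he⟩ : ∃ e : ℕ, e
      = sInf ((fun χ : IrrCharacter G => (charDegree χ.1).factorization p) '' B) := ⟨_, rfl⟩
  have hχ₁e : (charDegree χ₁.1).factorization p = e := by rw [he]; exact hχ₁
  have hmin : ∀ ξ ∈ B, e ≤ (charDegree ξ.1).factorization p := by
    intro ξ hξ
    rw [he]
    exact Nat.sInf_le ⟨ξ, hξ, rfl⟩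
  obtain ⟨a, ha⟩ : ∃ a : ℕ, a = (Nat.card G).factorization p := ⟨_, rfl⟩
  have hea : e ≤ a := by
    rw [← hχ₁e, ha]
    exact factorization_charDegree_le p χ₁
  have hd : blockDefect p B = a - e := by
    unfold blockDefect
    rw [← he, ← ha]
  have hht : blockHeight p B χ₁.1 = 0 := by
    unfold blockHeight
    rw [← he, hχ₁e, Nat.sub_self]
  have hall := (height_zero_iff hM B hB χ₁ hχ₁B).2.mp hht
  choose n hn using fun ξ : IrrCharacter G => exists_int_inner_ptrunc p (isCharacter_irr χ₁) ξ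
  have hpz : (p : ℤ) ≠ 0 := by exact_mod_cast hp.out.ne_zero
  have hnB : ∀ ξ ∈ B, n ξ ≠ 0 ∧ (p : ℤ) ^ e ∣ n ξ := by
    intro ξ hξ
    obtain ⟨n', h1, h2, h3⟩ := hall ξ hξ
    have e1 : n' = n ξ := by
      have := h1.symm.trans (hn ξ)
      exact_mod_cast this
    subst e1
    refine ⟨h2, ?_⟩
    rw [padicValInt_dvd_iff]
    right
    rw [h3]
    exact hmin ξ hξ
  have hpars := ptrunc_parseval p χ₁ n hn
  rw [← ha] at hpars
  have hA : ∀ ξ : IrrCharacter G, ∃ A : ℤ, ξ ∈ B → (n ξ = (p : ℤ) ^ e * A ∧ A ≠ 0) := by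
    intro ξ
    by_cases hξ : ξ ∈ B
    · obtain ⟨h0, A, hA⟩ := hnB ξ hξ
      refine ⟨A, fun _ => ⟨hA, ?_⟩⟩
      rintro rfl
      rw [mul_zero] at hA
      exact h0 hA
    · exact ⟨0, fun h => absurd h hξ⟩
  choose A hA using hA
  have hcard : Nat.card B = (Finset.univ.filter (fun ξ : IrrCharacter G => ξ ∈ B)).card := by
    rw [Nat.card_eq_fintype_card, Fintype.card_subtype]
  have hsumB : ∑ ξ ∈ Finset.univ.filter (fun ξ : IrrCharacter G => ξ ∈ B), n ξ ^ 2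
      ≤ ((p ^ a : ℕ) : ℤ) * n χ₁ := by
    rw [← hpars]
    apply Finset.sum_le_sum_of_subset_of_nonneg (Finset.filter_subset _ _)
    intro ξ _ _
    positivity
  have hsumA : ∑ ξ ∈ Finset.univ.filter (fun ξ : IrrCharacter G => ξ ∈ B), A ξ ^ 2
      ≤ (p : ℤ) ^ (a - e) * A χ₁ := by
    have hpe : (0 : ℤ) < (p : ℤ) ^ e := by positivity
    have h1 : ∑ ξ ∈ Finset.univ.filter (fun ξ : IrrCharacter G => ξ ∈ B), n ξ ^ 2
        = ((p : ℤ) ^ e) ^ 2
          * ∑ ξ ∈ Finset.univ.filter (fun ξ : IrrCharacter G => ξ ∈ B), A ξ ^ 2 := by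
      rw [Finset.mul_sum]
      apply Finset.sum_congr rfl
      intro ξ hξ
      rw [Finset.mem_filter] at hξ
      rw [(hA ξ hξ.2).1]
      ring
    have h2 : ((p ^ a : ℕ) : ℤ) * n χ₁ = ((p : ℤ) ^ e) ^ 2 * ((p : ℤ) ^ (a - e) * A χ₁) := by
      rw [(hA χ₁ hχ₁B).1]
      have h3 : ((p ^ a : ℕ) : ℤ) = (p : ℤ) ^ e * (p : ℤ) ^ (a - e) := by
        rw [← pow_add]
        push_cast
        congr 1
        omega
      rw [h3]
      ring
    rw [h1, h2] at hsumB
    exact le_of_mul_le_mul_left hsumB (by positivity)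
  have hcount : ((Finset.univ.filter (fun ξ : IrrCharacter G => ξ ∈ B)).card : ℤ) - 1 + A χ₁ ^ 2
      ≤ ∑ ξ ∈ Finset.univ.filter (fun ξ : IrrCharacter G => ξ ∈ B), A ξ ^ 2 := by
    have hmem : χ₁ ∈ Finset.univ.filter (fun ξ : IrrCharacter G => ξ ∈ B) := by
      rw [Finset.mem_filter]
      exact ⟨Finset.mem_univ _, hχ₁B⟩
    rw [← Finset.add_sum_erase _ _ hmem]
    have h1 : (((Finset.univ.filter (fun ξ : IrrCharacter G => ξ ∈ B)).erase χ₁).card : ℤ)
        ≤ ∑ ξ ∈ (Finset.univ.filter (fun ξ : IrrCharacter G => ξ ∈ B)).erase χ₁, A ξ ^ 2 := by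
      have h2 : ∀ ξ ∈ (Finset.univ.filter (fun ξ : IrrCharacter G => ξ ∈ B)).erase χ₁,
          (1 : ℤ) ≤ A ξ ^ 2 := by
        intro ξ hξ
        rw [Finset.mem_erase, Finset.mem_filter] at hξ
        have h3 := (hA ξ hξ.2.2).2
        have h4 : 0 < A ξ ^ 2 := by positivity
        omega
      have h5 := Finset.card_nsmul_le_sum _ _ (1 : ℤ) h2
      rw [nsmul_eq_mul, mul_one] at h5
      exact h5
    have h6 := Finset.card_erase_of_mem hmem
    have h7 : 0 < (Finset.univ.filter (fun ξ : IrrCharacter G => ξ ∈ B)).card :=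
      Finset.card_pos.mpr ⟨χ₁, hmem⟩
    have h8 : (((Finset.univ.filter (fun ξ : IrrCharacter G => ξ ∈ B)).erase χ₁).card : ℤ)
        = ((Finset.univ.filter (fun ξ : IrrCharacter G => ξ ∈ B)).card : ℤ) - 1 := by
      rw [h6]
      push_cast [Nat.cast_sub h7]
      ring
    rw [h8] at h1
    linarith
  rw [hcard, hd]
  have hfin : (4 : ℤ) * ((Finset.univ.filter (fun ξ : IrrCharacter G => ξ ∈ B)).card : ℤ)
      ≤ ((p : ℤ) ^ (a - e)) ^ 2 + 4 := by
    nlinarith [sq_nonneg ((p : ℤ) ^ (a - e) - 2 * A χ₁)]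
  have hpow : p ^ (2 * (a - e)) = (p ^ (a - e)) ^ 2 := by
    rw [← pow_mul, mul_comm]
  rw [hpow]
  exact_mod_cast hfin

theorem result {G : Type*} [Group G] [Finite G] (p : ℕ) [Fact p.Prime] (M : Ideal Cfsg.AlgInt) (hM : Cfsg.IsPModular p M) (B : Set (Cfsg.IrrCharacter G)) (hB : Cfsg.IsPBlock M B) : 4 * Nat.card B ≤ p ^ (2 * Cfsg.blockDefect p B) + 4 := by
  exact bf_bound p M hM B hB

end Cfsg.Agent.S4494
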