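import Cfsg.Statements.S4443
import Cfsg.Agent.Lib.helper5.BlockCountRank

set_option autoImplicit false
open Cfsg

namespace Cfsg.Agent.S4443

open Cfsg.Agent.Lib.helper5 Cfsg.Agent.Lib.helper23 Cfsg.Agent.Lib.helper24
open scoped ComplexConjugate

/-- Let D be a normal p-subgroup of the finite group G, of order p^d, let p^a be the p-part of the order of G, and fix a Sylow p-subgroup S and a maximal ideal M of the algebraic integers containing p. Index by a finite type ι (via an injective map K) exactly the conjugacy classes of p-regular elements x of G for which D is a Sylow p-subgroup of C_G(x). For classes K_i, K_j let ω(i, j) be the number of pairs (y, z) ∈ K_i × K_j with z y⁻¹ ∈ S; this number is divisible by p^(a−d). Then the number of p-blocks of G having D as a defect group equals the rank over ℤ/pℤ of the matrix with (i, j) entry ω(i, j)/p^(a−d) reduced modulo p. -/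
theorem result {G : Type*} [Group G] [Finite G] (p : ℕ) [Fact p.Prime] (M : Ideal Cfsg.AlgInt) (hM : Cfsg.IsPModular p M) (D : Subgroup G) [D.Normal] (hD : IsPGroup p D) (S : Sylow p G) {ι : Type*} [Fintype ι] [DecidableEq ι] (K : ι → ConjClasses G) (hKinj : Function.Injective K) (hK : ∀ C : ConjClasses G, (∃ i, K i = C) ↔ ∃ x ∈ C.carrier, ¬ p ∣ orderOf x ∧ ∃ Q : Sylow p (Subgroup.centralizer ({x} : Set G)), (Q : Subgroup (Subgroup.centralizer ({x} : Set G))).map (Subgroup.centralizer ({x} : Set G)).subtype = D) : Nat.card {B : Set (Cfsg.IrrCharacter G) // Cfsg.IsPBlock M B ∧ Cfsg.IsDefectGroup p M B D} = (Matrix.of fun i j : ι => ((Nat.card {yz : G × G // yz.1 ∈ (K i).carrier ∧ yz.2 ∈ (K j).carrier ∧ yz.2 * yz.1⁻¹ ∈ (S : Subgroup G)} / p ^ ((Nat.card G).factorization p - (Nat.card D).factorization p) : ℕ) : ZMod p)).rank := by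
  classical
  haveI := Fintype.ofFinite G
  haveI := Fintype.ofFinite (Cfsg.IrrCharacter G)
  have hMp := isPModular_isPrime hM
  have hp : p.Prime := Fact.out
  haveI hmax := locIdeal_isMaximal hMp
  letI : Field (resRing M hMp) := Ideal.Quotient.field (locIdeal M hMp)
  have hπ : ∀ z : ↥(locRing M hMp), resMap M hMp z = 0 ↔ Cfsg.MemLocalIdeal M (z : ℂ) :=
    resMap_eq_zero_iff hMp
  haveI : CharP (resRing M hMp) p := by
    rw [CharP.charP_iff_prime_eq_zero hp]
    have h1 : ((p : ℕ) : resRing M hMp) = resMap M hMp ((p : ℕ) : ↥(locRing M hMp)) :=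
      (map_natCast _ _).symm
    rw [h1, hπ, Subring.coe_natCast, memLocalIdeal_natCast_iff hM]
  -- choose representatives
  have hch : ∀ i, ∃ x ∈ (K i).carrier, ¬ p ∣ orderOf x ∧
      ∃ Q : Sylow p (Subgroup.centralizer ({x} : Set G)),
        (Q : Subgroup (Subgroup.centralizer ({x} : Set G))).map
          (Subgroup.centralizer ({x} : Set G)).subtype = D := fun i => (hK (K i)).mp ⟨i, rfl⟩
  choose x hxK hxreg Q hQ using hch
  have hcar : ∀ (i : ι) (y : G), y ∈ (K i).carrier ↔ IsConj (x i) y := by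
    intro i y
    rw [ConjClasses.mem_carrier_iff_mk_eq, ← ConjClasses.mem_carrier_iff_mk_eq.mp (hxK i),
      ConjClasses.mk_eq_mk_iff_isConj]
    exact ⟨IsConj.symm, IsConj.symm⟩
  have hNeq : ∀ i j, Nat.card {yz : G × G // yz.1 ∈ (K i).carrier ∧ yz.2 ∈ (K j).carrier ∧
        yz.2 * yz.1⁻¹ ∈ (S : Subgroup G)}
      = Nat.card {yz : G × G // IsConj (x i) yz.1 ∧ IsConj (x j) yz.2 ∧
        yz.2 * yz.1⁻¹ ∈ (S : Subgroup G)} := by
    intro i j
    apply Nat.card_congr
    apply Equiv.subtypeEquivRight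
    intro yz
    rw [hcar, hcar]
  have hrank := block_count_rank_aux hM hMp (resMap M hMp) hπ D S K hKinj hK x hxK hxreg Q hQ
  -- transfer to `ZMod p`
  obtain ⟨NF, hNF⟩ : ∃ NF : Matrix ι ι (ZMod p), NF = Matrix.of fun i j : ι =>
      ((Nat.card {yz : G × G // yz.1 ∈ (K i).carrier ∧ yz.2 ∈ (K j).carrier ∧
          yz.2 * yz.1⁻¹ ∈ (S : Subgroup G)}
        / p ^ ((Nat.card G).factorization p - (Nat.card D).factorization p) : ℕ) : ZMod p) :=
    ⟨_, rfl⟩
  rw [← hNF]
  have hmap : NF.map (ZMod.castHom (dvd_refl p) (resRing M hMp))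
      = Matrix.of fun i j : ι =>
        ((Nat.card {yz : G × G // IsConj (x i) yz.1 ∧ IsConj (x j) yz.2 ∧
            yz.2 * yz.1⁻¹ ∈ (S : Subgroup G)}
          / p ^ ((Nat.card G).factorization p - (Nat.card D).factorization p) : ℕ)
          : resRing M hMp) := by
    ext i j
    rw [Matrix.map_apply, hNF, Matrix.of_apply, Matrix.of_apply, map_natCast, hNeq i j]
  rw [← rank_map_field (ZMod.castHom (dvd_refl p) (resRing M hMp)) NF, hmap, hrank]
  -- count the blocks
  rw [← Nat.card_eq_fintype_card]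
  symm
  apply Nat.card_congr
  refine Equiv.ofBijective (fun τ => ⟨Cfsg.blockOf M τ.1.1, ⟨τ.1, rfl⟩, τ.2.2⟩) ⟨?_, ?_⟩
  · intro τ τ' h
    have h1 : Cfsg.blockOf M τ.1.1 = Cfsg.blockOf M τ'.1.1 := congrArg Subtype.val h
    have h2 := blockRep_congr hMp h1
    rw [τ.2.1, τ'.2.1] at h2
    exact Subtype.ext h2
  · rintro ⟨B, hB, hBD⟩
    obtain ⟨χ₀, rfl⟩ := hB
    refine ⟨⟨blockRep M χ₀, blockRep_blockRep hMp χ₀, ?_⟩, ?_⟩
    · rw [blockOf_blockRep hMp]
      exact hBD
    · apply Subtype.ext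
      exact blockOf_blockRep hMp χ₀

end Cfsg.Agent.S4443
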