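import Cfsg.Statements.S0445
-- import your own Cfsg.Agent.* helpers here
import Mathlib

set_option autoImplicit false
open Cfsg

namespace Cfsg.Agent.S0445

section
abbrev R := ZMod 2

open Matrix

def mk (a : R) (x : Fin 4 → R) (y : Fin 3 → R) (M : Matrix (Fin 3) (Fin 3) R) : Matrix (Fin 5) (Fin 5) R :=
  !![a, x 0, x 1, x 2, x 3;
     0, a, 0, 0, 0;
     0, y 0, M 0 0, M 0 1, M 0 2;
     0, y 1, M 1 0, M 1 1, M 1 2;
     0, y 2, M 2 0, M 2 1, M 2 2]

theorem det_mk (a : R) (x : Fin 4 → R) (y : Fin 3 → R) (M : Matrix (Fin 3) (Fin 3) R) : (mk a x y M).det = a * a * M.det := by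
  rw [Matrix.det_succ_column_zero]
  simp [Fin.sum_univ_succ, mk, Matrix.det_succ_row_zero, Fin.succAbove, Matrix.submatrix]
  ring

theorem comm_iff (A : Matrix (Fin 5) (Fin 5) R) :
    Matrix.transvection 0 1 1 * A = A * Matrix.transvection 0 1 1 ↔
    (A 1 0 = 0 ∧ A 2 0 = 0 ∧ A 3 0 = 0 ∧ A 4 0 = 0 ∧ A 1 2 = 0 ∧ A 1 3 = 0 ∧ A 1 4 = 0 ∧ A 0 0 = A 1 1) := by
  have key : Matrix.transvection 0 1 1 * A = A * Matrix.transvection 0 1 1 ↔
      Matrix.single (0 : Fin 5) (1 : Fin 5) (1 : R) * A = A * Matrix.single (0 : Fin 5) (1 : Fin 5) (1 : R) := by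
    rw [Matrix.transvection, Matrix.add_mul, Matrix.mul_add, Matrix.one_mul, Matrix.mul_one]
    exact add_right_inj A
  rw [key]
  constructor
  · intro h
    have e := fun i j => congrFun (congrFun h i) j
    have e10 := e 1 1
    have e20 := e 2 1
    have e30 := e 3 1
    have e40 := e 4 1
    have e12 := e 0 2
    have e13 := e 0 3
    have e14 := e 0 4
    have e00 := e 0 0
    have e11 := e 0 1
    simp [Matrix.mul_apply, Matrix.single] at e10 e20 e30 e40 e12 e13 e14 e00 e11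
    refine ⟨e10.symm, e20.symm, e30.symm, e40.symm, e12, e13, e14, e11.symm⟩
  · rintro ⟨h10, h20, h30, h40, h12, h13, h14, h00⟩
    ext i j
    fin_cases i <;> fin_cases j <;> simp [Matrix.mul_apply, Matrix.single, *]

theorem pattern (A : Matrix (Fin 5) (Fin 5) R) (h10 : A 1 0 = 0) (h20 : A 2 0 = 0) (h30 : A 3 0 = 0)
    (h40 : A 4 0 = 0) (h12 : A 1 2 = 0) (h13 : A 1 3 = 0) (h14 : A 1 4 = 0) (h00 : A 0 0 = A 1 1) :
    A = mk (A 0 0) (fun i => A 0 i.succ) (fun i => A i.succ.succ 1)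
      (Matrix.of fun i j => A i.succ.succ j.succ.succ) := by
  ext i j
  fin_cases i <;> fin_cases j <;> simp [mk, *]

theorem zmod2_cases : ∀ a d : ZMod 2, a * a * d = 1 → a = 1 ∧ d = 1 := by decide
theorem zmod2_ne : ∀ a : ZMod 2, a ≠ 0 → a = 1 := by decide

theorem aux (s : Matrix.SpecialLinearGroup (Fin 5) (ZMod 2)) (hs : (s : Matrix (Fin 5) (Fin 5) (ZMod 2)) = Matrix.transvection 0 1 1) : Nat.card (Subgroup.centralizer ({s} : Set (Matrix.SpecialLinearGroup (Fin 5) (ZMod 2)))) = 21504 := by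
  have : Fact (Nat.Prime 2) := ⟨Nat.prime_two⟩
  have hmem : ∀ g : Matrix.SpecialLinearGroup (Fin 5) (ZMod 2), g ∈ Subgroup.centralizer ({s} : Set _) ↔ (Matrix.transvection 0 1 1 * (g : Matrix (Fin 5) (Fin 5) (ZMod 2)) = (g : Matrix (Fin 5) (Fin 5) (ZMod 2)) * Matrix.transvection 0 1 1) := by
    intro g
    rw [Subgroup.mem_centralizer_iff]
    simp only [Set.mem_singleton_iff, forall_eq]
    rw [← hs, ← Matrix.SpecialLinearGroup.coe_mul, ← Matrix.SpecialLinearGroup.coe_mul]
    exact ⟨fun h => by rw [h], fun h => Subtype.ext h⟩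
  have hdet : ∀ M : GL (Fin 3) R, (M : Matrix (Fin 3) (Fin 3) R).det = 1 := by
    intro M
    apply zmod2_ne
    exact ((Matrix.isUnit_iff_isUnit_det _).mp (Units.isUnit M)).ne_zero
  have hcm : ∀ (x : Fin 4 → R) (y : Fin 3 → R) (M : Matrix (Fin 3) (Fin 3) R),
      Matrix.transvection 0 1 1 * mk 1 x y M = mk 1 x y M * Matrix.transvection 0 1 1 := by
    intro x y M
    rw [comm_iff]
    simp [mk]
  let f : (Fin 4 → R) × (Fin 3 → R) × GL (Fin 3) R → Subgroup.centralizer ({s} : Set (Matrix.SpecialLinearGroup (Fin 5) (ZMod 2))) := fun t =>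
    ⟨(⟨mk 1 t.1 t.2.1 (t.2.2 : Matrix (Fin 3) (Fin 3) R), by rw [det_mk, hdet]; simp⟩ : Matrix.SpecialLinearGroup (Fin 5) (ZMod 2)), (hmem _).mpr (hcm _ _ _)⟩
  have hf : ∀ t, (((f t : Subgroup.centralizer ({s} : Set (Matrix.SpecialLinearGroup (Fin 5) (ZMod 2)))) : Matrix.SpecialLinearGroup (Fin 5) (ZMod 2)) : Matrix (Fin 5) (Fin 5) (ZMod 2)) = mk 1 t.1 t.2.1 (t.2.2 : Matrix (Fin 3) (Fin 3) R) := fun t => rfl
  have hinj : Function.Injective f := by
    rintro ⟨x, y, M⟩ ⟨x', y', M'⟩ h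
    have h2 : mk 1 x y (M : Matrix (Fin 3) (Fin 3) R) = mk 1 x' y' (M' : Matrix (Fin 3) (Fin 3) R) := by
      rw [← hf ⟨x, y, M⟩, ← hf ⟨x', y', M'⟩, h]
    have e := fun i j => congrFun (congrFun h2 i) j
    have hx : x = x' := by
      funext i
      fin_cases i
      · simpa [mk] using e 0 1
      · simpa [mk] using e 0 2
      · simpa [mk] using e 0 3
      · simpa [mk] using e 0 4
    have hy : y = y' := by
      funext i
      fin_cases i
      · simpa [mk] using e 2 1
      · simpa [mk] using e 3 1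
      · simpa [mk] using e 4 1
    have hM : M = M' := by
      apply Units.ext
      ext i j
      fin_cases i <;> fin_cases j
      · simpa [mk] using e 2 2
      · simpa [mk] using e 2 3
      · simpa [mk] using e 2 4
      · simpa [mk] using e 3 2
      · simpa [mk] using e 3 3
      · simpa [mk] using e 3 4
      · simpa [mk] using e 4 2
      · simpa [mk] using e 4 3
      · simpa [mk] using e 4 4
    rw [hx, hy, hM]
  have hsurj : Function.Surjective f := by
    rintro ⟨g, hg⟩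
    have hg' := (hmem g).mp hg
    rw [comm_iff] at hg'
    obtain ⟨h10, h20, h30, h40, h12, h13, h14, h00⟩ := hg'
    obtain ⟨A, hA⟩ : ∃ A : Matrix (Fin 5) (Fin 5) R, A = (g : Matrix (Fin 5) (Fin 5) R) := ⟨_, rfl⟩
    rw [← hA] at h10 h20 h30 h40 h12 h13 h14 h00
    obtain ⟨M0, hM0⟩ : ∃ M0 : Matrix (Fin 3) (Fin 3) R, M0 = Matrix.of fun i j => A i.succ.succ j.succ.succ := ⟨_, rfl⟩
    have hAeq : A = mk (A 0 0) (fun i => A 0 i.succ) (fun i => A i.succ.succ 1) M0 := by
      rw [hM0]; exact pattern A h10 h20 h30 h40 h12 h13 h14 h00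
    have hdetA : A.det = 1 := by rw [hA]; exact g.2
    rw [hAeq, det_mk] at hdetA
    obtain ⟨ha, hd⟩ := zmod2_cases _ _ hdetA
    have hu : IsUnit M0.det := by rw [hd]; exact isUnit_one
    refine ⟨⟨fun i => A 0 i.succ, fun i => A i.succ.succ 1, Matrix.GeneralLinearGroup.mk'' M0 hu⟩, ?_⟩
    apply Subtype.ext
    apply Subtype.ext
    rw [hf]
    show mk 1 (fun i => A 0 i.succ) (fun i => A i.succ.succ 1) M0 = (g : Matrix (Fin 5) (Fin 5) R)
    rw [← hA]
    have hAeq2 : A = mk 1 (fun i => A 0 i.succ) (fun i => A i.succ.succ 1) M0 := by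
      have h3 := hAeq
      rw [ha] at h3
      exact h3
    exact hAeq2.symm
  rw [← Nat.card_congr (Equiv.ofBijective f ⟨hinj, hsurj⟩)]
  rw [Nat.card_prod, Nat.card_prod, Matrix.card_GL_field]
  simp [Nat.card_eq_fintype_card, Fin.prod_univ_succ]

end


/-- In the special linear group of dimension 5 over the field with two elements, the centraliser of a transvection has order 21504 = 2 ^ 7 · 168 (it is an extension of an extraspecial group of order 2 ^ 7 by the simple group of order 168). -/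
theorem result (s : Matrix.SpecialLinearGroup (Fin 5) (ZMod 2)) (hs : (s : Matrix (Fin 5) (Fin 5) (ZMod 2)) = Matrix.transvection 0 1 1) : Nat.card (Subgroup.centralizer ({s} : Set (Matrix.SpecialLinearGroup (Fin 5) (ZMod 2)))) = 21504 := by
  exact aux s hs

end Cfsg.Agent.S0445
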