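import Cfsg.Statements.S0498
import Mathlib
import Cfsg.Agent.Lib.helper3.UniqGlue
import Cfsg.Agent.Lib.helper2.SLCard
import Cfsg.Agent.Lib.helper2.Transport

set_option linter.style.haveILetI false

set_option autoImplicit false
open Cfsg

namespace Cfsg.Agent.S0498

/-- A simple group of order 660, respectively 1092, is isomorphic to the projective special linear group of dimension 2
over the field with 11, respectively 13, elements. -/
theorem result {G : Type*} [Group G] [Finite G] [IsSimpleGroup G] (p : ℕ)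
    (hp : p = 11 ∨ p = 13) (h : 2 * Nat.card G = p * (p ^ 2 - 1)) {F : Type*} [Field F] [Fintype F]
    (hF : Fintype.card F = p) : Nonempty (G ≃* Matrix.ProjectiveSpecialLinearGroup (Fin 2) F) := by
  rcases hp with rfl | rfl
  · haveI : Fact (Nat.Prime 11) := ⟨by norm_num⟩
    have hG : Nat.card G = 660 := by norm_num at h; omega
    have eF : ZMod 11 ≃+* F := ZMod.ringEquivOfPrime F (by norm_num) hF
    have hcard : Nat.card (Matrix.ProjectiveSpecialLinearGroup (Fin 2) (ZMod 11)) = 660 := by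
      have h1 := Cfsg.Agent.Lib.helper2.SLCard.card_PSL (ZMod 11) 2 (by norm_num)
      rw [Fin.prod_univ_two, ZMod.card] at h1
      have e1 : Nat.gcd 2 (11 - 1) = 2 := by decide
      have e2 : (11 ^ 2 - 11 ^ ((0 : Fin 2) : ℕ)) * (11 ^ 2 - 11 ^ ((1 : Fin 2) : ℕ)) = 13200 := by
        norm_num
      rw [e1, e2] at h1
      omega
    haveI hfin : Finite (Matrix.ProjectiveSpecialLinearGroup (Fin 2) (ZMod 11)) :=
      Nat.finite_of_card_ne_zero (by rw [hcard]; norm_num)
    haveI hs : IsSimpleGroup (Matrix.ProjectiveSpecialLinearGroup (Fin 2) (ZMod 11)) :=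
      Matrix.ProjectiveSpecialLinearGroup.rank_two_simple
        (by rw [Nat.card_eq_fintype_card, ZMod.card]; norm_num)
    obtain ⟨e1⟩ := Cfsg.Agent.Lib.helper3.UG.iso11 hG
    obtain ⟨e2⟩ := Cfsg.Agent.Lib.helper3.UG.iso11 hcard
    exact ⟨(e1.trans e2.symm).trans (Cfsg.Agent.Lib.helper2.Transport.pslCongr eF)⟩
  · haveI : Fact (Nat.Prime 13) := ⟨by norm_num⟩
    have hG : Nat.card G = 1092 := by norm_num at h; omega
    have eF : ZMod 13 ≃+* F := ZMod.ringEquivOfPrime F (by norm_num) hF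
    have hcard : Nat.card (Matrix.ProjectiveSpecialLinearGroup (Fin 2) (ZMod 13)) = 1092 := by
      have h1 := Cfsg.Agent.Lib.helper2.SLCard.card_PSL (ZMod 13) 2 (by norm_num)
      rw [Fin.prod_univ_two, ZMod.card] at h1
      have e1 : Nat.gcd 2 (13 - 1) = 2 := by decide
      have e2 : (13 ^ 2 - 13 ^ ((0 : Fin 2) : ℕ)) * (13 ^ 2 - 13 ^ ((1 : Fin 2) : ℕ)) = 26208 := by
        norm_num
      rw [e1, e2] at h1
      omega
    haveI hfin : Finite (Matrix.ProjectiveSpecialLinearGroup (Fin 2) (ZMod 13)) :=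
      Nat.finite_of_card_ne_zero (by rw [hcard]; norm_num)
    haveI hs : IsSimpleGroup (Matrix.ProjectiveSpecialLinearGroup (Fin 2) (ZMod 13)) :=
      Matrix.ProjectiveSpecialLinearGroup.rank_two_simple
        (by rw [Nat.card_eq_fintype_card, ZMod.card]; norm_num)
    obtain ⟨e1⟩ := Cfsg.Agent.Lib.helper3.UG.iso13 hG
    obtain ⟨e2⟩ := Cfsg.Agent.Lib.helper3.UG.iso13 hcard
    exact ⟨(e1.trans e2.symm).trans (Cfsg.Agent.Lib.helper2.Transport.pslCongr eF)⟩

end Cfsg.Agent.S0498
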