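import Mathlib
import Cfsg.Statements.S0991

set_option autoImplicit false
open Cfsg

namespace Cfsg.Agent.S0991

/-- Embedding Theorem: if a non-abelian finite simple group has a proper subgroup of index n, then it is isomorphic to a subgroup of the alternating group of degree n. -/
theorem result {G : Type*} [Group G] [Finite G] [IsSimpleGroup G] (hG : ¬ IsMulCommutative G) (H : Subgroup G) (hH : H ≠ ⊤) : ∃ f : G →* ↥(alternatingGroup (Fin H.index)), Function.Injective f := by
  classical
  let e : G ⧸ H ≃ Fin H.index := Finite.equivFin (G ⧸ H)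
  let φ : G →* Equiv.Perm (Fin H.index) :=
    (Equiv.permCongrHom e).toMonoidHom.comp (MulAction.toPermHom G (G ⧸ H))
  have hinj : Function.Injective φ := by
    rw [← MonoidHom.ker_eq_bot_iff]
    rcases (MonoidHom.normal_ker φ).eq_bot_or_eq_top with h | h
    · exact h
    · exfalso
      apply hH
      rw [Subgroup.eq_top_iff']
      intro g
      have hg : g ∈ φ.ker := by rw [h]; exact Subgroup.mem_top g
      rw [MonoidHom.mem_ker] at hg
      have h1 : MulAction.toPermHom G (G ⧸ H) g = 1 := by
        have : (Equiv.permCongrHom e) (MulAction.toPermHom G (G ⧸ H) g) = 1 := hg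
        exact (MulEquiv.map_eq_one_iff _).mp this
      have h2 : g • (QuotientGroup.mk 1 : G ⧸ H) = QuotientGroup.mk 1 := by
        have := congrArg (fun σ : Equiv.Perm (G ⧸ H) => σ (QuotientGroup.mk 1)) h1
        simpa using this
      rw [MulAction.Quotient.smul_mk, QuotientGroup.eq] at h2
      have := H.inv_mem h2
      simpa using this
  have halt : ∀ g : G, φ g ∈ alternatingGroup (Fin H.index) := by
    intro g
    rw [Equiv.Perm.mem_alternatingGroup]
    let ψ : G →* ℤˣ := Equiv.Perm.sign.comp φ
    rcases (MonoidHom.normal_ker ψ).eq_bot_or_eq_top with h | h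
    · exfalso
      apply hG
      have hψ : Function.Injective ψ := (MonoidHom.ker_eq_bot_iff ψ).mp h
      refine ⟨⟨fun a b => ?_⟩⟩
      apply hψ
      rw [map_mul, map_mul, mul_comm]
    · have hg : g ∈ ψ.ker := by rw [h]; exact Subgroup.mem_top g
      exact hg
  refine ⟨φ.codRestrict (alternatingGroup (Fin H.index)) halt, ?_⟩
  intro a b hab
  apply hinj
  exact congrArg Subtype.val hab

end Cfsg.Agent.S0991
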