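import Cfsg.Statements.S2119
import Mathlib

set_option autoImplicit false
open Cfsg

namespace Cfsg.Agent.S2119

open Equiv Equiv.Perm

section Transport

variable {α : Type*} [DecidableEq α]

/-- Transport of swaps along an embedding. -/
theorem via_swap {m : ℕ} (ι : Fin m ↪ α) (a b : Fin m) :
    viaEmbeddingHom ι (swap a b) = swap (ι a) (ι b) := by
  ext x
  rw [viaEmbeddingHom_apply]
  by_cases hx : x ∈ Set.range ι
  · obtain ⟨y, rfl⟩ := hx
    rw [viaEmbedding_apply, Function.Embedding.swap_apply]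
  · rw [viaEmbedding_apply_of_notMem _ _ _ hx]
    have h1 : x ≠ ι a := fun h => hx ⟨a, h.symm⟩
    have h2 : x ≠ ι b := fun h => hx ⟨b, h.symm⟩
    rw [swap_apply_of_ne_of_ne h1 h2]

/-- Four distinct points as an embedding of `Fin 4`. -/
def emb4 (a b c d : α) (hab : a ≠ b) (hac : a ≠ c) (had : a ≠ d) (hbc : b ≠ c) (hbd : b ≠ d)
    (hcd : c ≠ d) : Fin 4 ↪ α :=
  ⟨![a, b, c, d], by
    intro i j h
    fin_cases i <;> fin_cases j <;> simp_all⟩

/-- Three distinct points as an embedding of `Fin 3`. -/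
def emb3 (a b c : α) (hab : a ≠ b) (hac : a ≠ c) (hbc : b ≠ c) : Fin 3 ↪ α :=
  ⟨![a, b, c], by
    intro i j h
    fin_cases i <;> fin_cases j <;> simp_all⟩

/-- The three-cycle `a → b → u → a`. -/
def cyc (a b u : α) : Perm α := swap a b * swap b u

theorem cyc_left {a b u : α} (hab : a ≠ b) (hau : a ≠ u) : cyc a b u a = b := by
  rw [cyc, Perm.mul_apply, swap_apply_of_ne_of_ne hab hau, swap_apply_left]

theorem cyc_mid {a b u : α} (hau : a ≠ u) (hbu : b ≠ u) : cyc a b u b = u := by
  rw [cyc, Perm.mul_apply, swap_apply_left, swap_apply_of_ne_of_ne hau.symm hbu.symm]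

theorem cyc_right {a b u : α} : cyc a b u u = a := by
  rw [cyc, Perm.mul_apply, swap_apply_right, swap_apply_right]

theorem cyc_other {a b u x : α} (hxa : x ≠ a) (hxb : x ≠ b) (hxu : x ≠ u) : cyc a b u x = x := by
  rw [cyc, Perm.mul_apply, swap_apply_of_ne_of_ne hxb hxu, swap_apply_of_ne_of_ne hxa hxb]

theorem id1 {p q j l : α} (hpq : p ≠ q) (hpj : p ≠ j) (hpl : p ≠ l) (hqj : q ≠ j) (hql : q ≠ l)
    (hjl : j ≠ l) : cyc p q l * (cyc p q j)⁻¹ = cyc p j l := by
  have h : (swap (0 : Fin 4) 1 * swap 1 3) * (swap (0 : Fin 4) 1 * swap 1 2)⁻¹ =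
      swap 0 2 * swap 2 3 := by decide
  have h' := congrArg (viaEmbeddingHom (emb4 p q j l hpq hpj hpl hqj hql hjl)) h
  simp only [map_mul, map_inv, via_swap] at h'
  exact h'

theorem id2 {p q j l : α} (hpq : p ≠ q) (hpj : p ≠ j) (hpl : p ≠ l) (hqj : q ≠ j) (hql : q ≠ l)
    (hjl : j ≠ l) : (cyc p q l)⁻¹ * cyc p q j = cyc q j l := by
  have h : (swap (0 : Fin 4) 1 * swap 1 3)⁻¹ * (swap (0 : Fin 4) 1 * swap 1 2) =
      swap 1 2 * swap 2 3 := by decide
  have h' := congrArg (viaEmbeddingHom (emb4 p q j l hpq hpj hpl hqj hql hjl)) h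
  simp only [map_mul, map_inv, via_swap] at h'
  exact h'

theorem id3 {p i j l : α} (hpi : p ≠ i) (hpj : p ≠ j) (hpl : p ≠ l) (hij : i ≠ j) (hil : i ≠ l)
    (hjl : j ≠ l) : cyc i j l = cyc p i j * cyc p j l := by
  have h : swap (1 : Fin 4) 2 * swap 2 3 =
      (swap (0 : Fin 4) 1 * swap 1 2) * (swap 0 2 * swap 2 3) := by decide
  have h' := congrArg (viaEmbeddingHom (emb4 p i j l hpi hpj hpl hij hil hjl)) h
  simp only [map_mul, map_inv, via_swap] at h'
  exact h'

theorem id5 {p q j : α} (hpq : p ≠ q) (hpj : p ≠ j) (hqj : q ≠ j) :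
    cyc p j q = (cyc p q j)⁻¹ := by
  have h : swap (0 : Fin 3) 2 * swap 2 1 = (swap (0 : Fin 3) 1 * swap 1 2)⁻¹ := by decide
  have h' := congrArg (viaEmbeddingHom (emb3 p q j hpq hpj hqj)) h
  simp only [map_mul, map_inv, via_swap] at h'
  exact h'

theorem id6 {p q k l : α} (hpq : p ≠ q) (hpk : p ≠ k) (hpl : p ≠ l) (hqk : q ≠ k) (hql : q ≠ l)
    (hkl : k ≠ l) : (cyc p q k * cyc p q l) ^ 2 = 1 ∧ cyc p q k * cyc p q l ≠ 1 := by
  constructor
  · have h : ((swap (0 : Fin 4) 1 * swap 1 2) * (swap (0 : Fin 4) 1 * swap 1 3)) ^ 2 = 1 := by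
      decide
    have h' := congrArg (viaEmbeddingHom (emb4 p q k l hpq hpk hpl hqk hql hkl)) h
    simp only [map_mul, map_pow, map_one, via_swap] at h'
    exact h'
  · intro h
    have h1 := congrArg (fun f : Perm α => f l) h
    simp only [Perm.mul_apply, Perm.one_apply] at h1
    rw [cyc_right, cyc_left hpq hpk] at h1
    exact hql h1

theorem isThreeCycle_cyc [Fintype α] {a b u : α} (hab : a ≠ b) (hau : a ≠ u) (hbu : b ≠ u) :
    (cyc a b u).IsThreeCycle := by
  rw [cyc, swap_comm a b]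
  exact isThreeCycle_swap_mul_swap_same hab.symm hbu hau

end Transport

section ThreeCycles

variable {α : Type*} [Fintype α] [DecidableEq α]

theorem three_pow {c : Perm α} (hc : c.IsThreeCycle) (x : α) : c (c (c x)) = x := by
  have h3 : c ^ 3 = 1 := by rw [← hc.orderOf]; exact pow_orderOf_eq_one c
  have := congrArg (fun f : Perm α => f x) h3
  simpa [pow_succ, Perm.mul_apply] using this

/-- The support of a three-cycle moving `i`. -/
theorem three_supp {c : Perm α} (hc : c.IsThreeCycle) {i : α} (hi : c i ≠ i) :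
    c (c i) ≠ c i ∧ c (c i) ≠ i ∧ ∀ x, c x ≠ x → x = i ∨ x = c i ∨ x = c (c i) := by
  have h3 := three_pow hc
  have h1 : c (c i) ≠ c i := fun h => hi (c.injective h)
  have h2 : c (c i) ≠ i := by
    intro h
    have := h3 i
    rw [h] at this
    exact hi this
  refine ⟨h1, h2, ?_⟩
  intro x hx
  have hS : ({i, c i, c (c i)} : Finset α) ⊆ c.support := by
    intro y hy
    rw [Perm.mem_support]
    simp only [Finset.mem_insert, Finset.mem_singleton] at hy
    rcases hy with rfl | rfl | rfl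
    · exact hi
    · exact h1
    · rw [h3]; exact fun h => h2 h.symm
  have hcard : ({i, c i, c (c i)} : Finset α).card = 3 := by
    rw [Finset.card_insert_of_notMem, Finset.card_insert_of_notMem, Finset.card_singleton]
    · simp only [Finset.mem_singleton]; exact fun h => h1 h.symm
    · simp only [Finset.mem_insert, Finset.mem_singleton, not_or]
      exact ⟨fun h => hi h.symm, fun h => h2 h.symm⟩
  have heq : ({i, c i, c (c i)} : Finset α) = c.support :=
    Finset.eq_of_subset_of_card_le hS (by rw [hc.card_support, hcard])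
  have hx' : x ∈ ({i, c i, c (c i)} : Finset α) := by rw [heq, Perm.mem_support]; exact hx
  simpa using hx'

/-- Representation of a three-cycle. -/
theorem three_rep {c : Perm α} (hc : c.IsThreeCycle) {i : α} (hi : c i ≠ i) :
    c = cyc i (c i) (c (c i)) := by
  obtain ⟨h1, h2, h3⟩ := three_supp hc hi
  ext x
  by_cases hx : c x = x
  · have hxi : x ≠ i := by rintro rfl; exact hi hx
    have hxc : x ≠ c i := by rintro rfl; exact h1 hx
    have hxcc : x ≠ c (c i) := by
      rintro rfl
      rw [three_pow hc] at hx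
      exact h2 hx.symm
    rw [cyc_other hxi hxc hxcc, hx]
  · rcases h3 x hx with rfl | rfl | rfl
    · rw [cyc_left (fun h => hi h.symm) (fun h => h2 h.symm)]
    · rw [cyc_mid (fun h => h2 h.symm) (fun h => h1 h.symm)]
    · rw [cyc_right, three_pow hc]

/-- Two edges of a three-cycle with different tails are consecutive. -/
theorem two_edges {y : Perm α} (hy : y.IsThreeCycle) {s s' : α} (hs : y s ≠ s) (hs' : y s' ≠ s')
    (hne : s ≠ s') : y s = s' ∨ y s' = s := by
  obtain ⟨-, -, h3⟩ := three_supp hy hs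
  rcases h3 s' hs' with h | h | h
  · exact absurd h.symm hne
  · exact Or.inl h.symm
  · right; rw [h, three_pow hy]

/-- Two three-cycles whose product is an involution share a directed edge. -/
theorem shared_edge {c d : Perm α} (hc : c.IsThreeCycle) (hd : d.IsThreeCycle)
    (h2 : (c * d) ^ 2 = 1) (h1 : c * d ≠ 1) :
    ∃ a, c a ≠ a ∧ d a = c a ∧ d (c a) ≠ c (c a) := by
  have hc3 := three_pow hc
  have hd3 := three_pow hd
  have hrel : ∀ w, c (d (c (d w))) = w := by
    intro w
    have := congrArg (fun f : Perm α => f w) h2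
    simpa [pow_two, Perm.mul_apply] using this
  by_cases hA : ∃ w, d w ≠ w ∧ c w = w
  · obtain ⟨w, hdw, hcw⟩ := hA
    refine ⟨d w, ?_, ?_, ?_⟩
    · -- c (d w) ≠ d w
      have e1 : d (c (d w)) = w := by
        apply c.injective; rw [hrel w, hcw]
      have e2 : c (d w) = d (d w) := by
        apply d.injective; rw [e1, hd3]
      rw [e2]
      exact fun h => hdw (d.injective h)
    · have e1 : d (c (d w)) = w := by
        apply c.injective; rw [hrel w, hcw]
      apply d.injective; rw [e1, hd3]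
    · have e1 : d (c (d w)) = w := by
        apply c.injective; rw [hrel w, hcw]
      have e2 : c (d w) = d (d w) := by
        apply d.injective; rw [e1, hd3]
      rw [e1]
      intro h
      -- w = c (c (d w)) → c (d w) = w
      have e3 : c (d w) = w := by
        apply c.injective; rw [← h, hcw]
      rw [e2] at e3
      -- d (d w) = w → d w = w
      have e4 : d w = d (d (d w)) := by rw [e3]
      rw [hd3] at e4
      exact hdw e4
  by_cases hA' : ∃ w, c w ≠ w ∧ d w = w
  · obtain ⟨w, hcw, hdw⟩ := hA'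
    have e1 : c (d (c w)) = w := by
      have := hrel w; rw [hdw] at this; exact this
    have e2 : d (c w) = c (c w) := by
      apply c.injective; rw [e1, hc3]
    refine ⟨c w, fun h => hcw (c.injective h), e2, ?_⟩
    rw [hc3]
    intro h
    -- d (c (c w)) = w = d w → c (c w) = w
    have e3 : c (c w) = w := by
      apply d.injective; rw [h, hdw]
    have e4 : c w = c (c (c w)) := by rw [e3]
    rw [hc3] at e4
    exact hcw e4
  · exfalso
    push Not at hA hA'
    -- supports coincide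
    obtain ⟨a, ha⟩ : ∃ a, c a ≠ a := by
      by_contra hcon
      push Not at hcon
      have : c = 1 := Equiv.ext hcon
      have h0 := hc.orderOf
      rw [this, orderOf_one] at h0
      omega
    obtain ⟨hb1, hb2, hsupp⟩ := three_supp hc ha
    have hmem : ∀ x, d x ≠ x → x = a ∨ x = c a ∨ x = c (c a) := fun x hx => hsupp x (hA x hx)
    have hda : d a ≠ a := hA' a ha
    have hdb : d (c a) ≠ c a := hA' (c a) hb1
    have hdu : d (c (c a)) ≠ c (c a) := hA' (c (c a)) (by rw [hc3]; exact fun h => hb2 h.symm)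
    have hda2 : d (d a) ≠ d a := fun h => hda (d.injective h)
    rcases hmem (d a) hda2 with h | h | h
    · exact hda h
    · have hdb2 : d (d (c a)) ≠ d (c a) := fun h' => hdb (d.injective h')
      rcases hmem (d (c a)) hdb2 with h' | h' | h'
      · rw [← h] at h'
        have e : d a = d (d (d a)) := by rw [h']
        rw [hd3] at e
        exact hda e
      · exact hdb h'
      · have e1 := hrel a
        rw [h] at e1
        have e2 : d (c (c a)) = a := by
          have e3 : c (c a) = d (d a) := by rw [h, h']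
          rw [e3, hd3]
        rw [e2] at e1
        exact ha e1
    · have hdu2 : d (d (c (c a))) ≠ d (c (c a)) := fun h' => hdu (d.injective h')
      rcases hmem (d (c (c a))) hdu2 with h' | h' | h'
      · rw [← h] at h'
        have e : d a = d (d (d a)) := by rw [h']
        rw [hd3] at e
        exact hda e
      · apply h1
        have hdb' : d (c a) = a := by
          have e3 : c a = d (d a) := by rw [h, h']
          rw [e3, hd3]
        ext x
        rw [Perm.mul_apply, Perm.one_apply]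
        by_cases hx : d x = x
        · rw [hx]
          by_contra hcx
          exact hA' x hcx hx
        · rcases hmem x hx with rfl | rfl | rfl
          · rw [h, hc3]
          · rw [hdb']
          · rw [h']
      · exact hdu h'

/-- Generation of the three-cycles by the cycles `(p q k)`. -/
theorem gen_three {p q : α} (hpq : p ≠ q) (c : Perm α) (hc : c.IsThreeCycle) :
    c ∈ Subgroup.closure {g : Perm α | ∃ k, k ≠ p ∧ k ≠ q ∧ g = cyc p q k} := by
  set H := Subgroup.closure {g : Perm α | ∃ k, k ≠ p ∧ k ≠ q ∧ g = cyc p q k} with hH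
  have hx : ∀ k, k ≠ p → k ≠ q → cyc p q k ∈ H :=
    fun k h1 h2 => Subgroup.subset_closure ⟨k, h1, h2, rfl⟩
  have h1 : ∀ j l, j ≠ p → j ≠ q → l ≠ p → l ≠ q → j ≠ l → cyc p j l ∈ H := by
    intro j l hjp hjq hlp hlq hjl
    rw [← id1 hpq hjp.symm hlp.symm hjq.symm hlq.symm hjl]
    exact H.mul_mem (hx l hlp hlq) (H.inv_mem (hx j hjp hjq))
  have h2 : ∀ j l, j ≠ p → j ≠ q → l ≠ p → l ≠ q → j ≠ l → cyc q j l ∈ H := by
    intro j l hjp hjq hlp hlq hjl
    rw [← id2 hpq hjp.symm hlp.symm hjq.symm hlq.symm hjl]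
    exact H.mul_mem (H.inv_mem (hx l hlp hlq)) (hx j hjp hjq)
  by_cases hp : c p ≠ p
  · obtain ⟨hb1, hb2, -⟩ := three_supp hc hp
    rw [three_rep hc hp]
    by_cases hj : c p = q
    · rw [hj]
      apply hx
      · rw [← hj]; exact hb2
      · rw [← hj]; exact hb1
    · by_cases hl : c (c p) = q
      · rw [hl, id5 hpq (fun h => hp h.symm) (fun h => hj h.symm)]
        exact H.inv_mem (hx (c p) hp hj)
      · exact h1 (c p) (c (c p)) hp hj hb2 hl (fun h => hb1 h.symm)
  · push Not at hp
    by_cases hq : c q ≠ q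
    · obtain ⟨hb1, hb2, -⟩ := three_supp hc hq
      rw [three_rep hc hq]
      have hjp : c q ≠ p := by
        intro h
        apply hb1; rw [h, hp]
      have hlp : c (c q) ≠ p := by
        intro h
        apply hjp; apply c.injective; rw [h, hp]
      exact h2 (c q) (c (c q)) hjp hq hlp hb2 (fun h => hb1 h.symm)
    · push Not at hq
      obtain ⟨i, hi⟩ : ∃ i, c i ≠ i := by
        by_contra hcon
        push Not at hcon
        have h00 : c = 1 := Equiv.ext hcon
        have h0 := hc.orderOf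
        rw [h00, orderOf_one] at h0
        omega
      obtain ⟨hb1, hb2, -⟩ := three_supp hc hi
      have hne : ∀ x, c x ≠ x → x ≠ p ∧ x ≠ q := by
        intro x hx
        exact ⟨fun h => hx (by rw [h]; exact hp), fun h => hx (by rw [h]; exact hq)⟩
      have h3c : c (c (c i)) ≠ c (c i) := by rw [three_pow hc]; exact fun h => hb2 h.symm
      obtain ⟨hip, hiq⟩ := hne i hi
      obtain ⟨hjp, hjq⟩ := hne (c i) hb1
      obtain ⟨hlp, hlq⟩ := hne (c (c i)) h3c
      rw [three_rep hc hi, id3 hip.symm hjp.symm hlp.symm (fun h => hi h.symm)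
        (fun h => hb2 h.symm) (fun h => hb1 h.symm)]
      exact H.mul_mem (h1 i (c i) hip hiq hjp hjq (fun h => hi h.symm))
        (h1 (c i) (c (c i)) hjp hjq hlp hlq (fun h => hb1 h.symm))

end ThreeCycles

section Numeric

theorem num1 : ∀ j : ℕ, 2 * 3 ^ (j + 2) * (j + 3).factorial < (3 * j + 6).factorial := by
  intro j
  induction j with
  | zero => norm_num [Nat.factorial]
  | succ j ih =>
    have e : (3 * (j + 1) + 6).factorial =
        (3 * j + 9) * ((3 * j + 8) * ((3 * j + 7) * (3 * j + 6).factorial)) := by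
      rw [show 3 * (j + 1) + 6 = (3 * j + 8) + 1 by ring, Nat.factorial_succ,
        show 3 * j + 8 = (3 * j + 7) + 1 by ring, Nat.factorial_succ,
        show 3 * j + 7 = (3 * j + 6) + 1 by ring, Nat.factorial_succ]
    have hle : 3 * (j + 4) ≤ (3 * j + 9) * ((3 * j + 8) * (3 * j + 7)) := by
      calc 3 * (j + 4) ≤ (3 * j + 9) * (2 * 1) := by omega
        _ ≤ (3 * j + 9) * ((3 * j + 8) * (3 * j + 7)) :=
          Nat.mul_le_mul_left _ (Nat.mul_le_mul (by omega) (by omega))
    calc 2 * 3 ^ (j + 1 + 2) * (j + 1 + 3).factorial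
        = (3 * (j + 4)) * (2 * 3 ^ (j + 2) * (j + 3).factorial) := by
          rw [show j + 1 + 3 = (j + 3) + 1 by ring, Nat.factorial_succ]; ring
      _ < (3 * (j + 4)) * (3 * j + 6).factorial := (Nat.mul_lt_mul_left (by omega)).2 ih
      _ ≤ ((3 * j + 9) * ((3 * j + 8) * (3 * j + 7))) * (3 * j + 6).factorial :=
          Nat.mul_le_mul_right _ hle
      _ = (3 * (j + 1) + 6).factorial := by rw [e]; ring

theorem num2 (n k : ℕ) (hk : 2 ≤ k) (hkn : 3 * k ≤ n) (hn : 7 ≤ n) :
    2 * ((n - 3 * k).factorial * 3 ^ k * k.factorial) < (n - 3).factorial * 3 := by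
  obtain ⟨a, rfl⟩ : ∃ a, n = 3 * k + a := ⟨n - 3 * k, by omega⟩
  have ha : 3 * k + a - 3 * k = a := by omega
  rw [ha]
  rcases Nat.lt_or_ge k 3 with h | h
  · have hk2 : k = 2 := by omega
    subst hk2
    obtain ⟨b, rfl⟩ : ∃ b, a = b + 1 := ⟨a - 1, by omega⟩
    have h1 : 3 * 2 + (b + 1) - 3 = (b + 3) + 1 := by omega
    have h2 : ((b + 3) + 1).factorial = (b + 4) * ((b + 3) * ((b + 2) * (b + 1).factorial)) := by
      rw [Nat.factorial_succ, show b + 3 = (b + 2) + 1 by ring, Nat.factorial_succ,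
        show b + 2 = (b + 1) + 1 by ring, Nat.factorial_succ]
    rw [h1, h2]
    have h3 : 4 * (3 * 2) ≤ (b + 4) * ((b + 3) * (b + 2)) :=
      Nat.mul_le_mul (by omega) (Nat.mul_le_mul (by omega) (by omega))
    have hpos : 0 < (b + 1).factorial := Nat.factorial_pos _
    calc 2 * ((b + 1).factorial * 3 ^ 2 * (2).factorial) = 36 * (b + 1).factorial := by
          norm_num [Nat.factorial]; ring
      _ < 72 * (b + 1).factorial := by omega
      _ = (4 * (3 * 2)) * (b + 1).factorial * 3 := by ring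
      _ ≤ ((b + 4) * ((b + 3) * (b + 2))) * (b + 1).factorial * 3 :=
          Nat.mul_le_mul_right _ (Nat.mul_le_mul_right _ h3)
      _ = (b + 4) * ((b + 3) * ((b + 2) * (b + 1).factorial)) * 3 := by ring
  · obtain ⟨j, rfl⟩ : ∃ j, k = j + 3 := ⟨k - 3, by omega⟩
    have h1 : 3 * (j + 3) + a - 3 = a + (3 * j + 6) := by omega
    rw [h1]
    have h2 : a.factorial * (3 * j + 6).factorial ≤ (a + (3 * j + 6)).factorial :=
      Nat.le_of_dvd (Nat.factorial_pos _) (Nat.factorial_mul_factorial_dvd_factorial_add _ _)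
    have h3 := num1 j
    calc 2 * (a.factorial * 3 ^ (j + 3) * (j + 3).factorial)
        = 3 * (a.factorial * (2 * 3 ^ (j + 2) * (j + 3).factorial)) := by ring
      _ < 3 * (a.factorial * (3 * j + 6).factorial) :=
          (Nat.mul_lt_mul_left (by norm_num)).2 ((Nat.mul_lt_mul_left (Nat.factorial_pos a)).2 h3)
      _ ≤ 3 * (a + (3 * j + 6)).factorial := Nat.mul_le_mul_left 3 h2
      _ = (a + (3 * j + 6)).factorial * 3 := mul_comm _ _

end Numeric

section Centralizers

variable {n : ℕ}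

theorem cent_le (x : alternatingGroup (Fin n)) :
    Nat.card (Subgroup.centralizer ({x} : Set (alternatingGroup (Fin n)))) ≤
      Nat.card (Subgroup.centralizer ({(x : Perm (Fin n))} : Set (Perm (Fin n)))) := by
  apply Nat.card_le_card_of_injective
    (fun a : Subgroup.centralizer ({x} : Set (alternatingGroup (Fin n))) =>
      (⟨(a.1 : Perm (Fin n)), by
        have h := Subgroup.mem_centralizer_singleton_iff.1 a.2
        rw [Subgroup.mem_centralizer_singleton_iff]
        exact congrArg Subtype.val h⟩ :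
        Subgroup.centralizer ({(x : Perm (Fin n))} : Set (Perm (Fin n)))))
  intro a b h
  apply Subtype.ext; apply Subtype.ext
  exact congrArg (fun t : Subgroup.centralizer ({(x : Perm (Fin n))} : Set (Perm (Fin n))) =>
    (t : Perm (Fin n))) h

theorem cent_ge (x : alternatingGroup (Fin n)) :
    Nat.card (Subgroup.centralizer ({(x : Perm (Fin n))} : Set (Perm (Fin n)))) ≤
      2 * Nat.card (Subgroup.centralizer ({x} : Set (alternatingGroup (Fin n)))) := by
  let f : Subgroup.centralizer ({(x : Perm (Fin n))} : Set (Perm (Fin n))) →* ℤˣ :=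
    Perm.sign.comp (Subgroup.centralizer ({(x : Perm (Fin n))} : Set (Perm (Fin n)))).subtype
  have h1 := Subgroup.card_mul_index f.ker
  rw [Subgroup.index_ker] at h1
  have h2 : Nat.card f.range ≤ 2 := by
    calc Nat.card f.range ≤ Nat.card ℤˣ := Subgroup.card_le_card_group _
      _ = 2 := by rw [Nat.card_eq_fintype_card]; rfl
  have h3 : Nat.card f.ker ≤
      Nat.card (Subgroup.centralizer ({x} : Set (alternatingGroup (Fin n)))) := by
    apply Nat.card_le_card_of_injective
      (fun g : f.ker => (⟨⟨(g.1.1 : Perm (Fin n)), by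
          rw [Perm.mem_alternatingGroup]; exact MonoidHom.mem_ker.1 g.2⟩, by
          rw [Subgroup.mem_centralizer_singleton_iff]
          apply Subtype.ext
          exact Subgroup.mem_centralizer_singleton_iff.1 g.1.2⟩ :
        Subgroup.centralizer ({x} : Set (alternatingGroup (Fin n)))))
    intro a b h
    apply Subtype.ext; apply Subtype.ext
    exact congrArg (fun t : Subgroup.centralizer ({x} : Set (alternatingGroup (Fin n))) =>
      ((t : alternatingGroup (Fin n)) : Perm (Fin n))) h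
  calc Nat.card (Subgroup.centralizer ({(x : Perm (Fin n))} : Set (Perm (Fin n))))
      = Nat.card f.ker * Nat.card f.range := h1.symm
    _ ≤ Nat.card (Subgroup.centralizer ({x} : Set (alternatingGroup (Fin n)))) * 2 :=
        Nat.mul_le_mul h3 h2
    _ = 2 * Nat.card (Subgroup.centralizer ({x} : Set (alternatingGroup (Fin n)))) := mul_comm _ _

theorem cent_aut (φ : MulAut (alternatingGroup (Fin n))) (x : alternatingGroup (Fin n)) :
    Nat.card (Subgroup.centralizer ({φ x} : Set (alternatingGroup (Fin n)))) =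
      Nat.card (Subgroup.centralizer ({x} : Set (alternatingGroup (Fin n)))) := by
  symm
  apply Nat.card_congr
  refine Equiv.subtypeEquiv φ.toEquiv ?_
  intro a
  change a ∈ Subgroup.centralizer ({x} : Set (alternatingGroup (Fin n))) ↔
    φ a ∈ Subgroup.centralizer ({φ x} : Set (alternatingGroup (Fin n)))
  rw [Subgroup.mem_centralizer_singleton_iff, Subgroup.mem_centralizer_singleton_iff,
    ← map_mul, ← map_mul]
  exact φ.injective.eq_iff.symm

theorem cent_three (c : Perm (Fin n)) (hc : c.IsThreeCycle) :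
    Nat.card (Subgroup.centralizer ({c} : Set (Perm (Fin n)))) = (n - 3).factorial * 3 := by
  rw [Perm.nat_card_centralizer, show c.cycleType = {3} from hc]
  simp

theorem cent_rep (y : Perm (Fin n)) (m : ℕ) (hy : y.cycleType = Multiset.replicate (m + 1) 3) :
    Nat.card (Subgroup.centralizer ({y} : Set (Perm (Fin n)))) =
      (n - 3 * (m + 1)).factorial * 3 ^ (m + 1) * (m + 1).factorial := by
  rw [Perm.nat_card_centralizer, hy, Multiset.sum_replicate, Multiset.prod_replicate,
    Multiset.toFinset_replicate, if_neg (Nat.succ_ne_zero m), Finset.prod_singleton,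
    Multiset.count_replicate_self, Fintype.card_fin, smul_eq_mul, mul_comm (m + 1) 3]

theorem three_cycle_map (hn : 4 ≤ n) (h6 : n ≠ 6) (φ : MulAut (alternatingGroup (Fin n)))
    (c : alternatingGroup (Fin n)) (hc : (c : Perm (Fin n)).IsThreeCycle) :
    ((φ c : alternatingGroup (Fin n)) : Perm (Fin n)).IsThreeCycle := by
  have ho : orderOf ((φ c : alternatingGroup (Fin n)) : Perm (Fin n)) = 3 := by
    rw [Subgroup.orderOf_coe, MulEquiv.orderOf_eq, ← Subgroup.orderOf_coe, hc.orderOf]
  obtain ⟨m, hm⟩ := Perm.cycleType_prime_order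
    (σ := ((φ c : alternatingGroup (Fin n)) : Perm (Fin n))) (by rw [ho]; exact Nat.prime_three)
  rw [ho] at hm
  have hsum : 3 * (m + 1) ≤ n := by
    have h0 := Perm.sum_cycleType_le ((φ c : alternatingGroup (Fin n)) : Perm (Fin n))
    rw [hm, Multiset.sum_replicate, smul_eq_mul, Fintype.card_fin] at h0
    omega
  rcases Nat.eq_zero_or_pos m with rfl | hmpos
  · show ((φ c : alternatingGroup (Fin n)) : Perm (Fin n)).cycleType = {3}
    rw [hm]; rfl
  · exfalso
    have hn7 : 7 ≤ n := by omega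
    have e1 := cent_three (c : Perm (Fin n)) hc
    have e2 := cent_rep _ m hm
    have e3 := cent_ge c
    have e4 := cent_le (φ c)
    have e5 := cent_aut φ c
    have e6 := num2 n (m + 1) (by omega) hsum hn7
    rw [e1] at e3
    rw [e5, e2] at e4
    linarith

end Centralizers

section Main

variable {n : ℕ}

theorem exists_two_ne (hn : 4 ≤ n) (i j : Fin n) :
    ∃ k l : Fin n, k ≠ l ∧ k ≠ i ∧ k ≠ j ∧ l ≠ i ∧ l ≠ j := by
  have hcard : 1 < (Finset.univ \ ({i, j} : Finset (Fin n))).card := by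
    rw [Finset.card_univ_sdiff, Fintype.card_fin]
    have := Finset.card_le_two (a := i) (b := j)
    omega
  obtain ⟨k, hk, l, hl, hkl⟩ := Finset.one_lt_card.1 hcard
  simp only [Finset.mem_sdiff, Finset.mem_univ, Finset.mem_insert, Finset.mem_singleton,
    true_and, not_or] at hk hl
  exact ⟨k, l, hkl, hk.1, hk.2, hl.1, hl.2⟩

theorem surj (hn : 4 ≤ n) (h6 : n ≠ 6) (φ : MulAut (alternatingGroup (Fin n))) :
    ∃ σ : Perm (Fin n), ∀ z : alternatingGroup (Fin n),
      ((φ z : alternatingGroup (Fin n)) : Perm (Fin n)) = σ * z * σ⁻¹ := by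
  classical
  obtain ⟨p, hp⟩ : ∃ p : Fin n, p = ⟨0, by omega⟩ := ⟨_, rfl⟩
  obtain ⟨q, hq⟩ : ∃ q : Fin n, q = ⟨1, by omega⟩ := ⟨_, rfl⟩
  have hpq : p ≠ q := by simp [hp, hq, Fin.ext_iff]
  have hxmem : ∀ k : Fin n, k ≠ p → k ≠ q → cyc p q k ∈ alternatingGroup (Fin n) :=
    fun k h1 h2 => (isThreeCycle_cyc hpq h1.symm h2.symm).mem_alternatingGroup
  obtain ⟨Y, hY⟩ : ∃ Y : Fin n → Perm (Fin n), ∀ k (h1 : k ≠ p) (h2 : k ≠ q),
      Y k = ((φ ⟨cyc p q k, hxmem k h1 h2⟩ : alternatingGroup (Fin n)) : Perm (Fin n)) := by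
    refine ⟨fun k => if h : k ≠ p ∧ k ≠ q then
      ((φ ⟨cyc p q k, hxmem k h.1 h.2⟩ : alternatingGroup (Fin n)) : Perm (Fin n)) else 1, ?_⟩
    intro k h1 h2
    simp only [dif_pos (And.intro h1 h2)]
  have hY3 : ∀ k, k ≠ p → k ≠ q → (Y k).IsThreeCycle := by
    intro k h1 h2
    rw [hY k h1 h2]
    exact three_cycle_map hn h6 φ _ (isThreeCycle_cyc hpq h1.symm h2.symm)
  have hYprod : ∀ k l, k ≠ p → k ≠ q → l ≠ p → l ≠ q → k ≠ l →
      (Y k * Y l) ^ 2 = 1 ∧ Y k * Y l ≠ 1 := by
    intro k l hkp hkq hlp hlq hkl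
    obtain ⟨e1, e2⟩ := id6 hpq hkp.symm hlp.symm hkq.symm hlq.symm hkl
    rw [hY k hkp hkq, hY l hlp hlq]
    have hprod : ((φ ⟨cyc p q k, hxmem k hkp hkq⟩ : alternatingGroup (Fin n)) : Perm (Fin n)) *
        ((φ ⟨cyc p q l, hxmem l hlp hlq⟩ : alternatingGroup (Fin n)) : Perm (Fin n)) =
        ((φ (⟨cyc p q k, hxmem k hkp hkq⟩ * ⟨cyc p q l, hxmem l hlp hlq⟩) :
          alternatingGroup (Fin n)) : Perm (Fin n)) := by
      rw [map_mul]; rfl
    rw [hprod]
    constructor
    · rw [← Subgroup.coe_pow, ← map_pow]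
      have e3 : (⟨cyc p q k, hxmem k hkp hkq⟩ * ⟨cyc p q l, hxmem l hlp hlq⟩ :
          alternatingGroup (Fin n)) ^ 2 = 1 := Subtype.ext e1
      rw [e3, map_one]; rfl
    · intro h
      have h' : φ (⟨cyc p q k, hxmem k hkp hkq⟩ * ⟨cyc p q l, hxmem l hlp hlq⟩) = 1 :=
        Subtype.ext h
      rw [map_eq_one_iff φ φ.injective] at h'
      exact e2 (congrArg Subtype.val h')
  obtain ⟨k0, k1, hk01, hk0p, hk0q, hk1p, hk1q⟩ := exists_two_ne hn p q
  have h30 := hY3 k0 hk0p hk0q
  have h31 := hY3 k1 hk1p hk1q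
  obtain ⟨a, ha, hda, hne⟩ := shared_edge h30 h31
    (hYprod k0 k1 hk0p hk0q hk1p hk1q hk01).1 (hYprod k0 k1 hk0p hk0q hk1p hk1q hk01).2
  obtain ⟨b, hb⟩ : ∃ b, b = Y k0 a := ⟨_, rfl⟩
  rw [← hb] at ha hda hne
  have F1 : Y k0 a = b := hb.symm
  obtain ⟨F4, F5, S0⟩ := three_supp h30 (i := a) (by rw [F1]; exact ha)
  have F6 := three_pow h30 a
  rw [F1] at F4 F5 S0 F6
  obtain ⟨G4, G5, S1⟩ := three_supp h31 (i := a) (by rw [hda]; exact ha)
  have G6 := three_pow h31 a
  rw [hda] at G4 G5 S1 G6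
  have key : ∀ k, k ≠ p → k ≠ q → Y k a = b := by
    intro k hkp hkq
    by_cases hk0 : k = k0
    · rw [hk0]; exact F1
    by_cases hk1 : k = k1
    · rw [hk1]; exact hda
    have hk3 := hY3 k hkp hkq
    obtain ⟨s, hs, hds, -⟩ := shared_edge h30 hk3
      (hYprod k0 k hk0p hk0q hkp hkq (Ne.symm hk0)).1
      (hYprod k0 k hk0p hk0q hkp hkq (Ne.symm hk0)).2
    obtain ⟨s', hs', hds', -⟩ := shared_edge h31 hk3
      (hYprod k1 k hk1p hk1q hkp hkq (Ne.symm hk1)).1
      (hYprod k1 k hk1p hk1q hkp hkq (Ne.symm hk1)).2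
    rcases S0 s hs with rfl | rfl | rfl
    · rw [hds, F1]
    · rcases S1 s' hs' with rfl | rfl | rfl
      · rw [hds', hda]
      · exfalso; apply hne; rw [← hds', hds]
      · exfalso
        have e1 : Y k (Y k1 s) = a := by rw [hds', G6]
        have hsb : Y k s ≠ s := by rw [hds]; exact F4
        have hw : Y k (Y k1 s) ≠ Y k1 s := by rw [e1]; exact fun h => G5 h.symm
        rcases two_edges hk3 hsb hw (fun h => G4 h.symm) with h | h
        · rw [hds] at h; exact hne h.symm
        · rw [e1] at h; exact ha h.symm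
    · have e0 : Y k (Y k0 b) = a := by rw [hds, F6]
      rcases S1 s' hs' with rfl | rfl | rfl
      · rw [hds', hda]
      · exfalso
        have hu : Y k (Y k0 s') ≠ Y k0 s' := by rw [e0]; exact fun h => F5 h.symm
        have hb' : Y k s' ≠ s' := by rw [hds']; exact G4
        rcases two_edges hk3 hu hb' F4 with h | h
        · rw [e0] at h; exact ha h.symm
        · rw [hds'] at h; exact hne h
      · exfalso
        have e1 : Y k (Y k1 b) = a := by rw [hds', G6]
        have e2 : Y k1 b = Y k0 b := (Y k).injective (e1.trans e0.symm)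
        exact hne e2
  -- the permutation
  have hrep : ∀ k, k ≠ p → k ≠ q → Y k = cyc a b (Y k b) ∧ Y k b ≠ b ∧ Y k b ≠ a := by
    intro k hkp hkq
    have hk3 := hY3 k hkp hkq
    have hka : Y k a ≠ a := by rw [key k hkp hkq]; exact ha
    have h1 := three_rep hk3 hka
    obtain ⟨h2, h3, -⟩ := three_supp hk3 hka
    rw [key k hkp hkq] at h1 h2 h3
    exact ⟨h1, h2, h3⟩
  obtain ⟨s, hsp, hsq, hsk⟩ : ∃ s : Fin n → Fin n, s p = a ∧ s q = b ∧
      ∀ k, k ≠ p → k ≠ q → s k = Y k b := by
    refine ⟨fun i => if i = p then a else if i = q then b else Y i b, ?_, ?_, ?_⟩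
    · simp
    · simp [hpq.symm]
    · intro k h1 h2; simp [h1, h2]
  have hinj : Function.Injective s := by
    have hcases : ∀ i : Fin n, i = p ∨ i = q ∨ (i ≠ p ∧ i ≠ q) := by
      intro i
      by_cases h1 : i = p
      · exact Or.inl h1
      · by_cases h2 : i = q
        · exact Or.inr (Or.inl h2)
        · exact Or.inr (Or.inr ⟨h1, h2⟩)
    intro i j hij
    rcases hcases i with rfl | rfl | ⟨hi1, hi2⟩ <;> rcases hcases j with rfl | rfl | ⟨hj1, hj2⟩
    · rfl
    · rw [hsp, hsq] at hij; exact absurd hij.symm ha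
    · rw [hsp, hsk j hj1 hj2] at hij; exact absurd hij.symm (hrep j hj1 hj2).2.2
    · rw [hsp, hsq] at hij; exact absurd hij ha
    · rfl
    · rw [hsq, hsk j hj1 hj2] at hij; exact absurd hij.symm (hrep j hj1 hj2).2.1
    · rw [hsp, hsk i hi1 hi2] at hij; exact absurd hij (hrep i hi1 hi2).2.2
    · rw [hsq, hsk i hi1 hi2] at hij; exact absurd hij (hrep i hi1 hi2).2.1
    · rw [hsk i hi1 hi2, hsk j hj1 hj2] at hij
      have e1 : Y i = Y j := by
        rw [(hrep i hi1 hi2).1, (hrep j hj1 hj2).1, hij]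
      rw [hY i hi1 hi2, hY j hj1 hj2] at e1
      have e2 := φ.injective (Subtype.ext e1)
      have e3 : cyc p q i = cyc p q j := congrArg Subtype.val e2
      have e4 : cyc p q i q = cyc p q j q := by rw [e3]
      rw [cyc_mid hi1.symm hi2.symm, cyc_mid hj1.symm hj2.symm] at e4
      exact e4
  obtain ⟨σ, hσ⟩ : ∃ σ : Perm (Fin n), ∀ i, σ i = s i :=
    ⟨Equiv.ofBijective s (Finite.injective_iff_bijective.1 hinj), fun i => rfl⟩
  have hconj : ∀ k, k ≠ p → k ≠ q → Y k = σ * cyc p q k * σ⁻¹ := by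
    intro k hkp hkq
    have e1 := swap_apply_apply σ p q
    have e2 := swap_apply_apply σ q k
    rw [hσ p, hσ q, hsp, hsq] at e1
    rw [hσ q, hσ k, hsq, hsk k hkp hkq] at e2
    rw [(hrep k hkp hkq).1, cyc, e1, e2, cyc]
    group
  have hgen : Subgroup.closure {z : alternatingGroup (Fin n) |
      ∃ k, k ≠ p ∧ k ≠ q ∧ (z : Perm (Fin n)) = cyc p q k} = ⊤ := by
    rw [eq_top_iff]
    intro z _
    have hz : (z : Perm (Fin n)) ∈
        Subgroup.closure {g : Perm (Fin n) | ∃ k, k ≠ p ∧ k ≠ q ∧ g = cyc p q k} := by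
      have h1 : alternatingGroup (Fin n) ≤
          Subgroup.closure {g : Perm (Fin n) | ∃ k, k ≠ p ∧ k ≠ q ∧ g = cyc p q k} := by
        rw [← Equiv.Perm.closure_three_cycles_eq_alternating, Subgroup.closure_le]
        intro c hc
        exact gen_three hpq c hc
      exact h1 z.2
    have hmap : (Subgroup.closure {z : alternatingGroup (Fin n) |
        ∃ k, k ≠ p ∧ k ≠ q ∧ (z : Perm (Fin n)) = cyc p q k}).map
          (alternatingGroup (Fin n)).subtype =
        Subgroup.closure {g : Perm (Fin n) | ∃ k, k ≠ p ∧ k ≠ q ∧ g = cyc p q k} := by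
      rw [MonoidHom.map_closure]
      congr 1
      ext g
      constructor
      · rintro ⟨z, ⟨k, h1, h2, hz⟩, rfl⟩
        exact ⟨k, h1, h2, hz⟩
      · rintro ⟨k, h1, h2, rfl⟩
        exact ⟨⟨cyc p q k, hxmem k h1 h2⟩, ⟨k, h1, h2, rfl⟩, rfl⟩
    rw [← hmap] at hz
    obtain ⟨z', hz', hzz⟩ := hz
    have e : z' = z := Subtype.ext hzz
    rw [← e]; exact hz'
  have heq : (alternatingGroup (Fin n)).subtype.comp φ.toMonoidHom =
      (MulAut.conj σ).toMonoidHom.comp (alternatingGroup (Fin n)).subtype := by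
    apply MonoidHom.eq_of_eqOn_dense hgen
    rintro z ⟨k, h1, h2, hz⟩
    have e : z = ⟨cyc p q k, hxmem k h1 h2⟩ := Subtype.ext hz
    show ((φ z : alternatingGroup (Fin n)) : Perm (Fin n)) = σ * (z : Perm (Fin n)) * σ⁻¹
    rw [e, ← hY k h1 h2, hconj k h1 h2]
  refine ⟨σ, fun z => ?_⟩
  exact congrArg (fun f : alternatingGroup (Fin n) →* Perm (Fin n) => f z) heq

theorem result (n : ℕ) (hn : 4 ≤ n) (h6 : n ≠ 6) : Function.Bijective (MulAut.conjNormal : Equiv.Perm (Fin n) →* MulAut ↥(alternatingGroup (Fin n))) := by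
  constructor
  · rw [injective_iff_map_eq_one]
    intro σ hσ
    by_contra hne
    obtain ⟨i, hi⟩ : ∃ i, σ i ≠ i := by
      by_contra hcon
      push Not at hcon
      exact hne (Equiv.ext hcon)
    obtain ⟨k, l, hkl, hki, hkj, hli, hlj⟩ := exists_two_ne hn i (σ i)
    have hc3 : (cyc (σ i) k l).IsThreeCycle := isThreeCycle_cyc hkj.symm hlj.symm hkl
    have h1 := congrArg (fun ψ : MulAut (alternatingGroup (Fin n)) =>
      ((ψ ⟨cyc (σ i) k l, hc3.mem_alternatingGroup⟩ : alternatingGroup (Fin n)) :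
        Perm (Fin n))) hσ
    simp only [MulAut.conjNormal_apply, MulAut.one_apply] at h1
    have h2 : σ * cyc (σ i) k l = cyc (σ i) k l * σ := mul_inv_eq_iff_eq_mul.1 h1
    have h3 := congrArg (fun f : Perm (Fin n) => f i) h2
    simp only [Perm.mul_apply] at h3
    rw [cyc_other hi.symm hki.symm hli.symm, cyc_left hkj.symm hlj.symm] at h3
    exact hkj h3.symm
  · intro φ
    obtain ⟨σ, hσ⟩ := surj hn h6 φ
    refine ⟨σ, ?_⟩
    apply MulEquiv.ext
    intro z
    apply Subtype.ext
    rw [MulAut.conjNormal_apply, hσ]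

end Main

end Cfsg.Agent.S2119
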