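import Cfsg.Statements.S1012
-- import your own Cfsg.Agent.* helpers here
import Mathlib
import Cfsg.Agent.S3669

set_option autoImplicit false
open Cfsg

namespace Cfsg.Agent.S1012

section
open Cfsg.Agent.S3669

universe u

variable {G : Type u} [Group G] [Finite G]

theorem no_comm (h6 : ∀ g : G, orderOf g ≠ 6) (x z : G) (hx : orderOf x = 3) (hz : orderOf z = 2) :
    ¬ Commute z x := by
  intro hc
  have := hc.orderOf_mul_eq_mul_orderOf_of_coprime (by rw [hx, hz]; norm_num)
  rw [hx, hz] at this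
  exact h6 _ this

theorem cent_eq (h : Nat.card G = 24) (h6 : ∀ g : G, orderOf g ≠ 6) (x : G) (hx : orderOf x = 3) :
    Subgroup.centralizer ({x} : Set G) = Subgroup.zpowers x := by
  symm
  have hle : Subgroup.zpowers x ≤ Subgroup.centralizer ({x} : Set G) := by
    rw [Subgroup.zpowers_le]
    exact Subgroup.mem_centralizer_singleton_iff.mpr rfl
  apply Subgroup.eq_of_le_of_card_ge hle
  rw [Nat.card_zpowers, hx]
  have hd : Nat.card (Subgroup.centralizer ({x} : Set G)) ∣ 24 :=
    h ▸ Subgroup.card_subgroup_dvd_card _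
  have hodd : ¬ 2 ∣ Nat.card (Subgroup.centralizer ({x} : Set G)) := by
    intro h2
    haveI : Fact (Nat.Prime 2) := ⟨Nat.prime_two⟩
    obtain ⟨z, hz⟩ := exists_prime_orderOf_dvd_card' 2 h2
    have hz' : orderOf (z : G) = 2 := by rw [Subgroup.orderOf_coe]; exact hz
    apply no_comm h6 x z hx hz'
    have := z.2
    rw [Subgroup.mem_centralizer_singleton_iff] at this
    exact this
  have : Nat.card (Subgroup.centralizer ({x} : Set G)) ∣ 3 := by
    have hc : Nat.Coprime (Nat.card (Subgroup.centralizer ({x} : Set G))) 8 := by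
      have : Nat.Coprime (Nat.card (Subgroup.centralizer ({x} : Set G))) 2 :=
        Nat.Coprime.symm ((Nat.Prime.coprime_iff_not_dvd Nat.prime_two).mpr hodd)
      exact Nat.Coprime.pow_right 3 this
    exact hc.dvd_of_dvd_mul_left (by norm_num; exact hd)
  exact Nat.le_of_dvd (by norm_num) this

theorem conj_cases (x g : G) (hx : orderOf x = 3) (hg : g * x * g⁻¹ ∈ Subgroup.zpowers x) :
    g * x * g⁻¹ = x ∨ g * x * g⁻¹ = x⁻¹ := by
  obtain ⟨k, hk⟩ := Subgroup.mem_zpowers_iff.mp hg
  rw [← zpow_mod_orderOf, hx] at hk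
  simp only [Nat.cast_ofNat] at hk
  have h0 : 0 ≤ k % 3 := Int.emod_nonneg _ (by norm_num)
  have h1 : k % 3 < 3 := Int.emod_lt_of_pos _ (by norm_num)
  have h3 : x ^ 3 = 1 := by rw [← hx]; exact pow_orderOf_eq_one x
  have : k % 3 = 0 ∨ k % 3 = 1 ∨ k % 3 = 2 := by omega
  rcases this with h | h | h
  · rw [h] at hk
    simp only [zpow_zero] at hk
    exfalso
    have hx1 : x = 1 := by
      have h' : g * x = g := by
        calc g * x = g * x * g⁻¹ * g := by group
          _ = g := by rw [← hk, one_mul]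
      exact mul_left_cancel (a := g) (by rw [h', mul_one])
    rw [hx1, orderOf_one] at hx
    norm_num at hx
  · left
    rw [h] at hk
    simp only [zpow_one] at hk
    exact hk.symm
  · right
    rw [h] at hk
    rw [← hk, eq_inv_iff_mul_eq_one]
    have : x ^ (2 : ℤ) = x ^ 2 := by norm_cast
    rw [this, ← pow_succ, h3]

theorem card_le_six (x : G) (hx : orderOf x = 3)
    (hC : ∀ g : G, g * x * g⁻¹ = x → g ∈ Subgroup.zpowers x) (S : Set G)
    (hS : ∀ g ∈ S, g * x * g⁻¹ ∈ Subgroup.zpowers x) : S.ncard ≤ 6 := by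
  have hz : ((Subgroup.zpowers x : Subgroup G) : Set G).ncard = 3 := by
    rw [← Nat.card_coe_set_eq]
    exact (Nat.card_zpowers x).trans hx
  by_cases hsub : S ⊆ ((Subgroup.zpowers x : Subgroup G) : Set G)
  · have := Set.ncard_le_ncard hsub (Set.toFinite _)
    omega
  · obtain ⟨g₀, hg₀, hg₀'⟩ := Set.not_subset.mp hsub
    have hsub2 : S ⊆ ((Subgroup.zpowers x : Subgroup G) : Set G) ∪
        (fun y => g₀ * y) '' ((Subgroup.zpowers x : Subgroup G) : Set G) := by
      intro g hg
      by_cases hgz : g ∈ Subgroup.zpowers x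
      · left; exact hgz
      · right
        refine ⟨g₀⁻¹ * g, ?_, by group⟩
        apply hC
        have h1 : g * x * g⁻¹ = x⁻¹ := by
          rcases conj_cases x g hx (hS g hg) with h | h
          · exact absurd (hC g h) hgz
          · exact h
        have h2 : g₀ * x * g₀⁻¹ = x⁻¹ := by
          rcases conj_cases x g₀ hx (hS g₀ hg₀) with h | h
          · exact absurd (hC g₀ h) hg₀'
          · exact h
        have h3 : g₀⁻¹ * x⁻¹ * g₀ = x := by
          rw [← h2]; group
        calc g₀⁻¹ * g * x * (g₀⁻¹ * g)⁻¹ = g₀⁻¹ * (g * x * g⁻¹) * g₀ := by group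
          _ = x := by rw [h1, h3]
    have h1 := Set.ncard_le_ncard hsub2 (Set.toFinite _)
    have h2 := Set.ncard_union_le ((Subgroup.zpowers x : Subgroup G) : Set G)
      ((fun y => g₀ * y) '' ((Subgroup.zpowers x : Subgroup G) : Set G))
    have h3 : ((fun y => g₀ * y) '' ((Subgroup.zpowers x : Subgroup G) : Set G)).ncard = 3 := by
      rw [Set.ncard_image_of_injective _ (mul_right_injective g₀), hz]
    omega

theorem aux (h : Nat.card G = 24) (h6 : ∀ g : G, orderOf g ≠ 6) :
    Nonempty (G ≃* Equiv.Perm (Fin 4)) := by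
  haveI : Fact (Nat.Prime 3) := ⟨Nat.prime_three⟩
  have hC : ∀ x : G, orderOf x = 3 → ∀ g : G, g * x * g⁻¹ = x → g ∈ Subgroup.zpowers x := by
    intro x hx g hg
    rw [← cent_eq h h6 x hx, Subgroup.mem_centralizer_singleton_iff]
    calc g * x = g * x * g⁻¹ * g := by group
      _ = x * g := by rw [hg]
  have hSyl : ∀ P : Sylow 3 G, Nat.card (P : Subgroup G) = 3 := fun P =>
    (sylow_card_index 3 P 8 (by rw [h]) (by norm_num)).1
  have hgen : ∀ P : Sylow 3 G, ∃ x : G, orderOf x = 3 ∧ (P : Subgroup G) = Subgroup.zpowers x := by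
    intro P
    obtain ⟨y, hy⟩ := exists_prime_orderOf_dvd_card' (G := (P : Subgroup G)) 3 (by rw [hSyl P])
    refine ⟨y, (Subgroup.orderOf_coe y).trans hy, ?_⟩
    symm
    apply Subgroup.eq_of_le_of_card_ge
    · rw [Subgroup.zpowers_le]; exact y.2
    · rw [hSyl P, Nat.card_zpowers, Subgroup.orderOf_coe, hy]
  have hn : Nat.card (Sylow 3 G) = 4 := by
    obtain ⟨P⟩ : Nonempty (Sylow 3 G) := inferInstance
    have h1 : Nat.card (Sylow 3 G) ≡ 1 [MOD 3] := card_sylow_modEq_one 3 G
    have h2 : Nat.card (Sylow 3 G) ∣ (P : Subgroup G).index := Sylow.card_dvd_index P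
    rw [(sylow_card_index 3 P 8 (by rw [h]) (by norm_num)).2] at h2
    have h3 : Nat.card (Sylow 3 G) ≤ 8 := Nat.le_of_dvd (by norm_num) h2
    have hne : Nat.card (Sylow 3 G) ≠ 1 := by
      intro hone
      have : Subsingleton (Sylow 3 G) := (Nat.card_eq_one_iff_unique.mp hone).1
      have hnorm : (P : Subgroup G).Normal := Sylow.normal_of_subsingleton P
      obtain ⟨x, hx, hP⟩ := hgen P
      have := card_le_six x hx (hC x hx) Set.univ (fun g _ => by
        rw [← hP]; exact hnorm.conj_mem x (by rw [hP]; exact Subgroup.mem_zpowers x) g)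
      rw [Set.ncard_univ, h] at this
      omega
    unfold Nat.ModEq at h1
    generalize Nat.card (Sylow 3 G) = n at *
    interval_cases n <;> omega
  let φ : G →* Equiv.Perm (Sylow 3 G) := MulAction.toPermHom G (Sylow 3 G)
  have hker : ∀ g : G, φ g = 1 → ∀ x : G, orderOf x = 3 →
      g * x * g⁻¹ ∈ Subgroup.zpowers x := by
    intro g hg x hx
    obtain ⟨Q, hQ⟩ := (IsPGroup.of_card (p := 3) (n := 1)
      (by rw [Nat.card_zpowers, hx]; norm_num) : IsPGroup 3 (Subgroup.zpowers x)).exists_le_sylow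
    have hQe : (Q : Subgroup G) = Subgroup.zpowers x := by
      symm; apply Subgroup.eq_of_le_of_card_ge hQ; rw [hSyl Q, Nat.card_zpowers, hx]
    have h1 : g • Q = Q := by
      have := congrArg (fun σ => σ Q) hg
      simpa [φ] using this
    have h2 := (Subgroup.mem_normalizer_iff.mp (Sylow.smul_eq_iff_mem_normalizer.mp h1) x).mp
      (by rw [hQe]; exact Subgroup.mem_zpowers x)
    rw [hQe] at h2
    exact h2
  have hinj : Function.Injective φ := by
    rw [injective_iff_map_eq_one]
    intro g hg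
    by_contra hg1
    have : Nontrivial (Sylow 3 G) := by
      rw [← Finite.one_lt_card_iff_nontrivial, hn]; norm_num
    obtain ⟨P, P', hPP⟩ := exists_pair_ne (Sylow 3 G)
    obtain ⟨x, hx, hP⟩ := hgen P
    obtain ⟨x', hx', hP'⟩ := hgen P'
    have hbot : (P : Subgroup G) ⊓ (P' : Subgroup G) = ⊥ := by
      have hd : Nat.card ((P : Subgroup G) ⊓ (P' : Subgroup G) : Subgroup G) ∣ 3 := by
        have := Subgroup.card_dvd_of_le (inf_le_left : (P : Subgroup G) ⊓ (P' : Subgroup G) ≤ P)
        rwa [hSyl P] at this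
      rcases (Nat.dvd_prime Nat.prime_three).mp hd with h1 | h3
      · exact Subgroup.eq_bot_of_card_eq _ h1
      · exfalso
        have e1 : (P : Subgroup G) ⊓ (P' : Subgroup G) = P :=
          Subgroup.eq_of_le_of_card_ge inf_le_left (by rw [h3, hSyl P])
        have e2 : (P : Subgroup G) ⊓ (P' : Subgroup G) = P' :=
          Subgroup.eq_of_le_of_card_ge inf_le_right (by rw [h3, hSyl P'])
        exact hPP (Sylow.ext (e1.symm.trans e2))
    -- (a)
    have ha : ∀ k : G, k * x * k⁻¹ = x → k * x' * k⁻¹ = x' → k = 1 := by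
      intro k h1 h2
      have m1 : k ∈ (P : Subgroup G) := by rw [hP]; exact hC x hx k h1
      have m2 : k ∈ (P' : Subgroup G) := by rw [hP']; exact hC x' hx' k h2
      have : k ∈ (P : Subgroup G) ⊓ (P' : Subgroup G) := ⟨m1, m2⟩
      rw [hbot] at this
      exact Subgroup.mem_bot.mp this
    -- (b)
    have hsqx : ∀ (y : G), orderOf y = 3 → ∀ k : G, φ k = 1 → (k * k) * y * (k * k)⁻¹ = y := by
      intro y hy k hk
      rcases conj_cases y k hy (hker k hk y hy) with h1 | h1
      · calc (k * k) * y * (k * k)⁻¹ = k * (k * y * k⁻¹) * k⁻¹ := by group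
          _ = y := by rw [h1, h1]
      · calc (k * k) * y * (k * k)⁻¹ = k * (k * y * k⁻¹) * k⁻¹ := by group
          _ = k * y⁻¹ * k⁻¹ := by rw [h1]
          _ = (k * y * k⁻¹)⁻¹ := by group
          _ = y := by rw [h1, inv_inv]
    have hb : ∀ k : G, φ k = 1 → k * k = 1 := fun k hk =>
      ha (k * k) (hsqx x hx k hk) (hsqx x' hx' k hk)
    -- (c)
    have hc : ∀ (y : G), orderOf y = 3 → ∀ k : G, φ k = 1 → k ≠ 1 → k * y * k⁻¹ = y⁻¹ := by
      intro y hy k hk hk1
      rcases conj_cases y k hy (hker k hk y hy) with h1 | h1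
      · exfalso
        have ho : orderOf k = 2 := orderOf_eq_prime (by rw [pow_two]; exact hb k hk) hk1
        apply no_comm h6 y k hy ho
        calc k * y = k * y * k⁻¹ * k := by group
          _ = y * k := by rw [h1]
      · exact h1
    -- (d)
    have hd : ∀ k k' : G, φ k = 1 → φ k' = 1 → k ≠ 1 → k' ≠ 1 → k * k' = 1 := by
      intro k k' hk hk' hk1 hk'1
      have e : ∀ (y : G), orderOf y = 3 → (k * k') * y * (k * k')⁻¹ = y := by
        intro y hy
        calc (k * k') * y * (k * k')⁻¹ = k * (k' * y * k'⁻¹) * k⁻¹ := by group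
          _ = (k * y * k⁻¹)⁻¹ := by rw [hc y hy k' hk' hk'1]; group
          _ = y := by rw [hc y hy k hk hk1, inv_inv]
      exact ha _ (e x hx) (e x' hx')
    -- (e)
    have hg' : φ (x * g * x⁻¹) = 1 := by
      rw [map_mul, map_mul, hg, mul_one, ← map_mul, mul_inv_cancel, map_one]
    have hg'1 : x * g * x⁻¹ ≠ 1 := by
      intro hh
      apply hg1
      calc g = x⁻¹ * (x * g * x⁻¹) * x := by group
        _ = 1 := by rw [hh]; group
    have e1 := hd g (x * g * x⁻¹) hg hg' hg1 hg'1
    have e2 := hb g hg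
    have e3 : x * g * x⁻¹ = g := by
      have : g * (x * g * x⁻¹) = g * g := by rw [e1, e2]
      exact mul_left_cancel this
    have e4 := hc x hx g hg hg1
    have e5 : g * x * g⁻¹ = x := by
      calc g * x * g⁻¹ = (x * g * x⁻¹) * x * g⁻¹ := by rw [e3]
        _ = x := by group
    have e6 : x = x⁻¹ := e5.symm.trans e4
    have e7 : x ^ 2 = 1 := by
      rw [pow_two]
      calc x * x = x * x⁻¹ := by rw [← e6]
        _ = 1 := mul_inv_cancel x
    have := orderOf_dvd_of_pow_eq_one e7
    rw [hx] at this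
    omega
  have hbij : Function.Bijective φ := by
    apply Function.Injective.bijective_of_nat_card_le hinj
    rw [h, Nat.card_perm, hn]
    decide
  let e : Sylow 3 G ≃ Fin 4 := Finite.equivFinOfCardEq hn
  exact ⟨(MulEquiv.ofBijective φ hbij).trans e.permCongrHom⟩
end


/-- A group of order 24 containing no element of order 6 is isomorphic to the symmetric group of degree 4. -/
theorem result {G : Type*} [Group G] [Finite G] (h : Nat.card G = 24) (h6 : ∀ g : G, orderOf g ≠ 6) : Nonempty (G ≃* Equiv.Perm (Fin 4)) := by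
  exact aux h h6

end Cfsg.Agent.S1012
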