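import Cfsg.Statements.S4435
import Cfsg.Agent.Lib.helper5.FongReynolds

set_option autoImplicit false
open Cfsg

namespace Cfsg.Agent.S4435

open Cfsg.Agent.Lib.helper5 Cfsg.Agent.Lib.helper23 Cfsg.Agent.Lib.helper24
open scoped ComplexConjugate

/-- Let N be a normal subgroup of the finite group G, b a block of N (relative to a maximal ideal M of the algebraic integers containing p), and T the stabilizer of b in G (the elements g such that conjugating any member of b by g gives a member of b); N ≤ T. Say that a block of T (or of G) covers b when some member has a constituent in b on restriction to N. Then: (i) every block B′ of T covering b induces a block B of G, B covers b, every ψ ∈ B′ induces to an irreducible character of G, and B consists exactly of the characters induced from members of B′; (ii) distinct blocks of T covering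 b induce distinct blocks of G; (iii) every block of G covering b is induced by some block of T covering b. -/
theorem result {G : Type*} [Group G] [Fintype G] (p : ℕ) [Fact p.Prime] (M : Ideal Cfsg.AlgInt) (hM : Cfsg.IsPModular p M) (N : Subgroup G) [hN : N.Normal] [Fintype N] (b : Set (Cfsg.IrrCharacter N)) (hb : Cfsg.IsPBlock M b) (T : Subgroup G) [Fintype T] (hT : ∀ g : G, g ∈ T ↔ ∀ θ ∈ b, ∀ θ' : Cfsg.IrrCharacter N, (∀ n : N, (θ' : N → ℂ) n = (θ : N → ℂ) ⟨g * n * g⁻¹, hN.conj_mem n n.2 g⟩) → θ' ∈ b) (hNT : N ≤ T) : (∀ B' : Set (Cfsg.IrrCharacter T), Cfsg.IsPBlock M B' → (∃ ψ ∈ B', ∃ θ ∈ b, Cfsg.classInner (fun n : N => (ψ : T → ℂ) ⟨(n : G), hNT n.2⟩) (θ : N → ℂ) ≠ 0) → ∃ B : Set (Cfsg.IrrCharacter G), Cfsg.IsInducedBlock M T B' B ∧ (∃ χ ∈ B, ∃ θ ∈ b, Cfsg.classInner (fun n : N => (χ : G → ℂ) n) (θ : N → ℂ) ≠ 0) ∧ (∀ ψ ∈ B', Cfsg.IsIrrCharacter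 G (Cfsg.indFun T (ψ : T → ℂ))) ∧ ∀ χ : Cfsg.IrrCharacter G, χ ∈ B ↔ ∃ ψ ∈ B', (χ : G → ℂ) = Cfsg.indFun T (ψ : T → ℂ)) ∧ (∀ B'₁ B'₂ : Set (Cfsg.IrrCharacter T), Cfsg.IsPBlock M B'₁ → Cfsg.IsPBlock M B'₂ → (∃ ψ ∈ B'₁, ∃ θ ∈ b, Cfsg.classInner (fun n : N => (ψ : T → ℂ) ⟨(n : G), hNT n.2⟩) (θ : N → ℂ) ≠ 0) → (∃ ψ ∈ B'₂, ∃ θ ∈ b, Cfsg.classInner (fun n : N => (ψ : T → ℂ) ⟨(n : G), hNT n.2⟩) (θ : N → ℂ) ≠ 0) → ∀ B : Set (Cfsg.IrrCharacter G), Cfsg.IsInducedBlock M T B'₁ B → Cfsg.IsInducedBlock M T B'₂ B → B'₁ = B'₂) ∧ (∀ B : Set (Cfsg.IrrCharacter G), Cfsg.IsPBlock M B → (∃ χ ∈ B, ∃ θ ∈ b, Cfsg.classInner (fun n : N => (χ : G → ℂ) n) (θ : N → ℂ) ≠ 0) → ∃ B' : Set (Cfsg.IrrCharacter T), Cfsg.IsPBlock M B' ∧ (∃ ψ ∈ B', ∃ θ ∈ b, Cfsg.classInner (fun n : N => (ψ : T → ℂ) ⟨(n : G), hNT n.2⟩) (θ : N → ℂ) ≠ 0) ∧ Cfsg.IsInducedBlock M T B' B) :=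 by
  classical
  haveI := Fintype.ofFinite (Cfsg.IrrCharacter G)
  haveI := Fintype.ofFinite (Cfsg.IrrCharacter N)
  haveI := Fintype.ofFinite (Cfsg.IrrCharacter T)
  have hMp := isPModular_isPrime hM
  have hT' : IsStabOf N T b := hT
  have hst : ∀ θ ∈ b, ∀ g : G,
      (∀ n : N, θ.1 ⟨g * n * g⁻¹, hN.conj_mem (n : G) n.2 g⟩ = θ.1 n) → g ∈ T :=
    fun θ hθ g hg => inertia_le_stab N T hMp hb hT' hθ g hg
  -- part (i)
  have part1 : ∀ B' : Set (Cfsg.IrrCharacter T), Cfsg.IsPBlock M B' →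
      (∃ ψ ∈ B', ∃ θ ∈ b,
        Cfsg.classInner (fun n : N => (ψ : T → ℂ) ⟨(n : G), hNT n.2⟩) (θ : N → ℂ) ≠ 0) →
      ∃ B : Set (Cfsg.IrrCharacter G), Cfsg.IsInducedBlock M T B' B ∧
        (∃ χ ∈ B, ∃ θ ∈ b, Cfsg.classInner (fun n : N => (χ : G → ℂ) n) (θ : N → ℂ) ≠ 0) ∧
        (∀ ψ ∈ B', Cfsg.IsIrrCharacter G (Cfsg.indFun T (ψ : T → ℂ))) ∧
        ∀ χ : Cfsg.IrrCharacter G, χ ∈ B ↔ ∃ ψ ∈ B', (χ : G → ℂ) = Cfsg.indFun T (ψ : T → ℂ) := by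
    intro B' hB' hcov
    have hall := cover_all_T N T hNT hMp hb B' hB' hcov
    obtain ⟨ψ₀, hψ₀, θ₀, hθ₀, hcon₀⟩ := hcov
    have hirr : ∀ ψ ∈ B', Cfsg.IsIrrCharacter G (Cfsg.indFun T ψ.1) := by
      intro ψ hψ
      obtain ⟨θ, hθ, hc⟩ := hall ψ hψ
      exact fr_irr N T hNT θ (hst θ hθ) ψ hc
    obtain ⟨χ₀, hχ₀⟩ : ∃ χ₀ : Cfsg.IrrCharacter G, χ₀.1 = Cfsg.indFun T ψ₀.1 :=
      ⟨⟨Cfsg.indFun T ψ₀.1, hirr ψ₀ hψ₀⟩, rfl⟩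
    have hB'eq : ∀ ψ ∈ B', B' = Cfsg.blockOf M ψ.1 := by
      intro ψ hψ
      obtain ⟨ξ, rfl⟩ := hB'
      exact (blockOf_eq_of_mem hMp hψ).symm
    have hind₀ : Cfsg.IsInducedBlock M T B' (Cfsg.blockOf M χ₀.1) := by
      have h := Cfsg.Agent.S0933.result p M hM T ψ₀ (hirr ψ₀ hψ₀)
      rw [← hχ₀, ← hB'eq ψ₀ hψ₀] at h
      exact h
    have hcovB : ∃ χ ∈ Cfsg.blockOf M χ₀.1, ∃ θ ∈ b,
        Cfsg.classInner (fun n : N => χ.1 n) θ.1 ≠ 0 := by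
      refine ⟨χ₀, mem_blockOf_self hMp.ne_top χ₀, θ₀, hθ₀, ?_⟩
      rw [hχ₀, fr_inner N T hNT θ₀ (hst θ₀ hθ₀) ψ₀ hcon₀]
      exact hcon₀
    refine ⟨Cfsg.blockOf M χ₀.1, hind₀, hcovB, hirr, ?_⟩
    intro χ
    constructor
    · intro hχ
      obtain ⟨θ, hθ, hc⟩ := cover_all_G N hMp hb (Cfsg.blockOf M χ₀.1) ⟨χ₀, rfl⟩ hcovB χ hχ
      obtain ⟨ψ, hψc, hψe⟩ := fr_surj N T hNT θ (hst θ hθ) χ hc
      refine ⟨ψ, ?_, hψe.symm⟩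
      have hirrψ : Cfsg.IsIrrCharacter G (Cfsg.indFun T ψ.1) := by
        rw [hψe]
        exact χ.2
      have h := Cfsg.Agent.S0933.result p M hM T ψ hirrψ
      rw [hψe, blockOf_eq_of_mem hMp hχ] at h
      have heq := fr_block_inj N T hNT hM hb hT' (Cfsg.blockOf M ψ.1) B' ⟨ψ, rfl⟩ hB'
        ⟨ψ, mem_blockOf_self hMp.ne_top ψ, θ, hθ, hψc⟩ ⟨ψ₀, hψ₀, θ₀, hθ₀, hcon₀⟩
        (Cfsg.blockOf M χ₀.1) h hind₀
      rw [← heq]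
      exact mem_blockOf_self hMp.ne_top ψ
    · rintro ⟨ψ, hψ, hχe⟩
      have h := Cfsg.Agent.S0933.result p M hM T ψ (hirr ψ hψ)
      rw [← hχe, ← hB'eq ψ hψ] at h
      exact sameBlock_of_isInducedBlock hMp hind₀ h
  refine ⟨part1, ?_, ?_⟩
  · intro B'₁ B'₂ hB'₁ hB'₂ hc₁ hc₂ B h₁ h₂
    exact fr_block_inj N T hNT hM hb hT' B'₁ B'₂ hB'₁ hB'₂ hc₁ hc₂ B h₁ h₂
  · intro B hB hcov
    obtain ⟨χ, hχ, θ, hθ, hc⟩ := hcov
    obtain ⟨ψ, hψc, hψe⟩ := fr_surj N T hNT θ (hst θ hθ) χ hc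
    refine ⟨Cfsg.blockOf M ψ.1, ⟨ψ, rfl⟩, ⟨ψ, mem_blockOf_self hMp.ne_top ψ, θ, hθ, hψc⟩, ?_⟩
    have hirrψ : Cfsg.IsIrrCharacter G (Cfsg.indFun T ψ.1) := by
      rw [hψe]
      exact χ.2
    have h := Cfsg.Agent.S0933.result p M hM T ψ hirrψ
    have hBeq : Cfsg.blockOf M χ.1 = B := by
      obtain ⟨ξ, rfl⟩ := hB
      exact blockOf_eq_of_mem hMp hχ
    rw [hψe, hBeq] at h
    exact h

end Cfsg.Agent.S4435
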