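import Cfsg.Statements.S4436
import Cfsg.Agent.Lib.helper5.FongReynolds
import Cfsg.Agent.S4435
import Cfsg.Agent.S0917
import Cfsg.Agent.Lib.helper23.BrauerFeit
import Cfsg.Agent.Lib.helper23.BlockDefectZero
import Cfsg.Agent.Lib.helper24.CharKer

set_option autoImplicit false
open Cfsg

namespace Cfsg.Agent.S4436

open Cfsg.Agent.Lib.helper5 Cfsg.Agent.Lib.helper23 Cfsg.Agent.Lib.helper24
open scoped ComplexConjugate

/-- Let N be a normal subgroup of the finite group G, b a block of N (relative to a maximal ideal M of the algebraic integers containing p), T the stabilizer of b in G, N ≤ T, and B′ a block of T covering b (some member of B′ has a constituent in b on restriction to N) that induces the block B of G. Then every defect group of B′ is a defect group of B, and for every ψ ∈ B′ the induced character ψ^G is an irreducible character of G lying in B with the same height as ψ. -/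
theorem result {G : Type*} [Group G] [Fintype G] (p : ℕ) [Fact p.Prime] (M : Ideal Cfsg.AlgInt) (hM : Cfsg.IsPModular p M) (N : Subgroup G) [hN : N.Normal] [Fintype N] (b : Set (Cfsg.IrrCharacter N)) (hb : Cfsg.IsPBlock M b) (T : Subgroup G) [Fintype T] (hT : ∀ g : G, g ∈ T ↔ ∀ θ ∈ b, ∀ θ' : Cfsg.IrrCharacter N, (∀ n : N, (θ' : N → ℂ) n = (θ : N → ℂ) ⟨g * n * g⁻¹, hN.conj_mem n n.2 g⟩) → θ' ∈ b) (hNT : N ≤ T) (B' : Set (Cfsg.IrrCharacter T)) (hB' : Cfsg.IsPBlock M B') (hcov : (∃ ψ ∈ B', ∃ θ ∈ b, Cfsg.classInner (fun n : N => (ψ : T → ℂ) ⟨(n : G), hNT n.2⟩) (θ : N → ℂ) ≠ 0)) (B : Set (Cfsg.IrrCharacter G)) (hind : Cfsg.IsInducedBlock M T B' B) : (∀ D : Subgroup T, Cfsg.IsDefectGroup p M B' D → Cfsg.IsDefectGroup p M B (D.map T.subtype)) ∧ ∀ ψ ∈ B', ∃ χ ∈ B, (χ : G → ℂ) = Cfsg.indFun T (ψ : T → ℂ) ∧ Cfsg.blockHeight p B (χ : G → ℂ) = Cfsg.blockHeight p B' (ψ : T → ℂ) := by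
  classical
  haveI := Fintype.ofFinite (Cfsg.IrrCharacter G)
  haveI := Fintype.ofFinite (Cfsg.IrrCharacter N)
  haveI := Fintype.ofFinite (Cfsg.IrrCharacter T)
  have hMp := isPModular_isPrime hM
  obtain ⟨B₀, hind₀, hcovB, hirr, hmem⟩ :=
    (Cfsg.Agent.S4435.result p M hM N b hb T hT hNT).1 B' hB' hcov
  have hBB : B₀ = B := by
    obtain ⟨χ₀, h0⟩ := hind₀.2.1
    obtain ⟨χ₁, h1⟩ := hind.2.1
    have hi0 := hind₀
    have hi1 := hind
    rw [h0] at hi0
    rw [h1] at hi1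
    rw [h0, h1]
    have hs := sameBlock_of_isInducedBlock hMp hi1 hi0
    exact blockOf_eq_of_mem hMp hs
  subst hBB
  have hidx : T.index ≠ 0 := Subgroup.index_ne_zero_of_finite
  have hdeg : ∀ (ψ : Cfsg.IrrCharacter T) (χ : Cfsg.IrrCharacter G),
      χ.1 = Cfsg.indFun T ψ.1 → Cfsg.charDegree χ.1 = T.index * Cfsg.charDegree ψ.1 := by
    intro ψ χ h
    have h1 := charDegree_cast χ
    have h2 := charDegree_cast ψ
    have h3 : χ.1 1 = (T.index : ℂ) * ψ.1 1 := by
      rw [h]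
      exact indFun_one T ψ.1
    have : (Cfsg.charDegree χ.1 : ℂ) = ((T.index * Cfsg.charDegree ψ.1 : ℕ) : ℂ) := by
      push_cast
      rw [h1, h3, h2]
    exact_mod_cast this
  have hfac : ∀ (ψ : Cfsg.IrrCharacter T) (χ : Cfsg.IrrCharacter G),
      χ.1 = Cfsg.indFun T ψ.1 → (Cfsg.charDegree χ.1).factorization p
        = T.index.factorization p + (Cfsg.charDegree ψ.1).factorization p := by
    intro ψ χ h
    rw [hdeg ψ χ h, Nat.factorization_mul hidx (irr_charDegree_facts ψ).2.1]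
    rfl
  have hS'ne : ((fun ψ : Cfsg.IrrCharacter T =>
      (Cfsg.charDegree (ψ : T → ℂ)).factorization p) '' B').Nonempty := by
    obtain ⟨ψ, hψ, -⟩ := hcov
    exact ⟨_, ψ, hψ, rfl⟩
  have hSeq : (fun χ : Cfsg.IrrCharacter G => (Cfsg.charDegree (χ : G → ℂ)).factorization p) '' B₀
      = (fun m => T.index.factorization p + m) '' ((fun ψ : Cfsg.IrrCharacter T =>
        (Cfsg.charDegree (ψ : T → ℂ)).factorization p) '' B') := by
    ext m
    constructor
    · rintro ⟨χ, hχ, rfl⟩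
      obtain ⟨ψ, hψ, he⟩ := (hmem χ).mp hχ
      exact ⟨_, ⟨ψ, hψ, rfl⟩, (hfac ψ χ he).symm⟩
    · rintro ⟨_, ⟨ψ, hψ, rfl⟩, rfl⟩
      exact ⟨⟨Cfsg.indFun T ψ.1, hirr ψ hψ⟩, (hmem _).mpr ⟨ψ, hψ, rfl⟩, hfac ψ _ rfl⟩
  have hInf : sInf ((fun χ : Cfsg.IrrCharacter G =>
        (Cfsg.charDegree (χ : G → ℂ)).factorization p) '' B₀)
      = T.index.factorization p + sInf ((fun ψ : Cfsg.IrrCharacter T =>
        (Cfsg.charDegree (ψ : T → ℂ)).factorization p) '' B') := by
    rw [hSeq]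
    apply le_antisymm
    · exact Nat.sInf_le ⟨_, Nat.sInf_mem hS'ne, rfl⟩
    · apply le_csInf (hS'ne.image _)
      rintro _ ⟨m, hm, rfl⟩
      exact Nat.add_le_add_left (Nat.sInf_le hm) _
  have hcard : Nat.card G = T.index * Nat.card T := (Subgroup.index_mul_card T).symm
  have hdef : Cfsg.blockDefect p B₀ = Cfsg.blockDefect p B' := by
    unfold Cfsg.blockDefect
    rw [hInf, hcard, Nat.factorization_mul hidx (Nat.card_pos (α := T)).ne']
    simp only [Finsupp.coe_add, Pi.add_apply]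
    omega
  refine ⟨?_, ?_⟩
  · intro D hD
    obtain ⟨E, hE, hle⟩ := Cfsg.Agent.S0917.result p M hM T B' hB' B₀ hind.2.1 hind D hD
    have h1 := card_defectGroup p hM B' hB' D hD
    have h2 := card_defectGroup p hM B₀ hind.2.1 E hE
    have h3 : Nat.card (D.map T.subtype) = Nat.card D :=
      Subgroup.card_map_of_injective T.subtype_injective
    have heq : D.map T.subtype = E := by
      apply Subgroup.eq_of_le_of_card_ge hle
      rw [h3, h1, h2, hdef]
    rw [heq]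
    exact hE
  · intro ψ hψ
    refine ⟨⟨Cfsg.indFun T ψ.1, hirr ψ hψ⟩, (hmem _).mpr ⟨ψ, hψ, rfl⟩, rfl, ?_⟩
    unfold Cfsg.blockHeight
    rw [hInf, hfac ψ _ rfl]
    omega

end Cfsg.Agent.S4436
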