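import Cfsg.Statements.S4669
import Cfsg.Agent.S4494
import Cfsg.Agent.Lib.helper23.CentralDefect
import Cfsg.Agent.Lib.helper5.BlockHeight
import Cfsg.Agent.Lib.helper22.CharZ

set_option autoImplicit false
open Cfsg

namespace Cfsg.Agent.S4669

open Cfsg.Agent.Lib.helper24 Cfsg.Agent.Lib.helper23 Cfsg.Agent.Lib.helper22 Cfsg.Agent.Lib.helper5
open scoped ComplexConjugate

universe u

theorem central_defect_rank {G : Type u} [Group G] [Fintype G] (p : ℕ) [hp : Fact p.Prime]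
    (M : Ideal AlgInt) (hM : IsPModular p M) (B : Set (IrrCharacter G)) (hB : IsPBlock M B)
    (P : Subgroup G) (hD : IsDefectGroup p M B P) (hPZ : P ≤ Subgroup.center G) :
    blockRank p B = 1 := by
  classical
  have := Fintype.ofFinite (IrrCharacter G)
  have hMp := isPModular_isPrime hM
  have htrace := blockRank_trace_formula p M hM B hB
  have hht := fun χ hχ => (height_zero_iff hM B hB χ hχ).2
  obtain ⟨χ₀, rfl⟩ := hB
  obtain ⟨g, hg, S, rfl⟩ := hD
  have hχ₀B : χ₀ ∈ blockOf M χ₀.1 := mem_blockOf_self hMp.ne_top χ₀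
  obtain ⟨a, ha⟩ : ∃ a : ℕ, a = (Nat.card G).factorization p := ⟨_, rfl⟩
  obtain ⟨d, hd⟩ : ∃ d : ℕ, d = blockDefect p (blockOf M χ₀.1) := ⟨_, rfl⟩
  have hcardP : Nat.card ((S : Subgroup (Subgroup.centralizer ({g} : Set G))).map
      (Subgroup.centralizer ({g} : Set G)).subtype) = p ^ d := by
    rw [card_sylow_map, defect_class_factorization hM χ₀ g hg, hd]
  have hPp : IsPGroup p ((S : Subgroup (Subgroup.centralizer ({g} : Set G))).map
      (Subgroup.centralizer ({g} : Set G)).subtype) := S.isPGroup'.map _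
  generalize (S : Subgroup (Subgroup.centralizer ({g} : Set G))).map
      (Subgroup.centralizer ({g} : Set G)).subtype = P at hcardP hPp hPZ
  have hG0 : Nat.card G ≠ 0 := Nat.card_pos.ne'
  have hidx0 : P.index ≠ 0 := Subgroup.index_ne_zero_of_finite
  have hmul : Nat.card P * P.index = Nat.card G := Subgroup.card_mul_index P
  have hpd0 : p ^ d ≠ 0 := (pow_pos hp.out.pos d).ne'
  have hfac : a = d + P.index.factorization p := by
    rw [ha, ← hmul, hcardP, Nat.factorization_mul hpd0 hidx0]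
    simp [hp.out.factorization_pow]
  obtain ⟨e, he⟩ : ∃ e : ℕ, e = P.index.factorization p := ⟨_, rfl⟩
  rw [← he] at hfac
  have himne : ((fun χ : IrrCharacter G => (charDegree χ.1).factorization p)
      '' blockOf M χ₀.1).Nonempty := ⟨_, ⟨χ₀, hχ₀B, rfl⟩⟩
  obtain ⟨χ₁, hχ₁B, hχ₁⟩ := Nat.sInf_mem himne
  have hsInf : sInf ((fun χ : IrrCharacter G => (charDegree χ.1).factorization p)
      '' blockOf M χ₀.1) = e := by
    have h1 : sInf ((fun χ : IrrCharacter G => (charDegree χ.1).factorization p)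
        '' blockOf M χ₀.1) ≤ a := by
      rw [← hχ₁, ha]
      exact factorization_charDegree_le p χ₁
    have h2 : d = a - sInf ((fun χ : IrrCharacter G => (charDegree χ.1).factorization p)
        '' blockOf M χ₀.1) := by
      rw [hd, ha]
      rfl
    omega
  have hdeg : ∀ ψ ∈ blockOf M χ₀.1, (charDegree ψ.1).factorization p = e := by
    intro ψ hψ
    have h1 : e ≤ (charDegree ψ.1).factorization p := by
      rw [← hsInf]
      exact Nat.sInf_le ⟨ψ, hψ, rfl⟩
    have h2 : charDegree ψ.1 ∣ P.index :=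
      dvd_trans (charDegree_dvd_index_center ψ) (Subgroup.index_dvd_of_le hPZ)
    have h3 : (charDegree ψ.1).factorization p ≤ P.index.factorization p :=
      (Nat.factorization_le_iff_dvd (charDegree_ne_zero' ψ) hidx0).mpr h2 p
    rw [← he] at h3
    omega
  have hinner : ∀ ψ ∈ blockOf M χ₀.1, classInner (ptrunc p ψ.1) ψ.1 = ((p ^ e : ℕ) : ℂ) := by
    intro ψ hψ
    have h1 := (central_defect_core p P hPp hPZ ψ (by rw [hdeg ψ hψ, he])).1
    rw [h1, hdeg ψ hψ]
    push_cast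
    rfl
  have hht₁ : blockHeight p (blockOf M χ₀.1) χ₁.1 = 0 := by
    unfold blockHeight
    rw [hsInf, hdeg χ₁ hχ₁B, Nat.sub_self]
  have hall := (hht χ₁ hχ₁B).mp hht₁
  choose n hn using fun ξ : IrrCharacter G => exists_int_inner_ptrunc p (isCharacter_irr χ₁) ξ
  have hpars := Cfsg.Agent.S4494.ptrunc_parseval p χ₁ n hn
  rw [← ha] at hpars
  have hn₁ : n χ₁ = ((p ^ e : ℕ) : ℤ) := by
    have h1 := (hn χ₁).symm.trans (hinner χ₁ hχ₁B)
    exact_mod_cast h1
  have hnB : ∀ ξ ∈ blockOf M χ₀.1, ((p ^ e : ℕ) : ℤ) ^ 2 ≤ n ξ ^ 2 := by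
    intro ξ hξ
    obtain ⟨n', h1, h2, h3⟩ := hall ξ hξ
    have e1 : n' = n ξ := by
      have := h1.symm.trans (hn ξ)
      exact_mod_cast this
    rw [e1] at h2 h3
    have hdvd : ((p : ℤ)) ^ e ∣ n ξ := by
      rw [padicValInt_dvd_iff]
      right
      rw [h3, hdeg ξ hξ]
    obtain ⟨c, hc⟩ := hdvd
    have hc0 : c ≠ 0 := by
      rintro rfl
      rw [mul_zero] at hc
      exact h2 hc
    have hc1 : 1 ≤ c ^ 2 := by
      have : 0 < c ^ 2 := by positivity
      omega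
    rw [hc]
    push_cast
    nlinarith [sq_nonneg ((p : ℤ) ^ e)]
  have hcardB : Nat.card (blockOf M χ₀.1)
      = (Finset.univ.filter (fun ξ : IrrCharacter G => ξ ∈ blockOf M χ₀.1)).card := by
    rw [Nat.card_eq_fintype_card, Fintype.card_subtype]
  have hk_le : (Finset.univ.filter (fun ξ : IrrCharacter G => ξ ∈ blockOf M χ₀.1)).card
      ≤ p ^ d := by
    have h1 : ((Finset.univ.filter (fun ξ : IrrCharacter G => ξ ∈ blockOf M χ₀.1)).card : ℤ)
        * ((p ^ e : ℕ) : ℤ) ^ 2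
        ≤ ∑ ξ ∈ Finset.univ.filter (fun ξ : IrrCharacter G => ξ ∈ blockOf M χ₀.1), n ξ ^ 2 := by
      have h2 := Finset.card_nsmul_le_sum (Finset.univ.filter
        (fun ξ : IrrCharacter G => ξ ∈ blockOf M χ₀.1)) (fun ξ => n ξ ^ 2)
        (((p ^ e : ℕ) : ℤ) ^ 2) (fun ξ hξ => hnB ξ (Finset.mem_filter.mp hξ).2)
      rw [nsmul_eq_mul] at h2
      exact h2
    have h3 : ∑ ξ ∈ Finset.univ.filter (fun ξ : IrrCharacter G => ξ ∈ blockOf M χ₀.1), n ξ ^ 2
        ≤ ((p ^ a : ℕ) : ℤ) * n χ₁ := by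
      rw [← hpars]
      apply Finset.sum_le_sum_of_subset_of_nonneg (Finset.filter_subset _ _)
      intro ξ _ _
      positivity
    rw [hn₁] at h3
    have h4 : ((Finset.univ.filter (fun ξ : IrrCharacter G => ξ ∈ blockOf M χ₀.1)).card : ℤ)
        * ((p ^ e : ℕ) : ℤ) ^ 2 ≤ ((p ^ d : ℕ) : ℤ) * ((p ^ e : ℕ) : ℤ) ^ 2 := by
      have h5 : ((p ^ a : ℕ) : ℤ) * ((p ^ e : ℕ) : ℤ)
          = ((p ^ d : ℕ) : ℤ) * ((p ^ e : ℕ) : ℤ) ^ 2 := by
        rw [hfac]
        push_cast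
        ring
      linarith
    have h6 : (0 : ℤ) < ((p ^ e : ℕ) : ℤ) ^ 2 := by
      have : 0 < p ^ e := pow_pos hp.out.pos e
      positivity
    have h7 := le_of_mul_le_mul_right h4 h6
    exact_mod_cast h7
  have hterm : ∀ χ ∈ blockOf M χ₀.1, ∑ x : G, pRegularPart p χ.1 x * χ.1 x⁻¹
      = (Nat.card G : ℂ) * ((p ^ e : ℕ) : ℂ) / ((p ^ a : ℕ) : ℂ) := by
    intro χ hχ
    have h1 := card_mul_inner_ptrunc p χ.1 χ.1
    rw [hinner χ hχ, ← ha] at h1
    have h2 : ∑ x : G, pRegularPart p χ.1 x * χ.1 x⁻¹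
        = ∑ g : G, if p ∣ orderOf g then 0 else χ.1 g * conj (χ.1 g) := by
      apply Finset.sum_congr rfl
      intro x _
      rw [pRegularPart_apply, irr_inv]
      unfold IsPRegular
      by_cases h3 : p ∣ orderOf x
      · rw [if_neg (not_not.mpr h3), if_pos h3, zero_mul]
      · rw [if_pos h3, if_neg h3]
    have hpa : ((p ^ a : ℕ) : ℂ) ≠ 0 := by
      exact_mod_cast (pow_pos hp.out.pos a).ne'
    rw [h2, eq_div_iff hpa, h1]
    ring
  have hsum : ∑ x : G, ∑ᶠ χ ∈ blockOf M χ₀.1, pRegularPart p (χ : G → ℂ) x * (χ : G → ℂ) x⁻¹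
      = ((Finset.univ.filter (fun ξ : IrrCharacter G => ξ ∈ blockOf M χ₀.1)).card : ℂ)
        * ((Nat.card G : ℂ) * ((p ^ e : ℕ) : ℂ) / ((p ^ a : ℕ) : ℂ)) := by
    have h1 : ∀ x : G, ∑ᶠ χ ∈ blockOf M χ₀.1, pRegularPart p (χ : G → ℂ) x * (χ : G → ℂ) x⁻¹
        = ∑ χ ∈ Finset.univ.filter (fun ξ : IrrCharacter G => ξ ∈ blockOf M χ₀.1),
          pRegularPart p (χ : G → ℂ) x * (χ : G → ℂ) x⁻¹ := by
      intro x
      rw [finsum_mem_def, finsum_eq_sum_of_fintype, Finset.sum_filter]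
      apply Finset.sum_congr rfl
      intro χ _
      by_cases hχ : χ ∈ blockOf M χ₀.1
      · simp [hχ]
      · simp [hχ]
    rw [Finset.sum_congr rfl (fun x _ => h1 x), Finset.sum_comm]
    rw [Finset.sum_congr rfl (fun χ hχ => hterm χ (Finset.mem_filter.mp hχ).2),
      Finset.sum_const, nsmul_eq_mul]
  rw [hsum] at htrace
  have hkpos : 0 < (Finset.univ.filter (fun ξ : IrrCharacter G => ξ ∈ blockOf M χ₀.1)).card :=
    Finset.card_pos.mpr ⟨χ₀, Finset.mem_filter.mpr ⟨Finset.mem_univ _, hχ₀B⟩⟩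
  have hnat : blockRank p (blockOf M χ₀.1) * p ^ d
      = (Finset.univ.filter (fun ξ : IrrCharacter G => ξ ∈ blockOf M χ₀.1)).card := by
    have hGc : (Nat.card G : ℂ) ≠ 0 := by exact_mod_cast hG0
    have hpa : ((p ^ a : ℕ) : ℂ) ≠ 0 := by
      exact_mod_cast (pow_pos hp.out.pos a).ne'
    have hpe : ((p ^ e : ℕ) : ℂ) ≠ 0 := by
      exact_mod_cast (pow_pos hp.out.pos e).ne'
    have h1 : (blockRank p (blockOf M χ₀.1) : ℂ) * ((p ^ a : ℕ) : ℂ)
        = ((Finset.univ.filter (fun ξ : IrrCharacter G => ξ ∈ blockOf M χ₀.1)).card : ℂ)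
          * ((p ^ e : ℕ) : ℂ) := by
      have h2 := mul_left_cancel₀ hGc (htrace.trans (by ring :
        ((Finset.univ.filter (fun ξ : IrrCharacter G => ξ ∈ blockOf M χ₀.1)).card : ℂ)
          * ((Nat.card G : ℂ) * ((p ^ e : ℕ) : ℂ) / ((p ^ a : ℕ) : ℂ))
        = (Nat.card G : ℂ) * (((Finset.univ.filter
            (fun ξ : IrrCharacter G => ξ ∈ blockOf M χ₀.1)).card : ℂ)
          * ((p ^ e : ℕ) : ℂ) / ((p ^ a : ℕ) : ℂ))))
      rw [h2]
      field_simp
    have h3 : (blockRank p (blockOf M χ₀.1) * p ^ d) * p ^ e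
        = (Finset.univ.filter (fun ξ : IrrCharacter G => ξ ∈ blockOf M χ₀.1)).card * p ^ e := by
      have h4 : ((blockRank p (blockOf M χ₀.1) * p ^ a : ℕ) : ℂ)
          = (((Finset.univ.filter (fun ξ : IrrCharacter G => ξ ∈ blockOf M χ₀.1)).card
            * p ^ e : ℕ) : ℂ) := by
        push_cast
        push_cast at h1
        exact h1
      have h5 : blockRank p (blockOf M χ₀.1) * p ^ a
          = (Finset.univ.filter (fun ξ : IrrCharacter G => ξ ∈ blockOf M χ₀.1)).card * p ^ e := by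
        exact_mod_cast h4
      rw [← h5, hfac, pow_add]
      ring
    exact Nat.eq_of_mul_eq_mul_right (pow_pos hp.out.pos e) h3
  have hr0 : blockRank p (blockOf M χ₀.1) ≠ 0 := by
    intro h0
    rw [h0, zero_mul] at hnat
    omega
  have hr1 : blockRank p (blockOf M χ₀.1) * p ^ d ≤ 1 * p ^ d := by
    rw [hnat, one_mul]
    exact hk_le
  have hr2 := Nat.le_of_mul_le_mul_right hr1 (pow_pos hp.out.pos d)
  omega

theorem result {G : Type*} [Group G] [Fintype G] (p : ℕ) [Fact p.Prime] (M : Ideal Cfsg.AlgInt) (hM : Cfsg.IsPModular p M) (B : Set (Cfsg.IrrCharacter G)) (hB : Cfsg.IsPBlock M B) (P : Subgroup G) (hD : Cfsg.IsDefectGroup p M B P) (hPZ : P ≤ Subgroup.center G) : Cfsg.blockRank p B = 1 := by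
  exact central_defect_rank p M hM B hB P hD hPZ

end Cfsg.Agent.S4669
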