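import Mathlib
import Cfsg.Agent.Lib.helper5.BlockCover
import Cfsg.Statements.S0966

set_option autoImplicit false
open scoped ComplexConjugate

namespace Cfsg.Agent.S0966

open Cfsg.Agent.Lib.helper5 Cfsg.Agent.Lib.helper23 Cfsg.Agent.Lib.helper24

/-- Let N be a normal subgroup of p-power index in the finite group G and b a block of N relative to a maximal ideal M of the algebraic integers containing p. Then there is exactly one block B of G containing a character whose restriction to N has a constituent in b. -/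
theorem result {G : Type*} [Group G] [Fintype G] (p : ℕ) [Fact p.Prime] (M : Ideal Cfsg.AlgInt) (hM : Cfsg.IsPModular p M) (N : Subgroup G) [N.Normal] [Fintype N] (hidx : ∃ k : ℕ, N.index = p ^ k) (b : Set (Cfsg.IrrCharacter N)) (hb : Cfsg.IsPBlock M b) : ∃! B : Set (Cfsg.IrrCharacter G), Cfsg.IsPBlock M B ∧ ∃ χ ∈ B, ∃ θ ∈ b, Cfsg.classInner (fun n : N => (χ : G → ℂ) n) (θ : N → ℂ) ≠ 0 := by
  classical
  have := Fintype.ofFinite (Cfsg.IrrCharacter G)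
  have := Fintype.ofFinite (Cfsg.IrrCharacter N)
  have hMp := isPModular_isPrime hM
  obtain ⟨k, hk⟩ := hidx
  obtain ⟨θ₀, rfl⟩ := hb
  have hθ₀ := mem_blockOf_self hMp.ne_top θ₀
  obtain ⟨χ₀, hχ₀'⟩ := Cfsg.Agent.Lib.helper22.exists_irr_over N θ₀.2
  have hχ₀ : Cfsg.classInner (fun n : N => χ₀.1 n) θ₀.1 ≠ 0 := hχ₀'
  refine ⟨Cfsg.blockOf M χ₀.1, ⟨⟨χ₀, rfl⟩, χ₀, mem_blockOf_self hMp.ne_top χ₀, θ₀, hθ₀, hχ₀⟩, ?_⟩
  rintro B' ⟨⟨χ', rfl⟩, χ₁, hχ₁, θ₁, hθ₁, hcon⟩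
  have hsb : Cfsg.SameBlock M χ₀.1 χ₁.1 :=
    sameBlock_of_cover_index_pow N hM hk hθ₁ hχ₀ hcon
  rw [← blockOf_eq_of_mem hMp hχ₁]
  exact blockOf_eq_of_mem hMp hsb

end Cfsg.Agent.S0966
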