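import Mathlib
import Cfsg.Agent.Lib.helper5.BlockExt
import Cfsg.Statements.S0973

set_option autoImplicit false
open scoped ComplexConjugate

namespace Cfsg.Agent.S0973

open Cfsg.Agent.Lib.helper5 Cfsg.Agent.Lib.helper23 Cfsg.Agent.Lib.helper24

/-- Let B be a block of the finite group G with defect group P (relative to a maximal ideal M of the algebraic integers containing p), and let L = P ⊔ C_G(P). Then (i) some block b of L with defect group P (viewed in L) induces B, and (ii) if b and b' are blocks of L both inducing B, there is n ∈ N_G(P) carrying b to b': for every θ ∈ b there is θ' ∈ b' with θ' x = θ (n x n⁻¹) for all x ∈ L. -/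
theorem result {G : Type*} [Group G] [Finite G] (p : ℕ) [Fact p.Prime] (M : Ideal Cfsg.AlgInt) (hM : Cfsg.IsPModular p M) (B : Set (Cfsg.IrrCharacter G)) (hB : Cfsg.IsPBlock M B) (P : Subgroup G) (hP : Cfsg.IsDefectGroup p M B P) : (∃ b : Set (Cfsg.IrrCharacter ↥(P ⊔ Subgroup.centralizer (P : Set G))), Cfsg.IsDefectGroup p M b (P.subgroupOf (P ⊔ Subgroup.centralizer (P : Set G))) ∧ Cfsg.IsInducedBlock M (P ⊔ Subgroup.centralizer (P : Set G)) b B) ∧ ∀ b b' : Set (Cfsg.IrrCharacter ↥(P ⊔ Subgroup.centralizer (P : Set G))), Cfsg.IsInducedBlock M (P ⊔ Subgroup.centralizer (P : Set G)) b B → Cfsg.IsInducedBlock M (P ⊔ Subgroup.centralizer (P : Set G)) b' B → ∃ n ∈ Subgroup.normalizer (P : Set G), ∀ θ ∈ b, ∃ θ' ∈ b', ∀ x : ↥(P ⊔ Subgroup.centralizer (P : Set G)), ∀ hx : n * (x : G) * n⁻¹ ∈ P ⊔ Subgroup.centralizer (P : Set G), (θ' : ↥(P ⊔ Subgroup.centralizer (P : Set G)) → ℂ) x = (θ : ↥(P ⊔ Subgroup.centralizer (P : Set G)) → ℂ) ⟨n *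 (x : G) * n⁻¹, hx⟩ := by
  classical
  have := Fintype.ofFinite G
  have := Fintype.ofFinite (Cfsg.IrrCharacter G)
  have := Fintype.ofFinite ↥(P ⊔ Subgroup.centralizer (P : Set G))
  have := Fintype.ofFinite (Cfsg.IrrCharacter ↥(P ⊔ Subgroup.centralizer (P : Set G)))
  have hMp := isPModular_isPrime hM
  obtain ⟨χ₀, rfl⟩ := hB
  have hP' := hP
  obtain ⟨g0, hg0, PD, hPD⟩ := hP
  have hPp : IsPGroup p P := by
    rw [hPD]
    exact sylow_map_isPGroup _ PD
  have hPL : P ≤ P ⊔ Subgroup.centralizer (P : Set G) := le_sup_left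
  have hCL : Subgroup.centralizer (P : Set G) ≤ P ⊔ Subgroup.centralizer (P : Set G) :=
    le_sup_right
  have hLN : P ⊔ Subgroup.centralizer (P : Set G) ≤ Subgroup.normalizer (P : Set G) :=
    sup_le Subgroup.le_normalizer (Subgroup.centralizer_le_normalizer _)
  constructor
  · have hgC : g0 ∈ Subgroup.centralizer (P : Set G) :=
      le_centralizer_singleton_iff.mp (by rw [hPD]; exact sylow_map_le _ PD)
    obtain ⟨ξ, hξ⟩ := exists_isInducedBlock_of_coef (P ⊔ Subgroup.centralizer (P : Set G)) hM P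
      hPp hPL hCL hLN χ₀ g0 hgC hg0.2.1
    exact ⟨Cfsg.blockOf M ξ.1, defect_of_induced hM P hPp _ hPL hLN χ₀ hP' ξ hξ, hξ⟩
  · intro b b' hb hb'
    obtain ⟨θ, rfl⟩ := hb.1
    obtain ⟨θ', rfl⟩ := hb'.1
    obtain ⟨n, hn, hsb⟩ := ext_fmt_conj hM P hPp χ₀ hP' (P ⊔ Subgroup.centralizer (P : Set G))
      hCL hLN (fun n hn x hx => conj_mem_sup_centralizer P hn hx) θ θ' hb hb'
    refine ⟨n, hn, ?_⟩
    intro ϑ hϑ
    have h2 : ∀ x ∈ P ⊔ Subgroup.centralizer (P : Set G),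
        n⁻¹ * x * n ∈ P ⊔ Subgroup.centralizer (P : Set G) := by
      intro x hx
      have h3 := conj_mem_sup_centralizer P (inv_mem hn) hx
      rwa [inv_inv] at h3
    obtain ⟨c, hc⟩ : ∃ c : ↥(P ⊔ Subgroup.centralizer (P : Set G))
        ≃* ↥(P ⊔ Subgroup.centralizer (P : Set G)),
        c = conjEquivOn (P ⊔ Subgroup.centralizer (P : Set G)) n
          (fun x hx => conj_mem_sup_centralizer P hn hx) h2 := ⟨_, rfl⟩
    refine ⟨⟨ϑ.1 ∘ c, isIrrCharacter_comp_equiv c ϑ.2⟩, ?_, ?_⟩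
    · have h4 : Cfsg.SameBlock M (θ.1 ∘ c) (ϑ.1 ∘ c) := sameBlock_comp_equiv c hϑ
      have h5 : Cfsg.SameBlock M θ'.1 (θ.1 ∘ c) := by
        rw [hc]
        exact hsb
      exact sameBlock_trans hMp h5 h4
    · intro x hx
      rw [hc]
      rfl

end Cfsg.Agent.S0973
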