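import Cfsg.Statements.S4434
import Cfsg.Agent.Lib.helper22.QuotDefect2

set_option autoImplicit false
open Cfsg

namespace Cfsg.Agent.S4434

open Cfsg.Agent.Lib.helper5 Cfsg.Agent.Lib.helper23 Cfsg.Agent.Lib.helper24 Cfsg.Agent.Lib.helper22

theorem result {G : Type*} [Group G] [Finite G] (p : ℕ) [Fact p.Prime] (M : Ideal Cfsg.AlgInt) (hM : Cfsg.IsPModular p M) (N : Subgroup G) [N.Normal] (hN : IsPGroup p N) (B : Set (Cfsg.IrrCharacter G)) (hB : Cfsg.IsPBlock M B) : ∃ Bbar : Set (Cfsg.IrrCharacter (G ⧸ N)), Cfsg.IsPBlock M Bbar ∧ (∀ χ ∈ Bbar, ∀ ψ : Cfsg.IrrCharacter G, (ψ : G → ℂ) = (χ : G ⧸ N → ℂ) ∘ QuotientGroup.mk → ψ ∈ B) ∧ ∀ Dbar : Subgroup (G ⧸ N), Cfsg.IsDefectGroup p M Bbar Dbar ↔ ∃ P : Subgroup G, Cfsg.IsDefectGroup p M B P ∧ Dbar = P.map (QuotientGroup.mk' N) := by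
  classical
  have : Fintype G := Fintype.ofFinite G
  have : Fintype (G ⧸ N) := Fintype.ofFinite _
  have : Fintype (Cfsg.IrrCharacter G) := Fintype.ofFinite _
  have : Fintype (Cfsg.IrrCharacter (G ⧸ N)) := Fintype.ofFinite _
  have hMp := isPModular_isPrime hM
  have hp : p.Prime := hM.1
  obtain ⟨χ₁, rfl⟩ := hB
  obtain ⟨x, hx⟩ := exists_defectClass hMp χ₁
  have hxreg : ¬ p ∣ orderOf x := by
    intro hdvd
    apply hx.2.1
    rw [← coef_indicator, coef_eq_zero_of_singular hM (indicator_mem_osimaRing hMp χ₁)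
      (indicator_mul_self _) x hdvd]
    exact memLocalIdeal_zero hMp.ne_top
  have hxN : x ∈ Subgroup.centralizer (N : Set G) := by
    by_contra hcon
    exact hx.2.2 χ₁ (mem_blockOf_self hMp.ne_top χ₁)
      (memLocalIdeal_centralChar_of_not_mem_centralizer hM N hN x hcon χ₁)
  obtain ⟨S, hS⟩ : ∃ S : Set (Cfsg.IrrCharacter (G ⧸ N)),
      S = {χ | inflIrr N χ ∈ Cfsg.blockOf M χ₁.1} := ⟨_, rfl⟩
  have hSblk : ∀ χ ∈ S, Cfsg.blockOf M χ.1 ⊆ S := by
    intro χ hχ ψ hψ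
    rw [hS] at hχ ⊢
    have h1 : Cfsg.SameBlock M (inflIrr N χ).1 (inflIrr N ψ).1 := sameBlock_comp_mk hMp N hψ
    exact sameBlock_trans hMp hχ h1
  have hcoefS : Cfsg.blockCoeff S (x : G ⧸ N) = Cfsg.blockCoeff (Cfsg.blockOf M χ₁.1) x := by
    rw [hS, blockCoeff_quot N (Cfsg.blockOf M χ₁.1) (x : G ⧸ N), Finset.sum_eq_single x]
    · rw [if_pos rfl]
    · intro g _ hg
      by_cases hc : (g : G ⧸ N) = (x : G ⧸ N)
      · rw [if_pos hc]
        have hn : x⁻¹ * g ∈ N := QuotientGroup.eq.mp hc.symm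
        have hg' : g = x * (x⁻¹ * g) := by group
        have hsing : p ∣ orderOf g := by
          rw [hg']
          apply singular_mul hp _ hxreg _ _
          · exact (Subgroup.mem_centralizer_iff.mp hxN _ hn).symm
          · obtain ⟨k, hk⟩ := (IsPGroup.iff_orderOf.mp hN) ⟨x⁻¹ * g, hn⟩
            exact ⟨k, by rw [← hk, Subgroup.orderOf_mk]⟩
          · intro h1
            apply hg
            rw [hg', h1, mul_one]
        rw [← coef_indicator, coef_eq_zero_of_singular hM (indicator_mem_osimaRing hMp χ₁)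
          (indicator_mul_self _) g hsing]
      · rw [if_neg hc]
    · intro h
      exact absurd (Finset.mem_univ _) h
  have hnotS : ¬ Cfsg.MemLocalIdeal M (coef (S.indicator (fun _ => (1 : ℂ))) (x : G ⧸ N)) := by
    rw [coef_indicator, hcoefS]
    exact hx.2.1
  obtain ⟨χb, hχbS, hχb⟩ := exists_block_coef hMp S hSblk (x : G ⧸ N) hnotS
  have hinS : ∀ ψ ∈ Cfsg.blockOf M χb.1, inflIrr N ψ ∈ Cfsg.blockOf M χ₁.1 := by
    intro ψ hψ
    have h1 := hSblk χb hχbS hψ
    rw [hS] at h1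
    exact h1
  refine ⟨Cfsg.blockOf M χb.1, ⟨χb, rfl⟩, ?_, ?_⟩
  · intro χ hχ ψ hψ
    have h2 : ψ = inflIrr N χ := Subtype.ext hψ
    rw [h2]
    exact hinS χ hχ
  · have hdc : Cfsg.IsDefectClass M (Cfsg.blockOf M χb.1) (x : G ⧸ N) := by
      refine ⟨?_, ?_, ?_⟩
      · rw [← coef_indicator]
        exact indicator_mem_osimaRing hMp χb _
      · rw [← coef_indicator]
        exact hχb
      · intro ψ hψ
        have h2 := hx.2.2 _ (hinS ψ hψ)
        have h3 := centralChar_comp_mk_of_regular hp N hN x hxN hxreg ψ.1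
        rw [← h3]
        exact h2
    obtain ⟨Px⟩ : Nonempty (Sylow p (Subgroup.centralizer ({x} : Set G))) := inferInstance
    have hr : ¬ p ∣ (Subgroup.centralizer ({x} : Set G)).relIndex
          ((Subgroup.centralizer ({(x : G ⧸ N)} : Set (G ⧸ N))).comap (QuotientGroup.mk' N)) := by
      intro hdvd
      apply hx.2.2 _ (hinS χb (mem_blockOf_self hMp.ne_top χb))
      have h2 := centralChar_comp_mk_relIndex N x χb.1
      have h2' : Cfsg.centralChar (inflIrr N χb).1 x = _ := h2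
      rw [h2']
      exact memLocalIdeal_mul_right hMp ((memLocalIdeal_natCast_iff hM _).mpr hdvd)
        (memLocalRing_centralChar hMp χb _)
    obtain ⟨Du, hDu⟩ := exists_sylow_image N x hr Px
    obtain ⟨P, hP⟩ : ∃ P : Subgroup G, P = (Px : Subgroup (Subgroup.centralizer ({x} : Set G))).map
        (Subgroup.centralizer ({x} : Set G)).subtype := ⟨_, rfl⟩
    rw [← hP] at hDu
    have hPdef : Cfsg.IsDefectGroup p M (Cfsg.blockOf M χ₁.1) P := ⟨x, hx, Px, hP⟩
    have hPbar : Cfsg.IsDefectGroup p M (Cfsg.blockOf M χb.1) (P.map (QuotientGroup.mk' N)) :=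
      ⟨(x : G ⧸ N), hdc, Du, hDu.symm⟩
    intro Dbar
    constructor
    · intro hD
      obtain ⟨y, hy⟩ := defectGroup_conj_of hM χb hPbar hD
      obtain ⟨y', rfl⟩ := QuotientGroup.mk_surjective y
      refine ⟨P.map (MulAut.conj y').toMonoidHom, isDefectGroup_conj hPdef y', ?_⟩
      rw [hy, map_conj_map_mk]
    · rintro ⟨P', hP', rfl⟩
      obtain ⟨y, hy⟩ := defectGroup_conj_of hM χ₁ hPdef hP'
      rw [hy, map_conj_map_mk]
      exact isDefectGroup_conj hPbar _

end Cfsg.Agent.S4434
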