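import Cfsg.Statements.S4437
import Mathlib
import Cfsg.Agent.Lib.helper5.BlockRel
import Cfsg.Agent.Lib.helper22.CliffDeg

set_option autoImplicit false
open Cfsg

namespace Cfsg.Agent.S4437

open Cfsg.Agent.Lib.helper5 Cfsg.Agent.Lib.helper23 Cfsg.Agent.Lib.helper24
open scoped ComplexConjugate

/-- Let P be a p-subgroup of the finite group G, H = P·C_G(P), and b a block of H (relative to a maximal ideal M of the algebraic integers containing p) having P as a defect group; let B be the block of G induced by b. Let T be the stabilizer of b in N_G(P): the elements g of N_G(P) such that the g-conjugate of every member of b is again a member of b. Then B has defect group P if and only if p does not divide the index of H in T. -/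
theorem result {G : Type*} [Group G] [Fintype G] (p : ℕ) [Fact p.Prime] (M : Ideal Cfsg.AlgInt) (hM : Cfsg.IsPModular p M) (P : Subgroup G) (hP : IsPGroup p P) (H : Subgroup G) [Fintype H] (hH : H = P ⊔ Subgroup.centralizer (P : Set G)) (b : Set (Cfsg.IrrCharacter H)) (hb : Cfsg.IsPBlock M b) (hbP : Cfsg.IsDefectGroup p M b (P.subgroupOf H)) (B : Set (Cfsg.IrrCharacter G)) (hind : Cfsg.IsInducedBlock M H b B) (T : Subgroup G) (hT : ∀ g : G, g ∈ T ↔ (g ∈ Subgroup.normalizer (P : Set G) ∧ ∀ θ ∈ b, ∀ θ' : Cfsg.IrrCharacter H, (∀ h h' : H, (h' : G) = g * h * g⁻¹ → (θ' : H → ℂ) h' = (θ : H → ℂ) h) → θ' ∈ b)) : Cfsg.IsDefectGroup p M B P ↔ ¬ p ∣ H.relIndex T := by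
  classical
  haveI := Fintype.ofFinite (Cfsg.IrrCharacter G)
  haveI := Fintype.ofFinite (Cfsg.IrrCharacter H)
  have hMp := isPModular_isPrime hM
  have hp : p.Prime := Fact.out
  have hPH : P ≤ H := by
    rw [hH]
    exact le_sup_left
  have hCH : Subgroup.centralizer (P : Set G) ≤ H := by
    rw [hH]
    exact le_sup_right
  have hPN₀ : P ≤ Subgroup.normalizer (P : Set G) := Subgroup.le_normalizer
  have hHN₀ : H ≤ Subgroup.normalizer (P : Set G) := by
    rw [hH]
    exact sup_le Subgroup.le_normalizer (Subgroup.centralizer_le_normalizer _)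
  have hconjH : ∀ n ∈ Subgroup.normalizer (P : Set G), ∀ x ∈ H, n * x * n⁻¹ ∈ H := by
    intro n hn x hx
    rw [hH] at hx ⊢
    exact conj_mem_sup_centralizer P hn hx
  haveI : Fintype (Subgroup.normalizer (P : Set G)) := Fintype.ofFinite _
  haveI := Fintype.ofFinite (Cfsg.IrrCharacter (Subgroup.normalizer (P : Set G)))
  haveI hH₀n : (H.subgroupOf (Subgroup.normalizer (P : Set G))).Normal := by
    apply (Subgroup.normal_subgroupOf_iff_le_normalizer hHN₀).mpr
    intro n hn
    rw [Subgroup.mem_normalizer_iff]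
    intro h
    constructor
    · exact hconjH n hn h
    · intro hh
      have := hconjH n⁻¹ (Subgroup.inv_mem _ hn) _ hh
      have e : n⁻¹ * (n * h * n⁻¹) * n⁻¹⁻¹ = h := by group
      rwa [e] at this
  haveI hP₀n : (P.subgroupOf (Subgroup.normalizer (P : Set G))).Normal :=
    (Subgroup.normal_subgroupOf_iff_le_normalizer hPN₀).mpr le_rfl
  haveI : Fintype (H.subgroupOf (Subgroup.normalizer (P : Set G))) := Fintype.ofFinite _
  haveI := Fintype.ofFinite (Cfsg.IrrCharacter (H.subgroupOf (Subgroup.normalizer (P : Set G))))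
  have hP₀p : IsPGroup p (P.subgroupOf (Subgroup.normalizer (P : Set G))) := hP.comap_subtype
  let e₁ : H.subgroupOf (Subgroup.normalizer (P : Set G)) ≃* H :=
    Subgroup.subgroupOfEquivOfLe hHN₀
  have hb₀ : Cfsg.IsPBlock M (irrMap e₁ '' b) := isPBlock_image_irrMap e₁ hb
  have hb₀P : Cfsg.IsDefectGroup p M (irrMap e₁ '' b)
      ((P.subgroupOf (Subgroup.normalizer (P : Set G))).subgroupOf
        (H.subgroupOf (Subgroup.normalizer (P : Set G)))) :=
    isDefectGroup_irrMap (p := p) (M := M) e₁ b _ hbP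
  have hP₀H₀ : P.subgroupOf (Subgroup.normalizer (P : Set G))
      ≤ H.subgroupOf (Subgroup.normalizer (P : Set G)) := fun x hx => hPH hx
  have hC₀ : Subgroup.centralizer
      ((P.subgroupOf (Subgroup.normalizer (P : Set G)) :
        Subgroup (Subgroup.normalizer (P : Set G))) : Set (Subgroup.normalizer (P : Set G)))
      ≤ H.subgroupOf (Subgroup.normalizer (P : Set G)) := by
    intro x hx
    show (x : G) ∈ H
    apply hCH
    rw [Subgroup.mem_centralizer_iff]
    intro y hy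
    have := Subgroup.mem_centralizer_iff.mp hx ⟨y, hPN₀ hy⟩ hy
    exact congrArg Subtype.val this
  have hTN₀ : T ≤ Subgroup.normalizer (P : Set G) := fun g hg => ((hT g).mp hg).1
  have hkey : ∀ g : Subgroup.normalizer (P : Set G), ((g : G) ∈ T ↔
      ∀ ψ ∈ irrMap e₁ '' b,
        conjIrr (H.subgroupOf (Subgroup.normalizer (P : Set G))) g⁻¹ ψ ∈ irrMap e₁ '' b) := by
    intro g
    rw [hT (g : G)]
    constructor
    · rintro ⟨-, hc⟩ _ ⟨θ, hθ, rfl⟩
      have h1 := hc θ hθ (irrMap e₁.symm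
        (conjIrr (H.subgroupOf (Subgroup.normalizer (P : Set G))) g⁻¹ (irrMap e₁ θ))) (by
          intro h h' hh'
          show θ.1 (e₁ ⟨g⁻¹ * (e₁.symm h') * g⁻¹⁻¹, _⟩) = θ.1 h
          refine congrArg θ.1 (Subtype.ext ?_)
          show ((g⁻¹ : Subgroup.normalizer (P : Set G)) : G) * (h' : G)
            * ((g⁻¹⁻¹ : Subgroup.normalizer (P : Set G)) : G) = h
          rw [hh', inv_inv, Subgroup.coe_inv]
          group)
      exact ⟨_, h1, irrMap_irrMap_symm e₁ _⟩
    · intro hc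
      refine ⟨g.2, ?_⟩
      intro θ hθ θ' hθ'
      obtain ⟨θ'', hθ'', heq⟩ := hc (irrMap e₁ θ) ⟨θ, hθ, rfl⟩
      have : θ' = θ'' := by
        apply Subtype.ext
        funext h'
        have h1 := congrArg (fun ψ : Cfsg.IrrCharacter
          (H.subgroupOf (Subgroup.normalizer (P : Set G))) => ψ.1 (e₁.symm h')) heq
        have h2 : (irrMap e₁ θ'').1 (e₁.symm h') = θ''.1 h' := by
          rw [irrMap_apply, MulEquiv.apply_symm_apply]
        rw [← h2]
        refine Eq.trans ?_ h1.symm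
        show θ'.1 h' = θ.1 (e₁ ⟨g⁻¹ * (e₁.symm h') * g⁻¹⁻¹, _⟩)
        apply hθ'
        show (h' : G) = (g : G) * (((g⁻¹ : Subgroup.normalizer (P : Set G)) : G) * (h' : G)
            * ((g⁻¹⁻¹ : Subgroup.normalizer (P : Set G)) : G)) * (g : G)⁻¹
        rw [inv_inv, Subgroup.coe_inv]
        group
      rw [this]
      exact hθ''
  have hstab : IsStabOf (H.subgroupOf (Subgroup.normalizer (P : Set G)))
      (T.subgroupOf (Subgroup.normalizer (P : Set G))) (irrMap e₁ '' b) := by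
    intro g
    show (g : G) ∈ T ↔ _
    rw [hkey g]
    constructor
    · intro h θ hθ θ' hθ'
      have : θ' = conjIrr (H.subgroupOf (Subgroup.normalizer (P : Set G))) g θ :=
        Subtype.ext (funext hθ')
      rw [this]
      have := conjIrr_mem_inv (H.subgroupOf (Subgroup.normalizer (P : Set G))) hMp hb₀ g⁻¹ h θ hθ
      rwa [inv_inv] at this
    · intro h
      apply conjIrr_mem_inv (H.subgroupOf (Subgroup.normalizer (P : Set G))) hMp hb₀ g
      intro θ hθ
      exact h θ hθ (conjIrr (H.subgroupOf (Subgroup.normalizer (P : Set G))) g θ) (fun n => rfl)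
  obtain ⟨ξ, hξb⟩ : ∃ ξ, ξ ∈ b := by
    obtain ⟨ξ, rfl⟩ := hb
    exact ⟨ξ, mem_blockOf_self hMp.ne_top ξ⟩
  obtain ⟨χ₁, hχ₁⟩ := Cfsg.Agent.Lib.helper22.exists_irr_over
    (H.subgroupOf (Subgroup.normalizer (P : Set G))) (irrMap e₁ ξ).2
  have hcon : Cfsg.classInner (fun n : H.subgroupOf (Subgroup.normalizer (P : Set G)) => χ₁.1 n)
      (irrMap e₁ ξ).1 ≠ 0 := hχ₁
  have hcov : ∃ χ ∈ Cfsg.blockOf M χ₁.1, ∃ θ ∈ irrMap e₁ '' b,
      Cfsg.classInner (fun n : H.subgroupOf (Subgroup.normalizer (P : Set G)) => χ.1 n) θ.1 ≠ 0 :=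
    ⟨χ₁, mem_blockOf_self hMp.ne_top χ₁, irrMap e₁ ξ, ⟨ξ, hξb, rfl⟩, hcon⟩
  have key := ext_fmt_local hM (P.subgroupOf (Subgroup.normalizer (P : Set G))) hP₀p
    (H.subgroupOf (Subgroup.normalizer (P : Set G))) hP₀H₀ hC₀ (irrMap e₁ '' b) hb₀ hb₀P
    (T.subgroupOf (Subgroup.normalizer (P : Set G))) hstab (Cfsg.blockOf M χ₁.1) ⟨χ₁, rfl⟩ hcov
  rw [Subgroup.relIndex_subgroupOf hTN₀] at key
  have hind₁ : Cfsg.IsInducedBlock M (H.subgroupOf (Subgroup.normalizer (P : Set G)))
      (Cfsg.blockOf M (irrMap e₁ ξ).1) (Cfsg.blockOf M χ₁.1) :=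
    cover_induced hM (P.subgroupOf (Subgroup.normalizer (P : Set G))) hP₀p
      (H.subgroupOf (Subgroup.normalizer (P : Set G))) hC₀ χ₁ (irrMap e₁ ξ) hcon
  obtain ⟨B₂, hB₂⟩ := exists_induced_of_le_normalizer hM P hP (Subgroup.normalizer (P : Set G))
    hPN₀ (Subgroup.centralizer_le_normalizer _) le_rfl (b := Cfsg.blockOf M χ₁.1) ⟨χ₁, rfl⟩
  obtain ⟨χ, rfl⟩ := hB₂.2.1
  have htrans := isInducedBlock_trans hMp (Subgroup.normalizer (P : Set G)) H hHN₀ ξ
    (irrMap e₁ ξ) rfl χ₁ χ hind₁ hB₂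
  have hbξ : b = Cfsg.blockOf M ξ.1 := isPBlock_eq_blockOf hMp hb hξb
  rw [hbξ] at hind
  have hBχ : B = Cfsg.blockOf M χ.1 := induced_unique hMp hind htrans
  rw [hBχ, ← key]
  constructor
  · intro hdef
    exact defect_of_induced hM P hP (Subgroup.normalizer (P : Set G)) hPN₀ le_rfl χ hdef χ₁ hB₂
  · intro hdef
    obtain ⟨χ₀, hi, hd⟩ := fmt_induce P hM hP χ₁ hdef
    have : Cfsg.blockOf M χ₀.1 = Cfsg.blockOf M χ.1 := induced_unique hMp hi hB₂
    rw [← this]
    exact hd

end Cfsg.Agent.S4437
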