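import Cfsg.Statements.S4438
import Mathlib
import Cfsg.Agent.Lib.helper5.Knorr4

set_option autoImplicit false
open Cfsg

namespace Cfsg.Agent.S4438

open Cfsg.Agent.Lib.helper5 Cfsg.Agent.Lib.helper23 Cfsg.Agent.Lib.helper24
open scoped ComplexConjugate

/-- Let N be a normal subgroup of the finite group G, b a block of N with defect group Q, and B a block of G covering b (some member of B has a constituent in b on restriction to N), all relative to a maximal ideal M of the algebraic integers containing p. Then B has a defect group P with P ⊓ N = Q. -/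
theorem result {G : Type*} [Group G] [Fintype G] (p : ℕ) [Fact p.Prime] (M : Ideal Cfsg.AlgInt) (hM : Cfsg.IsPModular p M) (N : Subgroup G) [hN : N.Normal] [Fintype N] (b : Set (Cfsg.IrrCharacter N)) (hb : Cfsg.IsPBlock M b) (Q : Subgroup G) (hQN : Q ≤ N) (hQ : Cfsg.IsDefectGroup p M b (Q.subgroupOf N)) (B : Set (Cfsg.IrrCharacter G)) (hB : Cfsg.IsPBlock M B) (hcov : (∃ χ ∈ B, ∃ θ ∈ b, Cfsg.classInner (fun n : N => (χ : G → ℂ) n) (θ : N → ℂ) ≠ 0)) : ∃ P : Subgroup G, Cfsg.IsDefectGroup p M B P ∧ P ⊓ N = Q := by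
  classical
  haveI := Fintype.ofFinite (Cfsg.IrrCharacter G)
  haveI := Fintype.ofFinite (Cfsg.IrrCharacter N)
  obtain ⟨P₁, hP₁, -, hdef⟩ := knorr_exists hM N b hb B hB hcov
  obtain ⟨θ₀, rfl⟩ := hb
  obtain ⟨y, hy⟩ := Cfsg.Agent.Lib.helper22.defectGroup_conj_of hM θ₀ hdef hQ
  refine ⟨P₁.map (MulAut.conj (y : G)).toMonoidHom, isDefectGroup_conj hP₁ (y : G), ?_⟩
  ext g
  rw [Subgroup.mem_inf, mem_map_conj]
  constructor
  · rintro ⟨h1, h2⟩
    have h3 : (⟨g, h2⟩ : N) ∈ Q.subgroupOf N := by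
      rw [hy, mem_map_conj]
      exact Subgroup.mem_inf.mpr ⟨h1, (y⁻¹ * (⟨g, h2⟩ : N) * y).2⟩
    exact h3
  · intro hg
    have hgN := hQN hg
    have h3 : (⟨g, hgN⟩ : N) ∈ Q.subgroupOf N := hg
    rw [hy, mem_map_conj] at h3
    exact ⟨(Subgroup.mem_inf.mp h3).1, hgN⟩

end Cfsg.Agent.S4438
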