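import Cfsg.Statements.S1255
import Cfsg.Agent.Lib.helper7.DihFus

set_option autoImplicit false
open Cfsg

namespace Cfsg.Agent.S1255

open Subgroup Cfsg.Agent.Lib.helper7 Cfsg.Agent.Lib.helper8 in
/-- Common structure for a dihedral Sylow 2-subgroup. -/
theorem dih_data {X : Type*} [Group X] [Finite X] (S : Sylow 2 X) (m : ℕ) (hm : 2 ≤ m)
    (eS : (S : Subgroup X) ≃* DihedralGroup m) :
    ∃ (Q : Subgroup X) (z σ : X), Q ≤ (S : Subgroup X) ∧ Q.relIndex (S : Subgroup X) = 2 ∧
      z ∈ Q ∧ z * z = 1 ∧ z ≠ 1 ∧ σ ∈ (S : Subgroup X) ∧ σ ∉ Q ∧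
      (∀ x ∈ (S : Subgroup X), x ∉ Q → x * x = 1) ∧
      (∀ x ∈ (S : Subgroup X), x * z = z * x) ∧
      (∀ t ∈ Q, t * t = 1 → t ≠ 1 → t = z) ∧ 4 ∣ Nat.card (S : Subgroup X) := by
  classical
  haveI : Fact (Nat.Prime 2) := ⟨Nat.prime_two⟩
  obtain ⟨ρ, hρS, hρo, hsq, hquot, σ, hσS, hσQ⟩ := dih_struct' (S : Subgroup X) m eS
  have hcardS : Nat.card (S : Subgroup X) = 2 * m := by
    rw [Nat.card_congr eS.toEquiv, DihedralGroup.nat_card]
  obtain ⟨j, hj⟩ : ∃ j, m = 2 * j := by
    obtain ⟨n, hn⟩ := IsPGroup.iff_card.mp S.isPGroup'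
    rw [hcardS] at hn
    rcases n with _ | n
    · simp at hn
    · rw [pow_succ] at hn
      have hm2 : m = 2 ^ n := by omega
      rcases n with _ | n
      · simp at hm2; omega
      · exact ⟨2 ^ n, by rw [hm2, pow_succ]; ring⟩
  have hj0 : 0 < j := by omega
  have hQS : zpowers ρ ≤ (S : Subgroup X) := zpowers_le.mpr hρS
  have hcardQ : Nat.card (zpowers ρ) = m := by rw [Nat.card_zpowers, hρo]
  have hrel : (zpowers ρ).relIndex (S : Subgroup X) = 2 := by
    have h1 := ((zpowers ρ).subgroupOf (S : Subgroup X)).card_mul_index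
    rw [card_subgroupOf_of_le hQS, hcardQ, hcardS] at h1
    have hm0 : 0 < m := by omega
    have h2 : m * ((zpowers ρ).subgroupOf (S : Subgroup X)).index = m * 2 := by rw [h1]; ring
    exact Nat.eq_of_mul_eq_mul_left hm0 h2
  have hzQ : ρ ^ j ∈ zpowers ρ := Subgroup.pow_mem _ (mem_zpowers ρ) j
  have hzS : ρ ^ j ∈ (S : Subgroup X) := hQS hzQ
  have hzz : ρ ^ j * ρ ^ j = 1 := by
    rw [← pow_add, ← two_mul, ← hj, ← hρo]; exact pow_orderOf_eq_one ρ
  have hz1 : ρ ^ j ≠ 1 := by
    intro h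
    have h1 := orderOf_dvd_of_pow_eq_one h
    rw [hρo, hj] at h1
    have := Nat.le_of_dvd hj0 h1
    omega
  refine ⟨zpowers ρ, ρ ^ j, σ, hQS, hrel, hzQ, hzz, hz1, hσS, hσQ, hsq, ?_, ?_, ?_⟩
  · intro x hx
    by_cases hxQ : x ∈ zpowers ρ
    · obtain ⟨k, rfl⟩ := Subgroup.mem_zpowers_iff.mp hxQ
      rw [← zpow_natCast, ← zpow_add, ← zpow_add, add_comm]
    · have hzx : ρ ^ j * x ∉ zpowers ρ := by
        intro h
        apply hxQ
        have : x = (ρ ^ j)⁻¹ * (ρ ^ j * x) := by group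
        rw [this]; exact (zpowers ρ).mul_mem ((zpowers ρ).inv_mem hzQ) h
      have h1 := hsq (ρ ^ j * x) (Subgroup.mul_mem _ hzS hx) hzx
      have h2 := hsq x hx hxQ
      calc x * ρ ^ j = (ρ ^ j * ρ ^ j) * (x * ρ ^ j) * (x * x) := by rw [hzz, h2]; group
        _ = ρ ^ j * ((ρ ^ j * x) * (ρ ^ j * x)) * x := by group
        _ = ρ ^ j * x := by rw [h1]; group
  · intro t ht htt ht1
    obtain ⟨k, rfl⟩ := Subgroup.mem_zpowers_iff.mp ht
    have h1 : ρ ^ (2 * k) = 1 := by rw [two_mul, zpow_add]; exact htt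
    have h2 : (orderOf ρ : ℤ) ∣ 2 * k := orderOf_dvd_iff_zpow_eq_one.mpr h1
    rw [hρo, hj] at h2
    push_cast at h2
    have h3 : (j : ℤ) ∣ k := (mul_dvd_mul_iff_left (by norm_num : (2 : ℤ) ≠ 0)).mp h2
    obtain ⟨l, rfl⟩ := h3
    have h4 : ρ ^ ((j : ℤ) * l) = (ρ ^ j) ^ l := by rw [zpow_mul, zpow_natCast]
    rw [h4] at ht1 ⊢
    rcases zpow_involution (ρ ^ j) hzz l with h | h
    · exact absurd h ht1
    · exact h
  · rw [hcardS, hj]; exact ⟨j, by ring⟩

/-- Let X be a finite group whose Sylow 2-subgroup S is dihedral of order 2m ≥ 4. Then X has no subgroup of index 2 and no isolated involution if and only if either all involutions of X are conjugate, or for every Klein four-subgroup U ≤ S the index |N_X(U) : C_X(U)| equals 3 when |S| = 4 and equals 6 when |S| > 4. -/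
theorem result {X : Type*} [Group X] [Finite X] (S : Sylow 2 X) (m : ℕ) (hm : 2 ≤ m) (eS : (S : Subgroup X) ≃* DihedralGroup m) : ((∀ H : Subgroup X, H.index ≠ 2) ∧ (∀ z : X, ¬ Cfsg.IsIsolatedInvolution z)) ↔ ((∀ a b : X, orderOf a = 2 → orderOf b = 2 → IsConj a b) ∨ (∀ U : Subgroup X, U ≤ S → IsKleinFour U → (Subgroup.centralizer (U : Set X)).relIndex (Subgroup.normalizer (U : Set X)) = (if Nat.card S = 4 then 3 else 6))) := by
  classical
  haveI : Fact (Nat.Prime 2) := ⟨Nat.prime_two⟩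
  obtain ⟨Q, z, σ, hQS, hrel, hzQ, hzz, hz1, hσS, hσQ, hsq, hzc, huniq, h4S⟩ := dih_data S m hm eS
  have hzS : z ∈ (S : Subgroup X) := hQS hzQ
  have hzo : orderOf z = 2 := (Cfsg.Agent.Lib.helper7.invol_iff z).mpr ⟨hzz, hz1⟩
  have hσσ : σ * σ = 1 := hsq σ hσS hσQ
  have hσ1 : σ ≠ 1 := fun h => hσQ (h ▸ one_mem _)
  have hall : (∀ u ∈ (S : Subgroup X), u * u = 1 → u ≠ 1 → ∃ c : X, c * u * c⁻¹ = z) →
      ∀ a b : X, orderOf a = 2 → orderOf b = 2 → IsConj a b := by
    intro hS a b ha hb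
    have key : ∀ a : X, orderOf a = 2 → IsConj a z := by
      intro a ha
      obtain ⟨g, hg⟩ := Cfsg.Agent.Lib.helper7.exists_conj_mem_sylow_two S a ha
      have ha' := (Cfsg.Agent.Lib.helper7.invol_iff a).mp ha
      have h1 : (g * a * g⁻¹) * (g * a * g⁻¹) = 1 := by
        calc (g * a * g⁻¹) * (g * a * g⁻¹) = g * (a * a) * g⁻¹ := by group
          _ = 1 := by rw [ha'.1]; group
      have h2 : g * a * g⁻¹ ≠ 1 := by
        intro h
        apply ha'.2
        have : a = g⁻¹ * (g * a * g⁻¹) * g := by group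
        rw [this, h]; group
      obtain ⟨c, hc⟩ := hS _ hg h1 h2
      rw [isConj_iff]
      exact ⟨c * g, by rw [← hc]; group⟩
    exact (key a ha).trans (key b hb).symm
  constructor
  · rintro ⟨hno, -⟩
    left
    apply hall
    intro u hu huu hu1
    by_cases huQ : u ∈ Q
    · exact ⟨1, by rw [huniq u huQ huu hu1]; group⟩
    · rcases Cfsg.Agent.S0111.result S Q hQS hrel u
        ((Cfsg.Agent.Lib.helper7.invol_iff u).mpr ⟨huu, hu1⟩) hu huQ with ⟨M, -, hMi, -⟩ | ⟨g, hg⟩
      · exact absurd hMi (hno M)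
      · refine ⟨g, huniq _ hg ?_ ?_⟩
        · calc (g * u * g⁻¹) * (g * u * g⁻¹) = g * (u * u) * g⁻¹ := by group
            _ = 1 := by rw [huu]; group
        · intro h
          apply hu1
          have : u = g⁻¹ * (g * u * g⁻¹) * g := by group
          rw [this, h]; group
  · intro hR
    have hconj : ∀ a b : X, orderOf a = 2 → orderOf b = 2 → IsConj a b := by
      rcases hR with h | h
      · exact h
      · apply hall
        intro u hu huu hu1
        by_cases hzu : u = z
        · exact ⟨1, by rw [hzu]; group⟩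
        · have hab : z * u = u * z := (hzc u hu).symm
          have hK := Cfsg.Agent.Lib.helper7.fourGp_klein z u hzz huu hab hz1 hu1 (Ne.symm hzu)
          have hUS : Cfsg.Agent.Lib.helper7.fourGp z u hzz huu hab ≤ (S : Subgroup X) := by
            intro x hx
            rcases hx with rfl | rfl | rfl | rfl
            · exact one_mem _
            · exact hzS
            · exact hu
            · exact Subgroup.mul_mem _ hzS hu
          have h3 : 3 ∣ (Subgroup.centralizer
              ((Cfsg.Agent.Lib.helper7.fourGp z u hzz huu hab : Subgroup X) : Set X)).relIndex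
              (Subgroup.normalizer
              ((Cfsg.Agent.Lib.helper7.fourGp z u hzz huu hab : Subgroup X) : Set X)) := by
            rw [h _ hUS hK]
            split_ifs <;> norm_num
          obtain ⟨g, hgN, hgC, hg3⟩ :=
            Cfsg.Agent.Lib.helper7.exists_order3_mod_centralizer _ h3
          obtain ⟨c, hc⟩ := Cfsg.Agent.Lib.helper7.four_conj_of_order3 z u hzz huu hab hz1 hu1
            (Ne.symm hzu) _ (Cfsg.Agent.Lib.helper7.mem_fourGp z u hzz huu hab) g hgN hgC hg3
          exact ⟨c⁻¹, by rw [← hc]; group⟩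
    constructor
    · intro H hH
      haveI hHn : H.Normal := Subgroup.normal_of_index_eq_two hH
      have hcardX : Nat.card H * 2 = Nat.card X := by rw [← hH]; exact H.card_mul_index
      have h4 : 4 ∣ Nat.card X := h4S.trans (Subgroup.card_subgroup_dvd_card _)
      have h2H : 2 ∣ Nat.card H := by omega
      obtain ⟨t, ht⟩ := exists_prime_orderOf_dvd_card' (G := ↥H) 2 h2H
      have ht' : orderOf (t : X) = 2 := by rw [Subgroup.orderOf_coe]; exact ht
      have hinvH : ∀ a : X, orderOf a = 2 → a ∈ H := by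
        intro a ha
        obtain ⟨c, hc⟩ := isConj_iff.mp (hconj (t : X) a ht' ha)
        rw [← hc]; exact hHn.conj_mem _ t.2 c
      have hSH : (S : Subgroup X) ≤ H := by
        intro x hx
        by_cases hxQ : x ∈ Q
        · have hxσ : x * σ ∉ Q := by
            intro h
            apply hσQ
            have : σ = x⁻¹ * (x * σ) := by group
            rw [this]; exact Q.mul_mem (Q.inv_mem hxQ) h
          have h1 := hsq (x * σ) (Subgroup.mul_mem _ hx hσS) hxσ
          have h2 : x * σ ≠ 1 := fun h => hxσ (h ▸ one_mem _)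
          have h3 := hinvH _ ((Cfsg.Agent.Lib.helper7.invol_iff _).mpr ⟨h1, h2⟩)
          have h4 := hinvH σ ((Cfsg.Agent.Lib.helper7.invol_iff σ).mpr ⟨hσσ, hσ1⟩)
          have : x = (x * σ) * σ⁻¹ := by group
          rw [this]; exact H.mul_mem h3 (H.inv_mem h4)
        · have h1 := hsq x hx hxQ
          have h2 : x ≠ 1 := fun h => hxQ (h ▸ one_mem _)
          exact hinvH x ((Cfsg.Agent.Lib.helper7.invol_iff x).mpr ⟨h1, h2⟩)
      have hdvd : H.index ∣ (S : Subgroup X).index := Subgroup.index_dvd_of_le hSH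
      rw [hH] at hdvd
      exact S.not_dvd_index hdvd
    · intro z' hz'
      obtain ⟨hz'o, hiso⟩ := hz'
      obtain ⟨c, hc⟩ := isConj_iff.mp (hconj z' z hz'o hzo)
      have hb'o : orderOf (c⁻¹ * σ * c) = 2 := by
        rw [Cfsg.Agent.Lib.helper7.invol_iff]
        refine ⟨?_, ?_⟩
        · calc (c⁻¹ * σ * c) * (c⁻¹ * σ * c) = c⁻¹ * (σ * σ) * c := by group
            _ = 1 := by rw [hσσ]; group
        · intro h
          apply hσ1
          have : σ = c * (c⁻¹ * σ * c) * c⁻¹ := by group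
          rw [this, h]; group
      have hz'eq : z' = c⁻¹ * z * c := by rw [← hc]; group
      have hcomm : Commute z' (c⁻¹ * σ * c) := by
        show z' * (c⁻¹ * σ * c) = (c⁻¹ * σ * c) * z'
        rw [hz'eq]
        have := hzc σ hσS
        calc c⁻¹ * z * c * (c⁻¹ * σ * c) = c⁻¹ * (z * σ) * c := by group
          _ = c⁻¹ * (σ * z) * c := by rw [this]
          _ = c⁻¹ * σ * c * (c⁻¹ * z * c) := by group
      have hne : c⁻¹ * σ * c ≠ z' := by
        intro h
        rw [hz'eq] at h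
        have : σ = z := by
          have e1 : σ = c * (c⁻¹ * σ * c) * c⁻¹ := by group
          rw [e1, h]; group
        exact hσQ (this ▸ hzQ)
      obtain ⟨g, hg⟩ := isConj_iff.mp (hconj z' _ hz'o hb'o)
      have := hiso g (by rw [hg]; exact hcomm)
      rw [hg] at this
      exact hne this

end Cfsg.Agent.S1255
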