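import Cfsg.Statements.S3737
import Mathlib
import Cfsg.Agent.S3736

set_option autoImplicit false
open Cfsg
open scoped commutatorElement

namespace Cfsg.Agent.S3737

universe u

section Baer
variable {H : Type u} [Group H]

theorem cz (hc : ∀ a b : H, ⁅a, b⁆ ∈ Subgroup.center H) (a b g : H) (k : ℕ) :
    ⁅a, b⁆ ^ k * g = g * ⁅a, b⁆ ^ k :=
  (Subgroup.mem_center_iff.mp (Subgroup.pow_mem _ (hc a b) k) g).symm

theorem comm_mul_right (hc : ∀ a b : H, ⁅a, b⁆ ∈ Subgroup.center H) (a b c : H) :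
    ⁅a, b * c⁆ = ⁅a, b⁆ * ⁅a, c⁆ := by
  have h1 := cz hc a c (b⁻¹) 1
  rw [pow_one] at h1
  have e : ⁅a, b * c⁆ = a * b * a⁻¹ * (⁅a, c⁆ * b⁻¹) := by
    simp only [commutatorElement_def]; group
  rw [e, h1]
  simp only [commutatorElement_def]; group

theorem comm_mul_left (hc : ∀ a b : H, ⁅a, b⁆ ∈ Subgroup.center H) (a b c : H) :
    ⁅a * b, c⁆ = ⁅a, c⁆ * ⁅b, c⁆ := by
  have h := comm_mul_right hc c a b
  rw [← commutatorElement_inv c (a * b), h, mul_inv_rev, commutatorElement_inv, commutatorElement_inv]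
  have h1 := cz hc b c ⁅a, c⁆ 1
  rw [pow_one] at h1
  exact h1

theorem comm_mul_central_right (a b z : H) (hz : ∀ g : H, g * z = z * g) :
    ⁅a, b * z⁆ = ⁅a, b⁆ := by
  simp only [commutatorElement_def]
  have h1 : a * (b * z) * a⁻¹ * (b * z)⁻¹ = a * b * (z * a⁻¹) * z⁻¹ * b⁻¹ := by group
  rw [h1, ← hz a⁻¹]; group

theorem comm_mul_central_left (a b z : H) (hz : ∀ g : H, g * z = z * g) :
    ⁅a * z, b⁆ = ⁅a, b⁆ := by
  rw [← commutatorElement_inv b (a * z), comm_mul_central_right b a z hz, commutatorElement_inv]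

/-- the Baer product -/
def bmul (m : ℕ) (x y : H) : H := x * y * ⁅y, x⁆ ^ m

theorem bmul_comm (hc : ∀ a b : H, ⁅a, b⁆ ∈ Subgroup.center H) (m : ℕ)
    (hm : ∀ a b : H, ⁅a, b⁆ ^ (2 * m) = ⁅a, b⁆) (x y : H) : bmul m x y = bmul m y x := by
  unfold bmul
  have e1 : x * y = ⁅x, y⁆ * (y * x) := by simp only [commutatorElement_def]; group
  have e2 : ⁅y, x⁆ ^ m = (⁅x, y⁆ ^ m)⁻¹ := by rw [← commutatorElement_inv x y, inv_pow]
  have e3 : ⁅x, y⁆ = ⁅x, y⁆ ^ m * ⁅x, y⁆ ^ m := by rw [← pow_add, ← two_mul, hm]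
  have h1 := cz hc x y (y * x) 1
  rw [pow_one] at h1
  rw [e1, h1, e2, mul_assoc]
  congr 1
  generalize ⁅x, y⁆ ^ m = d at e3 ⊢
  rw [e3, mul_inv_cancel_right]

theorem bmul_assoc (hc : ∀ a b : H, ⁅a, b⁆ ∈ Subgroup.center H) (m : ℕ) (x y z : H) :
    bmul m (bmul m x y) z = bmul m x (bmul m y z) := by
  unfold bmul
  have hzc : ∀ (a b : H) (k : ℕ) (g : H), g * ⁅a, b⁆ ^ k = ⁅a, b⁆ ^ k * g :=
    fun a b k g => (cz hc a b g k).symm
  rw [comm_mul_central_right z (x * y) _ (hzc y x m), comm_mul_central_left (y * z) x _ (hzc z y m),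
    comm_mul_right hc, comm_mul_left hc]
  have hcomm1 : Commute ⁅z, x⁆ ⁅z, y⁆ := (cz hc z x ⁅z, y⁆ 1 |> fun h => by
    rw [pow_one] at h; exact h)
  have hcomm2 : Commute ⁅y, x⁆ ⁅z, x⁆ := (cz hc y x ⁅z, x⁆ 1 |> fun h => by
    rw [pow_one] at h; exact h)
  rw [hcomm1.mul_pow, hcomm2.mul_pow]
  have a1 := cz hc y x z m
  have a2 := cz hc z y (⁅y, x⁆ ^ m * ⁅z, x⁆ ^ m) m
  calc x * y * ⁅y, x⁆ ^ m * z * (⁅z, x⁆ ^ m * ⁅z, y⁆ ^ m)
      = x * y * (⁅y, x⁆ ^ m * z) * (⁅z, x⁆ ^ m * ⁅z, y⁆ ^ m) := by group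
    _ = x * y * (z * ⁅y, x⁆ ^ m) * (⁅z, x⁆ ^ m * ⁅z, y⁆ ^ m) := by rw [a1]
    _ = x * (y * z) * ((⁅y, x⁆ ^ m * ⁅z, x⁆ ^ m) * ⁅z, y⁆ ^ m) := by group
    _ = x * (y * z) * (⁅z, y⁆ ^ m * (⁅y, x⁆ ^ m * ⁅z, x⁆ ^ m)) := by rw [a2]
    _ = x * (y * z * ⁅z, y⁆ ^ m) * (⁅y, x⁆ ^ m * ⁅z, x⁆ ^ m) := by group

theorem one_bmul (m : ℕ) (x : H) : bmul m 1 x = x := by simp [bmul]
theorem bmul_one (m : ℕ) (x : H) : bmul m x 1 = x := by simp [bmul]
theorem inv_bmul (m : ℕ) (x : H) : bmul m x⁻¹ x = 1 := by simp [bmul, commutatorElement_def]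

/-- hypotheses making the Baer product a group law -/
class BaerHyp (H : Type u) [Group H] (m : ℕ) : Prop where
  hc : ∀ a b : H, ⁅a, b⁆ ∈ Subgroup.center H
  hm : ∀ a b : H, ⁅a, b⁆ ^ (2 * m) = ⁅a, b⁆

/-- carrier of the Baer group -/
structure BaerT (H : Type u) (m : ℕ) where
  /-- underlying element -/
  val : H

instance baerGroup (m : ℕ) [h : BaerHyp H m] : CommGroup (BaerT H m) where
  mul := fun x y => ⟨bmul m x.val y.val⟩
  mul_assoc := fun x y z => congrArg BaerT.mk (bmul_assoc h.hc m x.val y.val z.val)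
  one := ⟨1⟩
  one_mul := fun x => congrArg BaerT.mk (one_bmul m x.val)
  mul_one := fun x => congrArg BaerT.mk (bmul_one m x.val)
  inv := fun x => ⟨x.val⁻¹⟩
  inv_mul_cancel := fun x => congrArg BaerT.mk (inv_bmul m x.val)
  mul_comm := fun x y => congrArg BaerT.mk (bmul_comm h.hc m h.hm x.val y.val)

variable {m : ℕ}

theorem baer_val_mul [BaerHyp H m] (x y : BaerT H m) : (x * y).val = bmul m x.val y.val := rfl

theorem baer_val_pow [BaerHyp H m] (y : BaerT H m) (n : ℕ) : (y ^ n).val = y.val ^ n := by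
  induction n with
  | zero => rw [pow_zero, pow_zero]; rfl
  | succ n ih =>
    rw [pow_succ, baer_val_mul, ih, pow_succ]
    unfold bmul
    have : ⁅y.val, y.val ^ n⁆ = 1 := by
      rw [commutatorElement_eq_one_iff_commute]; exact (Commute.refl _).pow_right n
    rw [this, one_pow, mul_one]

/-- automorphisms of `H` are endomorphisms of the Baer group -/
def autB (m : ℕ) [BaerHyp H m] (σ : MulAut H) : BaerT H m →* BaerT H m where
  toFun := fun x => ⟨σ x.val⟩
  map_one' := congrArg BaerT.mk (map_one σ)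
  map_mul' := fun x y => congrArg BaerT.mk (by
    show σ (bmul m x.val y.val) = bmul m (σ x.val) (σ y.val)
    unfold bmul
    rw [map_mul, map_mul, map_pow, map_commutatorElement])

theorem baer_norm [Finite H] {p : ℕ} [Fact p.Prime] (m : ℕ) [BaerHyp H m] (hH : IsPGroup p H)
    (Pa Qa : Subgroup (MulAut H)) (hPa : IsPGroup p Pa) (hQa : (Nat.card Qa).Coprime p)
    (hn : ∀ a ∈ Pa, ∀ q ∈ Qa, a * q * a⁻¹ ∈ Qa)
    (hC : ∀ x : H, (∀ a ∈ Pa, a x = x) → ∀ q ∈ Qa, q x = x) :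
    ∀ q ∈ Qa, ∀ x : H, q x = x := by
  classical
  haveI : Fintype Qa := Fintype.ofFinite _
  haveI : Finite (BaerT H m) :=
    Finite.of_injective BaerT.val (fun a b h => by cases a; cases b; simp_all)
  let τ : BaerT H m →* BaerT H m := ∏ q : Qa, autB m q.1
  have hτ : ∀ x, τ x = ∏ q : Qa, autB m q.1 x := fun x => MonoidHom.finsetProd_apply _ _ _
  have hinv : ∀ q₀ ∈ Qa, ∀ x : BaerT H m, τ (autB m q₀ x) = τ x := by
    intro q₀ hq₀ x
    rw [hτ, hτ]
    refine Fintype.prod_equiv (Equiv.mulRight ⟨q₀, hq₀⟩) _ _ ?_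
    intro q
    rfl
  have heq : ∀ a ∈ Pa, ∀ x : BaerT H m, autB m a (τ x) = τ (autB m a x) := by
    intro a ha x
    rw [hτ, hτ, map_prod]
    let e : Qa ≃ Qa :=
      { toFun := fun q => ⟨a * q.1 * a⁻¹, hn a ha q.1 q.2⟩
        invFun := fun q => ⟨a⁻¹ * q.1 * a, by
          have := hn a⁻¹ (inv_mem ha) q.1 q.2; simpa using this⟩
        left_inv := fun q => Subtype.ext (by simp [mul_assoc])
        right_inv := fun q => Subtype.ext (by simp [mul_assoc]) }
    refine Fintype.prod_equiv e _ _ ?_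
    intro q
    apply congrArg BaerT.mk
    show a (q.1 x.val) = (a * q.1 * a⁻¹) (a x.val)
    simp [MulAut.mul_apply]
  by_cases hK : τ.ker = ⊥
  · intro q hq x
    have h1 := hinv q hq ⟨x⟩
    have h2 := (MonoidHom.ker_eq_bot_iff τ).mp hK h1
    exact congrArg BaerT.val h2
  · exfalso
    letI : MulAction Pa τ.ker :=
      { smul := fun a k => ⟨autB m a.1 k.1, by
          show τ (autB m a.1 k.1) = 1
          rw [← heq a.1 a.2, show τ k.1 = 1 from k.2, map_one]⟩
        one_smul := fun k => Subtype.ext rfl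
        mul_smul := fun a b k => Subtype.ext rfl }
    have hcardK : Nat.card τ.ker ∣ Nat.card H := by
      have h1 := Subgroup.card_subgroup_dvd_card τ.ker
      have h2 : Nat.card (BaerT H m) = Nat.card H :=
        Nat.card_congr ⟨BaerT.val, BaerT.mk, fun _ => rfl, fun _ => rfl⟩
      rwa [h2] at h1
    obtain ⟨n, hn'⟩ := IsPGroup.iff_card.mp hH
    have hp : p.Prime := Fact.out
    have hKcard : 1 < Nat.card τ.ker := by
      rw [Subgroup.one_lt_card_iff_ne_bot]; exact hK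
    have hpK : p ∣ Nat.card τ.ker := by
      rw [hn'] at hcardK
      obtain ⟨k, hk, hk'⟩ := (Nat.dvd_prime_pow hp).mp hcardK
      rw [hk'] at hKcard ⊢
      have : k ≠ 0 := by rintro rfl; simp at hKcard
      exact dvd_pow_self p this
    have hfix1 : (1 : τ.ker) ∈ MulAction.fixedPoints Pa τ.ker := by
      intro a
      exact Subtype.ext (map_one (autB m a.1))
    obtain ⟨y, hy, hy1⟩ := hPa.exists_fixed_point_of_prime_dvd_card_of_fixed_point τ.ker hpK hfix1
    have hyP : ∀ a ∈ Pa, a y.1.val = y.1.val := by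
      intro a ha
      have := hy ⟨a, ha⟩
      exact congrArg (fun k : τ.ker => k.1.val) this
    have hyQ := hC y.1.val hyP
    have h3 : τ y.1 = y.1 ^ Nat.card Qa := by
      rw [hτ]
      have : ∀ q ∈ (Finset.univ : Finset Qa), autB m q.1 y.1 = y.1 := by
        intro q _
        exact congrArg BaerT.mk (hyQ q.1 q.2)
      rw [Finset.prod_congr rfl this, Finset.prod_const, Finset.card_univ, Nat.card_eq_fintype_card]
    have h4 : y.1.val ^ Nat.card Qa = 1 := by
      have : (y.1 ^ Nat.card Qa).val = 1 := by rw [← h3, show τ y.1 = 1 from y.2]; rfl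
      rwa [baer_val_pow] at this
    have h5 : y.1.val = 1 := by
      obtain ⟨k, hk⟩ := hH y.1.val
      have hcop : (Nat.card Qa).Coprime (p ^ k) := Nat.Coprime.pow_right k hQa
      have h6 : orderOf y.1.val ∣ Nat.gcd (Nat.card Qa) (p ^ k) :=
        Nat.dvd_gcd (orderOf_dvd_of_pow_eq_one h4) (orderOf_dvd_of_pow_eq_one hk)
      rw [hcop] at h6
      exact orderOf_eq_one_iff.mp (Nat.dvd_one.mp h6)
    apply hy1
    exact (Subtype.ext (congrArg BaerT.mk h5)).symm

end Baer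

/-- conjugation action of the normalizer on a subgroup -/
def conjHomN {X : Type u} [Group X] (G : Subgroup X) :
    ↥(Subgroup.normalizer (G : Set X)) →* MulAut ↥G where
  toFun := fun g => Cfsg.Agent.S3736.conjAut G g.1 g.2
  map_one' := by
    apply MulEquiv.ext; intro x; apply Subtype.ext
    simp [Cfsg.Agent.S3736.conjAut_coe]
  map_mul' := fun g h => by
    apply MulEquiv.ext; intro x; apply Subtype.ext
    simp [Cfsg.Agent.S3736.conjAut_coe, mul_assoc]

theorem conjHomN_coe {X : Type u} [Group X] (G : Subgroup X)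
    (g : ↥(Subgroup.normalizer (G : Set X))) (x : G) :
    ((conjHomN G g x : G) : X) = g.1 * x * g.1⁻¹ := rfl


/-- Thompson's strengthening of the P × Q lemma for odd primes. Let p be an odd prime and let P, Q and G be subgroups of a finite group with P a p-group, Q of order prime to p and normalized by P, and G a p-group normalized by both P and Q. If every element of G centralized by P is centralized by Q, then Q centralizes G. -/
theorem result {X : Type*} [Group X] [Finite X] {p : ℕ} [Fact p.Prime] (hp : p ≠ 2) (P Q G : Subgroup X) (hP : IsPGroup p P) (hQ : (Nat.card Q).Coprime p) (hPQ : P ≤ Subgroup.normalizer (Q : Set X)) (hG : IsPGroup p G) (hPG : P ≤ Subgroup.normalizer (G : Set X)) (hQG : Q ≤ Subgroup.normalizer (G : Set X)) (hC : G ⊓ Subgroup.centralizer (P : Set X) ≤ Subgroup.centralizer (Q : Set X)) : Q ≤ Subgroup.centralizer (G : Set X) := by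
  have hp' : p.Prime := Fact.out
  suffices Hmain : ∀ n : ℕ, ∀ G : Subgroup X, Nat.card G = n → IsPGroup p G →
      P ≤ Subgroup.normalizer (G : Set X) → Q ≤ Subgroup.normalizer (G : Set X) →
      G ⊓ Subgroup.centralizer (P : Set X) ≤ Subgroup.centralizer (Q : Set X) →
      Q ≤ Subgroup.centralizer (G : Set X) from Hmain _ G rfl hG hPG hQG hC
  intro n
  induction n using Nat.strong_induction_on with
  | _ n ih =>
  intro G hn hG hPG hQG hC
  by_contra hcon
  have hBG : P ⊔ Q ≤ Subgroup.normalizer (G : Set X) := sup_le hPG hQG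
  have hAn : P ⊔ Q ≤ Subgroup.normalizer (Q : Set X) := sup_le hPQ Subgroup.le_normalizer
  have hnt : ⁅G, Q⁆ ≠ ⊥ := by
    intro h
    apply hcon
    rw [Subgroup.commutator_eq_bot_iff_le_centralizer] at h
    intro q hq
    rw [Subgroup.mem_centralizer_iff]
    intro g hg
    exact ((Subgroup.mem_centralizer_iff.mp (h hg)) q hq).symm
  have hmin : ∀ U : Subgroup X, U < G → P ⊔ Q ≤ Subgroup.normalizer (U : Set X) → ⁅U, Q⁆ = ⊥ := by
    intro U hU hUn
    have hlt : Nat.card U < n := by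
      rw [← hn]
      rcases Nat.lt_or_ge (Nat.card U) (Nat.card G) with h1 | h1
      · exact h1
      · exact absurd (Subgroup.eq_of_le_of_card_ge hU.le h1) hU.ne
    have h1 := ih (Nat.card U) hlt U rfl (hG.to_le hU.le) (le_sup_left.trans hUn)
      (le_sup_right.trans hUn) ((inf_le_inf_right _ hU.le).trans hC)
    rw [Subgroup.commutator_eq_bot_iff_le_centralizer]
    intro u hu
    rw [Subgroup.mem_centralizer_iff]
    intro q hq
    exact ((Subgroup.mem_centralizer_iff.mp (h1 hq)) u hu).symm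
  obtain ⟨_, hstr, _, hexp⟩ :=
    Cfsg.Agent.S3736.result (P ⊔ Q) Q G hG hBG le_sup_right hAn hQ hnt hmin
  have hexp' := hexp hp
  have hexpG : ∀ x : G, x ^ p = 1 := fun x => Subtype.ext (by
    rw [Subgroup.coe_pow]; exact hexp' x.1 x.2)
  have hc : ∀ a b : G, ⁅a, b⁆ ∈ Subgroup.center G := by
    rcases hstr with ⟨hcomm, _⟩ | ⟨_, _, hcz⟩
    · intro a b
      have : ⁅a, b⁆ = 1 := by
        rw [commutatorElement_eq_one_iff_commute]
        exact hcomm.is_comm.comm a b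
      rw [this]; exact one_mem _
    · intro a b
      rw [← hcz]
      exact Subgroup.commutator_mem_commutator (Subgroup.mem_top a) (Subgroup.mem_top b)
  obtain ⟨m, hm2⟩ : ∃ m, 2 * m = p + 1 := by
    rcases hp'.eq_two_or_odd with h | h
    · exact absurd h hp
    · exact ⟨(p + 1) / 2, by omega⟩
  have hm : ∀ a b : G, ⁅a, b⁆ ^ (2 * m) = ⁅a, b⁆ := by
    intro a b
    rw [hm2, pow_succ, hexpG, one_mul]
  haveI : BaerHyp (↥G) m := ⟨hc, hm⟩
  have hPN : P ≤ Subgroup.normalizer (G : Set X) := hPG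
  let N : Subgroup X := Subgroup.normalizer (G : Set X)
  let Pa : Subgroup (MulAut ↥G) := (P.subgroupOf N).map (conjHomN G)
  let Qa : Subgroup (MulAut ↥G) := (Q.subgroupOf N).map (conjHomN G)
  have hPa : IsPGroup p Pa := (hP.comap_subtype (K := N)).map (conjHomN G)
  have hQa : (Nat.card Qa).Coprime p := by
    have h1 : Nat.card Qa ∣ Nat.card (Q.subgroupOf N) := Subgroup.card_map_dvd _ _
    have h2 : Nat.card (Q.subgroupOf N) = Nat.card Q :=
      Nat.card_congr (Subgroup.subgroupOfEquivOfLe hQG).toEquiv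
    rw [h2] at h1
    exact Nat.Coprime.coprime_dvd_left h1 hQ
  have hnorm : ∀ a ∈ Pa, ∀ q ∈ Qa, a * q * a⁻¹ ∈ Qa := by
    intro a ha q hq
    obtain ⟨g, hg, rfl⟩ := Subgroup.mem_map.mp ha
    obtain ⟨h, hh, rfl⟩ := Subgroup.mem_map.mp hq
    refine Subgroup.mem_map.mpr ⟨g * h * g⁻¹, ?_, by simp⟩
    rw [Subgroup.mem_subgroupOf] at hg hh ⊢
    exact Cfsg.Agent.Lib.helper8.conj_mem_of_mem_normalizer (hPQ hg) hh
  have hC' : ∀ x : G, (∀ a ∈ Pa, a x = x) → ∀ q ∈ Qa, q x = x := by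
    intro x hx q hq
    obtain ⟨h, hh, rfl⟩ := Subgroup.mem_map.mp hq
    rw [Subgroup.mem_subgroupOf] at hh
    have hxP : x.1 ∈ Subgroup.centralizer (P : Set X) := by
      rw [Subgroup.mem_centralizer_iff]
      intro g hg
      have h1 := hx (conjHomN G ⟨g, hPG hg⟩)
        (Subgroup.mem_map.mpr ⟨⟨g, hPG hg⟩, by rw [Subgroup.mem_subgroupOf]; exact hg, rfl⟩)
      have h2 := congrArg (Subtype.val) h1
      rw [conjHomN_coe] at h2
      exact (mul_inv_eq_iff_eq_mul.mp h2)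
    have hxQ := hC ⟨x.2, hxP⟩
    have h3 := (Subgroup.mem_centralizer_iff.mp hxQ) h.1 hh
    apply Subtype.ext
    rw [conjHomN_coe, h3, mul_inv_cancel_right]
  have hfin := baer_norm m hG Pa Qa hPa hQa hnorm hC'
  apply hcon
  intro q hq
  rw [Subgroup.mem_centralizer_iff]
  intro g hg
  have h1 := hfin (conjHomN G ⟨q, hQG hq⟩)
    (Subgroup.mem_map.mpr ⟨⟨q, hQG hq⟩, by rw [Subgroup.mem_subgroupOf]; exact hq, rfl⟩) ⟨g, hg⟩
  have h2 := congrArg (Subtype.val) h1
  rw [conjHomN_coe] at h2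
  exact (mul_inv_eq_iff_eq_mul.mp h2).symm

end Cfsg.Agent.S3737
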