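import Cfsg.Statements.S0436

set_option autoImplicit false
open Cfsg

namespace Cfsg.Agent.S0436

theorem sq_of_order {G : Type*} [Group G] {x : G} (h : orderOf x = 2) : x * x = 1 := by
  have := pow_orderOf_eq_one x
  rw [h, pow_two] at this
  exact this

theorem comm_of_sq {G : Type*} [Group G] {x y : G} (hx : x * x = 1) (hy : y * y = 1)
    (h : (x * y) ^ 2 = 1) : Commute x y := by
  have h1 : x * y * (x * y) = 1 := by rw [← pow_two]; exact h
  have h2 : x * y = (x * y)⁻¹ := eq_inv_of_mul_eq_one_left h1
  have hx' : x⁻¹ = x := inv_eq_of_mul_eq_one_left hx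
  have hy' : y⁻¹ = y := inv_eq_of_mul_eq_one_left hy
  rw [mul_inv_rev, hx', hy'] at h2
  exact h2

theorem braid_of_cube {G : Type*} [Group G] {x y : G} (hx : x * x = 1) (hy : y * y = 1)
    (h : (x * y) ^ 3 = 1) : x * y * x = y * x * y := by
  have hx' : x⁻¹ = x := inv_eq_of_mul_eq_one_left hx
  have hy' : y⁻¹ = y := inv_eq_of_mul_eq_one_left hy
  have h1 : x * y * x * (y * x * y) = 1 := by
    have : (x * y) ^ 3 = x * y * x * (y * x * y) := by
      simp only [pow_succ, pow_zero, one_mul, mul_assoc]
    rw [← this]; exact h
  have h2 := eq_inv_of_mul_eq_one_left h1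
  rw [h2]
  simp only [mul_inv_rev, hx', hy', mul_assoc]

/-- For distinct commuting members a, b of a set of 3-transpositions E, a member e of E centralises the product a * b if and only if it centralises both a and b. -/
theorem result {G : Type*} [Group G] {E : Set G} (hE : Cfsg.IsThreeTranspositionSet E) {a b e : G} (ha : a ∈ E) (hb : b ∈ E) (he : e ∈ E) (hab : a ≠ b) (hcomm : Commute a b) : Commute e (a * b) ↔ (Commute e a ∧ Commute e b) := by
  constructor
  · intro h
    have ha2 := sq_of_order (hE.1 a ha)
    have hb2 := sq_of_order (hE.1 b hb)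
    have he2 := sq_of_order (hE.1 e he)
    have key1 : Commute e a → Commute e b := by
      intro h1
      have h2 : e * (a * b) = a * b * e := h
      have h3 : a * (e * b) = a * (b * e) := by
        rw [← mul_assoc, ← h1.eq, mul_assoc, h2, mul_assoc]
      exact mul_left_cancel h3
    have key2 : Commute e b → Commute e a := by
      intro h1
      have h2 : e * (a * b) = a * b * e := h
      have h3 : e * a * b = a * e * b := by
        rw [mul_assoc, h2, mul_assoc, ← h1.eq, mul_assoc]
      exact mul_right_cancel h3
    rcases hE.2 e he a ha with h1 | h1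
    · have := comm_of_sq he2 ha2 h1
      exact ⟨this, key1 this⟩
    rcases hE.2 e he b hb with h2 | h2
    · have := comm_of_sq he2 hb2 h2
      exact ⟨key2 this, this⟩
    exfalso
    have b1 := braid_of_cube he2 ha2 h1
    have b2 := braid_of_cube he2 hb2 h2
    have h3 : e * (a * b) = a * b * e := h
    have h4 : e * (a * b) * e = a * b := by rw [h3, mul_assoc, he2, mul_one]
    have h5 : e * (a * b) * e = (e * a * e) * (e * b * e) := by
      have : (e * a * e) * (e * b * e) = e * a * (e * e) * b * e := by simp only [mul_assoc]
      rw [this, he2]; simp only [mul_assoc, mul_one]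
    rw [h5, b1, b2] at h4
    have h6 : e * a * b * e = 1 := by
      have : a * (a * e * a * (b * e * b)) * b = a * (a * b) * b := by rw [h4]
      have l : a * (a * e * a * (b * e * b)) * b = (a * a) * e * a * b * e * (b * b) := by
        simp only [mul_assoc]
      have r : a * (a * b) * b = (a * a) * (b * b) := by simp only [mul_assoc]
      rw [l, r, ha2, hb2] at this
      simpa [mul_assoc] using this
    have h7 : a * b = 1 := by
      have : e * (e * a * b * e) * e = e * 1 * e := by rw [h6]
      have l : e * (e * a * b * e) * e = (e * e) * a * b * (e * e) := by simp only [mul_assoc]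
      rw [l, he2] at this
      simpa [he2] using this
    have hb' : b⁻¹ = b := inv_eq_of_mul_eq_one_left hb2
    exact hab (by rw [eq_inv_of_mul_eq_one_left h7, hb'])
  · rintro ⟨h1, h2⟩
    exact h1.mul_right h2

end Cfsg.Agent.S0436
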