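import Cfsg.Statements.S0437
import Mathlib

set_option autoImplicit false
open Cfsg

namespace Cfsg.Agent.S0437

theorem sq_of_order {G : Type*} [Group G] {x : G} (h : orderOf x = 2) : x * x = 1 := by
  have := pow_orderOf_eq_one x
  rw [h, pow_two] at this
  exact this

theorem comm_of_sq {G : Type*} [Group G] {x y : G} (hx : x * x = 1) (hy : y * y = 1)
    (h : (x * y) ^ 2 = 1) : Commute x y := by
  have h1 : x * y * (x * y) = 1 := by rw [← pow_two]; exact h
  have h2 : x * y = (x * y)⁻¹ := eq_inv_of_mul_eq_one_left h1
  have hx' : x⁻¹ = x := inv_eq_of_mul_eq_one_left hx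
  have hy' : y⁻¹ = y := inv_eq_of_mul_eq_one_left hy
  rw [mul_inv_rev, hx', hy'] at h2
  exact h2

theorem braid_of_cube {G : Type*} [Group G] {x y : G} (hx : x * x = 1) (hy : y * y = 1)
    (h : (x * y) ^ 3 = 1) : x * y * x = y * x * y := by
  have hx' : x⁻¹ = x := inv_eq_of_mul_eq_one_left hx
  have hy' : y⁻¹ = y := inv_eq_of_mul_eq_one_left hy
  have h1 : x * y * x * (y * x * y) = 1 := by
    have : (x * y) ^ 3 = x * y * x * (y * x * y) := by
      simp only [pow_succ, pow_zero, one_mul, mul_assoc]
    rw [← this]; exact h
  have h2 := eq_inv_of_mul_eq_one_left h1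
  rw [h2]
  simp only [mul_inv_rev, hx', hy', mul_assoc]

theorem two {G : Type*} [Group G] {E : Set G} (hE : Cfsg.IsThreeTranspositionSet E) {a b e : G} (ha : a ∈ E) (hb : b ∈ E) (he : e ∈ E) (hab : a ≠ b) (h : Commute e (a * b)) : Commute e a ∧ Commute e b := by
  have ha2 := sq_of_order (hE.1 a ha)
  have hb2 := sq_of_order (hE.1 b hb)
  have he2 := sq_of_order (hE.1 e he)
  have key1 : Commute e a → Commute e b := by
    intro h1
    have h2 : e * (a * b) = a * b * e := h
    have h3 : a * (e * b) = a * (b * e) := by
      rw [← mul_assoc, ← h1.eq, mul_assoc, h2, mul_assoc]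
    exact mul_left_cancel h3
  have key2 : Commute e b → Commute e a := by
    intro h1
    have h2 : e * (a * b) = a * b * e := h
    have h3 : e * a * b = a * e * b := by
      rw [mul_assoc, h2, mul_assoc, ← h1.eq, mul_assoc]
    exact mul_right_cancel h3
  rcases hE.2 e he a ha with h1 | h1
  · have := comm_of_sq he2 ha2 h1
    exact ⟨this, key1 this⟩
  rcases hE.2 e he b hb with h2 | h2
  · have := comm_of_sq he2 hb2 h2
    exact ⟨key2 this, this⟩
  exfalso
  have b1 := braid_of_cube he2 ha2 h1
  have b2 := braid_of_cube he2 hb2 h2
  have h3 : e * (a * b) = a * b * e := h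
  have h4 : e * (a * b) * e = a * b := by rw [h3, mul_assoc, he2, mul_one]
  have h5 : e * (a * b) * e = (e * a * e) * (e * b * e) := by
    have : (e * a * e) * (e * b * e) = e * a * (e * e) * b * e := by simp only [mul_assoc]
    rw [this, he2]; simp only [mul_assoc, mul_one]
  rw [h5, b1, b2] at h4
  have h6 : e * a * b * e = 1 := by
    have : a * (a * e * a * (b * e * b)) * b = a * (a * b) * b := by rw [h4]
    have l : a * (a * e * a * (b * e * b)) * b = (a * a) * e * a * b * e * (b * b) := by
      simp only [mul_assoc]
    have r : a * (a * b) * b = (a * a) * (b * b) := by simp only [mul_assoc]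
    rw [l, r, ha2, hb2] at this
    simpa [mul_assoc] using this
  have h7 : a * b = 1 := by
    have : e * (e * a * b * e) * e = e * 1 * e := by rw [h6]
    have l : e * (e * a * b * e) * e = (e * e) * a * b * (e * e) := by simp only [mul_assoc]
    rw [l, he2] at this
    simpa [he2] using this
  have hb' : b⁻¹ = b := inv_eq_of_mul_eq_one_left hb2
  exact hab (by rw [eq_inv_of_mul_eq_one_left h7, hb'])

/-- For three distinct, pairwise commuting members a, b, c of a set of 3-transpositions E, a member e of E centralises a * b * c if and only if it centralises each of a, b and c. -/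
theorem result {G : Type*} [Group G] {E : Set G} (hE : Cfsg.IsThreeTranspositionSet E) {a b c e : G} (ha : a ∈ E) (hb : b ∈ E) (hc : c ∈ E) (he : e ∈ E) (hab : a ≠ b) (hac : a ≠ c) (hbc : b ≠ c) (h₁ : Commute a b) (h₂ : Commute a c) (h₃ : Commute b c) : Commute e (a * b * c) ↔ (Commute e a ∧ Commute e b ∧ Commute e c) := by
  constructor
  · intro h
    have ha2 := sq_of_order (hE.1 a ha)
    have hb2 := sq_of_order (hE.1 b hb)
    have hc2 := sq_of_order (hE.1 c hc)
    have he2 := sq_of_order (hE.1 e he)
    have ha3 : ∀ x, a * (a * x) = x := fun x => by rw [← mul_assoc, ha2, one_mul]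
    have hb3 : ∀ x, b * (b * x) = x := fun x => by rw [← mul_assoc, hb2, one_mul]
    have hc3 : ∀ x, c * (c * x) = x := fun x => by rw [← mul_assoc, hc2, one_mul]
    have he3 : ∀ x, e * (e * x) = x := fun x => by rw [← mul_assoc, he2, one_mul]
    have hh : e * (a * b * c) = a * b * c * e := h
    have hh' : e * (a * (b * c)) = a * (b * (c * e)) := by
      simpa only [mul_assoc] using hh
    by_cases hca : Commute e a
    · have hca3 : ∀ x, e * (a * x) = a * (e * x) := fun x => by
        rw [← mul_assoc, hca.eq, mul_assoc]
      have : Commute e (b * c) := by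
        show e * (b * c) = b * c * e
        apply mul_left_cancel (a := a)
        simp only [mul_assoc]
        rw [← hca3]
        exact hh'
      have := two hE hb hc he hbc this
      exact ⟨hca, this.1, this.2⟩
    by_cases hcb : Commute e b
    · have hcb3 : ∀ x, e * (b * x) = b * (e * x) := fun x => by
        rw [← mul_assoc, hcb.eq, mul_assoc]
      have h13 : ∀ x, b * (a * x) = a * (b * x) := fun x => by
        rw [← mul_assoc, ← h₁.eq, mul_assoc]
      have : Commute e (a * c) := by
        show e * (a * c) = a * c * e
        apply mul_left_cancel (a := b)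
        simp only [mul_assoc]
        rw [← hcb3]
        simp only [h13]
        exact hh'
      have := two hE ha hc he hac this
      exact ⟨this.1, hcb, this.2⟩
    by_cases hcc : Commute e c
    · have : Commute e (a * b) := by
        show e * (a * b) = a * b * e
        apply mul_right_cancel (b := c)
        simp only [mul_assoc]
        rw [hh', hcc.eq]
      have := two hE ha hb he hab this
      exact ⟨this.1, this.2, hcc⟩
    exfalso
    have b1 : e * a * e = a * e * a := by
      rcases hE.2 e he a ha with h1 | h1
      · exact absurd (comm_of_sq he2 ha2 h1) hca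
      · exact braid_of_cube he2 ha2 h1
    have b2 : e * b * e = b * e * b := by
      rcases hE.2 e he b hb with h1 | h1
      · exact absurd (comm_of_sq he2 hb2 h1) hcb
      · exact braid_of_cube he2 hb2 h1
    have b3 : e * c * e = c * e * c := by
      rcases hE.2 e he c hc with h1 | h1
      · exact absurd (comm_of_sq he2 hc2 h1) hcc
      · exact braid_of_cube he2 hc2 h1
    have s1 : (e * a * e) * (e * b * e) * (e * c * e) = a * b * c := by
      have : (e * a * e) * (e * b * e) * (e * c * e) = e * (a * b * c) * e := by
        simp only [mul_assoc, he3]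
      rw [this, hh, mul_assoc, he2, mul_one]
    rw [b1, b2, b3] at s1
    have s2 : e * a * b * e * b * c * e = b := by
      have := congrArg (fun t => a * t * c) s1
      simpa [mul_assoc, ha3, hb3, hc3, ha2, hb2, hc2] using this
    have s3 : a * b * e * b * c = b * e * b := by
      have := congrArg (fun t => e * t * e) s2
      simp only [mul_assoc, he3, he2, mul_one] at this
      rw [← b2]
      simpa [mul_assoc] using this
    have s4 : a * e * c = e := by
      have h5 : b * (a * e * c * b) = b * (e * b) := by
        have : b * (a * e * c * b) = a * b * e * b * c := by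
          rw [h₁.eq]
          simp only [mul_assoc]
          rw [h₃.eq]
        rw [this, s3]; simp only [mul_assoc]
      have := mul_left_cancel h5
      exact mul_right_cancel this
    have s5 : e = c := by
      have h6 : e * c = a * e := by
        have := congrArg (fun t => a * t) s4
        simpa [mul_assoc, ha3] using this
      have h7 : c = a * e * a := by
        rw [← b1, mul_assoc, ← h6, he3]
      have h8 : a * c * a = e := by
        rw [h7]; simp only [mul_assoc, ha3, ha2, mul_one]
      rw [← h8, h₂.eq, mul_assoc, ha2, mul_one]
    exact hcc (s5 ▸ Commute.refl e)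
  · rintro ⟨h1, h2, h3⟩
    exact (h1.mul_right h2).mul_right h3

end Cfsg.Agent.S0437
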