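import Cfsg.Statements.S0438

set_option autoImplicit false
open Cfsg

namespace Cfsg.Agent.S0438

theorem sq_of_order {G : Type*} [Group G] {x : G} (h : orderOf x = 2) : x * x = 1 := by
  have := pow_orderOf_eq_one x
  rw [h, pow_two] at this
  exact this

theorem comm_of_sq {G : Type*} [Group G] {x y : G} (hx : x * x = 1) (hy : y * y = 1)
    (h : (x * y) ^ 2 = 1) : Commute x y := by
  have h1 : x * y * (x * y) = 1 := by rw [← pow_two]; exact h
  have h2 : x * y = (x * y)⁻¹ := eq_inv_of_mul_eq_one_left h1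
  have hx' : x⁻¹ = x := inv_eq_of_mul_eq_one_left hx
  have hy' : y⁻¹ = y := inv_eq_of_mul_eq_one_left hy
  rw [mul_inv_rev, hx', hy'] at h2
  exact h2

theorem braid_of_cube {G : Type*} [Group G] {x y : G} (hx : x * x = 1) (hy : y * y = 1)
    (h : (x * y) ^ 3 = 1) : x * y * x = y * x * y := by
  have hx' : x⁻¹ = x := inv_eq_of_mul_eq_one_left hx
  have hy' : y⁻¹ = y := inv_eq_of_mul_eq_one_left hy
  have h1 : x * y * x * (y * x * y) = 1 := by
    have : (x * y) ^ 3 = x * y * x * (y * x * y) := by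
      simp only [pow_succ, pow_zero, one_mul, mul_assoc]
    rw [← this]; exact h
  have h2 := eq_inv_of_mul_eq_one_left h1
  rw [h2]
  simp only [mul_inv_rev, hx', hy', mul_assoc]

/-- Let E be a set of 3-transpositions closed under conjugation, and x an involutory automorphism of the group mapping E to itself. If some a in E fails to commute with its image x a, then x fixes an element of E. -/
theorem result {G : Type*} [Group G] {E : Set G} (hE : Cfsg.IsThreeTranspositionSet E) (hconj : ∀ g : G, ∀ d ∈ E, g * d * g⁻¹ ∈ E) (x : G ≃* G) (hx : ∀ g : G, x (x g) = g) (hxE : ∀ d ∈ E, x d ∈ E) {a : G} (ha : a ∈ E) (h : ¬ Commute a (x a)) : ∃ d ∈ E, x d = d := by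
  have hxa : x a ∈ E := hxE a ha
  have ha2 := sq_of_order (hE.1 a ha)
  have hb2 := sq_of_order (hE.1 (x a) hxa)
  have ha' : a⁻¹ = a := inv_eq_of_mul_eq_one_left ha2
  have hb' : (x a)⁻¹ = x a := inv_eq_of_mul_eq_one_left hb2
  refine ⟨a * x a * a⁻¹, hconj a (x a) hxa, ?_⟩
  rcases hE.2 a ha (x a) hxa with h1 | h1
  · exact absurd (comm_of_sq ha2 hb2 h1) h
  · have b1 := braid_of_cube ha2 hb2 h1
    rw [map_mul, map_mul, hx, map_inv, hb', ha']
    exact b1.symm

end Cfsg.Agent.S0438
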