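import Cfsg.Statements.S1696
import Cfsg.Agent.S1685
import Cfsg.Agent.Lib.helper9.CE1696s1X
import Cfsg.Agent.Lib.helper9.CE1696s2X
import Cfsg.Agent.Lib.helper9.CE1696s3X
import Cfsg.Agent.Lib.helper9.CE1696s4X
import Cfsg.Agent.Lib.helper9.CE1696cX
import Cfsg.Agent.Lib.helper9.CE1696pK0
import Cfsg.Agent.Lib.helper9.CE1696pK1

set_option autoImplicit false
open Cfsg

namespace Cfsg.Agent.S1696

open Cfsg.Agent.Lib.helper9 Cfsg.Agent.Lib.helper9.CE
open Cfsg.Spor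
open Cfsg.Spor.Fi22 (Gen)

/-- the relators -/
abbrev R0 : Set (FreeGroup Gen) := CE1685.rels

theorem hS0 : ∀ s ∈ Cfsg.Agent.S1685.S0, ∃ x ∈ ([Gen.b, Gen.c, Gen.d, Gen.e, Gen.f, Gen.g, Gen.h, Gen.i] : List Gen), s = FreeGroup.of x := by
  intro s hs
  rcases hs with rfl | rfl | rfl | rfl | rfl | rfl | rfl | rfl
  · exact ⟨Gen.b, by decide, rfl⟩
  · exact ⟨Gen.c, by decide, rfl⟩
  · exact ⟨Gen.d, by decide, rfl⟩
  · exact ⟨Gen.e, by decide, rfl⟩
  · exact ⟨Gen.f, by decide, rfl⟩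
  · exact ⟨Gen.g, by decide, rfl⟩
  · exact ⟨Gen.h, by decide, rfl⟩
  · exact ⟨Gen.i, by decide, rfl⟩

theorem ub4 : Finite (PresentedGroup (relSet CE1696s4.RL)) ∧ Nat.card (PresentedGroup (relSet CE1696s4.RL)) ≤ 1920 :=
  chain_bot (relSet CE1696s4.RL) 1920 (by decide) CE1696s4.index

theorem ub3 : Finite (PresentedGroup (relSet CE1696s3.RL)) ∧ Nat.card (PresentedGroup (relSet CE1696s3.RL)) ≤ 27 * (1920) :=
  chain_step (relSet CE1696s3.RL) CE1696s3.RL (wordG_relSet CE1696s3.RL) CE1696s3.TL CE1696s4.RL (by decide +kernel) (genSet CE1696s3.TL)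
    (genSet_of CE1696s3.TL) 27 (1920) (by decide) CE1696s3.index ub4

theorem ub2 : Finite (PresentedGroup (relSet CE1696s2.RL)) ∧ Nat.card (PresentedGroup (relSet CE1696s2.RL)) ≤ 243 * (27 * (1920)) :=
  chain_step (relSet CE1696s2.RL) CE1696s2.RL (wordG_relSet CE1696s2.RL) CE1696s2.TL CE1696s3.RL (by decide +kernel) (genSet CE1696s2.TL)
    (genSet_of CE1696s2.TL) 243 (27 * (1920)) (by decide) CE1696s2.index ub3

theorem ub1 : Finite (PresentedGroup (relSet CE1696s1.RL)) ∧ Nat.card (PresentedGroup (relSet CE1696s1.RL)) ≤ 364 * (243 * (27 * (1920))) :=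
  chain_step (relSet CE1696s1.RL) CE1696s1.RL (wordG_relSet CE1696s1.RL) CE1696s1.TL CE1696s2.RL (by decide +kernel) (genSet CE1696s1.TL)
    (genSet_of CE1696s1.TL) 364 (243 * (27 * (1920))) (by decide) CE1696s1.index ub2

theorem ub0 : Finite (PresentedGroup R0) ∧ Nat.card (PresentedGroup R0) ≤ 14080 * (364 * (243 * (27 * (1920)))) :=
  chain_step R0 CE1685.RW CE1685.hRW1 ([Gen.b, Gen.c, Gen.d, Gen.e, Gen.f, Gen.g, Gen.h, Gen.i] : List Gen) CE1696s1.RL (by decide +kernel) Cfsg.Agent.S1685.S0 hS0 14080 (364 * (243 * (27 * (1920)))) (by decide)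
    Cfsg.Agent.S1685.cert.index ub1

theorem hsz : ∀ c, c < 3 → cntS CE1696p.O.lab c CE1685.D.n = ([1, 3159, 10920] : List Nat).getD c 0 := by
  intro c hc
  interval_cases c
  · rw [← CE1696p.O.pc_eq 0 CE1685.D.n CE1696p.hpcz_0 (fun k hk => allRange_spec CE1696p.hpc_0 k (Nat.zero_le _) hk)]
    exact CE1696p.hpcn_0
  · rw [← CE1696p.O.pc_eq 1 CE1685.D.n CE1696p.hpcz_1 (fun k hk => allRange_spec CE1696p.hpc_1 k (Nat.zero_le _) hk)]
    exact CE1696p.hpcn_1
  · rw [← CE1696p.O.pc_eq 2 CE1685.D.n CE1696p.hpcz_2 (fun k hk => allRange_spec CE1696p.hpc_2 k (Nat.zero_le _) hk)]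
    exact CE1696p.hpcn_2

theorem hRLc : CE1696c.RL = CE1685.RW ++ [CE1696p.Yw] := by decide +kernel

theorem hinvO : ∀ L ∈ CE1685.SW, ∀ i, 0 ≤ i → i < CE1685.D.n → CE1696p.O.lab (CE1685.D.walk L i) = CE1696p.O.lab i :=
  (CE1696p.O.inv_join CE1685.D (CE1696p.O.invsK_spec CE1685.D CE1696p.hinvO_0) (CE1696p.O.invsK_spec CE1685.D CE1696p.hinvO_1))

theorem hrelY : ∀ L ∈ [CE1696p.Yp], ∀ i, 0 ≤ i → i < CE1685.D.n → CE1685.D.walk L i = i :=
  (CE1685.D.rels_join (CE1685.D.relsK_spec CE1696p.hrelY_0) (CE1685.D.rels_join (CE1685.D.relsK_spec CE1696p.hrelY_1) (CE1685.D.rels_join (CE1685.D.relsK_spec CE1696p.hrelY_2) (CE1685.D.rels_join (CE1685.D.relsK_spec CE1696p.hrelY_3) (CE1685.D.rels_join (CE1685.D.relsK_spec CE1696p.hrelY_4) (CE1685.D.rels_join (CE1685.D.relsK_spec CE1696p.hrelY_5) (CE1685.D.rels_join (CE1685.D.relsK_spec CE1696p.hrelY_6) (CE1685.D.rels_join (CE1685.D.relsK_spec CE1696p.hrelY_7) (CE1685.D.rels_join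 (CE1685.D.relsK_spec CE1696p.hrelY_8) (CE1685.D.rels_join (CE1685.D.relsK_spec CE1696p.hrelY_9) (CE1685.D.rels_join (CE1685.D.relsK_spec CE1696p.hrelY_10) (CE1685.D.rels_join (CE1685.D.relsK_spec CE1696p.hrelY_11) (CE1685.D.rels_join (CE1685.D.relsK_spec CE1696p.hrelY_12) (CE1685.D.rels_join (CE1685.D.relsK_spec CE1696p.hrelY_13) (CE1685.D.rels_join (CE1685.D.relsK_spec CE1696p.hrelY_14) (CE1685.D.relsK_spec CE1696p.hrelY_15))))))))))))))))

/-- The presented Fischer group Fi22 is simple of the expected order (that is, it is a simple group of the order of the Fischer group Fi₂₂). -/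
theorem result : Cfsg.IsFi22 Cfsg.Spor.Fi22 := by
  show IsSimpleGroup (PresentedGroup R0) ∧ Nat.card (PresentedGroup R0) = 64561751654400
  obtain ⟨ρ, e, he, hρ, he0⟩ := Cfsg.Agent.S1685.cert.main
  have hfinG : Finite (PresentedGroup R0) := ub0.1
  have hub : Nat.card (PresentedGroup R0) ≤ 64561751654400 := le_trans ub0.2 (by norm_num)
  have l0 := level_step ρ e he hρ CE1696p.OL0 CE1696p.LW0 [] ⟨0, by decide⟩ 14080
    (fun L hL p hp => fixK_spec CE1685.D CE1696p.hfix0 L hL p.val (List.mem_map_of_mem (f := Fin.val) hp))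
    (fun j hj => (allRange_spec CE1696p.horb0_0) j (Nat.zero_le _) hj) CE1696p.hroot0 CE1696p.hpcz0
    (fun k hk => allRange_spec CE1696p.hpc0 k (Nat.zero_le _) hk) CE1696p.hpcn0
  have l1 := level_step ρ e he hρ CE1696p.OL1 CE1696p.LW1 [⟨0, by decide⟩] ⟨191, by decide⟩ 10920
    (fun L hL p hp => fixK_spec CE1685.D CE1696p.hfix1 L hL p.val (List.mem_map_of_mem (f := Fin.val) hp))
    (fun j hj => (allRange_spec CE1696p.horb1_0) j (Nat.zero_le _) hj) CE1696p.hroot1 CE1696p.hpcz1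
    (fun k hk => allRange_spec CE1696p.hpc1 k (Nat.zero_le _) hk) CE1696p.hpcn1
  have l2 := level_step ρ e he hρ CE1696p.OL2 CE1696p.LW2 [⟨191, by decide⟩, ⟨0, by decide⟩] ⟨507, by decide⟩ 4374
    (fun L hL p hp => fixK_spec CE1685.D CE1696p.hfix2 L hL p.val (List.mem_map_of_mem (f := Fin.val) hp))
    (fun j hj => (allRange_spec CE1696p.horb2_0) j (Nat.zero_le _) hj) CE1696p.hroot2 CE1696p.hpcz2
    (fun k hk => allRange_spec CE1696p.hpc2 k (Nat.zero_le _) hk) CE1696p.hpcn2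
  have l3 := level_step ρ e he hρ CE1696p.OL3 CE1696p.LW3 [⟨507, by decide⟩, ⟨191, by decide⟩, ⟨0, by decide⟩] ⟨17, by decide⟩ 96
    (fun L hL p hp => fixK_spec CE1685.D CE1696p.hfix3 L hL p.val (List.mem_map_of_mem (f := Fin.val) hp))
    (fun j hj => (allRange_spec CE1696p.horb3_0) j (Nat.zero_le _) hj) CE1696p.hroot3 CE1696p.hpcz3
    (fun k hk => allRange_spec CE1696p.hpc3 k (Nat.zero_le _) hk) CE1696p.hpcn3
  have hch := (chain_le (chain_le (chain_le l0 l1) l2) l3)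
  obtain ⟨hinj, hcard⟩ := rho_injective_of_chain ρ e he [⟨17, by decide⟩, ⟨507, by decide⟩, ⟨191, by decide⟩, ⟨0, by decide⟩] 64561751654400 (by norm_num)
    ((by norm_num : (14080 * 10920 * 4374 * 96 : ℕ) = 64561751654400) ▸ hch) hub
  have hdich : ∀ K : Subgroup (PresentedGroup R0), K.Normal → (∀ g ∈ K, ρ g = 1) ∨ CE1685.D.n ∣ Nat.card K :=
    fun K hK => @normal_dichotomy Gen CE1685.D R0 Cfsg.Agent.S1685.S0 CE1685.SW CE1696p.O ρ e (by decide) he hρ he0 Cfsg.Agent.S1685.hS2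
      (fun L hL i hi => hinvO L hL i (Nat.zero_le _) hi) (fun j hj => (allRange_spec CE1696p.horbO_0) j (Nat.zero_le _) hj)
      3 0 [1, 3159, 10920] (fun j hj => OData.labK_spec _ (allRange_spec CE1696p.hlabk j (Nat.zero_le _) hj)) CE1696p.hlab0 CE1696p.hrootO hsz CE1696p.hnum K hK
  have hy : wordG R0 CE1696p.Yw ^ 11 = 1 := by
    rw [← wordG_flatten_replicate, ← CE1696p.hYp]
    exact wordG_eq_one_of_walk ρ hinj hρ _ (fun i hi => hrelY CE1696p.Yp (List.mem_singleton.mpr rfl) i (Nat.zero_le _) hi)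
  have htop : ∀ K : Subgroup (PresentedGroup R0), K.Normal → wordG R0 CE1696p.Yw ∈ K → K = ⊤ :=
    fun K hK hyK => @normal_eq_top_of_collapse Gen R0 (relSet CE1696c.RL) (FreeGroup.mk CE1696p.Yw)
      (hRLc ▸ collapse_sub R0 CE1685.RW CE1696p.Yw CE1685.hRW1) (subsingleton_of_index_one _ CE1696c.index) K hK hyK
  exact simple_of_data ρ 64561751654400 11 (wordG R0 CE1696p.Yw) hfinG hcard (by norm_num) hinj hdich (by decide)
    (by decide +kernel) hy htop

end Cfsg.Agent.S1696
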