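import Cfsg.Statements.S1689
import Cfsg.Agent.Lib.helper9.CE1689C0
import Cfsg.Agent.Lib.helper9.CE1689C1
import Cfsg.Agent.Lib.helper9.CE1689C2
import Cfsg.Agent.Lib.helper9.CE1689C3

set_option autoImplicit false
open Cfsg

namespace Cfsg.Agent.S1689

open Cfsg.Agent.Lib.helper9.CE Cfsg.Agent.Lib.helper9.CE1689
open Cfsg.Spor
open Cfsg.Spor.Fi23 (Gen)

/-- the generators of the subgroup -/
abbrev S0 : Set (FreeGroup Gen) := {Cfsg.Spor.Fi23.a, Cfsg.Spor.Fi23.b, Cfsg.Spor.Fi23.c, Cfsg.Spor.Fi23.d, Cfsg.Spor.Fi23.e, Cfsg.Spor.Fi23.f, Cfsg.Spor.Fi23.g, Cfsg.Spor.Fi23.h, Cfsg.Spor.Fi23.i}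

theorem hS1 : ∀ s ∈ S0, ∃ L ∈ SW, s = FreeGroup.mk L := by
  intro s hs
  rcases hs with rfl | rfl | rfl | rfl | rfl | rfl | rfl | rfl | rfl
  · exact ⟨[(Gen.a, true)], by decide, rfl⟩
  · exact ⟨[(Gen.b, true)], by decide, rfl⟩
  · exact ⟨[(Gen.c, true)], by decide, rfl⟩
  · exact ⟨[(Gen.d, true)], by decide, rfl⟩
  · exact ⟨[(Gen.e, true)], by decide, rfl⟩
  · exact ⟨[(Gen.f, true)], by decide, rfl⟩
  · exact ⟨[(Gen.g, true)], by decide, rfl⟩
  · exact ⟨[(Gen.h, true)], by decide, rfl⟩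
  · exact ⟨[(Gen.i, true)], by decide, rfl⟩

theorem hS2 : ∀ L ∈ SW, FreeGroup.mk L ∈ S0 := by
  intro L hL
  simp only [SW, List.mem_cons, List.mem_nil_iff, or_false] at hL
  rcases hL with rfl | rfl | rfl | rfl | rfl | rfl | rfl | rfl | rfl
  · exact Or.inl rfl
  · exact Or.inr (Or.inl rfl)
  · exact Or.inr (Or.inr (Or.inl rfl))
  · exact Or.inr (Or.inr (Or.inr (Or.inl rfl)))
  · exact Or.inr (Or.inr (Or.inr (Or.inr (Or.inl rfl))))
  · exact Or.inr (Or.inr (Or.inr (Or.inr (Or.inr (Or.inl rfl)))))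
  · exact Or.inr (Or.inr (Or.inr (Or.inr (Or.inr (Or.inr (Or.inl rfl))))))
  · exact Or.inr (Or.inr (Or.inr (Or.inr (Or.inr (Or.inr (Or.inr (Or.inl rfl)))))))
  · exact Or.inr (Or.inr (Or.inr (Or.inr (Or.inr (Or.inr (Or.inr (Or.inr (rfl))))))))

theorem hperm : ∀ x : Gen, ∀ i, i < D.n → D.permK x i = true := by
  intro x i hi
  cases x
  · exact allRange_spec hperm_a i (Nat.zero_le _) hi
  · exact allRange_spec hperm_b i (Nat.zero_le _) hi
  · exact allRange_spec hperm_c i (Nat.zero_le _) hi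
  · exact allRange_spec hperm_d i (Nat.zero_le _) hi
  · exact allRange_spec hperm_e i (Nat.zero_le _) hi
  · exact allRange_spec hperm_f i (Nat.zero_le _) hi
  · exact allRange_spec hperm_g i (Nat.zero_le _) hi
  · exact allRange_spec hperm_j i (Nat.zero_le _) hi
  · exact allRange_spec hperm_h i (Nat.zero_le _) hi
  · exact allRange_spec hperm_i i (Nat.zero_le _) hi

theorem hfin : ∀ x : Gen, ∀ i, i < D.n → D.finK x i = true := by
  intro x i hi
  cases x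
  · exact allRange_spec hfin_a i (Nat.zero_le _) hi
  · exact allRange_spec hfin_b i (Nat.zero_le _) hi
  · exact allRange_spec hfin_c i (Nat.zero_le _) hi
  · exact allRange_spec hfin_d i (Nat.zero_le _) hi
  · exact allRange_spec hfin_e i (Nat.zero_le _) hi
  · exact allRange_spec hfin_f i (Nat.zero_le _) hi
  · exact allRange_spec hfin_g i (Nat.zero_le _) hi
  · exact allRange_spec hfin_j i (Nat.zero_le _) hi
  · exact allRange_spec hfin_h i (Nat.zero_le _) hi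
  · exact allRange_spec hfin_i i (Nat.zero_le _) hi

theorem hrel : ∀ L ∈ RW, ∀ i, 0 ≤ i → i < D.n → D.walk L i = i :=
  (D.rels_join (D.relsK_spec hrel_0) (D.rels_join (D.relsK_spec hrel_1) (D.rels_join (D.relsK_spec hrel_2) (D.rels_join (D.relsK_spec hrel_3) (D.rels_join (D.relsK_spec hrel_4) (D.rels_join (D.relsK_spec hrel_5) (D.rels_join (D.relsK_spec hrel_6) (D.rels_join (D.relsK_spec hrel_7) (D.rels_join (D.relsK_spec hrel_8) (D.rels_join (D.relsK_spec hrel_9) (D.rels_join (D.relsK_spec hrel_10) (D.rels_join (D.relsK_spec hrel_11) (D.rels_join (D.relsK_spec hrel_12) (D.rels_join (D.relsK_spec hrel_13) (D.rels_join (D.relsK_spec hrel_14) (D.rels_join (D.relsK_spec hrel_15) (D.rels_join (D.relsK_spec hrel_16) (D.rels_join (D.relsK_spec hrel_17) (D.rels_join (D.relsK_spec hrel_18) (D.rels_join (D.relsK_spec hrel_19) (D.rels_join (D.relsK_spec hrel_20) (D.rels_join (D.relsK_spec hrel_21) (D.rels_join (D.relsK_spec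 hrel_22) (D.rels_join (D.relsK_spec hrel_23) (D.rels_join (D.relsK_spec hrel_24) (D.rels_join (D.relsK_spec hrel_25) (D.rels_join (D.relsK_spec hrel_26) (D.rels_join (D.relsK_spec hrel_27) (D.rels_join (D.relsK_spec hrel_28) (D.relsK_spec hrel_29))))))))))))))))))))))))))))))

theorem cert : Cert D rels S0 SW WT where
  hn := by decide
  hperm := hperm
  hlift := cox_lift Fi23.edges Fi23.extra nl EW hnl hE (D.perm hperm) (fun L hL =>
    D.lift_mk_eq_one hperm L (fun i hi => hrel L (hRW ▸ hL) i (Nat.zero_le _) hi))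
  hS1 := hS1
  hsub := D.subK_spec hsubK
  hdec := hdec
  hm := hm
  hWT := hWTeq ▸ mkWT_spec rels S0 _ RWP TW SW hinv
    (fun wp hwp => hRW1 wp.1 (hRWP ▸ List.mem_map_of_mem hwp)) hS2
  hpi0 := hpi0
  htree := (allRange_join (allRange_spec htree_0) (allRange_spec htree_1))
  hrn0 := hrn0
  hrn := fun i hi => allRange_spec hrnK i (Nat.zero_le _) hi
  hfact := fun id hid => (allRange_join (allRange_spec hfact_0) (allRange_join (allRange_spec hfact_1) (allRange_join (allRange_spec hfact_2) (allRange_join (allRange_spec hfact_3) (allRange_join (allRange_spec hfact_4) (allRange_join (allRange_spec hfact_5) (allRange_join (allRange_spec hfact_6) (allRange_join (allRange_spec hfact_7) (allRange_join (allRange_spec hfact_8) (allRange_join (allRange_spec hfact_9) (allRange_join (allRange_spec hfact_10) (allRange_join (allRange_spec hfact_11) (allRange_join (allRange_spec hfact_12) (allRange_join (allRange_spec hfact_13)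 (allRange_join (allRange_spec hfact_14) (allRange_join (allRange_spec hfact_15) (allRange_join (allRange_spec hfact_16) (allRange_join (allRange_spec hfact_17) (allRange_join (allRange_spec hfact_18) (allRange_spec hfact_19)))))))))))))))))))) id (Nat.zero_le _) hid
  hfin := hfin

theorem hinvO : ∀ L ∈ SW, ∀ i, 0 ≤ i → i < D.n → O.lab (D.walk L i) = O.lab i :=
  (O.inv_join D (O.invsK_spec D hinvO_0) (O.inv_join D (O.invsK_spec D hinvO_1) (O.invsK_spec D hinvO_2)))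

/-- In the presented Fischer group Fi₂₃, let H be the subgroup generated by the images of a, …, i. Then H has index 31671, H has orbits of sizes 3510 and 28160 on the cosets of H other than H itself. -/
theorem result : (((Subgroup.closure ({Cfsg.Spor.Fi23.a, Cfsg.Spor.Fi23.b, Cfsg.Spor.Fi23.c, Cfsg.Spor.Fi23.d, Cfsg.Spor.Fi23.e, Cfsg.Spor.Fi23.f, Cfsg.Spor.Fi23.g, Cfsg.Spor.Fi23.h, Cfsg.Spor.Fi23.i} : Set (FreeGroup Cfsg.Spor.Fi23.Gen))).map (PresentedGroup.mk (Cfsg.Spor.coxRelators Cfsg.Spor.Fi23.edges ∪ {r | r ∈ Cfsg.Spor.Fi23.extra})))).index = 31671 ∧ ∃ q₁ q₂ : Cfsg.Spor.Fi23 ⧸ (((Subgroup.closure ({Cfsg.Spor.Fi23.a, Cfsg.Spor.Fi23.b, Cfsg.Spor.Fi23.c, Cfsg.Spor.Fi23.d, Cfsg.Spor.Fi23.e, Cfsg.Spor.Fi23.f, Cfsg.Spor.Fi23.g, Cfsg.Spor.Fi23.h, Cfsg.Spor.Fi23.i} : Set (FreeGroup Cfsg.Spor.Fi23.Gen))).map (PresentedGroup.mk (Cfsg.Spor.coxRelators Cfsg.Spor.Fi23.edges ∪ {r | r ∈ Cfsg.Spor.Fi23.extra})))), (MulAction.orbit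 (((Subgroup.closure ({Cfsg.Spor.Fi23.a, Cfsg.Spor.Fi23.b, Cfsg.Spor.Fi23.c, Cfsg.Spor.Fi23.d, Cfsg.Spor.Fi23.e, Cfsg.Spor.Fi23.f, Cfsg.Spor.Fi23.g, Cfsg.Spor.Fi23.h, Cfsg.Spor.Fi23.i} : Set (FreeGroup Cfsg.Spor.Fi23.Gen))).map (PresentedGroup.mk (Cfsg.Spor.coxRelators Cfsg.Spor.Fi23.edges ∪ {r | r ∈ Cfsg.Spor.Fi23.extra})))) q₁).ncard = 3510 ∧ (MulAction.orbit (((Subgroup.closure ({Cfsg.Spor.Fi23.a, Cfsg.Spor.Fi23.b, Cfsg.Spor.Fi23.c, Cfsg.Spor.Fi23.d, Cfsg.Spor.Fi23.e, Cfsg.Spor.Fi23.f, Cfsg.Spor.Fi23.g, Cfsg.Spor.Fi23.h, Cfsg.Spor.Fi23.i} : Set (FreeGroup Cfsg.Spor.Fi23.Gen))).map (PresentedGroup.mk (Cfsg.Spor.coxRelators Cfsg.Spor.Fi23.edges ∪ {r | r ∈ Cfsg.Spor.Fi23.extra})))) q₂).ncard = 28160 := by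
  obtain ⟨ρ, e, he, hρ, _⟩ := cert.main
  have hinvO' : ∀ L ∈ SW, ∀ i, i < D.n → O.lab (D.walk L i) = O.lab i :=
    fun L hL i hi => hinvO L hL i (Nat.zero_le _) hi
  have horbO' : ∀ j, j < D.n → O.orbK D SW j = true :=
    fun j hj => allRange_spec horbO j (Nat.zero_le _) hj
  refine ⟨cert.index, e ⟨52, by decide⟩, e ⟨1, by decide⟩, ?_, ?_⟩
  · exact orbit_ncard O ρ e he hρ hS1 hS2 hinvO' horbO' ⟨52, by decide⟩ 2 3510 hlab_2 hroot_2 hpc0_2
      (fun k hk => allRange_spec hpc_2 k (Nat.zero_le _) hk) hpcn_2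
  · exact orbit_ncard O ρ e he hρ hS1 hS2 hinvO' horbO' ⟨1, by decide⟩ 1 28160 hlab_1 hroot_1 hpc0_1
      (fun k hk => allRange_spec hpc_1 k (Nat.zero_le _) hk) hpcn_1

end Cfsg.Agent.S1689
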