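import Cfsg.Statements.S1697
import Cfsg.Agent.S1689
import Cfsg.Agent.Lib.helper9.CE1697s1X
import Cfsg.Agent.Lib.helper9.CE1697s2X
import Cfsg.Agent.Lib.helper9.CE1697s3X
import Cfsg.Agent.Lib.helper9.CE1697s4X
import Cfsg.Agent.Lib.helper9.CE1697s5X
import Cfsg.Agent.Lib.helper9.CE1697cX
import Cfsg.Agent.Lib.helper9.CE1697pK0
import Cfsg.Agent.Lib.helper9.CE1697pK1
import Cfsg.Agent.Lib.helper9.CE1697pK2

set_option autoImplicit false
open Cfsg

namespace Cfsg.Agent.S1697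

open Cfsg.Agent.Lib.helper9 Cfsg.Agent.Lib.helper9.CE
open Cfsg.Spor
open Cfsg.Spor.Fi23 (Gen)

/-- the relators -/
abbrev R0 : Set (FreeGroup Gen) := CE1689.rels

theorem hS0 : ∀ s ∈ Cfsg.Agent.S1689.S0, ∃ x ∈ ([Gen.a, Gen.b, Gen.c, Gen.d, Gen.e, Gen.f, Gen.g, Gen.h, Gen.i] : List Gen), s = FreeGroup.of x := by
  intro s hs
  rcases hs with rfl | rfl | rfl | rfl | rfl | rfl | rfl | rfl | rfl
  · exact ⟨Gen.a, by decide, rfl⟩
  · exact ⟨Gen.b, by decide, rfl⟩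
  · exact ⟨Gen.c, by decide, rfl⟩
  · exact ⟨Gen.d, by decide, rfl⟩
  · exact ⟨Gen.e, by decide, rfl⟩
  · exact ⟨Gen.f, by decide, rfl⟩
  · exact ⟨Gen.g, by decide, rfl⟩
  · exact ⟨Gen.h, by decide, rfl⟩
  · exact ⟨Gen.i, by decide, rfl⟩

theorem ub5 : Finite (PresentedGroup (relSet CE1697s5.RL)) ∧ Nat.card (PresentedGroup (relSet CE1697s5.RL)) ≤ 1920 :=
  chain_bot (relSet CE1697s5.RL) 1920 (by decide) CE1697s5.index

theorem ub4 : Finite (PresentedGroup (relSet CE1697s4.RL)) ∧ Nat.card (PresentedGroup (relSet CE1697s4.RL)) ≤ 27 * (1920) :=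
  chain_step (relSet CE1697s4.RL) CE1697s4.RL (wordG_relSet CE1697s4.RL) CE1697s4.TL CE1697s5.RL (by decide +kernel) (genSet CE1697s4.TL)
    (genSet_of CE1697s4.TL) 27 (1920) (by decide) CE1697s4.index ub5

theorem ub3 : Finite (PresentedGroup (relSet CE1697s3.RL)) ∧ Nat.card (PresentedGroup (relSet CE1697s3.RL)) ≤ 243 * (27 * (1920)) :=
  chain_step (relSet CE1697s3.RL) CE1697s3.RL (wordG_relSet CE1697s3.RL) CE1697s3.TL CE1697s4.RL (by decide +kernel) (genSet CE1697s3.TL)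
    (genSet_of CE1697s3.TL) 243 (27 * (1920)) (by decide) CE1697s3.index ub4

theorem ub2 : Finite (PresentedGroup (relSet CE1697s2.RL)) ∧ Nat.card (PresentedGroup (relSet CE1697s2.RL)) ≤ 728 * (243 * (27 * (1920))) :=
  chain_step (relSet CE1697s2.RL) CE1697s2.RL (wordG_relSet CE1697s2.RL) CE1697s2.TL CE1697s3.RL (by decide +kernel) (genSet CE1697s2.TL)
    (genSet_of CE1697s2.TL) 728 (243 * (27 * (1920))) (by decide) CE1697s2.index ub3

theorem ub1 : Finite (PresentedGroup (relSet CE1697s1.RL)) ∧ Nat.card (PresentedGroup (relSet CE1697s1.RL)) ≤ 14080 * (728 * (243 * (27 * (1920)))) :=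
  chain_step (relSet CE1697s1.RL) CE1697s1.RL (wordG_relSet CE1697s1.RL) CE1697s1.TL CE1697s2.RL (by decide +kernel) (genSet CE1697s1.TL)
    (genSet_of CE1697s1.TL) 14080 (728 * (243 * (27 * (1920)))) (by decide) CE1697s1.index ub2

theorem ub0 : Finite (PresentedGroup R0) ∧ Nat.card (PresentedGroup R0) ≤ 31671 * (14080 * (728 * (243 * (27 * (1920))))) :=
  chain_step R0 CE1689.RW CE1689.hRW1 ([Gen.a, Gen.b, Gen.c, Gen.d, Gen.e, Gen.f, Gen.g, Gen.h, Gen.i] : List Gen) CE1697s1.RL (by decide +kernel) Cfsg.Agent.S1689.S0 hS0 31671 (14080 * (728 * (243 * (27 * (1920))))) (by decide)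
    Cfsg.Agent.S1689.cert.index ub1

theorem hsz : ∀ c, c < 3 → cntS CE1697p.O.lab c CE1689.D.n = ([1, 28160, 3510] : List Nat).getD c 0 := by
  intro c hc
  interval_cases c
  · rw [← CE1697p.O.pc_eq 0 CE1689.D.n CE1697p.hpcz_0 (fun k hk => allRange_spec CE1697p.hpc_0 k (Nat.zero_le _) hk)]
    exact CE1697p.hpcn_0
  · rw [← CE1697p.O.pc_eq 1 CE1689.D.n CE1697p.hpcz_1 (fun k hk => allRange_spec CE1697p.hpc_1 k (Nat.zero_le _) hk)]
    exact CE1697p.hpcn_1
  · rw [← CE1697p.O.pc_eq 2 CE1689.D.n CE1697p.hpcz_2 (fun k hk => allRange_spec CE1697p.hpc_2 k (Nat.zero_le _) hk)]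
    exact CE1697p.hpcn_2

theorem hRLc : CE1697c.RL = CE1689.RW ++ [CE1697p.Yw] := by decide +kernel

theorem hinvO : ∀ L ∈ CE1689.SW, ∀ i, 0 ≤ i → i < CE1689.D.n → CE1697p.O.lab (CE1689.D.walk L i) = CE1697p.O.lab i :=
  (CE1697p.O.inv_join CE1689.D (CE1697p.O.invsK_spec CE1689.D CE1697p.hinvO_0) (CE1697p.O.inv_join CE1689.D (CE1697p.O.invsK_spec CE1689.D CE1697p.hinvO_1) (CE1697p.O.invsK_spec CE1689.D CE1697p.hinvO_2)))

theorem hrelY : ∀ L ∈ [CE1697p.Yp], ∀ i, 0 ≤ i → i < CE1689.D.n → CE1689.D.walk L i = i :=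
  (CE1689.D.rels_join (CE1689.D.relsK_spec CE1697p.hrelY_0) (CE1689.D.rels_join (CE1689.D.relsK_spec CE1697p.hrelY_1) (CE1689.D.rels_join (CE1689.D.relsK_spec CE1697p.hrelY_2) (CE1689.D.rels_join (CE1689.D.relsK_spec CE1697p.hrelY_3) (CE1689.D.rels_join (CE1689.D.relsK_spec CE1697p.hrelY_4) (CE1689.D.rels_join (CE1689.D.relsK_spec CE1697p.hrelY_5) (CE1689.D.rels_join (CE1689.D.relsK_spec CE1697p.hrelY_6) (CE1689.D.rels_join (CE1689.D.relsK_spec CE1697p.hrelY_7) (CE1689.D.rels_join (CE1689.D.relsK_spec CE1697p.hrelY_8) (CE1689.D.rels_join (CE1689.D.relsK_spec CE1697p.hrelY_9) (CE1689.D.rels_join (CE1689.D.relsK_spec CE1697p.hrelY_10) (CE1689.D.rels_join (CE1689.D.relsK_spec CE1697p.hrelY_11) (CE1689.D.rels_join (CE1689.D.relsK_spec CE1697p.hrelY_12) (CE1689.D.rels_join (CE1689.D.relsK_spec CE1697p.hrelY_13) (CE1689.D.rels_join (CE1689.D.relsK_spec CE1697p.hrelY_14) (CE1689.D.rels_join (CE1689.D.relsK_spec CE1697p.hrelY_15)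 (CE1689.D.rels_join (CE1689.D.relsK_spec CE1697p.hrelY_16) (CE1689.D.rels_join (CE1689.D.relsK_spec CE1697p.hrelY_17) (CE1689.D.rels_join (CE1689.D.relsK_spec CE1697p.hrelY_18) (CE1689.D.relsK_spec CE1697p.hrelY_19))))))))))))))))))))

/-- The presented Fischer group Fi23 is simple of the expected order (that is, it is a simple group of the order of the Fischer group Fi₂₃). -/
theorem result : Cfsg.IsFi23 Cfsg.Spor.Fi23 := by
  show IsSimpleGroup (PresentedGroup R0) ∧ Nat.card (PresentedGroup R0) = 4089470473293004800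
  obtain ⟨ρ, e, he, hρ, he0⟩ := Cfsg.Agent.S1689.cert.main
  have hfinG : Finite (PresentedGroup R0) := ub0.1
  have hub : Nat.card (PresentedGroup R0) ≤ 4089470473293004800 := le_trans ub0.2 (by norm_num)
  have l0 := level_step ρ e he hρ CE1697p.OL0 CE1697p.LW0 [] ⟨0, by decide⟩ 31671
    (fun L hL p hp => fixK_spec CE1689.D CE1697p.hfix0 L hL p.val (List.mem_map_of_mem (f := Fin.val) hp))
    (fun j hj => (allRange_spec CE1697p.horb0_0) j (Nat.zero_le _) hj) CE1697p.hroot0 CE1697p.hpcz0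
    (fun k hk => allRange_spec CE1697p.hpc0 k (Nat.zero_le _) hk) CE1697p.hpcn0
  have l1 := level_step ρ e he hρ CE1697p.OL1 CE1697p.LW1 [⟨0, by decide⟩] ⟨1, by decide⟩ 28160
    (fun L hL p hp => fixK_spec CE1689.D CE1697p.hfix1 L hL p.val (List.mem_map_of_mem (f := Fin.val) hp))
    (fun j hj => (allRange_spec CE1697p.horb1_0) j (Nat.zero_le _) hj) CE1697p.hroot1 CE1697p.hpcz1
    (fun k hk => allRange_spec CE1697p.hpc1 k (Nat.zero_le _) hk) CE1697p.hpcn1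
  have l2 := level_step ρ e he hρ CE1697p.OL2 CE1697p.LW2 [⟨1, by decide⟩, ⟨0, by decide⟩] ⟨224, by decide⟩ 21840
    (fun L hL p hp => fixK_spec CE1689.D CE1697p.hfix2 L hL p.val (List.mem_map_of_mem (f := Fin.val) hp))
    (fun j hj => (allRange_spec CE1697p.horb2_0) j (Nat.zero_le _) hj) CE1697p.hroot2 CE1697p.hpcz2
    (fun k hk => allRange_spec CE1697p.hpc2 k (Nat.zero_le _) hk) CE1697p.hpcn2
  have l3 := level_step ρ e he hρ CE1697p.OL3 CE1697p.LW3 [⟨224, by decide⟩, ⟨1, by decide⟩, ⟨0, by decide⟩] ⟨1640, by decide⟩ 7776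
    (fun L hL p hp => fixK_spec CE1689.D CE1697p.hfix3 L hL p.val (List.mem_map_of_mem (f := Fin.val) hp))
    (fun j hj => (allRange_join (allRange_spec CE1697p.horb3_0) (allRange_spec CE1697p.horb3_1)) j (Nat.zero_le _) hj) CE1697p.hroot3 CE1697p.hpcz3
    (fun k hk => allRange_spec CE1697p.hpc3 k (Nat.zero_le _) hk) CE1697p.hpcn3
  have l4 := level_step ρ e he hρ CE1697p.OL4 CE1697p.LW4 [⟨1640, by decide⟩, ⟨224, by decide⟩, ⟨1, by decide⟩, ⟨0, by decide⟩] ⟨2, by decide⟩ 27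
    (fun L hL p hp => fixK_spec CE1689.D CE1697p.hfix4 L hL p.val (List.mem_map_of_mem (f := Fin.val) hp))
    (fun j hj => (allRange_spec CE1697p.horb4_0) j (Nat.zero_le _) hj) CE1697p.hroot4 CE1697p.hpcz4
    (fun k hk => allRange_spec CE1697p.hpc4 k (Nat.zero_le _) hk) CE1697p.hpcn4
  have hch := (chain_le (chain_le (chain_le (chain_le l0 l1) l2) l3) l4)
  obtain ⟨hinj, hcard⟩ := rho_injective_of_chain ρ e he [⟨2, by decide⟩, ⟨1640, by decide⟩, ⟨224, by decide⟩, ⟨1, by decide⟩, ⟨0, by decide⟩] 4089470473293004800 (by norm_num)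
    ((by norm_num : (31671 * 28160 * 21840 * 7776 * 27 : ℕ) = 4089470473293004800) ▸ hch) hub
  have hdich : ∀ K : Subgroup (PresentedGroup R0), K.Normal → (∀ g ∈ K, ρ g = 1) ∨ CE1689.D.n ∣ Nat.card K :=
    fun K hK => @normal_dichotomy Gen CE1689.D R0 Cfsg.Agent.S1689.S0 CE1689.SW CE1697p.O ρ e (by decide) he hρ he0 Cfsg.Agent.S1689.hS2
      (fun L hL i hi => hinvO L hL i (Nat.zero_le _) hi) (fun j hj => (allRange_spec CE1697p.horbO_0) j (Nat.zero_le _) hj)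
      3 0 [1, 28160, 3510] (fun j hj => OData.labK_spec _ (allRange_spec CE1697p.hlabk j (Nat.zero_le _) hj)) CE1697p.hlab0 CE1697p.hrootO hsz CE1697p.hnum K hK
  have hy : wordG R0 CE1697p.Yw ^ 17 = 1 := by
    rw [← wordG_flatten_replicate, ← CE1697p.hYp]
    exact wordG_eq_one_of_walk ρ hinj hρ _ (fun i hi => hrelY CE1697p.Yp (List.mem_singleton.mpr rfl) i (Nat.zero_le _) hi)
  have htop : ∀ K : Subgroup (PresentedGroup R0), K.Normal → wordG R0 CE1697p.Yw ∈ K → K = ⊤ :=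
    fun K hK hyK => @normal_eq_top_of_collapse Gen R0 (relSet CE1697c.RL) (FreeGroup.mk CE1697p.Yw)
      (hRLc ▸ collapse_sub R0 CE1689.RW CE1697p.Yw CE1689.hRW1) (subsingleton_of_index_one _ CE1697c.index) K hK hyK
  exact simple_of_data ρ 4089470473293004800 17 (wordG R0 CE1697p.Yw) hfinG hcard (by norm_num) hinj hdich (by decide)
    (by decide +kernel) hy htop

end Cfsg.Agent.S1697
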