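import Cfsg.Statements.S1688
import Cfsg.Agent.S1696
import Cfsg.Agent.S1697
import Cfsg.Agent.Lib.helper9.CosetCover

set_option autoImplicit false
open Cfsg

namespace Cfsg.Agent.S1688

open Cfsg.Agent.Lib.helper9 Cfsg.Agent.Lib.helper9.CE
open Cfsg.Spor

/-- the generators of Fi23 sent to those of Fi22 (`j` is sent to `1`) -/
def sig : Fi23.Gen → Option Fi22.Gen
  | .a => some .a
  | .b => some .b
  | .c => some .c
  | .d => some .d
  | .e => some .e
  | .f => some .f
  | .g => some .g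
  | .h => some .h
  | .i => some .i
  | .j => none

/-- the relators of Fi23 -/
abbrev R23 : Set (FreeGroup Fi23.Gen) := CE1689.rels
/-- the relators of Fi22 -/
abbrev R22 : Set (FreeGroup Fi22.Gen) := CE1685.rels
/-- the sub-presentation on the generators a, …, i -/
abbrev Q : Type := PresentedGroup (relSet CE1697s1.RL)
/-- the generators a, …, i -/
abbrev TL : List Fi23.Gen := [.a, .b, .c, .d, .e, .f, .g, .h, .i]

theorem hS' : ∀ x ∈ TL, FreeGroup.of x ∈ Cfsg.Agent.S1689.S0 := by
  intro x hx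
  simp only [TL, List.mem_cons, List.mem_nil_iff, or_false] at hx
  rcases hx with rfl | rfl | rfl | rfl | rfl | rfl | rfl | rfl | rfl
  · exact Or.inl rfl
  · exact Or.inr (Or.inl rfl)
  · exact Or.inr (Or.inr (Or.inl rfl))
  · exact Or.inr (Or.inr (Or.inr (Or.inl rfl)))
  · exact Or.inr (Or.inr (Or.inr (Or.inr (Or.inl rfl))))
  · exact Or.inr (Or.inr (Or.inr (Or.inr (Or.inr (Or.inl rfl)))))
  · exact Or.inr (Or.inr (Or.inr (Or.inr (Or.inr (Or.inr (Or.inl rfl))))))
  · exact Or.inr (Or.inr (Or.inr (Or.inr (Or.inr (Or.inr (Or.inr (Or.inl rfl)))))))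
  · exact Or.inr (Or.inr (Or.inr (Or.inr (Or.inr (Or.inr (Or.inr (Or.inr (rfl))))))))

theorem hkill : ∀ r ∈ relSet CE1697s1.RL, FreeGroup.lift (restrictGen R23 TL) r = 1 :=
  restrict_kills R23 CE1689.RW CE1689.hRW1 TL CE1697s1.RL (by decide +kernel)

theorem hmap : ∀ r ∈ relSet CE1697s1.RL, FreeGroup.lift (genMap R22 sig) r = 1 :=
  genMap_kills R22 CE1685.RW CE1685.hRW1 sig CE1697s1.RL (by decide +kernel)

/-- the word a b c d e f h -/
def Y7 : Word Fi23.Gen := [(.a, true), (.b, true), (.c, true), (.d, true), (.e, true), (.f, true), (.h, true)]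

theorem hE7 : (PresentedGroup.of Fi23.Gen.a * PresentedGroup.of Fi23.Gen.b * PresentedGroup.of Fi23.Gen.c *
    PresentedGroup.of Fi23.Gen.d * PresentedGroup.of Fi23.Gen.e * PresentedGroup.of Fi23.Gen.f *
    PresentedGroup.of Fi23.Gen.h : Q) ^ 9 = 1 := by
  have h1 := wordG_relSet CE1697s1.RL (List.replicate 9 Y7).flatten (by decide +kernel)
  rw [wordG_flatten_replicate] at h1
  exact h1

theorem hj : (PresentedGroup.of Fi23.Gen.j : Q) = 1 :=
  wordG_relSet CE1697s1.RL [(Fi23.Gen.j, true)] (by decide +kernel)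

/-- In the presented Fischer group Fi₂₃, the subgroup generated by the images of a, …, i is a non-split double cover of the presented Fischer group Fi₂₂. -/
theorem result : Cfsg.IsNonsplitDoubleCover (((Subgroup.closure ({Cfsg.Spor.Fi23.a, Cfsg.Spor.Fi23.b, Cfsg.Spor.Fi23.c, Cfsg.Spor.Fi23.d, Cfsg.Spor.Fi23.e, Cfsg.Spor.Fi23.f, Cfsg.Spor.Fi23.g, Cfsg.Spor.Fi23.h, Cfsg.Spor.Fi23.i} : Set (FreeGroup Cfsg.Spor.Fi23.Gen))).map (PresentedGroup.mk (Cfsg.Spor.coxRelators Cfsg.Spor.Fi23.edges ∪ {r | r ∈ Cfsg.Spor.Fi23.extra})))) Cfsg.Spor.Fi22 := by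
  obtain ⟨ψ, hψ⟩ := sub_surj R23 (relSet CE1697s1.RL) TL Cfsg.Agent.S1689.S0 Cfsg.Agent.S1697.hS0 hS' hkill
  haveI : Finite Q := Cfsg.Agent.S1697.ub1.1
  let φ : Q →* Fi22 := PresentedGroup.toGroup hmap
  have hφgen : ∀ x, φ (PresentedGroup.of x) = genMap R22 sig x := fun x =>
    PresentedGroup.toGroup.of hmap
  have hφ : Function.Surjective φ := by
    have : φ.range = ⊤ := by
      rw [eq_top_iff, ← PresentedGroup.closure_range_of, Subgroup.closure_le]
      rintro _ ⟨y, rfl⟩
      cases y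
      · exact ⟨PresentedGroup.of Fi23.Gen.a, hφgen _⟩
      · exact ⟨PresentedGroup.of Fi23.Gen.b, hφgen _⟩
      · exact ⟨PresentedGroup.of Fi23.Gen.c, hφgen _⟩
      · exact ⟨PresentedGroup.of Fi23.Gen.d, hφgen _⟩
      · exact ⟨PresentedGroup.of Fi23.Gen.e, hφgen _⟩
      · exact ⟨PresentedGroup.of Fi23.Gen.f, hφgen _⟩
      · exact ⟨PresentedGroup.of Fi23.Gen.g, hφgen _⟩
      · exact ⟨PresentedGroup.of Fi23.Gen.h, hφgen _⟩
      · exact ⟨PresentedGroup.of Fi23.Gen.i, hφgen _⟩
    exact MonoidHom.range_eq_top.mp this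
  have hH : Nat.card (subH R23 Cfsg.Agent.S1689.S0) = 2 * 64561751654400 := by
    have h1 := Subgroup.index_mul_card (subH R23 Cfsg.Agent.S1689.S0)
    have hN : Nat.card (PresentedGroup R23) = 4089470473293004800 := Cfsg.Agent.S1697.result.2
    have hidx : (subH R23 Cfsg.Agent.S1689.S0).index = 31671 := Cfsg.Agent.S1689.cert.index
    rw [hidx, hN] at h1
    omega
  have hQ : Nat.card Q ≤ 2 * 64561751654400 := le_trans Cfsg.Agent.S1697.ub1.2 (by norm_num)
  refine nonsplit_double_cover ψ hψ φ hφ Cfsg.Agent.S1696.result.1 64561751654400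
    Cfsg.Agent.S1696.result.2 (by norm_num) (by norm_num) hH hQ ?_
  intro L _ hL2 q
  let f : Q →* (subH R23 Cfsg.Agent.S1689.S0) ⧸ L := (QuotientGroup.mk' L).comp ψ
  suffices hf : f = 1 by
    have h0 : f q = 1 := by rw [hf]; rfl
    exact h0
  apply PresentedGroup.ext
  have hadj : ∀ x y : Fi23.Gen, pairW x y 3 ∈ CE1697s1.RL →
      f (PresentedGroup.of x) = f (PresentedGroup.of y) := by
    intro x y h
    apply adj_of_card_two hL2
    rw [← map_mul, ← map_pow, pair_rel _ x y 3 h, map_one]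
  have hab := hadj .a .b (by decide +kernel)
  have hbc := hadj .b .c (by decide +kernel)
  have hcd := hadj .c .d (by decide +kernel)
  have hde := hadj .d .e (by decide +kernel)
  have hef := hadj .e .f (by decide +kernel)
  have hfg := hadj .f .g (by decide +kernel)
  have hdh := hadj .d .h (by decide +kernel)
  have hhi := hadj .h .i (by decide +kernel)
  have hb := hab.symm
  have hc := hbc.symm.trans hb
  have hd := hcd.symm.trans hc
  have he := hde.symm.trans hd
  have hf' := hef.symm.trans he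
  have hg := hfg.symm.trans hf'
  have hh := hdh.symm.trans hd
  have hi := hhi.symm.trans hh
  have h1 := congrArg f hE7
  simp only [map_pow, map_mul, map_one, hb, hc, hd, he, hf', hh] at h1
  have h63 : f (PresentedGroup.of Fi23.Gen.a) ^ 63 = 1 := by
    rw [← h1]
    generalize f (PresentedGroup.of Fi23.Gen.a) = x
    have h7 : x * x * x * x * x * x * x = x ^ 7 := by simp [pow_succ]
    rw [h7, ← pow_mul]
  have ha : f (PresentedGroup.of Fi23.Gen.a) = 1 := eq_one_of_card_two_pow hL2 _ 63 (by norm_num) h63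
  intro x
  show f (PresentedGroup.of x) = 1
  cases x
  · exact ha
  · exact hb.trans ha
  · exact hc.trans ha
  · exact hd.trans ha
  · exact he.trans ha
  · exact hf'.trans ha
  · exact hg.trans ha
  · rw [hj, map_one]
  · exact hh.trans ha
  · exact hi.trans ha

end Cfsg.Agent.S1688
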