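import Cfsg.Statements.S0472
import Cfsg.Agent.S1688
import Cfsg.Agent.S1696
import Cfsg.Agent.S1697
import Cfsg.Agent.Lib.helper9.CE0472D

set_option autoImplicit false
open Cfsg

namespace Cfsg.Agent.S0472

open Cfsg.Agent.Lib.helper9 Cfsg.Agent.Lib.helper9.CE Cfsg.Agent.Lib.helper9.TT
open Cfsg.Spor
open Cfsg.Spor.Fi23 (Gen)

/-- the relators -/
abbrev R0 : Set (FreeGroup Gen) := CE1689.rels

/-- the base of the stabilizer chain -/
abbrev bl : List (Fin CE1689.D.n) :=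
  [⟨2, by decide⟩, ⟨1640, by decide⟩, ⟨224, by decide⟩, ⟨1, by decide⟩, ⟨0, by decide⟩]

theorem hfx {Ls : List (Word Gen)} (h : fixK CE1689.D Ls [2, 1640, 224, 1, 0] = true) :
    ∀ L ∈ Ls, ∀ p ∈ bl, CE1689.D.walk L p.val = p.val :=
  fun L hL p hp => fixK_spec CE1689.D h L hL p.val (List.mem_map_of_mem (f := Fin.val) hp)

theorem hTW : ∀ c, c < 3 → c ≠ 0 → ∃ L ∈ CE0472.TW, CE1689.D.walk L 0 = CE1697p.O.root c := by
  intro c hc hc0
  interval_cases c
  · exact absurd rfl hc0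
  · exact ⟨CE0472.T1, by simp [CE0472.TW], toK_spec CE0472.hTWK1⟩
  · exact ⟨CE0472.T2, by simp [CE0472.TW], toK_spec CE0472.hTWK2⟩

theorem hT1 : ∀ L ∈ CE0472.TW, ∃ p, p < CE1689.D.n ∧
    CE1689.D.walk (L ++ CE0472.Wd) p ≠ CE1689.D.walk (CE0472.Wd ++ L) p := by
  intro L hL
  simp only [CE0472.TW, List.mem_cons, List.mem_nil_iff, or_false] at hL
  rcases hL with rfl | rfl
  · exact ⟨0, by decide, neK_spec CE0472.hT1K1⟩
  · exact ⟨1, by decide, neK_spec CE0472.hT1K2⟩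

theorem hT2 : ∀ L ∈ CE0472.TW,
    (∀ p ∈ bl, CE1689.D.walk (List.replicate 2 (CE0472.Wd ++ L ++ CE0472.Wd ++ FreeGroup.invRev L)).flatten p.val = p.val) ∨
    (∀ p ∈ bl, CE1689.D.walk (List.replicate 3 (CE0472.Wd ++ L ++ CE0472.Wd ++ FreeGroup.invRev L)).flatten p.val = p.val) := by
  intro L hL
  simp only [CE0472.TW, List.mem_cons, List.mem_nil_iff, or_false] at hL
  rcases hL with rfl | rfl
  · right
    exact fun p hp => hfx CE0472.hT2K1 _ (List.mem_singleton.mpr rfl) p hp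
  · left
    exact fun p hp => hfx CE0472.hT2K2 _ (List.mem_singleton.mpr rfl) p hp

/-- The Fischer group of order 4089470473293004800 exists as a 3-transposition group: a simple group of that order generated by a conjugacy class of 31671 3-transpositions, the centraliser of each being a non-split double cover of a simple group of order 64561751654400. -/
theorem result : ∃ (G : Type) (_ : Group G) (_ : Finite G), Cfsg.IsFi23 G ∧ ∃ D : Set G, Cfsg.IsThreeTranspositionClass D ∧ Nat.card D = 31671 ∧ ∀ d ∈ D, ∃ (K : Type) (_ : Group K), Cfsg.IsFi22 K ∧ Cfsg.IsNonsplitDoubleCover (Subgroup.centralizer ({d} : Set G)) K := by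
  obtain ⟨ρ, e, he, hρ, he0⟩ := Cfsg.Agent.S1689.cert.main
  have hfinG : Finite (PresentedGroup R0) := Cfsg.Agent.S1697.ub0.1
  have hub : Nat.card (PresentedGroup R0) ≤ 4089470473293004800 := le_trans Cfsg.Agent.S1697.ub0.2 (by norm_num)
  have l0 := level_step ρ e he hρ CE1697p.OL0 CE1697p.LW0 [] ⟨0, by decide⟩ 31671
    (fun L hL p hp => fixK_spec CE1689.D CE1697p.hfix0 L hL p.val (List.mem_map_of_mem (f := Fin.val) hp))
    (fun j hj => (allRange_spec CE1697p.horb0_0) j (Nat.zero_le _) hj) CE1697p.hroot0 CE1697p.hpcz0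
    (fun k hk => allRange_spec CE1697p.hpc0 k (Nat.zero_le _) hk) CE1697p.hpcn0
  have l1 := level_step ρ e he hρ CE1697p.OL1 CE1697p.LW1 [⟨0, by decide⟩] ⟨1, by decide⟩ 28160
    (fun L hL p hp => fixK_spec CE1689.D CE1697p.hfix1 L hL p.val (List.mem_map_of_mem (f := Fin.val) hp))
    (fun j hj => (allRange_spec CE1697p.horb1_0) j (Nat.zero_le _) hj) CE1697p.hroot1 CE1697p.hpcz1
    (fun k hk => allRange_spec CE1697p.hpc1 k (Nat.zero_le _) hk) CE1697p.hpcn1
  have l2 := level_step ρ e he hρ CE1697p.OL2 CE1697p.LW2 [⟨1, by decide⟩, ⟨0, by decide⟩] ⟨224, by decide⟩ 21840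
    (fun L hL p hp => fixK_spec CE1689.D CE1697p.hfix2 L hL p.val (List.mem_map_of_mem (f := Fin.val) hp))
    (fun j hj => (allRange_spec CE1697p.horb2_0) j (Nat.zero_le _) hj) CE1697p.hroot2 CE1697p.hpcz2
    (fun k hk => allRange_spec CE1697p.hpc2 k (Nat.zero_le _) hk) CE1697p.hpcn2
  have l3 := level_step ρ e he hρ CE1697p.OL3 CE1697p.LW3 [⟨224, by decide⟩, ⟨1, by decide⟩, ⟨0, by decide⟩] ⟨1640, by decide⟩ 7776
    (fun L hL p hp => fixK_spec CE1689.D CE1697p.hfix3 L hL p.val (List.mem_map_of_mem (f := Fin.val) hp))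
    (fun j hj => (allRange_join (allRange_spec CE1697p.horb3_0) (allRange_spec CE1697p.horb3_1)) j (Nat.zero_le _) hj) CE1697p.hroot3 CE1697p.hpcz3
    (fun k hk => allRange_spec CE1697p.hpc3 k (Nat.zero_le _) hk) CE1697p.hpcn3
  have l4 := level_step ρ e he hρ CE1697p.OL4 CE1697p.LW4 [⟨1640, by decide⟩, ⟨224, by decide⟩, ⟨1, by decide⟩, ⟨0, by decide⟩] ⟨2, by decide⟩ 27
    (fun L hL p hp => fixK_spec CE1689.D CE1697p.hfix4 L hL p.val (List.mem_map_of_mem (f := Fin.val) hp))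
    (fun j hj => (allRange_spec CE1697p.horb4_0) j (Nat.zero_le _) hj) CE1697p.hroot4 CE1697p.hpcz4
    (fun k hk => allRange_spec CE1697p.hpc4 k (Nat.zero_le _) hk) CE1697p.hpcn4
  have hch := (chain_le (chain_le (chain_le (chain_le l0 l1) l2) l3) l4)
  have hbot := pstab_eq_bot_of_chain e bl 4089470473293004800 (by norm_num)
    ((by norm_num : (31671 * 28160 * 21840 * 7776 * 27 : ℕ) = 4089470473293004800) ▸ hch) hub
  obtain ⟨h1, h2, h3⟩ := three_transposition_of_data CE1697p.O ρ e (by decide) he hρ he0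
    Cfsg.Agent.S1689.cert.hS1 Cfsg.Agent.S1689.hS2
    (fun L hL i hi => Cfsg.Agent.S1697.hinvO L hL i (Nat.zero_le _) hi)
    (fun j hj => (allRange_spec CE1697p.horbO_0) j (Nat.zero_le _) hj)
    3 0 (fun j hj => OData.labK_spec _ (allRange_spec CE1697p.hlabk j (Nat.zero_le _) hj)) CE1697p.hrootO
    bl hbot CE0472.Wd CE0472.TW CE0472.gw hTW
    (fun p hp => hfx CE0472.hd2K _ (List.mem_singleton.mpr rfl) p hp)
    (fun L hL p hp => hfx CE0472.hcommK _ (List.mem_map_of_mem hL) p hp)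
    ⟨1, by decide, neK_spec CE0472.hd1K⟩ hT1 hT2
    (fun x p hp => hfx CE0472.hgwK _ (List.mem_map_of_mem (CE0472.hallG x)) p hp)
  refine ⟨PresentedGroup R0, inferInstance, hfinG, Cfsg.Agent.S1697.result,
    conjugatesOf (wordG R0 CE0472.Wd), h1, ?_, ?_⟩
  · rw [h2]
    exact Cfsg.Agent.S1689.cert.index
  · intro d hd
    obtain ⟨φ⟩ := h3 d hd
    exact ⟨Cfsg.Spor.Fi22, inferInstance, Cfsg.Agent.S1696.result,
      nsdc_of_mulEquiv φ.symm Cfsg.Agent.S1688.result⟩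

end Cfsg.Agent.S0472
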