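import Cfsg.Statements.S0495
import Mathlib
import Cfsg.Agent.Lib.helper3.Uniq168
import Cfsg.Agent.Lib.helper2.PSL27

set_option linter.style.haveILetI false

set_option autoImplicit false
open Cfsg

namespace Cfsg.Agent.S0495

/-- A simple group of order 168 is isomorphic to the projective special linear group of dimension 2 over the field with
7 elements. -/
theorem result {G : Type*} [Group G] [Finite G] [IsSimpleGroup G]
    (h : Nat.card G = 168) {F : Type*} [Field F] [Fintype F] (hF : Fintype.card F = 7) :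
    Nonempty (G ≃* Matrix.ProjectiveSpecialLinearGroup (Fin 2) F) := by
  have hcard := Cfsg.Agent.Lib.helper2.PSL27.card_PSL27
  haveI hfin : Finite (Matrix.ProjectiveSpecialLinearGroup (Fin 2) (ZMod 7)) :=
    Nat.finite_of_card_ne_zero (by rw [hcard]; norm_num)
  haveI hs : IsSimpleGroup (Matrix.ProjectiveSpecialLinearGroup (Fin 2) (ZMod 7)) :=
    Matrix.ProjectiveSpecialLinearGroup.rank_two_simple
      (by rw [Nat.card_eq_fintype_card, ZMod.card]; norm_num)
  obtain ⟨e1⟩ := Cfsg.Agent.Lib.helper3.U168.iso_K3 h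
  obtain ⟨e2⟩ := Cfsg.Agent.Lib.helper3.U168.iso_K3 hcard
  have eF : ZMod 7 ≃+* F := ZMod.ringEquivOfPrime F (by norm_num) hF
  exact ⟨(e1.trans e2.symm).trans (Cfsg.Agent.Lib.helper2.Transport.pslCongr eF)⟩

end Cfsg.Agent.S0495
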