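import Cfsg.Statements.S0497
import Mathlib
import Cfsg.Agent.Lib.helper3.A6c

set_option linter.style.haveILetI false

set_option autoImplicit false
open Cfsg

namespace Cfsg.Agent.S0497

/-- A simple group of order 360 is isomorphic to the alternating group of degree 6. -/
theorem result {G : Type*} [Group G] [Finite G] [IsSimpleGroup G]
    (h : Nat.card G = 360) : Nonempty (G ≃* alternatingGroup (Fin 6)) := by
  obtain ⟨e1⟩ := Cfsg.Agent.Lib.helper3.A6.main360 h
  haveI : IsSimpleGroup ↥(alternatingGroup (Fin 6)) := alternatingGroup.isSimpleGroup (by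
    rw [Nat.card_eq_fintype_card, Fintype.card_fin]; norm_num)
  have hA : Nat.card ↥(alternatingGroup (Fin 6)) = 360 := by
    rw [nat_card_alternatingGroup, Nat.card_eq_fintype_card, Fintype.card_fin]
    decide
  obtain ⟨e2⟩ := Cfsg.Agent.Lib.helper3.A6.main360 hA
  exact ⟨e1.trans e2.symm⟩

end Cfsg.Agent.S0497
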