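import Cfsg.Statements.S0657
-- import your own Cfsg.Agent.* helpers here
import Cfsg.Agent.Lib.helper15.QdSL

set_option autoImplicit false
open Cfsg

namespace Cfsg.Agent.S0657

/-- For odd p, a group that fails to be p-stable modulo its largest normal subgroup of order prime to p, and whose upper p-series does not stop there, has a section isomorphic to SL(2, p). -/
theorem result {G : Type*} [Group G] [Finite G] {p : ℕ} [Fact p.Prime] (hp : p ≠ 2) (hO : Cfsg.pPrimeCore p G < Cfsg.pPrimePCore p G) (hns : ¬ Cfsg.IsPStable p (G ⧸ Cfsg.pPrimeCore p G)) : ∃ (K L : Subgroup G) (hL : (L.subgroupOf K).Normal), K ≤ ⊤ ∧ Nonempty ((K ⧸ L.subgroupOf K) ≃* Matrix.SpecialLinearGroup (Fin 2) (ZMod p)) := by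
  classical
  have hp' : p.Prime := Fact.out
  have hnst : ¬ Cfsg.IsNormalizerPStable p (G ⧸ Cfsg.pPrimeCore p G) := by
    intro hst
    apply hns
    refine ⟨hp'.odd_of_ne_two hp, ?_, ?_⟩
    · intro hbot
      have h1 : Cfsg.pPrimePCore p G = Cfsg.pPrimeCore p G := by
        unfold Cfsg.pPrimePCore
        rw [hbot, MonoidHom.comap_bot, QuotientGroup.ker_mk']
      exact (ne_of_lt hO) h1.symm
    · intro A P hA hP hAP hPle hPn hquad
      rintro _ ⟨a, ha, rfl⟩
      have haA : (a : G ⧸ Cfsg.pPrimeCore p G) ∈ A := Subgroup.mem_subgroupOf.mp ha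
      have hq : ⁅⁅P, Subgroup.zpowers (a : G ⧸ Cfsg.pPrimeCore p G)⁆,
          Subgroup.zpowers (a : G ⧸ Cfsg.pPrimeCore p G)⁆ = ⊥ := by
        rw [eq_bot_iff, ← hquad]
        exact Subgroup.commutator_mono
          (Subgroup.commutator_mono le_rfl (Subgroup.zpowers_le.mpr haA))
          (Subgroup.zpowers_le.mpr haA)
      exact hst P hP (a : G ⧸ Cfsg.pPrimeCore p G) a.2 hq
  have h1 := Cfsg.Agent.Lib.helper15.Qd.involves_sl2_of_not_stable hp hnst
  have h2 := Cfsg.Agent.Lib.helper14.involves_of_surjective_hom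
    (QuotientGroup.mk' (Cfsg.pPrimeCore p G)) (QuotientGroup.mk'_surjective _) h1
  obtain ⟨K, L, hL, hne⟩ := h2
  exact ⟨K, L, hL, le_top, hne⟩


end Cfsg.Agent.S0657
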