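import Cfsg.Statements.S0658
-- import your own Cfsg.Agent.* helpers here
import Cfsg.Agent.Lib.helper15.ZJL
import Cfsg.Agent.Lib.lead.Frobenius
import Cfsg.Agent.Lib.helper16.Syl

set_option autoImplicit false
open Cfsg

namespace Cfsg.Agent.S0658

open Cfsg.Agent.Lib.helper15

theorem mem_map_conj {G : Type*} [Group G] (Q : Subgroup G) (m x : G) :
    x ∈ Q.map (MulAut.conj m).toMonoidHom ↔ m⁻¹ * x * m ∈ Q := by
  constructor
  · rintro ⟨q, hq, rfl⟩
    have e : m⁻¹ * ((MulAut.conj m).toMonoidHom q) * m = q := by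
      show m⁻¹ * (m * q * m⁻¹) * m = q
      group
    rw [e]; exact hq
  · intro h
    exact ⟨m⁻¹ * x * m, h, by show m * (m⁻¹ * x * m) * m⁻¹ = x; group⟩

theorem conj_mem_normalizer_map {G : Type*} [Group G] {Q : Subgroup G} {t : G} (m : G)
    (ht : t ∈ Subgroup.normalizer (Q : Set G)) :
    m * t * m⁻¹ ∈ Subgroup.normalizer ((Q.map (MulAut.conj m).toMonoidHom : Subgroup G) : Set G) := by
  rw [Subgroup.mem_normalizer_iff]
  intro x
  rw [mem_map_conj, mem_map_conj]
  have e : m⁻¹ * (m * t * m⁻¹ * x * (m * t * m⁻¹)⁻¹) * m = t * (m⁻¹ * x * m) * t⁻¹ := by group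
  rw [e]
  exact Subgroup.mem_normalizer_iff.mp ht _

/-- In a group of characteristic p type all of whose p-locals are p-stable (p odd), the normalizer of Z(J(P)) contains the normalizer of every nontrivial subgroup of the Sylow p-subgroup P. -/
theorem result {G : Type*} [Group G] [Finite G] {p : ℕ} [Fact p.Prime] (hp : p ≠ 2) (hloc : ∀ Q : Subgroup G, IsPGroup p Q → Q ≠ ⊥ → Cfsg.pPrimeCore p ↥(Subgroup.normalizer (Q : Set G)) = ⊥ ∧ Cfsg.IsPConstrained p ↥(Subgroup.normalizer (Q : Set G)) ∧ Cfsg.IsPStable p ↥(Subgroup.normalizer (Q : Set G))) (P : Sylow p G) (Q : Subgroup G) (hQP : Q ≤ (P : Subgroup G)) (hQ1 : Q ≠ ⊥) : Subgroup.normalizer (Q : Set G) ≤ Subgroup.normalizer (Cfsg.centerThompsonAOf ((P : Subgroup G)) : Set G) := by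
  classical
  have hPp : IsPGroup p (P : Subgroup G) := P.isPGroup'
  have hZN : ∀ R : Subgroup G, Subgroup.normalizer (R : Set G) ≤
      Subgroup.normalizer (Cfsg.centerThompsonAOf R : Set G) :=
    normalizer_le_normalizer_centerThompsonAOf
  have hPM : (P : Subgroup G) ≤ Subgroup.normalizer (Cfsg.centerThompsonAOf (P : Subgroup G) : Set G) :=
    Subgroup.le_normalizer.trans (hZN _)
  have key : ∀ n : ℕ, ∀ Q : Subgroup G, Q ≤ (P : Subgroup G) → Q ≠ ⊥ →
      Nat.card (P : Subgroup G) - Nat.card ↥((P : Subgroup G) ⊓ Subgroup.normalizer (Q : Set G)) = n →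
      Subgroup.normalizer (Q : Set G) ≤
        Subgroup.normalizer (Cfsg.centerThompsonAOf (P : Subgroup G) : Set G) := by
    intro n
    induction n using Nat.strong_induction_on with
    | _ n ih =>
    intro Q hQP hQ1 hn
    have hQp : IsPGroup p Q := hPp.to_le hQP
    obtain ⟨hcore, hpc, hs⟩ := hloc Q hQp hQ1
    have hQR : Q ≤ (P : Subgroup G) ⊓ Subgroup.normalizer (Q : Set G) := le_inf hQP Subgroup.le_normalizer
    have hRP : (P : Subgroup G) ⊓ Subgroup.normalizer (Q : Set G) ≤ (P : Subgroup G) := inf_le_left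
    have hRp : IsPGroup p ↥((P : Subgroup G) ⊓ Subgroup.normalizer (Q : Set G)) := hPp.to_le hRP
    have hR1 : (P : Subgroup G) ⊓ Subgroup.normalizer (Q : Set G) ≠ ⊥ := by
      intro h
      apply hQ1
      rw [h] at hQR
      exact le_bot_iff.mp hQR
    by_cases hRP' : (P : Subgroup G) ⊓ Subgroup.normalizer (Q : Set G) = (P : Subgroup G)
    · have hPH : (P : Subgroup G) ≤ Subgroup.normalizer (Q : Set G) := by
        rw [← hRP']; exact inf_le_right
      exact local_zj_sub hp _ hcore hpc hs _ (isMaxPSub_sylow P hPH)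
    · have hRlt : (P : Subgroup G) ⊓ Subgroup.normalizer (Q : Set G) < (P : Subgroup G) :=
        lt_of_le_of_ne hRP hRP'
      have hgrow := Cfsg.Agent.Lib.lead.normalizer_grows (P : Subgroup G) _ hPp hRlt
      have ih' : ∀ Q' : Subgroup G, Q' ≤ (P : Subgroup G) → Q' ≠ ⊥ →
          Nat.card ↥((P : Subgroup G) ⊓ Subgroup.normalizer (Q : Set G)) <
            Nat.card ↥((P : Subgroup G) ⊓ Subgroup.normalizer (Q' : Set G)) →
          Subgroup.normalizer (Q' : Set G) ≤
            Subgroup.normalizer (Cfsg.centerThompsonAOf (P : Subgroup G) : Set G) := by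
        intro Q' h1 h2 h3
        refine ih (Nat.card (P : Subgroup G) -
          Nat.card ↥((P : Subgroup G) ⊓ Subgroup.normalizer (Q' : Set G))) ?_ Q' h1 h2 rfl
        rw [← hn]
        have h4 : Nat.card ↥((P : Subgroup G) ⊓ Subgroup.normalizer (Q' : Set G)) ≤
            Nat.card (P : Subgroup G) := Subgroup.card_le_of_le inf_le_left
        omega
      have hNR : Subgroup.normalizer (((P : Subgroup G) ⊓ Subgroup.normalizer (Q : Set G) :
          Subgroup G) : Set G) ≤
          Subgroup.normalizer (Cfsg.centerThompsonAOf (P : Subgroup G) : Set G) :=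
        ih' _ hRP hR1 (lt_card_of_lt hgrow)
      by_cases hmax : IsMaxPSub p ((P : Subgroup G) ⊓ Subgroup.normalizer (Q : Set G))
          (Subgroup.normalizer (Cfsg.centerThompsonAOf (P : Subgroup G) : Set G) ⊓
            Subgroup.normalizer (Q : Set G))
      · have hmaxH : IsMaxPSub p ((P : Subgroup G) ⊓ Subgroup.normalizer (Q : Set G))
            (Subgroup.normalizer (Q : Set G)) := by
          refine ⟨hRp, inf_le_right, ?_⟩
          intro T hT hRT hTH
          by_contra hne
          have hlt : (P : Subgroup G) ⊓ Subgroup.normalizer (Q : Set G) < T :=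
            lt_of_le_of_ne hRT (Ne.symm hne)
          have hg := Cfsg.Agent.Lib.lead.normalizer_grows T _ hT hlt
          have h6 : T ⊓ Subgroup.normalizer (((P : Subgroup G) ⊓ Subgroup.normalizer (Q : Set G) :
              Subgroup G) : Set G) ≤
              Subgroup.normalizer (Cfsg.centerThompsonAOf (P : Subgroup G) : Set G) ⊓
                Subgroup.normalizer (Q : Set G) :=
            le_inf (inf_le_right.trans hNR) (inf_le_left.trans hTH)
          have h7 := hmax.2.2 _ (hT.to_le inf_le_left) hg.le h6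
          exact hg.ne h7.symm
        have h8 := local_zj_sub hp _ hcore hpc hs _ hmaxH
        have h9 : Subgroup.normalizer (Cfsg.centerThompsonAOf
            ((P : Subgroup G) ⊓ Subgroup.normalizer (Q : Set G)) : Set G) ≤
            Subgroup.normalizer (Cfsg.centerThompsonAOf (P : Subgroup G) : Set G) := by
          apply ih' _ ((centerThompsonAOf_le _).trans hRP) (centerThompsonAOf_ne_bot _ hRp hR1)
          exact lt_of_lt_of_le (lt_card_of_lt hgrow)
            (Subgroup.card_le_of_le (inf_le_inf_left _ (hZN _)))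
        exact h8.trans h9
      · unfold IsMaxPSub at hmax
        push Not at hmax
        obtain ⟨T, hT, hRT, hTM, hTne⟩ := hmax hRp (le_inf (hRP.trans hPM) inf_le_right)
        have hlt : (P : Subgroup G) ⊓ Subgroup.normalizer (Q : Set G) < T :=
          lt_of_le_of_ne hRT (Ne.symm hTne)
        obtain ⟨m, hm, hmT⟩ := Cfsg.Agent.Lib.helper16.exists_conj_mem_sylow
          (Subgroup.normalizer (Cfsg.centerThompsonAOf (P : Subgroup G) : Set G)) P hPM T
          (hTM.trans inf_le_left) hT
        have hQ₁P : Q.map (MulAut.conj m).toMonoidHom ≤ (P : Subgroup G) := by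
          rintro _ ⟨q, hq, rfl⟩
          exact hmT q (hRT (hQR hq))
        have hQ₁1 : Q.map (MulAut.conj m).toMonoidHom ≠ ⊥ := by
          intro h
          apply hQ1
          exact (Subgroup.map_eq_bot_iff_of_injective _ (MulAut.conj m).injective).mp h
        have hTle : T.map (MulAut.conj m).toMonoidHom ≤ (P : Subgroup G) ⊓
            Subgroup.normalizer ((Q.map (MulAut.conj m).toMonoidHom : Subgroup G) : Set G) := by
          rintro _ ⟨t, ht, rfl⟩
          exact ⟨hmT t ht, conj_mem_normalizer_map m (hTM ht).2⟩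
        have hcT : Nat.card ↥(T.map (MulAut.conj m).toMonoidHom) = Nat.card ↥T :=
          Subgroup.card_map_of_injective (MulAut.conj m).injective
        have h10 := ih' _ hQ₁P hQ₁1 (lt_of_lt_of_le (lt_card_of_lt hlt) (by
          rw [← hcT]
          exact Subgroup.card_le_of_le hTle))
        intro h hh
        have h12 := h10 (conj_mem_normalizer_map m hh)
        have h13 := Subgroup.mul_mem _ (Subgroup.mul_mem _ (Subgroup.inv_mem _ hm) h12) hm
        have e : m⁻¹ * (m * h * m⁻¹) * m = h := by group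
        rwa [e] at h13
  exact key _ Q hQP hQ1 rfl


end Cfsg.Agent.S0658
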