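import Cfsg.Statements.S0667
-- import your own Cfsg.Agent.* helpers here
import Cfsg.Agent.Lib.helper15.ZJL

set_option autoImplicit false
open Cfsg

namespace Cfsg.Agent.S0667

open Cfsg.Agent.Lib.helper15 Cfsg.Agent.Lib.helper8
open scoped commutatorElement

/-- Glauberman's Theorem in the p-constrained, p-stable vocabulary: for odd p such a group is the product of its largest normal subgroup of order prime to p with the normalizer of Z(J(P)), and Z(J(P)) is normal when that p'-subgroup is trivial. -/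
theorem result {G : Type*} [Group G] [Finite G] {p : ℕ} [Fact p.Prime] (hp : p ≠ 2) (hc : Cfsg.IsPConstrained p G) (hs : Cfsg.IsPStable p G) (P : Sylow p G) : Cfsg.pPrimeCore p G ⊔ Subgroup.normalizer (Cfsg.centerThompsonAOf ((P : Subgroup G)) : Set G) = ⊤ ∧ (Cfsg.pPrimeCore p G = ⊥ → (Cfsg.centerThompsonAOf ((P : Subgroup G))).Normal) := by
  classical
  refine ⟨?_, fun hcore => local_zj hp hcore hc hs P⟩
  haveI hEn : (Cfsg.pPrimeCore p G).Normal := Cfsg.Agent.Lib.helper9.ppc_normal p G
  haveI hLn : (Cfsg.pPrimePCore p G).Normal := Cfsg.Agent.Lib.helper16.pPrimePCore_normal p G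
  obtain ⟨n, hn⟩ : ∃ n : ℕ, (Cfsg.pPrimeCore p G).relIndex (Cfsg.pPrimePCore p G) = p ^ n := by
    have := relIndex_ker_comap_pCore (p := p) (QuotientGroup.mk' (Cfsg.pPrimeCore p G))
    rw [QuotientGroup.ker_mk'] at this
    exact this
  have hdec := zstab_decomp P (Cfsg.pPrimeCore p G) (Cfsg.pPrimePCore p G) n hn
  obtain ⟨SL, hSL⟩ := (frattini_inf P (Cfsg.pPrimePCore p G)).2
  obtain ⟨Q, hQdef⟩ : ∃ Q : Subgroup G, Q = (P : Subgroup G) ⊓ Cfsg.pPrimePCore p G := ⟨_, rfl⟩
  rw [← hQdef] at hdec hSL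
  have hQP : Q ≤ (P : Subgroup G) := by rw [hQdef]; exact inf_le_left
  have hQL : Q ≤ Cfsg.pPrimePCore p G := by rw [hQdef]; exact inf_le_right
  have hPH : (P : Subgroup G) ≤ Subgroup.normalizer (Q : Set G) := by
    apply le_normalizer_of_conj_mem
    intro g hg x hx
    rw [hQdef] at hx ⊢
    exact ⟨Subgroup.mul_mem _ (Subgroup.mul_mem _ hg hx.1) (Subgroup.inv_mem _ hg),
      hLn.conj_mem x hx.2 g⟩
  have hmemQ : ∀ x : G, x ∈ (P : Subgroup G) → x ∈ Cfsg.pPrimePCore p G → x ∈ Q := by
    intro x h1 h2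
    rw [hQdef]; exact ⟨h1, h2⟩
  have hQp : IsPGroup p Q := P.isPGroup'.to_le hQP
  have hCQ : Subgroup.centralizer (Q : Set G) ≤ Cfsg.pPrimePCore p G := by
    have := hc SL
    rwa [hSL] at this
  have hP'coe : ((P.subtype hPH : Sylow p ↥(Subgroup.normalizer (Q : Set G))) :
      Subgroup ↥(Subgroup.normalizer (Q : Set G))) =
      (P : Subgroup G).subgroupOf (Subgroup.normalizer (Q : Set G)) := Sylow.coe_subtype P hPH
  have hP'map : ((P.subtype hPH : Sylow p ↥(Subgroup.normalizer (Q : Set G))) :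
      Subgroup ↥(Subgroup.normalizer (Q : Set G))).map (Subgroup.normalizer (Q : Set G)).subtype =
      (P : Subgroup G) := by
    rw [hP'coe]; exact Subgroup.map_subgroupOf_eq_of_le hPH
  have hQ'n : (Q.subgroupOf (Subgroup.normalizer (Q : Set G))).Normal := Subgroup.normal_in_normalizer
  have hQ'p : IsPGroup p ↥(Q.subgroupOf (Subgroup.normalizer (Q : Set G))) := hQp.comap_subtype
  have hEBn : ∀ B : Subgroup G, Subgroup.normalizer (Q : Set G) ≤ Subgroup.normalizer (B : Set G) →
      (Cfsg.pPrimeCore p G ⊔ B).Normal := by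
    intro B hB
    refine ⟨fun x hx g => ?_⟩
    obtain ⟨c, hc', m, hm, rfl⟩ := hdec g
    have h1 : Cfsg.pPrimeCore p G ⊔ B ≤
        (Cfsg.pPrimeCore p G ⊔ B).comap (MulAut.conj m).toMonoidHom := by
      apply sup_le
      · intro e he
        exact Subgroup.mem_sup_left (hEn.conj_mem e he m)
      · intro b hb
        exact Subgroup.mem_sup_right (conj_mem_of_mem_normalizer (hB hm) hb)
    have h2 : m * x * m⁻¹ ∈ Cfsg.pPrimeCore p G ⊔ B := h1 hx
    have h3 := Subgroup.mul_mem _ (Subgroup.mul_mem _ (Subgroup.mem_sup_left hc') h2)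
      (Subgroup.inv_mem _ (Subgroup.mem_sup_left hc' : c ∈ Cfsg.pPrimeCore p G ⊔ B))
    have e : c * m * x * (c * m)⁻¹ = c * (m * x * m⁻¹) * c⁻¹ := by group
    rw [e]; exact h3
  have hst : ZStabOn p ((P.subtype hPH : Sylow p ↥(Subgroup.normalizer (Q : Set G))) :
      Subgroup ↥(Subgroup.normalizer (Q : Set G))) (Q.subgroupOf (Subgroup.normalizer (Q : Set G))) := by
    apply zstabOn_of_isPStable (Subgroup.normalizer (Q : Set G)).subtype
      (Subgroup.normalizer (Q : Set G)).subtype_injective _ _ hs.2.2 (Sylow.isPGroup' _)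
    intro B' hB'n hB'Q
    have hBQ : B'.map (Subgroup.normalizer (Q : Set G)).subtype ≤ Q := by
      rintro _ ⟨b, hb, rfl⟩
      exact Subgroup.mem_subgroupOf.mp (hB'Q hb)
    exact ⟨hBQ.trans hQL, hEBn _ (normal_map_subtype_le_normalizer _ B' hB'n), hQ'p.to_le hB'Q⟩
  have hX : sInf (zjFam (fun A : Subgroup ↥(Subgroup.normalizer (Q : Set G)) => IsMulCommutative ↥A)
      ((P.subtype hPH : Sylow p ↥(Subgroup.normalizer (Q : Set G))) :
        Subgroup ↥(Subgroup.normalizer (Q : Set G)))) ≤
      Q.subgroupOf (Subgroup.normalizer (Q : Set G)) := by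
    obtain ⟨K, hKn, hCK, ⟨n₁, hn₁⟩, hquad⟩ := hst _ hQ'n le_rfl
    obtain ⟨A₀, hA₀⟩ := zjFam_nonempty (zjgood_ab (G := ↥(Subgroup.normalizer (Q : Set G))))
      ((P.subtype hPH : Sylow p ↥(Subgroup.normalizer (Q : Set G))) :
        Subgroup ↥(Subgroup.normalizer (Q : Set G)))
    have hKL : K.map (Subgroup.normalizer (Q : Set G)).subtype ≤ Cfsg.pPrimePCore p G := by
      haveI hNn : (Cfsg.pPrimeCore p G ⊔ K.map (Subgroup.normalizer (Q : Set G)).subtype).Normal :=
        hEBn _ (normal_map_subtype_le_normalizer _ K hKn)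
      have hle : Cfsg.pPrimeCore p G ⊔ K.map (Subgroup.normalizer (Q : Set G)).subtype ≤
          Cfsg.pPrimePCore p G := by
        apply Cfsg.Agent.Lib.helper16.le_pPrimePCore_of_pow
        intro x hx
        obtain ⟨e, he, k, hk, rfl⟩ := Subgroup.mem_sup_of_normal_left.mp hx
        obtain ⟨k', hk', rfl⟩ := hk
        haveI hCn : (Subgroup.centralizer ((Q.subgroupOf (Subgroup.normalizer (Q : Set G)) :
            Subgroup ↥(Subgroup.normalizer (Q : Set G))) :
            Set ↥(Subgroup.normalizer (Q : Set G)))).Normal := by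
          haveI := hQ'n
          exact Subgroup.normal_centralizer
        have h1 : k' ^ (p ^ n₁) ∈ Subgroup.centralizer
            ((Q.subgroupOf (Subgroup.normalizer (Q : Set G)) :
              Subgroup ↥(Subgroup.normalizer (Q : Set G))) :
              Set ↥(Subgroup.normalizer (Q : Set G))) := by
          haveI : ((Subgroup.centralizer ((Q.subgroupOf (Subgroup.normalizer (Q : Set G)) :
            Subgroup ↥(Subgroup.normalizer (Q : Set G))) :
            Set ↥(Subgroup.normalizer (Q : Set G)))).subgroupOf K).Normal :=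
            Subgroup.Normal.subgroupOf hCn K
          have h := Subgroup.pow_index_mem ((Subgroup.centralizer
            ((Q.subgroupOf (Subgroup.normalizer (Q : Set G)) :
            Subgroup ↥(Subgroup.normalizer (Q : Set G))) :
            Set ↥(Subgroup.normalizer (Q : Set G)))).subgroupOf K) (⟨k', hk'⟩ : ↥K)
          have hidx : ((Subgroup.centralizer
            ((Q.subgroupOf (Subgroup.normalizer (Q : Set G)) :
            Subgroup ↥(Subgroup.normalizer (Q : Set G))) :
            Set ↥(Subgroup.normalizer (Q : Set G)))).subgroupOf K).index = p ^ n₁ := hn₁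
          rw [hidx, Subgroup.mem_subgroupOf] at h
          exact h
        have h2 : ((k' : G)) ^ (p ^ n₁) ∈ Subgroup.centralizer (Q : Set G) := by
          refine Subgroup.mem_centralizer_iff.mpr ?_
          intro q hq
          have h3 := Subgroup.mem_centralizer_iff.mp h1
            (⟨q, Subgroup.le_normalizer hq⟩ : ↥(Subgroup.normalizer (Q : Set G)))
            (Subgroup.mem_subgroupOf.mpr hq)
          have h4 := congrArg Subtype.val h3
          simpa using h4
        obtain ⟨j, hj⟩ := Cfsg.Agent.Lib.helper16.exists_pow_mem_pPrimeCore (hCQ h2)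
        refine ⟨n₁ + j, ?_⟩
        rw [← QuotientGroup.eq_one_iff, QuotientGroup.mk_pow, QuotientGroup.mk_mul,
          (QuotientGroup.eq_one_iff e).mpr he, one_mul, ← QuotientGroup.mk_pow,
          QuotientGroup.eq_one_iff, pow_add, pow_mul]
        exact hj
      exact le_sup_right.trans hle
    intro z hz
    have hzA : z ∈ A₀ := sInf_le hA₀ hz
    have hzP : z ∈ ((P.subtype hPH : Sylow p ↥(Subgroup.normalizer (Q : Set G))) :
        Subgroup ↥(Subgroup.normalizer (Q : Set G))) := hA₀.1 hzA
    have hzK : z ∈ K := by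
      apply hquad z hzP
      intro b hb
      have hbP : b ∈ ((P.subtype hPH : Sylow p ↥(Subgroup.normalizer (Q : Set G))) :
          Subgroup ↥(Subgroup.normalizer (Q : Set G))) := by
        rw [hP'coe, Subgroup.mem_subgroupOf]
        exact hQP (Subgroup.mem_subgroupOf.mp hb)
      have h1 : ⁅b, z⁆ ∈ sInf (zjFam
          (fun A : Subgroup ↥(Subgroup.normalizer (Q : Set G)) => IsMulCommutative ↥A)
          ((P.subtype hPH : Sylow p ↥(Subgroup.normalizer (Q : Set G))) :
            Subgroup ↥(Subgroup.normalizer (Q : Set G)))) := by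
        rw [commutatorElement_def]
        exact Subgroup.mul_mem _ (zjInf_conj zjgood_ab (Subgroup.le_normalizer hbP) hz)
          (Subgroup.inv_mem _ hz)
      exact commutatorElement_eq_one_iff_mul_comm.mpr
        (zjgood_ab.comm A₀ hA₀.2.1 _ (sInf_le hA₀ h1) z hzA)
    rw [Subgroup.mem_subgroupOf]
    apply hmemQ _ ?_ (hKL ⟨z, hzK, rfl⟩)
    rw [hP'coe, Subgroup.mem_subgroupOf] at hzP
    exact hzP
  have hnorm := zj_inf_normal' hp (P.subtype hPH)
    ((P.subtype hPH : Sylow p ↥(Subgroup.normalizer (Q : Set G))) :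
      Subgroup ↥(Subgroup.normalizer (Q : Set G))) ⟨le_rfl, fun x hx g hg => hg⟩ _ zjgood_ab
    (Q.subgroupOf (Subgroup.normalizer (Q : Set G))) hQ'p hQ'n hst hX
  rw [← centerThompsonAOf_eq] at hnorm
  have h2 := centerThompsonAOf_map (Subgroup.normalizer (Q : Set G)).subtype
    (Subgroup.normalizer (Q : Set G)).subtype_injective
    ((P.subtype hPH : Sylow p ↥(Subgroup.normalizer (Q : Set G))) :
      Subgroup ↥(Subgroup.normalizer (Q : Set G)))
  rw [hP'map] at h2
  have key : Subgroup.normalizer (Q : Set G) ≤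
      Subgroup.normalizer (Cfsg.centerThompsonAOf (P : Subgroup G) : Set G) := by
    rw [h2]
    exact normal_map_subtype_le_normalizer _ _ hnorm
  rw [eq_top_iff]
  intro g _
  obtain ⟨c, hc', m, hm, rfl⟩ := hdec g
  exact Subgroup.mul_mem _ (Subgroup.mem_sup_left hc') (Subgroup.mem_sup_right (key hm))


end Cfsg.Agent.S0667
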