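import Cfsg.Statements.S0929
import Cfsg.Agent.Lib.helper5.BlockCanon
import Cfsg.Agent.S0973
import Cfsg.Agent.S0918

set_option autoImplicit false
open Cfsg
open Cfsg.Agent.Lib.helper5 Cfsg.Agent.Lib.helper23 Cfsg.Agent.Lib.helper24

namespace Cfsg.Agent.S0929

/-- Let B be a block of the finite group G with defect group P (relative to a maximal ideal M of the algebraic integers containing p), and let g be an element at which the central character of some member of B is not in the local ideal at M. Then some conjugate x of g centralizes P and has its p-part in the centre of P. -/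
theorem result {G : Type*} [Group G] [Finite G] (p : ℕ) [Fact p.Prime] (M : Ideal Cfsg.AlgInt) (hM : Cfsg.IsPModular p M) (B : Set (Cfsg.IrrCharacter G)) (hB : Cfsg.IsPBlock M B) (P : Subgroup G) (hP : Cfsg.IsDefectGroup p M B P) (g : G) (hg : ∃ χ ∈ B, ¬ Cfsg.MemLocalIdeal M (Cfsg.centralChar (χ : G → ℂ) g)) : ∃ x : G, IsConj g x ∧ x ∈ Subgroup.centralizer (P : Set G) ∧ ∀ z : G, Cfsg.IsPPart p x z → z ∈ P ∧ ∀ w ∈ P, z * w = w * z := by
  classical
  have := Fintype.ofFinite G
  have := Fintype.ofFinite (Cfsg.IrrCharacter G)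
  have hMp := isPModular_isPrime hM
  have hp := hM.1
  obtain ⟨χ, hχB, hχ⟩ := hg
  obtain ⟨⟨b, hbD, hbind⟩, -⟩ := Cfsg.Agent.S0973.result p M hM B hB P hP
  have hPp : IsPGroup p P := by
    obtain ⟨g0, hg0, PD, hPD⟩ := hP
    rw [hPD]
    exact sylow_map_isPGroup _ PD
  have hPL : P ≤ P ⊔ Subgroup.centralizer (P : Set G) := le_sup_left
  have hCL : Subgroup.centralizer (P : Set G) ≤ P ⊔ Subgroup.centralizer (P : Set G) :=
    le_sup_right
  have hLN : P ⊔ Subgroup.centralizer (P : Set G) ≤ Subgroup.normalizer (P : Set G) :=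
    sup_le Subgroup.le_normalizer (Subgroup.centralizer_le_normalizer _)
  have h918 := (Cfsg.Agent.S0918.result p M hM P (P ⊔ Subgroup.centralizer (P : Set G)) hPp hPL
    hCL hLN b hbind.1 B hB).mp hbind
  haveI : (P.subgroupOf (P ⊔ Subgroup.centralizer (P : Set G))).Normal :=
    (Subgroup.normal_subgroupOf_iff_le_normalizer hPL).mpr hLN
  obtain ⟨ξ₀, rfl⟩ := hbind.1
  obtain ⟨ξ, hξb, -, hξvan⟩ := exists_canonical_char hM
    (P.subgroupOf (P ⊔ Subgroup.centralizer (P : Set G))) hPp.comap_subtype ξ₀ hbD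
  have hcong := h918 ξ hξb χ hχB g
  have hex : ∃ h : ↥(P ⊔ Subgroup.centralizer (P : Set G)), IsConj g (h : G) ∧
      (h : G) ∈ Subgroup.centralizer (P : Set G) ∧ ξ.1 h ≠ 0 := by
    by_contra hcon
    push Not at hcon
    have h0 : Cfsg.brauerCentralChar P (P ⊔ Subgroup.centralizer (P : Set G)) ξ.1 g = 0 := by
      unfold Cfsg.brauerCentralChar
      apply finsum_mem_eq_zero_of_forall_eq_zero
      rintro h ⟨h1, h2⟩
      rw [hcon h h1 h2, zero_div]
    rw [h0, zero_sub] at hcong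
    apply hχ
    have := memLocalIdeal_neg hcong
    rwa [neg_neg] at this
  obtain ⟨x, hx1, hx2, hx3⟩ := hex
  refine ⟨x, hx1, hx2, ?_⟩
  intro z hz
  have hreg : ¬ p ∣ orderOf ((x : ↥(P ⊔ Subgroup.centralizer (P : Set G)) ⧸
      P.subgroupOf (P ⊔ Subgroup.centralizer (P : Set G)))) := fun hdvd => hx3 (hξvan x hdvd)
  obtain ⟨hzL, hzP⟩ := pPart_mem_of_quotient_regular (P ⊔ Subgroup.centralizer (P : Set G))
    (P.subgroupOf (P ⊔ Subgroup.centralizer (P : Set G))) hz hreg
  refine ⟨Subgroup.mem_subgroupOf.mp hzP, ?_⟩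
  intro w hw
  have hzc : z ∈ Subgroup.centralizer (P : Set G) := by
    obtain ⟨m, hm⟩ := Subgroup.mem_zpowers_iff.mp (isPPart_mem_zpowers hz)
    rw [← hm]
    exact Subgroup.zpow_mem _ hx2 _
  exact (Subgroup.mem_centralizer_iff.mp hzc w hw).symm

end Cfsg.Agent.S0929
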