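import Cfsg.Statements.S0930
import Cfsg.Agent.Lib.helper5.BlockCanon
import Cfsg.Agent.Lib.helper5.BlockInd
import Cfsg.Agent.S0927
import Cfsg.Agent.S0929

set_option autoImplicit false
open Cfsg
open Cfsg.Agent.Lib.helper5 Cfsg.Agent.Lib.helper23 Cfsg.Agent.Lib.helper24

namespace Cfsg.Agent.S0930

/-- the `p`-part in a subgroup is the `p`-part in the group -/
theorem isPPart_coe {G : Type*} [Group G] {p : ℕ} (H : Subgroup G) {g x : H}
    (h : Cfsg.IsPPart p g x) : Cfsg.IsPPart p (g : G) (x : G) := by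
  obtain ⟨y, hxy, hc, ⟨k, hk⟩, hy⟩ := h
  refine ⟨(y : G), ?_, ?_, ⟨k, ?_⟩, ?_⟩
  · rw [← hxy]; rfl
  · have := congrArg (Subtype.val) hc.eq
    exact this
  · rw [Subgroup.orderOf_coe]; exact hk
  · rw [Subgroup.orderOf_coe]; exact hy

/-- Let H be a subgroup of the finite group G and fix a maximal ideal M of the algebraic integers containing the prime p. If the block b of H with defect group D induces the block B of G with defect group P, then every element of the centre of P is conjugate in G to an element of the centre of D. -/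
theorem result {G : Type*} [Group G] [Finite G] (p : ℕ) [Fact p.Prime] (M : Ideal Cfsg.AlgInt) (hM : Cfsg.IsPModular p M) (H : Subgroup G) (b : Set (Cfsg.IrrCharacter H)) (B : Set (Cfsg.IrrCharacter G)) (hind : Cfsg.IsInducedBlock M H b B) (D : Subgroup H) (hD : Cfsg.IsDefectGroup p M b D) (P : Subgroup G) (hP : Cfsg.IsDefectGroup p M B P) (x : G) (hx : x ∈ P) (hxc : ∀ w ∈ P, x * w = w * x) : ∃ g : G, g * x * g⁻¹ ∈ D.map H.subtype ∧ ∀ w ∈ D.map H.subtype, (g * x * g⁻¹) * w = w * (g * x * g⁻¹) := by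
  classical
  have := Fintype.ofFinite G
  have := Fintype.ofFinite (Cfsg.IrrCharacter G)
  have := Fintype.ofFinite H
  have := Fintype.ofFinite (Cfsg.IrrCharacter H)
  have hMp := isPModular_isPrime hM
  have hMtop := hMp.ne_top
  have hp := hM.1
  obtain ⟨hb, hB, hcong⟩ := hind
  obtain ⟨χ₀, rfl⟩ := hB
  obtain ⟨ξ₀, rfl⟩ := hb
  obtain ⟨y, hy, PD, hPD⟩ := hP
  rw [hPD] at hx
  obtain ⟨x', hx', rfl⟩ := Subgroup.mem_map.mp hx
  have hxc' : ∀ w ∈ (PD : Subgroup (Subgroup.centralizer ({y} : Set G))), x' * w = w * x' := by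
    intro w hw
    apply Subtype.ext
    have := hxc (w : G) (by rw [hPD]; exact Subgroup.mem_map_of_mem _ hw)
    exact this
  have h927 := (Cfsg.Agent.S0927.result p M hM _ ⟨χ₀, rfl⟩ y hy PD x' hx').2 hxc'
  have hyreg : ¬ p ∣ orderOf y := by
    intro hdvd
    apply hy.2.1
    rw [← coef_indicator, coef_eq_zero_of_singular hM (indicator_mem_osimaRing hMp χ₀)
      (indicator_mul_self _) y hdvd]
    exact memLocalIdeal_zero hMtop
  have hχ₀ : χ₀ ∈ Cfsg.blockOf M χ₀.1 := sameBlock_refl hMtop χ₀.1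
  have hξ₀ : ξ₀ ∈ Cfsg.blockOf M ξ₀.1 := sameBlock_refl hMtop ξ₀.1
  have hω : ¬ Cfsg.MemLocalIdeal M (Cfsg.centralChar χ₀.1 ((x' : G) * y)) := h927 χ₀ hχ₀
  have hind' : ¬ Cfsg.MemLocalIdeal M (Cfsg.inducedCentralChar H ξ₀.1 ((x' : G) * y)) := by
    intro hmem
    apply hω
    have h1 := hcong ξ₀ hξ₀ χ₀ hχ₀ ((x' : G) * y)
    have := memLocalIdeal_sub hMp hmem h1
    simpa using this
  obtain ⟨h, hconj, hh⟩ : ∃ h : H, IsConj ((x' : G) * y) (h : G) ∧
      ¬ Cfsg.MemLocalIdeal M (Cfsg.centralChar ξ₀.1 h) := by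
    by_contra hcon
    push Not at hcon
    apply hind'
    rw [inducedCentralChar_eq_sum_conjClasses H ξ₀.1 (isClassFunction_irr ξ₀)]
    apply memLocalIdeal_sum hMp
    intro c _
    split_ifs with hc
    · exact hcon _ hc
    · exact memLocalIdeal_zero hMtop
  obtain ⟨x₁, hx₁conj, hx₁D, hx₁z⟩ := Cfsg.Agent.S0929.result p M hM (Cfsg.blockOf M ξ₀.1)
    ⟨ξ₀, rfl⟩ D hD h ⟨ξ₀, hξ₀, hh⟩
  obtain ⟨z, hz⟩ := exists_isPPart p x₁
  obtain ⟨hzD, hzc⟩ := hx₁z z hz
  obtain ⟨a, ha⟩ := isConj_iff.mp hx₁conj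
  obtain ⟨c, hc⟩ := isConj_iff.mp hconj
  have hcomm : Commute (x' : G) y := Subgroup.mem_centralizer_singleton_iff.mp x'.2
  obtain ⟨j, hj⟩ := (IsPGroup.iff_orderOf.mp PD.isPGroup') ⟨x', hx'⟩
  have hord : orderOf (x' : G) = p ^ j := by
    rw [Subgroup.orderOf_coe, ← hj]
    exact Subgroup.orderOf_coe (⟨x', hx'⟩ : (PD : Subgroup (Subgroup.centralizer ({y} : Set G))))
  have hpp : Cfsg.IsPPart p ((x' : G) * y) (x' : G) := isPPart_mul hcomm ⟨j, hord⟩ hyreg
  have hpp2 := isPPart_conj hpp ((a : G) * c)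
  have hzG : Cfsg.IsPPart p (x₁ : G) (z : G) := isPPart_coe H hz
  have e : ((a : G) * c) * ((x' : G) * y) * ((a : G) * c)⁻¹ = (x₁ : G) := by
    rw [← ha]
    push_cast
    rw [← hc]
    group
  rw [e] at hpp2
  have hzeq := isPPart_unique hzG hpp2
  refine ⟨(a : G) * c, ?_, ?_⟩
  · show (a : G) * c * (x' : G) * ((a : G) * c)⁻¹ ∈ D.map H.subtype
    rw [← hzeq]
    exact Subgroup.mem_map_of_mem _ hzD
  · intro w hw
    obtain ⟨w', hw', rfl⟩ := Subgroup.mem_map.mp hw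
    show (a : G) * c * (x' : G) * ((a : G) * c)⁻¹ * (w' : G) = (w' : G) * ((a : G) * c * (x' : G) * ((a : G) * c)⁻¹)
    rw [← hzeq]
    have := hzc w' hw'
    exact congrArg Subtype.val this

end Cfsg.Agent.S0930
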