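import Mathlib
import Cfsg.Agent.Lib.helper5.BlockCover
import Cfsg.Statements.S0934

set_option autoImplicit false
open scoped ComplexConjugate

namespace Cfsg.Agent.S0934

open Cfsg.Agent.Lib.helper5 Cfsg.Agent.Lib.helper23 Cfsg.Agent.Lib.helper24

/-- Let H be a subgroup of the finite group G and fix a maximal ideal M of the algebraic integers containing the prime p. If the block b of H induces the block B of G and ξ ∈ b, then there is χ ∈ B whose restriction to H has nonzero inner product with ξ. -/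
theorem result {G : Type*} [Group G] [Fintype G] (p : ℕ) [Fact p.Prime] (M : Ideal Cfsg.AlgInt) (hM : Cfsg.IsPModular p M) (H : Subgroup G) [Fintype H] (b : Set (Cfsg.IrrCharacter H)) (B : Set (Cfsg.IrrCharacter G)) (hind : Cfsg.IsInducedBlock M H b B) (ξ : Cfsg.IrrCharacter H) (hξ : ξ ∈ b) : ∃ χ ∈ B, Cfsg.classInner (fun h : H => (χ : G → ℂ) h) (ξ : H → ℂ) ≠ 0 := by
  classical
  have := Fintype.ofFinite (Cfsg.IrrCharacter G)
  have := Fintype.ofFinite (Cfsg.IrrCharacter H)
  have hMp := isPModular_isPrime hM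
  obtain ⟨χ₀, hB⟩ := hind.2.1
  have hχ₀ : χ₀ ∈ B := by
    rw [hB]
    exact mem_blockOf_self hMp.ne_top χ₀
  by_contra hcon
  push_neg at hcon
  have ha : B.indicator (fun _ => (1:ℂ)) ∈ osimaRing G M hMp := by
    rw [hB]
    exact indicator_mem_osimaRing hMp χ₀
  have h1 := brFun_top_of_induced H hMp hind hξ hχ₀ ha
  rw [Set.indicator_of_mem hχ₀] at h1
  have h2 : brFun H ⊤ ξ (B.indicator (fun _ => (1:ℂ))) = 0 := by
    rw [brFun_apply]
    unfold coord
    have hsum : ∑ h : H, brTrunc H ⊤ (B.indicator (fun _ => (1:ℂ))) h * ξ.1 h = 0 := by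
      have e1 : ∀ h : H, brTrunc H ⊤ (B.indicator (fun _ => (1:ℂ))) h * ξ.1 h
          = ∑ χ : Cfsg.IrrCharacter G, (Nat.card G : ℂ)⁻¹
              * (B.indicator (fun _ => (1:ℂ)) χ * χ.1 1) * (ξ.1 h * conj (χ.1 (h : G))) := by
        intro h
        rw [brTrunc_of_mem _ (Subgroup.mem_top _)]
        unfold coef
        rw [Finset.mul_sum, Finset.sum_mul]
        apply Finset.sum_congr rfl
        intro χ _
        ring
      simp only [e1]
      rw [Finset.sum_comm]
      apply Finset.sum_eq_zero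
      intro χ _
      rw [← Finset.mul_sum]
      have e2 : ∑ h : H, ξ.1 h * conj (χ.1 (h : G))
          = (Nat.card H : ℂ) * Cfsg.classInner ξ.1 (fun h : H => χ.1 h) :=
        sum_mul_conj_eq_classInner ξ.1 (fun h : H => χ.1 h)
      rw [e2]
      by_cases hχ : χ ∈ B
      · rw [classInner_conj_symm, hcon χ hχ]
        simp
      · rw [Set.indicator_of_notMem hχ]
        simp
    rw [hsum, zero_div]
  rw [h2, zero_sub] at h1
  have h3 := memLocalIdeal_neg h1
  rw [neg_neg] at h3
  exact not_memLocalIdeal_one hMp h3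

end Cfsg.Agent.S0934
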