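import Mathlib
import Cfsg.Agent.Lib.helper5.BlockReg
import Cfsg.Agent.Lib.helper24.CharVanish
import Cfsg.Statements.S0941

set_option autoImplicit false
open scoped ComplexConjugate

namespace Cfsg.Agent.S0941

open Cfsg.Agent.Lib.helper5 Cfsg.Agent.Lib.helper23 Cfsg.Agent.Lib.helper24

/-- Let P be a normal p-subgroup of the finite group G such that the index of C_G(P) is a power of p, and fix a maximal ideal M of the algebraic integers containing p. Then (i) two irreducible characters of G ⧸ P lie in the same block if and only if their inflations to G do, and (ii) every block of G contains the inflation of some irreducible character of G ⧸ P; so inflation induces a bijection between the blocks of G ⧸ P and the blocks of G. -/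
theorem result {G : Type*} [Group G] [Finite G] (p : ℕ) [Fact p.Prime] (M : Ideal Cfsg.AlgInt) (hM : Cfsg.IsPModular p M) (P : Subgroup G) [P.Normal] (hP : IsPGroup p P) (hC : ∃ k : ℕ, (Subgroup.centralizer (P : Set G)).index = p ^ k) : (∀ χ ψ : Cfsg.IrrCharacter (G ⧸ P), Cfsg.SameBlock M (χ : G ⧸ P → ℂ) (ψ : G ⧸ P → ℂ) ↔ Cfsg.SameBlock M ((χ : G ⧸ P → ℂ) ∘ QuotientGroup.mk) ((ψ : G ⧸ P → ℂ) ∘ QuotientGroup.mk)) ∧ ∀ B : Set (Cfsg.IrrCharacter G), Cfsg.IsPBlock M B → ∃ χ : Cfsg.IrrCharacter (G ⧸ P), ∃ θ ∈ B, (θ : G → ℂ) = (χ : G ⧸ P → ℂ) ∘ QuotientGroup.mk := by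
  classical
  have := Fintype.ofFinite G
  have := Fintype.ofFinite (Cfsg.IrrCharacter G)
  have := Fintype.ofFinite (G ⧸ P)
  have := Fintype.ofFinite (Cfsg.IrrCharacter (G ⧸ P))
  have hMp := isPModular_isPrime hM
  have hp := hM.1
  refine ⟨fun χ ψ => ⟨fun h => sameBlock_comp_mk hMp P h, fun h => ?_⟩, ?_⟩
  · apply sameBlock_of_p_regular hM χ ψ
    intro q hq
    obtain ⟨x, rfl, hx⟩ := exists_regular_lift hp P q hq
    have hxC := mem_centralizer_of_regular hp P hC x hx
    rw [← centralChar_comp_mk_of_regular hp P hP x hxC hx χ.1,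
      ← centralChar_comp_mk_of_regular hp P hP x hxC hx ψ.1]
    exact h x
  · rintro B ⟨χ₀, rfl⟩
    obtain ⟨θ, hθB, hθ⟩ := exists_mem_block_kernel hM P hP χ₀
    obtain ⟨θ', hθ'irr, hθ'⟩ := isIrrCharacter_deflate P θ.2 hθ
    exact ⟨⟨θ', hθ'irr⟩, θ, hθB, (funext hθ').symm⟩

end Cfsg.Agent.S0941
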