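import Mathlib
import Cfsg.Agent.Lib.helper5.KleinFour
import Cfsg.Agent.Lib.helper5.BlockSecond3
import Cfsg.Agent.Lib.helper23.BlockDefectZero
import Cfsg.Agent.S0947
import Cfsg.Agent.S0942
import Cfsg.Agent.S0914
import Cfsg.Statements.S0948

set_option autoImplicit false
open scoped ComplexConjugate

namespace Cfsg.Agent.S0948

open Cfsg.Agent.Lib.helper5 Cfsg.Agent.Lib.helper23 Cfsg.Agent.Lib.helper24

theorem finsum_mem_four {α : Type*} [DecidableEq α] (B : Set α) (t a b c : α)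
    (hta : t ≠ a) (htb : t ≠ b) (htc : t ≠ c) (hab : a ≠ b) (hac : a ≠ c) (hbc : b ≠ c)
    (hB : ∀ χ, χ ∈ B ↔ χ = t ∨ χ = a ∨ χ = b ∨ χ = c) (f : α → ℂ) :
    ∑ᶠ χ ∈ B, f χ = f t + f a + f b + f c := by
  have hBeq : B = ↑({t, a, b, c} : Finset α) := by
    ext χ; rw [hB]; simp
  rw [hBeq, finsum_mem_coe_finset]
  rw [Finset.sum_insert, Finset.sum_insert, Finset.sum_insert, Finset.sum_singleton]
  · ring
  · simp [hbc]
  · simp [hab, hac]
  · simp [hta, htb, htc]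

theorem assemble {G : Type*} [Group G] [Finite G] (M : Ideal Cfsg.AlgInt) (z : G)
    (t a b c : Cfsg.IrrCharacter G) (ε : ℤ) (hε : ε = 1 ∨ ε = -1)
    (ht : t.1 = fun _ => 1)
    (hta : t ≠ a) (htb : t ≠ b) (htc : t ≠ c) (hab : a ≠ b) (hac : a ≠ c) (hbc : b ≠ c)
    (hB : ∀ χ, χ ∈ Cfsg.principalBlock M G ↔ χ = t ∨ χ = a ∨ χ = b ∨ χ = c)
    (hka : a.1 z = 1) (hkb : b.1 z = (ε : ℂ)) (hkc : c.1 z = -1)
    (hconj : ∀ (ζ : Cfsg.IrrCharacter G) (z' : G), orderOf z' = 2 → ζ.1 z' = ζ.1 z)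
    (hP : ∀ ζ : Cfsg.IrrCharacter G, ∃ n : ℕ, ζ.1 1 + 3 * ζ.1 z = 4 * (n : ℂ))
    (horth : ∀ y : G, Odd (orderOf y) →
      ∑ᶠ χ ∈ Cfsg.principalBlock M G, χ.1 z * χ.1 y = 0) :
    ∃ ζ₂ ζ₃ ζ₄ : Cfsg.IrrCharacter G, ∃ ε : ℤ, (ε = 1 ∨ ε = -1) ∧ (ζ₂ : G → ℂ) ≠ (fun _ => 1) ∧ (ζ₃ : G → ℂ) ≠ (fun _ => 1) ∧ ζ₂ ≠ ζ₃ ∧ ζ₂ ≠ ζ₄ ∧ ζ₃ ≠ ζ₄ ∧ Cfsg.principalBlock M G = {χ : Cfsg.IrrCharacter G | (χ : G → ℂ) = (fun _ => 1) ∨ χ = ζ₂ ∨ χ = ζ₃ ∨ χ = ζ₄} ∧ (∀ z : G, orderOf z = 2 → (ζ₂ : G → ℂ) z = 1 ∧ (ζ₃ : G → ℂ) z = (ε : ℂ) ∧ (ζ₄ : G → ℂ) z = -1) ∧ (4 : ℤ) ∣ (Cfsg.charDegree (ζ₂ : G → ℂ) : ℤ) - 1 ∧ (4 : ℤ) ∣ (Cfsg.charDegree (ζ₃ : G → ℂ) : ℤ) - ε ∧ (4 : ℤ) ∣ (Cfsg.charDegree (ζ₄ : G → ℂ) : ℤ) + 1 ∧ ∀ y : G, Odd (orderOf y) → 1 + (ζ₂ : G → ℂ) y + (ε : ℂ) * (ζ₃ : G → ℂ) y - (ζ₄ : G → ℂ) y = 0 := by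
  classical
  have htriv : ∀ χ : Cfsg.IrrCharacter G, (χ : G → ℂ) = (fun _ => 1) ↔ χ = t := by
    intro χ
    constructor
    · intro h; exact Subtype.ext (h.trans ht.symm)
    · intro h; rw [h]; exact ht
  refine ⟨a, b, c, ε, hε, ?_, ?_, hab, hac, hbc, ?_, ?_, ?_, ?_, ?_, ?_⟩
  · intro h; exact hta ((htriv a).mp h).symm
  · intro h; exact htb ((htriv b).mp h).symm
  · ext χ
    rw [hB χ, Set.mem_setOf_eq, htriv χ]
  · intro z' hz'
    exact ⟨(hconj a z' hz').trans hka, (hconj b z' hz').trans hkb, (hconj c z' hz').trans hkc⟩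
  · obtain ⟨n, hn⟩ := hP a
    rw [hka, ← charDegree_cast a] at hn
    have h1 : (Cfsg.charDegree a.1 : ℤ) + 3 = 4 * (n : ℤ) := by exact_mod_cast hn
    exact ⟨(n : ℤ) - 1, by linarith⟩
  · obtain ⟨n, hn⟩ := hP b
    rw [hkb, ← charDegree_cast b] at hn
    have h1 : (Cfsg.charDegree b.1 : ℤ) + 3 * ε = 4 * (n : ℤ) := by exact_mod_cast hn
    exact ⟨(n : ℤ) - ε, by linarith⟩
  · obtain ⟨n, hn⟩ := hP c
    rw [hkc, ← charDegree_cast c] at hn
    have h1 : (Cfsg.charDegree c.1 : ℤ) + 3 * (-1) = 4 * (n : ℤ) := by exact_mod_cast hn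
    exact ⟨(n : ℤ) + 1, by linarith⟩
  · intro y hy
    have h := horth y hy
    rw [finsum_mem_four _ t a b c hta htb htc hab hac hbc hB] at h
    rw [hka, hkb, hkc, ht] at h
    linear_combination h

/-- Let the finite group G have a Sylow 2-subgroup P that is a Klein four-group, suppose all involutions of G are conjugate, and fix a maximal ideal M of the algebraic integers containing 2. Then the principal block consists of exactly four irreducible characters, the principal character and ζ₂, ζ₃, ζ₄, and there is a sign ε such that for every involution z: ζ₂ z = 1, ζ₃ z = ε, ζ₄ z = -1; moreover ζ₂ 1 ≡ 1, ζ₃ 1 ≡ ε, ζ₄ 1 ≡ -1 (mod 4), and 1 + ζ₂ y + ε ζ₃ y - ζ₄ y = 0 for every y of odd order. -/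
theorem result {G : Type*} [Group G] [Finite G] (M : Ideal Cfsg.AlgInt) (hM : Cfsg.IsPModular 2 M) (P : Sylow 2 G) (hP : IsKleinFour (P : Subgroup G)) (hone : ∀ s t : G, orderOf s = 2 → orderOf t = 2 → IsConj s t) : ∃ ζ₂ ζ₃ ζ₄ : Cfsg.IrrCharacter G, ∃ ε : ℤ, (ε = 1 ∨ ε = -1) ∧ (ζ₂ : G → ℂ) ≠ (fun _ => 1) ∧ (ζ₃ : G → ℂ) ≠ (fun _ => 1) ∧ ζ₂ ≠ ζ₃ ∧ ζ₂ ≠ ζ₄ ∧ ζ₃ ≠ ζ₄ ∧ Cfsg.principalBlock M G = {χ : Cfsg.IrrCharacter G | (χ : G → ℂ) = (fun _ => 1) ∨ χ = ζ₂ ∨ χ = ζ₃ ∨ χ = ζ₄} ∧ (∀ z : G, orderOf z = 2 → (ζ₂ : G → ℂ) z = 1 ∧ (ζ₃ : G → ℂ) z = (ε : ℂ) ∧ (ζ₄ : G → ℂ) z = -1) ∧ (4 : ℤ) ∣ (Cfsg.charDegree (ζ₂ : G → ℂ) : ℤ) - 1 ∧ (4 : ℤ) ∣ (Cfsg.charDegree (ζ₃ : G → ℂ) : ℤ) - ε ∧ (4 : ℤ) ∣ (Cfsg.charDegree (ζ₄ : G → ℂ) : ℤ) + 1 ∧ ∀ y : G, Odd (orderOf y) → 1 + (ζ₂ : G → ℂ) y + (ε : ℂ) * (ζ₃ : G → ℂ) y - (ζ₄ : G → ℂ) y = 0 := by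
  classical
  haveI := Fintype.ofFinite G
  haveI := Fintype.ofFinite (Cfsg.IrrCharacter G)
  haveI : Fact (Nat.Prime 2) := ⟨Nat.prime_two⟩
  have hMp := isPModular_isPrime hM
  have hMtop := isPModular_ne_top hM
  haveI := hP
  -- elements of P
  have hP2 : ∀ x ∈ (P : Subgroup G), x ≠ 1 → orderOf x = 2 := by
    intro x hx hx1
    have h1 : x ^ 2 = 1 := by
      have := IsKleinFour.mul_self (⟨x, hx⟩ : (P : Subgroup G))
      rw [pow_two]; exact congrArg Subtype.val this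
    exact orderOf_eq_prime h1 hx1
  haveI : Nontrivial (P : Subgroup G) :=
    Finite.one_lt_card_iff_nontrivial.mp (by rw [IsKleinFour.card_four]; norm_num)
  obtain ⟨⟨z, hzP⟩, hz1'⟩ := exists_ne (1 : (P : Subgroup G))
  have hz1 : z ≠ 1 := fun h => hz1' (Subtype.ext h)
  have hz2 : orderOf z = 2 := hP2 z hzP hz1
  have hzpow : ∃ k : ℕ, orderOf z = 2 ^ k := ⟨1, by rw [hz2]; norm_num⟩
  -- the centralizer of z
  have hPH : (P : Subgroup G) ≤ Subgroup.centralizer ({z} : Set G) := by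
    intro x hx
    rw [Subgroup.mem_centralizer_iff]
    intro h hh
    rw [Set.mem_singleton_iff.mp hh]
    have := mul_comm_of_exponent_two (IsKleinFour.exponent_two (G := (P : Subgroup G)))
      ⟨z, hzP⟩ ⟨x, hx⟩
    exact congrArg Subtype.val this
  obtain ⟨Q, hQ⟩ : ∃ Q : Sylow 2 (Subgroup.centralizer ({z} : Set G)),
      (Q : Subgroup (Subgroup.centralizer ({z} : Set G)))
        = (P : Subgroup G).subgroupOf (Subgroup.centralizer ({z} : Set G)) :=
    ⟨P.subtype hPH, rfl⟩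
  have hQK : IsKleinFour (Q : Subgroup (Subgroup.centralizer ({z} : Set G))) := by
    rw [hQ]
    exact
      { card_four := by
          rw [Nat.card_congr (Subgroup.subgroupOfEquivOfLe hPH).toEquiv]
          exact IsKleinFour.card_four
        exponent_two := by
          rw [Monoid.exponent_eq_of_mulEquiv (Subgroup.subgroupOfEquivOfLe hPH)]
          exact IsKleinFour.exponent_two }
  have hzH : z ∈ Subgroup.centralizer ({z} : Set G) := by
    rw [Subgroup.mem_centralizer_iff]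
    intro h hh
    rw [Set.mem_singleton_iff.mp hh]
  have hzQ : (⟨z, hzH⟩ : Subgroup.centralizer ({z} : Set G)) ∈ Q := by
    show _ ∈ (Q : Subgroup (Subgroup.centralizer ({z} : Set G)))
    rw [hQ, Subgroup.mem_subgroupOf]
    exact hzP
  have hzne : (⟨z, hzH⟩ : Subgroup.centralizer ({z} : Set G)) ≠ 1 :=
    fun h => hz1 (congrArg Subtype.val h)
  have hzc : ∀ h : Subgroup.centralizer ({z} : Set G), h * ⟨z, hzH⟩ = ⟨z, hzH⟩ * h := by
    intro h
    apply Subtype.ext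
    have := Subgroup.mem_centralizer_iff.mp h.2 z (Set.mem_singleton z)
    exact this.symm
  haveI := hQK
  have hidx := exists_index_pow_of_klein Q ⟨z, hzH⟩ hzQ hzne hzc
  -- the sum of squares at z
  have h47 := (Cfsg.Agent.S0947.result 2 M hM z hzpow hz1
    (1 : Subgroup.centralizer ({z} : Set G)) (by rw [orderOf_one]; norm_num)).2 hidx
  have hfac : (Nat.card (Subgroup.centralizer ({z} : Set G))).factorization 2 = 2 := by
    have h1 := Q.card_eq_multiplicity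
    have h2 : Nat.card (Q : Subgroup (Subgroup.centralizer ({z} : Set G))) = 4 :=
      IsKleinFour.card_four
    rw [h2] at h1
    have h3 : 2 ^ 2 = 2 ^ (Nat.card (Subgroup.centralizer ({z} : Set G))).factorization 2 := by
      rw [← h1]; norm_num
    exact (Nat.pow_right_injective (le_refl 2) h3).symm
  rw [hfac] at h47
  simp only [OneMemClass.coe_one, mul_one] at h47
  -- integer values at z
  have hZ : ∀ h ∈ Subgroup.zpowers z, h ≠ 1 → IsConj z h := by
    intro h hh h1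
    apply hone z h hz2
    have hd : orderOf h ∣ 2 := by rw [← hz2]; exact orderOf_dvd_of_mem_zpowers hh
    rcases (Nat.dvd_prime Nat.prime_two).mp hd with h0 | h0
    · exact absurd (orderOf_eq_one_iff.mp h0) h1
    · exact h0
  have hPc : ∀ h ∈ (P : Subgroup G), h ≠ 1 → IsConj z h :=
    fun h hh h1 => hone z h hz2 (hP2 h hh h1)
  have hkex : ∀ ζ : Cfsg.IrrCharacter G, ∃ k : ℤ, ζ.1 z = (k : ℂ) := by
    intro ζ
    obtain ⟨n, hn⟩ := invol_restrict_nat (Subgroup.zpowers z) z hZ ζ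
    rw [Nat.card_zpowers, hz2, ← charDegree_cast ζ] at hn
    refine ⟨2 * (n : ℤ) - (Cfsg.charDegree ζ.1 : ℤ), ?_⟩
    push_cast
    push_cast at hn
    linear_combination hn
  choose k hk using hkex
  have hP4 : ∀ ζ : Cfsg.IrrCharacter G, ∃ n : ℕ, ζ.1 1 + 3 * ζ.1 z = 4 * (n : ℂ) := by
    intro ζ
    obtain ⟨n, hn⟩ := invol_restrict_nat (P : Subgroup G) z hPc ζ
    rw [IsKleinFour.card_four] at hn
    refine ⟨n, ?_⟩
    push_cast at hn
    linear_combination hn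
  have hconj : ∀ (ζ : Cfsg.IrrCharacter G) (z' : G), orderOf z' = 2 → ζ.1 z' = ζ.1 z := by
    intro ζ z' hz'
    exact isClassFunction_of_isConj (isClassFunction_irr ζ) (hone z' z hz' hz2)
  -- block orthogonality
  have hB0 : Cfsg.IsPBlock M (Cfsg.principalBlock M G) := ⟨trivIrr G, rfl⟩
  have hzz : Cfsg.IsPPart 2 z z :=
    ⟨1, mul_one z, Commute.one_right z, hzpow, by rw [orderOf_one]; norm_num⟩
  have hnc : ¬ IsConj z 1 := fun h => hz1 (isConj_one_left.mp h)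
  have horth : ∀ y : G, Odd (orderOf y) →
      ∑ᶠ χ ∈ Cfsg.principalBlock M G, χ.1 z * χ.1 y = 0 := by
    intro y hy
    have hy1 : Cfsg.IsPPart 2 y⁻¹ 1 :=
      ⟨y⁻¹, one_mul _, Commute.one_left _, ⟨0, by simp⟩, by
        rw [orderOf_inv]
        exact fun h => (Nat.not_even_iff_odd.mpr hy) (even_iff_two_dvd.mpr h)⟩
    have h := block_orth hM z y⁻¹ z 1 hzz hy1 hnc _ hB0
    simpa using h
  have htB : trivIrr G ∈ Cfsg.principalBlock M G := sameBlock_refl hMtop _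
  -- no member of the principal block vanishes at z
  have hnz : ∀ ζ : Cfsg.IrrCharacter G, ζ ∈ Cfsg.principalBlock M G → k ζ ≠ 0 := by
    intro ζ hζ hk0
    have hζz : ζ.1 z = 0 := by rw [hk ζ, hk0]; simp
    have hvan : ∀ g : G, 2 ∣ orderOf g → ζ.1 g = 0 := by
      intro g hg
      obtain ⟨x, y, hxy, hcomm, hxo, hyo⟩ := exists_isPPart 2 g
      have hx1 : x ≠ 1 := by
        intro h
        rw [h, one_mul] at hxy
        rw [← hxy] at hg
        exact hyo hg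
      obtain ⟨c, hc⟩ := exists_conj_mem_sylow P x hxo
      have hcx1 : c * x * c⁻¹ ≠ 1 := by
        intro h
        apply hx1
        have : x = c⁻¹ * (c * x * c⁻¹) * c := by group
        rw [this, h]; group
      have hxo2 : orderOf x = 2 := by
        have := hP2 _ hc hcx1
        rwa [show c * x * c⁻¹ = MulAut.conj c x from rfl, MulEquiv.orderOf_eq] at this
      obtain ⟨d, hd⟩ := isConj_iff.mp (hone z x hz2 hxo2)
      have hyH : d⁻¹ * y * d ∈ Subgroup.centralizer ({z} : Set G) := by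
        rw [Subgroup.mem_centralizer_iff]
        intro h hh
        rw [Set.mem_singleton_iff.mp hh]
        have h1 : x * y = y * x := hcomm.eq
        rw [← hd] at h1
        calc z * (d⁻¹ * y * d) = d⁻¹ * ((d * z * d⁻¹) * y) * d := by group
          _ = d⁻¹ * (y * (d * z * d⁻¹)) * d := by rw [h1]
          _ = d⁻¹ * y * d * z := by group
      have hyo' : ¬ 2 ∣ orderOf
          (⟨d⁻¹ * y * d, hyH⟩ : Subgroup.centralizer ({z} : Set G)) := by
        rw [Subgroup.orderOf_mk]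
        have : d⁻¹ * y * d = MulAut.conj d⁻¹ y := by simp
        rw [this, MulEquiv.orderOf_eq]
        exact hyo
      obtain ⟨kk, hkk⟩ := hidx
      have := Cfsg.Agent.Lib.helper9.ppc_normal 2 (Subgroup.centralizer ({z} : Set G))
      have hmem := mem_of_pRegular_of_index_pow
        (Cfsg.pPrimeCore 2 (Subgroup.centralizer ({z} : Set G))) Nat.prime_two hkk hyo'
      have hv : d⁻¹ * y * d ∈ Cfsg.centralizerPPrimeCore 2 z :=
        ⟨⟨d⁻¹ * y * d, hyH⟩, hmem, rfl⟩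
      have h42 := Cfsg.Agent.S0942.result 2 M hM z hzpow (d⁻¹ * y * d) hv ζ hζ
      have hg' : g = d * (z * (d⁻¹ * y * d)) * d⁻¹ := by rw [← hxy, ← hd]; group
      rw [hg', isClassFunction_irr ζ, h42, hζz]
    have hle := factorization_le_of_vanish_singular 2 ζ hvan
    have hsing := (Cfsg.Agent.S0914.result 2 M hM ζ).mp
      ((not_dvd_div_iff_factorization_le 2 ζ).mpr hle)
    have htζ : trivIrr G ∈ Cfsg.blockOf M ζ.1 := sameBlock_symm hζ
    rw [hsing] at htζ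
    have hteq : trivIrr G = ζ := htζ
    rw [← hteq, trivIrr_apply] at hζz
    exact one_ne_zero hζz
  -- the sum of squares
  have hsum : ∑ ζ ∈ Finset.univ.filter
      (fun ζ : Cfsg.IrrCharacter G => ζ ∈ Cfsg.principalBlock M G), (k ζ) ^ 2 = 4 := by
    rw [finsum_mem_def, finsum_eq_sum_of_fintype] at h47
    have h1 : ∀ ζ : Cfsg.IrrCharacter G,
        (Cfsg.principalBlock M G).indicator (fun ζ : Cfsg.IrrCharacter G => ‖ζ.1 z‖ ^ 2) ζ
          = (((if ζ ∈ Cfsg.principalBlock M G then (k ζ) ^ 2 else 0 : ℤ)) : ℝ) := by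
      intro ζ
      by_cases h : ζ ∈ Cfsg.principalBlock M G
      · rw [Set.indicator_of_mem h, if_pos h, hk ζ, Complex.norm_intCast]
        push_cast
        rw [sq_abs]
      · rw [Set.indicator_of_notMem h, if_neg h]
        simp
    rw [Finset.sum_congr rfl (fun ζ _ => h1 ζ)] at h47
    rw [Finset.sum_filter]
    exact_mod_cast h47
  obtain ⟨B, hBdef⟩ : ∃ B : Finset (Cfsg.IrrCharacter G), B = Finset.univ.filter
      (fun ζ : Cfsg.IrrCharacter G => ζ ∈ Cfsg.principalBlock M G) := ⟨_, rfl⟩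
  rw [← hBdef] at hsum
  have hBmem : ∀ ζ : Cfsg.IrrCharacter G, ζ ∈ B ↔ ζ ∈ Cfsg.principalBlock M G := by
    intro ζ
    rw [hBdef, Finset.mem_filter]
    simp
  have htB' : trivIrr G ∈ B := (hBmem _).mpr htB
  have hkt : k (trivIrr G) = 1 := by
    have := hk (trivIrr G)
    rw [trivIrr_apply] at this
    exact_mod_cast this.symm
  have hsum' : ∑ ζ ∈ B.erase (trivIrr G), (k ζ) ^ 2 = 3 := by
    have := Finset.add_sum_erase B (fun ζ => (k ζ) ^ 2) htB'
    rw [hsum] at this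
    simp only [hkt] at this
    linarith
  have hnz' : ∀ ζ ∈ B.erase (trivIrr G), k ζ ≠ 0 :=
    fun ζ hζ => hnz ζ ((hBmem ζ).mp (Finset.mem_of_mem_erase hζ))
  have hone' : ∀ ζ ∈ B.erase (trivIrr G), (k ζ) ^ 2 = 1 := by
    intro ζ hζ
    by_contra hne
    have h0 := hnz' ζ hζ
    have h2 : 4 ≤ (k ζ) ^ 2 := by
      rcases lt_or_gt_of_ne h0 with hlt | hgt
      · by_cases h' : k ζ = -1
        · exfalso; apply hne; rw [h']; norm_num
        · have : k ζ ≤ -2 := by omega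
          nlinarith
      · by_cases h' : k ζ = 1
        · exfalso; apply hne; rw [h']; norm_num
        · have : 2 ≤ k ζ := by omega
          nlinarith
    have h3 := Finset.single_le_sum (f := fun ζ => (k ζ) ^ 2) (fun i _ => sq_nonneg (k i)) hζ
    rw [hsum'] at h3
    have h3' : (k ζ) ^ 2 ≤ 3 := h3
    linarith
  have hcard : (B.erase (trivIrr G)).card = 3 := by
    rw [Finset.sum_congr rfl hone', Finset.sum_const, nsmul_eq_mul, mul_one] at hsum'
    exact_mod_cast hsum'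
  obtain ⟨a, b, c, hab, hac, hbc, hBabc⟩ := Finset.card_eq_three.mp hcard
  have ha : a ∈ B.erase (trivIrr G) := by rw [hBabc]; simp
  have hb : b ∈ B.erase (trivIrr G) := by rw [hBabc]; simp
  have hc : c ∈ B.erase (trivIrr G) := by rw [hBabc]; simp
  have hta : trivIrr G ≠ a := fun h => (Finset.mem_erase.mp ha).1 h.symm
  have htb : trivIrr G ≠ b := fun h => (Finset.mem_erase.mp hb).1 h.symm
  have htc : trivIrr G ≠ c := fun h => (Finset.mem_erase.mp hc).1 h.symm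
  have hmem : ∀ χ : Cfsg.IrrCharacter G,
      χ ∈ Cfsg.principalBlock M G ↔ χ = trivIrr G ∨ χ = a ∨ χ = b ∨ χ = c := by
    intro χ
    constructor
    · intro h
      by_cases hχ : χ = trivIrr G
      · exact Or.inl hχ
      · right
        have : χ ∈ B.erase (trivIrr G) := Finset.mem_erase.mpr ⟨hχ, (hBmem χ).mpr h⟩
        rw [hBabc] at this
        simpa using this
    · rintro (h | h)
      · rw [h]; exact htB
      · have : χ ∈ B.erase (trivIrr G) := by rw [hBabc]; simpa using h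
        exact (hBmem χ).mp (Finset.mem_of_mem_erase this)
  have hsq : ∀ x : ℤ, x ^ 2 = 1 → x = 1 ∨ x = -1 := by
    intro x hx
    have : (x - 1) * (x + 1) = 0 := by linear_combination hx
    rcases mul_eq_zero.mp this with h | h
    · left; linarith
    · right; linarith
  -- orthogonality at the identity
  have h1 := horth 1 (by rw [orderOf_one]; exact odd_one)
  rw [finsum_mem_four _ (trivIrr G) a b c hta htb htc hab hac hbc hmem] at h1
  rw [hk a, hk b, hk c, ← charDegree_cast a, ← charDegree_cast b, ← charDegree_cast c] at h1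
  simp only [trivIrr_apply] at h1
  have h1' : 1 + k a * (Cfsg.charDegree a.1 : ℤ) + k b * (Cfsg.charDegree b.1 : ℤ)
      + k c * (Cfsg.charDegree c.1 : ℤ) = 0 := by exact_mod_cast h1
  have hda := charDegree_pos a
  have hdb := charDegree_pos b
  have hdc := charDegree_pos c
  have e1 : ((1 : ℤ) : ℂ) = 1 := by simp
  have em1 : ((-1 : ℤ) : ℂ) = -1 := by simp
  rcases hsq _ (hone' a ha) with ka | ka <;> rcases hsq _ (hone' b hb) with kb | kb <;>
    rcases hsq _ (hone' c hc) with kc | kc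
  · exfalso; rw [ka, kb, kc] at h1'; omega
  · exact assemble M z (trivIrr G) a b c 1 (Or.inl rfl) rfl hta htb htc hab hac hbc hmem
      (by rw [hk a, ka, e1]) (by rw [hk b, kb]) (by rw [hk c, kc, em1]) hconj hP4 horth
  · exact assemble M z (trivIrr G) a c b 1 (Or.inl rfl) rfl hta htc htb hac hab hbc.symm
      (fun χ => (hmem χ).trans (by tauto))
      (by rw [hk a, ka, e1]) (by rw [hk c, kc]) (by rw [hk b, kb, em1]) hconj hP4 horth
  · exact assemble M z (trivIrr G) a b c (-1) (Or.inr rfl) rfl hta htb htc hab hac hbc hmem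
      (by rw [hk a, ka, e1]) (by rw [hk b, kb]) (by rw [hk c, kc, em1]) hconj hP4 horth
  · exact assemble M z (trivIrr G) b c a 1 (Or.inl rfl) rfl htb htc hta hbc hab.symm hac.symm
      (fun χ => (hmem χ).trans (by tauto))
      (by rw [hk b, kb, e1]) (by rw [hk c, kc]) (by rw [hk a, ka, em1]) hconj hP4 horth
  · exact assemble M z (trivIrr G) b a c (-1) (Or.inr rfl) rfl htb hta htc hab.symm hbc hac
      (fun χ => (hmem χ).trans (by tauto))
      (by rw [hk b, kb, e1]) (by rw [hk a, ka]) (by rw [hk c, kc, em1]) hconj hP4 horth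
  · exact assemble M z (trivIrr G) c a b (-1) (Or.inr rfl) rfl htc hta htb hac.symm hbc.symm hab
      (fun χ => (hmem χ).trans (by tauto))
      (by rw [hk c, kc, e1]) (by rw [hk a, ka]) (by rw [hk b, kb, em1]) hconj hP4 horth
  · exfalso; rw [ka, kb, kc] at h1'; omega

end Cfsg.Agent.S0948
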