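import Cfsg.Statements.S0956
import Mathlib
import Cfsg.Agent.Lib.helper16.GreenFix
import Cfsg.Agent.Lib.helper5.SepBlocks
import Cfsg.Agent.Lib.helper5.BlockBrauer2
import Cfsg.Agent.Lib.helper5.BlockReg

set_option autoImplicit false
open Cfsg
open Cfsg.Agent.Lib.helper5 Cfsg.Agent.Lib.helper23 Cfsg.Agent.Lib.helper24

namespace Cfsg.Agent.S0956

/-- Let D be a defect group of a block of the finite group G (relative to a maximal ideal M of the algebraic integers containing the prime p) and P a Sylow p-subgroup containing D. Then there is an element x of order prime to p such that D is a Sylow p-subgroup of the centralizer of x and D = P ∩ x P x⁻¹. -/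
theorem result {G : Type*} [Group G] [Finite G] (p : ℕ) [Fact p.Prime] (M : Ideal Cfsg.AlgInt) (hM : Cfsg.IsPModular p M) (B : Set (Cfsg.IrrCharacter G)) (hB : Cfsg.IsPBlock M B) (D : Subgroup G) (hD : Cfsg.IsDefectGroup p M B D) (P : Sylow p G) (hDP : D ≤ P) : ∃ x : G, ¬ p ∣ orderOf x ∧ (∃ S : Sylow p (Subgroup.centralizer ({x} : Set G)), (S : Subgroup (Subgroup.centralizer ({x} : Set G))).map (Subgroup.centralizer ({x} : Set G)).subtype = D) ∧ (P : Subgroup G) ⊓ (P : Subgroup G).map (MulAut.conj x).toMonoidHom = D := by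
  classical
  have := Fintype.ofFinite G
  have := Fintype.ofFinite (Cfsg.IrrCharacter G)
  have hMp := isPModular_isPrime hM
  obtain ⟨χ₀, rfl⟩ := hB
  obtain ⟨g₀, hg₀, P₀, hDeq⟩ := hD
  obtain ⟨e, he_def⟩ : ∃ e : Cfsg.IrrCharacter G → ℂ,
      e = (Cfsg.blockOf M χ₀.1).indicator (fun _ => (1 : ℂ)) := ⟨_, rfl⟩
  have he : e ∈ osimaRing G M hMp := by rw [he_def]; exact indicator_mem_osimaRing hMp χ₀
  have hee : e * e = e := by rw [he_def]; exact indicator_mul_self _
  have hcoef : ∀ g : G, coef e g = Cfsg.blockCoeff (Cfsg.blockOf M χ₀.1) g := by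
    intro g
    rw [he_def, coef_indicator]
  have hDp : IsPGroup p D := by rw [hDeq]; exact sylow_map_isPGroup _ P₀
  have hDg : D ≤ Subgroup.centralizer ({g₀} : Set G) := by rw [hDeq]; exact sylow_map_le _ P₀
  obtain ⟨N, hN⟩ : ∃ N : Subgroup G, N = Subgroup.normalizer (D : Set G) := ⟨_, rfl⟩
  obtain ⟨C, hC⟩ : ∃ C : Subgroup G, C = Subgroup.centralizer (D : Set G) := ⟨_, rfl⟩
  have hCN : Subgroup.centralizer (D : Set G) ≤ N := by
    rw [hN]; exact Subgroup.centralizer_le_normalizer _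
  have := Fintype.ofFinite N
  have := Fintype.ofFinite (Cfsg.IrrCharacter N)
  have hnorm : ∀ h ∈ N, ∀ s ∈ Subgroup.centralizer (D : Set G),
      h * s * h⁻¹ ∈ Subgroup.centralizer (D : Set G) :=
    conj_mem_centralizer_of_le_normalizer (le_of_eq hN)
  let εR : N → locRing M hMp := fun n =>
    ⟨brTrunc N (Subgroup.centralizer (D : Set G)) e n,
      (mem_locRing hMp).mpr (brTrunc_memLocalRing hMp N _ he n)⟩
  let ε : N → resRing M hMp := fun n => resMap M hMp (εR n)
  have hp0 : ((p : ℕ) : resRing M hMp) = 0 := by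
    have h1 : ((p : ℕ) : resRing M hMp) = resMap M hMp ((p : ℕ) : locRing M hMp) :=
      (map_natCast _ _).symm
    rw [h1, resMap_eq_zero_iff]
    push_cast
    exact (memLocalIdeal_natCast_iff hM p).mpr dvd_rfl
  have hcl : ∀ x y : N, ε (y * x * y⁻¹) = ε x := by
    intro x y
    show resMap M hMp (εR _) = resMap M hMp (εR _)
    congr 1
    apply Subtype.ext
    exact brTrunc_isClassFunction hnorm e x y
  have hidem : ∀ y : N, ∑ x : N, ε x * ε (x⁻¹ * y) = ε y := by
    intro y
    have h1 := brTrunc_mul N hM D hDp hCN he he y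
    rw [hee] at h1
    have h2 := memLocalIdeal_neg h1
    rw [neg_sub] at h2
    show ∑ x : N, resMap M hMp (εR x) * resMap M hMp (εR (x⁻¹ * y)) = resMap M hMp (εR y)
    simp_rw [← map_mul]
    rw [← map_sum, resMap_eq_iff]
    convert h2 using 2
    unfold conv
    push_cast
    rfl
  have hg₀C : g₀ ∈ Subgroup.centralizer (D : Set G) := le_centralizer_singleton_iff.mp hDg
  have hne : ε ≠ 0 := by
    intro h0
    have h1 : ε ⟨g₀, hCN hg₀C⟩ = 0 := by rw [h0]; rfl
    have h2 : resMap M hMp (εR ⟨g₀, hCN hg₀C⟩) = 0 := h1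
    rw [resMap_eq_zero_iff] at h2
    have h3 : Cfsg.MemLocalIdeal M (brTrunc N (Subgroup.centralizer (D : Set G)) e
        (⟨g₀, hCN hg₀C⟩ : N)) := h2
    rw [brTrunc_of_mem _ (show (((⟨g₀, hCN hg₀C⟩ : N)) : G) ∈ Subgroup.centralizer (D : Set G)
      from hg₀C), hcoef] at h3
    exact hg₀.2.1 h3
  obtain ⟨x, hx, hfix⟩ := Cfsg.Agent.Lib.helper16.GreenFix.exists_fixed_class p hp0
    ((P : Subgroup G).subgroupOf N) (P.2.comap_subtype) ε hcl hidem hne
  -- properties of x
  have hx2 : ¬ Cfsg.MemLocalIdeal M (brTrunc N (Subgroup.centralizer (D : Set G)) e x) := by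
    intro h
    apply hx
    show resMap M hMp (εR x) = 0
    rw [resMap_eq_zero_iff]
    exact h
  have hxC : (x : G) ∈ Subgroup.centralizer (D : Set G) := by
    by_contra hcon
    rw [brTrunc_of_not_mem _ hcon] at hx2
    exact hx2 (memLocalIdeal_zero hMp.ne_top)
  rw [brTrunc_of_mem _ hxC, hcoef] at hx2
  have hfix' : ∀ r : G, r ∈ P → r ∈ N → (x : G) * r * (x : G)⁻¹ ∈ P →
      (x : G) * r * (x : G)⁻¹ = r := by
    intro r hrP hrN hxr
    have h1 := hfix ⟨r, hrN⟩ (by rw [Subgroup.mem_subgroupOf]; exact hrP)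
      (by rw [Subgroup.mem_subgroupOf]; push_cast; exact hxr)
    have h2 := congrArg Subtype.val h1
    push_cast at h2
    exact h2
  have hreg : ¬ p ∣ orderOf (x : G) := by
    intro hdiv
    have h0 := coef_eq_zero_of_singular hM he hee (x : G) hdiv
    rw [hcoef] at h0
    rw [h0] at hx2
    exact hx2 (memLocalIdeal_zero hMp.ne_top)
  have hDx : D ≤ Subgroup.centralizer ({(x : G)} : Set G) := le_centralizer_singleton_iff.mpr hxC
  have hu : ¬ Cfsg.MemLocalIdeal M (Cfsg.centralChar χ₀.1 g₀) :=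
    hg₀.2.2 χ₀ (mem_blockOf_self hMp.ne_top χ₀)
  obtain ⟨S, hS⟩ := exists_sylow_ge (Subgroup.centralizer ({(x : G)} : Set G)) D hDx hDp
  have hcard : ∀ E : Subgroup G, IsPGroup p E → E ≤ Subgroup.centralizer ({(x : G)} : Set G) →
      D ≤ E → E = D := by
    intro E hE hEx hDE
    obtain ⟨t, ht⟩ := key_conj hM χ₀ g₀ (x : G) hu hx2 P₀ E hE hEx
    rw [← hDeq] at ht
    symm
    apply Subgroup.eq_of_le_of_card_ge hDE
    calc Nat.card E = Nat.card (E.map (MulAut.conj t).toMonoidHom) := (card_map_conj t E).symm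
      _ ≤ Nat.card D := Subgroup.card_le_of_le ht
  have hSD : (S : Subgroup (Subgroup.centralizer ({(x : G)} : Set G))).map
      (Subgroup.centralizer ({(x : G)} : Set G)).subtype = D :=
    hcard _ (sylow_map_isPGroup _ S) (sylow_map_le _ S) hS
  refine ⟨(x : G), hreg, ⟨S, hSD⟩, ?_⟩
  obtain ⟨T, hT⟩ : ∃ T : Subgroup G,
      T = (P : Subgroup G) ⊓ (P : Subgroup G).map (MulAut.conj (x : G)).toMonoidHom := ⟨_, rfl⟩
  rw [← hT]
  have hTP : T ≤ P := by rw [hT]; exact inf_le_left
  have hTp : IsPGroup p T := P.2.to_le hTP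
  have hDT : D ≤ T := by
    rw [hT]
    refine le_inf hDP ?_
    intro d hd
    rw [mem_map_conj]
    have hc := Subgroup.mem_centralizer_iff.mp hxC d hd
    have e1 : (x : G)⁻¹ * d * (x : G) = d := by
      rw [mul_assoc, hc, inv_mul_cancel_left]
    rw [e1]
    exact hDP hd
  have hxN : (x : G) ∈ N := x.2
  have hTN : T ⊓ N ≤ D := by
    have h1 : T ⊓ N = D := by
      apply hcard _ (hTp.to_le inf_le_left)
      · intro t ht
        have htT : t ∈ T := ht.1
        have htN : t ∈ N := ht.2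
        rw [hT] at htT
        have htP : t ∈ P := htT.1
        have ht2 : (x : G)⁻¹ * t * (x : G) ∈ P := mem_map_conj.mp htT.2
        have h3 := hfix' ((x : G)⁻¹ * t * (x : G)) ht2
          (N.mul_mem (N.mul_mem (N.inv_mem hxN) htN) hxN)
          (by
            have e1 : (x : G) * ((x : G)⁻¹ * t * (x : G)) * (x : G)⁻¹ = t := by group
            rw [e1]
            exact htP)
        have e1 : (x : G) * ((x : G)⁻¹ * t * (x : G)) * (x : G)⁻¹ = t := by group
        rw [e1] at h3
        rw [mem_centralizer_singleton_comm]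
        calc (x : G) * t = (x : G) * ((x : G)⁻¹ * t * (x : G)) := by rw [← h3]
          _ = t * (x : G) := by group
      · refine le_inf hDT ?_
        rw [hN]
        exact Subgroup.le_normalizer
    exact le_of_eq h1
  apply le_antisymm _ hDT
  by_contra hcon
  have hlt : D.subgroupOf T < ⊤ := by
    rw [lt_top_iff_ne_top, Ne, Subgroup.subgroupOf_eq_top]
    exact hcon
  have hnil : Group.IsNilpotent T := hTp.isNilpotent
  have hnc := Group.normalizerCondition_of_isNilpotent (G := T) (D.subgroupOf T) hlt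
  obtain ⟨q, hq1, hq2⟩ := SetLike.exists_of_lt hnc
  rw [← Subgroup.subgroupOf_normalizer_eq hDT, Subgroup.mem_subgroupOf] at hq1
  rw [Subgroup.mem_subgroupOf] at hq2
  exact hq2 (hTN ⟨q.2, by rw [hN]; exact hq1⟩)

end Cfsg.Agent.S0956
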