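import Mathlib
import Cfsg.Agent.Lib.helper5.BlockCover
import Cfsg.Statements.S0963

set_option autoImplicit false
open scoped ComplexConjugate

namespace Cfsg.Agent.S0963

open Cfsg.Agent.Lib.helper5 Cfsg.Agent.Lib.helper23 Cfsg.Agent.Lib.helper24

/-- Let N be a normal subgroup of the finite group G, χ an irreducible character of G and θ an irreducible character of N. Then θ occurs in the restriction of χ to N if and only if, for every n ∈ N, the central character of χ at n (class size in G times χ n over χ 1) equals the sum of θ m / θ 1 over the elements m of N conjugate in G to n. -/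
theorem result {G : Type*} [Group G] [Fintype G] (N : Subgroup G) [N.Normal] [Fintype N] (χ : Cfsg.IrrCharacter G) (θ : Cfsg.IrrCharacter N) : Cfsg.classInner (fun n : N => (χ : G → ℂ) n) (θ : N → ℂ) ≠ 0 ↔ ∀ n : N, Cfsg.centralChar (χ : G → ℂ) (n : G) = Cfsg.inducedCentralChar N (θ : N → ℂ) (n : G) := by
  classical
  have := Fintype.ofFinite (Cfsg.IrrCharacter G)
  have := Fintype.ofFinite (Cfsg.IrrCharacter N)
  constructor
  · intro h n
    exact centralChar_eq_induced_of_constituent N χ θ h n
  · intro h
    obtain ⟨θ', hθ'⟩ := exists_constituent_restrict N χ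
    have h' : ∀ n : N, Cfsg.inducedCentralChar N θ.1 (n : G)
        = Cfsg.inducedCentralChar N θ'.1 (n : G) := by
      intro n
      rw [← h n, centralChar_eq_induced_of_constituent N χ θ' hθ' n]
    have heq := eq_of_induced_eq N _ (conjOrb_indicator_inv N θ') θ θ' h'
    rw [Set.indicator_of_mem (self_mem_conjOrb N θ')] at heq
    have hθU : θ ∈ conjOrb N θ' := by
      by_contra hn
      rw [Set.indicator_of_notMem hn] at heq
      exact zero_ne_one heq
    obtain ⟨g, rfl⟩ := hθU
    rw [constituent_conjIrr]
    exact hθ'

end Cfsg.Agent.S0963
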