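import Mathlib
import Cfsg.Agent.Lib.helper5.BlockCover
import Cfsg.Statements.S0965

set_option autoImplicit false
open scoped ComplexConjugate

namespace Cfsg.Agent.S0965

open Cfsg.Agent.Lib.helper5 Cfsg.Agent.Lib.helper23 Cfsg.Agent.Lib.helper24

/-- Let N be a normal subgroup of the finite group G and let B, b be blocks of G and of N relative to a maximal ideal M of the algebraic integers containing the prime p. Then some χ ∈ B has a constituent in b on restriction to N if and only if, for all χ ∈ B, θ ∈ b and n ∈ N, the central character of χ at n is congruent modulo the local ideal at M to the sum of θ m / θ 1 over the elements m ∈ N conjugate in G to n. -/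
theorem result {G : Type*} [Group G] [Fintype G] (p : ℕ) [Fact p.Prime] (M : Ideal Cfsg.AlgInt) (hM : Cfsg.IsPModular p M) (N : Subgroup G) [N.Normal] [Fintype N] (B : Set (Cfsg.IrrCharacter G)) (hB : Cfsg.IsPBlock M B) (b : Set (Cfsg.IrrCharacter N)) (hb : Cfsg.IsPBlock M b) : (∃ χ ∈ B, ∃ θ ∈ b, Cfsg.classInner (fun n : N => (χ : G → ℂ) n) (θ : N → ℂ) ≠ 0) ↔ ∀ χ ∈ B, ∀ θ ∈ b, ∀ n : N, Cfsg.MemLocalIdeal M (Cfsg.centralChar (χ : G → ℂ) (n : G) - Cfsg.inducedCentralChar N (θ : N → ℂ) (n : G)) := by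
  classical
  have := Fintype.ofFinite (Cfsg.IrrCharacter G)
  have := Fintype.ofFinite (Cfsg.IrrCharacter N)
  have hMp := isPModular_isPrime hM
  obtain ⟨χ₀, rfl⟩ := hB
  obtain ⟨θ₀, rfl⟩ := hb
  constructor
  · rintro ⟨χ₁, hχ₁, θ₁, hθ₁, hcon⟩ χ hχ θ hθ n
    have h1 := centralChar_eq_induced_of_constituent N χ₁ θ₁ hcon n
    have h2 : Cfsg.SameBlock M χ.1 χ₁.1 := sameBlock_trans hMp (sameBlock_symm hχ) hχ₁
    have h3 : Cfsg.SameBlock M θ₁.1 θ.1 := sameBlock_trans hMp (sameBlock_symm hθ₁) hθ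
    have h4 := memLocalIdeal_inducedCentralChar_sub hMp N θ₁.1 θ.1 (isClassFunction_irr θ₁)
      (isClassFunction_irr θ) h3 (n : G)
    have h5 := memLocalIdeal_add hMp (h2 (n : G)) h4
    rw [h1] at h5
    have e : Cfsg.centralChar χ.1 (n : G) - Cfsg.inducedCentralChar N θ₁.1 (n : G)
        + (Cfsg.inducedCentralChar N θ₁.1 (n : G) - Cfsg.inducedCentralChar N θ.1 (n : G))
        = Cfsg.centralChar χ.1 (n : G) - Cfsg.inducedCentralChar N θ.1 (n : G) := by ring
    rw [e] at h5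
    exact h5
  · intro h
    have hχ₀ := mem_blockOf_self hMp.ne_top χ₀
    have hθ₀ := mem_blockOf_self hMp.ne_top θ₀
    obtain ⟨θ₁, hθ₁⟩ := exists_constituent_restrict N χ₀
    have hcong : ∀ n : N, Cfsg.MemLocalIdeal M (Cfsg.inducedCentralChar N θ₀.1 (n : G)
        - Cfsg.inducedCentralChar N θ₁.1 (n : G)) := by
      intro n
      rw [← centralChar_eq_induced_of_constituent N χ₀ θ₁ hθ₁ n]
      have := memLocalIdeal_neg (h χ₀ hχ₀ θ₀ hθ₀ n)
      rwa [neg_sub] at this
    obtain ⟨g, hg⟩ := exists_conj_sameBlock N hMp θ₀ θ₁ hcong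
    refine ⟨χ₀, hχ₀, conjIrr N g θ₁, hg, ?_⟩
    rw [constituent_conjIrr]
    exact hθ₁

end Cfsg.Agent.S0965
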