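import Cfsg.Statements.S0968
import Cfsg.Agent.Lib.helper5.BlockCentralProd
import Cfsg.Agent.S0941
import Cfsg.Agent.S0914

set_option autoImplicit false
open Cfsg
open Cfsg.Agent.Lib.helper5 Cfsg.Agent.Lib.helper23 Cfsg.Agent.Lib.helper24

namespace Cfsg.Agent.S0968

/-- Let P be a p-subgroup of the finite group G with P ⊔ C_G(P) = G, and let B be a block with defect group P relative to a maximal ideal M of the algebraic integers containing p. Then there is exactly one θ ∈ B with θ x = θ 1 for all x ∈ P; for this θ the exponent of p in θ(1) equals the exponent of p in the index of P; and the number of members of B equals the number of conjugacy classes of P. -/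
theorem result {G : Type*} [Group G] [Finite G] (p : ℕ) [Fact p.Prime] (M : Ideal Cfsg.AlgInt) (hM : Cfsg.IsPModular p M) (P : Subgroup G) (hP : IsPGroup p P) (hG : P ⊔ Subgroup.centralizer (P : Set G) = ⊤) (B : Set (Cfsg.IrrCharacter G)) (hB : Cfsg.IsPBlock M B) (hD : Cfsg.IsDefectGroup p M B P) : (∃! θ : Cfsg.IrrCharacter G, θ ∈ B ∧ ∀ x ∈ P, (θ : G → ℂ) x = (θ : G → ℂ) 1) ∧ (∀ θ ∈ B, (∀ x ∈ P, (θ : G → ℂ) x = (θ : G → ℂ) 1) → (Cfsg.charDegree (θ : G → ℂ)).factorization p = P.index.factorization p) ∧ Nat.card B = Nat.card (ConjClasses P) := by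
  classical
  haveI := Fintype.ofFinite G
  haveI := Fintype.ofFinite (Cfsg.IrrCharacter G)
  haveI := Fintype.ofFinite P
  haveI := Fintype.ofFinite (Cfsg.IrrCharacter P)
  haveI := Fintype.ofFinite (Subgroup.centralizer (P : Set G))
  haveI := Fintype.ofFinite (Cfsg.IrrCharacter (Subgroup.centralizer (P : Set G)))
  have hMp := isPModular_isPrime hM
  have hMtop := hMp.ne_top
  have hp := hM.1
  obtain ⟨χ₀, rfl⟩ := hB
  haveI hPn : P.Normal := normal_of_sup_centralizer P hG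
  obtain ⟨θ, hθB, hθker⟩ := exists_mem_block_kernel hM P hP χ₀
  have hdeg : ∀ ξ ∈ Cfsg.blockOf M χ₀.1, (∀ x ∈ P, ξ.1 x = ξ.1 1) →
      (Cfsg.charDegree ξ.1).factorization p = P.index.factorization p :=
    fun ξ hξ hk => factorization_degree_of_kernel hM P χ₀ hD ξ hξ hk
  refine ⟨?_, hdeg, ?_⟩
  · -- uniqueness of the canonical character
    refine ⟨θ, ⟨hθB, hθker⟩, ?_⟩
    rintro θ₂ ⟨hθ₂B, hθ₂ker⟩
    obtain ⟨θ', hθ'irr, hθ'⟩ := isIrrCharacter_deflate P θ.2 hθker
    obtain ⟨θ₂', hθ₂'irr, hθ₂'⟩ := isIrrCharacter_deflate P θ₂.2 hθ₂ker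
    have hsame : Cfsg.SameBlock M θ.1 θ₂.1 := sameBlock_trans hMp (sameBlock_symm hθB) hθ₂B
    have e1 : θ' ∘ (QuotientGroup.mk : G → G ⧸ P) = θ.1 := funext hθ'
    have e2 : θ₂' ∘ (QuotientGroup.mk : G → G ⧸ P) = θ₂.1 := funext hθ₂'
    have h941 := ((Cfsg.Agent.S0941.result p M hM P hP (index_centralizer_pow P hP hG)).1
      ⟨θ', hθ'irr⟩ ⟨θ₂', hθ₂'irr⟩).mpr (by rw [e1, e2]; exact hsame)
    have hone : θ' 1 = θ.1 1 := hθ' 1
    have hcd : Cfsg.charDegree θ' = Cfsg.charDegree θ.1 := by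
      unfold Cfsg.charDegree
      rw [hone]
    have hnd : ¬ p ∣ Nat.card (G ⧸ P) / Cfsg.charDegree θ' := by
      rw [not_dvd_div_iff_factorization_le p (⟨θ', hθ'irr⟩ : Cfsg.IrrCharacter (G ⧸ P))]
      show (Nat.card (G ⧸ P)).factorization p ≤ (Cfsg.charDegree θ').factorization p
      rw [hcd, hdeg θ hθB hθker]
      exact le_of_eq rfl
    have h914 := (Cfsg.Agent.S0914.result p M hM (⟨θ', hθ'irr⟩ : Cfsg.IrrCharacter (G ⧸ P))).mp hnd
    have hmem : (⟨θ₂', hθ₂'irr⟩ : Cfsg.IrrCharacter (G ⧸ P)) ∈ Cfsg.blockOf M θ' := h941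
    rw [h914] at hmem
    have heq : θ₂' = θ' := congrArg Subtype.val (Set.mem_singleton_iff.mp hmem)
    apply Subtype.ext
    funext g
    rw [← hθ₂' g, ← hθ' g, heq]
  · -- the count
    choose η ψ hηψ using exists_prod_decomp P hG
    have hfac : ∀ (χ : Cfsg.IrrCharacter G) (a : P) (v : G),
        v ∈ Subgroup.centralizer (P : Set G) →
        χ.1 ((a : G) * v) * (η χ).1 1 = (η χ).1 a * χ.1 v := by
      intro χ a v hv
      have h1 : χ.1 ((a : G) * v) = (η χ).1 a * (ψ χ).1 ⟨v, hv⟩ := hηψ χ a ⟨v, hv⟩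
      have h2 : χ.1 v = (η χ).1 1 * (ψ χ).1 ⟨v, hv⟩ := by
        have := hηψ χ 1 ⟨v, hv⟩
        simpa using this
      rw [h1, h2]
      ring
    have hθ1 : ∀ a : P, θ.1 (a : G) = (η θ).1 a * (ψ θ).1 1 := by
      intro a
      have := hηψ θ a 1
      simpa using this
    have hconst : ∀ a : P, (η θ).1 a = (η θ).1 1 := by
      intro a
      have h3 := hθker a a.2
      have h2 := hθ1 1
      rw [Subgroup.coe_one] at h2
      rw [hθ1 a, h2] at h3
      exact mul_right_cancel₀ (irr_one_ne_zero (ψ θ)) h3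
    have hηθ : Cfsg.charDegree (η θ).1 = 1 := by
      have h4 := Cfsg.Agent.Lib.helper22.sum_normSq_irr (η θ)
      have h4' : ∑ a : P, Complex.normSq ((η θ).1 a)
          = ∑ a : P, (Cfsg.charDegree (η θ).1 : ℝ) ^ 2 :=
        Finset.sum_congr rfl (fun a _ => by
          rw [hconst a, Cfsg.Agent.Lib.helper22.normSq_irr_one])
      rw [h4', Finset.sum_const, Finset.card_univ, nsmul_eq_mul, ← Nat.card_eq_fintype_card] at h4
      have hP0 : (0 : ℝ) < (Nat.card P : ℝ) := by exact_mod_cast Nat.card_pos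
      have h5 : (Cfsg.charDegree (η θ).1 : ℝ) ^ 2 = 1 := by
        have : (Nat.card P : ℝ) * (Cfsg.charDegree (η θ).1 : ℝ) ^ 2 = (Nat.card P : ℝ) * 1 := by
          rw [mul_one]; exact h4
        exact mul_left_cancel₀ hP0.ne' this
      have h6 : (Cfsg.charDegree (η θ).1) ^ 2 = 1 := by exact_mod_cast h5
      exact (Nat.pow_eq_one.mp h6).resolve_right two_ne_zero
    have hcardP : Nat.card P = p ^ Cfsg.blockDefect p (Cfsg.blockOf M χ₀.1) :=
      card_defectGroup p hM _ ⟨χ₀, rfl⟩ P hD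
    obtain ⟨d, hd⟩ : ∃ d : ℕ, d = Cfsg.blockDefect p (Cfsg.blockOf M χ₀.1) := ⟨_, rfl⟩
    rw [← hd] at hcardP
    have hda : (Cfsg.charDegree θ.1).factorization p + d = (Nat.card G).factorization p := by
      rw [hdeg θ hθB hθker, ← Subgroup.index_mul_card P,
        Nat.factorization_mul Subgroup.index_ne_zero_of_finite Nat.card_pos.ne', hcardP,
        Nat.Prime.factorization_pow hp]
      simp
    have hS : ∀ χ : Cfsg.IrrCharacter G, sReg p χ.1 * (Nat.card P : ℝ)
        ≤ (Nat.card G : ℝ) * (Cfsg.charDegree (η χ).1 : ℝ) ^ 2 :=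
      fun χ => sum_reg_le P hP hG χ (η χ) (hfac χ)
    have hn : ∀ χ ∈ Cfsg.blockOf M χ₀.1,
        ((nInt p θ χ : ℤ) : ℝ) ^ 2 * ((p ^ d : ℕ) : ℝ) ^ 2
          ≤ ((p ^ (Nat.card G).factorization p : ℕ) : ℝ) ^ 2
            * ((Cfsg.charDegree (η χ).1 : ℕ) : ℝ) ^ 2 := by
      intro χ _
      have h1 := nInt_sq_le p θ χ
      have h2 := hS θ
      have h3 := hS χ
      rw [hηθ] at h2
      simp only [Nat.cast_one, one_pow, mul_one] at h2
      rw [← hcardP]
      have hG0 : (0 : ℝ) < (Nat.card G : ℝ) := by exact_mod_cast Nat.card_pos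
      have h4 : (sReg p θ.1 * (Nat.card P : ℝ)) * (sReg p χ.1 * (Nat.card P : ℝ))
          ≤ (Nat.card G : ℝ) * ((Nat.card G : ℝ) * (Cfsg.charDegree (η χ).1 : ℝ) ^ 2) :=
        mul_le_mul h2 h3 (mul_nonneg (sReg_nonneg p _) (Nat.cast_nonneg _)) hG0.le
      have h5 : (Nat.card G : ℝ) ^ 2 * (((nInt p θ χ : ℤ) : ℝ) ^ 2 * (Nat.card P : ℝ) ^ 2)
          ≤ (Nat.card G : ℝ) ^ 2 * (((p ^ (Nat.card G).factorization p : ℕ) : ℝ) ^ 2
            * (Cfsg.charDegree (η χ).1 : ℝ) ^ 2) := by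
        calc (Nat.card G : ℝ) ^ 2 * (((nInt p θ χ : ℤ) : ℝ) ^ 2 * (Nat.card P : ℝ) ^ 2)
            = ((Nat.card G : ℝ) ^ 2 * ((nInt p θ χ : ℤ) : ℝ) ^ 2) * (Nat.card P : ℝ) ^ 2 := by
              ring
          _ ≤ (((p ^ (Nat.card G).factorization p : ℕ) : ℝ) ^ 2
                * (sReg p θ.1 * sReg p χ.1)) * (Nat.card P : ℝ) ^ 2 :=
              mul_le_mul_of_nonneg_right h1 (sq_nonneg _)
          _ = ((p ^ (Nat.card G).factorization p : ℕ) : ℝ) ^ 2
                * ((sReg p θ.1 * (Nat.card P : ℝ)) * (sReg p χ.1 * (Nat.card P : ℝ))) := by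
              ring
          _ ≤ ((p ^ (Nat.card G).factorization p : ℕ) : ℝ) ^ 2
                * ((Nat.card G : ℝ) * ((Nat.card G : ℝ) * (Cfsg.charDegree (η χ).1 : ℝ) ^ 2)) :=
              mul_le_mul_of_nonneg_left h4 (sq_nonneg _)
          _ = _ := by ring
      exact le_of_mul_le_mul_left h5 (pow_pos hG0 2)
    have hlow := card_le_sum_sq hM χ₀ θ hθB d hda (fun χ => Cfsg.charDegree (η χ).1) hn
    -- the block of C_G(P)
    have hDZ : P.subgroupOf (Subgroup.centralizer (P : Set G))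
        ≤ Subgroup.center (Subgroup.centralizer (P : Set G)) := by
      intro z hz
      rw [Subgroup.mem_center_iff]
      intro c
      apply Subtype.ext
      exact (Subgroup.mem_centralizer_iff.mp c.2 (z : G) (Subgroup.mem_subgroupOf.mp hz)).symm
    have hone : θ.1 1 = (ψ θ).1 1 := by
      have h2 := hθ1 1
      rw [Subgroup.coe_one] at h2
      have h3 : (η θ).1 1 = 1 := by
        rw [← charDegree_cast, hηθ]
        simp
      rw [h2, h3, one_mul]
    have hdegψ : (Cfsg.charDegree (ψ θ).1).factorization p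
        = (P.subgroupOf (Subgroup.centralizer (P : Set G))).index.factorization p := by
      rw [index_subgroupOf_centralizer P hG, ← hdeg θ hθB hθker]
      unfold Cfsg.charDegree
      rw [hone]
    have hblock : ∀ χ ∈ Cfsg.blockOf M χ₀.1, ψ χ ∈ Cfsg.blockOf M (ψ θ).1 := by
      intro χ hχ c
      rw [centralChar_prod P hG θ (η θ) (ψ θ) (hηψ θ) c,
        centralChar_prod P hG χ (η χ) (ψ χ) (hηψ χ) c]
      exact (sameBlock_trans hMp (sameBlock_symm hθB) hχ) (c : G)
    have hcentral : ∀ (χ : Cfsg.IrrCharacter G)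
        (z : Subgroup.centralizer (P : Set G)) (hz : (z : G) ∈ P)
        (g : Subgroup.centralizer (P : Set G)),
        (ψ χ).1 (z * g) = (η χ).1 ⟨(z : G), hz⟩ / (η χ).1 1 * (ψ χ).1 g := by
      intro χ z hz g
      have h1 : χ.1 ((z : G) * (g : G)) = (η χ).1 ⟨(z : G), hz⟩ * (ψ χ).1 g :=
        hηψ χ ⟨(z : G), hz⟩ g
      have h2 : χ.1 ((z : G) * (g : G)) = (η χ).1 1 * (ψ χ).1 (z * g) := by
        have := hηψ χ 1 (z * g)
        simpa using this
      rw [h1] at h2
      have hη1 : (η χ).1 1 ≠ 0 := irr_one_ne_zero (η χ)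
      field_simp
      rw [h2]
      ring
    have hinj : ∀ χ ∈ Cfsg.blockOf M χ₀.1, ∀ χ' ∈ Cfsg.blockOf M χ₀.1, η χ = η χ' → χ = χ' := by
      intro χ hχ χ' hχ' hηeq
      have hψeq : ψ χ = ψ χ' := by
        apply eq_of_central_char_eq hM (P.subgroupOf (Subgroup.centralizer (P : Set G)))
          hP.comap_subtype hDZ (ψ θ) hdegψ (ψ χ) (ψ χ') (hblock χ hχ) (hblock χ' hχ')
        intro z hz
        refine ⟨(η χ).1 ⟨(z : G), Subgroup.mem_subgroupOf.mp hz⟩ / (η χ).1 1,
          fun g => hcentral χ z _ g, fun g => ?_⟩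
        rw [hcentral χ' z (Subgroup.mem_subgroupOf.mp hz) g, hηeq]
      apply Subtype.ext
      funext g
      obtain ⟨⟨a, c⟩, rfl⟩ := mulHomPC_surjective P hG g
      rw [mulHomPC_apply, hηψ χ a c, hηψ χ' a c, hηeq, hψeq]
    have hsumP : ∑ b : Cfsg.IrrCharacter P, (Cfsg.charDegree b.1) ^ 2 = Nat.card P := by
      have h := sum_sq_degrees (G := P)
      have h2 : ((∑ b : Cfsg.IrrCharacter P, (Cfsg.charDegree b.1) ^ 2 : ℕ) : ℂ)
          = (Nat.card P : ℂ) := by
        rw [← h]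
        push_cast
        apply Finset.sum_congr rfl
        intro b _
        rw [charDegree_cast]
      exact_mod_cast h2
    have hcount := card_eq_of_inj_of_sum_le (Cfsg.blockOf M χ₀.1) η
      (fun b => (Cfsg.charDegree b.1) ^ 2) (fun b => pow_pos (charDegree_pos b) 2) hinj (by
        rw [hsumP, hcardP]
        have h7 : ((p ^ d : ℕ) : ℝ) ≤ ((∑ x : Cfsg.IrrCharacter G,
            (if x ∈ Cfsg.blockOf M χ₀.1 then (Cfsg.charDegree (η x).1) ^ 2 else 0) : ℕ) : ℝ) := by
          refine le_trans hlow (le_of_eq ?_)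
          push_cast
          apply Finset.sum_congr rfl
          intro x _
          split_ifs <;> simp
        exact_mod_cast h7)
    rw [hcount, ← Nat.card_eq_fintype_card, card_irr_eq_card_conjClasses]

end Cfsg.Agent.S0968
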