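import Mathlib
import Cfsg.Agent.Lib.helper5.BlockCover
import Cfsg.Agent.S0919
import Cfsg.Statements.S0971

set_option autoImplicit false
open scoped ComplexConjugate

namespace Cfsg.Agent.S0971

open Cfsg.Agent.Lib.helper5 Cfsg.Agent.Lib.helper23 Cfsg.Agent.Lib.helper24

/-- Let Q be a normal p-subgroup of the finite group G, let N = Q ⊔ C_G(Q) (a normal subgroup) and let b be a block of N relative to a maximal ideal M of the algebraic integers containing p. Then b induces some block of G, and every block B of G containing a character whose restriction to N has a constituent in b is induced by b. -/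
theorem result {G : Type*} [Group G] [Fintype G] (p : ℕ) [Fact p.Prime] (M : Ideal Cfsg.AlgInt) (hM : Cfsg.IsPModular p M) (Q : Subgroup G) [Q.Normal] (hQ : IsPGroup p Q) [Fintype ↥(Q ⊔ Subgroup.centralizer (Q : Set G))] (b : Set (Cfsg.IrrCharacter ↥(Q ⊔ Subgroup.centralizer (Q : Set G)))) (hb : Cfsg.IsPBlock M b) : Cfsg.InducedBlockDefined M (Q ⊔ Subgroup.centralizer (Q : Set G)) b ∧ ∀ B : Set (Cfsg.IrrCharacter G), Cfsg.IsPBlock M B → (∃ χ ∈ B, ∃ θ ∈ b, Cfsg.classInner (fun n : ↥(Q ⊔ Subgroup.centralizer (Q : Set G)) => (χ : G → ℂ) n) (θ : ↥(Q ⊔ Subgroup.centralizer (Q : Set G)) → ℂ) ≠ 0) → Cfsg.IsInducedBlock M (Q ⊔ Subgroup.centralizer (Q : Set G)) b B := by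
  classical
  have := Fintype.ofFinite (Cfsg.IrrCharacter G)
  have := Fintype.ofFinite (Cfsg.IrrCharacter ↥(Q ⊔ Subgroup.centralizer (Q : Set G)))
  have hMp := isPModular_isPrime hM
  haveI hNn : (Q ⊔ Subgroup.centralizer (Q : Set G)).Normal := inferInstance
  constructor
  · exact Cfsg.Agent.S0919.result p M hM Q _ hQ le_sup_left le_sup_right
      (by rw [Subgroup.normalizer_eq_top]; exact le_top) b hb
  · rintro B hB ⟨χ, hχ, θ, hθ, hcon⟩
    refine ⟨hb, hB, ?_⟩
    intro ξ hξ χ' hχ' g
    obtain ⟨χ₀, rfl⟩ := hB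
    obtain ⟨θ₀, rfl⟩ := hb
    by_cases hg : g ∈ Q ⊔ Subgroup.centralizer (Q : Set G)
    · have h1 : Cfsg.centralChar χ.1 g
          = Cfsg.inducedCentralChar (Q ⊔ Subgroup.centralizer (Q : Set G)) θ.1 g :=
        centralChar_eq_induced_of_constituent _ χ θ hcon ⟨g, hg⟩
      have h2 : Cfsg.SameBlock M χ.1 χ'.1 := sameBlock_trans hMp (sameBlock_symm hχ) hχ'
      have h3 : Cfsg.SameBlock M ξ.1 θ.1 := sameBlock_trans hMp (sameBlock_symm hξ) hθ
      have h4 := memLocalIdeal_inducedCentralChar_sub hMp _ ξ.1 θ.1 (isClassFunction_irr ξ)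
        (isClassFunction_irr θ) h3 g
      have h5 := memLocalIdeal_add hMp h4 (h2 g)
      rw [h1] at h5
      have e : Cfsg.inducedCentralChar (Q ⊔ Subgroup.centralizer (Q : Set G)) ξ.1 g
          - Cfsg.inducedCentralChar (Q ⊔ Subgroup.centralizer (Q : Set G)) θ.1 g
          + (Cfsg.inducedCentralChar (Q ⊔ Subgroup.centralizer (Q : Set G)) θ.1 g
            - Cfsg.centralChar χ'.1 g)
          = Cfsg.inducedCentralChar (Q ⊔ Subgroup.centralizer (Q : Set G)) ξ.1 g
            - Cfsg.centralChar χ'.1 g := by ring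
      rw [e] at h5
      exact h5
    · have h1 : Cfsg.inducedCentralChar (Q ⊔ Subgroup.centralizer (Q : Set G)) ξ.1 g = 0 := by
        unfold Cfsg.inducedCentralChar
        have hemp : {h : ↥(Q ⊔ Subgroup.centralizer (Q : Set G)) | IsConj g (h : G)} = ∅ := by
          ext h
          simp only [Set.mem_setOf_eq, Set.mem_empty_iff_false, iff_false]
          intro hc
          obtain ⟨t, ht⟩ := isConj_iff.mp hc
          apply hg
          have h' := hNn.conj_mem (h : G) h.2 t⁻¹
          rw [← ht] at h'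
          have e : t⁻¹ * (t * g * t⁻¹) * t⁻¹⁻¹ = g := by group
          rwa [e] at h'
        rw [hemp, finsum_mem_empty]
      rw [h1, zero_sub]
      apply memLocalIdeal_neg
      exact memLocalIdeal_centralChar_of_not_mem_centralizer hM Q hQ g
        (fun hgc => hg (le_sup_right (b := Subgroup.centralizer (Q : Set G)) hgc)) χ'

end Cfsg.Agent.S0971
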