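import Cfsg.Statements.S0972
import Cfsg.Agent.Lib.helper5.BlockReynolds
import Cfsg.Agent.S0927

set_option autoImplicit false
open Cfsg
open Cfsg.Agent.Lib.helper5 Cfsg.Agent.Lib.helper23 Cfsg.Agent.Lib.helper24

namespace Cfsg.Agent.S0972

/-- Let B be a block of the finite group G (relative to a maximal ideal M of the algebraic integers containing the prime p) with a defect group P that is normal in G. Then P is commutative if and only if every member of B has height zero. -/
theorem result {G : Type*} [Group G] [Finite G] (p : ℕ) [Fact p.Prime] (M : Ideal Cfsg.AlgInt) (hM : Cfsg.IsPModular p M) (B : Set (Cfsg.IrrCharacter G)) (hB : Cfsg.IsPBlock M B) (P : Subgroup G) [P.Normal] (hP : Cfsg.IsDefectGroup p M B P) : (∀ a ∈ P, ∀ c ∈ P, a * c = c * a) ↔ ∀ χ ∈ B, Cfsg.blockHeight p B (χ : G → ℂ) = 0 := by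
  classical
  haveI := Fintype.ofFinite G
  haveI := Fintype.ofFinite (Cfsg.IrrCharacter G)
  haveI := Fintype.ofFinite P
  have hMp := isPModular_isPrime hM
  have hMtop := hMp.ne_top
  have hp := hM.1
  constructor
  · -- abelian defect group: Ito
    intro hab χ hχ
    obtain ⟨ν₀, hν₀, hht, -⟩ := block_nu p hM B hB
    have hcard := card_defectGroup p hM B hB P hP
    have h1 : Cfsg.charDegree χ.1 ∣ P.index :=
      Cfsg.Agent.Lib.helper22.charDegree_dvd_index_abelian_normal χ P hab
    have h2 : (Cfsg.charDegree χ.1).factorization p ≤ P.index.factorization p :=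
      (Nat.factorization_le_iff_dvd (charDegree_pos χ).ne'
        Subgroup.index_ne_zero_of_finite).mpr h1 p
    have h3 : P.index.factorization p + Cfsg.blockDefect p B
        = (Nat.card G).factorization p := by
      rw [← Subgroup.index_mul_card P,
        Nat.factorization_mul Subgroup.index_ne_zero_of_finite Nat.card_pos.ne', hcard,
        Nat.Prime.factorization_pow hp]
      simp
    have h4 := hht χ hχ
    omega
  · -- all heights zero: the defect group is abelian
    intro hall
    by_contra hnab
    push Not at hnab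
    obtain ⟨a, ha, c, hc, hac⟩ := hnab
    obtain ⟨χ₀, rfl⟩ := hB
    obtain ⟨x, hx, PD, hPD⟩ := hP
    have hPp : IsPGroup p P := by
      rw [hPD]
      exact sylow_map_isPGroup _ PD
    have hPx : P ≤ Subgroup.centralizer ({x} : Set G) := by
      rw [hPD]
      exact sylow_map_le _ PD
    have hxP : x ∈ Subgroup.centralizer (P : Set G) := le_centralizer_singleton_iff.mp hPx
    have hqP : a * c * a⁻¹ * c⁻¹ ∈ P :=
      P.mul_mem (P.mul_mem (P.mul_mem ha hc) (P.inv_mem ha)) (P.inv_mem hc)
    have hq1 : a * c * a⁻¹ * c⁻¹ ≠ 1 := by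
      intro h
      apply hac
      have h2 : a * c * a⁻¹ = c := by
        have := congrArg (· * c) h
        simpa using this
      have h3 := congrArg (· * a) h2
      simpa using h3
    obtain ⟨k, hk⟩ := (IsPGroup.iff_orderOf.mp hPp) ⟨a * c * a⁻¹ * c⁻¹, hqP⟩
    rw [Subgroup.orderOf_mk] at hk
    have hqx : Commute (a * c * a⁻¹ * c⁻¹) x :=
      (Subgroup.mem_centralizer_iff.mp hxP _ hqP)
    obtain ⟨χ, hχB, hχq⟩ := exists_nontrivial_on hM χ₀ x hx _ hq1 ⟨k, hk⟩ hqx
    have hnl : ∀ η : Cfsg.IrrCharacter P, Cfsg.classInner (fun u : P => χ.1 u) η.1 ≠ 0 →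
        p ∣ Cfsg.charDegree η.1 :=
      fun η hη => constituent_degree_dvd P hPp χ a c ha hc hχq η hη
    have hχx := memLocalIdeal_char_of_centralizer hM P χ hnl x hxP
    have h927 := (Cfsg.Agent.S0927.result p M hM _ ⟨χ₀, rfl⟩ x hx PD 1 (one_mem _)).1 χ hχB
      (hall χ hχB)
    apply h927
    simpa using hχx

end Cfsg.Agent.S0972
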