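import Cfsg.Statements.S0985
import Mathlib

set_option autoImplicit false
open Cfsg

namespace Cfsg.Agent.S0985

section
open MulAction

theorem card_modEq_one_of_orbits {H Y : Type*} [Group H] [MulAction H Y] [Finite Y] (m : ℕ)
    (y₀ : Y) (hfix : ∀ h : H, h • y₀ = y₀)
    (hdvd : ∀ y : Y, y ≠ y₀ → m ∣ Nat.card (orbit H y)) :
    Nat.card Y ≡ 1 [MOD m] := by
  classical
  haveI : Fintype (orbitRel.Quotient H Y) := Fintype.ofFinite _
  rw [Nat.card_congr (selfEquivSigmaOrbits H Y), Nat.card_sigma]
  set ω₀ : orbitRel.Quotient H Y := Quotient.mk'' y₀ with hω₀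
  rw [← Finset.add_sum_erase Finset.univ _ (Finset.mem_univ ω₀)]
  have horb : orbit H y₀ = {y₀} := by
    ext z
    constructor
    · rintro ⟨h, rfl⟩
      exact hfix h
    · rintro rfl
      exact mem_orbit_self _
  have h1 : Nat.card (orbit H ω₀.out) = 1 := by
    have hout : ω₀.out = y₀ := by
      have h2 : ω₀.out ∈ orbit H y₀ := Quotient.exact' (Quotient.out_eq' ω₀)
      rw [horb] at h2
      exact h2
    rw [hout, horb]
    simp
  have h2 : m ∣ ∑ ω ∈ Finset.univ.erase ω₀, Nat.card (orbit H ω.out) := by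
    apply Finset.dvd_sum
    intro ω hω
    apply hdvd
    intro h
    apply Finset.ne_of_mem_erase hω
    rw [hω₀, ← h]
    exact (Quotient.out_eq' ω).symm
  rw [h1]
  obtain ⟨c, hc⟩ := h2
  rw [hc]
  unfold Nat.ModEq
  rw [Nat.add_mul_mod_self_left]

theorem aux {G : Type*} [Group G] [Finite G] (p k : ℕ) [Fact p.Prime]
    (h : ¬ Nat.card (Sylow p G) ≡ 1 [MOD p ^ k]) :
    ∃ P R : Sylow p G, P ≠ R ∧
      ((R : Subgroup G).subgroupOf (P : Subgroup G)).index ≤ p ^ (k - 1) := by
  obtain ⟨P⟩ : Nonempty (Sylow p G) := inferInstance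
  by_contra hno
  push Not at hno
  apply h
  apply card_modEq_one_of_orbits (H := (P : Subgroup G)) (p ^ k) P
  · intro x
    exact Sylow.smul_eq_iff_mem_normalizer.mpr (Subgroup.le_normalizer x.2)
  · intro R hR
    have h1 : Nat.card (orbit (P : Subgroup G) R) = (stabilizer (P : Subgroup G) R).index := by
      rw [MulAction.index_stabilizer, Nat.card_coe_set_eq]
    have h2 : stabilizer (P : Subgroup G) R = (R : Subgroup G).subgroupOf (P : Subgroup G) := by
      ext x
      rw [mem_stabilizer_iff, Subgroup.mem_subgroupOf]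
      constructor
      · intro hx
        have e := P.2.inf_normalizer_sylow R
        have hx' : (x : G) ∈ (P : Subgroup G) ⊓ (R : Subgroup G) := by
          rw [← e]
          exact ⟨x.2, Sylow.smul_eq_iff_mem_normalizer.mp hx⟩
        exact hx'.2
      · intro hx
        exact Sylow.smul_eq_iff_mem_normalizer.mpr (Subgroup.le_normalizer hx)
    rw [h1, h2]
    obtain ⟨j, hj⟩ := (P.2).index ((R : Subgroup G).subgroupOf (P : Subgroup G))
    have hlt := hno P R (Ne.symm hR)
    rw [hj] at hlt ⊢
    apply pow_dvd_pow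
    have := (Nat.pow_lt_pow_iff_right (Fact.out : p.Prime).one_lt).mp hlt
    omega
end


/-- If the number of Sylow p-subgroups of a finite group is not congruent to 1 modulo p^k, then there are two distinct Sylow p-subgroups P and R such that the index of P ∩ R in P is at most p^(k-1). -/
theorem result {G : Type*} [Group G] [Finite G] (p k : ℕ) [Fact p.Prime] (h : ¬ Nat.card (Sylow p G) ≡ 1 [MOD p ^ k]) : ∃ P R : Sylow p G, P ≠ R ∧ ((R : Subgroup G).subgroupOf (P : Subgroup G)).index ≤ p ^ (k - 1) := by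
  exact aux p k h

end Cfsg.Agent.S0985
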