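import Cfsg.Statements.S0987
-- import your own Cfsg.Agent.* helpers here
import Mathlib
import Cfsg.Agent.S3669

set_option autoImplicit false
open Cfsg

namespace Cfsg.Agent.S0987

section
open Cfsg.Agent.S3669 Cfsg.Agent.Lib.helper2.BF

universe u

theorem sylow_unique_small {K : Type u} [Group K] [Finite K] (r s : ℕ) [hr : Fact r.Prime]
    (hs : 0 < s) (hsr : s < r) (hK : Nat.card K = r * s) : Nat.card (Sylow r K) = 1 := by
  obtain ⟨P⟩ : Nonempty (Sylow r K) := inferInstance
  have h1 : Nat.card (Sylow r K) ≡ 1 [MOD r] := card_sylow_modEq_one r K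
  have h2 : Nat.card (Sylow r K) ∣ (P : Subgroup K).index := Sylow.card_dvd_index P
  have hnd : ¬ r ∣ s := fun h => by
    have := Nat.le_of_dvd hs h
    omega
  rw [(sylow_card_index r P s hK hnd).2] at h2
  have h3 := Nat.le_of_dvd hs h2
  unfold Nat.ModEq at h1
  have h4 : Nat.card (Sylow r K) % r = Nat.card (Sylow r K) := Nat.mod_eq_of_lt (by omega)
  have h5 : 1 % r = 1 := Nat.mod_eq_of_lt hr.out.one_lt
  omega

theorem dvd_two_primes (n a b : ℕ) (ha : a.Prime) (hb : b.Prime) (h : n ∣ a * b) :
    n = 1 ∨ n = a ∨ n = b ∨ n = a * b := by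
  obtain ⟨k₁, k₂, h1, h2, rfl⟩ := (Nat.dvd_mul).mp h
  rcases (Nat.dvd_prime ha).mp h1 with rfl | rfl <;> rcases (Nat.dvd_prime hb).mp h2 with rfl | rfl
  · left; simp
  · right; right; left; simp
  · right; left; simp
  · right; right; right; rfl

theorem aux {G : Type u} [Group G] [Finite G] (p q r : ℕ) (hp : p.Prime) (hq : q.Prime)
    [hr : Fact r.Prime] (hpq : p < q) (hqr : q < r) (hG : Nat.card G = p * q * r) (R : Sylow r G) :
    (R : Subgroup G).Normal := by
  haveI : Fact p.Prime := ⟨hp⟩
  haveI : Fact q.Prime := ⟨hq⟩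
  have hp2 : 2 ≤ p := hp.two_le
  have hrp : r.Prime := hr.out
  have hndr : ¬ r ∣ p * q := by
    intro h
    rcases (Nat.Prime.dvd_mul hrp).mp h with h' | h'
    · have := Nat.le_of_dvd hp.pos h'; omega
    · have := Nat.le_of_dvd hq.pos h'; omega
  have hndq : ¬ q ∣ p * r := by
    intro h
    rcases (Nat.Prime.dvd_mul hq).mp h with h' | h'
    · have := Nat.le_of_dvd hp.pos h'; omega
    · rcases (Nat.dvd_prime hrp).mp h' with h'' | h'' <;> omega
  have hndp : ¬ p ∣ q * r := by
    intro h
    rcases (Nat.Prime.dvd_mul hp).mp h with h' | h'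
    · rcases (Nat.dvd_prime hq).mp h' with h'' | h'' <;> omega
    · rcases (Nat.dvd_prime hrp).mp h' with h'' | h'' <;> omega
  have hR := sylow_card_index r R (p * q) (by rw [hG]; ring) hndr
  suffices hone : Nat.card (Sylow r G) = 1 by
    have : Subsingleton (Sylow r G) := (Nat.card_eq_one_iff_unique.mp hone).1
    exact Sylow.normal_of_subsingleton R
  have h1 : Nat.card (Sylow r G) ≡ 1 [MOD r] := card_sylow_modEq_one r G
  have h2 : Nat.card (Sylow r G) ∣ (R : Subgroup G).index := Sylow.card_dvd_index R
  rw [hR.2] at h2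
  unfold Nat.ModEq at h1
  have h1r : 1 % r = 1 := Nat.mod_eq_of_lt hrp.one_lt
  rcases dvd_two_primes _ p q hp hq h2 with h | h | h | h
  · exact h
  · rw [h, Nat.mod_eq_of_lt (by omega), h1r] at h1; omega
  · rw [h, Nat.mod_eq_of_lt (by omega), h1r] at h1; omega
  · -- the main case
    obtain ⟨Q⟩ : Nonempty (Sylow q G) := inferInstance
    obtain ⟨P⟩ : Nonempty (Sylow p G) := inferInstance
    have hQ := fun Q : Sylow q G => sylow_card_index q Q (p * r) (by rw [hG]; ring) hndq
    have hP := fun P : Sylow p G => sylow_card_index p P (q * r) (by rw [hG]; ring) hndp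
    have hRall := fun R : Sylow r G => sylow_card_index r R (p * q) (by rw [hG]; ring) hndr
    have c1 := card_orderOf_ge (G := G) (p := r) (fun R => (hRall R).1)
    have c2 := card_orderOf_ge (G := G) (p := q) (fun Q => (hQ Q).1)
    have c3 := card_orderOf_ge (G := G) (p := p) (fun P => (hP P).1)
    have c4 := card_orders_le (G := G) r q p (by omega) (by omega) (by omega) (by omega)
      (by omega) (by omega)
    rw [hG] at c4
    rw [h] at c1
    -- Sylow numbers for q and p
    have hq1 : Nat.card (Sylow q G) ≡ 1 [MOD q] := card_sylow_modEq_one q G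
    have hq2 : Nat.card (Sylow q G) ∣ (Q : Subgroup G).index := Sylow.card_dvd_index Q
    rw [(hQ Q).2] at hq2
    have hp2' : Nat.card (Sylow p G) ∣ (P : Subgroup G).index := Sylow.card_dvd_index P
    rw [(hP P).2] at hp2'
    have hcase : Nat.card (Sylow q G) = 1 ∨ Nat.card (Sylow p G) = 1 := by
      by_contra hno
      push Not at hno
      have hnq : r ≤ Nat.card (Sylow q G) := by
        unfold Nat.ModEq at hq1
        have h1q : 1 % q = 1 := Nat.mod_eq_of_lt hq.one_lt
        rcases dvd_two_primes _ p r hp hrp hq2 with h' | h' | h' | h'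
        · exact absurd h' hno.1
        · rw [h', Nat.mod_eq_of_lt hpq, h1q] at hq1; omega
        · omega
        · rw [h']; nlinarith
      have hnp : q ≤ Nat.card (Sylow p G) := by
        rcases dvd_two_primes _ q r hq hrp hp2' with h' | h' | h' | h'
        · exact absurd h' hno.2
        · omega
        · omega
        · rw [h']; nlinarith
      have e1 : r * (q - 1) ≤ Nat.card (Sylow q G) * (q - 1) := Nat.mul_le_mul_right _ hnq
      have e2 : q * (p - 1) ≤ Nat.card (Sylow p G) * (p - 1) := Nat.mul_le_mul_right _ hnp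
      obtain ⟨q', rfl⟩ : ∃ q', q = q' + 1 := ⟨q - 1, by omega⟩
      obtain ⟨p', rfl⟩ : ∃ p', p = p' + 1 := ⟨p - 1, by omega⟩
      obtain ⟨r', rfl⟩ : ∃ r', r = r' + 1 := ⟨r - 1, by omega⟩
      simp only [Nat.add_sub_cancel] at c1 c2 c3 e1 e2
      nlinarith
    -- a normal Sylow subgroup N of order s, with the other prime t
    have key : ∀ (N : Subgroup G) (s t : ℕ), N.Normal → Nat.card N = s → 0 < s → s < r →
        0 < t → t < r → p * q = s * t → Nat.card (Sylow r G) = 1 := by
      intro N s t hNn hNs hs hsr ht htr hst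
      have hc := Subgroup.card_mul_index N
      rw [hG, hNs] at hc
      have hidx : N.index = r * t := by
        have : s * N.index = s * (r * t) := by rw [hc, hst]; ring
        exact Nat.eq_of_mul_eq_mul_left hs this
      have hq' : Nat.card (G ⧸ N) = r * t := by rw [← Subgroup.index_eq_card, hidx]
      have hu := sylow_unique_small (K := G ⧸ N) r t ht htr hq'
      have : Subsingleton (Sylow r (G ⧸ N)) := (Nat.card_eq_one_iff_unique.mp hu).1
      obtain ⟨Rb⟩ : Nonempty (Sylow r (G ⧸ N)) := inferInstance
      have hRbn : (Rb : Subgroup (G ⧸ N)).Normal := Sylow.normal_of_subsingleton Rb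
      have hRbi := (sylow_card_index r Rb t hq' (fun h => by
        have := Nat.le_of_dvd ht h; omega)).2
      set H : Subgroup G := (Rb : Subgroup (G ⧸ N)).comap (QuotientGroup.mk' N) with hH
      have hHn : H.Normal := Subgroup.Normal.comap hRbn _
      have hHi : H.index = t := by
        rw [hH, Subgroup.index_comap_of_surjective _ (QuotientGroup.mk'_surjective N), hRbi]
      have hHc : Nat.card H = r * s := by
        have h3 := Subgroup.card_mul_index H
        rw [hHi, hG, hst] at h3
        have : Nat.card H * t = (r * s) * t := by rw [h3]; ring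
        exact Nat.eq_of_mul_eq_mul_right ht this
      have hu2 := sylow_unique_small (K := H) r s hs hsr hHc
      have hcop : Nat.Coprime H.index r := by
        rw [hHi]
        exact Nat.coprime_comm.mp ((Nat.Prime.coprime_iff_not_dvd hrp).mpr (fun h => by
          have := Nat.le_of_dvd ht h; omega))
      have h4 := sylow_card_le_of_normal H r hcop
      have h5 : 0 < Nat.card (Sylow r G) := Nat.card_pos
      omega
    rcases hcase with hc | hc
    · have : Subsingleton (Sylow q G) := (Nat.card_eq_one_iff_unique.mp hc).1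
      exact key Q q p (Sylow.normal_of_subsingleton Q) (hQ Q).1 hq.pos hqr hp.pos (by omega)
        (by ring)
    · have : Subsingleton (Sylow p G) := (Nat.card_eq_one_iff_unique.mp hc).1
      exact key P p q (Sylow.normal_of_subsingleton P) (hP P).1 hp.pos (by omega) hq.pos hqr rfl
end


/-- If a finite group has order pqr for primes p < q < r, then its Sylow r-subgroups are normal. -/
theorem result {G : Type*} [Group G] [Finite G] (p q r : ℕ) (hp : p.Prime) (hq : q.Prime) [Fact r.Prime] (hpq : p < q) (hqr : q < r) (hG : Nat.card G = p * q * r) (R : Sylow r G) : (R : Subgroup G).Normal := by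
  exact aux p q r hp hq hpq hqr hG R

end Cfsg.Agent.S0987
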