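import Cfsg.Statements.S1010
-- import your own Cfsg.Agent.* helpers here
import Mathlib
import Cfsg.Agent.S4303
import Cfsg.Agent.S4304
import Cfsg.Agent.S4341

set_option autoImplicit false
open Cfsg

namespace Cfsg.Agent.S1010

section S1010aux

open Cfsg.Agent.S4304 (faithful smul_eq_iff mem_of_smul_eq burnside_simple index_normalizer inf_eq_bot_of_card_prime pow_smul_eq zpow_smul_eq exists_ne_sylow le_centralizer_of_card_prime relIndex_dvd)

variable {G : Type*} [Group G] [Finite G]

theorem dvd21 (n : ℕ) (hd : n ∣ 21) (hm : n % 5 = 1) : n = 1 ∨ n = 21 := by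
  have : n ≤ 21 := Nat.le_of_dvd (by norm_num) hd
  interval_cases n <;> first | omega | (norm_num at hd) | (norm_num at hm)

omit [Finite G] in
/-- the sign of the permutation induced by any element of a simple group of order > 2 is 1 -/
theorem sign_trivial [IsSimpleGroup G] {X : Type*} [Fintype X] [DecidableEq X] [MulAction G X]
    (hG : 2 < Nat.card G) (z : G) : Equiv.Perm.sign (MulAction.toPermHom G X z) = 1 := by
  let ψ : G →* ℤˣ := Equiv.Perm.sign.comp (MulAction.toPermHom G X)
  rcases Subgroup.Normal.eq_bot_or_eq_top (inferInstance : ψ.ker.Normal) with hK | hK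
  · exfalso
    have hinj : Function.Injective ψ := (MonoidHom.ker_eq_bot_iff ψ).mp hK
    have h1 := Nat.card_le_card_of_injective ψ hinj
    have h2 : Nat.card ℤˣ = 2 := by rw [Nat.card_eq_fintype_card]; rfl
    omega
  · have hzk : z ∈ ψ.ker := by rw [hK]; trivial
    exact MonoidHom.mem_ker.mp hzk

theorem card_ge [Fact (Nat.Prime 5)] (h21 : Nat.card (Sylow 5 G) = 21) : 21 ≤ Nat.card G := by
  obtain ⟨P⟩ : Nonempty (Sylow 5 G) := inferInstance
  have := Subgroup.index_mul_card (Subgroup.normalizer ((P : Subgroup G) : Set G))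
  rw [index_normalizer, h21] at this
  have hpos : 0 < Nat.card (Subgroup.normalizer ((P : Subgroup G) : Set G)) := Nat.card_pos
  nlinarith

/-- two distinct Sylow 5-subgroups meet in a subgroup of index 5 -/
theorem card_inf [Fact (Nat.Prime 5)] (h21 : Nat.card (Sylow 5 G) = 21) (P Q : Sylow 5 G) (hne : Q ≠ P) :
    Nat.card (P : Subgroup G) = 5 * Nat.card ((P : Subgroup G) ⊓ Q : Subgroup G) := by
  have h1 := Cfsg.Agent.S4341.card_eq_of_le (inf_le_left : (P : Subgroup G) ⊓ Q ≤ P)
  have hidx : ((P : Subgroup G) ⊓ Q : Subgroup G).relIndex P = 5 := by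
    -- the orbit of Q under P
    have h2 : (MulAction.stabilizer (P : Subgroup G) Q).index
        = (MulAction.orbit (P : Subgroup G) Q).ncard := MulAction.index_stabilizer _ Q
    have h3 : MulAction.stabilizer (P : Subgroup G) Q
        = ((P : Subgroup G) ⊓ Q : Subgroup G).subgroupOf P := by
      ext y
      rw [MulAction.mem_stabilizer_iff, Subgroup.mem_subgroupOf, Subgroup.mem_inf]
      constructor
      · intro h
        have h' : (y : G) • Q = Q := h
        exact ⟨y.2, mem_of_smul_eq (y : G) (P.2.to_le (Subgroup.zpowers_le.mpr y.2)) Q h'⟩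
      · rintro ⟨-, h⟩
        show (y : G) • Q = Q
        exact (smul_eq_iff _ Q).mpr (Subgroup.le_normalizer h)
    rw [h3] at h2
    have h4 : ((P : Subgroup G) ⊓ Q : Subgroup G).relIndex P
        = (MulAction.orbit (P : Subgroup G) Q).ncard := h2
    -- orbit avoids P
    have h5 : MulAction.orbit (P : Subgroup G) Q ⊆ ({P} : Set (Sylow 5 G))ᶜ := by
      rintro _ ⟨y, rfl⟩ h
      have h' : (y : G) • Q = P := h
      have hyP : (y : G) • P = P := (smul_eq_iff _ P).mpr (Subgroup.le_normalizer y.2)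
      apply hne
      have : (y : G) • Q = (y : G) • P := by rw [h', hyP]
      exact smul_left_cancel _ this
    have h6 := Set.ncard_le_ncard h5 (Set.toFinite _)
    rw [Set.ncard_compl, Set.ncard_singleton, h21, ← h4] at h6
    -- a power of 5
    obtain ⟨j, hj⟩ := P.2.index (((P : Subgroup G) ⊓ Q : Subgroup G).subgroupOf P)
    have hj' : ((P : Subgroup G) ⊓ Q : Subgroup G).relIndex P = 5 ^ j := hj
    rw [hj'] at h6 ⊢
    have hj0 : j ≠ 0 := by
      rintro rfl
      rw [pow_zero] at hj'
      have h7 : (P : Subgroup G) ≤ (P : Subgroup G) ⊓ Q := Subgroup.relIndex_eq_one.mp hj'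
      have h8 : (P : Subgroup G) ≤ Q := h7.trans inf_le_right
      exact hne (Sylow.ext (P.3 Q.2 h8))
    have hj2 : j < 2 := by
      by_contra hj2
      push Not at hj2
      have : 5 ^ 2 ≤ 5 ^ j := Nat.pow_le_pow_right (by norm_num) hj2
      omega
    have : j = 1 := by omega
    rw [this, pow_one]
  rw [h1, hidx]

/-- Case of Sylow 5-subgroups of order at least 25: counting in the linear space of Sylow subgroups. -/
theorem caseB [IsSimpleGroup G] [Fact (Nat.Prime 5)] (h21 : Nat.card (Sylow 5 G) = 21)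
    (hbig : ∀ P Q : Sylow 5 G, Q ≠ P → ((P : Subgroup G) ⊓ Q : Subgroup G) ≠ ⊥) : False := by
  classical
  have : Fintype (Sylow 5 G) := Fintype.ofFinite _
  have hF : Fintype.card (Sylow 5 G) = 21 := by rw [← Nat.card_eq_fintype_card]; exact h21
  have hcard : ∀ P Q R R' : Sylow 5 G, Q ≠ P → R' ≠ R →
      Nat.card ((P : Subgroup G) ⊓ Q : Subgroup G)
        = Nat.card ((R : Subgroup G) ⊓ R' : Subgroup G) := by
    intro P Q R R' h1 h2
    have e1 := card_inf h21 P Q h1
    have e2 := card_inf h21 R R' h2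
    have e3 : Nat.card (P : Subgroup G) = Nat.card (R : Subgroup G) := by
      rw [P.card_eq_multiplicity, R.card_eq_multiplicity]
    omega
  let line : Sylow 5 G → Sylow 5 G → Finset (Sylow 5 G) := fun P Q =>
    Finset.univ.filter (fun R => (P : Subgroup G) ⊓ Q ≤ R)
  have hmem : ∀ P Q R, R ∈ line P Q ↔ (P : Subgroup G) ⊓ Q ≤ R := by
    intro P Q R; simp [line]
  have hL2 : ∀ P Q R R' : Sylow 5 G, Q ≠ P → R ∈ line P Q → R' ∈ line P Q → R' ≠ R →
      ((R : Subgroup G) ⊓ R' : Subgroup G) = (P : Subgroup G) ⊓ Q := by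
    intro P Q R R' h1 hR hR' h2
    symm
    apply Subgroup.eq_of_le_of_card_ge (le_inf ((hmem _ _ _).mp hR) ((hmem _ _ _).mp hR'))
    rw [hcard P Q R R' h1 h2]
  have hL3 : ∀ P Q : Sylow 5 G, Q ≠ P → 6 ≤ (line P Q).card := by
    intro P Q h1
    have hD : IsPGroup 5 ((P : Subgroup G) ⊓ Q : Subgroup G) := P.2.to_le inf_le_left
    have h2 := hD.card_modEq_card_fixedPoints (Sylow 5 G)
    have h3 : MulAction.fixedPoints ((P : Subgroup G) ⊓ Q : Subgroup G) (Sylow 5 G)
        = ((line P Q : Finset (Sylow 5 G)) : Set (Sylow 5 G)) := by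
      ext R
      rw [hD.sylow_mem_fixedPoints_iff, Finset.mem_coe, hmem]
    rw [h3, h21, Nat.card_coe_set_eq, Set.ncard_coe_finset] at h2
    have h4 : ({P, Q} : Finset (Sylow 5 G)) ⊆ line P Q := by
      intro X hX
      rcases Finset.mem_insert.mp hX with rfl | hX
      · exact (hmem _ _ _).mpr inf_le_left
      · rw [Finset.mem_singleton] at hX
        subst hX
        exact (hmem _ _ _).mpr inf_le_right
    have h5 := Finset.card_le_card h4
    rw [Finset.card_pair (Ne.symm h1)] at h5
    unfold Nat.ModEq at h2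
    omega
  obtain ⟨P⟩ : Nonempty (Sylow 5 G) := inferInstance
  obtain ⟨Q, hQ⟩ := exists_ne_sylow (by omega : 1 < Nat.card (Sylow 5 G)) P
  obtain ⟨R, hR⟩ : ∃ R, R ∉ line P Q := by
    by_contra hcon
    push Not at hcon
    apply hbig P Q hQ
    rw [eq_bot_iff]
    intro d hd
    rw [Subgroup.mem_bot]
    apply faithful (p := 5) (by omega)
    intro R'
    exact (smul_eq_iff d R').mpr (Subgroup.le_normalizer ((hmem _ _ _).mp (hcon R') hd))
  have hXR : ∀ X ∈ line P Q, X ≠ R := fun X hX h => hR (h ▸ hX)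
  have hdisj : ∀ X ∈ line P Q, ∀ X' ∈ line P Q, X ≠ X' →
      Disjoint ((line R X).erase R) ((line R X').erase R) := by
    intro X hX X' hX' hne
    rw [Finset.disjoint_left]
    intro Y hY hY'
    obtain ⟨hYR, hY1⟩ := Finset.mem_erase.mp hY
    obtain ⟨-, hY2⟩ := Finset.mem_erase.mp hY'
    have hRl : ∀ Z, R ∈ line R Z := fun Z => (hmem _ _ _).mpr inf_le_left
    have hZl : ∀ Z, Z ∈ line R Z := fun Z => (hmem _ _ _).mpr inf_le_right
    have e1 := hL2 R X R Y (hXR X hX) (hRl X) hY1 hYR
    have e2 := hL2 R X' R Y (hXR X' hX') (hRl X') hY2 hYR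
    have e3 : (R : Subgroup G) ⊓ X = (R : Subgroup G) ⊓ X' := e1.symm.trans e2
    have hX'l : X' ∈ line R X := (hmem _ _ _).mpr (by rw [e3]; exact inf_le_right)
    have e4 := hL2 R X X X' (hXR X hX) (hZl X) hX'l (Ne.symm hne)
    have e5 := hL2 P Q X X' hQ hX hX' (Ne.symm hne)
    apply hR
    rw [hmem, ← e5, e4]; exact inf_le_left
  have hcardU : ((line P Q).biUnion (fun X => (line R X).erase R)).card
      = ∑ X ∈ line P Q, ((line R X).erase R).card :=
    Finset.card_biUnion (fun X hX X' hX' hne => hdisj X hX X' hX' hne)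
  have hsub : (line P Q).biUnion (fun X => (line R X).erase R) ⊆ Finset.univ.erase R := by
    intro Y hY
    obtain ⟨X, hX, hY'⟩ := Finset.mem_biUnion.mp hY
    exact Finset.mem_erase.mpr ⟨(Finset.mem_erase.mp hY').1, Finset.mem_univ _⟩
  have h20 : ((line P Q).biUnion (fun X => (line R X).erase R)).card ≤ 20 := by
    have := Finset.card_le_card hsub
    rw [Finset.card_erase_of_mem (Finset.mem_univ _), Finset.card_univ, hF] at this
    exact this
  have h30 : 6 * 5 ≤ ∑ X ∈ line P Q, ((line R X).erase R).card := by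
    have h1 : ∀ X ∈ line P Q, 5 ≤ ((line R X).erase R).card := by
      intro X hX
      have := hL3 R X (hXR X hX)
      rw [Finset.card_erase_of_mem ((hmem _ _ _).mpr inf_le_left)]
      omega
    have h2 := Finset.card_nsmul_le_sum (line P Q) _ 5 h1
    have h3 := hL3 P Q hQ
    rw [smul_eq_mul] at h2
    nlinarith
  omega


/-- an involution centralizing `P` fixes no other Sylow 5-subgroup -/
theorem invol_fix [IsSimpleGroup G] [Fact (Nat.Prime 5)] (h21 : Nat.card (Sylow 5 G) = 21)
    (P : Sylow 5 G) (c : G)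
    (hcC : c ∈ Subgroup.centralizer ((P : Subgroup G) : Set G))
    (hc2 : c ^ 2 = 1) (hc1 : c ≠ 1) (Q : Sylow 5 G) (hQ : c • Q = Q) : Q = P := by
  classical
  by_contra hne
  have hcN : c ∈ Subgroup.normalizer ((P : Subgroup G) : Set G) :=
    Subgroup.centralizer_le_normalizer _ hcC
  have hcP : c • P = P := (smul_eq_iff c P).mpr hcN
  have hord : orderOf c = 2 := orderOf_eq_prime hc2 hc1
  have hp2 : Fact (Nat.Prime 2) := ⟨Nat.prime_two⟩
  have hzp : IsPGroup 2 (Subgroup.zpowers c) := by
    apply IsPGroup.of_card (n := 1)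
    rw [Nat.card_zpowers, hord, pow_one]
  obtain ⟨s, hs⟩ : ∃ s : Set (Sylow 5 G), s = MulAction.fixedPoints (Subgroup.zpowers c) (Sylow 5 G) :=
    ⟨_, rfl⟩
  have hmem : ∀ Q' : Sylow 5 G, Q' ∈ s ↔ c • Q' = Q' := by
    intro Q'
    rw [hs, MulAction.mem_fixedPoints]
    constructor
    · intro h
      exact h ⟨c, Subgroup.mem_zpowers c⟩
    · intro h z
      have h1 : c ∈ MulAction.stabilizer G Q' := MulAction.mem_stabilizer_iff.mpr h
      have h2 : (z : G) ∈ MulAction.stabilizer G Q' := (Subgroup.zpowers_le.mpr h1) z.2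
      exact MulAction.mem_stabilizer_iff.mp h2
  have hcount1 : Nat.card (Sylow 5 G) ≡ s.ncard [MOD 2] := by
    have := hzp.card_modEq_card_fixedPoints (Sylow 5 G)
    rw [← hs, Nat.card_coe_set_eq] at this
    exact this
  let T : SubMulAction (↥(P : Subgroup G)) (Sylow 5 G) :=
    { carrier := s
      smul_mem' := by
        intro y Q' hQ'
        have hQ'' : c • Q' = Q' := (hmem Q').mp hQ'
        apply (hmem _).mpr
        have hcomm : (y : G) * c = c * y := (Subgroup.mem_centralizer_iff.mp hcC) y y.2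
        show c • ((y : G) • Q') = (y : G) • Q'
        rw [smul_smul, ← hcomm, ← smul_smul, hQ''] }
  have hcount2 : Nat.card T ≡ Nat.card (MulAction.fixedPoints (↥(P : Subgroup G)) T) [MOD 5] :=
    P.2.card_modEq_card_fixedPoints T
  have hT : Nat.card T = s.ncard := Nat.card_coe_set_eq s
  have hfix : Nat.card (MulAction.fixedPoints (↥(P : Subgroup G)) T) = 1 := by
    rw [Nat.card_eq_one_iff_exists]
    refine ⟨⟨⟨P, (hmem P).mpr hcP⟩, ?_⟩, ?_⟩
    · intro y
      apply Subtype.ext
      show (y : G) • P = P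
      exact (smul_eq_iff _ P).mpr (Subgroup.le_normalizer y.2)
    · rintro ⟨⟨Q', hQ'⟩, hfx⟩
      apply Subtype.ext
      apply Subtype.ext
      show Q' = P
      have h1 : Q' ∈ MulAction.fixedPoints (↥(P : Subgroup G)) (Sylow 5 G) := by
        intro y
        have := congrArg (fun t : T => (t : Sylow 5 G)) (hfx y)
        exact this
      have h2 : (P : Subgroup G) ≤ Q' := (P.2.sylow_mem_fixedPoints_iff).mp h1
      exact Sylow.ext (P.3 Q'.2 h2)
  rw [hT, hfix] at hcount2
  have hPs : P ∈ s := (hmem P).mpr hcP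
  have hQs : Q ∈ s := (hmem Q).mpr hQ
  have h2le : 2 ≤ s.ncard := by
    have h1 : ({P, Q} : Set (Sylow 5 G)) ⊆ s := by
      intro x hx
      rcases hx with rfl | rfl
      · exact hPs
      · exact hQs
    have h2 := Set.ncard_le_ncard h1 (Set.toFinite s)
    rw [Set.ncard_pair (Ne.symm hne)] at h2
    exact h2
  have hlt : s.ncard < 21 := by
    have hne' : s ≠ Set.univ := by
      intro h
      apply hc1
      apply faithful (p := 5) (by omega)
      intro Q'
      exact (hmem Q').mp (h ▸ Set.mem_univ Q')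
    have h1 : s ⊂ Set.univ := Set.ssubset_univ_iff.mpr hne'
    have h2 := Set.ncard_lt_ncard h1 (Set.toFinite _)
    rw [Set.ncard_univ, h21] at h2
    exact h2
  have h11 : s.ncard = 11 := by
    rw [h21] at hcount1
    unfold Nat.ModEq at hcount1 hcount2
    omega
  have : Fintype (Sylow 5 G) := Fintype.ofFinite _
  obtain ⟨σ, hσ⟩ : ∃ σ : Equiv.Perm (Sylow 5 G), σ = MulAction.toPermHom G (Sylow 5 G) c := ⟨_, rfl⟩
  have hσ2 : σ ^ 2 = 1 := by rw [hσ, ← map_pow, hc2, map_one]
  have hsign := Equiv.Perm.sign_of_pow_two_eq_one hσ2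
  have hfs : Function.fixedPoints σ = s := by
    ext Q'
    rw [hmem, hσ]
    rfl
  have hfp : Fintype.card (Function.fixedPoints σ) = 11 := by
    rw [← Nat.card_eq_fintype_card, Nat.card_coe_set_eq, hfs, h11]
  have hF : Fintype.card (Sylow 5 G) = 21 := by rw [← Nat.card_eq_fintype_card]; exact h21
  rw [hfp, hF] at hsign
  have hsign' : Equiv.Perm.sign σ = -1 := by rw [hsign]; decide
  have h1 := sign_trivial (X := Sylow 5 G) (by have := card_ge h21; omega) c
  rw [← hσ, hsign'] at h1
  exact absurd h1 (by decide)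

/-- a nontrivial 2-element centralizing `P` fixes no other Sylow 5-subgroup -/
theorem two_elt_fix [IsSimpleGroup G] [Fact (Nat.Prime 5)] (h21 : Nat.card (Sylow 5 G) = 21)
    (P : Sylow 5 G) (c : G)
    (hcC : c ∈ Subgroup.centralizer ((P : Subgroup G) : Set G))
    (a : ℕ) (hca : c ^ 2 ^ a = 1) (hc1 : c ≠ 1) (Q : Sylow 5 G) (hQ : c • Q = Q) : Q = P := by
  have h2 : orderOf c ∣ 2 ^ a := orderOf_dvd_of_pow_eq_one hca
  obtain ⟨j, -, hj⟩ := (Nat.dvd_prime_pow Nat.prime_two).mp h2
  have hj0 : j ≠ 0 := by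
    rintro rfl
    rw [pow_zero] at hj
    exact hc1 (orderOf_eq_one_iff.mp hj)
  obtain ⟨i, rfl⟩ : ∃ i, j = i + 1 := ⟨j - 1, by omega⟩
  apply invol_fix h21 P (c ^ 2 ^ i) (Subgroup.pow_mem _ hcC _) _ _ Q (pow_smul_eq c Q hQ _)
  · rw [← pow_mul, ← pow_succ, ← hj, pow_orderOf_eq_one]
  · intro h
    have h3 := orderOf_dvd_of_pow_eq_one h
    rw [hj] at h3
    have h4 := Nat.le_of_dvd (by positivity) h3
    have h5 : 2 ^ i < 2 ^ (i + 1) := Nat.pow_lt_pow_right (by norm_num) (by omega)
    omega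

omit [Finite G] in
/-- computing a transfer when all the factors are powers of one element -/
theorem transfer_eq_pow_of {A : Type*} [CommGroup A] (H : Subgroup G) [H.FiniteIndex]
    (φ : ↥H →* A) (g : G) (ε : A) (n : ℕ) (hn : g ^ n = 1)
    (h : ∀ (k : G) (r : ℕ) (hk : k⁻¹ * g ^ r * k ∈ H), r ∣ n →
      φ ⟨k⁻¹ * g ^ r * k, hk⟩ = ε ^ r) :
    MonoidHom.transfer φ g = ε ^ H.index := by
  classical
  have : Fintype (Quotient (MulAction.orbitRel (Subgroup.zpowers g) (G ⧸ H))) := Fintype.ofFinite _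
  rw [MonoidHom.transfer_eq_prod_quotient_orbitRel_zpowers_quot, Subgroup.index_eq_sum_minimalPeriod H g,
    ← Finset.prod_pow_eq_pow_sum]
  apply Finset.prod_congr rfl
  intro q _
  apply h
  rw [← MulAction.pow_smul_eq_iff_minimalPeriod_dvd, hn, one_smul]

theorem units5_pow4 : ∀ u : (ZMod 5)ˣ, u ^ 4 = 1 := by decide

theorem units5_sq : ∀ u : (ZMod 5)ˣ, u ^ 2 = 1 → u = 1 ∨ u = -1 := by decide

theorem units5_neg : (-1 : (ZMod 5)ˣ) ≠ 1 := by decide

/-- Case of Sylow 5-subgroups of order 5: transfer into `Aut(P)`. -/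
theorem caseA [IsSimpleGroup G] [Fact (Nat.Prime 5)] (h21 : Nat.card (Sylow 5 G) = 21)
    (hc5 : ∀ P : Sylow 5 G, Nat.card (P : Subgroup G) = 5) : False := by
  classical
  obtain ⟨P⟩ : Nonempty (Sylow 5 G) := inferInstance
  have hG21 := card_ge h21
  have hPb : (P : Subgroup G) ≠ ⊥ := by
    intro h
    have := hc5 P
    rw [h, Subgroup.card_bot] at this; omega
  have hPt : (P : Subgroup G) ≠ ⊤ := by
    intro h
    have h1 := index_normalizer P
    rw [h21] at h1
    have h2 : Subgroup.normalizer ((P : Subgroup G) : Set G) = ⊤ :=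
      top_le_iff.mp (h ▸ Subgroup.le_normalizer)
    rw [h2, Subgroup.index_top] at h1
    omega
  have hPB := burnside_simple P hPb hPt
  have hPc : IsCyclic (P : Subgroup G) := isCyclic_of_prime_card (p := 5) (hc5 P)
  have e := IsCyclic.mulAutMulEquiv (P : Subgroup G)
  rw [hc5 P] at e
  let φ : ↥(Subgroup.normalizer ((P : Subgroup G) : Set G)) →* (ZMod 5)ˣ :=
    e.toMonoidHom.comp (P : Subgroup G).normalizerMonoidHom
  have hker : ∀ x : ↥(Subgroup.normalizer ((P : Subgroup G) : Set G)),
      φ x = 1 ↔ (x : G) ∈ Subgroup.centralizer ((P : Subgroup G) : Set G) := by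
    intro x
    have h1 : φ x = 1 ↔ (P : Subgroup G).normalizerMonoidHom x = 1 := by
      show e ((P : Subgroup G).normalizerMonoidHom x) = 1 ↔ _
      rw [MulEquiv.map_eq_one_iff]
    rw [h1, ← MonoidHom.mem_ker, Subgroup.normalizerMonoidHom_ker, Subgroup.mem_subgroupOf]
  have hu4 : ∀ u : (ZMod 5)ˣ, u ^ 4 = 1 := units5_pow4
  have hu2 : ∀ u : (ZMod 5)ˣ, u ^ 2 = 1 → u = 1 ∨ u = -1 := units5_sq
  have hm1 : (-1 : (ZMod 5)ˣ) ≠ 1 := units5_neg
  obtain ⟨n0, hn0⟩ : ∃ n0 : ↥(Subgroup.normalizer ((P : Subgroup G) : Set G)), φ n0 = -1 := by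
    obtain ⟨n, hnN, hnC⟩ := SetLike.not_le_iff_exists.mp hPB
    have hne : φ ⟨n, hnN⟩ ≠ 1 := fun h => hnC ((hker _).mp h)
    by_cases hsq : φ ⟨n, hnN⟩ ^ 2 = 1
    · exact ⟨⟨n, hnN⟩, (hu2 _ hsq).resolve_left hne⟩
    · refine ⟨⟨n, hnN⟩ ^ 2, ?_⟩
      rw [map_pow]
      refine (hu2 _ ?_).resolve_left hsq
      rw [← pow_mul]; exact hu4 _
  obtain ⟨a, m, hm, ham⟩ := Nat.exists_eq_two_pow_mul_odd (orderOf_pos n0).ne'
  obtain ⟨g, hg⟩ : ∃ g, g = n0 ^ m := ⟨_, rfl⟩
  have hφg : φ g = -1 := by rw [hg, map_pow, hn0, hm.neg_one_pow]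
  have hga : g ^ 2 ^ a = 1 := by rw [hg, ← pow_mul, mul_comm, ← ham, pow_orderOf_eq_one]
  have hga' : (g : G) ^ 2 ^ a = 1 := by
    have := congrArg Subtype.val hga
    simpa using this
  have htr : MonoidHom.transfer φ (g : G)
      = (-1) ^ (Subgroup.normalizer ((P : Subgroup G) : Set G)).index := by
    apply transfer_eq_pow_of _ φ (g : G) (-1) (2 ^ a) hga'
    intro k r hk hr
    by_cases hkN : k ∈ Subgroup.normalizer ((P : Subgroup G) : Set G)
    · have h1 : (⟨k⁻¹ * (g : G) ^ r * k, hk⟩ : ↥(Subgroup.normalizer ((P : Subgroup G) : Set G)))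
          = (⟨k, hkN⟩)⁻¹ * g ^ r * ⟨k, hkN⟩ := by
        apply Subtype.ext; simp
      rw [h1, map_mul, map_mul, map_inv, map_pow, hφg, mul_comm, mul_inv_cancel_left]
    · have hkP : k • P ≠ P := fun h => hkN ((smul_eq_iff k P).mp h)
      have hfixk : (g : G) ^ r • (k • P) = k • P := by
        have h1 : (k⁻¹ * (g : G) ^ r * k) • P = P := (smul_eq_iff _ P).mpr hk
        rw [mul_smul, mul_smul, inv_smul_eq_iff] at h1
        exact h1
      obtain ⟨i, -, hi⟩ := (Nat.dvd_prime_pow Nat.prime_two).mp hr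
      rcases Nat.eq_zero_or_pos i with hi0 | hi0
      · subst hi0
        rw [pow_zero] at hi
        subst hi
        obtain ⟨h, hh⟩ : ∃ h : ↥(Subgroup.normalizer ((P : Subgroup G) : Set G)),
            h = ⟨k⁻¹ * (g : G) ^ 1 * k, hk⟩ := ⟨_, rfl⟩
        rw [← hh]
        have hhG : (h : G) = k⁻¹ * (g : G) * k := by
          rw [hh]
          show k⁻¹ * (g : G) ^ 1 * k = _
          rw [pow_one]
        rw [pow_one]
        have hgP : (g : G) • (k • P) = k • P := by rw [pow_one] at hfixk; exact hfixk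
        have hg2C : (g : G) ^ 2 ∈ Subgroup.centralizer ((P : Subgroup G) : Set G) := by
          have : φ (g ^ 2) = 1 := by rw [map_pow, hφg, (by decide : Even 2).neg_one_pow]
          exact (hker _).mp this
        have hg2 : (g : G) ^ 2 = 1 := by
          by_contra hne1
          exact hkP (two_elt_fix h21 P _ hg2C a
            (by rw [← pow_mul, mul_comm, pow_mul, hga', one_pow]) hne1 (k • P)
            (pow_smul_eq _ _ hgP 2))
        have hh2 : (h : G) ^ 2 = 1 := by
          rw [hhG, pow_two]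
          calc k⁻¹ * (g : G) * k * (k⁻¹ * (g : G) * k) = k⁻¹ * ((g : G) ^ 2) * k := by
                simp only [pow_two, mul_assoc, mul_inv_cancel_left]
            _ = 1 := by rw [hg2, mul_one, inv_mul_cancel]
        have hh2' : h ^ 2 = 1 := Subtype.ext (by simpa using hh2)
        have hφh2 : φ h ^ 2 = 1 := by rw [← map_pow, hh2', map_one]
        rcases hu2 _ hφh2 with h1 | h1
        · exfalso
          have hhC : (h : G) ∈ Subgroup.centralizer ((P : Subgroup G) : Set G) := (hker h).mp h1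
          have hh1 : (h : G) ≠ 1 := by
            intro h1'
            rw [hhG] at h1'
            have h2 : (g : G) = 1 := by
              have h3 : (g : G) = k * (k⁻¹ * (g : G) * k) * k⁻¹ := by
                simp only [mul_assoc, mul_inv_cancel_left, mul_inv_cancel, mul_one]
              rw [h3, h1', mul_one, mul_inv_cancel]
            have hg1 : g = 1 := Subtype.ext h2
            rw [hg1, map_one] at hφg
            exact hm1 hφg.symm
          have hfix' : (h : G) • (k⁻¹ • P) = k⁻¹ • P := by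
            rw [hhG, smul_smul, mul_inv_cancel_right, mul_smul, (smul_eq_iff (g : G) P).mpr g.2]
          have h4 := invol_fix h21 P (h : G) hhC hh2 hh1 (k⁻¹ • P) hfix'
          exact hkP (inv_smul_eq_iff.mp h4).symm
        · exact h1
      · have hev : Even r := by rw [hi]; exact (Nat.even_pow.mpr ⟨even_two, hi0.ne'⟩)
        have hgrC : (g : G) ^ r ∈ Subgroup.centralizer ((P : Subgroup G) : Set G) := by
          have : φ (g ^ r) = 1 := by rw [map_pow, hφg, hev.neg_one_pow]
          exact (hker _).mp this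
        have hgr1 : (g : G) ^ r = 1 := by
          by_contra hne1
          exact hkP (two_elt_fix h21 P _ hgrC a
            (by rw [← pow_mul, mul_comm, pow_mul, hga', one_pow]) hne1 (k • P) hfixk)
        have h1 : (⟨k⁻¹ * (g : G) ^ r * k, hk⟩ : ↥(Subgroup.normalizer ((P : Subgroup G) : Set G)))
            = 1 := by
          apply Subtype.ext
          show k⁻¹ * (g : G) ^ r * k = 1
          rw [hgr1, mul_one, inv_mul_cancel]
        rw [h1, map_one, hev.neg_one_pow]
  rw [index_normalizer, h21] at htr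
  have htr' : MonoidHom.transfer φ (g : G) = 1 := by
    rcases Subgroup.Normal.eq_bot_or_eq_top
      (inferInstance : (MonoidHom.transfer φ).ker.Normal) with hK | hK
    · exfalso
      have hinj : Function.Injective (MonoidHom.transfer φ) := (MonoidHom.ker_eq_bot_iff _).mp hK
      have h1 := Nat.card_le_card_of_injective _ hinj
      have h2 : Nat.card (ZMod 5)ˣ = 4 := by rw [Nat.card_eq_fintype_card]; rfl
      omega
    · have h3 : (g : G) ∈ (MonoidHom.transfer φ).ker := by rw [hK]; trivial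
      exact MonoidHom.mem_ker.mp h3
  rw [htr', Odd.neg_one_pow (by decide)] at htr
  exact hm1 htr.symm

theorem simple_ne [IsSimpleGroup G] : Nat.card (Sylow 5 G) ≠ 21 := by
  intro h21
  have : Fact (Nat.Prime 5) := ⟨by norm_num⟩
  obtain ⟨P⟩ : Nonempty (Sylow 5 G) := inferInstance
  have hk := P.card_eq_multiplicity
  obtain ⟨k, hkdef⟩ : ∃ k, k = (Nat.card G).factorization 5 := ⟨_, rfl⟩
  rw [← hkdef] at hk
  have hk1 : k ≠ 0 := by
    rintro rfl
    have hsub : Subsingleton (Sylow 5 G) := by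
      constructor
      intro A B
      apply Sylow.ext
      have hA := A.card_eq_multiplicity
      have hB := B.card_eq_multiplicity
      rw [← hkdef, pow_zero] at hA hB
      rw [Subgroup.card_eq_one.mp hA, Subgroup.card_eq_one.mp hB]
    have := Finite.card_le_one_iff_subsingleton.mpr hsub
    omega
  by_cases hk2 : k = 1
  · apply caseA h21
    intro P'
    rw [P'.card_eq_multiplicity, ← hkdef, hk2, pow_one]
  · apply caseB h21
    intro P' Q' hne hbot
    have h1 := card_inf h21 P' Q' hne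
    rw [hbot, Subgroup.card_bot, P'.card_eq_multiplicity, ← hkdef] at h1
    have h2 : 5 ^ 2 ≤ 5 ^ k := Nat.pow_le_pow_right (by norm_num) (by omega)
    omega

theorem result' {G : Type*} [Group G] [Finite G] : Nat.card (Sylow 5 G) ≠ 21 := by
  intro h21
  have : Fact (Nat.Prime 5) := ⟨by norm_num⟩
  obtain ⟨l, hl, hl'⟩ := Cfsg.Agent.S4303.result (G := G) 5
  have hall : ∀ m ∈ l, m = 1 := by
    intro m hm
    have hd : m ∣ 21 := by rw [← h21, ← hl]; exact List.dvd_prod hm
    have hmod : m % 5 = 1 := by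
      rcases hl' m hm with ⟨_, h⟩ | ⟨S, _, _, hS, h⟩
      · exact h
      · rw [h]; exact card_sylow_modEq_one 5 S
    rcases dvd21 m hd hmod with h | h
    · exact h
    · exfalso
      rcases hl' m hm with ⟨hpp, _⟩ | ⟨S, _, _, hS, h'⟩
      · rw [h] at hpp
        rw [isPrimePow_nat_iff] at hpp
        obtain ⟨p, k, hp, hk, hpk⟩ := hpp
        have h3 : (3 : ℕ) ∣ p ^ k := by rw [hpk]; norm_num
        have h7 : (7 : ℕ) ∣ p ^ k := by rw [hpk]; norm_num
        have e3 := (Nat.prime_dvd_prime_iff_eq (by norm_num) hp).mp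
          (Nat.Prime.dvd_of_dvd_pow (by norm_num) h3)
        have e7 := (Nat.prime_dvd_prime_iff_eq (by norm_num) hp).mp
          (Nat.Prime.dvd_of_dvd_pow (by norm_num) h7)
        omega
      · exact simple_ne (G := S) (h' ▸ h)
  have : l.prod = 1 := List.prod_eq_one hall
  omega

end S1010aux

/-- No finite group has exactly twenty-one Sylow 5-subgroups. -/
theorem result {G : Type*} [Group G] [Finite G] : Nat.card (Sylow 5 G) ≠ 21 := by
  exact result'

end Cfsg.Agent.S1010
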