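import Cfsg.Statements.S1018
import Mathlib

set_option autoImplicit false
open Cfsg

namespace Cfsg.Agent.S1018

section
open MulAction
open scoped Pointwise

variable {G : Type*} [Group G]

theorem zpowers_eq_of_prime [Finite G] (p : ℕ) [hp : Fact p.Prime] (P : Subgroup G)
    (hP : Nat.card P = p) (z : G) (hz : z ∈ P) (hz1 : z ≠ 1) : Subgroup.zpowers z = P := by
  apply Subgroup.eq_of_le_of_card_ge
  · rw [Subgroup.zpowers_le]; exact hz
  · rw [Nat.card_zpowers, hP]
    have h1 : orderOf z ∣ p := by
      rw [← hP]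
      have := Subgroup.orderOf_dvd_natCard P hz
      exact this
    rcases (Nat.dvd_prime hp.out).mp h1 with h | h
    · exact absurd (orderOf_eq_one_iff.mp h) hz1
    · exact h.ge

theorem mem_of_mem_normalizer [Finite G] (p : ℕ) [hp : Fact p.Prime] (P : Sylow p G) (z : G)
    (hzp : z ^ p = 1) (hz : z ∈ Subgroup.normalizer ((P : Subgroup G) : Set G)) :
    z ∈ (P : Subgroup G) := by
  have hpg : IsPGroup p (Subgroup.zpowers z) := by
    have h1 : orderOf z ∣ p := orderOf_dvd_of_pow_eq_one hzp
    rcases (Nat.dvd_prime hp.out).mp h1 with h | h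
    · exact IsPGroup.of_card (n := 0) (by rw [Nat.card_zpowers, h, pow_zero])
    · exact IsPGroup.of_card (n := 1) (by rw [Nat.card_zpowers, h, pow_one])
  have e := hpg.inf_normalizer_sylow P
  have h2 : z ∈ Subgroup.zpowers z ⊓ (P : Subgroup G) := by
    rw [← e]
    exact ⟨Subgroup.mem_zpowers z, hz⟩
  exact h2.2

theorem conj_mem_normalizer (P : Subgroup G) (z₁ z₂ h : G) (h1 : Subgroup.zpowers z₁ = P)
    (h2 : Subgroup.zpowers z₂ = P) (hc : h * z₂ * h⁻¹ = z₁) :
    h ∈ Subgroup.normalizer (P : Set G) := by
  rw [Subgroup.mem_normalizer_iff]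
  intro w
  constructor
  · intro hw
    rw [← h2] at hw
    obtain ⟨i, rfl⟩ := Subgroup.mem_zpowers_iff.mp hw
    rw [← conj_zpow, hc, ← h1]
    exact Subgroup.zpow_mem _ (Subgroup.mem_zpowers z₁) i
  · intro hw
    rw [← h1] at hw
    obtain ⟨i, hi⟩ := Subgroup.mem_zpowers_iff.mp hw
    rw [← hc, conj_zpow] at hi
    have : w = z₂ ^ i := by
      have := mul_left_cancel (mul_right_cancel hi)
      exact this.symm
    rw [this, ← h2]
    exact Subgroup.zpow_mem _ (Subgroup.mem_zpowers z₂) i

theorem aux [Finite G] (p : ℕ) [hp : Fact p.Prime] (P : Sylow p G)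
    (hP : Nat.card ↥(P : Subgroup G) = p) :
    (∀ y : G, orderOf y = p →
      Nat.card (MulAction.fixedBy (G ⧸ Subgroup.normalizer ((P : Subgroup G) : Set G)) y) = 1) ∧
    ∀ x : G, x ∈ Subgroup.normalizer ((P : Subgroup G) : Set G) →
      x ∉ Subgroup.centralizer ((P : Subgroup G) : Set G) →
      Nat.card (MulAction.fixedBy (G ⧸ Subgroup.normalizer ((P : Subgroup G) : Set G)) x) ≤
        Nat.card (MulAction.orbitRel.Quotient ↥(P : Subgroup G)
          (G ⧸ Subgroup.normalizer ((P : Subgroup G) : Set G))) := by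
  set N := Subgroup.normalizer ((P : Subgroup G) : Set G) with hN
  constructor
  · intro y hy
    have hyp : y ^ p = 1 := by rw [← hy]; exact pow_orderOf_eq_one y
    have hy1 : y ≠ 1 := by
      rintro rfl
      rw [orderOf_one] at hy
      exact hp.out.one_lt.ne hy
    have hconj : ∀ g : G, (g⁻¹ * y * g) ^ p = 1 ∧ g⁻¹ * y * g ≠ 1 := by
      intro g
      constructor
      · have := conj_pow (a := g⁻¹) (b := y) (i := p)
        rw [inv_inv] at this
        rw [this, hyp, mul_one, inv_mul_cancel]
      · intro h
        apply hy1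
        have : y = g * (g⁻¹ * y * g) * g⁻¹ := by group
        rw [this, h]; group
    -- existence
    have hpg : IsPGroup p (Subgroup.zpowers y) :=
      IsPGroup.of_card (n := 1) (by rw [Nat.card_zpowers, hy, pow_one])
    obtain ⟨Q, hQ⟩ := hpg.exists_le_sylow
    obtain ⟨g₀, hg₀⟩ := MulAction.exists_smul_eq G P Q
    have hyQ : y ∈ (Q : Subgroup G) := hQ (Subgroup.mem_zpowers y)
    have hg₀P : g₀⁻¹ * y * g₀ ∈ (P : Subgroup G) := by
      rw [← hg₀] at hyQ
      have h1 : y ∈ MulAut.conj g₀ • (P : Subgroup G) := hyQ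
      rw [Subgroup.mem_pointwise_smul_iff_inv_smul_mem, MulAut.smul_def,
        MulAut.conj_inv_apply] at h1
      exact h1
    have hfix : MulAction.fixedBy (G ⧸ N) y = {(QuotientGroup.mk g₀ : G ⧸ N)} := by
      ext q
      induction q using QuotientGroup.induction_on with
      | H g =>
        rw [MulAction.mem_fixedBy, Set.mem_singleton_iff, MulAction.Quotient.smul_mk,
          smul_eq_mul, QuotientGroup.eq, QuotientGroup.eq]
        constructor
        · intro h
          have h1 : g⁻¹ * y * g ∈ N := by
            have := N.inv_mem h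
            have e : ((y * g)⁻¹ * g)⁻¹ = g⁻¹ * y * g := by group
            rwa [e] at this
          have h2 := mem_of_mem_normalizer p P _ (hconj g).1 h1
          have e1 := zpowers_eq_of_prime p (P : Subgroup G) hP _ h2 (hconj g).2
          have e2 := zpowers_eq_of_prime p (P : Subgroup G) hP _ hg₀P (hconj g₀).2
          apply conj_mem_normalizer (P : Subgroup G) _ _ (g⁻¹ * g₀) e1 e2
          group
        · intro h
          have h1 : g⁻¹ * y * g ∈ (P : Subgroup G) := by
            have e2 := zpowers_eq_of_prime p (P : Subgroup G) hP _ hg₀P (hconj g₀).2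
            have hn := (Subgroup.mem_normalizer_iff.mp h (g₀⁻¹ * y * g₀)).mp hg₀P
            have e : g⁻¹ * g₀ * (g₀⁻¹ * y * g₀) * (g⁻¹ * g₀)⁻¹ = g⁻¹ * y * g := by group
            rwa [e] at hn
          have h2 : g⁻¹ * y * g ∈ N := Subgroup.le_normalizer h1
          have := N.inv_mem h2
          have e : (g⁻¹ * y * g)⁻¹ = (y * g)⁻¹ * g := by group
          rwa [e] at this
    rw [hfix, Nat.card_coe_set_eq, Set.ncard_singleton]
  · intro x hxN hxC
    have key : ∀ q q' : G ⧸ N, x • q = q → x • q' = q' →
        (∃ u : (P : Subgroup G), (u : G) • q = q') → q = q' := by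
      intro q q' hq hq' hu
      obtain ⟨u, hu⟩ := hu
      by_contra hne
      apply hxC
      have hu1 : (u : G) ≠ 1 := by
        intro h
        rw [h, one_smul] at hu
        exact hne hu
      set z : G := x⁻¹ * (u : G)⁻¹ * x * (u : G) with hz
      have hzP : z ∈ (P : Subgroup G) := by
        have h1 : x⁻¹ * (u : G)⁻¹ * x ∈ (P : Subgroup G) :=
          (Subgroup.mem_normalizer_iff''.mp hxN _).mp ((P : Subgroup G).inv_mem u.2)
        exact (P : Subgroup G).mul_mem h1 u.2
      have hzq : z • q = q := by
        rw [hz, mul_smul, mul_smul, mul_smul, hu, hq', ← hu, inv_smul_smul, inv_smul_eq_iff, hq]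
      have hS : (P : Subgroup G) ⊓ MulAction.stabilizer G q = ⊥ := by
        have hle : (P : Subgroup G) ⊓ MulAction.stabilizer G q ≤ (P : Subgroup G) := inf_le_left
        have hd := Subgroup.card_dvd_of_le hle
        rw [hP] at hd
        rcases (Nat.dvd_prime hp.out).mp hd with h | h
        · exact Subgroup.eq_bot_of_card_eq _ h
        · exfalso
          have heq : (P : Subgroup G) ⊓ MulAction.stabilizer G q = (P : Subgroup G) :=
            Subgroup.eq_of_le_of_card_ge hle (by rw [h, hP])
          have : (u : G) ∈ (P : Subgroup G) ⊓ MulAction.stabilizer G q := by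
            rw [heq]; exact u.2
          exact hne (this.2.symm.trans hu)
      have hz1 : z = 1 := by
        have : z ∈ (P : Subgroup G) ⊓ MulAction.stabilizer G q := ⟨hzP, hzq⟩
        rw [hS, Subgroup.mem_bot] at this
        exact this
      have hcomm : (u : G) * x = x * (u : G) := by
        have h3 : (u : G) * x * z = x * (u : G) := by rw [hz]; group
        rw [hz1, mul_one] at h3
        exact h3
      have e := zpowers_eq_of_prime p (P : Subgroup G) hP _ u.2 hu1
      rw [Subgroup.mem_centralizer_iff]
      intro w hw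
      have hw' : w ∈ Subgroup.zpowers (u : G) := by rw [e]; exact hw
      obtain ⟨i, rfl⟩ := Subgroup.mem_zpowers_iff.mp hw'
      have hc : Commute (u : G) x := hcomm
      exact (hc.zpow_left i).eq
    apply Nat.card_le_card_of_injective
      (fun q : MulAction.fixedBy (G ⧸ N) x =>
        (Quotient.mk'' q.1 : MulAction.orbitRel.Quotient ↥(P : Subgroup G) (G ⧸ N)))
    intro q q' h
    have h1 : (q.1 : G ⧸ N) ∈ MulAction.orbit ↥(P : Subgroup G) (q'.1 : G ⧸ N) :=
      Quotient.exact' h
    obtain ⟨u, hu⟩ := h1
    apply Subtype.ext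
    exact (key q'.1 q.1 q'.2 q.2 ⟨u, hu⟩).symm
end


/-- Let P be a Sylow p-subgroup of order p of a finite group G, and consider the action of G on the left cosets of the normalizer N of P. Then every element of order p fixes exactly one coset, and an element of N that does not centralize P fixes at most as many cosets as there are orbits of P. -/
theorem result {G : Type*} [Group G] [Finite G] (p : ℕ) [Fact p.Prime] (P : Sylow p G) (hP : Nat.card ↥(P : Subgroup G) = p) : (∀ y : G, orderOf y = p → Nat.card (MulAction.fixedBy (G ⧸ Subgroup.normalizer ((P : Subgroup G) : Set G)) y) = 1) ∧ ∀ x : G, x ∈ Subgroup.normalizer ((P : Subgroup G) : Set G) → x ∉ Subgroup.centralizer ((P : Subgroup G) : Set G) → Nat.card (MulAction.fixedBy (G ⧸ Subgroup.normalizer ((P : Subgroup G) : Set G)) x) ≤ Nat.card (MulAction.orbitRel.Quotient ↥(P : Subgroup G) (G ⧸ Subgroup.normalizer ((P : Subgroup G) : Set G))) := by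
  exact aux p P hP

end Cfsg.Agent.S1018
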