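import Cfsg.Statements.S1313
import Cfsg.Agent.Lib.helper7.FStar

set_option autoImplicit false
open Cfsg

namespace Cfsg.Agent.S1313

theorem card_le_factorial_of_centralizer_le {H : Type*} [Group H] [Finite H] (N : Subgroup H)
    [N.Normal] (hN : Subgroup.centralizer (N : Set H) ≤ N) :
    Nat.card H ≤ (Nat.card N).factorial := by
  classical
  let φ : H →* MulAut N := MulAut.conjNormal
  have hker : φ.ker ≤ N := by
    refine le_trans ?_ hN
    intro h hh
    rw [MonoidHom.mem_ker] at hh
    rw [Subgroup.mem_centralizer_iff]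
    intro n hn
    have h1 := congrArg (fun a : MulAut N => ((a ⟨n, hn⟩ : N) : H)) hh
    simp only [φ, MulAut.conjNormal_apply, MulAut.one_apply] at h1
    calc n * h = (h * n * h⁻¹) * h := by rw [h1]
      _ = h * n := by group
  have h1 : Nat.card H = Nat.card φ.ker * Nat.card φ.range := by
    rw [← Subgroup.card_mul_index φ.ker, Subgroup.index_ker]
  have h2 : Nat.card φ.ker ≤ Nat.card N := Subgroup.card_le_of_le hker
  have h3 : Nat.card φ.range ≤ Nat.card (MulAut N) := Subgroup.card_le_card_group _
  let f : N × MulAut N → Equiv.Perm N := fun p => p.2.toEquiv.trans (Equiv.mulLeft p.1)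
  have hf : Function.Injective f := by
    rintro ⟨c, α⟩ ⟨c', α'⟩ h
    have hc : c = c' := by
      have := congrArg (fun e : Equiv.Perm N => e 1) h
      simpa [f] using this
    subst hc
    have hα : α = α' := by
      ext x
      have := congrArg (fun e : Equiv.Perm N => e x) h
      simpa [f] using this
    rw [hα]
  have h4 : Nat.card (N × MulAut N) ≤ Nat.card (Equiv.Perm N) := Nat.card_le_card_of_injective f hf
  rw [Nat.card_prod, Nat.card_perm] at h4
  calc Nat.card H = Nat.card φ.ker * Nat.card φ.range := h1
    _ ≤ Nat.card N * Nat.card (MulAut N) := Nat.mul_le_mul h2 h3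
    _ ≤ _ := h4

/-- For a finite group H, |H| ≤ |F*(H)|!. -/
theorem result {H : Type*} [Group H] [Finite H] : Nat.card H ≤ Nat.factorial (Nat.card ↥(Cfsg.generalizedFittingSubgroup H)) := by
  have := Cfsg.Agent.Lib.helper7.genFitting_normal (G := H)
  exact card_le_factorial_of_centralizer_le _ (Cfsg.Agent.Lib.helper7.centralizer_genFitting_le H)

end Cfsg.Agent.S1313
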