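import Cfsg.Statements.S1449
-- import your own Cfsg.Agent.* helpers here
import Cfsg.Agent.S1949
import Cfsg.Agent.Lib.helper15.RankTwo

set_option autoImplicit false
open Cfsg

namespace Cfsg.Agent.S1449

/-- Let G be a finite group, p an odd prime, R a p-subgroup with no elementary abelian subgroup of order p ^ 3, and A a solvable subgroup of odd order normalizing R with A ∩ C_G(R) = 1. Then the derived subgroup [A, A] is a p-group. -/
theorem result {G : Type*} [Group G] [Finite G] (p : ℕ) [Fact p.Prime] (hp : p ≠ 2) (R A : Subgroup G) (hR : IsPGroup p R) (hr : Cfsg.PRankLE p 2 R)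
    (hA : (A ≤ Subgroup.normalizer (R : Set G))) (hAs : Group.IsSolvable A) (hAodd : Odd (Nat.card A)) (hfaith : A ⊓ Subgroup.centralizer (R : Set G) = ⊥) :
    IsPGroup p ↥⁅A, A⁆ := by
  obtain ⟨D', h1, -, h3, h4, h5, -⟩ :=
    Cfsg.Agent.S1949.result (P := ↥R) (p := p) hR (⊤ : Subgroup (MulAut ↥R)) le_top
  refine Cfsg.Agent.Lib.helper15.GL2D.s1449_main p hp R A ?_ hA hAs hAodd hfaith D'
    (fun α => h1 α (Subgroup.mem_top α)) ?_ h4
    (fun α hcop hfix => h5 α (Subgroup.mem_top α) hcop hfix)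
  · intro E hE hEab hEexp
    have hc : IsMulCommutative ↥(E.subgroupOf R) := ⟨⟨fun a b => by
      apply Subtype.ext
      apply Subtype.ext
      exact hEab _ (Subgroup.mem_subgroupOf.mp a.2) _ (Subgroup.mem_subgroupOf.mp b.2)⟩⟩
    have he : ∀ a ∈ E.subgroupOf R, a ^ p = 1 := fun a ha =>
      Subtype.ext (hEexp _ (Subgroup.mem_subgroupOf.mp ha))
    have hcard := hr (E.subgroupOf R) hc he
    rwa [Nat.card_congr (Subgroup.subgroupOfEquivOfLe hE).toEquiv] at hcard
  · intro d hd
    rcases h3 d hd with h | ⟨h2, -⟩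
    · exact h
    · exact absurd h2 hp


end Cfsg.Agent.S1449
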