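import Cfsg.Statements.S1450
import Mathlib
import Cfsg.Agent.S1949
import Cfsg.Agent.S0072
import Cfsg.Agent.Lib.helper15.RankTwo
import Cfsg.Agent.Lib.helper1.RankTwoAut
import Cfsg.Agent.Lib.helper9.PPrimeCore
import Cfsg.Agent.Lib.helper3.OddSolvQuad
import Cfsg.Agent.Lib.helper7.PRankQuot

set_option autoImplicit false
set_option linter.style.haveILetI false
open Cfsg

namespace Cfsg.Agent.S1450

section aux50

open scoped commutatorElement

universe u

/-- `s1449_main` of helper15 with the faithfulness hypothesis only for `p'`-elements -/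
theorem s1449_weak {G : Type u} [Group G] [Finite G] (p : ℕ) [Fact p.Prime] (hp : p ≠ 2)
    (R A : Subgroup G)
    (hrk : ∀ E : Subgroup G, E ≤ R → (∀ x ∈ E, ∀ y ∈ E, x * y = y * x) → (∀ x ∈ E, x ^ p = 1) →
      Nat.card E ≤ p ^ 2)
    (hA : A ≤ Subgroup.normalizer (R : Set G)) (hAs : Group.IsSolvable A)
    (hAodd : Odd (Nat.card A))
    (hfa : ∀ a ∈ A, (orderOf a).Coprime p → a ∈ Subgroup.centralizer (R : Set G) → a = 1)
    (D' : Subgroup ↥R) (h1 : ∀ α : MulAut ↥R, D'.map α.toMonoidHom = D')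
    (h3 : ∀ d ∈ D', d ^ p = 1)
    (h4 : ⁅D', (⊤ : Subgroup ↥R)⁆ ≤ D' ⊓ Subgroup.centralizer (D' : Set ↥R))
    (h5 : ∀ α : MulAut ↥R, (orderOf α).Coprime p → (∀ d ∈ D', α d = d) → α = 1) :
    IsPGroup p ↥⁅A, A⁆ := by
  obtain ⟨D, hD⟩ : ∃ D : Subgroup G, D = D'.map R.subtype := ⟨_, rfl⟩
  have hDR : D ≤ R := by
    rw [hD]
    exact Subgroup.map_subtype_le D'
  have hDmem : ∀ g, g ∈ D ↔ ∃ h : g ∈ R, (⟨g, h⟩ : ↥R) ∈ D' := by
    intro g
    rw [hD]
    constructor
    · rintro ⟨d, hd, rfl⟩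
      exact ⟨d.2, hd⟩
    · rintro ⟨h, hd⟩
      exact ⟨⟨g, h⟩, hd, rfl⟩
  have hexpD : ∀ d ∈ D, d ^ p = 1 := by
    intro d hd
    obtain ⟨hdR, hdD'⟩ := (hDmem d).mp hd
    exact congrArg Subtype.val (h3 _ hdD')
  let φ : ↥A →* MulAut ↥R := R.normalizerMonoidHom.comp (Subgroup.inclusion hA)
  have hφ : ∀ (a : ↥A) (r : ↥R), ((φ a r : ↥R) : G) = (a : G) * r * (a : G)⁻¹ := fun a r => rfl
  have hconj : ∀ a ∈ A, ∀ d ∈ D, a * d * a⁻¹ ∈ D := by
    intro a ha d hd
    obtain ⟨hdR, hdD'⟩ := (hDmem d).mp hd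
    have h6 : φ ⟨a, ha⟩ ⟨d, hdR⟩ ∈ D'.map (φ ⟨a, ha⟩).toMonoidHom := Subgroup.mem_map_of_mem _ hdD'
    rw [h1] at h6
    rw [hD]
    exact ⟨_, h6, rfl⟩
  have hAD : A ≤ Subgroup.normalizer (D : Set G) := by
    intro a ha
    rw [Subgroup.mem_normalizer_iff]
    intro d
    constructor
    · exact hconj a ha d
    · intro h
      have h6 := hconj a⁻¹ (A.inv_mem ha) _ h
      have h7 : a⁻¹ * (a * d * a⁻¹) * a⁻¹⁻¹ = d := by group
      rwa [h7] at h6
  apply Cfsg.Agent.Lib.helper15.GL2D.main_abs p hp D A hexpD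
  · intro x hx y hy z hz
    obtain ⟨hxR, hxD'⟩ := (hDmem x).mp hx
    obtain ⟨hyR, hyD'⟩ := (hDmem y).mp hy
    obtain ⟨hzR, hzD'⟩ := (hDmem z).mp hz
    have h6 : ⁅(⟨x, hxR⟩ : ↥R), ⟨y, hyR⟩⁆ ∈ ⁅D', (⊤ : Subgroup ↥R)⁆ :=
      Subgroup.commutator_mem_commutator hxD' (Subgroup.mem_top _)
    have h7 : ⁅(⟨x, hxR⟩ : ↥R), ⟨y, hyR⟩⁆ ∈ Subgroup.centralizer (D' : Set ↥R) := (h4 h6).2
    rw [Subgroup.mem_centralizer_iff] at h7
    have h8 := h7 ⟨z, hzR⟩ hzD'
    exact (congrArg Subtype.val h8).symm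
  · intro E hE hEab
    exact hrk E (hE.trans hDR) hEab (fun x hx => hexpD x (hE hx))
  · exact hAD
  · exact hAs
  · exact hAodd
  · intro a ha hcop hcent
    have h6 : φ ⟨a, ha⟩ = 1 := by
      apply h5
      · have hdvd : orderOf (φ ⟨a, ha⟩) ∣ orderOf (⟨a, ha⟩ : ↥A) := orderOf_map_dvd φ _
        rw [Subgroup.orderOf_mk] at hdvd
        exact Nat.Coprime.coprime_dvd_left hdvd hcop
      · intro d hd
        apply Subtype.ext
        rw [hφ]
        exact hcent d ((hDmem d).mpr ⟨d.2, hd⟩)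
    have h7 : a ∈ Subgroup.centralizer (R : Set G) := by
      rw [Subgroup.mem_centralizer_iff]
      intro r hr
      have h8 : ((φ ⟨a, ha⟩ ⟨r, hr⟩ : ↥R) : G) = r := by
        rw [h6]
        rfl
      rw [hφ] at h8
      calc r * a = a * r * a⁻¹ * a := by rw [h8]
        _ = a * r := by group
    exact hfa a ha hcop h7

/-- S1449 with the faithfulness hypothesis only for `p'`-elements -/
theorem der_pgroup {G : Type u} [Group G] [Finite G] (p : ℕ) [Fact p.Prime] (hp : p ≠ 2)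
    (R A : Subgroup G) (hR : IsPGroup p R) (hr : Cfsg.PRankLE p 2 R)
    (hA : A ≤ Subgroup.normalizer (R : Set G)) (hAs : Group.IsSolvable A)
    (hAodd : Odd (Nat.card A))
    (hfa : ∀ a ∈ A, (orderOf a).Coprime p → a ∈ Subgroup.centralizer (R : Set G) → a = 1) :
    IsPGroup p ↥⁅A, A⁆ := by
  obtain ⟨D', h1, -, h3, h4, h5, -⟩ :=
    Cfsg.Agent.S1949.result (P := ↥R) (p := p) hR (⊤ : Subgroup (MulAut ↥R)) le_top
  refine s1449_weak p hp R A ?_ hA hAs hAodd hfa D'
    (fun α => h1 α (Subgroup.mem_top α)) ?_ h4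
    (fun α hcop hfix => h5 α (Subgroup.mem_top α) hcop hfix)
  · intro E hE hEab hEexp
    have hc : IsMulCommutative ↥(E.subgroupOf R) := ⟨⟨fun a b => by
      apply Subtype.ext
      apply Subtype.ext
      exact hEab _ (Subgroup.mem_subgroupOf.mp a.2) _ (Subgroup.mem_subgroupOf.mp b.2)⟩⟩
    have he : ∀ a ∈ E.subgroupOf R, a ^ p = 1 := fun a ha =>
      Subtype.ext (hEexp _ (Subgroup.mem_subgroupOf.mp ha))
    have hcard := hr (E.subgroupOf R) hc he
    rwa [Nat.card_congr (Subgroup.subgroupOfEquivOfLe hE).toEquiv] at hcard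
  · intro d hd
    rcases h3 d hd with h | ⟨h2, -⟩
    · exact h
    · exact absurd h2 hp

/-- the facts in `G / O_{p'}(G)` -/
theorem bar_facts {X : Type u} [Group X] [Finite X] [Group.IsSolvable X]
    (hodd : Odd (Nat.card X)) (p : ℕ) [Fact p.Prime] (hp : p ≠ 2)
    (hO : Cfsg.pPrimeCore p X = ⊥) (hr : Cfsg.PRankLE p 2 X) :
    IsPGroup p ↥(commutator X) ∧ ∀ q : ℕ, q.Prime → q ∣ Nat.card X → q ≤ p := by
  have hpp : p.Prime := Fact.out
  have hC := Cfsg.Agent.Lib.helper3.centralizer_pCore_le_of_pPrimeCore_bot hO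
  haveI hRn : (Cfsg.pCore p X).Normal := Subgroup.sSup_normal _ (fun _ h => h.1)
  have hRp : IsPGroup p ↥(Cfsg.pCore p X) :=
    Sylow.sSup_of_normal _ (fun _ h => h.2) (fun _ h => h.1)
  have hrR : Cfsg.PRankLE p 2 ↥(Cfsg.pCore p X) :=
    Cfsg.Agent.Lib.helper1.pRankLE_subgroup hr _
  have hfa : ∀ a : X, (orderOf a).Coprime p →
      a ∈ Subgroup.centralizer ((Cfsg.pCore p X : Subgroup X) : Set X) → a = 1 := by
    intro a hcop hcent
    have haR : a ∈ Cfsg.pCore p X := hC hcent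
    obtain ⟨k, hk⟩ := hRp ⟨a, haR⟩
    have hk' : a ^ p ^ k = 1 := congrArg Subtype.val hk
    have hdvd : orderOf a ∣ p ^ k := orderOf_dvd_of_pow_eq_one hk'
    have h1 : orderOf a = 1 := Nat.Coprime.eq_one_of_dvd (hcop.pow_right k) hdvd
    exact orderOf_eq_one_iff.mp h1
  constructor
  · have h := der_pgroup p hp (Cfsg.pCore p X) ⊤ hRp hrR
      (by rw [Subgroup.normalizer_eq_top]) inferInstance
      (by rw [Subgroup.card_top]; exact hodd) (fun a _ hcop hcent => hfa a hcop hcent)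
    rw [commutator_def]
    exact h
  · intro q hq hqd
    by_contra hcon
    push Not at hcon
    have hqp : q ≠ p := by omega
    haveI : Fact q.Prime := ⟨hq⟩
    obtain ⟨a, ha⟩ := exists_prime_orderOf_dvd_card' q hqd
    have hdvd : q ∣ Nat.card (MulAut ↥(Cfsg.pCore p X)) := by
      have h1 : orderOf (MulAut.conjNormal a : MulAut ↥(Cfsg.pCore p X)) = q := by
        have h2 : (MulAut.conjNormal a : MulAut ↥(Cfsg.pCore p X)) ^ q = 1 := by
          rw [← map_pow, ← ha, pow_orderOf_eq_one, map_one]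
        have h3 : (MulAut.conjNormal a : MulAut ↥(Cfsg.pCore p X)) ≠ 1 := by
          intro h4
          have h5 : a ∈ Subgroup.centralizer ((Cfsg.pCore p X : Subgroup X) : Set X) := by
            rw [Subgroup.mem_centralizer_iff]
            intro r hr
            have h6 : ((MulAut.conjNormal a (⟨r, hr⟩ : ↥(Cfsg.pCore p X)) :
                ↥(Cfsg.pCore p X)) : X) = r := by
              rw [h4]
              rfl
            rw [MulAut.conjNormal_apply] at h6
            calc r * a = a * r * a⁻¹ * a := by rw [h6]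
              _ = a * r := by group
          have h7 := hfa a (by rw [ha]; exact (Nat.coprime_primes hq hpp).mpr hqp) h5
          rw [h7, orderOf_one] at ha
          exact hq.one_lt.ne ha
        exact orderOf_eq_prime h2 h3
      rw [← h1]
      exact orderOf_dvd_natCard _
    have h8 := (Cfsg.Agent.Lib.helper1.rank_two_aut_prime ↥(Cfsg.pCore p X) hp hRp hrR q hq hqp
      hdvd).2
    omega

end aux50

/-- Let G be a solvable group of odd order, p a prime dividing its order with G having no elementary abelian subgroup of order p ^ 3. Then every prime dividing the index of O_{p'}(G) is at most p; if p = 3 or p is the smallest prime divisor of #G then G has a normal p-complement; the derived subgroup G' has a normal p-complement; every subgroup of G' of order coprime to p lies in O_{p'}(G'); and G/O_{p',p}(G) is abelian of order coprime to p. -/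
theorem result {G : Type*} [Group G] [Finite G] [Group.IsSolvable G] (hodd : Odd (Nat.card G)) (p : ℕ) [Fact p.Prime] (hpG : p ∣ Nat.card G) (hr : Cfsg.PRankLE p 2 G) :
    (∀ q : ℕ, q.Prime → q ∣ (Cfsg.pPrimeCore p G).index → q ≤ p) ∧
      ((p = 3 ∨ ∀ q : ℕ, q.Prime → q ∣ Nat.card G → p ≤ q) → Cfsg.HasNormalPComplement p G) ∧
      Cfsg.HasNormalPComplement p ↥(commutator G) ∧
      (∀ L : Subgroup ↥(commutator G), (Nat.card L).Coprime p → L ≤ Cfsg.pPrimeCore p ↥(commutator G)) ∧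
      commutator G ≤ Cfsg.pPrimePCore p G ∧ ((Cfsg.pPrimePCore p G).index).Coprime p := by
  have hpp : p.Prime := Fact.out
  have hp2 : p ≠ 2 := by
    rintro rfl
    exact (Nat.not_even_iff_odd.mpr hodd) (even_iff_two_dvd.mpr hpG)
  haveI hNn : (Cfsg.pPrimeCore p G).Normal := Cfsg.Agent.Lib.helper9.ppc_normal p G
  have hNc : (Nat.card (Cfsg.pPrimeCore p G)).Coprime p :=
    Cfsg.Agent.Lib.helper9.pPrimeCore_coprime p G
  have hbarodd : Odd (Nat.card (G ⧸ Cfsg.pPrimeCore p G)) :=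
    Odd.of_dvd_nat hodd (Subgroup.card_quotient_dvd_card _)
  have hbarO := Cfsg.Agent.Lib.helper9.pPrimeCore_quotient_eq_bot p G
  have hbarr : Cfsg.PRankLE p 2 (G ⧸ Cfsg.pPrimeCore p G) :=
    Cfsg.Agent.Lib.helper7.PRankQuot.pRankLE_quot _ hNc hr
  obtain ⟨hCp, hprimes⟩ := bar_facts hbarodd p hp2 hbarO hbarr
  have hπC : ∀ x ∈ commutator G, QuotientGroup.mk' (Cfsg.pPrimeCore p G) x ∈
      commutator (G ⧸ Cfsg.pPrimeCore p G) := by
    intro x hx
    have h1 : (commutator G).map (QuotientGroup.mk' (Cfsg.pPrimeCore p G)) ≤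
        commutator (G ⧸ Cfsg.pPrimeCore p G) := by
      rw [commutator_def, Subgroup.map_commutator, commutator_def]
      exact Subgroup.commutator_mono le_top le_top
    exact h1 ⟨x, hx, rfl⟩
  have hpow : ∀ x ∈ commutator G, ∃ k : ℕ, x ^ p ^ k ∈ Cfsg.pPrimeCore p G := by
    intro x hx
    obtain ⟨k, hk⟩ := hCp ⟨_, hπC x hx⟩
    refine ⟨k, ?_⟩
    have hk' : (QuotientGroup.mk' (Cfsg.pPrimeCore p G) x) ^ p ^ k = 1 :=
      congrArg Subtype.val hk
    rw [← map_pow] at hk'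
    exact (QuotientGroup.eq_one_iff _).mp hk'
  have hsubc : (Nat.card ↥((Cfsg.pPrimeCore p G).subgroupOf (commutator G))).Coprime p := by
    have h1 : Nat.card ↥((Cfsg.pPrimeCore p G).subgroupOf (commutator G)) =
        Nat.card ↥(Cfsg.pPrimeCore p G ⊓ commutator G : Subgroup G) := by
      rw [← Subgroup.inf_subgroupOf_right]
      exact Nat.card_congr (Subgroup.subgroupOfEquivOfLe inf_le_right).toEquiv
    rw [h1]
    exact Nat.Coprime.coprime_dvd_left (Subgroup.card_dvd_of_le inf_le_left) hNc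
  have hCn : (commutator (G ⧸ Cfsg.pPrimeCore p G)).Normal := inferInstance
  have hCle : commutator (G ⧸ Cfsg.pPrimeCore p G) ≤ Cfsg.pCore p (G ⧸ Cfsg.pPrimeCore p G) :=
    le_sSup ⟨hCn, hCp⟩
  refine ⟨?_, ?_, ?_, ?_, ?_, ?_⟩
  · intro q hq hqd
    rw [Subgroup.index_eq_card] at hqd
    exact hprimes q hq hqd
  · intro hcase
    rw [Cfsg.Agent.S0072.hasNormalPComplement_iff]
    refine ⟨Cfsg.pPrimeCore p G, hNn, hNc, ?_⟩
    rw [Subgroup.index_eq_card]
    have hall : ∀ {d : ℕ}, d.Prime → d ∣ Nat.card (G ⧸ Cfsg.pPrimeCore p G) → d = p := by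
      intro d hd hdd
      have hle := hprimes d hd hdd
      rcases hcase with h3 | hmin
      · have hdodd : d ≠ 2 := by
          rintro rfl
          exact (Nat.not_even_iff_odd.mpr hbarodd) (even_iff_two_dvd.mpr hdd)
        have hd2 := hd.two_le
        omega
      · have := hmin d hd (hdd.trans (Subgroup.card_quotient_dvd_card _))
        omega
    exact ⟨_, Nat.eq_prime_pow_of_unique_prime_dvd Nat.card_pos.ne' hall⟩
  · rw [Cfsg.Agent.S0072.hasNormalPComplement_iff]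
    refine ⟨(Cfsg.pPrimeCore p G).subgroupOf (commutator G), inferInstance, hsubc, ?_⟩
    have hq : IsPGroup p (↥(commutator G) ⧸ (Cfsg.pPrimeCore p G).subgroupOf (commutator G)) := by
      intro y
      obtain ⟨x, rfl⟩ := QuotientGroup.mk_surjective y
      obtain ⟨k, hk⟩ := hpow x x.2
      refine ⟨k, ?_⟩
      rw [← QuotientGroup.mk_pow, QuotientGroup.eq_one_iff, Subgroup.mem_subgroupOf,
        Subgroup.coe_pow]
      exact hk
    obtain ⟨a, ha⟩ := IsPGroup.iff_card.mp hq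
    exact ⟨a, by rw [Subgroup.index_eq_card]; exact ha⟩
  · intro L hL
    have hsub : (Cfsg.pPrimeCore p G).subgroupOf (commutator G) ≤
        Cfsg.pPrimeCore p ↥(commutator G) :=
      Cfsg.Agent.Lib.helper9.le_pPrimeCore inferInstance hsubc
    intro x hx
    apply hsub
    rw [Subgroup.mem_subgroupOf]
    obtain ⟨k, hk⟩ := hpow x x.2
    have h1 : (⟨x, hx⟩ : L) ^ Nat.card L = 1 := pow_card_eq_one'
    have h2 : ((x : ↥(commutator G)) : G) ^ Nat.card L = 1 := by
      have h := congrArg (fun w : L => ((w : ↥(commutator G)) : G)) h1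
      exact h
    have h3 : (QuotientGroup.mk' (Cfsg.pPrimeCore p G) (x : G)) ^ Nat.card L = 1 := by
      rw [← map_pow, h2, map_one]
    have h4 : (QuotientGroup.mk' (Cfsg.pPrimeCore p G) (x : G)) ^ p ^ k = 1 := by
      rw [← map_pow]
      exact (QuotientGroup.eq_one_iff _).mpr hk
    have h5 : orderOf (QuotientGroup.mk' (Cfsg.pPrimeCore p G) (x : G)) = 1 :=
      Nat.Coprime.eq_one_of_dvd
        (Nat.Coprime.coprime_dvd_left (orderOf_dvd_of_pow_eq_one h3) (hL.pow_right k))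
        (orderOf_dvd_of_pow_eq_one h4)
    exact (QuotientGroup.eq_one_iff _).mp (orderOf_eq_one_iff.mp h5)
  · intro x hx
    unfold Cfsg.pPrimePCore
    rw [Subgroup.mem_comap]
    exact hCle (hπC x hx)
  · have h1 : (Cfsg.pPrimePCore p G).index =
        (Cfsg.pCore p (G ⧸ Cfsg.pPrimeCore p G)).index := by
      unfold Cfsg.pPrimePCore
      exact Subgroup.index_comap_of_surjective _ (QuotientGroup.mk'_surjective _)
    rw [h1]
    obtain ⟨P⟩ : Nonempty (Sylow p (G ⧸ Cfsg.pPrimeCore p G)) := inferInstance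
    haveI hRn : (Cfsg.pCore p (G ⧸ Cfsg.pPrimeCore p G)).Normal :=
      Subgroup.sSup_normal _ (fun _ h => h.1)
    have hRp : IsPGroup p ↥(Cfsg.pCore p (G ⧸ Cfsg.pPrimeCore p G)) :=
      Sylow.sSup_of_normal _ (fun _ h => h.2) (fun _ h => h.1)
    have hRP : Cfsg.pCore p (G ⧸ Cfsg.pPrimeCore p G) ≤ (P : Subgroup _) :=
      hRp.le_sylow_of_normal P
    have hPle : commutator (G ⧸ Cfsg.pPrimeCore p G) ≤ (P : Subgroup _) := hCle.trans hRP
    have hPn : (P : Subgroup (G ⧸ Cfsg.pPrimeCore p G)).Normal := by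
      constructor
      intro n hn g
      have h2 : g * n * g⁻¹ = (g * n * g⁻¹ * n⁻¹) * n := by group
      have h3 : g * n * g⁻¹ * n⁻¹ ∈ commutator (G ⧸ Cfsg.pPrimeCore p G) :=
        Subgroup.commutator_mem_commutator (Subgroup.mem_top g) (Subgroup.mem_top n)
      rw [h2]
      exact Subgroup.mul_mem _ (hPle h3) hn
    have hPeq : (P : Subgroup _) = Cfsg.pCore p (G ⧸ Cfsg.pPrimeCore p G) :=
      le_antisymm (le_sSup ⟨hPn, P.isPGroup'⟩) hRP
    rw [← hPeq]
    exact Nat.Coprime.symm ((Nat.Prime.coprime_iff_not_dvd hpp).mpr P.not_dvd_index)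

end Cfsg.Agent.S1450
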