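import Cfsg.Statements.S1451
import Mathlib
import Cfsg.Agent.Lib.helper1.RankTwoAut
import Cfsg.Agent.Lib.helper1.Fitting
import Cfsg.Agent.Lib.helper1.Solv
import Cfsg.Agent.Lib.helper1.Hall
import Cfsg.Agent.Lib.helper1.HallCompl
import Cfsg.Agent.Lib.helper15.S1451A
import Cfsg.Agent.Lib.helper12.S1451C

set_option autoImplicit false
set_option linter.style.haveILetI false

open Cfsg

namespace Cfsg.Agent.S1451

section aux51b

open scoped Pointwise

/-- `q`-elements of `G'` lie in `O_q(G)` -/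
theorem qelt_mem_pCore {G : Type*} [Group G] [Finite G] [Group.IsSolvable G]
    (h : ∀ q : ℕ, q.Prime → ∀ g ∈ commutator G, (orderOf g).Coprime q →
      g ∈ Subgroup.centralizer ((Cfsg.pCore q G : Subgroup G) : Set G))
    (q : ℕ) [Fact q.Prime] (x : G) (hxK : x ∈ commutator G) (k : ℕ) (hxq : x ^ q ^ k = 1) :
    x ∈ Cfsg.pCore q G := by
  have hq : q.Prime := Fact.out
  obtain ⟨Fq, hFq⟩ : ∃ Fq : Subgroup G, Fq = ⨆ p : {p : Nat.Primes // (p : ℕ) ≠ q},
      Cfsg.pCore ((p : Nat.Primes) : ℕ) G := ⟨_, rfl⟩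
  haveI hFqn : Fq.Normal := by
    rw [hFq]
    haveI : ∀ p : {p : Nat.Primes // (p : ℕ) ≠ q},
        (Cfsg.pCore ((p : Nat.Primes) : ℕ) G).Normal :=
      fun p => Cfsg.Agent.Lib.helper1.pCore_normal _ G
    exact Subgroup.iSup_normal _
  have hcentFq : ∀ y : G, (∀ p : ℕ, p.Prime → p ≠ q →
      y ∈ Subgroup.centralizer ((Cfsg.pCore p G : Subgroup G) : Set G)) →
      y ∈ Subgroup.centralizer (Fq : Set G) := by
    intro y hy
    have h1 : Fq ≤ Subgroup.centralizer ({y} : Set G) := by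
      rw [hFq]
      apply iSup_le
      intro p a ha
      rw [Subgroup.mem_centralizer_iff]
      intro b hb
      rw [Set.mem_singleton_iff] at hb
      rw [hb]
      have h2 := hy p.1 p.1.2 p.2
      rw [Subgroup.mem_centralizer_iff] at h2
      exact (h2 a ha).symm
    rw [Subgroup.mem_centralizer_iff]
    intro a ha
    have h3 := h1 ha
    rw [Subgroup.mem_centralizer_iff] at h3
    exact (h3 y rfl).symm
  obtain ⟨L, hL⟩ : ∃ L : Subgroup G, L = commutator G ⊓ Subgroup.centralizer (Fq : Set G) :=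
    ⟨_, rfl⟩
  haveI hLn : L.Normal := by
    rw [hL]
    infer_instance
  have hLK : L ≤ commutator G := by
    rw [hL]
    exact inf_le_left
  have hLC : L ≤ Subgroup.centralizer (Fq : Set G) := by
    rw [hL]
    exact inf_le_right
  haveI hOn : (Cfsg.pCore q G).Normal := Cfsg.Agent.Lib.helper1.pCore_normal q G
  have hFle : Cfsg.fittingSubgroup G ≤ Cfsg.pCore q G ⊔ Fq := by
    rw [Cfsg.Agent.Lib.helper1.fitting_eq_iSup_pCore]
    apply iSup_le
    intro p
    by_cases hpq : (p : ℕ) = q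
    · rw [hpq]
      exact le_sup_left
    · refine le_trans ?_ le_sup_right
      rw [hFq]
      exact le_iSup (fun p : {p : Nat.Primes // (p : ℕ) ≠ q} =>
        Cfsg.pCore ((p : Nat.Primes) : ℕ) G) ⟨p, hpq⟩
  have hcentral : ∀ z ∈ L, (orderOf z).Coprime q → ∀ l ∈ L, l * z = z * l := by
    intro z hz hzq l hl
    have hzO : z ∈ Subgroup.centralizer ((Cfsg.pCore q G : Subgroup G) : Set G) :=
      h q hq z (hLK hz) hzq
    have hzFq : z ∈ Subgroup.centralizer (Fq : Set G) := hLC hz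
    rw [Subgroup.mem_centralizer_iff] at hzO hzFq
    have hzF : z ∈ Subgroup.centralizer (Cfsg.fittingSubgroup G : Set G) := by
      rw [Subgroup.mem_centralizer_iff]
      intro a ha
      have ha' := hFle ha
      rw [← SetLike.mem_coe, Subgroup.mul_normal] at ha'
      obtain ⟨b, hb, c, hc, rfl⟩ := Set.mem_mul.mp ha'
      have h1 := hzO b hb
      have h2 := hzFq c hc
      calc b * c * z = b * (c * z) := by group
        _ = b * (z * c) := by rw [h2]
        _ = (b * z) * c := by group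
        _ = z * (b * c) := by rw [h1, mul_assoc]
    have hzFmem : z ∈ Cfsg.fittingSubgroup G :=
      Cfsg.Agent.Lib.helper1.centralizer_fitting_le G hzF
    have hz' := hFle hzFmem
    rw [← SetLike.mem_coe, Subgroup.mul_normal] at hz'
    obtain ⟨a, ha, b, hb, hab⟩ := Set.mem_mul.mp hz'
    have haz : Commute a z := hzO a ha
    have hab' : Commute a b := by
      have hb' : b = a⁻¹ * z := by
        rw [← hab]
        group
      rw [hb']
      exact (Commute.refl a).inv_right.mul_right haz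
    obtain ⟨j, hj⟩ := IsPGroup.iff_card.mp (Cfsg.Agent.Lib.helper1.pCore_isPGroup q G)
    have haN : a ^ (q ^ j) = 1 := by
      have h5 : (⟨a, ha⟩ : ↥(Cfsg.pCore q G)) ^ (q ^ j) = 1 := by
        rw [← hj]
        exact pow_card_eq_one'
      exact congrArg Subtype.val h5
    have hzN : z ^ (q ^ j) = b ^ (q ^ j) := by
      rw [← hab, hab'.mul_pow, haN, one_mul]
    have hlz : Commute l (z ^ (q ^ j)) := by
      rw [hzN]
      have hl' := hLC hl
      rw [Subgroup.mem_centralizer_iff] at hl'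
      exact (hl' _ (Fq.pow_mem hb _)).symm
    obtain ⟨u, hu⟩ := exists_pow_eq_self_of_coprime (x := z) (n := q ^ j)
      (Nat.Coprime.pow_left j hzq.symm)
    have h6 : Commute l ((z ^ (q ^ j)) ^ u) := hlz.pow_right u
    rw [hu] at h6
    exact h6
  have hLnil : Group.IsNilpotent ↥L := by
    apply Group.of_quotient_center_nilpotent
    have hpg : IsPGroup q (↥L ⧸ Subgroup.center ↥L) := by
      intro y
      obtain ⟨g, rfl⟩ := QuotientGroup.mk_surjective y
      have hg0 : orderOf (g : G) ≠ 0 := (orderOf_pos (g : G)).ne'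
      obtain ⟨e, m, hm, hem⟩ := Nat.exists_eq_pow_mul_and_not_dvd hg0 q hq.ne_one
      refine ⟨e, ?_⟩
      rw [← QuotientGroup.mk_pow, QuotientGroup.eq_one_iff]
      have hz1 : ((g : G) ^ q ^ e) ^ m = 1 := by
        rw [← pow_mul, ← hem, pow_orderOf_eq_one]
      have hzord : (orderOf ((g : G) ^ q ^ e)).Coprime q := by
        have hd : orderOf ((g : G) ^ q ^ e) ∣ m := orderOf_dvd_of_pow_eq_one hz1
        exact Nat.Coprime.coprime_dvd_left hd ((Nat.Prime.coprime_iff_not_dvd hq).mpr hm).symm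
      rw [Subgroup.mem_center_iff]
      intro l
      apply Subtype.ext
      have h7 := hcentral ((g : G) ^ q ^ e) (L.pow_mem g.2 _) hzord (l : G) l.2
      simpa using h7
    exact hpg.isNilpotent
  have hxL : x ∈ L := by
    rw [hL]
    refine ⟨hxK, hcentFq x ?_⟩
    intro p hp hpq
    apply h p hp x hxK
    have hd : orderOf x ∣ q ^ k := orderOf_dvd_of_pow_eq_one hxq
    exact Nat.Coprime.coprime_dvd_left hd
      (Nat.Coprime.pow_left k ((Nat.coprime_primes hq hp).mpr (Ne.symm hpq)))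
  have hzp : IsPGroup q ↥(Subgroup.zpowers (⟨x, hxL⟩ : ↥L)) := by
    rintro ⟨y, hy⟩
    obtain ⟨n, rfl⟩ := Subgroup.mem_zpowers_iff.mp hy
    refine ⟨k, ?_⟩
    apply Subtype.ext
    have h8 : (⟨x, hxL⟩ : ↥L) ^ q ^ k = 1 := Subtype.ext (by simpa using hxq)
    show ((⟨x, hxL⟩ : ↥L) ^ n) ^ q ^ k = 1
    rw [← zpow_natCast, ← zpow_mul, mul_comm, zpow_mul, zpow_natCast, h8, one_zpow]
  obtain ⟨Q, hQ⟩ := hzp.exists_le_sylow
  have hN : Group.IsNilpotent ↥L ↔
      ∀ (p : ℕ) (_hp : Fact p.Prime) (P : Sylow p ↥L), (↑P : Subgroup ↥L).Normal :=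
    (Group.isNilpotent_of_finite_tfae (G := ↥L)).out 0 3 rfl rfl
  have hQn : (Q : Subgroup ↥L).Normal := hN.mp hLnil q inferInstance Q
  haveI hQc : (Q : Subgroup ↥L).Characteristic := Sylow.characteristic_of_normal Q hQn
  have hQG : ((Q : Subgroup ↥L).map L.subtype).Normal :=
    ConjAct.normal_of_characteristic_of_normal
  have hQp : IsPGroup q ↥((Q : Subgroup ↥L).map L.subtype) := Q.2.map L.subtype
  have hle := Cfsg.Agent.Lib.helper1.le_pCore hQG hQp
  apply hle
  exact ⟨⟨x, hxL⟩, hQ (Subgroup.mem_zpowers _), rfl⟩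

theorem commutator_le_fitting {G : Type*} [Group G] [Finite G] [Group.IsSolvable G]
    (h : ∀ q : ℕ, q.Prime → ∀ g ∈ commutator G, (orderOf g).Coprime q →
      g ∈ Subgroup.centralizer ((Cfsg.pCore q G : Subgroup G) : Set G)) :
    commutator G ≤ Cfsg.fittingSubgroup G ∧ Group.IsNilpotent ↥(commutator G) := by
  have hnil : Group.IsNilpotent ↥(commutator G) := by
    have hN : Group.IsNilpotent ↥(commutator G) ↔
        ∀ (p : ℕ) (_hp : Fact p.Prime) (P : Sylow p ↥(commutator G)),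
          (↑P : Subgroup ↥(commutator G)).Normal :=
      (Group.isNilpotent_of_finite_tfae (G := ↥(commutator G))).out 0 3 rfl rfl
    apply hN.mpr
    intro q hqF P
    haveI := hqF
    haveI hOn : (Cfsg.pCore q G).Normal := Cfsg.Agent.Lib.helper1.pCore_normal q G
    have hle : (P : Subgroup ↥(commutator G)) ≤ (Cfsg.pCore q G).subgroupOf (commutator G) := by
      intro y hy
      rw [Subgroup.mem_subgroupOf]
      obtain ⟨k, hk⟩ := P.isPGroup' ⟨y, hy⟩
      have hk' : (y : G) ^ q ^ k = 1 := by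
        have h9 := congrArg Subtype.val (congrArg Subtype.val hk)
        simpa using h9
      exact qelt_mem_pCore h q (y : G) y.2 k hk'
    have hpg : IsPGroup q ↥((Cfsg.pCore q G).subgroupOf (commutator G)) :=
      (Cfsg.Agent.Lib.helper1.pCore_isPGroup q G).comap_subtype
    have heq := P.is_maximal' hpg hle
    rw [← heq]
    infer_instance
  exact ⟨Cfsg.Agent.Lib.helper1.le_fitting inferInstance hnil, hnil⟩

end aux51b

section aux51

theorem pRankLE_of_le {p k : ℕ} {G : Type*} [Group G] {H K : Subgroup G}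
    (h : Cfsg.PRankLE p k ↥H) (hK : K ≤ H) : Cfsg.PRankLE p k ↥K := by
  intro A hA hexp
  have hinj : Function.Injective (Subgroup.inclusion hK) := Subgroup.inclusion_injective hK
  have hc : IsMulCommutative ↥(A.map (Subgroup.inclusion hK)) := by
    refine ⟨⟨fun a b => ?_⟩⟩
    obtain ⟨a, ha⟩ := a
    obtain ⟨b, hb⟩ := b
    obtain ⟨a', ha', rfl⟩ := ha
    obtain ⟨b', hb', rfl⟩ := hb
    apply Subtype.ext
    show Subgroup.inclusion hK a' * Subgroup.inclusion hK b' =
      Subgroup.inclusion hK b' * Subgroup.inclusion hK a'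
    rw [← map_mul, ← map_mul]
    have := hA.is_comm.comm (⟨a', ha'⟩ : ↥A) ⟨b', hb'⟩
    have h2 : a' * b' = b' * a' := congrArg Subtype.val this
    rw [h2]
  have h1 := h (A.map (Subgroup.inclusion hK)) hc (by
    rintro _ ⟨a, ha, rfl⟩
    rw [← map_pow, hexp a ha, map_one])
  rwa [Subgroup.card_map_of_injective hinj] at h1

theorem big_prime_centralizes {G : Type*} [Group G] [Finite G] (q : ℕ) [Fact q.Prime]
    (hq2 : q ≠ 2) (R : Subgroup G) [R.Normal] (hR : IsPGroup q R) (hr : Cfsg.PRankLE q 2 R)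
    (g : G) (hg : ∀ s : ℕ, s.Prime → s ∣ orderOf g → q < s) :
    g ∈ Subgroup.centralizer (R : Set G) := by
  have hone : (MulAut.conjNormal g : MulAut ↥R) = 1 := by
    by_contra hne
    have h1 : orderOf (MulAut.conjNormal g : MulAut ↥R) ≠ 1 := by
      intro h
      exact hne (orderOf_eq_one_iff.mp h)
    obtain ⟨s, hs, hsd⟩ := Nat.exists_prime_and_dvd h1
    have h2 : orderOf (MulAut.conjNormal g : MulAut ↥R) ∣ orderOf g :=
      orderOf_map_dvd (MulAut.conjNormal : G →* MulAut ↥R) g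
    have h3 : q < s := hg s hs (hsd.trans h2)
    have h4 : s ∣ Nat.card (MulAut ↥R) := hsd.trans (orderOf_dvd_natCard _)
    have h5 := (Cfsg.Agent.Lib.helper1.rank_two_aut_prime ↥R hq2 hR hr s hs (by omega) h4).2
    omega
  rw [Subgroup.mem_centralizer_iff]
  intro r hr'
  have h6 : ((MulAut.conjNormal g (⟨r, hr'⟩ : ↥R) : ↥R) : G) = r := by
    rw [hone]
    rfl
  rw [MulAut.conjNormal_apply] at h6
  calc r * g = g * r * g⁻¹ * g := by rw [h6]
    _ = g * r := by group

theorem mem_of_normal_coprime {G : Type*} [Group G] [Finite G] (N : Subgroup G) [N.Normal]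
    (x : G) (hx : (orderOf x).Coprime N.index) : x ∈ N := by
  have h1 : orderOf (QuotientGroup.mk' N x) ∣ orderOf x :=
    orderOf_map_dvd (QuotientGroup.mk' N) x
  have h2 : orderOf (QuotientGroup.mk' N x) ∣ N.index := by
    rw [Subgroup.index_eq_card]
    exact orderOf_dvd_natCard _
  have h3 : orderOf (QuotientGroup.mk' N x) = 1 := Nat.eq_one_of_dvd_coprimes hx h1 h2
  exact (QuotientGroup.eq_one_iff x).mp (orderOf_eq_one_iff.mp h3)

theorem split_nat (p : ℕ) : ∀ N : ℕ, N ≠ 0 → ∃ m n : ℕ, N = m * n ∧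
    (∀ q : ℕ, q.Prime → q ∣ m → p < q) ∧ (∀ q : ℕ, q.Prime → q ∣ n → q ≤ p) := by
  intro N
  induction N using Nat.strong_induction_on with
  | _ N ih =>
    intro hN
    by_cases h1 : N = 1
    · exact ⟨1, 1, by rw [h1], fun q hq hd => absurd (Nat.dvd_one.mp hd) hq.ne_one,
        fun q hq hd => absurd (Nat.dvd_one.mp hd) hq.ne_one⟩
    · obtain ⟨s, hs, N', rfl⟩ := Nat.exists_prime_and_dvd h1
      have hN' : N' ≠ 0 := by
        rintro rfl
        simp at hN
      have hlt : N' < s * N' := by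
        have := hs.one_lt
        nlinarith [Nat.pos_of_ne_zero hN']
      obtain ⟨m, n, hmn, hm, hn⟩ := ih N' hlt hN'
      by_cases hps : p < s
      · refine ⟨s * m, n, by rw [hmn]; ring, ?_, hn⟩
        intro q hq hd
        rcases (Nat.Prime.dvd_mul hq).mp hd with h | h
        · rw [(Nat.prime_dvd_prime_iff_eq hq hs).mp h]
          exact hps
        · exact hm q hq h
      · refine ⟨m, s * n, by rw [hmn]; ring, hm, ?_⟩
        intro q hq hd
        rcases (Nat.Prime.dvd_mul hq).mp hd with h | h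
        · rw [(Nat.prime_dvd_prime_iff_eq hq hs).mp h]
          omega
        · exact hn q hq h

open scoped Pointwise in
theorem normal_pgroup_le_sylow {G : Type*} [Group G] [Finite G] {p : ℕ} [Fact p.Prime]
    (N : Subgroup G) [N.Normal] (hN : IsPGroup p N) (P : Sylow p G) :
    N ≤ (P : Subgroup G) := by
  obtain ⟨P₂, hP₂⟩ := hN.exists_le_sylow
  obtain ⟨g, hg⟩ := MulAction.exists_smul_eq G P₂ P
  intro n hn
  have h1 : g⁻¹ * n * g⁻¹⁻¹ ∈ N := ‹N.Normal›.conj_mem n hn g⁻¹
  have h2 : g⁻¹ * n * g⁻¹⁻¹ ∈ (P₂ : Subgroup G) := hP₂ h1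
  have h3 : g * (g⁻¹ * n * g⁻¹⁻¹) * g⁻¹ ∈ ((g • P₂ : Sylow p G) : Subgroup G) := by
    rw [Sylow.coe_subgroup_smul]
    exact Subgroup.smul_mem_pointwise_smul _ (MulAut.conj g) _ h2
  rw [hg] at h3
  simpa [mul_assoc] using h3

theorem exists_char_hall {G : Type*} [Group G] [Finite G] [Group.IsSolvable G] (p : ℕ)
    (hK : commutator G ≤ Cfsg.fittingSubgroup G)
    (h : ∀ r : ℕ, r.Prime → r ≤ p → ∀ g : G, (∀ s : ℕ, s.Prime → s ∣ orderOf g → p < s) →
      g ∈ Subgroup.centralizer ((Cfsg.pCore r G : Subgroup G) : Set G)) :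
    ∃ N : Subgroup G, N.Characteristic ∧ Cfsg.IsPiHall {q | q.Prime ∧ p < q} N := by
  obtain ⟨m, n, hmn, hm, hn⟩ := split_nat p (Nat.card G) Nat.card_pos.ne'
  have hcop : m.Coprime n := by
    by_contra hc
    obtain ⟨s, hs, h1, h2⟩ := Nat.Prime.not_coprime_iff_dvd.mp hc
    have := hm s hs h1
    have := hn s hs h2
    omega
  obtain ⟨H, hH⟩ := Cfsg.Agent.Lib.helper1.hall_exists m n hmn hcop
  have hm0 : 0 < m := by
    rcases Nat.eq_zero_or_pos m with h0 | h0
    · rw [h0, zero_mul] at hmn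
      exact absurd hmn Nat.card_pos.ne'
    · exact h0
  have hidx : H.index = n := by
    have h1 := H.card_mul_index
    rw [hH, hmn] at h1
    exact Nat.eq_of_mul_eq_mul_left hm0 h1
  have hHall : Cfsg.IsPiHall {q | q.Prime ∧ p < q} H := by
    refine ⟨fun q hq hd => ⟨hq, hm q hq (hH ▸ hd)⟩, fun q hq hqπ hd => ?_⟩
    rw [hidx] at hd
    have := hn q hq hd
    have := hqπ.2
    omega
  have hcopH : (Nat.card H).Coprime H.index := by
    rw [hH, hidx]
    exact hcop
  have hHel : ∀ x ∈ H, ∀ s : ℕ, s.Prime → s ∣ orderOf x → p < s := by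
    intro x hx s hs hd
    apply hm s hs
    rw [← hH]
    have h1 : orderOf (⟨x, hx⟩ : ↥H) ∣ Nat.card H := orderOf_dvd_natCard _
    rw [Subgroup.orderOf_mk] at h1
    exact hd.trans h1
  have hord : ∀ x ∈ H, (orderOf x).Coprime H.index := by
    intro x hx
    have h1 : orderOf (⟨x, hx⟩ : ↥H) ∣ Nat.card H := orderOf_dvd_natCard _
    rw [Subgroup.orderOf_mk] at h1
    exact Nat.Coprime.coprime_dvd_left h1 hcopH
  have hFN : Cfsg.fittingSubgroup G ≤ Subgroup.normalizer (H : Set G) := by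
    rw [Cfsg.Agent.Lib.helper1.fitting_eq_iSup_pCore]
    apply iSup_le
    intro r
    haveI : Fact (r : ℕ).Prime := ⟨r.2⟩
    haveI := Cfsg.Agent.Lib.helper1.pCore_normal (r : ℕ) G
    by_cases hrp : (r : ℕ) ≤ p
    · refine le_trans ?_ (Subgroup.centralizer_le_normalizer (H : Set G))
      intro x hx
      rw [Subgroup.mem_centralizer_iff]
      intro z hz
      have h1 := h r r.2 hrp z (hHel z hz)
      rw [Subgroup.mem_centralizer_iff] at h1
      exact (h1 x hx).symm
    · push Not at hrp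
      refine le_trans ?_ Subgroup.le_normalizer
      by_cases hrG : (r : ℕ) ∣ Nat.card G
      · have hrH : (r : ℕ) ∣ Nat.card H := by
          rw [hH]
          rw [hmn] at hrG
          rcases (Nat.Prime.dvd_mul r.2).mp hrG with h1 | h1
          · exact h1
          · have := hn r r.2 h1
            omega
        obtain ⟨P, hP⟩ := Cfsg.Agent.Lib.helper1.exists_sylow_le_hall H hcopH hrH
          (default : Sylow (r : ℕ) ↥H)
        have h2 := normal_pgroup_le_sylow (Cfsg.pCore (r : ℕ) G)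
          (Cfsg.Agent.Lib.helper1.pCore_isPGroup (r : ℕ) G) P
        rw [hP] at h2
        exact h2.trans (Subgroup.map_subtype_le _)
      · rw [Cfsg.Agent.Lib.helper1.pCore_eq_bot_of_not_dvd (r : ℕ) G hrG]
        exact bot_le
  obtain ⟨M, hM⟩ : ∃ M : Subgroup G, M = H ⊔ Cfsg.fittingSubgroup G := ⟨_, rfl⟩
  have hFM : Cfsg.fittingSubgroup G ≤ M := by
    rw [hM]
    exact le_sup_right
  have hHM : H ≤ M := by
    rw [hM]
    exact le_sup_left
  haveI hMn : M.Normal := Subgroup.Normal.of_commutator_le G (hK.trans hFM)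
  have hMN : M ≤ Subgroup.normalizer (H : Set G) := by
    rw [hM]
    exact sup_le Subgroup.le_normalizer hFN
  haveI hHnM : (H.subgroupOf M).Normal :=
    (Subgroup.normal_subgroupOf_iff_le_normalizer hHM).mpr hMN
  have hidxM : (H.subgroupOf M).index ∣ H.index := Subgroup.relIndex_dvd_index_of_le hHM
  have hconj : ∀ (g x : G), orderOf (g * x * g⁻¹) = orderOf x := by
    intro g x
    exact (MulAut.conj g).orderOf_eq x
  haveI hHn : H.Normal := by
    constructor
    intro x hx g
    have hmem : g * x * g⁻¹ ∈ M := hMn.conj_mem x (hHM hx) g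
    have hord1 : orderOf (⟨g * x * g⁻¹, hmem⟩ : ↥M) = orderOf x := by
      rw [Subgroup.orderOf_mk]
      exact hconj g x
    have h3 := mem_of_normal_coprime (H.subgroupOf M) ⟨g * x * g⁻¹, hmem⟩ (by
      rw [hord1]
      exact Nat.Coprime.coprime_dvd_right hidxM (hord x hx))
    exact Subgroup.mem_subgroupOf.mp h3
  refine ⟨H, ?_, hHall⟩
  rw [Subgroup.characteristic_iff_map_le]
  rintro ϕ _ ⟨x, hx, rfl⟩
  change ϕ x ∈ H
  exact mem_of_normal_coprime H (ϕ x) (by
    rw [ϕ.orderOf_eq x]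
    exact hord x hx)

end aux51

theorem result {G : Type*} [Group G] [Finite G] [Group.IsSolvable G] (hodd : Odd (Nat.card G)) (hr : Cfsg.RankLE 2 G ∨ Cfsg.RankLE 2 (Cfsg.fittingSubgroup G)) :
    Group.IsNilpotent ↥(commutator G) ∧
      (∀ (q : ℕ) [Fact q.Prime] (S : Sylow q G) (T : Subgroup ↥(S : Subgroup G)), T.Characteristic → T.map (S : Subgroup G).subtype ≤ ⁅(S : Subgroup G), (S : Subgroup G)⁆ →
        (T.map (S : Subgroup G).subtype).Normal) ∧
      ∀ p : ℕ, ∃ N : Subgroup G, N.Characteristic ∧ Cfsg.IsPiHall {q | q.Prime ∧ p < q} N := by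
  have hF : Cfsg.RankLE 2 (Cfsg.fittingSubgroup G) := by
    rcases hr with h | h
    · intro p hp
      exact Cfsg.Agent.Lib.helper1.pRankLE_subgroup (h p hp) _
    · exact h
  have hrk : ∀ q : ℕ, q.Prime → Cfsg.PRankLE q 2 ↥(Cfsg.pCore q G) := by
    intro q hq
    haveI : Fact q.Prime := ⟨hq⟩
    exact pRankLE_of_le (hF q hq) (Cfsg.Agent.Lib.helper1.pCore_le_fitting q G)
  have hA : ∀ q : ℕ, q.Prime → ∀ g ∈ commutator G, (orderOf g).Coprime q →
      g ∈ Subgroup.centralizer ((Cfsg.pCore q G : Subgroup G) : Set G) := by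
    intro q hq
    haveI : Fact q.Prime := ⟨hq⟩
    haveI := Cfsg.Agent.Lib.helper1.pCore_normal q G
    exact Cfsg.Agent.Lib.helper15.S1451A.der_centralizes hodd q (Cfsg.pCore q G) (Cfsg.Agent.Lib.helper1.pCore_isPGroup q G)
      (hrk q hq)
  have hB := commutator_le_fitting hA
  refine ⟨hB.2, ?_, ?_⟩
  · intro q _ S T hT hTS
    exact Cfsg.Agent.Lib.helper12.S1451C.char_le_der_normal q S T hT hTS hB.1 (fun p hp _ => hA p hp)
  · intro p
    refine exists_char_hall p hB.1 ?_
    intro r hr hrp g hg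
    haveI : Fact r.Prime := ⟨hr⟩
    haveI := Cfsg.Agent.Lib.helper1.pCore_normal r G
    by_cases hr2 : r = 2
    · subst hr2
      have h0 : Cfsg.pCore 2 G = ⊥ := Cfsg.Agent.Lib.helper1.pCore_eq_bot_of_not_dvd 2 G (by
        intro h
        exact (Nat.not_even_iff_odd.mpr hodd) (even_iff_two_dvd.mpr h))
      rw [h0, Subgroup.mem_centralizer_iff]
      intro x hx
      have hx1 : x = 1 := by simpa using hx
      rw [hx1, one_mul, mul_one]
    · exact big_prime_centralizes r hr2 (Cfsg.pCore r G)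
        (Cfsg.Agent.Lib.helper1.pCore_isPGroup r G) (hrk r hr) g
        (fun s hs hsd => lt_of_le_of_lt hrp (hg s hs hsd))

end Cfsg.Agent.S1451
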