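import Cfsg.Statements.S1455
import Mathlib
import Cfsg.Agent.S1450
import Cfsg.Agent.S1461
import Cfsg.Agent.Lib.helper8.S1456MC
import Cfsg.Agent.Lib.helper15.RankTwo3
import Cfsg.Agent.Lib.helper14.S1456M1
import Cfsg.Agent.Lib.helper15.S1456M2
import Cfsg.Agent.Lib.lead.S1456M4
import Cfsg.Agent.Lib.helper5.S1455M3
import Cfsg.Agent.Lib.lead.S1455Q2
import Cfsg.Agent.Lib.helper19.S1455Q3
import Cfsg.Agent.Lib.helper9.PPrimeCore
import Cfsg.Agent.Lib.helper3.OddSolvQuad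

set_option autoImplicit false
set_option linter.style.haveILetI false

open Cfsg

namespace Cfsg.Agent.S1455

section aux55

open scoped commutatorElement in
theorem narrow_prime_centralizes {G : Type*} [Group G] [Finite G] [Group.IsSolvable G] (hodd : Odd (Nat.card G)) (p : ℕ) [Fact p.Prime] (P : Subgroup G) [P.Normal] (hP : IsPGroup p P) (E : Subgroup G) (hEP : E ≤ P) (hEc : ∀ a ∈ E, ∀ b ∈ E, a * b = b * a) (hEp : ∀ a ∈ E, a ^ p = 1) (hr : ∀ B : Subgroup G, B ≤ P → B ≤ Subgroup.centralizer (E : Set G) → (∀ a ∈ B, ∀ b ∈ B, a * b = b * a) → (∀ b ∈ B, b ^ p = 1) → Nat.card B ≤ p ^ 2) (q : ℕ) (hq : q.Prime) (hpq : p < q) (g : G) (hg : orderOf g = q) : g ∈ Subgroup.centralizer (P : Set G) := by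
  have hpp : p.Prime := Fact.out
  have hPn : P.Normal := inferInstance
  have hcop : (orderOf g).Coprime p := by
    rw [hg]
    exact (Nat.coprime_primes hq hpp).mpr (by omega)
  by_cases hp2 : p = 2
  · have hPbot : P = ⊥ := by
      obtain ⟨n, hn⟩ := IsPGroup.iff_card.mp hP
      have hdvd : Nat.card P ∣ Nat.card G := Subgroup.card_subgroup_dvd_card P
      rw [hn, hp2] at hdvd
      have hn0 : n = 0 := by
        by_contra hn0
        have h2 : 2 ∣ Nat.card G := dvd_trans (dvd_pow_self 2 hn0) hdvd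
        exact (Nat.not_even_iff_odd.mpr hodd) (even_iff_two_dvd.mpr h2)
      rw [hn0, pow_zero] at hn
      exact Subgroup.card_eq_one.mp hn
    rw [Subgroup.mem_centralizer_iff]
    intro x hx
    rw [SetLike.mem_coe, hPbot] at hx
    rw [Subgroup.mem_bot.mp hx]
    simp
  obtain ⟨D, hDP, hDexp, hDcl, hDnorm, hDcrit⟩ :=
    Cfsg.Agent.Lib.helper15.GL2D.exists_critical p hp2 P hP
  have hPtop : Subgroup.normalizer (P : Set G) = ⊤ := Subgroup.normalizer_eq_top_iff.mpr hPn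
  rw [hPtop] at hDnorm
  haveI hDn : D.Normal := Subgroup.normalizer_eq_top_iff.mp (top_le_iff.mp hDnorm)
  have hmemN : g ∈ Subgroup.normalizer (P : Set G) := by
    rw [hPtop]
    exact Subgroup.mem_top g
  suffices hgD : g ∈ Subgroup.centralizer (D : Set G) from hDcrit g hmemN hcop hgD
  obtain ⟨e, heP, hep, he⟩ :=
    Cfsg.Agent.Lib.helper14.S1456M1.exists_small_centralizer p P hP E hEP hEc hEp hr
  have hp3 : 3 ≤ p := by
    have := hpp.two_le
    omega
  by_cases heD : e ∈ D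
  · have hrk := Cfsg.Agent.Lib.helper15.S1456M2.rank_of_mem p D hDexp hDcl e heD
      (fun B hBD hBe hBc =>
        he B (hBD.trans hDP) hBe hBc (fun b hb => hDexp b (hBD hb)))
    have hsolv : Group.IsSolvable ↥(⊤ : Subgroup G) := inferInstance
    have hoddT : Odd (Nat.card ↥(⊤ : Subgroup G)) := by
      rw [Subgroup.card_top]
      exact hodd
    have hact := Cfsg.Agent.Lib.helper15.GL2D.rank_two_action p hp2 D ⊤ hDexp hDcl hrk
      hDnorm hsolv hoddT
    by_contra hgD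
    have h1 : q ∣ (p - 1) * (p + 1) := hact.2 g (Subgroup.mem_top g) q 1 hq (by omega)
      (by rw [pow_one, ← hg, pow_orderOf_eq_one]) hgD
    rcases (Nat.Prime.dvd_mul hq).mp h1 with h2 | h2
    · have := Nat.le_of_dvd (by omega) h2
      omega
    · have h3 := Nat.le_of_dvd (by omega) h2
      have h4 : q = p + 1 := by omega
      have hqodd : Odd q := by
        rw [← hg]
        exact Odd.of_dvd_nat hodd (orderOf_dvd_natCard g)
      have hpodd : Odd p := hpp.odd_of_ne_two hp2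
      rw [h4] at hqodd
      have := hpodd.add_one
      exact (Nat.not_even_iff_odd.mpr hqodd) this
  · have hfix := Cfsg.Agent.Lib.lead.S1456M4.fix_card_le p P D hP hDP hDexp e heP hep heD he
    refine Cfsg.Agent.Lib.helper5.S1455M3.cent_of_small_fix_coprime p P D hP hDP e heP hfix g ?_
    rw [hg]
    apply Nat.Coprime.mul_right
    · exact (Nat.coprime_primes hq hpp).mpr (by omega)
    · rw [Nat.Prime.coprime_iff_not_dvd hq]
      intro h5
      have := Nat.le_of_dvd (by omega) h5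
      omega

theorem bar_of_small {X : Type*} [Group X] [Finite X] [Group.IsSolvable X]
    (hodd : Odd (Nat.card X)) (p : ℕ) [Fact p.Prime]
    (hO : Cfsg.pPrimeCore p X = ⊥) (E : Subgroup X) (hEP : E ≤ Cfsg.pCore p X)
    (hEc : ∀ a ∈ E, ∀ b ∈ E, a * b = b * a) (hEp : ∀ a ∈ E, a ^ p = 1)
    (hr : ∀ B : Subgroup X, B ≤ Cfsg.pCore p X → B ≤ Subgroup.centralizer (E : Set X) →
      (∀ a ∈ B, ∀ b ∈ B, a * b = b * a) → (∀ b ∈ B, b ^ p = 1) → Nat.card B ≤ p ^ 2) :
    IsPGroup p ↥(commutator X) ∧ ∀ q : ℕ, q.Prime → q ∣ Nat.card X → q ≤ p := by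
  have hpp : p.Prime := Fact.out
  have hC := Cfsg.Agent.Lib.helper3.centralizer_pCore_le_of_pPrimeCore_bot hO
  haveI hRn : (Cfsg.pCore p X).Normal := Subgroup.sSup_normal _ (fun _ h => h.1)
  have hRp : IsPGroup p ↥(Cfsg.pCore p X) :=
    Sylow.sSup_of_normal _ (fun _ h => h.2) (fun _ h => h.1)
  have hfa : ∀ a : X, (orderOf a).Coprime p →
      a ∈ Subgroup.centralizer ((Cfsg.pCore p X : Subgroup X) : Set X) → a = 1 := by
    intro a hcop hcent
    have haR : a ∈ Cfsg.pCore p X := hC hcent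
    obtain ⟨k, hk⟩ := hRp ⟨a, haR⟩
    have hk' : a ^ p ^ k = 1 := congrArg Subtype.val hk
    have hdvd : orderOf a ∣ p ^ k := orderOf_dvd_of_pow_eq_one hk'
    have h1 : orderOf a = 1 := Nat.Coprime.eq_one_of_dvd (hcop.pow_right k) hdvd
    exact orderOf_eq_one_iff.mp h1
  constructor
  · rintro ⟨g, hg⟩
    have hg0 : orderOf g ≠ 0 := (orderOf_pos g).ne'
    obtain ⟨e, m, hm, hem⟩ := Nat.exists_eq_pow_mul_and_not_dvd hg0 p hpp.ne_one
    refine ⟨e, ?_⟩
    have hz1 : (g ^ p ^ e) ^ m = 1 := by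
      rw [← pow_mul, ← hem, pow_orderOf_eq_one]
    have hzord : (orderOf (g ^ p ^ e)).Coprime p :=
      Nat.Coprime.coprime_dvd_left (orderOf_dvd_of_pow_eq_one hz1)
        ((Nat.Prime.coprime_iff_not_dvd hpp).mpr hm).symm
    have h1 := Cfsg.Agent.Lib.helper8.S1456MC.narrow_der_centralizes hodd p (Cfsg.pCore p X) hRp
      E hEP hEc hEp hr (g ^ p ^ e) (Subgroup.pow_mem _ hg _) hzord
    have h2 := hfa _ hzord h1
    exact Subtype.ext h2
  · intro q hq hqd
    by_contra hcon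
    push Not at hcon
    haveI : Fact q.Prime := ⟨hq⟩
    obtain ⟨a, ha⟩ := exists_prime_orderOf_dvd_card' q hqd
    have h1 := narrow_prime_centralizes hodd p (Cfsg.pCore p X) hRp E hEP hEc hEp hr q hq hcon
      a ha
    have h2 := hfa a (by
      rw [ha]
      exact (Nat.coprime_primes hq hpp).mpr (by omega)) h1
    rw [h2, orderOf_one] at ha
    exact hq.one_lt.ne ha

theorem six_of_bar {G : Type*} [Group G] [Finite G] [Group.IsSolvable G]
    (hodd : Odd (Nat.card G)) (p : ℕ) [Fact p.Prime]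
    (hCp : IsPGroup p ↥(commutator (G ⧸ Cfsg.pPrimeCore p G)))
    (hprimes : ∀ q : ℕ, q.Prime → q ∣ Nat.card (G ⧸ Cfsg.pPrimeCore p G) → q ≤ p) :
    (∀ q : ℕ, q.Prime → q ∣ (Cfsg.pPrimeCore p G).index → q ≤ p) ∧
      ((p = 3 ∨ ∀ q : ℕ, q.Prime → q ∣ Nat.card G → p ≤ q) → Cfsg.HasNormalPComplement p G) ∧
      Cfsg.HasNormalPComplement p ↥(commutator G) ∧
      (∀ L : Subgroup ↥(commutator G), (Nat.card L).Coprime p → L ≤ Cfsg.pPrimeCore p ↥(commutator G)) ∧
      commutator G ≤ Cfsg.pPrimePCore p G ∧ ((Cfsg.pPrimePCore p G).index).Coprime p := by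
  have hpp : p.Prime := Fact.out
  haveI hNn : (Cfsg.pPrimeCore p G).Normal := Cfsg.Agent.Lib.helper9.ppc_normal p G
  have hNc : (Nat.card (Cfsg.pPrimeCore p G)).Coprime p :=
    Cfsg.Agent.Lib.helper9.pPrimeCore_coprime p G
  have hbarodd : Odd (Nat.card (G ⧸ Cfsg.pPrimeCore p G)) :=
    Odd.of_dvd_nat hodd (Subgroup.card_quotient_dvd_card _)
  have hπC : ∀ x ∈ commutator G, QuotientGroup.mk' (Cfsg.pPrimeCore p G) x ∈
      commutator (G ⧸ Cfsg.pPrimeCore p G) := by
    intro x hx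
    have h1 : (commutator G).map (QuotientGroup.mk' (Cfsg.pPrimeCore p G)) ≤
        commutator (G ⧸ Cfsg.pPrimeCore p G) := by
      rw [commutator_def, Subgroup.map_commutator, commutator_def]
      exact Subgroup.commutator_mono le_top le_top
    exact h1 ⟨x, hx, rfl⟩
  have hpow : ∀ x ∈ commutator G, ∃ k : ℕ, x ^ p ^ k ∈ Cfsg.pPrimeCore p G := by
    intro x hx
    obtain ⟨k, hk⟩ := hCp ⟨_, hπC x hx⟩
    refine ⟨k, ?_⟩
    have hk' : (QuotientGroup.mk' (Cfsg.pPrimeCore p G) x) ^ p ^ k = 1 :=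
      congrArg Subtype.val hk
    rw [← map_pow] at hk'
    exact (QuotientGroup.eq_one_iff _).mp hk'
  have hsubc : (Nat.card ↥((Cfsg.pPrimeCore p G).subgroupOf (commutator G))).Coprime p := by
    have h1 : Nat.card ↥((Cfsg.pPrimeCore p G).subgroupOf (commutator G)) =
        Nat.card ↥(Cfsg.pPrimeCore p G ⊓ commutator G : Subgroup G) := by
      rw [← Subgroup.inf_subgroupOf_right]
      exact Nat.card_congr (Subgroup.subgroupOfEquivOfLe inf_le_right).toEquiv
    rw [h1]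
    exact Nat.Coprime.coprime_dvd_left (Subgroup.card_dvd_of_le inf_le_left) hNc
  have hCn : (commutator (G ⧸ Cfsg.pPrimeCore p G)).Normal := inferInstance
  have hCle : commutator (G ⧸ Cfsg.pPrimeCore p G) ≤ Cfsg.pCore p (G ⧸ Cfsg.pPrimeCore p G) :=
    le_sSup ⟨hCn, hCp⟩
  refine ⟨?_, ?_, ?_, ?_, ?_, ?_⟩
  · intro q hq hqd
    rw [Subgroup.index_eq_card] at hqd
    exact hprimes q hq hqd
  · intro hcase
    rw [Cfsg.Agent.S0072.hasNormalPComplement_iff]
    refine ⟨Cfsg.pPrimeCore p G, hNn, hNc, ?_⟩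
    rw [Subgroup.index_eq_card]
    have hall : ∀ {d : ℕ}, d.Prime → d ∣ Nat.card (G ⧸ Cfsg.pPrimeCore p G) → d = p := by
      intro d hd hdd
      have hle := hprimes d hd hdd
      rcases hcase with h3 | hmin
      · have hdodd : d ≠ 2 := by
          rintro rfl
          exact (Nat.not_even_iff_odd.mpr hbarodd) (even_iff_two_dvd.mpr hdd)
        have hd2 := hd.two_le
        omega
      · have := hmin d hd (hdd.trans (Subgroup.card_quotient_dvd_card _))
        omega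
    exact ⟨_, Nat.eq_prime_pow_of_unique_prime_dvd Nat.card_pos.ne' hall⟩
  · rw [Cfsg.Agent.S0072.hasNormalPComplement_iff]
    refine ⟨(Cfsg.pPrimeCore p G).subgroupOf (commutator G), inferInstance, hsubc, ?_⟩
    have hq : IsPGroup p (↥(commutator G) ⧸ (Cfsg.pPrimeCore p G).subgroupOf (commutator G)) := by
      intro y
      obtain ⟨x, rfl⟩ := QuotientGroup.mk_surjective y
      obtain ⟨k, hk⟩ := hpow x x.2
      refine ⟨k, ?_⟩
      rw [← QuotientGroup.mk_pow, QuotientGroup.eq_one_iff, Subgroup.mem_subgroupOf,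
        Subgroup.coe_pow]
      exact hk
    obtain ⟨a, ha⟩ := IsPGroup.iff_card.mp hq
    exact ⟨a, by rw [Subgroup.index_eq_card]; exact ha⟩
  · intro L hL
    have hsub : (Cfsg.pPrimeCore p G).subgroupOf (commutator G) ≤
        Cfsg.pPrimeCore p ↥(commutator G) :=
      Cfsg.Agent.Lib.helper9.le_pPrimeCore inferInstance hsubc
    intro x hx
    apply hsub
    rw [Subgroup.mem_subgroupOf]
    obtain ⟨k, hk⟩ := hpow x x.2
    have h1 : (⟨x, hx⟩ : L) ^ Nat.card L = 1 := pow_card_eq_one'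
    have h2 : ((x : ↥(commutator G)) : G) ^ Nat.card L = 1 := by
      have h := congrArg (fun w : L => ((w : ↥(commutator G)) : G)) h1
      exact h
    have h3 : (QuotientGroup.mk' (Cfsg.pPrimeCore p G) (x : G)) ^ Nat.card L = 1 := by
      rw [← map_pow, h2, map_one]
    have h4 : (QuotientGroup.mk' (Cfsg.pPrimeCore p G) (x : G)) ^ p ^ k = 1 := by
      rw [← map_pow]
      exact (QuotientGroup.eq_one_iff _).mpr hk
    have h5 : orderOf (QuotientGroup.mk' (Cfsg.pPrimeCore p G) (x : G)) = 1 :=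
      Nat.Coprime.eq_one_of_dvd
        (Nat.Coprime.coprime_dvd_left (orderOf_dvd_of_pow_eq_one h3) (hL.pow_right k))
        (orderOf_dvd_of_pow_eq_one h4)
    exact (QuotientGroup.eq_one_iff _).mp (orderOf_eq_one_iff.mp h5)
  · intro x hx
    unfold Cfsg.pPrimePCore
    rw [Subgroup.mem_comap]
    exact hCle (hπC x hx)
  · have h1 : (Cfsg.pPrimePCore p G).index =
        (Cfsg.pCore p (G ⧸ Cfsg.pPrimeCore p G)).index := by
      unfold Cfsg.pPrimePCore
      exact Subgroup.index_comap_of_surjective _ (QuotientGroup.mk'_surjective _)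
    rw [h1]
    obtain ⟨P⟩ : Nonempty (Sylow p (G ⧸ Cfsg.pPrimeCore p G)) := inferInstance
    haveI hRn : (Cfsg.pCore p (G ⧸ Cfsg.pPrimeCore p G)).Normal :=
      Subgroup.sSup_normal _ (fun _ h => h.1)
    have hRp : IsPGroup p ↥(Cfsg.pCore p (G ⧸ Cfsg.pPrimeCore p G)) :=
      Sylow.sSup_of_normal _ (fun _ h => h.2) (fun _ h => h.1)
    have hRP : Cfsg.pCore p (G ⧸ Cfsg.pPrimeCore p G) ≤ (P : Subgroup _) :=
      hRp.le_sylow_of_normal P
    have hPle : commutator (G ⧸ Cfsg.pPrimeCore p G) ≤ (P : Subgroup _) := hCle.trans hRP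
    have hPn : (P : Subgroup (G ⧸ Cfsg.pPrimeCore p G)).Normal := by
      constructor
      intro n hn g
      have h2 : g * n * g⁻¹ = (g * n * g⁻¹ * n⁻¹) * n := by group
      have h3 : g * n * g⁻¹ * n⁻¹ ∈ commutator (G ⧸ Cfsg.pPrimeCore p G) :=
        Subgroup.commutator_mem_commutator (Subgroup.mem_top g) (Subgroup.mem_top n)
      rw [h2]
      exact Subgroup.mul_mem _ (hPle h3) hn
    have hPeq : (P : Subgroup _) = Cfsg.pCore p (G ⧸ Cfsg.pPrimeCore p G) :=
      le_antisymm (le_sSup ⟨hPn, P.isPGroup'⟩) hRP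
    rw [← hPeq]
    exact Nat.Coprime.symm ((Nat.Prime.coprime_iff_not_dvd hpp).mpr P.not_dvd_index)
end aux55

theorem result {G : Type*} [Group G] [Finite G] [Group.IsSolvable G] (hodd : Odd (Nat.card G)) (p : ℕ) [Fact p.Prime] (hpG : p ∣ Nat.card G) (S : Sylow p G) (hS : Cfsg.IsNarrow p ↥(S : Subgroup G))
    (hpl : ¬ Cfsg.PRankLE p 2 ↥(S : Subgroup G) → Cfsg.PLengthLE p 1 G) :
    (∀ q : ℕ, q.Prime → q ∣ (Cfsg.pPrimeCore p G).index → q ≤ p) ∧
      ((p = 3 ∨ ∀ q : ℕ, q.Prime → q ∣ Nat.card G → p ≤ q) → Cfsg.HasNormalPComplement p G) ∧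
      Cfsg.HasNormalPComplement p ↥(commutator G) ∧
      (∀ L : Subgroup ↥(commutator G), (Nat.card L).Coprime p → L ≤ Cfsg.pPrimeCore p ↥(commutator G)) ∧
      commutator G ≤ Cfsg.pPrimePCore p G ∧ ((Cfsg.pPrimePCore p G).index).Coprime p := by
  by_cases hrk : Cfsg.PRankLE p 2 ↥(S : Subgroup G)
  · exact Cfsg.Agent.S1450.result hodd p hpG (Cfsg.Agent.Lib.helper19.S1455Q3.pRankLE_of_sylow p S hrk)
  · have hpl1 := hpl hrk
    obtain ⟨R₀, R₁, h0, h1, -, hc, hsup⟩ :=
      (show Cfsg.PRankLE p 2 ↥(S : Subgroup G) ∨ _ from hS).resolve_left hrk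
    have hNc : (Nat.card (Cfsg.pPrimeCore p G)).Coprime p :=
      Cfsg.Agent.Lib.helper9.pPrimeCore_coprime p G
    obtain ⟨K, hKn, hKc, hKS⟩ := Cfsg.Agent.S1461.exists_core_of_pLength_one p hpl1 S
    have hK : K ≤ Cfsg.pPrimeCore p G := Cfsg.Agent.Lib.helper9.le_pPrimeCore hKn hKc
    have hSn : Cfsg.pPrimeCore p G ⊔ Subgroup.normalizer ((S : Subgroup G) : Set G) = ⊤ := by
      rw [eq_top_iff, ← hKS]
      exact sup_le_sup_right hK _
    obtain ⟨P, E, hPn, hPp, hPmax, hEP, hEc, hEp, hr⟩ :=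
      Cfsg.Agent.Lib.lead.S1455Q2.narrow_quot p S (Cfsg.pPrimeCore p G) hNc hSn R₀ R₁ h0 h1 hc hsup
    have hPeq : P = Cfsg.pCore p (G ⧸ Cfsg.pPrimeCore p G) :=
      le_antisymm (le_sSup ⟨hPn, hPp⟩)
        (hPmax _ (Subgroup.sSup_normal _ (fun _ h => h.1))
          (Sylow.sSup_of_normal _ (fun _ h => h.2) (fun _ h => h.1)))
    subst hPeq
    have hbarodd : Odd (Nat.card (G ⧸ Cfsg.pPrimeCore p G)) :=
      Odd.of_dvd_nat hodd (Subgroup.card_quotient_dvd_card _)
    have hbarO := Cfsg.Agent.Lib.helper9.pPrimeCore_quotient_eq_bot p G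
    obtain ⟨hCp, hprimes⟩ := bar_of_small hbarodd p hbarO E hEP hEc hEp hr
    exact six_of_bar hodd p hCp hprimes

end Cfsg.Agent.S1455
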