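import Cfsg.Statements.S1456

import Cfsg.Agent.Lib.helper8.S1456MC
import Cfsg.Agent.Lib.helper8.S1451B
import Cfsg.Agent.Lib.helper1.Fitting
set_option autoImplicit false
open Cfsg

namespace Cfsg.Agent.S1456

theorem pgroup_le_pCore {G : Type*} [Group G] [Finite G] (p : ℕ) [Fact p.Prime] (E : Subgroup G)
    (hE : E ≤ Cfsg.fittingSubgroup G) (hEp : IsPGroup p E) : E ≤ Cfsg.pCore p G := by
  have hFn : (Cfsg.fittingSubgroup G).Normal := Cfsg.Agent.Lib.helper1.fitting_normal G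
  have hFnil : Group.IsNilpotent ↥(Cfsg.fittingSubgroup G) :=
    Cfsg.Agent.Lib.helper1.fitting_isNilpotent G
  have hE' : IsPGroup p ↥(E.subgroupOf (Cfsg.fittingSubgroup G)) :=
    hEp.comap_of_injective (Cfsg.fittingSubgroup G).subtype Subtype.val_injective
  obtain ⟨S, hS⟩ := hE'.exists_le_sylow
  have h03 : Group.IsNilpotent ↥(Cfsg.fittingSubgroup G) ↔
      ∀ (p : ℕ) (_hp : Fact p.Prime) (P : Sylow p ↥(Cfsg.fittingSubgroup G)),
        (↑P : Subgroup ↥(Cfsg.fittingSubgroup G)).Normal :=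
    (Group.isNilpotent_of_finite_tfae (G := ↥(Cfsg.fittingSubgroup G))).out 0 3
  have hSn : (S : Subgroup ↥(Cfsg.fittingSubgroup G)).Normal := h03.mp hFnil p inferInstance S
  have hchar : (S : Subgroup ↥(Cfsg.fittingSubgroup G)).Characteristic :=
    Sylow.characteristic_of_normal S hSn
  have hnorm : ((S : Subgroup ↥(Cfsg.fittingSubgroup G)).map
      (Cfsg.fittingSubgroup G).subtype).Normal :=
    ConjAct.normal_of_characteristic_of_normal
  have hle := Cfsg.Agent.Lib.helper1.le_pCore hnorm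
    (S.isPGroup'.map (Cfsg.fittingSubgroup G).subtype)
  intro x hx
  apply hle
  exact ⟨⟨x, hE hx⟩, hS (Subgroup.mem_subgroupOf.mpr hx), rfl⟩

/-- Let G be a solvable group of odd order, p a prime, and E an elementary abelian p-subgroup of the Fitting subgroup F(G) such that F(G) ∩ C_G(E) has no elementary abelian subgroup of order q ^ 3 for any prime q. Then the derived subgroup of G is contained in F(G). -/
theorem result {G : Type*} [Group G] [Finite G] [Group.IsSolvable G] (hodd : Odd (Nat.card G)) (p : ℕ) [Fact p.Prime] (E : Subgroup G) (hE : E ≤ Cfsg.fittingSubgroup G) (hEe : Cfsg.IsElementaryAbelian p E)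
    (hr : Cfsg.RankLE 2 ↥(Cfsg.fittingSubgroup G ⊓ Subgroup.centralizer (E : Set G))) :
    commutator G ≤ Cfsg.fittingSubgroup G := by

  have hEcomm : ∀ a ∈ E, ∀ b ∈ E, a * b = b * a := fun a ha b hb =>
    congrArg Subtype.val (hEe.1.is_comm.comm ⟨a, ha⟩ ⟨b, hb⟩)
  have hEexp : ∀ a ∈ E, a ^ p = 1 := hEe.2
  have hEpg : IsPGroup p ↥E := fun x => ⟨1, by rw [pow_one]; exact Subtype.ext (hEexp x.1 x.2)⟩
  have hEP : E ≤ Cfsg.pCore p G := pgroup_le_pCore p E hE hEpg
  have hbridge : ∀ q : ℕ, q.Prime → ∀ B : Subgroup G, B ≤ Cfsg.fittingSubgroup G →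
      B ≤ Subgroup.centralizer (E : Set G) → (∀ a ∈ B, ∀ b ∈ B, a * b = b * a) →
      (∀ b ∈ B, b ^ q = 1) → Nat.card B ≤ q ^ 2 := by
    intro q hq B hBF hBC hab hexp
    have hBH : B ≤ Cfsg.fittingSubgroup G ⊓ Subgroup.centralizer (E : Set G) := le_inf hBF hBC
    have h' := hr q hq (B.subgroupOf _)
      ⟨⟨fun a b => Subtype.ext (Subtype.ext (hab a.1.1 a.2 b.1.1 b.2))⟩⟩
      (fun a ha => Subtype.ext (hexp a.1 ha))
    rwa [Nat.card_congr (Subgroup.subgroupOfEquivOfLe hBH).toEquiv] at h'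
  refine (Cfsg.Agent.Lib.helper8.S1451B.commutator_le_fitting (G := G) ?_).1
  intro q hq g hg hcop
  have hqF : Fact q.Prime := ⟨hq⟩
  have hRn : (Cfsg.pCore q G).Normal := Cfsg.Agent.Lib.helper1.pCore_normal q G
  have hRp : IsPGroup q ↥(Cfsg.pCore q G) := Cfsg.Agent.Lib.helper1.pCore_isPGroup q G
  have hRF : Cfsg.pCore q G ≤ Cfsg.fittingSubgroup G :=
    Cfsg.Agent.Lib.helper1.pCore_le_fitting q G
  by_cases hqp : q = p
  · rw [hqp] at hcop hRF hRp hRn ⊢
    exact Cfsg.Agent.Lib.helper8.S1456MC.narrow_der_centralizes hodd p (Cfsg.pCore p G) hRp E hEP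
      hEcomm hEexp (fun B hBP hBC hab hexp =>
        hbridge p Fact.out B (hBP.trans hRF) hBC hab hexp) g hg hcop
  · have hcent : Cfsg.pCore q G ≤ Subgroup.centralizer (E : Set G) := by
      intro x hx
      rw [Subgroup.mem_centralizer_iff]
      intro y hy
      have hdis : Disjoint (Cfsg.pCore q G) (Cfsg.pCore p G) :=
        IsPGroup.disjoint_of_ne q p hqp _ _ hRp (Cfsg.Agent.Lib.helper1.pCore_isPGroup p G)
      exact (Subgroup.commute_of_normal_of_disjoint _ _ hRn
        (Cfsg.Agent.Lib.helper1.pCore_normal p G) hdis x y hx (hEP hy)).eq.symm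
    exact Cfsg.Agent.Lib.helper8.S1456MC.narrow_der_centralizes hodd q (Cfsg.pCore q G) hRp ⊥
      bot_le (fun a ha b hb => by rw [Subgroup.mem_bot.mp ha, Subgroup.mem_bot.mp hb])
      (fun a ha => by rw [Subgroup.mem_bot.mp ha, one_pow])
      (fun B hBP _ hab hexp => hbridge q hq B (hBP.trans hRF) (hBP.trans hcent) hab hexp)
      g hg hcop

end Cfsg.Agent.S1456
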