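import Cfsg.Statements.S1501
import Cfsg.Agent.Lib.helper22.DadeF

set_option autoImplicit false
open Cfsg

namespace Cfsg.Agent.S1501

open Cfsg.Agent.Lib.helper24 Cfsg.Agent.Lib.helper22.DadeA

theorem result {G : Type*} [Group G] [Fintype G] (A : Set G) (L : Subgroup G) [Fintype L] (H : G → Subgroup G) (hD : Cfsg.DadeHypothesis A L H) (α : L → ℂ) (hα : Cfsg.IsGeneralizedCharacter L α) (hαA : ∀ x : L, (x : G) ∉ A → α x = 0) : Cfsg.IsGeneralizedCharacter G (Cfsg.dadeIsometry A L H α) := by
  classical
  have hcl : IsClassFunction L α := Cfsg.Agent.Lib.helper8.genchar_isClassFunction hα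
  apply brauer_characterization _ (dade_isClassFunction hD α hcl)
  intro E p hp hE
  haveI : Fact p.Prime := ⟨hp⟩
  have hnil : Group.IsNilpotent E := isNilpotent_of_isElementary hE
  exact nilpotent_case hD α hα hαA _ E hnil rfl

end Cfsg.Agent.S1501
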