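import Cfsg.Statements.S1518
import Cfsg.Agent.S1501
import Cfsg.Agent.Lib.helper23.Isometry

set_option autoImplicit false
open Cfsg

namespace Cfsg.Agent.S1518

open Cfsg.Agent.Lib.helper24 Cfsg.Agent.Lib.helper22.DadeA
open scoped ComplexConjugate

theorem result {G : Type*} [Group G] [Fintype G] (A : Set G) (L : Subgroup G) [Fintype L] (H : G → Subgroup G) (hD : Cfsg.DadeHypothesis A L H) (χ : L → ℂ) (hχ : Cfsg.IsIrrCharacter L χ) (hsupp : ∀ x : L, x ≠ 1 → (x : G) ∉ A → χ x = 0) : ∃ μ : G → ℂ, Cfsg.IsIrrCharacter G μ ∧ Cfsg.dadeIsometry A L H (χ - Cfsg.conjFun χ) = μ - Cfsg.conjFun μ := by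
  classical
  have hχc : IsCharacter L χ := isCharacter_of_isIrrCharacter hχ
  have hconj : IsIrrCharacter L (Cfsg.conjFun χ) := isIrrCharacter_conj hχ
  by_cases hreal : Cfsg.conjFun χ = χ
  · refine ⟨fun _ => 1, isIrrCharacter_trivial, ?_⟩
    rw [hreal, sub_self]
    funext g
    have h0 : dadeIsometry A L H (0 : L → ℂ) g = 0 := by
      unfold dadeIsometry
      split_ifs <;> rfl
    rw [h0]
    show (0 : ℂ) = 1 - starRingEnd ℂ 1
    rw [map_one, sub_self]
  · obtain ⟨α, hαdef⟩ : ∃ α : L → ℂ, α = χ - Cfsg.conjFun χ := ⟨_, rfl⟩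
    have hαgen : IsGeneralizedCharacter L α :=
      ⟨χ, Cfsg.conjFun χ, hχc, isCharacter_of_isIrrCharacter hconj, hαdef⟩
    have hαA : ∀ x : L, (x : G) ∉ A → α x = 0 := by
      intro x hx
      rw [hαdef]
      show χ x - starRingEnd ℂ (χ x) = 0
      by_cases h1 : x = 1
      · subst h1
        obtain ⟨n, hn⟩ := isCharacter_one hχc
        rw [hn, map_natCast, sub_self]
      · rw [hsupp x h1 hx, map_zero, sub_self]
    have hgen := Cfsg.Agent.S1501.result A L H hD α hαgen hαA
    have hcl : IsClassFunction L α := Cfsg.Agent.Lib.helper8.genchar_isClassFunction hαgen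
    have hnorm : classInner (dadeIsometry A L H α) (dadeIsometry A L H α) = 2 := by
      rw [(dade_isometry_statement A L H hD α hcl hαA).1 α hcl hαA, hαdef]
      rw [classInner_sub_left, classInner_sub_right, classInner_sub_right]
      have o1 := irr_orthonormal (⟨χ, hχ⟩ : IrrCharacter L) ⟨χ, hχ⟩
      have o2 := irr_orthonormal (⟨χ, hχ⟩ : IrrCharacter L) ⟨Cfsg.conjFun χ, hconj⟩
      have o3 := irr_orthonormal (⟨Cfsg.conjFun χ, hconj⟩ : IrrCharacter L) ⟨χ, hχ⟩
      have o4 := irr_orthonormal (⟨Cfsg.conjFun χ, hconj⟩ : IrrCharacter L)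
        ⟨Cfsg.conjFun χ, hconj⟩
      rw [if_pos rfl] at o1 o4
      rw [if_neg (fun h => hreal (congrArg Subtype.val h).symm)] at o2
      rw [if_neg (fun h => hreal (congrArg Subtype.val h))] at o3
      rw [o1, o2, o3, o4]; norm_num
    have h1 : dadeIsometry A L H α 1 = 0 := by
      apply dade_eq_zero
      rintro ⟨a, haA, x, u, hu, hx⟩
      have e1 : (a : G) * u = 1 := by rw [← hx]; group
      have e2 : (a : G) = u⁻¹ := eq_inv_of_mul_eq_one_left e1
      have hmem : (a : G) ∈ H (a : G) := by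
        have := Subgroup.inv_mem _ hu
        rwa [← e2] at this
      have e3 : (a : G) = 1 := H_inf_L hD haA hmem a.2
      rw [e3] at haA
      exact hD.one_not_mem haA
    obtain ⟨μ₁, μ₂, hne, hμ⟩ := Cfsg.Agent.Lib.helper23.genchar_norm_two hgen h1 hnorm
    have hconjτ : ∀ g, starRingEnd ℂ (dadeIsometry A L H α g) = - dadeIsometry A L H α g := by
      intro g
      unfold dadeIsometry
      split_ifs with h
      · rw [hαdef]
        show starRingEnd ℂ (χ _ - starRingEnd ℂ (χ _)) = -(χ _ - starRingEnd ℂ (χ _))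
        rw [map_sub, Complex.conj_conj]; ring
      · rw [map_zero, neg_zero]
    have hfun : (irrConj μ₁).1 + μ₁.1 = μ₂.1 + (irrConj μ₂).1 := by
      funext g
      have := hconjτ g
      rw [hμ] at this
      have h2 : starRingEnd ℂ (μ₁.1 g - μ₂.1 g) = -(μ₁.1 g - μ₂.1 g) := this
      rw [map_sub] at h2
      show starRingEnd ℂ (μ₁.1 g) + μ₁.1 g = μ₂.1 g + starRingEnd ℂ (μ₂.1 g)
      linear_combination h2
    have hin := congrArg (fun f => classInner f μ₂.1) hfun
    simp only [classInner_add_left] at hin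
    rw [irr_orthonormal, irr_orthonormal, irr_orthonormal, irr_orthonormal] at hin
    rw [if_neg hne, if_pos rfl] at hin
    have hc : irrConj μ₁ = μ₂ := by
      by_contra hc
      rw [if_neg hc] at hin
      split_ifs at hin <;> norm_num at hin
    refine ⟨μ₁.1, μ₁.2, ?_⟩
    rw [← hαdef, hμ, ← hc]
    rfl

end Cfsg.Agent.S1518
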