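import Cfsg.Statements.S1532
import Cfsg.Agent.Lib.helper22.CohL

set_option autoImplicit false
open Cfsg

namespace Cfsg.Agent.S1532

open Cfsg.Agent.Lib.helper22.Coh

theorem result {G : Type*} [Group G] [Fintype G] (p : ℕ) [Fact p.Prime] (hp : p ≠ 2) (P : Sylow p G) (hna : ¬ IsMulCommutative (P : Subgroup G)) (hTI : Cfsg.IsTISubset ((P : Subgroup G) : Set G)) (hlt : (P : Subgroup G) < Subgroup.normalizer ((P : Subgroup G) : Set G)) (hC : ∀ k ∈ (P : Subgroup G), k ≠ 1 → Subgroup.centralizer ({k} : Set G) ≤ (P : Subgroup G)) [Fintype ↥(Subgroup.normalizer ((P : Subgroup G) : Set G))] (Z : Subgroup G) (hZ1 : Z ≠ ⊥) (hZP : ∀ z ∈ Z, z ∈ (P : Subgroup G) ∧ ∀ y ∈ (P : Subgroup G), z * y = y * z) (hZn : ∀ x ∈ Subgroup.normalizer ((P : Subgroup G) : Set G), ∀ z ∈ Z, x * z * x⁻¹ ∈ Z) : Cfsg.IsCoherent {χ : ↥(Subgroup.normalizer ((P : Subgroup G) : Set G)) → ℂ | Cfsg.IsIrrCharacter ↥(Subgroup.normalizer ((P : Subgroup G) : Set G)) χ ∧ ∃ z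 : ↥(Subgroup.normalizer ((P : Subgroup G) : Set G)), (z : G) ∈ Z ∧ χ z ≠ χ 1} {1}ᶜ (fun α => Cfsg.indFun (Subgroup.normalizer ((P : Subgroup G) : Set G)) α) := by
  have _ := hlt
  have hpr : p.Prime := Fact.out
  obtain ⟨m, hm⟩ := IsPGroup.iff_card.mp P.isPGroup'
  have hPN : (P : Subgroup G) ≤ Subgroup.normalizer ((P : Subgroup G) : Set G) :=
    Subgroup.le_normalizer
  have hcop : Nat.Coprime (((P : Subgroup G).subgroupOf
      (Subgroup.normalizer ((P : Subgroup G) : Set G))).index) p := by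
    rw [Nat.coprime_comm, Nat.Prime.coprime_iff_not_dvd hpr]
    intro hdvd
    have h1 : (P : Subgroup G).relIndex (Subgroup.normalizer ((P : Subgroup G) : Set G)) *
        (Subgroup.normalizer ((P : Subgroup G) : Set G)).index = (P : Subgroup G).index :=
      Subgroup.relIndex_mul_index hPN
    have h2 : p ∣ (P : Subgroup G).index := by
      rw [← h1]
      exact Dvd.dvd.mul_right hdvd _
    exact P.not_dvd_index h2
  have hna' : ¬ ∀ a ∈ (P : Subgroup G), ∀ b ∈ (P : Subgroup G), a * b = b * a := by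
    intro h
    apply hna
    exact ⟨⟨fun a b => Subtype.ext (h a a.2 b b.2)⟩⟩
  exact tifn_coherent (P : Subgroup G) p m hpr hp hm hcop hna' hTI hC Z hZ1 hZP hZn

end Cfsg.Agent.S1532
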