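import Cfsg.Statements.S1892
import Mathlib
import Cfsg.Agent.Lib.helper10.PSolv

set_option autoImplicit false
open Cfsg

namespace Cfsg.Agent.S1892

open Cfsg.Agent.Lib.helper10
open scoped commutatorElement

/-- Let S be a finite p-solvable group with no nontrivial normal subgroup of order prime to p, A a p-subgroup of S, and Q a nontrivial A-invariant subgroup of order prime to p with [A, Q] = Q. Then the commutator [O_p(S), A, Q] is nontrivial. -/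
theorem result {S : Type*} [Group S] [Finite S] {p : ℕ} [Fact p.Prime]
    (hS : Cfsg.IsPSolvable p S) (hred : Cfsg.pPrimeCore p S = ⊥)
    (A Q : Subgroup S) (hA : IsPGroup p A) (hQ : ¬ p ∣ Nat.card Q) (hQ1 : Q ≠ ⊥)
    (hinv : ∀ a ∈ A, ∀ x ∈ Q, a * x * a⁻¹ ∈ Q) (hAQ : ⁅A, Q⁆ = Q) :
    ⁅⁅Cfsg.pCore p S, A⁆, Q⁆ ≠ ⊥ := by
  classical
  have hp : p.Prime := Fact.out
  intro hbot
  obtain ⟨V, hV⟩ : ∃ V : Subgroup S, V = Cfsg.pCore p S := ⟨_, rfl⟩
  rw [← hV] at hbot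
  have hVn : V.Normal := by rw [hV]; infer_instance
  have hVp : IsPGroup p V := by rw [hV]; exact Cfsg.Agent.Lib.helper7.pCore_isPGroup p S
  obtain ⟨V₁, hV₁⟩ : ∃ V₁ : Subgroup S, V₁ = ⁅V, A⁆ := ⟨_, rfl⟩
  rw [← hV₁] at hbot
  have hV₁V : V₁ ≤ V := by rw [hV₁]; exact Subgroup.commutator_le_left V A
  have hQcop : (Nat.card Q).Coprime p := ((Nat.Prime.coprime_iff_not_dvd hp).2 hQ).symm
  -- Q centralizes V₁
  have hQV₁ : ∀ z ∈ V₁, ∀ q ∈ Q, q * z = z * q := by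
    intro z hz q hq
    have h1 := (Subgroup.commutator_eq_bot_iff_le_centralizer.1 hbot) hz
    exact (Subgroup.mem_centralizer_iff.1 h1) q hq
  have hQconj : ∀ z ∈ V₁, ∀ q ∈ Q, q * z * q⁻¹ = z := by
    intro z hz q hq
    rw [hQV₁ z hz q hq]; group
  have hAnorm : A ≤ Subgroup.normalizer (V₁ : Set S) := by
    rw [hV₁]
    apply Cfsg.Agent.Lib.helper8.le_normalizer_commutator_right
    intro a _
    rw [Subgroup.normalizer_eq_top_iff.2 hVn]; trivial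
  -- the kernel of the action on V / V₁
  let K : Subgroup S :=
    { carrier := {g | g ∈ Subgroup.normalizer (V₁ : Set S) ∧ ∀ v ∈ V, g * v * g⁻¹ * v⁻¹ ∈ V₁}
      one_mem' := ⟨Subgroup.one_mem _, fun v _ => by simp [V₁.one_mem]⟩
      mul_mem' := by
        rintro g h ⟨hg1, hg2⟩ ⟨hh1, hh2⟩
        refine ⟨Subgroup.mul_mem _ hg1 hh1, fun v hv => ?_⟩
        have h1 : g * h * v * (g * h)⁻¹ * v⁻¹ =
            (g * (h * v * h⁻¹ * v⁻¹) * g⁻¹) * (g * v * g⁻¹ * v⁻¹) := by group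
        rw [h1]
        exact V₁.mul_mem ((Subgroup.mem_normalizer_iff.1 hg1 _).1 (hh2 v hv)) (hg2 v hv)
      inv_mem' := by
        rintro g ⟨hg1, hg2⟩
        refine ⟨Subgroup.inv_mem _ hg1, fun v hv => ?_⟩
        have h1 : g⁻¹ * v * g⁻¹⁻¹ ∈ V := hVn.conj_mem v hv g⁻¹
        have h2 := V₁.inv_mem (hg2 _ h1)
        have h3 : (g * (g⁻¹ * v * g⁻¹⁻¹) * g⁻¹ * (g⁻¹ * v * g⁻¹⁻¹)⁻¹)⁻¹ =
            g⁻¹ * v * g⁻¹⁻¹ * v⁻¹ := by group
        rwa [h3] at h2 }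
  have hKmem : ∀ g, g ∈ K ↔ g ∈ Subgroup.normalizer (V₁ : Set S) ∧
      ∀ v ∈ V, g * v * g⁻¹ * v⁻¹ ∈ V₁ := fun g => Iff.rfl
  have hAK : A ≤ K := by
    intro a ha
    rw [hKmem]
    refine ⟨hAnorm ha, fun v hv => ?_⟩
    have h1 : ⁅a, v⁆ ∈ ⁅A, V⁆ := Subgroup.commutator_mem_commutator ha hv
    rw [Subgroup.commutator_comm, ← hV₁] at h1
    exact h1
  have hQnormV₁ : Q ≤ Subgroup.normalizer (V₁ : Set S) := by
    apply Cfsg.Agent.Lib.helper8.le_normalizer_of_conj_mem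
    intro q hq z hz
    rw [hQconj z hz q hq]; exact hz
  have hQK : Q ≤ K := by
    rw [← hAQ, Subgroup.commutator_le]
    intro a ha q hq
    have h1 : q * a⁻¹ * q⁻¹ ∈ K := by
      rw [hKmem]
      have ha' := (hKmem _).1 (hAK (A.inv_mem ha))
      refine ⟨Subgroup.mul_mem _ (Subgroup.mul_mem _ (hQnormV₁ hq) ha'.1)
        (Subgroup.inv_mem _ (hQnormV₁ hq)), fun v hv => ?_⟩
      have h2 : q⁻¹ * v * q⁻¹⁻¹ ∈ V := hVn.conj_mem v hv q⁻¹
      have h3 := ha'.2 _ h2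
      have h4 := hQconj _ h3 q hq
      have h5 : q * (a⁻¹ * (q⁻¹ * v * q⁻¹⁻¹) * a⁻¹⁻¹ * (q⁻¹ * v * q⁻¹⁻¹)⁻¹) * q⁻¹ =
          q * a⁻¹ * q⁻¹ * v * (q * a⁻¹ * q⁻¹)⁻¹ * v⁻¹ := by group
      rw [h5] at h4
      rw [h4]; exact h3
    have h2 : ⁅a, q⁆ = a * (q * a⁻¹ * q⁻¹) := by rw [commutatorElement_def]; group
    rw [h2]
    exact K.mul_mem (hAK ha) h1
  -- Q centralizes V
  have hQV : Q ≤ Subgroup.centralizer (V : Set S) := by
    intro q hq
    rw [Subgroup.mem_centralizer_iff]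
    intro v hv
    have hz : q * v * q⁻¹ * v⁻¹ ∈ V₁ := ((hKmem q).1 (hQK hq)).2 v hv
    obtain ⟨z, hzdef⟩ : ∃ z : S, z = q * v * q⁻¹ * v⁻¹ := ⟨_, rfl⟩
    rw [← hzdef] at hz
    have hqz : q * z = z * q := hQV₁ z hz q hq
    have hpow : ∀ n : ℕ, q ^ n * v * (q ^ n)⁻¹ = z ^ n * v := by
      intro n
      induction n with
      | zero => simp
      | succ n ih =>
        have hc : Commute q z := hqz
        have h1 : q ^ (n + 1) * v * (q ^ (n + 1))⁻¹ = q * (q ^ n * v * (q ^ n)⁻¹) * q⁻¹ := by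
          rw [pow_succ']; group
        rw [h1, ih]
        have h2 : q * (z ^ n * v) * q⁻¹ = (q * z ^ n * q⁻¹) * (q * v * q⁻¹ * v⁻¹) * v := by group
        rw [h2, ← hzdef]
        have h3 : q * z ^ n * q⁻¹ = z ^ n := by
          rw [(hc.pow_right n).eq]; group
        rw [h3, pow_succ]
    have h1 := hpow (orderOf q)
    rw [pow_orderOf_eq_one, one_mul, inv_one, mul_one] at h1
    have h2 : z ^ orderOf q = 1 := by
      have : z ^ orderOf q * v = 1 * v := by rw [one_mul]; exact h1.symm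
      exact mul_right_cancel this
    have h3 : (orderOf z).Coprime p :=
      Nat.Coprime.coprime_dvd_left ((orderOf_dvd_of_pow_eq_one h2).trans
        (Subgroup.orderOf_dvd_natCard Q hq)) hQcop
    have h4 : z = 1 := eq_one_of_mem_pgroup_of_coprime hVp (hV₁V hz) h3
    rw [h4] at hzdef
    have h5 : q * v = (q * v * q⁻¹ * v⁻¹) * v * q := by group
    rw [h5, ← hzdef, one_mul]
  have hcent := centralizer_pCore_le_of_pSolvable hS hred
  rw [← hV] at hcent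
  apply hQ1
  rw [eq_bot_iff]
  intro q hq
  rw [Subgroup.mem_bot]
  exact eq_one_of_mem_pgroup_of_coprime hVp (hcent (hQV hq))
    (Nat.Coprime.coprime_dvd_left (Subgroup.orderOf_dvd_natCard Q hq) hQcop)

end Cfsg.Agent.S1892
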