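import Cfsg.Statements.S1894
-- import your own Cfsg.Agent.* helpers here

set_option autoImplicit false
open Cfsg

namespace Cfsg.Agent.S1894

section
variable {Q : Type*} [Group Q]

theorem exists_central_of_normal [Finite Q] {p : ℕ} [Fact p.Prime] (hQ : IsPGroup p Q)
    (N : Subgroup Q) [hNn : N.Normal] (hN : N ≠ ⊥) :
    ∃ y ∈ N, y ≠ 1 ∧ y ∈ Subgroup.center Q := by
  letI : MulAction Q N := MulAction.compHom N (MulAut.conjNormal (H := N))
  have hsmul : ∀ (g : Q) (n : N), ((g • n : N) : Q) = g * n * g⁻¹ := by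
    intro g n
    exact MulAut.conjNormal_apply g n
  have hNp : IsPGroup p N := hQ.to_subgroup N
  have hnt : Nontrivial N := (Subgroup.nontrivial_iff_ne_bot N).mpr hN
  obtain ⟨k, hk0, hk⟩ := hNp.nontrivial_iff_card.mp hnt
  have hdvd : p ∣ Nat.card N := by rw [hk]; exact dvd_pow_self _ (ne_of_gt hk0)
  have hone : (1 : N) ∈ MulAction.fixedPoints Q N := by
    intro g
    apply Subtype.ext
    rw [hsmul]; simp
  obtain ⟨b, hb, hb1⟩ := hQ.exists_fixed_point_of_prime_dvd_card_of_fixed_point N hdvd hone
  refine ⟨b, b.2, ?_, ?_⟩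
  · intro h; exact hb1 (Subtype.ext h.symm)
  · rw [Subgroup.mem_center_iff]
    intro g
    have := congrArg Subtype.val (hb g)
    rw [hsmul] at this
    calc g * (b : Q) = (g * b * g⁻¹) * g := by group
      _ = b * g := by rw [this]

end

/-- Let P be a finite p-group, A a normal subgroup of P and B an abelian subgroup of A that is normal in P. Then some subgroup C of A containing B is normal in P and is self-centralizing and normal in A (C ∈ SCN(A)). -/
theorem result {P : Type*} [Group P] [Finite P] {p : ℕ} [Fact p.Prime] (hP : IsPGroup p P)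
    (A : Subgroup P) [A.Normal] (B : Subgroup P) [B.Normal] (hBA : B ≤ A) (hB : IsMulCommutative B) :
    ∃ C : Subgroup P, C.Normal ∧ B ≤ C ∧ Cfsg.IsSCN A C := by
  classical
  -- the family of admissible subgroups
  let S : Set (Subgroup P) := {C | C.Normal ∧ B ≤ C ∧ C ≤ A ∧ ∀ x ∈ C, ∀ y ∈ C, x * y = y * x}
  have hBS : B ∈ S := by
    refine ⟨inferInstance, le_rfl, hBA, ?_⟩
    intro x hx y hy
    exact congrArg Subtype.val (hB.is_comm.comm (⟨x, hx⟩ : B) ⟨y, hy⟩)
  obtain ⟨C, hCS, hCmax⟩ : ∃ C ∈ S, ∀ C' ∈ S, C ≤ C' → C' = C := by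
    have hfin : S.Finite := Set.toFinite S
    obtain ⟨C, hC⟩ := hfin.exists_maximal ⟨B, hBS⟩
    exact ⟨C, hC.1, fun C' hC' hle => le_antisymm (hC.2 hC' hle) hle⟩
  obtain ⟨hCn, hBC, hCA, hCab⟩ := hCS
  haveI := hCn
  refine ⟨C, hCn, hBC, hCA, ?_, ?_⟩
  · rw [Subgroup.normalizer_eq_top_iff.mpr hCn]; exact le_top
  · apply le_antisymm
    · -- A ⊓ C_P(C) ≤ C
      by_contra hcon
      set D := A ⊓ Subgroup.centralizer (C : Set P) with hD
      haveI hDn : D.Normal := by rw [hD]; infer_instance
      have hPQ : IsPGroup p (P ⧸ C) := hP.to_quotient C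
      let N : Subgroup (P ⧸ C) := D.map (QuotientGroup.mk' C)
      haveI hNn : N.Normal := Subgroup.Normal.map hDn _ (QuotientGroup.mk'_surjective C)
      have hN : N ≠ ⊥ := by
        intro h
        apply hcon
        intro d hd
        have : (QuotientGroup.mk' C) d ∈ N := Subgroup.mem_map_of_mem _ hd
        rw [h, Subgroup.mem_bot] at this
        exact (QuotientGroup.eq_one_iff d).mp this
      obtain ⟨y, hyN, hy1, hyZ⟩ := exists_central_of_normal hPQ N hN
      obtain ⟨x, hxD, rfl⟩ := hyN
      have hxC : x ∉ C := fun h => hy1 ((QuotientGroup.eq_one_iff x).mpr h)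
      have hxA : x ∈ A := hxD.1
      have hxcent : ∀ c ∈ C, c * x = x * c := fun c hc => hxD.2 c hc
      let C' : Subgroup P := (Subgroup.zpowers ((QuotientGroup.mk' C) x)).comap (QuotientGroup.mk' C)
      have hZn : (Subgroup.zpowers ((QuotientGroup.mk' C) x)).Normal := by
        constructor
        intro n hn g
        have hnZ : n ∈ Subgroup.center (P ⧸ C) := by
          obtain ⟨k, rfl⟩ := Subgroup.mem_zpowers_iff.mp hn
          exact Subgroup.zpow_mem _ hyZ k
        have := Subgroup.mem_center_iff.mp hnZ g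
        rw [this, mul_inv_cancel_right]
        exact hn
      have hC'n : C'.Normal := Subgroup.Normal.comap hZn _
      have hdecomp : ∀ g ∈ C', ∃ k : ℤ, ∃ c ∈ C, g = x ^ k * c := by
        intro g hg
        obtain ⟨k, hk⟩ := Subgroup.mem_zpowers_iff.mp (Subgroup.mem_comap.mp hg)
        refine ⟨k, (x ^ k)⁻¹ * g, ?_, by group⟩
        rw [← QuotientGroup.eq_one_iff, QuotientGroup.mk_mul, QuotientGroup.mk_inv,
          QuotientGroup.mk_zpow]
        have hk' : ((x : P ⧸ C)) ^ k = (g : P ⧸ C) := hk
        rw [hk', inv_mul_cancel]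
      have hCC' : C ≤ C' := by
        intro c hc
        show (QuotientGroup.mk' C) c ∈ Subgroup.zpowers ((QuotientGroup.mk' C) x)
        have : (QuotientGroup.mk' C) c = 1 := (QuotientGroup.eq_one_iff c).mpr hc
        rw [this]; exact Subgroup.one_mem _
      have hxk : ∀ k : ℤ, ∀ c ∈ C, c * x ^ k = x ^ k * c := by
        intro k c hc
        have hcomm : Commute c x := hxcent c hc
        exact (hcomm.zpow_right k)
      have hC'S : C' ∈ S := by
        refine ⟨hC'n, le_trans hBC hCC', ?_, ?_⟩
        · intro g hg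
          obtain ⟨k, c, hc, rfl⟩ := hdecomp g hg
          exact A.mul_mem (A.zpow_mem hxA k) (hCA hc)
        · intro g hg h hh
          obtain ⟨k, c, hc, rfl⟩ := hdecomp g hg
          obtain ⟨l, c', hc', rfl⟩ := hdecomp h hh
          have e1 := hxk l c hc
          have e2 := hxk k c' hc'
          have e3 := hCab c hc c' hc'
          have e4 : x ^ k * x ^ l = x ^ l * x ^ k := by rw [← zpow_add, ← zpow_add, add_comm]
          calc x ^ k * c * (x ^ l * c') = x ^ k * (c * x ^ l) * c' := by group
            _ = x ^ k * (x ^ l * c) * c' := by rw [e1]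
            _ = (x ^ k * x ^ l) * (c * c') := by group
            _ = (x ^ l * x ^ k) * (c' * c) := by rw [e4, e3]
            _ = x ^ l * (x ^ k * c') * c := by group
            _ = x ^ l * (c' * x ^ k) * c := by rw [e2]
            _ = x ^ l * c' * (x ^ k * c) := by group
      have := hCmax C' hC'S hCC'
      apply hxC
      rw [← this]
      show (QuotientGroup.mk' C) x ∈ Subgroup.zpowers ((QuotientGroup.mk' C) x)
      exact Subgroup.mem_zpowers _
    · intro c hc
      exact ⟨hCA hc, fun y hy => hCab y hy c hc⟩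

end Cfsg.Agent.S1894
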