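import Cfsg.Statements.S1898
-- import your own Cfsg.Agent.* helpers here

set_option autoImplicit false
open Cfsg

namespace Cfsg.Agent.S1898

open scoped commutatorElement

section
variable {X : Type*} [Group X]

theorem comm_facts (hel : Cfsg.IsElementaryAbelian 2 (commutator X))
    (hcen : commutator X ≤ Subgroup.center X) (x y : X) :
    ∃ c : X, (∀ g : X, g * c = c * g) ∧ c * c = 1 ∧ y * x = c * (x * y) := by
  have hmem : ⁅y, x⁆ ∈ commutator X := by
    rw [commutator_def]
    exact Subgroup.commutator_mem_commutator (Subgroup.mem_top y) (Subgroup.mem_top x)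
  refine ⟨⁅y, x⁆, fun g => Subgroup.mem_center_iff.mp (hcen hmem) g, ?_, ?_⟩
  · have := hel.2 _ hmem
    rwa [sq] at this
  · rw [commutatorElement_def]; group

theorem sq_mul_aux (x y c : X) (hc : ∀ g : X, g * c = c * g) (hyx : y * x = c * (x * y)) :
    (x * y) * (x * y) = c * (x * x) * (y * y) := by
  calc (x * y) * (x * y) = x * (y * x) * y := by group
    _ = x * (c * (x * y)) * y := by rw [hyx]
    _ = (x * c) * (x * y * y) := by group
    _ = (c * x) * (x * y * y) := by rw [hc x]
    _ = c * (x * x) * (y * y) := by group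

theorem sq_comm_aux (x y c : X) (hc : ∀ g : X, g * c = c * g) (hc2 : c * c = 1)
    (hyx : y * x = c * (x * y)) : (y * y) * x = x * (y * y) := by
  calc (y * y) * x = y * (y * x) := by group
    _ = y * (c * (x * y)) := by rw [hyx]
    _ = (y * c) * (x * y) := by group
    _ = (c * y) * (x * y) := by rw [hc y]
    _ = c * (y * x) * y := by group
    _ = c * (c * (x * y)) * y := by rw [hyx]
    _ = (c * c) * (x * y * y) := by group
    _ = x * (y * y) := by rw [hc2]; group

theorem four_eq (x : X) : x ^ 4 = (x * x) * (x * x) := by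
  simp [pow_succ, mul_assoc]

theorem pow_four_mul (hel : Cfsg.IsElementaryAbelian 2 (commutator X))
    (hcen : commutator X ≤ Subgroup.center X) (x y : X) (hx : x ^ 4 = 1) (hy : y ^ 4 = 1) :
    (x * y) ^ 4 = 1 := by
  obtain ⟨c, hc, hc2, hyx⟩ := comm_facts hel hcen x y
  have h1 := sq_mul_aux x y c hc hyx
  have h2 := sq_comm_aux x y c hc hc2 hyx
  rw [four_eq] at hx hy ⊢
  have h3 : (y * y) * (x * x) = (x * x) * (y * y) := by
    calc (y * y) * (x * x) = ((y * y) * x) * x := by group
      _ = (x * (y * y)) * x := by rw [h2]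
      _ = x * ((y * y) * x) := by group
      _ = x * (x * (y * y)) := by rw [h2]
      _ = (x * x) * (y * y) := by group
  calc (x * y) * (x * y) * ((x * y) * (x * y))
      = (c * (x * x) * (y * y)) * (c * (x * x) * (y * y)) := by rw [h1]
    _ = c * ((x * x) * (y * y) * c) * ((x * x) * (y * y)) := by group
    _ = c * (c * ((x * x) * (y * y))) * ((x * x) * (y * y)) := by rw [hc ((x * x) * (y * y))]
    _ = (c * c) * ((x * x) * ((y * y) * (x * x)) * (y * y)) := by group
    _ = (x * x) * ((x * x) * (y * y)) * (y * y) := by rw [hc2, h3, one_mul]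
    _ = ((x * x) * (x * x)) * ((y * y) * (y * y)) := by group
    _ = 1 := by rw [hx, hy, one_mul]

theorem aut_pow_fix (ψ : MulAut X) (g : X) (h : ψ g = g) (j : ℕ) : (ψ ^ j) g = g := by
  induction j with
  | zero => simp
  | succ j ih => rw [pow_succ, MulAut.mul_apply, h, ih]

theorem odd_aut_trivial [Finite X] (hX : IsPGroup 2 X)
    (hel : Cfsg.IsElementaryAbelian 2 (commutator X))
    (hcen : commutator X ≤ Subgroup.center X) (ψ : MulAut X) (m : ℕ) (hm : Odd m)
    (hψm : ψ ^ m = 1) (hfix : ∀ g : X, g ^ 4 = 1 → ψ g = g) : ψ = 1 := by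
  have key : ∀ e : ℕ, ∀ x : X, x ^ 2 ^ e = 1 → ψ x = x := by
    intro e
    induction e with
    | zero => intro x hx; exact hfix x (by simp at hx; rw [hx]; simp)
    | succ e ih =>
      intro x hx
      have hx2 : (x * x) ^ 2 ^ e = 1 := by rw [← sq, ← pow_mul, ← pow_succ']; exact hx
      have hψx2 : ψ (x * x) = x * x := ih _ hx2
      obtain ⟨y, hy⟩ : ∃ y, y = x⁻¹ * ψ x := ⟨_, rfl⟩
      have hψx : ψ x = x * y := by rw [hy]; group
      obtain ⟨c, hc, hc2, hyx⟩ := comm_facts hel hcen x y
      have h1 : (x * y) * (x * y) = x * x := by rw [← hψx, ← map_mul, hψx2]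
      rw [sq_mul_aux x y c hc hyx] at h1
      have h2 : c * (y * y) = 1 := by
        have : (x * x) * (c * (y * y)) = (x * x) * 1 := by
          calc (x * x) * (c * (y * y)) = ((x * x) * c) * (y * y) := by group
            _ = (c * (x * x)) * (y * y) := by rw [hc (x * x)]
            _ = c * (x * x) * (y * y) := by group
            _ = (x * x) * 1 := by rw [h1, mul_one]
        exact mul_left_cancel this
      have hy4 : y ^ 4 = 1 := by
        have h3 : y * y = c⁻¹ := eq_inv_of_mul_eq_one_right h2
        rw [four_eq, h3]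
        calc c⁻¹ * c⁻¹ = (c * c)⁻¹ := by group
          _ = 1 := by rw [hc2, inv_one]
      have hψy : ψ y = y := hfix y hy4
      have hpow : ∀ j : ℕ, (ψ ^ j) x = x * y ^ j := by
        intro j
        induction j with
        | zero => simp
        | succ j ihj =>
          rw [pow_succ', MulAut.mul_apply, ihj, map_mul, map_pow, hψx, hψy, pow_succ', mul_assoc]
      have hym : y ^ m = 1 := by
        have := hpow m
        rw [hψm, MulAut.one_apply] at this
        exact (mul_eq_left.mp this.symm)
      have hy1 : y = 1 := by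
        have hd1 : orderOf y ∣ m := orderOf_dvd_of_pow_eq_one hym
        have hd2 : orderOf y ∣ 4 := orderOf_dvd_of_pow_eq_one hy4
        have hcop : Nat.Coprime m 4 := by
          have : Nat.Coprime m 2 := Nat.coprime_two_right.mpr hm
          exact Nat.Coprime.pow_right 2 this
        have : orderOf y ∣ 1 := by
          have := Nat.dvd_gcd hd1 hd2
          rwa [hcop] at this
        exact orderOf_eq_one_iff.mp (Nat.dvd_one.mp this)
      rw [hψx, hy1, mul_one]
  ext x
  obtain ⟨e, he⟩ := hX x
  rw [MulAut.one_apply]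
  exact key e x he

end

/-- Let X be a finite 2-group whose derived subgroup is elementary abelian and central. Then the subgroup generated by the elements of order dividing 4 has exponent dividing 4, and every automorphism of X fixing each element of order dividing 4 has 2-power order. -/
theorem result {X : Type*} [Group X] [Finite X] (hX : IsPGroup 2 X)
    (hel : Cfsg.IsElementaryAbelian 2 (commutator X)) (hcen : commutator X ≤ Subgroup.center X) :
    (∀ x ∈ Subgroup.closure {g : X | g ^ 4 = 1}, x ^ 4 = 1) ∧
      ∀ φ : MulAut X, (∀ g : X, g ^ 4 = 1 → φ g = g) → ∃ k : ℕ, φ ^ (2 ^ k) = 1 := by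
  constructor
  · intro x hx
    induction hx using Subgroup.closure_induction with
    | mem g hg => exact hg
    | one => simp
    | mul a b _ _ ha hb => exact pow_four_mul hel hcen a b ha hb
    | inv a _ ha => rw [inv_pow, ha, inv_one]
  · intro φ hφ
    have hN : orderOf φ ≠ 0 := (orderOf_pos φ).ne'
    obtain ⟨k, m, hm, hkm⟩ := Nat.exists_eq_two_pow_mul_odd hN
    refine ⟨k, ?_⟩
    apply odd_aut_trivial hX hel hcen (φ ^ 2 ^ k) m hm
    · rw [← pow_mul, ← hkm, pow_orderOf_eq_one]
    · intro g hg
      exact aut_pow_fix φ g (hφ g hg) _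

end Cfsg.Agent.S1898
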