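import Cfsg.Statements.S1899
-- import your own Cfsg.Agent.* helpers here

set_option autoImplicit false
open Cfsg

namespace Cfsg.Agent.S1899

/-- Let a dihedral group of order 2n, n odd and n > 1, act on a finite abelian 2-group A through automorphisms d and t with d^n = 1, t² = 1 and t d t⁻¹ = d⁻¹, and suppose that d fixes only the identity. Then A is the internal direct product of C_A(t) and its image under d. -/
theorem result {A : Type*} [CommGroup A] [Finite A] (hA : IsPGroup 2 A)
    {n : ℕ} (hn : Odd n) (hn1 : 1 < n) (d t : MulAut A) (hd : d ^ n = 1) (ht : t ^ 2 = 1) (hdt : t * d * t⁻¹ = d⁻¹)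
    (hfix : ∀ a : A, d a = a → a = 1) :
    (MulEquiv.toMonoidHom t).eqLocus (MonoidHom.id A) ⊓ ((MulEquiv.toMonoidHom t).eqLocus (MonoidHom.id A)).map d.toMonoidHom = ⊥ ∧
      (MulEquiv.toMonoidHom t).eqLocus (MonoidHom.id A) ⊔ ((MulEquiv.toMonoidHom t).eqLocus (MonoidHom.id A)).map d.toMonoidHom = ⊤ := by
  have h1 : ∀ a : A, t (d a) = d⁻¹ (t a) := by
    intro a
    have h : t * d = d⁻¹ * t := mul_inv_eq_iff_eq_mul.mp hdt
    have := DFunLike.congr_fun h a
    simpa [MulAut.mul_apply] using this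
  have h2 : ∀ a : A, t (d⁻¹ a) = d (t a) := by
    intro a
    have := h1 (d⁻¹ a)
    rw [MulAut.apply_inv_self] at this
    rw [this, MulAut.apply_inv_self]
  have h3 : ∀ a : A, t (t a) = a := by
    intro a
    have := DFunLike.congr_fun ht a
    simpa [sq, MulAut.mul_apply] using this
  have h4 : ∀ a : A, d (d a) = a → a = 1 := by
    intro a ha
    apply hfix
    obtain ⟨k, hk⟩ := hn
    have hpow : ∀ m : ℕ, ((d ^ 2) ^ m) a = a := by
      intro m
      induction m with
      | zero => simp
      | succ m ih =>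
        rw [pow_succ, MulAut.mul_apply]
        have : (d ^ 2) a = a := by simpa [sq, MulAut.mul_apply] using ha
        rw [this, ih]
    have hd' : (d ^ 2) ^ (k + 1) = d := by
      rw [← pow_mul]
      have : 2 * (k + 1) = n + 1 := by omega
      rw [this, pow_succ, hd, one_mul]
    have := hpow (k + 1)
    rw [hd'] at this
    exact this
  set C := (MulEquiv.toMonoidHom t).eqLocus (MonoidHom.id A) with hC
  have hCmem : ∀ a : A, a ∈ C ↔ t a = a := by
    intro a
    exact Iff.rfl
  constructor
  · rw [eq_bot_iff]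
    rintro x ⟨hx1, hx2⟩
    rw [Subgroup.mem_bot]
    obtain ⟨c, hc, rfl⟩ := hx2
    have hc' : t c = c := (hCmem c).mp hc
    have hx' : t (d c) = d c := (hCmem _).mp hx1
    rw [h1, hc'] at hx'
    have : d (d c) = c := by
      have := congrArg d hx'
      rw [MulAut.apply_inv_self] at this
      exact this.symm
    have hc1 := h4 c this
    show d c = 1
    rw [hc1, map_one]
  · rw [eq_top_iff]
    intro a _
    -- f b = d b * (d⁻¹ b)⁻¹
    let f : A →* A :=
      { toFun := fun b => d b * (d⁻¹ b)⁻¹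
        map_one' := by simp
        map_mul' := by
          intro x y
          simp only [map_mul, mul_inv]
          exact mul_mul_mul_comm _ _ _ _ }
    have hf : ∀ b, f b = d b * (d⁻¹ b)⁻¹ := fun b => rfl
    have hfinj : Function.Injective f := by
      rw [injective_iff_map_eq_one]
      intro b hb
      rw [hf, mul_inv_eq_one] at hb
      apply h4
      rw [hb, MulAut.apply_inv_self]
    have hfsurj : Function.Surjective f := Finite.surjective_of_injective hfinj
    obtain ⟨y, hy⟩ := hfsurj (a * (t a)⁻¹)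
    have hty : t y = y := by
      apply hfinj
      have e : d⁻¹ (t y) = t (d y) := by rw [h1]
      have e2 : d (t y) = t (d⁻¹ y) := (h2 y).symm
      have e3 : d⁻¹ y * (d y)⁻¹ = (f y)⁻¹ := by rw [hf, mul_inv_rev, inv_inv, mul_comm]
      calc f (t y) = d (t y) * (d⁻¹ (t y))⁻¹ := hf _
        _ = t (d⁻¹ y) * (t (d y))⁻¹ := by rw [e2, e]
        _ = t (d⁻¹ y * (d y)⁻¹) := by rw [map_mul, map_inv]
        _ = t ((a * (t a)⁻¹)⁻¹) := by rw [e3, hy]
        _ = a * (t a)⁻¹ := by
            rw [map_inv, map_mul, map_inv, h3, mul_inv_rev, inv_inv, mul_comm]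
        _ = f y := hy.symm
    have hyC : y ∈ C := (hCmem y).mpr hty
    have hxC : a * (d y)⁻¹ ∈ C := by
      rw [hCmem, map_mul, map_inv, h1, hty]
      -- t a * (d⁻¹ y)⁻¹ = a * (d y)⁻¹
      have : d y * (d⁻¹ y)⁻¹ = a * (t a)⁻¹ := hy
      calc t a * (d⁻¹ y)⁻¹ = t a * ((d y)⁻¹ * (d y * (d⁻¹ y)⁻¹)) := by
            rw [inv_mul_cancel_left]
        _ = t a * ((d y)⁻¹ * (a * (t a)⁻¹)) := by rw [this]
        _ = a * (d y)⁻¹ := by
            rw [mul_comm (t a), mul_assoc, mul_assoc, inv_mul_cancel, mul_one, mul_comm]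
    have : a = (a * (d y)⁻¹) * d y := by rw [inv_mul_cancel_right]
    rw [this]
    exact Subgroup.mul_mem_sup hxC ⟨y, hyC, rfl⟩

end Cfsg.Agent.S1899
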