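import Cfsg.Statements.S1900
import Mathlib
import Cfsg.Agent.Lib.helper7.Wielandt

set_option autoImplicit false
open Cfsg

namespace Cfsg.Agent.S1900


open Cfsg.Agent.Lib.helper8 Cfsg.Agent.Lib.helper7
open scoped commutatorElement

theorem cent_zpowers {S : Type*} [Group S] (a : S) :
    Subgroup.centralizer ((Subgroup.zpowers a : Subgroup S) : Set S) = Subgroup.centralizer {a} := by
  apply le_antisymm
  · exact Subgroup.centralizer_le (by simp)
  · intro g hg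
    rw [Subgroup.mem_centralizer_iff] at hg ⊢
    intro h hh
    obtain ⟨k, rfl⟩ := Subgroup.mem_zpowers_iff.mp hh
    have : Commute a g := hg a rfl
    exact (this.zpow_left k).eq

theorem norm_inf {S : Type*} [Group S] {A H K : Subgroup S}
    (h1 : A ≤ Subgroup.normalizer (H : Set S)) (h2 : A ≤ Subgroup.normalizer (K : Set S)) :
    A ≤ Subgroup.normalizer ((H ⊓ K : Subgroup S) : Set S) := by
  apply Cfsg.Agent.Lib.helper8.le_normalizer_of_conj_mem
  intro a ha x hx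
  exact Subgroup.mem_inf.mpr ⟨conj_mem_of_mem_normalizer (h1 ha) (Subgroup.mem_inf.mp hx).1,
    conj_mem_of_mem_normalizer (h2 ha) (Subgroup.mem_inf.mp hx).2⟩

/-- Let S = PQ be a finite group with P a normal Sylow p-subgroup and Q elementary abelian of order q², q a prime different from p. If exactly two subgroups X₁, X₂ of order q in Q have a nontrivial centralizer in P, then P is the internal direct product of C_P(X₁) and C_P(X₂): they commute elementwise, meet trivially and generate P. -/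
theorem result {S : Type*} [Group S] [Finite S] {p q : ℕ} [Fact p.Prime] [Fact q.Prime] (hpq : p ≠ q)
    (P : Sylow p S) [(P : Subgroup S).Normal] (Q : Subgroup S) (hQ : Cfsg.IsElementaryAbelian q Q) (hQc : Nat.card Q = q ^ 2)
    (hS : (P : Subgroup S) ⊔ Q = ⊤)
    (X₁ X₂ : Subgroup S) (h₁ : X₁ ≤ Q) (h₂ : X₂ ≤ Q) (h₁₂ : X₁ ≠ X₂) (hc₁ : Nat.card X₁ = q) (hc₂ : Nat.card X₂ = q)
    (hf₁ : (P : Subgroup S) ⊓ Subgroup.centralizer (X₁ : Set S) ≠ ⊥)
    (hf₂ : (P : Subgroup S) ⊓ Subgroup.centralizer (X₂ : Set S) ≠ ⊥)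
    (honly : ∀ X : Subgroup S, X ≤ Q → Nat.card X = q →
      (P : Subgroup S) ⊓ Subgroup.centralizer (X : Set S) ≠ ⊥ → X = X₁ ∨ X = X₂) :
    ⁅(P : Subgroup S) ⊓ Subgroup.centralizer (X₁ : Set S), (P : Subgroup S) ⊓ Subgroup.centralizer (X₂ : Set S)⁆ = ⊥ ∧
      ((P : Subgroup S) ⊓ Subgroup.centralizer (X₁ : Set S)) ⊓ ((P : Subgroup S) ⊓ Subgroup.centralizer (X₂ : Set S)) = ⊥ ∧
      ((P : Subgroup S) ⊓ Subgroup.centralizer (X₁ : Set S)) ⊔ ((P : Subgroup S) ⊓ Subgroup.centralizer (X₂ : Set S)) = P := by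
  classical
  have hp : p.Prime := Fact.out
  have hq : q.Prime := Fact.out
  obtain ⟨C₁, hC₁⟩ : ∃ C, C = (P : Subgroup S) ⊓ Subgroup.centralizer (X₁ : Set S) := ⟨_, rfl⟩
  obtain ⟨C₂, hC₂⟩ : ∃ C, C = (P : Subgroup S) ⊓ Subgroup.centralizer (X₂ : Set S) := ⟨_, rfl⟩
  rw [← hC₁, ← hC₂]
  have hQcomm := ea_comm hQ
  have hPp : IsPGroup p (P : Subgroup S) := P.isPGroup'
  have hC₁P : C₁ ≤ P := hC₁ ▸ inf_le_left
  have hC₂P : C₂ ≤ P := hC₂ ▸ inf_le_left
  have hqR : ∀ R : Subgroup S, R ≤ P → ¬ q ∣ Nat.card R := by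
    intro R hR hdvd
    obtain ⟨k, hk⟩ := IsPGroup.iff_card.mp (hPp.to_le hR)
    rw [hk] at hdvd
    exact hpq ((Nat.prime_dvd_prime_iff_eq hq hp).mp (hq.dvd_of_dvd_pow hdvd)).symm
  have hgen : ∀ X : Subgroup S, Nat.card X = q → ∀ x ∈ X, x ≠ 1 → Subgroup.zpowers x = X := by
    intro X hX x hx hx1
    apply Subgroup.eq_of_le_of_card_ge (Subgroup.zpowers_le.mpr hx)
    rw [hX, Nat.card_zpowers]
    have h1 : orderOf x ∣ q := by rw [← hX]; exact (Subgroup.orderOf_dvd_natCard X hx)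
    rcases (Nat.dvd_prime hq).mp h1 with h | h
    · exact absurd (orderOf_eq_one_iff.mp h) hx1
    · exact h.ge
  have hordQ : ∀ a ∈ Q, a ≠ 1 → Nat.card (Subgroup.zpowers a) = q := by
    intro a ha ha1
    rw [Nat.card_zpowers]
    rcases (Nat.dvd_prime hq).mp (orderOf_dvd_of_pow_eq_one (hQ.2 a ha)) with h | h
    · exact absurd (orderOf_eq_one_iff.mp h) ha1
    · exact h
  have hK : ∀ a ∈ Q, a ≠ 1 → (P : Subgroup S) ⊓ Subgroup.centralizer {a} ≠ ⊥ →
      Subgroup.zpowers a = X₁ ∨ Subgroup.zpowers a = X₂ := by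
    intro a ha ha1 hne
    exact honly (Subgroup.zpowers a) (Subgroup.zpowers_le.mpr ha) (hordQ a ha ha1)
      (by rwa [cent_zpowers])
  have hex : ∀ X : Subgroup S, Nat.card X = q → ∃ x ∈ X, x ≠ 1 := by
    intro X hX
    have h1 : X ≠ ⊥ := by
      intro h
      rw [h, Subgroup.card_bot] at hX
      exact hq.one_lt.ne hX
    obtain ⟨x, hx, hx1⟩ := (Subgroup.ne_bot_iff_exists_ne_one (H := X)).mp h1 |> fun ⟨x, hx⟩ =>
      (⟨x.1, x.2, fun h => hx (Subtype.ext h)⟩ : ∃ b ∈ X, b ≠ 1)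
    exact ⟨x, hx, hx1⟩
  -- C₁ ⊓ C₂ = ⊥
  have hinf : C₁ ⊓ C₂ = ⊥ := by
    rw [Subgroup.eq_bot_iff_forall]
    intro z hz
    by_contra hz1
    obtain ⟨hz1', hz2'⟩ := Subgroup.mem_inf.mp hz
    rw [hC₁] at hz1'; rw [hC₂] at hz2'
    obtain ⟨x₁, hx₁, hx₁1⟩ := hex X₁ hc₁
    obtain ⟨x₂, hx₂, hx₂1⟩ := hex X₂ hc₂
    have e1 := hgen X₁ hc₁ x₁ hx₁ hx₁1
    have e2 := hgen X₂ hc₂ x₂ hx₂ hx₂1
    have hx12 : x₁ * x₂ ≠ 1 := by
      intro h
      have : x₁ ∈ X₂ := by rw [eq_inv_of_mul_eq_one_left h]; exact X₂.inv_mem hx₂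
      apply h₁₂
      rw [← e1, hgen X₂ hc₂ x₁ this hx₁1]
    have hz3 : z ∈ (P : Subgroup S) ⊓ Subgroup.centralizer {x₁ * x₂} := by
      refine Subgroup.mem_inf.mpr ⟨(Subgroup.mem_inf.mp hz1').1, ?_⟩
      rw [Subgroup.mem_centralizer_iff]
      intro h hh
      rw [Set.mem_singleton_iff] at hh
      subst hh
      have c1 := (Subgroup.mem_centralizer_iff.mp (Subgroup.mem_inf.mp hz1').2) x₁ hx₁
      have c2 := (Subgroup.mem_centralizer_iff.mp (Subgroup.mem_inf.mp hz2').2) x₂ hx₂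
      rw [mul_assoc, c2, ← mul_assoc, c1, mul_assoc]
    have hne : (P : Subgroup S) ⊓ Subgroup.centralizer {x₁ * x₂} ≠ ⊥ :=
      fun h => hz1 (by rw [h] at hz3; exact Subgroup.mem_bot.mp hz3)
    rcases hK (x₁ * x₂) (Q.mul_mem (h₁ hx₁) (h₂ hx₂)) hx12 hne with h | h
    · have : x₂ ∈ X₁ := by
        have h3 : x₁ * x₂ ∈ X₁ := h ▸ Subgroup.mem_zpowers _
        have := X₁.mul_mem (X₁.inv_mem hx₁) h3
        simpa using this
      apply h₁₂
      rw [← e2, hgen X₁ hc₁ x₂ this hx₂1]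
    · have : x₁ ∈ X₂ := by
        have h3 : x₁ * x₂ ∈ X₂ := h ▸ Subgroup.mem_zpowers _
        have := X₂.mul_mem h3 (X₂.inv_mem hx₂)
        simpa using this
      apply h₁₂
      rw [← e1, hgen X₂ hc₂ x₁ this hx₁1]
  -- normalization facts
  have hQP : Q ≤ Subgroup.normalizer ((P : Subgroup S) : Set S) := by
    apply Cfsg.Agent.Lib.helper8.le_normalizer_of_conj_mem
    intro a _ x hx
    exact Subgroup.Normal.conj_mem inferInstance x hx a
  have hQcent : ∀ X : Subgroup S, X ≤ Q →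
      Q ≤ Subgroup.normalizer ((Subgroup.centralizer (X : Set S) : Subgroup S) : Set S) := by
    intro X hX
    apply Cfsg.Agent.Lib.helper8.le_normalizer_of_conj_mem
    intro a ha c hc
    rw [Subgroup.mem_centralizer_iff] at hc ⊢
    intro x hx
    have h1 : Commute x a := hQcomm x (hX hx) a ha
    have h2 : Commute x c := hc x hx
    exact ((h1.mul_right h2).mul_right h1.inv_right).eq
  have hQC₁ : Q ≤ Subgroup.normalizer (C₁ : Set S) := by
    rw [hC₁]; exact norm_inf hQP (hQcent X₁ h₁)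
  have hQC₂ : Q ≤ Subgroup.normalizer (C₂ : Set S) := by
    rw [hC₂]; exact norm_inf hQP (hQcent X₂ h₂)
  -- generation
  have hgenR : ∀ R : Subgroup S, R ≤ P → Q ≤ Subgroup.normalizer (R : Set S) →
      R ≤ (R ⊓ C₁) ⊔ (R ⊓ C₂) := by
    intro R hRP hQR
    apply gen_ne_one hQ (by rw [hQc]) hQR (hqR R hRP)
    intro a ha ha1
    by_cases hne : (P : Subgroup S) ⊓ Subgroup.centralizer {a} = ⊥
    · intro g hg
      have : g ∈ (P : Subgroup S) ⊓ Subgroup.centralizer {a} := ⟨hRP hg.1, hg.2⟩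
      rw [hne] at this
      rw [Subgroup.mem_bot.mp this]; exact Subgroup.one_mem _
    · rcases hK a ha ha1 hne with h | h
      · refine le_trans ?_ le_sup_left
        intro g hg
        refine ⟨hg.1, ?_⟩
        rw [hC₁, ← h, cent_zpowers]; exact ⟨hRP hg.1, hg.2⟩
      · refine le_trans ?_ le_sup_right
        intro g hg
        refine ⟨hg.1, ?_⟩
        rw [hC₂, ← h, cent_zpowers]; exact ⟨hRP hg.1, hg.2⟩
  -- fixed-point-free action gives E = [E, X]
  have hfpf : ∀ (E X : Subgroup S), E ≤ P → X ≤ Q → Nat.card X = q →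
      X ≤ Subgroup.normalizer (E : Set S) → E ⊓ Subgroup.centralizer (X : Set S) = ⊥ →
      ⁅E, X⁆ = E := by
    intro E X hEP hXQ hXc hXE hfix
    haveI := (ea_le hQ hXQ).1
    have hcop : (Nat.card X).Coprime (Nat.card E) := by
      rw [hXc]; exact (Nat.Prime.coprime_iff_not_dvd hq).mpr (hqR E hEP)
    have := commutator_sup_fixed X E hXE hcop (Or.inl (isSolvable_of_isMulCommutative X))
    rw [hfix, sup_bot_eq] at this
    exact this
  -- the maximal subgroup argument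
  let 𝒮 : Set (Subgroup S) := {R | C₁ ≤ R ∧ R ≤ P ∧ Q ≤ Subgroup.normalizer (R : Set S) ∧
    R ⊓ C₂ ≤ Subgroup.centralizer (C₁ : Set S)}
  have hC₁mem : C₁ ∈ 𝒮 := ⟨le_rfl, hC₁P, hQC₁, by rw [hinf]; exact bot_le⟩
  obtain ⟨R, hC₁R, hRmax⟩ := (Set.toFinite 𝒮).exists_le_maximal hC₁mem
  obtain ⟨⟨_, hRP, hQR, hRcent⟩, hmax⟩ := hRmax
  have hC₁X₂ : ⁅C₁, X₂⁆ = C₁ := by
    apply hfpf C₁ X₂ hC₁P h₂ hc₂ (h₂.trans hQC₁)
    rw [eq_bot_iff, ← hinf]
    intro g hg
    exact ⟨hg.1, by rw [hC₂]; exact ⟨hC₁P hg.1, hg.2⟩⟩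
  have hRP' : R = P := by
    by_contra hne
    have hlt : R < P := lt_of_le_of_ne hRP hne
    obtain ⟨s, hsP, hsN, hsR⟩ := normalizer_grows hPp hlt
    obtain ⟨N, hN⟩ : ∃ N, N = (P : Subgroup S) ⊓ Subgroup.normalizer (R : Set S) := ⟨_, rfl⟩
    have hRN : R ≤ N := by rw [hN]; exact le_inf hRP Subgroup.le_normalizer
    have hQN : Q ≤ Subgroup.normalizer (N : Set S) := by
      rw [hN]
      apply Cfsg.Agent.Lib.helper8.le_normalizer_of_conj_mem
      intro a ha x hx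
      refine Subgroup.mem_inf.mpr ⟨conj_mem_of_mem_normalizer (hQP ha) (Subgroup.mem_inf.mp hx).1, ?_⟩
      exact Subgroup.mul_mem _ (Subgroup.mul_mem _ (hQR ha) (Subgroup.mem_inf.mp hx).2)
        (Subgroup.inv_mem _ (hQR ha))
    -- R = C₁ (R ⊓ C₂)
    have hRdec : ∀ r ∈ R, ∃ c ∈ C₁, ∃ f ∈ R ⊓ C₂, r = c * f := by
      intro r hr
      have h1 := hgenR R hRP hQR hr
      rw [inf_eq_right.mpr hC₁R] at h1
      exact (mem_sup_iff_of_le_normalizer
        (hRcent.trans (Subgroup.centralizer_le_normalizer _)) r).mp h1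
    have hRX₂ : ∀ r ∈ R, ∀ y ∈ X₂, r * y * r⁻¹ * y⁻¹ ∈ C₁ := by
      intro r hr y hy
      obtain ⟨c, hc, f, hf, rfl⟩ := hRdec r hr
      have hfC₂ : f ∈ C₂ := (Subgroup.mem_inf.mp hf).2
      rw [hC₂] at hfC₂
      have hfy : y * f = f * y := (Subgroup.mem_centralizer_iff.mp (Subgroup.mem_inf.mp hfC₂).2) y hy
      have e : c * f * y * (c * f)⁻¹ * y⁻¹ = c * (y * c⁻¹ * y⁻¹) := by
        have : c * f * y * (c * f)⁻¹ * y⁻¹ = c * (f * y) * f⁻¹ * c⁻¹ * y⁻¹ := by group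
        rw [this, ← hfy]; group
      rw [e]
      exact C₁.mul_mem hc (conj_mem_of_mem_normalizer (hQC₁ (h₂ hy)) (C₁.inv_mem hc))
    -- elements of N ⊓ C₂ normalize C₁
    have hEnorm : ∀ e ∈ N ⊓ C₂, ∀ c ∈ C₁, e * c * e⁻¹ ∈ C₁ := by
      intro e he c hc
      have heN : e ∈ Subgroup.normalizer (R : Set S) := by
        have := (Subgroup.mem_inf.mp he).1
        rw [hN] at this
        exact (Subgroup.mem_inf.mp this).2
      have heC₂ : e ∈ C₂ := (Subgroup.mem_inf.mp he).2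
      rw [hC₂] at heC₂
      have hle : ⁅C₁, X₂⁆ ≤ C₁.comap (MulAut.conj e).toMonoidHom := by
        rw [Subgroup.commutator_le]
        intro c' hc' y hy
        rw [Subgroup.mem_comap]
        have hey : y * e = e * y := (Subgroup.mem_centralizer_iff.mp (Subgroup.mem_inf.mp heC₂).2) y hy
        have hy' : e * y * e⁻¹ = y := by rw [← hey]; group
        have e1 : (MulAut.conj e).toMonoidHom ⁅c', y⁆ = (e * c' * e⁻¹) * y * (e * c' * e⁻¹)⁻¹ * y⁻¹ := by
          simp only [MulEquiv.toMonoidHom_eq_coe, MonoidHom.coe_coe, MulAut.conj_apply,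
            commutatorElement_def]
          have : e * (c' * y * c'⁻¹ * y⁻¹) * e⁻¹ =
              (e * c' * e⁻¹) * (e * y * e⁻¹) * (e * c' * e⁻¹)⁻¹ * (e * y * e⁻¹)⁻¹ := by group
          rw [this, hy']
        rw [e1]
        exact hRX₂ _ (conj_mem_of_mem_normalizer heN (hC₁R hc')) y hy
      rw [hC₁X₂] at hle
      have := hle hc
      rw [Subgroup.mem_comap] at this
      simpa using this
    have hNmem : N ∈ 𝒮 := by
      refine ⟨hC₁R.trans hRN, hN ▸ inf_le_left, hQN, ?_⟩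
      obtain ⟨E, hE⟩ : ∃ E, E = N ⊓ C₂ := ⟨_, rfl⟩
      rw [← hE]
      have hEP : E ≤ P := hE ▸ (inf_le_right.trans hC₂P)
      have hX₁E : X₁ ≤ Subgroup.normalizer (E : Set S) := by
        rw [hE]; exact norm_inf (h₁.trans hQN) (h₁.trans hQC₂)
      have hEfix : E ⊓ Subgroup.centralizer (X₁ : Set S) = ⊥ := by
        rw [eq_bot_iff, ← hinf]
        intro g hg
        have hgE := hg.1
        rw [hE] at hgE
        exact ⟨by rw [hC₁]; exact ⟨hEP hg.1, hg.2⟩, (Subgroup.mem_inf.mp hgE).2⟩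
      have hEX₁ := hfpf E X₁ hEP h₁ hc₁ hX₁E hEfix
      rw [← hEX₁, Subgroup.commutator_le]
      intro e he x hx
      rw [hE] at he
      rw [Subgroup.mem_centralizer_iff]
      intro c hc
      obtain ⟨d, hd⟩ : ∃ d, d = e⁻¹ * c * e := ⟨_, rfl⟩
      have hdC₁ : d ∈ C₁ := by
        have := hEnorm e⁻¹ (Subgroup.inv_mem _ he) c hc
        rw [inv_inv] at this
        rw [hd]; exact this
      have hxc : x * c = c * x := by
        have := hc; rw [hC₁] at this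
        exact (Subgroup.mem_centralizer_iff.mp (Subgroup.mem_inf.mp this).2) x hx
      have hxd : x * d = d * x := by
        have := hdC₁; rw [hC₁] at this
        exact (Subgroup.mem_centralizer_iff.mp (Subgroup.mem_inf.mp this).2) x hx
      have h1 : c = e * d * e⁻¹ := by rw [hd]; group
      have hxc' : c * x⁻¹ = x⁻¹ * c := by
        have : x⁻¹ * (x * c) * x⁻¹ = x⁻¹ * (c * x) * x⁻¹ := by rw [hxc]
        have e1 : x⁻¹ * (x * c) * x⁻¹ = c * x⁻¹ := by group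
        have e2 : x⁻¹ * (c * x) * x⁻¹ = x⁻¹ * c := by group
        rw [← e1, ← e2, this]
      rw [commutatorElement_def]
      calc c * (e * x * e⁻¹ * x⁻¹) = e * (d * x) * e⁻¹ * x⁻¹ := by rw [h1]; group
        _ = e * (x * d) * e⁻¹ * x⁻¹ := by rw [hxd]
        _ = e * x * e⁻¹ * (c * x⁻¹) := by rw [h1]; group
        _ = e * x * e⁻¹ * (x⁻¹ * c) := by rw [hxc']
        _ = e * x * e⁻¹ * x⁻¹ * c := by group
    have hNR := hmax hNmem hRN
    exact hsR (hNR (by rw [hN]; exact ⟨hsP, hsN⟩))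
  rw [hRP', inf_eq_right.mpr hC₂P] at hRcent
  refine ⟨?_, hinf, ?_⟩
  · rw [Subgroup.commutator_eq_bot_iff_le_centralizer, Subgroup.le_centralizer_iff]
    exact hRcent
  · apply le_antisymm (sup_le hC₁P hC₂P)
    have := hgenR P le_rfl hQP
    rwa [inf_eq_right.mpr hC₁P, inf_eq_right.mpr hC₂P] at this

end Cfsg.Agent.S1900
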