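import Cfsg.Statements.S1905
-- import your own Cfsg.Agent.* helpers here
import Cfsg.Agent.Lib.helper6.SE2

set_option autoImplicit false
open Cfsg

namespace Cfsg.Agent.S1905

/-- Let M be a subgroup of even order of a finite group S such that M contains the centralizer in S of each of its involutions and the normal core of M in S has odd order. Then all involutions of S are conjugate. If moreover N_S(X) ≤ M for a Sylow 2-subgroup X of M and I is an involution in the centre of X, then all involutions of M are conjugate in M and M = M₀ C_M(I) for some subgroup M₀ of M of odd order. -/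
theorem result {S : Type*} [Group S] [Finite S] (M : Subgroup S) (hM : Even (Nat.card M))
    (hC : ∀ i ∈ M, orderOf i = 2 → Subgroup.centralizer ({i} : Set S) ≤ M) (hcore : Odd (Nat.card M.normalCore)) :
    (∀ x y : S, orderOf x = 2 → orderOf y = 2 → IsConj x y) ∧
      ∀ (X : Sylow 2 M) (I : M), I ∈ (Subgroup.center ↥(X : Subgroup ↥M)).map (X : Subgroup ↥M).subtype → orderOf I = 2 →
        Subgroup.normalizer (((X : Subgroup M).map M.subtype : Subgroup S) : Set S) ≤ M →
        (∀ x y : M, orderOf x = 2 → orderOf y = 2 → IsConj x y) ∧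
          ∃ M₀ : Subgroup M, Odd (Nat.card M₀) ∧
            ∀ m : M, ∃ a ∈ M₀, ∃ c ∈ Subgroup.centralizer ({I} : Set M), m = a * c := by
  classical
  obtain ⟨⟨u, hu2, huM⟩, hconj⟩ := Cfsg.Agent.Lib.helper6.invol_conj_of_cent M hM hC hcore
  refine ⟨hconj, fun X I hIc hI2 hN => ?_⟩
  have hne : M ≠ ⊤ := by
    intro h
    apply huM
    rw [h]; exact Subgroup.mem_top _
  have hI2' : orderOf (I : S) = 2 := by rw [Subgroup.orderOf_coe]; exact hI2
  have hIX : ∀ x ∈ (X : Subgroup M), (x : S) * (I : S) = (I : S) * (x : S) := by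
    intro x hx
    obtain ⟨z, hz, hzI⟩ := Subgroup.mem_map.mp hIc
    have hzI' : (z : ↥M) = I := hzI
    have h1 := (Subgroup.mem_center_iff.mp hz) ⟨x, hx⟩
    have h2 : (x : ↥M) * (z : ↥M) = (z : ↥M) * (x : ↥M) := by
      have := congrArg (fun w : ↥(X : Subgroup ↥M) => (w : ↥M)) h1
      simpa using this
    rw [hzI'] at h2
    have h3 := congrArg (fun w : ↥M => (w : S)) h2
    simpa using h3
  have hse := Cfsg.Agent.Lib.helper6.se_of_cent_norm M hM hne hC X (I : S) hI2' hIX hN
  have hkey := Cfsg.Agent.Lib.helper6.se_trans_lemma M hse u hu2 huM (I : S) I.2 hI2'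
  have hkey' : ∀ x : ↥M, orderOf x = 2 →
      ∃ a : ↥M, (a : S) ∈ M ⊓ M.map (MulAut.conj u).toMonoidHom ∧ a * I * a⁻¹ = x := by
    intro x hx
    obtain ⟨h, hh, hhx⟩ := hkey (x : S) x.2 (by rw [Subgroup.orderOf_coe]; exact hx)
    refine ⟨⟨h, hh.1⟩, hh, ?_⟩
    apply Subtype.ext
    simpa using hhx
  refine ⟨?_, (M ⊓ M.map (MulAut.conj u).toMonoidHom).subgroupOf M, ?_, ?_⟩
  · intro x y hx hy
    obtain ⟨a, -, ha⟩ := hkey' x hx
    obtain ⟨b, -, hb⟩ := hkey' y hy
    rw [isConj_iff]
    refine ⟨b * a⁻¹, ?_⟩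
    rw [← ha, ← hb]; group
  · have hodd := hse.2.2 u huM
    have hcard : Nat.card ↥((M ⊓ M.map (MulAut.conj u).toMonoidHom).subgroupOf M) =
        Nat.card ↥(M ⊓ M.map (MulAut.conj u).toMonoidHom) :=
      Nat.card_congr (Subgroup.subgroupOfEquivOfLe inf_le_left).toEquiv
    rw [hcard]; exact hodd
  · intro m
    have hx : orderOf (m * I * m⁻¹) = 2 := Cfsg.Agent.Lib.helper6.orderOf_conj_two m hI2
    obtain ⟨a, haD, ha⟩ := hkey' (m * I * m⁻¹) hx
    refine ⟨a, ?_, a⁻¹ * m, ?_, by rw [mul_inv_cancel_left]⟩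
    · rw [Subgroup.mem_subgroupOf]; exact haD
    · rw [Subgroup.mem_centralizer_iff]
      intro h hh
      rw [Set.mem_singleton_iff] at hh
      rw [hh]
      have e1 : I = a⁻¹ * (a * I * a⁻¹) * a := by group
      have e2 : I * (a⁻¹ * m) = a⁻¹ * (a * I * a⁻¹) * m := by group
      rw [e2, ha]; group

end Cfsg.Agent.S1905
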