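import Cfsg.Statements.S1907
import Cfsg.Agent.Lib.helper16.PConstr
import Cfsg.Agent.Lib.helper15.SylGen

set_option autoImplicit false
open Cfsg

namespace Cfsg.Agent.S1907

open Cfsg.Agent.Lib.helper8 Cfsg.Agent.Lib.helper16 Cfsg.Agent.Lib.helper15 Cfsg.Agent.Lib.helper9

/-- Part 1 in a general form: `K` a normal `p'`-subgroup, `Q` a `p`-subgroup. -/
theorem part1 {G : Type*} [Group G] [Finite G] {p : ℕ} [Fact p.Prime] (K Q : Subgroup G)
    [hKn : K.Normal] (hK : (Nat.card K).Coprime p) (hQ : IsPGroup p Q)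
    (y : G) (hyN : y ∈ Subgroup.normalizer (Q : Set G)) (hyo : ∃ k : ℕ, orderOf y = p ^ k)
    (d : G) (hd : d ∈ K) (hdy : d⁻¹ * y * d ∈ Subgroup.normalizer (Q : Set G)) :
    ∃ d₁ ∈ K ⊓ Subgroup.centralizer ({y} : Set G),
      ∃ d₂ ∈ K ⊓ Subgroup.centralizer (Q : Set G), d = d₁ * d₂ := by
  set C : Subgroup G := K ⊓ Subgroup.centralizer (Q : Set G) with hC
  -- elements of `K ∩ N(Q)` centralize `Q`
  have hKN : ∀ κ ∈ K, κ ∈ Subgroup.normalizer (Q : Set G) → κ ∈ C := by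
    intro κ hκ hκN
    refine Subgroup.mem_inf.mpr ⟨hκ, ?_⟩
    rw [Subgroup.mem_centralizer_iff]
    intro q hq
    have h1 : κ * q * κ⁻¹ * q⁻¹ ∈ K := by
      have : κ * q * κ⁻¹ * q⁻¹ = κ * (q * κ⁻¹ * q⁻¹) := by group
      rw [this]
      exact K.mul_mem hκ (hKn.conj_mem _ (K.inv_mem hκ) q)
    have h2 : κ * q * κ⁻¹ * q⁻¹ ∈ Q :=
      Q.mul_mem (conj_mem_of_mem_normalizer hκN hq) (Q.inv_mem hq)
    have h3 := inter_eq_one K Q hK hQ h1 h2
    calc q * κ = (κ * q * κ⁻¹ * q⁻¹)⁻¹ * (κ * q) := by group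
      _ = κ * q := by rw [h3]; group
  -- elements of `N(Q)` normalize `C`
  have hNC : ∀ a ∈ Subgroup.normalizer (Q : Set G), a ∈ Subgroup.normalizer (C : Set G) := by
    intro a ha
    have h1 : ∀ b ∈ Subgroup.normalizer (Q : Set G), ∀ c ∈ C, b * c * b⁻¹ ∈ C := by
      intro b hb c hc
      refine Subgroup.mem_inf.mpr ⟨hKn.conj_mem c (Subgroup.mem_inf.mp hc).1 b, ?_⟩
      rw [Subgroup.mem_centralizer_iff]
      intro q hq
      have hq' : b⁻¹ * q * b ∈ Q := conj_mem_of_mem_normalizer' hb hq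
      have h2 := Subgroup.mem_centralizer_iff.mp (Subgroup.mem_inf.mp hc).2 _ hq'
      calc q * (b * c * b⁻¹) = b * ((b⁻¹ * q * b) * c) * b⁻¹ := by group
        _ = b * (c * (b⁻¹ * q * b)) * b⁻¹ := by rw [h2]
        _ = b * c * b⁻¹ * q := by group
    rw [Subgroup.mem_normalizer_iff]
    intro c
    constructor
    · exact h1 a ha c
    · intro hc
      have := h1 a⁻¹ (Subgroup.inv_mem _ ha) _ hc
      have e : a⁻¹ * (a * c * a⁻¹) * a⁻¹⁻¹ = c := by group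
      rwa [e] at this
  -- the coset `d C` is invariant under `y`
  have hyC : d⁻¹ * y * d * y⁻¹ ∈ C := by
    apply hKN
    · have : d⁻¹ * y * d * y⁻¹ = d⁻¹ * (y * d * y⁻¹) := by group
      rw [this]
      exact K.mul_mem (K.inv_mem hd) (hKn.conj_mem d hd y)
    · exact Subgroup.mul_mem _ hdy (Subgroup.inv_mem _ hyN)
  let T : Subgroup G :=
    { carrier := {a | a ∈ Subgroup.normalizer (C : Set G) ∧ d⁻¹ * a * d * a⁻¹ ∈ C}
      mul_mem' := by
        rintro a b ⟨haN, ha⟩ ⟨hbN, hb⟩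
        refine ⟨Subgroup.mul_mem _ haN hbN, ?_⟩
        have e : d⁻¹ * (a * b) * d * (a * b)⁻¹ =
            (d⁻¹ * a * d * a⁻¹) * (a * (d⁻¹ * b * d * b⁻¹) * a⁻¹) := by group
        rw [e]
        exact C.mul_mem ha (conj_mem_of_mem_normalizer haN hb)
      one_mem' := ⟨Subgroup.one_mem _, by
        have : d⁻¹ * 1 * d * (1 : G)⁻¹ = 1 := by group
        rw [this]; exact C.one_mem⟩
      inv_mem' := by
        rintro a ⟨haN, ha⟩
        refine ⟨Subgroup.inv_mem _ haN, ?_⟩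
        have e : d⁻¹ * a⁻¹ * d * a⁻¹⁻¹ = a⁻¹ * (d⁻¹ * a * d * a⁻¹)⁻¹ * a := by group
        rw [e]
        exact conj_mem_of_mem_normalizer' haN (C.inv_mem ha) }
  have hyT : y ∈ T := ⟨hNC y hyN, hyC⟩
  have hzT : Subgroup.zpowers y ≤ T := Subgroup.zpowers_le.mpr hyT
  obtain ⟨k, hk⟩ := hyo
  have hCK : Nat.card C ∣ Nat.card K := Subgroup.card_dvd_of_le inf_le_left
  have hcop : (Nat.card (Subgroup.zpowers y)).Coprime (Nat.card C) := by
    rw [Nat.card_zpowers, hk]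
    exact Nat.Coprime.pow_left k (Nat.Coprime.coprime_dvd_right hCK hK.symm)
  obtain ⟨c, hc, hfix⟩ := coset_fix (Subgroup.zpowers y) C
    (fun a ha => (hzT ha).1) hcop
    (Or.inl (isSolvable_of_isMulCommutative (Subgroup.zpowers y))) d
    (fun a ha => (hzT ha).2)
  have hcK : c ∈ K := (Subgroup.mem_inf.mp hc).1
  refine ⟨d * c, Subgroup.mem_inf.mpr ⟨K.mul_mem hd hcK, ?_⟩, c⁻¹, C.inv_mem hc, by group⟩
  rw [Subgroup.mem_centralizer_singleton_iff]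
  exact (hfix y (Subgroup.mem_zpowers y)).symm

/-- Let P be a Sylow p-subgroup of a finite group G, H = P ∩ O_{p',p}(G), N = N_G(H) and D = O_{p'}(G). (a) If y is an element of p-power order of N and d ∈ D with d⁻¹ y d ∈ N, then d = d₁ d₂ with d₁ ∈ C_D(y) and d₂ ∈ C_D(H). (b) Two elements of P that are conjugate in G are conjugate in N. -/
theorem result {G : Type*} [Group G] [Finite G] {p : ℕ} [Fact p.Prime] (P : Sylow p G) :
    (∀ y ∈ Subgroup.normalizer (((P : Subgroup G) ⊓ Cfsg.pPrimePCore p G : Subgroup G) : Set G), (∃ k : ℕ, orderOf y = p ^ k) →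
      ∀ d ∈ Cfsg.pPrimeCore p G, d⁻¹ * y * d ∈ Subgroup.normalizer (((P : Subgroup G) ⊓ Cfsg.pPrimePCore p G : Subgroup G) : Set G) →
        ∃ d₁ ∈ Cfsg.pPrimeCore p G ⊓ Subgroup.centralizer ({y} : Set G),
          ∃ d₂ ∈ Cfsg.pPrimeCore p G ⊓ Subgroup.centralizer (((P : Subgroup G) ⊓ Cfsg.pPrimePCore p G : Subgroup G) : Set G), d = d₁ * d₂) ∧
    ∀ x y : G, x ∈ (P : Subgroup G) → y ∈ (P : Subgroup G) → IsConj x y →
      ∃ n ∈ Subgroup.normalizer (((P : Subgroup G) ⊓ Cfsg.pPrimePCore p G : Subgroup G) : Set G), n * x * n⁻¹ = y := by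
  have hKn : (Cfsg.pPrimeCore p G).Normal := ppc_normal p G
  have hLn : (Cfsg.pPrimePCore p G).Normal := pPrimePCore_normal p G
  have hK : (Nat.card (Cfsg.pPrimeCore p G)).Coprime p := pPrimeCore_coprime p G
  have hQ : IsPGroup p ↥((P : Subgroup G) ⊓ Cfsg.pPrimePCore p G : Subgroup G) :=
    P.isPGroup'.to_le inf_le_left
  have h1 : ∀ y ∈ Subgroup.normalizer (((P : Subgroup G) ⊓ Cfsg.pPrimePCore p G : Subgroup G) : Set G),
      (∃ k : ℕ, orderOf y = p ^ k) →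
      ∀ d ∈ Cfsg.pPrimeCore p G, d⁻¹ * y * d ∈ Subgroup.normalizer (((P : Subgroup G) ⊓
        Cfsg.pPrimePCore p G : Subgroup G) : Set G) →
        ∃ d₁ ∈ Cfsg.pPrimeCore p G ⊓ Subgroup.centralizer ({y} : Set G),
          ∃ d₂ ∈ Cfsg.pPrimeCore p G ⊓ Subgroup.centralizer (((P : Subgroup G) ⊓
            Cfsg.pPrimePCore p G : Subgroup G) : Set G), d = d₁ * d₂ :=
    fun y hy hyo d hd hdy => part1 _ _ hK hQ y hy hyo d hd hdy
  refine ⟨h1, ?_⟩
  intro x y hx hy hxy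
  obtain ⟨g, hg⟩ := isConj_iff.mp hxy
  obtain ⟨hfr, Q', hQ'⟩ := frattini_inf P (Cfsg.pPrimePCore p G)
  have hPN : (P : Subgroup G) ≤ Subgroup.normalizer (((P : Subgroup G) ⊓
      Cfsg.pPrimePCore p G : Subgroup G) : Set G) := by
    apply le_normalizer_of_conj_mem
    intro a ha b hb
    exact Subgroup.mem_inf.mpr ⟨Subgroup.mul_mem _ (Subgroup.mul_mem _ ha hb.1) (Subgroup.inv_mem _ ha),
      hLn.conj_mem b hb.2 a⟩
  have hgtop : g ∈ Subgroup.normalizer (((P : Subgroup G) ⊓ Cfsg.pPrimePCore p G : Subgroup G) : Set G)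
      ⊔ Cfsg.pPrimePCore p G := by rw [hfr]; exact Subgroup.mem_top g
  obtain ⟨n, hn, ℓ, hℓ, hnℓ⟩ := Subgroup.mem_sup_of_normal_right.mp hgtop
  obtain ⟨w, hw, q, hq, hwq⟩ := pPrimePCore_decomp Q' hℓ
  rw [hQ'] at hq
  have hqN := hPN hq.1
  set d := n * w * n⁻¹ with hd
  set m := n * q with hm
  have hdK : d ∈ Cfsg.pPrimeCore p G := hKn.conj_mem w hw n
  have hmN : m ∈ Subgroup.normalizer (((P : Subgroup G) ⊓ Cfsg.pPrimePCore p G : Subgroup G) : Set G) :=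
    Subgroup.mul_mem _ hn hqN
  have hgdm : g = d * m := by rw [← hnℓ, hwq, hd, hm]; group
  have hyo : ∃ k : ℕ, orderOf y = p ^ k := by
    obtain ⟨k, hk⟩ := (IsPGroup.iff_orderOf.mp P.isPGroup') ⟨y, hy⟩
    refine ⟨k, ?_⟩
    rw [← hk]
    exact (Subgroup.orderOf_mk y hy).symm
  have hdy : d⁻¹ * y * d = m * x * m⁻¹ := by rw [← hg, hgdm]; group
  have hdyN : d⁻¹ * y * d ∈ Subgroup.normalizer (((P : Subgroup G) ⊓
      Cfsg.pPrimePCore p G : Subgroup G) : Set G) := by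
    rw [hdy]
    exact Subgroup.mul_mem _ (Subgroup.mul_mem _ hmN (hPN hx)) (Subgroup.inv_mem _ hmN)
  obtain ⟨d₁, hd₁, d₂, hd₂, hdd⟩ := h1 y (hPN hy) hyo d hdK hdyN
  have hd₂N : d₂ ∈ Subgroup.normalizer (((P : Subgroup G) ⊓ Cfsg.pPrimePCore p G : Subgroup G) : Set G) :=
    Subgroup.centralizer_le_normalizer _ (Subgroup.mem_inf.mp hd₂).2
  have hd₁y : d₁ * y = y * d₁ := by
    have := Subgroup.mem_centralizer_singleton_iff.mp (Subgroup.mem_inf.mp hd₁).2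
    exact this
  refine ⟨d₂ * m, Subgroup.mul_mem _ hd₂N hmN, ?_⟩
  have h2 : d₂⁻¹ * y * d₂ = m * x * m⁻¹ := by
    rw [← hdy, hdd]
    calc d₂⁻¹ * y * d₂ = d₂⁻¹ * (d₁⁻¹ * (d₁ * y)) * d₂ := by group
      _ = d₂⁻¹ * (d₁⁻¹ * (y * d₁)) * d₂ := by rw [hd₁y]
      _ = (d₁ * d₂)⁻¹ * y * (d₁ * d₂) := by group
  calc d₂ * m * x * (d₂ * m)⁻¹ = d₂ * (m * x * m⁻¹) * d₂⁻¹ := by group
    _ = d₂ * (d₂⁻¹ * y * d₂) * d₂⁻¹ := by rw [h2]
    _ = y := by group

end Cfsg.Agent.S1907
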