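import Cfsg.Statements.S1924
-- import your own Cfsg.Agent.* helpers here
import Cfsg.Agent.Lib.helper6.Thompson

set_option autoImplicit false
open Cfsg

namespace Cfsg.Agent.S1924

/-- A consequence of Thompson's transfer lemma. Let G be a finite group, L a subgroup with O²(L) = L, T a Sylow 2-subgroup of L and S a Sylow 2-subgroup of G containing T. Suppose D ≤ S is a dihedral subgroup of order at least 4 (the four-group counts) with D ∩ T = 1 and S = TD as a set of products (so |S| = |T|·|D|), and C ≤ D is cyclic of index 2 in D. If no involution of D outside C is G-conjugate to an involution of the subgroup generated by T and C, and the involution of C is not G-conjugate to any involution of T, then G has a normal subgroup K, containing every Sylow 2-subgroup of L as a Sylow 2-subgroup, with G = KD. -/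
theorem result {G : Type*} [Group G] [Finite G] (L T S D C : Subgroup G) (hL : Cfsg.pResidual 2 ↥L = ⊤)
    (hTL : T ≤ L) (hT2 : IsPGroup 2 T) (hTsyl : ¬ 2 ∣ T.relIndex L)
    (hS2 : IsPGroup 2 S) (hSsyl : ¬ 2 ∣ S.index) (hTS : T ≤ S)
    (hDS : D ≤ S) (hDih : ∃ n : ℕ, 2 ≤ n ∧ Nonempty (↥D ≃* DihedralGroup n)) (hDT : D ⊓ T = ⊥) (hTD : T ⊔ D = S) (hTDc : Nat.card T * Nat.card D = Nat.card S)
    (hCD : C ≤ D) (hC : IsCyclic ↥C) (hCi : C.relIndex D = 2)
    (h1 : ∀ x ∈ D, x ∉ C → orderOf x = 2 → ∀ g : G, g * x * g⁻¹ ∈ T ⊔ C → False)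
    (h2 : ∀ c ∈ C, orderOf c = 2 → ∀ g : G, g * c * g⁻¹ ∈ T → False) :
    ∃ K : Subgroup G, K.Normal ∧ K ⊔ D = ⊤ ∧
      ∀ T' : Subgroup G, T' ≤ L → IsPGroup 2 T' → ¬ 2 ∣ T'.relIndex L → T' ≤ K ∧ ¬ 2 ∣ T'.relIndex K := by
  classical
  haveI : Fact (Nat.Prime 2) := ⟨Nat.prime_two⟩
  obtain ⟨n, hn, ⟨e⟩⟩ := hDih
  haveI hRn : (Cfsg.pResidual 2 G).Normal := Cfsg.Agent.Lib.helper6.pres_normal 2 G
  set R := Cfsg.pResidual 2 G with hR
  have hLR : L ≤ R := Cfsg.Agent.Lib.helper6.le_pres_of_pres_top L hL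
  have hTR : T ≤ R := hTL.trans hLR
  have hinj := fun {a a' b b' : G} => Cfsg.Agent.Lib.helper6.mul_inj_of_inf_bot T D hDT (a := a) (a' := a') (b := b) (b' := b')
  -- S = T * D as sets
  have hprod : ∀ s ∈ S, ∃ t ∈ T, ∃ d ∈ D, s = t * d := by
    let f : ↥T × ↥D → ↥S := fun x => ⟨x.1 * x.2, S.mul_mem (hTS x.1.2) (hDS x.2.2)⟩
    have hfinj : Function.Injective f := by
      rintro ⟨⟨t, ht⟩, ⟨d, hd⟩⟩ ⟨⟨t', ht'⟩, ⟨d', hd'⟩⟩ h
      have h' : t * d = t' * d' := congrArg Subtype.val h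
      obtain ⟨rfl, rfl⟩ := hinj ht ht' hd hd' h'
      rfl
    have hbij : Function.Bijective f :=
      hfinj.bijective_of_nat_card_le (by rw [Nat.card_prod, hTDc])
    intro s hs
    obtain ⟨⟨t, d⟩, hx⟩ := hbij.2 ⟨s, hs⟩
    exact ⟨t, t.2, d, d.2, (congrArg Subtype.val hx).symm⟩
  have hSodd : Odd (S.relIndex R) := by
    rw [← Nat.not_even_iff_odd, even_iff_two_dvd]
    intro h
    exact hSsyl (h.trans (Cfsg.Agent.Lib.helper6.h6_relIndex_dvd_index_normal S R))
  have hRD : R ⊓ D = ⊥ := by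
    by_contra hne
    by_cases hsub : R ⊓ D ≤ C
    · -- the cyclic case
      haveI := hC
      have hcyc : IsCyclic ↥(R ⊓ D) := Subgroup.isCyclic_of_le hsub
      obtain ⟨⟨d, hdRD⟩, hd⟩ := hcyc.exists_generator
      have hdne : d ≠ 1 := by
        rintro rfl
        apply hne
        rw [eq_bot_iff]
        intro x hx
        obtain ⟨k, hk⟩ := Subgroup.mem_zpowers_iff.mp (hd ⟨x, hx⟩)
        have h1 := congrArg (fun z : ↥(R ⊓ D) => (z : G)) hk
        simp only [Subgroup.coe_zpow, one_zpow] at h1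
        rw [Subgroup.mem_bot]; exact h1.symm
      have hdS : d ∈ S := hDS hdRD.2
      obtain ⟨j, hj⟩ : ∃ j, orderOf d = 2 ^ j := by
        obtain ⟨j, hj⟩ := (IsPGroup.iff_orderOf.mp hS2) ⟨d, hdS⟩
        exact ⟨j, by rw [← hj, Subgroup.orderOf_mk]⟩
      have hj1 : 1 ≤ j := by
        rcases Nat.eq_zero_or_pos j with h | h
        · rw [h, pow_zero, orderOf_eq_one_iff] at hj; exact absurd hj hdne
        · exact h
      have hc₀2 : orderOf (d ^ (2 ^ (j - 1))) = 2 := by
        rw [orderOf_pow_of_dvd (by positivity) (by rw [hj]; exact pow_dvd_pow 2 (by omega)), hj]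
        have : 2 ^ j = 2 ^ (j - 1) * 2 := by rw [← pow_succ]; congr 1; omega
        rw [this, Nat.mul_div_cancel_left _ (by positivity)]
      have hc₀C : d ^ (2 ^ (j - 1)) ∈ C := C.pow_mem (hsub hdRD) _
      have hcardRD : Nat.card ↥(R ⊓ D) = 2 ^ j := by
        rw [← hj, ← Subgroup.orderOf_mk d hdRD]
        exact (orderOf_eq_card_of_forall_mem_zpowers hd).symm
      have hcardRS : Nat.card ↥(R ⊓ S) = Nat.card T * Nat.card ↥(R ⊓ D) := by
        let f : ↥T × ↥(R ⊓ D) → ↥(R ⊓ S) := fun x =>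
          ⟨x.1 * x.2, ⟨R.mul_mem (hTR x.1.2) x.2.2.1, S.mul_mem (hTS x.1.2) (hDS x.2.2.2)⟩⟩
        have hfinj : Function.Injective f := by
          rintro ⟨⟨t, ht⟩, ⟨d, hd⟩⟩ ⟨⟨t', ht'⟩, ⟨d', hd'⟩⟩ h
          have h' : t * d = t' * d' := congrArg Subtype.val h
          obtain ⟨rfl, rfl⟩ := hinj ht ht' hd.2 hd'.2 h'
          rfl
        have hfsurj : Function.Surjective f := by
          rintro ⟨s, hsR, hsS⟩
          obtain ⟨t, ht, d, hd, rfl⟩ := hprod s hsS
          have hdR : d ∈ R := by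
            have : d = t⁻¹ * (t * d) := by rw [inv_mul_cancel_left]
            rw [this]; exact R.mul_mem (R.inv_mem (hTR ht)) hsR
          exact ⟨⟨⟨t, ht⟩, ⟨d, hdR, hd⟩⟩, rfl⟩
        rw [← Nat.card_prod]
        exact (Nat.card_congr (Equiv.ofBijective f ⟨hfinj, hfsurj⟩)).symm
      have hrel : T.relIndex R = S.relIndex R * 2 ^ j := by
        have a1 := Subgroup.relIndex_mul_relIndex T (R ⊓ S) R (le_inf hTR hTS) inf_le_left
        have a2 : (R ⊓ S).relIndex R = S.relIndex R := Subgroup.inf_relIndex_left R S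
        have a3 := Cfsg.Agent.Lib.helper6.h6_card_mul_relIndex T (R ⊓ S) (le_inf hTR hTS)
        rw [hcardRS, hcardRD] at a3
        have a4 : T.relIndex (R ⊓ S) = 2 ^ j := Nat.eq_of_mul_eq_mul_left Nat.card_pos a3
        rw [← a1, a2, a4, mul_comm]
      obtain ⟨N, hN, hdN⟩ := Cfsg.Agent.Lib.helper6.perm_index_two (T.subgroupOf R)
        (⟨d, hdRD.1⟩ : ↥R) j hj1 (by rw [Subgroup.orderOf_mk]; exact hj) (S.relIndex R) hSodd hrel
        (by
          intro g hg
          rw [Subgroup.mem_subgroupOf] at hg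
          exact h2 _ hc₀C hc₀2 (g : G) (by simpa using hg))
      have hle := Cfsg.Agent.Lib.helper6.pres_le_index_two N hN
      rw [Cfsg.Agent.Lib.helper6.pres_top_of_pres] at hle
      exact hdN (hle (Subgroup.mem_top _))
    · -- an involution outside C
      obtain ⟨y, ⟨hyR, hyD⟩, hyC⟩ := SetLike.not_le_iff_exists.mp hsub
      have hy2 : orderOf y = 2 := Cfsg.Agent.Lib.helper6.dih_outside D C n hn e hCD hC hCi y hyD hyC
      have hyM : ∀ g : G, g * y * g⁻¹ ∉ T ⊔ C := fun g hg => h1 y hyD hyC hy2 g hg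
      have hMS : T ⊔ C ≤ S := sup_le hTS (hCD.trans hDS)
      have hMrel : (T ⊔ C).relIndex S = 2 := by
        have b1 : Nat.card T * Nat.card C ≤ Nat.card ↥(T ⊔ C) := by
          let f : ↥T × ↥C → ↥(T ⊔ C) := fun x =>
            ⟨x.1 * x.2, Subgroup.mul_mem _ (Subgroup.mem_sup_left x.1.2) (Subgroup.mem_sup_right x.2.2)⟩
          have hfinj : Function.Injective f := by
            rintro ⟨⟨t, ht⟩, ⟨d, hd⟩⟩ ⟨⟨t', ht'⟩, ⟨d', hd'⟩⟩ h
            have h' : t * d = t' * d' := congrArg Subtype.val h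
            obtain ⟨rfl, rfl⟩ := hinj ht ht' (hCD hd) (hCD hd') h'
            rfl
          rw [← Nat.card_prod]
          exact Nat.card_le_card_of_injective f hfinj
        have b2 := Cfsg.Agent.Lib.helper6.h6_card_mul_relIndex C D hCD
        rw [hCi] at b2
        have b3 := Cfsg.Agent.Lib.helper6.h6_card_mul_relIndex (T ⊔ C) S hMS
        have b4 : (T ⊔ C).relIndex S ≠ 1 := by
          intro h
          rw [Subgroup.relIndex_eq_one] at h
          apply hyM 1
          rw [one_mul, inv_one, mul_one]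
          exact h (hDS hyD)
        have b5 : (T ⊔ C).relIndex S ≠ 0 := by
          intro h
          rw [h, mul_zero] at b3
          have : 0 < Nat.card S := Nat.card_pos
          omega
        have b6 : (T ⊔ C).relIndex S ≤ 2 := by
          by_contra hgt
          push Not at hgt
          have hpos : 0 < Nat.card ↥(T ⊔ C) := Nat.card_pos
          have : Nat.card ↥(T ⊔ C) * 3 ≤ Nat.card ↥(T ⊔ C) * (T ⊔ C).relIndex S :=
            Nat.mul_le_mul_left _ hgt
          have e1 : Nat.card S = Nat.card T * Nat.card C * 2 := by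
            rw [← hTDc, ← b2, mul_assoc]
          nlinarith
        omega
      have hMidx : (T ⊔ C).index = S.index * 2 ^ 1 := by
        rw [← Subgroup.relIndex_mul_index hMS, hMrel]; ring
      have hSi : Odd S.index := by
        rw [← Nat.not_even_iff_odd, even_iff_two_dvd]; exact hSsyl
      obtain ⟨N, hN, hyN⟩ := Cfsg.Agent.Lib.helper6.perm_index_two (T ⊔ C) y 1 le_rfl
        (by rw [hy2]; rfl) S.index hSi hMidx (by simpa using hyM)
      exact hyN (Cfsg.Agent.Lib.helper6.pres_le_index_two N hN hyR)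
  have hRS : R ⊓ S = T := by
    apply le_antisymm
    · rintro s ⟨hsR, hsS⟩
      obtain ⟨t, ht, d, hd, rfl⟩ := hprod s hsS
      have hdR : d ∈ R := by
        have : d = t⁻¹ * (t * d) := by rw [inv_mul_cancel_left]
        rw [this]; exact R.mul_mem (R.inv_mem (hTR ht)) hsR
      have hd1 : d ∈ R ⊓ D := ⟨hdR, hd⟩
      rw [hRD, Subgroup.mem_bot] at hd1
      rw [hd1, mul_one]; exact ht
    · exact le_inf hTR hTS
  have hTrel : T.relIndex R = S.relIndex R := by
    rw [← hRS]; exact Subgroup.inf_relIndex_left R S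
  refine ⟨R, hRn, ?_, ?_⟩
  · have hSle : S ≤ R ⊔ D := by
      rw [← hTD]; exact sup_le (hTR.trans le_sup_left) le_sup_right
    have hd1 : (R ⊔ D).index ∣ S.index := Subgroup.index_dvd_of_le hSle
    have hd2 : (R ⊔ D).index ∣ R.index := Subgroup.index_dvd_of_le le_sup_left
    obtain ⟨k, hk⟩ := Cfsg.Agent.Lib.helper6.pres_index_pow G
    rw [hk] at hd2
    obtain ⟨i, hi, hi2⟩ := (Nat.dvd_prime_pow Nat.prime_two).mp hd2
    rcases Nat.eq_zero_or_pos i with h0 | hpos
    · rw [h0, pow_zero] at hi2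
      exact Subgroup.index_eq_one.mp hi2
    · exfalso
      apply hSsyl
      refine dvd_trans ?_ hd1
      rw [hi2]; exact dvd_pow_self 2 (by omega)
  · intro T' hT'L hT'2 hT'syl
    refine ⟨hT'L.trans hLR, ?_⟩
    have hcard := Cfsg.Agent.Lib.helper6.card_eq_of_odd_relIndex L T T' hTL hT2 hTsyl hT'L hT'2 hT'syl
    have c1 := Cfsg.Agent.Lib.helper6.h6_card_mul_relIndex T R hTR
    have c2 := Cfsg.Agent.Lib.helper6.h6_card_mul_relIndex T' R (hT'L.trans hLR)
    rw [← hcard, ← c1] at c2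
    have c3 : T'.relIndex R = T.relIndex R := Nat.eq_of_mul_eq_mul_left Nat.card_pos c2
    rw [c3, hTrel, ← even_iff_two_dvd, Nat.not_even_iff_odd]
    exact hSodd

end Cfsg.Agent.S1924
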