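import Cfsg.Statements.S1939
-- import your own Cfsg.Agent.* helpers here

set_option autoImplicit false
open Cfsg

namespace Cfsg.Agent.S1939

open scoped Pointwise

theorem conj_mem_smul_sylow {G : Type*} [Group G] {p : ℕ} (P : Sylow p G) (g x : G)
    (hx : x ∈ (P : Subgroup G)) : g * x * g⁻¹ ∈ ((g • P : Sylow p G) : Subgroup G) := by
  show g * x * g⁻¹ ∈ MulAut.conj g • (P : Subgroup G)
  exact Subgroup.smul_mem_pointwise_smul x (MulAut.conj g) _ hx

theorem isPGroup_zpowers_of_pow_eq_one {G : Type*} [Group G] {p : ℕ} [Fact p.Prime] (x : G) (k : ℕ)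
    (hx : x ^ p ^ k = 1) : IsPGroup p (Subgroup.zpowers x) := by
  rw [IsPGroup.iff_orderOf]
  intro y
  have hy : (y : G) ^ p ^ k = 1 := by
    obtain ⟨j, hj⟩ := Subgroup.mem_zpowers_iff.mp y.2
    rw [← hj, ← zpow_natCast, ← zpow_mul, mul_comm, zpow_mul, zpow_natCast, hx, one_zpow]
  have hy' : y ^ p ^ k = 1 := Subtype.ext (by simpa using hy)
  obtain ⟨m, _, hm⟩ := (Nat.dvd_prime_pow (Fact.out)).mp (orderOf_dvd_of_pow_eq_one hy')
  exact ⟨m, hm⟩

/-- Let S be a Sylow p-subgroup of the finite group G and a an element of S that is the only G-conjugate of a lying in S. Then every power of a has the same property: for every n, the only G-conjugate of a^n lying in S is a^n. -/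
theorem result {G : Type*} [Group G] [Finite G] {p : ℕ} [Fact p.Prime] (S : Sylow p G) (a : G)
    (haS : a ∈ (S : Subgroup G)) (hwc : ∀ g : G, g * a * g⁻¹ ∈ (S : Subgroup G) → g * a * g⁻¹ = a) (n : ℕ) :
    ∀ g : G, g * a ^ n * g⁻¹ ∈ (S : Subgroup G) → g * a ^ n * g⁻¹ = a ^ n := by
  intro g hb
  obtain ⟨b, hbdef⟩ : ∃ b, b = g * a ^ n * g⁻¹ := ⟨_, rfl⟩
  obtain ⟨a', ha'def⟩ : ∃ a', a' = g * a * g⁻¹ := ⟨_, rfl⟩
  rw [← hbdef] at hb ⊢
  have hb' : a' ^ n = b := by rw [ha'def, hbdef, conj_pow]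
  -- a commutes with all of S
  have hcomm : ∀ s ∈ (S : Subgroup G), s * a * s⁻¹ = a := fun s hs =>
    hwc s (Subgroup.mul_mem _ (Subgroup.mul_mem _ hs haS) (Subgroup.inv_mem _ hs))
  have haC : a ∈ Subgroup.centralizer ({b} : Set G) := by
    rw [Subgroup.mem_centralizer_singleton_iff]
    have := hcomm b hb
    calc a * b = (b * a * b⁻¹) * b := by rw [this]
      _ = b * a := by group
  have ha'C : a' ∈ Subgroup.centralizer ({b} : Set G) := by
    rw [Subgroup.mem_centralizer_singleton_iff, ← hb']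
    rw [← pow_succ, ← pow_succ']
  obtain ⟨C, hC⟩ : ∃ C, C = Subgroup.centralizer ({b} : Set G) := ⟨_, rfl⟩
  rw [← hC] at haC ha'C
  -- p-elements
  have hSp : IsPGroup p (S : Subgroup G) := S.isPGroup'
  obtain ⟨k, hk⟩ := (IsPGroup.iff_orderOf.mp hSp) ⟨a, haS⟩
  have hak : a ^ p ^ k = 1 := by
    have := pow_orderOf_eq_one (⟨a, haS⟩ : (S : Subgroup G))
    rw [hk] at this
    exact congrArg Subtype.val this
  have ha'k : a' ^ p ^ k = 1 := by rw [ha'def, conj_pow, hak]; group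
  have hαp : IsPGroup p (Subgroup.zpowers (⟨a, haC⟩ : C)) :=
    isPGroup_zpowers_of_pow_eq_one _ k (Subtype.ext (by simpa using hak))
  have hα'p : IsPGroup p (Subgroup.zpowers (⟨a', ha'C⟩ : C)) :=
    isPGroup_zpowers_of_pow_eq_one _ k (Subtype.ext (by simpa using ha'k))
  obtain ⟨Q, hQ⟩ := hαp.exists_le_sylow
  obtain ⟨Q', hQ'⟩ := hα'p.exists_le_sylow
  obtain ⟨c, hc⟩ := MulAction.exists_smul_eq C Q' Q
  have hαQ : (⟨a, haC⟩ : C) ∈ (Q : Subgroup C) := hQ (Subgroup.mem_zpowers _)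
  have hα'Q' : (⟨a', ha'C⟩ : C) ∈ (Q' : Subgroup C) := hQ' (Subgroup.mem_zpowers _)
  have hcα' : c * (⟨a', ha'C⟩ : C) * c⁻¹ ∈ (Q : Subgroup C) := by
    rw [← hc]; exact conj_mem_smul_sylow Q' c _ hα'Q'
  -- push to G
  have hQG : IsPGroup p ((Q : Subgroup C).map C.subtype) := Q.isPGroup'.map _
  obtain ⟨R, hR⟩ := hQG.exists_le_sylow
  obtain ⟨h, hh⟩ := MulAction.exists_smul_eq G R S
  have haR : a ∈ (R : Subgroup G) := hR ⟨⟨a, haC⟩, hαQ, rfl⟩
  have hcaR : (c : G) * a' * (c : G)⁻¹ ∈ (R : Subgroup G) := hR ⟨c * ⟨a', ha'C⟩ * c⁻¹, hcα', rfl⟩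
  have conjS : ∀ r ∈ (R : Subgroup G), h * r * h⁻¹ ∈ (S : Subgroup G) := by
    intro r hr
    rw [← hh]; exact conj_mem_smul_sylow R h r hr
  have e1 : h * a * h⁻¹ = a := hwc h (conjS a haR)
  have e2 : h * ((c : G) * a' * (c : G)⁻¹) * h⁻¹ = a := by
    have hmem := conjS _ hcaR
    have hrw : h * ((c : G) * a' * (c : G)⁻¹) * h⁻¹ = (h * c * g) * a * (h * c * g)⁻¹ := by
      rw [ha'def]; group
    rw [hrw] at hmem ⊢
    exact hwc _ hmem
  have e3 : (c : G) * a' * (c : G)⁻¹ = a := by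
    have h2 : h * ((c : G) * a' * (c : G)⁻¹) * h⁻¹ = h * a * h⁻¹ := by rw [e1, e2]
    calc (c : G) * a' * (c : G)⁻¹ = h⁻¹ * (h * ((c : G) * a' * (c : G)⁻¹) * h⁻¹) * h := by group
      _ = h⁻¹ * (h * a * h⁻¹) * h := by rw [h2]
      _ = a := by group
  have hcb : (c : G) * b * (c : G)⁻¹ = b := by
    have hcC : (c : G) ∈ Subgroup.centralizer ({b} : Set G) := hC ▸ c.2
    have := Subgroup.mem_centralizer_singleton_iff.mp hcC
    calc (c : G) * b * (c : G)⁻¹ = (b * c) * (c : G)⁻¹ := by rw [this]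
      _ = b := by group
  calc b = (c : G) * b * (c : G)⁻¹ := hcb.symm
    _ = (c : G) * a' ^ n * (c : G)⁻¹ := by rw [hb']
    _ = ((c : G) * a' * (c : G)⁻¹) ^ n := conj_pow.symm
    _ = a ^ n := by rw [e3]

end Cfsg.Agent.S1939
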