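import Cfsg.Statements.S1940
-- import your own Cfsg.Agent.* helpers here

set_option autoImplicit false
open Cfsg

namespace Cfsg.Agent.S1940

/-- Let the finite group L act by automorphisms on the finite abelian group M, and let N be an L-invariant subgroup of M such that M/N is a p-group on which L acts trivially (every l • m lies in the coset mN). If every element of M is a product of an element of N and an element fixed by a Sylow p-subgroup T of L, then every element of M is a product of an element of N and an element fixed by all of L. -/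
theorem result {L : Type*} [Group L] [Finite L] {M : Type*} [CommGroup M] [Finite M] [MulDistribMulAction L M]
    {p : ℕ} [Fact p.Prime] (N : Subgroup M) (hN : ∀ (l : L) (m : M), m ∈ N → l • m ∈ N)
    (hquot : IsPGroup p (M ⧸ N)) (htriv : ∀ (l : L) (m : M), (l • m) * m⁻¹ ∈ N) (T : Sylow p L)
    (hT : ∀ m : M, ∃ n ∈ N, ∃ c : M, (∀ t ∈ (T : Subgroup L), t • c = c) ∧ m = n * c) :
    ∀ m : M, ∃ n ∈ N, ∃ c : M, (∀ l : L, l • c = c) ∧ m = n * c := by
  classical
  let _ : Fintype (L ⧸ (T : Subgroup L)) := Fintype.ofFinite _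
  intro m
  obtain ⟨n, hn, c, hc, rfl⟩ := hT m
  obtain ⟨c', hc'⟩ : ∃ c' : M, c' = ∏ q : L ⧸ (T : Subgroup L), (q.out • c) := ⟨_, rfl⟩
  have hstep : ∀ (l : L) (q : L ⧸ (T : Subgroup L)), l • (q.out • c) = ((l • q).out) • c := by
    intro l q
    rw [← mul_smul]
    have hmem : ((l • q).out)⁻¹ * (l * q.out) ∈ (T : Subgroup L) := by
      rw [← QuotientGroup.eq]
      simp only [QuotientGroup.out_eq']
      conv_lhs => rw [← QuotientGroup.out_eq' q]
      rfl
    have h2 := hc _ hmem
    calc (l * q.out) • c = ((l • q).out * (((l • q).out)⁻¹ * (l * q.out))) • c := by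
          congr 1; group
      _ = (l • q).out • ((((l • q).out)⁻¹ * (l * q.out)) • c) := mul_smul _ _ _
      _ = (l • q).out • c := by rw [h2]
  have hfix : ∀ l : L, l • c' = c' := by
    intro l
    rw [hc', Finset.smul_prod']
    simp_rw [hstep]
    exact Fintype.prod_equiv (MulAction.toPerm l) _ _ (fun q => rfl)
  -- c' ≡ c ^ k mod N
  have hcong : c' * (c ^ Fintype.card (L ⧸ (T : Subgroup L)))⁻¹ ∈ N := by
    have : c' * (c ^ Fintype.card (L ⧸ (T : Subgroup L)))⁻¹
        = ∏ q : L ⧸ (T : Subgroup L), ((q.out • c) * c⁻¹) := by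
      rw [Finset.prod_mul_distrib, ← hc']
      simp [Finset.prod_const, Finset.card_univ]
    rw [this]
    exact Subgroup.prod_mem _ (fun q _ => htriv _ _)
  -- index coprime to p
  have hk : (Fintype.card (L ⧸ (T : Subgroup L))).Coprime p := by
    have h1 : ¬ p ∣ (T : Subgroup L).index := T.not_dvd_index
    rw [Subgroup.index, Nat.card_eq_fintype_card] at h1
    exact ((Nat.Prime.coprime_iff_not_dvd Fact.out).mpr h1).symm
  set k := Fintype.card (L ⧸ (T : Subgroup L)) with hkdef
  obtain ⟨e, he⟩ := (IsPGroup.iff_orderOf.mp hquot) (QuotientGroup.mk c : M ⧸ N)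
  have hk' : k.Coprime (orderOf (QuotientGroup.mk c : M ⧸ N)) := by
    rw [he]; exact Nat.Coprime.pow_right _ hk
  obtain ⟨j, hj⟩ := exists_pow_eq_self_of_coprime hk'
  refine ⟨n * (c * (c' ^ j)⁻¹), N.mul_mem hn ?_, c' ^ j, ?_, ?_⟩
  · -- c * (c'^j)⁻¹ ∈ N
    rw [← QuotientGroup.eq_one_iff]
    have h1 : (QuotientGroup.mk c' : M ⧸ N) = (QuotientGroup.mk c : M ⧸ N) ^ k := by
      have := (QuotientGroup.eq_one_iff (N := N) _).mpr hcong
      rw [QuotientGroup.mk_mul, QuotientGroup.mk_inv, QuotientGroup.mk_pow, mul_inv_eq_one] at this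
      exact this
    rw [QuotientGroup.mk_mul, QuotientGroup.mk_inv, QuotientGroup.mk_pow, h1, hj, mul_inv_cancel]
  · intro l
    rw [smul_pow', hfix l]
  · simp [mul_assoc]

end Cfsg.Agent.S1940
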