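import Cfsg.Statements.S1941
import Mathlib
import Cfsg.Agent.Lib.helper7.PConstr
import Cfsg.Agent.Lib.helper15.PCore
import Cfsg.Agent.Lib.helper10.Cocycle

set_option autoImplicit false
open Cfsg

namespace Cfsg.Agent.S1941

/-- Let G be a finite group with no nontrivial normal subgroup of order prime to p, T a Sylow p-subgroup of G and E(G) the layer of G (the subgroup generated by its components). An automorphism of G of p-power order that fixes T and E(G) elementwise is inner. -/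
theorem result {G : Type*} [Group G] [Finite G] {p : ℕ} [Fact p.Prime] (hcore : Cfsg.pPrimeCore p G = ⊥)
    (T : Sylow p G) (α : MulAut G) (hα : ∃ j : ℕ, orderOf α = p ^ j) (hfixT : ∀ x ∈ (T : Subgroup G), α x = x)
    (hfixE : ∀ x ∈ Cfsg.layer G, α x = x) : ∃ g : G, ∀ x : G, α x = g * x * g⁻¹ := by
  classical
  have hp : p.Prime := Fact.out
  obtain ⟨Fs, hFs⟩ : ∃ Fs : Subgroup G, Fs = generalizedFittingSubgroup G := ⟨_, rfl⟩
  have hFsn : Fs.Normal := by rw [hFs]; infer_instance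
  have hFsfix : ∀ x ∈ Fs, α x = x := by
    let Fix : Subgroup G :=
      { carrier := {x | α x = x}
        mul_mem' := by
          intro a b ha hb
          show α (a * b) = a * b
          rw [map_mul, show α a = a from ha, show α b = b from hb]
        one_mem' := map_one α
        inv_mem' := by
          intro a ha
          show α a⁻¹ = a⁻¹
          rw [map_inv, show α a = a from ha] }
    have hle : Fs ≤ Fix := by
      rw [hFs]
      unfold generalizedFittingSubgroup
      apply sup_le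
      · exact fun x hx => hfixE x hx
      · intro x hx
        apply hfixT
        rw [Cfsg.Agent.Lib.helper7.fitting_eq_pCore_of_core_bot hcore] at hx
        exact Cfsg.Agent.Lib.helper15.pCore_le_sylow T hx
    exact fun x hx => hle hx
  obtain ⟨Zc, hZc⟩ : ∃ Zc : Subgroup G, Zc = Subgroup.centralizer (Fs : Set G) := ⟨_, rfl⟩
  have hZcFs : Zc ≤ Fs := by
    rw [hZc, hFs]; exact Cfsg.Agent.Lib.helper7.centralizer_genFitting_le G
  have hZcmem : ∀ z, z ∈ Zc ↔ ∀ x ∈ Fs, x * z = z * x := by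
    intro z; rw [hZc, Subgroup.mem_centralizer_iff]; rfl
  have hZcnormal : Zc.Normal := by rw [hZc]; infer_instance
  have hZcn : ∀ g : G, ∀ z ∈ Zc, g * z * g⁻¹ ∈ Zc := fun g z hz => hZcnormal.conj_mem z hz g
  have hZccomm : IsMulCommutative ↥Zc :=
    ⟨⟨fun a b => Subtype.ext ((hZcmem b).1 b.2 a (hZcFs a.2))⟩⟩
  have hZcp : IsPGroup p Zc := by
    have h1 : Zc ≤ fittingSubgroup G :=
      Cfsg.Agent.Lib.helper7.le_fitting hZcnormal (Cfsg.Agent.Lib.helper7.nilpotent_of_isMulComm hZccomm)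
    exact (Cfsg.Agent.Lib.helper7.fitting_isPGroup_of_core_bot hcore).to_le h1
  have hε : ∀ g : G, α g * g⁻¹ ∈ Zc := by
    intro g
    rw [hZcmem]
    intro x hx
    have h1 : g⁻¹ * x * g⁻¹⁻¹ ∈ Fs := hFsn.conj_mem x hx g⁻¹
    have h2 := hFsfix _ h1
    simp only [map_mul, map_inv, hFsfix x hx] at h2
    -- h2 : (α g)⁻¹ * x * (α g)⁻¹⁻¹ = g⁻¹ * x * g⁻¹⁻¹
    calc x * (α g * g⁻¹) = α g * ((α g)⁻¹ * x * (α g)⁻¹⁻¹) * g⁻¹ := by group
      _ = α g * (g⁻¹ * x * g⁻¹⁻¹) * g⁻¹ := by rw [h2]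
      _ = α g * g⁻¹ * x := by group
  obtain ⟨u, -, hu⟩ := Cfsg.Agent.Lib.helper10.cocycle_split Zc (T : Subgroup G) hZcn hZcp
    (Sylow.not_dvd_index T) (fun g => α g * g⁻¹) hε
    (by
      intro g t ht
      show α (g * t) * (g * t)⁻¹ = α g * g⁻¹
      rw [map_mul, hfixT t ht]; group)
    (by
      intro h g
      show α (h * g) * (h * g)⁻¹ = α h * h⁻¹ * (h * (α g * g⁻¹) * h⁻¹)
      rw [map_mul]; group)
  refine ⟨u, fun x => ?_⟩
  have h1 : α x * x⁻¹ = u * (x * u⁻¹ * x⁻¹) := hu x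
  calc α x = α x * x⁻¹ * x := by group
    _ = u * (x * u⁻¹ * x⁻¹) * x := by rw [h1]
    _ = u * x * u⁻¹ := by group

end Cfsg.Agent.S1941
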