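import Cfsg.Statements.S1947
import Cfsg.Agent.Lib.helper10.SmallFusion

set_option autoImplicit false
open Cfsg

namespace Cfsg.Agent.S1947

/-- Let G be a finite group and p a prime. If every element of G of order dividing p (dividing 4 when p = 2) lies in some fixed term Z_n(G) of the upper central series, then G has a normal p-complement. -/
theorem result {G : Type*} [Group G] [Finite G] {p : ℕ} [Fact p.Prime] (n : ℕ)
    (h : ∀ a : G, (a ^ p = 1 ∨ (p = 2 ∧ a ^ 4 = 1)) → a ∈ Subgroup.upperCentralSeries G n) : Cfsg.HasNormalPComplement p G := by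
  classical
  open scoped commutatorElement in
  open Cfsg.Agent.Lib.helper10 in
  have hF : Cfsg.Agent.Lib.lead.Frob p G := by
    intro Q hQ g hgN hcop
    have claim : ∀ i, ∀ a ∈ Q, a ∈ Subgroup.upperCentralSeries G i → g * a * g⁻¹ = a := by
      intro i
      induction i with
      | zero =>
        intro a _ ha
        rw [Subgroup.upperCentralSeries_zero, Subgroup.mem_bot] at ha
        rw [ha]; group
      | succ i ih =>
        have hstab : ∀ w ∈ Q ⊓ Subgroup.upperCentralSeries G (i + 1),
            g * w * g⁻¹ * w⁻¹ ∈ Q ⊓ Subgroup.upperCentralSeries G i := by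
          intro w hw
          obtain ⟨hwQ, hwZ⟩ := Subgroup.mem_inf.mp hw
          refine Subgroup.mem_inf.mpr
            ⟨mul_mem ((Subgroup.mem_normalizer_iff.mp hgN w).mp hwQ) (inv_mem hwQ), ?_⟩
          have h1 : ⁅w, g⁆ ∈ Subgroup.upperCentralSeries G i :=
            Subgroup.mem_upperCentralSeries_succ_iff.mp hwZ g
          have e : g * w * g⁻¹ * w⁻¹ = ⁅w, g⁆⁻¹ := by rw [commutatorElement_def]; group
          rw [e]; exact inv_mem h1
        have hfix : ∀ z ∈ Q ⊓ Subgroup.upperCentralSeries G i, g * z * g⁻¹ = z := by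
          intro z hz
          obtain ⟨h1, h2⟩ := Subgroup.mem_inf.mp hz
          exact ih z h1 h2
        have h3 := centralize_of_stable (Q ⊓ Subgroup.upperCentralSeries G (i + 1))
          (Q ⊓ Subgroup.upperCentralSeries G i) g hcop (hQ.to_le inf_le_left) hstab hfix
        intro a haQ haZ
        exact h3 a (Subgroup.mem_inf.mpr ⟨haQ, haZ⟩)
    have hall : ∀ a ∈ Q, g * a * g⁻¹ = a := by
      apply centralize_of_small Q hQ g hgN hcop
      intro a ha hs
      exact claim n a ha (h a hs)
    rw [Subgroup.mem_centralizer_iff]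
    intro x hx
    have h1 := hall x hx
    calc x * g = g * x * g⁻¹ * g := by rw [h1]
      _ = g * x := by group
  obtain ⟨P⟩ : Nonempty (Sylow p G) := inferInstance
  obtain ⟨N, hN, hc⟩ := Cfsg.Agent.Lib.lead.frob_complement hF P
  exact ⟨P, N, hN, hc⟩

end Cfsg.Agent.S1947
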