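import Cfsg.Statements.S1952
import Mathlib

set_option autoImplicit false
open Cfsg

namespace Cfsg.Agent.S1952

open Polynomial in
theorem poly_id (p : ℕ) [Fact p.Prime] :
    ((X : (ZMod p)[X]) - 1) ^ (p - 1) = ∑ i ∈ Finset.range p, (X : (ZMod p)[X]) ^ i := by
  have hp : p.Prime := Fact.out
  have hne : ((X : (ZMod p)[X]) - 1) ≠ 0 := by
    rw [← Polynomial.C_1]; exact Polynomial.X_sub_C_ne_zero 1
  have h1 : ((X : (ZMod p)[X]) - 1) * (X - 1) ^ (p - 1) =
      (X - 1) * ∑ i ∈ Finset.range p, (X : (ZMod p)[X]) ^ i := by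
    rw [mul_geom_sum, ← pow_succ', Nat.sub_add_cancel hp.pos, sub_pow_char, one_pow]
  exact mul_left_cancel₀ hne h1

theorem chain_bound {p : ℕ} [Fact p.Prime] {M : Type*} [AddCommGroup M] [Module (ZMod p) M]
    [Finite M] (σ : M →ₗ[ZMod p] M) (hσ : σ ^ p = 1) (B : Submodule (ZMod p) M)
    (hB : ∀ b ∈ B, σ b ∈ B) (x : M) (hx : ∑ i ∈ Finset.range p, (σ ^ i) x ∉ B) :
    Module.finrank (ZMod p) B + p ≤ Module.finrank (ZMod p) M := by
  have hp : p.Prime := Fact.out
  have e1 : (σ - 1) ^ (p - 1) = ∑ i ∈ Finset.range p, σ ^ i := by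
    have := congrArg (Polynomial.aeval σ) (poly_id p)
    simpa using this
  have e2 : (σ - 1) ^ p = 0 := by
    have h : (σ - 1) ^ p = (σ - 1) * (σ - 1) ^ (p - 1) := by
      rw [← pow_succ', Nat.sub_add_cancel hp.pos]
    rw [h, e1, mul_geom_sum, hσ, sub_self]
  have hδB : ∀ b ∈ B, (σ - 1) b ∈ B := by
    intro b hb
    rw [LinearMap.sub_apply, Module.End.one_apply]
    exact B.sub_mem (hB b hb) hb
  have hstrict : ∀ j, j < p → B.comap ((σ - 1) ^ j) < B.comap ((σ - 1) ^ (j + 1)) := by
    intro j hj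
    rw [SetLike.lt_iff_le_and_exists]
    refine ⟨?_, ((σ - 1) ^ (p - 1 - j)) x, ?_, ?_⟩
    · intro a ha
      rw [Submodule.mem_comap] at ha ⊢
      rw [pow_succ', Module.End.mul_apply]
      exact hδB _ ha
    · rw [Submodule.mem_comap, ← Module.End.mul_apply, ← pow_add]
      have : j + 1 + (p - 1 - j) = p := by omega
      rw [this, e2, LinearMap.zero_apply]
      exact B.zero_mem
    · rw [Submodule.mem_comap, ← Module.End.mul_apply, ← pow_add]
      have : j + (p - 1 - j) = p - 1 := by omega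
      rw [this, e1, LinearMap.sum_apply]
      exact hx
  have hrank : ∀ j, j ≤ p →
      Module.finrank (ZMod p) B + j ≤ Module.finrank (ZMod p) (B.comap ((σ - 1) ^ j)) := by
    intro j
    induction j with
    | zero =>
      intro _
      rw [pow_zero, Module.End.one_eq_id, Submodule.comap_id, add_zero]
    | succ j ih =>
      intro hj
      have h1 := ih (by omega)
      have h2 := Submodule.finrank_lt_finrank_of_lt (hstrict j (by omega))
      omega
  have h3 := hrank p le_rfl
  have h4 := Submodule.finrank_le (B.comap ((σ - 1) ^ p))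
  omega

/-- Let P be a finite p-group with a normal elementary abelian subgroup A of index p, and let x ∈ A and y ∈ P with y outside A. If the product of the p conjugates y^(-i) x y^i (i = 0, …, p−1) is not the identity, then the wreath product Z_p ≀ Z_p, realised as a Sylow p-subgroup of the symmetric group of degree p², is a homomorphic image of P. -/
theorem result {P : Type*} [Group P] [Finite P] {p : ℕ} [Fact p.Prime] (hP : IsPGroup p P) (A : Subgroup P) [A.Normal]
    (hA : Cfsg.IsElementaryAbelian p A) (hidx : A.index = p) (x y : P) (hx : x ∈ A) (hy : y ∉ A)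
    (hprod : ((List.range p).map (fun i => (y ^ i)⁻¹ * x * y ^ i)).prod ≠ 1) :
    ∃ (Q : Sylow p (Equiv.Perm (Fin (p ^ 2)))) (f : P →* ↥(Q : Subgroup (Equiv.Perm (Fin (p ^ 2))))), Function.Surjective f := by
  classical
  have hp : p.Prime := Fact.out
  haveI := hA.1
  letI cA : CommGroup ↥A :=
    { (inferInstance : Group ↥A) with mul_comm := fun a b => mul_comm' a b }
  haveI mA : Module (ZMod p) (Additive ↥A) := AddCommGroup.zmodModule (n := p) (fun a => by
    have h := hA.2 (Additive.toMul a : ↥A).1 (Additive.toMul a : ↥A).2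
    apply Additive.toMul.injective
    apply Subtype.ext
    simpa using h)
  let σ : Additive ↥A →ₗ[ZMod p] Additive ↥A := AddMonoidHom.toZModLinearMap p
    (MonoidHom.toAdditive (MulAut.conjNormal (y⁻¹) : MulAut ↥A).toMonoidHom)
  have hσv : ∀ m : Additive ↥A, ((Additive.toMul (σ m) : ↥A) : P) =
      y⁻¹ * ((Additive.toMul m : ↥A) : P) * y := by
    intro m
    show ((MulAut.conjNormal (y⁻¹) (Additive.toMul m) : ↥A) : P) = _
    rw [MulAut.conjNormal_apply, inv_inv]
  have hσpow : ∀ (i : ℕ) (m : Additive ↥A), ((Additive.toMul ((σ ^ i) m) : ↥A) : P) =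
      (y ^ i)⁻¹ * ((Additive.toMul m : ↥A) : P) * y ^ i := by
    intro i
    induction i with
    | zero => intro m; simp
    | succ i ih =>
      intro m
      rw [pow_succ', Module.End.mul_apply, hσv, ih]
      rw [pow_succ]; group
  have hyp : y ^ p ∈ A := by rw [← hidx]; exact A.pow_index_mem y
  have hσp : σ ^ p = 1 := by
    apply LinearMap.ext
    intro m
    apply Additive.toMul.injective
    apply Subtype.ext
    rw [hσpow, Module.End.one_apply]
    have hc := mul_comm' (Additive.toMul m : ↥A) ⟨y ^ p, hyp⟩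
    have hc' : ((Additive.toMul m : ↥A) : P) * y ^ p = y ^ p * ((Additive.toMul m : ↥A) : P) :=
      congrArg Subtype.val hc
    rw [mul_assoc, hc', ← mul_assoc, inv_mul_cancel, one_mul]
  have hval : ∀ n : ℕ, ((Additive.toMul (∑ i ∈ Finset.range n,
      (σ ^ i) (Additive.ofMul (⟨x, hx⟩ : ↥A))) : ↥A) : P) =
      ((List.range n).map (fun i => (y ^ i)⁻¹ * x * y ^ i)).prod := by
    intro n
    induction n with
    | zero => simp
    | succ n ih =>
      rw [Finset.sum_range_succ, toMul_add, Subgroup.coe_mul, ih, hσpow, List.range_succ,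
        List.map_append, List.prod_append]
      simp
  have hnM0 : (∑ i ∈ Finset.range p, (σ ^ i) (Additive.ofMul (⟨x, hx⟩ : ↥A))) ≠ 0 := by
    intro h
    apply hprod
    rw [← hval p, h]
    rfl
  obtain ⟨φ, hφ⟩ : ∃ φ : Module.Dual (ZMod p) (Additive ↥A),
      φ (∑ i ∈ Finset.range p, (σ ^ i) (Additive.ofMul (⟨x, hx⟩ : ↥A))) ≠ 0 := by
    by_contra hcon
    push_neg at hcon
    exact hnM0 ((Module.forall_dual_apply_eq_zero_iff (ZMod p) _).mp hcon)
  let ψ : ↥A →* Multiplicative (ZMod p) := AddMonoidHom.toMultiplicativeRight φ.toAddMonoidHom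
  have hψ : ∀ a : ↥A, ψ a = 1 ↔ φ (Additive.ofMul a) = 0 := by
    intro a
    show Multiplicative.ofAdd (φ (Additive.ofMul a)) = Multiplicative.ofAdd 0 ↔ _
    exact Multiplicative.ofAdd.injective.eq_iff
  have hψs : Function.Surjective ψ := by
    intro c
    refine ⟨Additive.toMul ((Multiplicative.toAdd c /
      φ (∑ i ∈ Finset.range p, (σ ^ i) (Additive.ofMul (⟨x, hx⟩ : ↥A)))) •
      (∑ i ∈ Finset.range p, (σ ^ i) (Additive.ofMul (⟨x, hx⟩ : ↥A)))), ?_⟩
    show Multiplicative.ofAdd (φ ((Multiplicative.toAdd c /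
      φ (∑ i ∈ Finset.range p, (σ ^ i) (Additive.ofMul (⟨x, hx⟩ : ↥A)))) •
      (∑ i ∈ Finset.range p, (σ ^ i) (Additive.ofMul (⟨x, hx⟩ : ↥A))))) = c
    rw [map_smul, smul_eq_mul, div_mul_cancel₀ _ hφ]
    rfl
  have hHidx : (ψ.ker.map A.subtype).index = p ^ 2 := by
    rw [Subgroup.index_map_subtype, Subgroup.index_ker, MonoidHom.range_eq_top.mpr hψs,
      Subgroup.card_top, hidx, pow_two]
    congr 1
    rw [Nat.card_congr Multiplicative.toAdd, Nat.card_zmod]
  have hHA : ψ.ker.map A.subtype ≤ A := Subgroup.map_subtype_le _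
  have hNH : ∀ g ∈ ψ.ker.map A.subtype, ∀ h : g ∈ A, φ (Additive.ofMul (⟨g, h⟩ : ↥A)) = 0 := by
    rintro g ⟨a, ha, rfl⟩ h
    exact (hψ a).mp (MonoidHom.mem_ker.mp ha)
  have hBH : (ψ.ker.map A.subtype).normalCore ≤ ψ.ker.map A.subtype := Subgroup.normalCore_le _
  have hBA : (ψ.ker.map A.subtype).normalCore ≤ A := hBH.trans hHA
  let S : AddSubgroup (Additive ↥A) :=
    { carrier := {m | ((Additive.toMul m : ↥A) : P) ∈ (ψ.ker.map A.subtype).normalCore}
      add_mem' := fun {a b} ha hb => by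
        show ((Additive.toMul (a + b) : ↥A) : P) ∈ (ψ.ker.map A.subtype).normalCore
        rw [toMul_add, Subgroup.coe_mul]
        exact Subgroup.mul_mem _ ha hb
      zero_mem' := by
        show ((Additive.toMul (0 : Additive ↥A) : ↥A) : P) ∈ (ψ.ker.map A.subtype).normalCore
        rw [toMul_zero, Subgroup.coe_one]
        exact Subgroup.one_mem _
      neg_mem' := fun {a} ha => by
        show ((Additive.toMul (-a) : ↥A) : P) ∈ (ψ.ker.map A.subtype).normalCore
        rw [toMul_neg, Subgroup.coe_inv]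
        exact Subgroup.inv_mem _ ha }
  have hBM : ∀ m : Additive ↥A, m ∈ AddSubgroup.toZModSubmodule p S ↔
      ((Additive.toMul m : ↥A) : P) ∈ (ψ.ker.map A.subtype).normalCore := fun m => Iff.rfl
  have hBσ : ∀ b ∈ AddSubgroup.toZModSubmodule p S, σ b ∈ AddSubgroup.toZModSubmodule p S := by
    intro b hb
    rw [hBM] at hb ⊢
    rw [hσv]
    have := (inferInstance : ((ψ.ker.map A.subtype).normalCore).Normal).conj_mem _ hb y⁻¹
    rwa [inv_inv] at this
  have hxB : ∑ i ∈ Finset.range p, (σ ^ i) (Additive.ofMul (⟨x, hx⟩ : ↥A)) ∉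
      AddSubgroup.toZModSubmodule p S := by
    intro h
    rw [hBM] at h
    exact hφ (hNH _ (hBH h) (Additive.toMul _ : ↥A).2)
  have hrank := chain_bound σ hσp (AddSubgroup.toZModSubmodule p S) hBσ _ hxB
  have hcM : Nat.card ↥A = p ^ Module.finrank (ZMod p) (Additive ↥A) := by
    rw [Nat.card_congr (Additive.ofMul : ↥A ≃ Additive ↥A),
      Module.natCard_eq_pow_finrank (K := ZMod p), Nat.card_zmod]
  have hcB : Nat.card ↥((ψ.ker.map A.subtype).normalCore) =
      p ^ Module.finrank (ZMod p) (AddSubgroup.toZModSubmodule p S) := by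
    have e : ↥((ψ.ker.map A.subtype).normalCore) ≃ ↥(AddSubgroup.toZModSubmodule p S) :=
      { toFun := fun b => ⟨Additive.ofMul ⟨b.1, hBA b.2⟩, b.2⟩
        invFun := fun m => ⟨((Additive.toMul m.1 : ↥A) : P), m.2⟩
        left_inv := fun b => rfl
        right_inv := fun m => rfl }
    rw [Nat.card_congr e, Module.natCard_eq_pow_finrank (K := ZMod p), Nat.card_zmod]
  have hBidx : p ^ (p + 1) ≤ ((ψ.ker.map A.subtype).normalCore).index := by
    have h1 := Subgroup.card_mul_index ((ψ.ker.map A.subtype).normalCore)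
    have h2 := Subgroup.card_mul_index A
    rw [hcB] at h1
    rw [hcM, hidx] at h2
    have h3 : p ^ Module.finrank (ZMod p) (AddSubgroup.toZModSubmodule p S) * p ^ (p + 1) ≤
        p ^ Module.finrank (ZMod p) (AddSubgroup.toZModSubmodule p S) *
          ((ψ.ker.map A.subtype).normalCore).index := by
      calc p ^ Module.finrank (ZMod p) (AddSubgroup.toZModSubmodule p S) * p ^ (p + 1)
          = p ^ (Module.finrank (ZMod p) (AddSubgroup.toZModSubmodule p S) + (p + 1)) :=
            (pow_add _ _ _).symm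
        _ ≤ p ^ (Module.finrank (ZMod p) (Additive ↥A) + 1) :=
            Nat.pow_le_pow_right hp.pos (by omega)
        _ = p ^ Module.finrank (ZMod p) (Additive ↥A) * p := pow_succ _ _
        _ = Nat.card P := h2
        _ = _ := h1.symm
    exact Nat.le_of_mul_le_mul_left h3 (pow_pos hp.pos _)
  have hcard : Nat.card (P ⧸ ψ.ker.map A.subtype) = p ^ 2 := by
    rw [← Subgroup.index_eq_card]; exact hHidx
  let e : (P ⧸ ψ.ker.map A.subtype) ≃ Fin (p ^ 2) := Finite.equivFinOfCardEq hcard
  let f₁ : P →* Equiv.Perm (Fin (p ^ 2)) :=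
    (Equiv.permCongrHom e).toMonoidHom.comp (MulAction.toPermHom P (P ⧸ ψ.ker.map A.subtype))
  have hker : f₁.ker = (ψ.ker.map A.subtype).normalCore := by
    ext g
    rw [Subgroup.normalCore_eq_ker, MonoidHom.mem_ker, MonoidHom.mem_ker]
    show (Equiv.permCongrHom e) (MulAction.toPermHom P (P ⧸ ψ.ker.map A.subtype) g) = 1 ↔ _
    exact MulEquiv.map_eq_one_iff _
  have hRcard : Nat.card f₁.range = ((ψ.ker.map A.subtype).normalCore).index := by
    rw [← Subgroup.index_ker, hker]
  have hRp : IsPGroup p f₁.range :=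
    IsPGroup.of_surjective hP f₁.rangeRestrict f₁.rangeRestrict_surjective
  obtain ⟨Q, hQ⟩ := hRp.exists_le_sylow
  have hQcard : Nat.card Q = p ^ (p + 1) := by
    rw [Sylow.card_eq_multiplicity, Nat.card_eq_fintype_card, Fintype.card_perm, Fintype.card_fin]
    congr 1
    rw [pow_two, Nat.factorization_factorial_mul hp]
    have := Nat.factorization_factorial_mul hp (n := 1)
    rw [mul_one] at this
    rw [this]; simp; omega
  have hRQ : f₁.range = (Q : Subgroup _) :=
    Subgroup.eq_of_le_of_card_ge hQ (by rw [hQcard, hRcard]; exact hBidx)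
  refine ⟨Q, f₁.codRestrict (Q : Subgroup _) (fun g => hQ ⟨g, rfl⟩), ?_⟩
  intro q
  have hq : (q : Equiv.Perm (Fin (p ^ 2))) ∈ f₁.range := by rw [hRQ]; exact q.2
  obtain ⟨g, hg⟩ := hq
  exact ⟨g, Subtype.ext hg⟩

end Cfsg.Agent.S1952
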