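import Cfsg.Statements.S1954
import Cfsg.Agent.Lib.helper10.LocalGlobal2

set_option autoImplicit false
open Cfsg

namespace Cfsg.Agent.S1954

open Cfsg.Agent.Lib.helper10
open scoped commutatorElement

/-- A conjugation reached through a family is realized by an element of `K`, as soon as the
normalizers of the large members of the family are controlled by `K`. -/
theorem reach_control {G : Type*} [Group G] [Finite G] {𝓕 : Set (Subgroup G)} {K : Subgroup G} (m : ℕ)
    (hK : ∀ T ∈ 𝓕, m < Nat.card T → ∀ x ∈ Subgroup.normalizer (T : Set G),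
      ∃ k ∈ K, ∀ a ∈ T, x⁻¹ * a * x = k⁻¹ * a * k)
    {A : Set G} {g : G} (h : Reach 𝓕 A g) :
    (∃ B : Subgroup G, m < Nat.card B ∧ (B : Set G) ⊆ A) →
      ∃ k ∈ K, ∀ a ∈ A, g⁻¹ * a * g = k⁻¹ * a * k := by
  induction h with
  | nil A => intro _; exact ⟨1, K.one_mem, fun a _ => by simp⟩
  | cons A T x g hT hx hA _ ih =>
    rintro ⟨B, hB, hBA⟩
    have hBT : B ≤ T := fun b hb => hA (hBA hb)
    have hcard : m < Nat.card T := lt_of_lt_of_le hB (Subgroup.card_le_of_le hBT)
    obtain ⟨k1, hk1, hk1a⟩ := hK T hT hcard x hx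
    obtain ⟨k2, hk2, hk2a⟩ := ih ⟨B.map (MulAut.conj x⁻¹).toMonoidHom, by
      rw [Subgroup.card_map_of_injective (conj_injective _)]; exact hB, by
      rintro _ ⟨b, hb, rfl⟩
      exact ⟨b, hBA hb, by simp⟩⟩
    refine ⟨k1 * k2, K.mul_mem hk1 hk2, fun a ha => ?_⟩
    have h1 := hk1a a (hA ha)
    have h2 := hk2a (x⁻¹ * a * x) ⟨a, ha, rfl⟩
    calc (x * g)⁻¹ * a * (x * g) = g⁻¹ * (x⁻¹ * a * x) * g := by group
      _ = k2⁻¹ * (x⁻¹ * a * x) * k2 := h2
      _ = k2⁻¹ * (k1⁻¹ * a * k1) * k2 := by rw [h1]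
      _ = (k1 * k2)⁻¹ * a * (k1 * k2) := by group

/-- Coprime action: if `s` of order prime to `p` moves `a` by a `p`-element `z` fixed by `s`,
then `z = 1`. -/
theorem stab_key {G : Type*} [Group G] [Finite G] {p : ℕ} [Fact p.Prime] {U : Subgroup G}
    (hU : IsPGroup p U) {s : G}
    (hs : (orderOf s).Coprime p) {a z : G} (hz : z ∈ U) (h1 : s * a * s⁻¹ = z * a)
    (h2 : s * z * s⁻¹ = z) : z = 1 := by
  have hk : ∀ k : ℕ, s ^ k * a * (s ^ k)⁻¹ = z ^ k * a := by
    intro k
    induction k with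
    | zero => simp
    | succ k ih =>
      have hzk : s * z ^ k * s⁻¹ = z ^ k := by
        rw [← conj_pow, h2]
      calc s ^ (k + 1) * a * (s ^ (k + 1))⁻¹ = s * (s ^ k * a * (s ^ k)⁻¹) * s⁻¹ := by
            rw [pow_succ']; group
        _ = s * (z ^ k * a) * s⁻¹ := by rw [ih]
        _ = (s * z ^ k * s⁻¹) * (s * a * s⁻¹) := by group
        _ = z ^ k * (z * a) := by rw [hzk, h1]
        _ = z ^ (k + 1) * a := by rw [pow_succ]; group
  have h3 := hk (orderOf s)
  rw [pow_orderOf_eq_one] at h3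
  have h4 : z ^ orderOf s = 1 := by
    have h5 : 1 * a = z ^ orderOf s * a := by
      rw [← h3]; group
    exact (mul_right_cancel h5).symm
  obtain ⟨j, hj⟩ := hU ⟨z, hz⟩
  have hj' : z ^ p ^ j = 1 := by
    have := congrArg Subtype.val hj
    simpa using this
  have hd1 : orderOf z ∣ orderOf s := orderOf_dvd_of_pow_eq_one h4
  have hd2 : orderOf z ∣ p ^ j := orderOf_dvd_of_pow_eq_one hj'
  have hcop : (orderOf s).Coprime (p ^ j) := hs.pow_right j
  have h6 : orderOf z ∣ 1 := by
    have := Nat.dvd_gcd hd1 hd2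
    rwa [hcop.gcd_eq_one] at this
  exact orderOf_eq_one_iff.1 (Nat.dvd_one.1 h6)

/-- The intersection of a Sylow subgroup of `N` with a subgroup `S` normalized by `N` is a Sylow
subgroup of `S`. -/
theorem relIndex_inf_of_normalized {G : Type*} [Group G] [Finite G] {p : ℕ} [Fact p.Prime]
    {N S T : Subgroup G}
    (hSN : S ≤ N) (hnorm : ∀ n ∈ N, ∀ s ∈ S, n * s * n⁻¹ ∈ S) (hT : IsPGroup p T)
    (hidx : ¬ p ∣ T.relIndex N) : ¬ p ∣ (T ⊓ S).relIndex S := by
  obtain ⟨Y, hle, hYS, hYp, hYidx⟩ :=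
    exists_sylow_relIndex (H := S) (R := T ⊓ S) inf_le_right (hT.to_le inf_le_left)
  obtain ⟨n, hn, hnY⟩ := exists_conj_le_of_relIndex hT hidx (hYS.trans hSN) hYp
  have h1 : Y.map (MulAut.conj n).toMonoidHom ≤ T ⊓ S := by
    rw [map_conj_le_iff]
    intro r hr
    exact ⟨hnY r hr, hnorm n hn r (hYS hr)⟩
  have hcard : Nat.card Y ≤ Nat.card (T ⊓ S : Subgroup G) := by
    rw [← Subgroup.card_map_of_injective (K := Y) (conj_injective n)]
    exact Subgroup.card_le_of_le h1
  have heq : T ⊓ S = Y := Subgroup.eq_of_le_of_card_ge hle hcard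
  rw [heq]; exact hYidx

/-- If every element of `S` of order prime to `p` lies in the subgroup `C` normalized by `S`, then
`S = T C` for every Sylow `p`-subgroup `T` of `S`. -/
theorem exists_mul_of_pquot {G : Type*} [Group G] [Finite G] {p : ℕ} [Fact p.Prime]
    {S C T : Subgroup G} (hCn : ∀ s ∈ S, ∀ c ∈ C, s * c * s⁻¹ ∈ C) (hTS : T ≤ S)
    (hTidx : ¬ p ∣ T.relIndex S)
    (hpow : ∀ s ∈ S, (orderOf s).Coprime p → s ∈ C) :
    ∀ s ∈ S, ∃ t ∈ T, ∃ c ∈ C, s = t * c := by
  have hp : p.Prime := Fact.out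
  have hCnorm : (C.subgroupOf S).Normal := by
    constructor
    intro c hc s
    rw [Subgroup.mem_subgroupOf] at hc ⊢
    exact hCn s s.2 c hc
  have hPG : IsPGroup p (↥S ⧸ C.subgroupOf S) := by
    intro q
    induction q using QuotientGroup.induction_on with
    | H s =>
      have hn : orderOf (s : G) ≠ 0 := (orderOf_pos (s : G)).ne'
      obtain ⟨e, m, hm, hem⟩ := Nat.exists_eq_pow_mul_and_not_dvd hn p hp.ne_one
      refine ⟨e, ?_⟩
      rw [← QuotientGroup.mk_pow, QuotientGroup.eq_one_iff, Subgroup.mem_subgroupOf]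
      have h1 : ((s : G) ^ p ^ e) ^ m = 1 := by
        rw [← pow_mul, ← hem, pow_orderOf_eq_one]
      have h2 : orderOf ((s : G) ^ p ^ e) ∣ m := orderOf_dvd_of_pow_eq_one h1
      have h3 : (orderOf ((s : G) ^ p ^ e)).Coprime p :=
        Nat.Coprime.coprime_dvd_left h2 ((Nat.Prime.coprime_iff_not_dvd hp).2 hm).symm
      have h4 := hpow _ (S.pow_mem s.2 (p ^ e)) h3
      simpa using h4
  obtain ⟨n, hn⟩ := IsPGroup.iff_card.1 hPG
  have hCidx : C.relIndex S = p ^ n := by
    rw [← hn]; exact Subgroup.index_eq_card _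
  have hM : (T ⊔ C).relIndex S = 1 := by
    have h1 : (T ⊔ C).relIndex S ∣ p ^ n := by
      rw [← hCidx]; exact Subgroup.relIndex_dvd_of_le_left S le_sup_right
    have h2 : (T ⊔ C).relIndex S ∣ T.relIndex S := Subgroup.relIndex_dvd_of_le_left S le_sup_left
    obtain ⟨j, -, hj⟩ := (Nat.dvd_prime_pow hp).1 h1
    rcases Nat.eq_zero_or_pos j with h0 | hpos
    · rw [hj, h0, pow_zero]
    · exfalso; apply hTidx
      rw [hj] at h2
      exact (dvd_pow_self p hpos.ne').trans h2
  have hle : S ≤ T ⊔ C := Subgroup.relIndex_eq_one.1 hM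
  intro s hs
  exact exists_mul_of_mem_sup_of_normalizes
    (fun a ha b hb => by
      have := hCn a⁻¹ (S.inv_mem (hTS ha)) b hb
      simpa using this) (hle hs)

/-- Elements of order prime to `p` stabilizing a series of the `p`-group `U` centralize `U`. -/
theorem stab_coprime {G : Type*} [Group G] [Finite G] {p : ℕ} [Fact p.Prime] {U : Subgroup G}
    (hU : IsPGroup p U) {s : G} (hs : (orderOf s).Coprime p) (Γ : ℕ → Subgroup G) (c : ℕ)
    (hc : Γ c = ⊥) (h0 : ∀ a ∈ U, s * a * s⁻¹ * a⁻¹ ∈ U ⊓ Γ 0)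
    (hi : ∀ i, ∀ a ∈ U ⊓ Γ i, s * a * s⁻¹ * a⁻¹ ∈ U ⊓ Γ (i + 1)) :
    ∀ a ∈ U, s * a * s⁻¹ = a := by
  have key : ∀ d i : ℕ, i + d = c → ∀ a ∈ U ⊓ Γ i, s * a * s⁻¹ = a := by
    intro d
    induction d with
    | zero =>
      intro i hic a ha
      have hi' : i = c := by omega
      rw [hi', hc] at ha
      have : a = 1 := ha.2
      rw [this]; group
    | succ d ih =>
      intro i hic a ha
      have hz := hi i a ha
      have hzfix := ih (i + 1) (by omega) _ hz
      have hz1 := stab_key hU hs hz.1 (a := a) (by group) hzfix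
      calc s * a * s⁻¹ = (s * a * s⁻¹ * a⁻¹) * a := by group
        _ = a := by rw [hz1, one_mul]
  intro a ha
  have hz := h0 a ha
  have hzfix := key c 0 (by omega) _ hz
  have hz1 := stab_key hU hs hz.1 (a := a) (by group) hzfix
  calc s * a * s⁻¹ = (s * a * s⁻¹ * a⁻¹) * a := by group
    _ = a := by rw [hz1, one_mul]

/-- Let N be a normal subgroup of the finite group G, P a Sylow p-subgroup of G, and V a subgroup of P ∩ N normal in P ∩ N such that N_N(V) controls strong fusion in P ∩ N with respect to N (whenever a subgroup A of P ∩ N has n A n⁻¹ ≤ P ∩ N for some n in N, then n = h c with h in N_N(V) and c in C_N(A)). Let W be the subgroup generated by the conjugates of V under N_G(P ∩ N). Then N_G(W) controls strong fusion in P with respect to G. -/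
theorem result {G : Type*} [Group G] [Finite G] {p : ℕ} [Fact p.Prime] (N : Subgroup G) [N.Normal] (P : Sylow p G) (V : Subgroup G)
    (hV : V ≤ (P : Subgroup G) ⊓ N) (hVn : ∀ x ∈ (P : Subgroup G) ⊓ N, V.map (MulAut.conj x).toMonoidHom = V)
    (hctrl : ∀ A : Subgroup G, A ≤ (P : Subgroup G) ⊓ N → ∀ n ∈ N, A.map (MulAut.conj n).toMonoidHom ≤ (P : Subgroup G) ⊓ N →
      ∃ h ∈ N ⊓ Subgroup.normalizer (V : Set G), ∃ c ∈ N ⊓ Subgroup.centralizer (A : Set G), n = h * c)
    (W : Subgroup G) (hW : W = Subgroup.closure (⋃ x ∈ Subgroup.normalizer (((P : Subgroup G) ⊓ N : Subgroup G) : Set G),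
      ((V.map (MulAut.conj x).toMonoidHom : Subgroup G) : Set G))) :
    ∀ A : Subgroup G, A ≤ (P : Subgroup G) → ∀ g : G, A.map (MulAut.conj g).toMonoidHom ≤ (P : Subgroup G) →
        ∃ h ∈ Subgroup.normalizer (W : Set G), ∃ c ∈ Subgroup.centralizer (A : Set G), g = h * c := by
  classical
  have hp : p.Prime := Fact.out
  obtain ⟨R, hR⟩ : ∃ R : Subgroup G, R = (P : Subgroup G) ⊓ N := ⟨_, rfl⟩
  rw [← hR] at hV hVn hctrl hW
  have hRP : R ≤ (P : Subgroup G) := by rw [hR]; exact inf_le_left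
  have hRN : R ≤ N := by rw [hR]; exact inf_le_right
  have hNn : N.Normal := inferInstance
  have hNmap : ∀ x : G, N.map (MulAut.conj x).toMonoidHom = N := by
    intro x
    apply le_antisymm
    · rw [map_conj_le_iff]
      intro n hn
      exact hNn.conj_mem n hn x
    · intro n hn
      rw [mem_map_conj]
      have := hNn.conj_mem n hn x⁻¹
      simpa using this
  have hRmap : ∀ x ∈ Subgroup.normalizer (R : Set G), R.map (MulAut.conj x).toMonoidHom = R :=
    fun x hx => map_conj_eq_of_mem_normalizer R x hx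
  have hVxR : ∀ x ∈ Subgroup.normalizer (R : Set G), V.map (MulAut.conj x).toMonoidHom ≤ R := by
    intro x hx
    rw [← hRmap x hx]; exact Subgroup.map_mono hV
  have hVxW : ∀ x ∈ Subgroup.normalizer (R : Set G), V.map (MulAut.conj x).toMonoidHom ≤ W := by
    intro x hx a ha
    rw [hW]
    apply Subgroup.subset_closure
    exact Set.mem_biUnion hx ha
  have hWR : W ≤ R := by
    rw [hW, Subgroup.closure_le]
    intro a ha
    obtain ⟨x, hx, hax⟩ := Set.mem_iUnion₂.1 ha
    exact hVxR x hx hax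
  have hWnorm : ∀ h : G, (∀ x ∈ Subgroup.normalizer (R : Set G),
      (V.map (MulAut.conj x).toMonoidHom).map (MulAut.conj h).toMonoidHom ≤ W) →
      W.map (MulAut.conj h).toMonoidHom = W := by
    intro h hh
    have hle : W.map (MulAut.conj h).toMonoidHom ≤ W := by
      rw [Subgroup.map_le_iff_le_comap]
      conv_lhs => rw [hW]
      rw [Subgroup.closure_le]
      intro b hb
      obtain ⟨x, hx, hbx⟩ := Set.mem_iUnion₂.1 hb
      show (MulAut.conj h).toMonoidHom b ∈ W
      exact hh x hx ⟨b, hbx, rfl⟩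
    exact Subgroup.eq_of_le_of_card_ge hle
      (by rw [Subgroup.card_map_of_injective (conj_injective _)])
  have hWy : ∀ y ∈ Subgroup.normalizer (R : Set G), W.map (MulAut.conj y).toMonoidHom = W := by
    intro y hy
    apply hWnorm
    intro x hx
    rw [map_conj_mul]
    exact hVxW (y * x) (Subgroup.mul_mem _ hy hx)
  have hPNR : (P : Subgroup G) ≤ Subgroup.normalizer (R : Set G) := by
    intro s hs
    apply mem_normalizer_of_map_conj_eq
    rw [hR, map_conj_inf, map_conj_eq_self_of_mem _ s hs, hNmap]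
  have hWP : W ≤ (P : Subgroup G) := hWR.trans hRP
  -- conjugated control hypothesis
  have hA0 : ∀ x ∈ Subgroup.normalizer (R : Set G), ∀ A : Subgroup G, A ≤ R → ∀ n ∈ N,
      A.map (MulAut.conj n).toMonoidHom ≤ R →
      ∃ h ∈ N, (V.map (MulAut.conj x).toMonoidHom).map (MulAut.conj h).toMonoidHom =
          V.map (MulAut.conj x).toMonoidHom ∧
        ∃ c ∈ N ⊓ Subgroup.centralizer (A : Set G), n = h * c := by
    intro x hx A hA n hn hAn
    have hx' : x⁻¹ ∈ Subgroup.normalizer (R : Set G) := Subgroup.inv_mem _ hx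
    have hA' : A.map (MulAut.conj x⁻¹).toMonoidHom ≤ R := by
      rw [← hRmap x⁻¹ hx']; exact Subgroup.map_mono hA
    have hn' : x⁻¹ * n * x ∈ N := by
      have := hNn.conj_mem n hn x⁻¹
      simpa using this
    have hAn' : (A.map (MulAut.conj x⁻¹).toMonoidHom).map
        (MulAut.conj (x⁻¹ * n * x)).toMonoidHom ≤ R := by
      rw [map_conj_mul]
      have e : x⁻¹ * n * x * x⁻¹ = x⁻¹ * n := by group
      rw [e, ← map_conj_mul, ← hRmap x⁻¹ hx']
      exact Subgroup.map_mono hAn
    obtain ⟨h', hh', c', hc', hnhc⟩ := hctrl _ hA' _ hn' hAn'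
    refine ⟨x * h' * x⁻¹, hNn.conj_mem h' hh'.1 x, ?_, x * c' * x⁻¹,
      ⟨hNn.conj_mem c' hc'.1 x, ?_⟩, ?_⟩
    · rw [map_conj_mul]
      have e : x * h' * x⁻¹ * x = x * h' := by group
      rw [e, ← map_conj_mul, map_conj_eq_of_mem_normalizer V h' hh'.2]
    · have h1 : c' ∈ Subgroup.centralizer
          ((A.map (MulAut.conj x⁻¹).toMonoidHom : Subgroup G) : Set G) := hc'.2
      rw [centralizer_map_conj', mem_map_conj] at h1
      simpa using h1
    · calc n = x * (x⁻¹ * n * x) * x⁻¹ := by group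
        _ = x * (h' * c') * x⁻¹ := by rw [hnhc]
        _ = x * h' * x⁻¹ * (x * c' * x⁻¹) := by group
  -- Claim A along a list of elements of N(R)
  have hAl : ∀ l : List G, (∀ x ∈ l, x ∈ Subgroup.normalizer (R : Set G)) →
      ∀ A : Subgroup G, A ≤ R → ∀ n ∈ N, A.map (MulAut.conj n).toMonoidHom ≤ R →
      ∃ h ∈ N, (∀ x ∈ l, (V.map (MulAut.conj x).toMonoidHom).map (MulAut.conj h).toMonoidHom =
          V.map (MulAut.conj x).toMonoidHom) ∧
        ∃ c ∈ N ⊓ Subgroup.centralizer (A : Set G), n = h * c := by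
    intro l
    induction l with
    | nil =>
      intro _ A hA n hn hAn
      exact ⟨n, hn, fun x hx => absurd hx (List.not_mem_nil), 1, Subgroup.one_mem _, by simp⟩
    | cons x l ih =>
      intro hl A hA n hn hAn
      have hx : x ∈ Subgroup.normalizer (R : Set G) := hl x (List.mem_cons_self)
      have hl' : ∀ x' ∈ l, x' ∈ Subgroup.normalizer (R : Set G) :=
        fun x' hx' => hl x' (List.mem_cons_of_mem _ hx')
      obtain ⟨h0, hh0, hU0, c0, hc0, hn0⟩ := hA0 x hx A hA n hn hAn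
      obtain ⟨U0, hU0def⟩ : ∃ U0 : Subgroup G, U0 = V.map (MulAut.conj x).toMonoidHom := ⟨_, rfl⟩
      rw [← hU0def] at hU0
      have hU0R : U0 ≤ R := by rw [hU0def]; exact hVxR x hx
      have hc0A : ∀ a ∈ A, a * c0 = c0 * a := fun a ha => (Subgroup.mem_centralizer_iff.1 hc0.2) a ha
      have hAh0 : A.map (MulAut.conj h0).toMonoidHom ≤ R := by
        rw [map_conj_le_iff]
        intro a ha
        have h1 := (map_conj_le_iff _ _ _).1 hAn a ha
        have e : h0 * a * h0⁻¹ = n * a * n⁻¹ := by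
          rw [hn0]
          calc h0 * a * h0⁻¹ = h0 * (a * c0) * c0⁻¹ * h0⁻¹ := by group
            _ = h0 * (c0 * a) * c0⁻¹ * h0⁻¹ := by rw [hc0A a ha]
            _ = h0 * c0 * a * (h0 * c0)⁻¹ := by group
        rw [e]; exact h1
      have hA1 : A ⊔ U0 ≤ R := sup_le hA hU0R
      have hA1h : (A ⊔ U0).map (MulAut.conj h0).toMonoidHom ≤ R := by
        rw [Subgroup.map_sup, hU0]
        exact sup_le hAh0 hU0R
      obtain ⟨h, hh, hhl, c, hc, hh0c⟩ := ih hl' (A ⊔ U0) hA1 h0 hh0 hA1h
      have hcU0 : ∀ u ∈ U0, u * c = c * u := fun u hu =>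
        (Subgroup.mem_centralizer_iff.1 hc.2) u ((le_sup_right : U0 ≤ A ⊔ U0) hu)
      have hcA : ∀ a ∈ A, a * c = c * a := fun a ha =>
        (Subgroup.mem_centralizer_iff.1 hc.2) a ((le_sup_left : A ≤ A ⊔ U0) ha)
      have hcc0 : c * c0 ∈ Subgroup.centralizer (A : Set G) := by
        rw [Subgroup.mem_centralizer_iff]
        intro a ha
        calc a * (c * c0) = (a * c) * c0 := by group
          _ = c * (a * c0) := by rw [hcA a ha]; group
          _ = c * c0 * a := by rw [hc0A a ha]; group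
      refine ⟨h, hh, ?_, c * c0, ⟨Subgroup.mul_mem _ hc.1 hc0.1, hcc0⟩, ?_⟩
      · intro x' hx'
        rcases List.mem_cons.1 hx' with rfl | hx''
        · rw [← hU0def]
          have hle : U0.map (MulAut.conj h).toMonoidHom ≤ U0 := by
            rw [map_conj_le_iff]
            intro u hu
            have h1 : h0 * u * h0⁻¹ ∈ U0 := by
              have := conj_mem_map_conj U0 h0 u hu
              rw [hU0] at this; exact this
            have e : h * u * h⁻¹ = h0 * u * h0⁻¹ := by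
              rw [hh0c]
              calc h * u * h⁻¹ = h * (u * c) * c⁻¹ * h⁻¹ := by group
                _ = h * (c * u) * c⁻¹ * h⁻¹ := by rw [hcU0 u hu]
                _ = h * c * u * (h * c)⁻¹ := by group
            rw [e]; exact h1
          exact Subgroup.eq_of_le_of_card_ge hle
            (by rw [Subgroup.card_map_of_injective (conj_injective _)])
        · exact hhl x' hx''
      · rw [hn0, hh0c]; group
  -- Claim A
  have hA : ∀ A : Subgroup G, A ≤ R → ∀ n ∈ N, A.map (MulAut.conj n).toMonoidHom ≤ R →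
      ∃ h ∈ N, W.map (MulAut.conj h).toMonoidHom = W ∧
        ∃ c ∈ N ⊓ Subgroup.centralizer (A : Set G), n = h * c := by
    intro A hAR n hn hAn
    have := Fintype.ofFinite G
    obtain ⟨h, hh, hhl, c, hc, hnc⟩ := hAl
      (Finset.univ.filter (fun x => x ∈ Subgroup.normalizer (R : Set G))).toList
      (fun x hx => by simpa using hx) A hAR n hn hAn
    refine ⟨h, hh, ?_, c, hc, hnc⟩
    apply hWnorm
    intro x hx
    rw [hhl x (by simpa using hx)]
    exact hVxW x hx
  -- the lower central series of W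
  have hWp : IsPGroup p W := P.2.to_le hWP
  have hWnil : Group.IsNilpotent W := hWp.isNilpotent
  obtain ⟨cl, hcl⟩ := (Subgroup.isNilpotent_iff_lowerCentralSeries W).1 hWnil
  have hΓW : ∀ i, W.lowerCentralSeries i ≤ W := fun i =>
    W.lowerCentralSeries_antitone (Nat.zero_le i)
  have hΓmap : ∀ h : G, W.map (MulAut.conj h).toMonoidHom = W → ∀ i,
      (W.lowerCentralSeries i).map (MulAut.conj h).toMonoidHom = W.lowerCentralSeries i := by
    intro h hh i
    rw [Subgroup.map_lowerCentralSeries, hh]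
  -- strong closure of the terms of the series
  have hΓ : ∀ U : Subgroup G, U ≤ (P : Subgroup G) → ∀ z ∈ Subgroup.normalizer (U : Set G),
      ∀ i, ∀ a ∈ U, a ∈ W.lowerCentralSeries i → z * a * z⁻¹ ∈ W.lowerCentralSeries i := by
    intro U hUP z hz i a haU haΓ
    have hzU : z * a * z⁻¹ ∈ U := (Subgroup.mem_normalizer_iff.1 hz a).1 haU
    have haW : a ∈ W := hΓW i haΓ
    have haR : a ∈ R := hWR haW
    have hzR : z * a * z⁻¹ ∈ R := by
      rw [hR]; exact ⟨hUP hzU, hNn.conj_mem a (hRN haR) z⟩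
    obtain ⟨y, -, n, hn, hzyn, hy⟩ := frattini_inf (N := (⊤ : Subgroup G)) (C := N)
      (Q := (P : Subgroup G)) le_top (fun n _ c hc => hNn.conj_mem c hc n) P.2
      (by rw [Subgroup.relIndex_top_right]; exact P.not_dvd_index) z (Subgroup.mem_top z)
    rw [← hR] at hy
    have hnR : n * a * n⁻¹ ∈ R := by
      apply (Subgroup.mem_normalizer_iff.1 hy (n * a * n⁻¹)).2
      have e : y * (n * a * n⁻¹) * y⁻¹ = z * a * z⁻¹ := by rw [hzyn]; group
      rw [e]; exact hzR
    obtain ⟨h, hh, hhW, c, hc, hnc⟩ := hA (Subgroup.zpowers a) (by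
      rw [Subgroup.zpowers_le]; exact haR) n hn (by
      rw [MonoidHom.map_zpowers, Subgroup.zpowers_le]
      show (MulAut.conj n) a ∈ R
      rw [MulAut.conj_apply]; exact hnR)
    have hca : a * c = c * a :=
      (Subgroup.mem_centralizer_iff.1 hc.2) a (Subgroup.mem_zpowers a)
    have e1 : n * a * n⁻¹ = h * a * h⁻¹ := by
      rw [hnc]
      calc h * c * a * (h * c)⁻¹ = h * (c * a) * c⁻¹ * h⁻¹ := by group
        _ = h * (a * c) * c⁻¹ * h⁻¹ := by rw [hca]
        _ = h * a * h⁻¹ := by group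
    have h2 : h * a * h⁻¹ ∈ W.lowerCentralSeries i := by
      have := conj_mem_map_conj _ h a haΓ
      rw [hΓmap h hhW i] at this; exact this
    have h3 : y * (h * a * h⁻¹) * y⁻¹ ∈ W.lowerCentralSeries i := by
      have := conj_mem_map_conj _ y _ h2
      rw [hΓmap y (hWy y hy) i] at this; exact this
    have e : z * a * z⁻¹ = y * (h * a * h⁻¹) * y⁻¹ := by
      rw [← e1, hzyn]; group
    rw [e]; exact h3
  -- the family of fully normalized subgroups
  obtain ⟨𝓕, h𝓕def⟩ : ∃ 𝓕 : Set (Subgroup G), 𝓕 = {U | U ≤ (P : Subgroup G) ∧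
      ¬ p ∣ ((P : Subgroup G) ⊓ Subgroup.normalizer (U : Set G)).relIndex
        (Subgroup.normalizer (U : Set G))} := ⟨_, rfl⟩
  have h𝓕 : ∀ U ∈ 𝓕, U ≤ (P : Subgroup G) := by
    intro U hU; rw [h𝓕def] at hU; exact hU.1
  have h𝓕' : ∀ T : Subgroup G, T ≤ (P : Subgroup G) → ∃ U ∈ 𝓕,
      (∃ g : G, T.map (MulAut.conj g).toMonoidHom = U) ∧
      ¬ p ∣ ((P : Subgroup G) ⊓ Subgroup.normalizer ((U : Subgroup G) : Set G)).relIndex
        (Subgroup.normalizer ((U : Subgroup G) : Set G)) := by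
    intro T hT
    obtain ⟨U, u, hu, hUP, hUidx, -⟩ := exists_extremal_conj' P T hT
    exact ⟨U, by rw [h𝓕def]; exact ⟨hUP, hUidx⟩, ⟨u, hu⟩, hUidx⟩
  obtain ⟨K, hK⟩ : ∃ K : Subgroup G, K = Subgroup.normalizer (W : Set G) := ⟨_, rfl⟩
  have hKmem : ∀ k : G, W.map (MulAut.conj k).toMonoidHom = W → k ∈ K := by
    intro k hk; rw [hK]; exact mem_normalizer_of_map_conj_eq W k hk
  have hCnorm : ∀ U : Subgroup G, ∀ n ∈ Subgroup.normalizer (U : Set G),
      ∀ c ∈ Subgroup.centralizer (U : Set G), n * c * n⁻¹ ∈ Subgroup.centralizer (U : Set G) := by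
    intro U n hn c hc
    rw [Subgroup.mem_centralizer_iff] at hc ⊢
    intro h hh
    have h3 : n⁻¹ * h * n ∈ U := by
      have := (Subgroup.mem_normalizer_iff.1 (Subgroup.inv_mem _ hn) h).1 hh
      simpa using this
    have h4 := hc _ h3
    calc h * (n * c * n⁻¹) = n * (n⁻¹ * h * n * c) * n⁻¹ := by group
      _ = n * (c * (n⁻¹ * h * n)) * n⁻¹ := by rw [h4]
      _ = n * c * n⁻¹ * h := by group
  -- main induction
  have NS : ∀ d : ℕ, ∀ U : Subgroup G, U ∈ 𝓕 → Nat.card (P : Subgroup G) - Nat.card U = d →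
      ∀ z ∈ Subgroup.normalizer (U : Set G), ∃ k ∈ K, ∀ a ∈ U, z * a * z⁻¹ = k * a * k⁻¹ := by
    intro d
    induction d using Nat.strong_induction_on with
    | _ d ih =>
    intro U hU𝓕 hd z hz
    have hUP : U ≤ (P : Subgroup G) := h𝓕 U hU𝓕
    have hUidx : ¬ p ∣ (nS (P : Subgroup G) U).relIndex (Subgroup.normalizer (U : Set G)) := by
      rw [h𝓕def] at hU𝓕; exact hU𝓕.2
    have hUp : IsPGroup p U := P.2.to_le hUP
    by_cases hWU : W ≤ U
    · refine ⟨z, hKmem z ?_, fun a _ => rfl⟩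
      have hle : W.map (MulAut.conj z).toMonoidHom ≤ W := by
        rw [map_conj_le_iff]
        intro a ha
        exact hΓ U hUP z hz 0 a (hWU ha) ha
      exact Subgroup.eq_of_le_of_card_ge hle
        (by rw [Subgroup.card_map_of_injective (conj_injective _)])
    · obtain ⟨T, hT⟩ : ∃ T : Subgroup G, T = nS (P : Subgroup G) U := ⟨_, rfl⟩
      rw [← hT] at hUidx
      have hTp : IsPGroup p T := by rw [hT]; exact P.2.to_le inf_le_left
      have hTP : T ≤ (P : Subgroup G) := by rw [hT]; exact inf_le_left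
      have hTN : T ≤ Subgroup.normalizer (U : Set G) := by rw [hT]; exact inf_le_right
      have hconjU : ∀ x ∈ Subgroup.normalizer (U : Set G), ∀ a ∈ U, x * a * x⁻¹ ∈ U :=
        fun x hx a ha => (Subgroup.mem_normalizer_iff.1 hx a).1 ha
      have hconjU' : ∀ x ∈ Subgroup.normalizer (U : Set G), ∀ a ∈ U, x⁻¹ * a * x ∈ U := by
        intro x hx a ha
        have := hconjU x⁻¹ (Subgroup.inv_mem _ hx) a ha
        simpa using this
      have hΓ' : ∀ x ∈ Subgroup.normalizer (U : Set G), ∀ i, ∀ a ∈ U,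
          a ∈ W.lowerCentralSeries i → x⁻¹ * a * x ∈ W.lowerCentralSeries i := by
        intro x hx i a ha haΓ
        have := hΓ U hUP x⁻¹ (Subgroup.inv_mem _ hx) i a ha haΓ
        simpa using this
      have hcommU : ∀ x ∈ Subgroup.normalizer (U : Set G), ∀ a ∈ U, x * a * x⁻¹ * a⁻¹ ∈ U :=
        fun x hx a ha => U.mul_mem (hconjU x hx a ha) (U.inv_mem ha)
      let S : Subgroup G :=
        { carrier := {x | x ∈ Subgroup.normalizer (U : Set G) ∧
            (∀ a ∈ U, x * a * x⁻¹ * a⁻¹ ∈ W) ∧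
            ∀ i, ∀ a ∈ U, a ∈ W.lowerCentralSeries i →
              x * a * x⁻¹ * a⁻¹ ∈ W.lowerCentralSeries (i + 1)}
          one_mem' := ⟨Subgroup.one_mem _, fun a _ => by simp, fun i a _ _ => by simp⟩
          mul_mem' := by
            rintro x x' ⟨hxN, hx0, hxi⟩ ⟨hx'N, hx'0, hx'i⟩
            have e : ∀ a : G, x * x' * a * (x * x')⁻¹ * a⁻¹ =
                x * (x' * a * x'⁻¹ * a⁻¹) * x⁻¹ * (x * a * x⁻¹ * a⁻¹) := by intro a; group
            refine ⟨Subgroup.mul_mem _ hxN hx'N, ?_, ?_⟩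
            · intro a ha
              rw [e]
              have h2 := hΓ U hUP x hxN 0 _ (hcommU x' hx'N a ha) (hx'0 a ha)
              exact W.mul_mem h2 (hx0 a ha)
            · intro i a ha haΓ
              rw [e]
              have h2 := hΓ U hUP x hxN (i + 1) _ (hcommU x' hx'N a ha) (hx'i i a ha haΓ)
              exact Subgroup.mul_mem _ h2 (hxi i a ha haΓ)
          inv_mem' := by
            rintro x ⟨hxN, hx0, hxi⟩
            have e : ∀ a : G, x⁻¹ * a * x⁻¹⁻¹ * a⁻¹ =
                (x * (x⁻¹ * a * x) * x⁻¹ * (x⁻¹ * a * x)⁻¹)⁻¹ := by intro a; group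
            refine ⟨Subgroup.inv_mem _ hxN, ?_, ?_⟩
            · intro a ha
              rw [e]; exact W.inv_mem (hx0 _ (hconjU' x hxN a ha))
            · intro i a ha haΓ
              rw [e]
              exact Subgroup.inv_mem _ (hxi i _ (hconjU' x hxN a ha) (hΓ' x hxN i a ha haΓ)) }
      have hSmem : ∀ x, x ∈ S ↔ (x ∈ Subgroup.normalizer (U : Set G) ∧
          (∀ a ∈ U, x * a * x⁻¹ * a⁻¹ ∈ W) ∧
          ∀ i, ∀ a ∈ U, a ∈ W.lowerCentralSeries i →
            x * a * x⁻¹ * a⁻¹ ∈ W.lowerCentralSeries (i + 1)) := fun x => Iff.rfl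
      have hSN : S ≤ Subgroup.normalizer (U : Set G) := fun x hx => ((hSmem x).1 hx).1
      have hSnorm : ∀ n ∈ Subgroup.normalizer (U : Set G), ∀ s ∈ S, n * s * n⁻¹ ∈ S := by
        intro n hn s hs
        obtain ⟨hsN, hs0, hsi⟩ := (hSmem s).1 hs
        have hninv := Subgroup.inv_mem _ hn
        have e : ∀ a : G, n * s * n⁻¹ * a * (n * s * n⁻¹)⁻¹ * a⁻¹ =
            n * (s * (n⁻¹ * a * n) * s⁻¹ * (n⁻¹ * a * n)⁻¹) * n⁻¹ := by intro a; group
        rw [hSmem]
        refine ⟨Subgroup.mul_mem _ (Subgroup.mul_mem _ hn hsN) hninv, ?_, ?_⟩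
        · intro a ha
          rw [e]
          have ha' := hconjU' n hn a ha
          exact hΓ U hUP n hn 0 _ (hcommU s hsN _ ha') (hs0 _ ha')
        · intro i a ha haΓ
          rw [e]
          have ha' := hconjU' n hn a ha
          exact hΓ U hUP n hn (i + 1) _ (hcommU s hsN _ ha') (hsi i _ ha' (hΓ' n hn i a ha haΓ))
      have hX0S : ∀ x ∈ T, x ∈ W → x ∈ S := by
        intro x hxT hxW
        rw [hSmem]
        refine ⟨hTN hxT, ?_, ?_⟩
        · intro a ha
          have h1 : a * x⁻¹ * a⁻¹ ∈ W := by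
            have := conj_mem_map_conj W a x⁻¹ (W.inv_mem hxW)
            rw [hWy a (hPNR (hUP ha))] at this; exact this
          have e : x * a * x⁻¹ * a⁻¹ = x * (a * x⁻¹ * a⁻¹) := by group
          rw [e]; exact W.mul_mem hxW h1
        · intro i a ha haΓ
          have h1 : ⁅x, a⁆ ∈ ⁅W, W.lowerCentralSeries i⁆ :=
            Subgroup.commutator_mem_commutator hxW haΓ
          rw [Subgroup.commutator_comm, commutatorElement_def] at h1
          exact h1
      have hScop : ∀ s ∈ S, (orderOf s).Coprime p → s ∈ Subgroup.centralizer (U : Set G) := by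
        intro s hs hcop
        obtain ⟨hsN, hs0, hsi⟩ := (hSmem s).1 hs
        have hfix := stab_coprime hUp hcop (fun i => W.lowerCentralSeries i) cl hcl
          (fun a ha => ⟨hcommU s hsN a ha, hs0 a ha⟩)
          (fun i a ha => ⟨hcommU s hsN a ha.1, hsi i a ha.1 ha.2⟩)
        rw [Subgroup.mem_centralizer_iff]
        intro a ha
        have h1 := hfix a ha
        calc a * s = (s * a * s⁻¹) * s := by rw [h1]
          _ = s * a := by group
      have hTSidx : ¬ p ∣ (T ⊓ S).relIndex S := relIndex_inf_of_normalized hSN hSnorm hTp hUidx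
      have hdecomp := exists_mul_of_pquot (S := S) (C := Subgroup.centralizer (U : Set G))
        (T := T ⊓ S) (fun s hs c hc => hCnorm U s (hSN hs) c hc) inf_le_right hTSidx hScop
      obtain ⟨n, hnN, s, hsS, hzns, hnTS⟩ := frattini_inf
        (N := Subgroup.normalizer (U : Set G)) (C := S) (Q := T) hSN hSnorm hTp hUidx z hz
      obtain ⟨t, htTS, c, hcC, hstc⟩ := hdecomp s hsS
      obtain ⟨y, hy⟩ : ∃ y : G, y = n * t := ⟨_, rfl⟩
      have hyN : y ∈ Subgroup.normalizer (U : Set G) := by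
        rw [hy]; exact Subgroup.mul_mem _ hnN (hTN htTS.1)
      have hyTS : y ∈ Subgroup.normalizer ((T ⊓ S : Subgroup G) : Set G) := by
        rw [hy]; exact Subgroup.mul_mem _ hnTS (Subgroup.le_normalizer htTS)
      have hzy : ∀ a ∈ U, z * a * z⁻¹ = y * a * y⁻¹ := by
        intro a ha
        have hca := (Subgroup.mem_centralizer_iff.1 hcC) a ha
        rw [hzns, hstc, hy]
        calc n * (t * c) * a * (n * (t * c))⁻¹ = n * t * (c * a) * c⁻¹ * (n * t)⁻¹ := by group
          _ = n * t * (a * c) * c⁻¹ * (n * t)⁻¹ := by rw [hca]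
          _ = n * t * a * (n * t)⁻¹ := by group
      obtain ⟨Us, hUs⟩ : ∃ Us : Subgroup G, Us = U ⊔ (T ⊓ S) := ⟨_, rfl⟩
      have hUsP : Us ≤ (P : Subgroup G) := by
        rw [hUs]; exact sup_le hUP (inf_le_left.trans hTP)
      have hUUs : U ≤ Us := by rw [hUs]; exact le_sup_left
      have hTSUs : T ⊓ S ≤ Us := by rw [hUs]; exact le_sup_right
      have hyUs : Us.map (MulAut.conj y).toMonoidHom = Us := by
        rw [hUs, Subgroup.map_sup, map_conj_eq_of_mem_normalizer U y hyN,
          map_conj_eq_of_mem_normalizer _ y hyTS]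
      -- an element of N_W(U) outside U
      obtain ⟨w, hwW, hwN, hwU⟩ : ∃ w ∈ W, w ∈ Subgroup.normalizer (U : Set G) ∧ w ∉ U := by
        have hUWp : IsPGroup p (U ⊔ W : Subgroup G) := P.2.to_le (sup_le hUP hWP)
        have hne : U ≠ U ⊔ W := by
          intro h
          apply hWU
          rw [h]; exact le_sup_right
        obtain ⟨x, hx, hxN, hxU⟩ := exists_mem_normalizer_not_mem hUWp le_sup_left hne
        obtain ⟨u, hu, w, hw, hxuw⟩ := exists_mul_of_mem_sup_of_normalizes (A := U) (B := W)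
          (fun a ha b hb => by
            have := conj_mem_map_conj W a⁻¹ b hb
            rw [hWy a⁻¹ (hPNR (hUP (U.inv_mem ha)))] at this
            simpa using this) hx
        refine ⟨w, hw, ?_, ?_⟩
        · have e : w = u⁻¹ * x := by rw [hxuw]; group
          rw [e]
          exact Subgroup.mul_mem _ (Subgroup.inv_mem _ (Subgroup.le_normalizer hu)) hxN
        · intro hwU
          apply hxU
          rw [hxuw]; exact U.mul_mem hu hwU
      have hlt : Nat.card U < Nat.card Us := by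
        by_contra hcon
        have heq := Subgroup.eq_of_le_of_card_ge hUUs (not_lt.1 hcon)
        apply hwU
        rw [heq]
        apply hTSUs
        have hwT : w ∈ T := by rw [hT]; exact ⟨hWP hwW, hwN⟩
        exact ⟨hwT, hX0S w hwT hwW⟩
      have hReach : Reach 𝓕 (Us : Set G) y⁻¹ := by
        apply reach_of_extremal P 𝓕 h𝓕 h𝓕' _ Us hUsP rfl y⁻¹
        intro a ha
        have := conj_mem_map_conj Us y a ha
        rw [hyUs] at this
        simpa using hUsP this
      obtain ⟨k, hk, hka⟩ := reach_control (K := K) (Nat.card U) (by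
        intro T' hT' hcard x hx
        have hT'P := h𝓕 T' hT'
        have hlt' : Nat.card (P : Subgroup G) - Nat.card T' < d := by
          have h1 := Subgroup.card_le_of_le hT'P
          have h2 := Subgroup.card_le_of_le hUP
          omega
        obtain ⟨k, hk, hka⟩ := ih _ hlt' T' hT' rfl x⁻¹ (Subgroup.inv_mem _ hx)
        refine ⟨k⁻¹, K.inv_mem hk, fun a ha => ?_⟩
        have := hka a ha
        simpa using this) hReach ⟨Us, hlt, le_rfl⟩
      refine ⟨k⁻¹, K.inv_mem hk, fun a ha => ?_⟩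
      rw [hzy a ha]
      have := hka a (hUUs ha)
      simpa using this
  intro A hAP g hAg
  have hReach : Reach 𝓕 (A : Set G) g⁻¹ := by
    apply reach_of_extremal P 𝓕 h𝓕 h𝓕' _ A hAP rfl g⁻¹
    intro a ha
    have := (map_conj_le_iff _ _ _).1 hAg a ha
    simpa using this
  obtain ⟨k, hk, hka⟩ := reach_control (K := K) 0 (by
    intro T' hT' _ x hx
    obtain ⟨k, hk, hka⟩ := NS _ T' hT' rfl x⁻¹ (Subgroup.inv_mem _ hx)
    exact ⟨k⁻¹, K.inv_mem hk, fun a ha => by simpa using hka a ha⟩) hReach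
    ⟨A, Nat.card_pos, le_rfl⟩
  have hkK : k⁻¹ ∈ Subgroup.normalizer (W : Set G) := by rw [← hK]; exact K.inv_mem hk
  have hc : k * g ∈ Subgroup.centralizer (A : Set G) := by
    rw [Subgroup.mem_centralizer_iff]
    intro a ha
    have h1 := hka a ha
    have h2 : g * a * g⁻¹ = k⁻¹ * a * k := by simpa using h1
    calc a * (k * g) = k * (k⁻¹ * a * k) * g := by group
      _ = k * (g * a * g⁻¹) * g := by rw [h2]
      _ = k * g * a := by group
  exact ⟨k⁻¹, hkK, k * g, hc, by group⟩

end Cfsg.Agent.S1954
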