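import Cfsg.Statements.S1989
import Cfsg.Agent.Lib.helper10.KQd
import Cfsg.Agent.Lib.helper15.Inv

set_option autoImplicit false
universe u
open Cfsg

namespace Cfsg.Agent.S1989

open Cfsg.Agent.Lib.helper10

/-- Let p be an odd prime and G a finite group. Then Qd(p) (the natural semidirect product of an elementary abelian group of order p² by SL₂(p)) is not involved in G if and only if, in every section K/R of G and for every Sylow p-subgroup T of K/R, the lower K-infinity subgroup of T controls strong fusion in K/R. -/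
theorem result {G : Type u} [Group G] [Finite G] {p : ℕ} [Fact p.Prime] (hp : p ≠ 2) : ¬ Cfsg.Involves ↥(Cfsg.qd p) G ↔ ∀ (K R : Subgroup G) [hR : (R.subgroupOf K).Normal], ∀ T : Sylow p (↥K ⧸ R.subgroupOf K), Cfsg.ControlsStrongFusion p (Cfsg.inducedFunctor (G := (↥K ⧸ R.subgroupOf K)) Cfsg.kInfLower (T : Subgroup (↥K ⧸ R.subgroupOf K))) := by
  constructor
  · intro h K R hR T
    have hfree : ¬ Cfsg.Involves ↥(Cfsg.qd p) (↥K ⧸ R.subgroupOf K) := fun hinv =>
      h (Cfsg.Agent.Lib.helper15.inv_trans hinv ⟨K, R, hR, ⟨MulEquiv.refl _⟩⟩)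
    exact sf_of_psu kInfLower (isCharPFunctor_kInfLower p)
      (fun T _ _ hT P' h => kInfLower_hS T hT P' h)
      (fun K' R' hR' => Cfsg.Agent.Lib.helper15.Qd.normalizerPStable_of_qd_free hp
        (fun hinv' => hfree (Cfsg.Agent.Lib.helper15.inv_trans hinv'
          ⟨K', R', hR', ⟨MulEquiv.refl _⟩⟩))) T
  · intro h hinv
    obtain ⟨K, R, hR, ⟨e⟩⟩ := hinv
    haveI := hR
    obtain ⟨T, hT⟩ := not_kinf_control_of_emb (p := p)
      ((Cfsg.qd p).subtype.comp e.toMonoidHom)
      ((Subgroup.subtype_injective _).comp e.injective)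
      (by
        intro A t
        refine ⟨e.symm ⟨Cfsg.Agent.Lib.helper15.Qd.aff A t,
          Cfsg.Agent.Lib.helper15.Qd.aff_mem_qd p A t⟩, ?_⟩
        simp)
      (by
        intro y
        exact Cfsg.Agent.Lib.helper15.Qd.exists_aff_of_mem_qd p (e y).1 (e y).2)
    exact hT (h K R T)

end Cfsg.Agent.S1989
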