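import Cfsg.Statements.S2001
import Cfsg.Agent.Lib.helper10.LocalGlobal2

set_option autoImplicit false
open Cfsg

namespace Cfsg.Agent.S2001

open Cfsg.Agent.Lib.helper10
open scoped commutatorElement

/-- Transport of the Sylow subgroup of a local subgroup: `N_S(T)` is a conjugate of the given
Sylow subgroup `Q0` of `N_G(H)` by an element carrying `H` to `T`. -/
theorem exists_transport {G : Type*} [Group G] [Finite G] {p : ℕ} [Fact p.Prime]
    {S T H Q0 : Subgroup G} (hS : IsPGroup p S) (v : G)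
    (hHv : H.map (MulAut.conj v).toMonoidHom = T)
    (hTidx : ¬ p ∣ (nS S T).relIndex (Subgroup.normalizer (T : Set G)))
    (hQ0N : Q0 ≤ Subgroup.normalizer (H : Set G)) (hQ0p : IsPGroup p Q0)
    (hQ0idx : ¬ p ∣ Q0.relIndex (Subgroup.normalizer (H : Set G))) :
    ∃ w : G, Q0.map (MulAut.conj w).toMonoidHom = nS S T ∧
      H.map (MulAut.conj w).toMonoidHom = T := by
  have hQ1N : Q0.map (MulAut.conj v).toMonoidHom ≤ Subgroup.normalizer (T : Set G) := by
    rw [← hHv, normalizer_map_conj]; exact Subgroup.map_mono hQ0N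
  have hQ1idx : ¬ p ∣ (Q0.map (MulAut.conj v).toMonoidHom).relIndex
      (Subgroup.normalizer (T : Set G)) := by
    rw [← hHv, normalizer_map_conj, relIndex_map_conj]; exact hQ0idx
  obtain ⟨y, hyN, hy⟩ := exists_conj_eq_of_relIndex (T' := nS S T) inf_le_right
    (hS.to_le inf_le_left) hTidx hQ1N (hQ0p.map _) hQ1idx
  refine ⟨y * v, ?_, ?_⟩
  · rw [← map_conj_mul Q0 y v]; exact hy
  · rw [← map_conj_mul H y v, hHv]; exact map_conj_eq_of_mem_normalizer T y hyN

/-- The derived subgroup of a subgroup `C` is normalized by `C`. -/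
theorem conj_mem_commutator_self {G : Type*} [Group G] {C : Subgroup G} {a b : G} (ha : a ∈ C)
    (hb : b ∈ ⁅C, C⁆) : a⁻¹ * b * a ∈ ⁅C, C⁆ := by
  have hle : ⁅C, C⁆ ≤ C := by
    rw [Subgroup.commutator_le]
    intro x hx y hy
    rw [commutatorElement_def]
    exact C.mul_mem (C.mul_mem (C.mul_mem hx hy) (C.inv_mem hx)) (C.inv_mem hy)
  have h1 : ⁅b⁻¹, a⁻¹⁆ ∈ ⁅C, C⁆ :=
    Subgroup.commutator_mem_commutator (hle (Subgroup.inv_mem _ hb)) (C.inv_mem ha)
  have e : a⁻¹ * b * a = b * ⁅b⁻¹, a⁻¹⁆ := by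
    rw [commutatorElement_def]; group
  rw [e]
  exact Subgroup.mul_mem _ hb h1

/-- Let p be a prime dividing the order of the finite group G, P a Sylow p-subgroup, W a conjugacy functor for p on G with Z(H) ≤ W(H) for every nontrivial p-subgroup H, and V a central functor: a conjugacy functor with V(H) ≤ Z(H), and V(H) ≤ V(K) whenever Z(H) ≤ Z(K), for nontrivial p-subgroups H, K. Say that W with V controls transfer in a subgroup L when some Sylow p-subgroup Q of L satisfies Q ∩ L' = (Q ∩ (N_L(W(Q)))')·(Q ∩ (C_L(V(Q)))') as a product of two subgroups. If W with V controls transfer in N_G(H) for every subgroup H with Z(P) ≤ H ≤ P, then W with V controls transfer in G. -/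
theorem result {G : Type*} [Group G] [Finite G] {p : ℕ} [Fact p.Prime] (hdiv : p ∣ Nat.card G) (P : Sylow p G) (W V : Subgroup G → Subgroup G) (hW : Cfsg.IsConjugacyFunctor p W) (hV : Cfsg.IsConjugacyFunctor p V) (hWZ : ∀ H : Subgroup G, IsPGroup p ↥H → H ⊓ Subgroup.centralizer ((H : Subgroup G) : Set G) ≤ W H) (hVZ : ∀ H : Subgroup G, IsPGroup p ↥H → V H ≤ H ⊓ Subgroup.centralizer ((H : Subgroup G) : Set G)) (hVmono : ∀ H K : Subgroup G, IsPGroup p ↥H → IsPGroup p ↥K → H ≠ ⊥ → K ≠ ⊥ → H ⊓ Subgroup.centralizer ((H : Subgroup G) : Set G) ≤ K ⊓ Subgroup.centralizer ((K : Subgroup G) : Set G) → V H ≤ V K) (hloc : ∀ H : Subgroup G, (P : Subgroup G) ⊓ Subgroup.centralizer (((P : Subgroup G) : Subgroup G) : Set G) ≤ H → H ≤ (P : Subgroup G) → ∃ Q : Subgroup G, Q ≤ Subgroup.normalizer ((H : Subgroup G) : Set G) ∧ IsPGroup p ↥Q ∧ ¬ p ∣ (Q).relIndex (Subgroup.normalizer ((H : Subgroup G) : Set G)) ∧ ∀ x : G, x ∈ Q ⊓ ⁅Subgroup.normalizer ((H : Subgroup G) : Set G), Subgroup.normalizer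 ((H : Subgroup G) : Set G)⁆ ↔ ∃ a ∈ Q ⊓ ⁅Subgroup.normalizer ((H : Subgroup G) : Set G) ⊓ Subgroup.normalizer ((W Q : Subgroup G) : Set G), Subgroup.normalizer ((H : Subgroup G) : Set G) ⊓ Subgroup.normalizer ((W Q : Subgroup G) : Set G)⁆, ∃ b ∈ Q ⊓ ⁅Subgroup.normalizer ((H : Subgroup G) : Set G) ⊓ Subgroup.centralizer ((V Q : Subgroup G) : Set G), Subgroup.normalizer ((H : Subgroup G) : Set G) ⊓ Subgroup.centralizer ((V Q : Subgroup G) : Set G)⁆, x = a * b) : ∃ Q : Subgroup G, IsPGroup p ↥Q ∧ ¬ p ∣ Q.index ∧ ∀ x : G, x ∈ Q ⊓ commutator G ↔ ∃ a ∈ Q ⊓ ⁅Subgroup.normalizer ((W Q : Subgroup G) : Set G), Subgroup.normalizer ((W Q : Subgroup G) : Set G)⁆, ∃ b ∈ Q ⊓ ⁅Subgroup.centralizer ((V Q : Subgroup G) : Set G), Subgroup.centralizer ((V Q : Subgroup G) : Set G)⁆, x = a * b := by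
  classical
  obtain ⟨D1, hD1⟩ : ∃ D1 : Subgroup G, D1 = (P : Subgroup G) ⊓
      ⁅Subgroup.normalizer ((W (P : Subgroup G) : Subgroup G) : Set G),
        Subgroup.normalizer ((W (P : Subgroup G) : Subgroup G) : Set G)⁆ := ⟨_, rfl⟩
  obtain ⟨D2, hD2⟩ : ∃ D2 : Subgroup G, D2 = (P : Subgroup G) ⊓
      ⁅Subgroup.centralizer ((V (P : Subgroup G) : Subgroup G) : Set G),
        Subgroup.centralizer ((V (P : Subgroup G) : Subgroup G) : Set G)⁆ := ⟨_, rfl⟩
  have hPN : (P : Subgroup G) ≤ Subgroup.normalizer ((W (P : Subgroup G) : Subgroup G) : Set G) :=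
    sylow_le_normalizer_functor hW P
  have hPC : (P : Subgroup G) ≤ Subgroup.centralizer ((V (P : Subgroup G) : Subgroup G) : Set G) := by
    intro s hs
    rw [Subgroup.mem_centralizer_iff]
    intro h hh
    have h1 : h ∈ Subgroup.centralizer (((P : Subgroup G) : Subgroup G) : Set G) :=
      (hVZ _ P.2 hh).2
    rw [Subgroup.mem_centralizer_iff] at h1
    exact (h1 s hs).symm
  have key := local_to_global_centric P W hW hWZ
    (fun A g => ∀ a ∈ A, g * a * g⁻¹ * a⁻¹ ∈ D1 ⊔ D2)
    (by intro A _ a _; simp)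
    (by
      intro A g g' hg hgg' a ha
      rw [← hgg' a ha]; exact hg a ha)
    (by
      intro A A' g hg hA' a ha
      exact hg a (hA' ha))
    (by
      intro A g k hg hk a ha
      have h1 := hg a ha
      have h2 := hk (g * a * g⁻¹) ⟨a, ha, rfl⟩
      have e : k * g * a * (k * g)⁻¹ * a⁻¹ =
          (k * (g * a * g⁻¹) * k⁻¹ * (g * a * g⁻¹)⁻¹) * (g * a * g⁻¹ * a⁻¹) := by group
      rw [e]; exact Subgroup.mul_mem _ h2 h1)
    (by
      rintro A g hg _ ⟨a, ha, rfl⟩
      have h1 := hg a ha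
      have e : g⁻¹ * (g * a * g⁻¹) * g⁻¹⁻¹ * (g * a * g⁻¹)⁻¹ = (g * a * g⁻¹ * a⁻¹)⁻¹ := by group
      rw [e]; exact Subgroup.inv_mem _ h1)
    (by
      intro A y hA hy hyA a ha
      apply Subgroup.mem_sup_left
      rw [hD1]
      refine ⟨Subgroup.mul_mem _ (hyA a ha) (Subgroup.inv_mem _ (hA ha)), ?_⟩
      have := Subgroup.commutator_mem_commutator hy (hPN (hA ha))
      rwa [commutatorElement_def] at this)
    (by
      intro T hTS hTne hTH hTidx A x hA hx hxA Hstep a ha
      obtain ⟨H, v, hZH, hHS, hHv⟩ := hTH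
      obtain ⟨Q0, hQ0N, hQ0p, hQ0idx, hctrl⟩ := hloc H hZH hHS
      obtain ⟨w, hQw, hHw⟩ := exists_transport P.2 v hHv hTidx hQ0N hQ0p hQ0idx
      have hNSp : IsPGroup p (nS (P : Subgroup G) T) := P.2.to_le inf_le_left
      have hTNS : T ≤ nS (P : Subgroup G) T := le_inf hTS Subgroup.le_normalizer
      have hNSne : nS (P : Subgroup G) T ≠ ⊥ := by
        intro h; apply hTne; rw [eq_bot_iff, ← h]; exact hTNS
      have hPne : (P : Subgroup G) ≠ ⊥ := by
        intro h; apply hTne; rw [eq_bot_iff, ← h]; exact hTS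
      have hVle : Subgroup.centralizer ((V (nS (P : Subgroup G) T) : Subgroup G) : Set G) ≤
          Subgroup.centralizer ((V (P : Subgroup G) : Subgroup G) : Set G) := by
        apply Subgroup.centralizer_le
        exact hVmono _ _ P.2 hNSp hPne hNSne (center_le_center_nS hTS)
      have h1 : x * a * x⁻¹ * a⁻¹ ∈ nS (P : Subgroup G) T ⊓
          ⁅Subgroup.normalizer (T : Set G), Subgroup.normalizer (T : Set G)⁆ := by
        refine ⟨Subgroup.mul_mem _ (hxA a ha) (Subgroup.inv_mem _ (hA ha)), ?_⟩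
        have := Subgroup.commutator_mem_commutator hx (hA ha).2
        rwa [commutatorElement_def] at this
      have h2 : w⁻¹ * (x * a * x⁻¹ * a⁻¹) * w ∈ Q0 ⊓
          ⁅Subgroup.normalizer (H : Set G), Subgroup.normalizer (H : Set G)⁆ := by
        rw [← mem_map_conj, map_conj_inf, Subgroup.map_commutator, ← normalizer_map_conj, hHw, hQw]
        exact h1
      obtain ⟨a1, ha1, b1, hb1, hab⟩ := (hctrl _).1 h2
      have ha1' : w * a1 * w⁻¹ ∈ nS (P : Subgroup G) T ⊓
          ⁅Subgroup.normalizer (T : Set G) ⊓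
              Subgroup.normalizer ((W (nS (P : Subgroup G) T) : Subgroup G) : Set G),
            Subgroup.normalizer (T : Set G) ⊓
              Subgroup.normalizer ((W (nS (P : Subgroup G) T) : Subgroup G) : Set G)⁆ := by
        have h3 := conj_mem_map_conj _ w a1 ha1
        rw [map_conj_inf, Subgroup.map_commutator, map_conj_inf, ← normalizer_map_conj,
          ← normalizer_map_conj, ← (hW Q0 hQ0p).2.2 w, hHw, hQw] at h3
        exact h3
      have hb1' : w * b1 * w⁻¹ ∈ nS (P : Subgroup G) T ⊓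
          ⁅Subgroup.normalizer (T : Set G) ⊓
              Subgroup.centralizer ((V (nS (P : Subgroup G) T) : Subgroup G) : Set G),
            Subgroup.normalizer (T : Set G) ⊓
              Subgroup.centralizer ((V (nS (P : Subgroup G) T) : Subgroup G) : Set G)⁆ := by
        have h3 := conj_mem_map_conj _ w b1 hb1
        rw [map_conj_inf, Subgroup.map_commutator, map_conj_inf, ← normalizer_map_conj,
          ← centralizer_map_conj', ← (hV Q0 hQ0p).2.2 w, hHw, hQw] at h3
        exact h3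
      have e : x * a * x⁻¹ * a⁻¹ = (w * a1 * w⁻¹) * (w * b1 * w⁻¹) := by
        calc x * a * x⁻¹ * a⁻¹ = w * (w⁻¹ * (x * a * x⁻¹ * a⁻¹) * w) * w⁻¹ := by group
          _ = w * (a1 * b1) * w⁻¹ := by rw [hab]
          _ = (w * a1 * w⁻¹) * (w * b1 * w⁻¹) := by group
      rw [e]
      apply Subgroup.mul_mem
      · have hQH : nS (P : Subgroup G) T ≤ Subgroup.normalizer (T : Set G) ⊓
            Subgroup.normalizer ((W (nS (P : Subgroup G) T) : Subgroup G) : Set G) :=
          le_inf inf_le_right ((inf_normalizer_le_succ hW P.2 T).trans inf_le_right)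
        have h3 : nS (P : Subgroup G) T ⊓
            ⁅Subgroup.normalizer (T : Set G) ⊓
                Subgroup.normalizer ((W (nS (P : Subgroup G) T) : Subgroup G) : Set G),
              Subgroup.normalizer (T : Set G) ⊓
                Subgroup.normalizer ((W (nS (P : Subgroup G) T) : Subgroup G) : Set G)⁆ ≤
            D1 ⊔ D2 := by
          apply inf_commutator_le_of_focal hNSp (relIndex_not_dvd_of_le hQH inf_le_left hTidx)
          intro a' ha' y hy hya'
          exact Hstep {a'} y (Set.singleton_subset_iff.2 ha') hy.1 hy.2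
            (fun a'' ha'' => by rw [Set.mem_singleton_iff] at ha''; rw [ha'']; exact hya') a' rfl
        exact h3 ha1'
      · apply Subgroup.mem_sup_right
        rw [hD2]
        exact ⟨hb1'.1.1, Subgroup.commutator_mono (inf_le_right.trans hVle)
          (inf_le_right.trans hVle) hb1'.2⟩)
  have hmain : (P : Subgroup G) ⊓ ⁅(⊤ : Subgroup G), ⊤⁆ ≤ D1 ⊔ D2 := by
    apply inf_commutator_le_of_focal P.2
      (by rw [Subgroup.relIndex_top_right]; exact P.not_dvd_index)
    intro a ha y _ hya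
    exact key {a} y (Set.singleton_subset_iff.2 ha)
      (fun a' ha' => by rw [Set.mem_singleton_iff] at ha'; rw [ha']; exact hya) a rfl
  refine ⟨P, P.2, P.not_dvd_index, ?_⟩
  intro x
  constructor
  · intro hx
    have hx' : x ∈ (P : Subgroup G) ⊓ ⁅(⊤ : Subgroup G), ⊤⁆ := hx
    have h1 := hmain hx'
    have hnorm : ∀ a ∈ D1, ∀ b ∈ D2, a⁻¹ * b * a ∈ D2 := by
      intro a ha b hb
      rw [hD1] at ha
      rw [hD2] at hb ⊢
      refine ⟨Subgroup.mul_mem _ (Subgroup.mul_mem _ (Subgroup.inv_mem _ ha.1) hb.1) ha.1, ?_⟩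
      exact conj_mem_commutator_self (hPC ha.1) hb.2
    obtain ⟨a, ha, b, hb, hab⟩ := exists_mul_of_mem_sup_of_normalizes hnorm h1
    rw [hD1] at ha
    rw [hD2] at hb
    exact ⟨a, ha, b, hb, hab⟩
  · rintro ⟨a, ha, b, hb, rfl⟩
    have h5 : a * b ∈ commutator G := by
      rw [commutator_def]
      exact Subgroup.mul_mem _ (Subgroup.commutator_mono le_top le_top ha.2)
        (Subgroup.commutator_mono le_top le_top hb.2)
    exact ⟨Subgroup.mul_mem _ ha.1 hb.1, h5⟩

end Cfsg.Agent.S2001
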