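import Cfsg.Statements.S2002
import Cfsg.Agent.Lib.helper10.LocalGlobal2

set_option autoImplicit false
open Cfsg

namespace Cfsg.Agent.S2002

open Cfsg.Agent.Lib.helper10

/-- Transport of the Sylow subgroup of a local subgroup: `N_S(T)` is a conjugate of the given
Sylow subgroup `Q0` of `N_G(H)` by an element carrying `H` to `T`. -/
theorem exists_transport {G : Type*} [Group G] [Finite G] {p : ℕ} [Fact p.Prime]
    {S T H Q0 : Subgroup G} (hS : IsPGroup p S) (v : G)
    (hHv : H.map (MulAut.conj v).toMonoidHom = T)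
    (hTidx : ¬ p ∣ (nS S T).relIndex (Subgroup.normalizer (T : Set G)))
    (hQ0N : Q0 ≤ Subgroup.normalizer (H : Set G)) (hQ0p : IsPGroup p Q0)
    (hQ0idx : ¬ p ∣ Q0.relIndex (Subgroup.normalizer (H : Set G))) :
    ∃ u : G, Q0 = (nS S T).map (MulAut.conj u).toMonoidHom ∧
      H = T.map (MulAut.conj u).toMonoidHom := by
  have hQ1N : Q0.map (MulAut.conj v).toMonoidHom ≤ Subgroup.normalizer (T : Set G) := by
    rw [← hHv, normalizer_map_conj]; exact Subgroup.map_mono hQ0N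
  have hQ1idx : ¬ p ∣ (Q0.map (MulAut.conj v).toMonoidHom).relIndex
      (Subgroup.normalizer (T : Set G)) := by
    rw [← hHv, normalizer_map_conj, relIndex_map_conj]; exact hQ0idx
  obtain ⟨y, hyN, hy⟩ := exists_conj_eq_of_relIndex (T' := nS S T) inf_le_right
    (hS.to_le inf_le_left) hTidx hQ1N (hQ0p.map _) hQ1idx
  refine ⟨(y * v)⁻¹, ?_, ?_⟩
  · rw [← hy, map_conj_mul Q0 y v, map_conj_inv_cancel]
  · have h1 : H.map (MulAut.conj (y * v)).toMonoidHom = T := by
      rw [← map_conj_mul, hHv]; exact map_conj_eq_of_mem_normalizer T y hyN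
    rw [← h1, map_conj_inv_cancel]

/-- Let p be a prime dividing the order of the finite group G, P a Sylow p-subgroup, W a conjugacy functor for p on G with Z(H) ≤ W(H) for every nontrivial p-subgroup H, and V a central functor (a conjugacy functor with V(H) ≤ Z(H), and V(H) ≤ V(K) whenever Z(H) ≤ Z(K)). Say that W with V controls strong fusion in a subgroup L when some Sylow p-subgroup Q of L has the property: whenever X ⊆ Q and a ∈ L with a⁻¹Xa ⊆ Q, then a = c b with c ∈ C_L(X) and b = b₁ ⋯ bₙ a product of elements each in N_L(W(Q)) or in C_L(V(Q)) such that every partial conjugate (b₁ ⋯ bₖ)⁻¹ X (b₁ ⋯ bₖ) lies in Q. If W with V controls strong fusion in N_G(H) for every subgroup H with Z(P) ≤ H ≤ P, then W with V controls strong fusion in G. -/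
theorem result {G : Type*} [Group G] [Finite G] {p : ℕ} [Fact p.Prime] (hdiv : p ∣ Nat.card G) (P : Sylow p G) (W V : Subgroup G → Subgroup G) (hW : Cfsg.IsConjugacyFunctor p W) (hV : Cfsg.IsConjugacyFunctor p V) (hWZ : ∀ H : Subgroup G, IsPGroup p ↥H → H ⊓ Subgroup.centralizer ((H : Subgroup G) : Set G) ≤ W H) (hVZ : ∀ H : Subgroup G, IsPGroup p ↥H → V H ≤ H ⊓ Subgroup.centralizer ((H : Subgroup G) : Set G)) (hVmono : ∀ H K : Subgroup G, IsPGroup p ↥H → IsPGroup p ↥K → H ≠ ⊥ → K ≠ ⊥ → H ⊓ Subgroup.centralizer ((H : Subgroup G) : Set G) ≤ K ⊓ Subgroup.centralizer ((K : Subgroup G) : Set G) → V H ≤ V K) (hloc : ∀ H : Subgroup G, (P : Subgroup G) ⊓ Subgroup.centralizer (((P : Subgroup G) : Subgroup G) : Set G) ≤ H → H ≤ (P : Subgroup G) → ∃ Q : Subgroup G, Q ≤ Subgroup.normalizer ((H : Subgroup G) : Set G) ∧ IsPGroup p ↥Q ∧ ¬ p ∣ (Q).relIndex (Subgroup.normalizer ((H : Subgroup G) : Set G)) ∧ ∀ (X : Set G) (a : G), X ⊆ Q → a ∈ Subgroup.normalizer ((H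 : Subgroup G) : Set G) → (fun x => a⁻¹ * x * a) '' X ⊆ Q → ∃ c ∈ Subgroup.normalizer ((H : Subgroup G) : Set G) ⊓ Subgroup.centralizer X, ∃ (n : ℕ) (b : Fin n → G), (∀ i, b i ∈ Subgroup.normalizer ((H : Subgroup G) : Set G) ⊓ Subgroup.normalizer ((W Q : Subgroup G) : Set G) ∨ b i ∈ Subgroup.normalizer ((H : Subgroup G) : Set G) ⊓ Subgroup.centralizer ((V Q : Subgroup G) : Set G)) ∧ a = c * (List.ofFn b).prod ∧ ∀ k : ℕ, k ≤ n → (fun x => (((List.ofFn b).take k).prod)⁻¹ * x * ((List.ofFn b).take k).prod) '' ((fun x => c⁻¹ * x * c) '' X) ⊆ Q) : ∃ Q : Subgroup G, IsPGroup p ↥Q ∧ ¬ p ∣ Q.index ∧ ∀ (X : Set G) (a : G), X ⊆ Q → (fun x => a⁻¹ * x * a) '' X ⊆ Q → ∃ c ∈ Subgroup.centralizer X, ∃ (n : ℕ) (b : Fin n → G), (∀ i, b i ∈ ⊤ ⊓ Subgroup.normalizer ((W Q : Subgroup G) : Set G) ∨ b i ∈ ⊤ ⊓ Subgroup.centralizer ((V Q : Subgroup G) : Set G)) ∧ a = c * (List.ofFn b).prod ∧ ∀ k : ℕ, k ≤ n → (fun x => (((List.ofFn b).take k).prod)⁻¹ * x * ((List.ofFn b).take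 k).prod) '' ((fun x => c⁻¹ * x * c) '' X) ⊆ Q := by
  classical
  obtain ⟨Ns, hNs⟩ : ∃ Ns : Set G, Ns = {z | z ∈ Subgroup.normalizer
      ((W (P : Subgroup G) : Subgroup G) : Set G) ∨
      z ∈ Subgroup.centralizer ((V (P : Subgroup G) : Subgroup G) : Set G)} := ⟨_, rfl⟩
  have hNsinv : ∀ y ∈ Ns, y⁻¹ ∈ Ns := by
    intro y hy
    rw [hNs] at hy ⊢
    rcases hy with hy | hy
    · exact Or.inl (Subgroup.inv_mem _ hy)
    · exact Or.inr (Subgroup.inv_mem _ hy)
  have key := local_to_global_centric P W hW hWZ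
    (fun A g => ChainGood Ns ((P : Subgroup G) : Set G) A g)
    (fun A hA => ChainGood.refl hA)
    (fun A g g' h hgg' => h.congr hgg')
    (fun A A' g h hA' => h.mono hA')
    (fun A g k h h' => h.trans h')
    (fun A g h => h.symm hNsinv)
    (fun A y hA hy hyA => ChainGood.single (by rw [hNs]; exact Or.inl hy) hA hyA)
    (by
      intro T hTS hTne hTH hTidx A x hA hx hxA Hstep
      obtain ⟨H, v, hZH, hHS, hHv⟩ := hTH
      obtain ⟨Q0, hQ0N, hQ0p, hQ0idx, hctrl⟩ := hloc H hZH hHS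
      obtain ⟨u, hQu, hHu⟩ := exists_transport P.2 v hHv hTidx hQ0N hQ0p hQ0idx
      have hNSp : IsPGroup p (nS (P : Subgroup G) T) := P.2.to_le inf_le_left
      have hTNS : T ≤ nS (P : Subgroup G) T := le_inf hTS Subgroup.le_normalizer
      have hNSne : nS (P : Subgroup G) T ≠ ⊥ := by
        intro h; apply hTne; rw [eq_bot_iff, ← h]; exact hTNS
      have hPne : (P : Subgroup G) ≠ ⊥ := by
        intro h; apply hTne; rw [eq_bot_iff, ← h]; exact hTS
      have hVle : Subgroup.centralizer ((V (nS (P : Subgroup G) T) : Subgroup G) : Set G) ≤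
          Subgroup.centralizer ((V (P : Subgroup G) : Subgroup G) : Set G) := by
        apply Subgroup.centralizer_le
        exact hVmono _ _ P.2 hNSp hPne hNSne (center_le_center_nS hTS)
      -- the local chain
      obtain ⟨X, hX⟩ : ∃ X : Set G, X = (fun a => u * a * u⁻¹) '' A := ⟨_, rfl⟩
      have hXQ : X ⊆ (Q0 : Set G) := by
        rw [hX, hQu]
        rintro _ ⟨a, ha, rfl⟩
        exact conj_mem_map_conj _ u a (hA ha)
      have haN : u * x⁻¹ * u⁻¹ ∈ Subgroup.normalizer (H : Set G) := by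
        rw [hHu, normalizer_map_conj]
        exact conj_mem_map_conj _ u _ (Subgroup.inv_mem _ hx)
      have haX : (fun x' => (u * x⁻¹ * u⁻¹)⁻¹ * x' * (u * x⁻¹ * u⁻¹)) '' X ⊆ (Q0 : Set G) := by
        rw [hX, hQu]
        rintro _ ⟨_, ⟨a, ha, rfl⟩, rfl⟩
        have e : (u * x⁻¹ * u⁻¹)⁻¹ * (u * a * u⁻¹) * (u * x⁻¹ * u⁻¹) = u * (x * a * x⁻¹) * u⁻¹ := by
          group
        show (u * x⁻¹ * u⁻¹)⁻¹ * (u * a * u⁻¹) * (u * x⁻¹ * u⁻¹) ∈ _
        rw [e]
        exact conj_mem_map_conj _ u _ (hxA a ha)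
      obtain ⟨c, hc, n, b, hb, hab, hpart⟩ := hctrl X (u * x⁻¹ * u⁻¹) hXQ haN haX
      have hcX : ∀ x' ∈ X, c⁻¹ * x' * c = x' := by
        intro x' hx'
        have h1 := (Subgroup.mem_centralizer_iff.1 hc.2) x' hx'
        calc c⁻¹ * x' * c = c⁻¹ * (x' * c) := by group
          _ = c⁻¹ * (c * x') := by rw [h1]
          _ = x' := by group
      obtain ⟨Ns0, hNs0⟩ : ∃ Ns0 : Set G, Ns0 = {z | z ∈ Subgroup.normalizer (H : Set G) ⊓
          Subgroup.normalizer ((W Q0 : Subgroup G) : Set G) ∨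
          z ∈ Subgroup.normalizer (H : Set G) ⊓
          Subgroup.centralizer ((V Q0 : Subgroup G) : Set G)} := ⟨_, rfl⟩
      have hNs0inv : ∀ y ∈ Ns0, y⁻¹ ∈ Ns0 := by
        intro y hy
        rw [hNs0] at hy ⊢
        rcases hy with hy | hy
        · exact Or.inl (Subgroup.inv_mem _ hy)
        · exact Or.inr (Subgroup.inv_mem _ hy)
      have chain0 : FChain Ns0 (Q0 : Set G) X ((List.ofFn b).prod)⁻¹ := by
        apply FChain.of_list hNs0inv
        · intro y hy
          rw [List.mem_ofFn] at hy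
          obtain ⟨i, rfl⟩ := hy
          rw [hNs0]; exact hb i
        · intro k hk x' hx'
          rw [List.length_ofFn] at hk
          have := hpart k hk ⟨c⁻¹ * x' * c, ⟨x', hx', rfl⟩, rfl⟩
          rw [hcX x' hx'] at this
          exact this
      obtain ⟨Ns1, hNs1⟩ : ∃ Ns1 : Set G, Ns1 = {z | z ∈ Subgroup.normalizer (T : Set G) ⊓
          Subgroup.normalizer ((W (nS (P : Subgroup G) T) : Subgroup G) : Set G) ∨
          z ∈ Subgroup.normalizer (T : Set G) ⊓
          Subgroup.centralizer ((V (nS (P : Subgroup G) T) : Subgroup G) : Set G)} := ⟨_, rfl⟩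
      have chain1 : FChain Ns1 ((nS (P : Subgroup G) T : Subgroup G) : Set G) A
          (u⁻¹ * ((List.ofFn b).prod)⁻¹ * u) := by
        rw [hX] at chain0
        apply FChain.conj u ?_ ?_ chain0
        · intro z hz
          rw [hNs0] at hz
          rw [hNs1]
          have hzH : ∀ z, z ∈ Subgroup.normalizer (H : Set G) →
              u⁻¹ * z * u ∈ Subgroup.normalizer (T : Set G) := by
            intro z hz
            rw [hHu, normalizer_map_conj, mem_map_conj] at hz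
            exact hz
          rcases hz with hz | hz
          · refine Or.inl ⟨hzH z hz.1, ?_⟩
            have h2 : z ∈ Subgroup.normalizer ((W Q0 : Subgroup G) : Set G) := hz.2
            rw [hQu, (hW _ hNSp).2.2 u, normalizer_map_conj, mem_map_conj] at h2
            exact h2
          · refine Or.inr ⟨hzH z hz.1, ?_⟩
            have h2 : z ∈ Subgroup.centralizer ((V Q0 : Subgroup G) : Set G) := hz.2
            rw [hQu, (hV _ hNSp).2.2 u, centralizer_map_conj', mem_map_conj] at h2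
            exact h2
        · intro t ht
          have ht' : t ∈ Q0 := ht
          rw [hQu, mem_map_conj] at ht'
          exact ht'
      have good1 : ChainGood Ns ((P : Subgroup G) : Set G) A (u⁻¹ * ((List.ofFn b).prod)⁻¹ * u) := by
        apply FChain.good (fun A g => ChainGood Ns ((P : Subgroup G) : Set G) A g) ?_ ?_ ?_ chain1
        · intro A' hA'
          exact ChainGood.refl (fun a ha => (hA' ha).1)
        · intro A' g k h h'
          exact h.trans h'
        · intro A' y hy hA' hyA'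
          rw [hNs1] at hy
          rcases hy with hy | hy
          · exact Hstep A' y hA' hy.1 hy.2 hyA'
          · exact ChainGood.single (by rw [hNs]; exact Or.inr (hVle hy.2))
              (fun a ha => (hA' ha).1) (fun a ha => (hyA' a ha).1)
      apply good1.congr
      intro a ha
      have hxa : u * a * u⁻¹ ∈ X := by rw [hX]; exact ⟨a, ha, rfl⟩
      have h1 := hcX _ hxa
      have hprod : (List.ofFn b).prod = c⁻¹ * (u * x⁻¹ * u⁻¹) := by
        rw [hab]; group
      rw [hprod]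
      have h1' : c * (u * a * u⁻¹) * c⁻¹ = u * a * u⁻¹ := by
        calc c * (u * a * u⁻¹) * c⁻¹ = c * (c⁻¹ * (u * a * u⁻¹) * c) * c⁻¹ := by rw [h1]
          _ = u * a * u⁻¹ := by group
      calc u⁻¹ * (c⁻¹ * (u * x⁻¹ * u⁻¹))⁻¹ * u * a * (u⁻¹ * (c⁻¹ * (u * x⁻¹ * u⁻¹))⁻¹ * u)⁻¹
          = x * u⁻¹ * (c * (u * a * u⁻¹) * c⁻¹) * u * x⁻¹ := by group
        _ = x * u⁻¹ * (u * a * u⁻¹) * u * x⁻¹ := by rw [h1']
        _ = x * a * x⁻¹ := by group)
  refine ⟨P, P.2, P.not_dvd_index, ?_⟩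
  intro X a hX haX
  have h1 := key X a⁻¹ hX (fun x hx => by
    have h3 := haX ⟨x, hx, rfl⟩
    have e : a⁻¹ * x * a⁻¹⁻¹ = a⁻¹ * x * a := by group
    rw [e]; exact h3)
  obtain ⟨c0, hc0, hc0a⟩ := h1
  obtain ⟨l, hl, hlprod, hlimg⟩ := hc0.exists_list hNsinv
  have hcx : ∀ x ∈ X, (a * c0)⁻¹ * x * (a * c0) = x := by
    intro x hx
    have h2 := hc0a x hx
    have e : c0 * x = a⁻¹ * x * a * c0 := by
      have e1 : c0 * x = (c0 * x * c0⁻¹) * c0 := by group
      rw [e1, h2]; group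
    calc (a * c0)⁻¹ * x * (a * c0) = c0⁻¹ * (a⁻¹ * x * a * c0) := by group
      _ = c0⁻¹ * (c0 * x) := by rw [e]
      _ = x := by group
  refine ⟨a * c0, ?_, l.length, l.get, ?_, ?_, ?_⟩
  · rw [Subgroup.mem_centralizer_iff]
    intro x hx
    have h2 := hcx x hx
    calc x * (a * c0) = (a * c0) * ((a * c0)⁻¹ * x * (a * c0)) := by group
      _ = a * c0 * x := by rw [h2]
  · intro i
    have h2 := hl (l.get i) (List.get_mem _ _)
    rw [hNs] at h2
    rcases h2 with h | h
    · exact Or.inl ⟨Subgroup.mem_top _, h⟩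
    · exact Or.inr ⟨Subgroup.mem_top _, h⟩
  · rw [List.ofFn_get, hlprod]; group
  · intro k hk
    rw [List.ofFn_get]
    rintro _ ⟨_, ⟨x, hx, rfl⟩, rfl⟩
    show ((l.take k).prod)⁻¹ * ((a * c0)⁻¹ * x * (a * c0)) * (l.take k).prod ∈ _
    rw [hcx x hx]
    exact hlimg k hk x hx

end Cfsg.Agent.S2002
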