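import Cfsg.Statements.S2010
-- import your own Cfsg.Agent.* helpers here
import Cfsg.Agent.Lib.helper15.JE2b
import Cfsg.Agent.Lib.helper3.ThompsonFact
import Cfsg.Agent.Lib.helper9.PPrimeCore
import Cfsg.Agent.Lib.helper14.S4Inv

set_option autoImplicit false
open Cfsg

namespace Cfsg.Agent.S2010

/-- Let G be a finite solvable group with no section isomorphic to the symmetric group of degree 4, whose Sylow 2-subgroup S has nilpotency class at most 2. Then G = N_G(J_e(S)) · O_{2'}(G), where J_e(S) is the subgroup generated by the elementary abelian subgroups of S of largest order. -/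
theorem result {G : Type*} [Group G] [Finite G]
    [Group.IsSolvable G] (hS4 : ¬ Cfsg.Involves (Equiv.Perm (Fin 4)) G) (S : Sylow 2 G)
    (hcl : Subgroup.lowerCentralSeries (S : Subgroup G) 2 = ⊥) :
    Subgroup.normalizer ((Cfsg.thompsonSubgroupOf 2 (S : Subgroup G)) : Set G) ⊔ Cfsg.pPrimeCore 2 G = ⊤ := by
  classical
  haveI : Fact (Nat.Prime 2) := ⟨Nat.prime_two⟩
  haveI hn : (Cfsg.pPrimeCore 2 G).Normal := Cfsg.Agent.Lib.helper9.ppc_normal 2 G
  have hcop : (Nat.card (Cfsg.pPrimeCore 2 G)).Coprime 2 :=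
    Cfsg.Agent.Lib.helper9.pPrimeCore_coprime 2 G
  have hQbot : Cfsg.pPrimeCore 2 (G ⧸ Cfsg.pPrimeCore 2 G) = ⊥ :=
    Cfsg.Agent.Lib.helper9.pPrimeCore_quotient_eq_bot 2 G
  obtain ⟨f, hf⟩ : ∃ f : G →* G ⧸ Cfsg.pPrimeCore 2 G, f = QuotientGroup.mk' (Cfsg.pPrimeCore 2 G) :=
    ⟨_, rfl⟩
  have hfs : Function.Surjective f := by rw [hf]; exact QuotientGroup.mk'_surjective _
  have hfker : f.ker = Cfsg.pPrimeCore 2 G := by rw [hf]; exact QuotientGroup.ker_mk' _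
  obtain ⟨T, hTdef⟩ : ∃ T : Sylow 2 (G ⧸ Cfsg.pPrimeCore 2 G), T = S.mapSurjective hfs := ⟨_, rfl⟩
  have hT : (T : Subgroup (G ⧸ Cfsg.pPrimeCore 2 G)) = (S : Subgroup G).map f := by
    rw [hTdef]; exact Sylow.coe_mapSurjective hfs S
  have hS4' : ¬ Cfsg.Involves (Equiv.Perm (Fin 4)) (G ⧸ Cfsg.pPrimeCore 2 G) := fun h =>
    hS4 (Cfsg.Agent.Lib.helper14.involves_of_surjective_hom f hfs h)
  have hcl0 : ⁅⁅(S : Subgroup G), (S : Subgroup G)⁆, (S : Subgroup G)⁆ = ⊥ := hcl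
  have hcl' : ⁅⁅(T : Subgroup (G ⧸ Cfsg.pPrimeCore 2 G)), (T : Subgroup (G ⧸ Cfsg.pPrimeCore 2 G))⁆,
      (T : Subgroup (G ⧸ Cfsg.pPrimeCore 2 G))⁆ = ⊥ := by
    rw [hT, ← Subgroup.map_commutator, ← Subgroup.map_commutator, hcl0, Subgroup.map_bot]
  have hnorm := Cfsg.Agent.Lib.helper15.JE.thompson_normal_of hQbot hS4' T hcl'
  have hSker : (S : Subgroup G) ⊓ f.ker = ⊥ := by
    rw [hfker]
    have h1 : Nat.card ↥((S : Subgroup G) ⊓ Cfsg.pPrimeCore 2 G : Subgroup G) ∣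
        Nat.card (S : Subgroup G) := Subgroup.card_dvd_of_le inf_le_left
    have h2 : Nat.card ↥((S : Subgroup G) ⊓ Cfsg.pPrimeCore 2 G : Subgroup G) ∣
        Nat.card (Cfsg.pPrimeCore 2 G) := Subgroup.card_dvd_of_le inf_le_right
    obtain ⟨n, hn⟩ := (IsPGroup.iff_card.mp S.isPGroup')
    rw [hn] at h1
    have h3 : (Nat.card (Cfsg.pPrimeCore 2 G)).Coprime (2 ^ n) := Nat.Coprime.pow_right n hcop
    have h4 : Nat.card ↥((S : Subgroup G) ⊓ Cfsg.pPrimeCore 2 G : Subgroup G) = 1 :=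
      Nat.eq_one_of_dvd_coprimes h3 h2 h1
    exact Subgroup.eq_bot_of_card_eq _ h4
  rw [hT, Cfsg.Agent.Lib.helper3.thompsonSubgroupOf_map 2 f (S : Subgroup G) hSker] at hnorm
  have hJ : IsPGroup 2 (Cfsg.thompsonSubgroupOf 2 (S : Subgroup G)) :=
    S.isPGroup'.to_le (Cfsg.Agent.Lib.helper3.thompsonSubgroupOf_le S)
  rw [eq_top_iff]
  intro g _
  have hg : f g ∈ Subgroup.normalizer
      (((Cfsg.thompsonSubgroupOf 2 (S : Subgroup G)).map f : Subgroup _) : Set _) := by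
    rw [Subgroup.normalizer_eq_top_iff.mpr hnorm]
    exact Subgroup.mem_top _
  have hcop' : (Nat.card f.ker).Coprime 2 := by rw [hfker]; exact hcop
  obtain ⟨n', hn', hfn'⟩ := Cfsg.Agent.Lib.helper3.lift_normalizer f hcop'
    (Cfsg.thompsonSubgroupOf 2 (S : Subgroup G)) hJ g hg
  have hk : n'⁻¹ * g ∈ Cfsg.pPrimeCore 2 G := by
    rw [← hfker, MonoidHom.mem_ker, map_mul, map_inv, hfn', inv_mul_cancel]
  have : g = n' * (n'⁻¹ * g) := by group
  rw [this]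
  exact Subgroup.mul_mem_sup hn' hk


end Cfsg.Agent.S2010
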