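import Cfsg.Statements.S2015
import Cfsg.Agent.Lib.helper10.KTransfer

set_option autoImplicit false
universe u
open Cfsg

namespace Cfsg.Agent.S2015

open Cfsg.Agent.Lib.helper10

/-- For p ≥ 5, every finite p-group P has a characteristic subgroup K containing Z(P), depending only on P, whose normalizer controls transfer wherever P is a Sylow subgroup: for every finite group G and every embedding ι of P onto a Sylow p-subgroup of G, the intersection of ι(P) with the derived subgroup of G equals its intersection with the derived subgroup of N_G(ι(K)). -/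
theorem result (p : ℕ) [Fact p.Prime] (hp : 5 ≤ p) (P : Type u) [Group P] [Finite P] (hP : IsPGroup p P) : ∃ K : Subgroup P, K.Characteristic ∧ Subgroup.center P ≤ K ∧ ∀ (G : Type u) [Group G] [Finite G] (ι : P →* G), Function.Injective ι → (∃ T : Sylow p G, (T : Subgroup G) = ι.range) → ι.range ⊓ commutator G = ι.range ⊓ (commutator ↥(Subgroup.normalizer ((K.map ι : Subgroup G) : Set G))).map (Subgroup.normalizer ((K.map ι : Subgroup G) : Set G)).subtype := by
  classical
  have hW : Cfsg.IsCharPFunctor.{u} p (fun (Q : Type u) [Group Q] => Cfsg.kInfLower Q) :=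
    isCharPFunctor_kInfLower p
  refine ⟨Cfsg.kInfLower P, ?_, center_le_kInfLower hP, ?_⟩
  · rw [Subgroup.characteristic_iff_map_eq]
    intro φ
    exact hW.2 P P hP φ
  · intro G _ _ ι hinj hT
    obtain ⟨T, hT⟩ := hT
    have hTp : IsPGroup p (T : Subgroup G) := T.2
    have hall := engel_sections_norm_family (G := G) (p := p)
      (fun (Q : Type u) [Group Q] => Cfsg.kInfLower Q) hW (by
        intro K R hR hC T hnn
        exact kinf_norm_element hp (fun (Q : Type u) [Group Q] => Cfsg.kInfLower Q) hW
          (fun Q _ _ hQ P' h => kInfLower_hS Q hQ P' h) T hnn)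
    have hfam := control_of_top_bot _ (isChar_singleton _ hW) (fun K R hR => hall _ K R rfl)
    have hfoc := (control_top_iff _ (isChar_singleton _ hW) T).1 hfam
    unfold focalTarget at hfoc
    rw [iSup_singleton] at hfoc
    -- identify the functor value with the image of `K`
    obtain ⟨e, he⟩ : ∃ e : P ≃* ↥(T : Subgroup G), ∀ x : P, ((e x : ↥(T : Subgroup G)) : G) = ι x := by
      refine ⟨(MonoidHom.ofInjective hinj).trans (MulEquiv.subgroupCongr hT.symm), ?_⟩
      intro x
      rfl
    have hKmap : (Cfsg.kInfLower P).map ι =
        Cfsg.inducedFunctor (G := G) (fun (Q : Type u) [Group Q] => Cfsg.kInfLower Q)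
          (T : Subgroup G) := by
      unfold Cfsg.inducedFunctor
      have h1 := hW.2 P ↥(T : Subgroup G) hP e
      rw [← h1, Subgroup.map_map]
      congr 1
      ext x
      exact (he x).symm
    rw [← hT, hKmap, Subgroup.map_subtype_commutator]
    refine le_antisymm ?_ ?_
    · exact hfoc
    · refine inf_le_inf_left _ ?_
      rw [commutator_def]
      exact Subgroup.commutator_mono le_top le_top

end Cfsg.Agent.S2015
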