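import Cfsg.Statements.S2162


set_option autoImplicit false
open Cfsg

namespace Cfsg.Agent.S2162

open Module

/-- normal form basis for a square-zero endomorphism -/
theorem nf {F V : Type*} [Field F] [AddCommGroup V] [Module F V] [FiniteDimensional F V]
    (T : V →ₗ[F] V) (hT : ∀ v, T (T v) = 0) (ℓ m : ℕ)
    (hℓ : finrank F (LinearMap.range T) = ℓ) (hm : finrank F V = ℓ + (m + ℓ)) :
    ∃ b : Basis (Fin ℓ ⊕ (Fin m ⊕ Fin ℓ)) F V,
      (∀ i, T (b (Sum.inl i)) = b (Sum.inr (Sum.inr i))) ∧ (∀ j, T (b (Sum.inr j)) = 0) := by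
  classical
  have hRK : LinearMap.range T ≤ LinearMap.ker T := by
    rintro _ ⟨v, rfl⟩
    exact LinearMap.mem_ker.mpr (hT v)
  have hK : finrank F (LinearMap.ker T) = m + ℓ := by
    have := LinearMap.finrank_range_add_finrank_ker T
    omega
  obtain ⟨D, hD⟩ := Submodule.exists_isCompl (LinearMap.range T)
  set C := D ⊓ LinearMap.ker T with hCdef
  have hRC : LinearMap.range T ⊓ C = ⊥ := by
    rw [hCdef, ← inf_assoc, hD.inf_eq_bot, bot_inf_eq]
  have hRCs : LinearMap.range T ⊔ C = LinearMap.ker T := by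
    rw [hCdef, ← sup_inf_assoc_of_le D hRK, hD.sup_eq_top, top_inf_eq]
  have hCK : C ≤ LinearMap.ker T := inf_le_right
  have hCm : finrank F C = m := by
    have := Submodule.finrank_sup_add_finrank_inf_eq (LinearMap.range T) C
    rw [hRCs, hRC, finrank_bot, hK, hℓ] at this
    omega
  let bR : Basis (Fin ℓ) F (LinearMap.range T) := finBasisOfFinrankEq F _ hℓ
  let bC : Basis (Fin m) F C := finBasisOfFinrankEq F _ hCm
  have hex : ∀ i, ∃ v, T v = (bR i : V) := fun i => LinearMap.mem_range.mp (bR i).2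
  choose v hv using hex
  let f : Fin ℓ ⊕ (Fin m ⊕ Fin ℓ) → V :=
    Sum.elim v (Sum.elim (fun j => (bC j : V)) (fun i => (bR i : V)))
  have hwli : LinearIndependent F (fun i => (bR i : V)) :=
    bR.linearIndependent.map' (LinearMap.range T).subtype (Submodule.ker_subtype _)
  have huli : LinearIndependent F (fun j => (bC j : V)) :=
    bC.linearIndependent.map' C.subtype (Submodule.ker_subtype _)
  have hli : LinearIndependent F f := by
    rw [Fintype.linearIndependent_iff]
    intro g hg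
    rw [Fintype.sum_sum_type, Fintype.sum_sum_type] at hg
    simp only [f, Sum.elim_inl, Sum.elim_inr] at hg
    -- apply T
    have h1 : ∑ i, g (Sum.inl i) • (bR i : V) = 0 := by
      have h := congrArg T hg
      rw [map_add, map_add, map_sum, map_sum, map_sum, map_zero] at h
      have e1 : ∑ j, T (g (Sum.inr (Sum.inl j)) • (bC j : V)) = 0 := by
        apply Finset.sum_eq_zero
        intro j _
        rw [map_smul, LinearMap.mem_ker.mp (hCK (bC j).2), smul_zero]
      have e2 : ∑ i, T (g (Sum.inr (Sum.inr i)) • (bR i : V)) = 0 := by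
        apply Finset.sum_eq_zero
        intro i _
        rw [map_smul, LinearMap.mem_ker.mp (hRK (bR i).2), smul_zero]
      rw [e1, e2, add_zero, add_zero] at h
      rw [← h]
      apply Finset.sum_congr rfl
      intro i _
      rw [map_smul, hv]
    have hg0 : ∀ i, g (Sum.inl i) = 0 := Fintype.linearIndependent_iff.mp hwli _ h1
    have hz : ∑ i, g (Sum.inl i) • v i = 0 := by
      apply Finset.sum_eq_zero
      intro i _
      rw [hg0, zero_smul]
    rw [hz, zero_add] at hg
    have hX : ∑ j, g (Sum.inr (Sum.inl j)) • (bC j : V) ∈ C :=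
      Submodule.sum_mem _ (fun j _ => Submodule.smul_mem _ _ (bC j).2)
    have hY : ∑ i, g (Sum.inr (Sum.inr i)) • (bR i : V) ∈ LinearMap.range T :=
      Submodule.sum_mem _ (fun i _ => Submodule.smul_mem _ _ (bR i).2)
    have hXY : ∑ j, g (Sum.inr (Sum.inl j)) • (bC j : V) =
        -∑ i, g (Sum.inr (Sum.inr i)) • (bR i : V) := eq_neg_of_add_eq_zero_left hg
    have hX0 : ∑ j, g (Sum.inr (Sum.inl j)) • (bC j : V) = 0 := by
      have hmem : ∑ j, g (Sum.inr (Sum.inl j)) • (bC j : V) ∈ LinearMap.range T ⊓ C :=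
        ⟨by rw [hXY]; exact Submodule.neg_mem _ hY, hX⟩
      rw [hRC] at hmem
      exact (Submodule.mem_bot F).mp hmem
    have hY0 : ∑ i, g (Sum.inr (Sum.inr i)) • (bR i : V) = 0 := by
      rw [hX0] at hXY
      exact neg_eq_zero.mp hXY.symm
    have hgu := Fintype.linearIndependent_iff.mp huli _ hX0
    have hgw := Fintype.linearIndependent_iff.mp hwli _ hY0
    rintro (i | j | i)
    · exact hg0 i
    · exact hgu j
    · exact hgw i
  by_cases hne : Nonempty (Fin ℓ ⊕ (Fin m ⊕ Fin ℓ))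
  · have hcard : Fintype.card (Fin ℓ ⊕ (Fin m ⊕ Fin ℓ)) = finrank F V := by
      simp [hm]
    refine ⟨basisOfLinearIndependentOfCardEqFinrank hli hcard, ?_, ?_⟩
    · intro i
      rw [coe_basisOfLinearIndependentOfCardEqFinrank]
      exact hv i
    · intro j
      rw [coe_basisOfLinearIndependentOfCardEqFinrank]
      rcases j with j | i
      · exact LinearMap.mem_ker.mp (hCK (bC j).2)
      · exact LinearMap.mem_ker.mp (hRK (bR i).2)
  · rw [not_nonempty_iff] at hne
    have hℓ0 : ℓ = 0 := by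
      by_contra h0
      exact hne.false (Sum.inl ⟨0, Nat.pos_of_ne_zero h0⟩)
    have hm0 : m = 0 := by
      by_contra h0
      exact hne.false (Sum.inr (Sum.inl ⟨0, Nat.pos_of_ne_zero h0⟩))
    have hV : finrank F V = 0 := by omega
    have : Subsingleton V := finrank_zero_iff.mp hV
    refine ⟨Basis.empty V, ?_, ?_⟩
    · intro i; exact Subsingleton.elim _ _
    · intro j; exact Subsingleton.elim _ _


theorem conj_lin {F V : Type*} [Field F] [AddCommGroup V] [Module F V] [FiniteDimensional F V]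
    (hsq : ∀ x : F, ∃ s : F, s * s = x)
    (T₁ T₂ : V →ₗ[F] V) (h1 : ∀ v, T₁ (T₁ v) = 0) (h2 : ∀ v, T₂ (T₂ v) = 0)
    (hr : finrank F (LinearMap.range T₁) = finrank F (LinearMap.range T₂)) :
    ∃ φ : V ≃ₗ[F] V, (∀ v, φ (T₁ v) = T₂ (φ v)) ∧ LinearMap.det (φ : V →ₗ[F] V) = 1 := by
  classical
  obtain ⟨ℓ, hℓ⟩ : ∃ ℓ, finrank F (LinearMap.range T₁) = ℓ := ⟨_, rfl⟩
  have hle : ℓ + ℓ ≤ finrank F V := by
    have h3 := LinearMap.finrank_range_add_finrank_ker T₁
    have hRK : LinearMap.range T₁ ≤ LinearMap.ker T₁ := by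
      rintro _ ⟨v, rfl⟩
      exact LinearMap.mem_ker.mpr (h1 v)
    have h4 := Submodule.finrank_mono hRK
    omega
  obtain ⟨m, hm⟩ : ∃ m, finrank F V = ℓ + (m + ℓ) := ⟨finrank F V - (ℓ + ℓ), by omega⟩
  obtain ⟨b₁, hb₁, hb₁'⟩ := nf T₁ h1 ℓ m hℓ hm
  obtain ⟨b₂, hb₂, hb₂'⟩ := nf T₂ h2 ℓ m (hr.symm.trans hℓ) hm
  by_cases hℓ0 : ℓ = 0
  · have e1 : ∀ v, T₁ v = 0 := by
      intro v
      have hbot : LinearMap.range T₁ = ⊥ := Submodule.finrank_eq_zero.mp (hℓ.trans hℓ0)
      have : T₁ v ∈ LinearMap.range T₁ := LinearMap.mem_range_self T₁ v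
      rw [hbot] at this
      exact (Submodule.mem_bot F).mp this
    have e2 : ∀ v, T₂ v = 0 := by
      intro v
      have hbot : LinearMap.range T₂ = ⊥ := Submodule.finrank_eq_zero.mp ((hr.symm.trans hℓ).trans hℓ0)
      have : T₂ v ∈ LinearMap.range T₂ := LinearMap.mem_range_self T₂ v
      rw [hbot] at this
      exact (Submodule.mem_bot F).mp this
    refine ⟨LinearEquiv.refl F V, fun v => ?_, ?_⟩
    · rw [e1, e2, map_zero]
    · exact LinearMap.det_id
  · let i₀ : Fin ℓ := ⟨0, Nat.pos_of_ne_zero hℓ0⟩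
    have hD : IsUnit (b₁.det b₂) := b₁.isUnit_det b₂
    obtain ⟨s, hs⟩ := hsq (b₁.det b₂)⁻¹
    have hs0 : s ≠ 0 := by
      rintro rfl
      rw [mul_zero] at hs
      exact (inv_ne_zero hD.ne_zero) hs.symm
    let u : Fˣ := Units.mk0 s hs0
    let c : Fin ℓ ⊕ (Fin m ⊕ Fin ℓ) → Fˣ :=
      Sum.elim (fun i => if i = i₀ then u else 1)
        (Sum.elim (fun _ => 1) (fun i => if i = i₀ then u else 1))
    have hφ : ∀ x, (b₁.equiv (b₂.unitsSMul c) (Equiv.refl _)) (b₁ x) = c x • b₂ x := by
      intro x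
      rw [Basis.equiv_apply, Equiv.refl_apply, Basis.unitsSMul_apply]
    refine ⟨b₁.equiv (b₂.unitsSMul c) (Equiv.refl _), ?_, ?_⟩
    · have hcomp : ((b₁.equiv (b₂.unitsSMul c) (Equiv.refl _)) : V →ₗ[F] V) ∘ₗ T₁ =
          T₂ ∘ₗ ((b₁.equiv (b₂.unitsSMul c) (Equiv.refl _)) : V →ₗ[F] V) := by
        apply b₁.ext
        intro x
        simp only [LinearMap.comp_apply, LinearEquiv.coe_coe]
        rcases x with i | j
        · rw [hb₁ i, hφ, hφ, Units.smul_def, Units.smul_def, map_smul, hb₂ i]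
          rfl
        · rw [hb₁' j, map_zero, hφ, Units.smul_def, map_smul, hb₂' j, smul_zero]
      intro v
      exact congrArg (fun f : V →ₗ[F] V => f v) hcomp
    · rw [Basis.det_basis]
      have hcoe : ⇑(b₂.unitsSMul c) = fun x => (c x : F) • b₂ x := by
        funext x
        rw [Basis.unitsSMul_apply, Units.smul_def]
      rw [hcoe, AlternatingMap.map_smul_univ]
      have hprod : ∏ x, ((c x : Fˣ) : F) = s * s := by
        rw [Fintype.prod_sum_type, Fintype.prod_sum_type]
        simp only [c, Sum.elim_inl, Sum.elim_inr]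
        have e : ∀ i : Fin ℓ, (((if i = i₀ then u else 1 : Fˣ)) : F) = if i = i₀ then s else 1 := by
          intro i
          split_ifs <;> rfl
        simp only [e, Finset.prod_ite_eq', Finset.mem_univ, if_true, Units.val_one,
          Finset.prod_const_one, one_mul]
      rw [hprod, hs, smul_eq_mul, inv_mul_cancel₀ hD.ne_zero]


theorem sq_zero {F : Type*} [Field F] [CharP F 2] {n : ℕ}
    (g : Matrix.SpecialLinearGroup (Fin n) F) (hg : orderOf g = 2) :
    ((g : Matrix (Fin n) (Fin n) F) - 1) * ((g : Matrix (Fin n) (Fin n) F) - 1) = 0 := by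
  have hg2 : g * g = 1 := by
    rw [← pow_two, ← hg]
    exact pow_orderOf_eq_one g
  have hg2' : (g : Matrix (Fin n) (Fin n) F) * (g : Matrix (Fin n) (Fin n) F) = 1 := by
    rw [← Matrix.SpecialLinearGroup.coe_mul, hg2, Matrix.SpecialLinearGroup.coe_one]
  rw [sub_mul, mul_sub, mul_sub, hg2', mul_one, one_mul, mul_one]
  ext i j
  simp only [Matrix.sub_apply, Matrix.zero_apply]
  have h1 := CharTwo.add_self_eq_zero ((1 : Matrix (Fin n) (Fin n) F) i j)
  have h2 := CharTwo.add_self_eq_zero ((g : Matrix (Fin n) (Fin n) F) i j)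
  linear_combination h1 - h2

theorem main {F : Type*} [Field F] [Fintype F] [CharP F 2] {n : ℕ}
    (a b : Matrix.SpecialLinearGroup (Fin n) F) (ha : orderOf a = 2) (hb : orderOf b = 2) :
    IsConj a b ↔ ((a : Matrix (Fin n) (Fin n) F) - 1).rank =
      ((b : Matrix (Fin n) (Fin n) F) - 1).rank := by
  constructor
  · intro h
    obtain ⟨c, hc⟩ := isConj_iff.mp h
    have hcc : (c : Matrix (Fin n) (Fin n) F) * ((c⁻¹ : Matrix.SpecialLinearGroup (Fin n) F) :
        Matrix (Fin n) (Fin n) F) = 1 := by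
      rw [← Matrix.SpecialLinearGroup.coe_mul, mul_inv_cancel, Matrix.SpecialLinearGroup.coe_one]
    have e : (b : Matrix (Fin n) (Fin n) F) - 1 = (c : Matrix (Fin n) (Fin n) F) *
        ((a : Matrix (Fin n) (Fin n) F) - 1) *
        ((c⁻¹ : Matrix.SpecialLinearGroup (Fin n) F) : Matrix (Fin n) (Fin n) F) := by
      rw [← hc, Matrix.SpecialLinearGroup.coe_mul, Matrix.SpecialLinearGroup.coe_mul, mul_sub,
        sub_mul, mul_one, hcc]
    have u1 : IsUnit (((c⁻¹ : Matrix.SpecialLinearGroup (Fin n) F) :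
        Matrix (Fin n) (Fin n) F)).det := by
      rw [Matrix.SpecialLinearGroup.det_coe]; exact isUnit_one
    have u2 : IsUnit ((c : Matrix (Fin n) (Fin n) F)).det := by
      rw [Matrix.SpecialLinearGroup.det_coe]; exact isUnit_one
    rw [e, Matrix.rank_mul_eq_left_of_isUnit_det _ _ u1,
      Matrix.rank_mul_eq_right_of_isUnit_det _ _ u2]
  · intro hrank
    have hsq : ∀ x : F, ∃ s : F, s * s = x := fun x => by
      obtain ⟨s, hs⟩ := FiniteField.isSquare_of_char_two (ringChar.eq F 2) x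
      exact ⟨s, hs.symm⟩
    have h1 : ∀ v, Matrix.toLin' ((a : Matrix (Fin n) (Fin n) F) - 1)
        (Matrix.toLin' ((a : Matrix (Fin n) (Fin n) F) - 1) v) = 0 := by
      intro v
      rw [← LinearMap.comp_apply, ← Matrix.toLin'_mul, sq_zero a ha]
      simp
    have h2 : ∀ v, Matrix.toLin' ((b : Matrix (Fin n) (Fin n) F) - 1)
        (Matrix.toLin' ((b : Matrix (Fin n) (Fin n) F) - 1) v) = 0 := by
      intro v
      rw [← LinearMap.comp_apply, ← Matrix.toLin'_mul, sq_zero b hb]
      simp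
    have hr : finrank F (LinearMap.range (Matrix.toLin' ((a : Matrix (Fin n) (Fin n) F) - 1))) =
        finrank F (LinearMap.range (Matrix.toLin' ((b : Matrix (Fin n) (Fin n) F) - 1))) := by
      rw [Matrix.toLin'_apply', Matrix.toLin'_apply']
      exact hrank
    obtain ⟨φ, hφ, hdet⟩ := conj_lin hsq _ _ h1 h2 hr
    have hHdet : (LinearMap.toMatrix' (φ : (Fin n → F) →ₗ[F] (Fin n → F))).det = 1 := by
      rw [LinearMap.det_toMatrix']; exact hdet
    have hcomm : LinearMap.toMatrix' (φ : (Fin n → F) →ₗ[F] (Fin n → F)) *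
        ((a : Matrix (Fin n) (Fin n) F) - 1) =
        ((b : Matrix (Fin n) (Fin n) F) - 1) *
          LinearMap.toMatrix' (φ : (Fin n → F) →ₗ[F] (Fin n → F)) := by
      have h3 : (φ : (Fin n → F) →ₗ[F] (Fin n → F)) ∘ₗ
          Matrix.toLin' ((a : Matrix (Fin n) (Fin n) F) - 1) =
          Matrix.toLin' ((b : Matrix (Fin n) (Fin n) F) - 1) ∘ₗ
            (φ : (Fin n → F) →ₗ[F] (Fin n → F)) := LinearMap.ext (fun v => hφ v)
      have h4 := congrArg LinearMap.toMatrix' h3
      rwa [LinearMap.toMatrix'_comp, LinearMap.toMatrix'_comp, LinearMap.toMatrix'_toLin',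
        LinearMap.toMatrix'_toLin'] at h4
    have hcomm' : LinearMap.toMatrix' (φ : (Fin n → F) →ₗ[F] (Fin n → F)) *
        (a : Matrix (Fin n) (Fin n) F) =
        (b : Matrix (Fin n) (Fin n) F) *
          LinearMap.toMatrix' (φ : (Fin n → F) →ₗ[F] (Fin n → F)) := by
      rw [mul_sub, sub_mul, mul_one, one_mul] at hcomm
      exact sub_left_injective hcomm
    let h : Matrix.SpecialLinearGroup (Fin n) F :=
      ⟨LinearMap.toMatrix' (φ : (Fin n → F) →ₗ[F] (Fin n → F)), hHdet⟩
    rw [isConj_iff]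
    refine ⟨h, ?_⟩
    have hmul : h * a = b * h := by
      apply Subtype.ext
      rw [Matrix.SpecialLinearGroup.coe_mul, Matrix.SpecialLinearGroup.coe_mul]
      exact hcomm'
    rw [hmul]
    group


/-- Conjugacy of involutions in the special linear group over a finite field of characteristic two, in dimension at least 3: two elements of order 2 of SL_n(F) are conjugate in SL_n(F) exactly when the matrices a − 1 and b − 1 have the same rank (the rank of a − 1 is the dimension of the commutator space [V, a]). -/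
theorem result {F : Type*} [Field F] [Fintype F] [CharP F 2] {n : ℕ} (hn : 3 ≤ n) (a b : Matrix.SpecialLinearGroup (Fin n) F) (ha : orderOf a = 2) (hb : orderOf b = 2) :
    IsConj a b ↔ ((a : Matrix (Fin n) (Fin n) F) - 1).rank = ((b : Matrix (Fin n) (Fin n) F) - 1).rank := by
  exact main a b ha hb

end Cfsg.Agent.S2162
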