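import Cfsg.Statements.S2163


set_option autoImplicit false
open Cfsg

namespace Cfsg.Agent.S2163

/-- the nilpotent part -/
def nmat (F : Type*) [Field F] (n ℓ : ℕ) : Matrix (Fin n) (Fin n) F :=
  Matrix.of (fun i j : Fin n => if j.val < ℓ ∧ i.val = j.val + (n - ℓ) then (1 : F) else 0)

theorem nmat_sq (F : Type*) [Field F] (n ℓ : ℕ) (h2 : 2 * ℓ ≤ n) :
    nmat F n ℓ * nmat F n ℓ = 0 := by
  ext i k
  rw [Matrix.mul_apply]
  apply Finset.sum_eq_zero
  intro j _
  simp only [nmat, Matrix.of_apply]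
  split_ifs with ha hb
  · exfalso; omega
  · simp
  · simp
  · simp

theorem nmat_det (F : Type*) [Field F] (n ℓ : ℕ) (h1 : 1 ≤ ℓ) (h2 : 2 * ℓ ≤ n) :
    (1 + nmat F n ℓ).det = 1 := by
  have htri : (1 + nmat F n ℓ).BlockTriangular OrderDual.toDual := by
    intro i j hij
    have hij' : i < j := hij
    have hne : i ≠ j := ne_of_lt hij'
    rw [Matrix.add_apply, Matrix.one_apply_ne hne, zero_add]
    simp only [nmat, Matrix.of_apply]
    rw [if_neg]
    rintro ⟨h3, h4⟩
    have : i.val < j.val := hij'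
    omega
  rw [Matrix.det_of_isLowerTriangular _ htri]
  apply Finset.prod_eq_one
  intro i _
  rw [Matrix.add_apply, Matrix.one_apply_eq]
  simp only [nmat, Matrix.of_apply]
  rw [if_neg, add_zero]
  rintro ⟨h3, h4⟩
  omega

theorem nmat_rank (F : Type*) [Field F] (n ℓ : ℕ) (h1 : 1 ≤ ℓ) (h2 : 2 * ℓ ≤ n) :
    (nmat F n ℓ).rank = ℓ := by
  classical
  apply le_antisymm
  · rw [← Matrix.rank_transpose]
    have h := Matrix.rank_le_card_of_support_subset (nmat F n ℓ).transpose
      (Finset.univ.filter (fun j : Fin n => (j : ℕ) < ℓ)) (by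
        intro j hj
        simp only [Function.mem_support, ne_eq] at hj
        simp only [Finset.coe_filter, Finset.mem_univ, true_and, Set.mem_ofPred_eq]
        by_contra hlt
        apply hj
        funext i
        simp only [Matrix.row, Matrix.transpose_apply, nmat, Matrix.of_apply, Pi.zero_apply]
        rw [if_neg]
        rintro ⟨h3, h4⟩
        exact hlt h3)
    rw [Fin.card_filter_val_lt] at h
    exact h.trans (min_le_right _ _)
  · have h := Matrix.rank_submatrix_le (nmat F n ℓ)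
      (fun j : Fin ℓ => (⟨j.val + (n - ℓ), by omega⟩ : Fin n))
      (fun j : Fin ℓ => (⟨j.val, by omega⟩ : Fin n))
    have h3 : (nmat F n ℓ).submatrix (fun j : Fin ℓ => (⟨j.val + (n - ℓ), by omega⟩ : Fin n))
        (fun j : Fin ℓ => (⟨j.val, by omega⟩ : Fin n)) = 1 := by
      ext i j
      simp only [Matrix.submatrix_apply, nmat, Matrix.of_apply, Matrix.one_apply]
      by_cases hij : i = j
      · subst hij; simp
      · rw [if_neg hij, if_neg]
        rintro ⟨h4, h5⟩
        apply hij
        apply Fin.ext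
        omega
    rw [h3, Matrix.rank_one, Fintype.card_fin] at h
    exact h

theorem main {F : Type*} [Field F] [Fintype F] [CharP F 2] {n : ℕ} (hn : 3 ≤ n) (ℓ : ℕ)
    (h1 : 1 ≤ ℓ) (h2 : 2 * ℓ ≤ n) :
    ∃ a : Matrix.SpecialLinearGroup (Fin n) F, (a : Matrix (Fin n) (Fin n) F) = 1 + nmat F n ℓ ∧
      orderOf a = 2 ∧ ((a : Matrix (Fin n) (Fin n) F) - 1).rank = ℓ := by
  let a : Matrix.SpecialLinearGroup (Fin n) F := ⟨1 + nmat F n ℓ, nmat_det F n ℓ h1 h2⟩
  have ha : (a : Matrix (Fin n) (Fin n) F) = 1 + nmat F n ℓ := rfl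
  refine ⟨a, ha, ?_, ?_⟩
  · have : Fact (Nat.Prime 2) := ⟨Nat.prime_two⟩
    apply orderOf_eq_prime
    · apply Subtype.ext
      rw [pow_two, Matrix.SpecialLinearGroup.coe_mul, Matrix.SpecialLinearGroup.coe_one, ha]
      rw [mul_add, add_mul, add_mul, nmat_sq F n ℓ h2, one_mul, mul_one, one_mul, add_zero,
        add_assoc]
      have : nmat F n ℓ + nmat F n ℓ = 0 := by
        ext i j
        rw [Matrix.add_apply]
        exact CharTwo.add_self_eq_zero _
      rw [this, add_zero]
    · intro h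
      have h3 : (a : Matrix (Fin n) (Fin n) F) ⟨n - ℓ, by omega⟩ ⟨0, by omega⟩ =
          (1 : Matrix (Fin n) (Fin n) F) ⟨n - ℓ, by omega⟩ ⟨0, by omega⟩ := by
        rw [h]; rfl
      have h4 : ((⟨n - ℓ, by omega⟩ : Fin n)) ≠ ⟨0, by omega⟩ := by
        intro h5
        have := congrArg Fin.val h5
        simp only at this
        omega
      rw [ha, Matrix.add_apply, Matrix.one_apply_ne h4] at h3
      simp [nmat] at h3
      omega
  · rw [ha, add_sub_cancel_left]
    exact nmat_rank F n ℓ h1 h2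


/-- Over a finite field of characteristic two and for n ≥ 3: for every ℓ with 1 ≤ ℓ and 2ℓ ≤ n, the matrix j_ℓ that is the identity plus the entries 1 in positions (n − ℓ + i, i) for i < ℓ (an identity block of size ℓ in the lower left corner) lies in SL_n(F), has order 2, and j_ℓ − 1 has rank ℓ. Together with the conjugacy criterion by rank, these matrices represent the conjugacy classes of involutions of SL_n(F). -/
theorem result {F : Type*} [Field F] [Fintype F] [CharP F 2] {n : ℕ} (hn : 3 ≤ n) (ℓ : ℕ) (h1 : 1 ≤ ℓ) (h2 : 2 * ℓ ≤ n) :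
    ∃ a : Matrix.SpecialLinearGroup (Fin n) F, (a : Matrix (Fin n) (Fin n) F) = 1 + Matrix.of (fun i j : Fin n => if j.val < ℓ ∧ i.val = j.val + (n - ℓ) then (1 : F) else 0) ∧ orderOf a = 2 ∧ ((a : Matrix (Fin n) (Fin n) F) - 1).rank = ℓ := by
  exact main hn ℓ h1 h2

end Cfsg.Agent.S2163
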