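import Cfsg.Statements.S2165


set_option autoImplicit false
open Cfsg

namespace Cfsg.Agent.S2165

/-- the swap function -/
def sfun (n ℓ : ℕ) (h2 : 2 * ℓ ≤ n) (i : Fin n) : Fin n :=
  if h : i.val < ℓ then ⟨i.val + (n - ℓ), by omega⟩
  else if h' : n - ℓ ≤ i.val then ⟨i.val - (n - ℓ), by omega⟩
  else i

theorem sfun_val (n ℓ : ℕ) (h2 : 2 * ℓ ≤ n) (i : Fin n) :
    (sfun n ℓ h2 i).val = if i.val < ℓ then i.val + (n - ℓ)
      else if n - ℓ ≤ i.val then i.val - (n - ℓ) else i.val := by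
  unfold sfun
  split_ifs <;> rfl

theorem sfun_invol (n ℓ : ℕ) (h2 : 2 * ℓ ≤ n) : Function.Involutive (sfun n ℓ h2) := by
  intro i
  apply Fin.ext
  rw [sfun_val, sfun_val]
  have := i.2
  split_ifs <;> omega

/-- the swap permutation -/
def sperm (n ℓ : ℕ) (h2 : 2 * ℓ ≤ n) : Equiv.Perm (Fin n) := (sfun_invol n ℓ h2).toPerm

/-- the matrix -/
def pmat (F : Type*) [Field F] (n ℓ : ℕ) : Matrix (Fin n) (Fin n) F :=
  Matrix.of (fun i j : Fin n => if (j.val < ℓ ∧ i.val = j.val + (n - ℓ)) ∨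
    (i.val < ℓ ∧ j.val = i.val + (n - ℓ)) ∨ (i = j ∧ ℓ ≤ i.val ∧ i.val < n - ℓ) then (1 : F) else 0)

theorem pmat_eq (F : Type*) [Field F] (n ℓ : ℕ) (h2 : 2 * ℓ ≤ n) :
    pmat F n ℓ = (sperm n ℓ h2).permMatrix F := by
  ext i j
  simp only [pmat, Matrix.of_apply, Equiv.Perm.permMatrix, PEquiv.toMatrix_apply,
    Equiv.toPEquiv_apply, Option.mem_def, Option.some.injEq]
  have h : ((j.val < ℓ ∧ i.val = j.val + (n - ℓ)) ∨
    (i.val < ℓ ∧ j.val = i.val + (n - ℓ)) ∨ (i = j ∧ ℓ ≤ i.val ∧ i.val < n - ℓ)) ↔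
    sperm n ℓ h2 i = j := by
    show _ ↔ sfun n ℓ h2 i = j
    rw [Fin.ext_iff (a := i) (b := j), Fin.ext_iff, sfun_val]
    have := i.2
    have := j.2
    split_ifs <;> omega
  simp only [h]


theorem pmat_det (F : Type*) [Field F] [CharP F 2] (n ℓ : ℕ) (h2 : 2 * ℓ ≤ n) :
    (pmat F n ℓ).det = 1 := by
  rw [pmat_eq F n ℓ h2, Matrix.det_permutation]
  rcases Int.units_eq_one_or (Equiv.Perm.sign (sperm n ℓ h2)) with h | h <;> rw [h] <;>
    simp [CharTwo.neg_eq]

theorem sperm_sq (n ℓ : ℕ) (h2 : 2 * ℓ ≤ n) : sperm n ℓ h2 * sperm n ℓ h2 = 1 := by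
  ext i
  rw [Equiv.Perm.mul_apply]
  show ((sfun n ℓ h2 (sfun n ℓ h2 i) : Fin n) : ℕ) = _
  rw [sfun_invol n ℓ h2 i]
  rfl

theorem pmat_sq (F : Type*) [Field F] (n ℓ : ℕ) (h2 : 2 * ℓ ≤ n) :
    pmat F n ℓ * pmat F n ℓ = 1 := by
  rw [pmat_eq F n ℓ h2, ← Matrix.permMatrix_mul, sperm_sq, Matrix.permMatrix_one]

theorem pmat_rank (F : Type*) [Field F] (n ℓ : ℕ) (h1 : 1 ≤ ℓ) (h2 : 2 * ℓ ≤ n) :
    (pmat F n ℓ - 1).rank = ℓ := by
  classical
  apply le_antisymm
  · rw [Matrix.rank_eq_finrank_span_row]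
    have hle : Submodule.span F (Set.range (pmat F n ℓ - 1).row) ≤
        Submodule.span F (Set.range (fun k : Fin ℓ => (pmat F n ℓ - 1).row ⟨k.val, by omega⟩)) := by
      apply Submodule.span_le.mpr
      rintro _ ⟨i, rfl⟩
      by_cases hi : i.val < ℓ
      · exact Submodule.subset_span ⟨⟨i.val, hi⟩, rfl⟩
      · by_cases hi' : n - ℓ ≤ i.val
        · have hrow : (pmat F n ℓ - 1).row i =
              -(pmat F n ℓ - 1).row ⟨i.val - (n - ℓ), by omega⟩ := by
            funext j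
            simp only [Matrix.row, Matrix.sub_apply, pmat, Matrix.of_apply, Matrix.one_apply,
              Pi.neg_apply, Fin.ext_iff]
            have := i.2
            have := j.2
            split_ifs <;> first | omega | simp
          rw [hrow]
          exact Submodule.neg_mem _ (Submodule.subset_span ⟨⟨i.val - (n - ℓ), by omega⟩, rfl⟩)
        · have hrow : (pmat F n ℓ - 1).row i = 0 := by
            funext j
            simp only [Matrix.row, Matrix.sub_apply, pmat, Matrix.of_apply, Matrix.one_apply,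
              Pi.zero_apply, Fin.ext_iff]
            have := i.2
            have := j.2
            split_ifs <;> first | omega | simp
          rw [hrow]
          exact Submodule.zero_mem _
    calc Module.finrank F (Submodule.span F (Set.range (pmat F n ℓ - 1).row))
        ≤ Module.finrank F (Submodule.span F
          (Set.range (fun k : Fin ℓ => (pmat F n ℓ - 1).row ⟨k.val, by omega⟩))) :=
          Submodule.finrank_mono hle
      _ ≤ Fintype.card (Fin ℓ) := finrank_range_le_card _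
      _ = ℓ := Fintype.card_fin ℓ
  · have h := Matrix.rank_submatrix_le (pmat F n ℓ - 1)
      (fun j : Fin ℓ => (⟨j.val, by omega⟩ : Fin n))
      (fun j : Fin ℓ => (⟨j.val + (n - ℓ), by omega⟩ : Fin n))
    have h3 : (pmat F n ℓ - 1).submatrix (fun j : Fin ℓ => (⟨j.val, by omega⟩ : Fin n))
        (fun j : Fin ℓ => (⟨j.val + (n - ℓ), by omega⟩ : Fin n)) = 1 := by
      ext i j
      simp only [Matrix.submatrix_apply, Matrix.sub_apply, pmat, Matrix.of_apply, Matrix.one_apply,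
        Fin.ext_iff]
      have := i.2
      have := j.2
      split_ifs <;> first | omega | simp
    rw [h3, Matrix.rank_one, Fintype.card_fin] at h
    exact h

theorem main {F : Type*} [Field F] [Fintype F] [CharP F 2] {n q : ℕ} (ℓ : ℕ)
    (h1 : 1 ≤ ℓ) (h2 : 2 * ℓ ≤ n) :
    ∃ a : ↥(Cfsg.SU n F q),
      (((a : Matrix.SpecialLinearGroup (Fin n) F) : Matrix (Fin n) (Fin n) F) = pmat F n ℓ) ∧
      orderOf a = 2 ∧
      ((((a : Matrix.SpecialLinearGroup (Fin n) F) : Matrix (Fin n) (Fin n) F)) - 1).rank = ℓ := by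
  let a0 : Matrix.SpecialLinearGroup (Fin n) F := ⟨pmat F n ℓ, pmat_det F n ℓ h2⟩
  have ha0 : (a0 : Matrix (Fin n) (Fin n) F) = pmat F n ℓ := rfl
  have hmem : a0 ∈ Cfsg.SU n F q := by
    intro u v
    have e : Cfsg.slToMat n F a0 = pmat F n ℓ := rfl
    rw [e, pmat_eq F n ℓ h2, Matrix.permMatrix_mulVec, Matrix.permMatrix_mulVec]
    unfold Cfsg.hermForm
    exact Equiv.sum_comp (sperm n ℓ h2) (fun i => u i * v i ^ q)
  let a : ↥(Cfsg.SU n F q) := ⟨a0, hmem⟩
  refine ⟨a, ha0, ?_, ?_⟩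
  · have : Fact (Nat.Prime 2) := ⟨Nat.prime_two⟩
    apply orderOf_eq_prime
    · apply Subtype.ext
      apply Subtype.ext
      rw [pow_two, Subgroup.coe_mul, Matrix.SpecialLinearGroup.coe_mul]
      show pmat F n ℓ * pmat F n ℓ = 1
      exact pmat_sq F n ℓ h2
    · intro h
      have h3 : (pmat F n ℓ) ⟨0, by omega⟩ ⟨0, by omega⟩ =
          (1 : Matrix (Fin n) (Fin n) F) ⟨0, by omega⟩ ⟨0, by omega⟩ := by
        rw [← ha0]
        have : a0 = 1 := congrArg Subtype.val h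
        rw [this]; rfl
      rw [Matrix.one_apply_eq] at h3
      simp only [pmat, Matrix.of_apply] at h3
      rw [if_neg (by omega)] at h3
      exact zero_ne_one h3
  · show (pmat F n ℓ - 1).rank = ℓ
    exact pmat_rank F n ℓ h1 h2


/-- In SU_n(q), q even, n ≥ 3 (matrices of determinant 1 over the field with q² elements preserving Σ u_i v_i^q): for every ℓ with 1 ≤ ℓ and 2ℓ ≤ n, the permutation matrix of the involution of {0, …, n−1} exchanging i and n − ℓ + i for each i < ℓ lies in SU_n(q), has order 2, and differs from the identity by a matrix of rank ℓ. So every rank between 1 and n/2 occurs for involutions of SU_n(q). -/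
theorem result {F : Type*} [Field F] [Fintype F] [CharP F 2] {n q : ℕ} (hF : Fintype.card F = q ^ 2) (hn : 3 ≤ n) (ℓ : ℕ) (h1 : 1 ≤ ℓ) (h2 : 2 * ℓ ≤ n) :
    ∃ a : ↥(Cfsg.SU n F q), (((a : Matrix.SpecialLinearGroup (Fin n) F) : Matrix (Fin n) (Fin n) F) = Matrix.of (fun i j : Fin n => if (j.val < ℓ ∧ i.val = j.val + (n - ℓ)) ∨ (i.val < ℓ ∧ j.val = i.val + (n - ℓ)) ∨ (i = j ∧ ℓ ≤ i.val ∧ i.val < n - ℓ) then (1 : F) else 0)) ∧ orderOf a = 2 ∧ ((((a : Matrix.SpecialLinearGroup (Fin n) F) : Matrix (Fin n) (Fin n) F)) - 1).rank = ℓ := by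
  exact main ℓ h1 h2

end Cfsg.Agent.S2165
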