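import Cfsg.Statements.S2166
-- import your own Cfsg.Agent.* helpers here
import Cfsg.Agent.Lib.helper4.SpInvNF

set_option autoImplicit false
open Cfsg

open Cfsg.Agent.Lib.helper13 Cfsg.Agent.Lib.helper4

namespace Cfsg.Agent.S2166

/-- Conjugacy of involutions in the symplectic group Sp_{2m}(F), F a finite field of characteristic two, m ≥ 2 (Sp taken as the matrices A with A J Aᵀ = J, acting on column vectors, with the alternating form f(u, v) = u ⬝ (J v)). For an involution t write V(t) for the set of vectors v with f(v, t v) = 0 (a subspace). Two involutions a, b are conjugate in Sp_{2m}(F) exactly when a − 1 and b − 1 have the same rank and, in case that rank is even, V(a) and V(b) have the same number of elements. -/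
theorem result {F : Type*} [Field F] [Fintype F] [CharP F 2] {m : ℕ} (hm : 2 ≤ m) (a b : ↥(Matrix.symplecticGroup (Fin m) F)) (ha : orderOf a = 2) (hb : orderOf b = 2) :
    IsConj a b ↔ ((((a : ↥(Matrix.symplecticGroup (Fin m) F)) : Matrix (Fin m ⊕ Fin m) (Fin m ⊕ Fin m) F) - 1).rank = (((b : ↥(Matrix.symplecticGroup (Fin m) F)) : Matrix (Fin m ⊕ Fin m) (Fin m ⊕ Fin m) F) - 1).rank ∧
      (Even (((a : ↥(Matrix.symplecticGroup (Fin m) F)) : Matrix (Fin m ⊕ Fin m) (Fin m ⊕ Fin m) F) - 1).rank → Nat.card {v : Fin m ⊕ Fin m → F // Cfsg.sympForm m F v (Matrix.mulVec ((a : ↥(Matrix.symplecticGroup (Fin m) F)) : Matrix (Fin m ⊕ Fin m) (Fin m ⊕ Fin m) F) v) = 0} = Nat.card {v : Fin m ⊕ Fin m → F // Cfsg.sympForm m F v (Matrix.mulVec ((b : ↥(Matrix.symplecticGroup (Fin m) F)) : Matrix (Fin m ⊕ Fin m) (Fin m ⊕ Fin m) F) v) = 0})) := by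
  classical
  constructor
  · intro h
    exact ⟨sp_rank_conj a b h, fun _ => sp_card_conj a b h⟩
  · rintro ⟨hr, hc⟩
    have hq : 2 ≤ Fintype.card F := Fintype.one_lt_card
    have hqpos : 0 < Fintype.card F ^ (2 * m) := by positivity
    have hswfp : ∀ (k : ℕ) (x : Fin k ⊕ Fin k), Sum.swap x ≠ x := by
      intro k x
      rcases x with i | i <;> simp
    rcases spnf_of_invol a ha with ⟨s, hs, h⟩ | ⟨k, hk, h⟩ <;>
      rcases spnf_of_invol b hb with ⟨s', hs', h'⟩ | ⟨k', hk', h'⟩
    · rw [spnf_rank id (fun _ => rfl) a h, spnf_rank id (fun _ => rfl) b h', Fintype.card_fin,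
        Fintype.card_fin] at hr
      subst hr
      exact spnf_conj id a b h h'
    · exfalso
      haveI : Nonempty (Fin s) := ⟨⟨0, by omega⟩⟩
      have hrb := spnf_rank Sum.swap Sum.swap_swap b h'
      rw [Fintype.card_sum, Fintype.card_fin] at hrb
      have hc' := hc (by rw [hr, hrb]; exact ⟨k', rfl⟩)
      have h1 := spnf_card_id id (fun _ => rfl) a h
      rw [hc', spnf_card_swap Sum.swap Sum.swap_swap (hswfp k') b h'] at h1
      have h2 : Fintype.card F = 1 := by
        apply Nat.eq_of_mul_eq_mul_left hqpos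
        rw [h1, mul_one]
      omega
    · exfalso
      haveI : Nonempty (Fin s') := ⟨⟨0, by omega⟩⟩
      have hra := spnf_rank Sum.swap Sum.swap_swap a h
      rw [Fintype.card_sum, Fintype.card_fin] at hra
      have hc' := hc (by rw [hra]; exact ⟨k, rfl⟩)
      have h1 := spnf_card_id id (fun _ => rfl) b h'
      rw [← hc', spnf_card_swap Sum.swap Sum.swap_swap (hswfp k) a h] at h1
      have h2 : Fintype.card F = 1 := by
        apply Nat.eq_of_mul_eq_mul_left hqpos
        rw [h1, mul_one]
      omega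
    · rw [spnf_rank Sum.swap Sum.swap_swap a h, spnf_rank Sum.swap Sum.swap_swap b h',
        Fintype.card_sum, Fintype.card_sum, Fintype.card_fin, Fintype.card_fin] at hr
      have hkk : k = k' := by omega
      subst hkk
      exact spnf_conj Sum.swap a b h h'

end Cfsg.Agent.S2166
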