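import Cfsg.Statements.S2167
-- import your own Cfsg.Agent.* helpers here
import Cfsg.Agent.Lib.helper4.SpInvNF

set_option autoImplicit false
open Cfsg

open Cfsg.Agent.Lib.helper13 Cfsg.Agent.Lib.helper4

namespace Cfsg.Agent.S2167

/-- For an involution t of the symplectic group Sp_{2m}(F), m ≥ 2, F a finite field of characteristic two (matrices A with A J Aᵀ = J acting on column vectors, alternating form f(u, v) = u ⬝ (J v)): the set V(t) of vectors v with f(v, t v) = 0 has either q^{2m} or q^{2m−1} elements, q the order of F (it is a subspace of codimension at most 1), and if it is the whole space then t − 1 has even rank. -/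
theorem result {F : Type*} [Field F] [Fintype F] [CharP F 2] {m : ℕ} (hm : 2 ≤ m) (a : ↥(Matrix.symplecticGroup (Fin m) F)) (ha : orderOf a = 2) :
    (Nat.card {v : Fin m ⊕ Fin m → F // Cfsg.sympForm m F v (Matrix.mulVec ((a : ↥(Matrix.symplecticGroup (Fin m) F)) : Matrix (Fin m ⊕ Fin m) (Fin m ⊕ Fin m) F) v) = 0} = Fintype.card F ^ (2 * m) ∨ Nat.card {v : Fin m ⊕ Fin m → F // Cfsg.sympForm m F v (Matrix.mulVec ((a : ↥(Matrix.symplecticGroup (Fin m) F)) : Matrix (Fin m ⊕ Fin m) (Fin m ⊕ Fin m) F) v) = 0} * Fintype.card F = Fintype.card F ^ (2 * m)) ∧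
    ((∀ v : Fin m ⊕ Fin m → F, Cfsg.sympForm m F v (Matrix.mulVec ((a : ↥(Matrix.symplecticGroup (Fin m) F)) : Matrix (Fin m ⊕ Fin m) (Fin m ⊕ Fin m) F) v) = 0) → Even (((a : ↥(Matrix.symplecticGroup (Fin m) F)) : Matrix (Fin m ⊕ Fin m) (Fin m ⊕ Fin m) F) - 1).rank) := by
  classical
  rcases spnf_of_invol a ha with ⟨s, hs, h⟩ | ⟨k, hk, h⟩
  · haveI : Nonempty (Fin s) := ⟨⟨0, by omega⟩⟩
    exact ⟨Or.inr (spnf_card_id id (fun _ => rfl) a h),
      fun hall => absurd hall (spnf_not_alt id (fun _ => rfl) a h)⟩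
  · have hswfp : ∀ x : Fin k ⊕ Fin k, Sum.swap x ≠ x := by
      intro x
      rcases x with i | i <;> simp
    refine ⟨Or.inl (spnf_card_swap Sum.swap Sum.swap_swap hswfp a h), fun _ => ?_⟩
    rw [spnf_rank Sum.swap Sum.swap_swap a h, Fintype.card_sum, Fintype.card_fin]
    exact ⟨k, rfl⟩

end Cfsg.Agent.S2167
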