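import Cfsg.Statements.S2177
import Cfsg.Agent.Lib.helper11d.G2d3

set_option autoImplicit false
open Cfsg

namespace Cfsg.Agent.S2177
open Cfsg.Agent.Lib.helper11 Cfsg.Lie

/-- Conjugacy classes of involutions in the Chevalley group of type G₂ over a finite field F of characteristic two with at least four elements (the matrix group generated by the root elements x_r(t)). In this problem's root numbering for type G₂ (the Chevalley data module; p₁ = a short, p₂ = b long; roots indexed by coefficient vectors in increasing order) let 11 be the highest root 3a + 2b (long) and 9 the short root 2a + b; consider x_{3a+2b}(1) and x_{2a+b}(1). Then: each invertible matrix equal to one of these two products lies in the group and has order 2; every element of order 2 of the group is conjugate in the group to one of them; and no two of them are conjugate in the group (so, the two matrices being distinct, the group has exactly two conjugacy classes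 of involutions). -/
theorem result {F : Type*} [Field F] [Fintype F] [CharP F 2] (hF : 4 ≤ Fintype.card F) :
    (∀ y : GL Cfsg.Lie.chevG2.Idx F, ((y : GL Cfsg.Lie.chevG2.Idx F) : Matrix Cfsg.Lie.chevG2.Idx Cfsg.Lie.chevG2.Idx F) ∈ [Cfsg.Lie.chevG2.x F 11 1, Cfsg.Lie.chevG2.x F 9 1] → y ∈ Cfsg.Lie.chevG2.group F ∧ orderOf y = 2) ∧
    (∀ g ∈ Cfsg.Lie.chevG2.group F, orderOf g = 2 → ∃ y ∈ Cfsg.Lie.chevG2.group F, ((y : GL Cfsg.Lie.chevG2.Idx F) : Matrix Cfsg.Lie.chevG2.Idx Cfsg.Lie.chevG2.Idx F) ∈ [Cfsg.Lie.chevG2.x F 11 1, Cfsg.Lie.chevG2.x F 9 1] ∧ ∃ h ∈ Cfsg.Lie.chevG2.group F, h * g * h⁻¹ = y) ∧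
    (∀ y₁ ∈ Cfsg.Lie.chevG2.group F, ∀ y₂ ∈ Cfsg.Lie.chevG2.group F, ((y₁ : GL Cfsg.Lie.chevG2.Idx F) : Matrix Cfsg.Lie.chevG2.Idx Cfsg.Lie.chevG2.Idx F) ∈ [Cfsg.Lie.chevG2.x F 11 1, Cfsg.Lie.chevG2.x F 9 1] → ((y₂ : GL Cfsg.Lie.chevG2.Idx F) : Matrix Cfsg.Lie.chevG2.Idx Cfsg.Lie.chevG2.Idx F) ∈ [Cfsg.Lie.chevG2.x F 11 1, Cfsg.Lie.chevG2.x F 9 1] →
      (∃ h ∈ Cfsg.Lie.chevG2.group F, h * y₁ * h⁻¹ = y₂) → ((y₁ : GL Cfsg.Lie.chevG2.Idx F) : Matrix Cfsg.Lie.chevG2.Idx Cfsg.Lie.chevG2.Idx F) = ((y₂ : GL Cfsg.Lie.chevG2.Idx F) : Matrix Cfsg.Lie.chevG2.Idx Cfsg.Lie.chevG2.Idx F)) := by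
  have key : ∀ y : GL chevG2.Idx F,
      ((y : GL chevG2.Idx F) : Matrix chevG2.Idx chevG2.Idx F) ∈ [chevG2.x F 11 1, chevG2.x F 9 1] →
      y = xU chevG2 g2c_mem 11 1 ∨ y = xU chevG2 g2c_mem 9 1 := by
    intro y hy
    rw [List.mem_cons, List.mem_singleton] at hy
    rcases hy with h | h
    · exact Or.inl (eq_xU chevG2 g2c_mem 11 1 y h)
    · exact Or.inr (eq_xU chevG2 g2c_mem 9 1 y h)
  have hord : ∀ r < 12, orderOf (xU chevG2 g2c_mem r (1 : F)) = 2 := by
    intro r hr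
    haveI : Fact (Nat.Prime 2) := ⟨Nat.prime_two⟩
    apply orderOf_eq_prime
    · rw [pow_two]
      exact g2d_sq r hr 1
    · intro h1
      exact one_ne_zero (xU_eq_one chevG2 g2c_mem r (g2c_lt hr) (1 : F) h1)
  have hmem11 : ((xU chevG2 g2c_mem 11 (1 : F) : GL chevG2.Idx F) :
      Matrix chevG2.Idx chevG2.Idx F) ∈ [chevG2.x F 11 1, chevG2.x F 9 1] := by
    rw [xU_val]
    exact List.mem_cons_self
  have hmem9 : ((xU chevG2 g2c_mem 9 (1 : F) : GL chevG2.Idx F) :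
      Matrix chevG2.Idx chevG2.Idx F) ∈ [chevG2.x F 11 1, chevG2.x F 9 1] := by
    rw [xU_val]
    exact List.mem_cons_of_mem _ List.mem_cons_self
  refine ⟨?_, ?_, ?_⟩
  · intro y hy
    rcases key y hy with rfl | rfl
    · exact ⟨xU_mem_group chevG2 g2c_mem 11 1, hord 11 (by norm_num)⟩
    · exact ⟨xU_mem_group chevG2 g2c_mem 9 1, hord 9 (by norm_num)⟩
  · intro g hg hg2
    have hsq : g * g = 1 := by
      rw [← pow_two, ← hg2]
      exact pow_orderOf_eq_one g
    have hne : g ≠ 1 := by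
      rintro rfl
      rw [orderOf_one] at hg2
      norm_num at hg2
    rcases g2d_class g hg hsq hne with ⟨k, hk, h⟩ | ⟨k, hk, h⟩
    · exact ⟨_, xU_mem_group chevG2 g2c_mem 11 1, hmem11, k, hk, h⟩
    · exact ⟨_, xU_mem_group chevG2 g2c_mem 9 1, hmem9, k, hk, h⟩
  · intro y₁ _ y₂ _ h1 h2 hconj
    rcases key y₁ h1 with rfl | rfl <;> rcases key y₂ h2 with rfl | rfl
    · rfl
    · exfalso
      obtain ⟨k, hk, h⟩ := hconj
      exact g2d_nonconj k hk h
    · exfalso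
      obtain ⟨k, hk, h⟩ := hconj
      apply g2d_nonconj k⁻¹ (inv_mem hk)
      rw [← h]
      group
    · rfl

end Cfsg.Agent.S2177
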