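import Cfsg.Statements.S2231
-- import your own Cfsg.Agent.* helpers here

set_option autoImplicit false
open Cfsg

namespace Cfsg.Agent.S2231


/-- every `p`-subgroup is abelian -/
def PAb (p : ℕ) (G : Type*) [Group G] : Prop :=
  ∀ S : Subgroup G, IsPGroup p S → ∀ a ∈ S, ∀ b ∈ S, a * b = b * a

theorem PAb.of_surjective {p : ℕ} [Fact p.Prime] {G H : Type*} [Group G] [Group H] [Finite G]
    (f : G →* H) (hf : Function.Surjective f) (hG : PAb p G) : PAb p H := by
  intro U hU a ha b hb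
  let g : U.comap f →* U := f.subgroupComap U
  have hg : Function.Surjective g := f.subgroupComap_surjective_of_surjective U hf
  let S : Sylow p (U.comap f) := default
  let Q : Sylow p U := S.mapSurjective hg
  have hQ : (⊤ : Subgroup U) = (Q : Subgroup U) := Q.is_maximal' (hU.to_subgroup ⊤) le_top
  have hQ' : (Q : Subgroup U) = (S : Subgroup (U.comap f)).map g := Sylow.coe_mapSurjective hg S
  have ha' : (⟨a, ha⟩ : U) ∈ (S : Subgroup (U.comap f)).map g := by
    rw [← hQ', ← hQ]; exact Subgroup.mem_top _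
  have hb' : (⟨b, hb⟩ : U) ∈ (S : Subgroup (U.comap f)).map g := by
    rw [← hQ', ← hQ]; exact Subgroup.mem_top _
  obtain ⟨s, hs, hsa⟩ := ha'
  obtain ⟨t, ht, htb⟩ := hb'
  have hS' : IsPGroup p ((S : Subgroup (U.comap f)).map (U.comap f).subtype) :=
    S.isPGroup'.map _
  have hcomm := hG _ hS' (s : G) ⟨s, hs, rfl⟩ (t : G) ⟨t, ht, rfl⟩
  have e1 : f (s : G) = a := congrArg Subtype.val hsa
  have e2 : f (t : G) = b := congrArg Subtype.val htb
  rw [← e1, ← e2, ← map_mul, ← map_mul, hcomm]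

theorem PAb.subgroup {p : ℕ} {G : Type*} [Group G] (K : Subgroup G) (hG : PAb p G) : PAb p K := by
  intro S hS a ha b hb
  have hS' : IsPGroup p (S.map K.subtype) := hS.map _
  have := hG _ hS' (a : G) ⟨a, ha, rfl⟩ (b : G) ⟨b, hb, rfl⟩
  exact Subtype.ext this




theorem comm_core {K : Type*} [Field K] (a b c d a' b' c' d' s t : K) (hst : s ≠ 0 ∨ t ≠ 0)
    (h1 : a * s + b * t = s) (h2 : c * s + d * t = t) (h3 : a * d - b * c = 1)
    (h1' : a' * s + b' * t = s) (h2' : c' * s + d' * t = t) (h3' : a' * d' - b' * c' = 1) :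
    (a * a' + b * c' = a' * a + b' * c) ∧ (a * b' + b * d' = a' * b + b' * d) ∧
    (c * a' + d * c' = c' * a + d' * c) ∧ (c * b' + d * d' = c' * b + d' * d) := by
  by_cases hs : s = 0
  · subst hs
    have ht : t ≠ 0 := by tauto
    have hb : b = 0 := by
      have : b * t = 0 := by linear_combination h1
      rcases mul_eq_zero.mp this with h | h
      · exact h
      · exact absurd h ht
    have hd : d = 1 := by
      have : (d - 1) * t = 0 := by linear_combination h2
      rcases mul_eq_zero.mp this with h | h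
      · linear_combination h
      · exact absurd h ht
    have ha : a = 1 := by subst hb hd; linear_combination h3
    have hb' : b' = 0 := by
      have : b' * t = 0 := by linear_combination h1'
      rcases mul_eq_zero.mp this with h | h
      · exact h
      · exact absurd h ht
    have hd' : d' = 1 := by
      have : (d' - 1) * t = 0 := by linear_combination h2'
      rcases mul_eq_zero.mp this with h | h
      · linear_combination h
      · exact absurd h ht
    have ha' : a' = 1 := by subst hb' hd'; linear_combination h3'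
    subst ha hb hd ha' hb' hd'
    refine ⟨by ring, by ring, by ring, by ring⟩
  · have ha : a = (s - b * t) / s := by field_simp; linear_combination h1
    have hd : d = (s + b * t) / s := by
      field_simp; linear_combination s * h3 - d * h1 + b * h2
    have hc : c = -(b * t ^ 2) / s ^ 2 := by
      field_simp
      linear_combination s * h2 - t * (s * h3 - d * h1 + b * h2)
    have ha' : a' = (s - b' * t) / s := by field_simp; linear_combination h1'
    have hd' : d' = (s + b' * t) / s := by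
      field_simp; linear_combination s * h3' - d' * h1' + b' * h2'
    have hc' : c' = -(b' * t ^ 2) / s ^ 2 := by
      field_simp
      linear_combination s * h2' - t * (s * h3' - d' * h1' + b' * h2')
    rw [ha, hd, hc, ha', hd', hc']
    refine ⟨?_, ?_, ?_, ?_⟩ <;> field_simp <;> ring

theorem sl2_comm_of_fixed {K : Type*} [Field K] (g h : Matrix.SpecialLinearGroup (Fin 2) K)
    (v : Fin 2 → K) (hv : v ≠ 0) (hg : g • v = v) (hh : h • v = v) : g * h = h * g := by
  have hst : v 0 ≠ 0 ∨ v 1 ≠ 0 := by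
    by_contra hc
    simp only [not_or, not_not] at hc
    apply hv
    ext i; fin_cases i
    · exact hc.1
    · exact hc.2
  have e1 : g 0 0 * v 0 + g 0 1 * v 1 = v 0 := by
    have := congrFun hg 0
    simpa [Matrix.SpecialLinearGroup.smul_def, Matrix.mulVec, dotProduct, Fin.sum_univ_two] using this
  have e2 : g 1 0 * v 0 + g 1 1 * v 1 = v 1 := by
    have := congrFun hg 1
    simpa [Matrix.SpecialLinearGroup.smul_def, Matrix.mulVec, dotProduct, Fin.sum_univ_two] using this
  have e3 : g 0 0 * g 1 1 - g 0 1 * g 1 0 = 1 := by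
    have := g.det_coe
    rw [Matrix.det_fin_two] at this
    exact this
  have e1' : h 0 0 * v 0 + h 0 1 * v 1 = v 0 := by
    have := congrFun hh 0
    simpa [Matrix.SpecialLinearGroup.smul_def, Matrix.mulVec, dotProduct, Fin.sum_univ_two] using this
  have e2' : h 1 0 * v 0 + h 1 1 * v 1 = v 1 := by
    have := congrFun hh 1
    simpa [Matrix.SpecialLinearGroup.smul_def, Matrix.mulVec, dotProduct, Fin.sum_univ_two] using this
  have e3' : h 0 0 * h 1 1 - h 0 1 * h 1 0 = 1 := by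
    have := h.det_coe
    rw [Matrix.det_fin_two] at this
    exact this
  obtain ⟨c1, c2, c3, c4⟩ := comm_core _ _ _ _ _ _ _ _ _ _ hst e1 e2 e3 e1' e2' e3'
  apply Subtype.ext
  ext i j
  fin_cases i <;> fin_cases j <;>
    simp [Matrix.mul_apply, Fin.sum_univ_two] <;> assumption

theorem sl2_pab {K : Type*} [Field K] [Fintype K] (p : ℕ) [Fact p.Prime] [CharP K p] :
    PAb p (Matrix.SpecialLinearGroup (Fin 2) K) := by
  intro T hT g hg h hh
  have hdvd : p ∣ Nat.card (Fin 2 → K) := by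
    obtain ⟨n, -, hn⟩ := FiniteField.card K p
    rw [Nat.card_eq_fintype_card, Fintype.card_fun, hn, Fintype.card_fin]
    exact dvd_pow (dvd_pow_self p n.ne_zero) (by norm_num)
  have h0 : (0 : Fin 2 → K) ∈ MulAction.fixedPoints T (Fin 2 → K) := fun t => smul_zero _
  obtain ⟨v, hv, hv0⟩ := hT.exists_fixed_point_of_prime_dvd_card_of_fixed_point (Fin 2 → K) hdvd h0
  exact sl2_comm_of_fixed g h v (Ne.symm hv0) (hv ⟨g, hg⟩) (hv ⟨h, hh⟩)




/-- upper unitriangular matrices -/
def U3 (p : ℕ) : Subgroup (Matrix.SpecialLinearGroup (Fin 3) (ZMod p)) where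
  carrier := {M | M 1 0 = 0 ∧ M 2 0 = 0 ∧ M 2 1 = 0 ∧ M 0 0 = 1 ∧ M 1 1 = 1 ∧ M 2 2 = 1}
  one_mem' := by simp
  mul_mem' := by
    rintro a b ⟨a1, a2, a3, a4, a5, a6⟩ ⟨b1, b2, b3, b4, b5, b6⟩
    refine ⟨?_, ?_, ?_, ?_, ?_, ?_⟩ <;>
      simp [Matrix.mul_apply, Fin.sum_univ_three, a1, a2, a3, a4, a5, a6, b1, b2, b3, b4, b5, b6]
  inv_mem' := by
    rintro a ⟨a1, a2, a3, a4, a5, a6⟩
    refine ⟨?_, ?_, ?_, ?_, ?_, ?_⟩ <;>
      simp [Matrix.SpecialLinearGroup.coe_inv, Matrix.adjugate_fin_three, a1, a2, a3, a4, a5, a6]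

theorem nil3 {R : Type*} [CommRing R] (A : Matrix (Fin 3) (Fin 3) R)
    (a1 : A 1 0 = 0) (a2 : A 2 0 = 0) (a3 : A 2 1 = 0) (a4 : A 0 0 = 1) (a5 : A 1 1 = 1)
    (a6 : A 2 2 = 1) : (A - 1) * (A - 1) * (A - 1) = 0 := by
  ext i j
  fin_cases i <;> fin_cases j <;>
    simp [Matrix.mul_apply, Fin.sum_univ_three, Matrix.one_apply, a1, a2, a3, a4, a5, a6]

theorem U3_isPGroup (p : ℕ) [Fact p.Prime] (hp : p ≠ 2) : IsPGroup p (U3 p) := by
  have hpp : p.Prime := Fact.out
  have hp3 : 3 ≤ p := by have := hpp.two_le; omega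
  rintro ⟨g, a1, a2, a3, a4, a5, a6⟩
  refine ⟨1, ?_⟩
  apply Subtype.ext
  apply Subtype.ext
  simp only [pow_one, SubmonoidClass.coe_pow, Matrix.SpecialLinearGroup.coe_pow, OneMemClass.coe_one,
    Matrix.SpecialLinearGroup.coe_one]
  have hN3 := nil3 (g : Matrix (Fin 3) (Fin 3) (ZMod p)) a1 a2 a3 a4 a5 a6
  have hN3' : ((g : Matrix (Fin 3) (Fin 3) (ZMod p)) - 1) ^ 3 = 0 := by
    rw [pow_succ, pow_succ, pow_one]; exact hN3
  have hNp : ((g : Matrix (Fin 3) (Fin 3) (ZMod p)) - 1) ^ p = 0 := pow_eq_zero_of_le hp3 hN3'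
  have e : (g : Matrix (Fin 3) (Fin 3) (ZMod p)) = 1 + ((g : Matrix (Fin 3) (Fin 3) (ZMod p)) - 1) := by
    abel
  rw [e, add_pow_char_of_commute (p := p) (Commute.one_left _), one_pow, hNp, add_zero]

def u3 (p : ℕ) : Matrix.SpecialLinearGroup (Fin 3) (ZMod p) :=
  ⟨!![1, 1, 0; 0, 1, 0; 0, 0, 1], by simp [Matrix.det_fin_three]⟩

def v3 (p : ℕ) : Matrix.SpecialLinearGroup (Fin 3) (ZMod p) :=
  ⟨!![1, 0, 0; 0, 1, 1; 0, 0, 1], by simp [Matrix.det_fin_three]⟩

theorem not_pab_qd (p : ℕ) [Fact p.Prime] (hp : p ≠ 2) : ¬ PAb p (Cfsg.qd p) := by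
  intro h
  have hu : u3 p ∈ U3 p := by
    refine ⟨?_, ?_, ?_, ?_, ?_, ?_⟩ <;> simp [u3]
  have hv : v3 p ∈ U3 p := by
    refine ⟨?_, ?_, ?_, ?_, ?_, ?_⟩ <;> simp [v3]
  have hle : U3 p ≤ Cfsg.qd p := by
    rintro M ⟨a1, a2, a3, a4, a5, a6⟩
    exact Subgroup.subset_closure ⟨a2, a3, a6⟩
  have hS : IsPGroup p ((U3 p).subgroupOf (Cfsg.qd p)) := (U3_isPGroup p hp).comap_subtype
  have hc := h _ hS ⟨u3 p, hle hu⟩ (by rw [Subgroup.mem_subgroupOf]; exact hu)
    ⟨v3 p, hle hv⟩ (by rw [Subgroup.mem_subgroupOf]; exact hv)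
  have hc' : u3 p * v3 p = v3 p * u3 p := congrArg Subtype.val hc
  have hc'' : ((u3 p * v3 p : Matrix.SpecialLinearGroup (Fin 3) (ZMod p)) :
      Matrix (Fin 3) (Fin 3) (ZMod p)) 0 2 = ((v3 p * u3 p : Matrix.SpecialLinearGroup (Fin 3) (ZMod p)) :
      Matrix (Fin 3) (Fin 3) (ZMod p)) 0 2 := by rw [hc']
  rw [Matrix.SpecialLinearGroup.coe_mul, Matrix.SpecialLinearGroup.coe_mul] at hc''
  have e1 : ((u3 p : Matrix.SpecialLinearGroup (Fin 3) (ZMod p)) :
      Matrix (Fin 3) (Fin 3) (ZMod p)) = !![1, 1, 0; 0, 1, 0; 0, 0, 1] := rfl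
  have e2 : ((v3 p : Matrix.SpecialLinearGroup (Fin 3) (ZMod p)) :
      Matrix (Fin 3) (Fin 3) (ZMod p)) = !![1, 0, 0; 0, 1, 1; 0, 0, 1] := rfl
  rw [e1, e2] at hc''
  simp [Matrix.mul_apply, Fin.sum_univ_three] at hc''


/-- Let p be an odd prime and K a finite field of characteristic p. Then Qd(p) (the natural semidirect product of an elementary abelian group of order p² by SL₂(p)) is not involved in the projective special linear group PSL₂(K). -/
theorem result {p : ℕ} [Fact p.Prime] (hp : p ≠ 2) {K : Type*} [Field K] [Fintype K] [CharP K p] : ¬ Cfsg.Involves ↥(Cfsg.qd p) (Matrix.ProjectiveSpecialLinearGroup (Fin 2) K) := by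
  rintro ⟨L, R, hn, ⟨e⟩⟩
  have h1 : PAb p (Matrix.SpecialLinearGroup (Fin 2) K) := sl2_pab p
  have h2 : PAb p (Matrix.ProjectiveSpecialLinearGroup (Fin 2) K) :=
    h1.of_surjective (QuotientGroup.mk' _) (QuotientGroup.mk'_surjective _)
  have h3 : PAb p L := h2.subgroup L
  have h4 : PAb p (L ⧸ R.subgroupOf L) :=
    h3.of_surjective (QuotientGroup.mk' (R.subgroupOf L)) (QuotientGroup.mk'_surjective _)
  exact not_pab_qd p hp (h4.of_surjective e.toMonoidHom e.surjective)

end Cfsg.Agent.S2231
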