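import Cfsg.Statements.S2239
import Cfsg.Agent.Lib.helper25.SzSub2

set_option autoImplicit false
open Cfsg

namespace Cfsg.Agent.S2239

/-- Subfield subgroups of the Suzuki group: let q = 2^(2m+1) and s = 2^(2k+1) with m, k ≥ 1 and 2k+1 dividing 2m+1 (so q is a power of s), both groups realised as stabilisers in SL₄ of the Suzuki–Tits ovoid. Then Sz(q) has a subgroup isomorphic to Sz(s), and any two subgroups of Sz(q) isomorphic to Sz(s) are conjugate. -/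
theorem result {F : Type*} [Field F] [Fintype F] {m : ℕ} (hm : 1 ≤ m) (hF : Fintype.card F = 2 ^ (2 * m + 1)) {K : Type*} [Field K] [Fintype K] {k : ℕ} (hk : 1 ≤ k) (hK : Fintype.card K = 2 ^ (2 * k + 1)) (hdiv : 2 * k + 1 ∣ 2 * m + 1) :
    (∃ S : Subgroup ↥(Cfsg.Sz F m), Nonempty (↥S ≃* ↥(Cfsg.Sz K k))) ∧
    ∀ S₁ S₂ : Subgroup ↥(Cfsg.Sz F m), Nonempty (↥S₁ ≃* ↥(Cfsg.Sz K k)) → Nonempty (↥S₂ ≃* ↥(Cfsg.Sz K k)) →
      ∃ g : ↥(Cfsg.Sz F m), S₂ = S₁.map (MulAut.conj g).toMonoidHom := by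
  have HF := Cfsg.Agent.Lib.helper2.Suzuki.hyp_of_card hm hF
  have HK := Cfsg.Agent.Lib.helper2.Suzuki.hyp_of_card hk hK
  haveI : Fact (Nat.Prime 2) := ⟨Nat.prime_two⟩
  haveI : CharP F 2 := CharTwo.of_one_ne_zero_of_two_eq_zero one_ne_zero HF.h2
  haveI : CharP K 2 := CharTwo.of_one_ne_zero_of_two_eq_zero one_ne_zero HK.h2
  letI : Algebra (ZMod 2) F := ZMod.algebra F 2
  letI : Algebra (ZMod 2) K := ZMod.algebra K 2
  have hfrF : Module.finrank (ZMod 2) F = 2 * m + 1 := by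
    have h1 := FiniteField.pow_finrank_eq_card 2 F
    rw [hF] at h1
    exact Nat.pow_right_injective (le_refl 2) h1
  have hfrK : Module.finrank (ZMod 2) K = 2 * k + 1 := by
    have h1 := FiniteField.pow_finrank_eq_card 2 K
    rw [hK] at h1
    exact Nat.pow_right_injective (le_refl 2) h1
  obtain ⟨f0⟩ := FiniteField.nonempty_algHom_of_finrank_dvd (F := ZMod 2) (K := K) (L := F)
    (by rw [hfrF, hfrK]; exact hdiv)
  have hf : ∀ a : K, f0.toRingHom a ^ 2 ^ (m + 1) = f0.toRingHom a ^ 2 ^ (k + 1) :=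
    fun a => Cfsg.Agent.Lib.helper25.SzSub.sigma_compat hK hdiv f0.toRingHom a
  constructor
  · exact Cfsg.Agent.Lib.helper25.SzSub.subfield_exists hk hK HK hm hF HF f0.toRingHom hf
  · rintro S₁ S₂ ⟨e1⟩ ⟨e2⟩
    exact Cfsg.Agent.Lib.helper25.SzSub.subfield_conj2 hk hK HK hm hF HF f0.toRingHom hf S₁ S₂ e1 e2

end Cfsg.Agent.S2239
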