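import Cfsg.Statements.S2240
import Cfsg.Agent.Lib.helper25.SzTI
import Cfsg.Agent.Lib.helper25.SzTI2

set_option autoImplicit false
open Cfsg

namespace Cfsg.Agent.S2240

/-- Elementary abelian TI-subgroups of the Suzuki group: let q = 2^(2m+1) with m ≥ 1, the group realised as the stabiliser in SL₄ of the Suzuki–Tits ovoid, and n ≥ 2. There is an elementary abelian 2-subgroup E of order 2^n that is a TI-subgroup (every conjugate of E meeting E nontrivially is E itself) if and only if n divides 2m + 1. -/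
theorem result {F : Type*} [Field F] [Fintype F] {m : ℕ} (hm : 1 ≤ m) (hF : Fintype.card F = 2 ^ (2 * m + 1)) (n : ℕ) (hn : 2 ≤ n) :
    (∃ E : Subgroup ↥(Cfsg.Sz F m), Cfsg.IsElementaryAbelian 2 E ∧ Nat.card ↥E = 2 ^ n ∧
      ∀ x : ↥(Cfsg.Sz F m), E ⊓ E.map (MulAut.conj x).toMonoidHom ≠ ⊥ → x ∈ Subgroup.normalizer (E : Set ↥(Cfsg.Sz F m))) ↔ n ∣ 2 * m + 1 := by
  have H := Cfsg.Agent.Lib.helper2.Suzuki.hyp_of_card hm hF
  constructor
  · rintro ⟨E, hE, hc, hTI⟩
    exact Cfsg.Agent.Lib.helper25.SzOut.ti_dvd H (2 * m + 1) (by omega) hF n hn E hE hc hTI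
  · intro hdvd
    haveI : Fact (Nat.Prime 2) := ⟨Nat.prime_two⟩
    haveI : CharP F 2 := CharTwo.of_one_ne_zero_of_two_eq_zero one_ne_zero H.h2
    letI : Algebra (ZMod 2) F := ZMod.algebra F 2
    have hfr : Module.finrank (ZMod 2) F = 2 * m + 1 := by
      have h1 := FiniteField.pow_finrank_eq_card 2 F
      rw [hF] at h1
      exact Nat.pow_right_injective (le_refl 2) h1
    have hn0 : n ≠ 0 := by omega
    have hfr2 : Module.finrank (ZMod 2) (GaloisField 2 n) = n := GaloisField.finrank 2 hn0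
    obtain ⟨f⟩ := FiniteField.nonempty_algHom_of_finrank_dvd (F := ZMod 2) (K := GaloisField 2 n) (L := F)
      (by rw [hfr, hfr2]; exact hdvd)
    exact Cfsg.Agent.Lib.helper25.SzOut.ti_exists H f.toRingHom n (GaloisField.card 2 n hn0)

end Cfsg.Agent.S2240
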