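import Cfsg.Statements.S2256
import Mathlib
import Cfsg.Agent.Lib.helper19.NilpAlt2

set_option autoImplicit false
open Cfsg

namespace Cfsg.Agent.S2256

open Cfsg.Agent.Lib.helper19.NilpSym


/-- Let n ≡ 3 (mod 4) with n ≥ 7. Then every nilpotent subgroup of the alternating group on n letters has order at most 3 times the order of a Sylow 2-subgroup of the alternating group on n − 3 letters; the bound is attained by a nilpotent subgroup isomorphic to the direct product of such a Sylow 2-subgroup with a cyclic group of order 3; and any two nilpotent subgroups of the alternating group attaining the bound are conjugate in it. -/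
theorem result  (n : ℕ) (hn : n % 4 = 3) (h7 : 7 ≤ n)
    (P : Sylow 2 (alternatingGroup (Fin (n - 3)))) :
    (∀ N : Subgroup (alternatingGroup (Fin n)), Group.IsNilpotent N → Nat.card N ≤ 3 * Nat.card P) ∧
    (∃ M : Subgroup (alternatingGroup (Fin n)), Group.IsNilpotent M ∧ Nat.card M = 3 * Nat.card P ∧
      Nonempty (M ≃* (↥(P : Subgroup (alternatingGroup (Fin (n - 3)))) × Multiplicative (ZMod 3)))) ∧
    (∀ N₁ N₂ : Subgroup (alternatingGroup (Fin n)), Group.IsNilpotent N₁ → Group.IsNilpotent N₂ →
      Nat.card N₁ = 3 * Nat.card P → Nat.card N₂ = 3 * Nat.card P →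
      ∃ g : alternatingGroup (Fin n), N₂ = N₁.map (MulAut.conj g).toMonoidHom) := by
  have hP : 2 * Nat.card P = 2 ^ nu (n - 3) := card_sylow_two_alt (n - 3) (by omega) P
  have hbn : 2 * ba n = 3 * 2 ^ nu (n - 3) := by
    have := two_ba (n := n) (by omega) (by omega) (by omega) (by omega) (by omega)
    rw [bb_eq_of_three hn] at this
    exact this
  have hnu : 1 ≤ nu (n - 3) := by
    by_contra h
    have h0 : nu (n - 3) = 0 := by omega
    rw [h0] at hP
    have := Nat.card_pos (α := P)
    omega
  have hPv : Nat.card P = 2 ^ (nu (n - 3) - 1) := by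
    obtain ⟨w, hw⟩ : ∃ w, nu (n - 3) = w + 1 := ⟨nu (n - 3) - 1, by omega⟩
    rw [hw, pow_succ] at hP
    rw [hw, Nat.add_sub_cancel]
    omega
  refine ⟨?_, exists3A n hn P, ?_⟩
  · intro N hN
    have h := alt_card_le n N hN
    omega
  · intro N₁ N₂ h₁ h₂ c₁ c₂
    rw [hPv] at c₁ c₂
    exact conj3A' n hn h7 N₁ N₂ h₁ h₂ c₁ c₂

end Cfsg.Agent.S2256
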