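import Cfsg.Statements.S2258
import Cfsg.Agent.Lib.helper12.DkSol3
-- import your own Cfsg.Agent.* helpers here

set_option autoImplicit false
open Cfsg

namespace Cfsg.Agent.S2258

open Cfsg.Agent.Lib.helper12
open scoped MatrixGroups

/-- Let G = PSL_2(F) with F a field of order q = 3^p, p an odd prime, and for x ∈ G call the solubilizer of x the set of y ∈ G such that x and y generate a solvable subgroup. Then the solubilizer of an involution has q(q + 1) elements; that of an element of order 3 has q(q + 5)/2 elements; that of an element of order neither 1 nor 2 dividing q − 1 has q(q − 1) elements; and that of an element of order neither 1 nor 2 dividing q + 1 has q + 1 elements. -/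
theorem result (p : ℕ) (hp : p.Prime) (hodd : Odd p) {F : Type*} [Field F] [Fintype F]
    (hF : Fintype.card F = 3 ^ p) (x : Matrix.ProjectiveSpecialLinearGroup (Fin 2) F) :
    (orderOf x = 2 → Nat.card {y : Matrix.ProjectiveSpecialLinearGroup (Fin 2) F // Group.IsSolvable ↥(Subgroup.closure ({x, y} : Set (Matrix.ProjectiveSpecialLinearGroup (Fin 2) F)))} = 3 ^ p * (3 ^ p + 1)) ∧
    (orderOf x = 3 → 2 * Nat.card {y : Matrix.ProjectiveSpecialLinearGroup (Fin 2) F // Group.IsSolvable ↥(Subgroup.closure ({x, y} : Set (Matrix.ProjectiveSpecialLinearGroup (Fin 2) F)))} = 3 ^ p * (3 ^ p + 5)) ∧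
    (x ≠ 1 → orderOf x ≠ 2 → orderOf x ∣ 3 ^ p - 1 → Nat.card {y : Matrix.ProjectiveSpecialLinearGroup (Fin 2) F // Group.IsSolvable ↥(Subgroup.closure ({x, y} : Set (Matrix.ProjectiveSpecialLinearGroup (Fin 2) F)))} = 3 ^ p * (3 ^ p - 1)) ∧
    (x ≠ 1 → orderOf x ≠ 2 → orderOf x ∣ 3 ^ p + 1 → Nat.card {y : Matrix.ProjectiveSpecialLinearGroup (Fin 2) F // Group.IsSolvable ↥(Subgroup.closure ({x, y} : Set (Matrix.ProjectiveSpecialLinearGroup (Fin 2) F)))} = 3 ^ p + 1) := by
  have h : Q3 F := ⟨p, hp, hodd, hF⟩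
  rw [← hF]
  refine ⟨fun ho => ?_, fun ho => ?_, fun hx ho2 ho => ?_, fun hx ho2 ho => ?_⟩
  · have hx : x ≠ 1 := by
      intro e
      rw [e, orderOf_one] at ho
      norm_num at ho
    have hxx : x * x = 1 := by
      have h5 := pow_orderOf_eq_one x
      rw [ho, pow_two] at h5
      exact h5
    exact sol3_card_invol h x hx hxx
  · have hx : x ≠ 1 := by
      intro e
      rw [e, orderOf_one] at ho
      norm_num at ho
    have hx3 : x ^ 3 = 1 := by
      have h5 := pow_orderOf_eq_one x
      rw [ho] at h5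
      exact h5
    exact sol3_card_unip h x hx hx3
  · exact sol3_card_minus h x hx ho2 ho
  · exact sol3_card_plus h x hx ho2 ho

end Cfsg.Agent.S2258
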