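import Cfsg.Statements.S2268
-- import your own Cfsg.Agent.* helpers here

set_option autoImplicit false
open Cfsg
open scoped Pointwise

namespace Cfsg.Agent.S2268

/-- Let G be a finite group with an abelian Sylow p-subgroup P and let Q ≤ P. Then N_G(Q) = (N_G(Q) ∩ N_G(P))·C_G(Q), so that N_G(Q)/C_G(Q) is a homomorphic image of the subgroup (N_G(Q) ∩ N_G(P))/C_G(P) of N_G(P)/C_G(P); in particular the order of N_G(Q)/C_G(Q) divides the order of N_G(P)/C_G(P). -/
theorem result {G : Type*} [Group G] [Finite G] {p : ℕ} [Fact p.Prime]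
    (P : Sylow p G) (hP : IsMulCommutative (P : Subgroup G)) (Q : Subgroup G) (hQ : Q ≤ (P : Subgroup G)) :
    Subgroup.normalizer (Q : Set G) =
      (Subgroup.normalizer (Q : Set G) ⊓ Subgroup.normalizer ((P : Subgroup G) : Set G)) ⊔ Subgroup.centralizer (Q : Set G) ∧
    ((Subgroup.centralizer (Q : Set G)).subgroupOf (Subgroup.normalizer (Q : Set G))).index ∣ ((Subgroup.centralizer ((P : Subgroup G) : Set G)).subgroupOf (Subgroup.normalizer ((P : Subgroup G) : Set G))).index := by
  have hPCQ : (P : Subgroup G) ≤ Subgroup.centralizer (Q : Set G) := by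
    intro x hx
    rw [Subgroup.mem_centralizer_iff]
    intro q hq
    have := hP.is_comm.comm ⟨q, hQ hq⟩ ⟨x, hx⟩
    exact congrArg Subtype.val this
  have hCQNQ : Subgroup.centralizer (Q : Set G) ≤ Subgroup.normalizer (Q : Set G) :=
    Subgroup.centralizer_le_normalizer _
  have hCPCQ : Subgroup.centralizer ((P : Subgroup G) : Set G) ≤ Subgroup.centralizer (Q : Set G) :=
    Subgroup.centralizer_le hQ
  have hCPNP : Subgroup.centralizer ((P : Subgroup G) : Set G) ≤
      Subgroup.normalizer ((P : Subgroup G) : Set G) :=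
    Subgroup.centralizer_le_normalizer _
  have hnorm : Subgroup.normalizer (Q : Set G) ≤
      Subgroup.normalizer ((Subgroup.centralizer (Q : Set G) : Subgroup G) : Set G) := by
    intro g hg
    rw [Subgroup.mem_normalizer_iff]
    have key : ∀ g ∈ Subgroup.normalizer (Q : Set G), ∀ c ∈ Subgroup.centralizer (Q : Set G),
        g * c * g⁻¹ ∈ Subgroup.centralizer (Q : Set G) := by
      intro g hg c hc
      rw [Subgroup.mem_centralizer_iff]
      intro q hq
      have hq' : g⁻¹ * q * g ∈ Q := by
        have := (Subgroup.mem_normalizer_iff''.mp hg q).mp hq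
        exact this
      have hcq := (Subgroup.mem_centralizer_iff.mp hc) (g⁻¹ * q * g) hq'
      calc q * (g * c * g⁻¹) = g * ((g⁻¹ * q * g) * c) * g⁻¹ := by group
        _ = g * (c * (g⁻¹ * q * g)) * g⁻¹ := by rw [hcq]
        _ = g * c * g⁻¹ * q := by group
    intro c
    constructor
    · intro hc
      exact key g hg c hc
    · intro hc
      have := key g⁻¹ (inv_mem hg) _ hc
      simpa [mul_assoc] using this
  have h1 : Subgroup.normalizer (Q : Set G) =
      (Subgroup.normalizer (Q : Set G) ⊓ Subgroup.normalizer ((P : Subgroup G) : Set G)) ⊔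
        Subgroup.centralizer (Q : Set G) := by
    apply le_antisymm
    · intro g hg
      have h2 : ↑(g • P) ≤ Subgroup.centralizer (Q : Set G) := by
        intro y hy
        rw [Subgroup.mem_centralizer_iff]
        intro q hq
        have hy' : g⁻¹ * y * g ∈ (P : Subgroup G) := by
          have : y ∈ MulAut.conj g • (P : Subgroup G) := hy
          rw [Subgroup.mem_pointwise_smul_iff_inv_smul_mem] at this
          simpa [MulAut.smul_def, mul_assoc] using this
        have hq' : g⁻¹ * q * g ∈ Q := (Subgroup.mem_normalizer_iff''.mp hg q).mp hq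
        have hc := (Subgroup.mem_centralizer_iff.mp (hPCQ hy')) (g⁻¹ * q * g) hq'
        calc q * y = g * ((g⁻¹ * q * g) * (g⁻¹ * y * g)) * g⁻¹ := by group
          _ = g * ((g⁻¹ * y * g) * (g⁻¹ * q * g)) * g⁻¹ := by rw [hc]
          _ = y * q := by group
      obtain ⟨c, hc⟩ := MulAction.exists_smul_eq (Subgroup.centralizer (Q : Set G))
        ((g • P).subtype h2) (P.subtype hPCQ)
      simp_rw [Sylow.smul_subtype, Subgroup.smul_def, smul_smul] at hc
      have hcg : (c : G) * g ∈ Subgroup.normalizer ((P : Subgroup G) : Set G) :=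
        Sylow.smul_eq_iff_mem_normalizer.mp (Sylow.subtype_injective hc)
      have hcg' : (c : G) * g ∈ Subgroup.normalizer (Q : Set G) := mul_mem (hCQNQ c.2) hg
      have e : g = (c : G)⁻¹ * ((c : G) * g) := by group
      rw [e]
      exact mul_mem (Subgroup.mem_sup_right (inv_mem c.2))
        (Subgroup.mem_sup_left ⟨hcg', hcg⟩)
    · exact sup_le inf_le_left hCQNQ
  refine ⟨h1, ?_⟩
  have hA : Subgroup.normalizer (Q : Set G) ⊓ Subgroup.normalizer ((P : Subgroup G) : Set G) ≤
      Subgroup.normalizer ((Subgroup.centralizer (Q : Set G) : Subgroup G) : Set G) :=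
    inf_le_left.trans hnorm
  have e1 : (Subgroup.centralizer (Q : Set G)).relIndex
      ((Subgroup.normalizer (Q : Set G) ⊓ Subgroup.normalizer ((P : Subgroup G) : Set G)) ⊔
        Subgroup.centralizer (Q : Set G)) =
      (Subgroup.centralizer (Q : Set G)).relIndex
        (Subgroup.normalizer (Q : Set G) ⊓ Subgroup.normalizer ((P : Subgroup G) : Set G)) := by
    have i1 := Subgroup.normal_subgroupOf_of_le_normalizer hA
    have i2 := Subgroup.normal_subgroupOf_sup_of_le_normalizer hA
    exact Nat.card_congr (QuotientGroup.quotientInfEquivProdNormalizerQuotient _ _ hA).toEquiv.symm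
  have e2 : (Subgroup.centralizer (Q : Set G)).relIndex (Subgroup.normalizer (Q : Set G)) =
      (Subgroup.centralizer (Q : Set G)).relIndex
        (Subgroup.normalizer (Q : Set G) ⊓ Subgroup.normalizer ((P : Subgroup G) : Set G)) := by
    rw [← e1, ← h1]
  have hCPA : Subgroup.centralizer ((P : Subgroup G) : Set G) ≤
      Subgroup.normalizer (Q : Set G) ⊓ Subgroup.normalizer ((P : Subgroup G) : Set G) :=
    le_inf (hCPCQ.trans hCQNQ) hCPNP
  have d1 : (Subgroup.centralizer (Q : Set G)).relIndex
        (Subgroup.normalizer (Q : Set G) ⊓ Subgroup.normalizer ((P : Subgroup G) : Set G)) ∣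
      (Subgroup.centralizer ((P : Subgroup G) : Set G)).relIndex
        (Subgroup.normalizer (Q : Set G) ⊓ Subgroup.normalizer ((P : Subgroup G) : Set G)) :=
    Subgroup.relIndex_dvd_of_le_left _ hCPCQ
  have d2 : (Subgroup.centralizer ((P : Subgroup G) : Set G)).relIndex
        (Subgroup.normalizer (Q : Set G) ⊓ Subgroup.normalizer ((P : Subgroup G) : Set G)) ∣
      (Subgroup.centralizer ((P : Subgroup G) : Set G)).relIndex
        (Subgroup.normalizer ((P : Subgroup G) : Set G)) :=
    Dvd.intro _ (Subgroup.relIndex_mul_relIndex _ _ _ hCPA inf_le_right)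
  show (Subgroup.centralizer (Q : Set G)).relIndex (Subgroup.normalizer (Q : Set G)) ∣
    (Subgroup.centralizer ((P : Subgroup G) : Set G)).relIndex
      (Subgroup.normalizer ((P : Subgroup G) : Set G))
  rw [e2]
  exact d1.trans d2

end Cfsg.Agent.S2268
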