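import Cfsg.Statements.S2269
-- import your own Cfsg.Agent.* helpers here

set_option autoImplicit false
open Cfsg
open scoped Pointwise

namespace Cfsg.Agent.S2269

/-- If an abelian Sylow `p`-subgroup (`p` odd) contains a non-identity element conjugate to its inverse,
then the automizer `N(P)/C(P)` has even order. -/
theorem even_automizer {G : Type*} [Group G] [Finite G] {p : ℕ} [Fact p.Prime] (hp : p ≠ 2)
    (P : Sylow p G) (hP : IsMulCommutative (P : Subgroup G))
    (x : G) (hx : x ∈ (P : Subgroup G)) (hx1 : x ≠ 1) (hconj : IsConj x x⁻¹) :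
    2 ∣ ((Subgroup.centralizer ((P : Subgroup G) : Set G)).subgroupOf
      (Subgroup.normalizer ((P : Subgroup G) : Set G))).index := by
  have hpp : p.Prime := Fact.out
  obtain ⟨c, hc⟩ := isConj_iff.mp hconj
  have : IsMulCommutative P := hP
  obtain ⟨n, hn, hn2⟩ := P.conj_eq_normalizer_conj_of_mem x c⁻¹ hx
    (by rw [inv_inv, hc]; exact inv_mem hx)
  rw [inv_inv, hc] at hn2
  -- hn2 : x⁻¹ = n⁻¹ * x * n
  have h1 : x * n = n * x⁻¹ := by rw [hn2]; group
  have h2 : x⁻¹ * n = n * x := by
    have : x⁻¹ = n * x * n⁻¹ * (n * n⁻¹) := by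
      have h3 : n * x⁻¹ * n⁻¹ = x := by rw [← h1]; group
      calc x⁻¹ = (n * x⁻¹ * n⁻¹)⁻¹ := by rw [h3]
        _ = n * x * n⁻¹ * (n * n⁻¹) := by group
    rw [this]; group
  have hcomm : Commute x (n * n) := by
    show x * (n * n) = n * n * x
    rw [← mul_assoc, h1, mul_assoc, h2, mul_assoc]
  have hodd : ∀ j : ℕ, x * n ^ (2 * j + 1) = n ^ (2 * j + 1) * x⁻¹ := by
    intro j
    have e : n ^ (2 * j + 1) = (n * n) ^ j * n := by
      rw [pow_succ, pow_mul, pow_two]
    rw [e, ← mul_assoc, (hcomm.pow_right j).eq, mul_assoc, h1, mul_assoc]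
  set N := Subgroup.normalizer ((P : Subgroup G) : Set G) with hN
  set C := Subgroup.centralizer ((P : Subgroup G) : Set G) with hC
  let nn : N := ⟨n, hn⟩
  let q : N →* N ⧸ C.subgroupOf N := QuotientGroup.mk' _
  have hk : (q nn) ^ orderOf (q nn) = 1 := pow_orderOf_eq_one _
  have hdvd : orderOf (q nn) ∣ (C.subgroupOf N).index := by
    rw [Subgroup.index_eq_card]
    exact orderOf_dvd_natCard _
  refine dvd_trans ?_ hdvd
  by_contra hnot
  have hoddk : Odd (orderOf (q nn)) := by
    rcases Nat.even_or_odd (orderOf (q nn)) with he | ho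
    · exact absurd (even_iff_two_dvd.mp he) hnot
    · exact ho
  obtain ⟨j, hj⟩ := hoddk
  rw [← map_pow] at hk
  have hmem : nn ^ orderOf (q nn) ∈ C.subgroupOf N := by
    have := (QuotientGroup.eq_one_iff (N := C.subgroupOf N) (nn ^ orderOf (q nn))).mp hk
    exact this
  rw [Subgroup.mem_subgroupOf] at hmem
  have hmem' : n ^ (2 * j + 1) ∈ C := by
    rw [← hj]
    simpa using hmem
  have hcx := (Subgroup.mem_centralizer_iff.mp hmem') x hx
  -- hcx : x * n ^ (2j+1) = n ^ (2j+1) * x
  rw [hodd j] at hcx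
  have hxx : x⁻¹ = x := mul_left_cancel hcx
  have hx2 : x ^ 2 = 1 := by
    rw [pow_two]
    nth_rewrite 1 [← hxx]
    exact inv_mul_cancel x
  obtain ⟨k, hk'⟩ := P.isPGroup' ⟨x, hx⟩
  have hxk : x ^ p ^ k = 1 := by
    have := congrArg Subtype.val hk'
    simpa using this
  have ho2 : orderOf x ∣ 2 := orderOf_dvd_of_pow_eq_one hx2
  have hopk : orderOf x ∣ p ^ k := orderOf_dvd_of_pow_eq_one hxk
  have hcop : Nat.Coprime 2 (p ^ k) := by
    apply Nat.Coprime.pow_right
    exact (Nat.coprime_primes Nat.prime_two hpp).mpr (Ne.symm hp)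
  have ho1 : orderOf x = 1 := Nat.eq_one_of_dvd_coprimes hcop ho2 hopk
  exact hx1 (orderOf_eq_one_iff.mp ho1)



/-- rotation of the square together with the swap of 4 5 -/
def rho : Equiv.Perm (Fin 6) := ⟨![1, 2, 3, 0, 5, 4], ![3, 0, 1, 2, 5, 4], by decide, by decide⟩
/-- reflection of the square together with the swap of 4 5 -/
def sig : Equiv.Perm (Fin 6) := ⟨![0, 3, 2, 1, 5, 4], ![0, 3, 2, 1, 5, 4], by decide, by decide⟩

def f6fun : DihedralGroup 4 → Equiv.Perm (Fin 6)
  | DihedralGroup.r i => rho ^ i.val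
  | DihedralGroup.sr i => sig * rho ^ i.val

theorem f6_mul : ∀ a b : DihedralGroup 4, f6fun (a * b) = f6fun a * f6fun b := by decide

def f6 : DihedralGroup 4 →* Equiv.Perm (Fin 6) := MonoidHom.mk' f6fun f6_mul

theorem f6_sign : ∀ a : DihedralGroup 4, Equiv.Perm.sign (f6 a) = 1 := by decide

theorem f6_noncomm : f6 (DihedralGroup.r 1) * f6 (DihedralGroup.sr 0) ≠
    f6 (DihedralGroup.sr 0) * f6 (DihedralGroup.r 1) := by decide

/-- a Sylow subgroup contains a conjugate of every `p`-subgroup; abelian Sylow forces every `p`-subgroup abelian -/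
theorem comm_of_pgroup {G : Type*} [Group G] [Finite G] {p : ℕ} [Fact p.Prime]
    (P : Sylow p G) (hP : IsMulCommutative (P : Subgroup G)) (H : Subgroup G) (hH : IsPGroup p H)
    (u v : G) (hu : u ∈ H) (hv : v ∈ H) : u * v = v * u := by
  obtain ⟨Q, hQ⟩ := hH.exists_le_sylow
  obtain ⟨g, hg⟩ := MulAction.exists_smul_eq G P Q
  have key : ∀ w ∈ H, g⁻¹ * w * g ∈ (P : Subgroup G) := by
    intro w hw
    have h1 : w ∈ (Q : Subgroup G) := hQ hw
    rw [← hg] at h1
    have h2 : w ∈ MulAut.conj g • (P : Subgroup G) := h1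
    rw [Subgroup.mem_pointwise_smul_iff_inv_smul_mem] at h2
    simpa [MulAut.smul_def, mul_assoc] using h2
  have h3 := hP.is_comm.comm ⟨_, key u hu⟩ ⟨_, key v hv⟩
  have h4 : g⁻¹ * u * g * (g⁻¹ * v * g) = g⁻¹ * v * g * (g⁻¹ * u * g) := congrArg Subtype.val h3
  calc u * v = g * (g⁻¹ * u * g * (g⁻¹ * v * g)) * g⁻¹ := by group
    _ = g * (g⁻¹ * v * g * (g⁻¹ * u * g)) * g⁻¹ := by rw [h4]
    _ = v * u := by group

theorem sylow_two_alt_nonabelian (n : ℕ) (hn : 6 ≤ n) (P : Sylow 2 (alternatingGroup (Fin n)))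
    (hP : IsMulCommutative (P : Subgroup (alternatingGroup (Fin n)))) : False := by
  let φ : Equiv.Perm (Fin 6) →* Equiv.Perm (Fin n) :=
    Equiv.Perm.extendDomainHom (Fin.castLEquiv hn)
  have hφ : Function.Injective φ := Equiv.Perm.extendDomainHom_injective _
  let F : DihedralGroup 4 →* Equiv.Perm (Fin n) := φ.comp f6
  have hF : ∀ d, F d ∈ alternatingGroup (Fin n) := by
    intro d
    rw [Equiv.Perm.mem_alternatingGroup]
    show Equiv.Perm.sign ((f6 d).extendDomain (Fin.castLEquiv hn)) = 1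
    rw [Equiv.Perm.sign_extendDomain]
    exact f6_sign d
  let F' : DihedralGroup 4 →* alternatingGroup (Fin n) := F.codRestrict _ hF
  have hD : IsPGroup 2 (DihedralGroup 4) := by
    apply IsPGroup.of_card (n := 3)
    rw [DihedralGroup.nat_card]; norm_num
  have hH : IsPGroup 2 F'.range := by
    rw [MonoidHom.range_eq_map]
    exact (hD.to_subgroup ⊤).map F'
  have h := comm_of_pgroup P hP F'.range hH (F' (DihedralGroup.r 1)) (F' (DihedralGroup.sr 0))
    ⟨_, rfl⟩ ⟨_, rfl⟩
  have h' : F (DihedralGroup.r 1) * F (DihedralGroup.sr 0) =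
      F (DihedralGroup.sr 0) * F (DihedralGroup.r 1) := congrArg Subtype.val h
  have h'' : φ (f6 (DihedralGroup.r 1) * f6 (DihedralGroup.sr 0)) =
      φ (f6 (DihedralGroup.sr 0) * f6 (DihedralGroup.r 1)) := by
    rw [map_mul, map_mul]; exact h'
  exact f6_noncomm (hφ h'')



theorem exists_conj_inv (n p : ℕ) [Fact p.Prime] (hp : p ≠ 2) (hn : 2 * p ≤ n)
    (P : Sylow p (alternatingGroup (Fin n))) :
    ∃ x : alternatingGroup (Fin n), x ∈ (P : Subgroup (alternatingGroup (Fin n))) ∧ x ≠ 1 ∧
      IsConj x x⁻¹ := by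
  have hpp : p.Prime := Fact.out
  have hp2 : 2 ≤ p := hpp.two_le
  have hp3 : 3 ≤ p := by omega
  have hodd : Odd p := hpp.odd_of_ne_two hp
  have : NeZero n := ⟨by omega⟩
  let i : Fin n := ⟨p - 1, by omega⟩
  have hi0 : i ≠ 0 := by
    intro h
    have := congrArg Fin.val h
    simp [i] at this
    omega
  let y : Equiv.Perm (Fin n) := Fin.cycleRange i
  have hyct : y.cycleType = {p} := by
    rw [Fin.cycleType_cycleRange hi0]
    have : (i : ℕ) + 1 = p := by simp [i]; omega
    rw [this]
  have hysign : Equiv.Perm.sign y = 1 := by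
    rw [Fin.sign_cycleRange]
    have he : Even (p - 1) := by
      obtain ⟨k, hk⟩ := hodd
      exact ⟨k, by omega⟩
    exact he.neg_one_pow
  have hyord : orderOf y = p := by
    rw [← Equiv.Perm.lcm_cycleType, hyct]; simp
  let yy : alternatingGroup (Fin n) := ⟨y, Equiv.Perm.mem_alternatingGroup.mpr hysign⟩
  have hyyord : orderOf yy = p := by
    rw [← hyord]
    exact Subgroup.orderOf_mk y _
  have hZ : IsPGroup p (Subgroup.zpowers yy) :=
    IsPGroup.of_card (n := 1) (by rw [Nat.card_zpowers, hyyord, pow_one])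
  obtain ⟨Q, hQ⟩ := hZ.exists_le_sylow
  obtain ⟨g, hg⟩ := MulAction.exists_smul_eq (alternatingGroup (Fin n)) P Q
  have hx : g⁻¹ * yy * g ∈ (P : Subgroup (alternatingGroup (Fin n))) := by
    have h1 : yy ∈ (Q : Subgroup (alternatingGroup (Fin n))) := hQ (Subgroup.mem_zpowers yy)
    rw [← hg] at h1
    have h2 : yy ∈ MulAut.conj g • (P : Subgroup (alternatingGroup (Fin n))) := h1
    rw [Subgroup.mem_pointwise_smul_iff_inv_smul_mem] at h2
    simpa [MulAut.smul_def, mul_assoc] using h2
  refine ⟨g⁻¹ * yy * g, hx, ?_, ?_⟩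
  · intro h
    have h1 : yy = 1 := by
      calc yy = g * (g⁻¹ * yy * g) * g⁻¹ := by group
        _ = 1 := by rw [h]; group
    rw [h1, orderOf_one] at hyyord
    omega
  · have hxct : ((g⁻¹ * yy * g : alternatingGroup (Fin n)) : Equiv.Perm (Fin n)).cycleType = {p} := by
      have e : ((g⁻¹ * yy * g : alternatingGroup (Fin n)) : Equiv.Perm (Fin n)) =
          (g⁻¹ : alternatingGroup (Fin n)).1 * y * ((g⁻¹ : alternatingGroup (Fin n)).1)⁻¹ := by
        simp [yy]
      rw [e, Equiv.Perm.cycleType_conj, hyct]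
    set x : alternatingGroup (Fin n) := g⁻¹ * yy * g with hxdef
    have hsupp : (x : Equiv.Perm (Fin n)).support.card = p := by
      rw [← Equiv.Perm.sum_cycleType, hxct]; simp
    have hfix : 1 < ((x : Equiv.Perm (Fin n)).supportᶜ).card := by
      rw [Finset.card_compl, hsupp, Fintype.card_fin]; omega
    obtain ⟨a, ha, b, hb, hab⟩ := Finset.one_lt_card.mp hfix
    have hxa : (x : Equiv.Perm (Fin n)) a = a := by
      simpa using ha
    have hxb : (x : Equiv.Perm (Fin n)) b = b := by
      simpa using hb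
    obtain ⟨σ, hσ⟩ := isConj_iff.mp (Equiv.Perm.isConj_iff_cycleType_eq.mpr
      (Equiv.Perm.cycleType_inv (x : Equiv.Perm (Fin n))).symm)
    rcases Int.units_eq_one_or (Equiv.Perm.sign σ) with h1 | h1
    · refine isConj_iff.mpr ⟨⟨σ, Equiv.Perm.mem_alternatingGroup.mpr h1⟩, Subtype.ext ?_⟩
      simpa using hσ
    · have hτ : Equiv.swap a b * (x : Equiv.Perm (Fin n)) =
          (x : Equiv.Perm (Fin n)) * Equiv.swap a b := by
        rw [Equiv.swap_mul_eq_mul_swap]
        have ha' : (x : Equiv.Perm (Fin n))⁻¹ a = a := by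
          rw [Equiv.Perm.inv_eq_iff_eq]; exact hxa.symm
        have hb' : (x : Equiv.Perm (Fin n))⁻¹ b = b := by
          rw [Equiv.Perm.inv_eq_iff_eq]; exact hxb.symm
        rw [ha', hb']
      have hs : Equiv.Perm.sign (σ * Equiv.swap a b) = 1 := by
        rw [Equiv.Perm.sign_mul, h1, Equiv.Perm.sign_swap hab]; simp
      refine isConj_iff.mpr ⟨⟨σ * Equiv.swap a b, Equiv.Perm.mem_alternatingGroup.mpr hs⟩,
        Subtype.ext ?_⟩
      show σ * Equiv.swap a b * (x : Equiv.Perm (Fin n)) * (σ * Equiv.swap a b)⁻¹ =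
        (x : Equiv.Perm (Fin n))⁻¹
      calc σ * Equiv.swap a b * (x : Equiv.Perm (Fin n)) * (σ * Equiv.swap a b)⁻¹
          = σ * (Equiv.swap a b * (x : Equiv.Perm (Fin n))) * (Equiv.swap a b)⁻¹ * σ⁻¹ := by group
        _ = σ * (x : Equiv.Perm (Fin n)) * σ⁻¹ := by rw [hτ]; group
        _ = (x : Equiv.Perm (Fin n))⁻¹ := hσ

theorem cyclic_of_small (n p : ℕ) [Fact p.Prime] (hn : n < 2 * p)
    (P : Sylow p (alternatingGroup (Fin n))) :
    IsCyclic (P : Subgroup (alternatingGroup (Fin n))) := by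
  have hpp : p.Prime := Fact.out
  have hp2 : 2 ≤ p := hpp.two_le
  obtain ⟨k, hk⟩ := P.isPGroup'.exists_card_eq
  have h1 : p ^ k ∣ n.factorial := by
    have a : Nat.card (P : Subgroup (alternatingGroup (Fin n))) ∣
        Nat.card (alternatingGroup (Fin n)) := Subgroup.card_subgroup_dvd_card _
    have b : Nat.card (alternatingGroup (Fin n)) ∣ Nat.card (Equiv.Perm (Fin n)) :=
      Subgroup.card_subgroup_dvd_card _
    have c : Nat.card (Equiv.Perm (Fin n)) = n.factorial := by
      rw [Nat.card_eq_fintype_card, Fintype.card_perm, Fintype.card_fin]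
    rw [hk] at a
    exact c ▸ a.trans b
  have h2 : k ≤ 1 := by
    by_contra h
    have hk2 : 2 ≤ k := by omega
    have h3 : p ^ 2 ∣ n.factorial := (pow_dvd_pow p hk2).trans h1
    have hlog : Nat.log p n < 2 := by
      rcases Nat.eq_zero_or_pos n with h0 | h0
      · rw [h0, Nat.log_zero_right]; norm_num
      · exact Nat.log_lt_of_lt_pow (by omega) (by nlinarith)
    rw [hpp.pow_dvd_factorial_iff hlog] at h3
    simp at h3
    have : n / p < 2 := Nat.div_lt_of_lt_mul (by omega)
    omega
  interval_cases k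
  · have : Subsingleton (P : Subgroup (alternatingGroup (Fin n))) :=
      (Nat.card_eq_one_iff_unique.mp (by simpa using hk)).1
    exact isCyclic_of_subsingleton
  · exact isCyclic_of_prime_card (p := p) (by simpa using hk)



set_option maxRecDepth 100000 in
theorem a5_no_order_four : ∀ g : Equiv.Perm (Fin 5), Equiv.Perm.sign g = 1 → g ^ 4 = 1 → g ^ 2 = 1 := by
  decide

theorem card_a5 : Nat.card (alternatingGroup (Fin 5)) = 60 := by
  rw [nat_card_alternatingGroup]; simp; decide

theorem card_sylow_a5 (P : Sylow 2 (alternatingGroup (Fin 5))) :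
    Nat.card (P : Subgroup (alternatingGroup (Fin 5))) = 4 := by
  obtain ⟨k, hk⟩ := P.isPGroup'.exists_card_eq
  have h1 : 2 ^ k ∣ 60 := by
    rw [← hk, ← card_a5]; exact Subgroup.card_subgroup_dvd_card _
  have h2 : 2 ^ 2 ∣ 2 ^ k := by
    rw [← hk]
    exact P.pow_dvd_card_of_pow_dvd_card (by rw [card_a5]; norm_num)
  have hk2 : 2 ≤ k := (Nat.pow_dvd_pow_iff_le_right (by norm_num)).mp h2
  have hk3 : k < 3 := by
    by_contra h
    have : 2 ^ 3 ∣ 60 := (pow_dvd_pow 2 (by omega)).trans h1
    norm_num at this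
  have : k = 2 := by omega
  rw [hk, this]; norm_num

theorem kleinFour_a5 (P : Sylow 2 (alternatingGroup (Fin 5))) :
    IsKleinFour (P : Subgroup (alternatingGroup (Fin 5))) := by
  have hc := card_sylow_a5 P
  refine ⟨hc, ?_⟩
  have h2 : ∀ g : (P : Subgroup (alternatingGroup (Fin 5))), g ^ 2 = 1 := by
    intro g
    have h4 : g ^ 4 = 1 := by rw [← hc]; exact pow_card_eq_one'
    have h4' : ((g : alternatingGroup (Fin 5)) : Equiv.Perm (Fin 5)) ^ 4 = 1 := by
      have := congrArg (fun z : (P : Subgroup (alternatingGroup (Fin 5))) =>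
        ((z : alternatingGroup (Fin 5)) : Equiv.Perm (Fin 5))) h4
      simpa using this
    have hs := Equiv.Perm.mem_alternatingGroup.mp (g : alternatingGroup (Fin 5)).2
    have h2' := a5_no_order_four _ hs h4'
    apply Subtype.ext
    apply Subtype.ext
    simpa using h2'
  have hd : Monoid.exponent (P : Subgroup (alternatingGroup (Fin 5))) ∣ 2 :=
    Monoid.exponent_dvd_of_forall_pow_eq_one h2
  have hne : Monoid.exponent (P : Subgroup (alternatingGroup (Fin 5))) ≠ 1 := by
    intro h1
    have hs : Subsingleton (P : Subgroup (alternatingGroup (Fin 5))) := Monoid.exp_eq_one_iff.mp h1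
    have : Nat.card (P : Subgroup (alternatingGroup (Fin 5))) = 1 := Nat.card_unique
    omega
  rcases (Nat.dvd_prime Nat.prime_two).mp hd with h | h
  · exact absurd h hne
  · exact h

theorem index_three_gen {G : Type*} [Group G] [Finite G] [IsSimpleGroup G] (hG : Nat.card G = 60)
    (P : Sylow 2 G) (hP : IsMulCommutative (P : Subgroup G))
    (hc : Nat.card (P : Subgroup G) = 4) :
    ((Subgroup.centralizer ((P : Subgroup G) : Set G)).subgroupOf
      (Subgroup.normalizer ((P : Subgroup G) : Set G))).index = 3 := by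
  set C := Subgroup.centralizer ((P : Subgroup G) : Set G) with hC
  set N := Subgroup.normalizer ((P : Subgroup G) : Set G) with hN
  have hPC : (P : Subgroup G) ≤ C := by
    intro x hx
    rw [hC, Subgroup.mem_centralizer_iff]
    intro q hq
    exact congrArg Subtype.val (hP.is_comm.comm ⟨q, hq⟩ ⟨x, hx⟩)
  have hidx : (P : Subgroup G).index = 15 := by
    have := (P : Subgroup G).index_mul_card
    rw [hc, hG] at this
    omega
  have d15 : (C.subgroupOf N).index ∣ 15 := by
    have h1 : C.relIndex N ∣ (P : Subgroup G).relIndex N := Subgroup.relIndex_dvd_of_le_left N hPC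
    have h2 : (P : Subgroup G).relIndex N ∣ (P : Subgroup G).index :=
      Subgroup.relIndex_dvd_index_of_le Subgroup.le_normalizer
    rw [← hidx]
    exact h1.trans h2
  have d24 : (C.subgroupOf N).index ∣ 24 := by
    have h1 : (C.subgroupOf N).index = Nat.card (P : Subgroup G).normalizerMonoidHom.range := by
      rw [← Subgroup.index_ker, Subgroup.normalizerMonoidHom_ker]
    have h2 : Nat.card (P : Subgroup G).normalizerMonoidHom.range ∣
        Nat.card (MulAut (P : Subgroup G)) := Subgroup.card_subgroup_dvd_card _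
    have h3 : Nat.card (MulAut (P : Subgroup G)) ∣ Nat.card (Equiv.Perm (P : Subgroup G)) :=
      Subgroup.card_dvd_of_injective (MulAut.toPerm (P : Subgroup G))
        (fun a b h => MulEquiv.toEquiv_injective h)
    have h4 : Nat.card (Equiv.Perm (P : Subgroup G)) = 24 := by
      rw [Nat.card_perm, hc]; rfl
    rw [h1]
    rw [h4] at h3
    exact h2.trans h3
  have d3 : (C.subgroupOf N).index ∣ 3 := by
    have := Nat.dvd_gcd d15 d24
    norm_num at this
    exact this
  have hne1 : (C.subgroupOf N).index ≠ 1 := by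
    intro h1
    have hNC : N ≤ C := Subgroup.relIndex_eq_one.mp h1
    have hcomp := MonoidHom.ker_transferSylow_isComplement' P hNC
    have hcard := hcomp.card_mul_card
    rw [hc, hG] at hcard
    rcases Subgroup.Normal.eq_bot_or_eq_top (MonoidHom.normal_ker (MonoidHom.transferSylow P hNC)) with hb | ht
    · rw [hb, Subgroup.card_bot] at hcard; omega
    · rw [ht, Subgroup.card_top, hG] at hcard; omega
  rcases (Nat.dvd_prime Nat.prime_three).mp d3 with h | h
  · exact absurd h hne1
  · exact h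


/-- Let n ≥ 5 and let P be an abelian Sylow p-subgroup of the alternating group A_n. Then N(P)/C(P) (taken in A_n) has even order, or P is cyclic, except when n = 5 and p = 2, where P is a four-group and N(P)/C(P) has order 3. -/
theorem result (n : ℕ) (hn : 5 ≤ n) {p : ℕ} [Fact p.Prime]
    (P : Sylow p (alternatingGroup (Fin n))) (hP : IsMulCommutative (P : Subgroup (alternatingGroup (Fin n)))) :
    (¬ (n = 5 ∧ p = 2) → 2 ∣ ((Subgroup.centralizer ((P : Subgroup (alternatingGroup (Fin n))) : Set (alternatingGroup (Fin n)))).subgroupOf (Subgroup.normalizer ((P : Subgroup (alternatingGroup (Fin n))) : Set (alternatingGroup (Fin n))))).index ∨ IsCyclic (P : Subgroup (alternatingGroup (Fin n)))) ∧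
    ((n = 5 ∧ p = 2) → ((Subgroup.centralizer ((P : Subgroup (alternatingGroup (Fin n))) : Set (alternatingGroup (Fin n)))).subgroupOf (Subgroup.normalizer ((P : Subgroup (alternatingGroup (Fin n))) : Set (alternatingGroup (Fin n))))).index = 3 ∧ IsKleinFour (P : Subgroup (alternatingGroup (Fin n)))) := by
  constructor
  · intro hne
    by_cases hp2 : p = 2
    · subst hp2
      exfalso
      exact sylow_two_alt_nonabelian n (by omega) P hP
    · by_cases h2p : 2 * p ≤ n
      · left
        obtain ⟨x, hx, hx1, hc⟩ := exists_conj_inv n p hp2 h2p P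
        exact even_automizer hp2 P hP x hx hx1 hc
      · right
        exact cyclic_of_small n p (by omega) P
  · rintro ⟨rfl, rfl⟩
    have : IsSimpleGroup (alternatingGroup (Fin 5)) := alternatingGroup.isSimpleGroup_five
    exact ⟨index_three_gen card_a5 P hP (card_sylow_a5 P), kleinFour_a5 P⟩

end Cfsg.Agent.S2269
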