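import Cfsg.Statements.S2270
-- import your own Cfsg.Agent.* helpers here

set_option autoImplicit false
open Cfsg

namespace Cfsg.Agent.S2270

/-- If an abelian Sylow `p`-subgroup (`p` odd) contains a non-identity element conjugate to its inverse,
then the automizer `N(P)/C(P)` has even order. -/
theorem even_automizer {G : Type*} [Group G] [Finite G] {p : ℕ} [Fact p.Prime] (hp : p ≠ 2)
    (P : Sylow p G) (hP : IsMulCommutative (P : Subgroup G))
    (x : G) (hx : x ∈ (P : Subgroup G)) (hx1 : x ≠ 1) (hconj : IsConj x x⁻¹) :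
    2 ∣ ((Subgroup.centralizer ((P : Subgroup G) : Set G)).subgroupOf
      (Subgroup.normalizer ((P : Subgroup G) : Set G))).index := by
  have hpp : p.Prime := Fact.out
  obtain ⟨c, hc⟩ := isConj_iff.mp hconj
  have : IsMulCommutative P := hP
  obtain ⟨n, hn, hn2⟩ := P.conj_eq_normalizer_conj_of_mem x c⁻¹ hx
    (by rw [inv_inv, hc]; exact inv_mem hx)
  rw [inv_inv, hc] at hn2
  -- hn2 : x⁻¹ = n⁻¹ * x * n
  have h1 : x * n = n * x⁻¹ := by rw [hn2]; group
  have h2 : x⁻¹ * n = n * x := by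
    have : x⁻¹ = n * x * n⁻¹ * (n * n⁻¹) := by
      have h3 : n * x⁻¹ * n⁻¹ = x := by rw [← h1]; group
      calc x⁻¹ = (n * x⁻¹ * n⁻¹)⁻¹ := by rw [h3]
        _ = n * x * n⁻¹ * (n * n⁻¹) := by group
    rw [this]; group
  have hcomm : Commute x (n * n) := by
    show x * (n * n) = n * n * x
    rw [← mul_assoc, h1, mul_assoc, h2, mul_assoc]
  have hodd : ∀ j : ℕ, x * n ^ (2 * j + 1) = n ^ (2 * j + 1) * x⁻¹ := by
    intro j
    have e : n ^ (2 * j + 1) = (n * n) ^ j * n := by
      rw [pow_succ, pow_mul, pow_two]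
    rw [e, ← mul_assoc, (hcomm.pow_right j).eq, mul_assoc, h1, mul_assoc]
  set N := Subgroup.normalizer ((P : Subgroup G) : Set G) with hN
  set C := Subgroup.centralizer ((P : Subgroup G) : Set G) with hC
  let nn : N := ⟨n, hn⟩
  let q : N →* N ⧸ C.subgroupOf N := QuotientGroup.mk' _
  have hk : (q nn) ^ orderOf (q nn) = 1 := pow_orderOf_eq_one _
  have hdvd : orderOf (q nn) ∣ (C.subgroupOf N).index := by
    rw [Subgroup.index_eq_card]
    exact orderOf_dvd_natCard _
  refine dvd_trans ?_ hdvd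
  by_contra hnot
  have hoddk : Odd (orderOf (q nn)) := by
    rcases Nat.even_or_odd (orderOf (q nn)) with he | ho
    · exact absurd (even_iff_two_dvd.mp he) hnot
    · exact ho
  obtain ⟨j, hj⟩ := hoddk
  rw [← map_pow] at hk
  have hmem : nn ^ orderOf (q nn) ∈ C.subgroupOf N := by
    have := (QuotientGroup.eq_one_iff (N := C.subgroupOf N) (nn ^ orderOf (q nn))).mp hk
    exact this
  rw [Subgroup.mem_subgroupOf] at hmem
  have hmem' : n ^ (2 * j + 1) ∈ C := by
    rw [← hj]
    simpa using hmem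
  have hcx := (Subgroup.mem_centralizer_iff.mp hmem') x hx
  -- hcx : x * n ^ (2j+1) = n ^ (2j+1) * x
  rw [hodd j] at hcx
  have hxx : x⁻¹ = x := mul_left_cancel hcx
  have hx2 : x ^ 2 = 1 := by
    rw [pow_two]
    nth_rewrite 1 [← hxx]
    exact inv_mul_cancel x
  obtain ⟨k, hk'⟩ := P.isPGroup' ⟨x, hx⟩
  have hxk : x ^ p ^ k = 1 := by
    have := congrArg Subtype.val hk'
    simpa using this
  have ho2 : orderOf x ∣ 2 := orderOf_dvd_of_pow_eq_one hx2
  have hopk : orderOf x ∣ p ^ k := orderOf_dvd_of_pow_eq_one hxk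
  have hcop : Nat.Coprime 2 (p ^ k) := by
    apply Nat.Coprime.pow_right
    exact (Nat.coprime_primes Nat.prime_two hpp).mpr (Ne.symm hp)
  have ho1 : orderOf x = 1 := Nat.eq_one_of_dvd_coprimes hcop ho2 hopk
  exact hx1 (orderOf_eq_one_iff.mp ho1)

/-- Let n ≥ 3, p an odd prime, and P an abelian Sylow p-subgroup of the symmetric group S_n (with p dividing n!, so that P ≠ 1). Then N(P)/C(P) has even order. -/
theorem result (n : ℕ) (hn : 3 ≤ n) {p : ℕ} [Fact p.Prime] (hp : p ≠ 2) (hpn : p ≤ n)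
    (P : Sylow p (Equiv.Perm (Fin n))) (hP : IsMulCommutative (P : Subgroup (Equiv.Perm (Fin n)))) :
    2 ∣ ((Subgroup.centralizer ((P : Subgroup (Equiv.Perm (Fin n))) : Set (Equiv.Perm (Fin n)))).subgroupOf (Subgroup.normalizer ((P : Subgroup (Equiv.Perm (Fin n))) : Set (Equiv.Perm (Fin n))))).index := by
  have hpp : p.Prime := Fact.out
  have hcard : p ∣ Nat.card (Equiv.Perm (Fin n)) := by
    rw [Nat.card_eq_fintype_card, Fintype.card_perm, Fintype.card_fin]
    exact Nat.dvd_factorial hpp.pos hpn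
  have hne : (P : Subgroup (Equiv.Perm (Fin n))) ≠ ⊥ := P.ne_bot_of_dvd_card hcard
  obtain ⟨x, hx, hx1⟩ := ((P : Subgroup (Equiv.Perm (Fin n))).bot_or_exists_ne_one).resolve_left hne
  exact even_automizer hp P hP x hx hx1
    (Equiv.Perm.isConj_iff_cycleType_eq.mpr (Equiv.Perm.cycleType_inv x).symm)

end Cfsg.Agent.S2270
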