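import Cfsg.Statements.S2337
import Cfsg.Agent.Lib.helper25.SzDeg2
import Cfsg.Agent.Lib.helper23.CharInt

set_option autoImplicit false
open Cfsg

namespace Cfsg.Agent.S2337

/-- For the Suzuki group Sz(q), q = 2^(2m+1) with m ≥ 1 (realised inside Sp₄ over the field with q elements), every irreducible complex representation of degree at least 2 has degree at least 2^m·(q − 1). -/
theorem result {F : Type*} [Field F] [Fintype F] (m : ℕ) (hm : 1 ≤ m) (hF : Fintype.card F = 2 ^ (2 * m + 1)) :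
    (∀ (k : ℕ) (ρ : Representation ℂ (Cfsg.Lie.Sz F (2 ^ (m + 1))) (Fin k → ℂ)), ρ.IsIrreducible → 2 ≤ k → 2 ^ m * (2 ^ (2 * m + 1) - 1) ≤ k) := by
  intro k ρ hirr hk
  have H := Cfsg.Agent.Lib.helper2.Suzuki.hyp_of_card hm hF
  haveI := Cfsg.Agent.Lib.helper25.SzIso.simple_Sz H
  apply Cfsg.Agent.Lib.helper25.SzDeg.deg_bound hm hF H
    ((Cfsg.Agent.Lib.helper25.SzDeg.matHom ρ).comp
      (Cfsg.Agent.Lib.helper25.SzIso.szEquiv H).toMonoidHom)
  intro htr
  have h01 : ¬ ((0 : F) = 0 ∧ (1 : F) = 0) := by simp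
  have h1 : Cfsg.Agent.Lib.helper25.SzIso.szEquiv H
      (Cfsg.Agent.Lib.helper25.SzOut.tG H 0 1) ≠ 1 := by
    intro h
    have h2 : Cfsg.Agent.Lib.helper25.SzOut.tG H (0 : F) 1 = 1 := by
      apply (Cfsg.Agent.Lib.helper25.SzIso.szEquiv H).injective
      rw [h, map_one]
    exact Cfsg.Agent.Lib.helper25.SzCover.tG_ne_one H h01 h2
  apply Cfsg.Agent.Lib.helper25.SzDeg.irr_faithful ρ hirr hk h1
  apply Cfsg.Agent.Lib.helper23.rep_eq_one_of_char_eq k ρ _ (isOfFinOrder_of_finite _)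
  rw [← Cfsg.Agent.Lib.helper25.SzDeg.matHom_trace]
  exact htr

end Cfsg.Agent.S2337
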