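import Cfsg.Statements.S5164
-- import your own Cfsg.Agent.* helpers here
import Mathlib

set_option autoImplicit false
open Cfsg

namespace Cfsg.Agent.S5164

theorem comm_small {Q : Type*} [Group Q] [Finite Q] {α : Type*} [Finite α] [MulAction Q α]
    (p : ℕ) [hp : Fact p.Prime] (hQ : IsPGroup p Q) (hα : Nat.card α < p ^ 2) (a b : Q) (x : α) :
    (a * b) • x = (b * a) • x := by
  classical
  have hp1 := hp.out
  obtain ⟨O, hO⟩ : ∃ O : Set α, O = MulAction.orbit Q x := ⟨_, rfl⟩
  subst hO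
  let φ : Q →* Equiv.Perm (MulAction.orbit Q x) := MulAction.toPermHom Q (MulAction.orbit Q x)
  obtain ⟨k, hk⟩ := hQ.card_orbit x
  have hle : Nat.card (MulAction.orbit Q x) ≤ Nat.card α :=
    Nat.card_le_card_of_injective _ Subtype.val_injective
  have hk1 : k ≤ 1 := by
    by_contra hk2
    push Not at hk2
    have : p ^ 2 ≤ p ^ k := Nat.pow_le_pow_right hp1.pos hk2
    omega
  have hOp : Nat.card (MulAction.orbit Q x) ≤ p := by
    rw [hk]
    calc p ^ k ≤ p ^ 1 := Nat.pow_le_pow_right hp1.pos hk1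
      _ = p := pow_one p
  have hR : IsPGroup p φ.range := hQ.of_surjective φ.rangeRestrict φ.rangeRestrict_surjective
  obtain ⟨j, hj⟩ := IsPGroup.iff_card.1 hR
  have hdvd : Nat.card φ.range ∣ (Nat.card (MulAction.orbit Q x)).factorial := by
    have := Subgroup.card_subgroup_dvd_card φ.range
    rwa [Nat.card_perm] at this
  have hdvd2 : Nat.card φ.range ∣ p.factorial := hdvd.trans (Nat.factorial_dvd_factorial hOp)
  have hj1 : j ≤ 1 := by
    by_contra hj2
    push Not at hj2
    have h1 : p ^ 2 ∣ p.factorial := (pow_dvd_pow p hj2).trans (hj ▸ hdvd2)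
    rw [← Nat.mul_factorial_pred hp1.ne_zero, sq] at h1
    have h2 : p ∣ (p - 1).factorial := Nat.dvd_of_mul_dvd_mul_left hp1.pos h1
    have h3 := (Nat.Prime.dvd_factorial hp1).1 h2
    have := hp1.pos
    omega
  have hcd : Nat.card φ.range ∣ p := by
    rw [hj]
    calc p ^ j ∣ p ^ 1 := pow_dvd_pow p hj1
      _ = p := pow_one p
  have hcyc : IsCyclic φ.range := isCyclic_of_card_dvd_prime (p := p) hcd
  have hc : ∀ u v : φ.range, u * v = v * u := fun u v => (IsCyclic.commGroup).mul_comm u v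
  have h3 := hc ⟨φ a, ⟨a, rfl⟩⟩ ⟨φ b, ⟨b, rfl⟩⟩
  have h4 : φ a * φ b = φ b * φ a := congrArg Subtype.val h3
  have h5 := congrArg (fun σ : Equiv.Perm (MulAction.orbit Q x) =>
    ((σ ⟨x, MulAction.mem_orbit_self x⟩ : MulAction.orbit Q x) : α)) h4
  simp only [φ, Equiv.Perm.coe_mul, Function.comp_apply, MulAction.toPermHom_apply,
    MulAction.toPerm_apply, MulAction.orbit.coe_smul] at h5
  rw [mul_smul, mul_smul]
  exact h5

theorem abel_of_lt (n p : ℕ) [Fact p.Prime] (S : Subgroup (alternatingGroup (Fin n)))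
    (hS : IsPGroup p S) (h : n < p ^ 2) : IsMulCommutative S := by
  refine ⟨⟨fun a b => ?_⟩⟩
  apply Subtype.ext
  apply Subtype.ext
  apply Equiv.ext
  intro x
  have := comm_small (α := Fin n) p hS (by simpa using h) a b x
  exact this

theorem sign_units (s : ℤˣ) : Equiv.Perm.sign (MulAction.toPermHom ℤˣ ℤˣ s) = s := by
  rcases Int.units_eq_one_or s with rfl | rfl
  · rw [map_one, map_one]
  · have : MulAction.toPermHom ℤˣ ℤˣ (-1) = Equiv.swap (1 : ℤˣ) (-1) := by
      apply Equiv.ext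
      intro x
      rcases Int.units_eq_one_or x with rfl | rfl <;> simp
    rw [this, Equiv.Perm.sign_swap (by decide)]

theorem sign_via {α : Type*} [DecidableEq α] [Fintype α] {n : ℕ} (ι : α ↪ Fin n)
    (e : Equiv.Perm α) : Equiv.Perm.sign (Equiv.Perm.viaEmbeddingHom ι e) = Equiv.Perm.sign e := by
  rw [Equiv.Perm.viaEmbeddingHom_apply, Equiv.Perm.viaEmbedding]
  exact @Equiv.Perm.sign_extendDomain α _ (Fin n) _ _ _ e _ (fun a => Classical.propDecidable _) _

theorem mem_smul_sylow {X : Type*} [Group X] {p : ℕ} (P : Sylow p X) (g x : X) :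
    x ∈ ((g • P : Sylow p X) : Subgroup X) ↔ g⁻¹ * x * g ∈ (P : Subgroup X) := by
  rw [Sylow.coe_subgroup_smul, Subgroup.mem_pointwise_smul_iff_inv_smul_mem]
  simp [MulAut.smul_def]

open RegularWreathProduct in
theorem exists_noncomm (n p : ℕ) (hn : 6 ≤ n) [hp : Fact p.Prime] (h : p ^ 2 ≤ n) :
    ∃ (W : Type) (_ : Group W) (_ : Finite W) (ψ : W →* alternatingGroup (Fin n)),
      IsPGroup p W ∧ Function.Injective ψ ∧ ∃ u v : W, u * v ≠ v * u := by
  classical
  have hp1 := hp.out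
  have hM : Nat.card (Multiplicative (ZMod p)) = p := by
    rw [Nat.card_congr Multiplicative.toAdd, Nat.card_zmod]
  have hWc : Nat.card (Multiplicative (ZMod p) ≀ᵣ Multiplicative (ZMod p)) = p ^ (p + 1) := by
    rw [RegularWreathProduct.card, hM, pow_succ]
  have hW : IsPGroup p (Multiplicative (ZMod p) ≀ᵣ Multiplicative (ZMod p)) :=
    IsPGroup.of_card hWc
  have hψ₀ := RegularWreathProduct.toPermInj (Multiplicative (ZMod p)) (Multiplicative (ZMod p))
    (Multiplicative (ZMod p))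
  have hcardMM : Fintype.card (Multiplicative (ZMod p) × Multiplicative (ZMod p)) = p ^ 2 := by
    rw [Fintype.card_prod, ← Nat.card_eq_fintype_card, hM, sq]
  -- the noncommuting pair
  have hnc : ∃ u v : Multiplicative (ZMod p) ≀ᵣ Multiplicative (ZMod p), u * v ≠ v * u := by
    refine ⟨RegularWreathProduct.inl (Multiplicative.ofAdd (1 : ZMod p)), ⟨fun x => x, 1⟩, ?_⟩
    intro heq
    have h1 := congrFun (congrArg RegularWreathProduct.left heq) 1
    simp only [RegularWreathProduct.mul_left, Pi.mul_apply, RegularWreathProduct.left_inl,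
      RegularWreathProduct.right_inl, Pi.one_apply, one_mul, mul_one, inv_one] at h1
    have h2 : Multiplicative.ofAdd (1 : ZMod p) = 1 := inv_eq_one.1 h1
    have h3 : (1 : ZMod p) = 0 := by
      have := congrArg Multiplicative.toAdd h2
      simp at this
    have : Fact (1 < p) := ⟨hp1.one_lt⟩
    exact one_ne_zero h3
  by_cases hp2 : p = 2
  · -- p = 2 : sign correction on two more points
    have hcardN : Fintype.card ((Multiplicative (ZMod p) × Multiplicative (ZMod p)) ⊕ ℤˣ) ≤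
        Fintype.card (Fin n) := by
      rw [Fintype.card_sum, hcardMM, Fintype.card_fin, hp2]
      have : Fintype.card ℤˣ = 2 := by decide
      omega
    obtain ⟨ι⟩ := Function.Embedding.nonempty_of_card_le hcardN
    let ψ₀ := RegularWreathProduct.toPerm (Multiplicative (ZMod p)) (Multiplicative (ZMod p))
      (Multiplicative (ZMod p))
    let φ : (Multiplicative (ZMod p) ≀ᵣ Multiplicative (ZMod p)) →*
        Equiv.Perm ((Multiplicative (ZMod p) × Multiplicative (ZMod p)) ⊕ ℤˣ) :=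
      (Equiv.Perm.sumCongrHom _ _).comp
        (ψ₀.prod ((MulAction.toPermHom ℤˣ ℤˣ).comp (Equiv.Perm.sign.comp ψ₀)))
    have hφ : Function.Injective φ := by
      intro w₁ w₂ hw
      have := Equiv.Perm.sumCongrHom_injective hw
      exact hψ₀ (congrArg Prod.fst this)
    have hsign : ∀ w, Equiv.Perm.sign (φ w) = 1 := by
      intro w
      have : φ w = Equiv.sumCongr (ψ₀ w) (MulAction.toPermHom ℤˣ ℤˣ (Equiv.Perm.sign (ψ₀ w))) := rfl
      rw [this, Equiv.Perm.sign_sumCongr, sign_units, Int.units_mul_self]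
    let ψ₁ : (Multiplicative (ZMod p) ≀ᵣ Multiplicative (ZMod p)) →* Equiv.Perm (Fin n) :=
      (Equiv.Perm.viaEmbeddingHom ι).comp φ
    have hψ₁ : ∀ w, ψ₁ w ∈ alternatingGroup (Fin n) := by
      intro w
      rw [Equiv.Perm.mem_alternatingGroup]
      change Equiv.Perm.sign (Equiv.Perm.viaEmbeddingHom ι (φ w)) = 1
      rw [sign_via, hsign]
    refine ⟨_, inferInstance, inferInstance, ψ₁.codRestrict _ hψ₁, hW, ?_, hnc⟩
    intro w₁ w₂ hw
    have h1 : ψ₁ w₁ = ψ₁ w₂ := congrArg Subtype.val hw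
    exact hφ (Equiv.Perm.viaEmbeddingHom_injective ι h1)
  · have hodd : Odd p := hp1.odd_of_ne_two hp2
    have hcardN : Fintype.card (Multiplicative (ZMod p) × Multiplicative (ZMod p)) ≤
        Fintype.card (Fin n) := by
      rw [hcardMM, Fintype.card_fin]
      exact h
    obtain ⟨ι⟩ := Function.Embedding.nonempty_of_card_le hcardN
    let ψ₀ := RegularWreathProduct.toPerm (Multiplicative (ZMod p)) (Multiplicative (ZMod p))
      (Multiplicative (ZMod p))
    let ψ₁ : (Multiplicative (ZMod p) ≀ᵣ Multiplicative (ZMod p)) →* Equiv.Perm (Fin n) :=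
      (Equiv.Perm.viaEmbeddingHom ι).comp ψ₀
    have hψ₁ : ∀ w, ψ₁ w ∈ alternatingGroup (Fin n) := by
      intro w
      rw [Equiv.Perm.mem_alternatingGroup]
      have h1 : Equiv.Perm.sign (ψ₁ w) ^ (p ^ (p + 1)) = 1 := by
        rw [← map_pow, ← map_pow, ← hWc, pow_card_eq_one', map_one, map_one]
      rcases Int.units_eq_one_or (Equiv.Perm.sign (ψ₁ w)) with h2 | h2
      · exact h2
      · rw [h2, Odd.neg_one_pow (hodd.pow)] at h1
        exact absurd h1 (by decide)
    refine ⟨_, inferInstance, inferInstance, ψ₁.codRestrict _ hψ₁, hW, ?_, hnc⟩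
    intro w₁ w₂ hw
    have h1 : ψ₁ w₁ = ψ₁ w₂ := congrArg Subtype.val hw
    exact hψ₀ (Equiv.Perm.viaEmbeddingHom_injective ι h1)

theorem not_comm_of_le (n p : ℕ) (hn : 6 ≤ n) [hp : Fact p.Prime] (h : p ^ 2 ≤ n)
    (S : Sylow p (alternatingGroup (Fin n))) : ¬ IsMulCommutative S := by
  intro hc
  obtain ⟨W, _, _, ψ, hW, hψ, u, v, huv⟩ := exists_noncomm n p hn h
  have hR : IsPGroup p ψ.range := hW.of_surjective ψ.rangeRestrict ψ.rangeRestrict_surjective
  obtain ⟨P, hP⟩ := hR.exists_le_sylow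
  obtain ⟨g, rfl⟩ := MulAction.exists_smul_eq (alternatingGroup (Fin n)) S P
  have hu : ψ u ∈ ((g • S : Sylow p (alternatingGroup (Fin n))) : Subgroup _) := hP ⟨u, rfl⟩
  have hv : ψ v ∈ ((g • S : Sylow p (alternatingGroup (Fin n))) : Subgroup _) := hP ⟨v, rfl⟩
  rw [mem_smul_sylow] at hu hv
  have h1 := hc.is_comm.comm ⟨_, hu⟩ ⟨_, hv⟩
  have h2 : g⁻¹ * ψ u * g * (g⁻¹ * ψ v * g) = g⁻¹ * ψ v * g * (g⁻¹ * ψ u * g) :=
    congrArg Subtype.val h1
  apply huv
  apply hψ
  rw [map_mul, map_mul]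
  have h3 : g⁻¹ * (ψ u * ψ v) * g = g⁻¹ * (ψ v * ψ u) * g := by
    calc g⁻¹ * (ψ u * ψ v) * g = g⁻¹ * ψ u * g * (g⁻¹ * ψ v * g) := by group
      _ = g⁻¹ * ψ v * g * (g⁻¹ * ψ u * g) := h2
      _ = g⁻¹ * (ψ v * ψ u) * g := by group
  exact mul_left_cancel (mul_right_cancel h3)

theorem aux (n p : ℕ) (hn : 6 ≤ n) [Fact p.Prime] (S : Sylow p (alternatingGroup (Fin n))) (hS : (S : Subgroup (alternatingGroup (Fin n))) ≠ ⊥) : IsMulCommutative S ↔ n < p ^ 2 := by
  constructor
  · intro hc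
    by_contra hlt
    exact not_comm_of_le n p hn (not_lt.1 hlt) S hc
  · intro h
    exact abel_of_lt n p S S.isPGroup' h


/-- For n ≥ 6 and a prime p, a nontrivial Sylow p-subgroup of the alternating group of degree n is abelian if and only if n < p². -/
theorem result (n p : ℕ) (hn : 6 ≤ n) [Fact p.Prime] (S : Sylow p (alternatingGroup (Fin n))) (hS : (S : Subgroup (alternatingGroup (Fin n))) ≠ ⊥) : IsMulCommutative S ↔ n < p ^ 2 := by
  exact aux n p hn S hS

end Cfsg.Agent.S5164
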