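import Cfsg.Statements.S2352
-- import your own Cfsg.Agent.* helpers here
import Mathlib
import Cfsg.Agent.S5164

set_option autoImplicit false
open Cfsg

namespace Cfsg.Agent.S2352

/-- total cast into `Fin N` -/
def fc (N : ℕ) [NeZero N] (a : ℕ) : Fin N := ⟨a % N, Nat.mod_lt _ (NeZero.pos N)⟩

theorem fc_inj (N : ℕ) [NeZero N] (a b : ℕ) (ha : a < N) (hb : b < N) : fc N a = fc N b ↔ a = b := by
  rw [Fin.ext_iff]
  change a % N = b % N ↔ a = b
  rw [Nat.mod_eq_of_lt ha, Nat.mod_eq_of_lt hb]

/-- triples (generator, source, target) of the path of a word -/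
def pairs : List (ℕ × Bool) → List (ℕ × ℕ × ℕ)
  | [] => []
  | (x, true) :: L => (x, L.length, L.length + 1) :: pairs L
  | (x, false) :: L => (x, L.length + 1, L.length) :: pairs L

theorem pairs_bound : ∀ (L : List (ℕ × Bool)) (x s t : ℕ), (x, s, t) ∈ pairs L →
    s ≤ L.length ∧ t ≤ L.length ∧ (s = L.length → ∃ L', L = (x, false) :: L') ∧
      (t = L.length → ∃ L', L = (x, true) :: L')
  | [], x, s, t, h => by simp [pairs] at h
  | (y, true) :: L, x, s, t, h => by
      simp only [pairs, List.mem_cons, Prod.mk.injEq] at h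
      rcases h with ⟨rfl, rfl, rfl⟩ | h
      · refine ⟨by simp, by simp, fun h3 => ?_, fun _ => ⟨L, rfl⟩⟩
        simp at h3
      · obtain ⟨h1, h2, -, -⟩ := pairs_bound L x s t h
        refine ⟨by simp; omega, by simp; omega, fun h3 => ?_, fun h3 => ?_⟩
        · simp at h3; omega
        · simp at h3; omega
  | (y, false) :: L, x, s, t, h => by
      simp only [pairs, List.mem_cons, Prod.mk.injEq] at h
      rcases h with ⟨rfl, rfl, rfl⟩ | h
      · refine ⟨by simp, by simp, fun _ => ⟨L, rfl⟩, fun h3 => ?_⟩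
        simp at h3
      · obtain ⟨h1, h2, -, -⟩ := pairs_bound L x s t h
        refine ⟨by simp; omega, by simp; omega, fun h3 => ?_, fun h3 => ?_⟩
        · simp at h3; omega
        · simp at h3; omega

theorem pairs_head_ne (y : ℕ) (b : Bool) (L : List (ℕ × Bool))
    (hred : FreeGroup.IsReduced ((y, b) :: L)) (s t : ℕ) (h : (y, s, t) ∈ pairs L) :
    (if b then L.length else L.length + 1) ≠ s ∧ (if b then L.length + 1 else L.length) ≠ t := by
  obtain ⟨h1, h2, h3, h4⟩ := pairs_bound L y s t h
  cases b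
  · refine ⟨by simp; omega, ?_⟩
    simp only [Bool.false_eq_true, if_false]
    intro heq
    obtain ⟨L', rfl⟩ := h4 heq.symm
    rw [FreeGroup.isReduced_cons_cons] at hred
    have := hred.1 rfl
    simp at this
  · refine ⟨?_, by simp; omega⟩
    simp only [if_true]
    intro heq
    obtain ⟨L', rfl⟩ := h3 heq.symm
    rw [FreeGroup.isReduced_cons_cons] at hred
    have := hred.1 rfl
    simp at this

theorem pairs_inj : ∀ (L : List (ℕ × Bool)), FreeGroup.IsReduced L → ∀ (x s t s' t' : ℕ),
    (x, s, t) ∈ pairs L → (x, s', t') ∈ pairs L → (s = s' ↔ t = t')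
  | [], _, x, s, t, s', t', h, _ => by simp [pairs] at h
  | (y, b) :: L, hred, x, s, t, s', t', h, h' => by
      have hredL : FreeGroup.IsReduced L := hred.infix ⟨[(y, b)], [], by simp⟩
      have key : ∀ s t, (x, s, t) ∈ pairs ((y, b) :: L) →
          (x = y ∧ s = (if b then L.length else L.length + 1) ∧
            t = (if b then L.length + 1 else L.length)) ∨ (x, s, t) ∈ pairs L := by
        intro s t h
        cases b
        · simp only [pairs, List.mem_cons, Prod.mk.injEq] at h
          simpa using h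
        · simp only [pairs, List.mem_cons, Prod.mk.injEq] at h
          simpa using h
      rcases key s t h with ⟨rfl, rfl, rfl⟩ | h1 <;> rcases key s' t' h' with ⟨hx, rfl, rfl⟩ | h2
      · simp
      · have := pairs_head_ne x b L hred s' t' h2
        constructor
        · intro e; exact absurd e this.1
        · intro e; exact absurd e this.2
      · subst hx
        have := pairs_head_ne x b L hred s t h1
        constructor
        · intro e; exact absurd e.symm this.1
        · intro e; exact absurd e.symm this.2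
      · exact pairs_inj L hredL x s t s' t' h1 h2

theorem path_prod {N : ℕ} [NeZero N] (g : ℕ → Equiv.Perm (Fin N)) :
    ∀ (L : List (ℕ × Bool)),
      (∀ x s t, (x, s, t) ∈ pairs L → g x (fc N s) = fc N t) →
      (L.map fun x => cond x.2 (g x.1) (g x.1)⁻¹).prod (fc N 0) = fc N L.length
  | [], _ => by simp
  | (y, true) :: L, h => by
      have ih := path_prod g L (fun x s t hm => h x s t (by simp [pairs, hm]))
      have h1 := h y L.length (L.length + 1) (by simp [pairs])
      simp only [List.map_cons, List.prod_cons, cond_true, Equiv.Perm.coe_mul,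
        Function.comp_apply, List.length_cons]
      rw [ih, h1]
  | (y, false) :: L, h => by
      have ih := path_prod g L (fun x s t hm => h x s t (by simp [pairs, hm]))
      have h1 := h y (L.length + 1) L.length (by simp [pairs])
      simp only [List.map_cons, List.prod_cons, cond_false, Equiv.Perm.coe_mul,
        Function.comp_apply, List.length_cons]
      rw [ih, Equiv.Perm.inv_eq_iff_eq, h1]

theorem exists_perm (w : FreeGroup ℕ) (hw : w ≠ 1) :
    ∃ (k : ℕ) (g : ℕ → Equiv.Perm (Fin (k + 1))), FreeGroup.lift g w ≠ 1 := by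
  classical
  obtain ⟨L, hL⟩ : ∃ L, L = w.toWord := ⟨_, rfl⟩
  have hred : FreeGroup.IsReduced L := hL ▸ FreeGroup.isReduced_toWord
  have hne : L ≠ [] := by
    rw [hL]
    intro h
    exact hw (FreeGroup.toWord_eq_nil_iff.1 h)
  have hk : 0 < L.length := List.length_pos_iff.2 hne
  refine ⟨L.length, ?_⟩
  have hcast : ∀ a b : ℕ, a ≤ L.length → b ≤ L.length →
      (fc (L.length + 1) a = fc (L.length + 1) b ↔ a = b) := by
    intro a b ha hb
    exact fc_inj _ a b (by omega) (by omega)
  have hex : ∀ x : ℕ, ∃ σ : Equiv.Perm (Fin (L.length + 1)), ∀ s t, (x, s, t) ∈ pairs L →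
      σ (fc (L.length + 1) s) = fc (L.length + 1) t := by
    intro x
    have hfin : Finite {p : ℕ × ℕ // (x, p.1, p.2) ∈ pairs L} := by
      apply Finite.of_injective
        (fun p : {p : ℕ × ℕ // (x, p.1, p.2) ∈ pairs L} =>
          (⟨(x, p.1.1, p.1.2), p.2⟩ : {q : ℕ × ℕ × ℕ // q ∈ pairs L}))
      intro p q h
      simp only [Subtype.mk.injEq, Prod.mk.injEq, true_and] at h
      exact Subtype.ext (Prod.ext h.1 h.2)
    obtain ⟨σ, hσ⟩ := Equiv.Perm.exists_extending_pair
      (α := {p : ℕ × ℕ // (x, p.1, p.2) ∈ pairs L}) (β := Fin (L.length + 1))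
      (fun p => fc (L.length + 1) p.1.1) (fun p => fc (L.length + 1) p.1.2)
      (by
        intro p q hpq
        have bp := pairs_bound L _ _ _ p.2
        have bq := pairs_bound L _ _ _ q.2
        have h1 : p.1.1 = q.1.1 := (hcast _ _ bp.1 bq.1).1 hpq
        have h2 : p.1.2 = q.1.2 := (pairs_inj L hred x _ _ _ _ p.2 q.2).1 h1
        exact Subtype.ext (Prod.ext h1 h2))
      (by
        intro p q hpq
        have bp := pairs_bound L _ _ _ p.2
        have bq := pairs_bound L _ _ _ q.2
        have h2 : p.1.2 = q.1.2 := (hcast _ _ bp.2.1 bq.2.1).1 hpq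
        have h1 : p.1.1 = q.1.1 := (pairs_inj L hred x _ _ _ _ p.2 q.2).2 h2
        exact Subtype.ext (Prod.ext h1 h2))
    exact ⟨σ, fun s t hst => hσ ⟨(s, t), hst⟩⟩
  choose g hg using hex
  refine ⟨g, ?_⟩
  intro h1
  have hprod := path_prod g L (fun x s t h => hg x s t h)
  have hw' : FreeGroup.lift g w = (L.map fun x => cond x.2 (g x.1) (g x.1)⁻¹).prod := by
    rw [← FreeGroup.mk_toWord (x := w), FreeGroup.lift_mk, ← hL]
  rw [hw'] at h1
  rw [h1] at hprod
  have h2 : fc (L.length + 1) 0 = fc (L.length + 1) L.length := hprod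
  rw [hcast 0 L.length (by omega) le_rfl] at h2
  omega

theorem exists_embed_alt (m n : ℕ) (h : m + 2 ≤ n) :
    ∃ ψ : Equiv.Perm (Fin m) →* alternatingGroup (Fin n), Function.Injective ψ := by
  classical
  have hcardN : Fintype.card (Fin m ⊕ ℤˣ) ≤ Fintype.card (Fin n) := by
    rw [Fintype.card_sum, Fintype.card_fin, Fintype.card_fin]
    have : Fintype.card ℤˣ = 2 := by decide
    omega
  obtain ⟨ι⟩ := Function.Embedding.nonempty_of_card_le hcardN
  let φ : Equiv.Perm (Fin m) →* Equiv.Perm (Fin m ⊕ ℤˣ) :=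
    (Equiv.Perm.sumCongrHom _ _).comp
      ((MonoidHom.id _).prod ((MulAction.toPermHom ℤˣ ℤˣ).comp Equiv.Perm.sign))
  have hφ : Function.Injective φ := by
    intro w₁ w₂ hw
    have := Equiv.Perm.sumCongrHom_injective hw
    exact congrArg Prod.fst this
  have hsign : ∀ w, Equiv.Perm.sign (φ w) = 1 := by
    intro w
    have : φ w = Equiv.sumCongr w (MulAction.toPermHom ℤˣ ℤˣ (Equiv.Perm.sign w)) := rfl
    rw [this, Equiv.Perm.sign_sumCongr, Cfsg.Agent.S5164.sign_units, Int.units_mul_self]
  let ψ₁ : Equiv.Perm (Fin m) →* Equiv.Perm (Fin n) := (Equiv.Perm.viaEmbeddingHom ι).comp φ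
  have hψ₁ : ∀ w, ψ₁ w ∈ alternatingGroup (Fin n) := by
    intro w
    rw [Equiv.Perm.mem_alternatingGroup]
    change Equiv.Perm.sign (Equiv.Perm.viaEmbeddingHom ι (φ w)) = 1
    rw [Cfsg.Agent.S5164.sign_via, hsign]
  refine ⟨ψ₁.codRestrict _ hψ₁, ?_⟩
  intro w₁ w₂ hw
  have h1 : ψ₁ w₁ = ψ₁ w₂ := congrArg Subtype.val hw
  exact hφ (Equiv.Perm.viaEmbeddingHom_injective ι h1)

theorem aux (w : FreeGroup ℕ) (hw : w ≠ 1) :
    ∃ N : ℕ, ∀ n : ℕ, N ≤ n → ∃ f : ℕ → alternatingGroup (Fin n), FreeGroup.lift f w ≠ 1 := by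
  obtain ⟨k, g, hg⟩ := exists_perm w hw
  refine ⟨k + 1 + 2, fun n hn => ?_⟩
  obtain ⟨ψ, hψ⟩ := exists_embed_alt (k + 1) n hn
  refine ⟨fun i => ψ (g i), ?_⟩
  have hcomp : FreeGroup.lift (fun i => ψ (g i)) = ψ.comp (FreeGroup.lift g) := by
    apply FreeGroup.ext_hom
    intro a
    simp
  rw [hcomp, MonoidHom.comp_apply]
  intro h
  exact hg (hψ (h.trans (map_one ψ).symm))


/-- A non-trivial law holds in only finitely many alternating groups: for every non-trivial element w of the free group on countably many generators there is N such that for all n ≥ N some substitution of elements of the alternating group of degree n into w is not the identity. -/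
theorem result (w : FreeGroup ℕ) (hw : w ≠ 1) :
    ∃ N : ℕ, ∀ n : ℕ, N ≤ n → ∃ f : ℕ → alternatingGroup (Fin n), FreeGroup.lift f w ≠ 1 := by
  exact aux w hw

end Cfsg.Agent.S2352
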