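import Cfsg.Statements.S2354
-- import your own Cfsg.Agent.* helpers here
import Mathlib

set_option autoImplicit false
open Cfsg

namespace Cfsg.Agent.S2354

open Polynomial

/-- upper central root element -/
def UM {R : Type*} [CommRing R] (b β : R) : Matrix (Fin 4) (Fin 4) R :=
  !![1, 0, b, β; 0, 1, 0, b; 0, 0, 1, 0; 0, 0, 0, 1]

/-- lower central root element -/
def LM {R : Type*} [CommRing R] (b β : R) : Matrix (Fin 4) (Fin 4) R :=
  !![1, 0, 0, 0; 0, 1, 0, 0; b, 0, 1, 0; β, b, 0, 1]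

section entries
variable {R : Type*} [CommRing R] (b β : R) (Q : Matrix (Fin 4) (Fin 4) R)

theorem U00 : (UM b β * Q) 0 0 = Q 0 0 + b * Q 2 0 + β * Q 3 0 := by
  simp [UM, Matrix.mul_apply, Fin.sum_univ_four]
theorem U10 : (UM b β * Q) 1 0 = Q 1 0 + b * Q 3 0 := by
  simp [UM, Matrix.mul_apply, Fin.sum_univ_four]
theorem U20 : (UM b β * Q) 2 0 = Q 2 0 := by
  simp [UM, Matrix.mul_apply, Fin.sum_univ_four]
theorem U30 : (UM b β * Q) 3 0 = Q 3 0 := by
  simp [UM, Matrix.mul_apply, Fin.sum_univ_four]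
theorem L00 : (LM b β * Q) 0 0 = Q 0 0 := by
  simp [LM, Matrix.mul_apply, Fin.sum_univ_four]
theorem L10 : (LM b β * Q) 1 0 = Q 1 0 := by
  simp [LM, Matrix.mul_apply, Fin.sum_univ_four]
theorem L20 : (LM b β * Q) 2 0 = b * Q 0 0 + Q 2 0 := by
  simp [LM, Matrix.mul_apply, Fin.sum_univ_four]
theorem L30 : (LM b β * Q) 3 0 = β * Q 0 0 + b * Q 1 0 + Q 3 0 := by
  simp [LM, Matrix.mul_apply, Fin.sum_univ_four]

theorem UM_mul (b' β' : R) : UM b β * UM b' β' = UM (b + b') (β + β') := by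
  ext i j
  fin_cases i <;> fin_cases j <;> simp [UM, Matrix.mul_apply, Fin.sum_univ_four] <;> ring

theorem LM_mul (b' β' : R) : LM b β * LM b' β' = LM (b + b') (β + β') := by
  ext i j
  fin_cases i <;> fin_cases j <;> simp [LM, Matrix.mul_apply, Fin.sum_univ_four]

theorem UM_zero : UM (0 : R) 0 = 1 := by
  ext i j
  fin_cases i <;> fin_cases j <;> simp [UM]

theorem LM_zero : LM (0 : R) 0 = 1 := by
  ext i j
  fin_cases i <;> fin_cases j <;> simp [LM]

theorem UM_map {S : Type*} [CommRing S] (φ : R →+* S) : φ.mapMatrix (UM b β) = UM (φ b) (φ β) := by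
  ext i j
  fin_cases i <;> fin_cases j <;> simp [UM]

theorem LM_map {S : Type*} [CommRing S] (φ : R →+* S) : φ.mapMatrix (LM b β) = LM (φ b) (φ β) := by
  ext i j
  fin_cases i <;> fin_cases j <;> simp [LM]

end entries

theorem wb_add_lt {a b c d : WithBot ℕ} (h1 : a < c) (h2 : b ≤ d) (hd : d ≠ ⊥) :
    a + b < c + d := by
  induction c using WithBot.recBotCoe with
  | bot => exact absurd h1 (not_lt_bot)
  | coe c =>
    induction d using WithBot.recBotCoe with
    | bot => exact absurd rfl hd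
    | coe d =>
      rw [← WithBot.coe_add]
      induction a using WithBot.recBotCoe with
      | bot =>
        rw [WithBot.bot_add]
        exact WithBot.bot_lt_coe _
      | coe a =>
        induction b using WithBot.recBotCoe with
        | bot =>
          rw [WithBot.add_bot]
          exact WithBot.bot_lt_coe _
        | coe b =>
          rw [← WithBot.coe_add, WithBot.coe_lt_coe]
          rw [WithBot.coe_lt_coe] at h1
          rw [WithBot.coe_le_coe] at h2
          omega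

section deg
variable {F : Type*} [Field F]

theorem deg_mul_lt (b β x y : F[X]) (h1 : b.degree < β.degree) (h2 : x.degree ≤ y.degree)
    (hy : y ≠ 0) : (b * x).degree < (β * y).degree := by
  rw [degree_mul, degree_mul]
  exact wb_add_lt h1 h2 (by rwa [Ne, degree_eq_bot])

theorem deg_lt_mul (β y : F[X]) (hβ : 0 < β.natDegree) (hy : y ≠ 0) :
    y.degree < (β * y).degree := by
  have h1 : (1 : F[X]).degree < β.degree := by
    rw [degree_one]
    exact Polynomial.natDegree_pos_iff_degree_pos.1 hβ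
  have := deg_mul_lt 1 β y y h1 le_rfl hy
  rwa [one_mul] at this

/-- first column dominated by entry `0` -/
def stA (Q : Matrix (Fin 4) (Fin 4) F[X]) : Prop :=
  (Q 1 0).degree < (Q 0 0).degree ∧ (Q 2 0).degree < (Q 0 0).degree ∧
    (Q 3 0).degree < (Q 0 0).degree

/-- first column dominated by entry `3` -/
def stB (Q : Matrix (Fin 4) (Fin 4) F[X]) : Prop :=
  (Q 0 0).degree < (Q 3 0).degree ∧ (Q 1 0).degree < (Q 3 0).degree ∧
    (Q 2 0).degree < (Q 3 0).degree

theorem UA (b β : F[X]) (hb : b.degree < β.degree) (hβ : 0 < β.natDegree)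
    (Q : Matrix (Fin 4) (Fin 4) F[X]) (h : stB Q) : stA (UM b β * Q) := by
  obtain ⟨h0, h1, h2⟩ := h
  have hQ : Q 3 0 ≠ 0 := by
    intro e
    rw [e] at h0
    simp at h0
  have hT := deg_lt_mul β (Q 3 0) hβ hQ
  have hbQ2 : (b * Q 2 0).degree < (β * Q 3 0).degree := deg_mul_lt b β _ _ hb h2.le hQ
  have hbQ3 : (b * Q 3 0).degree < (β * Q 3 0).degree := deg_mul_lt b β _ _ hb le_rfl hQ
  have hsmall : (Q 0 0 + b * Q 2 0).degree < (β * Q 3 0).degree :=
    lt_of_le_of_lt (degree_add_le _ _) (max_lt (h0.trans hT) hbQ2)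
  have hd : ((UM b β * Q) 0 0).degree = (β * Q 3 0).degree := by
    rw [U00, degree_add_eq_right_of_degree_lt hsmall]
  refine ⟨?_, ?_, ?_⟩
  · rw [hd, U10]
    exact lt_of_le_of_lt (degree_add_le _ _) (max_lt (h1.trans hT) hbQ3)
  · rw [hd, U20]
    exact h2.trans hT
  · rw [hd, U30]
    exact hT

theorem LB (b β : F[X]) (hb : b.degree < β.degree) (hβ : 0 < β.natDegree)
    (Q : Matrix (Fin 4) (Fin 4) F[X]) (h : stA Q) : stB (LM b β * Q) := by
  obtain ⟨h1, h2, h3⟩ := h
  have hQ : Q 0 0 ≠ 0 := by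
    intro e
    rw [e] at h1
    simp at h1
  have hT := deg_lt_mul β (Q 0 0) hβ hQ
  have hbQ1 : (b * Q 1 0).degree < (β * Q 0 0).degree := deg_mul_lt b β _ _ hb h1.le hQ
  have hbQ0 : (b * Q 0 0).degree < (β * Q 0 0).degree := deg_mul_lt b β _ _ hb le_rfl hQ
  have hd : ((LM b β * Q) 3 0).degree = (β * Q 0 0).degree := by
    rw [L30, add_assoc, degree_add_eq_left_of_degree_lt]
    exact lt_of_le_of_lt (degree_add_le _ _) (max_lt hbQ1 (h3.trans hT))
  refine ⟨?_, ?_, ?_⟩
  · rw [hd, L00]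
    exact hT
  · rw [hd, L10]
    exact h1.trans hT
  · rw [hd, L20]
    exact lt_of_le_of_lt (degree_add_le _ _) (max_lt hbQ0 (h2.trans hT))

theorem single_deg (e i : ℕ) (he : 2 ≤ e) :
    ((X : F[X]) ^ (i + 1)).degree < ((X : F[X]) ^ ((i + 1) * e)).degree ∧
      0 < ((X : F[X]) ^ ((i + 1) * e)).natDegree := by
  have h1 : i + 1 < (i + 1) * e :=
    calc i + 1 < (i + 1) * 2 := by omega
      _ ≤ (i + 1) * e := Nat.mul_le_mul_left _ he
  refine ⟨?_, ?_⟩
  · rw [degree_X_pow, degree_X_pow]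
    exact_mod_cast h1
  · rw [natDegree_X_pow]
    omega

theorem merged_deg (e i j : ℕ) (hij : i ≠ j) (he : 2 ≤ e) :
    ((X : F[X]) ^ (j + 1) + X ^ (i + 1)).degree <
        ((X : F[X]) ^ ((j + 1) * e) + X ^ ((i + 1) * e)).degree ∧
      0 < ((X : F[X]) ^ ((j + 1) * e) + X ^ ((i + 1) * e)).natDegree := by
  have hi := single_deg (F := F) e i he
  have hj := single_deg (F := F) e j he
  rcases lt_or_gt_of_ne hij with h | h
  · have h1 : ((X : F[X]) ^ (i + 1)).degree < ((X : F[X]) ^ (j + 1)).degree := by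
      rw [degree_X_pow, degree_X_pow]
      exact_mod_cast (by omega : i + 1 < j + 1)
    have h2 : (i + 1) * e < (j + 1) * e := Nat.mul_lt_mul_of_pos_right (by omega) (by omega)
    have h3 : ((X : F[X]) ^ ((i + 1) * e)).degree < ((X : F[X]) ^ ((j + 1) * e)).degree := by
      rw [degree_X_pow, degree_X_pow]
      exact_mod_cast h2
    have h4 : ((X : F[X]) ^ ((i + 1) * e)).natDegree < ((X : F[X]) ^ ((j + 1) * e)).natDegree := by
      rw [natDegree_X_pow, natDegree_X_pow]
      exact h2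
    rw [degree_add_eq_left_of_degree_lt h1, degree_add_eq_left_of_degree_lt h3,
      natDegree_add_eq_left_of_natDegree_lt h4]
    exact hj
  · have h1 : ((X : F[X]) ^ (j + 1)).degree < ((X : F[X]) ^ (i + 1)).degree := by
      rw [degree_X_pow, degree_X_pow]
      exact_mod_cast (by omega : j + 1 < i + 1)
    have h2 : (j + 1) * e < (i + 1) * e := Nat.mul_lt_mul_of_pos_right (by omega) (by omega)
    have h3 : ((X : F[X]) ^ ((j + 1) * e)).degree < ((X : F[X]) ^ ((i + 1) * e)).degree := by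
      rw [degree_X_pow, degree_X_pow]
      exact_mod_cast h2
    have h4 : ((X : F[X]) ^ ((j + 1) * e)).natDegree < ((X : F[X]) ^ ((i + 1) * e)).natDegree := by
      rw [natDegree_X_pow, natDegree_X_pow]
      exact h2
    rw [degree_add_eq_right_of_degree_lt h1, degree_add_eq_right_of_degree_lt h3,
      natDegree_add_eq_right_of_natDegree_lt h4]
    exact hi

end deg

/-- generic upper letter -/
noncomputable def Ug (F : Type*) [Field F] (e i : ℕ) : Matrix (Fin 4) (Fin 4) F[X] :=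
  UM (X ^ (i + 1)) (X ^ ((i + 1) * e))

/-- generic lower letter -/
noncomputable def Lg (F : Type*) [Field F] (e i : ℕ) : Matrix (Fin 4) (Fin 4) F[X] :=
  LM (X ^ (i + 1)) (X ^ ((i + 1) * e))

/-- generic letter -/
noncomputable def letter (F : Type*) [Field F] (e : ℕ) (x : ℕ × Bool) :
    Matrix (Fin 4) (Fin 4) F[X] :=
  cond x.2 (Ug F e x.1 * Lg F e x.1) (Lg F e x.1 * Ug F e x.1)

/-- the invariant -/
def Inv {F : Type*} [Field F] (e : ℕ) :
    List (ℕ × Bool) → Matrix (Fin 4) (Fin 4) F[X] → Prop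
  | [], P => P = 1
  | (i, true) :: _, P => ∃ Q : Matrix (Fin 4) (Fin 4) F[X], P = Ug F e i * Q ∧ stB Q
  | (i, false) :: _, P => ∃ Q : Matrix (Fin 4) (Fin 4) F[X], P = Lg F e i * Q ∧ stA Q

theorem inv_step_true {F : Type*} [Field F] (e : ℕ) (he : 2 ≤ e) (j : ℕ) (L' : List (ℕ × Bool))
    (hred : FreeGroup.IsReduced ((j, true) :: L')) (P' : Matrix (Fin 4) (Fin 4) F[X])
    (h : Inv e L' P') : stB (Lg F e j * P') := by
  have hs := single_deg (F := F) e j he
  rcases L' with _ | ⟨⟨i, b⟩, L''⟩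
  · have hP : P' = 1 := h
    subst hP
    rw [mul_one]
    have e00 : Lg F e j 0 0 = 1 := by simp [Lg, LM]
    have e10 : Lg F e j 1 0 = 0 := by simp [Lg, LM]
    have e20 : Lg F e j 2 0 = X ^ (j + 1) := by simp [Lg, LM]
    have e30 : Lg F e j 3 0 = X ^ ((j + 1) * e) := by simp [Lg, LM]
    refine ⟨?_, ?_, ?_⟩
    · rw [e00, e30, degree_one]
      exact Polynomial.natDegree_pos_iff_degree_pos.1 hs.2
    · rw [e10, e30, degree_zero, degree_X_pow]
      exact WithBot.bot_lt_coe _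
    · rw [e20, e30]
      exact hs.1
  · cases b
    · obtain ⟨Q, rfl, hQ⟩ := h
      have hij : i ≠ j := by
        rw [FreeGroup.isReduced_cons_cons] at hred
        intro e'
        have := hred.1 e'.symm
        simp at this
      have hm := merged_deg (F := F) e i j hij he
      rw [← mul_assoc, Lg, Lg, LM_mul]
      exact LB _ _ hm.1 hm.2 Q hQ
    · obtain ⟨Q, rfl, hQ⟩ := h
      have hsi := single_deg (F := F) e i he
      exact LB _ _ hs.1 hs.2 _ (UA _ _ hsi.1 hsi.2 Q hQ)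

theorem inv_step_false {F : Type*} [Field F] (e : ℕ) (he : 2 ≤ e) (j : ℕ) (L' : List (ℕ × Bool))
    (hred : FreeGroup.IsReduced ((j, false) :: L')) (P' : Matrix (Fin 4) (Fin 4) F[X])
    (h : Inv e L' P') : stA (Ug F e j * P') := by
  have hs := single_deg (F := F) e j he
  rcases L' with _ | ⟨⟨i, b⟩, L''⟩
  · have hP : P' = 1 := h
    subst hP
    rw [mul_one]
    have e00 : Ug F e j 0 0 = 1 := by simp [Ug, UM]
    have e10 : Ug F e j 1 0 = 0 := by simp [Ug, UM]
    have e20 : Ug F e j 2 0 = 0 := by simp [Ug, UM]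
    have e30 : Ug F e j 3 0 = 0 := by simp [Ug, UM]
    refine ⟨?_, ?_, ?_⟩
    · rw [e00, e10, degree_one, degree_zero]
      exact WithBot.bot_lt_coe 0
    · rw [e00, e20, degree_one, degree_zero]
      exact WithBot.bot_lt_coe 0
    · rw [e00, e30, degree_one, degree_zero]
      exact WithBot.bot_lt_coe 0
  · cases b
    · obtain ⟨Q, rfl, hQ⟩ := h
      have hsi := single_deg (F := F) e i he
      exact UA _ _ hs.1 hs.2 _ (LB _ _ hsi.1 hsi.2 Q hQ)
    · obtain ⟨Q, rfl, hQ⟩ := h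
      have hij : i ≠ j := by
        rw [FreeGroup.isReduced_cons_cons] at hred
        intro e'
        have := hred.1 e'.symm
        simp at this
      have hm := merged_deg (F := F) e i j hij he
      rw [← mul_assoc, Ug, Ug, UM_mul]
      exact UA _ _ hm.1 hm.2 Q hQ

theorem inv_prod {F : Type*} [Field F] (e : ℕ) (he : 2 ≤ e) :
    ∀ (L : List (ℕ × Bool)), FreeGroup.IsReduced L → Inv e L (L.map (letter F e)).prod
  | [], _ => by
      change (List.map _ []).prod = 1
      simp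
  | (j, true) :: L', hred => by
      have hredL : FreeGroup.IsReduced L' := hred.infix ⟨[(j, true)], [], by simp⟩
      have ih := inv_prod (F := F) e he L' hredL
      simp only [List.map_cons, List.prod_cons]
      exact (show ∃ Q : Matrix (Fin 4) (Fin 4) F[X],
        letter F e (j, true) * (L'.map (letter F e)).prod = Ug F e j * Q ∧ stB Q from
        ⟨_, by rw [letter, cond_true, mul_assoc], inv_step_true e he j L' hred _ ih⟩)
  | (j, false) :: L', hred => by
      have hredL : FreeGroup.IsReduced L' := hred.infix ⟨[(j, false)], [], by simp⟩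
      have ih := inv_prod (F := F) e he L' hredL
      simp only [List.map_cons, List.prod_cons]
      exact (show ∃ Q : Matrix (Fin 4) (Fin 4) F[X],
        letter F e (j, false) * (L'.map (letter F e)).prod = Lg F e j * Q ∧ stA Q from
        ⟨_, by rw [letter, cond_false, mul_assoc], inv_step_false e he j L' hred _ ih⟩)

theorem entry_ne_zero {F : Type*} [Field F] (e : ℕ) (he : 2 ≤ e) (L : List (ℕ × Bool))
    (hred : FreeGroup.IsReduced L) (hne : L ≠ []) : ((L.map (letter F e)).prod) 3 0 ≠ 0 := by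
  have h := inv_prod (F := F) e he L hred
  rcases L with _ | ⟨⟨i, b⟩, L'⟩
  · exact absurd rfl hne
  · cases b
    · obtain ⟨Q, hQ, hst⟩ := h
      have hs := single_deg (F := F) e i he
      have hB := LB _ _ hs.1 hs.2 Q hst
      rw [hQ]
      intro h0
      have := hB.1
      rw [Lg] at h0
      rw [h0] at this
      simp at this
    · obtain ⟨Q, hQ, hst⟩ := h
      rw [hQ, Ug, U30]
      intro h0
      have := hst.1
      rw [h0] at this
      simp at this

section bdd
variable {F : Type*} [Field F]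

/-- entrywise degree bound -/
def bdd (M : Matrix (Fin 4) (Fin 4) F[X]) (d : ℕ) : Prop := ∀ i j, (M i j).natDegree ≤ d

theorem bdd_mul {A B : Matrix (Fin 4) (Fin 4) F[X]} {a c : ℕ} (hA : bdd A a) (hB : bdd B c) :
    bdd (A * B) (a + c) := by
  intro i j
  rw [Matrix.mul_apply]
  exact natDegree_sum_le_of_forall_le _ _
    (fun k _ => (natDegree_mul_le).trans (add_le_add (hA i k) (hB k j)))

theorem bdd_one : bdd (1 : Matrix (Fin 4) (Fin 4) F[X]) 0 := by
  intro i j
  rw [Matrix.one_apply]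
  split_ifs <;> simp

theorem bdd_UM (b β : F[X]) (d : ℕ) (hb : b.natDegree ≤ d) (hβ : β.natDegree ≤ d) :
    bdd (UM b β) d := by
  intro i j
  fin_cases i <;> fin_cases j <;> simp [UM] <;> assumption

theorem bdd_LM (b β : F[X]) (d : ℕ) (hb : b.natDegree ≤ d) (hβ : β.natDegree ≤ d) :
    bdd (LM b β) d := by
  intro i j
  fin_cases i <;> fin_cases j <;> simp [LM] <;> assumption

theorem bdd_letter (e : ℕ) (he : 1 ≤ e) (x : ℕ × Bool) :
    bdd (letter F e x) (2 * ((x.1 + 1) * e)) := by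
  have h1 : ((X : F[X]) ^ (x.1 + 1)).natDegree ≤ (x.1 + 1) * e := by
    rw [natDegree_X_pow]
    exact Nat.le_mul_of_pos_right _ (by omega)
  have h2 : ((X : F[X]) ^ ((x.1 + 1) * e)).natDegree ≤ (x.1 + 1) * e := by
    rw [natDegree_X_pow]
  have hU : bdd (Ug F e x.1) ((x.1 + 1) * e) := bdd_UM _ _ _ h1 h2
  have hL : bdd (Lg F e x.1) ((x.1 + 1) * e) := bdd_LM _ _ _ h1 h2
  rw [two_mul]
  unfold letter
  cases x.2
  · exact bdd_mul hL hU
  · exact bdd_mul hU hL

theorem bdd_prod (e : ℕ) (he : 1 ≤ e) : ∀ L : List (ℕ × Bool),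
    bdd ((L.map (letter F e)).prod) (e * (L.map fun x => 2 * (x.1 + 1)).sum)
  | [] => by simpa using bdd_one (F := F)
  | x :: L => by
      have ih := bdd_prod e he L
      have h := bdd_mul (bdd_letter (F := F) e he x) ih
      simp only [List.map_cons, List.prod_cons, List.sum_cons]
      intro i j
      calc ((letter F e x * (L.map (letter F e)).prod) i j).natDegree
          ≤ 2 * ((x.1 + 1) * e) + e * (L.map fun x => 2 * (x.1 + 1)).sum := h i j
        _ = e * (2 * (x.1 + 1) + (L.map fun x => 2 * (x.1 + 1)).sum) := by ring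

end bdd

section field
variable {F : Type*} [Field F]

/-- upper element as a unit -/
def uG (b β : F) : GL (Fin 4) F :=
  ⟨UM b β, UM (-b) (-β), by rw [UM_mul, add_neg_cancel, add_neg_cancel, UM_zero],
    by rw [UM_mul, neg_add_cancel, neg_add_cancel, UM_zero]⟩

/-- lower element as a unit -/
def lG (b β : F) : GL (Fin 4) F :=
  ⟨LM b β, LM (-b) (-β), by rw [LM_mul, add_neg_cancel, add_neg_cancel, LM_zero],
    by rw [LM_mul, neg_add_cancel, neg_add_cancel, LM_zero]⟩

theorem uG_mem (e : ℕ) (he0 : e ≠ 0) (h2 : (2 : F) = 0) (b : F) (hθ : (b ^ e) ^ e = b ^ 2) :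
    uG b (b ^ e) ∈ Cfsg.Lie.Sz F e := by
  apply Subgroup.subset_closure
  refine ⟨?_, ?_⟩
  · intro u v
    change Cfsg.Lie.altForm4 (Matrix.mulVec (UM b (b ^ e)) u) (Matrix.mulVec (UM b (b ^ e)) v) = Cfsg.Lie.altForm4 u v
    simp [Cfsg.Lie.altForm4, UM, Matrix.mulVec, dotProduct, Fin.sum_univ_four]
    linear_combination (b * u 2 * v 3 + b ^ e * u 3 * v 3 + b * u 3 * v 2) * h2
  · change Cfsg.Lie.star4 (UM b (b ^ e)) = (UM b (b ^ e)).map (fun x => x ^ e)
    ext p r
    fin_cases p <;> fin_cases r <;> simp [Cfsg.Lie.star4, Cfsg.Lie.pairOf, UM]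
    all_goals first | (rw [zero_pow he0]) | (linear_combination (-(b ^ e)) * h2) | (rw [hθ]; ring)

theorem lG_mem (e : ℕ) (he0 : e ≠ 0) (h2 : (2 : F) = 0) (b : F) (hθ : (b ^ e) ^ e = b ^ 2) :
    lG b (b ^ e) ∈ Cfsg.Lie.Sz F e := by
  apply Subgroup.subset_closure
  refine ⟨?_, ?_⟩
  · intro u v
    change Cfsg.Lie.altForm4 (Matrix.mulVec (LM b (b ^ e)) u) (Matrix.mulVec (LM b (b ^ e)) v) = Cfsg.Lie.altForm4 u v
    simp [Cfsg.Lie.altForm4, LM, Matrix.mulVec, dotProduct, Fin.sum_univ_four]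
    linear_combination (b * u 0 * v 1 + b ^ e * u 0 * v 0 + b * u 1 * v 0) * h2
  · change Cfsg.Lie.star4 (LM b (b ^ e)) = (LM b (b ^ e)).map (fun x => x ^ e)
    ext p r
    fin_cases p <;> fin_cases r <;> simp [Cfsg.Lie.star4, Cfsg.Lie.pairOf, LM]
    all_goals first | (rw [zero_pow he0]) | (linear_combination (-(b ^ e)) * h2) | (rw [hθ]; ring)

end field

theorem aux (w : FreeGroup ℕ) (hw : w ≠ 1) :
    ∃ N : ℕ, ∀ (F : Type*) [Field F] [Fintype F] (m : ℕ), 1 ≤ m → N ≤ m →
      Fintype.card F = 2 ^ (2 * m + 1) →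
      ∃ f : ℕ → ↥(Cfsg.Lie.Sz F (2 ^ (m + 1))), FreeGroup.lift f w ≠ 1 := by
  refine ⟨(w.toWord.map fun x => 2 * (x.1 + 1)).sum, ?_⟩
  intro F _ _ m hm1 hNm hcard
  classical
  obtain ⟨e, he⟩ : ∃ e : ℕ, e = 2 ^ (m + 1) := ⟨_, rfl⟩
  rw [← he]
  have he2 : 2 ≤ e := by
    rw [he]
    calc 2 = 2 ^ 1 := rfl
      _ ≤ 2 ^ (m + 1) := Nat.pow_le_pow_right (by norm_num) (by omega)
  have he0 : e ≠ 0 := by omega
  have h2 : (2 : F) = 0 := by
    have h := FiniteField.cast_card_eq_zero F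
    rw [hcard] at h
    push_cast at h
    exact (pow_eq_zero_iff (by omega)).1 h
  have hθ : ∀ a : F, (a ^ e) ^ e = a ^ 2 := by
    intro a
    have h1 : e * e = Fintype.card F * 2 := by
      rw [he, hcard]
      ring
    rw [← pow_mul, h1, pow_mul, FiniteField.pow_card]
  have hne : w.toWord ≠ [] := fun h => hw (FreeGroup.toWord_eq_nil_iff.1 h)
  obtain ⟨P, hP⟩ : ∃ P : Matrix (Fin 4) (Fin 4) F[X],
      P = (w.toWord.map (letter F e)).prod := ⟨_, rfl⟩
  have hP0 : P 3 0 ≠ 0 := by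
    rw [hP]
    exact entry_ne_zero e he2 _ FreeGroup.isReduced_toWord hne
  have hPd : (P 3 0).natDegree < Fintype.card F := by
    have hb := bdd_prod (F := F) e (by omega) w.toWord 3 0
    rw [← hP] at hb
    have hm2 : m < 2 ^ m := Nat.lt_two_pow_self
    calc (P 3 0).natDegree ≤ e * (w.toWord.map fun x => 2 * (x.1 + 1)).sum := hb
      _ ≤ e * m := Nat.mul_le_mul_left _ hNm
      _ < e * 2 ^ m := (Nat.mul_lt_mul_left (by omega : 0 < e)).2 hm2
      _ = Fintype.card F := by
        rw [he, hcard, ← pow_add]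
        congr 1
        omega
  obtain ⟨c, hc⟩ := Polynomial.exists_eval_ne_zero_of_natDegree_lt_card _ hP0
    (by rw [Cardinal.mk_fintype]; exact_mod_cast hPd)
  obtain ⟨f, hf⟩ : ∃ f : ℕ → ↥(Cfsg.Lie.Sz F e), ∀ i,
      ((f i : GL (Fin 4) F) : Matrix (Fin 4) (Fin 4) F) =
        UM (c ^ (i + 1)) ((c ^ (i + 1)) ^ e) * LM (c ^ (i + 1)) ((c ^ (i + 1)) ^ e) :=
    ⟨fun i => ⟨uG (c ^ (i + 1)) ((c ^ (i + 1)) ^ e) * lG (c ^ (i + 1)) ((c ^ (i + 1)) ^ e),
      Subgroup.mul_mem _ (uG_mem e he0 h2 _ (hθ _)) (lG_mem e he0 h2 _ (hθ _))⟩, fun i => rfl⟩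
  refine ⟨f, ?_⟩
  intro h1
  obtain ⟨κ, hκ⟩ : ∃ κ : ↥(Cfsg.Lie.Sz F e) →* Matrix (Fin 4) (Fin 4) F,
      ∀ g, κ g = ((g : GL (Fin 4) F) : Matrix (Fin 4) (Fin 4) F) :=
    ⟨(Units.coeHom (Matrix (Fin 4) (Fin 4) F)).comp (Subgroup.subtype _), fun g => rfl⟩
  obtain ⟨ev, hev⟩ : ∃ ev : Matrix (Fin 4) (Fin 4) F[X] →+* Matrix (Fin 4) (Fin 4) F,
      ev = (Polynomial.evalRingHom c).mapMatrix := ⟨_, rfl⟩
  have hUU : ∀ b β : F, UM b β * UM b β = 1 := by
    intro b β
    rw [UM_mul, show b + b = 0 by linear_combination b * h2,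
      show β + β = 0 by linear_combination β * h2, UM_zero]
  have hLL : ∀ b β : F, LM b β * LM b β = 1 := by
    intro b β
    rw [LM_mul, show b + b = 0 by linear_combination b * h2,
      show β + β = 0 by linear_combination β * h2, LM_zero]
  have hκf : ∀ i, κ (f i) =
      UM (c ^ (i + 1)) ((c ^ (i + 1)) ^ e) * LM (c ^ (i + 1)) ((c ^ (i + 1)) ^ e) := by
    intro i
    rw [hκ, hf]
  have hκinv : ∀ i, κ (f i)⁻¹ =
      LM (c ^ (i + 1)) ((c ^ (i + 1)) ^ e) * UM (c ^ (i + 1)) ((c ^ (i + 1)) ^ e) := by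
    intro i
    have ha : LM (c ^ (i + 1)) ((c ^ (i + 1)) ^ e) * UM (c ^ (i + 1)) ((c ^ (i + 1)) ^ e) *
        κ (f i) = 1 := by
      rw [hκf, mul_assoc, ← mul_assoc (UM _ _), hUU, one_mul, hLL]
    have hb : κ (f i) * κ (f i)⁻¹ = 1 := by
      rw [← map_mul, mul_inv_cancel, map_one]
    exact (left_inv_eq_right_inv ha hb).symm
  have hevl : ∀ x : ℕ × Bool, ev (letter F e x) = cond x.2 (κ (f x.1)) (κ (f x.1)⁻¹) := by
    rintro ⟨i, b⟩
    have hU : ev (Ug F e i) = UM (c ^ (i + 1)) ((c ^ (i + 1)) ^ e) := by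
      rw [Ug, hev, UM_map]
      simp [pow_mul]
    have hL : ev (Lg F e i) = LM (c ^ (i + 1)) ((c ^ (i + 1)) ^ e) := by
      rw [Lg, hev, LM_map]
      simp [pow_mul]
    cases b
    · rw [letter, cond_false, cond_false, map_mul, hU, hL, hκinv]
    · rw [letter, cond_true, cond_true, map_mul, hU, hL, hκf]
  have hκw : κ (FreeGroup.lift f w) = ev P := by
    rw [hP, map_list_prod, List.map_map]
    conv_lhs => rw [← FreeGroup.mk_toWord (x := w), FreeGroup.lift_mk, map_list_prod, List.map_map]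
    congr 1
    apply List.map_congr_left
    rintro ⟨i, b⟩ _
    rw [Function.comp_apply, Function.comp_apply, hevl]
    cases b <;> rfl
  rw [h1, map_one] at hκw
  have h30 : (ev P) 3 0 = (P 3 0).eval c := by
    rw [hev]
    simp
  rw [← hκw] at h30
  simp at h30
  exact hc h30.symm


/-- A non-trivial law holds in only finitely many Suzuki groups: for every non-trivial element w of the free group on countably many generators there is N such that for q = 2^(2m+1) with m ≥ N some substitution of elements of the Suzuki group over the field with q elements into w is not the identity. -/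
theorem result (w : FreeGroup ℕ) (hw : w ≠ 1) :
    ∃ N : ℕ, ∀ (F : Type*) [Field F] [Fintype F] (m : ℕ), 1 ≤ m → N ≤ m →
      Fintype.card F = 2 ^ (2 * m + 1) →
      ∃ f : ℕ → ↥(Cfsg.Lie.Sz F (2 ^ (m + 1))), FreeGroup.lift f w ≠ 1 := by
  exact aux w hw

end Cfsg.Agent.S2354
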