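import Cfsg.Statements.S2355
-- import your own Cfsg.Agent.* helpers here
import Mathlib
import Cfsg.Agent.Lib.helper18.LawEmb2
import Cfsg.Agent.S2352

set_option autoImplicit false
open Cfsg

namespace Cfsg.Agent.S2355

open Cfsg.Agent.Lib.helper18.LawEmb Cfsg.Agent.S2353 in
theorem aux (w : FreeGroup ℕ) (hw : w ≠ 1) :
    ∃ N : ℕ, ∀ (G : Type*) [Group G] [Finite G],
      (Cfsg.IsAlternating G ∨ Cfsg.IsPSL G ∨ Cfsg.IsPSp G ∨ Cfsg.IsPSU G ∨ Cfsg.IsPOmegaOdd G ∨
          Cfsg.IsPOmegaPlus G ∨ Cfsg.IsPOmegaMinus G) →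
      (∀ f : ℕ → G, FreeGroup.lift f w = 1) → Nat.card G ≤ N := by
  obtain ⟨N₁, hN₁⟩ := Cfsg.Agent.S2352.aux w hw
  obtain ⟨D, hD⟩ : ∃ D, D = ((Phi ℤ w).1 1 0).natDegree := ⟨_, rfl⟩
  obtain ⟨R, hR⟩ : ∃ R, R = max N₁ 5 := ⟨_, rfl⟩
  obtain ⟨B, hB⟩ : ∃ B, B = (D + 3) ^ 2 := ⟨_, rfl⟩
  obtain ⟨S, hS⟩ : ∃ S, S = 2 * R + 2 := ⟨_, rfl⟩
  refine ⟨max (R.factorial) ((B ^ S) ^ S), ?_⟩
  intro G _ _ hG hlaw
  have hB0 : 0 < B := by
    rw [hB]
    positivity
  have hDB : D ≤ B := by
    rw [hB]
    nlinarith
  have hDB2 : max 2 D ≤ B := by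
    rw [hB]
    rcases le_total 2 D with h | h
    · rw [max_eq_right h]
      nlinarith
    · rw [max_eq_left h]
      nlinarith
  rcases hG with h | h | h | h | h | h | h
  · -- alternating
    obtain ⟨n, -, ⟨e⟩⟩ := h
    have hlaw' := law_transport w e hlaw
    have hn : n < N₁ := by
      by_contra hcon
      obtain ⟨f, hf⟩ := hN₁ n (not_lt.1 hcon)
      exact hf (hlaw' f)
    refine le_trans ?_ (le_max_left _ _)
    rw [Nat.card_congr e.toEquiv]
    calc Nat.card (alternatingGroup (Fin n)) ≤ Nat.card (Equiv.Perm (Fin n)) :=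
          Nat.card_le_card_of_injective _ Subtype.val_injective
      _ = n.factorial := by rw [Nat.card_perm, Nat.card_fin]
      _ ≤ R.factorial := Nat.factorial_le (by omega)
  · -- PSL
    obtain ⟨F, _, _, n, h2, -, ⟨e⟩⟩ := h
    have hlaw' := law_transport w e hlaw
    have hn : n < R := by
      by_cases h4 : 4 ≤ n
      · have := sl_rank w N₁ hN₁ F n hlaw' h4
        omega
      · omega
    have hF : Fintype.card F ≤ D := by
      rw [hD]
      exact sl_field w hw F n h2 hlaw'
    refine le_trans ?_ (le_max_right _ _)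
    refine (card_le_of_inj e (fun g : Matrix.SpecialLinearGroup (Fin n) F => g.1)
      Subtype.val_injective).trans ?_
    exact card_matrix_le (Fin n) F B S hB0 (hF.trans hDB) (by rw [Fintype.card_fin]; omega)
  · -- PSp
    obtain ⟨F, _, _, m, h2, -, ⟨e⟩⟩ := h
    have hlaw' := law_transport w e hlaw
    have hn : m < R := by
      by_cases h4 : 4 ≤ m
      · have := sp_rank w N₁ hN₁ F m hlaw' h4
        omega
      · omega
    have hF : Fintype.card F ≤ D := by
      rw [hD]
      exact sp_field w hw F m h2 hlaw'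
    refine le_trans ?_ (le_max_right _ _)
    refine (card_le_of_inj e (fun g : Matrix.symplecticGroup (Fin m) F => g.1)
      Subtype.val_injective).trans ?_
    exact card_matrix_le (Fin m ⊕ Fin m) F B S hB0 (hF.trans hDB)
      (by rw [Fintype.card_sum, Fintype.card_fin]; omega)
  · -- PSU
    obtain ⟨F, _, _, n, q, hq, h3, -, ⟨e⟩⟩ := h
    have hlaw' := law_transport w e hlaw
    have hn : n < R := by
      by_cases h4 : 4 ≤ n
      · have := su_rank w N₁ hN₁ F n q hlaw' h4
        omega
      · omega
    have hqD : q ≤ D + 1 := by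
      rw [hD]
      exact su_field w hw F n q hq (by omega) hlaw'
    have hF : Fintype.card F ≤ B := by
      rw [hq, hB]
      exact Nat.pow_le_pow_left (by omega) 2
    refine le_trans ?_ (le_max_right _ _)
    refine (card_le_of_inj e (fun g : Cfsg.SU n F q => g.1.1)
      (fun a b hab => Subtype.ext (Subtype.ext hab))).trans ?_
    exact card_matrix_le (Fin n) F B S hB0 hF (by rw [Fintype.card_fin]; omega)
  · -- odd orthogonal
    obtain ⟨F, _, _, m, h3, -, ⟨e⟩⟩ := h
    have hlaw' := law_transport w e hlaw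
    have hn : m < R := by
      by_cases h5 : 5 ≤ m
      · have := omega_rank w N₁ hN₁ F (Cfsg.quadFormOdd m F) m (rhoOdd m F)
          (rhoOdd_injective m F) hlaw' h5
        omega
      · omega
    have hF : Fintype.card F ≤ max 2 D := by
      rw [hD]
      exact omega_field w hw F (Cfsg.quadFormOdd m F) m (by omega) (rhoOdd m F)
        (rhoOdd_injective m F) hlaw'
    refine le_trans ?_ (le_max_right _ _)
    exact omega_card F (Cfsg.quadFormOdd m F) e B S hB0 (hF.trans hDB2)
      (by simp only [Fintype.card_sum, Fintype.card_fin, Fintype.card_unit]; omega)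
  · -- plus orthogonal
    obtain ⟨F, _, _, m, h4, ⟨e⟩⟩ := h
    have hlaw' := law_transport w e hlaw
    have hn : m < R := by
      by_cases h5 : 5 ≤ m
      · have := omega_rank w N₁ hN₁ F (Cfsg.quadFormPlus m F) m (rhoPlus m F)
          (rhoPlus_injective m F) hlaw' h5
        omega
      · omega
    have hF : Fintype.card F ≤ max 2 D := by
      rw [hD]
      exact omega_field w hw F (Cfsg.quadFormPlus m F) m (by omega) (rhoPlus m F)
        (rhoPlus_injective m F) hlaw'
    refine le_trans ?_ (le_max_right _ _)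
    exact omega_card F (Cfsg.quadFormPlus m F) e B S hB0 (hF.trans hDB2)
      (by simp only [Fintype.card_sum, Fintype.card_fin]; omega)
  · -- minus orthogonal
    obtain ⟨F, _, _, m, a, b, h4, -, ⟨e⟩⟩ := h
    have hlaw' := law_transport w e hlaw
    have hn : m - 1 < R := by
      by_cases h5 : 5 ≤ m - 1
      · have := omega_rank w N₁ hN₁ F (Cfsg.quadFormMinus (m - 1) F a b) (m - 1)
          (rhoMinus (m - 1) F a b) (rhoMinus_injective (m - 1) F a b) hlaw' h5
        omega
      · omega
    have hF : Fintype.card F ≤ max 2 D := by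
      rw [hD]
      exact omega_field w hw F (Cfsg.quadFormMinus (m - 1) F a b) (m - 1) (by omega)
        (rhoMinus (m - 1) F a b) (rhoMinus_injective (m - 1) F a b) hlaw'
    refine le_trans ?_ (le_max_right _ _)
    exact omega_card F (Cfsg.quadFormMinus (m - 1) F a b) e B S hB0 (hF.trans hDB2)
      (by simp only [Fintype.card_sum, Fintype.card_fin]; omega)


/-- A non-trivial law is satisfied by only finitely many finite simple groups that are alternating or classical, up to isomorphism: for every non-trivial element w of the free group on countably many generators there is a bound N such that every alternating group of degree ≥ 5 and every simple classical group (linear, symplectic, unitary or orthogonal, in this problem's sense) in which w is a law has order at most N. -/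
theorem result (w : FreeGroup ℕ) (hw : w ≠ 1) :
    ∃ N : ℕ, ∀ (G : Type*) [Group G] [Finite G],
      (Cfsg.IsAlternating G ∨ Cfsg.IsPSL G ∨ Cfsg.IsPSp G ∨ Cfsg.IsPSU G ∨ Cfsg.IsPOmegaOdd G ∨
          Cfsg.IsPOmegaPlus G ∨ Cfsg.IsPOmegaMinus G) →
      (∀ f : ℕ → G, FreeGroup.lift f w = 1) → Nat.card G ≤ N := by
  exact aux w hw

end Cfsg.Agent.S2355
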