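import Cfsg.Statements.S2394
-- import your own Cfsg.Agent.* helpers here
import Mathlib
import Cfsg.Agent.S0245
import Cfsg.Agent.S2904

set_option autoImplicit false
open scoped MatrixGroups
open Cfsg

namespace Cfsg.Agent.S2394

lemma small_case (q : ℕ) (hq : 1 < q) : ¬ (q * (q ^ 2 - 1) ∣ q - 1) := by
  obtain ⟨k, rfl⟩ : ∃ k, q = k + 2 := ⟨q - 2, by omega⟩
  intro h
  have h1 := Nat.le_of_dvd (by omega) h
  have h2 : (k + 2) ^ 2 - 1 = k ^ 2 + 4 * k + 3 := by
    have : (k + 2) ^ 2 = k ^ 2 + 4 * k + 3 + 1 := by ring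
    omega
  rw [h2] at h1
  have h3 : k + 2 - 1 = k + 1 := by omega
  rw [h3] at h1
  nlinarith

theorem aux {F : Type*} [Field F] [Fintype F] (n : ℕ) {d : ℕ}
    (ρ : ↥(Matrix.symplecticGroup (Fin n) F) →* GL (Fin d) F) (hρ : Function.Injective ρ) :
    2 * n ≤ d := by
  by_contra hlt
  push Not at hlt
  obtain ⟨q, hq⟩ : ∃ q, Fintype.card F = q := ⟨_, rfl⟩
  have hq2 : 1 < q := by rw [← hq]; exact Fintype.one_lt_card
  have hdvd : Nat.card (Matrix.symplecticGroup (Fin n) F) ∣ Nat.card (GL (Fin d) F) :=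
    Subgroup.card_dvd_of_injective ρ hρ
  rw [Cfsg.Agent.S0245.result (F := F) (q := q) hq n, Matrix.card_GL_field, hq] at hdvd
  have hn : 0 < n := by omega
  have hfac : q ^ (2 * n) - 1 ∣ ∏ i : Fin d, (q ^ d - q ^ (i : ℕ)) := by
    refine Dvd.dvd.trans ?_ hdvd
    apply Dvd.dvd.mul_left
    have hmem : n - 1 ∈ Finset.range n := Finset.mem_range.mpr (by omega)
    have h := Finset.dvd_prod_of_mem (fun i => q ^ (2 * (i + 1)) - 1) hmem
    have e : 2 * (n - 1 + 1) = 2 * n := by omega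
    simpa [e] using h
  by_cases hz : (q = 2 ∧ 2 * n = 6) ∨ (2 * n = 2 ∧ ∃ m : ℕ, q + 1 = 2 ^ m)
  · rcases hz with ⟨hq2', hn3⟩ | ⟨hn1, -⟩
    · have hn3' : n = 3 := by omega
      subst hn3'
      rw [hq2'] at hdvd
      interval_cases d <;> norm_num [Finset.prod_range_succ, Fin.prod_univ_succ] at hdvd
    · have hn1' : n = 1 := by omega
      subst hn1'
      interval_cases d
      · simp [Finset.prod_range_succ] at hdvd
        omega
      · apply small_case q hq2
        simpa [Finset.prod_range_succ] using hdvd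
  · have hz1 : ¬ (q = 2 ∧ 2 * n = 6) := fun h => hz (Or.inl h)
    have hz2 : ¬ (2 * n = 2 ∧ ∃ m : ℕ, q + 1 = 2 ^ m) := fun h => hz (Or.inr h)
    obtain ⟨r, hr, hr1, hr2⟩ := Cfsg.Agent.S2904.aux q (2 * n) hq2 (by omega) hz1 hz2
    have hrdvd : r ∣ ∏ i : Fin d, (q ^ d - q ^ (i : ℕ)) := hr1.trans hfac
    obtain ⟨i, -, hi⟩ := (Nat.Prime.prime hr).exists_mem_finset_dvd hrdvd
    have hfact : q ^ d - q ^ (i : ℕ) = q ^ (i : ℕ) * (q ^ (d - i) - 1) := by
      have hi' : (i : ℕ) ≤ d := i.2.le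
      rw [Nat.mul_sub, mul_one, ← pow_add, Nat.add_sub_cancel' hi']
    rw [hfact] at hi
    rcases (Nat.Prime.dvd_mul hr).mp hi with h | h
    · have hrq : r ∣ q := hr.dvd_of_dvd_pow h
      have h1 : r ∣ q ^ (2 * n) := dvd_pow hrq (by omega)
      have h2 : 1 ≤ q ^ (2 * n) := Nat.one_le_pow _ _ (by omega)
      have h3 : r ∣ 1 := by
        have := Nat.dvd_sub h1 hr1
        rwa [Nat.sub_sub_self h2] at this
      exact hr.one_lt.ne' (Nat.dvd_one.mp h3)
    · exact hr2 (d - i) (by have := i.2; omega) (by omega) h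


/-- The smallest degree of a faithful representation of the symplectic group `Sp_{2n}(q)` over its own field `F_q` is `2n`: every injective homomorphism from `Sp_{2n}(F)` to `GL_d(F)`, `F` the field with `q` elements, has `d ≥ 2n`. -/
theorem result {F : Type*} [Field F] [Fintype F] (n : ℕ) {d : ℕ}
    (ρ : ↥(Matrix.symplecticGroup (Fin n) F) →* GL (Fin d) F) (hρ : Function.Injective ρ) : 2 * n ≤ d := by
  exact aux n ρ hρ

end Cfsg.Agent.S2394
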