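import Cfsg.Statements.S2450
import Cfsg.Agent.Lib.helper12.PSL2Prod
-- import your own Cfsg.Agent.* helpers here

set_option autoImplicit false
open Cfsg

namespace Cfsg.Agent.S2450

open Cfsg.Agent.Lib.helper12

/-- The Arad–Herzog conjecture for PSL(2,q): let F be a finite field with q ≥ 4 elements. For any two non-identity elements a, b of PSL(2,F), the set of products of a conjugate of a with a conjugate of b is not a single conjugacy class. -/
theorem result {F : Type*} [Field F] [Fintype F] (h4 : 4 ≤ Fintype.card F)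
    (a b : Matrix.ProjectiveSpecialLinearGroup (Fin 2) F) (ha : a ≠ 1) (hb : b ≠ 1) (c : Matrix.ProjectiveSpecialLinearGroup (Fin 2) F) :
    {g : Matrix.ProjectiveSpecialLinearGroup (Fin 2) F | ∃ u v : Matrix.ProjectiveSpecialLinearGroup (Fin 2) F, g = (u * a * u⁻¹) * (v * b * v⁻¹)} ≠ {g | IsConj c g} := by
  classical
  intro hset
  obtain ⟨A, rfl⟩ := QuotientGroup.mk_surjective a
  obtain ⟨B, rfl⟩ := QuotientGroup.mk_surjective b
  have hA : ¬ ∃ a : F, (A : Matrix (Fin 2) (Fin 2) F) = a • (1 : Matrix (Fin 2) (Fin 2) F) :=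
    fun h => ha ((PSL2_mk_eq_one_iff A).mpr h)
  have hB : ¬ ∃ a : F, (B : Matrix (Fin 2) (Fin 2) F) = a • (1 : Matrix (Fin 2) (Fin 2) F) :=
    fun h => hb ((PSL2_mk_eq_one_iff B).mpr h)
  obtain ⟨k₁, c₁, hc₁, hk₁⟩ := SL2_normal_form A hA
  obtain ⟨k₂, c₂, hc₂, hk₂⟩ := SL2_normal_form B hB
  set t := (A : Matrix (Fin 2) (Fin 2) F).trace with ht
  set s := (B : Matrix (Fin 2) (Fin 2) F).trace with hs
  have hdet : ∀ z : F, (1 : F) * 1 - z * 0 = 1 := fun z => by ring
  set A₁ := k₁ * A * k₁⁻¹ with hA₁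
  set B₁ := k₂ * B * k₂⁻¹ with hB₁
  clear_value A₁ B₁
  set P : F → Matrix.SpecialLinearGroup (Fin 2) F := fun z =>
    A₁ * (mkSL 1 z 0 1 (hdet z) * B₁ * (mkSL 1 z 0 1 (hdet z))⁻¹) with hP
  have hmem : ∀ z : F, IsConj c
      (QuotientGroup.mk (P z) : Matrix.ProjectiveSpecialLinearGroup (Fin 2) F) := by
    intro z
    have h1 : (QuotientGroup.mk (P z) : Matrix.ProjectiveSpecialLinearGroup (Fin 2) F) ∈
        {g : Matrix.ProjectiveSpecialLinearGroup (Fin 2) F | ∃ u v : Matrix.ProjectiveSpecialLinearGroup (Fin 2) F,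
          g = (u * (QuotientGroup.mk A) * u⁻¹) * (v * (QuotientGroup.mk B) * v⁻¹)} := by
      refine ⟨QuotientGroup.mk k₁, QuotientGroup.mk (mkSL 1 z 0 1 (hdet z) * k₂), ?_⟩
      have e : P z = (k₁ * A * k₁⁻¹) * ((mkSL 1 z 0 1 (hdet z) * k₂) * B * (mkSL 1 z 0 1 (hdet z) * k₂)⁻¹) := by
        rw [hP, hA₁, hB₁]
        group
      rw [e]
      rfl
    rw [hset] at h1
    exact h1
  have htr : ∀ z : F, ((P z : Matrix.SpecialLinearGroup (Fin 2) F) : Matrix (Fin 2) (Fin 2) F).trace =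
      -c₁ * c₂ * z ^ 2 + (c₁ * s - t * c₂) * z + (t * s - c₂ / c₁ - c₁ / c₂) := by
    intro z
    rw [hP]
    simp only
    rw [Matrix.SpecialLinearGroup.coe_mul, Matrix.SpecialLinearGroup.coe_mul,
      Matrix.SpecialLinearGroup.coe_mul, hk₁, hk₂, mkSL_inv_val, mkSL_val, Matrix.mul_fin_two,
      Matrix.mul_fin_two, Matrix.mul_fin_two, Matrix.trace_fin_two]
    simp
    field_simp
    ring
  have hsq : ∀ z : F, ((P z : Matrix.SpecialLinearGroup (Fin 2) F) : Matrix (Fin 2) (Fin 2) F).trace ^ 2 =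
      ((P 0 : Matrix.SpecialLinearGroup (Fin 2) F) : Matrix (Fin 2) (Fin 2) F).trace ^ 2 := fun z =>
    (PSL2_trace_sq_eq_of_isConj _ _ ((hmem 0).symm.trans (hmem z))).symm
  set τ₀ := t * s - c₂ / c₁ - c₁ / c₂ with hτ₀
  have hα : -c₁ * c₂ ≠ 0 := mul_ne_zero (neg_ne_zero.mpr hc₁) hc₂
  have hcases : ∀ z : F, -c₁ * c₂ * z ^ 2 + (c₁ * s - t * c₂) * z + 0 = 0 ∨
      -c₁ * c₂ * z ^ 2 + (c₁ * s - t * c₂) * z + 2 * τ₀ = 0 := by
    intro z
    have h := hsq z
    rw [htr z, htr 0] at h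
    have h' : (-c₁ * c₂ * z ^ 2 + (c₁ * s - t * c₂) * z + 0) *
        (-c₁ * c₂ * z ^ 2 + (c₁ * s - t * c₂) * z + 2 * τ₀) = 0 := by
      linear_combination h
    exact mul_eq_zero.mp h'
  have hcard1 := card_quadratic_roots_le (-c₁ * c₂) (c₁ * s - t * c₂) 0 hα
  have hcard2 := card_quadratic_roots_le (-c₁ * c₂) (c₁ * s - t * c₂) (2 * τ₀) hα
  have hsub : (Finset.univ : Finset F) ⊆
      (Finset.univ.filter (fun z : F => -c₁ * c₂ * z ^ 2 + (c₁ * s - t * c₂) * z + 0 = 0)) ∪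
      (Finset.univ.filter (fun z : F => -c₁ * c₂ * z ^ 2 + (c₁ * s - t * c₂) * z + 2 * τ₀ = 0)) := by
    intro z _
    rw [Finset.mem_union, Finset.mem_filter, Finset.mem_filter]
    rcases hcases z with h | h
    · exact Or.inl ⟨Finset.mem_univ _, h⟩
    · exact Or.inr ⟨Finset.mem_univ _, h⟩
  have hle : Fintype.card F ≤ 4 := by
    have h1 := Finset.card_le_card hsub
    have h2 := Finset.card_union_le
      (Finset.univ.filter (fun z : F => -c₁ * c₂ * z ^ 2 + (c₁ * s - t * c₂) * z + 0 = 0))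
      (Finset.univ.filter (fun z : F => -c₁ * c₂ * z ^ 2 + (c₁ * s - t * c₂) * z + 2 * τ₀ = 0))
    rw [Finset.card_univ] at h1
    omega
  have hF : ringChar F = 2 := FiniteField.even_card_iff_char_two.mpr (by omega)
  have h2 : (2 : F) = 0 := by
    have := ringChar.Nat.cast_ringChar (R := F)
    rw [hF] at this
    exact_mod_cast this
  have hall : (Finset.univ.filter (fun z : F => -c₁ * c₂ * z ^ 2 + (c₁ * s - t * c₂) * z + 0 = 0)) =
      Finset.univ := by
    apply Finset.filter_true_of_mem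
    intro z _
    rcases hcases z with h | h
    · exact h
    · rw [h2, zero_mul] at h
      exact h
  rw [hall, Finset.card_univ] at hcard1
  omega

end Cfsg.Agent.S2450
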