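import Cfsg.Statements.S2455
import Cfsg.Agent.Lib.helper12.PSL2Prod
-- import your own Cfsg.Agent.* helpers here

set_option autoImplicit false
open Cfsg

namespace Cfsg.Agent.S2455

open Cfsg.Agent.Lib.helper12

/-- A strong covering result in the direction of Thompson's conjecture (non-identity elements) for PSL(2,q), q odd: let F be a finite field of odd characteristic p with at least 5 elements and let x ∈ PSL(2,F) have order greater than 2 and not divisible by p (so x is not unipotent). Then every non-identity element of PSL(2,F) is a product of two conjugates of x. -/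
theorem result {F : Type*} [Field F] [Fintype F] (p : ℕ) [Fact p.Prime] [CharP F p] (hp : p ≠ 2) (h5 : 5 ≤ Fintype.card F)
    (x : Matrix.ProjectiveSpecialLinearGroup (Fin 2) F) (hx2 : 2 < orderOf x) (hxp : ¬ p ∣ orderOf x) : ∀ g : Matrix.ProjectiveSpecialLinearGroup (Fin 2) F, g ≠ 1 → ∃ u v : Matrix.ProjectiveSpecialLinearGroup (Fin 2) F, g = (u * x * u⁻¹) * (v * x * v⁻¹) := by
  classical
  intro g hg
  obtain ⟨X, rfl⟩ := QuotientGroup.mk_surjective x
  obtain ⟨Y, rfl⟩ := QuotientGroup.mk_surjective g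
  have hpp : p.Prime := Fact.out
  have hchar : ringChar F ≠ 2 := by
    rw [ringChar.eq F p]
    exact hp
  have hodd : Fintype.card F % 2 = 1 := FiniteField.odd_card_of_char_ne_two hchar
  have h2 : (2 : F) ≠ 0 := Ring.two_ne_zero hchar
  have ht0 : (X : Matrix (Fin 2) (Fin 2) F).trace ≠ 0 := by
    intro h0
    have hsq : (QuotientGroup.mk X : Matrix.ProjectiveSpecialLinearGroup (Fin 2) F) ^ 2 = 1 := by
      rw [PSL2_mk_pow_eq_one_iff]
      refine ⟨-1, ?_⟩
      rw [pow_two, Matrix.SpecialLinearGroup.coe_mul, SL2_sq_eq, h0]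
      simp
    have := orderOf_le_of_pow_eq_one (by norm_num) hsq
    omega
  have ht4 : (X : Matrix (Fin 2) (Fin 2) F).trace ^ 2 ≠ 4 := by
    intro h4
    have hp1 : (QuotientGroup.mk X : Matrix.ProjectiveSpecialLinearGroup (Fin 2) F) ^ p = 1 := by
      rw [PSL2_mk_pow_eq_one_iff]
      exact SL2_pow_char_scalar p X h4
    have hdvd := orderOf_dvd_of_pow_eq_one hp1
    rcases (Nat.dvd_prime hpp).mp hdvd with h1 | h1
    · omega
    · exact hxp (h1 ▸ dvd_rfl)
  have hYns : ¬ ∃ a : F, (Y : Matrix (Fin 2) (Fin 2) F) = a • (1 : Matrix (Fin 2) (Fin 2) F) := by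
    intro h
    exact hg ((PSL2_mk_eq_one_iff Y).mpr h)
  by_cases hs : (Y : Matrix (Fin 2) (Fin 2) F).trace = 2
  · have hval : ((Y * signSL false : Matrix.SpecialLinearGroup (Fin 2) F) : Matrix (Fin 2) (Fin 2) F) =
        -(Y : Matrix (Fin 2) (Fin 2) F) := by
      rw [Matrix.SpecialLinearGroup.coe_mul, signSL_val]
      simp [sgnB]
    have hns' : ¬ ∃ a : F, ((Y * signSL false : Matrix.SpecialLinearGroup (Fin 2) F) :
        Matrix (Fin 2) (Fin 2) F) = a • (1 : Matrix (Fin 2) (Fin 2) F) := by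
      rintro ⟨a, ha⟩
      apply hYns
      refine ⟨-a, ?_⟩
      rw [hval] at ha
      rw [neg_smul, ← ha, neg_neg]
    have htr' : ((Y * signSL false : Matrix.SpecialLinearGroup (Fin 2) F) :
        Matrix (Fin 2) (Fin 2) F).trace ≠ 2 := by
      rw [hval, Matrix.trace_neg, hs]
      intro h
      apply h2
      have h22 : (2 : F) * 2 = 0 := by linear_combination -h
      exact mul_self_eq_zero.mp h22
    obtain ⟨U, V, h⟩ := SL2_prod_of_odd hodd X (Y * signSL false) ht0 ht4 hns' htr'
    refine ⟨QuotientGroup.mk U, QuotientGroup.mk V, ?_⟩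
    have h1 : (QuotientGroup.mk (signSL false : Matrix.SpecialLinearGroup (Fin 2) F) :
        Matrix.ProjectiveSpecialLinearGroup (Fin 2) F) = 1 := by
      rw [PSL2_mk_eq_one_iff]
      exact ⟨_, signSL_val false⟩
    have h3 : (QuotientGroup.mk Y : Matrix.ProjectiveSpecialLinearGroup (Fin 2) F) =
        QuotientGroup.mk (Y * signSL false) := by
      rw [QuotientGroup.mk_mul, h1, mul_one]
    rw [h3, h]
    rfl
  · obtain ⟨U, V, h⟩ := SL2_prod_of_odd hodd X Y ht0 ht4 hYns hs
    refine ⟨QuotientGroup.mk U, QuotientGroup.mk V, ?_⟩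
    rw [h]
    rfl

end Cfsg.Agent.S2455
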