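import Cfsg.Statements.S2456
import Cfsg.Agent.Lib.helper12.PSL2Prod
-- import your own Cfsg.Agent.* helpers here

set_option autoImplicit false
open Cfsg

namespace Cfsg.Agent.S2456

open Cfsg.Agent.Lib.helper12

/-- A strong covering result in the direction of Thompson's conjecture (non-identity elements) for PSL(2,q), q even: let F be a finite field of characteristic 2 with q ≥ 4 elements and let x ∈ PSL(2,F) have order greater than 2 and not dividing q + 1. Then every non-identity element of PSL(2,F) is a product of two conjugates of x. -/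
theorem result {F : Type*} [Field F] [Fintype F] [CharP F 2] (h4 : 4 ≤ Fintype.card F)
    (x : Matrix.ProjectiveSpecialLinearGroup (Fin 2) F) (hx2 : 2 < orderOf x) (hxq : ¬ orderOf x ∣ Fintype.card F + 1) : ∀ g : Matrix.ProjectiveSpecialLinearGroup (Fin 2) F, g ≠ 1 → ∃ u v : Matrix.ProjectiveSpecialLinearGroup (Fin 2) F, g = (u * x * u⁻¹) * (v * x * v⁻¹) := by
  classical
  intro g hg
  obtain ⟨X, rfl⟩ := QuotientGroup.mk_surjective x
  obtain ⟨Y, rfl⟩ := QuotientGroup.mk_surjective g
  have h2 : (2 : F) = 0 := CharTwo.two_eq_zero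
  have ht0 : (X : Matrix (Fin 2) (Fin 2) F).trace ≠ 0 := by
    intro h0
    have hsq : (QuotientGroup.mk X : Matrix.ProjectiveSpecialLinearGroup (Fin 2) F) ^ 2 = 1 := by
      rw [PSL2_mk_pow_eq_one_iff]
      refine ⟨-1, ?_⟩
      rw [pow_two, Matrix.SpecialLinearGroup.coe_mul, SL2_sq_eq, h0]
      simp
    have := orderOf_le_of_pow_eq_one (by norm_num) hsq
    omega
  have ht4 : (X : Matrix (Fin 2) (Fin 2) F).trace ^ 2 ≠ 4 := by
    intro h4'
    apply ht0
    have : (X : Matrix (Fin 2) (Fin 2) F).trace * (X : Matrix (Fin 2) (Fin 2) F).trace = 0 := by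
      linear_combination h4' + 2 * h2
    exact mul_self_eq_zero.mp this
  have hr : ∃ r : F, r ^ 2 = -1 + (X : Matrix (Fin 2) (Fin 2) F).trace * r := by
    by_contra hcon
    push Not at hcon
    apply hxq
    apply orderOf_dvd_of_pow_eq_one
    rw [← QuotientGroup.mk_pow, SL2_pow_card_add_one_of_elliptic X hcon]
    rfl
  obtain ⟨r, hr⟩ := hr
  have hYns : ¬ ∃ a : F, (Y : Matrix (Fin 2) (Fin 2) F) = a • (1 : Matrix (Fin 2) (Fin 2) F) := by
    intro h
    exact hg ((PSL2_mk_eq_one_iff Y).mpr h)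
  obtain ⟨U, V, h⟩ := SL2_prod_of_split X Y ht4 r hr hYns
  refine ⟨QuotientGroup.mk U, QuotientGroup.mk V, ?_⟩
  rw [h]
  rfl

end Cfsg.Agent.S2456
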