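import Cfsg.Statements.S2466
import Mathlib
-- import your own Cfsg.Agent.* helpers here

set_option autoImplicit false
open Cfsg

namespace Cfsg.Agent.S2466

open Equiv Equiv.Perm

theorem mem_range_orderOf_alt_iff (n m : ℕ) :
    m ∈ Set.range (orderOf : alternatingGroup (Fin n) → ℕ) ↔
      ∃ c : Multiset ℕ, c.sum ≤ n ∧ (∀ a ∈ c, 2 ≤ a) ∧ c.lcm = m ∧ Even (c.sum + Multiset.card c) := by
  constructor
  · rintro ⟨g, rfl⟩
    refine ⟨g.1.cycleType, ?_, fun a ha => two_le_of_mem_cycleType ha, ?_, ?_⟩
    · simpa using g.1.sum_cycleType_le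
    · rw [lcm_cycleType, Subgroup.orderOf_coe]
    · have h := g.2
      rw [mem_alternatingGroup, sign_of_cycleType] at h
      by_contra hne
      rw [Nat.not_even_iff_odd] at hne
      rw [hne.neg_one_pow] at h
      exact absurd h (by decide)
  · rintro ⟨c, hsum, h2, hlcm, hev⟩
    obtain ⟨σ, hσ⟩ := (exists_with_cycleType_iff (α := Fin n)).mpr ⟨by simpa using hsum, h2⟩
    have hmem : σ ∈ alternatingGroup (Fin n) := by
      rw [mem_alternatingGroup, sign_of_cycleType, hσ, hev.neg_one_pow]
    refine ⟨⟨σ, hmem⟩, ?_⟩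
    rw [← Subgroup.orderOf_coe, ← lcm_cycleType, hσ, hlcm]

theorem prime_dvd_multiset_lcm {p : ℕ} (hp : p.Prime) (c : Multiset ℕ) (h : p ∣ c.lcm) :
    ∃ a ∈ c, p ∣ a := by
  induction c using Multiset.induction_on with
  | empty =>
    simp at h
    exact absurd h hp.one_lt.ne'
  | cons a c ih =>
    rw [Multiset.lcm_cons, lcm_eq_nat_lcm, hp.dvd_lcm] at h
    rcases h with h | h
    · exact ⟨a, Multiset.mem_cons_self a c, h⟩
    · obtain ⟨b, hb, hpb⟩ := ih h
      exact ⟨b, Multiset.mem_cons_of_mem hb, hpb⟩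

theorem add_le_sum_of_mem_of_ne {c : Multiset ℕ} {a b : ℕ} (ha : a ∈ c) (hb : b ∈ c) (hab : a ≠ b) :
    a + b ≤ c.sum := by
  obtain ⟨c', rfl⟩ := Multiset.exists_cons_of_mem ha
  rw [Multiset.sum_cons]
  have hb' : b ∈ c' := by
    rcases Multiset.mem_cons.mp hb with h | h
    · exact absurd h.symm hab
    · exact h
  have := Multiset.single_le_sum (fun x _ => Nat.zero_le x) b hb'
  omega

/-- Adjacency of odd primes in the prime graph of the alternating groups: let r ≠ s be odd primes at most n. The alternating group of degree n has an element of order r·s if and only if r + s ≤ n. -/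
theorem result (n r s : ℕ) (hr : r.Prime) (hs : s.Prime) (hr2 : r ≠ 2) (hs2 : s ≠ 2) (hrs : r ≠ s) (hrn : r ≤ n) (hsn : s ≤ n) :
    (r * s ∈ Set.range (orderOf : alternatingGroup (Fin n) → ℕ)) ↔ r + s ≤ n := by
  rw [mem_range_orderOf_alt_iff]
  have hr3 : 3 ≤ r := by
    have := hr.two_le
    omega
  have hs3 : 3 ≤ s := by
    have := hs.two_le
    omega
  constructor
  · rintro ⟨c, hsum, h2, hlcm, -⟩
    obtain ⟨a, ha, hra⟩ := prime_dvd_multiset_lcm hr c (hlcm ▸ Dvd.intro s rfl)
    obtain ⟨b, hb, hsb⟩ := prime_dvd_multiset_lcm hs c (hlcm ▸ Dvd.intro_left r rfl)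
    by_cases hab : a = b
    · subst hab
      have hcop : Nat.Coprime r s := (Nat.coprime_primes hr hs).mpr hrs
      have hdvd : r * s ∣ a := hcop.mul_dvd_of_dvd_of_dvd hra hsb
      have hapos : 0 < a := by
        have := h2 a ha
        omega
      have h1 : r * s ≤ a := Nat.le_of_dvd hapos hdvd
      have h2' : a ≤ c.sum := Multiset.single_le_sum (fun x _ => Nat.zero_le x) a ha
      have h3 : r + s ≤ r * s := by nlinarith
      omega
    · have h1 := add_le_sum_of_mem_of_ne ha hb hab
      have hapos : 0 < a := by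
        have := h2 a ha
        omega
      have hbpos : 0 < b := by
        have := h2 b hb
        omega
      have := Nat.le_of_dvd hapos hra
      have := Nat.le_of_dvd hbpos hsb
      omega
  · intro h
    refine ⟨{r, s}, ?_, ?_, ?_, ?_⟩
    · simpa using h
    · intro a ha
      simp at ha
      rcases ha with rfl | rfl <;> omega
    · have hcop : Nat.Coprime r s := (Nat.coprime_primes hr hs).mpr hrs
      simp [lcm_eq_nat_lcm, hcop.lcm_eq_mul]
    · have h1 := hr.odd_of_ne_two hr2
      have h2 := hs.odd_of_ne_two hs2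
      simp only [Multiset.insert_eq_cons, Multiset.sum_cons, Multiset.sum_singleton,
        Multiset.card_cons, Multiset.card_singleton]
      rcases h1 with ⟨k, rfl⟩
      rcases h2 with ⟨l, rfl⟩
      exact ⟨k + l + 2, by ring⟩

end Cfsg.Agent.S2466
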