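import Cfsg.Statements.S2467
import Mathlib
-- import your own Cfsg.Agent.* helpers here

set_option autoImplicit false
open Cfsg

namespace Cfsg.Agent.S2467

open Equiv Equiv.Perm

theorem mem_range_orderOf_alt_iff (n m : ℕ) :
    m ∈ Set.range (orderOf : alternatingGroup (Fin n) → ℕ) ↔
      ∃ c : Multiset ℕ, c.sum ≤ n ∧ (∀ a ∈ c, 2 ≤ a) ∧ c.lcm = m ∧ Even (c.sum + Multiset.card c) := by
  constructor
  · rintro ⟨g, rfl⟩
    refine ⟨g.1.cycleType, ?_, fun a ha => two_le_of_mem_cycleType ha, ?_, ?_⟩
    · simpa using g.1.sum_cycleType_le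
    · rw [lcm_cycleType, Subgroup.orderOf_coe]
    · have h := g.2
      rw [mem_alternatingGroup, sign_of_cycleType] at h
      by_contra hne
      rw [Nat.not_even_iff_odd] at hne
      rw [hne.neg_one_pow] at h
      exact absurd h (by decide)
  · rintro ⟨c, hsum, h2, hlcm, hev⟩
    obtain ⟨σ, hσ⟩ := (exists_with_cycleType_iff (α := Fin n)).mpr ⟨by simpa using hsum, h2⟩
    have hmem : σ ∈ alternatingGroup (Fin n) := by
      rw [mem_alternatingGroup, sign_of_cycleType, hσ, hev.neg_one_pow]
    refine ⟨⟨σ, hmem⟩, ?_⟩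
    rw [← Subgroup.orderOf_coe, ← lcm_cycleType, hσ, hlcm]

theorem prime_dvd_multiset_lcm {p : ℕ} (hp : p.Prime) (c : Multiset ℕ) (h : p ∣ c.lcm) :
    ∃ a ∈ c, p ∣ a := by
  induction c using Multiset.induction_on with
  | empty =>
    simp at h
    exact absurd h hp.one_lt.ne'
  | cons a c ih =>
    rw [Multiset.lcm_cons, lcm_eq_nat_lcm, hp.dvd_lcm] at h
    rcases h with h | h
    · exact ⟨a, Multiset.mem_cons_self a c, h⟩
    · obtain ⟨b, hb, hpb⟩ := ih h
      exact ⟨b, Multiset.mem_cons_of_mem hb, hpb⟩

theorem even_sum_of_even (c : Multiset ℕ) (h : ∀ x ∈ c, Even x) : Even c.sum := by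
  induction c using Multiset.induction_on with
  | empty => simp
  | cons a c ih =>
    rw [Multiset.sum_cons]
    exact (h a (Multiset.mem_cons_self a c)).add (ih fun x hx => h x (Multiset.mem_cons_of_mem hx))

theorem even_sum_add_card_of_odd (c : Multiset ℕ) (h : ∀ x ∈ c, ¬ Even x) :
    Even (c.sum + Multiset.card c) := by
  induction c using Multiset.induction_on with
  | empty => simp
  | cons a c ih =>
    rw [Multiset.sum_cons, Multiset.card_cons]
    have ha := h a (Multiset.mem_cons_self a c)
    have hc := ih fun x hx => h x (Multiset.mem_cons_of_mem hx)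
    rw [Nat.not_even_iff_odd] at ha
    have : a + c.sum + (Multiset.card c + 1) = (a + 1) + (c.sum + Multiset.card c) := by ring
    rw [this]
    exact (ha.add_one).add hc

theorem two_mul_card_le_sum (c : Multiset ℕ) (h : ∀ x ∈ c, 2 ≤ x) : 2 * Multiset.card c ≤ c.sum := by
  have := Multiset.card_nsmul_le_sum (s := c) (a := 2) h
  simpa [mul_comm] using this

/-- Adjacency of 2 and an odd prime in the prime graph of the alternating groups: let r be an odd prime at most n, with n ≥ 4. The alternating group of degree n has an element of order 2r if and only if r + 4 ≤ n. -/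
theorem result (n r : ℕ) (hn : 4 ≤ n) (hr : r.Prime) (hr2 : r ≠ 2) (hrn : r ≤ n) :
    (2 * r ∈ Set.range (orderOf : alternatingGroup (Fin n) → ℕ)) ↔ r + 4 ≤ n := by
  rw [mem_range_orderOf_alt_iff]
  have hr3 : 3 ≤ r := by
    have := hr.two_le
    omega
  have hrodd : Odd r := hr.odd_of_ne_two hr2
  constructor
  · rintro ⟨c, hsum, h2, hlcm, hev⟩
    obtain ⟨a, ha, hra⟩ := prime_dvd_multiset_lcm hr c (hlcm ▸ Dvd.intro_left 2 rfl)
    obtain ⟨b, hb, h2b⟩ := prime_dvd_multiset_lcm Nat.prime_two c (hlcm ▸ Dvd.intro r rfl)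
    have hsplit : c.filter Even + c.filter (fun x => ¬ Even x) = c := Multiset.filter_add_not _ c
    have hsumsplit : c.sum = (c.filter Even).sum + (c.filter (fun x => ¬ Even x)).sum := by
      conv_lhs => rw [← hsplit]
      rw [Multiset.sum_add]
    have hcardsplit : Multiset.card c = Multiset.card (c.filter Even) + Multiset.card (c.filter (fun x => ¬ Even x)) := by
      conv_lhs => rw [← hsplit]
      rw [Multiset.card_add]
    have hE : Even (c.filter Even).sum := even_sum_of_even _ fun x hx => (Multiset.mem_filter.mp hx).2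
    have hO : Even ((c.filter (fun x => ¬ Even x)).sum + Multiset.card (c.filter (fun x => ¬ Even x))) :=
      even_sum_add_card_of_odd _ fun x hx => (Multiset.mem_filter.mp hx).2
    have hcardE : Even (Multiset.card (c.filter Even)) := by
      rw [hsumsplit, hcardsplit] at hev
      rcases hE with ⟨e1, he1⟩
      rcases hO with ⟨e2, he2⟩
      rcases hev with ⟨e3, he3⟩
      rw [Nat.even_iff]
      omega
    have hbE : b ∈ c.filter Even := Multiset.mem_filter.mpr ⟨hb, (even_iff_two_dvd).mpr h2b⟩
    have hcardE2 : 2 ≤ Multiset.card (c.filter Even) := by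
      have h1 : 0 < Multiset.card (c.filter Even) := Multiset.card_pos_iff_exists_mem.mpr ⟨b, hbE⟩
      rcases hcardE with ⟨e, he⟩
      omega
    have hE2 : 2 * Multiset.card (c.filter Even) ≤ (c.filter Even).sum :=
      two_mul_card_le_sum _ fun x hx => h2 x (Multiset.mem_filter.mp hx).1
    have hapos : 0 < a := by
      have := h2 a ha
      omega
    by_cases hae : Even a
    · have haE : a ∈ c.filter Even := Multiset.mem_filter.mpr ⟨ha, hae⟩
      obtain ⟨E', hE'⟩ := Multiset.exists_cons_of_mem haE
      have hcop : Nat.Coprime 2 r := (Nat.coprime_primes Nat.prime_two hr).mpr (Ne.symm hr2)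
      have hdvd : 2 * r ∣ a := hcop.mul_dvd_of_dvd_of_dvd (even_iff_two_dvd.mp hae) hra
      have h1 : 2 * r ≤ a := Nat.le_of_dvd hapos hdvd
      have hE'2 : 2 * Multiset.card E' ≤ E'.sum :=
        two_mul_card_le_sum _ fun x hx => h2 x
          (Multiset.mem_filter.mp (hE' ▸ Multiset.mem_cons_of_mem hx)).1
      rw [hE', Multiset.card_cons] at hcardE2
      rw [hE', Multiset.sum_cons] at hsumsplit
      omega
    · have haO : a ∈ c.filter (fun x => ¬ Even x) := Multiset.mem_filter.mpr ⟨ha, hae⟩
      have h1 : a ≤ (c.filter (fun x => ¬ Even x)).sum :=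
        Multiset.single_le_sum (fun x _ => Nat.zero_le x) a haO
      have := Nat.le_of_dvd hapos hra
      omega
  · intro h
    refine ⟨{r, 2, 2}, ?_, ?_, ?_, ?_⟩
    · simp only [Multiset.insert_eq_cons, Multiset.sum_cons, Multiset.sum_singleton]
      omega
    · intro a ha
      simp at ha
      rcases ha with rfl | rfl <;> omega
    · have hcop : Nat.Coprime r 2 := ((Nat.coprime_primes Nat.prime_two hr).mpr (Ne.symm hr2)).symm
      simp [lcm_eq_nat_lcm, hcop.lcm_eq_mul, mul_comm]
    · simp only [Multiset.insert_eq_cons, Multiset.sum_cons, Multiset.sum_singleton,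
        Multiset.card_cons, Multiset.card_singleton]
      rcases hrodd with ⟨k, rfl⟩
      exact ⟨k + 4, by ring⟩

end Cfsg.Agent.S2467
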