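import Cfsg.Statements.S2471
import Mathlib
import Cfsg.Agent.Lib.helper12.PSL2Spec
-- import your own Cfsg.Agent.* helpers here

set_option autoImplicit false
open Cfsg

namespace Cfsg.Agent.S2471


/-- In PSL(2,q) with q odd, the characteristic p is isolated from 2 in the prime graph: for F a finite field of odd characteristic p with at least 5 elements, PSL(2,F) has no element of order 2p. -/
theorem result {F : Type*} [Field F] [Fintype F] (p : ℕ) [Fact p.Prime] [CharP F p] (hp : p ≠ 2) (h5 : 5 ≤ Fintype.card F) (g : Matrix.ProjectiveSpecialLinearGroup (Fin 2) F) :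
    orderOf g ≠ 2 * p := by
  intro h
  have hp' : p.Prime := Fact.out
  obtain ⟨n, -, hn⟩ := FiniteField.card F p
  have hpq : p ∣ Fintype.card F := by
    rw [hn]
    exact dvd_pow_self p n.ne_zero
  have hq : 2 ≤ Fintype.card F := Fintype.one_lt_card
  have h2p : p ∣ 2 * p := Dvd.intro_left 2 rfl
  rcases Cfsg.Agent.Lib.helper12.PSL2_orderOf_dvd p g with h1 | h1 | h1
  · rw [h] at h1
    have := Nat.le_of_dvd hp'.pos h1
    have := hp'.pos
    omega
  · rw [h] at h1
    have h3 : p ∣ Fintype.card F - 1 :=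
      (h2p.trans h1).trans (Nat.div_dvd_of_dvd (Nat.gcd_dvd_right _ _))
    have h4 : p ∣ 1 := by
      have := (Nat.dvd_sub hpq h3)
      have e : Fintype.card F - (Fintype.card F - 1) = 1 := by omega
      rwa [e] at this
    exact hp'.one_lt.ne' (Nat.dvd_one.mp h4)
  · rw [h] at h1
    have hd : Nat.gcd 2 (Fintype.card F - 1) ∣ Fintype.card F + 1 := by
      have h5 : Nat.gcd 2 (Fintype.card F - 1) ∣ Fintype.card F - 1 := Nat.gcd_dvd_right _ _
      have h6 : Nat.gcd 2 (Fintype.card F - 1) ∣ 2 := Nat.gcd_dvd_left _ _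
      have e : Fintype.card F + 1 = (Fintype.card F - 1) + 2 := by omega
      rw [e]
      exact Nat.dvd_add h5 h6
    have h3 : p ∣ Fintype.card F + 1 := (h2p.trans h1).trans (Nat.div_dvd_of_dvd hd)
    have h4 : p ∣ 1 := by
      have := (Nat.dvd_sub h3 hpq)
      have e : Fintype.card F + 1 - Fintype.card F = 1 := by omega
      rwa [e] at this
    exact hp'.one_lt.ne' (Nat.dvd_one.mp h4)

end Cfsg.Agent.S2471
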