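import Cfsg.Statements.S2485
import Mathlib

set_option autoImplicit false
open scoped Pointwise
open Cfsg

namespace Cfsg.Agent.S2485

section Helpers

open Matrix

/-- the matrix `J` with `J² = -1` -/
def Jm (q : ℕ) : Matrix (Fin 2) (Fin 2) (ZMod q) := !![0, -1; 1, 0]

theorem Jm_sq (q : ℕ) : Jm q * Jm q = -1 := by
  ext i j
  fin_cases i <;> fin_cases j <;> simp [Jm, Matrix.mul_apply, Fin.sum_univ_two]

/-- `J` as an invertible matrix -/
def Ju (q : ℕ) : GL (Fin 2) (ZMod q) :=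
  ⟨Jm q, -Jm q, by rw [mul_neg, Jm_sq, neg_neg], by rw [neg_mul, Jm_sq, neg_neg]⟩

/-- matrices commuting or anticommuting with `J` -/
def MJ (q : ℕ) : Subgroup (GL (Fin 2) (ZMod q)) where
  carrier := {A | (A : Matrix (Fin 2) (Fin 2) (ZMod q)) * Jm q = Jm q * A ∨
    (A : Matrix (Fin 2) (Fin 2) (ZMod q)) * Jm q = -(Jm q * A)}
  one_mem' := Or.inl (by simp)
  mul_mem' := by
    rintro A B (hA | hA) (hB | hB)
    · left; rw [Units.val_mul, mul_assoc, hB, ← mul_assoc, hA, mul_assoc]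
    · right; rw [Units.val_mul, mul_assoc, hB, mul_neg, ← mul_assoc, hA, mul_assoc]
    · right; rw [Units.val_mul, mul_assoc, hB, ← mul_assoc, hA, neg_mul, mul_assoc]
    · left; rw [Units.val_mul, mul_assoc, hB, mul_neg, ← mul_assoc, hA, neg_mul, neg_neg, mul_assoc]
  inv_mem' := by
    rintro A (hA | hA)
    · left
      have h1 : ((A⁻¹ : GL (Fin 2) (ZMod q)) : Matrix (Fin 2) (Fin 2) (ZMod q)) *
          ((A : Matrix (Fin 2) (Fin 2) (ZMod q)) * Jm q) *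
          ((A⁻¹ : GL (Fin 2) (ZMod q)) : Matrix (Fin 2) (Fin 2) (ZMod q))
          = ((A⁻¹ : GL (Fin 2) (ZMod q)) : Matrix (Fin 2) (Fin 2) (ZMod q)) *
          (Jm q * (A : Matrix (Fin 2) (Fin 2) (ZMod q))) *
          ((A⁻¹ : GL (Fin 2) (ZMod q)) : Matrix (Fin 2) (Fin 2) (ZMod q)) := by rw [hA]
      rw [← mul_assoc, Units.inv_mul, one_mul, mul_assoc, mul_assoc, Units.mul_inv, mul_one] at h1
      exact h1.symm
    · right
      have h1 : ((A⁻¹ : GL (Fin 2) (ZMod q)) : Matrix (Fin 2) (Fin 2) (ZMod q)) *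
          ((A : Matrix (Fin 2) (Fin 2) (ZMod q)) * Jm q) *
          ((A⁻¹ : GL (Fin 2) (ZMod q)) : Matrix (Fin 2) (Fin 2) (ZMod q))
          = ((A⁻¹ : GL (Fin 2) (ZMod q)) : Matrix (Fin 2) (Fin 2) (ZMod q)) *
          (-(Jm q * (A : Matrix (Fin 2) (Fin 2) (ZMod q)))) *
          ((A⁻¹ : GL (Fin 2) (ZMod q)) : Matrix (Fin 2) (Fin 2) (ZMod q)) := by rw [hA]
      rw [← mul_assoc, Units.inv_mul, one_mul, mul_neg, neg_mul, mul_assoc, mul_assoc,
        Units.mul_inv, mul_one] at h1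
      show ((A⁻¹ : GL (Fin 2) (ZMod q)) : Matrix (Fin 2) (Fin 2) (ZMod q)) * Jm q = _
      rw [h1, neg_neg]

theorem comm_form {q : ℕ} (A : Matrix (Fin 2) (Fin 2) (ZMod q)) (h : A * Jm q = Jm q * A) :
    A = (A 0 0) • (1 : Matrix (Fin 2) (Fin 2) (ZMod q)) + (A 1 0) • Jm q := by
  have h00 : (A * Jm q) 0 0 = (Jm q * A) 0 0 := by rw [h]
  have h01 : (A * Jm q) 0 1 = (Jm q * A) 0 1 := by rw [h]
  simp only [Matrix.mul_apply, Fin.sum_univ_two, Jm] at h00 h01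
  simp at h00 h01
  ext i j
  fin_cases i <;> fin_cases j <;> simp [Jm, h00, h01]

theorem anti_form {q : ℕ} (A : Matrix (Fin 2) (Fin 2) (ZMod q)) (h : A * Jm q = -(Jm q * A)) :
    A 1 0 = A 0 1 ∧ A 1 1 = - A 0 0 := by
  have h00 : (A * Jm q) 0 0 = (-(Jm q * A)) 0 0 := by rw [h]
  have h01 : (A * Jm q) 0 1 = (-(Jm q * A)) 0 1 := by rw [h]
  simp only [Matrix.neg_apply, Matrix.mul_apply, Fin.sum_univ_two, Jm] at h00 h01
  simp at h00 h01
  exact ⟨h00.symm, h01.symm⟩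

theorem anti_sq {q : ℕ} (A : Matrix (Fin 2) (Fin 2) (ZMod q)) (h : A * Jm q = -(Jm q * A)) :
    A * A = (A 0 0 ^ 2 + A 0 1 ^ 2) • (1 : Matrix (Fin 2) (Fin 2) (ZMod q)) := by
  obtain ⟨h1, h2⟩ := anti_form A h
  ext i j
  fin_cases i <;> fin_cases j <;> simp [Matrix.mul_apply, Fin.sum_univ_two, h1, h2] <;> ring

theorem Jm_pow {q : ℕ} (hq4 : q % 4 = 3) : Jm q ^ q = - Jm q := by
  obtain ⟨m, hm⟩ : ∃ m, q = 2 * (2 * m + 1) + 1 := ⟨q / 4, by omega⟩
  rw [hm, pow_succ, pow_mul, pow_two, Jm_sq, Odd.neg_one_pow ⟨m, rfl⟩, neg_one_mul]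

theorem comm_pow {q : ℕ} [Fact q.Prime] (hq4 : q % 4 = 3) (a c : ZMod q) :
    (a • (1 : Matrix (Fin 2) (Fin 2) (ZMod q)) + c • Jm q) ^ (q + 1)
      = (a ^ 2 + c ^ 2) • (1 : Matrix (Fin 2) (Fin 2) (ZMod q)) := by
  have hcomm : Commute (a • (1 : Matrix (Fin 2) (Fin 2) (ZMod q))) (c • Jm q) := by
    apply Commute.smul_left
    apply Commute.smul_right
    exact Commute.one_left _
  rw [pow_succ, add_pow_char_of_commute (p := q) (h := hcomm), smul_pow, smul_pow, one_pow, ZMod.pow_card,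
    ZMod.pow_card, Jm_pow hq4]
  rw [add_mul, mul_add, mul_add]
  simp only [smul_mul_assoc, mul_smul_comm, one_mul, mul_one, neg_mul, mul_neg, Jm_sq, smul_neg,
    neg_neg, smul_smul]
  rw [pow_two, pow_two, add_smul, mul_comm c a]
  abel

theorem central_of_scalar {q : ℕ} (A : GL (Fin 2) (ZMod q)) (c : ZMod q)
    (h : (A : Matrix (Fin 2) (Fin 2) (ZMod q)) = c • 1) :
    A ∈ Subgroup.center (GL (Fin 2) (ZMod q)) := by
  rw [Subgroup.mem_center_iff]
  intro g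
  apply Units.ext
  rw [Units.val_mul, Units.val_mul, h]
  simp

theorem Ju_not_central {q : ℕ} [Fact q.Prime] :
    Ju q ∉ Subgroup.center (GL (Fin 2) (ZMod q)) := by
  intro h
  rw [Subgroup.mem_center_iff] at h
  let E : GL (Fin 2) (ZMod q) := ⟨!![1, 1; 0, 1], !![1, -1; 0, 1], by
    ext i j; fin_cases i <;> fin_cases j <;> simp [Matrix.mul_apply, Fin.sum_univ_two], by
    ext i j; fin_cases i <;> fin_cases j <;> simp [Matrix.mul_apply, Fin.sum_univ_two]⟩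
  have h1 := congrArg (fun u : GL (Fin 2) (ZMod q) => (u : Matrix (Fin 2) (Fin 2) (ZMod q)) 0 0) (h E)
  simp [E, Ju, Jm, Matrix.mul_apply, Fin.sum_univ_two] at h1

theorem conj_anti {R : Type*} [Ring R] (x xi w j j' : R) (h1 : x * j = j' * x)
    (h2 : j * xi = xi * j') (hw : w * j' = -(j' * w)) :
    (xi * w * x) * j = -(j * (xi * w * x)) := by
  calc xi * w * x * j = xi * w * (x * j) := by simp only [mul_assoc]
    _ = xi * (w * j') * x := by rw [h1]; simp only [mul_assoc]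
    _ = -(xi * j' * w * x) := by rw [hw]; simp only [mul_neg, neg_mul, mul_assoc]
    _ = -(j * (xi * w * x)) := by rw [← h2]; simp only [mul_assoc]

theorem key {q : ℕ} [Fact q.Prime] (hq4 : q % 4 = 3) (X : GL (Fin 2) (ZMod q)) :
    ∃ W : GL (Fin 2) (ZMod q), W ∈ MJ q ∧ X⁻¹ * W * X ∈ MJ q ∧
      W ∉ Subgroup.center (GL (Fin 2) (ZMod q)) := by
  have hq2 : (2 : ZMod q) ≠ 0 := by
    intro h2
    have h3 : ((2 : ℕ) : ZMod q) = 0 := by exact_mod_cast h2
    rw [ZMod.natCast_eq_zero_iff] at h3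
    have := Nat.le_of_dvd (by norm_num) h3
    omega
  set Xm : Matrix (Fin 2) (Fin 2) (ZMod q) := (X : Matrix (Fin 2) (Fin 2) (ZMod q)) with hXm
  set Xi : Matrix (Fin 2) (Fin 2) (ZMod q) := ((X⁻¹ : GL (Fin 2) (ZMod q)) :
    Matrix (Fin 2) (Fin 2) (ZMod q)) with hXi
  have hXX : Xm * Xi = 1 := Units.mul_inv X
  have hXX' : Xi * Xm = 1 := Units.inv_mul X
  obtain ⟨J', hJ'⟩ : ∃ J' : Matrix (Fin 2) (Fin 2) (ZMod q), J' = Xm * Jm q * Xi := ⟨_, rfl⟩
  have hJ'sq : J' * J' = -1 := by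
    calc J' * J' = Xm * Jm q * (Xi * Xm) * Jm q * Xi := by rw [hJ']; simp only [mul_assoc]
      _ = Xm * (Jm q * Jm q) * Xi := by rw [hXX', mul_one]; simp only [mul_assoc]
      _ = -1 := by rw [Jm_sq, mul_neg, mul_one, neg_mul, hXX]
  have h1 : Xm * Jm q = J' * Xm := by
    rw [hJ', mul_assoc, hXX', mul_one]
  have h2 : Jm q * Xi = Xi * J' := by
    rw [hJ', ← mul_assoc, ← mul_assoc, hXX', one_mul]
  by_cases hW0 : Jm q * J' - J' * Jm q = 0
  · refine ⟨X * Ju q * X⁻¹, ?_, ?_, ?_⟩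
    · left
      show Xm * Jm q * Xi * Jm q = Jm q * (Xm * Jm q * Xi)
      rw [← hJ']
      exact (sub_eq_zero.mp hW0).symm
    · have : X⁻¹ * (X * Ju q * X⁻¹) * X = Ju q := by group
      rw [this]
      left
      rfl
    · intro hc
      have h3 : X⁻¹ * (X * Ju q * X⁻¹) * X⁻¹⁻¹ ∈ Subgroup.center (GL (Fin 2) (ZMod q)) :=
        (inferInstance : (Subgroup.center (GL (Fin 2) (ZMod q))).Normal).conj_mem _ hc X⁻¹
      have h4 : X⁻¹ * (X * Ju q * X⁻¹) * X⁻¹⁻¹ = Ju q := by group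
      rw [h4] at h3
      exact Ju_not_central h3
  · obtain ⟨W₀, hW₀⟩ : ∃ W₀ : Matrix (Fin 2) (Fin 2) (ZMod q), W₀ = Jm q * J' - J' * Jm q :=
      ⟨_, rfl⟩
    rw [← hW₀] at hW0
    have hWJ : W₀ * Jm q = -(Jm q * W₀) := by
      have e1 : W₀ * Jm q = Jm q * J' * Jm q + J' := by
        rw [hW₀, sub_mul, mul_assoc J' (Jm q) (Jm q), Jm_sq, mul_neg, mul_one, sub_neg_eq_add]
      have e2 : Jm q * W₀ = -J' - Jm q * J' * Jm q := by
        rw [hW₀, mul_sub, ← mul_assoc (Jm q) (Jm q) J', Jm_sq, neg_mul, one_mul, ← mul_assoc]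
      rw [e1, e2]; abel
    have hWJ' : W₀ * J' = -(J' * W₀) := by
      have e1 : W₀ * J' = -Jm q - J' * Jm q * J' := by
        rw [hW₀, sub_mul, mul_assoc (Jm q) J' J', hJ'sq, mul_neg, mul_one]
      have e2 : J' * W₀ = J' * Jm q * J' + Jm q := by
        rw [hW₀, mul_sub, ← mul_assoc J' J' (Jm q), hJ'sq, neg_mul, one_mul, sub_neg_eq_add,
          ← mul_assoc]
      rw [e1, e2]; abel
    obtain ⟨e1, e2⟩ := anti_form W₀ hWJ
    have hdet : W₀.det ≠ 0 := by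
      rw [Matrix.det_fin_two, e1, e2]
      intro hd
      have hd' : W₀ 0 0 ^ 2 + W₀ 0 1 ^ 2 = 0 := by linear_combination -hd
      have hnsq : ¬ IsSquare (-1 : ZMod q) := by
        rw [ZMod.exists_sq_eq_neg_one_iff]
        simp [hq4]
      by_cases hb : W₀ 0 1 = 0
      · have ha : W₀ 0 0 = 0 := by
          rw [hb] at hd'
          simpa using hd'
        apply hW0
        ext i j
        fin_cases i <;> fin_cases j <;> simp [ha, hb, e1, e2]
      · apply hnsq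
        refine ⟨W₀ 0 0 / W₀ 0 1, ?_⟩
        field_simp
        linear_combination -hd'
    refine ⟨Matrix.GeneralLinearGroup.mkOfDetNeZero W₀ hdet, ?_, ?_, ?_⟩
    · right
      exact hWJ
    · right
      show Xi * W₀ * Xm * Jm q = -(Jm q * (Xi * W₀ * Xm))
      exact conj_anti Xm Xi W₀ (Jm q) J' h1 h2 hWJ'
    · intro hc
      rw [Subgroup.mem_center_iff] at hc
      have h3 := congrArg (fun u : GL (Fin 2) (ZMod q) => (u : Matrix (Fin 2) (Fin 2) (ZMod q)))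
        (hc (Ju q))
      have h4 : Jm q * W₀ = W₀ * Jm q := h3
      rw [hWJ] at h4
      have h5 : (2 : ZMod q) • (Jm q * W₀) = 0 := by
        rw [two_smul]
        nth_rewrite 1 [h4]
        exact neg_add_cancel _
      have h6 : Jm q * W₀ = 0 := by
        rcases smul_eq_zero.mp h5 with h | h
        · exact absurd h hq2
        · exact h
      apply hW0
      have h7 : Jm q * (Jm q * W₀) = 0 := by rw [h6, mul_zero]
      rw [← mul_assoc, Jm_sq, neg_mul, one_mul, neg_eq_zero] at h7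
      exact h7

end Helpers

/-- Let q = 2^k − 1 ≥ 7 be a prime and let G = PGL(2,q), the general linear group of degree 2 over the field with q elements modulo its centre. Then any two Sylow 2-subgroups of G have a non-trivial intersection: for a Sylow 2-subgroup H and every x ∈ G, H ∩ H^x ≠ 1. -/
theorem result {q k : ℕ} [Fact q.Prime] (hk : q + 1 = 2 ^ k) (hq : 7 ≤ q)
    (H : Sylow 2 (GL (Fin 2) (ZMod q) ⧸ Subgroup.center (GL (Fin 2) (ZMod q))))
    (x : GL (Fin 2) (ZMod q) ⧸ Subgroup.center (GL (Fin 2) (ZMod q))) :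
    (H : Subgroup (GL (Fin 2) (ZMod q) ⧸ Subgroup.center (GL (Fin 2) (ZMod q)))) ⊓ MulAut.conj x • (H : Subgroup _) ≠ ⊥ := by
  classical
  have hk3 : 3 ≤ k := by
    by_contra h
    have h2 : k ≤ 2 := by omega
    have h3 : 2 ^ k ≤ 2 ^ 2 := Nat.pow_le_pow_right (by norm_num) h2
    omega
  obtain ⟨j, rfl⟩ := Nat.exists_eq_add_of_le hk3
  have hq4 : q % 4 = 3 := by
    have : 2 ^ (3 + j) = 8 * 2 ^ j := by rw [pow_add]; norm_num
    omega
  let π := QuotientGroup.mk' (Subgroup.center (GL (Fin 2) (ZMod q)))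
  let P₀ : Subgroup (GL (Fin 2) (ZMod q) ⧸ Subgroup.center (GL (Fin 2) (ZMod q))) := (MJ q).map π
  have hP : IsPGroup 2 P₀ := by
    rintro ⟨g, A, hA, rfl⟩
    refine ⟨3 + j, ?_⟩
    apply Subtype.ext
    show (π A) ^ 2 ^ (3 + j) = 1
    rw [← map_pow]
    apply (QuotientGroup.eq_one_iff _).mpr
    rcases hA with hA | hA
    · apply central_of_scalar _ ((A : Matrix (Fin 2) (Fin 2) (ZMod q)) 0 0 ^ 2 +
        (A : Matrix (Fin 2) (Fin 2) (ZMod q)) 1 0 ^ 2)
      rw [Units.val_pow_eq_pow_val, ← hk]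
      nth_rewrite 1 [comm_form _ hA]
      exact comm_pow hq4 _ _
    · apply central_of_scalar _ (((A : Matrix (Fin 2) (Fin 2) (ZMod q)) 0 0 ^ 2 +
        (A : Matrix (Fin 2) (Fin 2) (ZMod q)) 0 1 ^ 2) ^ 2 ^ (2 + j))
      rw [Units.val_pow_eq_pow_val]
      have : 2 ^ (3 + j) = 2 * 2 ^ (2 + j) := by
        rw [show 3 + j = (2 + j) + 1 by ring, pow_succ]; ring
      rw [this, pow_mul, pow_two, anti_sq _ hA, smul_pow, one_pow]
  obtain ⟨S, hS⟩ := hP.exists_le_sylow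
  obtain ⟨g, hg⟩ := MulAction.exists_smul_eq
    (GL (Fin 2) (ZMod q) ⧸ Subgroup.center (GL (Fin 2) (ZMod q))) H S
  obtain ⟨X, hX⟩ := QuotientGroup.mk'_surjective (Subgroup.center (GL (Fin 2) (ZMod q)))
    (g * x * g⁻¹)
  obtain ⟨W, hW1, hW2, hW3⟩ := key hq4 X
  have hwS : ∀ w ∈ P₀, g⁻¹ * w * g ∈ (H : Subgroup _) := by
    intro w hw
    have h1 : w ∈ (S : Subgroup _) := hS hw
    rw [← hg, Sylow.coe_subgroup_smul, Subgroup.mem_pointwise_smul_iff_inv_smul_mem] at h1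
    simpa [MulAut.smul_def, MulAut.conj_inv_apply] using h1
  have hne : g⁻¹ * π W * g ≠ 1 := by
    intro h1
    have h2 : π W = 1 := by
      have : π W = g * (g⁻¹ * π W * g) * g⁻¹ := by group
      rw [this, h1]; group
    exact hW3 ((QuotientGroup.eq_one_iff _).mp h2)
  intro hbot
  apply hne
  have h5 : g⁻¹ * π W * g ∈ MulAut.conj x • (H : Subgroup _) := by
    rw [Subgroup.mem_pointwise_smul_iff_inv_smul_mem]
    have h3 := hwS _ (Subgroup.mem_map_of_mem π hW2)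
    rw [map_mul, map_mul, map_inv] at h3
    have hX' : π X = g * x * g⁻¹ := hX
    rw [hX'] at h3
    have h4 : g⁻¹ * ((g * x * g⁻¹)⁻¹ * π W * (g * x * g⁻¹)) * g
        = x⁻¹ * (g⁻¹ * π W * g) * x := by group
    rw [h4] at h3
    have h6 : (MulAut.conj x)⁻¹ • (g⁻¹ * π W * g) = x⁻¹ * (g⁻¹ * π W * g) * x := by
      rw [MulAut.smul_def, MulAut.conj_inv_apply]
    rw [h6]
    exact h3
  have hmem : g⁻¹ * π W * g ∈ (H : Subgroup _) ⊓ MulAut.conj x • (H : Subgroup _) :=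
    Subgroup.mem_inf.mpr ⟨hwS _ (Subgroup.mem_map_of_mem _ hW1), h5⟩
  rw [hbot] at hmem
  exact Subgroup.mem_bot.mp hmem

end Cfsg.Agent.S2485
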