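import Cfsg.Statements.S2488
import Mathlib
import Cfsg.Agent.Lib.helper7.Fitting
import Cfsg.Agent.Lib.helper16.A6Facts

set_option autoImplicit false
open scoped Pointwise
open Cfsg

namespace Cfsg.Agent.S2488

theorem card_le_of_inj {α : Type*} (F : Finset (Equiv.Perm (Fin 6)))
    (f : α → Equiv.Perm (Fin 6)) (hf : Function.Injective f) (hmem : ∀ a, f a ∈ F) :
    Nat.card α ≤ F.card := by
  have h := Nat.card_le_card_of_injective (fun a => (⟨f a, hmem a⟩ : F))
    (fun a b hab => hf (congrArg Subtype.val hab))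
  simpa [Nat.card_eq_fintype_card, Fintype.card_coe] using h

/-- Let G be a finite group with a normal subgroup N of index 4 isomorphic to the alternating group of degree 6 and with trivial centralizer in G (so G is the full automorphism group of A₆). Then any two Sylow 2-subgroups of G have a non-trivial intersection: for a Sylow 2-subgroup H and every x ∈ G, H ∩ H^x ≠ 1. -/
theorem result {G : Type*} [Group G] [Finite G] (N : Subgroup G) [N.Normal]
    (e : N ≃* alternatingGroup (Fin 6)) (hidx : N.index = 4)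
    (hC : Subgroup.centralizer (N : Set G) = ⊥)
    (H : Sylow 2 G) (x : G) :
    (H : Subgroup G) ⊓ MulAut.conj x • (H : Subgroup G) ≠ ⊥ := by
  have hNn : N.Normal := inferInstance
  -- cardinalities
  have hN : Nat.card N = 360 := by
    rw [Nat.card_congr e.toEquiv, nat_card_alternatingGroup, Nat.card_eq_fintype_card,
      Fintype.card_fin]
    decide
  have hG : Nat.card G = 1440 := by
    rw [← Subgroup.card_mul_index N, hN, hidx]
  have hH : Nat.card (H : Subgroup G) = 32 := by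
    obtain ⟨k, hk⟩ := IsPGroup.iff_card.mp H.isPGroup'
    have hk' : Nat.card (H : Subgroup G) = 2 ^ k := hk
    have h1 := Subgroup.card_mul_index (H : Subgroup G)
    have h2 : ¬ 2 ∣ (H : Subgroup G).index := H.not_dvd_index
    rw [hG, hk'] at h1
    have h3 : 0 < (H : Subgroup G).index := Nat.pos_of_ne_zero Subgroup.index_ne_zero_of_finite
    have hk10 : k < 11 := by
      by_contra hcon
      have h4 : 2 ^ 11 ≤ 2 ^ k := Nat.pow_le_pow_right (by norm_num) (by omega)
      nlinarith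
    rw [hk']
    interval_cases k <;> omega
  -- a central involution of `H` inside `N`
  obtain ⟨t, htN, htc, htt, ht1⟩ : ∃ t : G, t ∈ N ∧
      (∀ h ∈ (H : Subgroup G), h * t = t * h) ∧ t * t = 1 ∧ t ≠ 1 := by
    have : Group.IsNilpotent (H : Subgroup G) := H.isPGroup'.isNilpotent
    have hNH : N.subgroupOf (H : Subgroup G) ≠ ⊥ := by
      intro hbot
      have h1 : N.relIndex (H : Subgroup G) ∣ N.index := Subgroup.relIndex_dvd_index_of_normal N H
      rw [Subgroup.relIndex, hbot, Subgroup.index_bot, hidx, hH] at h1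
      omega
    have hz := Cfsg.Agent.Lib.helper7.nilpotent_normal_inf_center_ne_bot
      (N.subgroupOf (H : Subgroup G)) hNH
    obtain ⟨⟨z, hz⟩, hz1⟩ := (Subgroup.ne_bot_iff_exists_ne_one).mp hz
    obtain ⟨j, hj⟩ := IsPGroup.iff_orderOf.mp H.isPGroup' z
    have hj0 : j ≠ 0 := by
      rintro rfl
      rw [pow_zero, orderOf_eq_one_iff] at hj
      exact hz1 (Subtype.ext hj)
    obtain ⟨i, rfl⟩ : ∃ i, j = i + 1 := ⟨j - 1, by omega⟩
    have hs1 : (z ^ 2 ^ i) * (z ^ 2 ^ i) = 1 := by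
      rw [← pow_add, ← two_mul, ← pow_succ', ← hj, pow_orderOf_eq_one]
    have hs2 : z ^ 2 ^ i ≠ 1 := by
      intro h
      have h1 := orderOf_dvd_of_pow_eq_one h
      rw [hj] at h1
      have h2 := Nat.le_of_dvd (by positivity) h1
      have h3 : 2 ^ i < 2 ^ (i + 1) := Nat.pow_lt_pow_right (by norm_num) (by omega)
      omega
    refine ⟨((z ^ 2 ^ i : (H : Subgroup G)) : G), ?_, ?_, ?_, ?_⟩
    · have h1 := (N.subgroupOf (H : Subgroup G)).pow_mem (Subgroup.mem_inf.mp hz).1 (2 ^ i)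
      exact Subgroup.mem_subgroupOf.mp h1
    · intro h hh
      have h1 := Subgroup.mem_center_iff.mp
        ((Subgroup.center _).pow_mem (Subgroup.mem_inf.mp hz).2 (2 ^ i)) ⟨h, hh⟩
      exact congrArg Subtype.val h1
    · exact_mod_cast congrArg Subtype.val hs1
    · intro h
      exact hs2 (OneMemClass.coe_eq_one.mp h)
  -- the embedding of `N` into `Perm (Fin 6)`
  obtain ⟨φ, hφ⟩ : ∃ φ : N →* Equiv.Perm (Fin 6),
      φ = (alternatingGroup (Fin 6)).subtype.comp e.toMonoidHom := ⟨_, rfl⟩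
  have hφinj : Function.Injective φ := by
    rw [hφ]
    exact (Subgroup.subtype_injective _).comp e.injective
  have hφsign : ∀ a, Equiv.Perm.sign (φ a) = 1 := by
    intro a
    rw [hφ]
    exact Equiv.Perm.mem_alternatingGroup.mp (e a).2
  have hφmul : ∀ (a b : G) (ha : a ∈ N) (hb : b ∈ N) (hab : a * b ∈ N),
      φ ⟨a, ha⟩ * φ ⟨b, hb⟩ = φ ⟨a * b, hab⟩ := fun a b ha hb hab => (map_mul φ _ _).symm
  have hφone : ∀ (a : G) (ha : a ∈ N), a = 1 → φ ⟨a, ha⟩ = 1 := by
    rintro a ha rfl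
    exact map_one φ
  have hφne : ∀ (a : G) (ha : a ∈ N), a ≠ 1 → φ ⟨a, ha⟩ ≠ 1 := fun a ha h1 h =>
    h1 (congrArg Subtype.val (hφinj (h.trans (map_one φ).symm)))
  have hφpow : ∀ (a : G) (ha : a ∈ N) (k : ℕ), a ^ k = 1 → φ ⟨a, ha⟩ ^ k = 1 := by
    intro a ha k h
    rw [← map_pow]
    have h1 : (⟨a, ha⟩ : N) ^ k = 1 := Subtype.ext (by simpa using h)
    rw [h1, map_one]
  have hφpow' : ∀ (a : G) (ha : a ∈ N) (k : ℕ), φ ⟨a, ha⟩ ^ k = 1 → a ^ k = 1 := by
    intro a ha k h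
    rw [← map_pow] at h
    have h1 := hφinj (h.trans (map_one φ).symm)
    simpa using congrArg Subtype.val h1
  obtain ⟨τ, hτ⟩ : ∃ τ, τ = φ ⟨t, htN⟩ := ⟨_, rfl⟩
  have hτs : Equiv.Perm.sign τ = 1 := hτ ▸ hφsign _
  have hτ2 : τ * τ = 1 := by
    rw [hτ, hφmul _ _ htN htN (N.mul_mem htN htN)]
    exact hφone _ _ htt
  have hτ1 : τ ≠ 1 := hτ ▸ hφne _ _ ht1
  -- the centralizer of `t` is `H`
  have hCN : Nat.card ↥(Subgroup.centralizer {t} ⊓ N : Subgroup G) ≤ 8 := by
    calc Nat.card ↥(Subgroup.centralizer {t} ⊓ N : Subgroup G)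
        ≤ (Finset.univ.filter (fun σ : Equiv.Perm (Fin 6) =>
            Equiv.Perm.sign σ = 1 ∧ σ * τ = τ * σ)).card := by
          refine card_le_of_inj _ (fun c => φ ⟨c.1, (Subgroup.mem_inf.mp c.2).2⟩) ?_ ?_
          · intro a b hab
            exact Subtype.ext (Subtype.mk.inj (hφinj hab))
          · intro c
            rw [Finset.mem_filter]
            refine ⟨Finset.mem_univ _, hφsign _, ?_⟩
            have hc := Subgroup.mem_centralizer_iff.mp (Subgroup.mem_inf.mp c.2).1 t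
              (Set.mem_singleton t)
            rw [hτ, hφmul _ _ _ htN (N.mul_mem (Subgroup.mem_inf.mp c.2).2 htN),
              hφmul _ _ htN _ (N.mul_mem htN (Subgroup.mem_inf.mp c.2).2)]
            exact congrArg φ (Subtype.ext hc.symm)
      _ = 8 := Cfsg.Agent.Lib.helper16.A6Facts.a6_cent τ hτs hτ2 hτ1
  have hCle : Nat.card ↥(Subgroup.centralizer {t} : Subgroup G) ≤ 32 := by
    have h1 := Subgroup.card_mul_index (Subgroup.centralizer {t} ⊓ N : Subgroup G)
    have h2 : (Subgroup.centralizer {t} ⊓ N : Subgroup G).index ≤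
        (Subgroup.centralizer {t} : Subgroup G).index * N.index := Subgroup.index_inf_le
    have h3 := Subgroup.card_mul_index (Subgroup.centralizer {t} : Subgroup G)
    have h4 : 0 < (Subgroup.centralizer {t} : Subgroup G).index :=
      Nat.pos_of_ne_zero Subgroup.index_ne_zero_of_finite
    rw [hidx] at h2
    have h5 : Nat.card G ≤ 8 * ((Subgroup.centralizer {t} : Subgroup G).index * 4) := by
      rw [← h1]; exact Nat.mul_le_mul hCN h2
    by_contra hcon
    push Not at hcon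
    have h6 : 33 * (Subgroup.centralizer {t} : Subgroup G).index ≤ Nat.card G := by
      rw [← h3]; exact Nat.mul_le_mul_right _ hcon
    omega
  have hHC : (H : Subgroup G) = Subgroup.centralizer {t} := by
    refine Subgroup.eq_of_le_of_card_ge ?_ (by rw [hH]; exact hCle)
    intro h hh
    refine Subgroup.mem_centralizer_iff.mpr (fun y hy => ?_)
    rw [Set.mem_singleton_iff.mp hy]
    exact (htc h hh).symm
  -- the conjugate involution
  have ht'N : x * t * x⁻¹ ∈ N := hNn.conj_mem t htN x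
  have ht't' : x * t * x⁻¹ * (x * t * x⁻¹) = 1 := by
    calc x * t * x⁻¹ * (x * t * x⁻¹) = x * (t * t) * x⁻¹ := by group
      _ = 1 := by rw [htt]; group
  have ht'1 : x * t * x⁻¹ ≠ 1 := fun h => ht1 (conj_eq_one_iff.mp h)
  have huN : t * (x * t * x⁻¹) ∈ N := N.mul_mem htN ht'N
  -- reduction to the key claim
  suffices hkey : ∃ j : G, j ≠ 1 ∧ j * t = t * j ∧ j * (x * t * x⁻¹) = x * t * x⁻¹ * j by
    obtain ⟨j, hj1, hjt, hjt'⟩ := hkey
    intro hbot
    have hjH : j ∈ (H : Subgroup G) := by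
      rw [hHC]
      refine Subgroup.mem_centralizer_iff.mpr (fun y hy => ?_)
      rw [Set.mem_singleton_iff.mp hy]
      exact hjt.symm
    have hjH' : x⁻¹ * j * x ∈ (H : Subgroup G) := by
      rw [hHC]
      refine Subgroup.mem_centralizer_iff.mpr (fun y hy => ?_)
      rw [Set.mem_singleton_iff.mp hy]
      calc t * (x⁻¹ * j * x) = x⁻¹ * ((x * t * x⁻¹) * j) * x := by group
        _ = x⁻¹ * (j * (x * t * x⁻¹)) * x := by rw [hjt']
        _ = x⁻¹ * j * x * t := by group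
    have hjx : j ∈ MulAut.conj x • (H : Subgroup G) := by
      rw [Subgroup.mem_smul_pointwise_iff_exists]
      refine ⟨x⁻¹ * j * x, hjH', ?_⟩
      rw [MulAut.smul_def, MulAut.conj_apply]
      group
    have hj : j ∈ (⊥ : Subgroup G) := hbot ▸ Subgroup.mem_inf.mpr ⟨hjH, hjx⟩
    exact hj1 (Subgroup.mem_bot.mp hj)
  -- the product `u = t * t'`
  have hab : t * (x * t * x⁻¹) * (x * t * x⁻¹ * t) = 1 := by
    calc t * (x * t * x⁻¹) * (x * t * x⁻¹ * t)
        = t * ((x * t * x⁻¹) * (x * t * x⁻¹)) * t := by group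
      _ = 1 := by rw [ht't', mul_one, htt]
  by_cases hu2 : (t * (x * t * x⁻¹)) ^ 2 = 1
  · refine ⟨t, ht1, rfl, ?_⟩
    have h2 : t * (x * t * x⁻¹) * (t * (x * t * x⁻¹)) = 1 := by rw [← pow_two]; exact hu2
    exact mul_left_cancel (h2.trans hab.symm)
  have hu1 : t * (x * t * x⁻¹) ≠ 1 := fun h => hu2 (by rw [h, one_pow])
  -- the counting argument
  have keyC : ∀ m : ℕ, (Finset.univ.filter (fun σ : Equiv.Perm (Fin 6) =>
      Equiv.Perm.sign σ = 1 ∧ σ * σ = 1 ∧ σ ≠ 1 ∧ (τ * σ) ^ m = 1 ∧ τ * σ ≠ 1)).card = 16 →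
      (t * (x * t * x⁻¹)) ^ m = 1 →
      ∃ j : G, j ≠ 1 ∧ j * t = t * j ∧ j * (x * t * x⁻¹) = x * t * x⁻¹ * j := by
    intro m hcount hum
    by_contra hno
    push Not at hno
    have hle : Nat.card (H : Subgroup G) ≤ 16 := by
      rw [← hcount]
      refine card_le_of_inj _
        (fun h => φ ⟨h.1 * (x * t * x⁻¹) * h.1⁻¹, hNn.conj_mem _ ht'N _⟩) ?_ ?_
      · intro a b hab'
        have h1 : a.1 * (x * t * x⁻¹) * a.1⁻¹ = b.1 * (x * t * x⁻¹) * b.1⁻¹ :=
          congrArg Subtype.val (hφinj hab')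
        by_contra hne
        have hj1 : b.1⁻¹ * a.1 ≠ 1 := fun h => hne (Subtype.ext (inv_mul_eq_one.mp h).symm)
        have hjH : b.1⁻¹ * a.1 ∈ (H : Subgroup G) :=
          Subgroup.mul_mem _ (Subgroup.inv_mem _ b.2) a.2
        refine hno _ hj1 (htc _ hjH) ?_
        calc b.1⁻¹ * a.1 * (x * t * x⁻¹)
            = b.1⁻¹ * (a.1 * (x * t * x⁻¹) * a.1⁻¹) * a.1 := by group
          _ = b.1⁻¹ * (b.1 * (x * t * x⁻¹) * b.1⁻¹) * a.1 := by rw [h1]
          _ = x * t * x⁻¹ * (b.1⁻¹ * a.1) := by group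
      · intro h
        have hsN : h.1 * (x * t * x⁻¹) * h.1⁻¹ ∈ N := hNn.conj_mem _ ht'N _
        have hss : h.1 * (x * t * x⁻¹) * h.1⁻¹ * (h.1 * (x * t * x⁻¹) * h.1⁻¹) = 1 := by
          calc h.1 * (x * t * x⁻¹) * h.1⁻¹ * (h.1 * (x * t * x⁻¹) * h.1⁻¹)
              = h.1 * ((x * t * x⁻¹) * (x * t * x⁻¹)) * h.1⁻¹ := by group
            _ = 1 := by rw [ht't']; group
        have hs1 : h.1 * (x * t * x⁻¹) * h.1⁻¹ ≠ 1 := fun h' => ht'1 (conj_eq_one_iff.mp h')
        have hts : t * (h.1 * (x * t * x⁻¹) * h.1⁻¹) = h.1 * (t * (x * t * x⁻¹)) * h.1⁻¹ := by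
          calc t * (h.1 * (x * t * x⁻¹) * h.1⁻¹) = (t * h.1) * (x * t * x⁻¹) * h.1⁻¹ := by group
            _ = (h.1 * t) * (x * t * x⁻¹) * h.1⁻¹ := by rw [htc h.1 h.2]
            _ = h.1 * (t * (x * t * x⁻¹)) * h.1⁻¹ := by group
        have htsm : (t * (h.1 * (x * t * x⁻¹) * h.1⁻¹)) ^ m = 1 := by
          rw [hts, conj_pow, hum]; group
        have hts1 : t * (h.1 * (x * t * x⁻¹) * h.1⁻¹) ≠ 1 := by
          rw [hts]
          exact fun h' => hu1 (conj_eq_one_iff.mp h')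
        rw [Finset.mem_filter]
        refine ⟨Finset.mem_univ _, hφsign _, ?_, hφne _ _ hs1, ?_, ?_⟩
        · rw [hφmul _ _ hsN hsN (N.mul_mem hsN hsN)]
          exact hφone _ _ hss
        · rw [hτ, hφmul _ _ htN hsN (N.mul_mem htN hsN)]
          exact hφpow _ _ m htsm
        · rw [hτ, hφmul _ _ htN hsN (N.mul_mem htN hsN)]
          exact hφne _ _ hts1
    rw [hH] at hle
    omega
  -- the order of `u`
  have hord := Cfsg.Agent.Lib.helper16.A6Facts.a6_orders (φ ⟨t * (x * t * x⁻¹), huN⟩) (hφsign _)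
  rcases hord with h | h | h | h | h
  · exact absurd (congrArg Subtype.val (hφinj (h.trans (map_one φ).symm))) hu1
  · exact absurd (hφpow' _ _ 2 h) hu2
  · exact keyC 3 (Cfsg.Agent.Lib.helper16.A6Facts.a6_three τ hτs hτ2 hτ1) (hφpow' _ _ 3 h)
  · -- order 4: the square of `u` works
    have h4 := hφpow' _ _ 4 h
    have hb : x * t * x⁻¹ * t = (t * (x * t * x⁻¹))⁻¹ := eq_inv_of_mul_eq_one_right hab
    have h4' : t * (x * t * x⁻¹) * (t * (x * t * x⁻¹)) * (t * (x * t * x⁻¹) * (t * (x * t * x⁻¹)))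
        = 1 := by
      have h4'' := h4
      rw [show (4 : ℕ) = 2 + 2 from rfl, pow_add, pow_two] at h4''
      exact h4''
    have haa : t * (x * t * x⁻¹) * (t * (x * t * x⁻¹)) =
        x * t * x⁻¹ * t * (x * t * x⁻¹ * t) := by
      rw [hb, ← mul_inv_rev]
      exact eq_inv_of_mul_eq_one_left h4'
    refine ⟨t * (x * t * x⁻¹) * (t * (x * t * x⁻¹)), ?_, ?_, ?_⟩
    · rw [← pow_two]; exact hu2
    · calc t * (x * t * x⁻¹) * (t * (x * t * x⁻¹)) * t
          = t * (x * t * x⁻¹ * t * (x * t * x⁻¹ * t)) := by group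
        _ = t * (t * (x * t * x⁻¹) * (t * (x * t * x⁻¹))) := by rw [haa]
    · calc t * (x * t * x⁻¹) * (t * (x * t * x⁻¹)) * (x * t * x⁻¹)
          = x * t * x⁻¹ * t * (x * t * x⁻¹ * t) * (x * t * x⁻¹) := by rw [haa]
        _ = x * t * x⁻¹ * (t * (x * t * x⁻¹) * (t * (x * t * x⁻¹))) := by group
  · exact keyC 5 (Cfsg.Agent.Lib.helper16.A6Facts.a6_five τ hτs hτ2 hτ1) (hφpow' _ _ 5 h)

end Cfsg.Agent.S2488
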