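import Cfsg.Statements.S2503
import Mathlib
import Cfsg.Agent.Lib.helper13.PSL2Aut

set_option autoImplicit false
open Cfsg

open Cfsg.Agent.Lib.helper13

namespace Cfsg.Agent.S2503

section Helpers

open Cfsg.Agent.Lib.helper13.PSL2Aut

variable {F : Type*} [Field F]

theorem char_two_of_dvd [Fintype F] (h2 : 2 ∣ Fintype.card F) : CharP F 2 := by
  obtain ⟨p, hp⟩ := CharP.exists F
  have := hp
  obtain ⟨n, hpp, hcard⟩ := FiniteField.card F p
  rw [hcard] at h2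
  have h3 : 2 ∣ p := Nat.Prime.dvd_of_dvd_pow Nat.prime_two h2
  have h4 : p = 2 := ((Nat.prime_dvd_prime_iff_eq Nat.prime_two hpp).1 h3).symm
  subst h4
  exact hp

/-- the norm form of the quadratic extension -/
def Nf (ζ : F) (a b : F) : F := a ^ 2 + a * b + ζ * b ^ 2

theorem exists_zeta [Fintype F] [CharP F 2] : ∃ ζ : F, ∀ t : F, t ^ 2 + t + ζ ≠ 0 := by
  classical
  have hni : ¬ Function.Injective (fun t : F => t ^ 2 + t) := by
    intro h
    have h1 : (fun t : F => t ^ 2 + t) 0 = (fun t : F => t ^ 2 + t) 1 := by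
      have := CharTwo.add_self_eq_zero (1 : F)
      simp [this]
    exact zero_ne_one (h h1)
  have hns : ¬ Function.Surjective (fun t : F => t ^ 2 + t) :=
    fun h => hni (Finite.injective_iff_surjective.2 h)
  simp only [Function.Surjective, not_forall, not_exists] at hns
  obtain ⟨ζ, hζ⟩ := hns
  refine ⟨ζ, fun t h => hζ t ?_⟩
  have h3 := CharTwo.add_self_eq_zero ζ
  linear_combination h - h3

theorem Nf_eq_zero (ζ : F) (hζ : ∀ t : F, t ^ 2 + t + ζ ≠ 0) (a b : F) (h : Nf ζ a b = 0) :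
    a = 0 ∧ b = 0 := by
  have hb : b = 0 := by
    by_contra hb
    apply hζ (a / b)
    unfold Nf at h
    field_simp
    linear_combination h
  subst hb
  unfold Nf at h
  simp only [mul_zero, add_zero, ne_eq, OfNat.ofNat_ne_zero, not_false_eq_true, zero_pow,
    pow_eq_zero_iff] at h
  exact ⟨h, rfl⟩

theorem Nf_smul (ζ s a b : F) : Nf ζ (s * a) (s * b) = s ^ 2 * Nf ζ a b := by
  unfold Nf
  ring

theorem exists_sqrt [Fintype F] [CharP F 2] (c : F) : ∃ s : F, s ^ 2 = c := by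
  obtain ⟨r, hr⟩ := FiniteField.isSquare_of_char_two (ringChar.eq F 2) c
  exact ⟨r, by rw [hr]; ring⟩

/-- the non-split torus -/
def Asub [CharP F 2] (ζ : F) : Subgroup (SL2' F) where
  carrier := {M | M 0 1 = ζ * M 1 0 ∧ M 1 1 = M 0 0 + M 1 0}
  one_mem' := by
    show (1 : SL2' F) 0 1 = ζ * (1 : SL2' F) 1 0 ∧ (1 : SL2' F) 1 1 = (1 : SL2' F) 0 0 + (1 : SL2' F) 1 0
    simp
  mul_mem' := by
    rintro M M' ⟨h1, h2⟩ ⟨h1', h2'⟩
    constructor
    · show (M * M') 0 1 = ζ * (M * M') 1 0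
      rw [Matrix.SpecialLinearGroup.coe_mul]
      simp only [Matrix.mul_apply, Fin.sum_univ_two, h1, h2, h1', h2']
      ring
    · show (M * M') 1 1 = (M * M') 0 0 + (M * M') 1 0
      rw [Matrix.SpecialLinearGroup.coe_mul]
      simp only [Matrix.mul_apply, Fin.sum_univ_two, h1, h2, h1', h2']
      ring
  inv_mem' := by
    rintro M ⟨h1, h2⟩
    constructor
    · show (M⁻¹) 0 1 = ζ * (M⁻¹) 1 0
      rw [Matrix.SpecialLinearGroup.coe_inv, Matrix.adjugate_fin_two]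
      simp only [Matrix.of_apply, Matrix.cons_val', Matrix.cons_val_zero, Matrix.cons_val_one,
        Matrix.empty_val', Matrix.cons_val_fin_one]
      rw [h1]
      ring
    · show (M⁻¹) 1 1 = (M⁻¹) 0 0 + (M⁻¹) 1 0
      rw [Matrix.SpecialLinearGroup.coe_inv, Matrix.adjugate_fin_two]
      simp only [Matrix.of_apply, Matrix.cons_val', Matrix.cons_val_zero, Matrix.cons_val_one,
        Matrix.empty_val', Matrix.cons_val_fin_one]
      rw [h2]
      ring

theorem mem_Asub [CharP F 2] (ζ : F) (M : SL2' F) :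
    M ∈ Asub ζ ↔ M 0 1 = ζ * M 1 0 ∧ M 1 1 = M 0 0 + M 1 0 := Iff.rfl

theorem det_eq (M : SL2' F) : M 0 0 * M 1 1 - M 0 1 * M 1 0 = 1 := by
  have h := M.2
  rw [Matrix.det_fin_two] at h
  exact h

theorem Nf_of_mem [CharP F 2] (ζ : F) (M : SL2' F) (hM : M ∈ Asub ζ) : Nf ζ (M 0 0) (M 1 0) = 1 := by
  obtain ⟨h1, h2⟩ := hM
  have hd := det_eq M
  rw [h1, h2] at hd
  have h3 := CharTwo.add_self_eq_zero (ζ * M 1 0 ^ 2)
  unfold Nf
  linear_combination hd + h3

/-- the element of the torus with first column `(a, b)` -/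
def mA [CharP F 2] (ζ a b : F) (h : Nf ζ a b = 1) : SL2' F :=
  ⟨!![a, ζ * b; b, a + b], by
    rw [Matrix.det_fin_two]
    simp only [Matrix.of_apply, Matrix.cons_val', Matrix.cons_val_zero, Matrix.cons_val_one,
      Matrix.empty_val', Matrix.cons_val_fin_one]
    have h3 := CharTwo.add_self_eq_zero (ζ * b ^ 2)
    unfold Nf at h
    linear_combination h - h3⟩

theorem mA_coe [CharP F 2] (ζ a b : F) (h : Nf ζ a b = 1) :
    ((mA ζ a b h : SL2' F) : Matrix (Fin 2) (Fin 2) F) = !![a, ζ * b; b, a + b] := rfl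

theorem mA_mem [CharP F 2] (ζ a b : F) (h : Nf ζ a b = 1) : mA ζ a b h ∈ Asub ζ := by
  rw [mem_Asub, mA_coe]
  simp

theorem eq_mA [CharP F 2] (ζ : F) (M : SL2' F) (hM : M ∈ Asub ζ) :
    M = mA ζ (M 0 0) (M 1 0) (Nf_of_mem ζ M hM) := by
  obtain ⟨h1, h2⟩ := hM
  apply Subtype.ext
  rw [mA_coe]
  ext i j
  fin_cases i <;> fin_cases j <;> simp [h1, h2]

/-- the torus is parametrised by the vectors of norm `1` -/
def AsubEquiv [CharP F 2] (ζ : F) : Asub ζ ≃ {p : F × F // Nf ζ p.1 p.2 = 1} where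
  toFun M := ⟨(M.1 0 0, M.1 1 0), Nf_of_mem ζ M.1 M.2⟩
  invFun p := ⟨mA ζ p.1.1 p.1.2 p.2, mA_mem ζ _ _ _⟩
  left_inv M := by
    apply Subtype.ext
    exact (eq_mA ζ M.1 M.2).symm
  right_inv p := by
    apply Subtype.ext
    simp [mA_coe]

theorem card_norm [Fintype F] [CharP F 2] (ζ : F) (hζ : ∀ t : F, t ^ 2 + t + ζ ≠ 0) :
    Nat.card {p : F × F // Nf ζ p.1 p.2 = 1} = Fintype.card F + 1 := by
  classical
  rw [Nat.card_eq_fintype_card]
  have h1 := Fintype.card_congr (Equiv.sigmaFiberEquiv (fun p : F × F => Nf ζ p.1 p.2))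
  rw [Fintype.card_sigma, Fintype.card_prod] at h1
  have h0 : Fintype.card {p : F × F // Nf ζ p.1 p.2 = 0} = 1 := by
    rw [Fintype.card_eq_one_iff]
    refine ⟨⟨(0, 0), by simp [Nf]⟩, ?_⟩
    rintro ⟨⟨a, b⟩, h⟩
    obtain ⟨ha, hb⟩ := Nf_eq_zero ζ hζ a b h
    apply Subtype.ext
    simp [ha, hb]
  have hc : ∀ c ∈ (Finset.univ : Finset F).erase 0,
      Fintype.card {p : F × F // Nf ζ p.1 p.2 = c} = Fintype.card {p : F × F // Nf ζ p.1 p.2 = 1} := by
    intro c hc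
    have hc0 : c ≠ 0 := Finset.ne_of_mem_erase hc
    obtain ⟨s, hs⟩ := exists_sqrt c
    have hs0 : s ≠ 0 := by
      rintro rfl
      apply hc0
      rw [← hs]
      simp
    refine Fintype.card_congr
      { toFun := fun p => ⟨(s⁻¹ * p.1.1, s⁻¹ * p.1.2), ?_⟩
        invFun := fun p => ⟨(s * p.1.1, s * p.1.2), ?_⟩
        left_inv := ?_
        right_inv := ?_ }
    · show Nf ζ (s⁻¹ * p.1.1) (s⁻¹ * p.1.2) = 1
      rw [Nf_smul, p.2, ← hs]
      field_simp
    · show Nf ζ (s * p.1.1) (s * p.1.2) = c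
      rw [Nf_smul, p.2, hs, mul_one]
    · rintro ⟨⟨a, b⟩, h⟩
      apply Subtype.ext
      simp [hs0]
    · rintro ⟨⟨a, b⟩, h⟩
      apply Subtype.ext
      simp [hs0]
  rw [← Finset.add_sum_erase _ _ (Finset.mem_univ (0 : F)), h0, Finset.sum_congr rfl hc,
    Finset.sum_const, Finset.card_erase_of_mem (Finset.mem_univ _), Finset.card_univ,
    smul_eq_mul] at h1
  have hq : 2 ≤ Fintype.card F := Fintype.one_lt_card
  obtain ⟨q, hq'⟩ : ∃ q, Fintype.card F = q + 1 := ⟨Fintype.card F - 1, by omega⟩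
  rw [hq'] at h1 ⊢
  rw [Nat.add_sub_cancel] at h1
  have hq1 : 1 ≤ q := by omega
  have h2 : q * Fintype.card {p : F × F // Nf ζ p.1 p.2 = 1} = q * (q + 2) := by
    have : (q + 1) * (q + 1) = 1 + q * (q + 2) := by ring
    omega
  exact Nat.eq_of_mul_eq_mul_left (by omega) h2

theorem card_Asub [Fintype F] [CharP F 2] (ζ : F) (hζ : ∀ t : F, t ^ 2 + t + ζ ≠ 0) :
    Nat.card (Asub ζ) = Fintype.card F + 1 := by
  rw [Nat.card_congr (AsubEquiv ζ), card_norm ζ hζ]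

theorem Asub_cyclic [Fintype F] [CharP F 2] (ζ : F) (hζ : ∀ t : F, t ^ 2 + t + ζ ≠ 0) :
    IsCyclic (Asub ζ) := by
  classical
  let K := AlgebraicClosure F
  have h2K : (2 : K) = 0 := by
    have h := congrArg (algebraMap F K) (CharTwo.two_eq_zero (R := F))
    rw [map_ofNat, map_zero] at h
    exact h
  obtain ⟨θ, hθ⟩ : ∃ θ : K, θ ^ 2 + θ + algebraMap F K ζ = 0 := by
    have hdeg : (Polynomial.C (1 : K) * Polynomial.X ^ 2 + Polynomial.C (1 : K) * Polynomial.X +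
        Polynomial.C (algebraMap F K ζ)).degree ≠ 0 := by
      rw [Polynomial.degree_quadratic one_ne_zero]
      decide
    obtain ⟨θ, hθ⟩ := IsAlgClosed.exists_root _ hdeg
    refine ⟨θ, ?_⟩
    simpa [Polynomial.IsRoot] using hθ
  let φ : Asub ζ →* K :=
    { toFun := fun M => algebraMap F K (M.1 0 0) + algebraMap F K (M.1 1 0) * θ
      map_one' := by
        show algebraMap F K ((1 : SL2' F) 0 0) + algebraMap F K ((1 : SL2' F) 1 0) * θ = 1
        simp
      map_mul' := by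
        rintro ⟨M, h1, h2⟩ ⟨M', h1', h2'⟩
        show algebraMap F K ((M * M') 0 0) + algebraMap F K ((M * M') 1 0) * θ =
          (algebraMap F K (M 0 0) + algebraMap F K (M 1 0) * θ) *
            (algebraMap F K (M' 0 0) + algebraMap F K (M' 1 0) * θ)
        rw [Matrix.SpecialLinearGroup.coe_mul]
        simp only [Matrix.mul_apply, Fin.sum_univ_two, h1, h2, map_add, map_mul]
        linear_combination (-(algebraMap F K (M 1 0) * algebraMap F K (M' 1 0))) * hθ +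
          (algebraMap F K (M 1 0) * algebraMap F K (M' 1 0) * (θ + algebraMap F K ζ)) * h2K }
  have hφ : Function.Injective φ := by
    rintro ⟨M, hM⟩ ⟨M', hM'⟩ h
    have h' : algebraMap F K (M 0 0) + algebraMap F K (M 1 0) * θ =
        algebraMap F K (M' 0 0) + algebraMap F K (M' 1 0) * θ := h
    have hb : M 1 0 = M' 1 0 := by
      by_contra hb
      have hb' : M 1 0 - M' 1 0 ≠ 0 := sub_ne_zero.2 hb
      have hθ' : θ = algebraMap F K ((M' 0 0 - M 0 0) / (M 1 0 - M' 1 0)) := by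
        rw [map_div₀, eq_div_iff ((map_ne_zero (algebraMap F K)).2 hb')]
        simp only [map_sub]
        linear_combination h'
      apply hζ ((M' 0 0 - M 0 0) / (M 1 0 - M' 1 0))
      apply (algebraMap F K).injective
      rw [map_add, map_add, map_pow, ← hθ', map_zero]
      exact hθ
    have ha : M 0 0 = M' 0 0 := by
      apply (algebraMap F K).injective
      rw [hb] at h'
      linear_combination h'
    apply Subtype.ext
    show M = M'
    rw [eq_mA ζ M hM, eq_mA ζ M' hM']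
    apply Subtype.ext
    rw [mA_coe, mA_coe, ha, hb]
  exact isCyclic_of_injective_ringHom φ hφ

theorem mk_inj [CharP F 2] :
    Function.Injective (QuotientGroup.mk' (Subgroup.center (SL2' F))) := by
  intro M M' h
  have h' : (QuotientGroup.mk M : PSL2' F) = QuotientGroup.mk M' := h
  rw [mk_eq_iff] at h'
  obtain ⟨r, hr, h3⟩ := h'
  have hr1 : r = 1 := by
    have h4 : (r + 1) ^ 2 = 0 := by
      have h5 := CharTwo.add_self_eq_zero (r + 1)
      linear_combination hr + h5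
    have h6 : r + 1 = 0 := by simpa using h4
    have h7 := CharTwo.add_self_eq_zero (1 : F)
    linear_combination h6 - h7
  rw [hr1, one_smul] at h3
  exact Subtype.ext h3.symm

theorem eq_uu (M : SL2' F) (h0 : M 0 0 = 1) (h1 : M 1 0 = 0) : M = uu (M 0 1) := by
  have hd := det_eq M
  rw [h0, h1] at hd
  have h11 : M 1 1 = 1 := by linear_combination hd
  apply Subtype.ext
  rw [uu_coe]
  ext i j
  fin_cases i <;> fin_cases j <;> simp [h0, h1, h11]

theorem aba_vec [Fintype F] [CharP F 2] (ζ : F) (hζ : ∀ t : F, t ^ 2 + t + ζ ≠ 0) (g : SL2' F) :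
    ∃ x y : F, Nf ζ x y = 1 ∧ Nf ζ (g 0 0 * x + g 0 1 * y) (g 1 0 * x + g 1 1 * y) = 1 := by
  have hd := det_eq g
  obtain ⟨α, hα⟩ := exists_sqrt (Nf ζ (g 0 0) (g 1 0) + 1)
  obtain ⟨β, hβ⟩ := exists_sqrt (Nf ζ (g 0 1) (g 1 1) + ζ)
  have key : ∀ x y : F, Nf ζ (g 0 0 * x + g 0 1 * y) (g 1 0 * x + g 1 1 * y) =
      Nf ζ x y + (α * x + β * y) ^ 2 := by
    intro x y
    have e1 := CharTwo.add_self_eq_zero (x ^ 2)
    have e2 := CharTwo.add_self_eq_zero (x * y)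
    have e3 := CharTwo.add_self_eq_zero (y ^ 2)
    have e4 : (α * x + β * y) ^ 2 = α ^ 2 * x ^ 2 + β ^ 2 * y ^ 2 := by
      linear_combination (α * β) * e2
    rw [e4, hα, hβ]
    unfold Nf
    linear_combination (x * y) * hd - e1 +
      (g 0 1 * g 1 0 + g 0 0 * g 0 1 + ζ * g 1 0 * g 1 1) * e2 - ζ * e3
  obtain ⟨x₀, y₀, hne, h0⟩ : ∃ x₀ y₀ : F, ¬ (x₀ = 0 ∧ y₀ = 0) ∧ α * x₀ + β * y₀ = 0 := by
    by_cases hαβ : α = 0 ∧ β = 0
    · exact ⟨1, 0, by simp, by rw [hαβ.1, hαβ.2]; ring⟩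
    · refine ⟨β, α, fun h => hαβ ⟨h.2, h.1⟩, ?_⟩
      have := CharTwo.add_self_eq_zero (α * β)
      linear_combination this
  have hN : Nf ζ x₀ y₀ ≠ 0 := fun h => hne (Nf_eq_zero ζ hζ x₀ y₀ h)
  obtain ⟨s, hs⟩ := exists_sqrt (Nf ζ x₀ y₀)
  have hs0 : s ≠ 0 := by
    rintro rfl
    apply hN
    rw [← hs]
    simp
  have h1 : Nf ζ (s⁻¹ * x₀) (s⁻¹ * y₀) = 1 := by
    rw [Nf_smul, ← hs]
    field_simp
  refine ⟨s⁻¹ * x₀, s⁻¹ * y₀, h1, ?_⟩
  rw [key, h1]
  have h2 : α * (s⁻¹ * x₀) + β * (s⁻¹ * y₀) = 0 := by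
    linear_combination s⁻¹ * h0
  rw [h2]
  ring

theorem aba_SL [Fintype F] [CharP F 2] (ζ : F) (hζ : ∀ t : F, t ^ 2 + t + ζ ≠ 0) (g : SL2' F) :
    ∃ a ∈ Asub ζ, ∃ t : F, ∃ c ∈ Asub ζ, g = a * uu t * c := by
  obtain ⟨x, y, hxy, hg⟩ := aba_vec ζ hζ g
  obtain ⟨X, hX⟩ : ∃ X, X = g 0 0 * x + g 0 1 * y := ⟨_, rfl⟩
  obtain ⟨Y, hY⟩ : ∃ Y, Y = g 1 0 * x + g 1 1 * y := ⟨_, rfl⟩
  rw [← hX, ← hY] at hg
  have hb0 : ((mA ζ X Y hg)⁻¹ * g * mA ζ x y hxy : SL2' F) 0 0 = 1 := by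
    rw [Matrix.SpecialLinearGroup.coe_mul, Matrix.SpecialLinearGroup.coe_mul,
      Matrix.SpecialLinearGroup.coe_inv, Matrix.adjugate_fin_two, mA_coe, mA_coe]
    simp only [Matrix.mul_apply, Fin.sum_univ_two, Matrix.of_apply, Matrix.cons_val',
      Matrix.cons_val_zero, Matrix.cons_val_one, Matrix.empty_val', Matrix.cons_val_fin_one]
    have e := CharTwo.add_self_eq_zero (ζ * Y ^ 2)
    have hg' := hg
    unfold Nf at hg'
    linear_combination hg' - e - (X + Y) * hX + (ζ * Y) * hY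
  have hb1 : ((mA ζ X Y hg)⁻¹ * g * mA ζ x y hxy : SL2' F) 1 0 = 0 := by
    rw [Matrix.SpecialLinearGroup.coe_mul, Matrix.SpecialLinearGroup.coe_mul,
      Matrix.SpecialLinearGroup.coe_inv, Matrix.adjugate_fin_two, mA_coe, mA_coe]
    simp only [Matrix.mul_apply, Fin.sum_univ_two, Matrix.of_apply, Matrix.cons_val',
      Matrix.cons_val_zero, Matrix.cons_val_one, Matrix.empty_val', Matrix.cons_val_fin_one]
    linear_combination Y * hX - X * hY
  have hb := eq_uu _ hb0 hb1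
  refine ⟨mA ζ X Y hg, mA_mem ζ _ _ _, ((mA ζ X Y hg)⁻¹ * g * mA ζ x y hxy : SL2' F) 0 1,
    (mA ζ x y hxy)⁻¹, (Asub ζ).inv_mem (mA_mem ζ _ _ _), ?_⟩
  rw [← hb]
  group

theorem main_aba [Fintype F] (h2 : 2 ∣ Fintype.card F) :
    ∃ A B : Subgroup (PSL2' F),
      IsCyclic A ∧ Nat.card A = Fintype.card F + 1 ∧ IsMulCommutative B ∧ (∀ b ∈ B, b * b = 1) ∧
        Nat.card B = Fintype.card F ∧
        ∀ g : PSL2' F, ∃ a ∈ A, ∃ b ∈ B, ∃ c ∈ A, g = a * b * c := by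
  have hc : CharP F 2 := char_two_of_dvd h2
  obtain ⟨ζ, hζ⟩ := exists_zeta (F := F)
  have hcyc : IsCyclic (Asub ζ) := Asub_cyclic ζ hζ
  refine ⟨(Asub ζ).map (QuotientGroup.mk' (Subgroup.center (SL2' F))), Usub F, ?_, ?_, ?_, ?_,
    card_Usub, ?_⟩
  · exact isCyclic_of_surjective _
      (MonoidHom.subgroupMap_surjective (QuotientGroup.mk' (Subgroup.center (SL2' F))) (Asub ζ))
  · rw [← Nat.card_congr ((Asub ζ).equivMapOfInjective _ mk_inj).toEquiv, card_Asub ζ hζ]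
  · refine ⟨⟨?_⟩⟩
    rintro ⟨_, x, rfl⟩ ⟨_, y, rfl⟩
    apply Subtype.ext
    show (QuotientGroup.mk (uu x) : PSL2' F) * QuotientGroup.mk (uu y) =
      QuotientGroup.mk (uu y) * QuotientGroup.mk (uu x)
    rw [← QuotientGroup.mk_mul, ← QuotientGroup.mk_mul, ← uu_add, ← uu_add, add_comm]
  · rintro _ ⟨x, rfl⟩
    rw [← QuotientGroup.mk_mul, ← uu_add, CharTwo.add_self_eq_zero, uu_zero]
    rfl
  · intro g
    obtain ⟨M, rfl⟩ := QuotientGroup.mk_surjective g
    obtain ⟨a, ha, t, c, hc', hM⟩ := aba_SL ζ hζ M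
    refine ⟨QuotientGroup.mk a, ⟨a, ha, rfl⟩, QuotientGroup.mk (uu t), ⟨t, rfl⟩,
      QuotientGroup.mk c, ⟨c, hc', rfl⟩, ?_⟩
    rw [hM]
    rfl

end Helpers

/-- Let F be a finite field with q = 2^t ≥ 4 elements and L = PSL(2,F). Then L has a cyclic subgroup A of order q + 1 and an elementary abelian 2-subgroup B of order q such that L = ABA: every element of L is a product a·b·a' with a, a' ∈ A and b ∈ B. -/
theorem result {F : Type*} [Field F] [Fintype F]
    (h2 : 2 ∣ Fintype.card F) (h4 : 4 ≤ Fintype.card F) :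
    ∃ A B : Subgroup (Matrix.ProjectiveSpecialLinearGroup (Fin 2) F),
      IsCyclic A ∧ Nat.card A = Fintype.card F + 1 ∧ IsMulCommutative B ∧ (∀ b ∈ B, b * b = 1) ∧
        Nat.card B = Fintype.card F ∧
        ∀ g : Matrix.ProjectiveSpecialLinearGroup (Fin 2) F, ∃ a ∈ A, ∃ b ∈ B, ∃ c ∈ A, g = a * b * c := by
  exact main_aba h2

end Cfsg.Agent.S2503
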