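import Cfsg.Statements.S2504
import Mathlib
import Cfsg.Agent.Lib.helper13.AbAlt

set_option autoImplicit false
open Cfsg

open Cfsg.Agent.Lib.helper13

namespace Cfsg.Agent.S2504

/-- The largest order of an abelian subgroup of the alternating group of degree n is 3^k when n = 3k, 4·3^(k−1) when n = 3k + 1, and 16·3^(k−2) when n = 3k + 2, for every k ≥ 2 (so for all degrees n ≥ 6). -/
theorem result (k : ℕ) (hk : 2 ≤ k) :
    IsGreatest {c : ℕ | ∃ A : Subgroup (alternatingGroup (Fin (3 * k))), IsMulCommutative A ∧ Nat.card A = c} (3 ^ k) ∧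
    IsGreatest {c : ℕ | ∃ A : Subgroup (alternatingGroup (Fin (3 * k + 1))), IsMulCommutative A ∧ Nat.card A = c}
      (4 * 3 ^ (k - 1)) ∧
    IsGreatest {c : ℕ | ∃ A : Subgroup (alternatingGroup (Fin (3 * k + 2))), IsMulCommutative A ∧ Nat.card A = c}
      (16 * 3 ^ (k - 2)) := by
  have e0 : HasAbE (3 * k) (3 ^ k) := hasAbE_three_mul k (by omega)
  have e1 : HasAbE (3 * k + 1) (4 * 3 ^ (k - 1)) := by
    obtain ⟨j, rfl⟩ : ∃ j, k = j + 1 := ⟨k - 1, by omega⟩
    have h := hasAbE_add (hasAbE_three_mul j (by omega)) hasAbE_four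
    have a1 : 3 * j + 4 = 3 * (j + 1) + 1 := by ring
    have a2 : 3 ^ j * 4 = 4 * 3 ^ (j + 1 - 1) := by
      simp only [Nat.add_sub_cancel]; ring
    rw [a1, a2] at h
    exact h
  have e2 : HasAbE (3 * k + 2) (16 * 3 ^ (k - 2)) := by
    obtain ⟨j, rfl⟩ : ∃ j, k = j + 2 := ⟨k - 2, by omega⟩
    have h44 : HasAbE (4 + 4) (4 * 4) := hasAbE_add hasAbE_four hasAbE_four
    rcases j with _ | j
    · exact h44
    · have h := hasAbE_add (hasAbE_three_mul (j + 1) (by omega)) h44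
      have a1 : 3 * (j + 1) + (4 + 4) = 3 * (j + 1 + 2) + 2 := by ring
      have a2 : 3 ^ (j + 1) * (4 * 4) = 16 * 3 ^ (j + 1 + 2 - 2) := by
        simp only [Nat.add_sub_cancel]; ring
      rw [a1, a2] at h
      exact h
  refine ⟨⟨hasAbE_sub e0, ?_⟩, ⟨hasAbE_sub e1, ?_⟩, ⟨hasAbE_sub e2, ?_⟩⟩
  · rintro c ⟨A, hA, rfl⟩
    rw [← fS_three_mul k (by omega)]
    exact (alt_sub_bounds A hA).1
  · rintro c ⟨A, hA, rfl⟩
    rw [← fS_three_mul_add_one k (by omega)]
    exact (alt_sub_bounds A hA).1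
  · rintro c ⟨A, hA, rfl⟩
    rw [← fA_three_mul_add_two k hk]
    exact (alt_sub_bounds A hA).2

end Cfsg.Agent.S2504
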