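import Cfsg.Statements.S2505
import Mathlib
import Cfsg.Agent.Lib.helper13.AbPerm

set_option autoImplicit false
open Cfsg

open Cfsg.Agent.Lib.helper13

namespace Cfsg.Agent.S2505

/-- The largest order of an abelian subgroup of the symmetric group of degree n is 3^k when n = 3k, 4·3^(k−1) when n = 3k + 1, and 2·3^k when n = 3k + 2, for every k ≥ 1. -/
theorem result (k : ℕ) (hk : 1 ≤ k) :
    IsGreatest {c : ℕ | ∃ A : Subgroup (Equiv.Perm (Fin (3 * k))), IsMulCommutative A ∧ Nat.card A = c} (3 ^ k) ∧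
    IsGreatest {c : ℕ | ∃ A : Subgroup (Equiv.Perm (Fin (3 * k + 1))), IsMulCommutative A ∧ Nat.card A = c}
      (4 * 3 ^ (k - 1)) ∧
    IsGreatest {c : ℕ | ∃ A : Subgroup (Equiv.Perm (Fin (3 * k + 2))), IsMulCommutative A ∧ Nat.card A = c}
      (2 * 3 ^ k) := by
  have e0 : HasAb (3 * k) (3 ^ k) := hasAb_three_mul k hk
  have e1 : HasAb (3 * k + 1) (4 * 3 ^ (k - 1)) := by
    rcases k with _ | _ | k
    · omega
    · exact hasAb_cyclic 4 (by norm_num)
    · have h := hasAb_add (hasAb_three_mul (k + 1) (by omega)) (hasAb_cyclic 4 (by norm_num))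
      have a1 : 3 * (k + 1) + 4 = 3 * (k + 1 + 1) + 1 := by ring
      have a2 : 3 ^ (k + 1) * 4 = 4 * 3 ^ (k + 1 + 1 - 1) := by
        simp only [Nat.add_sub_cancel]; ring
      rw [a1, a2] at h
      exact h
  have e2 : HasAb (3 * k + 2) (2 * 3 ^ k) := by
    have h := hasAb_add e0 (hasAb_cyclic 2 (by norm_num))
    rw [mul_comm (3 ^ k) 2] at h
    exact h
  refine ⟨⟨e0, ?_⟩, ⟨e1, ?_⟩, ⟨e2, ?_⟩⟩
  · rintro c ⟨A, hA, rfl⟩
    rw [← fS_three_mul k hk]
    exact ab_bound_fS _ A hA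
  · rintro c ⟨A, hA, rfl⟩
    rw [← fS_three_mul_add_one k hk]
    exact ab_bound_fS _ A hA
  · rintro c ⟨A, hA, rfl⟩
    rw [← fS_three_mul_add_two k]
    exact ab_bound_fS _ A hA

end Cfsg.Agent.S2505
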