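import Cfsg.Statements.S2507
import Cfsg.Agent.Lib.helper12.PSL2Cls
-- import your own Cfsg.Agent.* helpers here

set_option autoImplicit false
open Cfsg

namespace Cfsg.Agent.S2507

open Cfsg.Agent.Lib.helper12

/-- Let F be a finite field with q = 2^f ≥ 4 elements. The conjugacy class sizes of PSL(2,F) are exactly 1, q(q − 1), q² − 1 and q(q + 1). -/
theorem result {F : Type*} [Field F] [Fintype F]
    (h2 : 2 ∣ Fintype.card F) (h4 : 4 ≤ Fintype.card F) :
    Set.range (fun g : (Matrix.ProjectiveSpecialLinearGroup (Fin 2) F) => (Subgroup.centralizer ({g} : Set (Matrix.ProjectiveSpecialLinearGroup (Fin 2) F))).index) =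
      {1, Fintype.card F * (Fintype.card F - 1), Fintype.card F ^ 2 - 1, Fintype.card F * (Fintype.card F + 1)} := by
  classical
  have hF : ringChar F = 2 := FiniteField.even_card_iff_char_two.mpr (Nat.mod_eq_zero_of_dvd h2)
  have h2F : (2 : F) = 0 := by
    have := ringChar.Nat.cast_ringChar (R := F)
    rw [hF] at this
    exact_mod_cast this
  obtain ⟨k, hk⟩ : ∃ k, Fintype.card F = k + 1 := ⟨Fintype.card F - 1, by omega⟩
  have hfac : Fintype.card F ^ 2 - 1 = k * (k + 2) := by
    rw [hk]
    have : (k + 1) ^ 2 = k * (k + 2) + 1 := by ring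
    omega
  have hidx : ∀ (g : Matrix.SpecialLinearGroup (Fin 2) F) (c n : ℕ),
      Nat.card (Subgroup.centralizer ({g} : Set (Matrix.SpecialLinearGroup (Fin 2) F))) = c →
      0 < c → n * c = Fintype.card F * (Fintype.card F ^ 2 - 1) →
      (Subgroup.centralizer ({(QuotientGroup.mk g : Matrix.ProjectiveSpecialLinearGroup (Fin 2) F)} :
        Set (Matrix.ProjectiveSpecialLinearGroup (Fin 2) F))).index = n := by
    intro g c n hc hc0 hn
    rw [PSL2_index_centralizer_char_two h2F]
    exact SL2_index_centralizer_of_card g c n hc hc0 hn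
  ext n
  simp only [Set.mem_range, Set.mem_insert_iff, Set.mem_singleton_iff]
  constructor
  · rintro ⟨x, rfl⟩
    obtain ⟨g, rfl⟩ := QuotientGroup.mk_surjective x
    by_cases hs : ∃ a : F, (g : Matrix (Fin 2) (Fin 2) F) = a • (1 : Matrix (Fin 2) (Fin 2) F)
    · left
      have h1 : (QuotientGroup.mk g : Matrix.ProjectiveSpecialLinearGroup (Fin 2) F) = 1 :=
        (PSL2_mk_eq_one_iff g).mpr hs
      rw [h1]
      exact PSL2_index_centralizer_one
    · rcases SL2_trichotomy g with h | ⟨a, ha, htr⟩ | h
      · right; right; left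
        exact hidx g _ _ (card_centralizer_of_unip_char_two h2F g hs h) (by omega) (by rw [mul_comm])
      · right; right; right
        refine hidx g _ _ (card_centralizer_of_split g a ha htr) (by omega) ?_
        rw [hfac, hk]
        simp only [Nat.add_sub_cancel]
        ring
      · right; left
        refine hidx g _ _ (card_centralizer_of_elliptic g h) (by omega) ?_
        rw [hfac, hk]
        simp only [Nat.add_sub_cancel]
        ring
  · rintro (rfl | rfl | rfl | rfl)
    · exact ⟨1, PSL2_index_centralizer_one⟩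
    · obtain ⟨s, -, hell⟩ := exists_elliptic_orderOf (F := F)
      refine ⟨QuotientGroup.mk s, hidx s _ _ (card_centralizer_of_elliptic s hell) (by omega) ?_⟩
      rw [hfac, hk]
      simp only [Nat.add_sub_cancel]
      ring
    · refine ⟨QuotientGroup.mk (mkSL (1 : F) 1 0 1 (by ring)),
        hidx _ _ _ (card_centralizer_of_unip_char_two h2F _ mkSL_unip_not_scalar mkSL_unip_trace)
          (by omega) (by rw [mul_comm])⟩
    · obtain ⟨a, ha⟩ := exists_unit_pow_ne_one (F := F)
      have ha2 : (a : F) ^ 2 ≠ 1 := ha 2 (by norm_num) (by omega)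
      refine ⟨QuotientGroup.mk (diagSL a),
        hidx _ _ _ (card_centralizer_of_split (diagSL a) a ha2 (diagSL_trace a)) (by omega) ?_⟩
      rw [hfac, hk]
      simp only [Nat.add_sub_cancel]
      ring

end Cfsg.Agent.S2507
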