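import Cfsg.Statements.S2508
import Cfsg.Agent.Lib.helper12.PSL2Cls
-- import your own Cfsg.Agent.* helpers here

set_option autoImplicit false
open Cfsg

namespace Cfsg.Agent.S2508

open Cfsg.Agent.Lib.helper12

/-- Let F be a finite field with q elements, q odd and q ≥ 7. If q ≡ 1 (mod 4) the conjugacy class sizes of PSL(2,F) are exactly 1, (q² − 1)/2, q(q + 1)/2, q(q − 1) and q(q + 1); if q ≡ 3 (mod 4) they are exactly 1, (q² − 1)/2, q(q − 1)/2, q(q + 1) and q(q − 1). -/
theorem result {F : Type*} [Field F] [Fintype F]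
    (hodd : ¬ 2 ∣ Fintype.card F) (h7 : 7 ≤ Fintype.card F) :
    (Fintype.card F % 4 = 1 →
      Set.range (fun g : (Matrix.ProjectiveSpecialLinearGroup (Fin 2) F) => (Subgroup.centralizer ({g} : Set (Matrix.ProjectiveSpecialLinearGroup (Fin 2) F))).index) =
        {1, (Fintype.card F ^ 2 - 1) / 2, Fintype.card F * (Fintype.card F + 1) / 2,
          Fintype.card F * (Fintype.card F - 1), Fintype.card F * (Fintype.card F + 1)}) ∧
    (Fintype.card F % 4 = 3 →
      Set.range (fun g : (Matrix.ProjectiveSpecialLinearGroup (Fin 2) F) => (Subgroup.centralizer ({g} : Set (Matrix.ProjectiveSpecialLinearGroup (Fin 2) F))).index) =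
        {1, (Fintype.card F ^ 2 - 1) / 2, Fintype.card F * (Fintype.card F - 1) / 2,
          Fintype.card F * (Fintype.card F + 1), Fintype.card F * (Fintype.card F - 1)}) := by
  classical
  have hF : ringChar F ≠ 2 := by
    intro h
    exact hodd (Nat.dvd_of_mod_eq_zero (FiniteField.even_card_iff_char_two.mp h))
  have h2F : (2 : F) ≠ 0 := Ring.two_ne_zero hF
  obtain ⟨k, hk⟩ : ∃ k, Fintype.card F = 2 * k + 1 := ⟨Fintype.card F / 2, by omega⟩
  have hfac : Fintype.card F ^ 2 - 1 = 2 * (k * (2 * k + 2)) := by
    rw [hk]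
    have : (2 * k + 1) ^ 2 = 2 * (k * (2 * k + 2)) + 1 := by ring
    omega
  have hhalf : (Fintype.card F ^ 2 - 1) / 2 = k * (2 * k + 2) := by
    rw [hfac, Nat.mul_div_cancel_left _ (by norm_num)]
  have hidxNZ : ∀ (g : Matrix.SpecialLinearGroup (Fin 2) F) (c n : ℕ),
      Nat.card (Subgroup.centralizer ({g} : Set (Matrix.SpecialLinearGroup (Fin 2) F))) = c →
      0 < c → n * c = Fintype.card F * (Fintype.card F ^ 2 - 1) →
      (g : Matrix (Fin 2) (Fin 2) F).trace ≠ 0 →
      (Subgroup.centralizer ({(QuotientGroup.mk g : Matrix.ProjectiveSpecialLinearGroup (Fin 2) F)} :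
        Set (Matrix.ProjectiveSpecialLinearGroup (Fin 2) F))).index = n := by
    intro g c n hc hc0 hn htr
    rw [PSL2_index_centralizer_of_trace_ne_zero h2F g htr]
    exact SL2_index_centralizer_of_card g c n hc hc0 hn
  have hidxZ : ∀ (g : Matrix.SpecialLinearGroup (Fin 2) F) (c n : ℕ),
      Nat.card (Subgroup.centralizer ({g} : Set (Matrix.SpecialLinearGroup (Fin 2) F))) = c →
      0 < c → n * c = Fintype.card F * (Fintype.card F ^ 2 - 1) →
      (g : Matrix (Fin 2) (Fin 2) F).trace = 0 →
      (Subgroup.centralizer ({(QuotientGroup.mk g : Matrix.ProjectiveSpecialLinearGroup (Fin 2) F)} :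
        Set (Matrix.ProjectiveSpecialLinearGroup (Fin 2) F))).index = n / 2 := by
    intro g c n hc hc0 hn htr
    have h1 := PSL2_index_centralizer_of_trace_eq_zero h2F g htr
    rw [SL2_index_centralizer_of_card g c n hc hc0 hn] at h1
    omega
  have hsplitN : Fintype.card F * (Fintype.card F + 1) * (Fintype.card F - 1) =
      Fintype.card F * (Fintype.card F ^ 2 - 1) := by
    rw [hfac, hk]
    simp only [Nat.add_sub_cancel]
    ring
  have hellN : Fintype.card F * (Fintype.card F - 1) * (Fintype.card F + 1) =
      Fintype.card F * (Fintype.card F ^ 2 - 1) := by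
    rw [hfac, hk]
    simp only [Nat.add_sub_cancel]
    ring
  have hunipN : (Fintype.card F ^ 2 - 1) / 2 * (2 * Fintype.card F) =
      Fintype.card F * (Fintype.card F ^ 2 - 1) := by
    rw [hhalf, hfac]
    ring
  -- classification of the class sizes
  have hcls : ∀ g : Matrix.SpecialLinearGroup (Fin 2) F,
      (Subgroup.centralizer ({(QuotientGroup.mk g : Matrix.ProjectiveSpecialLinearGroup (Fin 2) F)} :
        Set (Matrix.ProjectiveSpecialLinearGroup (Fin 2) F))).index = 1 ∨
      (Subgroup.centralizer ({(QuotientGroup.mk g : Matrix.ProjectiveSpecialLinearGroup (Fin 2) F)} :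
        Set (Matrix.ProjectiveSpecialLinearGroup (Fin 2) F))).index = (Fintype.card F ^ 2 - 1) / 2 ∨
      (IsSquare (-1 : F) ∧
        (Subgroup.centralizer ({(QuotientGroup.mk g : Matrix.ProjectiveSpecialLinearGroup (Fin 2) F)} :
        Set (Matrix.ProjectiveSpecialLinearGroup (Fin 2) F))).index =
          Fintype.card F * (Fintype.card F + 1) / 2) ∨
      (Subgroup.centralizer ({(QuotientGroup.mk g : Matrix.ProjectiveSpecialLinearGroup (Fin 2) F)} :
        Set (Matrix.ProjectiveSpecialLinearGroup (Fin 2) F))).index =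
          Fintype.card F * (Fintype.card F + 1) ∨
      (¬ IsSquare (-1 : F) ∧
        (Subgroup.centralizer ({(QuotientGroup.mk g : Matrix.ProjectiveSpecialLinearGroup (Fin 2) F)} :
        Set (Matrix.ProjectiveSpecialLinearGroup (Fin 2) F))).index =
          Fintype.card F * (Fintype.card F - 1) / 2) ∨
      (Subgroup.centralizer ({(QuotientGroup.mk g : Matrix.ProjectiveSpecialLinearGroup (Fin 2) F)} :
        Set (Matrix.ProjectiveSpecialLinearGroup (Fin 2) F))).index =
          Fintype.card F * (Fintype.card F - 1) := by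
    intro g
    by_cases hs : ∃ a : F, (g : Matrix (Fin 2) (Fin 2) F) = a • (1 : Matrix (Fin 2) (Fin 2) F)
    · left
      have h1 : (QuotientGroup.mk g : Matrix.ProjectiveSpecialLinearGroup (Fin 2) F) = 1 :=
        (PSL2_mk_eq_one_iff g).mpr hs
      rw [h1]
      exact PSL2_index_centralizer_one
    · rcases SL2_trichotomy g with h | ⟨a, ha, htr⟩ | h
      · right; left
        refine hidxNZ g _ _ (card_centralizer_of_unip_odd h2F g hs h) (by omega) hunipN ?_
        intro h0
        rw [h0] at h
        apply h2F
        have h4 : (2 : F) * 2 = 0 := by linear_combination -h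
        exact mul_self_eq_zero.mp h4
      · by_cases h0 : (g : Matrix (Fin 2) (Fin 2) F).trace = 0
        · right; right; left
          refine ⟨⟨(a : F), ?_⟩, hidxZ g _ _ (card_centralizer_of_split g a ha htr) (by omega) hsplitN h0⟩
          have ha0 : (a : F) ≠ 0 := a.ne_zero
          rw [h0] at htr
          field_simp at htr
          linear_combination htr
        · right; right; right; left
          exact hidxNZ g _ _ (card_centralizer_of_split g a ha htr) (by omega) hsplitN h0
      · by_cases h0 : (g : Matrix (Fin 2) (Fin 2) F).trace = 0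
        · right; right; right; right; left
          refine ⟨?_, hidxZ g _ _ (card_centralizer_of_elliptic g h) (by omega) hellN h0⟩
          rintro ⟨r, hr⟩
          apply h r
          rw [h0, zero_mul, add_zero, hr, sq]
        · right; right; right; right; right
          exact hidxNZ g _ _ (card_centralizer_of_elliptic g h) (by omega) hellN h0
  -- existence
  have hex1 : ∃ x : Matrix.ProjectiveSpecialLinearGroup (Fin 2) F,
      (Subgroup.centralizer ({x} : Set (Matrix.ProjectiveSpecialLinearGroup (Fin 2) F))).index = 1 :=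
    ⟨1, PSL2_index_centralizer_one⟩
  have hexU : ∃ x : Matrix.ProjectiveSpecialLinearGroup (Fin 2) F,
      (Subgroup.centralizer ({x} : Set (Matrix.ProjectiveSpecialLinearGroup (Fin 2) F))).index =
        (Fintype.card F ^ 2 - 1) / 2 := by
    refine ⟨QuotientGroup.mk (mkSL (1 : F) 1 0 1 (by ring)),
        hidxNZ _ _ _ (card_centralizer_of_unip_odd h2F _ mkSL_unip_not_scalar mkSL_unip_trace)
          (by omega) hunipN ?_⟩
    rw [mkSL_val, Matrix.trace_fin_two]
    simp
    intro h
    apply h2F
    linear_combination h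
  obtain ⟨a, ha⟩ := exists_unit_pow_ne_one (F := F)
  have ha2 : (a : F) ^ 2 ≠ 1 := ha 2 (by norm_num) (by omega)
  have ha4 : (a : F) ^ 4 ≠ 1 := ha 4 (by norm_num) (by omega)
  have ha0 : (a : F) ≠ 0 := a.ne_zero
  have hexS : ∃ x : Matrix.ProjectiveSpecialLinearGroup (Fin 2) F,
      (Subgroup.centralizer ({x} : Set (Matrix.ProjectiveSpecialLinearGroup (Fin 2) F))).index =
        Fintype.card F * (Fintype.card F + 1) := by
    refine ⟨QuotientGroup.mk (diagSL a),
        hidxNZ _ _ _ (card_centralizer_of_split (diagSL a) a ha2 (diagSL_trace a)) (by omega) hsplitN ?_⟩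
    rw [diagSL_trace]
    intro h
    apply ha4
    field_simp at h
    linear_combination ((a : F) ^ 2 - 1) * h
  obtain ⟨s, hsord, hell⟩ := exists_elliptic_orderOf (F := F)
  have hexE : ∃ x : Matrix.ProjectiveSpecialLinearGroup (Fin 2) F,
      (Subgroup.centralizer ({x} : Set (Matrix.ProjectiveSpecialLinearGroup (Fin 2) F))).index =
        Fintype.card F * (Fintype.card F - 1) := by
    refine ⟨QuotientGroup.mk s,
        hidxNZ _ _ _ (card_centralizer_of_elliptic s hell) (by omega) hellN ?_⟩
    intro h
    have h4 := orderOf_dvd_of_pow_eq_one (SL2_pow_four_of_trace_zero s h)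
    rw [hsord] at h4
    have := Nat.le_of_dvd (by norm_num) h4
    omega
  constructor
  · intro h1
    have hsq : IsSquare (-1 : F) := FiniteField.isSquare_neg_one_iff.mpr (by omega)
    ext n
    simp only [Set.mem_range, Set.mem_insert_iff, Set.mem_singleton_iff]
    constructor
    · rintro ⟨x, rfl⟩
      obtain ⟨g, rfl⟩ := QuotientGroup.mk_surjective x
      rcases hcls g with h | h | ⟨-, h⟩ | h | ⟨hns, -⟩ | h
      · exact Or.inl h
      · exact Or.inr (Or.inl h)
      · exact Or.inr (Or.inr (Or.inl h))
      · exact Or.inr (Or.inr (Or.inr (Or.inr h)))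
      · exact absurd hsq hns
      · exact Or.inr (Or.inr (Or.inr (Or.inl h)))
    · rintro (rfl | rfl | rfl | rfl | rfl)
      · exact hex1
      · exact hexU
      · obtain ⟨i, hi⟩ := hsq
        have hi0 : i ≠ 0 := by
          rintro rfl
          simp at hi
        have hi2 : ((Units.mk0 i hi0 : Fˣ) : F) ^ 2 ≠ 1 := by
          rw [Units.val_mk0, sq, ← hi]
          intro h
          apply h2F
          linear_combination -h
        refine ⟨QuotientGroup.mk (diagSL (Units.mk0 i hi0)),
          hidxZ _ _ _ (card_centralizer_of_split (diagSL (Units.mk0 i hi0)) _ hi2 (diagSL_trace _))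
            (by omega) hsplitN ?_⟩
        rw [diagSL_trace, Units.val_mk0]
        field_simp
        linear_combination -hi
      · exact hexE
      · exact hexS
  · intro h3
    have hns : ¬ IsSquare (-1 : F) := fun h => (FiniteField.isSquare_neg_one_iff.mp h) h3
    ext n
    simp only [Set.mem_range, Set.mem_insert_iff, Set.mem_singleton_iff]
    constructor
    · rintro ⟨x, rfl⟩
      obtain ⟨g, rfl⟩ := QuotientGroup.mk_surjective x
      rcases hcls g with h | h | ⟨hsq, -⟩ | h | ⟨-, h⟩ | h
      · exact Or.inl h
      · exact Or.inr (Or.inl h)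
      · exact absurd hsq hns
      · exact Or.inr (Or.inr (Or.inr (Or.inl h)))
      · exact Or.inr (Or.inr (Or.inl h))
      · exact Or.inr (Or.inr (Or.inr (Or.inr h)))
    · rintro (rfl | rfl | rfl | rfl | rfl)
      · exact hex1
      · exact hexU
      · have hw : ∀ r : F, r ^ 2 ≠ -1 +
            ((mkSL (0 : F) (-1) 1 0 (by ring) : Matrix.SpecialLinearGroup (Fin 2) F) :
              Matrix (Fin 2) (Fin 2) F).trace * r := by
          intro r hr
          apply hns
          refine ⟨r, ?_⟩
          rw [mkSL_val, Matrix.trace_fin_two] at hr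
          simp at hr
          rw [← sq, hr]
        refine ⟨QuotientGroup.mk (mkSL (0 : F) (-1) 1 0 (by ring)),
          hidxZ _ _ _ (card_centralizer_of_elliptic _ hw) (by omega) hellN ?_⟩
        rw [mkSL_val, Matrix.trace_fin_two]
        simp
      · exact hexS
      · exact hexE

end Cfsg.Agent.S2508
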