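import Cfsg.Statements.S2511
import Cfsg.Agent.Lib.helper10.PsuC
import Cfsg.Agent.Lib.helper10.PsuD

set_option autoImplicit false
open Cfsg

namespace Cfsg.Agent.S2511

open Cfsg.Agent.Lib.helper10.PsuAbs in
theorem rpp {K : Type*} [Field K] [Fintype K] {n q : ℕ} (hK : Fintype.card K = q ^ 2) (p : ℕ)
    [Fact p.Prime] [CharP K p] (hn : 2 ≤ n) (r : ℕ) (hr : r.Prime) (hrp : r ≠ p)
    (hrn : ¬ r ∣ n) (hrq : r ∣ q + 1) (ζ : K) (hζ : ζ ^ r = 1) (hζ1 : ζ ≠ 1)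
    (jm : ℕ) (hjm : jm = 0 ∨ p ^ (jm - 1) + 1 < n) :
    ∃ y : Cfsg.PSU n K q, orderOf y = r * p ^ jm := by
  obtain ⟨m', rfl⟩ : ∃ m', n = m' + 1 := ⟨n - 1, by omega⟩
  exact exists_r_pp_U hK p m' (by omega) r hr hrp hrn hrq ζ hζ hζ1 jm (by omega)

open Cfsg.Agent.Lib.helper10.PsuAbs in
theorem main {F : Type*} [Field F] [Fintype F] (p a n q r m : ℕ) (hp : p.Prime) (ha : 1 ≤ a)
    (hq : q = p ^ a) (hF : Fintype.card F = q ^ 2) (hn : 2 ≤ n) (hr : r.Prime)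
    (hrq : r ∣ q + 1) (hrn : ¬ r ∣ n) :
    Set.range (orderOf : Cfsg.PSU n F q × Cfsg.PSU n F q × Cfsg.PSU n F q × Multiplicative (Fin m → ZMod r) → ℕ) = Set.range (orderOf : Cfsg.PSU n F q × Cfsg.PSU n F q × Cfsg.PSU n F q → ℕ) ∧
    ((¬ ∃ j : ℕ, n - 1 = p ^ j) →
      Set.range (orderOf : Cfsg.PSU n F q × Cfsg.PSU n F q × Multiplicative (Fin m → ZMod r) → ℕ) = Set.range (orderOf : Cfsg.PSU n F q × Cfsg.PSU n F q → ℕ)) := by
  classical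
  haveI : Fact p.Prime := ⟨hp⟩
  haveI : Fact r.Prime := ⟨hr⟩
  -- characteristic
  obtain ⟨p', hp'c⟩ := CharP.exists F
  have hp'p : p'.Prime := CharP.char_is_prime F p'
  obtain ⟨k, -, hk⟩ := FiniteField.card F p'
  have hpd : p ∣ p' ^ (k : ℕ) := by
    rw [← hk, hF, hq]
    exact dvd_pow (dvd_pow_self p (by omega)) (by norm_num)
  have hpp' : p = p' := (Nat.prime_dvd_prime_iff_eq hp hp'p).1 (hp.dvd_of_dvd_pow hpd)
  subst hpp'
  have hq1 : 1 ≤ q := by rw [hq]; exact Nat.one_le_pow _ _ hp.pos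
  -- r ≠ p
  have hrp : r ≠ p := by
    intro h
    subst h
    have h1 : r ∣ q := by rw [hq]; exact dvd_pow_self r (by omega)
    exact hr.one_lt.ne' (Nat.dvd_one.1 ((Nat.dvd_add_right h1).1 hrq))
  -- a primitive r-th root of unity
  obtain ⟨ζu, hζu⟩ : ∃ x : Fˣ, orderOf x = r :=
    exists_prime_orderOf_dvd_card r (by
      rw [Fintype.card_units, hF, sq_sub_one_nat q hq1]
      exact hrq.trans (Dvd.intro _ rfl))
  obtain ⟨ζ, hζdef⟩ : ∃ ζ : F, ζ = (ζu : F) := ⟨_, rfl⟩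
  have hζ : ζ ^ r = 1 := by
    rw [hζdef, ← Units.val_pow_eq_pow_val, ← hζu, pow_orderOf_eq_one, Units.val_one]
  have hζ1 : ζ ≠ 1 := by
    intro h
    have h1 : ζu = 1 := Units.ext (by rw [← hζdef, h, Units.val_one])
    rw [h1, orderOf_one] at hζu
    exact hr.one_lt.ne hζu
  obtain ⟨NS, hNS⟩ : ∃ NS : ℕ, NS = NU q n := ⟨_, rfl⟩
  have hn0 : 0 < n := by omega
  -- Singer orders
  have hsing : ∀ ℓ : ℕ, ℓ ∣ NS → ∃ z : Cfsg.PSU n F q,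
      orderOf z = ℓ := by
    intro ℓ hℓ
    obtain ⟨ys, hys⟩ := exists_singer_U (n := n) hF p a hq hn
    rw [← hNS] at hys
    exact ⟨ys ^ (orderOf ys / ℓ), orderOf_pow_orderOf_div (orderOf_pos ys).ne' (hℓ.trans hys)⟩
  -- dichotomy
  have hdich : ∀ x : Cfsg.PSU n F q, ¬ r ∣ orderOf x →
      (∃ y : Cfsg.PSU n F q, orderOf y = Nat.lcm (orderOf x) r) ∨
      (∃ c j : ℕ, orderOf x = Nat.lcm c (p ^ j) ∧ c ∣ NS ∧
        ∃ u : Cfsg.PSU n F q, orderOf u = p ^ j) := by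
    intro x hx
    rcases dichotomy_U hF p a hq hn r hr hrn hrq ζ hζ hζ1 x hx with
      ⟨y, hy⟩ | ⟨c, j, hcj, hpc, hcN⟩
    · left
      refine ⟨y, ?_⟩
      rw [hy, Nat.Coprime.lcm_eq_mul (((Nat.Prime.coprime_iff_not_dvd hr).2 hx).symm), mul_comm]
    · right
      rw [← hNS] at hcN
      have hcop : Nat.Coprime c (p ^ j) :=
        Nat.Coprime.pow_right j ((Nat.Prime.coprime_iff_not_dvd hp).2 hpc).symm
      refine ⟨c, j, by rw [hcj, hcop.lcm_eq_mul], hcN, x ^ c, ?_⟩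
      have hc0 : c ≠ 0 := by
        intro h0
        have := orderOf_pos x
        rw [hcj, h0, zero_mul] at this
        exact lt_irrefl _ this
      rw [orderOf_pow_of_dvd hc0 (Dvd.intro _ hcj.symm), hcj, Nat.mul_div_cancel_left _ (Nat.pos_of_ne_zero hc0)]
  -- lcm of two p-power orders
  have hpp : ∀ (u v : Cfsg.PSU n F q) (i k : ℕ),
      orderOf u = p ^ i → orderOf v = p ^ k →
      ∃ (w : Cfsg.PSU n F q) (t : ℕ), orderOf w = p ^ t ∧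
        p ^ t = Nat.lcm (p ^ i) (p ^ k) := by
    intro u v i k hu hv
    rcases le_total i k with h | h
    · exact ⟨v, k, hv, Nat.dvd_antisymm (Nat.dvd_lcm_right _ _)
        (Nat.lcm_dvd (pow_dvd_pow p h) dvd_rfl)⟩
    · exact ⟨u, i, hu, Nat.dvd_antisymm (Nat.dvd_lcm_left _ _)
        (Nat.lcm_dvd dvd_rfl (pow_dvd_pow p h))⟩
  -- an element of order r
  obtain ⟨zr, hzr⟩ : ∃ zr : Cfsg.PSU n F q, orderOf zr = r := by
    obtain ⟨y, hy⟩ := rpp (n := n) hF p hn r hr hrp hrn hrq ζ hζ hζ1 0 (Or.inl rfl)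
    exact ⟨y, by rw [hy, pow_zero, mul_one]⟩
  have hlr : ∀ A : ℕ, r ∣ A → Nat.lcm A r = A := fun A h =>
    Nat.dvd_antisymm (Nat.lcm_dvd dvd_rfl h) (Nat.dvd_lcm_left _ _)
  -- three copies
  have C3 : ∀ x₁ x₂ x₃ : Cfsg.PSU n F q,
      ∃ y₁ y₂ y₃ : Cfsg.PSU n F q,
        Nat.lcm (orderOf y₁) (Nat.lcm (orderOf y₂) (orderOf y₃)) =
          Nat.lcm (Nat.lcm (orderOf x₁) (Nat.lcm (orderOf x₂) (orderOf x₃))) r := by
    intro x₁ x₂ x₃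
    by_cases h1 : r ∣ orderOf x₁
    · exact ⟨x₁, x₂, x₃, (hlr _ (h1.trans (Nat.dvd_lcm_left _ _))).symm⟩
    by_cases h2 : r ∣ orderOf x₂
    · exact ⟨x₁, x₂, x₃, (hlr _ (h2.trans ((Nat.dvd_lcm_left _ _).trans
        (Nat.dvd_lcm_right _ _)))).symm⟩
    by_cases h3 : r ∣ orderOf x₃
    · exact ⟨x₁, x₂, x₃, (hlr _ (h3.trans ((Nat.dvd_lcm_right _ _).trans
        (Nat.dvd_lcm_right _ _)))).symm⟩
    rcases hdich x₁ h1 with ⟨y, hy⟩ | ⟨c₁, j₁, e₁, d₁, u₁, hu₁⟩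
    · exact ⟨y, x₂, x₃, by rw [hy]; ac_rfl⟩
    rcases hdich x₂ h2 with ⟨y, hy⟩ | ⟨c₂, j₂, e₂, d₂, u₂, hu₂⟩
    · exact ⟨x₁, y, x₃, by rw [hy]; ac_rfl⟩
    rcases hdich x₃ h3 with ⟨y, hy⟩ | ⟨c₃, j₃, e₃, d₃, u₃, hu₃⟩
    · exact ⟨x₁, x₂, y, by rw [hy]; ac_rfl⟩
    obtain ⟨z₁, hz₁⟩ := hsing (Nat.lcm c₁ (Nat.lcm c₂ c₃)) (Nat.lcm_dvd d₁ (Nat.lcm_dvd d₂ d₃))
    obtain ⟨w, t, hw, ht⟩ := hpp u₂ u₃ j₂ j₃ hu₂ hu₃
    obtain ⟨w', t', hw', ht'⟩ := hpp u₁ w j₁ t hu₁ hw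
    refine ⟨z₁, w', zr, ?_⟩
    rw [hz₁, hw', hzr, ht', ht, e₁, e₂, e₃]
    ac_rfl
  -- two copies
  have C2 : (¬ ∃ j : ℕ, n - 1 = p ^ j) →
      ∀ x₁ x₂ : Cfsg.PSU n F q,
      ∃ y₁ y₂ : Cfsg.PSU n F q,
        Nat.lcm (orderOf y₁) (orderOf y₂) = Nat.lcm (Nat.lcm (orderOf x₁) (orderOf x₂)) r := by
    intro hnp x₁ x₂
    by_cases h1 : r ∣ orderOf x₁
    · exact ⟨x₁, x₂, (hlr _ (h1.trans (Nat.dvd_lcm_left _ _))).symm⟩
    by_cases h2 : r ∣ orderOf x₂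
    · exact ⟨x₁, x₂, (hlr _ (h2.trans (Nat.dvd_lcm_right _ _))).symm⟩
    rcases hdich x₁ h1 with ⟨y, hy⟩ | ⟨c₁, j₁, e₁, d₁, u₁, hu₁⟩
    · exact ⟨y, x₂, by rw [hy]; ac_rfl⟩
    rcases hdich x₂ h2 with ⟨y, hy⟩ | ⟨c₂, j₂, e₂, d₂, u₂, hu₂⟩
    · exact ⟨x₁, y, by rw [hy]; ac_rfl⟩
    obtain ⟨z₁, hz₁⟩ := hsing (Nat.lcm c₁ c₂) (Nat.lcm_dvd d₁ d₂)
    obtain ⟨w, t, hw, ht⟩ := hpp u₁ u₂ j₁ j₂ hu₁ hu₂
    have hbound : ∀ J : ℕ, n ≤ p ^ J → t ≤ J := fun J hJ => ppart_le_U hF p hn w t J hJ hw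
    have hcond : t = 0 ∨ p ^ (t - 1) + 1 < n := by
      by_cases ht0 : t = 0
      · exact Or.inl ht0
      · right
        have h3 : ¬ n ≤ p ^ (t - 1) := by
          intro h
          have := hbound _ h
          omega
        have h4 : n - 1 ≠ p ^ (t - 1) := fun h => hnp ⟨_, h⟩
        omega
    obtain ⟨y, hy⟩ := rpp (n := n) hF p hn r hr hrp hrn hrq ζ hζ hζ1 t hcond
    refine ⟨z₁, y, ?_⟩
    have hcop : Nat.Coprime r (p ^ t) :=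
      Nat.Coprime.pow_right t ((Nat.coprime_primes hr hp).2 hrp)
    rw [hz₁, hy, ← hcop.lcm_eq_mul, ht, e₁, e₂]
    ac_rfl
  -- orders in products
  have hv : ∀ v : Multiplicative (Fin m → ZMod r), orderOf v = 1 ∨ orderOf v = r := by
    intro v
    have h1 : v ^ r = 1 := by
      apply Multiplicative.toAdd.injective
      rw [toAdd_pow, toAdd_one]
      ext i
      simp
    exact (Nat.dvd_prime hr).1 (orderOf_dvd_of_pow_eq_one h1)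
  constructor
  · ext k
    constructor
    · rintro ⟨⟨x₁, x₂, x₃, v⟩, rfl⟩
      rcases hv v with he | he
      · refine ⟨(x₁, x₂, x₃), ?_⟩
        rw [Prod.orderOf, Prod.orderOf, Prod.orderOf, Prod.orderOf, Prod.orderOf, he,
          Nat.lcm_one_right]
      · obtain ⟨y₁, y₂, y₃, hy⟩ := C3 x₁ x₂ x₃
        refine ⟨(y₁, y₂, y₃), ?_⟩
        rw [Prod.orderOf, Prod.orderOf, Prod.orderOf, Prod.orderOf, Prod.orderOf, he]
        show Nat.lcm (orderOf y₁) (Nat.lcm (orderOf y₂) (orderOf y₃)) =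
          Nat.lcm (orderOf x₁) (Nat.lcm (orderOf x₂) (Nat.lcm (orderOf x₃) r))
        rw [hy]
        ac_rfl
    · rintro ⟨⟨y₁, y₂, y₃⟩, rfl⟩
      refine ⟨(y₁, y₂, y₃, 1), ?_⟩
      rw [Prod.orderOf, Prod.orderOf, Prod.orderOf, Prod.orderOf, Prod.orderOf, orderOf_one,
        Nat.lcm_one_right]
  · intro hnp
    ext k
    constructor
    · rintro ⟨⟨x₁, x₂, v⟩, rfl⟩
      rcases hv v with he | he
      · refine ⟨(x₁, x₂), ?_⟩
        rw [Prod.orderOf, Prod.orderOf, Prod.orderOf, he, Nat.lcm_one_right]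
      · obtain ⟨y₁, y₂, hy⟩ := C2 hnp x₁ x₂
        refine ⟨(y₁, y₂), ?_⟩
        rw [Prod.orderOf, Prod.orderOf, Prod.orderOf, he]
        show Nat.lcm (orderOf y₁) (orderOf y₂) =
          Nat.lcm (orderOf x₁) (Nat.lcm (orderOf x₂) r)
        rw [hy]
        ac_rfl
    · rintro ⟨⟨y₁, y₂⟩, rfl⟩
      refine ⟨(y₁, y₂, 1), ?_⟩
      rw [Prod.orderOf, Prod.orderOf, Prod.orderOf, orderOf_one, Nat.lcm_one_right]

/-- Let F be a finite field with q² elements, q = p^a, n ≥ 3 with (n, q) ≠ (3, 2), L = PSU(n, q) realised over F, and let r be a prime dividing q + 1 and not dividing n. Then for every m the direct product L × L × L × (ℤ/r)^m has the same set of element orders as L × L × L; and if n − 1 is not a power of p, then already L × L × (ℤ/r)^m has the same set of element orders as L × L. -/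
theorem result {F : Type*} [Field F] [Fintype F] (p a n q r m : ℕ) (hp : p.Prime) (ha : 1 ≤ a) (hq : q = p ^ a) (hF : Fintype.card F = q ^ 2)
    (hn : 3 ≤ n) (hn3 : ¬ (n = 3 ∧ q = 2)) (hr : r.Prime) (hrq : r ∣ q + 1) (hrn : ¬ r ∣ n) :
    Set.range (orderOf : Cfsg.PSU n F q × Cfsg.PSU n F q × Cfsg.PSU n F q × Multiplicative (Fin m → ZMod r) → ℕ) = Set.range (orderOf : Cfsg.PSU n F q × Cfsg.PSU n F q × Cfsg.PSU n F q → ℕ) ∧
    ((¬ ∃ j : ℕ, n - 1 = p ^ j) →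
      Set.range (orderOf : Cfsg.PSU n F q × Cfsg.PSU n F q × Multiplicative (Fin m → ZMod r) → ℕ) = Set.range (orderOf : Cfsg.PSU n F q × Cfsg.PSU n F q → ℕ)) := by
  exact main p a n q r m hp ha hq hF (by omega) hr hrq hrn

end Cfsg.Agent.S2511
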