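import Cfsg.Statements.S2513
import Mathlib
import Cfsg.Agent.Lib.helper10.PowSpec

set_option autoImplicit false
open Cfsg

namespace Cfsg.Agent.S2513

open Cfsg.Agent.Lib.helper10.PowSpec

theorem main {F : Type*} [Field F] [Fintype F] (hF : Fintype.card F = 2) (n k : ℕ) (hn : 2 ≤ n)
    (hk : (n + 3) / 2 ≤ k) :
    Set.range (orderOf : (Fin k → Matrix.ProjectiveSpecialLinearGroup (Fin n) F) → ℕ) =
      Set.range (orderOf :
        (Fin ((n + 3) / 2) → Matrix.ProjectiveSpecialLinearGroup (Fin n) F) → ℕ) := by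
  classical
  have hn0 : 0 < n := by omega
  have hinj : Function.Injective
      (QuotientGroup.mk' (Subgroup.center (Matrix.SpecialLinearGroup (Fin n) F))) :=
    mk_inj hF n hn0
  have hfin : Finite (Matrix.ProjectiveSpecialLinearGroup (Fin n) F) := inferInstance
  ext N₀
  constructor
  · rintro ⟨x, rfl⟩
    obtain ⟨N, hN⟩ : ∃ N, N = orderOf x := ⟨_, rfl⟩
    rw [← hN]
    have hN0 : N ≠ 0 := by rw [hN]; exact (orderOf_pos x).ne'
    have hxN : ∀ i, orderOf (x i) ∣ N :=
      (pi_pow_eq_one x N).1 (by rw [hN]; exact pow_orderOf_eq_one x)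
    have claim : ∀ ℓ e : ℕ, ℓ.Prime → 0 < e → ℓ ^ e ∣ N →
        ∃ w : Matrix.ProjectiveSpecialLinearGroup (Fin n) F, orderOf w = ℓ ^ e := by
      intro ℓ e hℓ he hdvd
      by_contra hcon
      push Not at hcon
      have h1 : ∀ i, ¬ ℓ ^ e ∣ orderOf (x i) := by
        intro i hd
        exact hcon ((x i) ^ (orderOf (x i) / ℓ ^ e))
          (orderOf_pow_orderOf_div (orderOf_pos (x i)).ne' hd)
      have h2 : ∀ i, orderOf (x i) ∣ N / ℓ :=
        fun i => dvd_div_prime _ N ℓ e hℓ (hxN i) hdvd (h1 i)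
      have h3 : x ^ (N / ℓ) = 1 := (pi_pow_eq_one x _).2 h2
      have h4 : N ∣ N / ℓ := by rw [hN] at h3 ⊢; exact orderOf_dvd_of_pow_eq_one h3
      have h5 : N / ℓ < N := Nat.div_lt_self (Nat.pos_of_ne_zero hN0) hℓ.one_lt
      have h6 : 0 < N / ℓ := Nat.div_pos (Nat.le_of_dvd (Nat.pos_of_ne_zero hN0)
        (dvd_trans (dvd_pow_self ℓ he.ne') hdvd)) hℓ.pos
      exact absurd (Nat.le_of_dvd h6 h4) (by omega)
    obtain ⟨a, m, hmodd, hNam⟩ := Nat.exists_eq_two_pow_mul_odd hN0
    obtain ⟨u, hu⟩ : ∃ u : Matrix.ProjectiveSpecialLinearGroup (Fin n) F, orderOf u = 2 ^ a := by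
      rcases Nat.eq_zero_or_pos a with ha | ha
      · exact ⟨1, by rw [ha, pow_zero, orderOf_one]⟩
      · exact claim 2 a Nat.prime_two ha (by rw [hNam]; exact dvd_mul_right _ _)
    have hT : ∀ d' : ℕ, ∃ w : Matrix.ProjectiveSpecialLinearGroup (Fin n) F,
        (1 ≤ d' → d' ≤ n → orderOf w = Nat.gcd m (2 ^ d' - 1)) := by
      intro d'
      by_cases h : 1 ≤ d' ∧ d' ≤ n
      · obtain ⟨g, hg⟩ := exists_sl hF n d' h.1 h.2 (Nat.gcd m (2 ^ d' - 1))
          (Nat.gcd_dvd_right _ _)
        refine ⟨QuotientGroup.mk' _ g, fun _ _ => ?_⟩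
        rw [orderOf_injective (QuotientGroup.mk' _) hinj g]
        exact Nat.dvd_antisymm (orderOf_dvd_of_pow_eq_one ((hg _).2 dvd_rfl))
          ((hg _).1 (pow_orderOf_eq_one g))
      · exact ⟨1, fun h1 h2 => absurd ⟨h1, h2⟩ h⟩
    choose T hTspec using hT
    obtain ⟨y, hy⟩ : ∃ y : Fin ((n + 3) / 2) → Matrix.ProjectiveSpecialLinearGroup (Fin n) F,
        ∀ j : Fin ((n + 3) / 2), y j = if (j : ℕ) = 0 then u else T (n / 2 + j) :=
      ⟨fun j => if (j : ℕ) = 0 then u else T (n / 2 + j), fun j => rfl⟩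
    refine ⟨y, ?_⟩
    have hy0 : ∀ j : Fin ((n + 3) / 2), (j : ℕ) = 0 → orderOf (y j) = 2 ^ a := by
      intro j hj
      rw [hy, if_pos hj, hu]
    have hy1 : ∀ j : Fin ((n + 3) / 2), (j : ℕ) ≠ 0 →
        orderOf (y j) = Nat.gcd m (2 ^ (n / 2 + j) - 1) := by
      intro j hj
      rw [hy, if_neg hj]
      exact hTspec _ (by omega) (by have := j.2; omega)
    apply Nat.dvd_antisymm
    · apply orderOf_dvd_of_pow_eq_one
      rw [pi_pow_eq_one]
      intro j
      by_cases hj : (j : ℕ) = 0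
      · rw [hy0 j hj, hNam]; exact dvd_mul_right _ _
      · rw [hy1 j hj, hNam]; exact dvd_trans (Nat.gcd_dvd_left _ _) (dvd_mul_left _ _)
    · have hE : ∀ j, orderOf (y j) ∣ orderOf y :=
        (pi_pow_eq_one y _).1 (pow_orderOf_eq_one y)
      rw [hNam]
      apply Nat.Coprime.mul_dvd_of_dvd_of_dvd
      · exact Nat.Coprime.pow_left a (Nat.coprime_two_left.2 hmodd)
      · have h0 := hE ⟨0, by omega⟩
        rwa [hy0 _ rfl] at h0
      · rw [Nat.dvd_iff_prime_pow_dvd_dvd]
        intro ℓ c hℓ hc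
        rcases Nat.eq_zero_or_pos c with hc0 | hc0
        · rw [hc0, pow_zero]; exact one_dvd _
        · have hℓm : ℓ ∣ m := dvd_trans (dvd_pow_self ℓ hc0.ne') hc
          have hℓ2 : ℓ ≠ 2 := by
            rintro rfl
            exact (Nat.not_even_iff_odd.2 hmodd) (even_iff_two_dvd.2 hℓm)
          obtain ⟨w, hw⟩ := claim ℓ c hℓ hc0
            (by rw [hNam]; exact dvd_trans hc (dvd_mul_left _ _))
          obtain ⟨g, rfl⟩ := QuotientGroup.mk'_surjective _ w
          have hog : orderOf g = ℓ ^ c := by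
            rw [← hw]; exact (orderOf_injective (QuotientGroup.mk' _) hinj g).symm
          have hM1 : g.1 ^ (ℓ ^ c) = 1 := by
            rw [← Matrix.SpecialLinearGroup.coe_pow, ← hog, pow_orderOf_eq_one]
            rfl
          have hM2 : g.1 ^ (ℓ ^ (c - 1)) ≠ 1 := by
            intro h
            have h1 : g ^ (ℓ ^ (c - 1)) = 1 := by
              apply Subtype.ext
              rw [Matrix.SpecialLinearGroup.coe_pow]
              exact h
            have h2 := orderOf_dvd_of_pow_eq_one h1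
            rw [hog] at h2
            have h3 := Nat.le_of_dvd (pow_pos hℓ.pos _) h2
            have h4 : ℓ ^ (c - 1) < ℓ ^ c := Nat.pow_lt_pow_right hℓ.one_lt (by omega)
            omega
          have hMi : g.1 * (g⁻¹).1 = 1 := by
            have h1 : (g * g⁻¹).1 = 1 := by rw [mul_inv_cancel]; rfl
            exact h1
          have hcop : ℓ.Coprime (Fintype.card F) := by
            rw [hF]; exact (Nat.coprime_primes hℓ Nat.prime_two).2 hℓ2
          obtain ⟨d, hd1, hdn, hdd⟩ := pp_dvd g.1 (g⁻¹).1 hMi ℓ c hℓ hcop hc0 hM1 hM2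
          rw [hF] at hdd
          obtain ⟨d', hd'⟩ : ∃ d', d' = d * (n / d) := ⟨_, rfl⟩
          have hd'le : d' ≤ n := by rw [hd']; exact Nat.mul_div_le n d
          have hd'ge : d ≤ d' := by
            rw [hd']; exact Nat.le_mul_of_pos_right d (Nat.div_pos hdn hd1)
          have hd'lt : n < d' + d := by
            have h1 := Nat.lt_mul_div_succ n hd1
            rw [Nat.mul_succ] at h1
            rw [hd']; exact h1
          have hdd' : ℓ ^ c ∣ 2 ^ d' - 1 := by
            have h1 := Nat.sub_dvd_pow_sub_pow (2 ^ d) 1 (n / d)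
            rw [one_pow, ← pow_mul, ← hd'] at h1
            exact dvd_trans hdd h1
          have hj : n / 2 < d' := by omega
          have hjlt : d' - n / 2 < (n + 3) / 2 := by omega
          have h7 := hE ⟨d' - n / 2, hjlt⟩
          have h8 : n / 2 + (d' - n / 2) = d' := by omega
          rw [hy1 _ (by show d' - n / 2 ≠ 0; omega)] at h7
          have h9 : Nat.gcd m (2 ^ d' - 1) ∣ orderOf y := by
            have e : (n / 2 + ((⟨d' - n / 2, hjlt⟩ : Fin ((n + 3) / 2)) : ℕ)) = d' := h8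
            rw [e] at h7
            exact h7
          exact dvd_trans (Nat.dvd_gcd hc hdd') h9
  · rintro ⟨y, rfl⟩
    obtain ⟨x, hx⟩ : ∃ x : Fin k → Matrix.ProjectiveSpecialLinearGroup (Fin n) F,
        ∀ i : Fin k, x i = if h : (i : ℕ) < (n + 3) / 2 then y ⟨i, h⟩ else 1 :=
      ⟨fun i => if h : (i : ℕ) < (n + 3) / 2 then y ⟨i, h⟩ else 1, fun i => rfl⟩
    refine ⟨x, ?_⟩
    rw [orderOf_eq_orderOf_iff]
    intro e
    rw [pi_pow_eq_one, pi_pow_eq_one]
    constructor
    · intro h j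
      have h1 := h ⟨j, lt_of_lt_of_le j.2 hk⟩
      rw [hx, dif_pos (show ((⟨j, lt_of_lt_of_le j.2 hk⟩ : Fin k) : ℕ) < (n + 3) / 2 from j.2)] at h1
      exact h1
    · intro h i
      rw [hx]
      by_cases hi : (i : ℕ) < (n + 3) / 2
      · rw [dif_pos hi]; exact h _
      · rw [dif_neg hi, orderOf_one]; exact one_dvd _

/-- Let F be the field with two elements, n ≥ 2, L = PSL(n, F) and k₀ = ⌊(n + 3)/2⌋. Then for every k ≥ k₀ the direct product of k copies of L has the same set of element orders as the direct product of k₀ copies of L. -/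
theorem result {F : Type*} [Field F] [Fintype F] (hF : Fintype.card F = 2) (n k : ℕ) (hn : 2 ≤ n) (hk : (n + 3) / 2 ≤ k) :
    Set.range (orderOf : (Fin k → Matrix.ProjectiveSpecialLinearGroup (Fin n) F) → ℕ) = Set.range (orderOf : (Fin ((n + 3) / 2) → Matrix.ProjectiveSpecialLinearGroup (Fin n) F) → ℕ) := by
  exact main hF n k hn hk

end Cfsg.Agent.S2513
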