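import Cfsg.Statements.S2514
import Mathlib

set_option autoImplicit false
open Cfsg

namespace Cfsg.Agent.S2514

lemma spec_dvd {K : Type*} [Group K] [Finite K] {n d : ℕ} (hn : n ∈ Set.range (orderOf : K → ℕ)) (hd : d ∣ n) :
    d ∈ Set.range (orderOf : K → ℕ) := by
  obtain ⟨g, rfl⟩ := hn
  obtain ⟨c, hc⟩ := hd
  have hpos : 0 < orderOf g := orderOf_pos g
  have hc0 : c ≠ 0 := by rintro rfl; rw [mul_zero] at hc; omega
  refine ⟨g ^ c, ?_⟩
  rw [orderOf_pow_of_dvd hc0 ⟨d, by rw [hc, mul_comm]⟩, hc]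
  exact Nat.mul_div_cancel _ (Nat.pos_of_ne_zero hc0)

lemma exists_max {K : Type*} [Group K] [Finite K] {n : ℕ} (hn : n ∈ Set.range (orderOf : K → ℕ)) :
    ∃ m, (m ∈ Set.range (orderOf : K → ℕ) ∧ ∀ m' ∈ Set.range (orderOf : K → ℕ), m ∣ m' → m' = m) ∧ n ∣ m := by
  set T : Set ℕ := {m | m ∈ Set.range (orderOf : K → ℕ) ∧ n ∣ m} with hT
  have hne : T.Nonempty := ⟨n, hn, dvd_rfl⟩
  have hbdd : BddAbove T := by
    refine ⟨Nat.card K, ?_⟩
    rintro m ⟨⟨g, rfl⟩, -⟩
    exact orderOf_le_card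
  have hm : sSup T ∈ T := Nat.sSup_mem hne hbdd
  refine ⟨sSup T, ⟨hm.1, ?_⟩, hm.2⟩
  intro m' hm' hdvd
  have h1 : m' ∈ T := ⟨hm', hm.2.trans hdvd⟩
  have h2 : m' ≤ sSup T := le_csSup hbdd h1
  obtain ⟨g, rfl⟩ := hm'
  have h3 : sSup T ≤ orderOf g := Nat.le_of_dvd (orderOf_pos g) hdvd
  omega

lemma range_pi (K : Type*) [Group K] [Finite K] (k : ℕ) :
    Set.range (orderOf : (Fin k → K) → ℕ) =
      {n | ∃ S : Finset ℕ, (∀ a ∈ S, a ∈ Set.range (orderOf : K → ℕ)) ∧ S.card ≤ k ∧ n = S.lcm id} := by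
  classical
  ext n
  constructor
  · rintro ⟨f, rfl⟩
    refine ⟨Finset.univ.image (fun i => orderOf (f i)), ?_, ?_, ?_⟩
    · intro a ha
      obtain ⟨i, -, rfl⟩ := Finset.mem_image.mp ha
      exact ⟨f i, rfl⟩
    · exact Finset.card_image_le.trans (by simp)
    · rw [Pi.orderOf, Finset.lcm_image]; rfl
  · rintro ⟨S, hS, hcard, rfl⟩
    let gfun : ℕ → K := fun a => if h : a ∈ S then (hS a h).choose else 1
    have hg : ∀ a ∈ S, orderOf (gfun a) = a := by
      intro a ha
      simp only [gfun, dif_pos ha]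
      exact (hS a ha).choose_spec
    have hlen : S.toList.length = S.card := Finset.length_toList S
    let f : Fin k → K := fun i => if h : i.val < S.toList.length then gfun (S.toList[i.val]) else 1
    refine ⟨f, ?_⟩
    rw [Pi.orderOf]
    apply Nat.dvd_antisymm
    · apply Finset.lcm_dvd
      intro i _
      by_cases h : i.val < S.toList.length
      · simp only [f, dif_pos h]
        have hmem : S.toList[i.val] ∈ S := Finset.mem_toList.mp (List.getElem_mem h)
        rw [hg _ hmem]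
        exact Finset.dvd_lcm (f := id) hmem
      · simp only [f, dif_neg h, orderOf_one]
        exact one_dvd _
    · apply Finset.lcm_dvd
      intro a ha
      have hmem : a ∈ S.toList := Finset.mem_toList.mpr ha
      obtain ⟨idx, hidx, hval⟩ := List.mem_iff_getElem.mp hmem
      have hik : idx < k := by omega
      have : orderOf (f ⟨idx, hik⟩) = a := by
        simp only [f, dif_pos hidx, hval]
        exact hg a ha
      rw [id, ← this]
      exact Finset.dvd_lcm (Finset.mem_univ _)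

lemma range_prod (A B : Type*) [Group A] [Group B] :
    Set.range (orderOf : A × B → ℕ) =
      {n | ∃ a ∈ Set.range (orderOf : A → ℕ), ∃ b ∈ Set.range (orderOf : B → ℕ), n = Nat.lcm a b} := by
  ext n
  constructor
  · rintro ⟨⟨x, y⟩, rfl⟩
    exact ⟨orderOf x, ⟨x, rfl⟩, orderOf y, ⟨y, rfl⟩, Prod.orderOf _⟩
  · rintro ⟨_, ⟨x, rfl⟩, _, ⟨y, rfl⟩, rfl⟩
    exact ⟨(x, y), Prod.orderOf _⟩

/-- For a finite group X write μ(X) for the set of element orders of X that are maximal under divisibility. Let G and H be finite groups and k ≥ 1 such that μ(H) ⊆ μ(G) and μ(G) has fewer than k elements outside μ(H). Then the direct product of k copies of G has the same set of element orders as the direct product of k − 1 copies of G with H. -/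
theorem result {G H : Type*} [Group G] [Finite G] [Group H] [Finite H] (k : ℕ) (hk : 1 ≤ k)
    (hsub : {n : ℕ | n ∈ Set.range (orderOf : H → ℕ) ∧ ∀ m ∈ Set.range (orderOf : H → ℕ), n ∣ m → m = n} ⊆ {n : ℕ | n ∈ Set.range (orderOf : G → ℕ) ∧ ∀ m ∈ Set.range (orderOf : G → ℕ), n ∣ m → m = n})
    (hfew : ({n : ℕ | n ∈ Set.range (orderOf : G → ℕ) ∧ ∀ m ∈ Set.range (orderOf : G → ℕ), n ∣ m → m = n} \ {n : ℕ | n ∈ Set.range (orderOf : H → ℕ) ∧ ∀ m ∈ Set.range (orderOf : H → ℕ), n ∣ m → m = n}).ncard < k) :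
    Set.range (orderOf : (Fin k → G) → ℕ) = Set.range (orderOf : (Fin (k - 1) → G) × H → ℕ) := by
  classical
  obtain ⟨k', rfl⟩ : ∃ k', k = k' + 1 := ⟨k - 1, by omega⟩
  show Set.range (orderOf : (Fin (k' + 1) → G) → ℕ) = Set.range (orderOf : (Fin k' → G) × H → ℕ)
  rw [range_prod, range_pi, range_pi]
  ext n
  simp only [Set.mem_ofPred_eq]
  constructor
  · rintro ⟨S, hS, hcard, rfl⟩
    have hex : ∀ a : ℕ, ∃ m : ℕ, a ∈ S → ((m ∈ Set.range (orderOf : G → ℕ) ∧ ∀ m' ∈ Set.range (orderOf : G → ℕ), m ∣ m' → m' = m) ∧ a ∣ m) := by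
      intro a
      by_cases ha : a ∈ S
      · obtain ⟨m, hm⟩ := exists_max (hS a ha)
        exact ⟨m, fun _ => hm⟩
      · exact ⟨0, fun h => absurd h ha⟩
    choose mfun hmfun using hex
    have h1H : (1 : ℕ) ∈ Set.range (orderOf : H → ℕ) := ⟨1, orderOf_one⟩
    by_cases hcase : ∃ a₀ ∈ S, mfun a₀ ∈ {n : ℕ | n ∈ Set.range (orderOf : H → ℕ) ∧ ∀ m ∈ Set.range (orderOf : H → ℕ), n ∣ m → m = n}
    · obtain ⟨a₀, ha₀, hm₀⟩ := hcase
      have ha₀H : a₀ ∈ Set.range (orderOf : H → ℕ) := spec_dvd hm₀.1 (hmfun a₀ ha₀).2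
      refine ⟨(S.erase a₀).lcm id, ⟨S.erase a₀, ?_, ?_, rfl⟩, a₀, ha₀H, ?_⟩
      · intro a ha
        exact hS a (Finset.mem_of_mem_erase ha)
      · rw [Finset.card_erase_of_mem ha₀]; omega
      · conv_lhs => rw [← Finset.insert_erase ha₀]
        rw [Finset.lcm_insert]
        exact Nat.lcm_comm _ _
    · by_cases hc : S.card ≤ k'
      · exact ⟨S.lcm id, ⟨S, hS, hc, rfl⟩, 1, h1H, by simp⟩
      · set D : Set ℕ := {n : ℕ | n ∈ Set.range (orderOf : G → ℕ) ∧ ∀ m ∈ Set.range (orderOf : G → ℕ), n ∣ m → m = n} \ {n : ℕ | n ∈ Set.range (orderOf : H → ℕ) ∧ ∀ m ∈ Set.range (orderOf : H → ℕ), n ∣ m → m = n} with hD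
        have hDfin : D.Finite := by
          apply Set.Finite.subset (Set.finite_range (orderOf : G → ℕ))
          rintro x ⟨hx, -⟩
          exact hx.1
        have hmaps : ∀ a ∈ S, mfun a ∈ hDfin.toFinset := by
          intro a ha
          rw [Set.Finite.mem_toFinset]
          refine ⟨(hmfun a ha).1, ?_⟩
          intro hH
          exact hcase ⟨a, ha, hH⟩
        have hlt : hDfin.toFinset.card < S.card := by
          rw [← Set.ncard_eq_toFinset_card D hDfin]
          omega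
        obtain ⟨a, ha, a', ha', hne, heq⟩ := Finset.exists_ne_map_eq_of_card_lt_of_maps_to hlt hmaps
        have hcG : Nat.lcm a a' ∈ Set.range (orderOf : G → ℕ) := by
          apply spec_dvd (hmfun a ha).1.1
          exact Nat.lcm_dvd (hmfun a ha).2 (heq ▸ (hmfun a' ha').2)
        have ha'e : a' ∈ S.erase a := Finset.mem_erase.mpr ⟨fun h => hne h.symm, ha'⟩
        refine ⟨(insert (Nat.lcm a a') ((S.erase a).erase a')).lcm id, ⟨insert (Nat.lcm a a') ((S.erase a).erase a'), ?_, ?_, rfl⟩, 1, h1H, ?_⟩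
        · intro x hx
          rcases Finset.mem_insert.mp hx with rfl | hx
          · exact hcG
          · exact hS x (Finset.mem_of_mem_erase (Finset.mem_of_mem_erase hx))
        · refine (Finset.card_insert_le _ _).trans ?_
          rw [Finset.card_erase_of_mem ha'e, Finset.card_erase_of_mem ha]
          have h2 : 1 < S.card := Finset.one_lt_card.mpr ⟨a, ha, a', ha', hne⟩
          omega
        · rw [Nat.lcm_one_right, Finset.lcm_insert]
          conv_lhs => rw [← Finset.insert_erase ha, Finset.lcm_insert, ← Finset.insert_erase ha'e, Finset.lcm_insert]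
          simp only [id]
          exact (lcm_assoc _ _ _).symm
  · rintro ⟨x, ⟨S, hS, hcard, rfl⟩, b, hb, rfl⟩
    obtain ⟨m, hm, hbm⟩ := exists_max hb
    have hmG := hsub hm
    have hbG : b ∈ Set.range (orderOf : G → ℕ) := spec_dvd hmG.1 hbm
    refine ⟨insert b S, ?_, ?_, ?_⟩
    · intro a ha
      rcases Finset.mem_insert.mp ha with rfl | ha
      · exact hbG
      · exact hS a ha
    · exact (Finset.card_insert_le _ _).trans (by omega)
    · rw [Finset.lcm_insert]
      exact Nat.lcm_comm _ _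

end Cfsg.Agent.S2514
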