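import Cfsg.Statements.S2516
import Mathlib

set_option autoImplicit false
open Cfsg

namespace Cfsg.Agent.S2516

section Helpers

variable {F : Type*} [Field F] {V : Type*} [AddCommGroup V] [Module F V] {G : Type*} [Group G]

abbrev act (ρ : Representation F G V) : G →* MulAut (Multiplicative V) :=
  (MulAutMultiplicative V).symm.toMonoidHom.comp
    ((DistribMulAction.toAddAut ((V →ₗ[F] V)ˣ) V).comp ρ.asGroupHom)

lemma act_apply (ρ : Representation F G V) (g : G) (v : V) :
    act ρ g (Multiplicative.ofAdd v) = Multiplicative.ofAdd (ρ g v) := rfl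

lemma pow_formula (ρ : Representation F G V) (x : Multiplicative V ⋊[act ρ] G) (n : ℕ) :
    (x ^ n).left = Multiplicative.ofAdd ((∑ i ∈ Finset.range n, (ρ x.right) ^ i) (Multiplicative.toAdd x.left)) ∧
      (x ^ n).right = x.right ^ n := by
  induction n with
  | zero => simp
  | succ n ih =>
    rw [pow_succ]
    refine ⟨?_, ?_⟩
    · rw [SemidirectProduct.mul_left, ih.1, ih.2, Finset.sum_range_succ]
      have : x.left = Multiplicative.ofAdd (Multiplicative.toAdd x.left) := rfl
      conv_lhs => rw [this, act_apply]
      rw [← ofAdd_add, map_pow]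
      rfl
    · rw [SemidirectProduct.mul_right, ih.2, pow_succ]

end Helpers

/-- Let F be a field of characteristic p > 0, V a non-zero finite-dimensional F-vector space, G a finite group and ρ a representation of G on V; form the semidirect product V ⋊ G. For g ∈ G of order k, the coset Vg contains an element of order pk if and only if the minimal polynomial of ρ(g) does not divide 1 + X + ⋯ + X^(k−1). -/
theorem result {F : Type*} [Field F] (p : ℕ) [Fact p.Prime] [CharP F p] {V : Type*} [AddCommGroup V] [Module F V] [FiniteDimensional F V] [Nontrivial V]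
    {G : Type*} [Group G] [Finite G] (ρ : Representation F G V) (g : G) :
    (∃ x : Multiplicative V ⋊[(MulAutMultiplicative V).symm.toMonoidHom.comp
        ((DistribMulAction.toAddAut ((V →ₗ[F] V)ˣ) V).comp ρ.asGroupHom)] G,
        x.right = g ∧ orderOf x = p * orderOf g) ↔
      ¬ (minpoly F (ρ g) ∣ ∑ i ∈ Finset.range (orderOf g), (Polynomial.X : Polynomial F) ^ i) := by
  have hk : 0 < orderOf g := orderOf_pos g
  set N : V →ₗ[F] V := ∑ i ∈ Finset.range (orderOf g), (ρ g) ^ i with hN
  have haeval : Polynomial.aeval (ρ g) (∑ i ∈ Finset.range (orderOf g), (Polynomial.X : Polynomial F) ^ i) = N := by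
    simp [hN]
  rw [minpoly.dvd_iff, haeval]
  constructor
  · rintro ⟨x, hxg, hord⟩ hN0
    have h1 := pow_formula ρ x (orderOf g)
    rw [hxg] at h1
    rw [← hN, hN0] at h1
    have hx1 : x ^ orderOf g = 1 := by
      apply SemidirectProduct.ext
      · rw [h1.1]; rfl
      · rw [h1.2, pow_orderOf_eq_one]; rfl
    have h2 : orderOf x ∣ orderOf g := orderOf_dvd_of_pow_eq_one hx1
    rw [hord] at h2
    have h3 := Nat.le_of_dvd hk h2
    have hp : 2 ≤ p := (Fact.out : p.Prime).two_le
    nlinarith
  · intro hN0
    obtain ⟨v, hv⟩ : ∃ v, N v ≠ 0 := by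
      by_contra hcon
      push Not at hcon
      exact hN0 (LinearMap.ext hcon)
    let x : Multiplicative V ⋊[act ρ] G := ⟨Multiplicative.ofAdd v, g⟩
    refine ⟨x, rfl, ?_⟩
    have h1 := pow_formula ρ x (orderOf g)
    have hxr : x.right = g := rfl
    have hxl : Multiplicative.toAdd x.left = v := rfl
    rw [hxr, hxl, ← hN] at h1
    have hxk : x ^ orderOf g ≠ 1 := by
      intro h
      have := congrArg SemidirectProduct.left h
      rw [h1.1] at this
      exact hv this
    have hkdvd : orderOf g ∣ orderOf x := by
      apply orderOf_dvd_of_pow_eq_one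
      have := (pow_formula ρ x (orderOf x)).2
      rw [pow_orderOf_eq_one, hxr] at this
      exact this.symm
    have hpk : x ^ (p * orderOf g) = 1 := by
      rw [mul_comm, pow_mul]
      set y := x ^ orderOf g with hy
      have h2 := pow_formula ρ y p
      have hyr : y.right = 1 := by rw [h1.2, pow_orderOf_eq_one]
      have hyl : Multiplicative.toAdd y.left = N v := by rw [h1.1]; rfl
      rw [hyr, hyl] at h2
      apply SemidirectProduct.ext
      · rw [h2.1]
        simp only [map_one, one_pow, Finset.sum_const, Finset.card_range]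
        have : (p • (1 : V →ₗ[F] V)) (N v) = 0 := by
          rw [LinearMap.smul_apply, ← Nat.cast_smul_eq_nsmul F p, CharP.cast_eq_zero, zero_smul]
        rw [this]; rfl
      · rw [h2.2, one_pow]; rfl
    have hdvd : orderOf x ∣ p * orderOf g := orderOf_dvd_of_pow_eq_one hpk
    obtain ⟨d, hd⟩ := hkdvd
    rw [hd, mul_comm p] at hdvd
    have hdp : d ∣ p := (Nat.mul_dvd_mul_iff_left hk).mp hdvd
    rcases (Nat.dvd_prime (Fact.out : p.Prime)).mp hdp with rfl | rfl
    · exfalso
      apply hxk
      rw [mul_one] at hd
      rw [← hd]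
      exact pow_orderOf_eq_one x
    · rw [hd, mul_comm]

end Cfsg.Agent.S2516
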