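import Cfsg.Statements.S2521
import Mathlib

set_option autoImplicit false
open Cfsg

namespace Cfsg.Agent.S2521

/-- Let B be a finite group that is the semidirect product of a nilpotent normal subgroup U by an abelian subgroup T (U ∩ T = 1, UT = B), and let t ∈ T have centralizer exactly T. Then every element of the coset tU is conjugate to t in B: for each u ∈ U there is b ∈ B with b t b⁻¹ = t u. -/
theorem result {B : Type*} [Group B] [Finite B] (U T : Subgroup B) [U.Normal] (hU : Group.IsNilpotent ↥U) (hT : IsMulCommutative ↥T)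
    (hcompl : Subgroup.IsComplement' U T) (t : B) (ht : t ∈ T) (hreg : Subgroup.centralizer ({t} : Set B) = T) (u : B) (hu : u ∈ U) :
    ∃ b : B, b * t * b⁻¹ = t * u := by
  have hdisj : Disjoint U T := hcompl.disjoint
  let f : U → U := fun v => ⟨t⁻¹ * v * t * (v : B)⁻¹, by
    apply U.mul_mem _ (U.inv_mem v.2)
    have := (inferInstance : U.Normal).conj_mem v v.2 t⁻¹
    simpa using this⟩
  have hinj : Function.Injective f := by
    intro v w hvw
    have h1 : t⁻¹ * (v : B) * t * (v : B)⁻¹ = t⁻¹ * (w : B) * t * (w : B)⁻¹ := congrArg Subtype.val hvw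
    have h2 : (w : B)⁻¹ * v ∈ Subgroup.centralizer ({t} : Set B) := by
      rw [Subgroup.mem_centralizer_iff]
      intro h hh
      rw [Set.mem_singleton_iff] at hh
      subst hh
      have h3 : (v : B) * h * (v : B)⁻¹ = (w : B) * h * (w : B)⁻¹ := by
        have : (v : B) * h * (v : B)⁻¹ = h * (h⁻¹ * (v : B) * h * (v : B)⁻¹) := by group
        rw [this, h1]; group
      have h4 : (v : B) * h = (w : B) * h * (w : B)⁻¹ * v := by
        rw [← h3]; group
      calc h * ((w : B)⁻¹ * v) = (w : B)⁻¹ * ((w : B) * h * (w : B)⁻¹ * v) := by group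
        _ = (w : B)⁻¹ * ((v : B) * h) := by rw [h4]
        _ = (w : B)⁻¹ * v * h := by group
    rw [hreg] at h2
    have h5 : (w : B)⁻¹ * v ∈ U := U.mul_mem (U.inv_mem w.2) v.2
    have h6 : (w : B)⁻¹ * v = 1 := by
      have := Subgroup.disjoint_def.mp hdisj h5 h2
      exact this
    have h7 : (v : B) = w := by
      have : (v : B) = w * ((w : B)⁻¹ * v) := by group
      rw [this, h6, mul_one]
    exact Subtype.ext h7
  have hsurj : Function.Surjective f := Finite.injective_iff_surjective.mp hinj
  obtain ⟨v, hv⟩ := hsurj ⟨u, hu⟩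
  have h1 : t⁻¹ * (v : B) * t * (v : B)⁻¹ = u := congrArg Subtype.val hv
  refine ⟨v, ?_⟩
  rw [← h1]; group

end Cfsg.Agent.S2521
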