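import Cfsg.Statements.S2759
import Mathlib
import Cfsg.Agent.Lib.helper14.S4Inv
import Cfsg.Agent.Lib.helper7.Fitting

set_option autoImplicit false
set_option linter.style.haveILetI false
open Cfsg

namespace Cfsg.Agent.S2759

open Cfsg.Agent.Lib.helper14

/-! ### The homomorphism `S₄ → S₃` -/

/-- label of the perfect matching of `Fin 4` containing the pair `{a, b}` -/
def lab (a b : Fin 4) : Fin 3 :=
  if a = 0 then ⟨(b.val + 2) % 3, Nat.mod_lt _ (by norm_num)⟩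
  else if b = 0 then ⟨(a.val + 2) % 3, Nat.mod_lt _ (by norm_num)⟩
  else ⟨(2 * a.val + 2 * b.val + 2) % 3, Nat.mod_lt _ (by norm_num)⟩

def sig (π : Equiv.Perm (Fin 4)) (i : Fin 3) : Fin 3 := lab (π 0) (π i.succ)

set_option maxRecDepth 100000 in
theorem sig_mul : ∀ π₁ π₂ : Equiv.Perm (Fin 4), ∀ i : Fin 3,
    sig (π₁ * π₂) i = sig π₁ (sig π₂ i) := by
  decide

theorem sig_one : ∀ i : Fin 3, sig 1 i = i := by decide

def σ : Equiv.Perm (Fin 4) →* Equiv.Perm (Fin 3) where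
  toFun π := ⟨sig π, sig π⁻¹, fun i => by rw [← sig_mul, inv_mul_cancel, sig_one],
    fun i => by rw [← sig_mul, mul_inv_cancel, sig_one]⟩
  map_one' := by
    ext i
    simp [sig_one]
  map_mul' π₁ π₂ := by
    ext i
    simp [sig_mul]

theorem σ_apply (π : Equiv.Perm (Fin 4)) (i : Fin 3) : σ π i = sig π i := rfl

theorem σ_eq_one_iff (π : Equiv.Perm (Fin 4)) : σ π = 1 ↔ ∀ i, sig π i = i := by
  constructor
  · intro h i
    rw [← σ_apply, h]; rfl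
  · intro h
    ext i
    rw [σ_apply, h]; rfl

set_option maxRecDepth 100000 in
theorem sig_surj : ∀ τ : Equiv.Perm (Fin 3), ∃ π : Equiv.Perm (Fin 4), ∀ i, sig π i = τ i := by
  decide

theorem σ_surj : Function.Surjective σ := by
  intro τ
  obtain ⟨π, hπ⟩ := sig_surj τ
  exact ⟨π, by ext i; rw [σ_apply, hπ]⟩

set_option maxRecDepth 100000 in
theorem ker_sq' : ∀ ρ : Equiv.Perm (Fin 4), (∀ i, sig ρ i = i) → ρ * ρ = 1 := by
  decide

set_option maxRecDepth 100000 in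
theorem ker_comm' : ∀ ρ₁ ρ₂ : Equiv.Perm (Fin 4), (∀ i, sig ρ₁ i = i) → (∀ i, sig ρ₂ i = i) →
    ρ₁ * ρ₂ = ρ₂ * ρ₁ := by
  decide

set_option maxRecDepth 100000 in
theorem cent_ker' : ∀ π : Equiv.Perm (Fin 4),
    (∀ ρ : Equiv.Perm (Fin 4), (∀ i, sig ρ i = i) → π * ρ = ρ * π) → ∀ i, sig π i = i := by
  decide

set_option maxRecDepth 100000 in
theorem s3_sq : ∀ τ : Equiv.Perm (Fin 3), Equiv.Perm.sign τ = -1 → τ * τ = 1 := by
  decide

set_option maxRecDepth 100000 in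
theorem s3_act : ∀ τ s : Equiv.Perm (Fin 3), Equiv.Perm.sign τ = -1 → Equiv.Perm.sign s = 1 →
    s ≠ 1 → τ * s * τ⁻¹ * s⁻¹ ≠ 1 := by
  decide

set_option maxRecDepth 100000 in
theorem s3_cube : ∀ s : Equiv.Perm (Fin 3), Equiv.Perm.sign s = 1 → s * s * s = 1 := by
  decide

set_option maxRecDepth 100000 in
theorem s3_exists : ∃ s : Equiv.Perm (Fin 3), Equiv.Perm.sign s = 1 ∧ s ≠ 1 := by
  decide

set_option maxRecDepth 100000 in
theorem s3_exists_odd : ∃ s : Equiv.Perm (Fin 3), Equiv.Perm.sign s = -1 := by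
  decide

/-! ### Involvement in a quotient -/

theorem involves_quot {X Y H : Type*} [Group X] [Group Y] [Group H] (M : Subgroup X) [M.Normal]
    (ι : Y →* X) (ψ : Y →* H) (hψ : Function.Surjective ψ) (h : ∀ y, ι y ∈ M → ψ y = 1) :
    Cfsg.Involves H (X ⧸ M) := by
  let θ : Y →* X ⧸ M := (QuotientGroup.mk' M).comp ι
  have hker : θ.ker ≤ ψ.ker := by
    intro y hy
    rw [MonoidHom.mem_ker] at hy ⊢
    apply h
    have h1 : ((ι y : X) : X ⧸ M) = 1 := hy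
    exact (QuotientGroup.eq_one_iff _).1 h1
  have hker' : θ.rangeRestrict.ker ≤ ψ.ker := by rw [MonoidHom.ker_rangeRestrict]; exact hker
  refine involves_of_surjective θ.range
    (θ.rangeRestrict.liftOfSurjective θ.rangeRestrict_surjective ⟨ψ, hker'⟩) ?_
  intro z
  obtain ⟨y, rfl⟩ := hψ z
  exact ⟨θ.rangeRestrict y, MonoidHom.liftOfRightInverse_comp_apply _ _ _ ⟨ψ, hker'⟩ y⟩

/-! ### A `2`-element inverting a `3`-element, from a surjection onto `S₃` -/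

theorem exists_inverted {H : Type*} [Group H] [Finite H] (ψ : H →* Equiv.Perm (Fin 3))
    (hψ : Function.Surjective ψ) :
    ∃ (x y : H) (j k : ℕ), x ^ (2 ^ j) = 1 ∧ y ^ (3 ^ k) = 1 ∧ ψ y ≠ 1 ∧ x * y * x⁻¹ = y⁻¹ := by
  classical
  haveI : Fact (Nat.Prime 3) := ⟨Nat.prime_three⟩
  haveI : Fact (Nat.Prime 2) := ⟨Nat.prime_two⟩
  let sgn : H →* ℤˣ := Equiv.Perm.sign.comp ψ
  let A : Subgroup H := sgn.ker
  obtain ⟨s₀, hs₀, hs₀1⟩ := s3_exists
  obtain ⟨g₀, hg₀⟩ := hψ s₀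
  obtain ⟨a, m, hm, hom⟩ :=
    Nat.exists_eq_pow_mul_and_not_dvd (orderOf_pos g₀).ne' 3 (by norm_num)
  set g₁ : H := g₀ ^ m with hg₁
  have hg₁3 : g₁ ^ (3 ^ a) = 1 := by
    rw [hg₁, ← pow_mul, mul_comm, ← hom]; exact pow_orderOf_eq_one g₀
  have hs₀3 : s₀ ^ 3 = 1 := by
    have := s3_cube s₀ hs₀
    rw [pow_succ, pow_two]; exact this
  have hψg₁ : ψ g₁ ≠ 1 := by
    rw [hg₁, map_pow, hg₀]
    intro h1
    have h2 : orderOf s₀ ∣ m := orderOf_dvd_of_pow_eq_one h1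
    have h3 : orderOf s₀ ∣ 3 := orderOf_dvd_of_pow_eq_one hs₀3
    rcases (Nat.dvd_prime Nat.prime_three).1 h3 with h4 | h4
    · exact hs₀1 (orderOf_eq_one_iff.1 h4)
    · rw [h4] at h2; exact hm h2
  have hg₁A : g₁ ∈ A := by
    rw [MonoidHom.mem_ker]
    show Equiv.Perm.sign (ψ g₁) = 1
    rw [hg₁, map_pow, hg₀, map_pow, hs₀, one_pow]
  let g₁' : A := ⟨g₁, hg₁A⟩
  have hg₁'3 : g₁' ^ (3 ^ a) = 1 := Subtype.ext (by simpa [g₁'] using hg₁3)
  have hz : IsPGroup 3 ↥(Subgroup.zpowers g₁') := by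
    rintro ⟨y, hy⟩
    obtain ⟨n, rfl⟩ := Subgroup.mem_zpowers_iff.1 hy
    refine ⟨a, Subtype.ext ?_⟩
    show (g₁' ^ n) ^ (3 ^ a) = 1
    rw [← zpow_natCast, ← zpow_mul, mul_comm, zpow_mul, zpow_natCast, hg₁'3, one_zpow]
  obtain ⟨P, hP⟩ := hz.exists_le_sylow
  set P' : Subgroup H := (P : Subgroup A).map A.subtype with hP'
  have hg₁P : g₁ ∈ P' := ⟨g₁', hP (Subgroup.mem_zpowers g₁'), rfl⟩
  have hP'3 : IsPGroup 3 ↥P' := P.isPGroup'.map A.subtype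
  have hfr : Subgroup.normalizer (P' : Set H) ⊔ A = ⊤ := Sylow.normalizer_sup_eq_top P
  obtain ⟨t₀, ht₀⟩ := s3_exists_odd
  obtain ⟨h₀, hh₀⟩ := hψ t₀
  have hmem : h₀ ∈ Subgroup.normalizer (P' : Set H) ⊔ A := by rw [hfr]; exact Subgroup.mem_top _
  obtain ⟨n, hn, a', ha', hna⟩ := Subgroup.mem_sup_of_normal_right.1 hmem
  have hsn : Equiv.Perm.sign (ψ n) = -1 := by
    have h1 : sgn h₀ = -1 := by show Equiv.Perm.sign (ψ h₀) = -1; rw [hh₀, ht₀]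
    have h2 : sgn a' = 1 := ha'
    have h3 : sgn n = sgn h₀ := by rw [← hna, map_mul, h2, mul_one]
    show sgn n = -1
    rw [h3, h1]
  obtain ⟨b, m', hm', hom'⟩ :=
    Nat.exists_eq_pow_mul_and_not_dvd (orderOf_pos n).ne' 2 (by norm_num)
  set x : H := n ^ m' with hx
  have hx2 : x ^ (2 ^ b) = 1 := by
    rw [hx, ← pow_mul, mul_comm, ← hom']; exact pow_orderOf_eq_one n
  have hxN : x ∈ Subgroup.normalizer (P' : Set H) := Subgroup.pow_mem _ hn _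
  have hsx : Equiv.Perm.sign (ψ x) = -1 := by
    rw [hx, map_pow, map_pow, hsn]
    exact Odd.neg_one_pow (Nat.odd_iff.2 (by omega))
  have hψx2 : ψ x * ψ x = 1 := s3_sq _ hsx
  set s := ψ g₁ with hs
  have hss : Equiv.Perm.sign s = 1 := hg₁A
  let Ω : Type _ := {y : H // y ∈ P' ∧ ψ y = s}
  haveI : Fintype Ω := Fintype.ofFinite Ω
  have hconj : ∀ (z : H), z ∈ Subgroup.normalizer (P' : Set H) → ψ z = 1 →
      ∀ y : H, (y ∈ P' ∧ ψ y = s) → (z * y * z⁻¹ ∈ P' ∧ ψ (z * y * z⁻¹) = s) := by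
    intro z hz hz1 y hy
    refine ⟨(Subgroup.mem_normalizer_iff.1 hz y).1 hy.1, ?_⟩
    rw [map_mul, map_mul, map_inv, hz1, hy.2]; simp
  set q : H := x * x with hq
  have hq1 : ψ q = 1 := by rw [hq, map_mul]; exact hψx2
  have hqN : q ∈ Subgroup.normalizer (P' : Set H) := Subgroup.mul_mem _ hxN hxN
  have hqi1 : ψ q⁻¹ = 1 := by rw [map_inv, hq1, inv_one]
  let f : Equiv.Perm Ω :=
    { toFun := fun y => ⟨q * y.1 * q⁻¹, hconj q hqN hq1 y.1 y.2⟩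
      invFun := fun y => ⟨q⁻¹ * y.1 * q, by
        have := hconj q⁻¹ (Subgroup.inv_mem _ hqN) hqi1 y.1 y.2
        rwa [inv_inv] at this⟩
      left_inv := fun y => Subtype.ext (by simp [mul_assoc])
      right_inv := fun y => Subtype.ext (by simp [mul_assoc]) }
  have hfpow : ∀ (n : ℕ) (y : Ω), ((f ^ n) y).1 = q ^ n * y.1 * (q ^ n)⁻¹ := by
    intro n
    induction n with
    | zero => intro y; simp
    | succ n ih =>
      intro y
      rw [pow_succ, Equiv.Perm.mul_apply, ih]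
      show q ^ n * (q * y.1 * q⁻¹) * (q ^ n)⁻¹ = q ^ (n + 1) * y.1 * (q ^ (n + 1))⁻¹
      rw [pow_succ]; group
  have hqpow : q ^ (2 ^ b) = 1 := by
    rw [hq, ← pow_two, ← pow_mul, mul_comm, pow_mul, hx2, one_pow]
  have hf : f ^ 2 ^ b = 1 := by
    apply Equiv.ext
    intro y
    apply Subtype.ext
    rw [hfpow, hqpow]; simp
  have hcard : ¬ 2 ∣ Fintype.card Ω := by
    let K : Subgroup H := P' ⊓ ψ.ker
    have hK3 : IsPGroup 3 ↥K := hP'3.to_le inf_le_left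
    let e : Ω ≃ K :=
      { toFun := fun y => ⟨g₁⁻¹ * y.1, Subgroup.mem_inf.2 ⟨P'.mul_mem (P'.inv_mem hg₁P) y.2.1, by
          rw [MonoidHom.mem_ker, map_mul, map_inv, y.2.2, hs]; exact inv_mul_cancel _⟩⟩
        invFun := fun k => ⟨g₁ * k.1, P'.mul_mem hg₁P (Subgroup.mem_inf.1 k.2).1, by
          rw [map_mul, (MonoidHom.mem_ker).1 (Subgroup.mem_inf.1 k.2).2, mul_one]⟩
        left_inv := fun y => Subtype.ext (by simp)
        right_inv := fun k => Subtype.ext (by simp) }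
    obtain ⟨n, hn⟩ := IsPGroup.iff_card.1 hK3
    rw [← Nat.card_eq_fintype_card, Nat.card_congr e, hn]
    intro h2
    have := (Nat.Prime.dvd_of_dvd_pow Nat.prime_two h2)
    omega
  obtain ⟨y₁, hy₁⟩ := Equiv.Perm.exists_fixed_point_of_prime (p := 2) (n := b) hcard hf
  have hy₁' : q * y₁.1 * q⁻¹ = y₁.1 := congrArg Subtype.val hy₁
  set u : H := y₁.1 with hu
  have huP : u ∈ P' := y₁.2.1
  have hψu : ψ u = s := y₁.2.2
  have hyP : u⁻¹ * (x * u * x⁻¹) ∈ P' :=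
    P'.mul_mem (P'.inv_mem huP) ((Subgroup.mem_normalizer_iff.1 hxN u).1 huP)
  obtain ⟨k, hk⟩ := hP'3 ⟨_, hyP⟩
  have hk' : (u⁻¹ * (x * u * x⁻¹)) ^ (3 ^ k) = 1 := congrArg Subtype.val hk
  refine ⟨x, u⁻¹ * (x * u * x⁻¹), b, k, hx2, hk', ?_, ?_⟩
  · intro h1
    have hs1 : s ≠ 1 := hψg₁
    apply s3_act (ψ x) s hsx hss hs1
    rw [map_mul, map_mul, map_mul, map_inv, map_inv, hψu] at h1
    have h2 : ψ x * s * (ψ x)⁻¹ = s := by
      have := congrArg (fun t => s * t) h1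
      simpa [mul_assoc] using this
    rw [h2, mul_inv_cancel]
  · have h3 : x * x * u * (x * x)⁻¹ = u := hy₁'
    calc x * (u⁻¹ * (x * u * x⁻¹)) * x⁻¹
        = (x * u * x⁻¹)⁻¹ * (x * x * u * (x * x)⁻¹) := by group
      _ = (x * u * x⁻¹)⁻¹ * u := by rw [h3]
      _ = (u⁻¹ * (x * u * x⁻¹))⁻¹ := by group

/-! ### `S₄` involved gives `S₃` on a `2`-subgroup -/

open scoped Pointwise in
theorem fwd {G : Type*} [Group G] [Finite G] (h : Cfsg.Involves (Equiv.Perm (Fin 4)) G) :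
    ∃ T : Subgroup G, IsPGroup 2 ↥T ∧ Cfsg.Involves (Equiv.Perm (Fin 3))
      (↥(Subgroup.normalizer (T : Set G)) ⧸
        (Subgroup.centralizer (T : Set G)).subgroupOf (Subgroup.normalizer (T : Set G))) := by
  classical
  haveI : Fact (Nat.Prime 2) := ⟨Nat.prime_two⟩
  obtain ⟨K, R, hn, ⟨e⟩⟩ := h
  let φ : K →* Equiv.Perm (Fin 4) := e.toMonoidHom.comp (QuotientGroup.mk' (R.subgroupOf K))
  have hφ : Function.Surjective φ := e.surjective.comp (QuotientGroup.mk'_surjective _)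
  let ψ₀ : K →* Equiv.Perm (Fin 3) := σ.comp φ
  have hψ₀ : Function.Surjective ψ₀ := σ_surj.comp hφ
  let P₀ : Subgroup K := ψ₀.ker
  obtain ⟨Q⟩ : Nonempty (Sylow 2 P₀) := inferInstance
  set TK : Subgroup K := (Q : Subgroup P₀).map P₀.subtype with hTK
  set T : Subgroup G := TK.map K.subtype with hT
  have hTK2 : IsPGroup 2 ↥TK := Q.isPGroup'.map P₀.subtype
  have hT2 : IsPGroup 2 ↥T := hTK2.map K.subtype
  have hfr : Subgroup.normalizer (TK : Set K) ⊔ P₀ = ⊤ := Sylow.normalizer_sup_eq_top Q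
  have hcov : ∀ ρ : Equiv.Perm (Fin 4), σ ρ = 1 → ∃ t ∈ TK, φ t = ρ := by
    intro ρ hρ
    have hρ2 : ρ * ρ = 1 := ker_sq' ρ ((σ_eq_one_iff ρ).1 hρ)
    obtain ⟨k₀, hk₀⟩ := hφ ρ
    obtain ⟨b, m, hm, hom⟩ :=
      Nat.exists_eq_pow_mul_and_not_dvd (orderOf_pos k₀).ne' 2 (by norm_num)
    set k₁ : K := k₀ ^ m with hk₁
    have hk₁2 : k₁ ^ (2 ^ b) = 1 := by
      rw [hk₁, ← pow_mul, mul_comm, ← hom]; exact pow_orderOf_eq_one k₀
    have hφk₁ : φ k₁ = ρ := by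
      rw [hk₁, map_pow, hk₀]
      obtain ⟨c, hc⟩ : Odd m := Nat.odd_iff.2 (by omega)
      rw [hc, pow_succ, pow_mul, pow_two, hρ2, one_pow, one_mul]
    have hk₁P : k₁ ∈ P₀ := by
      rw [MonoidHom.mem_ker]; show σ (φ k₁) = 1; rw [hφk₁, hρ]
    let k₁' : P₀ := ⟨k₁, hk₁P⟩
    have hk₁'2 : k₁' ^ (2 ^ b) = 1 := Subtype.ext (by simpa [k₁'] using hk₁2)
    have hz : IsPGroup 2 ↥(Subgroup.zpowers k₁') := by
      rintro ⟨y, hy⟩
      obtain ⟨n, rfl⟩ := Subgroup.mem_zpowers_iff.1 hy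
      refine ⟨b, Subtype.ext ?_⟩
      show (k₁' ^ n) ^ (2 ^ b) = 1
      rw [← zpow_natCast, ← zpow_mul, mul_comm, zpow_mul, zpow_natCast, hk₁'2, one_zpow]
    obtain ⟨Q', hQ'⟩ := hz.exists_le_sylow
    obtain ⟨g, hg⟩ := MulAction.exists_smul_eq ↥P₀ Q Q'
    have hQ'g : (Q' : Subgroup P₀) = MulAut.conj g • (Q : Subgroup P₀) := by
      rw [← Sylow.coe_subgroup_smul, hg]
    have hmem : k₁' ∈ (Q' : Subgroup P₀) := hQ' (Subgroup.mem_zpowers k₁')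
    have hmem2 : g⁻¹ * k₁' * g ∈ (Q : Subgroup P₀) := by
      rw [hQ'g, Subgroup.mem_pointwise_smul_iff_inv_smul_mem] at hmem
      simpa [MulAut.smul_def] using hmem
    refine ⟨((g⁻¹ * k₁' * g : P₀) : K), ⟨_, hmem2, rfl⟩, ?_⟩
    have hg1 : σ (φ (g : K)) = 1 := g.2
    have hcomm := ker_comm' (φ (g : K)) ρ ((σ_eq_one_iff _).1 hg1) ((σ_eq_one_iff _).1 hρ)
    have hval : ((g⁻¹ * k₁' * g : P₀) : K) = (g : K)⁻¹ * k₁ * (g : K) := rfl
    rw [hval, map_mul, map_mul, map_inv, hφk₁, mul_assoc, ← hcomm, ← mul_assoc, inv_mul_cancel,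
      one_mul]
  let NK : Subgroup K := Subgroup.normalizer (TK : Set K)
  have hι : ∀ y : NK, (K.subtype.comp NK.subtype) y ∈ Subgroup.normalizer (T : Set G) := by
    intro y
    apply mem_normalizer_of_forall_conj_mem
    rintro _ ⟨t, ht, rfl⟩
    exact ⟨(y : K) * t * (y : K)⁻¹, (Subgroup.mem_normalizer_iff.1 y.2 t).1 ht, rfl⟩
  let ι : NK →* ↥(Subgroup.normalizer (T : Set G)) :=
    (K.subtype.comp NK.subtype).codRestrict _ hι
  let ψ : NK →* Equiv.Perm (Fin 3) := ψ₀.comp NK.subtype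
  have hψ : Function.Surjective ψ := by
    intro τ
    obtain ⟨k, hk⟩ := hψ₀ τ
    have hmem : k ∈ Subgroup.normalizer (TK : Set K) ⊔ P₀ := by
      rw [hfr]; exact Subgroup.mem_top _
    obtain ⟨n, hn, a, ha, hna⟩ := Subgroup.mem_sup_of_normal_right.1 hmem
    refine ⟨⟨n, hn⟩, ?_⟩
    show ψ₀ n = τ
    have ha1 : ψ₀ a = 1 := ha
    rw [← hk, ← hna, map_mul, ha1, mul_one]
  refine ⟨T, hT2, involves_quot _ ι ψ hψ ?_⟩
  intro y hy
  have hyC : ((y : K) : G) ∈ Subgroup.centralizer (T : Set G) := hy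
  show σ (φ (y : K)) = 1
  rw [σ_eq_one_iff]
  apply cent_ker'
  intro ρ hρ
  obtain ⟨t, ht, rfl⟩ := hcov ρ ((σ_eq_one_iff ρ).2 hρ)
  rw [← map_mul, ← map_mul]
  congr 1
  apply Subtype.ext
  have := (Subgroup.mem_centralizer_iff.1 hyC) (t : G) ⟨t, ht, rfl⟩
  simpa using this.symm

/-! ### `S₃` on a `2`-subgroup gives `S₄` -/

theorem cm {G : Type*} [Group G] {H : Subgroup G} {g x : G}
    (hg : g ∈ Subgroup.normalizer (H : Set G)) (hx : x ∈ H) : g * x * g⁻¹ ∈ H :=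
  (Subgroup.mem_normalizer_iff.1 hg x).1 hx

theorem cm' {G : Type*} [Group G] {H : Subgroup G} {g x : G}
    (hg : g ∈ Subgroup.normalizer (H : Set G)) (hx : x ∈ H) : g⁻¹ * x * g ∈ H := by
  have := cm (Subgroup.inv_mem _ hg) hx
  rwa [inv_inv] at this

/-- elements of `U` centralized by `g` modulo `U₀` -/
def Dsub {G : Type*} [Group G] (U U₀ : Subgroup G)
    (hn : U ≤ Subgroup.normalizer (U₀ : Set G)) (g : G) : Subgroup G where
  carrier := {u | u ∈ U ∧ g * u * g⁻¹ * u⁻¹ ∈ U₀}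
  one_mem' := ⟨U.one_mem, by simp⟩
  mul_mem' := by
    rintro x y ⟨hx, hx'⟩ ⟨hy, hy'⟩
    refine ⟨U.mul_mem hx hy, ?_⟩
    have h1 : g * (x * y) * g⁻¹ * (x * y)⁻¹
        = (g * x * g⁻¹ * x⁻¹) * (x * (g * y * g⁻¹ * y⁻¹) * x⁻¹) := by group
    rw [h1]
    exact U₀.mul_mem hx' (cm (hn hx) hy')
  inv_mem' := by
    rintro x ⟨hx, hx'⟩
    refine ⟨U.inv_mem hx, ?_⟩
    have h1 : g * x⁻¹ * g⁻¹ * x⁻¹⁻¹ = x⁻¹ * (g * x * g⁻¹ * x⁻¹)⁻¹ * x := by group
    rw [h1]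
    exact cm' (hn hx) (U₀.inv_mem hx')

theorem mem_Dsub {G : Type*} [Group G] {U U₀ : Subgroup G}
    {hn : U ≤ Subgroup.normalizer (U₀ : Set G)} {g u : G} :
    u ∈ Dsub U U₀ hn g ↔ u ∈ U ∧ g * u * g⁻¹ * u⁻¹ ∈ U₀ := Iff.rfl

/-- elements of `U` central modulo `U₀` -/
def Zsub {G : Type*} [Group G] (U U₀ : Subgroup G)
    (hn : U ≤ Subgroup.normalizer (U₀ : Set G)) : Subgroup G where
  carrier := {u | u ∈ U ∧ ∀ g ∈ U, g * u * g⁻¹ * u⁻¹ ∈ U₀}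
  one_mem' := ⟨U.one_mem, fun g _ => by simp⟩
  mul_mem' := by
    rintro x y ⟨hx, hx'⟩ ⟨hy, hy'⟩
    exact ⟨U.mul_mem hx hy, fun g hg => (mem_Dsub.1 ((Dsub U U₀ hn g).mul_mem
      (mem_Dsub.2 ⟨hx, hx' g hg⟩) (mem_Dsub.2 ⟨hy, hy' g hg⟩))).2⟩
  inv_mem' := by
    rintro x ⟨hx, hx'⟩
    exact ⟨U.inv_mem hx, fun g hg => (mem_Dsub.1 ((Dsub U U₀ hn g).inv_mem
      (mem_Dsub.2 ⟨hx, hx' g hg⟩))).2⟩

theorem mem_Zsub {G : Type*} [Group G] {U U₀ : Subgroup G}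
    {hn : U ≤ Subgroup.normalizer (U₀ : Set G)} {u : G} :
    u ∈ Zsub U U₀ hn ↔ u ∈ U ∧ ∀ g ∈ U, g * u * g⁻¹ * u⁻¹ ∈ U₀ := Iff.rfl

theorem closure_conj {G : Type*} [Group G] (S : Set G) (a : G)
    (h : ∀ x ∈ S, a * x * a⁻¹ ∈ Subgroup.closure S) :
    ∀ x ∈ Subgroup.closure S, a * x * a⁻¹ ∈ Subgroup.closure S := by
  have h1 : Subgroup.closure S ≤ (Subgroup.closure S).comap (MulAut.conj a).toMonoidHom := by
    rw [Subgroup.closure_le]
    intro x hx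
    exact h x hx
  intro x hx
  exact h1 hx

theorem card_closure_le {G : Type*} [Group G] [Finite G] (B : Subgroup G) (g : G)
    (hg : ∀ w ∈ B, g * w * g⁻¹ ∈ B) (hg2 : g * g ∈ B) :
    Nat.card ↥(Subgroup.closure ((B : Set G) ∪ {g})) ≤ 2 * Nat.card ↥B := by
  let E : Subgroup G :=
    { carrier := {x | x ∈ B ∨ x * g⁻¹ ∈ B}
      one_mem' := Or.inl B.one_mem
      mul_mem' := by
        rintro x y (hx | hx) (hy | hy)
        · exact Or.inl (B.mul_mem hx hy)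
        · right
          have e : x * y * g⁻¹ = x * (y * g⁻¹) := by group
          show x * y * g⁻¹ ∈ B
          rw [e]; exact B.mul_mem hx hy
        · right
          have e : x * y * g⁻¹ = (x * g⁻¹) * (g * y * g⁻¹) := by group
          show x * y * g⁻¹ ∈ B
          rw [e]; exact B.mul_mem hx (hg y hy)
        · left
          have e : x * y = (x * g⁻¹) * (g * (y * g⁻¹) * g⁻¹) * (g * g) := by group
          show x * y ∈ B
          rw [e]; exact B.mul_mem (B.mul_mem hx (hg _ hy)) hg2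
      inv_mem' := by
        rintro x (hx | hx)
        · exact Or.inl (B.inv_mem hx)
        · right
          have e : x⁻¹ * g⁻¹ = (g * g)⁻¹ * (g * (x * g⁻¹)⁻¹ * g⁻¹) := by group
          show x⁻¹ * g⁻¹ ∈ B
          rw [e]; exact B.mul_mem (B.inv_mem hg2) (hg _ (B.inv_mem hx)) }
  have hle : Subgroup.closure ((B : Set G) ∪ {g}) ≤ E := by
    rw [Subgroup.closure_le]
    rintro x (hx | hx)
    · exact Or.inl hx
    · have hx' : x = g := hx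
      right
      show x * g⁻¹ ∈ B
      rw [hx', mul_inv_cancel]; exact B.one_mem
  have h1 := Subgroup.card_le_of_le hle
  have h2 : Nat.card ↥E ≤ 2 * Nat.card ↥B := by
    have hsub : (E : Set G) ⊆ (B : Set G) ∪ (fun b => b * g) '' (B : Set G) := by
      rintro x (hx | hx)
      · exact Or.inl hx
      · exact Or.inr ⟨x * g⁻¹, hx, by simp⟩
    have h3 : Nat.card ↥E = (E : Set G).ncard := Nat.card_coe_set_eq _
    have h4 : Nat.card ↥B = (B : Set G).ncard := Nat.card_coe_set_eq _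
    rw [h3, h4]
    calc (E : Set G).ncard ≤ ((B : Set G) ∪ (fun b => b * g) '' (B : Set G)).ncard :=
          Set.ncard_le_ncard hsub (Set.toFinite _)
      _ ≤ (B : Set G).ncard + ((fun b => b * g) '' (B : Set G)).ncard := Set.ncard_union_le _ _
      _ ≤ (B : Set G).ncard + (B : Set G).ncard := by
          have := Set.ncard_image_le (f := fun b => b * g) (Set.toFinite (B : Set G))
          omega
      _ = 2 * (B : Set G).ncard := by ring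
  exact h1.trans h2

/-- stability: an odd-order `c` acting trivially on two layers of a `2`-section acts trivially -/
theorem stab {G : Type*} [Group G] (U U₀ : Subgroup G)
    (hn : U ≤ Subgroup.normalizer (U₀ : Set G)) (c : G)
    (hcU₀ : c ∈ Subgroup.normalizer (U₀ : Set G)) (k : ℕ) (hck : c ^ (3 ^ k) = 1) (u : G)
    (hsU : c * u * c⁻¹ * u⁻¹ ∈ U) (m : ℕ) (hs2 : (c * u * c⁻¹ * u⁻¹) ^ (2 ^ m) = 1)
    (hcs : c * (c * u * c⁻¹ * u⁻¹) * c⁻¹ * (c * u * c⁻¹ * u⁻¹)⁻¹ ∈ U₀) :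
    c * u * c⁻¹ * u⁻¹ ∈ U₀ := by
  have hsD : c * u * c⁻¹ * u⁻¹ ∈ Dsub U U₀ hn c := mem_Dsub.2 ⟨hsU, hcs⟩
  have hB : ∀ n : ℕ, c ^ n * u * (c ^ n)⁻¹ * ((c * u * c⁻¹ * u⁻¹) ^ n * u)⁻¹ ∈ U₀ := by
    intro n
    induction n with
    | zero => simp
    | succ n ih =>
      have h1 : c ^ (n + 1) * u * (c ^ (n + 1))⁻¹ * ((c * u * c⁻¹ * u⁻¹) ^ (n + 1) * u)⁻¹
          = (c * (c ^ n * u * (c ^ n)⁻¹ * ((c * u * c⁻¹ * u⁻¹) ^ n * u)⁻¹) * c⁻¹) *
            (c * (c * u * c⁻¹ * u⁻¹) ^ n * c⁻¹ * ((c * u * c⁻¹ * u⁻¹) ^ n)⁻¹) := by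
        rw [pow_succ' c n, pow_succ (c * u * c⁻¹ * u⁻¹) n]
        generalize c ^ n = Cn
        generalize (c * u * c⁻¹ * u⁻¹) ^ n = S
        group
      rw [h1]
      exact U₀.mul_mem (cm hcU₀ ih) (mem_Dsub.1 ((Dsub U U₀ hn c).pow_mem hsD n)).2
  have h3 := hB (3 ^ k)
  rw [hck] at h3
  have h4 : (c * u * c⁻¹ * u⁻¹) ^ (3 ^ k) ∈ U₀ := by
    have e : (1 : G) * u * (1 : G)⁻¹ * ((c * u * c⁻¹ * u⁻¹) ^ 3 ^ k * u)⁻¹
        = ((c * u * c⁻¹ * u⁻¹) ^ (3 ^ k))⁻¹ := by group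
    rw [e] at h3
    exact (Subgroup.inv_mem_iff _).1 h3
  have hcop : Nat.Coprime (3 ^ k) (2 ^ m) := Nat.Coprime.pow _ _ (by norm_num)
  have hb := Nat.gcd_eq_gcd_ab (3 ^ k) (2 ^ m)
  rw [hcop.gcd_eq_one] at hb
  have h6 : (c * u * c⁻¹ * u⁻¹) ^ (((1 : ℕ) : ℤ)) = c * u * c⁻¹ * u⁻¹ := by simp
  rw [hb, zpow_add, zpow_mul, zpow_mul, zpow_natCast, zpow_natCast, hs2, one_zpow, mul_one] at h6
  rw [← h6]
  exact U₀.zpow_mem h4 _

/-- a central involution modulo `U₀`, also centralized by the `2`-element `τ` -/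
theorem exists_central {G : Type*} [Group G] [Finite G] (U U₀ : Subgroup G) (τ : G)
    (hU2 : IsPGroup 2 ↥U) (hn : U ≤ Subgroup.normalizer (U₀ : Set G))
    (hτU : τ ∈ Subgroup.normalizer (U : Set G)) (hτU₀ : τ ∈ Subgroup.normalizer (U₀ : Set G))
    (j : ℕ) (hτ : τ ^ (2 ^ j) = 1) (hne : ∃ u ∈ U, u ∉ U₀) :
    ∃ v ∈ U, v ∉ U₀ ∧ v * v ∈ U₀ ∧ (∀ g ∈ U, g * v * g⁻¹ * v⁻¹ ∈ U₀) ∧
      τ * v * τ⁻¹ * v⁻¹ ∈ U₀ := by
  classical
  haveI : Fact (Nat.Prime 2) := ⟨Nat.prime_two⟩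
  set P : Subgroup G := U ⊔ Subgroup.zpowers τ with hP
  have hUP : U ≤ P := le_sup_left
  have hτP : τ ∈ P := Subgroup.mem_sup_right (Subgroup.mem_zpowers τ)
  have hPU₀ : P ≤ Subgroup.normalizer (U₀ : Set G) := sup_le hn ((Subgroup.zpowers_le).2 hτU₀)
  have hPU : P ≤ Subgroup.normalizer (U : Set G) :=
    sup_le Subgroup.le_normalizer ((Subgroup.zpowers_le).2 hτU)
  have hz2 : IsPGroup 2 ↥(Subgroup.zpowers τ) := by
    rintro ⟨y, hy⟩
    obtain ⟨n, rfl⟩ := Subgroup.mem_zpowers_iff.1 hy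
    refine ⟨j, Subtype.ext ?_⟩
    show (τ ^ n) ^ (2 ^ j) = 1
    rw [← zpow_natCast, ← zpow_mul, mul_comm, zpow_mul, zpow_natCast, hτ, one_zpow]
  have hP2 : IsPGroup 2 ↥P := by
    have := IsPGroup.to_sup_of_normal_right' hz2 hU2 ((Subgroup.zpowers_le).2 hτU)
    rwa [sup_comm] at this
  haveI hn₀ : (U₀.subgroupOf P).Normal := Subgroup.normal_subgroupOf_of_le_normalizer hPU₀
  haveI hnU : (U.subgroupOf P).Normal := Subgroup.normal_subgroupOf_of_le_normalizer hPU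
  let π : ↥P →* ↥P ⧸ U₀.subgroupOf P := QuotientGroup.mk' (U₀.subgroupOf P)
  have hπs : Function.Surjective π := QuotientGroup.mk'_surjective _
  have hQ2 : IsPGroup 2 (↥P ⧸ U₀.subgroupOf P) := hP2.to_quotient _
  haveI : Group.IsNilpotent (↥P ⧸ U₀.subgroupOf P) := hQ2.isNilpotent
  let N : Subgroup (↥P ⧸ U₀.subgroupOf P) := (U.subgroupOf P).map π
  haveI hNn : N.Normal := hnU.map π hπs
  have hπ1 : ∀ x : ↥P, π x = 1 ↔ (x : G) ∈ U₀ := by
    intro x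
    exact QuotientGroup.eq_one_iff x
  have hN : N ≠ ⊥ := by
    obtain ⟨u, hu, hu'⟩ := hne
    intro hbot
    have h1 : π ⟨u, hUP hu⟩ ∈ N := ⟨⟨u, hUP hu⟩, hu, rfl⟩
    rw [hbot, Subgroup.mem_bot] at h1
    exact hu' ((hπ1 _).1 h1)
  have hcen := Cfsg.Agent.Lib.helper7.nilpotent_normal_inf_center_ne_bot N hN
  obtain ⟨z, hz, hz1⟩ := (Subgroup.bot_or_exists_ne_one _).resolve_left hcen
  have hex : ∃ m : ℕ, z ^ (2 ^ m) = 1 := hQ2 z
  have hm0 : Nat.find hex ≠ 0 := by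
    intro h0
    have := Nat.find_spec hex
    rw [h0, pow_zero, pow_one] at this
    exact hz1 this
  obtain ⟨i, hi⟩ := Nat.exists_eq_succ_of_ne_zero hm0
  set w : ↥P ⧸ U₀.subgroupOf P := z ^ (2 ^ i) with hw
  have hw1 : w ≠ 1 := Nat.find_min hex (by omega : i < Nat.find hex)
  have hw2 : w * w = 1 := by
    have h0 : w * w = z ^ (2 ^ Nat.find hex) := by
      rw [hw, ← pow_add, hi, Nat.succ_eq_add_one, pow_succ]; congr 1; ring
    rw [h0]; exact Nat.find_spec hex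
  have hwN : w ∈ N ⊓ Subgroup.center (↥P ⧸ U₀.subgroupOf P) := Subgroup.pow_mem _ hz _
  obtain ⟨v', hv'U, hv'⟩ := (Subgroup.mem_inf.1 hwN).1
  have hcenw : ∀ g : ↥P ⧸ U₀.subgroupOf P, g * w = w * g :=
    fun g => (Subgroup.mem_center_iff.1 (Subgroup.mem_inf.1 hwN).2 g)
  have hgen : ∀ g : ↥P, (g : G) * (v' : G) * (g : G)⁻¹ * (v' : G)⁻¹ ∈ U₀ := by
    intro g
    have h1 : π (g * v' * g⁻¹ * v'⁻¹) = 1 := by
      rw [map_mul, map_mul, map_mul, map_inv, map_inv, hv', hcenw (π g)]; group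
    exact (hπ1 _).1 h1
  refine ⟨(v' : G), hv'U, ?_, ?_, ?_, ?_⟩
  · intro h
    apply hw1
    rw [← hv']; exact (hπ1 v').2 h
  · have h1 : π (v' * v') = 1 := by rw [map_mul, hv', hw2]
    exact (hπ1 _).1 h1
  · intro g hg
    exact hgen ⟨g, hUP hg⟩
  · exact hgen ⟨τ, hτP⟩

/-- the configurations among which a minimal one is chosen -/
structure Good {G : Type*} [Group G] (T : Subgroup G) (c τ : G) (U U₀ : Subgroup G) : Prop where
  le : U₀ ≤ U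
  leT : U ≤ T
  nrm : U ≤ Subgroup.normalizer (U₀ : Set G)
  cU : c ∈ Subgroup.normalizer (U : Set G)
  cU₀ : c ∈ Subgroup.normalizer (U₀ : Set G)
  τU : τ ∈ Subgroup.normalizer (U : Set G)
  τU₀ : τ ∈ Subgroup.normalizer (U₀ : Set G)
  nt : ∃ u ∈ U, c * u * c⁻¹ * u⁻¹ ∉ U₀

theorem core {G : Type*} [Group G] [Finite G] (T : Subgroup G) (hT : IsPGroup 2 ↥T) (τ c : G)
    (hτN : τ ∈ Subgroup.normalizer (T : Set G)) (hcN : c ∈ Subgroup.normalizer (T : Set G))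
    (j k : ℕ) (hτ : τ ^ (2 ^ j) = 1) (hck : c ^ (3 ^ k) = 1) (hinv : τ * c * τ⁻¹ = c⁻¹)
    (hcC : c ∉ Subgroup.centralizer (T : Set G))
    (hc3 : c ^ 3 ∈ Subgroup.centralizer (T : Set G)) :
    Cfsg.Involves (Equiv.Perm (Fin 4)) G := by
  classical
  have hbotN : ∀ g : G, g ∈ Subgroup.normalizer ((⊥ : Subgroup G) : Set G) := by
    intro g
    rw [Subgroup.mem_normalizer_iff]
    intro h
    simp
  have hgood0 : Good T c τ T ⊥ := by
    refine ⟨bot_le, le_rfl, fun u _ => hbotN u, hcN, hbotN c, hτN, hbotN τ, ?_⟩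
    by_contra hcon
    push Not at hcon
    apply hcC
    rw [Subgroup.mem_centralizer_iff]
    intro u hu
    have h0 := hcon u hu
    rw [Subgroup.mem_bot] at h0
    have h1 : c * u = u * c := by
      calc c * u = (c * u * c⁻¹ * u⁻¹) * (u * c) := by group
        _ = u * c := by rw [h0, one_mul]
    exact h1.symm
  have hexG : ∃ n : ℕ, ∃ U U₀ : Subgroup G, Good T c τ U U₀ ∧ U₀.relIndex U = n :=
    ⟨_, T, ⊥, hgood0, rfl⟩
  obtain ⟨U, U₀, hG, hnn⟩ := Nat.find_spec hexG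
  have hmin : ∀ U' U₀' : Subgroup G, Good T c τ U' U₀' → U₀.relIndex U ≤ U₀'.relIndex U' := by
    intro U' U₀' h'
    rw [hnn]
    exact Nat.find_min' hexG ⟨U', U₀', h', rfl⟩
  have hn := hG.nrm
  have hrel0 : ∀ A B : Subgroup G, A.relIndex B ≠ 0 :=
    fun A B => Subgroup.index_ne_zero_of_finite
  have hM1a : ∀ X : Subgroup G, U₀ ≤ X → X ≤ U → c ∈ Subgroup.normalizer (X : Set G) →
      τ ∈ Subgroup.normalizer (X : Set G) → X ≠ U → ∀ u ∈ X, c * u * c⁻¹ * u⁻¹ ∈ U₀ := by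
    intro X h1 h2 h3 h4 h5
    by_contra hcon
    push Not at hcon
    have hg : Good T c τ X U₀ :=
      ⟨h1, h2.trans hG.leT, h2.trans hn, h3, hG.cU₀, h4, hG.τU₀, hcon⟩
    have h6 := hmin X U₀ hg
    have h7 := Subgroup.relIndex_mul_relIndex U₀ X U h1 h2
    have h8 : X.relIndex U ≠ 1 := fun h => h5 (le_antisymm h2 (Subgroup.relIndex_eq_one.1 h))
    have h9 := hrel0 X U
    have h10 := hrel0 U₀ X
    have h11 : 2 ≤ X.relIndex U := by omega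
    have h12 : U₀.relIndex X * 2 ≤ U₀.relIndex X * X.relIndex U := Nat.mul_le_mul_left _ h11
    omega
  have hM1b : ∀ X : Subgroup G, U₀ ≤ X → X ≤ U → c ∈ Subgroup.normalizer (X : Set G) →
      τ ∈ Subgroup.normalizer (X : Set G) → U ≤ Subgroup.normalizer (X : Set G) → X ≠ U₀ →
      ∀ u ∈ U, c * u * c⁻¹ * u⁻¹ ∈ X := by
    intro X h1 h2 h3 h4 hnX h5
    by_contra hcon
    push Not at hcon
    have hg : Good T c τ U X := ⟨h2, hG.leT, hnX, hG.cU, h3, hG.τU, h4, hcon⟩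
    have h6 := hmin U X hg
    have h7 := Subgroup.relIndex_mul_relIndex U₀ X U h1 h2
    have h8 : U₀.relIndex X ≠ 1 := fun h => h5 (le_antisymm (Subgroup.relIndex_eq_one.1 h) h1)
    have h9 := hrel0 X U
    have h10 := hrel0 U₀ X
    have h11 : 2 ≤ U₀.relIndex X := by omega
    have h12 : 2 * X.relIndex U ≤ U₀.relIndex X * X.relIndex U := Nat.mul_le_mul_right _ h11
    omega
  have hM1 : ∀ X : Subgroup G, U₀ ≤ X → X ≤ U → c ∈ Subgroup.normalizer (X : Set G) →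
      τ ∈ Subgroup.normalizer (X : Set G) → U ≤ Subgroup.normalizer (X : Set G) →
      X = U₀ ∨ X = U := by
    intro X h1 h2 h3 h4 hnX
    by_contra hcon
    push Not at hcon
    obtain ⟨u, hu, hu'⟩ := hG.nt
    apply hu'
    have hsX : c * u * c⁻¹ * u⁻¹ ∈ X := hM1b X h1 h2 h3 h4 hnX hcon.1 u hu
    have hsU : c * u * c⁻¹ * u⁻¹ ∈ U := h2 hsX
    obtain ⟨m, hm⟩ := hT ⟨_, hG.leT hsU⟩
    have hm' : (c * u * c⁻¹ * u⁻¹) ^ (2 ^ m) = 1 := congrArg Subtype.val hm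
    exact stab U U₀ hn c hG.cU₀ k hck u hsU m hm' (hM1a X h1 h2 h3 h4 hcon.2 _ hsX)
  have hZconj : ∀ a : G, a ∈ Subgroup.normalizer (U : Set G) →
      a ∈ Subgroup.normalizer (U₀ : Set G) → ∀ x ∈ Zsub U U₀ hn, a * x * a⁻¹ ∈ Zsub U U₀ hn := by
    intro a haU haU₀ x hx
    obtain ⟨hxU, hxc⟩ := mem_Zsub.1 hx
    refine mem_Zsub.2 ⟨cm haU hxU, fun g hg => ?_⟩
    have e1 : g * (a * x * a⁻¹) * g⁻¹ * (a * x * a⁻¹)⁻¹
        = a * ((a⁻¹ * g * a) * x * (a⁻¹ * g * a)⁻¹ * x⁻¹) * a⁻¹ := by group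
    rw [e1]
    exact cm haU₀ (hxc _ (cm' haU hg))
  have hτc' : τ⁻¹ * c * τ = c⁻¹ := by
    have h0 : c = τ⁻¹ * c⁻¹ * τ := by rw [← hinv]; group
    calc τ⁻¹ * c * τ = (τ⁻¹ * c⁻¹ * τ)⁻¹ := by group
      _ = c⁻¹ := by rw [← h0]
  have hKEY : ∀ x ∈ Zsub U U₀ hn, c * x * c⁻¹ * x⁻¹ ∈ U₀ → x ∈ U₀ := by
    set X : Subgroup G := Zsub U U₀ hn ⊓ Dsub U U₀ hn c with hX
    have hU₀X : U₀ ≤ X := by
      intro w hw
      exact Subgroup.mem_inf.2 ⟨mem_Zsub.2 ⟨hG.le hw, fun g hg =>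
        U₀.mul_mem (cm (hn hg) hw) (U₀.inv_mem hw)⟩,
        mem_Dsub.2 ⟨hG.le hw, U₀.mul_mem (cm hG.cU₀ hw) (U₀.inv_mem hw)⟩⟩
    have hXU : X ≤ U := fun x hx => (mem_Zsub.1 (Subgroup.mem_inf.1 hx).1).1
    have hcX : c ∈ Subgroup.normalizer (X : Set G) := by
      apply mem_normalizer_of_forall_conj_mem
      intro x hx
      obtain ⟨hxZ, hxD⟩ := Subgroup.mem_inf.1 hx
      obtain ⟨hxU, hxc⟩ := mem_Dsub.1 hxD
      refine Subgroup.mem_inf.2 ⟨hZconj c hG.cU hG.cU₀ x hxZ, mem_Dsub.2 ⟨cm hG.cU hxU, ?_⟩⟩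
      have e1 : c * (c * x * c⁻¹) * c⁻¹ * (c * x * c⁻¹)⁻¹ = c * (c * x * c⁻¹ * x⁻¹) * c⁻¹ := by
        group
      rw [e1]; exact cm hG.cU₀ hxc
    have hτX : τ ∈ Subgroup.normalizer (X : Set G) := by
      apply mem_normalizer_of_forall_conj_mem
      intro x hx
      obtain ⟨hxZ, hxD⟩ := Subgroup.mem_inf.1 hx
      obtain ⟨hxU, hxc⟩ := mem_Dsub.1 hxD
      refine Subgroup.mem_inf.2 ⟨hZconj τ hG.τU hG.τU₀ x hxZ, mem_Dsub.2 ⟨cm hG.τU hxU, ?_⟩⟩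
      have e1 : c * (τ * x * τ⁻¹) * c⁻¹ * (τ * x * τ⁻¹)⁻¹
          = τ * ((τ⁻¹ * c * τ) * x * (τ⁻¹ * c * τ)⁻¹ * x⁻¹) * τ⁻¹ := by group
      rw [e1, hτc']
      have e2 : c⁻¹ * x * c⁻¹⁻¹ * x⁻¹ = c⁻¹ * (c * x * c⁻¹ * x⁻¹)⁻¹ * c := by group
      rw [e2]
      exact cm hG.τU₀ (cm' hG.cU₀ (U₀.inv_mem hxc))
    have hUX : U ≤ Subgroup.normalizer (X : Set G) := by
      intro g hg
      apply mem_normalizer_of_forall_conj_mem
      intro x hx
      have e1 : g * x * g⁻¹ = (g * x * g⁻¹ * x⁻¹) * x := by group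
      rw [e1]
      exact X.mul_mem (hU₀X ((mem_Zsub.1 (Subgroup.mem_inf.1 hx).1).2 g hg)) hx
    rcases hM1 X hU₀X hXU hcX hτX hUX with h | h
    · intro x hx hx'
      have h1 : x ∈ X := Subgroup.mem_inf.2 ⟨hx, mem_Dsub.2 ⟨(mem_Zsub.1 hx).1, hx'⟩⟩
      rw [h] at h1; exact h1
    · exfalso
      obtain ⟨u, hu, hu'⟩ := hG.nt
      have h1 : u ∈ X := by rw [h]; exact hu
      exact hu' (mem_Dsub.1 (Subgroup.mem_inf.1 h1).2).2
  have hneU : ∃ u ∈ U, u ∉ U₀ := by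
    obtain ⟨u, hu, hu'⟩ := hG.nt
    by_contra hcon
    push Not at hcon
    exact hu' (hcon _ (U.mul_mem (cm hG.cU hu) (U.inv_mem hu)))
  obtain ⟨v, hvU, hvU₀, hvv, hvZ', hvτ⟩ :=
    exists_central U U₀ τ (hT.to_le hG.leT) hn hG.τU hG.τU₀ j hτ hneU
  have hvZ : v ∈ Zsub U U₀ hn := mem_Zsub.2 ⟨hvU, hvZ'⟩
  obtain ⟨v₁, hv₁⟩ : ∃ v₁, v₁ = c * v * c⁻¹ := ⟨_, rfl⟩
  obtain ⟨v₂, hv₂⟩ : ∃ v₂, v₂ = c * v₁ * c⁻¹ := ⟨_, rfl⟩
  have hv₁Z : v₁ ∈ Zsub U U₀ hn := by rw [hv₁]; exact hZconj c hG.cU hG.cU₀ v hvZ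
  have hv₂Z : v₂ ∈ Zsub U U₀ hn := by rw [hv₂]; exact hZconj c hG.cU hG.cU₀ v₁ hv₁Z
  have hv₁U : v₁ ∈ U := (mem_Zsub.1 hv₁Z).1
  have hv₂U : v₂ ∈ U := (mem_Zsub.1 hv₂Z).1
  have hv3 : c * v₂ * c⁻¹ = v := by
    have h := (Subgroup.mem_centralizer_iff.1 hc3) v (hG.leT hvU)
    have hc3' : c ^ 3 = c * c * c := by rw [pow_succ, pow_two]
    rw [hc3'] at h
    rw [hv₂, hv₁]
    calc c * (c * (c * v * c⁻¹) * c⁻¹) * c⁻¹ = (c * c * c) * v * (c * c * c)⁻¹ := by group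
      _ = v * (c * c * c) * (c * c * c)⁻¹ := by rw [h]
      _ = v := by group
  have hv₂c : v₂ = c⁻¹ * v * c := by rw [← hv3]; group
  have hzZ : v * v₁ * v₂ ∈ Zsub U U₀ hn :=
    (Zsub U U₀ hn).mul_mem ((Zsub U U₀ hn).mul_mem hvZ hv₁Z) hv₂Z
  have hzU₀ : v * v₁ * v₂ ∈ U₀ := by
    apply hKEY _ hzZ
    have e1 : c * (v * v₁ * v₂) * c⁻¹ = v₁ * v₂ * v := by
      calc c * (v * v₁ * v₂) * c⁻¹ = (c * v * c⁻¹) * (c * v₁ * c⁻¹) * (c * v₂ * c⁻¹) := by group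
        _ = v₁ * v₂ * v := by rw [← hv₁, ← hv₂, hv3]
    rw [e1]
    have e2 : v₁ * v₂ * v * (v * v₁ * v₂)⁻¹ = (v₁ * v₂) * v * (v₁ * v₂)⁻¹ * v⁻¹ := by group
    rw [e2]
    exact hvZ' _ (U.mul_mem hv₁U hv₂U)
  set W : Subgroup G := Subgroup.closure ((U₀ : Set G) ∪ {v, v₁}) with hW
  have hU₀W : U₀ ≤ W := fun w hw => Subgroup.subset_closure (Or.inl hw)
  have hvW : v ∈ W := Subgroup.subset_closure (Or.inr (Or.inl rfl))
  have hv₁W : v₁ ∈ W := Subgroup.subset_closure (Or.inr (Or.inr rfl))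
  have hv₂W : v₂ ∈ W := by
    have e : v₂ = v₁⁻¹ * v⁻¹ * (v * v₁ * v₂) := by group
    rw [e]
    exact W.mul_mem (W.mul_mem (W.inv_mem hv₁W) (W.inv_mem hvW)) (hU₀W hzU₀)
  have hWU : W ≤ U := by
    rw [hW, Subgroup.closure_le]
    rintro x (hx | hx | hx)
    · exact hG.le hx
    · have hx' : x = v := hx
      rw [hx']; exact hvU
    · have hx' : x = v₁ := hx
      rw [hx']; exact hv₁U
  have hcW : c ∈ Subgroup.normalizer (W : Set G) := by
    apply mem_normalizer_of_forall_conj_mem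
    apply closure_conj
    rintro x (hx | hx | hx)
    · exact hU₀W (cm hG.cU₀ hx)
    · have hx' : x = v := hx
      rw [hx', ← hv₁]; exact hv₁W
    · have hx' : x = v₁ := hx
      rw [hx', ← hv₂]; exact hv₂W
  have hτv₁ : τ * v₁ * τ⁻¹ = (c⁻¹ * (τ * v * τ⁻¹ * v⁻¹) * c) * v₂ := by
    have e1 : τ * (c * v * c⁻¹) * τ⁻¹ = (τ * c * τ⁻¹) * (τ * v * τ⁻¹) * (τ * c * τ⁻¹)⁻¹ := by
      group
    rw [hv₁, e1, hinv, hv₂c]
    group
  have hτW : τ ∈ Subgroup.normalizer (W : Set G) := by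
    apply mem_normalizer_of_forall_conj_mem
    apply closure_conj
    rintro x (hx | hx | hx)
    · exact hU₀W (cm hG.τU₀ hx)
    · have hx' : x = v := hx
      rw [hx']
      have e1 : τ * v * τ⁻¹ = (τ * v * τ⁻¹ * v⁻¹) * v := by group
      rw [e1]; exact W.mul_mem (hU₀W hvτ) hvW
    · have hx' : x = v₁ := hx
      rw [hx', hτv₁]
      exact W.mul_mem (hU₀W (cm' hG.cU₀ hvτ)) hv₂W
  have hUW : U ≤ Subgroup.normalizer (W : Set G) := by
    intro g hg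
    apply mem_normalizer_of_forall_conj_mem
    apply closure_conj
    rintro x (hx | hx | hx)
    · exact hU₀W (cm (hn hg) hx)
    · have hx' : x = v := hx
      rw [hx']
      have e1 : g * v * g⁻¹ = (g * v * g⁻¹ * v⁻¹) * v := by group
      rw [e1]; exact W.mul_mem (hU₀W (hvZ' g hg)) hvW
    · have hx' : x = v₁ := hx
      rw [hx']
      have e1 : g * v₁ * g⁻¹ = (g * v₁ * g⁻¹ * v₁⁻¹) * v₁ := by group
      rw [e1]; exact W.mul_mem (hU₀W ((mem_Zsub.1 hv₁Z).2 g hg)) hv₁W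
  have hWeq : W = U := by
    rcases hM1 W hU₀W hWU hcW hτW hUW with h | h
    · exfalso; apply hvU₀; rw [← h]; exact hvW
    · exact h
  have hidx : U₀.relIndex U ≤ 4 := by
    set A : Subgroup G := Subgroup.closure ((U₀ : Set G) ∪ {v}) with hA
    have hU₀A : U₀ ≤ A := fun w hw => Subgroup.subset_closure (Or.inl hw)
    have hvA : v ∈ A := Subgroup.subset_closure (Or.inr rfl)
    have hA2 : Nat.card ↥A ≤ 2 * Nat.card ↥U₀ :=
      card_closure_le U₀ v (fun w hw => cm (hn hvU) hw) hvv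
    have hv₁A : ∀ w ∈ A, v₁ * w * v₁⁻¹ ∈ A := by
      apply closure_conj
      rintro x (hx | hx)
      · exact hU₀A (cm (hn hv₁U) hx)
      · have hx' : x = v := hx
        rw [hx']
        have e1 : v₁ * v * v₁⁻¹ = (v₁ * v * v₁⁻¹ * v⁻¹) * v := by group
        rw [e1]; exact A.mul_mem (hU₀A (hvZ' v₁ hv₁U)) hvA
    have hv₁v₁ : v₁ * v₁ ∈ A := by
      have e1 : v₁ * v₁ = c * (v * v) * c⁻¹ := by rw [hv₁]; group
      rw [e1]; exact hU₀A (cm hG.cU₀ hvv)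
    have hB2 := card_closure_le A v₁ hv₁A hv₁v₁
    have hUle : U ≤ Subgroup.closure ((A : Set G) ∪ {v₁}) := by
      rw [← hWeq, hW, Subgroup.closure_le]
      rintro x (hx | hx | hx)
      · exact Subgroup.subset_closure (Or.inl (hU₀A hx))
      · have hx' : x = v := hx
        rw [hx']; exact Subgroup.subset_closure (Or.inl hvA)
      · exact Subgroup.subset_closure (Or.inr hx)
    have h1 : Nat.card ↥U ≤ 4 * Nat.card ↥U₀ := by
      have := Subgroup.card_le_of_le hUle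
      omega
    have h2 : Nat.card ↥(U₀.subgroupOf U) * (U₀.subgroupOf U).index = Nat.card ↥U :=
      Subgroup.card_mul_index _
    have h3 : Nat.card ↥(U₀.subgroupOf U) = Nat.card ↥U₀ :=
      Nat.card_congr (Subgroup.subgroupOfEquivOfLe hG.le).toEquiv
    have h4 : 0 < Nat.card ↥U₀ := Nat.card_pos
    have h5 : U₀.relIndex U = (U₀.subgroupOf U).index := rfl
    rw [h5]
    rw [h3] at h2
    by_contra hcon
    push Not at hcon
    have h6 : Nat.card ↥U₀ * 5 ≤ Nat.card ↥U₀ * (U₀.subgroupOf U).index :=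
      Nat.mul_le_mul_left _ hcon
    omega
  have hτnt : ∃ u ∈ U, τ * u * τ⁻¹ * u⁻¹ ∉ U₀ := by
    refine ⟨v₁, hv₁U, fun hcon => ?_⟩
    rw [hτv₁] at hcon
    have ht : c⁻¹ * (τ * v * τ⁻¹ * v⁻¹) * c ∈ U₀ := cm' hG.cU₀ hvτ
    have h1 : v₂ * v₁⁻¹ ∈ U₀ := by
      have e1 : v₂ * v₁⁻¹ = (c⁻¹ * (τ * v * τ⁻¹ * v⁻¹) * c)⁻¹ *
          (c⁻¹ * (τ * v * τ⁻¹ * v⁻¹) * c * v₂ * v₁⁻¹) := by group
      rw [e1]; exact U₀.mul_mem (U₀.inv_mem ht) hcon
    have h2 : v₁ ∈ U₀ := by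
      apply hKEY v₁ hv₁Z
      rw [← hv₂]; exact h1
    apply hvU₀
    have e2 : v = c⁻¹ * v₁ * c := by rw [hv₁]; group
    rw [e2]; exact cm' hG.cU₀ h2
  exact s4_involved U U₀ c τ hG.le hidx (fun u hu => cm hG.cU hu) (fun u hu => cm hG.cU₀ hu)
    (fun u hu => cm hG.τU hu) (fun u hu => cm hG.τU₀ hu) (fun u hu w hw => cm (hn hu) hw)
    k hck j hτ (by rw [hinv]; exact Subgroup.inv_mem _ (Subgroup.mem_zpowers c)) hG.nt hτnt

theorem core0 {G : Type*} [Group G] [Finite G] (T : Subgroup G) (hT : IsPGroup 2 ↥T) (τ c₀ : G)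
    (hτN : τ ∈ Subgroup.normalizer (T : Set G)) (hcN : c₀ ∈ Subgroup.normalizer (T : Set G))
    (j k : ℕ) (hτ : τ ^ (2 ^ j) = 1) (hc : c₀ ^ (3 ^ k) = 1) (hinv : τ * c₀ * τ⁻¹ = c₀⁻¹)
    (hcC : c₀ ∉ Subgroup.centralizer (T : Set G)) :
    Cfsg.Involves (Equiv.Perm (Fin 4)) G := by
  classical
  have hex : ∃ a : ℕ, c₀ ^ (3 ^ a) ∈ Subgroup.centralizer (T : Set G) :=
    ⟨k, by rw [hc]; exact Subgroup.one_mem _⟩
  have ha0 : Nat.find hex ≠ 0 := by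
    intro h0
    have := Nat.find_spec hex
    rw [h0, pow_zero, pow_one] at this
    exact hcC this
  obtain ⟨i, hi⟩ := Nat.exists_eq_succ_of_ne_zero ha0
  have hcC' : c₀ ^ (3 ^ i) ∉ Subgroup.centralizer (T : Set G) :=
    Nat.find_min hex (by omega : i < Nat.find hex)
  have hc3 : (c₀ ^ (3 ^ i)) ^ 3 ∈ Subgroup.centralizer (T : Set G) := by
    have h0 : (c₀ ^ (3 ^ i)) ^ 3 = c₀ ^ (3 ^ Nat.find hex) := by
      rw [← pow_mul, hi, Nat.succ_eq_add_one, pow_succ]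
    rw [h0]; exact Nat.find_spec hex
  have hck : (c₀ ^ (3 ^ i)) ^ (3 ^ k) = 1 := by
    rw [← pow_mul, mul_comm, pow_mul, hc, one_pow]
  have hinv' : τ * c₀ ^ (3 ^ i) * τ⁻¹ = (c₀ ^ (3 ^ i))⁻¹ := by
    rw [← conj_pow, hinv, inv_pow]
  exact core T hT τ (c₀ ^ (3 ^ i)) hτN (Subgroup.pow_mem _ hcN _) j k hτ hck hinv' hcC' hc3

theorem bwd {G : Type*} [Group G] [Finite G] (T : Subgroup G) (hT : IsPGroup 2 ↥T)
    (h : Cfsg.Involves (Equiv.Perm (Fin 3)) (↥(Subgroup.normalizer (T : Set G)) ⧸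
        (Subgroup.centralizer (T : Set G)).subgroupOf (Subgroup.normalizer (T : Set G)))) :
    Cfsg.Involves (Equiv.Perm (Fin 4)) G := by
  classical
  obtain ⟨K, R, hn, ⟨e⟩⟩ := h
  let f : K →* Equiv.Perm (Fin 3) := e.toMonoidHom.comp (QuotientGroup.mk' (R.subgroupOf K))
  have hf : Function.Surjective f := e.surjective.comp (QuotientGroup.mk'_surjective _)
  let q := QuotientGroup.mk' ((Subgroup.centralizer (T : Set G)).subgroupOf
    (Subgroup.normalizer (T : Set G)))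
  let ψ : K.comap q →* Equiv.Perm (Fin 3) := f.comp (q.subgroupComap K)
  have hψ : Function.Surjective ψ :=
    hf.comp (q.subgroupComap_surjective_of_surjective K (QuotientGroup.mk'_surjective _))
  have hker : ∀ y : K.comap q,
      (((y : ↥(Subgroup.normalizer (T : Set G))) : G)) ∈ Subgroup.centralizer (T : Set G) →
      ψ y = 1 := by
    intro y hy
    have h1 : q (y : ↥(Subgroup.normalizer (T : Set G))) = 1 :=
      (QuotientGroup.eq_one_iff _).2 hy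
    have h2 : q.subgroupComap K y = 1 := Subtype.ext h1
    show f (q.subgroupComap K y) = 1
    rw [h2, map_one]
  obtain ⟨x, y, j, k, hx, hy, hψy, hxy⟩ := exists_inverted ψ hψ
  have hyC : (((y : ↥(Subgroup.normalizer (T : Set G))) : G)) ∉
      Subgroup.centralizer (T : Set G) := fun h => hψy (hker y h)
  have hτ : (((x : ↥(Subgroup.normalizer (T : Set G))) : G)) ^ (2 ^ j) = 1 := by
    have := congrArg (fun z : K.comap q => ((z : ↥(Subgroup.normalizer (T : Set G))) : G)) hx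
    simpa using this
  have hc : (((y : ↥(Subgroup.normalizer (T : Set G))) : G)) ^ (3 ^ k) = 1 := by
    have := congrArg (fun z : K.comap q => ((z : ↥(Subgroup.normalizer (T : Set G))) : G)) hy
    simpa using this
  have hinv : ((x : ↥(Subgroup.normalizer (T : Set G))) : G) *
      ((y : ↥(Subgroup.normalizer (T : Set G))) : G) *
      ((x : ↥(Subgroup.normalizer (T : Set G))) : G)⁻¹ =
      ((y : ↥(Subgroup.normalizer (T : Set G))) : G)⁻¹ := by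
    have := congrArg (fun z : K.comap q => ((z : ↥(Subgroup.normalizer (T : Set G))) : G)) hxy
    simpa using this
  exact core0 T hT _ _ (x : ↥(Subgroup.normalizer (T : Set G))).2
    (y : ↥(Subgroup.normalizer (T : Set G))).2 j k hτ hc hinv hyC

/-- For a finite group G, the symmetric group of degree 4 is involved in G if and only if there is a 2-subgroup T of G such that the symmetric group of degree 3 is involved in N(T)/C(T). -/
theorem result {G : Type*} [Group G] [Finite G] : Cfsg.Involves (Equiv.Perm (Fin 4)) G ↔ ∃ T : Subgroup G, IsPGroup 2 ↥T ∧ Cfsg.Involves (Equiv.Perm (Fin 3)) (↥(Subgroup.normalizer (T : Set G)) ⧸ (Subgroup.centralizer (T : Set G)).subgroupOf (Subgroup.normalizer (T : Set G))) := by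
  constructor
  · exact fwd
  · rintro ⟨T, hT, h⟩
    exact bwd T hT h

end Cfsg.Agent.S2759
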