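import Cfsg.Statements.S2762
import Mathlib
import Cfsg.Agent.Lib.helper15.QdNS
import Cfsg.Agent.Lib.helper15.PCore

set_option autoImplicit false
open Cfsg
open Cfsg.Agent.Lib.helper15 Cfsg.Agent.Lib.helper15.Qd

namespace Cfsg.Agent.S2762

variable {F : Type*} [Field F]

theorem aff_mem (A : Dk.SL2 F) (t : Fin 2 → F) : aff A t ∈ Cfsg.qdOver F := by
  apply Subgroup.subset_closure
  refine ⟨?_, ?_, ?_⟩ <;> simp [aff, blkM]

theorem exists_aff (M : Matrix.SpecialLinearGroup (Fin 3) F) (hM : M ∈ Cfsg.qdOver F) :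
    ∃ (A : Dk.SL2 F) (t : Fin 2 → F), M = aff A t := by
  unfold Cfsg.qdOver at hM
  induction hM using Subgroup.closure_induction with
  | mem M hM =>
    obtain ⟨h0, h1, h2⟩ := hM
    have hdet := M.2
    rw [Matrix.det_fin_three, h0, h1, h2] at hdet
    refine ⟨⟨!![(M : Matrix (Fin 3) (Fin 3) F) 0 0, (M : Matrix (Fin 3) (Fin 3) F) 0 1;
      (M : Matrix (Fin 3) (Fin 3) F) 1 0, (M : Matrix (Fin 3) (Fin 3) F) 1 1], ?_⟩,
      ![(M : Matrix (Fin 3) (Fin 3) F) 0 2, (M : Matrix (Fin 3) (Fin 3) F) 1 2], ?_⟩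
    · rw [Matrix.det_fin_two_of]
      linear_combination hdet
    · apply Subtype.ext
      show (M : Matrix (Fin 3) (Fin 3) F) = blkM _ _
      ext i j
      fin_cases i <;> fin_cases j <;> simp [blkM, h0, h1, h2]
  | one => exact ⟨1, 0, aff_one.symm⟩
  | mul x y _ _ hx hy =>
    obtain ⟨A, t, rfl⟩ := hx
    obtain ⟨B, s, rfl⟩ := hy
    exact ⟨_, _, aff_mul A B t s⟩
  | inv x _ hx =>
    obtain ⟨A, t, rfl⟩ := hx
    exact ⟨_, _, aff_inv A t⟩

/-- A normal `p`-subgroup of `SL₂(F)`, `F` of characteristic `p`, is trivial. -/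
theorem sl2_normal_p_trivial {p : ℕ} [Fact p.Prime] [CharP F p] (N : Subgroup (Dk.SL2 F))
    (hN : N.Normal) (hp : IsPGroup p N) : N = ⊥ := by
  rw [eq_bot_iff]
  intro g hg
  rw [Subgroup.mem_bot]
  have htr : ∀ x ∈ N, Dk.tr x = 2 := by
    intro x hx
    obtain ⟨k, hk⟩ := hp ⟨x, hx⟩
    have h1 : x ^ (p ^ k) = 1 := by
      have := congrArg Subtype.val hk
      simpa using this
    exact Dk.tr_of_pow_char p x k h1
  have h1 := htr g hg
  have h2 := htr (g * (Dk.uu 1 * g * (Dk.uu 1)⁻¹)) (N.mul_mem hg (hN.conj_mem g hg _))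
  have h3 := htr (g * (Dk.ll 1 * g * (Dk.ll 1)⁻¹)) (N.mul_mem hg (hN.conj_mem g hg _))
  have hd := Dk.det_eq g
  simp only [Dk.tr, Dk.ea_mul, Dk.eb_mul, Dk.ec_mul, Dk.ed_mul, Dk.ea_inv, Dk.eb_inv, Dk.ec_inv,
    Dk.ed_inv, Dk.ea_uu, Dk.eb_uu, Dk.ec_uu, Dk.ed_uu, Dk.ea_ll, Dk.eb_ll, Dk.ec_ll, Dk.ed_ll]
    at h1 h2 h3
  have hc : Dk.ec g = 0 := by
    have : Dk.ec g * Dk.ec g = 0 := by
      linear_combination (Dk.ea g + Dk.ed g + 2) * h1 - 2 * hd - h2
    exact mul_self_eq_zero.mp this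
  have hb : Dk.eb g = 0 := by
    have : Dk.eb g * Dk.eb g = 0 := by
      linear_combination (Dk.ea g + Dk.ed g + 2) * h1 - 2 * hd - h3
    exact mul_self_eq_zero.mp this
  have ha : Dk.ea g = 1 := by
    have : (Dk.ea g - 1) * (Dk.ea g - 1) = 0 := by
      linear_combination (Dk.ea g) * h1 - hd - Dk.ec g * hb
    exact sub_eq_zero.mp (mul_self_eq_zero.mp this)
  have hd' : Dk.ed g = 1 := by linear_combination h1 - ha
  apply Dk.ext4
  · rw [ha, Dk.ea_one]
  · rw [hb, Dk.eb_one]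
  · rw [hc, Dk.ec_one]
  · rw [hd', Dk.ed_one]

/-- The linear part. -/
noncomputable def lin (M : ↥(Cfsg.qdOver F)) : Dk.SL2 F := Classical.choose (exists_aff M.1 M.2)

/-- The translation part. -/
noncomputable def tra (M : ↥(Cfsg.qdOver F)) : Fin 2 → F :=
  Classical.choose (Classical.choose_spec (exists_aff M.1 M.2))

theorem spec (M : ↥(Cfsg.qdOver F)) :
    (M : Matrix.SpecialLinearGroup (Fin 3) F) = aff (lin M) (tra M) :=
  Classical.choose_spec (Classical.choose_spec (exists_aff M.1 M.2))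

theorem lin_eq {M : ↥(Cfsg.qdOver F)} {A : Dk.SL2 F} {t : Fin 2 → F}
    (h : (M : Matrix.SpecialLinearGroup (Fin 3) F) = aff A t) : lin M = A ∧ tra M = t := by
  have h1 := spec M
  rw [h] at h1
  have h2 := aff_inj h1
  exact ⟨h2.1.symm, h2.2.symm⟩

/-- The projection onto the linear part. -/
noncomputable def π : ↥(Cfsg.qdOver F) →* Dk.SL2 F where
  toFun := lin
  map_one' := (lin_eq (M := 1) (by rw [aff_one]; rfl)).1
  map_mul' := fun M N => by
    refine (lin_eq (M := M * N)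
      (t := ((lin M : Dk.SL2 F) : Matrix (Fin 2) (Fin 2) F).mulVec (tra N) + tra M) ?_).1
    rw [Subgroup.coe_mul, spec M, spec N, aff_mul]

theorem π_apply (M : ↥(Cfsg.qdOver F)) : π M = lin M := rfl

/-- The complement. -/
def ι : Dk.SL2 F →* ↥(Cfsg.qdOver F) where
  toFun A := ⟨aff A 0, aff_mem A 0⟩
  map_one' := Subtype.ext aff_one
  map_mul' A B := Subtype.ext (by
    rw [Subgroup.coe_mul]
    show aff (A * B) 0 = aff A 0 * aff B 0
    rw [aff_mul, Matrix.mulVec_zero, add_zero])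

theorem ι_val (A : Dk.SL2 F) : ((ι A : ↥(Cfsg.qdOver F)) : Matrix.SpecialLinearGroup (Fin 3) F)
    = aff A 0 := rfl

theorem π_ι (A : Dk.SL2 F) : π (ι A) = A := (lin_eq (M := ι A) rfl).1

theorem ι_inj : Function.Injective (ι : Dk.SL2 F →* ↥(Cfsg.qdOver F)) := fun A B h => by
  have := congrArg π h
  rwa [π_ι, π_ι] at this

theorem π_surj : Function.Surjective (π : ↥(Cfsg.qdOver F) →* Dk.SL2 F) := fun A => ⟨ι A, π_ι A⟩

theorem val_eq (M : ↥(Cfsg.qdOver F)) :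
    ((M : Matrix.SpecialLinearGroup (Fin 3) F) : Matrix (Fin 3) (Fin 3) F) =
      blkM ((lin M : Dk.SL2 F) : Matrix (Fin 2) (Fin 2) F) (tra M) := by
  have h := spec M
  have h2 := congrArg (fun X : Matrix.SpecialLinearGroup (Fin 3) F =>
    (X : Matrix (Fin 3) (Fin 3) F)) h
  exact h2

theorem mem_ker_iff (M : ↥(Cfsg.qdOver F)) : M ∈ (π : ↥(Cfsg.qdOver F) →* Dk.SL2 F).ker ↔
    ((M : Matrix.SpecialLinearGroup (Fin 3) F) : Matrix (Fin 3) (Fin 3) F) 0 0 = 1 ∧
    ((M : Matrix.SpecialLinearGroup (Fin 3) F) : Matrix (Fin 3) (Fin 3) F) 0 1 = 0 ∧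
    ((M : Matrix.SpecialLinearGroup (Fin 3) F) : Matrix (Fin 3) (Fin 3) F) 1 0 = 0 ∧
    ((M : Matrix.SpecialLinearGroup (Fin 3) F) : Matrix (Fin 3) (Fin 3) F) 1 1 = 1 := by
  rw [MonoidHom.mem_ker, π_apply, val_eq]
  have e00 : blkM ((lin M : Dk.SL2 F) : Matrix (Fin 2) (Fin 2) F) (tra M) 0 0 = Dk.ea (lin M) := by
    simp [blkM, Dk.ea]
  have e01 : blkM ((lin M : Dk.SL2 F) : Matrix (Fin 2) (Fin 2) F) (tra M) 0 1 = Dk.eb (lin M) := by
    simp [blkM, Dk.eb]
  have e10 : blkM ((lin M : Dk.SL2 F) : Matrix (Fin 2) (Fin 2) F) (tra M) 1 0 = Dk.ec (lin M) := by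
    simp [blkM, Dk.ec]
  have e11 : blkM ((lin M : Dk.SL2 F) : Matrix (Fin 2) (Fin 2) F) (tra M) 1 1 = Dk.ed (lin M) := by
    simp [blkM, Dk.ed]
  rw [e00, e01, e10, e11]
  constructor
  · intro h
    rw [h]
    simp
  · rintro ⟨h1, h2, h3, h4⟩
    apply Dk.ext4
    · rw [h1, Dk.ea_one]
    · rw [h2, Dk.eb_one]
    · rw [h3, Dk.ec_one]
    · rw [h4, Dk.ed_one]

theorem mem_range_iff (M : ↥(Cfsg.qdOver F)) : M ∈ (ι : Dk.SL2 F →* ↥(Cfsg.qdOver F)).range ↔
    ((M : Matrix.SpecialLinearGroup (Fin 3) F) : Matrix (Fin 3) (Fin 3) F) 0 2 = 0 ∧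
    ((M : Matrix.SpecialLinearGroup (Fin 3) F) : Matrix (Fin 3) (Fin 3) F) 1 2 = 0 := by
  rw [val_eq]
  have e02 : blkM ((lin M : Dk.SL2 F) : Matrix (Fin 2) (Fin 2) F) (tra M) 0 2 = tra M 0 := by
    simp [blkM]
  have e12 : blkM ((lin M : Dk.SL2 F) : Matrix (Fin 2) (Fin 2) F) (tra M) 1 2 = tra M 1 := by
    simp [blkM]
  rw [e02, e12]
  constructor
  · rintro ⟨A, rfl⟩
    have := (lin_eq (M := ι A) rfl).2
    rw [this]
    simp
  · rintro ⟨h1, h2⟩
    refine ⟨lin M, ?_⟩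
    apply Subtype.ext
    rw [ι_val, spec M]
    have : tra M = 0 := by
      funext i
      fin_cases i
      · exact h1
      · exact h2
    rw [this]

theorem ker_isPGroup {p : ℕ} [Fact p.Prime] [CharP F p] :
    IsPGroup p (π : ↥(Cfsg.qdOver F) →* Dk.SL2 F).ker := by
  intro M
  refine ⟨1, ?_⟩
  rw [pow_one]
  have hM : lin M.1 = 1 := M.2
  have h1 := spec M.1
  rw [hM] at h1
  have h0 : (p : ℕ) • tra M.1 = 0 := by
    funext i
    simp
  have h2 : (M : ↥(Cfsg.qdOver F)) ^ p = 1 := by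
    apply Subtype.ext
    rw [Subgroup.coe_pow, h1, aff_pow_one, h0, aff_one]
    rfl
  exact Subtype.ext (by rw [Subgroup.coe_pow, h2]; rfl)

/-- Translation coordinates on the kernel. -/
noncomputable def ψ : Additive (π : ↥(Cfsg.qdOver F) →* Dk.SL2 F).ker ≃+ (Fin 2 → F) :=
  AddEquiv.mk'
    { toFun := fun v => tra (Additive.toMul v).1
      invFun := fun t => Additive.ofMul ⟨⟨aff 1 t, aff_mem 1 t⟩,
        (lin_eq (M := ⟨aff 1 t, aff_mem 1 t⟩) rfl).1⟩
      left_inv := fun v => by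
        have hv : lin (Additive.toMul v).1 = 1 := (Additive.toMul v).2
        have h1 := spec (Additive.toMul v).1
        rw [hv] at h1
        show Additive.ofMul _ = Additive.ofMul (Additive.toMul v)
        congr 1
        apply Subtype.ext
        apply Subtype.ext
        exact h1.symm
      right_inv := fun t => (lin_eq (M := ⟨aff 1 t, aff_mem 1 t⟩) rfl).2 }
    (fun v w => by
      have hv : lin (Additive.toMul v).1 = 1 := (Additive.toMul v).2
      have h1v := spec (Additive.toMul v).1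
      rw [hv] at h1v
      have hw : lin (Additive.toMul w).1 = 1 := (Additive.toMul w).2
      have h1w := spec (Additive.toMul w).1
      rw [hw] at h1w
      show tra (Additive.toMul v * Additive.toMul w).1 = _
      have h3 : (((Additive.toMul v * Additive.toMul w :
          (π : ↥(Cfsg.qdOver F) →* Dk.SL2 F).ker) : ↥(Cfsg.qdOver F)) :
          Matrix.SpecialLinearGroup (Fin 3) F) =
          aff 1 (tra (Additive.toMul v).1 + tra (Additive.toMul w).1) := by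
        rw [Subgroup.coe_mul, Subgroup.coe_mul, h1v, h1w, aff_one_mul, add_comm]
      exact (lin_eq h3).2)

theorem ψ_apply (v : (π : ↥(Cfsg.qdOver F) →* Dk.SL2 F).ker) :
    ψ (Additive.ofMul v) = tra v.1 := rfl

/-- Structure of Qd over a finite field F of characteristic p (the affine subgroup of SL₃(F)): its largest normal p-subgroup is the group of translations (matrices with upper-left block the identity), the block-diagonal matrices form a complement isomorphic to SL₂(F), and the translation subgroup is a natural SL₂(F)-module for that complement. -/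
theorem result {F : Type*} [Field F] [Fintype F] {p : ℕ} [Fact p.Prime] [CharP F p] : (∀ M : ↥(Cfsg.qdOver F), M ∈ Cfsg.pCore p ↥(Cfsg.qdOver F) ↔ ((M : Matrix.SpecialLinearGroup (Fin 3) F) : Matrix (Fin 3) (Fin 3) F) 0 0 = 1 ∧ ((M : Matrix.SpecialLinearGroup (Fin 3) F) : Matrix (Fin 3) (Fin 3) F) 0 1 = 0 ∧ ((M : Matrix.SpecialLinearGroup (Fin 3) F) : Matrix (Fin 3) (Fin 3) F) 1 0 = 0 ∧ ((M : Matrix.SpecialLinearGroup (Fin 3) F) : Matrix (Fin 3) (Fin 3) F) 1 1 = 1) ∧ ∃ K : Subgroup ↥(Cfsg.qdOver F), (∀ M : ↥(Cfsg.qdOver F), M ∈ K ↔ ((M : Matrix.SpecialLinearGroup (Fin 3) F) : Matrix (Fin 3) (Fin 3) F) 0 2 = 0 ∧ ((M : Matrix.SpecialLinearGroup (Fin 3) F) : Matrix (Fin 3) (Fin 3) F) 1 2 = 0) ∧ K ⊓ Cfsg.pCore p ↥(Cfsg.qdOver F) = ⊥ ∧ K ⊔ Cfsg.pCore p ↥(Cfsg.qdOver F) = ⊤ ∧ Nonempty (↥K ≃* Matrix.SpecialLinearGroup (Fin 2) F) ∧ Cfsg.IsNaturalSL2Module F (Cfsg.pCore p ↥(Cfsg.qdOver F)) K := by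
  classical
  have hcore : Cfsg.pCore p ↥(Cfsg.qdOver F) = (π : ↥(Cfsg.qdOver F) →* Dk.SL2 F).ker := by
    apply le_antisymm
    · have hN : (Cfsg.pCore p ↥(Cfsg.qdOver F)).Normal := pCore_normal p _
      have hp : IsPGroup p (Cfsg.pCore p ↥(Cfsg.qdOver F)) := pCore_isPGroup p _
      have h1 : ((Cfsg.pCore p ↥(Cfsg.qdOver F)).map π).Normal := hN.map π π_surj
      have h2 : IsPGroup p ((Cfsg.pCore p ↥(Cfsg.qdOver F)).map π) := hp.map π
      have h3 := sl2_normal_p_trivial _ h1 h2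
      exact (Subgroup.map_eq_bot_iff _).mp h3
    · exact le_pCore (MonoidHom.normal_ker π) ker_isPGroup
  rw [hcore]
  refine ⟨mem_ker_iff, ι.range, mem_range_iff, ?_, ?_, ⟨(MonoidHom.ofInjective ι_inj).symm⟩, ?_⟩
  · rw [eq_bot_iff]
    rintro M ⟨⟨A, rfl⟩, hM⟩
    have h1 : π (ι A) = 1 := hM
    rw [π_ι] at h1
    rw [Subgroup.mem_bot, h1, map_one]
  · rw [eq_top_iff]
    intro M _
    have h1 : M = ι (π M) * ((ι (π M))⁻¹ * M) := by group
    rw [h1]
    refine Subgroup.mul_mem_sup ⟨_, rfl⟩ ?_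
    rw [MonoidHom.mem_ker, map_mul, map_inv, π_ι, inv_mul_cancel]
  · refine ⟨?_, π.comp (ι.range).subtype, ψ, ?_, ?_, ?_⟩
    · rw [Subgroup.normalizer_eq_top]
      exact le_top
    · intro A
      exact ⟨⟨ι A, ⟨A, rfl⟩⟩, π_ι A⟩
    · ext l
      rw [MonoidHom.mem_ker, Subgroup.mem_subgroupOf, Subgroup.mem_centralizer_iff]
      obtain ⟨l0, A, rfl⟩ := l
      show π (ι A) = 1 ↔ ∀ h ∈ (((π : ↥(Cfsg.qdOver F) →* Dk.SL2 F).ker :
        Subgroup ↥(Cfsg.qdOver F)) : Set ↥(Cfsg.qdOver F)), h * ι A = ι A * h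
      rw [π_ι]
      constructor
      · rintro rfl h _
        rw [map_one, mul_one, one_mul]
      · intro hc
        have key : ∀ t : Fin 2 → F, (A : Matrix (Fin 2) (Fin 2) F).mulVec t = t := by
          intro t
          have hmem : (⟨aff 1 t, aff_mem 1 t⟩ : ↥(Cfsg.qdOver F)) ∈
              (((π : ↥(Cfsg.qdOver F) →* Dk.SL2 F).ker : Subgroup ↥(Cfsg.qdOver F)) :
                Set ↥(Cfsg.qdOver F)) :=
            (lin_eq (M := ⟨aff 1 t, aff_mem 1 t⟩) rfl).1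
          have h1 := hc _ hmem
          have h2 := congrArg Subtype.val h1
          rw [Subgroup.coe_mul, Subgroup.coe_mul, ι_val] at h2
          change aff 1 t * aff A 0 = aff A 0 * aff 1 t at h2
          rw [aff_mul, aff_mul, one_mul, mul_one, Matrix.mulVec_zero, zero_add, add_zero] at h2
          exact (aff_inj h2).2.symm
        apply Subtype.ext
        ext i j
        have h3 := congrFun (key (Pi.single j 1)) i
        rw [Matrix.mulVec_single_one] at h3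
        simpa [Matrix.one_apply, Pi.single_apply] using h3
    · rintro ⟨l0, A, rfl⟩ v
      have hv : lin v.1 = 1 := v.2
      have h1 := spec v.1
      rw [hv] at h1
      have hw : ι A * v.1 * (ι A)⁻¹ ∈ (π : ↥(Cfsg.qdOver F) →* Dk.SL2 F).ker :=
        (MonoidHom.normal_ker π).conj_mem v.1 v.2 (ι A)
      refine ⟨⟨ι A * v.1 * (ι A)⁻¹, hw⟩, rfl, ?_⟩
      show tra (ι A * v.1 * (ι A)⁻¹) =
        ((π (ι A) : Dk.SL2 F) : Matrix (Fin 2) (Fin 2) F).mulVec (tra v.1)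
      rw [π_ι]
      refine (lin_eq (A := 1) ?_).2
      rw [Subgroup.coe_mul, Subgroup.coe_mul, Subgroup.coe_inv, ι_val, h1, aff_conj]

end Cfsg.Agent.S2762
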