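import Cfsg.Statements.S2794
-- import your own Cfsg.Agent.* helpers here
import Cfsg.Agent.Lib.helper15.QdZJ

set_option autoImplicit false
open Cfsg

namespace Cfsg.Agent.S2794

/-- For an odd prime p and a finite group G, the group Qd(p) is not involved in G if and only if in every section K/R of G, for every Sylow p-subgroup S* of K/R, the centre of J(S*) (J generated by the abelian subgroups of largest order) controls strong fusion in K/R. -/
theorem result {G : Type*} [Group G] [Finite G] {p : ℕ} [Fact p.Prime] (hp : p ≠ 2) : ¬ Cfsg.Involves ↥(Cfsg.qd p) G ↔ ∀ (K R : Subgroup G) [hR : (R.subgroupOf K).Normal], ∀ T : Sylow p (K ⧸ R.subgroupOf K), Cfsg.ControlsStrongFusion p (Cfsg.centerThompsonAOf (T : Subgroup (K ⧸ R.subgroupOf K))) := by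
  constructor
  · intro h K R hR T
    refine ⟨T, Cfsg.Agent.Lib.helper15.centerThompsonAOf_le _, fun A hA => ⟨hA, fun g hg => ?_⟩⟩
    have hfree : ¬ Cfsg.Involves ↥(Cfsg.qd p) (↥K ⧸ R.subgroupOf K) := fun hinv =>
      h (Cfsg.Agent.Lib.helper15.inv_trans hinv ⟨K, R, hR, ⟨MulEquiv.refl _⟩⟩)
    obtain ⟨c, hc, hca⟩ := Cfsg.Agent.Lib.helper15.Qd.zj_strong_fusion_of_qd_free hp hfree T A g hA
      (fun a ha => hg ⟨a, ha, rfl⟩)
    exact ⟨c, hc, fun a ha => (hca a ha).symm⟩
  · intro h hinv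
    obtain ⟨K, R, hR, ⟨e⟩⟩ := hinv
    haveI := hR
    obtain ⟨T⟩ : Nonempty (Sylow p (↥K ⧸ R.subgroupOf K)) := inferInstance
    refine Cfsg.Agent.Lib.helper15.Qd.not_control_of_emb
      ((Cfsg.qd p).subtype.comp e.toMonoidHom) ?_ ?_ ?_ T (h K R T)
    · exact (Subgroup.subtype_injective _).comp e.injective
    · intro A t
      refine ⟨e.symm ⟨Cfsg.Agent.Lib.helper15.Qd.aff A t,
        Cfsg.Agent.Lib.helper15.Qd.aff_mem_qd p A t⟩, ?_⟩
      simp
    · intro y
      exact Cfsg.Agent.Lib.helper15.Qd.exists_aff_of_mem_qd p (e y).1 (e y).2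


end Cfsg.Agent.S2794
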