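import Cfsg.Statements.S2905
-- import your own Cfsg.Agent.* helpers here
import Cfsg.Agent.Lib.helper15.PMin

set_option autoImplicit false
open Cfsg

namespace Cfsg.Agent.S2905

/-- Let P be a finite p-minimal group (a Sylow p-subgroup S is not normal and lies in a unique maximal subgroup M of P) and let F be the normal core of M. Then: every subnormal subgroup N of P contained in M satisfies N ∩ S ≤ O_p(P); if O^p(P) has a normal Sylow p-subgroup then the order of P has at most two prime divisors; every normal subgroup N of P either contains O^p(P) or is contained in F; and O^p(P)F ⧸ F is a minimal normal subgroup of P ⧸ F. -/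
theorem result {P : Type*} [Group P] [Finite P] {p : ℕ} [Fact p.Prime] (hP : Cfsg.IsPMinimal p P) (S : Sylow p P) (M : Subgroup P) (hM : IsCoatom M) (hSM : (S : Subgroup P) ≤ M) [hF : M.normalCore.Normal] : (∀ N : Subgroup P, N.IsSubnormal → N ≤ M → N ⊓ (S : Subgroup P) ≤ Cfsg.pCore p P) ∧ ((∀ T : Sylow p ↥(Cfsg.pResidual p P), (T : Subgroup ↥(Cfsg.pResidual p P)).Normal) → (Nat.card P).primeFactors.card ≤ 2) ∧ (∀ N : Subgroup P, N.Normal → Cfsg.pResidual p P ≤ N ∨ N ≤ M.normalCore) ∧ (∀ N : Subgroup P, N.Normal → M.normalCore ≤ N → N ≤ Cfsg.pResidual p P ⊔ M.normalCore → N = M.normalCore ∨ N = Cfsg.pResidual p P ⊔ M.normalCore) ∧ M.normalCore < Cfsg.pResidual p P ⊔ M.normalCore := by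
  refine ⟨?_, ?_, ?_, ?_, ?_⟩
  · intro N hN hNM
    have h1 := Cfsg.Agent.Lib.helper15.pmin_subnormal_le_core hP S M hM hSM N hN hNM
    have h2 : N ⊓ (S : Subgroup P) ≤ (S : Subgroup P) ⊓ M.normalCore := by
      rw [inf_comm]; exact inf_le_inf_left _ h1
    exact h2.trans (Cfsg.Agent.Lib.helper15.pmin_inf_core_le hP S M hM hSM)
  · exact Cfsg.Agent.Lib.helper15.pmin_two_primes hP S M hM hSM
  · intro N hN
    exact Cfsg.Agent.Lib.helper15.pmin_normal_cases hP S M hM hSM N hN
  · intro N hN hFN hNle
    rcases Cfsg.Agent.Lib.helper15.pmin_normal_cases hP S M hM hSM N hN with h | h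
    · right; exact le_antisymm hNle (sup_le h hFN)
    · left; exact le_antisymm h hFN
  · exact Cfsg.Agent.Lib.helper15.pmin_core_lt S M hM hSM


end Cfsg.Agent.S2905
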