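import Cfsg.Statements.S2907
-- import your own Cfsg.Agent.* helpers here
import Mathlib

set_option autoImplicit false
open Cfsg

namespace Cfsg.Agent.S2907

/-- Let X be a finite semi-extraspecial p-group and x an element of X outside the centre. Then the index of C_X(x) in X equals the order of Z(X), and the commutators [x, y], y ∈ X, form exactly the centre Z(X). -/
theorem result {X : Type*} [Group X] [Finite X] {p : ℕ} [Fact p.Prime] (hX : Cfsg.IsSemiExtraspecial p X) (x : X) (hx : x ∉ Subgroup.center X) : (Subgroup.centralizer ({x} : Set X)).index = Nat.card ↥(Subgroup.center X) ∧ {z : X | ∃ y : X, z = x * y * x⁻¹ * y⁻¹} = (Subgroup.center X : Set X) := by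
  classical
  obtain ⟨⟨-, -, hcomm⟩, hsemi⟩ := hX
  have hcen : ∀ a b : X, a * b * a⁻¹ * b⁻¹ ∈ Subgroup.center X := by
    intro a b
    rw [← hcomm]
    exact Subgroup.commutator_mem_commutator (Subgroup.mem_top a) (Subgroup.mem_top b)
  -- the commutator map
  let φ : X →* X :=
    { toFun := fun y => x * y * x⁻¹ * y⁻¹
      map_one' := by group
      map_mul' := by
        intro y₁ y₂
        have hc := Subgroup.mem_center_iff.mp (hcen x y₂) y₁⁻¹
        have e1 : x * (y₁ * y₂) * x⁻¹ * (y₁ * y₂)⁻¹ =
            x * y₁ * x⁻¹ * ((x * y₂ * x⁻¹ * y₂⁻¹) * y₁⁻¹) := by group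
        rw [e1, ← hc]; group }
  have hφ : ∀ y, φ y = x * y * x⁻¹ * y⁻¹ := fun y => rfl
  have hker : φ.ker = Subgroup.centralizer ({x} : Set X) := by
    ext y
    rw [MonoidHom.mem_ker, hφ, Subgroup.mem_centralizer_singleton_iff]
    constructor
    · intro h
      have e : y * x = (x * y * x⁻¹ * y⁻¹)⁻¹ * (x * y) := by group
      rw [e, h]; group
    · intro h
      have e : x * y * x⁻¹ * y⁻¹ = (x * y) * (y * x)⁻¹ := by group
      rw [e, h]; group
  have hrange_le : φ.range ≤ Subgroup.center X := by
    rintro _ ⟨y, rfl⟩
    exact hcen x y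
  have hrange : φ.range = Subgroup.center X := by
    by_contra hne
    have hne' : φ.range.subgroupOf (Subgroup.center X) ≠ ⊤ := by
      rw [Ne, Subgroup.subgroupOf_eq_top]
      intro hle
      exact hne (le_antisymm hrange_le hle)
    rcases eq_top_or_exists_le_coatom (φ.range.subgroupOf (Subgroup.center X)) with h1 | ⟨K, hK, hle⟩
    · exact hne' h1
    · have hYle : K.map (Subgroup.center X).subtype ≤ Subgroup.center X := Subgroup.map_subtype_le K
      have hYK : (K.map (Subgroup.center X).subtype).subgroupOf (Subgroup.center X) = K :=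
        Subgroup.comap_map_eq_self_of_injective (Subgroup.subtype_injective _) K
      obtain ⟨hYn, hext⟩ := hsemi (K.map (Subgroup.center X).subtype) hYle (by rw [hYK]; exact hK)
      have hcard : Nat.card (Subgroup.center (X ⧸ K.map (Subgroup.center X).subtype)) = p := hext.2
      have hrY : φ.range ≤ K.map (Subgroup.center X).subtype := by
        intro z hz
        have hz' : (⟨z, hrange_le hz⟩ : Subgroup.center X) ∈ K :=
          hle (Subgroup.mem_subgroupOf.mpr hz)
        exact ⟨⟨z, hrange_le hz⟩, hz', rfl⟩
      -- the image of x is central in the quotient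
      have hxc : (QuotientGroup.mk x : X ⧸ K.map (Subgroup.center X).subtype) ∈
          Subgroup.center (X ⧸ K.map (Subgroup.center X).subtype) := by
        rw [Subgroup.mem_center_iff]
        intro ybar
        obtain ⟨y, rfl⟩ := QuotientGroup.mk_surjective ybar
        have hc : x * y = (x * y * x⁻¹ * y⁻¹) * (y * x) := by group
        have h1 : (QuotientGroup.mk (x * y * x⁻¹ * y⁻¹) : X ⧸ K.map (Subgroup.center X).subtype) = 1 :=
          (QuotientGroup.eq_one_iff _).mpr (hrY ⟨y, rfl⟩)
        calc (QuotientGroup.mk y : X ⧸ K.map (Subgroup.center X).subtype) * QuotientGroup.mk x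
            = QuotientGroup.mk (y * x) := rfl
          _ = QuotientGroup.mk (x * y * x⁻¹ * y⁻¹) * QuotientGroup.mk (y * x) := by
              rw [h1, one_mul]
          _ = QuotientGroup.mk (x * y * x⁻¹ * y⁻¹ * (y * x)) := rfl
          _ = QuotientGroup.mk (x * y) := by rw [← hc]
          _ = QuotientGroup.mk x * QuotientGroup.mk y := rfl
      -- image of the centre
      have hZle : (Subgroup.center X).map (QuotientGroup.mk' (K.map (Subgroup.center X).subtype)) ≤
          Subgroup.center (X ⧸ K.map (Subgroup.center X).subtype) := by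
        rintro _ ⟨z, hz, rfl⟩
        rw [Subgroup.mem_center_iff]
        intro ybar
        obtain ⟨y, rfl⟩ := QuotientGroup.mk_surjective ybar
        show (QuotientGroup.mk y : X ⧸ K.map (Subgroup.center X).subtype) * QuotientGroup.mk z =
          QuotientGroup.mk z * QuotientGroup.mk y
        rw [← QuotientGroup.mk_mul, ← QuotientGroup.mk_mul, Subgroup.mem_center_iff.mp hz y]
      have hZne : (Subgroup.center X).map (QuotientGroup.mk' (K.map (Subgroup.center X).subtype)) ≠ ⊥ := by
        intro hb
        apply hK.1
        rw [eq_top_iff]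
        intro z _
        have hz1 : (QuotientGroup.mk' (K.map (Subgroup.center X).subtype)) (z : X) ∈
            (Subgroup.center X).map (QuotientGroup.mk' (K.map (Subgroup.center X).subtype)) :=
          ⟨z, z.2, rfl⟩
        rw [hb, Subgroup.mem_bot] at hz1
        have hz2 : (z : X) ∈ K.map (Subgroup.center X).subtype := (QuotientGroup.eq_one_iff _).mp hz1
        obtain ⟨w, hw, hwz⟩ := hz2
        have : w = z := Subtype.ext hwz
        rw [← this]; exact hw
      have hdvd := Subgroup.card_dvd_of_le hZle
      rw [hcard] at hdvd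
      have hZcard : Nat.card ((Subgroup.center X).map
          (QuotientGroup.mk' (K.map (Subgroup.center X).subtype))) = p := by
        rcases (Nat.dvd_prime (Fact.out : p.Prime)).mp hdvd with h1 | h1
        · exact absurd (Subgroup.card_eq_one.mp h1) hZne
        · exact h1
      have hZeq := Subgroup.eq_of_le_of_card_ge hZle (by rw [hcard, hZcard])
      rw [← hZeq] at hxc
      obtain ⟨z, hz, hzx⟩ := hxc
      have h2 : z⁻¹ * x ∈ K.map (Subgroup.center X).subtype := QuotientGroup.eq.mp hzx
      apply hx
      have e : x = z * (z⁻¹ * x) := by group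
      rw [e]
      exact Subgroup.mul_mem _ hz (hYle h2)
  constructor
  · rw [← hker, Subgroup.index_ker, hrange]
  · ext z
    constructor
    · rintro ⟨y, rfl⟩
      exact hcen x y
    · intro hz
      have hz' : z ∈ φ.range := by rw [hrange]; exact hz
      obtain ⟨y, hy⟩ := hz'
      exact ⟨y, hy.symm⟩


end Cfsg.Agent.S2907
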