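import Cfsg.Statements.S2908
-- import your own Cfsg.Agent.* helpers here
import Cfsg.Agent.Lib.helper8.CoprimeAction

set_option autoImplicit false
open Cfsg

namespace Cfsg.Agent.S2908

open scoped commutatorElement
open Cfsg.Agent.Lib.helper8

/-- Let P be a p-subgroup of a finite group, normalized by a p-subgroup A and by a subgroup B of order prime to p that commutes elementwise with A. If [P, B] ≤ [P, A], then B centralizes P. -/
theorem result {G : Type*} [Group G] [Finite G] {p : ℕ} [Fact p.Prime] (P A B : Subgroup G) (hP : IsPGroup p ↥P) (hA : IsPGroup p ↥A) (hB : ¬ p ∣ Nat.card ↥B) (hnA : A ≤ Subgroup.normalizer (P : Set G)) (hnB : B ≤ Subgroup.normalizer (P : Set G)) (hAB : ⁅A, B⁆ = ⊥) (hcomm : ⁅P, B⁆ ≤ ⁅P, A⁆) : ⁅P, B⁆ = ⊥ := by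
  classical
  have hAcB : A ≤ Subgroup.centralizer (B : Set G) := by
    rw [← Subgroup.commutator_eq_bot_iff_le_centralizer]; exact hAB
  have hAnB : A ≤ Subgroup.normalizer (B : Set G) :=
    hAcB.trans (Subgroup.centralizer_le_normalizer _)
  have hBcA : B ≤ Subgroup.centralizer (A : Set G) := Subgroup.le_centralizer_iff.mp hAcB
  have hBnA : B ≤ Subgroup.normalizer (A : Set G) :=
    hBcA.trans (Subgroup.centralizer_le_normalizer _)
  have hcop : (Nat.card B).Coprime (Nat.card P) := by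
    obtain ⟨k, hk⟩ := IsPGroup.iff_card.mp hP
    rw [hk]
    exact Nat.Coprime.pow_right k
      (Nat.coprime_comm.mp ((Nat.Prime.coprime_iff_not_dvd Fact.out).mpr hB))
  have hPnil : Group.IsNilpotent P := hP.isNilpotent
  have hsolv : Group.IsSolvable B ∨ Group.IsSolvable P := Or.inr inferInstance
  have hKP : ⁅P, B⁆ ≤ P := commutator_le_of_le_normalizer hnB
  have hPK : P ≤ Subgroup.normalizer ((⁅P, B⁆ : Subgroup G) : Set G) :=
    le_normalizer_commutator_left P B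
  have hBK : B ≤ Subgroup.normalizer ((⁅P, B⁆ : Subgroup G) : Set G) :=
    le_normalizer_commutator_right hnB
  have hAK : A ≤ Subgroup.normalizer ((⁅P, B⁆ : Subgroup G) : Set G) :=
    le_normalizer_commutator hnA hAnB
  have hKB : ⁅⁅P, B⁆, B⁆ = ⁅P, B⁆ := commutator_commutator_eq B P hnB hcop hsolv
  have hSK : P ⊔ A ≤ Subgroup.normalizer ((⁅P, B⁆ : Subgroup G) : Set G) := sup_le hPK hAK
  have hK₁K : ⁅⁅P, B⁆, P ⊔ A⁆ ≤ ⁅P, B⁆ := commutator_le_of_le_normalizer hSK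
  have hSK₁ : P ⊔ A ≤ Subgroup.normalizer ((⁅⁅P, B⁆, P ⊔ A⁆ : Subgroup G) : Set G) :=
    le_normalizer_commutator_right hSK
  have hBS : B ≤ Subgroup.normalizer ((P ⊔ A : Subgroup G) : Set G) := by
    apply le_normalizer_of_conj_mem
    intro b hb x hx
    have h1 : P ⊔ A ≤ (P ⊔ A).comap (MulAut.conj b).toMonoidHom := by
      apply sup_le
      · intro y hy
        rw [Subgroup.mem_comap]
        exact Subgroup.mem_sup_left (conj_mem_of_mem_normalizer (hnB hb) hy)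
      · intro y hy
        rw [Subgroup.mem_comap]
        exact Subgroup.mem_sup_right (conj_mem_of_mem_normalizer (hBnA hb) hy)
    exact h1 hx
  have hBK₁ : B ≤ Subgroup.normalizer ((⁅⁅P, B⁆, P ⊔ A⁆ : Subgroup G) : Set G) :=
    le_normalizer_commutator hBK hBS
  have hCK₁ : P ⊓ Subgroup.centralizer (B : Set G) ≤
      Subgroup.normalizer ((⁅⁅P, B⁆, P ⊔ A⁆ : Subgroup G) : Set G) :=
    (inf_le_left.trans le_sup_left).trans hSK₁
  have hPA : ⁅P, A⁆ ≤ ⁅⁅P, B⁆, P ⊔ A⁆ ⊔ (P ⊓ Subgroup.centralizer (B : Set G)) := by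
    rw [Subgroup.commutator_le]
    intro x hx a ha
    obtain ⟨k, hk, c, hc, rfl⟩ := exists_commutator_mul_fixed B P hnB hcop hsolv x hx
    have hcP : c ∈ P := (Subgroup.mem_inf.mp hc).1
    have hcB := (Subgroup.mem_inf.mp hc).2
    have e : ⁅k * c, a⁆ = ⁅k, ⁅c, a⁆⁆ * ⁅c, a⁆ * ⁅k, a⁆ := by
      simp only [commutatorElement_def]; group
    rw [e]
    have hca : ⁅c, a⁆ ∈ P ⊓ Subgroup.centralizer (B : Set G) := by
      refine Subgroup.mem_inf.mpr ⟨?_, ?_⟩
      · have e2 : ⁅c, a⁆ = c * (a * c⁻¹ * a⁻¹) := by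
          simp only [commutatorElement_def]; group
        rw [e2]
        exact P.mul_mem hcP (conj_mem_of_mem_normalizer (hnA ha) (P.inv_mem hcP))
      · rw [commutatorElement_def]
        exact Subgroup.mul_mem _ (Subgroup.mul_mem _ (Subgroup.mul_mem _ hcB (hAcB ha))
          (Subgroup.inv_mem _ hcB)) (Subgroup.inv_mem _ (hAcB ha))
    have h1 : ⁅k, ⁅c, a⁆⁆ ∈ ⁅⁅P, B⁆, P ⊔ A⁆ :=
      Subgroup.commutator_mem_commutator hk (Subgroup.mem_sup_left (Subgroup.mem_inf.mp hca).1)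
    have h2 : ⁅k, a⁆ ∈ ⁅⁅P, B⁆, P ⊔ A⁆ :=
      Subgroup.commutator_mem_commutator hk (Subgroup.mem_sup_right ha)
    exact Subgroup.mul_mem _ (Subgroup.mul_mem _ (Subgroup.mem_sup_left h1)
      (Subgroup.mem_sup_right hca)) (Subgroup.mem_sup_left h2)
  have hKK₁ : ⁅P, B⁆ ≤ ⁅⁅P, B⁆, P ⊔ A⁆ := by
    calc ⁅P, B⁆ = ⁅⁅P, B⁆, B⁆ := hKB.symm
      _ ≤ ⁅⁅P, B⁆, P ⊔ A⁆ := by
        rw [Subgroup.commutator_le]
        intro k hk b hb
        obtain ⟨k₁, hk₁, c, hc, rfl⟩ :=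
          (mem_sup_iff_of_le_normalizer hCK₁ k).mp (hPA (hcomm hk))
        have hcb : b * c = c * b :=
          (Subgroup.mem_centralizer_iff.mp (Subgroup.mem_inf.mp hc).2) b hb
        have e : ⁅k₁ * c, b⁆ = k₁ * (c * b) * c⁻¹ * k₁⁻¹ * b⁻¹ := by
          simp only [commutatorElement_def]; group
        have e2 : k₁ * (b * c) * c⁻¹ * k₁⁻¹ * b⁻¹ = k₁ * (b * k₁⁻¹ * b⁻¹) := by group
        rw [e, ← hcb, e2]
        exact Subgroup.mul_mem _ hk₁
          (conj_mem_of_mem_normalizer (hBK₁ hb) (Subgroup.inv_mem _ hk₁))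
  exact eq_bot_of_commutator_eq_self (hP.to_le hKP) (hP.to_sup_of_normal_left' hA hnA) hSK
    (le_antisymm hK₁K hKK₁)


end Cfsg.Agent.S2908
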