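import Cfsg.Statements.S2909
-- import your own Cfsg.Agent.* helpers here
import Cfsg.Agent.Lib.helper8.CoprimeAction
import Cfsg.Agent.S2908
import Cfsg.Agent.S0058

set_option autoImplicit false
open Cfsg

namespace Cfsg.Agent.S2909

open scoped commutatorElement
open Cfsg.Agent.Lib.helper8

theorem core {G : Type*} [Group G] [Finite G] {p : ℕ} [Fact p.Prime] (E : Subgroup G) [E.Normal]
    (hE : IsPGroup p ↥E) (U : Subgroup G) (hU : Cfsg.IsElementaryAbelian p U)
    (hcond : (∀ u ∈ U, u ≠ 1 → E ⊓ Subgroup.centralizer (U : Set G) =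
        E ⊓ Subgroup.centralizer ({u} : Set G)) ∨
      (∀ u ∈ U, u ≠ 1 → ⁅E, U⁆ = ⁅E, Subgroup.zpowers u⁆))
    (R : Subgroup G) (hR : ¬ p ∣ Nat.card ↥R) (hRU : U ≤ Subgroup.normalizer (R : Set G))
    (hgen : (⨆ a ∈ {a : G | a ∈ U ∧ a ≠ 1}, R ⊓ Subgroup.centralizer {a}) = R) :
    ⁅R, U⁆ ≤ Subgroup.centralizer (E : Set G) := by
  classical
  obtain ⟨hUc, hUp⟩ := hU
  have hCn : (Subgroup.centralizer (E : Set G)).Normal := Subgroup.normal_centralizer
  have hEn : ∀ K : Subgroup G, K ≤ Subgroup.normalizer (E : Set G) := by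
    intro K; rw [Subgroup.normalizer_eq_top]; exact le_top
  have hUpg : IsPGroup p U := fun g => ⟨1, by
    apply Subtype.ext
    simpa using hUp g g.2⟩
  let D : Subgroup G :=
    { carrier := {g | ∀ v ∈ U, ⁅g, v⁆ ∈ Subgroup.centralizer (E : Set G)}
      one_mem' := by
        intro v _
        simp
      mul_mem' := by
        intro a b ha hb v hv
        have e : ⁅a * b, v⁆ = a * ⁅b, v⁆ * a⁻¹ * ⁅a, v⁆ := by
          simp only [commutatorElement_def]; group
        rw [e]
        exact Subgroup.mul_mem _ (hCn.conj_mem _ (hb v hv) a) (ha v hv)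
      inv_mem' := by
        intro a ha v hv
        have e : ⁅a⁻¹, v⁆ = a⁻¹ * ⁅a, v⁆⁻¹ * a⁻¹⁻¹ := by
          simp only [commutatorElement_def]; group
        rw [e]
        exact hCn.conj_mem _ (Subgroup.inv_mem _ (ha v hv)) a⁻¹ }
  suffices h : R ≤ D by
    rw [Subgroup.commutator_le]
    intro r hr v hv
    exact h hr v hv
  refine (le_of_eq hgen.symm).trans (iSup₂_le ?_)
  intro u hu
  obtain ⟨huU, hu1⟩ := hu
  have hzU : Subgroup.zpowers u ≤ U := Subgroup.zpowers_le.mpr huU
  have hzp : IsPGroup p (Subgroup.zpowers u) := hUpg.to_le hzU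
  -- `U` normalizes `R ⊓ C(u)`
  have hURu : U ≤ Subgroup.normalizer
      ((R ⊓ Subgroup.centralizer ({u} : Set G) : Subgroup G) : Set G) := by
    apply le_normalizer_of_conj_mem
    intro v hv x hx
    rw [Subgroup.mem_inf] at hx ⊢
    refine ⟨conj_mem_of_mem_normalizer (hRU hv) hx.1, ?_⟩
    rw [Subgroup.mem_centralizer_iff]
    intro h hh
    rw [Set.mem_singleton_iff] at hh
    subst hh
    have h1 : h * x = x * h := (Subgroup.mem_centralizer_iff.mp hx.2) h rfl
    have h2 : h * v = v * h := setLike_mul_comm huU hv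
    have c1 : Commute h x := h1
    have c2 : Commute h v := h2
    exact ((c2.mul_right c1).mul_right c2.inv_right).eq
  have hBRu : ⁅R ⊓ Subgroup.centralizer ({u} : Set G), U⁆ ≤
      R ⊓ Subgroup.centralizer ({u} : Set G) := commutator_le_of_le_normalizer hURu
  have hBR : ⁅R ⊓ Subgroup.centralizer ({u} : Set G), U⁆ ≤ R := hBRu.trans inf_le_left
  have hBp : ¬ p ∣ Nat.card ↥(⁅R ⊓ Subgroup.centralizer ({u} : Set G), U⁆) := fun h =>
    hR (h.trans (Subgroup.card_dvd_of_le hBR))
  have hBcop : (Nat.card ↥(⁅R ⊓ Subgroup.centralizer ({u} : Set G), U⁆)).Coprime p :=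
    Nat.coprime_comm.mp ((Nat.Prime.coprime_iff_not_dvd Fact.out).mpr hBp)
  have hzB : Subgroup.zpowers u ≤ Subgroup.centralizer
      ((⁅R ⊓ Subgroup.centralizer ({u} : Set G), U⁆ : Subgroup G) : Set G) := by
    rw [Subgroup.zpowers_le, Subgroup.mem_centralizer_iff]
    intro b hb
    exact ((Subgroup.mem_centralizer_iff.mp (hBRu hb).2) u rfl).symm
  have hkey : ⁅R ⊓ Subgroup.centralizer ({u} : Set G), U⁆ ≤ Subgroup.centralizer (E : Set G) := by
    rcases hcond with hc | hc
    · have hEu := hc u huU hu1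
      apply thompson_pq (Subgroup.zpowers u) _ E hzp hBcop hE hzB (hEn _) (hEn _)
      have h1 : E ⊓ Subgroup.centralizer ((Subgroup.zpowers u : Subgroup G) : Set G) ≤
          E ⊓ Subgroup.centralizer (U : Set G) := by
        rw [hEu]
        refine inf_le_inf_left _ (Subgroup.centralizer_le ?_)
        intro x hx
        rw [Set.mem_singleton_iff] at hx
        subst hx
        exact Subgroup.mem_zpowers x
      refine h1.trans ?_
      rw [← Subgroup.le_centralizer_iff, Subgroup.commutator_le]
      intro r hr v hv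
      rw [Subgroup.mem_centralizer_iff]
      intro e he
      have heE : e ∈ E := (Subgroup.mem_inf.mp he).1
      have hve : Commute v e := (Subgroup.mem_centralizer_iff.mp (Subgroup.mem_inf.mp he).2) v hv
      have hre : r⁻¹ * e * r ∈ E ⊓ Subgroup.centralizer (U : Set G) := by
        rw [hEu, Subgroup.mem_inf]
        constructor
        · have := ‹E.Normal›.conj_mem e heE r⁻¹
          simpa using this
        · have heu : e ∈ E ⊓ Subgroup.centralizer ({u} : Set G) := hEu ▸ he
          have h2 : u * e = e * u :=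
            (Subgroup.mem_centralizer_iff.mp (Subgroup.mem_inf.mp heu).2) u rfl
          have h3 : u * r = r * u :=
            (Subgroup.mem_centralizer_iff.mp (Subgroup.mem_inf.mp hr).2) u rfl
          rw [Subgroup.mem_centralizer_iff]
          intro h hh
          rw [Set.mem_singleton_iff] at hh
          subst hh
          have c2 : Commute h e := h2
          have c3 : Commute h r := h3
          exact ((c3.inv_right.mul_right c2).mul_right c3).eq
      have hve' : Commute v (r⁻¹ * e * r) :=
        (Subgroup.mem_centralizer_iff.mp (Subgroup.mem_inf.mp hre).2) v hv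
      have hve2 : v⁻¹ * e = e * v⁻¹ := hve.inv_left.eq
      have hve3 : v * (r⁻¹ * e * r) = (r⁻¹ * e * r) * v := hve'.eq
      calc e * ⁅r, v⁆ = r * ((r⁻¹ * e * r) * v) * r⁻¹ * v⁻¹ := by
            simp only [commutatorElement_def]; group
        _ = r * (v * (r⁻¹ * e * r)) * r⁻¹ * v⁻¹ := by rw [hve3]
        _ = r * v * r⁻¹ * (e * v⁻¹) := by group
        _ = r * v * r⁻¹ * (v⁻¹ * e) := by rw [hve2]
        _ = ⁅r, v⁆ * e := by simp only [commutatorElement_def]; group
    · have hE₁ := hc u huU hu1
      have hRuz : R ⊓ Subgroup.centralizer ({u} : Set G) ≤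
          Subgroup.normalizer ((Subgroup.zpowers u : Subgroup G) : Set G) := by
        apply le_normalizer_of_conj_mem
        intro r hr x hx
        obtain ⟨k, rfl⟩ := Subgroup.mem_zpowers_iff.mp hx
        have h3 : Commute r u :=
          ((Subgroup.mem_centralizer_iff.mp (Subgroup.mem_inf.mp hr).2) u rfl).symm
        have h4 : r * u ^ k = u ^ k * r := (h3.zpow_right k).eq
        rw [h4, mul_inv_cancel_right]
        exact Subgroup.zpow_mem _ (Subgroup.mem_zpowers u) k
      have hRuE₁ : R ⊓ Subgroup.centralizer ({u} : Set G) ≤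
          Subgroup.normalizer ((⁅E, U⁆ : Subgroup G) : Set G) := by
        rw [hE₁]; exact le_normalizer_commutator (hEn _) hRuz
      have hUE₁ : U ≤ Subgroup.normalizer ((⁅E, U⁆ : Subgroup G) : Set G) :=
        le_normalizer_commutator_right (hEn _)
      let W : Subgroup G :=
        { carrier := {g | g ∈ Subgroup.normalizer ((⁅E, U⁆ : Subgroup G) : Set G) ∧
            ∀ e ∈ E, ⁅e, g⁆ ∈ ⁅E, U⁆}
          one_mem' := by
            refine ⟨Subgroup.one_mem _, ?_⟩
            intro e _
            simp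
          mul_mem' := by
            intro a b ha hb
            refine ⟨Subgroup.mul_mem _ ha.1 hb.1, ?_⟩
            intro e he
            have e1 : ⁅e, a * b⁆ = ⁅e, a⁆ * (a * ⁅e, b⁆ * a⁻¹) := by
              simp only [commutatorElement_def]; group
            rw [e1]
            exact Subgroup.mul_mem _ (ha.2 e he) (conj_mem_of_mem_normalizer ha.1 (hb.2 e he))
          inv_mem' := by
            intro a ha
            refine ⟨Subgroup.inv_mem _ ha.1, ?_⟩
            intro e he
            have e1 : ⁅e, a⁻¹⁆ = a⁻¹ * ⁅e, a⁆⁻¹ * a := by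
              simp only [commutatorElement_def]; group
            rw [e1]
            exact conj_mem_of_mem_normalizer' ha.1 (Subgroup.inv_mem _ (ha.2 e he)) }
      have hWmem : ∀ g, g ∈ W ↔ (g ∈ Subgroup.normalizer ((⁅E, U⁆ : Subgroup G) : Set G) ∧
            ∀ e ∈ E, ⁅e, g⁆ ∈ ⁅E, U⁆) := fun g => Iff.rfl
      have hUW : U ≤ W := by
        intro v hv
        rw [hWmem]
        exact ⟨hUE₁ hv, fun e he => Subgroup.commutator_mem_commutator he hv⟩
      have hBW : ⁅R ⊓ Subgroup.centralizer ({u} : Set G), U⁆ ≤ W := by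
        rw [Subgroup.commutator_le]
        intro r hr v hv
        have h1 : r * v * r⁻¹ ∈ W := by
          rw [hWmem]
          have hvW := (hWmem v).mp (hUW hv)
          refine ⟨Subgroup.mul_mem _ (Subgroup.mul_mem _ (hRuE₁ hr) hvW.1)
            (Subgroup.inv_mem _ (hRuE₁ hr)), ?_⟩
          intro e he
          have e1 : ⁅e, r * v * r⁻¹⁆ = r * ⁅r⁻¹ * e * r, v⁆ * r⁻¹ := by
            simp only [commutatorElement_def]; group
          rw [e1]
          have he' : r⁻¹ * e * r ∈ E := by
            have := ‹E.Normal›.conj_mem e he r⁻¹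
            simpa using this
          exact conj_mem_of_mem_normalizer (hRuE₁ hr) (hvW.2 _ he')
        rw [commutatorElement_def]
        exact W.mul_mem h1 (W.inv_mem (hUW hv))
      have hcomm : ⁅E, ⁅R ⊓ Subgroup.centralizer ({u} : Set G), U⁆⁆ ≤
          ⁅E, Subgroup.zpowers u⁆ := by
        rw [← hE₁, Subgroup.commutator_le]
        intro e he b hb
        exact ((hWmem b).mp (hBW hb)).2 e he
      have hAB : ⁅Subgroup.zpowers u, ⁅R ⊓ Subgroup.centralizer ({u} : Set G), U⁆⁆ = ⊥ :=
        Subgroup.commutator_eq_bot_iff_le_centralizer.mpr hzB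
      have h0 := Cfsg.Agent.S2908.result E (Subgroup.zpowers u) _ hE hzp hBp (hEn _) (hEn _)
        hAB hcomm
      rw [Subgroup.commutator_eq_bot_iff_le_centralizer] at h0
      exact Subgroup.le_centralizer_iff.mp h0
  intro r hr v hv
  exact hkey (Subgroup.commutator_mem_commutator hr hv)

/-- Let p be a prime, E a normal p-subgroup of the finite group G, and U a non-cyclic elementary abelian p-subgroup of G such that either C_E(U) = C_E(u) for every nontrivial u ∈ U, or [E, U] = [E, ⟨u⟩] for every nontrivial u ∈ U. If R is a subgroup of order prime to p normalized by U, then [R, U] centralizes E. -/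
theorem result {G : Type*} [Group G] [Finite G] {p : ℕ} [Fact p.Prime] (E : Subgroup G) [E.Normal] (hE : IsPGroup p ↥E) (U : Subgroup G) (hU : Cfsg.IsElementaryAbelian p U) (hnc : ¬ IsCyclic ↥U) (hcond : (∀ u ∈ U, u ≠ 1 → E ⊓ Subgroup.centralizer (U : Set G) = E ⊓ Subgroup.centralizer ({u} : Set G)) ∨ (∀ u ∈ U, u ≠ 1 → ⁅E, U⁆ = ⁅E, Subgroup.zpowers u⁆)) (R : Subgroup G) (hR : ¬ p ∣ Nat.card ↥R) (hRU : U ≤ Subgroup.normalizer (R : Set G)) : ⁅R, U⁆ ≤ Subgroup.centralizer (E : Set G) := by
  have := hU.1
  have hUpg : IsPGroup p U := fun g => ⟨1, by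
    apply Subtype.ext
    simpa using hU.2 g g.2⟩
  have hcop : (Nat.card U).Coprime (Nat.card R) := by
    obtain ⟨k, hk⟩ := IsPGroup.iff_card.mp hUpg
    rw [hk]
    exact Nat.Coprime.pow_left k ((Nat.Prime.coprime_iff_not_dvd Fact.out).mpr hR)
  exact core E hE U hU hcond R hR hRU (Cfsg.Agent.S0058.result U R hnc hRU hcop)


end Cfsg.Agent.S2909
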