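import Cfsg.Statements.S2910
-- import your own Cfsg.Agent.* helpers here
import Cfsg.Agent.Lib.helper15.Omega
import Cfsg.Agent.Lib.lead.Frobenius

set_option autoImplicit false
open Cfsg

namespace Cfsg.Agent.S2910

/-- Let p be an odd prime dividing the order of the finite group G and P a Sylow p-subgroup of G. If Ω₁(P) (generated by the elements of order dividing p) is contained in the centre of G, then G has a normal p-complement. In particular, if G is quasisimple then Ω₁(P) is not central in G. -/
theorem result {G : Type*} [Group G] [Finite G] {p : ℕ} [Fact p.Prime] (hp : p ≠ 2) (hdiv : p ∣ Nat.card G) (P : Sylow p G) (hZ : Cfsg.omegaOne p (P : Subgroup G) ≤ Subgroup.center G) : Cfsg.HasNormalPComplement p G ∧ ¬ Cfsg.IsQuasisimple G := by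
  have hpp : p.Prime := Fact.out
  have hF : Cfsg.Agent.Lib.lead.Frob p G := by
    apply Cfsg.Agent.Lib.lead.frob_of_sylow P
    intro Q hQP g hg hcop
    apply Cfsg.Agent.Lib.helper15.omega_centralize hp Q (P.2.to_le hQP) g hg hcop
    intro x hx hxp
    have hmem : x ∈ Cfsg.omegaOne p (P : Subgroup G) := Subgroup.subset_closure ⟨hQP hx, hxp⟩
    exact Subgroup.mem_center_iff.mp (hZ hmem) g
  obtain ⟨N, hN, hc⟩ := Cfsg.Agent.Lib.lead.frob_complement hF P
  refine ⟨⟨P, N, hN, hc⟩, ?_⟩
  rintro ⟨hperf, -⟩
  have hidx : N.index = Nat.card (P : Subgroup G) := hc.symm.index_eq_card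
  obtain ⟨e, he⟩ := IsPGroup.iff_card.mp P.2
  have hcard : Nat.card (G ⧸ N) = p ^ e := by rw [← Subgroup.index_eq_card, hidx, he]
  have he0 : e ≠ 0 := by
    rintro rfl
    rw [pow_zero] at he
    have h1 : (P : Subgroup G).index = Nat.card G := by
      have := Subgroup.card_mul_index (P : Subgroup G)
      rw [he, one_mul] at this
      exact this
    exact P.not_dvd_index (h1 ▸ hdiv)
  have hPG : IsPGroup p (G ⧸ N) := IsPGroup.of_card hcard
  have hnil : Group.IsNilpotent (G ⧸ N) := hPG.isNilpotent
  have hnt : Nontrivial (G ⧸ N) := by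
    rw [← Finite.one_lt_card_iff_nontrivial, hcard]
    exact Nat.one_lt_pow he0 hpp.one_lt
  exact Group.IsPerfect.not_isNilpotent (G := G ⧸ N) hnil


end Cfsg.Agent.S2910
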