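import Cfsg.Statements.S2911
-- import your own Cfsg.Agent.* helpers here
import Mathlib

set_option autoImplicit false
open Cfsg

namespace Cfsg.Agent.S2911

section
open MulAction Subgroup

universe u

theorem c2d8_center : ∀ y : Multiplicative (ZMod 2) × DihedralGroup 4,
    (∀ x : Multiplicative (ZMod 2) × DihedralGroup 4, x * y = y * x) →
    y = 1 ∨ y = (Multiplicative.ofAdd 1, 1) ∨ y = (1, DihedralGroup.r 2) ∨
      y = (Multiplicative.ofAdd 1, 1) * (1, DihedralGroup.r 2) := by
  decide +kernel

theorem c2d8_comm : ∀ x y : Multiplicative (ZMod 2) × DihedralGroup 4,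
    x * y * x⁻¹ * y⁻¹ = 1 ∨ x * y * x⁻¹ * y⁻¹ = (1, DihedralGroup.r 2) := by
  decide +kernel

theorem c2d8_z_central : ∀ x : Multiplicative (ZMod 2) × DihedralGroup 4,
    x * (Multiplicative.ofAdd 1, 1) = (Multiplicative.ofAdd 1, 1) * x := by
  decide +kernel

theorem c2d8_c_central : ∀ x : Multiplicative (ZMod 2) × DihedralGroup 4,
    x * (1, DihedralGroup.r 2) = (1, DihedralGroup.r 2) * x := by
  decide +kernel

theorem c2d8_c_comm : ((1, DihedralGroup.r 1) : Multiplicative (ZMod 2) × DihedralGroup 4) *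
    (1, DihedralGroup.sr 0) * (1, DihedralGroup.r 1)⁻¹ * (1, DihedralGroup.sr 0)⁻¹
      = (1, DihedralGroup.r 2) := by
  decide +kernel

variable {G : Type u} [Group G] [Finite G]

theorem pow_index_mem {p : ℕ} [hp : Fact p.Prime] (S : Sylow p G) (n : G)
    (hn : n ∈ Subgroup.normalizer ((S : Subgroup G) : Set G)) :
    n ^ (S : Subgroup G).index ∈ (S : Subgroup G) := by
  obtain ⟨j, hj⟩ := S.2.exists_card_eq
  have hpow : (n ^ (S : Subgroup G).index) ^ (p ^ j) = 1 := by
    rw [← pow_mul, ← hj, mul_comm, Subgroup.card_mul_index, pow_card_eq_one']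
  have hpg : IsPGroup p (Subgroup.zpowers (n ^ (S : Subgroup G).index)) := by
    obtain ⟨i, -, hi⟩ := (Nat.dvd_prime_pow hp.out).mp (orderOf_dvd_of_pow_eq_one hpow)
    exact IsPGroup.of_card (n := i) (by rw [Nat.card_zpowers, hi])
  have e := hpg.inf_normalizer_sylow S
  have h2 : n ^ (S : Subgroup G).index ∈
      Subgroup.zpowers (n ^ (S : Subgroup G).index) ⊓ (S : Subgroup G) := by
    rw [← e]; exact ⟨Subgroup.mem_zpowers _, Subgroup.pow_mem _ hn _⟩
  exact h2.2

theorem aux (S : Sylow 2 G)
    (hS : Nonempty (↥(S : Subgroup G) ≃* Multiplicative (ZMod 2) × DihedralGroup 4)) :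
    ∃ H : Subgroup G, H.index = 2 := by
  classical
  obtain ⟨e⟩ := hS
  obtain ⟨H, hH⟩ : ∃ H : Subgroup G, H = (S : Subgroup G) := ⟨_, rfl⟩
  haveI : Fintype (G ⧸ (S : Subgroup G)) := Fintype.ofFinite _
  obtain ⟨z', hz'⟩ : ∃ z' : (S : Subgroup G), z' = e.symm (Multiplicative.ofAdd 1, 1) := ⟨_, rfl⟩
  obtain ⟨c', hc'⟩ : ∃ c' : (S : Subgroup G), c' = e.symm (1, DihedralGroup.r 2) := ⟨_, rfl⟩
  obtain ⟨u', hu'⟩ : ∃ u' : (S : Subgroup G), u' = e.symm (1, DihedralGroup.r 1) := ⟨_, rfl⟩
  obtain ⟨v', hv'⟩ : ∃ v' : (S : Subgroup G), v' = e.symm (1, DihedralGroup.sr 0) := ⟨_, rfl⟩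
  have ez : e z' = (Multiplicative.ofAdd 1, 1) := by rw [hz', e.apply_symm_apply]
  have ec : e c' = (1, DihedralGroup.r 2) := by rw [hc', e.apply_symm_apply]
  have F1 : ∀ x : (S : Subgroup G), x * z' = z' * x := by
    intro x; apply e.injective; rw [map_mul, map_mul, ez]; exact c2d8_z_central _
  have F3 : ∀ y : (S : Subgroup G), (∀ x : (S : Subgroup G), x * y = y * x) →
      y = 1 ∨ y = z' ∨ y = c' ∨ y = z' * c' := by
    intro y hy
    have := c2d8_center (e y) (fun X => by
      have := congrArg e (hy (e.symm X))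
      rwa [map_mul, map_mul, e.apply_symm_apply] at this)
    rcases this with h | h | h | h
    · left; apply e.injective; rw [h, map_one]
    · right; left; apply e.injective; rw [h, ez]
    · right; right; left; apply e.injective; rw [h, ec]
    · right; right; right; apply e.injective; rw [h, map_mul, ez, ec]
  have F4 : ∀ x y : (S : Subgroup G), x * y * x⁻¹ * y⁻¹ = 1 ∨ x * y * x⁻¹ * y⁻¹ = c' := by
    intro x y
    rcases c2d8_comm (e x) (e y) with h | h
    · left; apply e.injective; rw [map_mul, map_mul, map_mul, map_inv, map_inv, h, map_one]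
    · right; apply e.injective; rw [map_mul, map_mul, map_mul, map_inv, map_inv, h, ec]
  have F5 : c' = u' * v' * u'⁻¹ * v'⁻¹ := by
    apply e.injective
    rw [map_mul, map_mul, map_mul, map_inv, map_inv, ec, hu', hv', e.apply_symm_apply,
      e.apply_symm_apply]
    exact c2d8_c_comm.symm
  have hz1 : z' ≠ 1 := by
    intro h; have := congrArg e h; rw [ez, e.map_one] at this; exact absurd this (by decide)
  have hc1 : c' ≠ 1 := by
    intro h; have := congrArg e h; rw [ec, e.map_one] at this; exact absurd this (by decide)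
  have hzc : z' ≠ c' := by
    intro h; have := congrArg e h; rw [ez, ec] at this; exact absurd this (by decide)
  have hcc : c' * c' = 1 := by
    apply e.injective; rw [map_mul, ec, e.map_one]; decide
  have hzz : z' * z' = 1 := by
    apply e.injective; rw [map_mul, ez, e.map_one]; decide
  obtain ⟨z, hzG⟩ : ∃ z : G, z = (z' : G) := ⟨_, rfl⟩
  obtain ⟨c, hcG⟩ : ∃ c : G, c = (c' : G) := ⟨_, rfl⟩
  have hzS : z ∈ (S : Subgroup G) := by rw [hzG]; exact z'.2
  have hcS : c ∈ (S : Subgroup G) := by rw [hcG]; exact c'.2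
  have hzz' : z * z = 1 := by
    have := congrArg Subtype.val hzz
    rw [hzG]; exact this
  have hcc' : c * c = 1 := by
    have := congrArg Subtype.val hcc
    rw [hcG]; exact this
  have hc1' : c ≠ 1 := by
    intro h; apply hc1; apply Subtype.ext; rw [← hcG, h]; rfl
  have hz1' : z ≠ 1 := by
    intro h; apply hz1; apply Subtype.ext; rw [← hzG, h]; rfl
  have hzc'' : z ≠ c := by
    intro h; apply hzc; apply Subtype.ext; rw [← hzG, ← hcG, h]
  have hzcomm : ∀ s : G, s ∈ (S : Subgroup G) → s * z = z * s := fun s hs => by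
    have := congrArg Subtype.val (F1 ⟨s, hs⟩)
    rw [hzG]; exact this
  -- the normalizer fixes z
  have hN : ∀ n : G, n ∈ Subgroup.normalizer ((S : Subgroup G) : Set G) → n * z * n⁻¹ = z := by
    intro n hn
    have hmem : ∀ x : G, x ∈ (S : Subgroup G) → n * x * n⁻¹ ∈ (S : Subgroup G) :=
      fun x hx => (Subgroup.mem_normalizer_iff.mp hn x).mp hx
    have hmem' : ∀ x : G, x ∈ (S : Subgroup G) → n⁻¹ * x * n ∈ (S : Subgroup G) := by
      intro x hx
      refine (Subgroup.mem_normalizer_iff.mp hn (n⁻¹ * x * n)).mpr ?_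
      have : n * (n⁻¹ * x * n) * n⁻¹ = x := by group
      rw [this]; exact hx
    have N1 : n * c * n⁻¹ = c := by
      have h1 : n * c * n⁻¹ = (n * u' * n⁻¹) * (n * v' * n⁻¹) * (n * u' * n⁻¹)⁻¹ *
          (n * v' * n⁻¹)⁻¹ := by
        rw [hcG, F5]; push_cast; group
      have h2 := F4 ⟨n * u' * n⁻¹, hmem _ u'.2⟩ ⟨n * v' * n⁻¹, hmem _ v'.2⟩
      rcases h2 with h | h
      · exfalso
        have h3 := congrArg Subtype.val h
        simp only [Subgroup.coe_mul, Subgroup.coe_inv, Subgroup.coe_one] at h3
        rw [← h1] at h3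
        apply hc1'
        calc c = n⁻¹ * (n * c * n⁻¹) * n := by group
          _ = 1 := by rw [h3]; group
      · have h3 := congrArg Subtype.val h
        simp only [Subgroup.coe_mul, Subgroup.coe_inv] at h3
        rw [h1, hcG]; exact h3
    have N2 : ∀ x : (S : Subgroup G), x * (⟨n * z * n⁻¹, hmem z hzS⟩ : (S : Subgroup G))
        = ⟨n * z * n⁻¹, hmem z hzS⟩ * x := by
      intro x
      apply Subtype.ext
      show (x : G) * (n * z * n⁻¹) = n * z * n⁻¹ * x
      have h1 := hzcomm (n⁻¹ * x * n) (hmem' x x.2)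
      calc (x : G) * (n * z * n⁻¹) = n * ((n⁻¹ * x * n) * z) * n⁻¹ := by group
        _ = n * (z * (n⁻¹ * x * n)) * n⁻¹ := by rw [h1]
        _ = n * z * n⁻¹ * x := by group
    rcases F3 _ N2 with h | h | h | h
    · exfalso
      have h1 : n * z * n⁻¹ = 1 := congrArg Subtype.val h
      apply hz1'
      calc z = n⁻¹ * (n * z * n⁻¹) * n := by group
        _ = 1 := by rw [h1]; group
    · have h1 : n * z * n⁻¹ = (z' : G) := congrArg Subtype.val h
      rw [h1, hzG]
    · exfalso
      have h1 : n * z * n⁻¹ = (c' : G) := congrArg Subtype.val h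
      rw [← hcG] at h1
      apply hzc''
      calc z = n⁻¹ * (n * z * n⁻¹) * n := by group
        _ = n⁻¹ * (n * c * n⁻¹) * n := by rw [h1, N1]
        _ = c := by group
    · exfalso
      have h1 : n * z * n⁻¹ = z * c := by
        have := congrArg Subtype.val h
        simp only [Subgroup.coe_mul] at this
        rw [← hzG, ← hcG] at this; exact this
      have h2 : n * (z * c) * n⁻¹ = z := by
        calc n * (z * c) * n⁻¹ = (n * z * n⁻¹) * (n * c * n⁻¹) := by group
          _ = z * c * c := by rw [h1, N1]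
          _ = z := by rw [mul_assoc, hcc', mul_one]
      have hpow : ∀ k : ℕ, n ^ k * z * (n ^ k)⁻¹ = if Even k then z else z * c := by
        intro k
        induction k with
        | zero => simp
        | succ k ih =>
          have : n ^ (k + 1) * z * (n ^ (k + 1))⁻¹ = n * (n ^ k * z * (n ^ k)⁻¹) * n⁻¹ := by
            rw [pow_succ']; group
          rw [this, ih]
          by_cases hk : Even k
          · rw [if_pos hk, if_neg (by rw [Nat.even_add_one]; exact not_not.mpr hk), h1]
          · rw [if_neg hk, if_pos (by rw [Nat.even_add_one]; exact hk), h2]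
      have hodd : ¬ Even (S : Subgroup G).index := by
        rw [even_iff_two_dvd]
        exact S.not_dvd_index
      have h3 := hpow (S : Subgroup G).index
      rw [if_neg hodd] at h3
      have h4 : n ^ (S : Subgroup G).index ∈ (S : Subgroup G) := pow_index_mem S n hn
      have h5 := hzcomm _ h4
      have h6 : n ^ (S : Subgroup G).index * z * (n ^ (S : Subgroup G).index)⁻¹ = z := by
        rw [h5]; group
      rw [h6] at h3
      apply hc1'
      have := mul_left_cancel (a := z) (b := 1) (c := c) (by rw [mul_one]; exact h3)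
      exact this.symm
  -- the transfer
  let φ : (S : Subgroup G) →* Multiplicative (ZMod 2) :=
    (MonoidHom.fst _ _).comp e.toMonoidHom
  obtain ⟨a, ha⟩ : ∃ a : Multiplicative (ZMod 2), a = Multiplicative.ofAdd 1 := ⟨_, rfl⟩
  have hφz : φ z' = a := by
    show (e z').1 = _; rw [ez, ha]
  have ha1 : a ≠ 1 := by rw [ha]; decide
  have haa : a * a = 1 := by rw [ha]; decide
  have hall : ∀ x : Multiplicative (ZMod 2), x = 1 ∨ x = a := by rw [ha]; decide
  let w : G ⧸ (S : Subgroup G) → Multiplicative (ZMod 2) := fun q =>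
    if h : q.out⁻¹ * z * q.out ∈ (S : Subgroup G) then φ ⟨q.out⁻¹ * z * q.out, h⟩ else 1
  have W1 : ∀ (g : G) (hg : g⁻¹ * z * g ∈ (S : Subgroup G)),
      w (g : G ⧸ (S : Subgroup G)) = φ ⟨g⁻¹ * z * g, hg⟩ := by
    intro g hg
    obtain ⟨h, hh⟩ := QuotientGroup.mk_out_eq_mul (S : Subgroup G) g
    have hmem : (g : G ⧸ (S : Subgroup G)).out⁻¹ * z * (g : G ⧸ (S : Subgroup G)).out
        ∈ (S : Subgroup G) := by
      rw [hh]
      have : (g * h)⁻¹ * z * (g * h) = (h : G)⁻¹ * (g⁻¹ * z * g) * h := by group
      rw [this]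
      exact (S : Subgroup G).mul_mem ((S : Subgroup G).mul_mem ((S : Subgroup G).inv_mem h.2) hg) h.2
    show (if h : _ then _ else _) = _
    rw [dif_pos hmem]
    have : (⟨(g : G ⧸ (S : Subgroup G)).out⁻¹ * z * (g : G ⧸ (S : Subgroup G)).out, hmem⟩ :
        (S : Subgroup G)) = h⁻¹ * ⟨g⁻¹ * z * g, hg⟩ * h := by
      apply Subtype.ext
      simp only [Subgroup.coe_mul, Subgroup.coe_inv]
      rw [hh]; group
    rw [this, map_mul, map_mul, map_inv, mul_comm, mul_inv_cancel_left]
  have W2 : ∀ (g : G), g⁻¹ * z * g ∉ (S : Subgroup G) → w (g : G ⧸ (S : Subgroup G)) = 1 := by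
    intro g hg
    obtain ⟨h, hh⟩ := QuotientGroup.mk_out_eq_mul (S : Subgroup G) g
    have hmem : ¬ (g : G ⧸ (S : Subgroup G)).out⁻¹ * z * (g : G ⧸ (S : Subgroup G)).out
        ∈ (S : Subgroup G) := by
      rw [hh]
      intro hcon
      apply hg
      have : g⁻¹ * z * g = (h : G) * ((g * h)⁻¹ * z * (g * h)) * (h : G)⁻¹ := by group
      rw [this]
      exact (S : Subgroup G).mul_mem ((S : Subgroup G).mul_mem h.2 hcon) ((S : Subgroup G).inv_mem h.2)
    show (if h : _ then _ else _) = _
    rw [dif_neg hmem]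
  have hfix : ∀ g : G, (z • (g : G ⧸ (S : Subgroup G)) = (g : G ⧸ (S : Subgroup G))) ↔
      g⁻¹ * z * g ∈ (S : Subgroup G) := by
    intro g
    rw [show z • (g : G ⧸ (S : Subgroup G)) = ((z * g : G) : G ⧸ (S : Subgroup G)) from rfl,
      eq_comm, QuotientGroup.eq, ← mul_assoc]
  have W3 : ∀ (s : (S : Subgroup G)) (q : G ⧸ (S : Subgroup G)), w (s • q) = w q := by
    intro s q
    refine QuotientGroup.induction_on q (fun g => ?_)
    have e1 : s • (g : G ⧸ (S : Subgroup G)) = (((s : G) * g : G) : G ⧸ (S : Subgroup G)) := rfl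
    have e2 : ((s : G) * g)⁻¹ * z * ((s : G) * g) = g⁻¹ * z * g := by
      have := hzcomm s s.2
      calc ((s : G) * g)⁻¹ * z * ((s : G) * g) = g⁻¹ * ((s : G)⁻¹ * (z * s)) * g := by group
        _ = g⁻¹ * ((s : G)⁻¹ * (s * z)) * g := by rw [this]
        _ = g⁻¹ * z * g := by group
    rw [e1]
    by_cases hg : g⁻¹ * z * g ∈ (S : Subgroup G)
    · rw [W1 g hg, W1 _ (by rw [e2]; exact hg)]
      exact congrArg φ (Subtype.ext e2)
    · rw [W2 g hg, W2 _ (by rw [e2]; exact hg)]
  have hwfix : ∀ q : G ⧸ (S : Subgroup G), w q ≠ 1 → z • q = q := by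
    intro q
    refine QuotientGroup.induction_on q (fun g => ?_)
    intro hw
    rw [hfix]
    by_contra hcon
    exact hw (W2 g hcon)
  have hT : MonoidHom.transfer φ z = ∏ q : G ⧸ (S : Subgroup G), w q := by
    haveI : Fintype (Quotient (orbitRel (zpowers z) (G ⧸ (S : Subgroup G)))) := Fintype.ofFinite _
    rw [MonoidHom.transfer_eq_prod_quotient_orbitRel_zpowers_quot φ z]
    rw [← Finset.prod_fiberwise (Finset.univ)
      (fun q : G ⧸ (S : Subgroup G) =>
        (Quotient.mk'' q : Quotient (orbitRel (zpowers z) (G ⧸ (S : Subgroup G))))) w]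
    refine Finset.prod_congr rfl (fun q _ => ?_)
    have hR : ∏ x ∈ Finset.univ with
        (Quotient.mk'' x : Quotient (orbitRel (zpowers z) (G ⧸ (S : Subgroup G)))) = q, w x
        = w q.out := by
      rw [Finset.prod_eq_single q.out]
      · intro b hb hne
        rw [Finset.mem_filter] at hb
        by_contra hw
        have hbf := hwfix b hw
        apply hne
        have hrel : (Quotient.mk'' q.out : Quotient (orbitRel (zpowers z) (G ⧸ (S : Subgroup G))))
            = Quotient.mk'' b := by rw [Quotient.out_eq', hb.2]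
        have hrel' := Quotient.exact' hrel
        rw [orbitRel_apply] at hrel'
        obtain ⟨t, ht⟩ := hrel'
        have hst : (t : G) ∈ MulAction.stabilizer G b :=
          (Subgroup.zpowers_le.mpr (MulAction.mem_stabilizer_iff.mpr hbf)) t.2
        have : t • b = b := MulAction.mem_stabilizer_iff.mp hst
        rw [← ht]; exact this.symm
      · intro hnot
        exfalso; apply hnot
        rw [Finset.mem_filter]
        exact ⟨Finset.mem_univ _, Quotient.out_eq' q⟩
    rw [hR]
    by_cases hq : z • q.out = q.out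
    · have hper : Function.minimalPeriod (z • ·) q.out = 1 :=
        Function.minimalPeriod_eq_one_iff_isFixedPt.mpr hq
      have hmem : q.out.out⁻¹ * z * q.out.out ∈ (S : Subgroup G) := by
        have := (hfix q.out.out).mp (by rw [QuotientGroup.out_eq']; exact hq)
        exact this
      show _ = (if h : _ then _ else _)
      rw [dif_pos hmem]
      refine congrArg φ (Subtype.ext ?_)
      show q.out.out⁻¹ * z ^ Function.minimalPeriod (z • ·) q.out * q.out.out
        = q.out.out⁻¹ * z * q.out.out
      rw [hper, pow_one]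
    · have hper : Function.minimalPeriod (z • ·) q.out = 2 := by
        have hp : Function.IsPeriodicPt (z • ·) 2 q.out := by
          show z • (z • q.out) = q.out
          rw [← mul_smul, hzz', one_smul]
        have hd := hp.minimalPeriod_dvd
        rcases (Nat.dvd_prime Nat.prime_two).mp hd with h | h
        · exact absurd (Function.minimalPeriod_eq_one_iff_isFixedPt.mp h) hq
        · exact h
      have hmem : ¬ q.out.out⁻¹ * z * q.out.out ∈ (S : Subgroup G) := by
        intro hcon
        apply hq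
        have := (hfix q.out.out).mpr hcon
        rwa [QuotientGroup.out_eq'] at this
      show _ = (if h : _ then _ else _)
      rw [dif_neg hmem]
      have : (⟨q.out.out⁻¹ * z ^ Function.minimalPeriod (z • ·) q.out * q.out.out,
          QuotientGroup.out_conj_pow_minimalPeriod_mem (S : Subgroup G) z q.out⟩ :
            (S : Subgroup G)) = 1 := by
        apply Subtype.ext
        show q.out.out⁻¹ * z ^ Function.minimalPeriod (z • ·) q.out * q.out.out = 1
        rw [hper, pow_two, hzz']; group
      rw [this, map_one]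
  -- parity
  let act : MulAction (S : Subgroup G) {q : G ⧸ (S : Subgroup G) // w q = a} :=
    { smul := fun s q => ⟨s • q.1, by rw [W3]; exact q.2⟩
      one_smul := fun q => Subtype.ext (one_smul _ _)
      mul_smul := fun s t q => Subtype.ext (mul_smul _ _ _) }
  have hmod1 := S.2.card_modEq_card_fixedPoints {q : G ⧸ (S : Subgroup G) // w q = a}
  have hmod2 := S.2.card_modEq_card_fixedPoints (G ⧸ (S : Subgroup G))
  have hWfix : ∀ q : G ⧸ (S : Subgroup G), q ∈ fixedPoints (S : Subgroup G) (G ⧸ (S : Subgroup G)) →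
      w q = a := by
    intro q
    refine QuotientGroup.induction_on q (fun n => ?_)
    intro hq
    rw [Sylow.mem_fixedPoints_mul_left_cosets_iff_mem_normalizer] at hq
    have h1 : n⁻¹ * z * n = z := by
      have := hN n⁻¹ (Subgroup.inv_mem _ hq)
      rwa [inv_inv] at this
    rw [W1 n (by rw [h1]; exact hzS)]
    have : (⟨n⁻¹ * z * n, by rw [h1]; exact hzS⟩ : (S : Subgroup G)) = z' :=
      Subtype.ext (h1.trans hzG)
    rw [this, hφz]
  have hcardfix : Nat.card (fixedPoints (S : Subgroup G) {q : G ⧸ (S : Subgroup G) // w q = a})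
      = Nat.card (fixedPoints (S : Subgroup G) (G ⧸ (S : Subgroup G))) := by
    apply Nat.card_congr
    refine ⟨fun x => ⟨x.1.1, ?_⟩, fun y => ⟨⟨y.1, hWfix y.1 y.2⟩, ?_⟩, ?_, ?_⟩
    · intro s; have := x.2 s; exact congrArg Subtype.val this
    · intro s; apply Subtype.ext; exact y.2 s
    · intro x; rfl
    · intro y; rfl
  have hodd : Odd (Nat.card {q : G ⧸ (S : Subgroup G) // w q = a}) := by
    have h1 : Nat.card {q : G ⧸ (S : Subgroup G) // w q = a} ≡
        Nat.card (G ⧸ (S : Subgroup G)) [MOD 2] := by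
      rw [hcardfix] at hmod1; exact hmod1.trans hmod2.symm
    have h2 : ¬ 2 ∣ Nat.card (G ⧸ (S : Subgroup G)) := by
      rw [← Subgroup.index_eq_card]; exact S.not_dvd_index
    rw [Nat.odd_iff]; unfold Nat.ModEq at h1; omega
  have hprod : ∏ q : G ⧸ (S : Subgroup G), w q
      = a ^ Nat.card {q : G ⧸ (S : Subgroup G) // w q = a} := by
    have h1 : ∀ q : G ⧸ (S : Subgroup G), w q = if w q = a then a else 1 := by
      intro q; by_cases h : w q = a
      · rw [if_pos h, h]
      · rw [if_neg h]; exact (hall (w q)).resolve_right h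
    rw [Finset.prod_congr rfl (fun q _ => h1 q), Finset.prod_ite, Finset.prod_const,
      Finset.prod_const_one, mul_one]
    congr 1
    rw [Nat.card_eq_fintype_card, Fintype.card_subtype]
  have hTa : MonoidHom.transfer φ z = a := by
    rw [hT, hprod]
    obtain ⟨k, hk⟩ := hodd
    rw [hk, pow_succ, pow_mul, pow_two, haa, one_pow, one_mul]
  refine ⟨(MonoidHom.transfer φ).ker, ?_⟩
  rw [Subgroup.index_ker]
  have hle : Nat.card (MonoidHom.transfer φ).range ∣ 2 := by
    have := Subgroup.card_subgroup_dvd_card (MonoidHom.transfer φ).range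
    rwa [show Nat.card (Multiplicative (ZMod 2)) = 2 from by
      rw [Nat.card_eq_fintype_card]; rfl] at this
  rcases (Nat.dvd_prime Nat.prime_two).mp hle with h | h
  · exfalso
    have hbot := Subgroup.eq_bot_of_card_eq _ h
    have : a ∈ (MonoidHom.transfer φ).range := ⟨z, hTa⟩
    rw [hbot, Subgroup.mem_bot] at this
    exact ha1 this
  · exact h
end


/-- A finite group whose Sylow 2-subgroups are isomorphic to the direct product of a group of order 2 and a dihedral group of order 8 has a subgroup of index two. -/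
theorem result {G : Type*} [Group G] [Finite G] (S : Sylow 2 G) (hS : Nonempty (↥(S : Subgroup G) ≃* Multiplicative (ZMod 2) × DihedralGroup 4)) : ∃ H : Subgroup G, H.index = 2 := by
  exact aux S hS

end Cfsg.Agent.S2911
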