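import Cfsg.Statements.S2912
import Mathlib
import Cfsg.Agent.Lib.helper1.ESModule
import Cfsg.Agent.Lib.helper1.Fpf
-- import your own Cfsg.Agent.* helpers here

set_option autoImplicit false
open Cfsg

namespace Cfsg.Agent.S2912

open scoped commutatorElement in
theorem esz_of_extraspecial {E : Type*} [Group E] [Finite E] {p : ℕ} [hp : Fact p.Prime]
    (hE : Cfsg.IsExtraspecial p E) : ∃ z : E, Cfsg.Agent.Lib.helper1.ESz p E z := by
  obtain ⟨⟨-, -, hcomm⟩, hcen⟩ := hE
  haveI : IsCyclic (Subgroup.center E) := isCyclic_of_prime_card hcen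
  obtain ⟨g, hg⟩ := IsCyclic.exists_generator (α := Subgroup.center E)
  have hord : orderOf g = p := by rw [orderOf_eq_card_of_forall_mem_zpowers hg, hcen]
  have hpow : ∀ t : E, t ∈ Subgroup.center E → ∃ k : ℕ, t = (g : E) ^ k := by
    intro t ht
    have h1 : (⟨t, ht⟩ : Subgroup.center E) ∈ Subgroup.zpowers g := hg _
    rw [← mem_powers_iff_mem_zpowers] at h1
    obtain ⟨k, hk⟩ := (Submonoid.mem_powers_iff _ _).mp h1
    exact ⟨k, by rw [← Subgroup.coe_pow, hk]⟩
  refine ⟨(g : E), ⟨?_, ?_, ?_, ?_, ?_⟩⟩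
  · intro h1
    have hg1 : g = 1 := Subtype.ext h1
    rw [hg1, orderOf_one] at hord
    exact hp.out.one_lt.ne hord
  · have h1 : g ^ p = 1 := by
      rw [← hord]
      exact pow_orderOf_eq_one g
    exact congrArg Subtype.val h1
  · intro t
    exact (Subgroup.mem_center_iff.mp g.2 t).symm
  · intro a b
    have hmem : ⁅a⁻¹, b⁻¹⁆ ∈ Subgroup.center E := by
      rw [← hcomm, commutator_def]
      exact Subgroup.commutator_mem_commutator (Subgroup.mem_top _) (Subgroup.mem_top _)
    obtain ⟨k, hk⟩ := hpow _ hmem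
    refine ⟨k, ?_⟩
    rw [← hk, commutatorElement_def]
    simp [mul_assoc]
  · intro c hc
    exact hpow c (Subgroup.mem_center_iff.mpr (fun t => (hc t).symm))

/-- Let p and r be distinct primes, let E be an extraspecial subgroup of order p^(2w+1) of a finite group, and let A be an elementary abelian r-subgroup normalized by E on which E acts faithfully (C_E(A) = 1). If n ≥ 1 is least with p dividing rⁿ − 1 (the smallest dimension of a faithful representation of a group of order p over the field with r elements), then the order of A is at least r^(n·p^w). -/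
theorem result {G : Type*} [Group G] [Finite G] {p r : ℕ} [Fact p.Prime] [hr : Fact r.Prime] (hpr : p ≠ r) (E A : Subgroup G) (w : ℕ) (hE : Cfsg.IsExtraspecial p ↥E) (hEcard : Nat.card ↥E = p ^ (2 * w + 1)) (hA : Cfsg.IsElementaryAbelian r A) (hnorm : E ≤ Subgroup.normalizer (A : Set G)) (hfaith : E ⊓ Subgroup.centralizer (A : Set G) = ⊥) (n : ℕ) (hn : 1 ≤ n) (hdiv : p ∣ r ^ n - 1) (hmin : ∀ k : ℕ, 1 ≤ k → p ∣ r ^ k - 1 → n ≤ k) : r ^ (n * p ^ w) ≤ Nat.card ↥A := by
  obtain ⟨z, hz⟩ := esz_of_extraspecial hE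
  haveI := hA.1
  refine Cfsg.Agent.Lib.helper1.esz_faithful_bound hpr n hmin w (fun a b => mul_comm' a b) z
    (Cfsg.Agent.Lib.helper1.fpfHom hnorm) hz hEcard (fun v => Subtype.ext (hA.2 v v.2)) ?_
  refine (injective_iff_map_eq_one _).mpr ?_
  intro g hg
  have hgc : (g : G) ∈ E ⊓ Subgroup.centralizer (A : Set G) := by
    refine Subgroup.mem_inf.mpr ⟨g.2, ?_⟩
    rw [Subgroup.mem_centralizer_iff]
    intro a ha
    have h1 : ((Cfsg.Agent.Lib.helper1.fpfHom hnorm g (⟨a, ha⟩ : A) : A) : G) = a := by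
      rw [hg]
      rfl
    rw [Cfsg.Agent.Lib.helper1.fpfHom_apply_coe] at h1
    have h2 : (g : G) * a = a * (g : G) := by
      rw [mul_inv_eq_iff_eq_mul] at h1
      exact h1
    exact h2.symm
  rw [hfaith, Subgroup.mem_bot] at hgc
  exact Subtype.ext hgc

end Cfsg.Agent.S2912
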