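import Cfsg.Statements.S2922
-- import your own Cfsg.Agent.* helpers here
import Cfsg.Agent.Lib.helper7.Local4

set_option autoImplicit false
open Cfsg

namespace Cfsg.Agent.S2922

/-- Let p be a prime, X a finite group, B a p-subgroup of X and C a normal subgroup of B. If N_X(C) has characteristic p (its generalized Fitting subgroup is O_p(N_X(C))), then N_X(B) and C_X(B) have characteristic p. -/
theorem result {X : Type*} [Group X] [Finite X] {p : ℕ} [Fact p.Prime] (B C : Subgroup X) (hB : IsPGroup p ↥B) (hCB : C ≤ B) (hCn : (C.subgroupOf B).Normal) (hC : Cfsg.generalizedFittingSubgroup ↥(Subgroup.normalizer (C : Set X)) = Cfsg.pCore p ↥(Subgroup.normalizer (C : Set X))) : Cfsg.generalizedFittingSubgroup ↥(Subgroup.normalizer (B : Set X)) = Cfsg.pCore p ↥(Subgroup.normalizer (B : Set X)) ∧ Cfsg.generalizedFittingSubgroup ↥(Subgroup.centralizer (B : Set X)) = Cfsg.pCore p ↥(Subgroup.centralizer (B : Set X)) := by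
  have hCN : Subgroup.centralizer (C : Set X) ≤ Subgroup.normalizer (C : Set X) :=
    Subgroup.centralizer_le_normalizer _
  have h0 : IsPGroup p ↥(Cfsg.generalizedFittingSubgroup ↥(Subgroup.normalizer (C : Set X))) :=
    Cfsg.Agent.Lib.helper7.fsP_iff.mpr hC
  have hKn : ((Subgroup.centralizer (C : Set X)).subgroupOf
      (Subgroup.normalizer (C : Set X))).Normal :=
    Subgroup.normal_subgroupOf_centralizer_normalizer _
  have h1 := Cfsg.Agent.Lib.helper7.fsP_of_equiv (Subgroup.subgroupOfEquivOfLe hCN)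
    (Cfsg.Agent.Lib.helper7.fsP_subnormal (Subgroup.Normal.isSubnormal hKn) h0)
  have h2 := Cfsg.Agent.Lib.helper7.fsP_centralizer_of_le hB _ C hCB rfl h1
  have h3 : IsPGroup p ↥(Cfsg.generalizedFittingSubgroup ↥(Subgroup.normalizer (B : Set X))) := by
    apply Cfsg.Agent.Lib.helper7.fsP_of_inf_centralizer (B : Set X) (subset_refl _)
      Subgroup.le_normalizer le_rfl hB
    rw [inf_eq_right.mpr (Subgroup.centralizer_le_normalizer _)]
    exact h2
  exact ⟨Cfsg.Agent.Lib.helper7.fsP_iff.mp h3, Cfsg.Agent.Lib.helper7.fsP_iff.mp h2⟩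


end Cfsg.Agent.S2922
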