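import Cfsg.Statements.S2929
import Mathlib
import Cfsg.Agent.Lib.helper7.Subn
import Cfsg.Agent.Lib.helper7.QS
import Cfsg.Agent.Lib.helper7.Comp
import Cfsg.Agent.Lib.helper7.Layer
import Cfsg.Agent.Lib.helper7.Layer2
import Cfsg.Agent.Lib.helper7.FStar
import Cfsg.Agent.S2759

set_option autoImplicit false
set_option linter.style.haveILetI false
open Cfsg

namespace Cfsg.Agent.S2929

open Equiv Equiv.Perm Cfsg.Agent.Lib.helper7

/-! ### The three-cycle `(a b c)` -/

section c3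
variable {α : Type*} [DecidableEq α]

/-- the three-cycle `a ↦ b ↦ c ↦ a` -/
def c3 (a b c : α) : Perm α := swap a b * swap b c

theorem c3_apply_fst {a b c : α} (hab : a ≠ b) (hac : a ≠ c) : c3 a b c a = b := by
  simp [c3, swap_apply_of_ne_of_ne hab hac]

theorem c3_apply_snd {a b c : α} (hac : a ≠ c) (hbc : b ≠ c) : c3 a b c b = c := by
  simp [c3, swap_apply_of_ne_of_ne hac.symm hbc.symm]

theorem c3_apply_trd {a b c : α} : c3 a b c c = a := by
  simp [c3]

theorem c3_apply_other {a b c x : α} (hxa : x ≠ a) (hxb : x ≠ b) (hxc : x ≠ c) :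
    c3 a b c x = x := by
  simp [c3, swap_apply_of_ne_of_ne hxb hxc, swap_apply_of_ne_of_ne hxa hxb]

theorem c3_rot {a b c : α} (hab : a ≠ b) (hac : a ≠ c) (hbc : b ≠ c) : c3 a b c = c3 b c a := by
  ext x
  by_cases hxa : x = a
  · rw [hxa, c3_apply_fst hab hac, c3_apply_trd]
  by_cases hxb : x = b
  · rw [hxb, c3_apply_snd hac hbc, c3_apply_fst hbc hab.symm]
  by_cases hxc : x = c
  · rw [hxc, c3_apply_trd, c3_apply_snd hab.symm hac.symm]
  rw [c3_apply_other hxa hxb hxc, c3_apply_other hxb hxc hxa]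

theorem c3_inv (a b c : α) : (c3 a b c)⁻¹ = c3 c b a := by
  simp [c3, mul_inv_rev, swap_comm c b, swap_comm b a]

theorem c3_conj (g : Perm α) (a b c : α) : g * c3 a b c * g⁻¹ = c3 (g a) (g b) (g c) := by
  unfold c3
  rw [swap_apply_apply, swap_apply_apply]; group

theorem c3_isThreeCycle [Fintype α] {a b c : α} (hab : a ≠ b) (hac : a ≠ c) (hbc : b ≠ c) :
    IsThreeCycle (c3 a b c) := by
  have := isThreeCycle_swap_mul_swap_same hab.symm hbc hac
  rwa [swap_comm b a] at this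

theorem exists_c3 [Fintype α] {σ : Perm α} (h : IsThreeCycle σ) :
    ∃ a b c : α, a ≠ b ∧ a ≠ c ∧ b ≠ c ∧ σ = c3 a b c := by
  have hne : σ.support.Nonempty := by
    rw [Finset.nonempty_iff_ne_empty]
    intro h0
    have := h.card_support
    rw [h0] at this
    simp at this
  obtain ⟨a, ha⟩ := hne
  have hnd := h.nodup_iff_mem_support.mpr ha
  have heq := h.eq_swap_mul_swap_iff_mem_support.mpr ha
  simp only [List.nodup_cons, List.mem_cons, not_or, List.not_mem_nil,
    not_false_eq_true, List.nodup_nil, and_true] at hnd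
  exact ⟨a, σ a, σ (σ a), hnd.1.1, hnd.1.2, hnd.2, heq⟩

end c3

/-! ### Full sets -/

section full
variable {α : Type*} [DecidableEq α] [Fintype α] (H : Subgroup (Perm α))

/-- all three-cycles on `Δ` lie in `H` -/
def Full (Δ : Finset α) : Prop :=
  ∀ a ∈ Δ, ∀ b ∈ Δ, ∀ c ∈ Δ, a ≠ b → a ≠ c → b ≠ c → c3 a b c ∈ H

theorem four_pt {a b c x : α} (hab : a ≠ b) (hac : a ≠ c) (hbc : b ≠ c) (hax : a ≠ x)
    (hbx : b ≠ x) (hcx : c ≠ x) (h1 : c3 a b c ∈ H) (h2 : c3 a b x ∈ H) :
    c3 a c x ∈ H ∧ c3 b c x ∈ H := by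
  have h3 : c3 b c x ∈ H := by
    have := H.mul_mem (H.mul_mem h1 h2) (H.inv_mem h1)
    rwa [c3_conj, c3_apply_fst hab hac, c3_apply_snd hac hbc,
      c3_apply_other hax.symm hbx.symm hcx.symm] at this
  have h4 : c3 c a x ∈ H := by
    have := H.mul_mem (H.mul_mem h1 h3) (H.inv_mem h1)
    rwa [c3_conj, c3_apply_snd hac hbc, c3_apply_trd,
      c3_apply_other hax.symm hbx.symm hcx.symm] at this
  refine ⟨?_, h3⟩
  have := H.inv_mem h4
  rwa [c3_inv, c3_rot hax.symm hcx.symm hac] at this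

theorem full_insert {Δ : Finset α} (hΔ : Full H Δ) {a b x : α} (ha : a ∈ Δ) (hb : b ∈ Δ)
    (hab : a ≠ b) (hx : x ∉ Δ) (h : c3 a b x ∈ H) : Full H (insert x Δ) := by
  have hne : ∀ p ∈ Δ, p ≠ x := fun p hp hpx => hx (hpx ▸ hp)
  have h1 : ∀ q ∈ Δ, q ≠ a → c3 a q x ∈ H := by
    intro q hq hqa
    by_cases hqb : q = b
    · rw [hqb]; exact h
    · exact (four_pt H hab (Ne.symm hqa) (Ne.symm hqb) (hne a ha) (hne b hb) (hne q hq)
        (hΔ a ha b hb q hq hab (Ne.symm hqa) (Ne.symm hqb)) h).1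
  have h2 : ∀ p ∈ Δ, ∀ q ∈ Δ, p ≠ q → c3 p q x ∈ H := by
    intro p hp q hq hpq
    by_cases hpa : p = a
    · rw [hpa]; exact h1 q hq (fun h' => hpq (hpa.trans h'.symm))
    by_cases hqa : q = a
    · rw [hqa]
      have := H.inv_mem (h1 p hp hpa)
      rwa [c3_inv, c3_rot (hne p hp).symm (hne a ha).symm hpa] at this
    · exact (four_pt H (Ne.symm hpa) (Ne.symm hqa) hpq (hne a ha) (hne p hp) (hne q hq)
        (hΔ a ha p hp q hq (Ne.symm hpa) (Ne.symm hqa) hpq) (h1 p hp hpa)).2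
  intro p hp q hq r hr hpq hpr hqr
  rw [Finset.mem_insert] at hp hq hr
  rcases hp with hpx | hp
  · rcases hq with hqx | hq
    · exact absurd (hpx.trans hqx.symm) hpq
    rcases hr with hrx | hr
    · exact absurd (hpx.trans hrx.symm) hpr
    rw [c3_rot hpq hpr hqr, hpx]; exact h2 q hq r hr hqr
  · rcases hq with hqx | hq
    · rcases hr with hrx | hr
      · exact absurd (hqx.trans hrx.symm) hqr
      rw [c3_rot hpq hpr hqr, c3_rot hqr hpq.symm hpr.symm, hqx]
      exact h2 r hr p hp hpr.symm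
    · rcases hr with hrx | hr
      · rw [hrx]; exact h2 p hp q hq hpq
      · exact hΔ p hp q hq r hr hpq hpr hqr

theorem inv_aux {Δ : Finset α} (hΔ : Full H Δ)
    (hmax : ∀ Δ' : Finset α, Full H Δ' → Δ ⊆ Δ' → Δ' = Δ) (h3 : 3 ≤ Δ.card)
    {x y z : α} (hxy : x ≠ y) (hxz : x ≠ z) (hyz : y ≠ z) (ht : c3 x y z ∈ H) (hx : x ∈ Δ) :
    y ∈ Δ ∧ z ∈ Δ := by
  have key : ∀ {a b w : α}, a ∈ Δ → b ∈ Δ → a ≠ b → c3 a b w ∈ H → w ∈ Δ := by
    intro a b w ha hb hab h
    by_contra hw
    have := hmax _ (full_insert H hΔ ha hb hab hw h) (Finset.subset_insert _ _)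
    exact hw (this ▸ Finset.mem_insert_self _ _)
  have hy : y ∈ Δ := by
    by_contra hy
    by_cases hz : z ∈ Δ
    · have : c3 z x y ∈ H := by rw [c3_rot hxz.symm hyz.symm hxy]; exact ht
      exact hy (key hz hx hxz.symm this)
    · obtain ⟨b, hb, c, hc, hbc, hbx, hcx⟩ : ∃ b ∈ Δ, ∃ c ∈ Δ, b ≠ c ∧ b ≠ x ∧ c ≠ x := by
        have h2 : 1 < (Δ.erase x).card := by rw [Finset.card_erase_of_mem hx]; omega
        obtain ⟨b, hb, c, hc, hbc⟩ := Finset.one_lt_card.1 h2
        exact ⟨b, Finset.mem_of_mem_erase hb, c, Finset.mem_of_mem_erase hc, hbc,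
          Finset.ne_of_mem_erase hb, Finset.ne_of_mem_erase hc⟩
      have hby : b ≠ y := fun h => hy (h ▸ hb)
      have hcy : c ≠ y := fun h => hy (h ▸ hc)
      have hbz : b ≠ z := fun h => hz (h ▸ hb)
      have hcz : c ≠ z := fun h => hz (h ▸ hc)
      have h1 : c3 x b c ∈ H := hΔ x hx b hb c hc hbx.symm hcx.symm hbc
      have h2 := H.mul_mem (H.mul_mem ht h1) (H.inv_mem ht)
      rw [c3_conj, c3_apply_fst hxy hxz, c3_apply_other hbx hby hbz,
        c3_apply_other hcx hcy hcz, c3_rot hby.symm hcy.symm hbc] at h2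
      exact hy (key hb hc hbc h2)
  exact ⟨hy, key hx hy hxy ht⟩

end full

/-! ### Small symmetric groups are solvable -/

set_option maxRecDepth 100000 in
theorem ker3_comm : ∀ a b : Perm (Fin 3), Perm.sign a = 1 → Perm.sign b = 1 → a * b = b * a := by
  decide

theorem solvable_perm3 : Group.IsSolvable (Perm (Fin 3)) := by
  have hc : ∀ a b : (Perm.sign (α := Fin 3)).ker, a * b = b * a := by
    rintro ⟨a, ha⟩ ⟨b, hb⟩
    apply Subtype.ext
    exact ker3_comm a b ha hb
  haveI : Group.IsSolvable (Perm.sign (α := Fin 3)).ker := Group.isSolvable_of_comm hc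
  exact Group.isSolvable_of_ker_le_range ((Perm.sign (α := Fin 3)).ker.subtype) Perm.sign
    (by rw [Subgroup.range_subtype])

theorem solvable_perm4 : Group.IsSolvable (Perm (Fin 4)) := by
  have hc : ∀ a b : Cfsg.Agent.S2759.σ.ker, a * b = b * a := by
    rintro ⟨a, ha⟩ ⟨b, hb⟩
    apply Subtype.ext
    exact Cfsg.Agent.S2759.ker_comm' a b ((Cfsg.Agent.S2759.σ_eq_one_iff a).1 ha)
      ((Cfsg.Agent.S2759.σ_eq_one_iff b).1 hb)
  haveI : Group.IsSolvable Cfsg.Agent.S2759.σ.ker := Group.isSolvable_of_comm hc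
  haveI := solvable_perm3
  exact Group.isSolvable_of_ker_le_range (Cfsg.Agent.S2759.σ.ker.subtype) Cfsg.Agent.S2759.σ
    (by rw [Subgroup.range_subtype])

theorem solvable_of_card_le_four {β : Type*} [Fintype β] (h : Fintype.card β ≤ 4) :
    Group.IsSolvable (Perm β) := by
  obtain ⟨e⟩ : Nonempty (β ↪ Fin 4) := Function.Embedding.nonempty_of_card_le (by simpa using h)
  haveI := solvable_perm4
  exact Group.isSolvable_of_isSolvable_injective (f := Equiv.Perm.viaEmbeddingHom e)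
    (Equiv.Perm.viaEmbeddingHom_injective e)

/-! ### Disjoint three-cycles in a Sylow `3`-subgroup -/

/-- the point `3 i + k` -/
def pt (n : ℕ) (i : Fin (n / 3)) (k : Fin 3) : Fin n :=
  ⟨3 * i.val + k.val, by have := i.2; have := k.2; omega⟩

theorem pt_inj (n : ℕ) (i i' : Fin (n / 3)) (k k' : Fin 3) (h : pt n i k = pt n i' k') :
    i = i' ∧ k = k' := by
  have h1 : 3 * i.val + k.val = 3 * i'.val + k'.val := congrArg Fin.val h
  have := k.2
  have := k'.2
  exact ⟨Fin.ext (by omega), Fin.ext (by omega)⟩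

/-- the three-cycle `(3i, 3i+1, 3i+2)` -/
def tt (n : ℕ) (i : Fin (n / 3)) : Perm (Fin n) := c3 (pt n i 0) (pt n i 1) (pt n i 2)

theorem pt_ne (n : ℕ) (i : Fin (n / 3)) (k k' : Fin 3) (h : k ≠ k') : pt n i k ≠ pt n i k' :=
  fun h' => h (pt_inj n i i k k' h').2

theorem tt_comm (n : ℕ) (i j : Fin (n / 3)) : tt n i * tt n j = tt n j * tt n i := by
  by_cases hij : i = j
  · rw [hij]
  · have hne : ∀ k k', pt n j k ≠ pt n i k' := fun k k' h => hij ((pt_inj n _ _ _ _ h).1).symm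
    have h : tt n i * tt n j * (tt n i)⁻¹ = tt n j := by
      unfold tt
      rw [c3_conj, c3_apply_other (hne 0 0) (hne 0 1) (hne 0 2),
        c3_apply_other (hne 1 0) (hne 1 1) (hne 1 2), c3_apply_other (hne 2 0) (hne 2 1) (hne 2 2)]
    calc tt n i * tt n j = (tt n i * tt n j * (tt n i)⁻¹) * tt n i := by group
      _ = tt n j * tt n i := by rw [h]

theorem tt_pow (n : ℕ) (i : Fin (n / 3)) : tt n i ^ 3 = 1 := by
  have h := (c3_isThreeCycle (pt_ne n i 0 1 (by decide)) (pt_ne n i 0 2 (by decide))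
    (pt_ne n i 1 2 (by decide))).orderOf
  have h2 := pow_orderOf_eq_one (c3 (pt n i 0) (pt n i 1) (pt n i 2))
  rw [h] at h2
  exact h2

theorem Q0_pgroup (n : ℕ) : IsPGroup 3 ↥(Subgroup.closure (Set.range (tt n))) := by
  have h1 : Subgroup.closure (Set.range (tt n)) ≤ Subgroup.centralizer (Set.range (tt n)) := by
    rw [Subgroup.closure_le]
    rintro _ ⟨i, rfl⟩
    rw [SetLike.mem_coe, Subgroup.mem_centralizer_iff]
    rintro _ ⟨j, rfl⟩
    exact tt_comm n j i
  have h2 : ∀ x ∈ Subgroup.closure (Set.range (tt n)),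
      ∀ y ∈ Subgroup.closure (Set.range (tt n)), x * y = y * x := by
    intro x hx y hy
    have h3 : Subgroup.closure (Set.range (tt n)) ≤ Subgroup.centralizer {y} := by
      rw [Subgroup.closure_le]
      intro s hs
      rw [SetLike.mem_coe, Subgroup.mem_centralizer_iff]
      intro z hz
      rw [Set.mem_singleton_iff] at hz
      rw [hz]
      exact ((Subgroup.mem_centralizer_iff.1 (h1 hy)) s hs).symm
    have := (Subgroup.mem_centralizer_iff.1 (h3 hx)) y rfl
    exact this.symm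
  have h4 : ∀ x ∈ Subgroup.closure (Set.range (tt n)), x ^ 3 = 1 := by
    intro x hx
    induction hx using Subgroup.closure_induction with
    | mem x hx => obtain ⟨i, rfl⟩ := hx; exact tt_pow n i
    | one => simp
    | mul x y hx hy ihx ihy =>
      have hc : Commute x y := h2 x hx y hy
      rw [hc.mul_pow, ihx, ihy, one_mul]
    | inv x hx ih => rw [inv_pow, ih, inv_one]
  rintro ⟨x, hx⟩
  exact ⟨1, Subtype.ext (by simpa using h4 x hx)⟩

open scoped Pointwise in
theorem sylow_three_cycles (n : ℕ) (P : Sylow 3 (Perm (Fin n))) :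
    ∃ g : Perm (Fin n), ∀ i : Fin (n / 3),
      g * tt n i * g⁻¹ ∈ (P : Subgroup (Perm (Fin n))) := by
  haveI : Fact (Nat.Prime 3) := ⟨Nat.prime_three⟩
  obtain ⟨P₀, hP₀⟩ := (Q0_pgroup n).exists_le_sylow
  obtain ⟨g, hg⟩ := MulAction.exists_smul_eq (Perm (Fin n)) P₀ P
  refine ⟨g, fun i => ?_⟩
  have h1 : tt n i ∈ (P₀ : Subgroup (Perm (Fin n))) := hP₀ (Subgroup.subset_closure ⟨i, rfl⟩)
  have hPg : (P : Subgroup (Perm (Fin n))) = MulAut.conj g • (P₀ : Subgroup (Perm (Fin n))) := by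
    rw [← Sylow.coe_subgroup_smul, hg]
  rw [hPg, Subgroup.mem_pointwise_smul_iff_inv_smul_mem]
  have h2 : g⁻¹ * (g * tt n i * g⁻¹) * g = tt n i := by group
  show g⁻¹ * (g * tt n i * g⁻¹) * g ∈ (P₀ : Subgroup (Perm (Fin n)))
  rw [h2]; exact h1

theorem isThreeCycle_conj {α : Type*} [Fintype α] [DecidableEq α] {σ τ : Perm α}
    (h : IsThreeCycle σ) : IsThreeCycle (τ * σ * τ⁻¹) := by
  unfold IsThreeCycle at h ⊢
  rw [Equiv.Perm.cycleType_conj]; exact h

/-- Let n ≥ 5 and let H be a subgroup of the symmetric group of degree n whose generalized Fitting subgroup F*(H) is quasisimple. If H contains a Sylow 3-subgroup of the symmetric group, then F*(H) is isomorphic to an alternating group of degree m for some m ∈ {n − 2, n − 1, n}. -/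
theorem result (n : ℕ) (hn : 5 ≤ n) (H : Subgroup (Equiv.Perm (Fin n))) (hF : Cfsg.IsQuasisimple ↥(Cfsg.generalizedFittingSubgroup ↥H)) (hS : ∃ P : Sylow 3 (Equiv.Perm (Fin n)), (P : Subgroup (Equiv.Perm (Fin n))) ≤ H) : ∃ m : ℕ, (m = n - 2 ∨ m = n - 1 ∨ m = n) ∧ Nonempty (↥(Cfsg.generalizedFittingSubgroup ↥H) ≃* ↥(alternatingGroup (Fin m))) := by
  classical
  obtain ⟨P, hPH⟩ := hS
  obtain ⟨g, hg⟩ := sylow_three_cycles n P
  have hr : 0 < n / 3 := by omega
  have hs : ∀ i : Fin (n / 3), c3 (g (pt n i 0)) (g (pt n i 1)) (g (pt n i 2)) ∈ H := by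
    intro i
    have := hPH (hg i)
    rwa [tt, c3_conj] at this
  have hdist : ∀ i : Fin (n / 3), ∀ k k' : Fin 3, k ≠ k' → g (pt n i k) ≠ g (pt n i k') := by
    intro i k k' hkk h
    exact hkk ((pt_inj n _ _ _ _ (g.injective h)).2)
  obtain ⟨x₀, hx₀⟩ : ∃ x, x = g (pt n ⟨0, hr⟩ 0) := ⟨_, rfl⟩
  obtain ⟨y₀, hy₀⟩ : ∃ x, x = g (pt n ⟨0, hr⟩ 1) := ⟨_, rfl⟩
  obtain ⟨z₀, hz₀⟩ : ∃ x, x = g (pt n ⟨0, hr⟩ 2) := ⟨_, rfl⟩
  have hxy₀ : x₀ ≠ y₀ := by rw [hx₀, hy₀]; exact hdist _ 0 1 (by decide)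
  have hxz₀ : x₀ ≠ z₀ := by rw [hx₀, hz₀]; exact hdist _ 0 2 (by decide)
  have hyz₀ : y₀ ≠ z₀ := by rw [hy₀, hz₀]; exact hdist _ 1 2 (by decide)
  have ht₀ : c3 x₀ y₀ z₀ ∈ H := by rw [hx₀, hy₀, hz₀]; exact hs _
  have hfull₀ : Full H {x₀, y₀, z₀} := by
    intro a ha b hb c hc hab hac hbc
    simp only [Finset.mem_insert, Finset.mem_singleton] at ha hb hc
    have hinv : c3 z₀ y₀ x₀ ∈ H := by rw [← c3_inv]; exact H.inv_mem ht₀
    rcases ha with rfl | rfl | rfl <;> rcases hb with rfl | rfl | rfl <;>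
      rcases hc with rfl | rfl | rfl <;>
      first
      | exact absurd rfl hab
      | exact absurd rfl hac
      | exact absurd rfl hbc
      | exact ht₀
      | (rw [c3_rot hab hac hbc]; exact ht₀)
      | (rw [c3_rot hab hac hbc, c3_rot hbc hab.symm hac.symm]; exact ht₀)
      | exact hinv
      | (rw [c3_rot hab hac hbc]; exact hinv)
      | (rw [c3_rot hab hac hbc, c3_rot hbc hab.symm hac.symm]; exact hinv)
  obtain ⟨Δ, hΔmem, hΔmax⟩ := Finset.exists_max_image
    (Finset.univ.filter (fun Δ : Finset (Fin n) => Full H Δ ∧ ({x₀, y₀, z₀} : Finset (Fin n)) ⊆ Δ))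
    Finset.card ⟨{x₀, y₀, z₀}, by simp [hfull₀]⟩
  have hΔ : Full H Δ := (Finset.mem_filter.1 hΔmem).2.1
  have hΔ0 : ({x₀, y₀, z₀} : Finset (Fin n)) ⊆ Δ := (Finset.mem_filter.1 hΔmem).2.2
  have hmax : ∀ Δ' : Finset (Fin n), Full H Δ' → Δ ⊆ Δ' → Δ' = Δ := by
    intro Δ' hΔ' hsub
    have h1 := hΔmax Δ' (Finset.mem_filter.2 ⟨Finset.mem_univ _, hΔ', hΔ0.trans hsub⟩)
    exact (Finset.eq_of_subset_of_card_le hsub h1).symm
  have hx₀Δ : x₀ ∈ Δ := hΔ0 (by simp)
  have hy₀Δ : y₀ ∈ Δ := hΔ0 (by simp)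
  have hz₀Δ : z₀ ∈ Δ := hΔ0 (by simp)
  have h3 : 3 ≤ Δ.card := by
    have h1 : ({x₀, y₀, z₀} : Finset (Fin n)).card = 3 := by
      rw [Finset.card_insert_of_notMem, Finset.card_insert_of_notMem, Finset.card_singleton]
      · simp [hyz₀]
      · simp [hxy₀, hxz₀]
    have h2 := Finset.card_le_card hΔ0
    omega
  -- the alternating group on `Δ`
  let ι : Perm {x // x ∈ Δ} →* Perm (Fin n) := Equiv.Perm.ofSubtype
  have hι : Function.Injective ι := Equiv.Perm.ofSubtype_injective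
  have hιc3 : ∀ a b c : {x // x ∈ Δ}, ι (c3 a b c) = c3 (a : Fin n) b c := by
    intro a b c
    show Equiv.Perm.ofSubtype (c3 a b c) = c3 (a : Fin n) b c
    unfold c3
    rw [map_mul, Equiv.Perm.ofSubtype_swap_eq, Equiv.Perm.ofSubtype_swap_eq]
  obtain ⟨A', hA'⟩ : ∃ A' : Subgroup (Perm (Fin n)), A' = (alternatingGroup {x // x ∈ Δ}).map ι :=
    ⟨_, rfl⟩
  have hc3A : ∀ a ∈ Δ, ∀ b ∈ Δ, ∀ c ∈ Δ, a ≠ b → a ≠ c → b ≠ c → c3 a b c ∈ A' := by
    intro a ha b hb c hc hab hac hbc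
    rw [hA']
    refine ⟨c3 (⟨a, ha⟩ : {x // x ∈ Δ}) ⟨b, hb⟩ ⟨c, hc⟩, ?_, hιc3 _ _ _⟩
    exact (c3_isThreeCycle (fun h => hab (congrArg Subtype.val h))
      (fun h => hac (congrArg Subtype.val h)) (fun h => hbc (congrArg Subtype.val h))).mem_alternatingGroup
  have hA'H : A' ≤ H := by
    rw [hA', ← Equiv.Perm.closure_three_cycles_eq_alternating, MonoidHom.map_closure,
      Subgroup.closure_le]
    rintro _ ⟨σ, hσ, rfl⟩
    obtain ⟨a, b, c, hab, hac, hbc, rfl⟩ := exists_c3 hσ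
    rw [SetLike.mem_coe, hιc3]
    exact hΔ a a.2 b b.2 c c.2 (fun h => hab (Subtype.ext h)) (fun h => hac (Subtype.ext h))
      (fun h => hbc (Subtype.ext h))
  have hA'fix : ∀ σ ∈ A', ∀ x, x ∉ Δ → σ x = x := by
    intro σ hσ x hx
    rw [hA'] at hσ
    obtain ⟨π, -, rfl⟩ := hσ
    exact Equiv.Perm.ofSubtype_apply_of_not_mem π hx
  have hdich : ∀ t ∈ H, IsThreeCycle t → t ∈ A' ∨ ∀ σ ∈ A', t * σ = σ * t := by
    intro t htH ht3
    obtain ⟨x, y, z, hxy, hxz, hyz, rfl⟩ := exists_c3 ht3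
    by_cases hx : x ∈ Δ
    · left
      obtain ⟨hy, hz⟩ := inv_aux H hΔ hmax h3 hxy hxz hyz htH hx
      exact hc3A x hx y hy z hz hxy hxz hyz
    by_cases hy : y ∈ Δ
    · exfalso
      have h1 : c3 y z x ∈ H := by rw [← c3_rot hxy hxz hyz]; exact htH
      exact hx (inv_aux H hΔ hmax h3 hyz hxy.symm hxz.symm h1 hy).2
    by_cases hz : z ∈ Δ
    · exfalso
      have h1 : c3 z x y ∈ H := by rw [c3_rot hxz.symm hyz.symm hxy]; exact htH
      exact hx (inv_aux H hΔ hmax h3 hxz.symm hyz.symm hxy h1 hz).1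
    right
    intro σ hσ
    have hd : Equiv.Perm.Disjoint (c3 x y z) σ := by
      intro w
      by_cases hw : w ∈ Δ
      · left
        exact c3_apply_other (fun h => hx (h ▸ hw)) (fun h => hy (h ▸ hw)) (fun h => hz (h ▸ hw))
      · right
        exact hA'fix σ hσ w hw
    exact hd.commute.eq
  -- subgroups of `↥H`
  obtain ⟨K, hK⟩ : ∃ K : Subgroup ↥H, K = Cfsg.generalizedFittingSubgroup ↥H := ⟨_, rfl⟩
  rw [← hK] at hF ⊢
  obtain ⟨A, hA⟩ : ∃ A : Subgroup ↥H, A = A'.subgroupOf H := ⟨_, rfl⟩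
  have hmemA : ∀ a : ↥H, a ∈ A ↔ (a : Perm (Fin n)) ∈ A' := by
    intro a; rw [hA]; exact Subgroup.mem_subgroupOf
  obtain ⟨L, hL⟩ : ∃ L : Subgroup ↥H,
      L = Subgroup.closure {h : ↥H | IsThreeCycle (h : Perm (Fin n))} := ⟨_, rfl⟩
  have hLn : L.Normal := by
    refine ⟨fun x hx q => ?_⟩
    rw [hL] at hx ⊢
    refine Cfsg.Agent.S2759.closure_conj _ q (fun y hy => Subgroup.subset_closure ?_) x hx
    show IsThreeCycle ((q : Perm (Fin n)) * (y : Perm (Fin n)) * (q : Perm (Fin n))⁻¹)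
    exact isThreeCycle_conj hy
  have hAL : A ≤ L := by
    have h1 : A' ≤ L.map H.subtype := by
      rw [hA', ← Equiv.Perm.closure_three_cycles_eq_alternating, MonoidHom.map_closure,
        Subgroup.closure_le]
      rintro _ ⟨σ, hσ, rfl⟩
      have hmem : ι σ ∈ A' := by
        rw [hA']
        exact ⟨σ, IsThreeCycle.mem_alternatingGroup hσ, rfl⟩
      obtain ⟨a, b, c, hab, hac, hbc, rfl⟩ := exists_c3 hσ
      have h3c : IsThreeCycle (ι (c3 a b c)) := by
        rw [hιc3]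
        exact c3_isThreeCycle (fun h => hab (Subtype.ext h)) (fun h => hac (Subtype.ext h))
          (fun h => hbc (Subtype.ext h))
      refine ⟨⟨ι (c3 a b c), hA'H hmem⟩, ?_, rfl⟩
      rw [hL]
      exact Subgroup.subset_closure h3c
    intro a ha
    obtain ⟨l, hl, hla⟩ := h1 ((hmemA a).1 ha)
    have : l = a := Subtype.ext hla
    rw [← this]; exact hl
  have hLnorm : L ≤ Subgroup.normalizer (A : Set ↥H) := by
    rw [hL, Subgroup.closure_le]
    intro t ht
    rcases hdich t.1 t.2 ht with h | h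
    · exact Subgroup.le_normalizer ((hmemA t).2 h)
    · apply Subgroup.centralizer_le_normalizer
      rw [Subgroup.mem_centralizer_iff]
      intro a ha
      apply Subtype.ext
      exact (h a.1 ((hmemA a).1 ha)).symm
  have hAsub : A.IsSubnormal :=
    Subgroup.IsSubnormal.step A L hAL hLn.isSubnormal
      (Subgroup.normal_subgroupOf_of_le_normalizer hLnorm)
  let eA : ↥A ≃* ↥(alternatingGroup {x // x ∈ Δ}) :=
    (MulEquiv.subgroupCongr hA).trans ((Subgroup.subgroupOfEquivOfLe hA'H).trans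
      ((MulEquiv.subgroupCongr hA').trans
        ((alternatingGroup {x // x ∈ Δ}).equivMapOfInjective ι hι).symm))
  have ht₀A : (⟨c3 x₀ y₀ z₀, ht₀⟩ : ↥H) ∈ A :=
    (hmemA _).2 (hc3A x₀ hx₀Δ y₀ hy₀Δ z₀ hz₀Δ hxy₀ hxz₀ hyz₀)
  have ht₀1 : (⟨c3 x₀ y₀ z₀, ht₀⟩ : ↥H) ≠ 1 := by
    intro h
    have h1 := congrArg (fun p : ↥H => (p : Perm (Fin n)) x₀) h
    simp only [Subgroup.coe_one, Equiv.Perm.one_apply] at h1
    rw [c3_apply_fst hxy₀ hxz₀] at h1
    exact hxy₀ h1.symm
  have hcardΔ : Nat.card {x // x ∈ Δ} = Δ.card := by simp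
  by_cases h5 : 5 ≤ Δ.card
  · -- the large case
    haveI hsimp : IsSimpleGroup ↥(alternatingGroup {x // x ∈ Δ}) :=
      alternatingGroup.isSimpleGroup (by rw [hcardΔ]; exact h5)
    haveI hsimpA : IsSimpleGroup ↥A := eA.isSimpleGroup
    have hAnc : ∃ u ∈ A, ∃ v ∈ A, u * v ≠ v * u := by
      obtain ⟨d, hd, hdx, hdy, hdz⟩ : ∃ d ∈ Δ, d ≠ x₀ ∧ d ≠ y₀ ∧ d ≠ z₀ := by
        by_contra hcon
        push Not at hcon
        have h1 : Δ ⊆ {x₀, y₀, z₀} := by
          intro d hd
          by_contra hd'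
          simp only [Finset.mem_insert, Finset.mem_singleton, not_or] at hd'
          exact hd'.2.2 (hcon d hd hd'.1 hd'.2.1)
        have h2 := Finset.card_le_card h1
        have h3' : ({x₀, y₀, z₀} : Finset (Fin n)).card ≤ 3 := Finset.card_le_three
        omega
      have hv : c3 x₀ y₀ d ∈ A' := hc3A x₀ hx₀Δ y₀ hy₀Δ d hd hxy₀ hdx.symm hdy.symm
      refine ⟨⟨c3 x₀ y₀ z₀, ht₀⟩, ht₀A, ⟨c3 x₀ y₀ d, hA'H hv⟩, (hmemA _).2 hv, ?_⟩
      intro h
      have h1 := congrArg (fun p : ↥H => (p : Perm (Fin n)) x₀) h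
      simp only [Subgroup.coe_mul, Equiv.Perm.mul_apply] at h1
      rw [c3_apply_fst hxy₀ hdx.symm, c3_apply_snd hxz₀ hyz₀, c3_apply_fst hxy₀ hxz₀,
        c3_apply_snd hdx.symm hdy.symm] at h1
      exact hdz h1.symm
    have hqsA : Cfsg.IsQuasisimple ↥A := by
      rw [qs_iff]
      refine ⟨?_, inferInstance, fun N hN => ?_⟩
      · rcases (Subgroup.Normal.eq_bot_or_eq_top
          (inferInstance : (commutator ↥A).Normal)) with h | h
        · exfalso
          rw [commutator_eq_bot_iff_center_eq_top] at h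
          obtain ⟨u, hu, v, hv, huv⟩ := hAnc
          have hc : (⟨u, hu⟩ : ↥A) ∈ Subgroup.center ↥A := by rw [h]; exact Subgroup.mem_top _
          have h2 := Subgroup.mem_center_iff.1 hc ⟨v, hv⟩
          exact huv (congrArg Subtype.val h2).symm
        · exact h
      · rcases hN.eq_bot_or_eq_top with h | h
        · right; rw [h]; exact bot_le
        · left; exact h
    have hcompA : Cfsg.IsComponent A := ⟨hAsub, hqsA⟩
    have hAK : A ≤ K := by
      rw [hK]; exact (comp_le_layer hcompA).trans (layer_le_genFitting _)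
    have hAeqK : A = K := by
      have hsn : (A.subgroupOf K).IsSubnormal := hAsub.subgroupOf
      rcases qs_subnormal hF (A.subgroupOf K) hsn with h | h
      · exact le_antisymm hAK (Subgroup.subgroupOf_eq_top.1 h)
      · exfalso
        obtain ⟨u, hu, v, hv, huv⟩ := hAnc
        have hu' : (⟨u, hAK hu⟩ : ↥K) ∈ Subgroup.center ↥K :=
          h (show (⟨u, hAK hu⟩ : ↥K) ∈ A.subgroupOf K from hu)
        have h2 := Subgroup.mem_center_iff.1 hu' ⟨v, hAK hv⟩
        exact huv (congrArg Subtype.val h2).symm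
    have hsA : ∀ i : Fin (n / 3), c3 (g (pt n i 0)) (g (pt n i 1)) (g (pt n i 2)) ∈ A' := by
      intro i
      have h3c := c3_isThreeCycle (hdist i 0 1 (by decide)) (hdist i 0 2 (by decide))
        (hdist i 1 2 (by decide))
      rcases hdich _ (hs i) h3c with h | h
      · exact h
      · have hcen : (⟨_, hs i⟩ : ↥H) ∈ Subgroup.centralizer (K : Set ↥H) := by
          rw [Subgroup.mem_centralizer_iff]
          intro k hk
          have hkA : k ∈ A := by rw [hAeqK]; exact hk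
          apply Subtype.ext
          exact (h k.1 ((hmemA k).1 hkA)).symm
        rw [hK] at hcen
        have h2 := centralizer_genFitting_le ↥H hcen
        rw [← hK, ← hAeqK] at h2
        exact (hmemA _).1 h2
    have hptΔ : ∀ i : Fin (n / 3), ∀ k : Fin 3, g (pt n i k) ∈ Δ := by
      intro i k
      by_contra hout
      have hfix := hA'fix _ (hsA i) _ hout
      have hk : k = 0 ∨ k = 1 ∨ k = 2 := by
        rcases k with ⟨k, hk⟩
        interval_cases k <;> simp
      rcases hk with rfl | rfl | rfl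
      · rw [c3_apply_fst (hdist i 0 1 (by decide)) (hdist i 0 2 (by decide))] at hfix
        exact hdist i 0 1 (by decide) hfix.symm
      · rw [c3_apply_snd (hdist i 0 2 (by decide)) (hdist i 1 2 (by decide))] at hfix
        exact hdist i 1 2 (by decide) hfix.symm
      · rw [c3_apply_trd] at hfix
        exact hdist i 0 2 (by decide) hfix
    have hcard : 3 * (n / 3) ≤ Δ.card := by
      have hinj : Function.Injective (fun p : Fin (n / 3) × Fin 3 => g (pt n p.1 p.2)) := by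
        rintro ⟨i, k⟩ ⟨i', k'⟩ h
        have h1 := pt_inj n _ _ _ _ (g.injective h)
        exact Prod.ext h1.1 h1.2
      have h1 : (Finset.univ.image (fun p : Fin (n / 3) × Fin 3 => g (pt n p.1 p.2))).card
          = (n / 3) * 3 := by
        rw [Finset.card_image_of_injective _ hinj]; simp
      have h2 : Finset.univ.image (fun p : Fin (n / 3) × Fin 3 => g (pt n p.1 p.2)) ⊆ Δ := by
        intro w hw
        obtain ⟨p, -, rfl⟩ := Finset.mem_image.1 hw
        exact hptΔ p.1 p.2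
      have h4 := Finset.card_le_card h2
      omega
    have hle : Δ.card ≤ n := by
      have h1 := Finset.card_le_univ Δ
      simpa using h1
    refine ⟨Δ.card, by omega, ⟨?_⟩⟩
    have e1 : ↥K ≃* ↥A := MulEquiv.subgroupCongr hAeqK.symm
    have e3 : ↥(alternatingGroup {x // x ∈ Δ}) ≃* ↥(alternatingGroup (Fin Δ.card)) :=
      Equiv.altCongrHom (Fintype.equivFinOfCardEq (by simp))
    exact e1.trans (eA.trans e3)
  · -- the small case is impossible
    exfalso
    push Not at h5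
    haveI hsolvP : Group.IsSolvable (Perm {x // x ∈ Δ}) :=
      solvable_of_card_le_four (by simp; omega)
    haveI hsolvA : Group.IsSolvable ↥A :=
      Group.isSolvable_of_isSolvable_injective
        (f := ((alternatingGroup {x // x ∈ Δ}).subtype).comp eA.toMonoidHom)
        ((Subgroup.subtype_injective _).comp eA.injective)
    have hFA : Cfsg.fittingSubgroup ↥A ≠ ⊥ := by
      intro h0
      have h1 := centralizer_fitting_le_of_solvable ↥A hsolvA
      rw [h0] at h1
      have h2 : (⟨⟨c3 x₀ y₀ z₀, ht₀⟩, ht₀A⟩ : ↥A) ∈ (⊥ : Subgroup ↥A) := by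
        apply h1
        rw [Subgroup.mem_centralizer_iff]
        intro y hy
        rw [SetLike.mem_coe, Subgroup.mem_bot] at hy
        rw [hy, one_mul, mul_one]
      rw [Subgroup.mem_bot] at h2
      exact ht₀1 (congrArg Subtype.val h2)
    obtain ⟨z, hz, hz1⟩ := (Subgroup.bot_or_exists_ne_one _).resolve_left hFA
    obtain ⟨V, hV⟩ : ∃ V : Subgroup ↥H, V = (Cfsg.fittingSubgroup ↥A).map A.subtype := ⟨_, rfl⟩
    have hVsub : V.IsSubnormal := by
      rw [hV]
      exact (inferInstance : (Cfsg.fittingSubgroup ↥A).Normal).isSubnormal.trans' hAsub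
    have hVnil : Group.IsNilpotent ↥V := by
      haveI := fitting_nilpotent ↥A
      rw [hV]
      exact Group.nilpotent_of_mulEquiv
        ((Cfsg.fittingSubgroup ↥A).equivMapOfInjective A.subtype A.subtype_injective)
    have hVA : V ≤ A := by rw [hV]; exact Subgroup.map_subtype_le _
    have hVK : V ≤ K := by
      rw [hK]
      exact (subnormal_nilpotent_le_fitting hVsub hVnil).trans (fitting_le_genFitting _)
    have hzV : (z : ↥H) ∈ V := by rw [hV]; exact ⟨z, hz, rfl⟩
    have hzK : (z : ↥H) ∈ K := hVK hzV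
    have hzH1 : (z : ↥H) ≠ 1 := fun h => hz1 (Subtype.ext h)
    rcases qs_subnormal hF (V.subgroupOf K) hVsub.subgroupOf with h | h
    · -- `K ≤ V ≤ A` would make `K` solvable
      have hKA : K ≤ A := (Subgroup.subgroupOf_eq_top.1 h).trans hVA
      exact qs_not_solvable hF (Group.isSolvable_of_isSolvable_injective
        (f := Subgroup.inclusion hKA) (Subgroup.inclusion_injective hKA))
    · -- `z` is central in `K`
      have hzc : ∀ k ∈ K, k * (z : ↥H) = (z : ↥H) * k := by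
        intro k hk
        have hc : (⟨(z : ↥H), hzK⟩ : ↥K) ∈ Subgroup.center ↥K :=
          h (show (⟨(z : ↥H), hzK⟩ : ↥K) ∈ V.subgroupOf K from hzV)
        have h2 := Subgroup.mem_center_iff.1 hc ⟨k, hk⟩
        exact congrArg Subtype.val h2
      obtain ⟨ζ, hζ⟩ : ∃ ζ : Perm (Fin n), ζ = ((z : ↥H) : Perm (Fin n)) := ⟨_, rfl⟩
      have hζA : ζ ∈ A' := by rw [hζ]; exact (hmemA _).1 z.2
      have hζ1 : ζ ≠ 1 := by
        intro h1
        apply hzH1
        apply Subtype.ext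
        rw [← hζ, h1]; rfl
      have hζc : ∀ k ∈ K, (k : Perm (Fin n)) * ζ = ζ * (k : Perm (Fin n)) := by
        intro k hk
        have h1 := congrArg (fun p : ↥H => (p : Perm (Fin n))) (hzc k hk)
        rw [hζ]; exact h1
      have hsuppΔ : ζ.support ⊆ Δ := by
        intro w hw
        by_contra hwΔ
        exact (Equiv.Perm.mem_support.1 hw) (hA'fix ζ hζA w hwΔ)
      have hpres : ∀ k : ↥K, ∀ w : Fin n,
          ((k : ↥H) : Perm (Fin n)) w ∈ ζ.support ↔ w ∈ ζ.support := by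
        intro k w
        have h1 := hζc k.1 k.2
        have h2 : ζ (((k : ↥H) : Perm (Fin n)) w) = ((k : ↥H) : Perm (Fin n)) (ζ w) := by
          have := congrArg (fun p : Perm (Fin n) => p w) h1
          simpa using this.symm
        rw [Equiv.Perm.mem_support, Equiv.Perm.mem_support, h2]
        exact ((k : ↥H) : Perm (Fin n)).injective.ne_iff
      let ρ : ↥K →* Perm {w // w ∈ ζ.support} :=
        { toFun := fun k => (((k : ↥H) : Perm (Fin n))).subtypePerm (hpres k)
          map_one' := by ext w; rfl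
          map_mul' := fun k₁ k₂ => by ext w; rfl }
      haveI hsolvS : Group.IsSolvable (Perm {w // w ∈ ζ.support}) :=
        solvable_of_card_le_four (by
          have h1 := Finset.card_le_card hsuppΔ
          simp only [Fintype.card_coe]
          omega)
      have hker : ρ.ker = ⊤ := by
        rcases qs_normal hF ρ.ker inferInstance with h1 | h1
        · exact h1
        · exfalso
          haveI : Group.IsSolvable ↥ρ.ker := Group.isSolvable_of_comm (fun a b => by
            have h2 := Subgroup.mem_center_iff.1 (h1 a.2) b.1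
            exact Subtype.ext h2.symm)
          exact qs_not_solvable hF (Group.isSolvable_of_ker_le_range ρ.ker.subtype ρ
            (by rw [Subgroup.range_subtype]))
      have hzker : (⟨(z : ↥H), hzK⟩ : ↥K) ∈ ρ.ker := by rw [hker]; exact Subgroup.mem_top _
      obtain ⟨w, hw⟩ : ∃ w, ζ w ≠ w := by
        by_contra hcon
        push Not at hcon
        exact hζ1 (Equiv.ext hcon)
      have hwS : w ∈ ζ.support := Equiv.Perm.mem_support.2 hw
      have h3 := congrArg (fun π : Perm {w // w ∈ ζ.support} => ((π ⟨w, hwS⟩ : {w // w ∈ ζ.support}) : Fin n))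
        (MonoidHom.mem_ker.1 hzker)
      have h4 : ((z : ↥H) : Perm (Fin n)) w = w := h3
      rw [← hζ] at h4
      exact hw h4

end Cfsg.Agent.S2929
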