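import Cfsg.Statements.S2939
-- import your own Cfsg.Agent.* helpers here
import Cfsg.Agent.Lib.helper15.SylCtl

set_option autoImplicit false
open Cfsg

namespace Cfsg.Agent.S2939

open Cfsg.Agent.Lib.helper15 in
theorem fwd {G : Type*} [Group G] [Finite G] {p : ℕ} [Fact p.Prime] (𝓕 : Set (Subgroup G))
    (h𝓕 : Cfsg.IsNormalSet 𝓕) (hc : Cfsg.ControlsSylowIntersections p 𝓕) :
    Cfsg.FamilyStronglyControlsFusion p 𝓕 := by
  classical
  intro S A g hA hne hAg
  have hAT : A ⊆ ((g • S : Sylow p G) : Set G) := by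
    intro a ha
    have h1 : g⁻¹ * a * g ∈ (S : Subgroup G) := hAg ⟨a, ha, rfl⟩
    have h2 : (S : Subgroup G) = Cfsg.subgroupConjRight g ((g • S : Sylow p G) : Subgroup G) := by
      rw [conjRight_sylow, inv_smul_smul]
    rw [h2, mem_conjRight_iff] at h1
    have h3 : g * (g⁻¹ * a * g) * g⁻¹ = a := by group
    rw [h3] at h1; exact h1
  by_cases hTS : g • S = S
  · refine ⟨0, Fin.elim0, Fin.elim0, g, Sylow.smul_eq_iff_mem_normalizer.mp hTS,
      fun i => i.elim0, by simp, fun i => i.elim0⟩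
  · obtain ⟨a, ha, ha1⟩ := hne
    have hinf : (S : Subgroup G) ⊓ ((g • S : Sylow p G) : Subgroup G) ≠ ⊥ := by
      intro hbot
      have h0 : a ∈ (S : Subgroup G) ⊓ ((g • S : Sylow p G) : Subgroup G) := ⟨hA ha, hAT ha⟩
      rw [hbot, Subgroup.mem_bot] at h0
      exact ha1 h0
    obtain ⟨n, c, X, x, hc0, hcn, hstep⟩ := hc S (g • S) (Ne.symm hTS) hinf
    obtain ⟨u, hu0, hus⟩ : ∃ u : ℕ → G, u 0 = 1 ∧ ∀ i : Fin n, u (i.val + 1) = x i * u i.val := by
      refine ⟨fun k => Nat.rec 1 (fun j r => (if h : j < n then x ⟨j, h⟩ else 1) * r) k, rfl, ?_⟩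
      intro i
      show (if h : i.val < n then x ⟨i.val, h⟩ else 1) * _ = _
      rw [dif_pos i.isLt]
    have hcu : ∀ i : Fin (n+1), (u i.val)⁻¹ • c i = S := by
      intro i
      induction i using Fin.induction with
      | zero => rw [hc0]; show (u 0)⁻¹ • S = S; rw [hu0]; simp
      | succ i ih =>
        obtain ⟨h1, h2, h3, h4, h5⟩ := hstep i
        have h6 : c i.castSucc = (x i)⁻¹ • c i.succ := by
          apply Sylow.ext; rw [← conjRight_sylow]; exact h4.symm
        show (u (i.val + 1))⁻¹ • c i.succ = S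
        rw [hus, mul_inv_rev, mul_smul, ← h6]; exact ih
    obtain ⟨y, hy⟩ : ∃ y : Fin n → G, y = fun i => (u i.val)⁻¹ * x i * u i.val := ⟨_, rfl⟩
    have hprod : ∀ k, k ≤ n → ((List.ofFn y).take k).prod = u k := by
      intro k
      induction k with
      | zero => intro _; simp [hu0]
      | succ k ih =>
        intro hk
        have hk' : k < (List.ofFn y).length := by simp; omega
        rw [List.prod_take_succ _ _ hk', ih (by omega), List.getElem_ofFn]
        have h7 := hus ⟨k, by omega⟩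
        simp only at h7
        rw [h7]
        have hyk : ∀ j, y j = (u j.val)⁻¹ * x j * u j.val := fun j => by rw [hy]
        rw [hyk]
        group
    refine ⟨n, fun i => Cfsg.subgroupConjRight (u i.val) (X i), y, (u n)⁻¹ * g, ?_, ?_, ?_, ?_⟩
    · have h0 : ((u n)⁻¹ * g) • S = S := by
        rw [mul_smul, ← hcn]; exact hcu (Fin.last n)
      exact Sylow.smul_eq_iff_mem_normalizer.mp h0
    · intro i
      obtain ⟨h1, h2, h3, h4, h5⟩ := hstep i
      refine ⟨?_, ?_⟩
      · have h8 := conj_mem_sylowMembers h𝓕 h1 (u i.val)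
        rw [conjRight_sylow] at h8
        have h7 := hcu i.castSucc
        simp only [Fin.val_castSucc] at h7
        rw [h7] at h8; exact h8
      · rw [hy]; exact conj_mem_conjRight _ _ _ h3
    · have h9 : (List.ofFn y).prod = u n := by
        rw [← hprod n le_rfl]; congr 1; simp
      rw [h9]; group
    · intro i
      obtain ⟨h1, h2, h3, h4, h5⟩ := hstep i
      rw [hprod _ (by omega), hus]
      rintro _ ⟨b, hb, rfl⟩
      have hbST : b ∈ (S : Subgroup G) ⊓ ((g • S : Sylow p G) : Subgroup G) := ⟨hA hb, hAT hb⟩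
      have hb2 := h5 hbST
      constructor
      · have h8 := hcu i.succ
        have h9 : Cfsg.subgroupConjRight (x i * u i.val) (c i.succ : Subgroup G) = S := by
          rw [conjRight_sylow, ← hus]; exact congrArg _ h8
        show (x i * u i.val)⁻¹ * b * (x i * u i.val) ∈ (S : Subgroup G)
        rw [← h9]
        exact conj_mem_conjRight _ _ _ hb2.1
      · show _ ∈ Cfsg.subgroupConjRight (u i.val) (X i)
        rw [mem_conjRight_iff]
        have h10 : u i.val * ((x i * u i.val)⁻¹ * b * (x i * u i.val)) * (u i.val)⁻¹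
            = (x i)⁻¹ * b * x i := by group
        rw [h10]
        exact (X i).mul_mem ((X i).mul_mem ((X i).inv_mem h3) hb2.2) h3

open Cfsg.Agent.Lib.helper15 in
theorem bwd {G : Type*} [Group G] [Finite G] {p : ℕ} [Fact p.Prime] (𝓕 : Set (Subgroup G))
    (h𝓕 : Cfsg.IsNormalSet 𝓕) (hf : Cfsg.FamilyStronglyControlsFusion p 𝓕) :
    Cfsg.ControlsSylowIntersections p 𝓕 := by
  classical
  intro S T hne hinf
  obtain ⟨g, hg⟩ := MulAction.exists_smul_eq G S T
  have hA : (((S : Subgroup G) ⊓ (T : Subgroup G) : Subgroup G) : Set G) ⊆ (S : Set G) :=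
    fun a ha => ha.1
  have hne1 : ∃ a ∈ (((S : Subgroup G) ⊓ (T : Subgroup G) : Subgroup G) : Set G), a ≠ 1 := by
    obtain ⟨⟨a, ha⟩, ha1⟩ := (Subgroup.ne_bot_iff_exists_ne_one).mp hinf
    exact ⟨a, ha, fun h => ha1 (Subtype.ext h)⟩
  have hAg : Cfsg.conjRight g (((S : Subgroup G) ⊓ (T : Subgroup G) : Subgroup G) : Set G)
      ⊆ (S : Set G) := by
    rintro _ ⟨a, ha, rfl⟩
    have h2 : (S : Subgroup G) = Cfsg.subgroupConjRight g (T : Subgroup G) := by
      rw [conjRight_sylow, ← hg, inv_smul_smul]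
    show g⁻¹ * a * g ∈ (S : Subgroup G)
    rw [h2]; exact conj_mem_conjRight _ _ _ ha.2
  obtain ⟨n, Y, y, y₀, hy₀, hY, hgy, hA'⟩ := hf S _ g hA hne1 hAg
  obtain ⟨u, hu⟩ : ∃ u : ℕ → G, u = fun k => ((List.ofFn y).take k).prod := ⟨_, rfl⟩
  have hu0 : u 0 = 1 := by simp [hu]
  have hus : ∀ i : Fin n, u (i.val + 1) = u i.val * y i := by
    intro i
    rw [hu]
    show ((List.ofFn y).take (i.val + 1)).prod = ((List.ofFn y).take i.val).prod * y i
    rw [List.prod_take_succ _ _ (by simp), List.getElem_ofFn]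
  have hun : u n = (List.ofFn y).prod := by
    rw [hu]
    show ((List.ofFn y).take n).prod = _
    congr 1; simp
  have hA'' : ∀ i : Fin n, ∀ a ∈ (S : Subgroup G) ⊓ (T : Subgroup G),
      (u (i.val + 1))⁻¹ * a * u (i.val + 1) ∈ (S : Subgroup G) ∧
      (u (i.val + 1))⁻¹ * a * u (i.val + 1) ∈ Y i := by
    intro i a ha
    have h1 := hA' i ⟨a, ha, rfl⟩
    rw [hu]
    exact h1
  refine ⟨n, fun i => u i.val • S, fun i => Cfsg.subgroupConjRight (u i.val)⁻¹ (Y i),
    fun i => u i.val * y i * (u i.val)⁻¹, ?_, ?_, ?_⟩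
  · show u 0 • S = S
    rw [hu0, one_smul]
  · show u n • S = T
    rw [hun, ← hg]
    have h3 : (List.ofFn y).prod = g * y₀⁻¹ := by rw [hgy]; group
    rw [h3, mul_smul]
    congr 1
    rw [Sylow.smul_eq_iff_mem_normalizer]; exact Subgroup.inv_mem _ hy₀
  · intro i
    obtain ⟨hYi, hyi⟩ := hY i
    refine ⟨?_, ?_, ?_, ?_, ?_⟩
    · have h4 := conj_mem_sylowMembers h𝓕 hYi (u i.val)⁻¹
      rw [conjRight_sylow, inv_inv] at h4
      exact h4
    · have h4 := conj_mem_sylowMembers h𝓕 hYi (u i.val * y i)⁻¹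
      rw [conjRight_sylow, inv_inv, mul_inv_rev, ← conjRight_conjRight,
        conjRight_of_mem _ _ (Subgroup.inv_mem _ hyi)] at h4
      show _ ∈ Cfsg.sylowMembers p 𝓕 ((u (i.val + 1) • S : Sylow p G) : Subgroup G)
      rw [hus]; exact h4
    · show u i.val * y i * (u i.val)⁻¹ ∈ Cfsg.subgroupConjRight (u i.val)⁻¹ (Y i)
      have h4 := conj_mem_conjRight (u i.val)⁻¹ (y i) (Y i) hyi
      rw [inv_inv] at h4; exact h4
    · show Cfsg.subgroupConjRight (u i.val * y i * (u i.val)⁻¹)
        ((u (i.val + 1) • S : Sylow p G) : Subgroup G) = ((u i.val • S : Sylow p G) : Subgroup G)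
      rw [conjRight_sylow, hus, smul_smul]
      have h5 : (u i.val * y i * (u i.val)⁻¹)⁻¹ * (u i.val * y i) = u i.val := by group
      rw [h5]
    · intro a ha
      obtain ⟨h1, h2⟩ := hA'' i a ha
      constructor
      · show a ∈ ((u (i.val + 1) • S : Sylow p G) : Subgroup G)
        have h6 : ((u (i.val + 1) • S : Sylow p G) : Subgroup G)
            = Cfsg.subgroupConjRight (u (i.val + 1))⁻¹ (S : Subgroup G) := by
          rw [conjRight_sylow, inv_inv]
        rw [h6, mem_conjRight_iff, inv_inv]; exact h1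
      · show a ∈ Cfsg.subgroupConjRight (u i.val)⁻¹ (Y i)
        rw [mem_conjRight_iff, inv_inv]
        rw [hus] at h2
        have h7 : (u i.val)⁻¹ * a * u i.val
            = y i * ((u i.val * y i)⁻¹ * a * (u i.val * y i)) * (y i)⁻¹ := by group
        rw [h7]
        exact (Y i).mul_mem ((Y i).mul_mem hyi h2) ((Y i).inv_mem hyi)

/-- Let p be a prime dividing the order of the finite group G and 𝓕 a family of subgroups of G closed under conjugation, with conjugates taken as X^g = g⁻¹Xg. Then 𝓕 controls Sylow p-intersections in G (any two distinct Sylow p-subgroups S and T with S ∩ T ≠ 1 are joined by a chain S = S₀, S₁, …, Sₙ = T of Sylow p-subgroups where, for each i, some member Xᵢ of 𝓕 meets both S_{i-1} and Sᵢ in Sylow p-subgroups of Xᵢ, satisfies S ∩ T ≤ Sᵢ ∩ Xᵢ, and contains an element xᵢ with Sᵢ^{xᵢ} = S_{i-1}) if and only if 𝓕 strongly controls p-fusion in G (whenever A is a subset of a Sylow p-subgroup S, A contains an element other than 1, and A^g ⊆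 S, the element g factorises as g = y₁⋯yₙy with y ∈ N_G(S) and each yᵢ in a member Yᵢ of 𝓕 that meets S in a Sylow p-subgroup of Yᵢ, with A^{y₁⋯yᵢ} ⊆ S ∩ Yᵢ for each i). -/
theorem result {G : Type*} [Group G] [Finite G] {p : ℕ} [Fact p.Prime] (hdiv : p ∣ Nat.card G) (𝓕 : Set (Subgroup G)) (h𝓕 : Cfsg.IsNormalSet 𝓕) : Cfsg.ControlsSylowIntersections p 𝓕 ↔ Cfsg.FamilyStronglyControlsFusion p 𝓕 := by
  exact ⟨fwd 𝓕 h𝓕, bwd 𝓕 h𝓕⟩


end Cfsg.Agent.S2939
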