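import Cfsg.Statements.S2940
-- import your own Cfsg.Agent.* helpers here

set_option autoImplicit false
open Cfsg

namespace Cfsg.Agent.S2940

/-- Let S be a Sylow p-subgroup of the finite group G and G₁, G₂ subgroups containing S with G = G₁G₂. Then for every g ∈ G there is a Sylow p-subgroup U of G with S ∩ S^g ≤ U ≤ G₁ ∩ G₂^g (conjugates taken as X^g = g⁻¹Xg). -/
theorem result {G : Type*} [Group G] [Finite G] {p : ℕ} [Fact p.Prime] (S : Sylow p G) (G₁ G₂ : Subgroup G) (h1 : (S : Subgroup G) ≤ G₁) (h2 : (S : Subgroup G) ≤ G₂) (hfact : ∀ g : G, ∃ g₁ ∈ G₁, ∃ g₂ ∈ G₂, g = g₁ * g₂) (g : G) : ∃ U : Sylow p G, (S : Subgroup G) ⊓ Cfsg.subgroupConjRight g (S : Subgroup G) ≤ (U : Subgroup G) ∧ (U : Subgroup G) ≤ G₁ ⊓ Cfsg.subgroupConjRight g G₂ := by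
  obtain ⟨a₁, ha₁, a₂, ha₂, hg⟩ := hfact g⁻¹
  set H : Subgroup G := G₁ ⊓ Cfsg.subgroupConjRight g G₂ with hH
  have hTH : ((a₁ • S : Sylow p G) : Subgroup G) ≤ H := by
    intro t ht
    rw [Sylow.coe_subgroup_smul] at ht
    obtain ⟨s, hs, rfl⟩ := ht
    refine Subgroup.mem_inf.mpr ⟨?_, ?_⟩
    · show a₁ * s * a₁⁻¹ ∈ G₁
      exact G₁.mul_mem (G₁.mul_mem ha₁ (h1 hs)) (G₁.inv_mem ha₁)
    · show a₁ * s * a₁⁻¹ ∈ G₂.map (MulAut.conj g⁻¹).toMonoidHom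
      refine ⟨a₂⁻¹ * s * a₂, G₂.mul_mem (G₂.mul_mem (G₂.inv_mem ha₂) (h2 hs)) ha₂, ?_⟩
      show g⁻¹ * (a₂⁻¹ * s * a₂) * g⁻¹⁻¹ = a₁ * s * a₁⁻¹
      rw [hg]; group
  have hDH : (S : Subgroup G) ⊓ Cfsg.subgroupConjRight g (S : Subgroup G) ≤ H :=
    inf_le_inf h1 (Subgroup.map_mono h2)
  have hpD : IsPGroup p
      (((S : Subgroup G) ⊓ Cfsg.subgroupConjRight g (S : Subgroup G)).subgroupOf H) :=
    (S.isPGroup'.to_le inf_le_left).comap_of_injective H.subtype H.subtype_injective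
  obtain ⟨U₀, hU₀⟩ := hpD.exists_le_sylow
  obtain ⟨h, hh⟩ := MulAction.exists_smul_eq H ((a₁ • S).subtype hTH) U₀
  rw [Sylow.smul_subtype] at hh
  refine ⟨h • (a₁ • S), ?_, Sylow.smul_le hTH h⟩
  intro d hd
  have hd2 : (⟨d, hDH hd⟩ : H) ∈ (U₀ : Subgroup H) := hU₀ (Subgroup.mem_subgroupOf.mpr hd)
  rw [← hh, Sylow.coe_subtype, Subgroup.mem_subgroupOf] at hd2
  exact hd2


end Cfsg.Agent.S2940
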