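import Cfsg.Statements.S2955
-- import your own Cfsg.Agent.* helpers here
import Cfsg.Agent.Lib.helper15.SylCtl

set_option autoImplicit false
open Cfsg

namespace Cfsg.Agent.S2955

/-- Let p be a prime dividing the order of the finite group G and 𝓕 a conjugation-closed family of subgroups that controls Sylow p-intersections in G. Suppose the Sylow p-subgroups of G are chain-connected: any two of them are joined by a chain of Sylow p-subgroups, consecutive ones distinct with nontrivial intersection, all containing the intersection of the two ends (equivalently, the graph on the Sylow p-subgroups whose edges are the distinct pairs meeting nontrivially is connected). Then for every Sylow p-subgroup S, G is generated by N_G(S) together with the members of 𝓕 that meet S in a Sylow p-subgroup of themselves. -/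
theorem result {G : Type*} [Group G] [Finite G] (p : ℕ) [Fact p.Prime] (hdiv : p ∣ Nat.card G)
    (𝓕 : Set (Subgroup G)) (h𝓕 : Cfsg.IsNormalSet 𝓕) (hc : Cfsg.ControlsSylowIntersections p 𝓕)
    (hconn : Cfsg.IsSylowChainConnected p G) (S : Sylow p G) :
    (⨆ X ∈ Cfsg.sylowMembers p 𝓕 (S : Subgroup G), X) ⊔ Subgroup.normalizer ((S : Subgroup G) : Set G) = ⊤ := by
  classical
  obtain ⟨K, hK⟩ : ∃ K : Subgroup G, K = ⨆ X ∈ Cfsg.sylowMembers p 𝓕 (S : Subgroup G), X := ⟨_, rfl⟩
  rw [← hK]
  have good_step : ∀ (R R' : Sylow p G) (X : Subgroup G) (x : G),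
      X ∈ Cfsg.sylowMembers p 𝓕 (R : Subgroup G) → x ∈ X →
      Cfsg.subgroupConjRight x (R' : Subgroup G) = (R : Subgroup G) →
      (∃ h ∈ K, h⁻¹ • R = S) → ∃ h ∈ K, h⁻¹ • R' = S := by
    intro R R' X x hX hx hconj ⟨h, hh, hR⟩
    refine ⟨x * h, ?_, ?_⟩
    · have h1 := Cfsg.Agent.Lib.helper15.conj_mem_sylowMembers h𝓕 hX h
      rw [Cfsg.Agent.Lib.helper15.conjRight_sylow, hR] at h1
      have h2 : h⁻¹ * x * h ∈ K := by
        have h3 : Cfsg.subgroupConjRight h X ≤ K := by
          rw [hK]
          exact le_biSup (fun X => X) h1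
        exact h3 (Cfsg.Agent.Lib.helper15.conj_mem_conjRight h x X hx)
      have h4 : x * h = h * (h⁻¹ * x * h) := by group
      rw [h4]; exact K.mul_mem hh h2
    · have h5 : R = x⁻¹ • R' := by
        apply Sylow.ext; rw [← Cfsg.Agent.Lib.helper15.conjRight_sylow]; exact hconj.symm
      rw [mul_inv_rev, mul_smul, ← h5]; exact hR
  have pair : ∀ S' T' : Sylow p G, S' ≠ T' → (S' : Subgroup G) ⊓ (T' : Subgroup G) ≠ ⊥ →
      (∃ h ∈ K, h⁻¹ • S' = S) → ∃ h ∈ K, h⁻¹ • T' = S := by
    intro S' T' hne hinf hS'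
    obtain ⟨n, c, X, x, hc0, hcn, hstep⟩ := hc S' T' hne hinf
    have hall : ∀ i : Fin (n+1), ∃ h ∈ K, h⁻¹ • c i = S := by
      intro i
      induction i using Fin.induction with
      | zero => rw [hc0]; exact hS'
      | succ i ih =>
        obtain ⟨h1, h2, h3, h4, h5⟩ := hstep i
        exact good_step _ _ (X i) (x i) h1 h3 h4 ih
    rw [← hcn]; exact hall _
  have all : ∀ R : Sylow p G, ∃ h ∈ K, h⁻¹ • R = S := by
    intro R
    obtain ⟨n, c, hc0, hcn, -, hstep⟩ := hconn S R
    have hall : ∀ i : Fin (n+1), ∃ h ∈ K, h⁻¹ • c i = S := by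
      intro i
      induction i using Fin.induction with
      | zero => rw [hc0]; exact ⟨1, K.one_mem, by simp⟩
      | succ i ih => exact pair _ _ (hstep i).1 (hstep i).2 ih
    rw [← hcn]; exact hall _
  rw [eq_top_iff]
  intro g _
  obtain ⟨h, hh, hS⟩ := all (g • S)
  rw [← mul_smul, Sylow.smul_eq_iff_mem_normalizer] at hS
  have h6 : g = h * (h⁻¹ * g) := by group
  rw [h6]
  exact Subgroup.mul_mem _ (Subgroup.mem_sup_left hh) (Subgroup.mem_sup_right hS)


end Cfsg.Agent.S2955
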