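import Cfsg.Statements.S2956
import Mathlib
import Cfsg.Agent.Lib.helper29.SylCtl2

set_option autoImplicit false
open Cfsg

namespace Cfsg.Agent.S2956

open Cfsg.Agent.Lib.helper29 Cfsg.Agent.Lib


/-- Let p be a prime dividing the order of the finite group G, and f an assignment to every p-subgroup P of a set f(P) of subgroups of P, each normalized by N_G(P), compatible with conjugation, such that for P ≠ 1 the members of f(P) are nontrivial. Let 𝓕 be the family of the normalizers N_G(F) of the members F of f(S) over the Sylow p-subgroups S of G, and 𝓕' the family of the maximal p-local subgroups M of G that are singular for f (the corresponding family of normalizers inside M does not control Sylow p-intersections in M). Then 𝓕 ∪ 𝓕' controls Sylow p-intersections in G. -/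
theorem result {G : Type*} [Group G] [Finite G] (p : ℕ) [Fact p.Prime] (hdiv : p ∣ Nat.card G)
    (f : Subgroup G → Set (Subgroup G)) (hf : Cfsg.IsNormalizerFunctor p f)
    (hf1 : ∀ P : Subgroup G, IsPGroup p ↥P → P ≠ ⊥ → ∀ F ∈ f P, F ≠ ⊥)
    (𝓕 𝓕' : Set (Subgroup G)) (h𝓕 : 𝓕 = Cfsg.functorFamily p f ⊤)
    (h𝓕' : 𝓕' = {M | Cfsg.IsMaximalPLocal p M ∧ ¬ Cfsg.IsFunctorRegular p f M}) :
    Cfsg.ControlsSylowIntersections p (𝓕 ∪ 𝓕') := by
  have hp : p.Prime := Fact.out
  obtain ⟨𝓧, h𝓧⟩ : ∃ 𝓧 : Set (Subgroup G), 𝓧 = 𝓕 ∪ 𝓕' := ⟨_, rfl⟩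
  rw [← h𝓧]
  apply SylCtl.ctl_of_rtg
  have hctop : Nat.card (⊤ : Subgroup G) = Nat.card G := Subgroup.card_top
  have hcS : ∀ S : Sylow p G, Nat.card (S : Subgroup G) = p ^ (Nat.card G).factorization p :=
    fun S => S.card_eq_multiplicity
  have main : ∀ n : ℕ, ∀ S T : Sylow p G,
      Nat.card G - Nat.card ↥((S : Subgroup G) ⊓ (T : Subgroup G)) = n →
      (S : Subgroup G) ⊓ (T : Subgroup G) ≠ ⊥ →
      Relation.ReflTransGen (SylCtl.St p 𝓧 ((S : Subgroup G) ⊓ (T : Subgroup G))) S T := by
    intro n
    induction n using Nat.strong_induction_on with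
    | _ n IH =>
    intro S T hn hDne
    by_cases hST : S = T
    · subst hST; exact Relation.ReflTransGen.refl
    obtain ⟨D, hD⟩ : ∃ D : Subgroup G, D = (S : Subgroup G) ⊓ (T : Subgroup G) := ⟨_, rfl⟩
    rw [← hD] at hn hDne ⊢
    have hDS : D ≤ (S : Subgroup G) := by rw [hD]; exact inf_le_left
    have hDT : D ≤ (T : Subgroup G) := by rw [hD]; exact inf_le_right
    have hDp : IsPGroup p ↥D := S.isPGroup'.to_le hDS
    have hDcard : 1 < Nat.card D := (Subgroup.one_lt_card_iff_ne_bot (H := D)).mpr hDne
    have hDG : Nat.card D ≤ Nat.card G := Subgroup.card_le_card_group (H := D)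
    have hBig : ∀ (S' T' : Sylow p G) (E : Subgroup G), E ≤ (S' : Subgroup G) →
        E ≤ (T' : Subgroup G) → D ≤ E → Nat.card D < Nat.card E →
        Relation.ReflTransGen (SylCtl.St p 𝓧 D) S' T' := by
      intro S' T' E hE1 hE2 hDE hlt
      have hle : E ≤ (S' : Subgroup G) ⊓ (T' : Subgroup G) := le_inf hE1 hE2
      have hc : Nat.card E ≤ Nat.card ↥((S' : Subgroup G) ⊓ (T' : Subgroup G)) :=
        Subgroup.card_le_of_le hle
      have hne : (S' : Subgroup G) ⊓ (T' : Subgroup G) ≠ ⊥ := by
        intro e; rw [e, Subgroup.card_bot] at hc; omega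
      have hc2 : Nat.card ↥((S' : Subgroup G) ⊓ (T' : Subgroup G)) ≤ Nat.card G :=
        Subgroup.card_le_card_group (H := (S' : Subgroup G) ⊓ (T' : Subgroup G))
      have h1 := IH (Nat.card G - Nat.card ↥((S' : Subgroup G) ⊓ (T' : Subgroup G)))
        (by omega) S' T' rfl hne
      exact Relation.ReflTransGen.mono
        (fun a b h => SylCtl.St_mono p 𝓧 (le_trans hDE hle) a b h) _ _ h1
    have hInner : ∀ m : ℕ, ∀ M : Subgroup G, Cfsg.IsMaximalPLocal p M →
        Nat.card G - p ^ (Nat.card M).factorization p = m →
        ∀ (S₁ : Sylow p G) (x : G), SylCtl.SylIn p M ((S₁ : Subgroup G) ⊓ M) →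
        D ≤ (S₁ : Subgroup G) → D ≤ M →
        Nat.card D < p ^ (Nat.card M).factorization p → x ∈ M →
        D ≤ ((x • S₁ : Sylow p G) : Subgroup G) →
        Relation.ReflTransGen (SylCtl.St p 𝓧 D) S₁ (x • S₁) := by
      intro m
      induction m using Nat.strong_induction_on with
      | _ m IHm =>
      intro M hMmax hm S₁ x hS₁ hDS₁ hDM hDlt hxM hDx
      by_cases hreg : Cfsg.IsFunctorRegular p f M
      swap
      · apply Relation.ReflTransGen.single
        apply SylCtl.step_conj p 𝓧 D M S₁ x ?_ hxM hS₁ hDS₁ hDx hDM
        rw [h𝓧, h𝓕']; exact Or.inr ⟨hMmax, hreg⟩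
      obtain ⟨P, hPdef⟩ : ∃ P : Subgroup G, P = (S₁ : Subgroup G) ⊓ M := ⟨_, rfl⟩
      obtain ⟨Q, hQdef⟩ : ∃ Q : Subgroup G,
          Q = ((x • S₁ : Sylow p G) : Subgroup G) ⊓ M := ⟨_, rfl⟩
      have hP : SylCtl.SylIn p M P := by rw [hPdef]; exact hS₁
      have hQ : SylCtl.SylIn p M Q := by
        rw [hQdef]
        exact ⟨inf_le_right, by
          rw [SylCtl.smul_inf p M S₁ x hxM,
            Subgroup.card_map_of_injective (MulAut.conj x).injective]
          exact hS₁.2⟩
      have hDP : D ≤ P := by rw [hPdef]; exact le_inf hDS₁ hDM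
      have hDQ : D ≤ Q := by rw [hQdef]; exact le_inf hDx hDM
      have hC : ∀ P' Q' : Subgroup G,
          Relation.ReflTransGen (SylCtl.ASt p f M (P ⊓ Q)) P' Q' →
          ∀ S_a S_b : Sylow p G, P' ≤ (S_a : Subgroup G) → Q' ≤ (S_b : Subgroup G) →
          SylCtl.SylIn p M P' → D ≤ P' →
          Relation.ReflTransGen (SylCtl.St p 𝓧 D) S_a S_b := by
        intro P' Q' hch
        induction hch using Relation.ReflTransGen.head_induction_on with
        | refl =>
          intro S_a S_b h1 h2 h3 h4
          exact hBig S_a S_b Q' h1 h2 h4 (by rw [h3.2]; exact hDlt)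
        | @head P' P'' hst hrest ih =>
          intro S_a S_b hPa hQb hP'syl hDP'
          obtain ⟨_, hP''syl, hD0P', hD0P'', R, F, y, hR, hF, hyM, hyN, hP'N, hP''N, hconj⟩ :=
            hst
          have hDP'' : D ≤ P'' := le_trans (le_inf hDP hDQ) hD0P''
          have hP''eq : P'' = P'.map (MulAut.conj y).toMonoidHom := by
            rw [← hconj]
            have h1 := SylCtl.map_conj_inv P'' y⁻¹
            rw [inv_inv] at h1
            exact h1.symm
          have hP''le : P'' ≤ ((y • S_a : Sylow p G) : Subgroup G) := by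
            rw [hP''eq, helper10.sylow_smul_eq_map]; exact Subgroup.map_mono hPa
          have hsub : Relation.ReflTransGen (SylCtl.St p 𝓧 D) S_a (y • S_a) := by
            have hRp : IsPGroup p ↥R := IsPGroup.of_card hR.2
            have hFR := (hf R hRp).1 F hF
            have hDya : D ≤ ((y • S_a : Sylow p G) : Subgroup G) := le_trans hDP'' hP''le
            have hDa : D ≤ (S_a : Subgroup G) := le_trans hDP' hPa
            by_cases hfull : (Nat.card M).factorization p = (Nat.card G).factorization p
            · have hP'eq : P' = (S_a : Subgroup G) :=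
                Subgroup.eq_of_le_of_card_ge hPa (by rw [hcS, hP'syl.2, hfull])
              have hRtop : SylCtl.SylIn p ⊤ R := ⟨le_top, by rw [hR.2, hfull, hctop]⟩
              apply Relation.ReflTransGen.single
              apply SylCtl.step_conj p 𝓧 D (⊤ ⊓ Subgroup.normalizer (F : Set G)) S_a y ?_
                ⟨Subgroup.mem_top y, hyN⟩ ?_ hDa hDya ?_
              · rw [h𝓧, h𝓕]
                exact Or.inl ⟨SylCtl.toSyl p ⊤ R hRtop, F, by
                  rw [SylCtl.toSyl_map]; exact hF, rfl⟩
              · have hle : (S_a : Subgroup G) ≤ ⊤ ⊓ Subgroup.normalizer (F : Set G) := by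
                  rw [← hP'eq]; exact le_inf le_top hP'N
                refine ⟨inf_le_right, ?_⟩
                rw [inf_eq_left.mpr hle, hcS]
                congr 1
                exact (SylCtl.fact_eq hp (by
                  rw [← hcS S_a]; exact Subgroup.card_dvd_of_le hle)
                  (Subgroup.card_subgroup_dvd_card _) Nat.card_pos.ne').symm
              · exact le_trans hDP' (le_inf le_top hP'N)
            · have hP'ne : P' ≠ (S_a : Subgroup G) := by
                intro e
                apply hfull
                have h1 := hP'syl.2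
                rw [e, hcS] at h1
                exact (Nat.pow_right_injective hp.two_le h1).symm
              have hlt := Subnz.lt_normalizer_inf S_a.isPGroup' hPa hP'ne
              obtain ⟨A₀, hA₀⟩ : ∃ A₀ : Subgroup G,
                  A₀ = (S_a : Subgroup G) ⊓ Subgroup.normalizer (P' : Set G) := ⟨_, rfl⟩
              rw [← hA₀] at hlt
              have hA₀p : IsPGroup p ↥A₀ :=
                S_a.isPGroup'.to_le (by rw [hA₀]; exact inf_le_left)
              have hA₀card : Nat.card P' < Nat.card A₀ := by
                by_contra hcon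
                push Not at hcon
                exact (ne_of_lt hlt) (Subgroup.eq_of_le_of_card_ge (le_of_lt hlt) hcon)
              have hNP : Subgroup.normalizer (P' : Set G) ≤
                  Subgroup.normalizer (F : Set G) := by
                obtain ⟨K, hK⟩ : ∃ K : Subgroup G,
                    K = M ⊓ Subgroup.normalizer (F : Set G) := ⟨_, rfl⟩
                have hRK : R ≤ K := by
                  rw [hK]; exact le_inf hR.1 (le_trans Subgroup.le_normalizer hFR.2)
                have hPK : P' ≤ K := by rw [hK]; exact le_inf hP'syl.1 hP'N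
                have hvK : (Nat.card K).factorization p = (Nat.card M).factorization p :=
                  SylCtl.fact_eq hp (by rw [← hR.2]; exact Subgroup.card_dvd_of_le hRK)
                    (Subgroup.card_dvd_of_le (by rw [hK]; exact inf_le_left)) Nat.card_pos.ne'
                obtain ⟨k, hkK, hkeq⟩ := SylCtl.sylIn_conj p K P' R
                  ⟨hPK, by rw [hP'syl.2, hvK]⟩ ⟨hRK, by rw [hR.2, hvK]⟩
                have hkN : k ∈ Subgroup.normalizer (F : Set G) := by
                  rw [hK] at hkK; exact hkK.2
                intro n hn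
                have h1 : k * n * k⁻¹ ∈ Subgroup.normalizer (R : Set G) := by
                  rw [hkeq]; exact SylCtl.conj_mem_normalizer P' k n hn
                have h2 := hFR.2 h1
                have h3 := (Subgroup.normalizer (F : Set G)).mul_mem
                  ((Subgroup.normalizer (F : Set G)).mul_mem
                    ((Subgroup.normalizer (F : Set G)).inv_mem hkN) h2) hkN
                have e : k⁻¹ * (k * n * k⁻¹) * k = n := by group
                rw [e] at h3; exact h3
              have hRne : R ≠ ⊥ := by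
                intro e
                have h1 := hR.2
                rw [e, Subgroup.card_bot] at h1
                omega
              have hFne : F ≠ ⊥ := hf1 R hRp hRne F hF
              have hFp : IsPGroup p ↥F := hRp.to_le hFR.1
              obtain ⟨M', hM'max, hHM'⟩ := SylCtl.exists_max_plocal p
                (Subgroup.normalizer (F : Set G)) ⟨F, hFp, hFne, rfl⟩
              have hA₀H : A₀ ≤ Subgroup.normalizer (F : Set G) := by
                rw [hA₀]; exact le_trans inf_le_right hNP
              have hA₀M' : A₀ ≤ M' := le_trans hA₀H hHM'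
              have hvlt : p ^ (Nat.card M).factorization p <
                  p ^ (Nat.card M').factorization p := by
                calc p ^ (Nat.card M).factorization p = Nat.card P' := hP'syl.2.symm
                  _ < Nat.card A₀ := hA₀card
                  _ ≤ p ^ (Nat.card M').factorization p :=
                    SylCtl.card_le_ppart p M' A₀ hA₀p hA₀M'
              obtain ⟨SB, hSB1, hSB2⟩ := SylCtl.exists_sylow_over p M' A₀ hA₀p hA₀M'
              have hP'A₀ : P' ≤ A₀ := le_of_lt hlt
              have hDA₀ : D ≤ A₀ := le_trans hDP' hP'A₀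
              have hDltP' : Nat.card D < Nat.card P' := by rw [hP'syl.2]; exact hDlt
              have c1 : Relation.ReflTransGen (SylCtl.St p 𝓧 D) S_a SB :=
                hBig S_a SB A₀ (by rw [hA₀]; exact inf_le_left) hSB2 hDA₀
                  (lt_trans hDltP' hA₀card)
              have hM'le : p ^ (Nat.card M').factorization p ≤ Nat.card G :=
                le_trans (Nat.le_of_dvd Nat.card_pos (Nat.ordProj_dvd _ _))
                  (Subgroup.card_le_card_group (H := M'))
              have c2 : Relation.ReflTransGen (SylCtl.St p 𝓧 D) SB (y • SB) := by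
                refine IHm (Nat.card G - p ^ (Nat.card M').factorization p) (by omega) M'
                  hM'max rfl SB y hSB1 (le_trans hDA₀ hSB2)
                  (le_trans (le_trans hDP' hP'N) hHM') (lt_trans hDlt hvlt) (hHM' hyN) ?_
                intro d hd
                rw [helper10.mem_smul_sylow_iff]
                have h1 := hDP'' hd
                rw [hP''eq, helper10.mem_map_conj] at h1
                exact hSB2 (hP'A₀ h1)
              have c3 : Relation.ReflTransGen (SylCtl.St p 𝓧 D) (y • SB) (y • S_a) := by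
                refine hBig (y • SB) (y • S_a) P'' ?_ hP''le hDP''
                  (by rw [hP''syl.2]; exact hDlt)
                rw [hP''eq, helper10.sylow_smul_eq_map]
                exact Subgroup.map_mono (le_trans hP'A₀ hSB2)
              exact c1.trans (c2.trans c3)
          exact hsub.trans (ih (y • S_a) S_b hP''le hQb hP''syl hDP'')
      by_cases hPQ : P = Q
      · exact hBig S₁ (x • S₁) P (by rw [hPdef]; exact inf_le_left)
          (by rw [hPQ, hQdef]; exact inf_le_left) hDP (by rw [hP.2]; exact hDlt)
      · have hne : P ⊓ Q ≠ ⊥ := by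
          intro e
          apply hDne
          rw [eq_bot_iff, ← e]; exact le_inf hDP hDQ
        have chain := SylCtl.regular_ambient p f hf M hreg P Q hP hQ hPQ hne
        exact hC P Q chain S₁ (x • S₁) (by rw [hPdef]; exact inf_le_left)
          (by rw [hQdef]; exact inf_le_left) hP hDP
    have hSD : D ≠ (S : Subgroup G) := by
      intro e
      apply hST
      apply Sylow.ext
      exact Subgroup.eq_of_le_of_card_ge (by rw [← e]; exact hDT) (by rw [hcS, hcS])
    have hTD : D ≠ (T : Subgroup G) := by
      intro e
      apply hST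
      apply Sylow.ext
      exact (Subgroup.eq_of_le_of_card_ge (by rw [← e]; exact hDS) (by rw [hcS, hcS])).symm
    have hltS := Subnz.lt_normalizer_inf S.isPGroup' hDS hSD
    have hltT := Subnz.lt_normalizer_inf T.isPGroup' hDT hTD
    obtain ⟨A, hA⟩ : ∃ A : Subgroup G,
        A = (S : Subgroup G) ⊓ Subgroup.normalizer (D : Set G) := ⟨_, rfl⟩
    obtain ⟨B, hB⟩ : ∃ B : Subgroup G,
        B = (T : Subgroup G) ⊓ Subgroup.normalizer (D : Set G) := ⟨_, rfl⟩
    rw [← hA] at hltS
    rw [← hB] at hltT
    have hcardA : Nat.card D < Nat.card A := by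
      by_contra hcon
      push Not at hcon
      exact (ne_of_lt hltS) (Subgroup.eq_of_le_of_card_ge (le_of_lt hltS) hcon)
    have hcardB : Nat.card D < Nat.card B := by
      by_contra hcon
      push Not at hcon
      exact (ne_of_lt hltT) (Subgroup.eq_of_le_of_card_ge (le_of_lt hltT) hcon)
    obtain ⟨M, hMmax, hNM⟩ := SylCtl.exists_max_plocal p (Subgroup.normalizer (D : Set G))
      ⟨D, hDp, hDne, rfl⟩
    have hAM : A ≤ M := by rw [hA]; exact le_trans inf_le_right hNM
    have hBM : B ≤ M := by rw [hB]; exact le_trans inf_le_right hNM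
    have hAp : IsPGroup p ↥A := S.isPGroup'.to_le (by rw [hA]; exact inf_le_left)
    have hBp : IsPGroup p ↥B := T.isPGroup'.to_le (by rw [hB]; exact inf_le_left)
    obtain ⟨S2, hS2a, hS2b⟩ := SylCtl.exists_sylow_over p M A hAp hAM
    obtain ⟨T2, hT2a, hT2b⟩ := SylCtl.exists_sylow_over p M B hBp hBM
    have hDA : D ≤ A := le_of_lt hltS
    have hDB : D ≤ B := le_of_lt hltT
    have c1 : Relation.ReflTransGen (SylCtl.St p 𝓧 D) S S2 :=
      hBig S S2 A (by rw [hA]; exact inf_le_left) hS2b hDA hcardA
    have c4' : Relation.ReflTransGen (SylCtl.St p 𝓧 D) T T2 :=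
      hBig T T2 B (by rw [hB]; exact inf_le_left) hT2b hDB hcardB
    have c4 : Relation.ReflTransGen (SylCtl.St p 𝓧 D) T2 T :=
      SylCtl.rtg_symm (fun a b h => SylCtl.St_symm p 𝓧 D a b h) c4'
    obtain ⟨m, hmM, hmeq⟩ := SylCtl.sylIn_conj p M _ _ hS2a hT2a
    have hQeq : ((m • S2 : Sylow p G) : Subgroup G) ⊓ M = (T2 : Subgroup G) ⊓ M := by
      rw [SylCtl.smul_inf p M S2 m hmM, hmeq]
    have hDM : D ≤ M := le_trans hDA hAM
    have hDltM : Nat.card D < p ^ (Nat.card M).factorization p :=
      lt_of_lt_of_le hcardA (SylCtl.card_le_ppart p M A hAp hAM)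
    have hBQ : B ≤ ((m • S2 : Sylow p G) : Subgroup G) ⊓ M := by
      rw [hQeq]; exact le_inf hT2b hBM
    have c2 : Relation.ReflTransGen (SylCtl.St p 𝓧 D) S2 (m • S2) :=
      hInner _ M hMmax rfl S2 m hS2a (le_trans hDA hS2b) hDM hDltM hmM
        (le_trans hDB (le_trans hBQ inf_le_left))
    have c3 : Relation.ReflTransGen (SylCtl.St p 𝓧 D) (m • S2) T2 :=
      hBig (m • S2) T2 (((m • S2 : Sylow p G) : Subgroup G) ⊓ M) inf_le_left
        (by rw [hQeq]; exact inf_le_left) (le_trans hDB hBQ)
        (lt_of_lt_of_le hcardB (Subgroup.card_le_of_le hBQ))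
    exact c1.trans (c2.trans (c3.trans c4))
  intro S T _ hD
  exact main _ S T rfl hD

end Cfsg.Agent.S2956
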