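import Cfsg.Statements.S2957
import Mathlib
import Cfsg.Agent.Lib.helper29.SylCtl

set_option autoImplicit false
open Cfsg

namespace Cfsg.Agent.S2957

open Cfsg.Agent.Lib.helper29 Cfsg.Agent.Lib


/-- Let p be a prime dividing the order of the finite group G, f an equivariant assignment of a set of subgroups f(P) of P to every p-subgroup P, each normalized by N_G(P), and S a Sylow p-subgroup. If G = G₁G₂ for subgroups G₁, G₂ both containing S and both regular for f (in each Gᵢ, the family of normalizers in Gᵢ of the members of f(P), P a Sylow p-subgroup of Gᵢ, controls Sylow p-intersections), then G itself is regular for f. -/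
theorem result {G : Type*} [Group G] [Finite G] (p : ℕ) [Fact p.Prime] (hdiv : p ∣ Nat.card G)
    (f : Subgroup G → Set (Subgroup G)) (hf : Cfsg.IsNormalizerFunctor p f) (S : Sylow p G)
    (G₁ G₂ : Subgroup G) (h₁ : (S : Subgroup G) ≤ G₁) (h₂ : (S : Subgroup G) ≤ G₂)
    (hprod : ∀ g : G, ∃ g₁ ∈ G₁, ∃ g₂ ∈ G₂, g = g₁ * g₂)
    (hr₁ : Cfsg.IsFunctorRegular p f G₁) (hr₂ : Cfsg.IsFunctorRegular p f G₂) :
    Cfsg.IsFunctorRegular p f ⊤ := by
  have hp : p.Prime := Fact.out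
  have hcS : Nat.card (S : Subgroup G) = p ^ (Nat.card G).factorization p :=
    S.card_eq_multiplicity
  have hctop : Nat.card (⊤ : Subgroup G) = Nat.card G := Subgroup.card_top
  have hv : ∀ K : Subgroup G, (S : Subgroup G) ≤ K →
      (Nat.card K).factorization p = (Nat.card (⊤ : Subgroup G)).factorization p := by
    intro K hK
    rw [hctop]
    exact SylCtl.fact_eq hp (by rw [← hcS]; exact Subgroup.card_dvd_of_le hK)
      (Subgroup.card_subgroup_dvd_card K) Nat.card_pos.ne'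
  have hA : ∀ U V : Subgroup G, SylCtl.SylIn p ⊤ U → SylCtl.SylIn p ⊤ V → U ≤ G₁ → V ≤ G₂ →
      U ⊓ V ≠ ⊥ → Relation.ReflTransGen (SylCtl.ASt p f ⊤ (U ⊓ V)) U V := by
    intro U V hU hV hU1 hV2 hD
    have hDp : IsPGroup p ↥(U ⊓ V) := (IsPGroup.of_card hU.2).to_le inf_le_left
    obtain ⟨h, hhK, hDW⟩ := SylCtl.exists_conj_in p S (G₁ ⊓ G₂) (le_inf h₁ h₂) (U ⊓ V)
      (le_inf (le_trans inf_le_left hU1) (le_trans inf_le_right hV2)) hDp
    obtain ⟨W, hW⟩ : ∃ W : Subgroup G,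
        W = (S : Subgroup G).map (MulAut.conj h).toMonoidHom := ⟨_, rfl⟩
    rw [← hW] at hDW
    have hWc : Nat.card W = Nat.card (S : Subgroup G) := by
      rw [hW, Subgroup.card_map_of_injective (MulAut.conj h).injective]
    have hWle : ∀ K : Subgroup G, (S : Subgroup G) ≤ K → h ∈ K → W ≤ K := by
      intro K hSK hhK' y hy
      rw [hW, helper10.mem_map_conj] at hy
      have h1 := K.mul_mem (K.mul_mem hhK' (hSK hy)) (K.inv_mem hhK')
      have e : h * (h⁻¹ * y * h) * h⁻¹ = y := by group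
      rw [e] at h1; exact h1
    have hW1 : W ≤ G₁ := hWle G₁ h₁ hhK.1
    have hW2 : W ≤ G₂ := hWle G₂ h₂ hhK.2
    have hcardW : ∀ K : Subgroup G, (S : Subgroup G) ≤ K →
        Nat.card W = p ^ (Nat.card K).factorization p := by
      intro K hK; rw [hv K hK, hctop, hWc, hcS]
    have step1 : Relation.ReflTransGen (SylCtl.ASt p f ⊤ (U ⊓ V)) U W := by
      by_cases hUW : U = W
      · rw [← hUW]
      · have hne : U ⊓ W ≠ ⊥ := fun e => hD (by
          rw [eq_bot_iff, ← e]; exact le_inf inf_le_left hDW)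
        have c := SylCtl.regular_ambient p f hf G₁ hr₁ U W ⟨hU1, by rw [hU.2, hv G₁ h₁]⟩
          ⟨hW1, hcardW G₁ h₁⟩ hUW hne
        exact Relation.ReflTransGen.mono (fun a b hab => SylCtl.ASt_top p f G₁ (hv G₁ h₁)
          (SylCtl.ASt_mono_D p f G₁ (le_inf inf_le_left hDW) hab)) _ _ c
    have step2 : Relation.ReflTransGen (SylCtl.ASt p f ⊤ (U ⊓ V)) W V := by
      by_cases hWV : W = V
      · rw [hWV]
      · have hne : W ⊓ V ≠ ⊥ := fun e => hD (by
          rw [eq_bot_iff, ← e]; exact le_inf hDW inf_le_right)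
        have c := SylCtl.regular_ambient p f hf G₂ hr₂ W V ⟨hW2, hcardW G₂ h₂⟩
          ⟨hV2, by rw [hV.2, hv G₂ h₂]⟩ hWV hne
        exact Relation.ReflTransGen.mono (fun a b hab => SylCtl.ASt_top p f G₂ (hv G₂ h₂)
          (SylCtl.ASt_mono_D p f G₂ (le_inf hDW inf_le_right) hab)) _ _ c
    exact step1.trans step2
  apply SylCtl.ambient_regular p f ⊤
  intro P Q hP hQ hne hD
  obtain ⟨a, ha⟩ := helper10.exists_conj_le_sylow S P (IsPGroup.of_card hP.2)
  obtain ⟨c, hc⟩ := helper10.exists_conj_le_sylow S Q (IsPGroup.of_card hQ.2)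
  obtain ⟨g₁, hg₁, g₂, hg₂, hg⟩ := hprod (a * c⁻¹)
  obtain ⟨t, ht⟩ : ∃ t : G, t = g₁⁻¹ * a := ⟨_, rfl⟩
  have ht2 : t = g₂ * c := by
    have h3 : a = g₁ * g₂ * c := by rw [← hg]; group
    rw [ht, h3]; group
  obtain ⟨U, hUdef⟩ : ∃ U : Subgroup G, U = P.map (MulAut.conj t).toMonoidHom := ⟨_, rfl⟩
  obtain ⟨V, hVdef⟩ : ∃ V : Subgroup G, V = Q.map (MulAut.conj t).toMonoidHom := ⟨_, rfl⟩
  have hU : SylCtl.SylIn p ⊤ U := ⟨le_top, by
    rw [hUdef, Subgroup.card_map_of_injective (MulAut.conj t).injective]; exact hP.2⟩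
  have hV : SylCtl.SylIn p ⊤ V := ⟨le_top, by
    rw [hVdef, Subgroup.card_map_of_injective (MulAut.conj t).injective]; exact hQ.2⟩
  have hU1 : U ≤ G₁ := by
    intro y hy
    rw [hUdef, helper10.mem_map_conj] at hy
    have h1 := h₁ (ha _ hy)
    have h2 := G₁.mul_mem (G₁.mul_mem (G₁.inv_mem hg₁) h1) hg₁
    have e : g₁⁻¹ * (a * (t⁻¹ * y * t) * a⁻¹) * g₁ = y := by rw [ht]; group
    rw [e] at h2; exact h2
  have hV2 : V ≤ G₂ := by
    intro y hy
    rw [hVdef, helper10.mem_map_conj] at hy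
    have h1 := h₂ (hc _ hy)
    have h2 := G₂.mul_mem (G₂.mul_mem hg₂ h1) (G₂.inv_mem hg₂)
    have e : g₂ * (c * (t⁻¹ * y * t) * c⁻¹) * g₂⁻¹ = y := by rw [ht2]; group
    rw [e] at h2; exact h2
  have hmemU : ∀ y, y ∈ P → t * y * t⁻¹ ∈ U := by
    intro y hy
    rw [hUdef, helper10.mem_map_conj]
    have e : t⁻¹ * (t * y * t⁻¹) * t = y := by group
    rw [e]; exact hy
  have hmemV : ∀ y, y ∈ Q → t * y * t⁻¹ ∈ V := by
    intro y hy
    rw [hVdef, helper10.mem_map_conj]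
    have e : t⁻¹ * (t * y * t⁻¹) * t = y := by group
    rw [e]; exact hy
  have hDUV : U ⊓ V ≠ ⊥ := by
    intro e
    apply hD
    rw [eq_bot_iff]
    intro y hy
    have h1 : t * y * t⁻¹ ∈ U ⊓ V := ⟨hmemU y hy.1, hmemV y hy.2⟩
    rw [e, Subgroup.mem_bot] at h1
    rw [Subgroup.mem_bot]
    calc y = t⁻¹ * (t * y * t⁻¹) * t := by group
      _ = 1 := by rw [h1]; group
  have chainUV := hA U V hU hV hU1 hV2 hDUV
  have hDle : P ⊓ Q ≤ (U ⊓ V).map (MulAut.conj t⁻¹).toMonoidHom := by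
    intro y hy
    rw [helper10.mem_map_conj, inv_inv]
    exact ⟨hmemU y hy.1, hmemV y hy.2⟩
  have key := SylCtl.chain_conj p f hf t⁻¹ hDle chainUV
  rw [hUdef, hVdef, SylCtl.map_conj_inv, SylCtl.map_conj_inv] at key
  exact key

end Cfsg.Agent.S2957
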