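import Cfsg.Statements.S2958
-- import your own Cfsg.Agent.* helpers here

set_option autoImplicit false
open Cfsg

namespace Cfsg.Agent.S2958

/-- Let X, A, B be subgroups of a group G such that G is generated by the conjugates of X and every conjugate of X is contained in A or in B. Then A = G or B = G. -/
theorem result {G : Type*} [Group G] (X A B : Subgroup G) (hgen : (⨆ g : G, X.map (MulAut.conj g).toMonoidHom) = ⊤) (hcover : ∀ g : G, X.map (MulAut.conj g).toMonoidHom ≤ A ∨ X.map (MulAut.conj g).toMonoidHom ≤ B) : A = ⊤ ∨ B = ⊤ := by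
  classical
  by_cases hall : ∀ g : G, X.map (MulAut.conj g).toMonoidHom ≤ A
  · left
    rw [eq_top_iff, ← hgen]
    exact iSup_le hall
  · right
    push Not at hall
    obtain ⟨g₀, hg₀⟩ := hall
    have hconj : ∀ a g : G, (X.map (MulAut.conj g).toMonoidHom).map (MulAut.conj a).toMonoidHom
        = X.map (MulAut.conj (a * g)).toMonoidHom := by
      intro a g
      rw [Subgroup.map_map]
      congr 1
      ext x
      simp [mul_assoc]
    let NB : Subgroup G := ⨆ g : {g : G // ¬ X.map (MulAut.conj g).toMonoidHom ≤ A},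
      X.map (MulAut.conj g.1).toMonoidHom
    let NA : Subgroup G := ⨆ g : {g : G // X.map (MulAut.conj g).toMonoidHom ≤ A},
      X.map (MulAut.conj g.1).toMonoidHom
    have hNB : NB ≤ B := iSup_le fun g => (hcover g.1).resolve_left g.2
    have hNA : NA ≤ A := iSup_le fun g => g.2
    have htop : NA ⊔ NB = ⊤ := by
      rw [eq_top_iff, ← hgen]
      refine iSup_le fun g => ?_
      by_cases h : X.map (MulAut.conj g).toMonoidHom ≤ A
      · exact le_sup_of_le_left
          (le_iSup (fun g : {g : G // X.map (MulAut.conj g).toMonoidHom ≤ A} =>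
            X.map (MulAut.conj g.1).toMonoidHom) ⟨g, h⟩)
      · exact le_sup_of_le_right
          (le_iSup (fun g : {g : G // ¬ X.map (MulAut.conj g).toMonoidHom ≤ A} =>
            X.map (MulAut.conj g.1).toMonoidHom) ⟨g, h⟩)
    have hmapA : ∀ a ∈ A, ∀ Y : Subgroup G, Y ≤ A → Y.map (MulAut.conj a).toMonoidHom ≤ A := by
      intro a ha Y hY y hy
      obtain ⟨z, hz, rfl⟩ := hy
      simp only [MulEquiv.coe_toMonoidHom, MulAut.conj_apply]
      exact A.mul_mem (A.mul_mem ha (hY hz)) (A.inv_mem ha)
    have hAnorm : ∀ a ∈ A, NB.map (MulAut.conj a).toMonoidHom ≤ NB := by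
      intro a ha
      rw [Subgroup.map_iSup]
      refine iSup_le fun g => ?_
      rw [hconj]
      have hnot : ¬ X.map (MulAut.conj (a * g.1)).toMonoidHom ≤ A := by
        intro hle
        apply g.2
        have h2 := hmapA a⁻¹ (A.inv_mem ha) _ hle
        rw [hconj] at h2
        simpa using h2
      exact le_iSup (fun g : {g : G // ¬ X.map (MulAut.conj g).toMonoidHom ≤ A} =>
            X.map (MulAut.conj g.1).toMonoidHom) ⟨a * g.1, hnot⟩
    have hAle : A ≤ Subgroup.normalizer (NB : Set G) := by
      rw [Subgroup.le_normalizer_iff]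
      intro a ha k hk
      exact hAnorm a ha ⟨k, hk, rfl⟩
    have hnormal : NB.Normal := by
      rw [← Subgroup.normalizer_eq_top_iff, eq_top_iff, ← htop]
      exact sup_le (hNA.trans hAle) Subgroup.le_normalizer
    have hg₀NB : X.map (MulAut.conj g₀).toMonoidHom ≤ NB :=
      le_iSup (fun g : {g : G // ¬ X.map (MulAut.conj g).toMonoidHom ≤ A} =>
            X.map (MulAut.conj g.1).toMonoidHom) ⟨g₀, hg₀⟩
    rw [eq_top_iff, ← hgen]
    refine (iSup_le fun g => ?_).trans hNB
    have h3 : X.map (MulAut.conj g).toMonoidHom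
        = (X.map (MulAut.conj g₀).toMonoidHom).map (MulAut.conj (g * g₀⁻¹)).toMonoidHom := by
      rw [hconj]; simp
    rw [h3]
    intro y hy
    obtain ⟨z, hz, rfl⟩ := hy
    simp only [MulEquiv.coe_toMonoidHom, MulAut.conj_apply]
    exact hnormal.conj_mem z (hg₀NB hz) _

end Cfsg.Agent.S2958
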