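import Cfsg.Statements.S2963
-- import your own Cfsg.Agent.* helpers here
import Mathlib

set_option autoImplicit false
open Cfsg

namespace Cfsg.Agent.S2963

theorem stab_top (n : ℕ) (a : Fin n) (K : Subgroup (Equiv.Perm (Fin n)))
    (hK : ∀ σ : Equiv.Perm (Fin n), σ a = a → σ ∈ K) (k : Equiv.Perm (Fin n)) (hk : k ∈ K)
    (hka : k a ≠ a) : K = ⊤ := by
  rw [eq_top_iff]
  intro σ _
  by_cases hσ : σ a = a
  · exact hK σ hσ
  · have hτ : Equiv.swap (k a) (σ a) a = a :=
      Equiv.swap_apply_of_ne_of_ne (Ne.symm hka) (Ne.symm hσ)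
    have h1 : Equiv.swap (k a) (σ a) ∈ K := hK _ hτ
    have h2 : (Equiv.swap (k a) (σ a) * k)⁻¹ * σ ∈ K := by
      apply hK
      rw [Equiv.Perm.mul_apply, Equiv.Perm.inv_eq_iff_eq, Equiv.Perm.mul_apply,
        Equiv.swap_apply_left]
    have e : σ = (Equiv.swap (k a) (σ a) * k) * ((Equiv.swap (k a) (σ a) * k)⁻¹ * σ) := by
      group
    rw [e]; exact K.mul_mem (K.mul_mem h1 hk) h2

/-- Let n be odd. If the symmetric group of degree n is a minimal parabolic group for the prime 2, that is, a Sylow 2-subgroup is not normal and lies in exactly one maximal subgroup, then n = 2^m + 1 for some natural number m. -/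
theorem result (n : ℕ) (hn : Odd n) (h : Cfsg.IsPMinimal 2 (Equiv.Perm (Fin n))) : ∃ m : ℕ, n = 2 ^ m + 1 := by
  classical
  obtain ⟨S⟩ : Nonempty (Sylow 2 (Equiv.Perm (Fin n))) := inferInstance
  obtain ⟨hSn, M, ⟨hMco, hSM⟩, hMuniq⟩ := h S
  have claimA : ∀ H : Subgroup (Equiv.Perm (Fin n)),
      (S : Subgroup (Equiv.Perm (Fin n))) ≤ H → H ≠ ⊤ → H ≤ M := by
    intro H hSH hH
    rcases eq_top_or_exists_le_coatom H with h1 | ⟨M', hM', hHM'⟩
    · exact absurd h1 hH
    · have := hMuniq M' ⟨hM', le_trans hSH hHM'⟩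
      rw [← this]; exact hHM'
  have h2n : ¬ 2 ∣ Nat.card (Fin n) := by
    rw [Nat.card_fin]
    exact hn.not_two_dvd_nat
  obtain ⟨a, ha⟩ := IsPGroup.nonempty_fixed_point_of_prime_not_dvd_card S.isPGroup' (Fin n) h2n
  have ha' : ∀ s ∈ (S : Subgroup (Equiv.Perm (Fin n))), s a = a := fun s hs => ha ⟨s, hs⟩
  have hb : ∃ b : Fin n, b ≠ a := by
    by_contra hcon
    push Not at hcon
    apply hSn
    have hsub : Subsingleton (Equiv.Perm (Fin n)) :=
      ⟨fun σ τ => Equiv.ext (fun x => (hcon (σ x)).trans (hcon (τ x)).symm)⟩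
    exact ⟨fun m hm g => by rw [Subsingleton.elim (g * m * g⁻¹) m]; exact hm⟩
  obtain ⟨b, hba⟩ := hb
  set Ga : Subgroup (Equiv.Perm (Fin n)) := MulAction.stabilizer (Equiv.Perm (Fin n)) a with hGa
  have hSGa : (S : Subgroup (Equiv.Perm (Fin n))) ≤ Ga :=
    fun s hs => MulAction.mem_stabilizer_iff.mpr (ha' s hs)
  have hGatop : Ga ≠ ⊤ := by
    intro htop
    have hmem : Equiv.swap a b ∈ Ga := by rw [htop]; exact Subgroup.mem_top _
    rw [MulAction.mem_stabilizer_iff] at hmem
    have h3 : Equiv.swap a b a = b := Equiv.swap_apply_left a b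
    exact hba (by rw [← h3]; exact hmem)
  have hGaM := claimA Ga hSGa hGatop
  set O : Set (Fin n) := MulAction.orbit (S : Subgroup (Equiv.Perm (Fin n))) b with hO
  have haO : a ∉ O := by
    intro hmem
    obtain ⟨s, hs⟩ := MulAction.mem_orbit_iff.mp hmem
    have h4 : s • a = a := ha s
    have h5 : s • b = s • a := hs.trans h4.symm
    exact hba (MulAction.injective s h5)
  obtain ⟨j, hj⟩ := IsPGroup.card_orbit S.isPGroup' b
  set B : Set (Fin n) := insert a O with hB
  by_cases hBu : B = Set.univ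
  · refine ⟨j, ?_⟩
    have h5 : B.ncard = n := by rw [hBu, Set.ncard_univ, Nat.card_fin]
    rw [hB, Set.ncard_insert_of_notMem haO, ← Nat.card_coe_set_eq, hj] at h5
    exact h5.symm
  · exfalso
    obtain ⟨c, hc⟩ : ∃ c, c ∉ B := by
      by_contra hcon
      push Not at hcon
      exact hBu (Set.eq_univ_of_forall hcon)
    let HB : Subgroup (Equiv.Perm (Fin n)) :=
      { carrier := {σ | ∀ x, x ∈ B ↔ σ x ∈ B}
        mul_mem' := fun {σ τ} hσ hτ x => (hτ x).trans (hσ (τ x))
        one_mem' := fun x => Iff.rfl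
        inv_mem' := fun {σ} hσ x => by
          have := hσ (σ⁻¹ x)
          have e : σ (σ⁻¹ x) = x := by simp
          rw [e] at this
          exact this.symm }
    have hSHB : (S : Subgroup (Equiv.Perm (Fin n))) ≤ HB := by
      intro s hs x
      show x ∈ insert a O ↔ s x ∈ insert a O
      rw [Set.mem_insert_iff, Set.mem_insert_iff]
      have e1 : x = a ↔ s x = a := by
        constructor
        · intro h; rw [h]; exact ha' s hs
        · intro h; apply s.injective; rw [h, ha' s hs]
      have e2 : x ∈ O ↔ s x ∈ O := by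
        constructor
        · intro hx
          obtain ⟨t, ht⟩ := MulAction.mem_orbit_iff.mp hx
          exact MulAction.mem_orbit_iff.mpr ⟨⟨s, hs⟩ * t, by rw [mul_smul, ht]; rfl⟩
        · intro hx
          obtain ⟨t, ht⟩ := MulAction.mem_orbit_iff.mp hx
          refine MulAction.mem_orbit_iff.mpr
            ⟨(⟨s, hs⟩ : (S : Subgroup (Equiv.Perm (Fin n))))⁻¹ * t, ?_⟩
          rw [mul_smul, ht]
          show s⁻¹ (s x) = x
          simp
      rw [e1, e2]
    have hHBtop : HB ≠ ⊤ := by
      intro htop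
      have hmem : Equiv.swap a c ∈ HB := by rw [htop]; exact Subgroup.mem_top _
      have h6 := (hmem a).mp (Set.mem_insert a O)
      rw [Equiv.swap_apply_left] at h6
      exact hc h6
    have hHBM := claimA HB hSHB hHBtop
    have hswap : Equiv.swap a b ∈ HB := by
      intro x
      have hbB : b ∈ B := Set.mem_insert_of_mem a (MulAction.mem_orbit_self b)
      have haB : a ∈ B := Set.mem_insert a O
      by_cases hxa : x = a
      · rw [hxa, Equiv.swap_apply_left]; exact ⟨fun _ => hbB, fun _ => haB⟩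
      · by_cases hxb : x = b
        · rw [hxb, Equiv.swap_apply_right]; exact ⟨fun _ => haB, fun _ => hbB⟩
        · rw [Equiv.swap_apply_of_ne_of_ne hxa hxb]
    have hMtop : M = ⊤ := stab_top n a M
      (fun σ hσ => hGaM (MulAction.mem_stabilizer_iff.mpr hσ)) (Equiv.swap a b) (hHBM hswap)
      (by rw [Equiv.swap_apply_left]; exact hba)
    exact hMco.1 hMtop


end Cfsg.Agent.S2963
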