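import Cfsg.Statements.S2998
-- import your own Cfsg.Agent.* helpers here

set_option autoImplicit false
open Cfsg

namespace Cfsg.Agent.S2998

theorem card_eq_relIndex_mul {G : Type*} [Group G] [Finite G] {H K : Subgroup G} (h : H ≤ K) :
    Nat.card K = H.relIndex K * Nat.card H := by
  have h1 := Subgroup.card_mul_index (H.subgroupOf K)
  rw [Nat.card_congr (Subgroup.subgroupOfEquivOfLe h).toEquiv] at h1
  rw [Subgroup.relIndex, ← h1, mul_comm]

theorem relIndex_sup_normal {G : Type*} [Group G] [Finite G] (H Q : Subgroup G) [Q.Normal] :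
    H.relIndex (H ⊔ Q) = H.relIndex Q := by
  have h1 := card_eq_relIndex_mul (le_sup_left : H ≤ H ⊔ Q)
  have h2 := card_eq_relIndex_mul (le_sup_right : Q ≤ H ⊔ Q)
  have h3 := card_eq_relIndex_mul (inf_le_left : H ⊓ Q ≤ H)
  have h4 := card_eq_relIndex_mul (inf_le_right : H ⊓ Q ≤ Q)
  rw [Subgroup.relIndex_sup_right] at h2
  rw [Subgroup.inf_relIndex_left] at h3
  rw [Subgroup.inf_relIndex_right] at h4
  have hc : 0 < Nat.card (H ⊓ Q : Subgroup G) := Nat.card_pos
  have ha : 0 < Q.relIndex H := by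
    rcases Nat.eq_zero_or_pos (Q.relIndex H) with h0 | h0
    · rw [h0, zero_mul] at h3
      exact absurd h3 (Nat.card_pos).ne'
    · exact h0
  have e : H.relIndex (H ⊔ Q) * (Q.relIndex H * Nat.card (H ⊓ Q : Subgroup G)) =
      H.relIndex Q * (Q.relIndex H * Nat.card (H ⊓ Q : Subgroup G)) := by
    calc H.relIndex (H ⊔ Q) * (Q.relIndex H * Nat.card (H ⊓ Q : Subgroup G))
        = H.relIndex (H ⊔ Q) * Nat.card H := by rw [h3]
      _ = Nat.card (H ⊔ Q : Subgroup G) := h1.symm
      _ = Q.relIndex H * Nat.card Q := h2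
      _ = Q.relIndex H * (H.relIndex Q * Nat.card (H ⊓ Q : Subgroup G)) := by rw [← h4]
      _ = H.relIndex Q * (Q.relIndex H * Nat.card (H ⊓ Q : Subgroup G)) := by ring
  exact Nat.eq_of_mul_eq_mul_right (Nat.mul_pos ha hc) e

theorem sylow_inf_normal_not_dvd {G : Type*} [Group G] [Finite G] {p : ℕ} [Fact p.Prime]
    (P : Sylow p G) (N : Subgroup G) [N.Normal] : ¬ p ∣ (P : Subgroup G).relIndex N := by
  intro h
  have h1 : (P : Subgroup G).relIndex N ∣ (P : Subgroup G).index := by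
    rw [← relIndex_sup_normal]
    exact Subgroup.relIndex_dvd_index_of_le le_sup_left
  exact P.not_dvd_index (h.trans h1)

theorem mem_normalizer_of_conj_le {G : Type*} [Group G] [Finite G] (R : Subgroup G) (n : G)
    (h : ∀ r ∈ R, n * r * n⁻¹ ∈ R) : n ∈ Subgroup.normalizer (R : Set G) := by
  have hle : R.map (MulAut.conj n).toMonoidHom ≤ R := by
    rintro _ ⟨r, hr, rfl⟩
    exact h r hr
  have hcard : Nat.card R ≤ Nat.card (R.map (MulAut.conj n).toMonoidHom) := by
    rw [Subgroup.card_map_of_injective (MulAut.conj n).injective]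
  have heq := Subgroup.eq_of_le_of_card_ge hle hcard
  exact Subgroup.mem_normalizer_iff_map_conj_eq.mpr heq

theorem sylow_conj_in {G : Type*} [Group G] [Finite G] {p : ℕ} [Fact p.Prime] (P : Sylow p G)
    (K : Subgroup G) (g : G) (h1 : (P : Subgroup G) ≤ K)
    (h2 : ((g • P : Sylow p G) : Subgroup G) ≤ K) :
    ∃ c ∈ K, c * g ∈ Subgroup.normalizer ((P : Subgroup G) : Set G) := by
  obtain ⟨h, hh⟩ := MulAction.exists_smul_eq K ((g • P).subtype h2) (P.subtype h1)
  simp_rw [Sylow.smul_subtype, Subgroup.smul_def, smul_smul] at hh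
  exact ⟨h, h.2, Sylow.smul_eq_iff_mem_normalizer.mp (Sylow.subtype_injective hh)⟩

theorem frattini_quot {G : Type*} [Group G] [Finite G] {p : ℕ} [Fact p.Prime] (P : Sylow p G)
    (N : Subgroup G) [N.Normal] (R₀ : Subgroup G) (h1 : (P : Subgroup G) ⊓ N ≤ R₀)
    (h2 : R₀ ≤ (P : Subgroup G)) (g : G) (hg : ∀ r ∈ R₀, g * r * g⁻¹ ∈ N ⊔ R₀) :
    ∃ n ∈ N, n * g ∈ Subgroup.normalizer (R₀ : Set G) := by
  set L : Subgroup G := N ⊔ R₀ with hL
  have hRL : R₀ ≤ L := le_sup_right
  have hp1 : IsPGroup p (R₀.subgroupOf L) :=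
    (P.isPGroup'.to_le h2).comap_of_injective L.subtype L.subtype_injective
  have hidx : ¬ p ∣ (R₀.subgroupOf L).index := by
    show ¬ p ∣ R₀.relIndex L
    rw [hL, sup_comm, relIndex_sup_normal, ← Subgroup.inf_relIndex_right]
    have e : R₀ ⊓ N = (P : Subgroup G) ⊓ N :=
      le_antisymm (inf_le_inf_right N h2) (le_inf h1 inf_le_right)
    rw [e, Subgroup.inf_relIndex_right]
    exact sylow_inf_normal_not_dvd P N
  set S1 : Sylow p L := hp1.toSylow hidx with hS1
  set Q : Subgroup G := R₀.map (MulAut.conj g).toMonoidHom with hQ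
  have hQL : Q ≤ L := by
    rintro _ ⟨r, hr, rfl⟩
    exact hg r hr
  have hpQ : IsPGroup p (Q.subgroupOf L) :=
    ((P.isPGroup'.to_le h2).map _).comap_of_injective L.subtype L.subtype_injective
  obtain ⟨S, hS⟩ := hpQ.exists_le_sylow
  obtain ⟨l, hl⟩ := MulAction.exists_smul_eq L S S1
  have key : ∀ r ∈ R₀, (l : G) * g * r * ((l : G) * g)⁻¹ ∈ R₀ := by
    intro r hr
    have hq : g * r * g⁻¹ ∈ Q := Subgroup.mem_map.mpr ⟨r, hr, rfl⟩
    have hqS : (⟨g * r * g⁻¹, hQL hq⟩ : L) ∈ (S : Subgroup L) :=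
      hS (Subgroup.mem_subgroupOf.mpr hq)
    have h3 : l * (⟨g * r * g⁻¹, hQL hq⟩ : L) * l⁻¹ ∈ ((l • S : Sylow p L) : Subgroup L) := by
      rw [Sylow.coe_subgroup_smul]
      exact Subgroup.smul_mem_pointwise_smul _ (MulAut.conj l) _ hqS
    rw [hl, hS1, IsPGroup.toSylow_coe, Subgroup.mem_subgroupOf] at h3
    have e : (l : G) * g * r * ((l : G) * g)⁻¹ = (l : G) * (g * r * g⁻¹) * (l : G)⁻¹ := by group
    rw [e]
    exact h3
  have hnorm := mem_normalizer_of_conj_le R₀ ((l : G) * g) key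
  have hlL : (l : G) ∈ ((R₀ ⊔ N : Subgroup G) : Set G) := by
    rw [sup_comm]; exact l.2
  rw [Subgroup.mul_normal] at hlL
  obtain ⟨r, hr, n, hn, hnr⟩ := Set.mem_mul.mp hlL
  refine ⟨n, hn, ?_⟩
  have hr' : r⁻¹ ∈ Subgroup.normalizer (R₀ : Set G) :=
    Subgroup.le_normalizer (R₀.inv_mem hr)
  have h5 := Subgroup.mul_mem _ hr' hnorm
  have e2 : r⁻¹ * ((l : G) * g) = n * g := by
    rw [← hnr]; group
  rw [e2] at h5
  exact h5

/-- Let G be a finite group, p a prime, P a Sylow p-subgroup of G and x ∈ P an element such that N_G(R) ≤ C_G(x) for every nontrivial subgroup R of P. Then P ≤ C_G(x); every G-conjugate of x lying in P equals x (so g ∈ C_G(x) whenever g x g⁻¹ ∈ P); and for every normal subgroup N of G, the image of x in G ⧸ N has the same property with respect to the image of P: the normalizer of every nontrivial subgroup of the image of P centralizes the image of x. -/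
theorem result {G : Type*} [Group G] [Finite G] {p : ℕ} [Fact p.Prime] (P : Sylow p G) (x : G) (hxP : x ∈ (P : Subgroup G)) (hlc : ∀ R : Subgroup G, R ≤ (P : Subgroup G) → R ≠ ⊥ → Subgroup.normalizer (R : Set G) ≤ Subgroup.centralizer ({x} : Set G)) : (P : Subgroup G) ≤ Subgroup.centralizer ({x} : Set G) ∧ (∀ g : G, g * x * g⁻¹ ∈ (P : Subgroup G) → g * x * g⁻¹ = x) ∧ ∀ (N : Subgroup G) [N.Normal], ∀ R : Subgroup (G ⧸ N), R ≤ (P : Subgroup G).map (QuotientGroup.mk' N) → R ≠ ⊥ → Subgroup.normalizer (R : Set (G ⧸ N)) ≤ Subgroup.centralizer ({(QuotientGroup.mk x : G ⧸ N)} : Set (G ⧸ N)) := by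
  have hP1 : (P : Subgroup G) ≤ Subgroup.centralizer ({x} : Set G) := by
    by_cases hbot : (P : Subgroup G) = ⊥
    · rw [hbot]; exact bot_le
    · exact le_trans Subgroup.le_normalizer (hlc P le_rfl hbot)
  have hP2 : ∀ g : G, g * x * g⁻¹ ∈ (P : Subgroup G) → g * x * g⁻¹ = x := by
    intro g hy
    by_cases hy1 : g * x * g⁻¹ = 1
    · have hx1 : x = 1 := by
        have : x = g⁻¹ * (g * x * g⁻¹) * g := by group
        rw [this, hy1]; group
      rw [hx1]; group
    · have hPbot : (P : Subgroup G) ≠ ⊥ := by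
        intro hbot
        rw [hbot, Subgroup.mem_bot] at hy
        exact hy1 hy
      have hzbot : Subgroup.zpowers (g * x * g⁻¹) ≠ ⊥ := by
        intro hbot
        have := Subgroup.mem_zpowers (g * x * g⁻¹)
        rw [hbot, Subgroup.mem_bot] at this
        exact hy1 this
      have hCy : Subgroup.centralizer ({g * x * g⁻¹} : Set G) ≤ Subgroup.centralizer ({x} : Set G) := by
        refine le_trans ?_ (hlc (Subgroup.zpowers (g * x * g⁻¹)) (by rw [Subgroup.zpowers_le]; exact hy) hzbot)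
        intro c hc
        rw [Subgroup.mem_centralizer_singleton_iff] at hc
        rw [Subgroup.mem_normalizer_iff]
        intro h
        have hcomm : ∀ h ∈ Subgroup.zpowers (g * x * g⁻¹), c * h * c⁻¹ = h := by
          intro h hh
          obtain ⟨k, rfl⟩ := Subgroup.mem_zpowers_iff.mp hh
          have : Commute c ((g * x * g⁻¹) ^ k) := Commute.zpow_right hc k
          rw [this.eq]; group
        constructor
        · intro hh
          rw [hcomm h hh]; exact hh
        · intro hh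
          have := hcomm _ hh
          have h7 : c * h * c⁻¹ = h := mul_left_cancel (mul_right_cancel this)
          rw [← h7]; exact hh
      have h2 : ((g • P : Sylow p G) : Subgroup G) ≤ Subgroup.centralizer ({x} : Set G) := by
        refine le_trans ?_ hCy
        intro q hq
        rw [Sylow.coe_subgroup_smul] at hq
        obtain ⟨h, hh, rfl⟩ := hq
        have h3 : h * x = x * h := Subgroup.mem_centralizer_singleton_iff.mp (hP1 hh)
        rw [Subgroup.mem_centralizer_singleton_iff]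
        show g * h * g⁻¹ * (g * x * g⁻¹) = g * x * g⁻¹ * (g * h * g⁻¹)
        have e1 : g * h * g⁻¹ * (g * x * g⁻¹) = g * (h * x) * g⁻¹ := by group
        have e2 : g * x * g⁻¹ * (g * h * g⁻¹) = g * (x * h) * g⁻¹ := by group
        rw [e1, e2, h3]
      obtain ⟨c, hc, hcg⟩ := sylow_conj_in P _ g hP1 h2
      have h4 : c * g ∈ Subgroup.centralizer ({x} : Set G) := hlc P le_rfl hPbot hcg
      have h5 : g ∈ Subgroup.centralizer ({x} : Set G) := by
        have e : g = c⁻¹ * (c * g) := by group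
        rw [e]
        exact Subgroup.mul_mem _ (Subgroup.inv_mem _ hc) h4
      rw [Subgroup.mem_centralizer_singleton_iff] at h5
      rw [h5]; group
  refine ⟨hP1, hP2, ?_⟩
  intro N _ R hR hRbot gbar hgbar
  obtain ⟨g, rfl⟩ := QuotientGroup.mk_surjective gbar
  set R₀ : Subgroup G := (P : Subgroup G) ⊓ R.comap (QuotientGroup.mk' N) with hR₀
  have h1 : (P : Subgroup G) ⊓ N ≤ R₀ := by
    intro a ha
    refine Subgroup.mem_inf.mpr ⟨(Subgroup.mem_inf.mp ha).1, ?_⟩
    rw [Subgroup.mem_comap]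
    have : (QuotientGroup.mk' N) a = 1 := (QuotientGroup.eq_one_iff a).mpr (Subgroup.mem_inf.mp ha).2
    rw [this]; exact R.one_mem
  have hcomap : R.comap (QuotientGroup.mk' N) ≤ N ⊔ R₀ := by
    intro a ha
    rw [Subgroup.mem_comap] at ha
    obtain ⟨b, hb, hba⟩ := hR ha
    have hbR : b ∈ R₀ := by
      refine Subgroup.mem_inf.mpr ⟨hb, ?_⟩
      rw [Subgroup.mem_comap, hba]; exact ha
    have hN : a * b⁻¹ ∈ N := by
      rw [← QuotientGroup.eq_one_iff (N := N)]
      have : ((a * b⁻¹ : G) : G ⧸ N) = (QuotientGroup.mk' N) a * ((QuotientGroup.mk' N) b)⁻¹ := rfl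
      rw [this, hba]; group
    have e : a = (a * b⁻¹) * b := by group
    rw [e]
    exact Subgroup.mul_mem _ (Subgroup.mem_sup_left hN) (Subgroup.mem_sup_right hbR)
  have hg : ∀ r ∈ R₀, g * r * g⁻¹ ∈ N ⊔ R₀ := by
    intro r hr
    apply hcomap
    rw [Subgroup.mem_comap]
    have hr2 : (QuotientGroup.mk' N) r ∈ R := (Subgroup.mem_inf.mp hr).2
    have := (Subgroup.mem_normalizer_iff.mp hgbar _).mp hr2
    exact this
  obtain ⟨n, hn, hng⟩ := frattini_quot P N R₀ h1 inf_le_left g hg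
  have hR₀bot : R₀ ≠ ⊥ := by
    intro hbot
    apply hRbot
    rw [eq_bot_iff]
    intro a ha
    obtain ⟨b, hb, hba⟩ := hR ha
    have hbR : b ∈ R₀ := by
      refine Subgroup.mem_inf.mpr ⟨hb, ?_⟩
      rw [Subgroup.mem_comap, hba]; exact ha
    rw [hbot, Subgroup.mem_bot] at hbR
    rw [Subgroup.mem_bot, ← hba, hbR, map_one]
  have h6 : n * g ∈ Subgroup.centralizer ({x} : Set G) := hlc R₀ inf_le_left hR₀bot hng
  rw [Subgroup.mem_centralizer_singleton_iff] at h6 ⊢
  have hn1 : (QuotientGroup.mk n : G ⧸ N) = 1 := (QuotientGroup.eq_one_iff n).mpr hn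
  have e1 : (QuotientGroup.mk g : G ⧸ N) = QuotientGroup.mk (n * g) := by
    rw [QuotientGroup.mk_mul, hn1, one_mul]
  rw [e1, ← QuotientGroup.mk_mul, ← QuotientGroup.mk_mul, h6]


end Cfsg.Agent.S2998
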