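import Cfsg.Statements.S3003
-- import your own Cfsg.Agent.* helpers here
import Cfsg.Agent.S1324

set_option autoImplicit false
open Cfsg

namespace Cfsg.Agent.S3003

theorem disj_aux {G : Type*} [Group G] [Finite G] {p : ℕ} [Fact p.Prime] (Q R : Subgroup G)
    (hQp : IsPGroup p ↥Q) (hR : (Nat.card ↥R).Coprime p) (y : G) (hyR : y ∈ R) (hyQ : y ∈ Q) :
    y = 1 := by
  obtain ⟨k, hk⟩ := hQp ⟨y, hyQ⟩
  have hk' : y ^ (p ^ k) = 1 := by
    have := congrArg Subtype.val hk
    simpa using this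
  have h1 : orderOf y ∣ p ^ k := orderOf_dvd_of_pow_eq_one hk'
  have h2 : orderOf y ∣ Nat.card ↥R := by
    have : orderOf (⟨y, hyR⟩ : ↥R) ∣ Nat.card ↥R := orderOf_dvd_natCard _
    rwa [Subgroup.orderOf_mk] at this
  have h3 : orderOf y ∣ 1 := by
    have hcop : (Nat.card ↥R).Coprime (p ^ k) := Nat.Coprime.pow_right k hR
    have := Nat.dvd_gcd h2 h1
    rwa [hcop] at this
  exact orderOf_eq_one_iff.mp (Nat.dvd_one.mp h3)

theorem key {G : Type*} [Group G] [Finite G] {p : ℕ} [Fact p.Prime] (Q : Subgroup G)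
    (hQp : IsPGroup p ↥Q) (hlarge : Cfsg.IsLarge Q) (G₁ : Subgroup G) (hQG : Q ≤ G₁)
    (R : Subgroup G) (hR : (Nat.card ↥R).Coprime p)
    (hGR : G₁ ≤ Subgroup.normalizer (R : Set G)) (U : Subgroup G)
    (h : ∃ x ∈ U, x ≠ 1 ∧ ∃ g ∈ G₁, g * x * g⁻¹ ∈ Q ⊓ Subgroup.centralizer (Q : Set G)) :
    R ⊓ Subgroup.centralizer (U : Set G) = ⊥ := by
  obtain ⟨x, hxU, hx1, g, hg, hz⟩ := h
  set z := g * x * g⁻¹ with hzdef
  have hzQ : z ∈ Q := hz.1
  have hzC : z ∈ Subgroup.centralizer (Q : Set G) := hz.2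
  have hz1 : z ≠ 1 := by
    intro h1
    apply hx1
    have : x = g⁻¹ * z * g := by rw [hzdef]; group
    rw [this, h1]; group
  -- the subgroup generated by z
  have hZle : Subgroup.zpowers z ≤ Subgroup.centralizer (Q : Set G) :=
    Subgroup.zpowers_le.mpr hzC
  have hZne : Subgroup.zpowers z ≠ ⊥ := by
    intro h1
    exact hz1 (Subgroup.zpowers_eq_bot.mp h1)
  have hN := hlarge.2 _ hZle hZne
  -- every element of R commuting with z is trivial
  have hcr : ∀ c ∈ R, Commute c z → c = 1 := by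
    intro c hcR hcz
    have hcN : c ∈ Subgroup.normalizer (Q : Set G) := by
      apply hN
      rw [Subgroup.mem_normalizer_iff]
      intro h
      have hch : ∀ h ∈ Subgroup.zpowers z, c * h * c⁻¹ = h := by
        intro h hh
        obtain ⟨i, rfl⟩ := Subgroup.mem_zpowers_iff.mp hh
        have : Commute c (z ^ i) := hcz.zpow_right i
        rw [this.eq]; group
      constructor
      · intro hh; rw [hch h hh]; exact hh
      · intro hh
        have h3 := hch _ hh
        have h4 : c * h * c⁻¹ = h := by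
          have e : c * h * c⁻¹ = c⁻¹ * (c * (c * h * c⁻¹) * c⁻¹) * c := by group
          rw [e, h3]; group
        rw [← h4]; exact hh
    have hcQ : c ∈ Subgroup.centralizer (Q : Set G) := by
      rw [Subgroup.mem_centralizer_iff]
      intro q hq
      -- the commutator c q c⁻¹ q⁻¹ lies in R and in Q
      have h1 : c * q * c⁻¹ ∈ Q := (Subgroup.mem_normalizer_iff.mp hcN q).mp hq
      have h2 : c * q * c⁻¹ * q⁻¹ ∈ Q := Q.mul_mem h1 (Q.inv_mem hq)
      have hqN : q ∈ Subgroup.normalizer (R : Set G) := hGR (hQG hq)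
      have h3 : q * c⁻¹ * q⁻¹ ∈ R := (Subgroup.mem_normalizer_iff.mp hqN c⁻¹).mp (R.inv_mem hcR)
      have h4 : c * q * c⁻¹ * q⁻¹ ∈ R := by
        have : c * q * c⁻¹ * q⁻¹ = c * (q * c⁻¹ * q⁻¹) := by group
        rw [this]; exact R.mul_mem hcR h3
      -- it commutes with z
      have hqz : Commute q z := by
        have := Subgroup.mem_centralizer_iff.mp hzC q hq
        exact this
      have h5 : Commute (c * q * c⁻¹ * q⁻¹) z :=
        ((hcz.mul_left hqz |>.symm.symm).mul_left hcz.inv_left).mul_left hqz.inv_left |> fun h => by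
          simpa [mul_assoc] using h
      -- so it is trivial
      have h6 := disj_aux Q R hQp hR _ h4 h2
      have : q * c = c * q := by
        have h7 : c * q = (c * q * c⁻¹ * q⁻¹) * (q * c) := by group
        rw [h7, h6, one_mul]
      exact this
    exact disj_aux Q R hQp hR c hcR (hlarge.1 hcQ)
  rw [eq_bot_iff]
  intro r hr
  rw [Subgroup.mem_bot]
  have hrR : r ∈ R := hr.1
  have hrx : Commute r x := by
    have := Subgroup.mem_centralizer_iff.mp hr.2 x hxU
    exact this.symm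
  have hgN : g ∈ Subgroup.normalizer (R : Set G) := hGR hg
  have h1 : g * r * g⁻¹ ∈ R := (Subgroup.mem_normalizer_iff.mp hgN r).mp hrR
  have h2 : Commute (g * r * g⁻¹) z := by
    show g * r * g⁻¹ * z = z * (g * r * g⁻¹)
    rw [hzdef]
    have e1 : g * r * g⁻¹ * (g * x * g⁻¹) = g * (r * x) * g⁻¹ := by group
    have e2 : g * x * g⁻¹ * (g * r * g⁻¹) = g * (x * r) * g⁻¹ := by group
    rw [e1, e2, hrx.eq]
  have h3 := hcr _ h1 h2
  have : r = g⁻¹ * (g * r * g⁻¹) * g := by group
  rw [this, h3]; group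

/-- Let G be a finite group, p a prime and Q a large p-subgroup of G: C_G(Q) ≤ Q and N_G(U) ≤ N_G(Q) for every nontrivial subgroup U of C_G(Q). Let Q ≤ G₁ ≤ G, let R be a subgroup of order prime to p normalized by G₁, and let U ≤ G₁ be a p-subgroup. If U contains a nontrivial element which is G₁-conjugate to an element of Z(Q), then C_R(U) = 1. In particular, if U is elementary abelian of order at least p² and every maximal subgroup of U contains a nontrivial element G₁-conjugate into Z(Q), then R = 1. -/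
theorem result {G : Type*} [Group G] [Finite G] {p : ℕ} [Fact p.Prime] (Q : Subgroup G) (hQp : IsPGroup p ↥Q) (hlarge : Cfsg.IsLarge Q) (G₁ : Subgroup G) (hQG : Q ≤ G₁) (R : Subgroup G) (hR : (Nat.card ↥R).Coprime p) (hGR : G₁ ≤ Subgroup.normalizer (R : Set G)) (U : Subgroup G) (hUG : U ≤ G₁) (hUp : IsPGroup p ↥U) : ((∃ x ∈ U, x ≠ 1 ∧ ∃ g ∈ G₁, g * x * g⁻¹ ∈ Q ⊓ Subgroup.centralizer (Q : Set G)) → R ⊓ Subgroup.centralizer (U : Set G) = ⊥) ∧ (Cfsg.IsElementaryAbelian p U → p ^ 2 ≤ Nat.card ↥U → (∀ U₀ : Subgroup G, U₀ ≤ U → IsCoatom (U₀.subgroupOf U) → ∃ x ∈ U₀, x ≠ 1 ∧ ∃ g ∈ G₁, g * x * g⁻¹ ∈ Q ⊓ Subgroup.centralizer (Q : Set G)) → R = ⊥) := by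
  have hp : p.Prime := Fact.out
  refine ⟨fun h => key Q hQp hlarge G₁ hQG R hR hGR U h, ?_⟩
  intro hEA hU2 hco
  have hR' : ¬ p ∣ Nat.card ↥R := (Nat.Prime.coprime_iff_not_dvd hp).mp hR.symm
  have hgen := Cfsg.Agent.S1324.result p U R hEA hU2 hR' (hUG.trans hGR)
  rw [hgen, iSup_eq_bot]
  rintro ⟨B, hBU, hBp⟩
  show R ⊓ Subgroup.centralizer (B : Set G) = ⊥
  apply key Q hQp hlarge G₁ hQG R hR hGR B
  by_cases hBeq : B = U
  · -- U has a coatom
    have hnt : Nontrivial ↥U := by
      rw [← Finite.one_lt_card_iff_nontrivial]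
      have : 2 ^ 2 ≤ p ^ 2 := Nat.pow_le_pow_left hp.two_le 2
      omega
    have hnt' : Nontrivial (Subgroup ↥U) := Subgroup.nontrivial_iff.mpr hnt
    obtain ⟨M, hM⟩ := (IsCoatomic.exists_coatom (Subgroup ↥U))
    have hMle : M.map U.subtype ≤ U := Subgroup.map_subtype_le M
    have hMeq : (M.map U.subtype).subgroupOf U = M := by
      ext y
      rw [Subgroup.mem_subgroupOf]
      constructor
      · rintro ⟨w, hw, hwy⟩
        have : w = y := Subtype.ext hwy
        rw [← this]; exact hw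
      · intro hy; exact ⟨y, hy, rfl⟩
    obtain ⟨x, hx, hx1, hrest⟩ := hco _ hMle (by rw [hMeq]; exact hM)
    exact ⟨x, hBeq ▸ hMle hx, hx1, hrest⟩
  · apply hco B hBU
    have hne : B.subgroupOf U ≠ ⊤ := by
      intro h
      apply hBeq
      exact le_antisymm hBU (Subgroup.subgroupOf_eq_top.mp h)
    obtain ⟨n, hn⟩ := hUp.index (B.subgroupOf U)
    have hidx : (B.subgroupOf U).index = p := by
      have h1 : (B.subgroupOf U).index ≤ p := hBp
      have h2 : (B.subgroupOf U).index ≠ 1 := fun h => hne (Subgroup.index_eq_one.mp h)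
      rcases Nat.lt_or_ge n 2 with h3 | h3
      · interval_cases n
        · rw [pow_zero] at hn; exact absurd hn h2
        · rw [pow_one] at hn; exact hn
      · have : p ^ 2 ≤ p ^ n := Nat.pow_le_pow_right hp.pos h3
        have : p * 2 ≤ p * p := Nat.mul_le_mul_left p hp.two_le
        nlinarith
    refine ⟨hne, ?_⟩
    intro K hK
    have hd : K.index ∣ (B.subgroupOf U).index := Subgroup.index_dvd_of_le hK.le
    rw [hidx] at hd
    rcases (Nat.dvd_prime hp).mp hd with h1 | h1
    · exact Subgroup.index_eq_one.mp h1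
    · exfalso
      have hc1 : Nat.card ↥K * K.index = Nat.card ↥U := Subgroup.card_mul_index K
      have hc2 : Nat.card ↥(B.subgroupOf U) * (B.subgroupOf U).index = Nat.card ↥U :=
        Subgroup.card_mul_index _
      rw [h1] at hc1
      rw [hidx] at hc2
      have hc3 : Nat.card ↥K = Nat.card ↥(B.subgroupOf U) :=
        Nat.eq_of_mul_eq_mul_right hp.pos (hc1.trans hc2.symm)
      have := Subgroup.eq_of_le_of_card_ge hK.le hc3.le
      exact hK.ne this


end Cfsg.Agent.S3003
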