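import Cfsg.Statements.S3004
-- import your own Cfsg.Agent.* helpers here
import Cfsg.Agent.Lib.helper15.CDB

set_option autoImplicit false
open scoped Pointwise
open Cfsg

namespace Cfsg.Agent.S3004

/-- Let P be a finite p-group and call a subgroup R of P measure-largest if |R|·|C_P(R)| is as large as possible among subgroups of P. If Q and R are measure-largest then QR = RQ is a subgroup, QR and Q ∩ R are measure-largest, C_P(Q) is measure-largest, Q = C_P(C_P(Q)), and C_P(Q ∩ R) = C_P(Q)·C_P(R). -/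
theorem result {p : ℕ} [Fact p.Prime] (P : Type*) [Group P] [Finite P] (hP : IsPGroup p P) (Q R : Subgroup P) (hQ : Cfsg.IsCentralizerLarge Q) (hR : Cfsg.IsCentralizerLarge R) : ((Q ⊔ R : Subgroup P) : Set P) = (Q : Set P) * (R : Set P) ∧ Cfsg.IsCentralizerLarge (Q ⊔ R) ∧ Cfsg.IsCentralizerLarge (Q ⊓ R) ∧ Cfsg.IsCentralizerLarge (Subgroup.centralizer (Q : Set P)) ∧ Q = Subgroup.centralizer ((Subgroup.centralizer (Q : Set P) : Subgroup P) : Set P) ∧ ((Subgroup.centralizer (Q : Set P) ⊔ Subgroup.centralizer (R : Set P) : Subgroup P) : Set P) = (Subgroup.centralizer (Q : Set P) : Set P) * (Subgroup.centralizer (R : Set P) : Set P) ∧ Subgroup.centralizer ((Q ⊓ R : Subgroup P) : Set P) = Subgroup.centralizer (Q : Set P) ⊔ Subgroup.centralizer (R : Set P) := by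
  rw [Lib.helper15.isCentralizerLarge_iff] at hQ hR
  refine ⟨hQ.coe_sup hR, ?_, ?_, ?_, hQ.eq_centralizer_centralizer, hQ.coe_centralizer_sup hR,
    hQ.centralizer_inf hR⟩
  · rw [Lib.helper15.isCentralizerLarge_iff]; exact hQ.sup hR
  · rw [Lib.helper15.isCentralizerLarge_iff]; exact hQ.inf hR
  · rw [Lib.helper15.isCentralizerLarge_iff]; exact hQ.centralizer


end Cfsg.Agent.S3004
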