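import Cfsg.Statements.S3006
-- import your own Cfsg.Agent.* helpers here
import Cfsg.Agent.Lib.helper15.CL

set_option autoImplicit false
open scoped Pointwise
open Cfsg

namespace Cfsg.Agent.S3006

/-- Let P be a finite p-group, Q a centrally large subgroup of P (|Q|·|Z(Q)| maximal among subgroups of P) and A an abelian subgroup of P of largest order. Then QA = AQ is a centrally large subgroup of P, C_{QA}(Q ∩ A) = Z(Q)·A, and the subgroup generated by all centrally large subgroups of P contains C_P(Z(J(P))), where J(P) is generated by the abelian subgroups of largest order. -/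
theorem result {p : ℕ} [Fact p.Prime] (P : Type*) [Group P] [Finite P] (hP : IsPGroup p P) (Q A : Subgroup P) (hQ : Cfsg.IsCentrallyLarge Q) (hA : A ∈ Cfsg.maxAbelianSubgroups P) : ((Q ⊔ A : Subgroup P) : Set P) = (Q : Set P) * (A : Set P) ∧ Cfsg.IsCentrallyLarge (Q ⊔ A) ∧ (Q ⊔ A) ⊓ Subgroup.centralizer ((Q ⊓ A : Subgroup P) : Set P) = (Q ⊓ Subgroup.centralizer (Q : Set P)) ⊔ A ∧ (((Q ⊓ Subgroup.centralizer (Q : Set P)) ⊔ A : Subgroup P) : Set P) = ((Q ⊓ Subgroup.centralizer (Q : Set P)) : Set P) * (A : Set P) ∧ Subgroup.centralizer ((Cfsg.thompsonSubgroupA P ⊓ Subgroup.centralizer (Cfsg.thompsonSubgroupA P : Set P) : Subgroup P) : Set P) ≤ Cfsg.centrallyLargeJoin P := by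
  classical
  obtain ⟨hQcd, hQc⟩ := (Lib.helper15.isCentrallyLarge_iff Q).mp hQ
  obtain ⟨hcd, hcen, hcard, hBmax⟩ := Lib.helper15.cl_sup_maxAbelian hQcd hQc hA
  have hA1 : IsMulCommutative ↥A := hA.1
  have hZ : Q ⊓ Subgroup.centralizer (Q : Set P) = Subgroup.centralizer (Q : Set P) :=
    inf_eq_right.mpr hQc
  have hcoe : ((Q ⊔ A : Subgroup P) : Set P) = (Q : Set P) * (A : Set P) :=
    Lib.helper15.coe_sup_eq_mul_of_card_eq Q A hcard
  have hCL : Cfsg.IsCentrallyLarge (Q ⊔ A) := by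
    rw [Lib.helper15.isCentrallyLarge_iff]
    refine ⟨hcd, ?_⟩
    rw [hcen]; exact le_trans inf_le_left le_sup_right
  have key : ∀ x ∈ (Q ⊔ A) ⊓ Subgroup.centralizer ((Q ⊓ A : Subgroup P) : Set P),
      x ∈ ((Subgroup.centralizer (Q : Set P) : Subgroup P) : Set P) * (A : Set P) := by
    intro x hx
    have hx1 : x ∈ ((Q ⊔ A : Subgroup P) : Set P) := (Subgroup.mem_inf.mp hx).1
    have hx2 := (Subgroup.mem_inf.mp hx).2
    rw [hcoe] at hx1
    obtain ⟨y, hy, a, ha, rfl⟩ := Set.mem_mul.mp hx1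
    have hAc : A ≤ Subgroup.centralizer ((Q ⊓ A : Subgroup P) : Set P) :=
      le_trans (Subgroup.le_centralizer A)
        (Subgroup.centralizer_le (SetLike.coe_subset_coe.mpr inf_le_right))
    have hy2 : y ∈ Subgroup.centralizer ((Q ⊓ A : Subgroup P) : Set P) := by
      have e : y = (y * a) * a⁻¹ := by group
      rw [e]; exact Subgroup.mul_mem _ hx2 (Subgroup.inv_mem _ (hAc ha))
    have hy3 : y ∈ Subgroup.centralizer
        (((A ⊓ Q) ⊔ Subgroup.centralizer (Q : Set P) : Subgroup P) : Set P) := by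
      rw [Lib.helper15.centralizer_sup_eq, inf_comm A Q]
      exact Subgroup.mem_inf.mpr ⟨hy2, Lib.helper15.le_centralizer_centralizer' Q hy⟩
    have hy4 := Lib.helper15.maxAbelian_centralizer_le hBmax hy3
    have hnorm : Subgroup.centralizer (Q : Set P) ≤
        Subgroup.normalizer ((A ⊓ Q : Subgroup P) : Set P) :=
      le_trans (Subgroup.centralizer_le (SetLike.coe_subset_coe.mpr inf_le_right))
        (Subgroup.centralizer_le_normalizer _)
    have hy5 : y ∈ (((A ⊓ Q) ⊔ Subgroup.centralizer (Q : Set P) : Subgroup P) : Set P) := hy4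
    rw [Subgroup.coe_mul_of_right_le_normalizer_left (A ⊓ Q) _ hnorm] at hy5
    obtain ⟨a', ha', z', hz', rfl⟩ := Set.mem_mul.mp hy5
    have hcomm : a' * z' = z' * a' :=
      Subgroup.mem_centralizer_iff.mp hz' a' (Subgroup.mem_inf.mp ha').2
    refine Set.mem_mul.mpr ⟨z', hz', a' * a, A.mul_mem (Subgroup.mem_inf.mp ha').1 ha, ?_⟩
    rw [hcomm]; group
  have hge : Subgroup.centralizer (Q : Set P) ⊔ A ≤
      (Q ⊔ A) ⊓ Subgroup.centralizer ((Q ⊓ A : Subgroup P) : Set P) := by
    apply sup_le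
    · exact le_inf (le_trans hQc le_sup_left)
        (Subgroup.centralizer_le (SetLike.coe_subset_coe.mpr inf_le_left))
    · exact le_inf le_sup_right (le_trans (Subgroup.le_centralizer A)
        (Subgroup.centralizer_le (SetLike.coe_subset_coe.mpr inf_le_right)))
  have hsub : ((Subgroup.centralizer (Q : Set P) : Subgroup P) : Set P) * (A : Set P) ⊆
      ((Subgroup.centralizer (Q : Set P) ⊔ A : Subgroup P) : Set P) := by
    rintro _ ⟨z, hz, a, ha, rfl⟩
    exact Subgroup.mul_mem _ (Subgroup.mem_sup_left hz) (Subgroup.mem_sup_right ha)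
  have hset : (Q : Set P) ⊓ ((Subgroup.centralizer (Q : Set P) : Subgroup P) : Set P) =
      ((Subgroup.centralizer (Q : Set P) : Subgroup P) : Set P) :=
    inf_eq_right.mpr (SetLike.coe_subset_coe.mpr hQc)
  rw [hZ, hset]
  refine ⟨hcoe, hCL, ?_, ?_, ?_⟩
  · apply le_antisymm
    · intro x hx; exact hsub (key x hx)
    · exact hge
  · apply Set.Subset.antisymm
    · intro x hx; exact key x (hge hx)
    · exact hsub
  · have hT := Lib.helper15.centrallyLargeJoin_isCentrallyLarge P
    obtain ⟨hTcd, hTc⟩ := (Lib.helper15.isCentrallyLarge_iff _).mp hT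
    have hall : ∀ A' ∈ Cfsg.maxAbelianSubgroups P, A' ≤ Cfsg.centrallyLargeJoin P ∧
        Subgroup.centralizer ((Cfsg.centrallyLargeJoin P : Subgroup P) : Set P) ≤ A' := by
      intro A' hA'
      obtain ⟨hcd', hcen', -, -⟩ := Lib.helper15.cl_sup_maxAbelian hTcd hTc hA'
      have hCL' : Cfsg.IsCentrallyLarge (Cfsg.centrallyLargeJoin P ⊔ A') := by
        rw [Lib.helper15.isCentrallyLarge_iff]
        refine ⟨hcd', ?_⟩
        rw [hcen']; exact le_trans inf_le_left le_sup_right
      have hle : Cfsg.centrallyLargeJoin P ⊔ A' ≤ Cfsg.centrallyLargeJoin P := le_sSup hCL'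
      have hA'T : A' ≤ Cfsg.centrallyLargeJoin P := le_trans le_sup_right hle
      have hsupeq : Cfsg.centrallyLargeJoin P ⊔ A' = Cfsg.centrallyLargeJoin P :=
        sup_eq_left.mpr hA'T
      rw [hsupeq] at hcen'
      exact ⟨hA'T, le_trans (le_of_eq hcen') inf_le_left⟩
    have hJT : Cfsg.thompsonSubgroupA P ≤ Cfsg.centrallyLargeJoin P :=
      sSup_le (fun A' hA' => (hall A' hA').1)
    obtain ⟨A₀, hA₀⟩ := Lib.helper15.exists_maxAbelian P
    have h1 : Subgroup.centralizer ((Cfsg.centrallyLargeJoin P : Subgroup P) : Set P) ≤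
        Cfsg.thompsonSubgroupA P := le_trans (hall A₀ hA₀).2 (le_sSup hA₀)
    have h2 : Subgroup.centralizer ((Cfsg.centrallyLargeJoin P : Subgroup P) : Set P) ≤
        Subgroup.centralizer (Cfsg.thompsonSubgroupA P : Set P) :=
      Subgroup.centralizer_le (SetLike.coe_subset_coe.mpr hJT)
    have h3 := Subgroup.centralizer_le (SetLike.coe_subset_coe.mpr (le_inf h1 h2))
    rw [← hTcd.eq_centralizer_centralizer] at h3
    exact h3


end Cfsg.Agent.S3006
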