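import Cfsg.Statements.S3007
-- import your own Cfsg.Agent.* helpers here
import Cfsg.Agent.Lib.helper15.MCL

set_option autoImplicit false
open Cfsg

namespace Cfsg.Agent.S3007

/-- Let P be a finite p-group and Q, R minimal centrally large subgroups of P (centrally large: |Q|·|Z(Q)| maximal among subgroups of P; minimal among such under inclusion). Then Q = (Q ∩ R)·Z(Q), the derived subgroups [Q, Q] and [R, R] coincide, |Q| = |R| and |Z(Q)| = |Z(R)|; and if Q is abelian then the minimal centrally large subgroups of P are exactly the abelian subgroups of P of largest order. -/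
theorem result {p : ℕ} [Fact p.Prime] (P : Type*) [Group P] [Finite P] (hP : IsPGroup p P) (Q R : Subgroup P) (hQ : Cfsg.IsMinimalCentrallyLarge Q) (hR : Cfsg.IsMinimalCentrallyLarge R) : (Q ⊓ R) ⊔ (Q ⊓ Subgroup.centralizer (Q : Set P)) = Q ∧ ⁅Q, Q⁆ = ⁅R, R⁆ ∧ Nat.card ↥Q = Nat.card ↥R ∧ Nat.card ↥(Q ⊓ Subgroup.centralizer (Q : Set P)) = Nat.card ↥(R ⊓ Subgroup.centralizer (R : Set P)) ∧ (IsMulCommutative ↥Q → ∀ X : Subgroup P, Cfsg.IsMinimalCentrallyLarge X ↔ X ∈ Cfsg.maxAbelianSubgroups P) := by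
  obtain ⟨hQcd, hQc⟩ := (Lib.helper15.isCentrallyLarge_iff Q).mp hQ.1
  obtain ⟨hRcd, hRc⟩ := (Lib.helper15.isCentrallyLarge_iff R).mp hR.1
  have hZQ : Q ⊓ Subgroup.centralizer (Q : Set P) = Subgroup.centralizer (Q : Set P) :=
    inf_eq_right.mpr hQc
  have hZR : R ⊓ Subgroup.centralizer (R : Set P) = Subgroup.centralizer (R : Set P) :=
    inf_eq_right.mpr hRc
  rw [hZQ, hZR]
  refine ⟨Lib.helper15.mcl_inf_sup hQ hR.1, ?_, (Lib.helper15.mcl_card_eq hQ hR).1,
    (Lib.helper15.mcl_card_eq hQ hR).2, fun hab X => Lib.helper15.mcl_abelian_iff hQ hab X⟩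
  rw [Lib.helper15.mcl_commutator_eq hQ hR.1, Lib.helper15.mcl_commutator_eq hR hQ.1, inf_comm]


end Cfsg.Agent.S3007
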