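import Cfsg.Statements.S3012
-- import your own Cfsg.Agent.* helpers here

set_option autoImplicit false
open Cfsg

namespace Cfsg.Agent.S3012

theorem aux {G Q : Type*} [Group G] [Finite G] [Group Q] (π : G →* Q) (V : Subgroup G)
    (hV2 : ∀ a ∈ V, a ^ 2 = 1) (hS : Cfsg.IsSidkiPair V) (h v : G) (hv : v ∈ V)
    (hodd : Odd (orderOf (π h))) (hinv : π v * π h * (π v)⁻¹ = (π h)⁻¹) :
    ∃ w ∈ V, w ≠ 1 ∧ π w * π h = π h * π w := by
  have hv2 : v ^ 2 = 1 := hV2 v hv
  have hvv : v * v = 1 := by rw [← sq]; exact hv2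
  have hvinv : v⁻¹ = v := inv_eq_of_mul_eq_one_left hvv
  set y : G := h * v * h⁻¹ * v⁻¹ with hy
  have hyinv : v * y * v⁻¹ = y⁻¹ := by
    rw [hy, hvinv]
    have e1 : v * (h * v * h⁻¹ * v) * v = v * h * v * h⁻¹ * (v * v) := by group
    have e2 : (h * v * h⁻¹ * v)⁻¹ = v⁻¹ * h * v⁻¹ * h⁻¹ := by group
    rw [e1, e2, hvv, hvinv, mul_one]
  have hn : orderOf y ≠ 0 := (orderOf_pos y).ne'
  obtain ⟨a, b, hb, hab⟩ := Nat.exists_eq_two_pow_mul_odd hn
  set y' := y ^ (2 ^ a) with hy'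
  have hoy' : orderOf y' = b := by
    rw [hy', orderOf_pow' y (by positivity), hab, Nat.gcd_eq_right (dvd_mul_right _ _)]
    exact Nat.mul_div_cancel_left b (by positivity)
  have hy'inv : v * y' * v⁻¹ = y'⁻¹ := by
    rw [hy', ← conj_pow, hyinv, inv_pow]
  obtain ⟨w, hwV, hw1, hwc⟩ := hS y' v hv (hoy' ▸ hb) hy'inv
  refine ⟨w, hwV, hw1, ?_⟩
  have h1 : π v * ((π h)⁻¹ * (π v)⁻¹) = π h := by
    have := congrArg Inv.inv hinv
    simpa [mul_assoc] using this
  have hpy : π y = π h * π h := by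
    rw [hy, map_mul, map_mul, map_mul, map_inv, map_inv, mul_assoc, mul_assoc, h1]
  have hpy' : π y' = (π h) ^ (2 * 2 ^ a) := by
    rw [hy', map_pow, hpy, ← sq, ← pow_mul]
  have hcomm : Commute (π w) (π y') := by
    show π w * π y' = π y' * π w
    rw [← map_mul, hwc, map_mul]
  have hcop : Nat.Coprime (2 * 2 ^ a) (orderOf (π h)) := by
    rw [← pow_succ']
    exact Nat.Coprime.pow_left _ (Nat.coprime_two_left.mpr hodd)
  obtain ⟨m, hm⟩ := exists_pow_eq_self_of_coprime hcop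
  have : Commute (π w) (π h) := by
    rw [← hm, ← hpy']
    exact hcomm.pow_right m
  exact this

/-- Let G be a finite group, V a nontrivial elementary abelian 2-subgroup of G satisfying the Sidki pair condition (every odd-order element inverted by an element of V commutes with a nontrivial element of V), and K a normal subgroup of G with V ∩ K = 1. Then the image of V in G/K satisfies the Sidki pair condition in G/K. -/
theorem result {G : Type*} [Group G] [Finite G] (V K : Subgroup G) [K.Normal] (hV : Cfsg.IsElementaryAbelian 2 V) (hV1 : V ≠ ⊥) (hS : Cfsg.IsSidkiPair V) (hVK : V ⊓ K = ⊥) : Cfsg.IsSidkiPair (V.map (QuotientGroup.mk' K)) := by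
  intro hbar vbar hvbar hodd hinv
  obtain ⟨v, hvV, rfl⟩ := hvbar
  obtain ⟨h, rfl⟩ := QuotientGroup.mk_surjective hbar
  obtain ⟨w, hwV, hw1, hwc⟩ := aux (QuotientGroup.mk' K) V hV.2 hS h v hvV hodd hinv
  refine ⟨QuotientGroup.mk' K w, Subgroup.mem_map_of_mem _ hwV, ?_, hwc⟩
  intro h1
  apply hw1
  have hwK : w ∈ K := by
    rwa [QuotientGroup.mk'_apply, QuotientGroup.eq_one_iff] at h1
  have : w ∈ V ⊓ K := ⟨hwV, hwK⟩
  rw [hVK] at this
  exact Subgroup.mem_bot.mp this


end Cfsg.Agent.S3012
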