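import Cfsg.Statements.S3013
-- import your own Cfsg.Agent.* helpers here

set_option autoImplicit false
open Cfsg

namespace Cfsg.Agent.S3013

/-- Let G be a finite group and V a nontrivial elementary abelian 2-subgroup of G satisfying the Sidki pair condition. Let v ∈ V and let x be an element of odd order inverted by v, and put C = C_G(v) ∩ C_G(x), the centralizer of the dihedral subgroup generated by v and x. Then C ∩ V is nontrivial and satisfies the Sidki pair condition inside C: every odd-order element of C inverted by an element of C ∩ V commutes with a nontrivial element of C ∩ V. -/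
theorem result {G : Type*} [Group G] [Finite G] (V : Subgroup G) (hV : Cfsg.IsElementaryAbelian 2 V) (hV1 : V ≠ ⊥) (hS : Cfsg.IsSidkiPair V) (v x : G) (hv : v ∈ V) (hx : Odd (orderOf x)) (hinv : v * x * v⁻¹ = x⁻¹) (C : Subgroup G) (hC : C = Subgroup.centralizer ({v} : Set G) ⊓ Subgroup.centralizer ({x} : Set G)) : C ⊓ V ≠ ⊥ ∧ Cfsg.IsSidkiPair ((C ⊓ V).subgroupOf C) := by
  subst hC
  have hcomm : ∀ a ∈ V, ∀ b ∈ V, a * b = b * a := fun a ha b hb =>
    (isMulCommutative_iff_of_setLike.mp hV.1) a ha b hb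
  have hodd_pow : ∀ (z g : G), Odd (orderOf g) → Commute z (g ^ 2) → Commute z g := by
    intro z g hg hc
    have hcop : Nat.Coprime 2 (orderOf g) := Nat.coprime_two_left.mpr hg
    obtain ⟨m, hm⟩ := exists_pow_eq_self_of_coprime hcop
    rw [← hm]
    exact hc.pow_right m
  obtain ⟨w, hwV, hw1, hwx⟩ := hS x v hv hx hinv
  have hwC : w ∈ Subgroup.centralizer ({v} : Set G) ⊓ Subgroup.centralizer ({x} : Set G) := by
    refine Subgroup.mem_inf.mpr ⟨Subgroup.mem_centralizer_iff.mpr ?_, Subgroup.mem_centralizer_iff.mpr ?_⟩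
    · intro z hz
      rw [Set.mem_singleton_iff] at hz
      subst hz
      exact hcomm z hv w hwV
    · intro z hz
      rw [Set.mem_singleton_iff] at hz
      subst hz
      exact hwx.symm
  refine ⟨?_, ?_⟩
  · intro hbot
    have : w ∈ (Subgroup.centralizer ({v} : Set G) ⊓ Subgroup.centralizer ({x} : Set G)) ⊓ V :=
      Subgroup.mem_inf.mpr ⟨hwC, hwV⟩
    rw [hbot] at this
    exact hw1 (Subgroup.mem_bot.mp this)
  · intro h u hu hodd hinv2
    rw [Subgroup.mem_subgroupOf] at hu
    have huV : (u : G) ∈ V := (Subgroup.mem_inf.mp hu).2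
    have hhC := Subgroup.mem_inf.mp h.2
    have huC := Subgroup.mem_inf.mp u.2
    have hhv : Commute (h : G) v := by
      have := (Subgroup.mem_centralizer_iff.mp hhC.1) v (Set.mem_singleton v)
      exact this.symm
    have hhx : Commute (h : G) x := by
      have := (Subgroup.mem_centralizer_iff.mp hhC.2) x (Set.mem_singleton x)
      exact this.symm
    have hux : Commute (u : G) x := by
      have := (Subgroup.mem_centralizer_iff.mp huC.2) x (Set.mem_singleton x)
      exact this.symm
    have hoddG : Odd (orderOf (h : G)) := by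
      rw [Subgroup.orderOf_coe]; exact hodd
    have hinvG : (u : G) * (h : G) * (u : G)⁻¹ = (h : G)⁻¹ := by
      have := congrArg (Subtype.val) hinv2
      simpa using this
    have hvuV : v * (u : G) ∈ V := V.mul_mem hv huV
    have hoddhx : Odd (orderOf ((h : G) * x)) := by
      have hdvd := hhx.orderOf_mul_dvd_lcm
      exact Odd.of_dvd_nat (hoddG.mul hx) (hdvd.trans (Nat.lcm_dvd_mul _ _))
    have hinv3 : (v * (u : G)) * ((h : G) * x) * (v * (u : G))⁻¹ = ((h : G) * x)⁻¹ := by
      have e1 : (v * (u : G)) * ((h : G) * x) * (v * (u : G))⁻¹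
          = v * ((u : G) * (h : G) * (u : G)⁻¹) * ((u : G) * x * (u : G)⁻¹) * v⁻¹ := by group
      have e2 : (u : G) * x * (u : G)⁻¹ = x := by
        rw [hux.eq, mul_inv_cancel_right]
      have e3 : v * (h : G)⁻¹ * x * v⁻¹ = (v * (h : G)⁻¹ * v⁻¹) * (v * x * v⁻¹) := by group
      have e4 : v * (h : G)⁻¹ * v⁻¹ = (h : G)⁻¹ := by
        rw [(hhv.inv_left).symm.eq, mul_inv_cancel_right]
      rw [e1, hinvG, e2, e3, e4, hinv, mul_inv_rev, (hhx.inv_left.inv_right).eq]
    obtain ⟨w₂, hw₂V, hw₂1, hw₂c⟩ := hS ((h : G) * x) (v * (u : G)) hvuV hoddhx hinv3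
    have hw₂v : Commute w₂ v := hcomm w₂ hw₂V v hv
    have hc1 : Commute w₂ ((h : G) * x) := hw₂c
    have hc2 : Commute w₂ ((h : G) * x⁻¹) := by
      have e : (h : G) * x⁻¹ = v * ((h : G) * x) * v⁻¹ := by
        have : v * ((h : G) * x) * v⁻¹ = (v * (h : G) * v⁻¹) * (v * x * v⁻¹) := by group
        rw [this, hinv, hhv.symm.eq, mul_inv_cancel_right]
      rw [e]
      exact (hw₂v.mul_right hc1).mul_right hw₂v.inv_right
    have hc3 : Commute w₂ ((h : G) ^ 2) := by
      have e : (h : G) ^ 2 = ((h : G) * x) * ((h : G) * x⁻¹) := by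
        rw [sq, mul_assoc, ← mul_assoc x, hhx.symm.eq, mul_assoc, mul_inv_cancel, mul_one]
      rw [e]
      exact hc1.mul_right hc2
    have hc4 : Commute w₂ (x ^ 2) := by
      have e : x ^ 2 = ((h : G) * x⁻¹)⁻¹ * ((h : G) * x) := by
        rw [sq, mul_inv_rev, inv_inv, mul_assoc, inv_mul_cancel_left]
      rw [e]
      exact hc2.inv_right.mul_right hc1
    have hw₂h : Commute w₂ (h : G) := hodd_pow w₂ _ hoddG hc3
    have hw₂x : Commute w₂ x := hodd_pow w₂ _ hx hc4
    have hw₂C : w₂ ∈ Subgroup.centralizer ({v} : Set G) ⊓ Subgroup.centralizer ({x} : Set G) := by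
      refine Subgroup.mem_inf.mpr ⟨Subgroup.mem_centralizer_iff.mpr ?_, Subgroup.mem_centralizer_iff.mpr ?_⟩
      · intro z hz
        rw [Set.mem_singleton_iff] at hz
        subst hz
        exact hw₂v.symm.eq
      · intro z hz
        rw [Set.mem_singleton_iff] at hz
        subst hz
        exact hw₂x.symm.eq
    refine ⟨⟨w₂, hw₂C⟩, ?_, ?_, ?_⟩
    · rw [Subgroup.mem_subgroupOf]
      exact Subgroup.mem_inf.mpr ⟨hw₂C, hw₂V⟩
    · intro h1
      apply hw₂1
      exact congrArg Subtype.val h1
    · apply Subtype.ext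
      exact hw₂h.eq


end Cfsg.Agent.S3013
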