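import Cfsg.Statements.S3015
import Mathlib

-- import your own Cfsg.Agent.* helpers here

set_option autoImplicit false
open Cfsg

namespace Cfsg.Agent.S3015

set_option linter.unusedSectionVars false
set_option linter.unusedVariables false

section helpers

section transfer
variable {G : Type*} [Group G] {M : Subgroup G} {A : Type*} [CommGroup A]

/-- (copied from helper14's TransferEval) the transfer at `x ∈ M` equals `ϕ x` when all
conjugate-powers through elements outside `M` are killed. -/
theorem transfer_eq_of_forall_not_mem [M.FiniteIndex] (ϕ : M →* A) (x : G) (hx : x ∈ M)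
    (h : ∀ (t : G) (n : ℕ) (hm : t⁻¹ * x ^ n * t ∈ M), t ∉ M → ϕ ⟨t⁻¹ * x ^ n * t, hm⟩ = 1) :
    MonoidHom.transfer ϕ x = ϕ ⟨x, hx⟩ := by
  classical
  haveI : Fintype (Quotient (MulAction.orbitRel (Subgroup.zpowers x) (G ⧸ M))) :=
    Fintype.ofFinite _
  rw [MonoidHom.transfer_eq_prod_quotient_orbitRel_zpowers_quot]
  obtain ⟨q₀, hq₀⟩ : ∃ q₀ : Quotient (MulAction.orbitRel (Subgroup.zpowers x) (G ⧸ M)),
      q₀ = Quotient.mk'' (QuotientGroup.mk 1 : G ⧸ M) := ⟨_, rfl⟩
  have hfix : ∀ z ∈ Subgroup.zpowers x, z • (QuotientGroup.mk 1 : G ⧸ M) = QuotientGroup.mk 1 := by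
    intro z hz
    have hzM : z ∈ M := (Subgroup.zpowers_le.2 hx) hz
    show (QuotientGroup.mk (z * 1) : G ⧸ M) = QuotientGroup.mk 1
    rw [QuotientGroup.eq]
    simpa using hzM
  have hout : q₀.out = (QuotientGroup.mk 1 : G ⧸ M) := by
    have h1 : Quotient.mk'' q₀.out = (Quotient.mk'' (QuotientGroup.mk 1 : G ⧸ M) :
        Quotient (MulAction.orbitRel (Subgroup.zpowers x) (G ⧸ M))) := by
      rw [Quotient.out_eq', hq₀]
    have h2 := Quotient.exact' h1
    obtain ⟨z, hz⟩ := h2
    rw [← hz]
    exact hfix z z.2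
  have htM : q₀.out.out ∈ M := by
    have h1 : (QuotientGroup.mk q₀.out.out : G ⧸ M) = QuotientGroup.mk 1 := by
      rw [QuotientGroup.out_eq', hout]
    rw [QuotientGroup.eq] at h1
    simpa using h1
  have hper : Function.minimalPeriod (x • · : G ⧸ M → G ⧸ M) q₀.out = 1 := by
    rw [Function.minimalPeriod_eq_one_iff_isFixedPt, hout]
    exact hfix x (Subgroup.mem_zpowers x)
  rw [Finset.prod_eq_single q₀]
  · have key : ∀ (n : ℕ) (hm : q₀.out.out⁻¹ * x ^ n * q₀.out.out ∈ M), n = 1 →
        ϕ ⟨q₀.out.out⁻¹ * x ^ n * q₀.out.out, hm⟩ = ϕ ⟨x, hx⟩ := by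
      intro n hm hn
      subst hn
      have e : (⟨q₀.out.out⁻¹ * x ^ 1 * q₀.out.out, hm⟩ : M) =
          (⟨q₀.out.out, htM⟩ : M)⁻¹ * ⟨x, hx⟩ * ⟨q₀.out.out, htM⟩ := by
        apply Subtype.ext; simp
      rw [e, map_mul, map_mul, map_inv, mul_comm, mul_inv_cancel_left]
    exact key _ _ hper
  · intro q _ hq
    apply h
    intro htq
    apply hq
    have h1 : q.out = (QuotientGroup.mk 1 : G ⧸ M) := by
      rw [← QuotientGroup.out_eq' q.out, QuotientGroup.eq]
      simpa using htq
    rw [hq₀, ← h1, Quotient.out_eq']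
  · intro hq; exact absurd (Finset.mem_univ _) hq

end transfer

variable {G : Type*} [Group G]

/-- the conjugate subgroup `g S g⁻¹` -/
abbrev cj (S : Subgroup G) (g : G) : Subgroup G := S.map (MulAut.conj g).toMonoidHom

theorem mem_cj (S : Subgroup G) (g x : G) : x ∈ cj S g ↔ g⁻¹ * x * g ∈ S := by
  constructor
  · rintro ⟨h, hh, rfl⟩
    have : g⁻¹ * ((MulAut.conj g).toMonoidHom h) * g = h := by
      show g⁻¹ * (g * h * g⁻¹) * g = h
      group
    rw [this]; exact hh
  · intro h
    refine ⟨g⁻¹ * x * g, h, ?_⟩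
    show g * (g⁻¹ * x * g) * g⁻¹ = x
    group

theorem card_cj [Finite G] (S : Subgroup G) (g : G) : Nat.card (cj S g) = Nat.card S :=
  Subgroup.card_map_of_injective (MulAut.conj g).injective

theorem cj_eq_of_le [Finite G] (S : Subgroup G) (g : G) (h : cj S g ≤ S) : cj S g = S :=
  Subgroup.eq_of_le_of_card_ge h (card_cj S g).ge

theorem mem_normalizer_of_cj_eq (S : Subgroup G) (g : G) (h : cj S g = S) :
    g ∈ Subgroup.normalizer (S : Set G) := by
  rw [Subgroup.mem_normalizer_iff]
  intro x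
  constructor
  · intro hx
    have h1 : g * x * g⁻¹ ∈ cj S g := by
      rw [mem_cj]
      have e : g⁻¹ * (g * x * g⁻¹) * g = x := by group
      rw [e]; exact hx
    rwa [h] at h1
  · intro hx
    rw [← h, mem_cj] at hx
    have e : g⁻¹ * (g * x * g⁻¹) * g = x := by group
    rwa [e] at hx

theorem cj_cj_inv (S : Subgroup G) (g : G) : cj (cj S g) g⁻¹ = S := by
  ext x
  rw [mem_cj, mem_cj]
  have e : g⁻¹ * (g⁻¹⁻¹ * x * g⁻¹) * g = x := by group
  rw [e]

theorem cj_mono {S T : Subgroup G} (h : S ≤ T) (g : G) : cj S g ≤ cj T g := Subgroup.map_mono h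

theorem lemT [Finite G] [IsSimpleGroup G] (hG : ¬ IsMulCommutative G) (M H : Subgroup G)
    (hHM : H ≤ M) (hHn : (H.subgroupOf M).Normal) (hidx : (H.relIndex M).Prime)
    (hT : ∀ g : G, g ∉ M → M ⊓ cj M g ≤ H) : False := by
  classical
  haveI := hHn
  haveI : Fact (H.relIndex M).Prime := ⟨hidx⟩
  have hcard : Nat.card (↥M ⧸ H.subgroupOf M) = H.relIndex M := rfl
  haveI : IsCyclic (↥M ⧸ H.subgroupOf M) := isCyclic_of_prime_card hcard
  letI : CommGroup (↥M ⧸ H.subgroupOf M) := IsCyclic.commGroup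
  let ϕ : ↥M →* (↥M ⧸ H.subgroupOf M) := QuotientGroup.mk' (H.subgroupOf M)
  have hne : ¬ M ≤ H := by
    intro h
    have h1 := (Subgroup.relIndex_eq_one).2 h
    rw [h1] at hidx
    exact Nat.not_prime_one hidx
  obtain ⟨x, hxM, hxH⟩ := SetLike.not_le_iff_exists.1 hne
  have hV : MonoidHom.transfer ϕ x = ϕ ⟨x, hxM⟩ := by
    apply transfer_eq_of_forall_not_mem ϕ x hxM
    intro t n hm ht
    have hz : t⁻¹ * x ^ n * t ∈ cj M t⁻¹ := by
      rw [mem_cj]
      have e : t⁻¹⁻¹ * (t⁻¹ * x ^ n * t) * t⁻¹ = x ^ n := by group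
      rw [e]; exact M.pow_mem hxM n
    have ht' : t⁻¹ ∉ M := fun h => ht (by simpa using M.inv_mem h)
    have hzH : t⁻¹ * x ^ n * t ∈ H := hT t⁻¹ ht' ⟨hm, hz⟩
    show (QuotientGroup.mk' (H.subgroupOf M)) ⟨t⁻¹ * x ^ n * t, hm⟩ = 1
    rw [QuotientGroup.mk'_apply, QuotientGroup.eq_one_iff]
    exact hzH
  have hVx : MonoidHom.transfer ϕ x ≠ 1 := by
    rw [hV]
    intro h
    apply hxH
    have h' : (QuotientGroup.mk' (H.subgroupOf M)) ⟨x, hxM⟩ = 1 := h
    rw [QuotientGroup.mk'_apply, QuotientGroup.eq_one_iff] at h'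
    exact h'
  have hker : (MonoidHom.transfer ϕ).ker = ⊥ := by
    rcases (MonoidHom.normal_ker (MonoidHom.transfer ϕ)).eq_bot_or_eq_top with h | h
    · exact h
    · exfalso
      apply hVx
      have h1 : x ∈ (MonoidHom.transfer ϕ).ker := by rw [h]; exact Subgroup.mem_top x
      exact h1
  have hinj : Function.Injective (MonoidHom.transfer ϕ) := (MonoidHom.ker_eq_bot_iff _).1 hker
  apply hG
  refine ⟨⟨fun a b => ?_⟩⟩
  apply hinj
  rw [map_mul, map_mul, mul_comm]

theorem main [Finite G] [IsSimpleGroup G] (hG : ¬ IsMulCommutative G) (M H : Subgroup G)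
    (hmaxM : IsCoatom M) (hHM : H ≤ M) (hHn : (H.subgroupOf M).Normal)
    (hidx : (H.relIndex M).Prime) : ∃ g : G, H ⊔ cj H g = ⊤ := by
  classical
  have hmax : ∀ L : Subgroup G, H ≤ L → L ≤ M → L = H ∨ L = M := by
    intro L hHL hLM
    have h1 := Subgroup.relIndex_mul_relIndex H L M hHL hLM
    rcases (Nat.Prime.eq_one_or_self_of_dvd hidx (H.relIndex L) (Dvd.intro _ h1)) with h | h
    · left; exact le_antisymm (Subgroup.relIndex_eq_one.1 h) hHL
    · right
      rw [h] at h1
      have hpos : 0 < H.relIndex M := hidx.pos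
      have h2 : L.relIndex M = 1 := by
        have h3 : H.relIndex M * L.relIndex M = H.relIndex M * 1 := by rw [h1, mul_one]
        exact Nat.eq_of_mul_eq_mul_left hpos h3
      exact le_antisymm hLM (Subgroup.relIndex_eq_one.1 h2)
  have hMne : M ≠ ⊤ := hmaxM.1
  have hHneM : ¬ M ≤ H := by
    intro h
    have h1 := (Subgroup.relIndex_eq_one).2 h
    rw [h1] at hidx
    exact Nat.not_prime_one hidx
  have hMnn : ¬ M.Normal := by
    intro hn
    rcases hn.eq_bot_or_eq_top with h | h
    · apply hHneM; rw [h]; exact bot_le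
    · exact hMne h
  have hLN : M ≤ Subgroup.normalizer (H : Set G) :=
    (Subgroup.normal_subgroupOf_iff_le_normalizer hHM).1 hHn
  have hconjH : ∀ m ∈ M, ∀ h ∈ H, m * h * m⁻¹ ∈ H :=
    fun m hm h hh => ((Subgroup.mem_normalizer_iff).1 (hLN hm) h).1 hh
  have hconjHg : ∀ (g : G), ∀ a ∈ cj M g, ∀ h ∈ cj H g, a * h * a⁻¹ ∈ cj H g := by
    intro g a ha h hh
    rw [mem_cj] at ha hh ⊢
    have h1 := hconjH _ ha _ hh
    have e : g⁻¹ * (a * h * a⁻¹) * g = g⁻¹ * a * g * (g⁻¹ * h * g) * (g⁻¹ * a * g)⁻¹ := by group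
    rw [e]; exact h1
  have hNM : ∀ g : G, cj M g ≤ M → g ∈ M := by
    intro g hg
    by_contra hgM
    have h1 := mem_normalizer_of_cj_eq M g (cj_eq_of_le M g hg)
    have h2 : M < Subgroup.normalizer (M : Set G) :=
      lt_of_le_of_ne Subgroup.le_normalizer (fun h => hgM (by rw [h]; exact h1))
    have h3 := hmaxM.2 _ h2
    exact hMnn (Subgroup.normalizer_eq_top_iff.1 h3)
  have hK : ∀ g : G, ¬ (M ⊓ cj M g ≤ H) → ¬ (cj H g ≤ M) → H ⊔ cj H g = ⊤ := by
    intro g hD hHg
    have hDnorm : ∀ d ∈ M ⊓ cj M g, ∀ x ∈ H ⊔ cj H g, d * x * d⁻¹ ∈ H ⊔ cj H g := by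
      intro d hd x hx
      have h1 : cj (H ⊔ cj H g) d ≤ H ⊔ cj H g := by
        show (H ⊔ cj H g).map (MulAut.conj d).toMonoidHom ≤ H ⊔ cj H g
        rw [Subgroup.map_sup]
        apply sup_le_sup
        · intro y hy
          have hy' : y ∈ cj H d := hy
          rw [mem_cj] at hy'
          have h2 := hconjH d hd.1 _ hy'
          have e : d * (d⁻¹ * y * d) * d⁻¹ = y := by group
          rwa [e] at h2
        · intro y hy
          have hy' : y ∈ cj (cj H g) d := hy
          rw [mem_cj] at hy'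
          have h2 := hconjHg g d hd.2 _ hy'
          have e : d * (d⁻¹ * y * d) * d⁻¹ = y := by group
          rwa [e] at h2
      apply h1
      rw [mem_cj]
      have e : d⁻¹ * (d * x * d⁻¹) * d = x := by group
      rw [e]; exact hx
    have hDle : M ⊓ cj M g ≤ Subgroup.normalizer ((H ⊔ cj H g : Subgroup G) : Set G) := by
      intro d hd
      rw [Subgroup.mem_normalizer_iff]
      intro x
      constructor
      · exact hDnorm d hd x
      · intro hx
        have h2 := hDnorm d⁻¹ (Subgroup.inv_mem _ hd) _ hx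
        have e : d⁻¹ * (d * x * d⁻¹) * d⁻¹⁻¹ = x := by group
        rwa [e] at h2
    have hHD : H ⊔ (M ⊓ cj M g) = M := by
      rcases hmax (H ⊔ (M ⊓ cj M g)) le_sup_left (sup_le hHM inf_le_left) with h | h
      · exfalso; apply hD; rw [← h]; exact le_sup_right
      · exact h
    have hMle : M ≤ Subgroup.normalizer ((H ⊔ cj H g : Subgroup G) : Set G) := by
      intro m hm
      rw [← hHD] at hm
      exact (sup_le (le_trans le_sup_left Subgroup.le_normalizer) hDle) hm
    have hMHg : M ⊔ cj H g = ⊤ := by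
      apply hmaxM.2
      apply lt_of_le_of_ne le_sup_left
      intro h
      apply hHg
      rw [h]
      exact le_sup_right
    have hNtop : Subgroup.normalizer ((H ⊔ cj H g : Subgroup G) : Set G) = ⊤ := by
      rw [eq_top_iff, ← hMHg]
      exact sup_le hMle (le_trans le_sup_right Subgroup.le_normalizer)
    have hKn : (H ⊔ cj H g).Normal := Subgroup.normalizer_eq_top_iff.1 hNtop
    rcases hKn.eq_bot_or_eq_top with h | h
    · exfalso
      apply hHg
      have h1 : cj H g ≤ H ⊔ cj H g := le_sup_right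
      rw [h] at h1
      exact le_trans h1 bot_le
    · exact h
  by_contra hno
  push Not at hno
  have hdich : ∀ g : G, M ⊓ cj M g ≤ H ∨ cj H g ≤ M := by
    intro g
    by_contra h
    push Not at h
    exact hno g (hK g h.1 h.2)
  have hmaxg : ∀ (g : G) (L : Subgroup G), cj H g ≤ L → L ≤ cj M g → L = cj H g ∨ L = cj M g := by
    intro g L h1 h2
    have h3 : H ≤ cj L g⁻¹ := by
      have h4 := cj_mono h1 g⁻¹
      rwa [cj_cj_inv] at h4
    have h5 : cj L g⁻¹ ≤ M := by
      have h4 := cj_mono h2 g⁻¹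
      rwa [cj_cj_inv] at h4
    have h6 : cj (cj L g⁻¹) g = L := by
      have h7 := cj_cj_inv L g⁻¹
      rwa [inv_inv] at h7
    rcases hmax _ h3 h5 with h | h
    · left; rw [← h6, h]
    · right; rw [← h6, h]
  by_cases hHbot : H = ⊥
  · apply lemT hG M H hHM hHn hidx
    intro g hg
    rcases hmax (M ⊓ cj M g) (by rw [hHbot]; exact bot_le) inf_le_left with h | h
    · exact h.le
    · exfalso
      apply hg
      apply hNM
      have h1 : M ≤ cj M g := by
        intro m hm
        rw [← h] at hm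
        exact hm.2
      have h2 : M = cj M g := Subgroup.eq_of_le_of_card_ge h1 (card_cj M g).le
      rw [← h2]
  · have hNH : ∀ g : G, cj H g = H → g ∈ M := by
      intro g hg
      by_contra hgM
      have h1 := mem_normalizer_of_cj_eq H g hg
      have h2 : M < Subgroup.normalizer (H : Set G) :=
        lt_of_le_of_ne hLN (fun h => hgM (by rw [h]; exact h1))
      have h3 := hmaxM.2 _ h2
      have h4 : H.Normal := Subgroup.normalizer_eq_top_iff.1 h3
      rcases h4.eq_bot_or_eq_top with h | h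
      · exact hHbot h
      · apply hMne; rw [eq_top_iff, ← h]; exact hHM
    apply lemT hG M H hHM hHn hidx
    intro g hg
    rcases hdich g with h | h
    · exact h
    · exfalso
      have hH'M' : cj H g ≤ cj M g := cj_mono hHM g
      have hMM' : M ⊓ cj M g = cj H g := by
        rcases hmaxg g (M ⊓ cj M g) (le_inf h hH'M') inf_le_right with h1 | h1
        · exact h1
        · exfalso; apply hg; apply hNM
          intro m hm
          rw [← h1] at hm
          exact hm.1
      have hne' : ¬ cj M g ≤ cj H g := by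
        intro hle
        apply hHneM
        have h1 := cj_mono hle g⁻¹
        rwa [cj_cj_inv, cj_cj_inv] at h1
      obtain ⟨y, hyM', hyH'⟩ := SetLike.not_le_iff_exists.1 hne'
      have hyM : y ∉ M := by
        intro hy
        apply hyH'
        rw [← hMM']
        exact ⟨hy, hyM'⟩
      have hH'My : cj H g ≤ cj M y := by
        intro z hz
        rw [mem_cj]
        have h1 := hconjHg g y⁻¹ (Subgroup.inv_mem _ hyM') z hz
        rw [inv_inv] at h1
        exact h h1
      rcases hdich y with h5 | h5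
      · apply hg
        apply hNH
        exact Subgroup.eq_of_le_of_card_ge (le_trans (le_inf h hH'My) h5) (card_cj H g).ge
      · have hHyMy : cj H y ≤ cj M y := cj_mono hHM y
        have hMMy : M ⊓ cj M y = cj H y := by
          rcases hmaxg y (M ⊓ cj M y) (le_inf h5 hHyMy) inf_le_right with h1 | h1
          · exact h1
          · exfalso; apply hyM; apply hNM
            intro m hm
            rw [← h1] at hm
            exact hm.1
        have hH'Hy : cj H g = cj H y := by
          apply Subgroup.eq_of_le_of_card_ge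
          · rw [← hMMy]; exact le_inf h hH'My
          · rw [card_cj, card_cj]
        have h6 : cj H (y⁻¹ * g) = H := by
          ext z
          rw [mem_cj]
          have e1 : (y⁻¹ * g)⁻¹ * z * (y⁻¹ * g) = g⁻¹ * (y * z * y⁻¹) * g := by group
          rw [e1, ← mem_cj, hH'Hy, mem_cj]
          have e2 : y⁻¹ * (y * z * y⁻¹) * y = z := by group
          rw [e2]
        have h7 := hNH _ h6
        apply hyM
        rw [mem_cj] at hyM'
        have e : y = (y⁻¹ * g) * (g⁻¹ * y * g) * (y⁻¹ * g)⁻¹ := by group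
        rw [e]
        exact M.mul_mem (M.mul_mem h7 hyM') (M.inv_mem h7)

end helpers

/-- Let G be a finite non-abelian simple group, M a maximal subgroup of G and H a normal subgroup of M of prime index in M. Then G is generated by H together with one of its conjugates. -/
theorem result {G : Type*} [Group G] [Finite G] [IsSimpleGroup G] (hG : ¬ IsMulCommutative G) (M H : Subgroup G) (hmaxM : IsCoatom M) (hHM : H ≤ M) (hHn : (H.subgroupOf M).Normal) (hidx : (H.relIndex M).Prime) : ∃ g : G, H ⊔ H.map (MulAut.conj g).toMonoidHom = ⊤ := by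
  exact main hG M H hmaxM hHM hHn hidx

end Cfsg.Agent.S3015
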