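import Cfsg.Statements.S3021
-- import your own Cfsg.Agent.* helpers here
import Mathlib.GroupTheory.Nilpotent

set_option autoImplicit false
open Cfsg

namespace Cfsg.Agent.S3021

/-- Let G be a finite group, p a prime and H a p-subgroup of G that is extremely closed (for every g, the subgroup generated by H and g H g⁻¹ meets N_G(H) exactly in H). Then every p-subgroup Q of G containing H has N_G(Q) ≤ N_G(H); in particular every Sylow p-subgroup P of G containing H normalizes H, and H is strongly closed in P with respect to G. -/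
theorem result {G : Type*} [Group G] [Finite G] {p : ℕ} [Fact p.Prime] (H : Subgroup G) (hHp : IsPGroup p H) (hcl : Cfsg.IsExtremelyClosed H) : (∀ Q : Subgroup G, IsPGroup p Q → H ≤ Q → Subgroup.normalizer (Q : Set G) ≤ Subgroup.normalizer (H : Set G)) ∧ ∀ P : Sylow p G, H ≤ (P : Subgroup G) → (P : Subgroup G) ≤ Subgroup.normalizer (H : Set G) ∧ Cfsg.IsStronglyClosed H (P : Subgroup G) := by
  classical
  have hA : ∀ g : G, H.map (MulAut.conj g).toMonoidHom ≤ Subgroup.normalizer (H : Set G) →
      H.map (MulAut.conj g).toMonoidHom = H := by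
    intro g hg
    have h1 : H ⊔ H.map (MulAut.conj g).toMonoidHom ≤ Subgroup.normalizer (H : Set G) :=
      sup_le Subgroup.le_normalizer hg
    have h2 := hcl g
    rw [inf_eq_left.mpr h1] at h2
    have h3 : H.map (MulAut.conj g).toMonoidHom ≤ H := le_sup_right.trans h2.le
    refine Subgroup.eq_of_le_of_card_ge h3 ?_
    rw [Subgroup.card_map_of_injective (MulAut.conj g).injective]
  have hAmem : ∀ g : G, H.map (MulAut.conj g).toMonoidHom ≤ Subgroup.normalizer (H : Set G) →
      g ∈ Subgroup.normalizer (H : Set G) := by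
    intro g hg
    have := hA g hg
    rw [Subgroup.mem_normalizer_iff_map_conj_eq]
    exact this
  have hB : ∀ Q : Subgroup G, IsPGroup p Q → H ≤ Q → Q ≤ Subgroup.normalizer (H : Set G) := by
    intro Q hQ hHQ
    by_contra hcon
    set N : Subgroup G := Q ⊓ Subgroup.normalizer (H : Set G) with hN
    have hNQ : N ≤ Q := inf_le_left
    have hNlt : N.subgroupOf Q < ⊤ := by
      rw [lt_top_iff_ne_top, Ne, Subgroup.subgroupOf_eq_top]
      intro hle
      exact hcon (le_trans hle inf_le_right)
    have hnil : Group.IsNilpotent Q := hQ.isNilpotent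
    have hnc := Group.normalizerCondition_of_isNilpotent (G := Q) (N.subgroupOf Q) hNlt
    obtain ⟨q, hq1, hq2⟩ := SetLike.exists_of_lt hnc
    rw [← Subgroup.subgroupOf_normalizer_eq hNQ, Subgroup.mem_subgroupOf] at hq1
    rw [Subgroup.mem_subgroupOf] at hq2
    have hHN : H ≤ N := le_inf hHQ Subgroup.le_normalizer
    have h4 : H.map (MulAut.conj (q : G)).toMonoidHom ≤ N := by
      have h5 := Subgroup.map_mono (f := (MulAut.conj (q : G)).toMonoidHom) hHN
      have e : N.map (MulAut.conj (q : G)).toMonoidHom = N :=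
        Subgroup.mem_normalizer_iff_map_conj_eq.mp hq1
      rwa [e] at h5
    have h6 := hAmem (q : G) (h4.trans inf_le_right)
    exact hq2 (Subgroup.mem_inf.mpr ⟨q.2, h6⟩)
  refine ⟨?_, ?_⟩
  · intro Q hQ hHQ n hn
    apply hAmem
    have e : Q.map (MulAut.conj n).toMonoidHom = Q := Subgroup.mem_normalizer_iff_map_conj_eq.mp hn
    calc H.map (MulAut.conj n).toMonoidHom ≤ Q.map (MulAut.conj n).toMonoidHom := Subgroup.map_mono hHQ
      _ = Q := e
      _ ≤ _ := hB Q hQ hHQ
  · intro P hHP
    have hPN := hB P P.isPGroup' hHP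
    refine ⟨hPN, hHP, ?_⟩
    intro x hx g hgx
    have h1 : g * x * g⁻¹ ∈ H.map (MulAut.conj g).toMonoidHom := Subgroup.mem_map.mpr ⟨x, hx, rfl⟩
    have h2 : g * x * g⁻¹ ∈ (H ⊔ H.map (MulAut.conj g).toMonoidHom) ⊓ Subgroup.normalizer (H : Set G) :=
      Subgroup.mem_inf.mpr ⟨(le_sup_right : _ ≤ H ⊔ _) h1, hPN hgx⟩
    rw [hcl g] at h2
    exact h2


end Cfsg.Agent.S3021
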