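import Cfsg.Statements.S3020
-- import your own Cfsg.Agent.* helpers here
import Mathlib
import Cfsg.Agent.S3021
import Cfsg.Agent.Lib.helper9.PPrimeCore
import Cfsg.Agent.Lib.helper14.Basic
import Cfsg.Agent.Lib.helper15.CD

set_option autoImplicit false
open Cfsg

namespace Cfsg.Agent.S3020

theorem aux {G : Type*} [Group G] [Finite G] {p : ℕ} [Fact p.Prime] (H T : Subgroup G)
    (hHp : IsPGroup p H) (hHab : IsMulCommutative H) (hHT : H ≤ T)
    (hTN : T ⊓ Subgroup.normalizer (H : Set G) = H)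
    (hmax : ∀ Q : Subgroup G, IsPGroup p Q → H ≤ Q → Q ≤ T → Q ≤ H) :
    H ⊔ (Cfsg.pPrimeCore p ↥T).map T.subtype = T ∧
      H ⊓ (Cfsg.pPrimeCore p ↥T).map T.subtype = ⊥ := by
  classical
  let S : Sylow p ↥T :=
    { toSubgroup := H.subgroupOf T
      isPGroup' := hHp.comap_subtype
      is_maximal' := by
        intro Q hQ hle
        apply le_antisymm _ hle
        intro x hx
        rw [Subgroup.mem_subgroupOf]
        have hQ' : IsPGroup p (Q.map T.subtype) := hQ.map _
        have h1 : H ≤ Q.map T.subtype := by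
          intro h hh
          exact ⟨⟨h, hHT hh⟩, hle (Subgroup.mem_subgroupOf.mpr hh), rfl⟩
        exact hmax _ hQ' h1 (Subgroup.map_subtype_le _) ⟨x, hx, rfl⟩ }
  have hSmem : ∀ y : ↥T, y ∈ (S : Subgroup ↥T) ↔ (y : G) ∈ H :=
    fun y => Subgroup.mem_subgroupOf
  have hNC : Subgroup.normalizer ((S : Subgroup ↥T) : Set ↥T) ≤
      Subgroup.centralizer ((S : Subgroup ↥T) : Set ↥T) := by
    intro n hn
    have hnG : (n : G) ∈ Subgroup.normalizer (H : Set G) := by
      apply Cfsg.Agent.Lib.helper15.mem_normalizer_of_conj_le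
      intro h hh
      have h1 : (⟨h, hHT hh⟩ : ↥T) ∈ (S : Subgroup ↥T) := (hSmem _).mpr hh
      have h2 := (Subgroup.mem_normalizer_iff.mp hn _).mp h1
      exact (hSmem _).mp h2
    have hnH : (n : G) ∈ H := by
      have : (n : G) ∈ T ⊓ Subgroup.normalizer (H : Set G) := Subgroup.mem_inf.mpr ⟨n.2, hnG⟩
      rw [hTN] at this
      exact this
    rw [Subgroup.mem_centralizer_iff]
    intro y hy
    have hy' : (y : G) ∈ H := (hSmem y).mp hy
    apply Subtype.ext
    simp only [Subgroup.coe_mul]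
    exact setLike_mul_comm hy' hnH
  have hcompl := MonoidHom.ker_transferSylow_isComplement' S hNC
  have hKO : (MonoidHom.transferSylow S hNC).ker ≤ Cfsg.pPrimeCore p ↥T := by
    apply le_sSup
    refine ⟨MonoidHom.normal_ker _, ?_⟩
    exact Nat.Coprime.symm ((Nat.Prime.coprime_iff_not_dvd Fact.out).mpr
      (MonoidHom.not_dvd_card_ker_transferSylow S hNC))
  constructor
  · apply le_antisymm
    · exact sup_le hHT (Subgroup.map_subtype_le _)
    · have h1 : (MonoidHom.transferSylow S hNC).ker ⊔ (S : Subgroup ↥T) = ⊤ := hcompl.sup_eq_top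
      intro t ht
      have h2 : (⟨t, ht⟩ : ↥T) ∈ (MonoidHom.transferSylow S hNC).ker ⊔ (S : Subgroup ↥T) := by
        rw [h1]; trivial
      have h3 : (MonoidHom.transferSylow S hNC).ker ⊔ (S : Subgroup ↥T) ≤
          (H ⊔ (Cfsg.pPrimeCore p ↥T).map T.subtype).subgroupOf T := by
        apply sup_le
        · intro k hk
          rw [Subgroup.mem_subgroupOf]
          exact Subgroup.mem_sup_right ⟨k, hKO hk, rfl⟩
        · intro s hs
          rw [Subgroup.mem_subgroupOf]
          exact Subgroup.mem_sup_left ((hSmem s).mp hs)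
      exact Subgroup.mem_subgroupOf.mp (h3 h2)
  · have hO := Cfsg.Agent.Lib.helper9.pPrimeCore_coprime p ↥T
    rw [eq_bot_iff]
    intro x hx
    obtain ⟨hxH, hxO⟩ := Subgroup.mem_inf.mp hx
    obtain ⟨y, hy, rfl⟩ := hxO
    rw [Subgroup.mem_bot]
    obtain ⟨k, hk⟩ := hHp ⟨_, hxH⟩
    have hk' : (T.subtype y) ^ p ^ k = 1 := by
      simpa using congrArg Subtype.val hk
    apply Cfsg.Agent.Lib.helper14.eq_one_of_coprime_of_pow _ ⟨k, hk'⟩
    have h1 : orderOf (T.subtype y) = orderOf y := Subgroup.orderOf_coe y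
    rw [h1]
    have h2 : orderOf y ∣ Nat.card ↥(Cfsg.pPrimeCore p ↥T) := by
      have := orderOf_dvd_natCard (⟨y, hy⟩ : ↥(Cfsg.pPrimeCore p ↥T))
      rwa [Subgroup.orderOf_mk] at this
    exact Nat.Coprime.coprime_dvd_left h2 hO

/-- Let G be a finite group, p a prime and H an abelian p-subgroup of G that is extremely closed (for every g, the subgroup generated by H and g H g⁻¹ meets N_G(H) exactly in H). Then for every g ∈ G, the subgroup T generated by H and g H g⁻¹ is the product of H with O_{p'}(T), and H meets O_{p'}(T) trivially; that is, O_{p'}(T) is a normal p-complement of H in T. -/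
theorem result {G : Type*} [Group G] [Finite G] {p : ℕ} [Fact p.Prime] (H : Subgroup G) (hHp : IsPGroup p H) (hHab : IsMulCommutative H) (hcl : Cfsg.IsExtremelyClosed H) (g : G) (T : Subgroup G) (hT : T = H ⊔ H.map (MulAut.conj g).toMonoidHom) : H ⊔ (Cfsg.pPrimeCore p ↥T).map T.subtype = T ∧ H ⊓ (Cfsg.pPrimeCore p ↥T).map T.subtype = ⊥ := by
  subst hT
  have hTN : (H ⊔ H.map (MulAut.conj g).toMonoidHom) ⊓ Subgroup.normalizer (H : Set G) = H := hcl g
  refine aux H _ hHp hHab le_sup_left hTN ?_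
  intro Q hQ hHQ hQT
  obtain ⟨P, hP⟩ := hQ.exists_le_sylow
  have h1 := ((Cfsg.Agent.S3021.result H hHp hcl).2 P (hHQ.trans hP)).1
  have h2 : Q ≤ (H ⊔ H.map (MulAut.conj g).toMonoidHom) ⊓ Subgroup.normalizer (H : Set G) :=
    le_inf hQT (hP.trans h1)
  rw [hTN] at h2
  exact h2


end Cfsg.Agent.S3020
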