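import Cfsg.Statements.S3025
import Mathlib
import Cfsg.Agent.S0016

set_option autoImplicit false
open Cfsg

namespace Cfsg.Agent.S3025


theorem mem_normalizer_of_forall {F : Type*} [Group F] (K : Subgroup F) (g : F)
    (h1 : ∀ r ∈ K, g * r * g⁻¹ ∈ K) (h2 : ∀ r ∈ K, g⁻¹ * r * g ∈ K) :
    g ∈ Subgroup.normalizer (K : Set F) := by
  rw [Subgroup.mem_normalizer_iff]
  intro r
  constructor
  · exact h1 r
  · intro hr
    have := h2 _ hr
    have e : g⁻¹ * (g * r * g⁻¹) * g = r := by group
    rwa [e] at this

/-- a finite group, with a nontrivial subgroup `N` of prime order `p` in the centre of `C`, such that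
every nontrivial subgroup of `C` contains `N`: then `C` is a `p`-group with a unique subgroup
of order `p`. -/
theorem pgroup_of_sub {F : Type*} [Group F] [Finite F] (N C : Subgroup F) (p : ℕ) [hp : Fact p.Prime]
    (hNp : Nat.card ↥N = p) (hNC : N ≤ C)
    (hsub : ∀ R : Subgroup F, R ≤ C → R ≠ ⊥ → N ≤ R) :
    (∃ k : ℕ, 1 ≤ k ∧ Nat.card ↥C = p ^ k) ∧
    (∀ A B : Subgroup ↥C, Nat.card A = p → Nat.card B = p → A = B) := by
  have hprime : p.Prime := hp.out
  constructor
  · have hall : ∀ {d : ℕ}, d.Prime → d ∣ Nat.card ↥C → d = p := by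
      intro d hd hdvd
      haveI : Fact d.Prime := ⟨hd⟩
      obtain ⟨c, hc⟩ := exists_prime_orderOf_dvd_card' d hdvd
      have hc' : orderOf (c : F) = d := by rw [Subgroup.orderOf_coe, hc]
      have hR : Subgroup.zpowers (c : F) ≤ C := by
        rw [Subgroup.zpowers_le]; exact c.2
      have hRb : Subgroup.zpowers (c : F) ≠ ⊥ := by
        intro h
        rw [Subgroup.zpowers_eq_bot] at h
        rw [h, orderOf_one] at hc'
        exact hd.one_lt.ne hc'
      have hle := hsub _ hR hRb
      have hdvd2 : Nat.card ↥N ∣ Nat.card ↥(Subgroup.zpowers (c : F)) := Subgroup.card_dvd_of_le hle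
      rw [hNp, Nat.card_zpowers, hc'] at hdvd2
      exact ((Nat.prime_dvd_prime_iff_eq hprime hd).1 hdvd2).symm
    have hpos : Nat.card ↥C ≠ 0 := Nat.card_pos.ne'
    have hk := Nat.eq_prime_pow_of_unique_prime_dvd hpos hall
    refine ⟨_, ?_, hk⟩
    by_contra hlt
    have h0 : (Nat.card ↥C).primeFactorsList.length = 0 := by omega
    rw [h0, pow_zero] at hk
    have hdvd : Nat.card ↥N ∣ Nat.card ↥C := Subgroup.card_dvd_of_le hNC
    rw [hNp, hk] at hdvd
    exact hprime.one_lt.ne' (Nat.dvd_one.1 hdvd)
  · have key : ∀ A : Subgroup ↥C, Nat.card A = p → A.map C.subtype = N := by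
      intro A hA
      have hcard : Nat.card ↥(A.map C.subtype) = p := by
        rw [← hA]
        exact (Nat.card_congr (A.equivMapOfInjective C.subtype C.subtype_injective).toEquiv).symm
      have hne : A.map C.subtype ≠ ⊥ := by
        intro h
        rw [h, Subgroup.card_bot] at hcard
        exact hprime.one_lt.ne hcard
      have hle : N ≤ A.map C.subtype := hsub _ (Subgroup.map_subtype_le A) hne
      exact (Subgroup.eq_of_le_of_card_ge hle (by rw [hcard, hNp])).symm
    intro A B hA hB
    exact Subgroup.map_injective C.subtype_injective ((key A hA).trans (key B hB).symm)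

/-- the conjugation action on a normal subgroup of prime order: the quotient by the centralizer
is cyclic of order dividing `p - 1`. -/
theorem quot_cyclic {F : Type*} [Group F] [Finite F] (N : Subgroup F) [hN : N.Normal] (p : ℕ)
    [hp : Fact p.Prime] (hNp : Nat.card ↥N = p) :
    (∃ g : F, Subgroup.centralizer (N : Set F) ⊔ Subgroup.zpowers g = ⊤) ∧
      (Subgroup.centralizer (N : Set F)).index ∣ p - 1 := by
  let φ : F →* MulAut ↥N := MulAut.conjNormal
  have hker : φ.ker = Subgroup.centralizer (N : Set F) := by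
    ext g
    rw [MonoidHom.mem_ker, Subgroup.mem_centralizer_iff]
    constructor
    · intro h y hy
      have h1 := congrArg (fun f : MulAut ↥N => ((f ⟨y, hy⟩ : ↥N) : F)) h
      simp only [φ, MulAut.conjNormal_apply, MulAut.one_apply] at h1
      have h2 : g * y = y * g := mul_inv_eq_iff_eq_mul.1 h1
      exact h2.symm
    · intro h
      ext ⟨y, hy⟩
      simp only [φ, MulAut.conjNormal_apply, MulAut.one_apply]
      rw [← h y hy]
      group
  haveI : IsCyclic ↥N := isCyclic_of_prime_card hNp
  have hcardAut : Nat.card (MulAut ↥N) = p - 1 := by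
    rw [IsCyclic.card_mulAut, hNp, Nat.totient_prime hp.out]
  haveI : IsCyclic (MulAut ↥N) := by
    have ψ := IsCyclic.mulAutMulEquiv ↥N
    haveI : Fact (Nat.card ↥N).Prime := by rw [hNp]; exact hp
    exact isCyclic_of_surjective ψ.symm ψ.symm.surjective
  constructor
  · haveI : IsCyclic ↥φ.range := Subgroup.isCyclic _
    obtain ⟨γ, hγ⟩ := IsCyclic.exists_generator (α := ↥φ.range)
    obtain ⟨g, hg⟩ := γ.2
    refine ⟨g, ?_⟩
    rw [eq_top_iff]
    intro f _
    obtain ⟨z, hz⟩ := Subgroup.mem_zpowers_iff.1 (hγ ⟨φ f, ⟨f, rfl⟩⟩)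
    have hz' : φ g ^ z = φ f := by
      have := congrArg Subtype.val hz
      rw [Subgroup.coe_zpow] at this
      rw [hg]; exact this
    have hmem : f * (g ^ z)⁻¹ ∈ Subgroup.centralizer (N : Set F) := by
      rw [← hker, MonoidHom.mem_ker, map_mul, map_inv, map_zpow, hz', mul_inv_cancel]
    have e : f = f * (g ^ z)⁻¹ * g ^ z := by group
    rw [e]
    exact Subgroup.mul_mem_sup hmem (Subgroup.zpow_mem_zpowers g z)
  · rw [← hker, Subgroup.index_ker, ← hcardAut]
    exact Subgroup.card_subgroup_dvd_card _


/-- Let F be a finite group and H a nontrivial subgroup of F that is contained in every nontrivial subgroup of F which H normalizes. Then F has a nontrivial normal subgroup N contained in every nontrivial normal subgroup of F (a unique minimal normal subgroup), N is simple, and one of the following holds: C_F(N) = 1; or H = N has prime order p, C_F(N) is cyclic of order a power of p, and F/C_F(N) is cyclic of order dividing p − 1; or H = N has order 2, N is central in F, and F is a generalized quaternion group.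 -/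
theorem result {F : Type*} [Group F] [Finite F] (H : Subgroup F) (hH : H ≠ ⊥)
    (hmin : ∀ R : Subgroup F, R ≠ ⊥ → H ≤ Subgroup.normalizer (R : Set F) → H ≤ R) :
    ∃ N : Subgroup F, N.Normal ∧ N ≠ ⊥ ∧ (∀ M : Subgroup F, M.Normal → M ≠ ⊥ → N ≤ M) ∧ IsSimpleGroup ↥N ∧
      (Subgroup.centralizer (N : Set F) = ⊥ ∨
       (H = N ∧ (Nat.card N).Prime ∧ IsCyclic ↥(Subgroup.centralizer (N : Set F)) ∧
          (∃ k : ℕ, 1 ≤ k ∧ Nat.card ↥(Subgroup.centralizer (N : Set F)) = Nat.card N ^ k) ∧
          (∃ g : F, Subgroup.centralizer (N : Set F) ⊔ Subgroup.zpowers g = ⊤) ∧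
          (Subgroup.centralizer (N : Set F)).index ∣ Nat.card N - 1) ∨
       (H = N ∧ Nat.card N = 2 ∧ Subgroup.centralizer (N : Set F) = ⊤ ∧
          ∃ k : ℕ, 1 ≤ k ∧ Nonempty (F ≃* QuaternionGroup (2 ^ k)))) := by
  classical
  set N : Subgroup F := Subgroup.normalClosure (H : Set F) with hN
  have hHN : H ≤ N := Subgroup.le_normalClosure
  haveI hNn : N.Normal := Subgroup.normalClosure_normal
  have hNbot : N ≠ ⊥ := fun h => hH (le_bot_iff.1 (h ▸ hHN))
  have hNmin : ∀ M : Subgroup F, M.Normal → M ≠ ⊥ → N ≤ M := by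
    intro M hM hMb
    haveI := hM
    have h1 : H ≤ M := hmin M hMb (by rw [Subgroup.normalizer_eq_top]; exact le_top)
    exact Subgroup.normalClosure_le_normal h1
  have hsimple : IsSimpleGroup ↥N := by
    haveI : Nontrivial ↥N := (Subgroup.nontrivial_iff_ne_bot N).2 hNbot
    refine { toNontrivial := inferInstance, eq_bot_or_eq_top_of_normal := ?_ }
    intro T' hT'
    by_cases hTb : T' = ⊥
    · left; exact hTb
    · right
      set T : Subgroup F := T'.map N.subtype with hT
      have hTbot : T ≠ ⊥ := by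
        intro h
        apply hTb
        rw [← Subgroup.map_eq_bot_iff_of_injective T' N.subtype_injective]
        exact h
      have hNT : ∀ n ∈ N, ∀ t ∈ T, n * t * n⁻¹ ∈ T := by
        intro n hn t ht
        obtain ⟨t', ht', rfl⟩ := ht
        exact ⟨⟨n, hn⟩ * t' * ⟨n, hn⟩⁻¹, hT'.conj_mem t' ht' ⟨n, hn⟩, rfl⟩
      have hcore : H ≤ T.normalCore := by
        intro h hh
        show ∀ b : F, b * h * b⁻¹ ∈ T
        intro b
        set R : Subgroup F := T.map (MulAut.conj b⁻¹).toMonoidHom with hR
        have hRbot : R ≠ ⊥ := by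
          intro h0
          apply hTbot
          rw [← Subgroup.map_eq_bot_iff_of_injective T (f := (MulAut.conj b⁻¹).toMonoidHom) (MulAut.conj b⁻¹).injective]
          exact h0
        have hNR : ∀ n ∈ N, ∀ r ∈ R, n * r * n⁻¹ ∈ R := by
          intro n hn r hr
          obtain ⟨t, ht, rfl⟩ := hr
          refine ⟨(b * n * b⁻¹) * t * (b * n * b⁻¹)⁻¹, hNT _ (hNn.conj_mem n hn b) t ht, ?_⟩
          simp only [MulEquiv.coe_toMonoidHom, MulAut.conj_apply]
          group
        have hHR : H ≤ Subgroup.normalizer (R : Set F) := by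
          intro h' hh'
          apply mem_normalizer_of_forall
          · exact hNR h' (hHN hh')
          · intro r hr
            have := hNR h'⁻¹ (N.inv_mem (hHN hh')) r hr
            rwa [inv_inv] at this
        have hmem : h ∈ R := hmin R hRbot hHR hh
        obtain ⟨t, ht, hth⟩ := hmem
        simp only [MulEquiv.coe_toMonoidHom, MulAut.conj_apply] at hth
        have e : b * h * b⁻¹ = t := by rw [← hth]; group
        rw [e]; exact ht
      have hNT' : N ≤ T := le_trans (Subgroup.normalClosure_le_normal hcore) (Subgroup.normalCore_le T)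
      rw [eq_top_iff]
      intro y _
      obtain ⟨t', ht', hty⟩ := hNT' y.2
      have : t' = y := Subtype.ext hty
      rw [← this]; exact ht'
  set C : Subgroup F := Subgroup.centralizer (N : Set F) with hC
  have hCn : C.Normal := Subgroup.normal_centralizer
  by_cases hCb : C = ⊥
  · exact ⟨N, hNn, hNbot, hNmin, hsimple, Or.inl hCb⟩
  · have hNC : N ≤ C := hNmin C hCn hCb
    have hcomm : ∀ a b : ↥N, a * b = b * a := fun a b =>
      Subtype.ext ((Subgroup.mem_centralizer_iff.1 (hNC a.2) b b.2).symm)
    letI : CommGroup ↥N := { (inferInstance : Group ↥N) with mul_comm := hcomm }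
    have hprime : (Nat.card ↥N).Prime := IsSimpleGroup.prime_card
    set p := Nat.card ↥N with hp
    haveI : Fact p.Prime := ⟨hprime⟩
    have hHeq : H = N := by
      have h1 : Nat.card ↥H ∣ p := Subgroup.card_dvd_of_le hHN
      have h2 : Nat.card ↥H ≠ 1 := fun h => hH (Subgroup.card_eq_one.1 h)
      have h3 : Nat.card ↥H = p := ((Nat.dvd_prime hprime).1 h1).resolve_left h2
      exact Subgroup.eq_of_le_of_card_ge hHN (by rw [h3])
    have hsub : ∀ R : Subgroup F, R ≤ C → R ≠ ⊥ → N ≤ R := by
      intro R hRC hRb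
      rw [← hHeq]
      apply hmin R hRb
      intro h hh
      have hcen : ∀ r ∈ R, h * r = r * h := fun r hr =>
        Subgroup.mem_centralizer_iff.1 (hRC hr) h (hHN hh)
      apply mem_normalizer_of_forall
      · intro r hr
        rw [hcen r hr, mul_inv_cancel_right]; exact hr
      · intro r hr
        rw [mul_assoc, ← hcen r hr, inv_mul_cancel_left]; exact hr
    obtain ⟨⟨k, hk1, hk⟩, huniq⟩ := pgroup_of_sub N C p rfl hNC hsub
    have hCp : IsPGroup p ↥C := IsPGroup.of_card hk
    obtain ⟨hgen, hidx⟩ := quot_cyclic N p rfl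
    have second : IsCyclic ↥C →
        (H = N ∧ (Nat.card N).Prime ∧ IsCyclic ↥(Subgroup.centralizer (N : Set F)) ∧
          (∃ k : ℕ, 1 ≤ k ∧ Nat.card ↥(Subgroup.centralizer (N : Set F)) = Nat.card N ^ k) ∧
          (∃ g : F, Subgroup.centralizer (N : Set F) ⊔ Subgroup.zpowers g = ⊤) ∧
          (Subgroup.centralizer (N : Set F)).index ∣ Nat.card N - 1) :=
      fun hcyc => ⟨hHeq, hprime, hcyc, ⟨k, hk1, hk⟩, hgen, hidx⟩
    rcases Cfsg.Agent.S0016.result p hCp huniq with hcyc | ⟨hp2, n, ⟨e⟩⟩
    · exact ⟨N, hNn, hNbot, hNmin, hsimple, Or.inr (Or.inl (second hcyc))⟩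
    · rcases Nat.eq_zero_or_pos n with hn0 | hnpos
      · subst hn0
        have hcyc : IsCyclic ↥C := by
          haveI : IsCyclic (QuaternionGroup (2 ^ 0)) := by
            rw [pow_zero]; exact QuaternionGroup.quaternionGroup_one_isCyclic
          exact isCyclic_of_surjective e.symm e.symm.surjective
        exact ⟨N, hNn, hNbot, hNmin, hsimple, Or.inr (Or.inl (second hcyc))⟩
      · have hidx1 : C.index = 1 := by
          have : C.index ∣ 1 := by
            have h := hidx
            rw [hp2] at h
            exact h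
          exact Nat.dvd_one.1 this
        have hCtop : C = ⊤ := Subgroup.index_eq_one.1 hidx1
        have e2 : ↥C ≃* F := (MulEquiv.subgroupCongr hCtop).trans Subgroup.topEquiv
        exact ⟨N, hNn, hNbot, hNmin, hsimple, Or.inr (Or.inr
          ⟨hHeq, hp2, hCtop, n, hnpos, ⟨e2.symm.trans e⟩⟩)⟩

end Cfsg.Agent.S3025
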