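import Cfsg.Statements.S3027
-- import your own Cfsg.Agent.* helpers here
import Mathlib

set_option autoImplicit false
open Cfsg

namespace Cfsg.Agent.S3027

open scoped commutatorElement

theorem conj_le_normalizer {G : Type*} [Group G] [Finite G] (R : Subgroup G) (n : G)
    (h : ∀ r ∈ R, n * r * n⁻¹ ∈ R) : n ∈ Subgroup.normalizer (R : Set G) := by
  have hle : R.map (MulAut.conj n).toMonoidHom ≤ R := by
    rintro _ ⟨r, hr, rfl⟩
    exact h r hr
  have hcard : Nat.card R ≤ Nat.card (R.map (MulAut.conj n).toMonoidHom) := by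
    rw [Subgroup.card_map_of_injective (MulAut.conj n).injective]
  have heq := Subgroup.eq_of_le_of_card_ge hle hcard
  exact Subgroup.mem_normalizer_iff_map_conj_eq.mpr heq

theorem supp_inf {G : Type*} [Group G] (D : Subgroup G) [D.Normal]
    (hperf : ⁅(⊤ : Subgroup G), (⊤ : Subgroup G)⁆ ⊔ D = ⊤) (N₁ N₂ : Subgroup G)
    (h1 : N₁ ⊔ D = ⊤) (h2 : N₂ ⊔ D = ⊤) (h12 : N₁ ≤ Subgroup.normalizer (N₂ : Set G))
    (h21 : N₂ ≤ Subgroup.normalizer (N₁ : Set G)) : (N₁ ⊓ N₂) ⊔ D = ⊤ := by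
  rw [eq_top_iff, ← hperf]
  apply sup_le _ le_sup_right
  rw [Subgroup.commutator_le]
  intro g _ g' _
  have hg : g ∈ ((N₁ ⊔ D : Subgroup G) : Set G) := by rw [h1]; trivial
  have hg' : g' ∈ ((N₂ ⊔ D : Subgroup G) : Set G) := by rw [h2]; trivial
  rw [Subgroup.mul_normal] at hg hg'
  obtain ⟨n₁, hn₁, d₁, hd₁, rfl⟩ := Set.mem_mul.mp hg
  obtain ⟨n₂, hn₂, d₂, hd₂, rfl⟩ := Set.mem_mul.mp hg'
  have hc : ⁅n₁, n₂⁆ ∈ N₁ ⊓ N₂ := by
    refine Subgroup.mem_inf.mpr ⟨?_, ?_⟩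
    · have e : ⁅n₁, n₂⁆ = n₁ * (n₂ * n₁⁻¹ * n₂⁻¹) := by
        simp only [commutatorElement_def]; group
      rw [e]
      exact N₁.mul_mem hn₁ ((Subgroup.mem_normalizer_iff.mp (h21 hn₂) _).mp (N₁.inv_mem hn₁))
    · rw [commutatorElement_def]
      exact N₂.mul_mem ((Subgroup.mem_normalizer_iff.mp (h12 hn₁) _).mp hn₂) (N₂.inv_mem hn₂)
  have hd : ⁅n₁, n₂⁆⁻¹ * ⁅n₁ * d₁, n₂ * d₂⁆ ∈ D := by
    rw [← QuotientGroup.eq_one_iff]
    have e1 : (QuotientGroup.mk d₁ : G ⧸ D) = 1 := (QuotientGroup.eq_one_iff d₁).mpr hd₁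
    have e2 : (QuotientGroup.mk d₂ : G ⧸ D) = 1 := (QuotientGroup.eq_one_iff d₂).mpr hd₂
    simp only [commutatorElement_def, QuotientGroup.mk_mul, QuotientGroup.mk_inv, e1, e2, mul_one]
    group
  have e : ⁅n₁ * d₁, n₂ * d₂⁆ = ⁅n₁, n₂⁆ * (⁅n₁, n₂⁆⁻¹ * ⁅n₁ * d₁, n₂ * d₂⁆) := by group
  rw [e]
  exact Subgroup.mul_mem _ (Subgroup.mem_sup_left hc) (Subgroup.mem_sup_right hd)

theorem exists_least_of_inf_closed {G : Type*} [Group G] [Finite G] (𝒞 : Set (Subgroup G))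
    (hne : 𝒞.Nonempty) (hinf : ∀ X ∈ 𝒞, ∀ Y ∈ 𝒞, X ⊓ Y ∈ 𝒞) : ∃ X₀ ∈ 𝒞, ∀ X ∈ 𝒞, X₀ ≤ X := by
  obtain ⟨X₀, hX₀, hmin⟩ := Set.exists_min_image 𝒞 (fun X => Nat.card X) (Set.toFinite _) hne
  refine ⟨X₀, hX₀, fun X hX => ?_⟩
  have h1 := hmin (X₀ ⊓ X) (hinf X₀ hX₀ X hX)
  have h2 : X₀ ⊓ X = X₀ := Subgroup.eq_of_le_of_card_ge inf_le_left h1
  exact inf_eq_left.mp h2

theorem normalizer_inf_of_le {G : Type*} [Group G] (R X Y : Subgroup G)
    (hX : R ≤ Subgroup.normalizer (X : Set G)) (hY : R ≤ Subgroup.normalizer (Y : Set G)) :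
    R ≤ Subgroup.normalizer ((X ⊓ Y : Subgroup G) : Set G) := by
  intro r hr
  rw [Subgroup.mem_normalizer_iff]
  intro h
  simp only [Subgroup.mem_inf]
  rw [← Subgroup.mem_normalizer_iff.mp (hX hr) h, ← Subgroup.mem_normalizer_iff.mp (hY hr) h]

/-- Let G be a finite group and D a normal subgroup of G such that G/D is perfect (that is, G = G′D). Then among the subnormal subgroups B of G with BD = G there is a least one, and it is normal in G. -/
theorem result {G : Type*} [Group G] [Finite G] (D : Subgroup G) [D.Normal] (hperf : ⁅(⊤ : Subgroup G), (⊤ : Subgroup G)⁆ ⊔ D = ⊤) :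
    ∃ B : Subgroup G, B.Normal ∧ B ⊔ D = ⊤ ∧ ∀ B' : Subgroup G, B'.IsSubnormal → B' ⊔ D = ⊤ → B ≤ B' := by
  classical
  obtain ⟨R, ⟨hRn, hRD⟩, hRmin⟩ := exists_least_of_inf_closed
    {N : Subgroup G | N.Normal ∧ N ⊔ D = ⊤} ⟨⊤, Subgroup.normal_top, top_sup_eq D⟩ (by
      rintro X ⟨hXn, hXD⟩ Y ⟨hYn, hYD⟩
      refine ⟨Subgroup.normal_inf_normal X Y, supp_inf D hperf X Y hXD hYD ?_ ?_⟩
      · rw [Subgroup.normalizer_eq_top]; exact le_top
      · rw [Subgroup.normalizer_eq_top]; exact le_top)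
  have h4 : ∀ X : Subgroup G, X ⊔ D = ⊤ → X ≤ R → R ≤ Subgroup.normalizer (X : Set G) →
      R ≤ X := by
    obtain ⟨X₀, ⟨hX₀D, hX₀R, hX₀n⟩, hX₀min⟩ := exists_least_of_inf_closed
      {X : Subgroup G | X ⊔ D = ⊤ ∧ X ≤ R ∧ R ≤ Subgroup.normalizer (X : Set G)}
      ⟨R, hRD, le_rfl, Subgroup.le_normalizer⟩ (by
        rintro X ⟨hXD, hXR, hXn⟩ Y ⟨hYD, hYR, hYn⟩
        exact ⟨supp_inf D hperf X Y hXD hYD (hXR.trans hYn) (hYR.trans hXn),
          inf_le_left.trans hXR, normalizer_inf_of_le R X Y hXn hYn⟩)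
    have hconj : ∀ g : G, X₀.map (MulAut.conj g).toMonoidHom ∈
        {X : Subgroup G | X ⊔ D = ⊤ ∧ X ≤ R ∧ R ≤ Subgroup.normalizer (X : Set G)} := by
      intro g
      refine ⟨?_, ?_, ?_⟩
      · rw [eq_top_iff]
        intro y _
        have hy : g⁻¹ * y * g ∈ ((X₀ ⊔ D : Subgroup G) : Set G) := by rw [hX₀D]; trivial
        rw [Subgroup.mul_normal] at hy
        obtain ⟨x, hx, d, hd, hxd⟩ := Set.mem_mul.mp hy
        have e : y = (g * x * g⁻¹) * (g * d * g⁻¹) := by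
          have : y = g * (g⁻¹ * y * g) * g⁻¹ := by group
          rw [this, ← hxd]; group
        rw [e]
        exact Subgroup.mul_mem _ (Subgroup.mem_sup_left ⟨x, hx, rfl⟩)
          (Subgroup.mem_sup_right (‹D.Normal›.conj_mem d hd g))
      · rintro _ ⟨x, hx, rfl⟩
        exact hRn.conj_mem x (hX₀R hx) g
      · intro r hr
        apply conj_le_normalizer
        rintro _ ⟨x, hx, rfl⟩
        have hr' : g⁻¹ * r * g ∈ R := by
          have := hRn.conj_mem r hr g⁻¹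
          simpa using this
        refine ⟨(g⁻¹ * r * g) * x * (g⁻¹ * r * g)⁻¹,
          (Subgroup.mem_normalizer_iff.mp (hX₀n hr') x).mp hx, ?_⟩
        simp only [MulEquiv.coe_toMonoidHom, MulAut.conj_apply]
        group
    have hX₀normal : X₀.Normal := by
      constructor
      intro x hx g
      obtain ⟨y, hy, hyx⟩ := hX₀min _ (hconj g⁻¹) hx
      have e : g * x * g⁻¹ = y := by
        rw [← hyx]
        simp only [MulEquiv.coe_toMonoidHom, MulAut.conj_apply]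
        group
      rw [e]; exact hy
    have hRX₀ : R ≤ X₀ := hRmin X₀ ⟨hX₀normal, hX₀D⟩
    intro X hXD hXR hXn
    exact hRX₀.trans (hX₀min X ⟨hXD, hXR, hXn⟩)
  have h5 : ∀ B : Subgroup G, B.IsSubnormal → B ⊔ D = ⊤ → R ≤ B := by
    intro B hB
    induction hB with
    | top => intro _; exact le_top
    | step H K hHK hK hHn ih =>
      intro hHD
      have hKD : K ⊔ D = ⊤ := by
        rw [eq_top_iff, ← hHD]; exact sup_le_sup_right hHK D
      have hRK := ih hKD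
      have hKn : K ≤ Subgroup.normalizer (H : Set G) :=
        (Subgroup.normal_subgroupOf_iff_le_normalizer hHK).mp hHn
      have hHR : H ≤ Subgroup.normalizer (R : Set G) := by
        rw [Subgroup.normalizer_eq_top]; exact le_top
      have h6 : (R ⊓ H) ⊔ D = ⊤ := supp_inf D hperf R H hRD hHD (hRK.trans hKn) hHR
      have h7 := h4 (R ⊓ H) h6 inf_le_left
        (normalizer_inf_of_le R R H Subgroup.le_normalizer (hRK.trans hKn))
      exact h7.trans inf_le_right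
  exact ⟨R, hRn, hRD, h5⟩


end Cfsg.Agent.S3027
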