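import Cfsg.Statements.S3031
-- import your own Cfsg.Agent.* helpers here
import Cfsg.Agent.Lib.helper15.HSub

set_option autoImplicit false
open Cfsg

namespace Cfsg.Agent.S3031

/-- Let G be a finite group, p the smallest prime dividing |G| and P a Sylow p-subgroup. Suppose that P is cyclic, or that P has a subgroup D with 1 < |D| < |P| such that every subgroup E of P of order |D|, and also every subgroup E of P of order 4 when |D| = 2, satisfies g E g⁻¹ ∩ N_G(E) ≤ E for all g ∈ G (E is strongly closed in its normalizer with respect to G). Then G has a normal p-complement. -/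
theorem result {G : Type*} [Group G] [Finite G] {p : ℕ} [Fact p.Prime] (hdiv : p ∣ Nat.card G)
    (hmin : ∀ q : ℕ, q.Prime → q ∣ Nat.card G → p ≤ q) (P : Sylow p G)
    (h : IsCyclic ↥(P : Subgroup G) ∨ ∃ D : Subgroup G, D ≤ (P : Subgroup G) ∧ 1 < Nat.card D ∧ Nat.card D < Nat.card (P : Subgroup G) ∧
      ∀ E : Subgroup G, E ≤ (P : Subgroup G) → (Nat.card E = Nat.card D ∨ (Nat.card D = 2 ∧ Nat.card E = 4)) →
        ∀ g : G, E.map (MulAut.conj g).toMonoidHom ⊓ Subgroup.normalizer (E : Set G) ≤ E) :
    Cfsg.HasNormalPComplement p G := by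
  classical
  have hp : p.Prime := Fact.out
  have hcop : ∀ y : G, (orderOf y).Coprime p → (orderOf y).Coprime (p - 1) := by
    intro y _
    apply Nat.coprime_of_dvd
    intro q hq hqy hqp
    have h1 : p ≤ q := hmin q hq (hqy.trans (orderOf_dvd_natCard y))
    have h3 := hp.two_le
    have h2 : q ≤ p - 1 := Nat.le_of_dvd (by omega) hqp
    omega
  apply Cfsg.Agent.Lib.helper15.hs_npc hcop P
  rcases h with hc | ⟨D, hDP, hD1, hDlt, hE⟩
  · exact Or.inl hc
  · right
    obtain ⟨d, hd⟩ := IsPGroup.iff_card.mp (P.isPGroup'.to_le hDP)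
    refine ⟨d, ?_, ?_, ?_⟩
    · by_contra hcon
      have h0 : d = 0 := by omega
      rw [h0, pow_zero] at hd
      omega
    · rw [← hd]; exact hDlt
    · intro E hEP hEc
      have hEh : ∀ g : G, E.map (MulAut.conj g).toMonoidHom ⊓ Subgroup.normalizer (E : Set G) ≤ E :=
        hE E hEP (by rw [hd]; exact hEc)
      have hN := Cfsg.Agent.Lib.helper15.hs_normal_of_hsub (P : Subgroup G) P.isPGroup' E hEP hEh
      exact ⟨Cfsg.Agent.Lib.helper15.hs_sc_of_hsub (P : Subgroup G) E hN hEh, hN⟩


end Cfsg.Agent.S3031
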