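import Cfsg.Statements.S3049
import Mathlib
import Cfsg.Agent.Lib.helper7.FSimple

set_option autoImplicit false
open Cfsg

namespace Cfsg.Agent.S3049

open Subgroup
open Cfsg.Agent.Lib.helper7

universe u

section Iso

variable {G : Type u} [Group G] [Finite G] {p : ℕ} [hp : Fact p.Prime]

/-- An isolated element centralizes every Sylow `p`-subgroup containing it. -/
theorem iso_central_sylow {x : G} (hiso : Cfsg.IsIsolated x) (P : Sylow p G)
    (hxP : x ∈ (P : Subgroup G)) : ∀ y ∈ (P : Subgroup G), x * y = y * x := by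
  by_contra hcon
  push Not at hcon
  obtain ⟨y, hy, hxy⟩ := hcon
  obtain ⟨C, hCdef⟩ : ∃ C : Subgroup G, C = (P : Subgroup G) ⊓ centralizer ({x} : Set G) :=
    ⟨_, rfl⟩
  have hCP : C ≤ (P : Subgroup G) := by rw [hCdef]; exact inf_le_left
  have hne : C ≠ (P : Subgroup G) := by
    intro h
    have h1 : y ∈ C := by rw [h]; exact hy
    rw [hCdef] at h1
    exact hxy ((Subgroup.mem_centralizer_iff.mp (Subgroup.mem_inf.mp h1).2) x rfl)
  obtain ⟨k, hkP, hkC, hkN⟩ :=
    Cfsg.Agent.Lib.helper6.normalizer_grows (P : Subgroup G) C P.isPGroup' hCP hne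
  have hxC : x ∈ C := by
    rw [hCdef]; refine Subgroup.mem_inf.mpr ⟨hxP, ?_⟩
    rw [Subgroup.mem_centralizer_iff]; intro h hh; rw [Set.mem_singleton_iff.mp hh]
  have h1 : k * x * k⁻¹ ∈ C := (Subgroup.mem_normalizer_iff.mp hkN x).mp hxC
  have h2 : Commute x (k * x * k⁻¹) := by
    rw [hCdef] at h1
    exact ((Subgroup.mem_centralizer_iff.mp (Subgroup.mem_inf.mp h1).2) x rfl)
  have h3 := hiso k h2
  apply hkC
  rw [hCdef]; refine Subgroup.mem_inf.mpr ⟨hkP, ?_⟩
  rw [Subgroup.mem_centralizer_iff]; intro h hh; rw [Set.mem_singleton_iff.mp hh]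
  calc x * k = (k * x * k⁻¹) * k := by rw [h3]
    _ = k * x := by group

/-- The `p`-core is trivial. -/
theorem iso_pCore_bot (hp2 : p ≠ 2) (hcore : Cfsg.pPrimeCore p G = ⊥)
    (hrank : Cfsg.PRankLE p 2 G) {x : G} (hx : orderOf x = p) (hiso : Cfsg.IsIsolated x)
    (hnc : x ∉ center G) (P : Sylow p G) (hxP : x ∈ (P : Subgroup G)) :
    Cfsg.pCore p G = ⊥ := by
  classical
  have hpr := hp.out
  have hxZ := iso_central_sylow hiso P hxP
  have hxp : x ^ p = 1 := by have := pow_orderOf_eq_one x; rwa [hx] at this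
  by_contra hQne
  obtain ⟨Q, hQdef⟩ : ∃ Q : Subgroup G, Q = Cfsg.pCore p G := ⟨_, rfl⟩
  rw [← hQdef] at hQne
  haveI hQn : Q.Normal := by rw [hQdef]; exact Cfsg.Agent.Lib.helper1.pCore_normal p G
  have hQp : IsPGroup p Q := by rw [hQdef]; exact Cfsg.Agent.Lib.helper1.pCore_isPGroup p G
  have hQP : Q ≤ (P : Subgroup G) := hQp.le_sylow_of_normal P
  have hfus : ∀ g : G, g * x * g⁻¹ ∈ (P : Subgroup G) → g * x * g⁻¹ = x :=
    fun g hg => hiso g (hxZ _ hg)
  have hxQ : x ∉ Q := by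
    intro hxQ
    apply hnc
    rw [Subgroup.mem_center_iff]
    intro g
    have := hfus g (hQP (hQn.conj_mem x hxQ g))
    calc g * x = (g * x * g⁻¹) * g := by group
      _ = x * g := by rw [this]
  let W : Subgroup G :=
    { carrier := {y | y ∈ Q ∧ (∀ q ∈ Q, q * y = y * q) ∧ y ^ p = 1}
      one_mem' := ⟨Q.one_mem, fun q _ => by simp, one_pow p⟩
      mul_mem' := by
        rintro a b ⟨ha, ha2, ha3⟩ ⟨hb, hb2, hb3⟩
        refine ⟨Q.mul_mem ha hb, ?_, ?_⟩
        · intro q hq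
          calc q * (a * b) = (q * a) * b := by group
            _ = (a * q) * b := by rw [ha2 q hq]
            _ = a * (q * b) := by group
            _ = a * (b * q) := by rw [hb2 q hq]
            _ = a * b * q := by group
        · rw [(show Commute a b from hb2 a ha).mul_pow, ha3, hb3, one_mul]
      inv_mem' := by
        rintro a ⟨ha, ha2, ha3⟩
        refine ⟨Q.inv_mem ha, ?_, by rw [inv_pow, ha3, inv_one]⟩
        intro q hq
        exact (Commute.inv_right (show Commute q a from ha2 q hq)).eq }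
  have hWmem : ∀ y : G, y ∈ W ↔ y ∈ Q ∧ (∀ q ∈ Q, q * y = y * q) ∧ y ^ p = 1 := fun y => Iff.rfl
  haveI hWn : W.Normal := by
    refine ⟨fun y hy g => ?_⟩
    rw [hWmem] at hy ⊢
    refine ⟨hQn.conj_mem y hy.1 g, ?_, by rw [conj_pow, hy.2.2]; simp⟩
    intro q hq
    have hq' : g⁻¹ * q * g ∈ Q := by
      have := hQn.conj_mem q hq g⁻¹
      simpa using this
    calc q * (g * y * g⁻¹) = g * ((g⁻¹ * q * g) * y) * g⁻¹ := by group
      _ = g * (y * (g⁻¹ * q * g)) * g⁻¹ := by rw [hy.2.1 _ hq']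
      _ = g * y * g⁻¹ * q := by group
  have hWne : ∃ b ∈ W, orderOf b = p := by
    haveI : Nontrivial ↥Q := (Subgroup.nontrivial_iff_ne_bot Q).mpr hQne
    haveI : Nontrivial ↥(center ↥Q) := hQp.center_nontrivial
    have hcp : IsPGroup p ↥(center ↥Q) := hQp.to_subgroup _
    have hdvd : p ∣ Nat.card ↥(center ↥Q) := by
      obtain ⟨n, hn⟩ := IsPGroup.iff_card.mp hcp
      rcases n with _ | n
      · exfalso
        rw [pow_zero] at hn
        have := Finite.one_lt_card (α := ↥(center ↥Q))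
        omega
      · rw [hn, pow_succ]; exact dvd_mul_left p _
    obtain ⟨c, hc⟩ := exists_prime_orderOf_dvd_card' (G := ↥(center ↥Q)) p hdvd
    refine ⟨((c : ↥Q) : G), ?_, ?_⟩
    · rw [hWmem]
      refine ⟨(c : ↥Q).2, ?_, ?_⟩
      · intro q hq
        have := Subgroup.mem_center_iff.mp c.2 ⟨q, hq⟩
        exact congrArg Subtype.val this
      · have h1 : ((c : ↥Q) : G) ^ orderOf ((c : ↥Q) : G) = 1 := pow_orderOf_eq_one _
        rwa [Subgroup.orderOf_coe, Subgroup.orderOf_coe, hc] at h1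
    · rw [Subgroup.orderOf_coe, Subgroup.orderOf_coe]; exact hc
  obtain ⟨b, hbW, hbo⟩ := hWne
  have hWEA : Cfsg.IsElementaryAbelian p W :=
    ⟨⟨⟨fun a c => Subtype.ext (((hWmem _).mp c.2).2.1 a ((hWmem _).mp a.2).1)⟩⟩,
      fun a ha => ((hWmem a).mp ha).2.2⟩
  have hxCW : x ∈ centralizer (W : Set G) := by
    rw [Subgroup.mem_centralizer_iff]
    intro h hh
    exact (hxZ h (hQP ((hWmem h).mp hh).1)).symm
  have hA := Cfsg.Agent.Lib.helper8.isElementaryAbelian_sup_zpowers p W hWEA x hxCW hxp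
  have hcardA := hrank _ hA.1 hA.2
  have hWlt : W < W ⊔ zpowers x := by
    refine lt_of_le_of_ne le_sup_left ?_
    intro h
    have hxW : x ∈ W := by rw [h]; exact (le_sup_right : zpowers x ≤ _) (mem_zpowers x)
    exact hxQ ((hWmem x).mp hxW).1
  have hcW : Nat.card W = p := by
    have hWp : IsPGroup p W := Cfsg.Agent.Lib.helper6.isPGroup_of_exp hWEA.2
    obtain ⟨k, hk⟩ := IsPGroup.iff_card.mp hWp
    have h1 := card_lt_of_lt' hWlt
    have h2 : p ^ k < p ^ 2 := by rw [← hk]; exact lt_of_lt_of_le h1 hcardA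
    have hk2 : k < 2 := (Nat.pow_lt_pow_iff_right hpr.one_lt).mp h2
    have hk1 : 1 ≤ k := by
      by_contra h0
      have hk0 : k = 0 := by omega
      rw [hk0, pow_zero] at hk
      have hb1 : b = 1 := by
        have hWb := Subgroup.eq_bot_of_card_eq W hk
        rw [hWb] at hbW
        exact Subgroup.mem_bot.mp hbW
      rw [hb1, orderOf_one] at hbo
      exact hpr.one_lt.ne hbo
    have hk' : k = 1 := by omega
    rw [hk, hk', pow_one]
  have hWb : W = zpowers b := by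
    symm
    apply Subgroup.eq_of_le_of_card_ge (by rw [Subgroup.zpowers_le]; exact hbW)
    rw [Nat.card_zpowers, hbo, hcW]
  obtain ⟨G0, hG0⟩ : ∃ G0 : Subgroup G, G0 = centralizer (W : Set G) := ⟨_, rfl⟩
  haveI hG0n : G0.Normal := by rw [hG0]; infer_instance
  have hxG0 : x ∈ G0 := by rw [hG0]; exact hxCW
  have hbG0 : ∀ g ∈ G0, g * b = b * g := by
    intro g hg
    rw [hG0] at hg
    exact ((Subgroup.mem_centralizer_iff.mp hg) b hbW).symm
  have hxb : x * b = b * x := hxZ b (hQP ((hWmem b).mp hbW).1)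
  have hxnb : x ∉ zpowers b := by
    rw [← hWb]; exact fun h => hxQ ((hWmem x).mp h).1
  have hkey : ∀ u ∈ (P : Subgroup G), u ∈ G0 → u ^ p = 1 → ∃ i j : ℤ, u = b ^ i * x ^ j := by
    intro u huP huG hup
    have := rank_mem hrank b x u hbo hxp hup hxb.symm (hbG0 u huG).symm (hxZ u huP) hxnb
    exact mem_sup_zpowers b x hxb.symm u this
  obtain ⟨Q0, N, hQ0, hNn, hc⟩ := npc_sub hp2 P G0 (Subgroup.Normal.isSubnormal hG0n) (by
    intro u huP huG hup g hg hguP
    obtain ⟨i, j, rfl⟩ := hkey u huP huG hup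
    have hgb : g * b ^ i * g⁻¹ = b ^ i := by
      have h1 : g * b * g⁻¹ = b := by rw [hbG0 g hg]; group
      rw [← conj_zpow, h1]
    have hsplit : g * (b ^ i * x ^ j) * g⁻¹ = b ^ i * (g * x * g⁻¹) ^ j := by
      rw [conj_zpow]
      calc g * (b ^ i * x ^ j) * g⁻¹ = (g * b ^ i * g⁻¹) * (g * x ^ j * g⁻¹) := by group
        _ = b ^ i * (g * x ^ j * g⁻¹) := by rw [hgb]
    by_cases hxj : x ^ j = 1
    · rw [hxj, mul_one]; exact hgb
    · have hoj : orderOf (x ^ j) = p := by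
        have h1 : (x ^ j) ^ p = 1 := by
          rw [← zpow_natCast, ← zpow_mul, mul_comm, zpow_mul, zpow_natCast, hxp, one_zpow]
        have h2 := orderOf_dvd_of_pow_eq_one h1
        rcases (Nat.dvd_prime hpr).mp h2 with h3 | h3
        · exfalso; exact hxj (orderOf_eq_one_iff.mp h3)
        · exact h3
      have hzeq : zpowers (x ^ j) = zpowers x := by
        apply Subgroup.eq_of_le_of_card_ge
          (by rw [Subgroup.zpowers_le]; exact Subgroup.zpow_mem _ (mem_zpowers x) j)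
        rw [Nat.card_zpowers, Nat.card_zpowers, hoj, hx]
      obtain ⟨m, hm⟩ := Subgroup.mem_zpowers_iff.mp
        (show x ∈ zpowers (x ^ j) by rw [hzeq]; exact mem_zpowers x)
      have hcomm1 : Commute x (g * (b ^ i * x ^ j) * g⁻¹) := hxZ _ hguP
      rw [hsplit] at hcomm1
      have hcomm2 : Commute x ((g * x * g⁻¹) ^ j) := by
        have hb' : Commute x (b ^ i) := (Commute.zpow_right (show Commute x b from hxb) i)
        have h5 : (g * x * g⁻¹) ^ j = (b ^ i)⁻¹ * (b ^ i * (g * x * g⁻¹) ^ j) := by group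
        rw [h5]
        exact hb'.inv_right.mul_right hcomm1
      have hcomm3 : Commute x (g * x * g⁻¹) := by
        have h5 : g * x * g⁻¹ = ((g * x * g⁻¹) ^ j) ^ m := by
          rw [conj_zpow, conj_zpow, hm]
        rw [h5]; exact hcomm2.zpow_right m
      have h6 := hiso g hcomm3
      rw [hsplit, h6])
  have hNsub : (N.map G0.subtype).IsSubnormal :=
    (Subgroup.Normal.isSubnormal hNn).trans' (Subgroup.Normal.isSubnormal hG0n)
  have hNcop : (Nat.card (N.map G0.subtype)).Coprime p := by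
    rw [Subgroup.card_map_of_injective G0.subtype_injective]
    have h1 : (Q0 : Subgroup ↥G0).index = Nat.card N := hc.index_eq_card
    rw [← h1, Nat.coprime_comm, Nat.Prime.coprime_iff_not_dvd hpr]
    exact Q0.not_dvd_index
  have hNle := Cfsg.Agent.Lib.helper9.subnormal_le_pPrimeCore hNsub hNcop
  rw [hcore] at hNle
  have hNbot : N = ⊥ := by
    rw [eq_bot_iff]; intro n hn
    have : (n : G) ∈ (⊥ : Subgroup G) := hNle ⟨n, hn, rfl⟩
    rw [Subgroup.mem_bot] at this ⊢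
    exact Subtype.ext this
  have hQ0top : (Q0 : Subgroup ↥G0) = ⊤ := by
    have hcard := hc.card_mul_card
    rw [hNbot, Subgroup.card_bot, one_mul] at hcard
    exact Subgroup.eq_top_of_card_eq _ hcard
  have hG0P : G0 ≤ (P : Subgroup G) := by
    intro h hh
    have h1 : (⟨h, hh⟩ : ↥G0) ∈ (Q0 : Subgroup ↥G0) := by rw [hQ0top]; trivial
    rw [hQ0, Subgroup.mem_subgroupOf] at h1
    exact h1
  have hG0Q : G0 ≤ Q := by
    rw [hQdef]
    exact Cfsg.Agent.Lib.helper1.le_pCore hG0n (P.isPGroup'.to_le hG0P)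
  exact hxQ (hG0Q hxG0)

/-- Key step: two distinct components cannot both meet the Sylow subgroup so that `x` factors. -/
theorem iso_key (hp2 : p ≠ 2) (hcore : Cfsg.pPrimeCore p G = ⊥)
    (hrank : Cfsg.PRankLE p 2 G) {x : G} (hx : orderOf x = p) (hiso : Cfsg.IsIsolated x)
    (P : Sylow p G) (hxP : x ∈ (P : Subgroup G)) (hF : Cfsg.fittingSubgroup G = ⊥)
    {L₁ L₂ : Subgroup G} (h₁ : Cfsg.IsComponent L₁) (h₂ : Cfsg.IsComponent L₂) (hne : L₁ ≠ L₂)
    (l₁ l₂ : G) (hl₁ : l₁ ∈ L₁) (hl₂ : l₂ ∈ L₂)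
    (hxl : x = l₁ * l₂) (hl₁ne : l₁ ≠ 1) : False := by
  have hpr := hp.out
  have hxZ := iso_central_sylow hiso P hxP
  have hZ₁ := comp_center_bot hF h₁
  have hcomm : ∀ a ∈ L₁, ∀ c ∈ L₂, a * c = c * a :=
    fun a ha c hc => comp_comm_elem h₁ h₂ hne ha hc
  have hint : ∀ u, u ∈ L₁ → u ∈ L₂ → u = 1 :=
    fun u h1 h2 => comp_inf_eq_one h₁ h₂ hne hZ₁ h1 h2
  have hxp : x ^ p = 1 := by have := pow_orderOf_eq_one x; rwa [hx] at this
  have hl₁p : l₁ ^ p = 1 := by
    have h1 : (l₁ * l₂) ^ p = l₁ ^ p * l₂ ^ p :=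
      (show Commute l₁ l₂ from hcomm l₁ hl₁ l₂ hl₂).mul_pow p
    rw [← hxl, hxp] at h1
    apply hint _ (L₁.pow_mem hl₁ p)
    have h2 : l₁ ^ p = (l₂ ^ p)⁻¹ := by
      rw [eq_inv_iff_mul_eq_one]; exact h1.symm
    rw [h2]; exact L₂.inv_mem (L₂.pow_mem hl₂ p)
  have hl₁o : orderOf l₁ = p := by
    rcases (Nat.dvd_prime hpr).mp (orderOf_dvd_of_pow_eq_one hl₁p) with h | h
    · exact absurd (orderOf_eq_one_iff.mp h) hl₁ne
    · exact h
  obtain ⟨a₂, ha₂P, ha₂L, ha₂o⟩ := subnormal_sylow_elem P h₂.1 (comp_p_dvd hcore h₂)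
  have ha₂p : a₂ ^ p = 1 := by have := pow_orderOf_eq_one a₂; rwa [ha₂o] at this
  have ha₂n : a₂ ∉ zpowers l₁ := by
    intro h
    have h1 : a₂ ∈ L₁ := (by rw [Subgroup.zpowers_le]; exact hl₁ : zpowers l₁ ≤ L₁) h
    have h2 := hint a₂ h1 ha₂L
    rw [h2, orderOf_one] at ha₂o
    exact hpr.one_lt.ne ha₂o
  have hclaim : ∀ u ∈ (P : Subgroup G), u ∈ L₁ → u ^ p = 1 → u ∈ zpowers l₁ := by
    intro u huP huL hup
    have hl₁u : l₁ * u = u * l₁ := by
      have h1 : l₁ = x * l₂⁻¹ := by rw [hxl]; group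
      have h2 : Commute x u := hxZ u huP
      have h3 : Commute l₂ u := (hcomm u huL l₂ hl₂).symm
      rw [h1]
      exact (h2.mul_left h3.inv_left).eq
    have h4 := rank_mem hrank l₁ a₂ u hl₁o ha₂p hup (hcomm l₁ hl₁ a₂ ha₂L) hl₁u
      (hcomm u huL a₂ ha₂L).symm ha₂n
    obtain ⟨i, j, hij⟩ := mem_sup_zpowers l₁ a₂ (hcomm l₁ hl₁ a₂ ha₂L) u h4
    have h5 : a₂ ^ j = 1 := by
      apply hint
      · have h6 : a₂ ^ j = (l₁ ^ i)⁻¹ * u := by rw [hij]; group
        rw [h6]; exact L₁.mul_mem (L₁.inv_mem (L₁.zpow_mem hl₁ i)) huL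
      · exact L₂.zpow_mem ha₂L j
    rw [hij, h5, mul_one]
    exact Subgroup.zpow_mem _ (mem_zpowers l₁) i
  obtain ⟨Q, N, hQ, hNn, hc⟩ := npc_sub hp2 P L₁ h₁.1 (by
    intro u huP huL hup g hg hguP
    have hui := hclaim u huP huL hup
    by_cases hu1 : u = 1
    · rw [hu1]; group
    · have huo : orderOf u = p := by
        rcases (Nat.dvd_prime hpr).mp (orderOf_dvd_of_pow_eq_one hup) with h | h
        · exact absurd (orderOf_eq_one_iff.mp h) hu1
        · exact h
      have hzeq : zpowers u = zpowers l₁ := by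
        apply Subgroup.eq_of_le_of_card_ge (by rw [Subgroup.zpowers_le]; exact hui)
        rw [Nat.card_zpowers, Nat.card_zpowers, huo, hl₁o]
      obtain ⟨m, hm⟩ := Subgroup.mem_zpowers_iff.mp
        (show l₁ ∈ zpowers u by rw [hzeq]; exact mem_zpowers l₁)
      have hgL : g * l₁ * g⁻¹ ∈ L₁ := L₁.mul_mem (L₁.mul_mem hg hl₁) (L₁.inv_mem hg)
      have hgl : g * l₁ * g⁻¹ ∈ zpowers l₁ := by
        apply hclaim
        · rw [← hm, ← conj_zpow]; exact Subgroup.zpow_mem _ hguP m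
        · exact hgL
        · rw [conj_pow, hl₁p]; group
      have hc1 : Commute l₁ (g * l₁ * g⁻¹) := by
        obtain ⟨n, hn⟩ := Subgroup.mem_zpowers_iff.mp hgl
        rw [← hn]; exact (Commute.refl l₁).zpow_right n
      have hgl₂ : g * l₂ * g⁻¹ = l₂ := by rw [hcomm g hg l₂ hl₂]; group
      have hgx : g * x * g⁻¹ = (g * l₁ * g⁻¹) * l₂ := by
        rw [hxl]
        calc g * (l₁ * l₂) * g⁻¹ = (g * l₁ * g⁻¹) * (g * l₂ * g⁻¹) := by group
          _ = (g * l₁ * g⁻¹) * l₂ := by rw [hgl₂]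
      have hc2 : Commute x (g * x * g⁻¹) := by
        rw [hgx]
        rw [hxl]
        have c12 : Commute l₁ l₂ := hcomm l₁ hl₁ l₂ hl₂
        have c21 : Commute l₂ (g * l₁ * g⁻¹) := (hcomm _ hgL l₂ hl₂).symm
        exact (hc1.mul_right c12).mul_left (c21.mul_right (Commute.refl l₂))
      have h5 := hiso g hc2
      have h6 : g * l₁ * g⁻¹ = l₁ := by
        rw [hgx] at h5
        rw [hxl] at h5
        exact mul_right_cancel h5
      obtain ⟨i, hi⟩ := Subgroup.mem_zpowers_iff.mp hui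
      rw [← hi, ← conj_zpow, h6])
  have hsimple := comp_simple h₁ hZ₁
  haveI := hsimple.1
  exact not_npc_of_simple hsimple.2 (comp_p_dvd hcore h₁) ⟨Q, N, hNn, hc⟩

end Iso

/-- Let G be a finite group and p an odd prime with O_{p'}(G) = 1. Suppose that G has p-rank at most 2 (no elementary abelian subgroup of order p³) and that some element x of order p is isolated in G (no G-conjugate of x other than x commutes with x) and not central. Then the generalized Fitting subgroup F*(G) is a non-abelian simple group. Since O_{p'}(G) = 1, such an x is not central modulo O_{p'}(G): the hypotheses describe a counterexample to the Z*_p statement in p-rank at most 2. -/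
theorem result {G : Type*} [Group G] [Finite G] {p : ℕ} [Fact p.Prime] (hp : p ≠ 2) (hcore : Cfsg.pPrimeCore p G = ⊥)
    (hrank : Cfsg.PRankLE p 2 G) (x : G) (hx : orderOf x = p) (hiso : Cfsg.IsIsolated x) (hnc : x ∉ Subgroup.center G) :
    IsSimpleGroup ↥(Cfsg.generalizedFittingSubgroup G) ∧ ¬ IsMulCommutative ↥(Cfsg.generalizedFittingSubgroup G) := by
  have hpr := (Fact.out : p.Prime)
  have hpz : IsPGroup p (zpowers x) :=
    IsPGroup.of_card (n := 1) (by rw [Nat.card_zpowers, pow_one, hx])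
  obtain ⟨P, hP⟩ := hpz.exists_le_sylow
  have hxP : x ∈ (P : Subgroup G) := hP (mem_zpowers x)
  have hxZ := iso_central_sylow hiso P hxP
  have hOp := iso_pCore_bot hp hcore hrank hx hiso hnc P hxP
  have hF := fitting_bot_of_cores hcore hOp
  have hne : Nontrivial G :=
    ⟨⟨x, 1, fun h => by rw [h, orderOf_one] at hx; exact hpr.one_lt.ne hx⟩⟩
  have hxp : x ^ p = 1 := by have := pow_orderOf_eq_one x; rwa [hx] at this
  apply fstar_simple_of_unique hne hF
  intro L₁ L₂ h₁ h₂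
  by_contra hne12
  obtain ⟨a₁, ha₁P, ha₁L, ha₁o⟩ := subnormal_sylow_elem P h₁.1 (comp_p_dvd hcore h₁)
  obtain ⟨a₂, ha₂P, ha₂L, ha₂o⟩ := subnormal_sylow_elem P h₂.1 (comp_p_dvd hcore h₂)
  have hZ₁ := comp_center_bot hF h₁
  have hc12 : a₁ * a₂ = a₂ * a₁ := comp_comm_elem h₁ h₂ hne12 ha₁L ha₂L
  have ha₂p : a₂ ^ p = 1 := by have := pow_orderOf_eq_one a₂; rwa [ha₂o] at this
  have ha₂n : a₂ ∉ zpowers a₁ := by
    intro h
    have h1 : a₂ ∈ L₁ := (by rw [Subgroup.zpowers_le]; exact ha₁L : zpowers a₁ ≤ L₁) h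
    have h2 := comp_inf_eq_one h₁ h₂ hne12 hZ₁ h1 ha₂L
    rw [h2, orderOf_one] at ha₂o
    exact hpr.one_lt.ne ha₂o
  have h3 := rank_mem hrank a₁ a₂ x ha₁o ha₂p hxp hc12 (hxZ a₁ ha₁P).symm (hxZ a₂ ha₂P).symm ha₂n
  obtain ⟨i, j, hij⟩ := mem_sup_zpowers a₁ a₂ hc12 x h3
  by_cases h1 : a₁ ^ i = 1
  · have hx' : x = a₂ ^ j * a₁ ^ i := by rw [hij, h1, mul_one, one_mul]
    have h2 : a₂ ^ j ≠ 1 := by
      intro h2
      rw [h1, h2, mul_one] at hij
      rw [hij, orderOf_one] at hx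
      exact hpr.one_lt.ne hx
    exact iso_key hp hcore hrank hx hiso P hxP hF h₂ h₁ (Ne.symm hne12) (a₂ ^ j) (a₁ ^ i)
      (L₂.zpow_mem ha₂L j) (L₁.zpow_mem ha₁L i) hx' h2
  · exact iso_key hp hcore hrank hx hiso P hxP hF h₁ h₂ hne12 (a₁ ^ i) (a₂ ^ j)
      (L₁.zpow_mem ha₁L i) (L₂.zpow_mem ha₂L j) hij h1

end Cfsg.Agent.S3049
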