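import Cfsg.Statements.S3059
-- import your own Cfsg.Agent.* helpers here
import Cfsg.Agent.Lib.helper15.SylGen

set_option autoImplicit false
open Cfsg

namespace Cfsg.Agent.S3059

/-- Let p be a prime and H a strongly p-embedded subgroup of the finite group G in the classical sense: H is proper, p divides the order of H, and H ∩ gHg⁻¹ has order prime to p for every g outside H. Then for every normal subgroup N of G of order divisible by p, G = H · O^p(N), where O^p(N) is the subgroup generated by the elements of N of order prime to p. -/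
theorem result {G : Type*} [Group G] [Finite G]
    (p : ℕ) [Fact p.Prime] (H : Subgroup G) (hH : H ≠ ⊤) (hpH : p ∣ Nat.card H)
    (hse : ∀ g : G, g ∉ H → ¬ p ∣ Nat.card ↥(H ⊓ H.map (MulAut.conj g).toMonoidHom))
    (N : Subgroup G) [N.Normal] (hN : p ∣ Nat.card N) :
    H ⊔ Subgroup.closure {g : G | g ∈ N ∧ (orderOf g).Coprime p} = ⊤ := by
  obtain ⟨S, hSH⟩ := Cfsg.Agent.Lib.helper15.se_exists_sylow_le' p H hpH hse
  obtain ⟨hfr, Q, hQ⟩ := Cfsg.Agent.Lib.helper15.frattini_inf S N
  have hT1 : (S : Subgroup G) ⊓ N ≠ ⊥ := by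
    intro h0
    rw [h0] at hQ
    have hc : Nat.card ((Q : Subgroup ↥N).map N.subtype) = Nat.card Q :=
      Subgroup.card_map_of_injective N.subtype_injective
    rw [hQ, Subgroup.card_bot] at hc
    have h1 : 1 ≤ (Nat.card N).factorization p :=
      (Nat.Prime.dvd_iff_one_le_factorization Fact.out Nat.card_pos.ne').mp hN
    have h2 := Q.card_eq_multiplicity
    rw [← hc] at h2
    have h3 : p ∣ 1 := by
      rw [h2]; exact dvd_pow_self p (by omega)
    exact (Fact.out : p.Prime).one_lt.ne' (Nat.dvd_one.mp h3)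
  have hTp : IsPGroup p ↥((S : Subgroup G) ⊓ N) := S.isPGroup'.to_le inf_le_left
  have hTH : (S : Subgroup G) ⊓ N ≤ H := inf_le_left.trans hSH
  have hnorm := Cfsg.Agent.Lib.helper15.se_normalizer_le p H hse _ hTp hTH hT1
  have hHN : H ⊔ N = ⊤ := by
    rw [eq_top_iff, ← hfr]
    exact sup_le_sup_right hnorm N
  have hNle := Cfsg.Agent.Lib.helper15.le_pprime_closure_sup_sylow p N Q
  rw [hQ] at hNle
  rw [eq_top_iff, ← hHN]
  apply sup_le le_sup_left
  exact hNle.trans (sup_le le_sup_right (hTH.trans le_sup_left))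


end Cfsg.Agent.S3059
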