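import Cfsg.Statements.S3057
-- import your own Cfsg.Agent.* helpers here
import Cfsg.Agent.S3056
import Cfsg.Agent.S3059
import Cfsg.Agent.S0016
import Cfsg.Agent.S1324
import Cfsg.Agent.Lib.helper15.SylGen
import Cfsg.Agent.Lib.helper15.Rank1
import Cfsg.Agent.Lib.helper15.PCore
import Cfsg.Agent.Lib.helper9.PPrimeCore
import Cfsg.Agent.Lib.helper10.PSolv2

set_option autoImplicit false
open Cfsg

namespace Cfsg.Agent.S3057

open Cfsg.Agent.Lib.helper15 Cfsg.Agent.Lib.helper9 Cfsg.Agent.Lib.helper10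

/-- In a `p`-solvable group with a strongly `p`-embedded subgroup `H` (classical form), a
Sylow `p`-subgroup inside `H` has only one subgroup of order `p`. -/
theorem uniq_of_se {G : Type*} [Group G] [Finite G] (p : ℕ) [Fact p.Prime]
    (hdiv : p ∣ Nat.card G) (hsol : Cfsg.IsPSolvable p G) (H : Subgroup G) (hHtop : H ≠ ⊤)
    (hpH : p ∣ Nat.card H)
    (hse : ∀ g : G, g ∉ H → ¬ p ∣ Nat.card ↥(H ⊓ H.map (MulAut.conj g).toMonoidHom))
    (S : Sylow p G) (hSH : (S : Subgroup G) ≤ H) :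
    ∀ A B : Subgroup ↥(S : Subgroup G), Nat.card A = p → Nat.card B = p → A = B := by
  have hp : p.Prime := Fact.out
  by_contra hcon
  apply hHtop
  obtain ⟨E, hES, hEA, hE2⟩ := exists_elemAb_of_not_unique (S : Subgroup G) S.2 hcon
  have hloc : ∀ Q : Subgroup G, Q ≤ (S : Subgroup G) → Q ≠ ⊥ →
      Subgroup.normalizer (Q : Set G) ≤ H := fun Q hQS hQ1 =>
    se_normalizer_le p H hse Q (S.2.to_le hQS) (hQS.trans hSH) hQ1
  have hKn : (Cfsg.pPrimeCore p G).Normal := ppc_normal p G
  have hKcop : (Nat.card ↥(Cfsg.pPrimeCore p G)).Coprime p := pPrimeCore_coprime p G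
  have hKp : ¬ p ∣ Nat.card ↥(Cfsg.pPrimeCore p G) :=
    (Nat.Prime.coprime_iff_not_dvd hp).mp hKcop.symm
  -- the p'-core lies in H
  have hKH : Cfsg.pPrimeCore p G ≤ H := by
    have hnorm : E ≤ Subgroup.normalizer ((Cfsg.pPrimeCore p G : Subgroup G) : Set G) := by
      rw [Subgroup.normalizer_eq_top]; exact le_top
    have hgen := Cfsg.Agent.S1324.result p E (Cfsg.pPrimeCore p G) hEA hE2 hKp hnorm
    rw [hgen]
    apply iSup_le
    rintro ⟨B, hBE, hBp⟩
    have hB1 : B ≠ ⊥ := by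
      rintro rfl
      rw [Subgroup.relIndex_bot_left] at hBp
      have : p < p ^ 2 := by
        calc p = p ^ 1 := (pow_one p).symm
          _ < p ^ 2 := Nat.pow_lt_pow_right hp.one_lt (by norm_num)
      omega
    exact inf_le_right.trans ((Subgroup.centralizer_le_normalizer _).trans
      (hloc B (hBE.trans hES) hB1))
  -- the quotient by the p'-core has a nontrivial normal p-subgroup
  have hKtop : Cfsg.pPrimeCore p G ≠ ⊤ := by
    intro h
    apply hKp
    rw [h, Subgroup.card_top]; exact hdiv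
  have hnt : Nontrivial (G ⧸ Cfsg.pPrimeCore p G) := by
    rw [← Finite.one_lt_card_iff_nontrivial, ← Subgroup.index_eq_card]
    have h1 : (Cfsg.pPrimeCore p G).index ≠ 1 := fun h => hKtop (Subgroup.index_eq_one.mp h)
    have h2 : (Cfsg.pPrimeCore p G).index ≠ 0 := Subgroup.index_ne_zero_of_finite
    omega
  obtain ⟨Mb, hMn, hM1, hMcase⟩ :=
    exists_normal_of_pSolvable (pSolvable_quotient hsol (Cfsg.pPrimeCore p G))
  have hMp : IsPGroup p ↥Mb := by
    rcases hMcase with h | h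
    · exact h
    · exfalso
      apply hM1
      have h1 : Mb ≤ Cfsg.pPrimeCore p (G ⧸ Cfsg.pPrimeCore p G) := le_pPrimeCore hMn h
      rw [pPrimeCore_quotient_eq_bot] at h1
      exact le_bot_iff.mp h1
  set L : Subgroup G := Mb.comap (QuotientGroup.mk' (Cfsg.pPrimeCore p G)) with hL
  have hLn : L.Normal := Subgroup.Normal.comap hMn _
  have hLdvd : p ∣ Nat.card ↥L := by
    obtain ⟨k, hk⟩ := IsPGroup.iff_card.mp hMp
    have hk0 : k ≠ 0 := by
      rintro rfl
      rw [pow_zero] at hk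
      exact hM1 (Subgroup.card_eq_one.mp hk)
    have hdvd : p ∣ Nat.card ↥Mb := by rw [hk]; exact dvd_pow_self p hk0
    obtain ⟨y, hy⟩ := exists_prime_orderOf_dvd_card' p hdvd
    obtain ⟨g, hg⟩ := QuotientGroup.mk'_surjective (Cfsg.pPrimeCore p G) (y : G ⧸ Cfsg.pPrimeCore p G)
    have hgL : g ∈ L := by
      rw [hL, Subgroup.mem_comap, hg]; exact y.2
    have h1 : orderOf (y : G ⧸ Cfsg.pPrimeCore p G) ∣ orderOf g := by
      rw [← hg]; exact orderOf_map_dvd _ g
    have h2 : orderOf g ∣ Nat.card ↥L := by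
      have : orderOf (⟨g, hgL⟩ : ↥L) ∣ Nat.card ↥L := orderOf_dvd_natCard _
      rwa [Subgroup.orderOf_mk] at this
    rw [Subgroup.orderOf_coe, hy] at h1
    exact h1.trans h2
  have hfac := Cfsg.Agent.S3059.result p H hHtop hpH hse L hLdvd
  rw [eq_top_iff, ← hfac]
  apply sup_le le_rfl
  apply (Subgroup.closure_le _).mpr
  rintro g ⟨hgL, hgcop⟩
  apply hKH
  have hmem : QuotientGroup.mk' (Cfsg.pPrimeCore p G) g ∈ Mb := hgL
  have hcop' : (orderOf (QuotientGroup.mk' (Cfsg.pPrimeCore p G) g)).Coprime p :=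
    Nat.Coprime.coprime_dvd_left (orderOf_map_dvd _ g) hgcop
  have h1 := eq_one_of_mem_pgroup_of_coprime hMp hmem hcop'
  exact (QuotientGroup.eq_one_iff g).mp h1

/-- Let p be a prime and G a finite p-solvable group of order divisible by p, with Sylow p-subgroup P. Then the Sylow p-subgroups of G fail to be chain-connected through nontrivial intersections (equivalently, G has a strongly p-embedded subgroup) if and only if O_p(G) = 1 and P is cyclic or, for p = 2, generalized quaternion. -/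
theorem result {G : Type*} [Group G] [Finite G]
    (p : ℕ) [Fact p.Prime] (hdiv : p ∣ Nat.card G) (hsol : Cfsg.IsPSolvable p G) (P : Sylow p G) :
    ¬ Cfsg.IsSylowChainConnected p G ↔
      Cfsg.pCore p G = ⊥ ∧ (IsCyclic ↥P ∨ (p = 2 ∧ ∃ n : ℕ, Nonempty (↥P ≃* QuaternionGroup (2 ^ n)))) := by
  have hp : p.Prime := Fact.out
  constructor
  · intro hnc
    obtain ⟨H, hHtop, hpH, hse⟩ := (Cfsg.Agent.S3056.result p).mp hnc
    obtain ⟨S, hSH⟩ := se_exists_sylow_le' p H hpH hse
    constructor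
    · by_contra hne
      apply hHtop
      have h1 := se_normalizer_le p H hse (Cfsg.pCore p G) (pCore_isPGroup p G)
        ((pCore_le_sylow S).trans hSH) hne
      have hn : (Cfsg.pCore p G).Normal := pCore_normal p G
      rw [Subgroup.normalizer_eq_top] at h1
      exact top_le_iff.mp h1
    · have huniq := uniq_of_se p hdiv hsol H hHtop hpH hse S hSH
      have hcase := Cfsg.Agent.S0016.result p S.2 huniq
      obtain ⟨g, rfl⟩ := MulAction.exists_smul_eq G S P
      have e := S.equivSMul g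
      rcases hcase with h | ⟨h2, n, ⟨f⟩⟩
      · left
        exact (MulEquiv.isCyclic e).mp h
      · right
        exact ⟨h2, n, ⟨e.symm.trans f⟩⟩
  · rintro ⟨hO, hcase⟩
    have hP1 : (P : Subgroup G) ≠ ⊥ := P.ne_bot_of_dvd_card hdiv
    have hex : ∃ Z : Subgroup G, Z ≤ (P : Subgroup G) ∧ Nat.card Z = p ∧
        ∀ x ∈ (P : Subgroup G), x ^ p = 1 → x ∈ Z := by
      rcases hcase with h | ⟨h2, n, ⟨f⟩⟩
      · exact uniq_of_cyclic (P : Subgroup G) P.2 hP1 h
      · subst h2
        exact uniq_of_quat (P : Subgroup G) (2 ^ n) (by positivity) f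
    obtain ⟨Z, hZP, hZc, hZ⟩ := hex
    have hZn : ¬ Z.Normal := by
      intro hn
      have h1 : Z ≤ Cfsg.pCore p G := le_pCore hn (P.2.to_le hZP)
      rw [hO] at h1
      have h2 : Z = ⊥ := le_bot_iff.mp h1
      rw [h2, Subgroup.card_bot] at hZc
      exact hp.one_lt.ne hZc
    obtain ⟨h1, h2, h3⟩ := se_of_uniq P Z hZP hZc hZ hZn
    exact (Cfsg.Agent.S3056.result p).mpr ⟨_, h1, h2, h3⟩


end Cfsg.Agent.S3057
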