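import Cfsg.Statements.S3072
-- import your own Cfsg.Agent.* helpers here
import Cfsg.Agent.Lib.helper15.AGMain

set_option autoImplicit false
open Cfsg

namespace Cfsg.Agent.S3072

/-- A strong form of the Alperin–Goldschmidt fusion Theorem. Let P be a Sylow p-subgroup of the finite group G, A a subset of P containing a nonidentity element, and g an element with g⁻¹Ag ⊆ P. Then g = c·x₁⋯xₙ·y with c ∈ C_G(A), y ∈ N_G(P) and, for each i, an element xᵢ and a subgroup Hᵢ ≤ P such that: N_P(Hᵢ) is a Sylow p-subgroup of N_G(Hᵢ); C_P(Hᵢ) ≤ Hᵢ; O_{p',p}(N_G(Hᵢ)) = Hᵢ·C_G(Hᵢ); the Sylow p-subgroups of N_G(Hᵢ)/Hᵢ are not chain-connected through nontrivial intersections (the quotient has a strongly p-embedded subgroup); xᵢ lies in O^p(Xᵢ), where Xᵢ/Hᵢ is the smallest normal subgroup of N_G(Hᵢ)/Hᵢ of order divisible by p; and (x₁⋯xᵢ₋₁)⁻¹A(x₁⋯xᵢ₋₁) ⊆ Hᵢ. -/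
theorem result {G : Type*} [Group G] [Finite G] {p : ℕ} [Fact p.Prime]
    (P : Sylow p G) (A : Set G) (hA : A ⊆ (P : Set G)) (hA1 : ∃ a ∈ A, a ≠ 1)
    (g : G) (hAg : (fun a => g⁻¹ * a * g) '' A ⊆ (P : Set G)) :
    ∃ (n : ℕ) (H X : Fin n → Subgroup G) (x : Fin n → G) (c y : G),
      c ∈ Subgroup.centralizer A ∧ y ∈ Subgroup.normalizer ((P : Subgroup G) : Set G) ∧
      g = c * (List.ofFn x).prod * y ∧
      ∀ i : Fin n,
        H i ≤ (P : Subgroup G) ∧
        ¬ p ∣ ((P : Subgroup G) ⊓ Subgroup.normalizer (H i : Set G)).relIndex (Subgroup.normalizer (H i : Set G)) ∧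
        (P : Subgroup G) ⊓ Subgroup.centralizer (H i : Set G) ≤ H i ∧
        (Cfsg.pPrimePCore p ↥(Subgroup.normalizer (H i : Set G))).map (Subgroup.normalizer (H i : Set G)).subtype =
          H i ⊔ Subgroup.centralizer (H i : Set G) ∧
        ¬ Cfsg.IsSylowChainConnected p
            (↥(Subgroup.normalizer (H i : Set G)) ⧸ (H i).subgroupOf (Subgroup.normalizer (H i : Set G))) ∧
        (H i ≤ X i ∧ X i ≤ Subgroup.normalizer (H i : Set G) ∧
          ((X i).subgroupOf (Subgroup.normalizer (H i : Set G))).Normal ∧ p ∣ (H i).relIndex (X i) ∧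
          ∀ Y : Subgroup G, H i ≤ Y → Y ≤ Subgroup.normalizer (H i : Set G) →
            (Y.subgroupOf (Subgroup.normalizer (H i : Set G))).Normal → p ∣ (H i).relIndex Y → X i ≤ Y) ∧
        x i ∈ (Cfsg.pResidual p ↥(X i)).map (X i).subtype ∧
        (fun a => (((List.ofFn x).take i.val).prod)⁻¹ * a * ((List.ofFn x).take i.val).prod) '' A ⊆ (H i : Set G) := by
  classical
  have hcl : Subgroup.closure A ≤ (P : Subgroup G) := (Subgroup.closure_le _).2 hA
  have hcl2 : ∀ a ∈ Subgroup.closure A, g⁻¹ * a * g ∈ (P : Subgroup G) := by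
    intro a ha
    refine Subgroup.closure_induction (p := fun a _ => g⁻¹ * a * g ∈ (P : Subgroup G))
      ?_ ?_ ?_ ?_ ha
    · intro x hx
      exact hAg ⟨x, hx, rfl⟩
    · have e : g⁻¹ * 1 * g = 1 := by group
      rw [e]; exact one_mem _
    · intro x y _ _ hx hy
      have e : g⁻¹ * (x * y) * g = (g⁻¹ * x * g) * (g⁻¹ * y * g) := by group
      rw [e]; exact mul_mem hx hy
    · intro x _ hx
      have e : g⁻¹ * x⁻¹ * g = (g⁻¹ * x * g)⁻¹ := by group
      rw [e]; exact inv_mem hx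
  have hgood := (Cfsg.Agent.Lib.helper15.AG.main P _ (Subgroup.closure A) hcl rfl g hcl2).mono
    (Subgroup.subset_closure : A ⊆ _)
  obtain ⟨c, w, y, hc, hw, hy, rfl⟩ := hgood
  obtain ⟨n, T, x, hprod, hall⟩ := hw.exists_chain
  have hSt : ∀ i : Fin n, ∃ X : Subgroup G,
      Cfsg.Agent.Lib.helper15.AG.Ess p (P : Subgroup G) (T i) X ∧
        x i ∈ (Cfsg.pResidual p ↥X).map X.subtype := fun i => (hall i).1
  choose X hX hxX using hSt
  refine ⟨n, T, X, x, c, y, hc, hy, by rw [hprod], fun i => ?_⟩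
  obtain ⟨h1, h2, h3, h4, h5, h6⟩ := hX i
  exact ⟨h1, h2, h3, h4, h5, h6, hxX i, (hall i).2⟩


end Cfsg.Agent.S3072
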