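import Cfsg.Statements.S3074
import Mathlib
import Cfsg.Agent.Lib.helper20.Extraspecial
import Cfsg.Agent.Lib.helper15.QdMat
import Cfsg.Agent.Lib.helper2.SLCard

set_option autoImplicit false
open Cfsg

namespace Cfsg.Agent.S3074

open Cfsg.Agent.Lib.helper15 Cfsg.Agent.Lib.helper15.Qd Cfsg.Agent.Lib.helper20.Extraspecial
open scoped Pointwise

section
variable {F : Type*} [Field F]

/-- upper unitriangular element of SL2 -/
def u (a : F) : Dk.SL2 F := ⟨!![1, a; 0, 1], by simp [Matrix.det_fin_two_of]⟩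

theorem u_mul (a b : F) : u a * u b = u (a + b) := by
  apply Subtype.ext
  rw [Matrix.SpecialLinearGroup.coe_mul]
  ext i j
  fin_cases i <;> fin_cases j <;> simp [u, Matrix.mul_apply, Fin.sum_univ_two, add_comm]

theorem u_zero : u (0 : F) = 1 := by
  apply Subtype.ext; ext i j; fin_cases i <;> fin_cases j <;> simp [u]

theorem u_inv (a : F) : (u a)⁻¹ = u (-a) := by
  apply inv_eq_of_mul_eq_one_right; rw [u_mul, add_neg_cancel, u_zero]

theorem u_inj {a b : F} (h : u a = u b) : a = b := by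
  have := congrArg (fun g : Dk.SL2 F => (g : Matrix (Fin 2) (Fin 2) F) 0 1) h
  simpa [u] using this

end

theorem aff_u_pow (p : ℕ) [Fact p.Prime] (hp : p ≠ 2) (a : ZMod p) (t : Fin 2 → ZMod p) :
    (aff (u a) t) ^ p = 1 := by
  apply Subtype.ext
  rw [Matrix.SpecialLinearGroup.coe_pow, aff_val, Matrix.SpecialLinearGroup.coe_one]
  obtain ⟨N, hN⟩ : ∃ N : Matrix (Fin 3) (Fin 3) (ZMod p),
      N = !![0, a, t 0; 0, 0, t 1; 0, 0, 0] := ⟨_, rfl⟩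
  have h1 : blkM ((u a : Dk.SL2 (ZMod p)) : Matrix (Fin 2) (Fin 2) (ZMod p)) t = 1 + N := by
    rw [hN]; ext i j; fin_cases i <;> fin_cases j <;> simp [blkM, u]
  have hN3 : N ^ 3 = 0 := by
    rw [hN]; ext i j
    fin_cases i <;> fin_cases j <;> simp [pow_succ, Matrix.mul_apply, Fin.sum_univ_three]
  have hp3 : 3 ≤ p := by
    have := (Fact.out : p.Prime).two_le
    omega
  have hNp : N ^ p = 0 := by
    have h3 : N ^ p = N ^ 3 * N ^ (p - 3) := by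
      rw [← pow_add]; congr 1; omega
    rw [h3, hN3, zero_mul]
  rw [h1, add_pow_char_of_commute p (Commute.one_left N), one_pow, hNp, add_zero]

section
variable (p : ℕ) [Fact p.Prime]

/-- elements of the standard Sylow subgroup -/
def el (a : ZMod p) (t : Fin 2 → ZMod p) : ↥(Cfsg.qd p) := ⟨aff (u a) t, aff_mem_qd p _ _⟩

/-- the standard Sylow subgroup -/
def U0 : Subgroup ↥(Cfsg.qd p) where
  carrier := {x | ∃ a t, x = el p a t}
  mul_mem' := by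
    rintro _ _ ⟨a, t, rfl⟩ ⟨b, s, rfl⟩
    refine ⟨a + b, ((u a : Dk.SL2 (ZMod p)) : Matrix (Fin 2) (Fin 2) (ZMod p)).mulVec s + t, ?_⟩
    apply Subtype.ext
    show aff (u a) t * aff (u b) s = aff (u (a + b)) _
    rw [aff_mul, u_mul]
  one_mem' := ⟨0, 0, by
    apply Subtype.ext
    show (1 : Matrix.SpecialLinearGroup (Fin 3) (ZMod p)) = aff (u 0) 0
    rw [u_zero, aff_one]⟩
  inv_mem' := by
    rintro _ ⟨a, t, rfl⟩
    refine ⟨-a, -(((u (-a) : Dk.SL2 (ZMod p)) : Matrix (Fin 2) (Fin 2) (ZMod p)).mulVec t), ?_⟩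
    apply Subtype.ext
    show (aff (u a) t)⁻¹ = aff (u (-a)) _
    rw [aff_inv, u_inv]

theorem card_U0 : Nat.card ↥(U0 p) = p ^ 3 := by
  have hinj : Function.Injective (fun x : ZMod p × (Fin 2 → ZMod p) =>
      (⟨el p x.1 x.2, ⟨x.1, x.2, rfl⟩⟩ : ↥(U0 p))) := by
    rintro ⟨a, t⟩ ⟨b, s⟩ h
    have h1 : aff (u a) t = aff (u b) s :=
      congrArg (fun x : ↥(U0 p) =>
        ((x : ↥(Cfsg.qd p)) : Matrix.SpecialLinearGroup (Fin 3) (ZMod p))) h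
    obtain ⟨h2, h3⟩ := aff_inj h1
    rw [u_inj h2, h3]
  have hsurj : Function.Surjective (fun x : ZMod p × (Fin 2 → ZMod p) =>
      (⟨el p x.1 x.2, ⟨x.1, x.2, rfl⟩⟩ : ↥(U0 p))) := by
    rintro ⟨_, a, t, rfl⟩
    exact ⟨(a, t), rfl⟩
  rw [← Nat.card_congr (Equiv.ofBijective _ ⟨hinj, hsurj⟩), Nat.card_prod,
    Nat.card_eq_fintype_card, ZMod.card, Nat.card_eq_fintype_card, Fintype.card_fun, ZMod.card,
    Fintype.card_fin]
  ring

theorem card_qd : Nat.card ↥(Cfsg.qd p) = p ^ 3 * (p ^ 2 - 1) := by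
  have hinj : Function.Injective (fun x : Dk.SL2 (ZMod p) × (Fin 2 → ZMod p) =>
      (⟨aff x.1 x.2, aff_mem_qd p _ _⟩ : ↥(Cfsg.qd p))) := by
    rintro ⟨A, t⟩ ⟨B, s⟩ h
    have h1 : aff A t = aff B s := congrArg Subtype.val h
    obtain ⟨h2, h3⟩ := aff_inj h1
    rw [h2, h3]
  have hsurj : Function.Surjective (fun x : Dk.SL2 (ZMod p) × (Fin 2 → ZMod p) =>
      (⟨aff x.1 x.2, aff_mem_qd p _ _⟩ : ↥(Cfsg.qd p))) := by
    rintro ⟨M, hM⟩
    obtain ⟨A, t, rfl⟩ := exists_aff_of_mem_qd p M hM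
    exact ⟨(A, t), rfl⟩
  rw [← Nat.card_congr (Equiv.ofBijective _ ⟨hinj, hsurj⟩), Nat.card_prod]
  have h1 := Cfsg.Agent.Lib.helper2.SLCard.card_SL (ZMod p) 2 (by norm_num)
  rw [ZMod.card, Fin.prod_univ_two] at h1
  have hp2 : 2 ≤ p := (Fact.out : p.Prime).two_le
  have h2 : Nat.card (Fin 2 → ZMod p) = p ^ 2 := by
    rw [Nat.card_eq_fintype_card, Fintype.card_fun, ZMod.card, Fintype.card_fin]
  rw [h2]
  have h4 : p ^ 2 - p = p * (p - 1) := by rw [Nat.mul_sub, mul_one, pow_two]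
  have h3 : (p - 1) * (Nat.card (Dk.SL2 (ZMod p)) * p ^ 2) = (p - 1) * (p ^ 3 * (p ^ 2 - 1)) := by
    calc (p - 1) * (Nat.card (Dk.SL2 (ZMod p)) * p ^ 2)
        = ((p - 1) * Nat.card (Dk.SL2 (ZMod p))) * p ^ 2 := by ring
      _ = ((p ^ 2 - 1) * (p ^ 2 - p)) * p ^ 2 := by rw [h1]; simp
      _ = (p - 1) * (p ^ 3 * (p ^ 2 - 1)) := by rw [h4]; ring
  exact Nat.eq_of_mul_eq_mul_left (by omega) h3

theorem not_dvd : ¬ p ∣ p ^ 2 - 1 := by
  intro h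
  have hp2 : 2 ≤ p := (Fact.out : p.Prime).two_le
  have h1 : p ∣ p ^ 2 := dvd_pow_self p (by norm_num)
  have h2 : p ∣ p ^ 2 - (p ^ 2 - 1) := Nat.dvd_sub h1 h
  have h3 : p ^ 2 - (p ^ 2 - 1) = 1 := by
    have : 1 ≤ p ^ 2 := Nat.one_le_pow _ _ (by omega)
    omega
  rw [h3] at h2
  have := Nat.le_of_dvd (by norm_num) h2
  omega

end

/-- Let p be an odd prime. A Sylow p-subgroup of Qd(p), the split extension of an elementary abelian group of order p² by SL₂(p) acting naturally, is extraspecial of order p³ and exponent p. -/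
theorem result (p : ℕ) [Fact p.Prime] (hp : p ≠ 2) (P : Sylow p ↥(Cfsg.qd p)) :
    Cfsg.IsExtraspecial p ↥P ∧ Nat.card P = p ^ 3 ∧ Monoid.exponent ↥P = p := by
  have hcardP : ∀ Q : Sylow p ↥(Cfsg.qd p), Nat.card (Q : Subgroup ↥(Cfsg.qd p)) = p ^ 3 :=
    fun Q => Cfsg.Agent.Lib.helper2.SLCard.sylow_card_of_eq Q 3 (p ^ 2 - 1) (not_dvd p) (card_qd p)
  have hU : IsPGroup p ↥(U0 p) := IsPGroup.of_card (card_U0 p)
  obtain ⟨P₀, hP₀⟩ := hU.exists_le_sylow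
  have hUP : U0 p = (P₀ : Subgroup ↥(Cfsg.qd p)) :=
    Subgroup.eq_of_le_of_card_ge hP₀ (by rw [hcardP, card_U0])
  obtain ⟨g, hg⟩ := MulAction.exists_smul_eq ↥(Cfsg.qd p) P₀ P
  have hPg : (P : Subgroup ↥(Cfsg.qd p)) = MulAut.conj g • (U0 p) := by
    rw [hUP, ← Sylow.coe_subgroup_smul, hg]
  have hmem : ∀ x : ↥(Cfsg.qd p), x ∈ (P : Subgroup ↥(Cfsg.qd p)) ↔ g⁻¹ * x * g ∈ U0 p := by
    intro x
    rw [hPg, Subgroup.mem_pointwise_smul_iff_inv_smul_mem]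
    simp [MulAut.smul_def]
  have hpowU : ∀ y ∈ U0 p, y ^ p = 1 := by
    rintro _ ⟨a, t, rfl⟩
    apply Subtype.ext
    rw [Subgroup.coe_pow]
    exact aff_u_pow p hp a t
  have hpow : ∀ x : ↥(P : Subgroup ↥(Cfsg.qd p)), x ^ p = 1 := by
    intro x
    have h1 := hpowU _ ((hmem x.1).mp x.2)
    apply Subtype.ext
    rw [Subgroup.coe_pow, Subgroup.coe_one]
    have h2 : (x : ↥(Cfsg.qd p)) = g * (g⁻¹ * x * g) * g⁻¹ := by group
    rw [h2, conj_pow, h1]; group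
  have hna : ∃ a b : ↥(P : Subgroup ↥(Cfsg.qd p)), a * b ≠ b * a := by
    have m1 : g * el p 1 0 * g⁻¹ ∈ (P : Subgroup ↥(Cfsg.qd p)) := by
      rw [hmem]
      have e : g⁻¹ * (g * el p 1 0 * g⁻¹) * g = el p 1 0 := by group
      rw [e]; exact ⟨1, 0, rfl⟩
    have m2 : g * el p 0 ![0, 1] * g⁻¹ ∈ (P : Subgroup ↥(Cfsg.qd p)) := by
      rw [hmem]
      have e : g⁻¹ * (g * el p 0 ![0, 1] * g⁻¹) * g = el p 0 ![0, 1] := by group
      rw [e]; exact ⟨0, ![0, 1], rfl⟩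
    refine ⟨⟨_, m1⟩, ⟨_, m2⟩, ?_⟩
    intro h
    have h1 : g * el p 1 0 * g⁻¹ * (g * el p 0 ![0, 1] * g⁻¹) =
        g * el p 0 ![0, 1] * g⁻¹ * (g * el p 1 0 * g⁻¹) := congrArg Subtype.val h
    have h2 : el p 1 0 * el p 0 ![0, 1] = el p 0 ![0, 1] * el p 1 0 := by
      have e1 : el p 1 0 * el p 0 ![0, 1] =
          g⁻¹ * (g * el p 1 0 * g⁻¹ * (g * el p 0 ![0, 1] * g⁻¹)) * g := by group
      have e2 : el p 0 ![0, 1] * el p 1 0 =
          g⁻¹ * (g * el p 0 ![0, 1] * g⁻¹ * (g * el p 1 0 * g⁻¹)) * g := by group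
      rw [e1, e2, h1]
    have h3 : aff (u (1 : ZMod p)) 0 * aff (u 0) ![0, 1] = aff (u 0) ![0, 1] * aff (u 1) 0 :=
      congrArg Subtype.val h2
    rw [aff_mul, aff_mul] at h3
    obtain ⟨-, h4⟩ := aff_inj h3
    have h5 := congrFun h4 0
    simp [u, Matrix.mulVec, dotProduct, Fin.sum_univ_two] at h5
  obtain ⟨h1, h2⟩ := extraspecial_p3 (hcardP P) hna hpow
  exact ⟨h1, hcardP P, h2⟩

end Cfsg.Agent.S3074
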