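import Cfsg.Statements.S3087
-- import your own Cfsg.Agent.* helpers here

set_option autoImplicit false
open Cfsg

namespace Cfsg.Agent.S3087

/-- Let p be a prime, G a finite group acting linearly on a finite vector space V over the field with p elements, W a G-invariant subspace, and A a subgroup of G with |A|·|C_V(A)| ≥ |B|·|C_V(B)| for every subgroup B of A. Then |A|·|C_W(A)| ≥ |B|·|C_W(B)| for every subgroup B of A that contains C_A(W); that is, the image of A in the group induced on W satisfies the same maximality condition. -/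
theorem result {G V : Type*} [Group G] [Finite G] [AddCommGroup V] [Finite V] (p : ℕ) [Fact p.Prime] [Module (ZMod p) V]
    (ρ : Representation (ZMod p) G V) (W : Submodule (ZMod p) V) (hW : ∀ g : G, ∀ w ∈ W, ρ g w ∈ W)
    (A : Subgroup G)
    (hP : ∀ B : Subgroup G, B ≤ A →
      Nat.card ↥B * Nat.card {v : V // ∀ b ∈ B, ρ b v = v} ≤ Nat.card ↥A * Nat.card {v : V // ∀ a ∈ A, ρ a v = v})
    (B : Subgroup G) (hBA : B ≤ A) (hCB : ∀ a ∈ A, (∀ w ∈ W, ρ a w = w) → a ∈ B) :
    Nat.card ↥B * Nat.card {w : W // ∀ b ∈ B, ρ b w = w} ≤ Nat.card ↥A * Nat.card {w : W // ∀ a ∈ A, ρ a w = w} := by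
  classical
  let F : Subgroup G → AddSubgroup V := fun C =>
    { carrier := {v | ∀ c ∈ C, ρ c v = v}
      add_mem' := by
        intro a b ha hb c hc
        rw [map_add, ha c hc, hb c hc]
      zero_mem' := by
        intro c hc
        rw [map_zero]
      neg_mem' := by
        intro a ha c hc
        rw [map_neg, ha c hc] }
  let W' : AddSubgroup V := W.toAddSubgroup
  have key : ∀ C : Subgroup G, Nat.card ↥(W' ⊓ F C) * W'.relIndex (F C) = Nat.card ↥(F C) := by
    intro C
    have h1 := AddSubgroup.card_mul_index (W'.addSubgroupOf (F C))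
    have h2 : Nat.card ↥(W'.addSubgroupOf (F C)) = Nat.card ↥(W' ⊓ F C) := by
      rw [← AddSubgroup.inf_addSubgroupOf_right]
      exact Nat.card_congr (AddSubgroup.addSubgroupOfEquivOfLe inf_le_right).toEquiv
    rw [h2] at h1
    exact h1
  have e1 : ∀ C : Subgroup G, Nat.card {v : V // ∀ c ∈ C, ρ c v = v} = Nat.card ↥(F C) := fun C => rfl
  have e2 : ∀ C : Subgroup G, Nat.card {w : W // ∀ c ∈ C, ρ c w = w} = Nat.card ↥(W' ⊓ F C) := by
    intro C
    exact Nat.card_congr ⟨fun w => ⟨w.1.1, w.1.2, w.2⟩, fun v => ⟨⟨v.1, v.2.1⟩, v.2.2⟩,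
      fun w => rfl, fun v => rfl⟩
  have hle : F A ≤ F B := fun v hv b hb => hv b (hBA hb)
  have hne : W'.relIndex (F B) ≠ 0 := by
    unfold AddSubgroup.relIndex
    exact AddSubgroup.index_ne_zero_of_finite
  have hrel : W'.relIndex (F A) ≤ W'.relIndex (F B) := AddSubgroup.relIndex_le_of_le_right hle hne
  have hpos : 0 < W'.relIndex (F B) := Nat.pos_of_ne_zero hne
  rw [e2, e2]
  have h1 := hP B hBA
  rw [e1, e1, ← key B, ← key A] at h1
  have h2 : Nat.card ↥B * Nat.card ↥(W' ⊓ F B) * W'.relIndex (F B)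
      ≤ Nat.card ↥A * Nat.card ↥(W' ⊓ F A) * W'.relIndex (F B) := by
    calc Nat.card ↥B * Nat.card ↥(W' ⊓ F B) * W'.relIndex (F B)
        = Nat.card ↥B * (Nat.card ↥(W' ⊓ F B) * W'.relIndex (F B)) := by ring
      _ ≤ Nat.card ↥A * (Nat.card ↥(W' ⊓ F A) * W'.relIndex (F A)) := h1
      _ = Nat.card ↥A * Nat.card ↥(W' ⊓ F A) * W'.relIndex (F A) := by ring
      _ ≤ Nat.card ↥A * Nat.card ↥(W' ⊓ F A) * W'.relIndex (F B) := Nat.mul_le_mul_left _ hrel
  exact Nat.le_of_mul_le_mul_right h2 hpos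

end Cfsg.Agent.S3087
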