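import Cfsg.Statements.S3155
import Mathlib

set_option autoImplicit false
open Cfsg

namespace Cfsg.Agent.S3155

/-- Let B be the direct product of three cyclic groups of order 4. Then the automorphism of B inverting every element is not the square of any automorphism of B. -/
theorem result {B : Type*} [CommGroup B] [Finite B] (hB : Nonempty (B ≃* Multiplicative (ZMod 4 × ZMod 4 × ZMod 4)))
    (τ : B ≃* B) : τ.trans τ ≠ MulEquiv.inv B := by
  obtain ⟨e⟩ := hB
  intro h
  have hττ : ∀ x : B, τ (τ x) = x⁻¹ := by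
    intro x
    have := congrArg (fun f : B ≃* B => f x) h
    simpa using this
  let φ : (ZMod 4 × ZMod 4 × ZMod 4) →+ (ZMod 4 × ZMod 4 × ZMod 4) :=
    { toFun := fun a => Multiplicative.toAdd (e (τ (e.symm (Multiplicative.ofAdd a))))
      map_zero' := by simp
      map_add' := by intro a b; simp [ofAdd_add, map_mul, toAdd_mul] }
  have hφ : ∀ a, φ (φ a) = -a := by
    intro a
    show Multiplicative.toAdd (e (τ (e.symm (Multiplicative.ofAdd
      (Multiplicative.toAdd (e (τ (e.symm (Multiplicative.ofAdd a))))))))) = -a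
    simp [hττ]
  have hnt : Fact (1 < 4) := ⟨by norm_num⟩
  let f : (ZMod 4 × ZMod 4 × ZMod 4) →ₗ[ZMod 4] (ZMod 4 × ZMod 4 × ZMod 4) := φ.toZModLinearMap 4
  have hf : f.comp f = (-1 : ZMod 4) • LinearMap.id := by
    ext a <;> simp [f, hφ]
  have hdet := congrArg LinearMap.det hf
  rw [LinearMap.det_comp, LinearMap.det_smul, LinearMap.det_id] at hdet
  have hrank : Module.finrank (ZMod 4) (ZMod 4 × ZMod 4 × ZMod 4) = 3 := by
    simp [Module.finrank_prod]
  rw [hrank] at hdet
  have key : ∀ d : ZMod 4, d * d ≠ (-1) ^ 3 * 1 := by decide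
  exact key _ hdet

end Cfsg.Agent.S3155
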