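import Cfsg.Statements.S3179
import Mathlib
import Cfsg.Agent.S0280
import Cfsg.Agent.Lib.helper25.SzStruct
import Cfsg.Agent.Lib.helper2.PSL2Small

set_option autoImplicit false
open Cfsg

namespace Cfsg.Agent.S3179

open Matrix

/-- first commuting element of order 3 -/
def mA : Matrix (Fin 5) (Fin 5) (ZMod 2) :=
  !![0,1,0,0,0; 1,1,0,0,0; 0,0,1,0,0; 0,0,0,1,0; 0,0,0,0,1]

/-- second commuting element of order 3 -/
def mB : Matrix (Fin 5) (Fin 5) (ZMod 2) :=
  !![1,0,0,0,0; 0,1,0,0,0; 0,0,0,1,0; 0,0,1,1,0; 0,0,0,0,1]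

theorem mA3 : mA * (mA * mA) = 1 := by decide
theorem mA3' : (mA * mA) * mA = 1 := by decide
theorem mB3 : mB * (mB * mB) = 1 := by decide
theorem mB3' : (mB * mB) * mB = 1 := by decide
theorem mAB : mA * mB = mB * mA := by decide

/-- as elements of the general linear group -/
def gA : GL (Fin 5) (ZMod 2) := ⟨mA, mA * mA, mA3, mA3'⟩
def gB : GL (Fin 5) (ZMod 2) := ⟨mB, mB * mB, mB3, mB3'⟩

theorem gA3 : gA ^ 3 = 1 := by
  apply Units.ext
  show (gA ^ 3 : GL (Fin 5) (ZMod 2)).val = 1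
  rw [Units.val_pow_eq_pow_val]
  show mA ^ 3 = 1
  decide

theorem gB3 : gB ^ 3 = 1 := by
  apply Units.ext
  show (gB ^ 3 : GL (Fin 5) (ZMod 2)).val = 1
  rw [Units.val_pow_eq_pow_val]
  show mB ^ 3 = 1
  decide

theorem gAB : Commute gA gB := by
  apply Units.ext
  show mA * mB = mB * mA
  exact mAB

theorem gA_ne : gA ≠ 1 := by
  intro h
  have := congrArg Units.val h
  exact absurd (show mA = 1 from this) (by decide)

theorem gA2_ne : gA ^ 2 ≠ 1 := by
  intro h
  have := congrArg Units.val h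
  rw [Units.val_pow_eq_pow_val] at this
  exact absurd (show mA ^ 2 = 1 from this) (by decide)

theorem gB_ne : gB ≠ 1 := by
  intro h
  have := congrArg Units.val h
  exact absurd (show mB = 1 from this) (by decide)

theorem gAB_ne : gA ≠ gB := by
  intro h
  have := congrArg Units.val h
  exact absurd (show mA = mB from this) (by decide)

theorem gA2B_ne : gA ^ 2 ≠ gB := by
  intro h
  have := congrArg Units.val h
  rw [Units.val_pow_eq_pow_val] at this
  exact absurd (show mA ^ 2 = mB from this) (by decide)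

theorem card_GL52 : Nat.card (GL (Fin 5) (ZMod 2)) = 9999360 := by
  rw [Matrix.card_GL_field]
  simp [Fin.prod_univ_five, ZMod.card]

theorem no_nine (y : GL (Fin 5) (ZMod 2)) (hy : orderOf y = 9) : False := by
  classical
  haveI : Fact (Nat.Prime 3) := ⟨by norm_num⟩
  have hcy : Nat.card (Subgroup.zpowers y) = 9 := by rw [Nat.card_zpowers, hy]
  have hpy : IsPGroup 3 (Subgroup.zpowers y) := IsPGroup.of_card (n := 2) (by rw [hcy]; norm_num)
  obtain ⟨S', hS'⟩ := hpy.exists_le_sylow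
  -- the order of S'
  have hS'card : Nat.card (S' : Subgroup (GL (Fin 5) (ZMod 2))) = 9 := by
    obtain ⟨k, hk⟩ := (IsPGroup.iff_card).mp S'.isPGroup'
    have h1 : Nat.card (S' : Subgroup (GL (Fin 5) (ZMod 2))) ∣ 9999360 := by
      rw [← card_GL52]; exact Subgroup.card_subgroup_dvd_card _
    have h2 : 9 ∣ Nat.card (S' : Subgroup (GL (Fin 5) (ZMod 2))) := by
      rw [← hcy]; exact Subgroup.card_dvd_of_le hS'
    rw [hk] at h1 h2 ⊢
    have hk2 : k ≤ 2 := by
      by_contra hlt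
      have h27 : 3 ^ 3 ∣ 3 ^ k := pow_dvd_pow 3 (by omega)
      have := h27.trans h1
      norm_num at this
    have hk2' : 2 ≤ k := by
      have h9 : 3 ^ 2 ∣ 3 ^ k := by simpa using h2
      exact (Nat.pow_dvd_pow_iff_le_right (by norm_num)).mp h9
    have : k = 2 := by omega
    subst this; norm_num
  have heq : Subgroup.zpowers y = (S' : Subgroup (GL (Fin 5) (ZMod 2))) :=
    Subgroup.eq_of_le_of_card_ge hS' (by rw [hS'card, hcy])
  have hcycS' : IsCyclic (S' : Subgroup (GL (Fin 5) (ZMod 2))) := by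
    rw [← heq]; infer_instance
  -- the noncyclic 3-group generated by gA and gB
  have hoA : orderOf gA = 3 := orderOf_eq_prime gA3 gA_ne
  have hoB : orderOf gB = 3 := orderOf_eq_prime gB3 gB_ne
  let f : (Subgroup.zpowers gA) × (Subgroup.zpowers gB) →* GL (Fin 5) (ZMod 2) :=
    MonoidHom.noncommCoprod (Subgroup.zpowers gA).subtype (Subgroup.zpowers gB).subtype (by
      rintro ⟨x, hx⟩ ⟨z, hz⟩
      obtain ⟨i, rfl⟩ := Subgroup.mem_zpowers_iff.mp hx
      obtain ⟨j, rfl⟩ := Subgroup.mem_zpowers_iff.mp hz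
      exact (gAB.zpow_zpow i j))
  have hdom : IsPGroup 3 ((Subgroup.zpowers gA) × (Subgroup.zpowers gB)) :=
    IsPGroup.of_card (n := 2) (by rw [Nat.card_prod, Nat.card_zpowers, Nat.card_zpowers, hoA, hoB]; norm_num)
  have hQ : IsPGroup 3 f.range := hdom.of_surjective f.rangeRestrict f.rangeRestrict_surjective
  have hAQ : gA ∈ f.range := ⟨(⟨gA, Subgroup.mem_zpowers gA⟩, 1), by simp [f]⟩
  have hBQ : gB ∈ f.range := ⟨(1, ⟨gB, Subgroup.mem_zpowers gB⟩), by simp [f]⟩
  obtain ⟨S, hS⟩ := hQ.exists_le_sylow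
  obtain ⟨g, hg⟩ := MulAction.exists_smul_eq (GL (Fin 5) (ZMod 2)) S' S
  have hcycS : IsCyclic (S : Subgroup (GL (Fin 5) (ZMod 2))) := by
    rw [← hg]
    exact isCyclic_of_surjective (Sylow.equivSMul S' g) (Sylow.equivSMul S' g).surjective
  have hAS : gA ∈ (S : Subgroup (GL (Fin 5) (ZMod 2))) := hS hAQ
  have hBS : gB ∈ (S : Subgroup (GL (Fin 5) (ZMod 2))) := hS hBQ
  have hle := IsCyclic.card_pow_eq_one_le (α := (S : Subgroup (GL (Fin 5) (ZMod 2)))) (n := 3) (by norm_num)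
  let a' : (S : Subgroup (GL (Fin 5) (ZMod 2))) := ⟨gA, hAS⟩
  let b' : (S : Subgroup (GL (Fin 5) (ZMod 2))) := ⟨gB, hBS⟩
  have hsub : ({1, a', a' ^ 2, b'} : Finset (S : Subgroup (GL (Fin 5) (ZMod 2)))) ⊆
      Finset.univ.filter (fun x => x ^ 3 = 1) := by
    intro x hx
    simp only [Finset.mem_insert, Finset.mem_singleton] at hx
    simp only [Finset.mem_filter, Finset.mem_univ, true_and]
    rcases hx with rfl | rfl | rfl | rfl
    · simp
    · exact Subtype.ext (by simpa using gA3)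
    · apply Subtype.ext
      show (gA ^ 2) ^ 3 = 1
      rw [← pow_mul, mul_comm, pow_mul, gA3, one_pow]
    · exact Subtype.ext (by simpa using gB3)
  have hc4 : ({1, a', a' ^ 2, b'} : Finset (S : Subgroup (GL (Fin 5) (ZMod 2)))).card = 4 := by
    have e1 : (1 : (S : Subgroup (GL (Fin 5) (ZMod 2)))) ≠ a' := fun h => gA_ne (congrArg Subtype.val h).symm
    have e2 : (1 : (S : Subgroup (GL (Fin 5) (ZMod 2)))) ≠ a' ^ 2 := fun h => gA2_ne (congrArg Subtype.val h).symm
    have e3 : (1 : (S : Subgroup (GL (Fin 5) (ZMod 2)))) ≠ b' := fun h => gB_ne (congrArg Subtype.val h).symm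
    have e4 : a' ≠ a' ^ 2 := by
      intro h
      have h' : gA = gA ^ 2 := congrArg Subtype.val h
      apply gA_ne
      have : gA * 1 = gA * gA := by rw [mul_one, ← pow_two]; exact h'
      exact (mul_left_cancel this).symm
    have e5 : a' ≠ b' := fun h => gAB_ne (congrArg Subtype.val h)
    have e6 : a' ^ 2 ≠ b' := fun h => gA2B_ne (congrArg Subtype.val h)
    rw [Finset.card_insert_of_notMem, Finset.card_insert_of_notMem, Finset.card_insert_of_notMem,
      Finset.card_singleton]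
    · simp [e6]
    · simp [e4, e5]
    · simp [e1, e2, e3]
  have := (Finset.card_le_card hsub).trans hle
  omega

theorem lift9 {H : Subgroup (GL (Fin 5) (ZMod 2))} {K : Subgroup ↥H} [K.Normal]
    (x : ↥H ⧸ K) (hx : orderOf x = 9) : False := by
  obtain ⟨h, rfl⟩ := QuotientGroup.mk_surjective x
  have hd : orderOf (QuotientGroup.mk h : ↥H ⧸ K) ∣ orderOf h := by
    apply orderOf_dvd_of_pow_eq_one
    rw [← QuotientGroup.mk_pow, pow_orderOf_eq_one]
    rfl
  rw [hx] at hd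
  obtain ⟨c, hc⟩ := hd
  have hpos : 0 < orderOf h := orderOf_pos h
  have hc0 : c ≠ 0 := by rintro rfl; rw [mul_zero] at hc; omega
  have h9 : orderOf (h ^ c) = 9 := by
    rw [orderOf_pow_of_dvd hc0 ⟨9, by rw [hc]; ring⟩, hc]
    exact Nat.mul_div_cancel 9 (Nat.pos_of_ne_zero hc0)
  exact no_nine ((h ^ c : ↥H) : GL (Fin 5) (ZMod 2)) (by rw [Subgroup.orderOf_coe]; exact h9)

theorem exists_order9 {F : Type*} [Field F] [Fintype F] (hF : Fintype.card F = 8) :
    ∃ x : Matrix.ProjectiveSpecialLinearGroup (Fin 2) F, orderOf x = 9 := by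
  classical
  have h2 : (2 : F) = 0 := Cfsg.Agent.Lib.helper2.Ovoid.two_eq_zero (m := 1) (by rw [hF]; norm_num)
  obtain ⟨t, ht⟩ : ∃ t : F, t ^ 3 + t + 1 = 0 := by
    obtain ⟨t₀, h0, h1⟩ : ∃ t₀ : F, t₀ ≠ 0 ∧ t₀ ≠ 1 := by
      by_contra hcon
      push Not at hcon
      have hsub : (Finset.univ : Finset F) ⊆ {0, 1} := by
        intro x _
        by_cases hx : x = 0
        · simp [hx]
        · simp [hcon x hx]
      have h3 := Finset.card_le_card hsub
      have h4 : ({0, 1} : Finset F).card ≤ 2 := Finset.card_le_two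
      rw [Finset.card_univ, hF] at h3
      omega
    have h7 : t₀ ^ 7 = 1 := by
      have := FiniteField.pow_card_sub_one_eq_one t₀ h0
      rwa [hF] at this
    have hprod : (t₀ + 1) * (t₀ ^ 3 + t₀ + 1) * (t₀ ^ 3 + t₀ ^ 2 + 1) = 0 := by
      linear_combination h7 + (t₀ ^ 6 + t₀ ^ 5 + 2 * t₀ ^ 4 + 2 * t₀ ^ 3 + t₀ ^ 2 + t₀ + 1) * h2
    have hne : t₀ + 1 ≠ 0 := by
      intro h
      apply h1
      linear_combination h - h2
    rcases mul_eq_zero.mp hprod with h | h
    · rcases mul_eq_zero.mp h with h | h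
      · exact absurd h hne
      · exact ⟨t₀, h⟩
    · refine ⟨t₀⁻¹, ?_⟩
      have : t₀⁻¹ ^ 3 + t₀⁻¹ + 1 = (t₀ ^ 3 + t₀ ^ 2 + 1) * t₀⁻¹ ^ 3 := by
        field_simp
        ring
      rw [this, h, zero_mul]
  have ht1 : t ^ 2 + 1 ≠ 0 := by
    intro h
    have : (1 : F) = 0 := by linear_combination ht - t * h
    exact one_ne_zero this
  let A : Matrix (Fin 2) (Fin 2) F := !![0, 1; 1, t]
  let B : Matrix (Fin 2) (Fin 2) F := !![t, t ^ 2 + 1; t ^ 2 + 1, t + 1]
  have hdet : A.det = 1 := by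
    simp only [A, Matrix.det_fin_two_of]
    linear_combination (-1 : F) * h2
  have hA3 : A * A * A = B := by
    ext i j
    fin_cases i <;> fin_cases j <;>
      simp [A, B, Matrix.mul_apply, Fin.sum_univ_two]
    all_goals first | linear_combination ht - h2 | ring1
  have hBB : B * B = B + 1 := by
    ext i j
    fin_cases i <;> fin_cases j <;>
      simp [B, Matrix.mul_apply, Fin.sum_univ_two]
    · linear_combination t * ht + (t ^ 2 - t) * h2
    · linear_combination (t * (t ^ 2 + 1)) * h2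
    · linear_combination (t * (t ^ 2 + 1)) * h2
    · linear_combination t * ht + t ^ 2 * h2
  have hB2 : B + B = 0 := by
    rw [← two_smul F B, h2, zero_smul]
  have hB3 : B * B * B = 1 := by
    rw [hBB, add_mul, one_mul, hBB]
    rw [add_assoc, add_comm 1 B, ← add_assoc, hB2, zero_add]
  have hA9 : A ^ 9 = 1 := by
    have : A ^ 9 = (A * A * A) * (A * A * A) * (A * A * A) := by
      simp only [pow_succ, pow_zero, one_mul, mul_assoc]
    rw [this, hA3, hB3]
  let a : Matrix.SpecialLinearGroup (Fin 2) F := ⟨A, hdet⟩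
  have ha9 : a ^ 9 = 1 := by
    apply Subtype.ext
    rw [Matrix.SpecialLinearGroup.coe_pow]
    exact hA9
  have ha3 : a ^ 3 ∉ Subgroup.center (Matrix.SpecialLinearGroup (Fin 2) F) := by
    intro hmem
    rw [Matrix.SpecialLinearGroup.mem_center_iff] at hmem
    obtain ⟨r, -, hr⟩ := hmem
    have h01 := congrFun (congrFun hr 0) 1
    rw [Matrix.SpecialLinearGroup.coe_pow] at h01
    have hA3' : A ^ 3 = B := by
      rw [← hA3]; simp only [pow_succ, pow_zero, one_mul]
    have h01' : (Matrix.scalar (Fin 2) r) 0 1 = B 0 1 := by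
      rw [← hA3']; exact h01
    simp [B] at h01'
    exact ht1 h01'.symm
  refine ⟨(QuotientGroup.mk a : Matrix.ProjectiveSpecialLinearGroup (Fin 2) F), ?_⟩
  haveI : Fact (Nat.Prime 3) := ⟨by norm_num⟩
  have key := orderOf_eq_prime_pow (x := (QuotientGroup.mk a : Matrix.ProjectiveSpecialLinearGroup (Fin 2) F))
    (p := 3) (n := 1) ?_ ?_
  · simpa using key
  · rw [pow_one, ← QuotientGroup.mk_pow]
    intro h
    exact ha3 ((QuotientGroup.eq_one_iff _).mp h)
  · show _ ^ 9 = 1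
    rw [← QuotientGroup.mk_pow, ha9]
    rfl

/-- Let X be a section of the general linear group GL(5, 2), that is, a quotient of a subgroup of it. If X is isomorphic to PSL(2, 2^n) for some n ≥ 2, to a Suzuki group over the field with 2^(2m+1) elements for some m ≥ 1, or to PSU(3, 2^n) for some n ≥ 2, then X is isomorphic to PSL(2, 4). -/
theorem result {H : Subgroup (GL (Fin 5) (ZMod 2))}
    {K : Subgroup ↥H} [K.Normal]
    (hX : (∃ (n : ℕ) (F : Type) (_ : Field F) (_ : Fintype F), 2 ≤ n ∧ Fintype.card F = 2 ^ n ∧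
        Nonempty (↥H ⧸ K ≃* Matrix.ProjectiveSpecialLinearGroup (Fin 2) F)) ∨
      (∃ (m : ℕ) (F : Type) (_ : Field F) (_ : Fintype F), 1 ≤ m ∧ Fintype.card F = 2 ^ (2 * m + 1) ∧
        Nonempty (↥H ⧸ K ≃* ↥(Cfsg.Lie.Sz F (2 ^ (m + 1))))) ∨
      (∃ (n : ℕ) (F : Type) (_ : Field F) (_ : Fintype F), 2 ≤ n ∧ Fintype.card F = 4 ^ n ∧
        Nonempty (↥H ⧸ K ≃* Cfsg.PSU 3 F (2 ^ n)))) :
    ∃ (F : Type) (_ : Field F) (_ : Fintype F), Fintype.card F = 4 ∧
      Nonempty (↥H ⧸ K ≃* Matrix.ProjectiveSpecialLinearGroup (Fin 2) F) := by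
  classical
  have hdiv : Nat.card (↥H ⧸ K) ∣ 9999360 := by
    have h1 : Nat.card (↥H ⧸ K) ∣ Nat.card H := Subgroup.card_quotient_dvd_card K
    have h2 : Nat.card H ∣ Nat.card (GL (Fin 5) (ZMod 2)) := Subgroup.card_subgroup_dvd_card H
    rw [card_GL52] at h2
    exact h1.trans h2
  rcases hX with ⟨n, F, iF, iFt, hn, hF, ⟨e⟩⟩ | ⟨m, F, iF, iFt, hm, hF, ⟨e⟩⟩ |
    ⟨n, F, iF, iFt, hn, hF, ⟨e⟩⟩
  · -- PSL(2, 2^n)
    have hc := Nat.card_congr e.toEquiv
    have hP := Cfsg.Agent.Lib.helper2.PSL2Small.card_PSL2 (F := F)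
    rw [hF, ← hc] at hP
    have hq4 : 4 ≤ 2 ^ n := by
      calc 4 = 2 ^ 2 := by norm_num
        _ ≤ 2 ^ n := Nat.pow_le_pow_right (by norm_num) hn
    obtain ⟨r, hr⟩ : ∃ r, 2 ^ n = r + 1 := ⟨2 ^ n - 1, by omega⟩
    have hgcd : Nat.gcd 2 (2 ^ n - 1) = 1 := by
      have hodd : Odd (2 ^ n - 1) :=
        Nat.Even.sub_odd (by omega) (Nat.even_pow.mpr ⟨even_two, by omega⟩) odd_one
      exact Nat.coprime_two_left.mpr hodd
    rw [hgcd, one_mul, hr] at hP
    have hN : Nat.card (↥H ⧸ K) = r * (r + 1) * (r + 2) := by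
      have e1 : (r + 1) ^ 2 - 1 = r * (r + 2) := by
        have : (r + 1) ^ 2 = r * (r + 2) + 1 := by ring
        omega
      have e2 : (r + 1) ^ 2 - (r + 1) = r * (r + 1) := by
        have : (r + 1) ^ 2 = r * (r + 1) + (r + 1) := by ring
        omega
      rw [e1, e2, Nat.add_sub_cancel] at hP
      have hr0 : 0 < r := by omega
      apply Nat.eq_of_mul_eq_mul_left hr0
      rw [hP]; ring
    have hN2 : Nat.card (↥H ⧸ K) = (2 ^ n - 1) * 2 ^ n * (2 ^ n + 1) := by
      rw [hN, hr, Nat.add_sub_cancel]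
    have hn8 : n < 8 := by
      by_contra hge
      have h256 : 2 ^ 8 ≤ 2 ^ n := Nat.pow_le_pow_right (by norm_num) (by omega)
      have hr255 : 255 ≤ r := by omega
      rw [hN] at hdiv
      have hle := Nat.le_of_dvd (by norm_num) hdiv
      have : 255 * 256 * 257 ≤ r * (r + 1) * (r + 2) :=
        Nat.mul_le_mul (Nat.mul_le_mul hr255 (by omega)) (by omega)
      omega
    rw [hN2] at hdiv
    clear hN hN2 hP hr hgcd
    interval_cases n
    · exact ⟨F, iF, iFt, by rw [hF]; norm_num, ⟨e⟩⟩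
    · exfalso
      obtain ⟨x, hx⟩ := exists_order9 (F := F) (by rw [hF]; norm_num)
      exact lift9 (e.symm x) (by rw [MulEquiv.orderOf_eq]; exact hx)
    all_goals (exfalso; norm_num at hdiv)
  · -- Suzuki groups
    exfalso
    have hc := Nat.card_congr e.toEquiv
    have Hy := Cfsg.Agent.Lib.helper2.Suzuki.hyp_of_card hm hF
    have hS := Cfsg.Agent.Lib.helper25.SzIso.card_Sz Hy
    rw [hF, ← hc] at hS
    rw [hS] at hdiv
    have hm2 : m < 2 := by
      by_contra hge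
      have h32 : 2 ^ 5 ≤ 2 ^ (2 * m + 1) := Nat.pow_le_pow_right (by norm_num) (by omega)
      have hle := Nat.le_of_dvd (by norm_num) hdiv
      have h1 : (2 ^ 5) ^ 2 ≤ (2 ^ (2 * m + 1)) ^ 2 := Nat.pow_le_pow_left h32 2
      have : (2 ^ 5) ^ 2 * ((2 ^ 5) ^ 2 + 1) * (2 ^ 5 - 1) ≤
          (2 ^ (2 * m + 1)) ^ 2 * ((2 ^ (2 * m + 1)) ^ 2 + 1) * (2 ^ (2 * m + 1) - 1) :=
        Nat.mul_le_mul (Nat.mul_le_mul h1 (by omega)) (by omega)
      norm_num at this
      omega
    interval_cases m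
    norm_num at hdiv
  · -- unitary groups
    exfalso
    have hc := Nat.card_congr e.toEquiv
    have hF' : Fintype.card F = (2 ^ n) ^ 2 := by
      rw [hF, ← pow_mul, mul_comm, pow_mul]; norm_num
    have hU := Cfsg.Agent.S0280.result (F := F) (q := 2 ^ n) hF' 3 (by norm_num)
    rw [← hc] at hU
    have hprod : ∏ i ∈ Finset.range 3, (if Even i then (2 ^ n) ^ (i + 1) + 1 else (2 ^ n) ^ (i + 1) - 1)
        = ((2 ^ n) ^ 1 + 1) * ((2 ^ n) ^ 2 - 1) * ((2 ^ n) ^ 3 + 1) := by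
      rw [Finset.prod_range_succ, Finset.prod_range_succ, Finset.prod_range_one]
      rw [if_pos (by decide : Even 0), if_neg (by decide : ¬ Even 1), if_pos (by decide : Even 2)]
    have hexp : 3 * (3 - 1) / 2 = 3 := by norm_num
    rw [hprod, hexp] at hU
    have hmul : (2 ^ n) ^ 3 * (((2 ^ n) ^ 1 + 1) * ((2 ^ n) ^ 2 - 1) * ((2 ^ n) ^ 3 + 1)) ∣
        Nat.gcd 3 (2 ^ n + 1) * ((2 ^ n + 1) * 9999360) := by
      rw [← hU]
      exact Nat.mul_dvd_mul_left _ (Nat.mul_dvd_mul_left _ hdiv)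
    rw [pow_one] at hmul
    have hn8 : n < 8 := by
      by_contra hge
      have h256 : 2 ^ 8 ≤ 2 ^ n := Nat.pow_le_pow_right (by norm_num) (by omega)
      have hg : Nat.gcd 3 (2 ^ n + 1) ≤ 3 := Nat.gcd_le_left _ (by norm_num)
      have hle := Nat.le_of_dvd (by positivity) hmul
      have h1 : (2 ^ 8) ^ 3 ≤ (2 ^ n) ^ 3 := Nat.pow_le_pow_left h256 3
      have h2' : (2 ^ 8) ^ 2 ≤ (2 ^ n) ^ 2 := Nat.pow_le_pow_left h256 2
      have h2 : 2 ≤ (2 ^ n) ^ 2 - 1 := by
        norm_num at h2'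
        omega
      have h3 : 1 ≤ (2 ^ n) ^ 3 + 1 := by omega
      have hL : (2 ^ 8) ^ 3 * ((2 ^ n + 1) * 2 * 1) ≤
          (2 ^ n) ^ 3 * ((2 ^ n + 1) * ((2 ^ n) ^ 2 - 1) * ((2 ^ n) ^ 3 + 1)) :=
        Nat.mul_le_mul h1 (Nat.mul_le_mul (Nat.mul_le_mul le_rfl h2) h3)
      have hR : Nat.gcd 3 (2 ^ n + 1) * ((2 ^ n + 1) * 9999360) ≤ 3 * ((2 ^ n + 1) * 9999360) :=
        Nat.mul_le_mul_right _ hg
      have hfin := hL.trans (hle.trans hR)
      have hQpos : 1 ≤ 2 ^ n + 1 := by omega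
      generalize 2 ^ n + 1 = Q at hfin hQpos
      have h4 : (2 ^ 8) ^ 3 = 16777216 := by norm_num
      rw [h4] at hfin
      omega
    clear hU hprod
    interval_cases n <;> norm_num at hmul

end Cfsg.Agent.S3179
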