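import Cfsg.Statements.S3180
import Mathlib

set_option autoImplicit false
open Cfsg

namespace Cfsg.Agent.S3180

open scoped Pointwise

theorem wc_mem {G : Type*} [Group G] {W P : Subgroup G} (hW : Cfsg.IsWeaklyClosed W P) (g : G)
    (h : ∀ w ∈ W, g * w * g⁻¹ ∈ P) : g ∈ Subgroup.normalizer (W : Set G) := by
  have h1 := hW.2 g (by rintro _ ⟨w, hw, rfl⟩; exact h w hw)
  exact Subgroup.mem_normalizer_iff_map_conj_eq.mpr h1

theorem common_sylow {J : Type*} [Group J] [Finite J] {p : ℕ} [Fact p.Prime] (H A B : Subgroup J)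
    (hA : A ≤ H) (hB : B ≤ H) (hpA : IsPGroup p A) (hpB : IsPGroup p B) :
    ∃ h ∈ H, ∃ R : Subgroup J, IsPGroup p R ∧ A ≤ R ∧ ∀ b ∈ B, h * b * h⁻¹ ∈ R := by
  have hA' : IsPGroup p (A.subgroupOf H) := hpA.comap_subtype
  have hB' : IsPGroup p (B.subgroupOf H) := hpB.comap_subtype
  obtain ⟨R₁, hR₁⟩ := hA'.exists_le_sylow
  obtain ⟨R₂, hR₂⟩ := hB'.exists_le_sylow
  obtain ⟨h, hh⟩ := MulAction.exists_smul_eq H R₂ R₁
  refine ⟨h, h.2, (R₁ : Subgroup H).map H.subtype, R₁.2.map _, ?_, ?_⟩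
  · intro a ha
    exact ⟨⟨a, hA ha⟩, hR₁ (by simpa [Subgroup.mem_subgroupOf] using ha), rfl⟩
  · intro b hb
    have hb2 : (⟨b, hB hb⟩ : H) ∈ (R₂ : Subgroup H) := hR₂ (by simpa [Subgroup.mem_subgroupOf] using hb)
    have h3 : MulAut.conj h • (⟨b, hB hb⟩ : H) ∈ MulAut.conj h • (R₂ : Subgroup H) :=
      Subgroup.smul_mem_pointwise_smul _ _ _ hb2
    have h4 : (MulAut.conj h • (R₂ : Subgroup H)) = (R₁ : Subgroup H) := by
      rw [← hh]; rfl
    rw [h4] at h3
    refine ⟨_, h3, ?_⟩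
    simp [MulAut.smul_def]

theorem main {J : Type*} [Group J] [Finite J]
    {p : ℕ} [Fact p.Prime] (P : Sylow p J) (P₁ : Subgroup J) (hW : Cfsg.IsWeaklyClosed P₁ (P : Subgroup J))
    {Ω : Type*} [MulAction J Ω] (x y : Ω) (hx : ∀ g ∈ P₁, g • x = x) (hy : ∀ g ∈ P₁, g • y = y)
    (hc : ∃ g : J, g • x = y) :
    ∃ g ∈ Subgroup.normalizer (P₁ : Set J), g • x = y := by
  obtain ⟨g, hg⟩ := hc
  have hp1 : IsPGroup p P₁ := P.2.to_le hW.1
  have hA : P₁ ≤ MulAction.stabilizer J y := fun a ha => hy a ha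
  have hB : P₁.map (MulAut.conj g).toMonoidHom ≤ MulAction.stabilizer J y := by
    rintro _ ⟨w, hw, rfl⟩
    simp only [MulEquiv.coe_toMonoidHom, MulAut.conj_apply, MulAction.mem_stabilizer_iff]
    rw [← hg, mul_smul, mul_smul, inv_smul_smul, hx w hw]
  obtain ⟨h, hh, R, hR, hAR, hBR⟩ := common_sylow (MulAction.stabilizer J y) P₁ _ hA hB hp1 (hp1.map _)
  obtain ⟨P', hP'⟩ := hR.exists_le_sylow
  obtain ⟨k, hk⟩ := MulAction.exists_smul_eq J P' P
  have hkR : ∀ r ∈ R, k * r * k⁻¹ ∈ (P : Subgroup J) := by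
    intro r hr
    have h3 : MulAut.conj k • r ∈ MulAut.conj k • (P' : Subgroup J) :=
      Subgroup.smul_mem_pointwise_smul _ _ _ (hP' hr)
    have h4 : (MulAut.conj k • (P' : Subgroup J)) = (P : Subgroup J) := by
      rw [← hk]; rfl
    rw [h4] at h3
    simpa [MulAut.smul_def] using h3
  have hk1 : k ∈ Subgroup.normalizer (P₁ : Set J) := wc_mem hW k (fun w hw => hkR w (hAR hw))
  have hk2 : k * (h * g) ∈ Subgroup.normalizer (P₁ : Set J) := by
    apply wc_mem hW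
    intro w hw
    have := hkR _ (hBR (g * w * g⁻¹) ⟨w, hw, rfl⟩)
    simpa [mul_assoc] using this
  refine ⟨h * g, ?_, ?_⟩
  · have := Subgroup.mul_mem _ (Subgroup.inv_mem _ hk1) hk2
    simpa using this
  · rw [mul_smul, hg]; exact hh

/-- Let P be a Sylow p-subgroup of a finite group J and P₁ a subgroup of P that is weakly closed in P with respect to J. If J acts on a set and two points, each fixed by every element of P₁, lie in one J-orbit, then they lie in one orbit of the normalizer of P₁ in J. -/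
theorem result {J : Type*} [Group J] [Finite J]
    {p : ℕ} [Fact p.Prime] (P : Sylow p J) (P₁ : Subgroup J) (hW : Cfsg.IsWeaklyClosed P₁ (P : Subgroup J))
    {Ω : Type*} [MulAction J Ω] (x y : Ω) (hx : ∀ g ∈ P₁, g • x = x) (hy : ∀ g ∈ P₁, g • y = y)
    (hc : ∃ g : J, g • x = y) :
    ∃ g ∈ Subgroup.normalizer (P₁ : Set J), g • x = y := by
  exact main P P₁ hW x y hx hy hc

end Cfsg.Agent.S3180
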