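import Cfsg.Statements.S3183
import Mathlib
import Cfsg.Agent.Lib.helper16.Syl

set_option autoImplicit false
open Cfsg

namespace Cfsg.Agent.S3183

open Cfsg.Agent.Lib.helper16 in
theorem central_of_central_sylow {G : Type*} [Group G] [Finite G]
    (hCI : ∀ S T : Sylow 2 G, S ≠ T → ∃ U : Sylow 2 G,
      (S : Subgroup G) ⊓ (T : Subgroup G) ≤ (Subgroup.center ↥(U : Subgroup G)).map (U : Subgroup G).subtype)
    (S U : Sylow 2 G) (d : G) (hdS : d ∈ (S : Subgroup G)) (hdU : ∀ u ∈ (U : Subgroup G), u * d = d * u) :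
    ∀ s ∈ (S : Subgroup G), s * d = d * s := by
  have h2 : Fact (Nat.Prime 2) := ⟨Nat.prime_two⟩
  by_contra hcon
  push Not at hcon
  obtain ⟨s₀, hs₀S, hs₀⟩ := hcon
  set C := Subgroup.centralizer ({d} : Set G) with hC
  have hmemC : ∀ g : G, g ∈ C ↔ g * d = d * g := by
    intro g
    rw [hC, Subgroup.mem_centralizer_iff]
    constructor
    · intro h; exact (h d rfl).symm
    · intro h y hy; rw [Set.mem_singleton_iff] at hy; subst hy; exact h.symm
  set A := (S : Subgroup G) ⊓ C with hA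
  have hA2 : IsPGroup 2 A := S.2.to_le inf_le_left
  have hUC : (U : Subgroup G) ≤ C := fun u hu => (hmemC u).mpr (hdU u hu)
  obtain ⟨c, hcC, hc⟩ := exists_conj_mem_sylow C U hUC A inf_le_right hA2
  set S₁ : Sylow 2 G := c⁻¹ • U with hS₁
  have hAS₁ : A ≤ (S₁ : Subgroup G) := by
    intro a ha
    have := sylow_smul_mem c⁻¹ U S₁ rfl _ (hc a ha)
    simpa [mul_assoc] using this
  have hS₁C : (S₁ : Subgroup G) ≤ C := by
    intro x hx
    have h1 : c • S₁ = U := by rw [hS₁, smul_smul, mul_inv_cancel, one_smul]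
    have h3 := hUC (sylow_smul_mem c S₁ U h1 x hx)
    have h4 : c⁻¹ * (c * x * c⁻¹) * c ∈ C := C.mul_mem (C.mul_mem (C.inv_mem hcC) h3) hcC
    simpa [mul_assoc] using h4
  have hne : S ≠ S₁ := by
    intro h
    apply hs₀
    have : s₀ ∈ C := hS₁C (h ▸ hs₀S)
    exact (hmemC s₀).mp this
  obtain ⟨U', hU'⟩ := hCI S S₁ hne
  have hAU' : ∀ a ∈ A, a ∈ (U' : Subgroup G) ∧ ∀ u ∈ (U' : Subgroup G), u * a = a * u := by
    intro a ha
    obtain ⟨z, hz, rfl⟩ := hU' ⟨ha.1, hAS₁ ha⟩
    refine ⟨z.2, fun u hu => ?_⟩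
    have := Subgroup.mem_center_iff.mp hz ⟨u, hu⟩
    exact congrArg Subtype.val this
  have hU'N : (U' : Subgroup G) ≤ Subgroup.normalizer (A : Set G) := by
    intro u hu
    rw [Subgroup.mem_normalizer_iff]
    intro g
    constructor
    · intro hg
      have := (hAU' g hg).2 u hu
      rw [this]; simpa using hg
    · intro hg
      have h1 := (hAU' _ hg).2 u hu
      have h2 : g = u * g * u⁻¹ := by
        have : u * (u * g * u⁻¹) * u⁻¹ = u * g * u⁻¹ := by rw [h1]; group
        have h3 := congrArg (fun t => u⁻¹ * t * u) this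
        simpa [mul_assoc] using h3.symm
      rw [h2]; exact hg
  have hAS : A ≠ (S : Subgroup G) := by
    intro h
    apply hs₀
    have : s₀ ∈ A := h ▸ hs₀S
    exact (hmemC s₀).mp this.2
  obtain ⟨k, hkS, hkA, hkN⟩ := exists_normalizer_not_mem (S : Subgroup G) A S.2 inf_le_left hAS
  have hk2 : IsPGroup 2 (Subgroup.zpowers k) :=
    S.2.to_le (by rw [Subgroup.zpowers_le]; exact hkS)
  obtain ⟨n, hnN, hn⟩ := exists_conj_mem_sylow (Subgroup.normalizer (A : Set G)) U' hU'N
    (Subgroup.zpowers k) (by rw [Subgroup.zpowers_le]; exact hkN) hk2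
  have hnk := hn k (Subgroup.mem_zpowers k)
  have hdA : d ∈ A := ⟨hdS, (hmemC d).mpr rfl⟩
  have hndA : n * d * n⁻¹ ∈ A := (Subgroup.mem_normalizer_iff.mp hnN d).mp hdA
  have h5 := (hAU' _ hndA).2 _ hnk
  have h6 : k * d = d * k := by
    have h7 : n * (k * d) * n⁻¹ = n * (d * k) * n⁻¹ := by
      calc n * (k * d) * n⁻¹ = (n * k * n⁻¹) * (n * d * n⁻¹) := by group
        _ = (n * d * n⁻¹) * (n * k * n⁻¹) := h5
        _ = n * (d * k) * n⁻¹ := by group
    have h8 := congrArg (fun t => n⁻¹ * t * n) h7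
    simpa [mul_assoc] using h8
  exact hkA ⟨hkS, (hmemC k).mpr h6⟩

/-- Let G be a finite group in which the intersection of any two distinct Sylow 2-subgroups is contained in the centre of some Sylow 2-subgroup, and let S be a Sylow 2-subgroup. Then for every x in S the centralizer of x in S is a Sylow 2-subgroup of the centralizer of x in G (no 2-subgroup centralizing x is larger), and for every other Sylow 2-subgroup T the intersection S ∩ T lies in both the centre of S and the centre of T. -/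
theorem result {G : Type*} [Group G] [Finite G]
    (hCI : ∀ S T : Sylow 2 G, S ≠ T → ∃ U : Sylow 2 G,
      (S : Subgroup G) ⊓ (T : Subgroup G) ≤ (Subgroup.center ↥(U : Subgroup G)).map (U : Subgroup G).subtype)
    (S : Sylow 2 G) :
    (∀ x ∈ (S : Subgroup G), ∀ P : Subgroup G, IsPGroup 2 ↥P → P ≤ Subgroup.centralizer ({x} : Set G) →
        Nat.card ↥P ≤ Nat.card ↥((S : Subgroup G) ⊓ Subgroup.centralizer ({x} : Set G))) ∧
    (∀ T : Sylow 2 G, T ≠ S →
        (S : Subgroup G) ⊓ (T : Subgroup G) ≤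
          (Subgroup.center ↥(S : Subgroup G)).map (S : Subgroup G).subtype ⊓
            (Subgroup.center ↥(T : Subgroup G)).map (T : Subgroup G).subtype) := by
  have h2 : Fact (Nat.Prime 2) := ⟨Nat.prime_two⟩
  have hb : ∀ T : Sylow 2 G, T ≠ S →
        (S : Subgroup G) ⊓ (T : Subgroup G) ≤
          (Subgroup.center ↥(S : Subgroup G)).map (S : Subgroup G).subtype ⊓
            (Subgroup.center ↥(T : Subgroup G)).map (T : Subgroup G).subtype := by
    intro T hT d hd
    obtain ⟨hdS, hdT⟩ := Subgroup.mem_inf.mp hd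
    obtain ⟨U, hU⟩ := hCI S T (Ne.symm hT)
    obtain ⟨z, hz, hzd⟩ := hU hd
    have hdU : ∀ u ∈ (U : Subgroup G), u * d = d * u := by
      intro u hu
      have := Subgroup.mem_center_iff.mp hz ⟨u, hu⟩
      have h3 := congrArg Subtype.val this
      rw [← hzd]; exact h3
    have h1 := central_of_central_sylow hCI S U d hdS hdU
    have h2' := central_of_central_sylow hCI T U d hdT hdU
    refine Subgroup.mem_inf.mpr ⟨⟨⟨d, hdS⟩, ?_, rfl⟩, ⟨⟨d, hdT⟩, ?_, rfl⟩⟩
    · exact Subgroup.mem_center_iff.mpr (fun g => Subtype.ext (h1 g g.2))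
    · exact Subgroup.mem_center_iff.mpr (fun g => Subtype.ext (h2' g g.2))
  refine ⟨?_, hb⟩
  intro x hx P hP hPC
  by_cases hcen : ∀ s ∈ (S : Subgroup G), s * x = x * s
  · have hSC : (S : Subgroup G) ≤ Subgroup.centralizer ({x} : Set G) := by
      intro s hs
      rw [Subgroup.mem_centralizer_iff]
      intro y hy; rw [Set.mem_singleton_iff] at hy; subst hy; exact (hcen s hs).symm
    rw [inf_eq_left.mpr hSC]
    exact Cfsg.Agent.Lib.helper16.card_le_sylow S P hP
  · set C := Subgroup.centralizer ({x} : Set G) with hC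
    have hxC : x ∈ C := by
      rw [hC, Subgroup.mem_centralizer_iff]
      intro y hy; rw [Set.mem_singleton_iff] at hy; subst hy; rfl
    obtain ⟨h, hhC, R, hR, hAR, hRC, hPR⟩ := Cfsg.Agent.Lib.helper16.common_sylow C ((S : Subgroup G) ⊓ C) P
      inf_le_right hPC (S.2.to_le inf_le_left) hP
    obtain ⟨T, hT⟩ := hR.exists_le_sylow
    by_cases hTS : T = S
    · have hRS : R ≤ (S : Subgroup G) ⊓ C := le_inf (hTS ▸ hT) hRC
      have hle : P.map (MulAut.conj h).toMonoidHom ≤ R := by
        rintro _ ⟨b, hb', rfl⟩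
        simpa using hPR b hb'
      calc Nat.card P = Nat.card (P.map (MulAut.conj h).toMonoidHom) :=
            (Subgroup.card_map_of_injective (MulAut.conj h).injective).symm
        _ ≤ Nat.card R := Subgroup.card_le_of_le hle
        _ ≤ _ := Subgroup.card_le_of_le hRS
    · exfalso
      have hxST : x ∈ (S : Subgroup G) ⊓ (T : Subgroup G) := ⟨hx, hT (hAR ⟨hx, hxC⟩)⟩
      obtain ⟨⟨z, hz, hzx⟩, -⟩ := hb T hTS hxST
      apply hcen
      intro s hs
      have := Subgroup.mem_center_iff.mp hz ⟨s, hs⟩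
      have h3 := congrArg Subtype.val this
      rw [← hzx]; exact h3

end Cfsg.Agent.S3183
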