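import Cfsg.Statements.S3184
import Mathlib
import Cfsg.Agent.Lib.helper16.ZStarIso
import Cfsg.Agent.Lib.helper14.SylIn
import Cfsg.Agent.Lib.helper2.Idx2


set_option autoImplicit false
open Cfsg

namespace Cfsg.Agent.S3184


open Cfsg.Agent.Lib.helper14

theorem map_map_conj {G : Type*} [Group G] (S : Subgroup G) (x g : G) :
    (S.map (MulAut.conj g).toMonoidHom).map (MulAut.conj x).toMonoidHom =
      S.map (MulAut.conj (x * g)).toMonoidHom := by
  ext z
  rw [mem_map_conj, mem_map_conj, mem_map_conj]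
  have : (x * g)⁻¹ * z * (x * g) = g⁻¹ * (x⁻¹ * z * x) * g := by group
  rw [this]

/-- the key lemma: the involution of a cyclic characteristic subgroup of a Sylow 2-subgroup is
isolated when Sylow intersections are central -/
theorem isolated {G : Type*} [Group G] [Finite G]
    (hCI : ∀ S T : Sylow 2 G, S ≠ T → ∃ U : Sylow 2 G,
      (S : Subgroup G) ⊓ (T : Subgroup G) ≤ (Subgroup.center ↥(U : Subgroup G)).map (U : Subgroup G).subtype)
    (S : Sylow 2 G) (c : G)
    (hA : ∀ n : G, n ∈ Subgroup.normalizer ((S : Subgroup G) : Set G) → n * c * n⁻¹ = c) :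
    ∀ g : G, g * c * g⁻¹ ∈ (S : Subgroup G) → g * c * g⁻¹ = c := by
  classical
  have : Fact (Nat.Prime 2) := ⟨Nat.prime_two⟩
  have hcS : ∀ s ∈ (S : Subgroup G), s * c * s⁻¹ = c := fun s hs => hA s (Subgroup.le_normalizer hs)
  have hcS' : ∀ s ∈ (S : Subgroup G), c * s = s * c := by
    intro s hs
    have h := hcS s hs
    calc c * s = (s * c * s⁻¹) * s := by rw [h]
      _ = s * c := by group
  have hM : ∀ g h : G, (S : Subgroup G).map (MulAut.conj g).toMonoidHom =
      (S : Subgroup G).map (MulAut.conj h).toMonoidHom → g * c * g⁻¹ = h * c * h⁻¹ := by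
    intro g h hgh
    have hn : h⁻¹ * g ∈ Subgroup.normalizer ((S : Subgroup G) : Set G) := by
      rw [Subgroup.mem_normalizer_iff]
      intro x
      constructor
      · intro hx
        have h1 : g * x * g⁻¹ ∈ (S : Subgroup G).map (MulAut.conj g).toMonoidHom := by
          rw [mem_map_conj]
          have : g⁻¹ * (g * x * g⁻¹) * g = x := by group
          rw [this]; exact hx
        rw [hgh, mem_map_conj] at h1
        have : h⁻¹ * g * x * (h⁻¹ * g)⁻¹ = h⁻¹ * (g * x * g⁻¹) * h := by group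
        rw [this]; exact h1
      · intro hx
        have h1 : h * (h⁻¹ * g * x * (h⁻¹ * g)⁻¹) * h⁻¹ ∈
            (S : Subgroup G).map (MulAut.conj h).toMonoidHom := by
          rw [mem_map_conj]
          have : h⁻¹ * (h * (h⁻¹ * g * x * (h⁻¹ * g)⁻¹) * h⁻¹) * h = h⁻¹ * g * x * (h⁻¹ * g)⁻¹ := by
            group
          rw [this]; exact hx
        rw [← hgh, mem_map_conj] at h1
        have : g⁻¹ * (h * (h⁻¹ * g * x * (h⁻¹ * g)⁻¹) * h⁻¹) * g = x := by group
        rw [this] at h1; exact h1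
    have h1 := hA _ hn
    calc g * c * g⁻¹ = h * (h⁻¹ * g * c * (h⁻¹ * g)⁻¹) * h⁻¹ := by group
      _ = h * c * h⁻¹ := by rw [h1]
  intro g hg
  obtain ⟨a, ha⟩ : ∃ a, a = g * c * g⁻¹ := ⟨_, rfl⟩
  rw [← ha] at hg ⊢
  -- conjugates of `S` as Sylow subgroups
  have hcard : ∀ g₁ : G, Nat.card ((S : Subgroup G).map (MulAut.conj g₁).toMonoidHom) =
      2 ^ (Nat.card G).factorization 2 := by
    intro g₁; rw [card_map_conj]; exact S.card_eq_multiplicity
  have hT0 : ∀ g₁ : G, g₁ * c * g₁⁻¹ = a →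
      (S : Subgroup G).map (MulAut.conj g₁).toMonoidHom ≤ Subgroup.centralizer {a} := by
    intro g₁ hg₁ z hz
    rw [mem_map_conj] at hz
    rw [Subgroup.mem_centralizer_iff]
    intro y hy
    rw [Set.mem_singleton_iff.mp hy, ← hg₁]
    have h1 := hcS' _ hz
    calc g₁ * c * g₁⁻¹ * z = g₁ * (c * (g₁⁻¹ * z * g₁)) * g₁⁻¹ := by group
      _ = g₁ * ((g₁⁻¹ * z * g₁) * c) * g₁⁻¹ := by rw [h1]
      _ = z * (g₁ * c * g₁⁻¹) := by group
  have hsylC : ∀ g₁ : G, g₁ * c * g₁⁻¹ = a →
      SylIn 2 (Subgroup.centralizer {a}) ((S : Subgroup G).map (MulAut.conj g₁).toMonoidHom) := by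
    intro g₁ hg₁
    have := sylIn_of_sylow (Sylow.ofCard _ (hcard g₁)) (Subgroup.centralizer {a})
      (by rw [Sylow.coe_ofCard]; exact hT0 g₁ hg₁)
    rw [Sylow.coe_ofCard] at this
    exact this
  obtain ⟨D, hD⟩ : ∃ D, D = (S : Subgroup G) ⊓ Subgroup.centralizer {a} := ⟨_, rfl⟩
  have hD2 : IsPGroup 2 D := S.isPGroup'.to_le (hD ▸ inf_le_left)
  obtain ⟨x, hx, hDx⟩ := (hsylC g ha.symm).exists_conj_le D (hD ▸ inf_le_right) hD2
  rw [map_map_conj] at hDx
  have hxa : x * a * x⁻¹ = a := by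
    have := Subgroup.mem_centralizer_iff.mp hx a rfl
    calc x * a * x⁻¹ = (a * x) * x⁻¹ := by rw [this]
      _ = a := by group
  have hg₁a : (x * g) * c * (x * g)⁻¹ = a := by
    calc (x * g) * c * (x * g)⁻¹ = x * (g * c * g⁻¹) * x⁻¹ := by group
      _ = a := by rw [← ha, hxa]
  by_cases hST : (S : Subgroup G).map (MulAut.conj (x * g)).toMonoidHom = S
  · have h1 := hM (x * g) 1 (by
      rw [hST]; ext z; rw [mem_map_conj]; simp)
    rw [hg₁a] at h1
    rw [h1]; group
  · obtain ⟨T₁, hT₁⟩ : ∃ T₁ : Sylow 2 G,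
        (T₁ : Subgroup G) = (S : Subgroup G).map (MulAut.conj (x * g)).toMonoidHom :=
      ⟨Sylow.ofCard _ (hcard (x * g)), Sylow.coe_ofCard _ _⟩
    have hne : S ≠ T₁ := by
      intro h
      apply hST
      rw [← hT₁, ← h]
    obtain ⟨U, hU⟩ := hCI S T₁ hne
    have hDU : ∀ d ∈ D, ∀ v ∈ (U : Subgroup G), v * d = d * v := by
      intro d hd v hv
      have h1 : d ∈ (S : Subgroup G) ⊓ (T₁ : Subgroup G) := by
        rw [hT₁]
        refine ⟨?_, hDx hd⟩
        rw [hD] at hd
        exact hd.1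
      obtain ⟨u, hu, hud⟩ := hU h1
      have h2 := Subgroup.mem_center_iff.mp hu ⟨v, hv⟩
      have h3 := congrArg Subtype.val h2
      rw [← hud]
      exact h3
    have haD : a ∈ D := by
      rw [hD]
      exact ⟨hg, Subgroup.mem_centralizer_iff.mpr
        (fun y hy => by rw [Set.mem_singleton_iff.mp hy])⟩
    have hcD : c ∈ D := by
      rw [hD]
      refine ⟨?_, Subgroup.mem_centralizer_iff.mpr
        (fun y hy => by rw [Set.mem_singleton_iff.mp hy]; exact (hcS' a hg).symm)⟩
      have := hcS 1 (Subgroup.one_mem _)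
      by_contra hcn
      -- c ∈ S: c = a-conjugate ... use that c = 1 * c * 1⁻¹; we need c ∈ S directly
      exact hcn (by
        have h1 : (x * g)⁻¹ * a * (x * g) = c := by rw [← hg₁a]; group
        have h2 : a ∈ (S : Subgroup G).map (MulAut.conj (x * g)).toMonoidHom := hDx haD
        rw [mem_map_conj, h1] at h2
        exact h2)
    have hUa : (U : Subgroup G) ≤ Subgroup.centralizer {a} := by
      intro v hv
      rw [Subgroup.mem_centralizer_iff]
      intro y hy
      rw [Set.mem_singleton_iff.mp hy]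
      exact (hDU a haD v hv).symm
    have hUc : (U : Subgroup G) ≤ Subgroup.centralizer {c} := by
      intro v hv
      rw [Subgroup.mem_centralizer_iff]
      intro y hy
      rw [Set.mem_singleton_iff.mp hy]
      exact (hDU c hcD v hv).symm
    have hSc : (S : Subgroup G) ≤ Subgroup.centralizer {c} := by
      intro v hv
      rw [Subgroup.mem_centralizer_iff]
      intro y hy
      rw [Set.mem_singleton_iff.mp hy]
      exact hcS' v hv
    obtain ⟨y, hy, hUy⟩ := (hsylC (x * g) hg₁a).exists_conj_eq (sylIn_of_sylow U _ hUa)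
    obtain ⟨y', hy', hUy'⟩ := (sylIn_of_sylow S _ hSc).exists_conj_eq (sylIn_of_sylow U _ hUc)
    rw [map_map_conj] at hUy
    have h1 := hM (y * (x * g)) y' (by rw [← hUy, ← hUy'])
    have hya : y * a * y⁻¹ = a := by
      have := Subgroup.mem_centralizer_iff.mp hy a rfl
      calc y * a * y⁻¹ = (a * y) * y⁻¹ := by rw [this]
        _ = a := by group
    have hy'c : y' * c * y'⁻¹ = c := by
      have := Subgroup.mem_centralizer_iff.mp hy' c rfl
      calc y' * c * y'⁻¹ = (c * y') * y'⁻¹ := by rw [this]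
        _ = c := by group
    rw [hy'c] at h1
    rw [← h1]
    calc a = y * a * y⁻¹ := hya.symm
      _ = y * ((x * g) * c * (x * g)⁻¹) * y⁻¹ := by rw [hg₁a]
      _ = y * (x * g) * c * (y * (x * g))⁻¹ := by group

/-- Let G be a finite group in which the intersection of any two distinct Sylow 2-subgroups is contained in the centre of some Sylow 2-subgroup, and let S be a Sylow 2-subgroup. If C is a nontrivial cyclic characteristic subgroup of S, then the involution of C is central modulo the largest normal subgroup of odd order of G: each of its conjugates has the same image in G/O(G). -/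
theorem result {G : Type*} [Group G] [Finite G]
    (hCI : ∀ S T : Sylow 2 G, S ≠ T → ∃ U : Sylow 2 G,
      (S : Subgroup G) ⊓ (T : Subgroup G) ≤ (Subgroup.center ↥(U : Subgroup G)).map (U : Subgroup G).subtype)
    (S : Sylow 2 G) (C : Subgroup ↥(S : Subgroup G)) (hC : C ≠ ⊥) (hCc : IsCyclic ↥C) (hCh : C.Characteristic)
    (c : ↥(S : Subgroup G)) (hc : c ∈ C) (hc2 : orderOf c = 2) :
    ∀ g : G, (QuotientGroup.mk (s := Cfsg.oddCore G) (g * (c : G) * g⁻¹)) =
      QuotientGroup.mk (s := Cfsg.oddCore G) (c : G) := by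
  classical
  have : Fact (Nat.Prime 2) := ⟨Nat.prime_two⟩
  have hA : ∀ n : G, n ∈ Subgroup.normalizer ((S : Subgroup G) : Set G) →
      n * (c : G) * n⁻¹ = c := by
    intro n hn
    have hmap : (S : Subgroup G).map (MulAut.conj n).toMonoidHom = S :=
      Cfsg.Agent.Lib.helper14.map_conj_eq_of_mem_normalizer _ hn
    let α : ↥(S : Subgroup G) ≃* ↥(S : Subgroup G) :=
      ((MulAut.conj n).subgroupMap (S : Subgroup G)).trans (MulEquiv.subgroupCongr hmap)
    have hα : ∀ x : ↥(S : Subgroup G), ((α x : ↥(S : Subgroup G)) : G) = n * x * n⁻¹ :=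
      fun x => rfl
    have hαc : α c ∈ C := by
      have := (Subgroup.characteristic_iff_map_le.mp hCh) α
      exact this (Subgroup.mem_map_of_mem _ hc)
    have ho : orderOf (α c) = 2 := by rw [MulEquiv.orderOf_eq]; exact hc2
    have h1 := Cfsg.Agent.Lib.helper2.Idx2.invol_unique_sub C hCc hαc hc ho hc2
    have h2 := congrArg Subtype.val h1
    rw [hα] at h2; exact h2
  have hc2' : orderOf (c : G) = 2 := by rw [Subgroup.orderOf_coe]; exact hc2
  have hB := isolated hCI S (c : G) hA
  intro g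
  have hz := Cfsg.Agent.Lib.helper16.ZStar.zstar_sylow S (c : G) hc2' c.2 hB g
  rw [QuotientGroup.eq]
  haveI : (Cfsg.pPrimeCore 2 G).Normal := Cfsg.Agent.Lib.helper9.ppc_normal 2 G
  have h1 := Subgroup.Normal.conj_mem (inferInstance : (Cfsg.pPrimeCore 2 G).Normal) _ hz (c : G)⁻¹
  have e : (g * (c : G) * g⁻¹)⁻¹ * (c : G) =
      (c : G)⁻¹ * ((c : G) * g * (c : G)⁻¹ * g⁻¹) * (c : G)⁻¹⁻¹ := by group
  rw [e]
  exact h1

end Cfsg.Agent.S3184
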