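import Cfsg.Statements.S3190
import Mathlib
import Cfsg.Agent.Lib.helper7.Fitting

set_option autoImplicit false
open Cfsg

namespace Cfsg.Agent.S3190

theorem mem_map_center {X : Type*} [Group X] (R : Subgroup X) (z : X) :
    z ∈ ((Subgroup.center ↥R).map R.subtype : Subgroup X) ↔ z ∈ R ∧ ∀ r ∈ R, r * z = z * r := by
  constructor
  · rintro ⟨c, hc, rfl⟩
    refine ⟨c.2, fun r hr => ?_⟩
    have := (Subgroup.mem_center_iff.mp hc) ⟨r, hr⟩
    exact congrArg Subtype.val this
  · rintro ⟨hz, hcomm⟩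
    refine ⟨⟨z, hz⟩, Subgroup.mem_center_iff.mpr ?_, rfl⟩
    rintro ⟨r, hr⟩
    exact Subtype.ext (hcomm r hr)

/-- elements normalizing `R` normalize its centre -/
theorem conj_mem_center {X : Type*} [Group X] (R : Subgroup X) (g z : X)
    (hg : g ∈ Subgroup.normalizer (R : Set X))
    (hz : z ∈ ((Subgroup.center ↥R).map R.subtype : Subgroup X)) :
    g * z * g⁻¹ ∈ ((Subgroup.center ↥R).map R.subtype : Subgroup X) := by
  rw [mem_map_center] at hz ⊢
  rw [Subgroup.mem_normalizer_iff] at hg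
  refine ⟨(hg z).mp hz.1, fun r hr => ?_⟩
  have h1 : g⁻¹ * r * g ∈ R := by
    rw [hg]
    simpa [mul_assoc] using hr
  have h2 := hz.2 _ h1
  calc r * (g * z * g⁻¹) = g * ((g⁻¹ * r * g) * z) * g⁻¹ := by group
    _ = g * (z * (g⁻¹ * r * g)) * g⁻¹ := by rw [h2]
    _ = (g * z * g⁻¹) * r := by group

/-- Let p be an odd prime and, inside a finite group, let P be a p-subgroup normalized by a Klein four-group T. Let R be a subgroup of P, normal in P and normalized by T, such that P is the product of R with the centralizer of T in P. If T centralizes the centre of P, then T centralizes the centre of R. -/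
theorem result {X : Type*} [Group X] [Finite X]
    {p : ℕ} (hp : p.Prime) (hodd : Odd p) (P T R : Subgroup X) (hP : IsPGroup p ↥P) (hT : IsKleinFour ↥T)
    (hTP : T ≤ Subgroup.normalizer (P : Set X)) (hRP : R ≤ P) (hRn : (R.subgroupOf P).Normal)
    (hTR : T ≤ Subgroup.normalizer (R : Set X)) (hfac : R ⊔ (P ⊓ Subgroup.centralizer (T : Set X)) = P)
    (hZ : T ≤ Subgroup.centralizer (((Subgroup.center ↥P).map P.subtype : Subgroup X) : Set X)) :
    T ≤ Subgroup.centralizer (((Subgroup.center ↥R).map R.subtype : Subgroup X) : Set X) := by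
  have : Fact p.Prime := ⟨hp⟩
  intro t ht
  rw [Subgroup.mem_centralizer_iff]
  intro v hv
  -- t has square one
  have ht2 : t * t = 1 := by
    have h := Monoid.pow_exponent_eq_one (⟨t, ht⟩ : T)
    rw [IsKleinFour.exponent_two, pow_two] at h
    exact congrArg Subtype.val h
  have htinv : t⁻¹ = t := inv_eq_of_mul_eq_one_left ht2
  set ZR : Subgroup X := (Subgroup.center ↥R).map R.subtype with hZR
  have hcommZ : ∀ a ∈ ZR, ∀ b ∈ ZR, a * b = b * a := by
    intro a ha b hb
    exact ((mem_map_center R b).mp hb).2 a ((mem_map_center R a).mp ha).1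
  -- the subgroup W of elements of Z(R) inverted by t
  let W : Subgroup X :=
    { carrier := {w | w ∈ ZR ∧ t * w * t⁻¹ = w⁻¹}
      mul_mem' := by
        rintro a b ⟨ha, ha'⟩ ⟨hb, hb'⟩
        refine ⟨ZR.mul_mem ha hb, ?_⟩
        have hab : a * b = b * a := hcommZ a ha b hb
        calc t * (a * b) * t⁻¹ = (t * a * t⁻¹) * (t * b * t⁻¹) := by group
          _ = a⁻¹ * b⁻¹ := by rw [ha', hb']
          _ = (b * a)⁻¹ := by group
          _ = (a * b)⁻¹ := by rw [hab]
      one_mem' := ⟨ZR.one_mem, by simp⟩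
      inv_mem' := by
        rintro a ⟨ha, ha'⟩
        refine ⟨ZR.inv_mem ha, ?_⟩
        calc t * a⁻¹ * t⁻¹ = (t * a * t⁻¹)⁻¹ := by group
          _ = a⁻¹⁻¹ := by rw [ha'] }
  have memW : ∀ w, w ∈ W ↔ w ∈ ZR ∧ t * w * t⁻¹ = w⁻¹ := fun w => Iff.rfl
  have hWR : W ≤ R := fun w hw => ((mem_map_center R w).mp ((memW w).mp hw).1).1
  have hWP : W ≤ P := hWR.trans hRP
  -- P normalizes R
  have hPR : P ≤ Subgroup.normalizer (R : Set X) := by
    intro g hg
    rw [Subgroup.mem_normalizer_iff]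
    intro r
    constructor
    · intro hr
      have := hRn.conj_mem ⟨r, hRP hr⟩ (Subgroup.mem_subgroupOf.mpr hr) ⟨g, hg⟩
      exact Subgroup.mem_subgroupOf.mp this
    · intro hr
      have hr' : g * r * g⁻¹ ∈ P := hRP hr
      have := hRn.conj_mem ⟨g * r * g⁻¹, hr'⟩ (Subgroup.mem_subgroupOf.mpr hr) ⟨g, hg⟩⁻¹
      have h2 := Subgroup.mem_subgroupOf.mp this
      simpa [mul_assoc] using h2
  -- W is normalized by P
  have hNW : P ≤ Subgroup.normalizer (W : Set X) := by
    have hR : R ≤ Subgroup.normalizer (W : Set X) := by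
      intro r hr
      rw [Subgroup.mem_normalizer_iff]
      intro w
      have key : ∀ w, w ∈ W → r * w * r⁻¹ = w := by
        intro w hw
        have := ((mem_map_center R w).mp ((memW w).mp hw).1).2 r hr
        rw [this]; group
      constructor
      · intro hw; rw [key w hw]; exact hw
      · intro hw
        have hr' : r⁻¹ ∈ R := R.inv_mem hr
        have h3 : r⁻¹ * (r * w * r⁻¹) = (r * w * r⁻¹) * r⁻¹ :=
          ((mem_map_center R _).mp ((memW _).mp hw).1).2 r⁻¹ hr'
        have h4 : w = r * w * r⁻¹ := by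
          calc w = (r⁻¹ * (r * w * r⁻¹)) * r := by group
            _ = ((r * w * r⁻¹) * r⁻¹) * r := by rw [h3]
            _ = r * w * r⁻¹ := by group
        rw [h4]; exact hw
    have hD : P ⊓ Subgroup.centralizer (T : Set X) ≤ Subgroup.normalizer (W : Set X) := by
      intro d hd
      obtain ⟨hdP, hdC⟩ := Subgroup.mem_inf.mp hd
      have hdt : t * d = d * t := (Subgroup.mem_centralizer_iff.mp hdC) t ht
      have hdt' : t * d⁻¹ = d⁻¹ * t := by
        calc t * d⁻¹ = d⁻¹ * (d * t) * d⁻¹ := by group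
          _ = d⁻¹ * (t * d) * d⁻¹ := by rw [hdt]
          _ = d⁻¹ * t := by group
      have fwd : ∀ (e : X), e ∈ P → t * e = e * t → ∀ w, w ∈ W → e * w * e⁻¹ ∈ W := by
        intro e heP het w hw
        obtain ⟨hw1, hw2⟩ := (memW w).mp hw
        refine (memW _).mpr ⟨conj_mem_center R e w (hPR heP) hw1, ?_⟩
        calc t * (e * w * e⁻¹) * t⁻¹ = (t * e) * w * (t * e)⁻¹ := by group
          _ = (e * t) * w * (e * t)⁻¹ := by rw [het]
          _ = e * (t * w * t⁻¹) * e⁻¹ := by group
          _ = e * w⁻¹ * e⁻¹ := by rw [hw2]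
          _ = (e * w * e⁻¹)⁻¹ := by group
      rw [Subgroup.mem_normalizer_iff]
      intro w
      constructor
      · exact fwd d hdP hdt w
      · intro hw
        have := fwd d⁻¹ (P.inv_mem hdP) hdt' _ hw
        simpa [mul_assoc] using this
    calc P = R ⊔ (P ⊓ Subgroup.centralizer (T : Set X)) := hfac.symm
      _ ≤ _ := sup_le hR hD
  -- W is trivial
  have hWbot : W = ⊥ := by
    by_contra hne
    have : (W.subgroupOf P).Normal := by
      constructor
      intro n hn g
      rw [Subgroup.mem_subgroupOf] at hn ⊢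
      have := (Subgroup.mem_normalizer_iff.mp (hNW g.2) n).mp hn
      simpa using this
    have : Group.IsNilpotent ↥P := hP.isNilpotent
    have hne' : W.subgroupOf P ≠ ⊥ := by
      intro h
      apply hne
      rw [Subgroup.subgroupOf_eq_bot] at h
      rw [eq_bot_iff]
      exact (disjoint_iff_inf_le.mp h) |>.trans' (le_inf le_rfl hWP)
    have h1 := Cfsg.Agent.Lib.helper7.nilpotent_normal_inf_center_ne_bot (W.subgroupOf P) hne'
    obtain ⟨w', hw1'⟩ := (Subgroup.ne_bot_iff_exists_ne_one).mp h1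
    obtain ⟨w, hw⟩ := w'
    have hw1 : w ≠ 1 := fun h => hw1' (Subtype.ext h)
    obtain ⟨hwW, hwZ⟩ := Subgroup.mem_inf.mp hw
    rw [Subgroup.mem_subgroupOf] at hwW
    obtain ⟨_, hwt⟩ := (memW _).mp hwW
    have hwc : (w : X) ∈ ((Subgroup.center ↥P).map P.subtype : Subgroup X) := ⟨w, hwZ, rfl⟩
    have hcomm : (w : X) * t = t * (w : X) := (Subgroup.mem_centralizer_iff.mp (hZ ht)) _ hwc
    have hsq : (w : X) ^ 2 = 1 := by
      have h5 : (w : X) = (w : X)⁻¹ := by
        calc (w : X) = (w : X) * t * t⁻¹ := by group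
          _ = t * (w : X) * t⁻¹ := by rw [hcomm]
          _ = (w : X)⁻¹ := hwt
      rw [pow_two]
      calc (w : X) * (w : X) = (w : X)⁻¹ * (w : X) := by rw [← h5]
        _ = 1 := by group
    have hsq' : w ^ 2 = 1 := Subtype.ext (by simpa using hsq)
    obtain ⟨k, hk⟩ := (IsPGroup.iff_orderOf.mp hP) w
    have hdvd : orderOf w ∣ 2 := orderOf_dvd_of_pow_eq_one hsq'
    have hk0 : k = 0 := by
      by_contra hk0
      have hp2 : p ∣ 2 := (dvd_pow_self p hk0).trans (hk ▸ hdvd)
      have : p = 2 := (Nat.prime_dvd_prime_iff_eq hp Nat.prime_two).mp hp2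
      rw [this] at hodd
      exact absurd hodd (by decide)
    rw [hk0, pow_zero, orderOf_eq_one_iff] at hk
    exact hw1 hk
  -- conclude
  have hw0 : v⁻¹ * (t * v * t⁻¹) ∈ W := by
    refine (memW _).mpr ⟨ZR.mul_mem (ZR.inv_mem hv) (conj_mem_center R t v (hTR ht) hv), ?_⟩
    calc t * (v⁻¹ * (t * v * t⁻¹)) * t⁻¹ = t * v⁻¹ * t * v * (t⁻¹ * t⁻¹) := by group
      _ = t * v⁻¹ * t * v * (t * t) := by rw [htinv]
      _ = t * v⁻¹ * t * v := by rw [ht2, mul_one]
      _ = t * v⁻¹ * t⁻¹ * v := by rw [htinv]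
      _ = (v⁻¹ * (t * v * t⁻¹))⁻¹ := by group
  rw [hWbot, Subgroup.mem_bot] at hw0
  calc v * t = v * (v⁻¹ * (t * v * t⁻¹)) * t := by rw [hw0]; group
    _ = t * v := by group

end Cfsg.Agent.S3190
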