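import Cfsg.Statements.S3195
import Mathlib
import Cfsg.Agent.Lib.helper20.BaerSuzuki

set_option autoImplicit false
open Cfsg

namespace Cfsg.Agent.S3195

theorem eq_one_of_odd_of_pow_four {G : Type*} [Group G] (x : G) (h : Odd (orderOf x))
    (h4 : x ^ 4 = 1) : x = 1 := by
  have h1 : orderOf x ∣ 4 := orderOf_dvd_of_pow_eq_one h4
  have h2 : Nat.Coprime (orderOf x) 4 := by
    have : Nat.Coprime (orderOf x) (2 ^ 2) := Nat.Coprime.pow_right 2 h.coprime_two_right
    simpa using this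
  exact orderOf_eq_one_iff.mp (Nat.Coprime.eq_one_of_dvd h2 h1)

/-- an involution outside `O₂(G)` inverts a nontrivial element `u` of odd order with `x * u`
conjugate to `x` -/
theorem exists_odd {G : Type*} [Group G] [Finite G] (x : G) (hx : x * x = 1)
    (hxc : x ∉ Cfsg.pCore 2 G) :
    ∃ u v : G, u ≠ 1 ∧ Odd (orderOf u) ∧ x * u * x⁻¹ = u⁻¹ ∧ x * u = v⁻¹ * x * v := by
  have : Fact (Nat.Prime 2) := ⟨Nat.prime_two⟩
  have hxinv : x⁻¹ = x := inv_eq_of_mul_eq_one_left hx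
  let K : Set G := {y | ∃ g : G, y = g * x * g⁻¹}
  by_cases hall : ∀ a ∈ K, ∀ b ∈ K, IsPGroup 2 (Subgroup.closure ({a, b} : Set G))
  · exfalso
    have hKn : ∀ g : G, ∀ a ∈ K, g * a * g⁻¹ ∈ K := by
      rintro g _ ⟨h', rfl⟩
      exact ⟨g * h', by group⟩
    have P : Sylow 2 G := default
    have hKP := Cfsg.Agent.Lib.helper20.baer_suzuki_set K hKn hall P
    have hle : Subgroup.normalClosure ({x} : Set G) ≤ (P : Subgroup G) := by
      unfold Subgroup.normalClosure
      rw [Subgroup.closure_le]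
      intro b hb
      rw [Group.mem_conjugatesOfSet_iff] at hb
      obtain ⟨a, ha, hab⟩ := hb
      rw [Set.mem_singleton_iff] at ha
      subst ha
      obtain ⟨c, hc⟩ := isConj_iff.mp hab
      exact hKP ⟨c, hc.symm⟩
    have hp : IsPGroup 2 (Subgroup.normalClosure ({x} : Set G)) := P.isPGroup'.to_le hle
    have hle2 : Subgroup.normalClosure ({x} : Set G) ≤ Cfsg.pCore 2 G :=
      le_sSup ⟨Subgroup.normalClosure_normal, hp⟩
    exact hxc (hle2 (Subgroup.subset_normalClosure (Set.mem_singleton x)))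
  · push Not at hall
    obtain ⟨_, ⟨g, rfl⟩, _, ⟨g', rfl⟩, hnp⟩ := hall
    set y := g⁻¹ * g' * x * g'⁻¹ * g with hy
    have hyy : y * y = 1 := by
      calc y * y = g⁻¹ * g' * (x * x) * g'⁻¹ * g := by rw [hy]; group
        _ = 1 := by rw [hx]; group
    have hyinv : y⁻¹ = y := inv_eq_of_mul_eq_one_left hyy
    have hnp' : ¬ IsPGroup 2 (Subgroup.closure ({x, y} : Set G)) := by
      intro hp
      apply hnp
      have hle : Subgroup.closure ({g * x * g⁻¹, g' * x * g'⁻¹} : Set G) ≤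
          (Subgroup.closure ({x, y} : Set G)).map (MulAut.conj g).toMonoidHom := by
        rw [Subgroup.closure_le]
        rintro z (hz | hz)
        · rw [hz]; exact ⟨x, Subgroup.subset_closure (by simp), by simp⟩
        · rw [Set.mem_singleton_iff] at hz
          rw [hz]
          refine ⟨y, Subgroup.subset_closure (by simp), ?_⟩
          simp only [MulEquiv.coe_toMonoidHom, MulAut.conj_apply, hy]
          group
      exact (hp.map _).to_le hle
    set r := x * y with hr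
    have hxr : x * r * x⁻¹ = r⁻¹ := by
      rw [hr, hxinv]
      calc x * (x * y) * x = (x * x) * y * x := by group
        _ = y⁻¹ * x⁻¹ := by rw [hx, hyinv, hxinv, one_mul]
        _ = (x * y)⁻¹ := by group
    have hxpow : ∀ i : ℕ, x * r ^ i * x⁻¹ = (r ^ i)⁻¹ := by
      intro i
      rw [← conj_pow, hxr, inv_pow]
    have hnot : ¬ ∃ k : ℕ, orderOf r = 2 ^ k := by
      rintro ⟨k, hk⟩
      apply hnp'
      have h1 : IsPGroup 2 (Subgroup.zpowers r) := IsPGroup.of_card (n := k) (by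
        rw [Nat.card_zpowers, hk])
      have h2 : IsPGroup 2 (Subgroup.zpowers x) := by
        rintro ⟨z, hz⟩
        refine ⟨1, ?_⟩
        obtain ⟨i, rfl⟩ := Subgroup.mem_zpowers_iff.mp hz
        apply Subtype.ext
        simp only [pow_one, Subgroup.coe_pow, Subgroup.coe_one]
        rw [← zpow_natCast, ← zpow_mul, mul_comm, zpow_mul, zpow_natCast, pow_two, hx, one_zpow]
      have h3 : Subgroup.zpowers x ≤ Subgroup.normalizer ((Subgroup.zpowers r : Subgroup G) : Set G) := by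
        rw [Subgroup.zpowers_le]
        refine Subgroup.mem_normalizer_fintype (fun n hn => ?_)
        obtain ⟨i, rfl⟩ := Subgroup.mem_zpowers_iff.mp hn
        have : x * r ^ i * x⁻¹ = (r⁻¹) ^ i := by
          rw [← hxr]
          simp [conj_zpow]
        rw [this]
        exact Subgroup.zpow_mem _ (Subgroup.inv_mem _ (Subgroup.mem_zpowers r)) i
      have h4 := IsPGroup.to_sup_of_normal_right' h2 h1 h3
      refine h4.to_le ?_
      rw [Subgroup.closure_le]
      rintro z (hz | hz)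
      · rw [hz]; exact Subgroup.mem_sup_left (Subgroup.mem_zpowers x)
      · rw [Set.mem_singleton_iff] at hz
        have : y = x⁻¹ * r := by rw [hr]; group
        rw [hz, this]
        exact Subgroup.mul_mem _ (Subgroup.mem_sup_left (Subgroup.inv_mem _ (Subgroup.mem_zpowers x)))
          (Subgroup.mem_sup_right (Subgroup.mem_zpowers r))
    have hpos : orderOf r ≠ 0 := (orderOf_pos r).ne'
    obtain ⟨e, m, hm, hem⟩ := Nat.exists_eq_two_pow_mul_odd hpos
    have hm1 : m ≠ 1 := by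
      intro h1
      exact hnot ⟨e, by rw [hem, h1, mul_one]⟩
    set u := r ^ (2 ^ e) with hu
    have hou : orderOf u = m := by
      rw [hu, orderOf_pow_of_dvd (by positivity) (by rw [hem]; exact dvd_mul_right _ _), hem,
        Nat.mul_div_cancel_left _ (by positivity)]
    obtain ⟨j, hj⟩ := hm
    refine ⟨u, u ^ (j + 1), ?_, ?_, hxpow _, ?_⟩
    · intro h1
      rw [h1, orderOf_one] at hou
      exact hm1 hou.symm
    · rw [hou, hj]; exact ⟨j, rfl⟩
    · have hum : u ^ m = 1 := by rw [← hou]; exact pow_orderOf_eq_one u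
      have hvv : u ^ (j + 1) * u ^ (j + 1) = u := by
        rw [← pow_add]
        have : j + 1 + (j + 1) = m + 1 := by omega
        rw [this, pow_succ, hum, one_mul]
      have hxv : x * u ^ (j + 1) * x⁻¹ = (u ^ (j + 1))⁻¹ := by
        rw [hu, ← pow_mul]
        exact hxpow _
      have hxv' : x * u ^ (j + 1) = (u ^ (j + 1))⁻¹ * x := by
        calc x * u ^ (j + 1) = (x * u ^ (j + 1) * x⁻¹) * x := by group
          _ = (u ^ (j + 1))⁻¹ * x := by rw [hxv]
      calc x * u = x * (u ^ (j + 1) * u ^ (j + 1)) := by rw [hvv]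
        _ = (x * u ^ (j + 1)) * u ^ (j + 1) := by group
        _ = (u ^ (j + 1))⁻¹ * x * u ^ (j + 1) := by rw [hxv']


theorem four_cases {G : Type*} [Group G] (A : Subgroup G) (hA : IsKleinFour ↥A) (p q : G)
    (hp : p ∈ A) (hq : q ∈ A) (hp1 : p ≠ 1) (hq1 : q ≠ 1) (hpq : p ≠ q) (z : G) (hz : z ∈ A) :
    z = 1 ∨ z = p ∨ z = q ∨ z = p * q := by
  by_cases h1 : z = 1
  · exact Or.inl h1
  by_cases h2 : z = p
  · exact Or.inr (Or.inl h2)
  by_cases h3 : z = q
  · exact Or.inr (Or.inr (Or.inl h3))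
  right; right; right
  have := IsKleinFour.eq_mul_of_ne_all (G := ↥A) (x := ⟨p, hp⟩) (y := ⟨q, hq⟩) (z := ⟨z, hz⟩)
    (fun h => hp1 (congrArg Subtype.val h)) (fun h => hq1 (congrArg Subtype.val h))
    (fun h => hpq (congrArg Subtype.val h)) (fun h => h1 (congrArg Subtype.val h))
    (fun h => h2 (congrArg Subtype.val h)) (fun h => h3 (congrArg Subtype.val h))
  exact congrArg Subtype.val this

theorem star {G : Type*} [Group G] [Finite G] (A : Subgroup G) (hA : IsKleinFour ↥A)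
    (h : ∀ a ∈ A, a ≠ 1 → ∀ g : G, A ⊓ Subgroup.centralizer ({g * a * g⁻¹} : Set G) ≠ ⊥)
    (a b : G) (haA : a ∈ A) (hbA : b ∈ A) (ha1 : a ≠ 1) (hb1 : b ≠ 1) (hne : a ≠ b)
    (s t : G) (hs1 : s ≠ 1) (ht1 : t ≠ 1) (hso : Odd (orderOf s)) (hto : Odd (orderOf t))
    (has : a * s * a⁻¹ = s⁻¹) (hbs : b * s = s * b) (hbt : b * t * b⁻¹ = t⁻¹) (hat : a * t = t * a) :
    (s * s) * (t * t) * (s * s) = ((t * t))⁻¹ := by
  have haa : a * a = 1 := congrArg Subtype.val (IsKleinFour.mul_self (⟨a, haA⟩ : ↥A))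
  have hbb : b * b = 1 := congrArg Subtype.val (IsKleinFour.mul_self (⟨b, hbA⟩ : ↥A))
  have hab : a * b = b * a :=
    congrArg Subtype.val (mul_comm_of_exponent_two (IsKleinFour.exponent_two (G := ↥A)) ⟨a, haA⟩ ⟨b, hbA⟩)
  have hainv : a⁻¹ = a := inv_eq_of_mul_eq_one_left haa
  have hbinv : b⁻¹ = b := inv_eq_of_mul_eq_one_left hbb
  obtain ⟨c, hc⟩ : ∃ c, c = a * b := ⟨_, rfl⟩
  have hcA : c ∈ A := by rw [hc]; exact A.mul_mem haA hbA
  have hc1 : c ≠ 1 := by
    intro h1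
    apply hne
    calc a = a * (b * b) := by rw [hbb, mul_one]
      _ = (a * b) * b := by group
      _ = b := by rw [← hc, h1, one_mul]
  -- conjugation rules
  have hbs' : b * s * b⁻¹ = s := by rw [hbs]; group
  have hat' : a * t * a⁻¹ = t := by rw [hat]; group
  have hcs : c * s * c⁻¹ = s⁻¹ := by
    calc c * s * c⁻¹ = a * (b * s * b⁻¹) * a⁻¹ := by rw [hc]; group
      _ = s⁻¹ := by rw [hbs', has]
  have hct : c * t * c⁻¹ = t⁻¹ := by
    calc c * t * c⁻¹ = a * (b * t * b⁻¹) * a⁻¹ := by rw [hc]; group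
      _ = (a * t * a⁻¹)⁻¹ := by rw [hbt]; group
      _ = t⁻¹ := by rw [hat']
  have hac : a * c * a⁻¹ = c := by
    calc a * c * a⁻¹ = a * (a * b) * a⁻¹ := by rw [hc]
      _ = a * (b * a) * a⁻¹ := by rw [hab]
      _ = a * b := by group
      _ = c := hc.symm
  have hbc : b * c * b⁻¹ = c := by
    calc b * c * b⁻¹ = b * (a * b) * b⁻¹ := by rw [hc]
      _ = b * a := by group
      _ = a * b := hab.symm
      _ = c := hc.symm
  have h1 : s⁻¹ * c = c * s := by
    calc s⁻¹ * c = (c * s * c⁻¹) * c := by rw [hcs]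
      _ = c * s := by group
  have h2 : t⁻¹ * c = c * t := by
    calc t⁻¹ * c = (c * t * c⁻¹) * c := by rw [hct]
      _ = c * t := by group
  obtain ⟨d, hd⟩ : ∃ d, d = (s * t)⁻¹ * c * (s * t)⁻¹⁻¹ := ⟨_, rfl⟩
  have hd' : d = c * t * (s * s) * t := by
    calc d = t⁻¹ * (s⁻¹ * c) * s * t := by rw [hd]; group
      _ = t⁻¹ * (c * s) * s * t := by rw [h1]
      _ = (t⁻¹ * c) * s * s * t := by group
      _ = (c * t) * s * s * t := by rw [h2]
      _ = c * t * (s * s) * t := by group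
  have hex := h c hcA hc1 (s * t)⁻¹
  rw [← hd] at hex
  obtain ⟨⟨z, hz⟩, hz1'⟩ := (Subgroup.ne_bot_iff_exists_ne_one).mp hex
  have hz1 : z ≠ 1 := fun h => hz1' (Subtype.ext h)
  obtain ⟨hzA, hzC⟩ := Subgroup.mem_inf.mp hz
  have hzd : z * d = d * z := Subgroup.mem_centralizer_singleton_iff.mp hzC
  have hzd' : z * d * z⁻¹ = d := by rw [hzd]; group
  rcases four_cases A hA a b haA hbA ha1 hb1 hne z hzA with hz0 | hz0 | hz0 | hz0
  · exact absurd hz0 hz1
  · -- z = a
    exfalso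
    rw [hz0] at hzd'
    have h3 : a * d * a⁻¹ = c * t * ((s * s))⁻¹ * t := by
      calc a * d * a⁻¹ = (a * c * a⁻¹) * (a * t * a⁻¹) * ((a * s * a⁻¹) * (a * s * a⁻¹)) * (a * t * a⁻¹) := by
            rw [hd']; group
        _ = c * t * ((s * s))⁻¹ * t := by rw [hac, hat', has]; group
    rw [hzd', hd'] at h3
    have h4 : (s * s) = ((s * s))⁻¹ := mul_left_cancel (mul_right_cancel h3)
    have h5 : s ^ 4 = 1 := by
      calc s ^ 4 = (s * s) * (s * s) := by simp [pow_succ, mul_assoc]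
        _ = ((s * s))⁻¹ * (s * s) := by rw [← h4]
        _ = 1 := by group
    exact hs1 (eq_one_of_odd_of_pow_four s hso h5)
  · -- z = b
    exfalso
    rw [hz0] at hzd'
    have h3 : b * d * b⁻¹ = c * t⁻¹ * (s * s) * t⁻¹ := by
      calc b * d * b⁻¹ = (b * c * b⁻¹) * (b * t * b⁻¹) * ((b * s * b⁻¹) * (b * s * b⁻¹)) * (b * t * b⁻¹) := by
            rw [hd']; group
        _ = c * t⁻¹ * (s * s) * t⁻¹ := by rw [hbc, hbt, hbs']
    rw [hzd', hd'] at h3
    have h4 : t * (s * s) * t = t⁻¹ * (s * s) * t⁻¹ := by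
      have := mul_left_cancel (a := c) (b := t * (s * s) * t) (c := t⁻¹ * (s * s) * t⁻¹)
        (by simpa [mul_assoc] using h3)
      exact this
    -- conjugation by s² inverts t²
    have h5 : ((s * s))⁻¹ * (t * t) * (s * s) = ((t * t))⁻¹ := by
      calc ((s * s))⁻¹ * (t * t) * (s * s) = ((s * s))⁻¹ * t * (t * (s * s) * t) * t⁻¹ := by group
        _ = ((s * s))⁻¹ * t * (t⁻¹ * (s * s) * t⁻¹) * t⁻¹ := by rw [h4]
        _ = ((t * t))⁻¹ := by group
    have h6 : Commute ((s * s) * (s * s)) ((t * t)) := by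
      have : ((s * s) * (s * s))⁻¹ * (t * t) * ((s * s) * (s * s)) = (t * t) := by
        calc ((s * s) * (s * s))⁻¹ * (t * t) * ((s * s) * (s * s))
            = ((s * s))⁻¹ * (((s * s))⁻¹ * (t * t) * (s * s)) * (s * s) := by group
          _ = ((s * s))⁻¹ * ((t * t))⁻¹ * (s * s) := by rw [h5]
          _ = (((s * s))⁻¹ * (t * t) * (s * s))⁻¹ := by simp [mul_assoc]
          _ = (t * t) := by rw [h5, inv_inv]
      show ((s * s) * (s * s)) * (t * t) = (t * t) * ((s * s) * (s * s))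
      calc ((s * s) * (s * s)) * (t * t) = ((s * s) * (s * s)) * (((s * s) * (s * s))⁻¹ * (t * t) * ((s * s) * (s * s))) := by
            rw [this]
        _ = (t * t) * ((s * s) * (s * s)) := by group
    obtain ⟨j, hj⟩ := hso
    have h7 : (s * s) = ((s * s) * (s * s)) ^ (j + 1) := by
      have hs : s ^ (2 * j + 1) = 1 := by rw [← hj]; exact pow_orderOf_eq_one s
      calc (s * s) = (s * s) * (s ^ (2 * j + 1) * s ^ (2 * j + 1)) := by rw [hs]; simp
        _ = ((s * s) * (s * s)) ^ (j + 1) := by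
          rw [← pow_two, ← pow_two, ← pow_two, ← pow_mul, ← pow_mul, ← pow_mul, ← pow_add]
          congr 1
          ring
    have h8 : Commute ((s * s)) ((t * t)) := by
      rw [h7]; exact h6.pow_left _
    have h9 : (t * t) = ((t * t))⁻¹ := by
      calc (t * t) = ((s * s))⁻¹ * ((s * s) * (t * t)) := by group
        _ = ((s * s))⁻¹ * ((t * t) * (s * s)) := by rw [h8.eq]
        _ = ((s * s))⁻¹ * (t * t) * (s * s) := by group
        _ = ((t * t))⁻¹ := h5
    have h10 : t ^ 4 = 1 := by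
      calc t ^ 4 = (t * t) * (t * t) := by simp [pow_succ, mul_assoc]
        _ = ((t * t))⁻¹ * (t * t) := by rw [← h9]
        _ = 1 := by group
    exact ht1 (eq_one_of_odd_of_pow_four t hto h10)
  · -- z = a * b = c
    rw [hz0, ← hc] at hzd'
    have h3 : c * d * c⁻¹ = c * t⁻¹ * ((s * s))⁻¹ * t⁻¹ := by
      calc c * d * c⁻¹ = c * ((c * t * c⁻¹) * ((c * s * c⁻¹) * (c * s * c⁻¹)) * (c * t * c⁻¹)) := by
            rw [hd']; group
        _ = c * t⁻¹ * ((s * s))⁻¹ * t⁻¹ := by rw [hct, hcs]; group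
    rw [hzd', hd'] at h3
    have h4 : t * (s * s) * t = t⁻¹ * ((s * s))⁻¹ * t⁻¹ := by
      have := mul_left_cancel (a := c) (b := t * (s * s) * t) (c := t⁻¹ * ((s * s))⁻¹ * t⁻¹)
        (by simpa [mul_assoc] using h3)
      exact this
    calc (s * s) * (t * t) * (s * s) = t⁻¹ * (t * (s * s) * t) * (t * (s * s) * t) * t⁻¹ := by group
      _ = t⁻¹ * (t⁻¹ * ((s * s))⁻¹ * t⁻¹) * (t * (s * s) * t) * t⁻¹ := by rw [← h4]
      _ = ((t * t))⁻¹ := by group



theorem no_pair {G : Type*} [Group G] [Finite G] (A : Subgroup G) (hA : IsKleinFour ↥A)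
    (h : ∀ a ∈ A, a ≠ 1 → ∀ g : G, A ⊓ Subgroup.centralizer ({g * a * g⁻¹} : Set G) ≠ ⊥)
    (p q : G) (hp : p ∈ A) (hq : q ∈ A) (hp1 : p ≠ 1) (hq1 : q ≠ 1) (hpq : p ≠ q)
    (u w : G) (hu1 : u ≠ 1) (hw1 : w ≠ 1) (huo : Odd (orderOf u)) (hwo : Odd (orderOf w))
    (hpu : p * u * p⁻¹ = u⁻¹) (hqu : q * u = u * q) (hqw : q * w * q⁻¹ = w⁻¹) (hpw : p * w = w * p) :
    False := by
  have e1 := star A hA h p q hp hq hp1 hq1 hpq u w hu1 hw1 huo hwo hpu hqu hqw hpw
  have huu1 : u * u ≠ 1 := by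
    intro h1
    apply hu1
    apply eq_one_of_odd_of_pow_four u huo
    calc u ^ 4 = (u * u) * (u * u) := by simp [pow_succ, mul_assoc]
      _ = 1 := by rw [h1, one_mul]
  have huuo : Odd (orderOf (u * u)) := by
    rw [← pow_two]
    exact Odd.of_dvd_nat huo (orderOf_pow_dvd 2)
  have hpuu : p * (u * u) * p⁻¹ = (u * u)⁻¹ := by
    calc p * (u * u) * p⁻¹ = (p * u * p⁻¹) * (p * u * p⁻¹) := by group
      _ = (u * u)⁻¹ := by rw [hpu]; group
  have hquu : q * (u * u) = (u * u) * q := by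
    calc q * (u * u) = (q * u) * u := by group
      _ = (u * q) * u := by rw [hqu]
      _ = u * (q * u) := by group
      _ = u * (u * q) := by rw [hqu]
      _ = (u * u) * q := by group
  have e2 := star A hA h p q hp hq hp1 hq1 hpq (u * u) w huu1 hw1 huuo hwo hpuu hquu hqw hpw
  have hwi1 : w⁻¹ ≠ 1 := fun h1 => hw1 (inv_eq_one.mp h1)
  have hwio : Odd (orderOf w⁻¹) := by rw [orderOf_inv]; exact hwo
  have hqwi : q * w⁻¹ * q⁻¹ = (w⁻¹)⁻¹ := by
    calc q * w⁻¹ * q⁻¹ = (q * w * q⁻¹)⁻¹ := by group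
      _ = (w⁻¹)⁻¹ := by rw [hqw]
  have hpwi : p * w⁻¹ = w⁻¹ * p := by
    calc p * w⁻¹ = w⁻¹ * (w * p) * w⁻¹ := by group
      _ = w⁻¹ * (p * w) * w⁻¹ := by rw [hpw]
      _ = w⁻¹ * p := by group
  have e3 := star A hA h p q hp hq hp1 hq1 hpq u w⁻¹ hu1 hwi1 huo hwio hpu hqu hqwi hpwi
  have key : (w * w)⁻¹ = w * w := by
    calc (w * w)⁻¹ = (u * u * (u * u)) * (w * w) * (u * u * (u * u)) := e2.symm
      _ = (u * u) * ((u * u) * (w * w) * (u * u)) * (u * u) := by simp [mul_assoc]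
      _ = (u * u) * (w * w)⁻¹ * (u * u) := by rw [e1]
      _ = (u * u) * (w⁻¹ * w⁻¹) * (u * u) := by simp [mul_assoc]
      _ = (w⁻¹ * w⁻¹)⁻¹ := e3
      _ = w * w := by simp
  apply hw1
  apply eq_one_of_odd_of_pow_four w hwo
  calc w ^ 4 = (w * w) * (w * w) := by simp [pow_succ, mul_assoc]
    _ = (w * w)⁻¹ * (w * w) := by rw [key]
    _ = 1 := by group

/-- Let A be a Klein four-subgroup of a finite group G. If every G-conjugate of every involution of A commutes with some involution of A (its centralizer meets A nontrivially), then A meets the largest normal 2-subgroup O₂(G) nontrivially. -/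
theorem result {G : Type*} [Group G] [Finite G]
    (A : Subgroup G) (hA : IsKleinFour ↥A)
    (h : ∀ a ∈ A, a ≠ 1 → ∀ g : G, A ⊓ Subgroup.centralizer ({g * a * g⁻¹} : Set G) ≠ ⊥) :
    A ⊓ Cfsg.pCore 2 G ≠ ⊥ := by
  by_contra hbot
  have hnc : ∀ x ∈ A, x ≠ 1 → x ∉ Cfsg.pCore 2 G := by
    intro x hx hx1 hxc
    have : x ∈ A ⊓ Cfsg.pCore 2 G := Subgroup.mem_inf.mpr ⟨hx, hxc⟩
    rw [hbot, Subgroup.mem_bot] at this
    exact hx1 this
  have hR : ∀ x ∈ A, x ≠ 1 → ∃ z ∈ A, z ≠ 1 ∧ z ≠ x ∧ ∃ u : G, u ≠ 1 ∧ Odd (orderOf u) ∧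
      x * u * x⁻¹ = u⁻¹ ∧ z * u = u * z := by
    intro x hx hx1
    have hxx : x * x = 1 := congrArg Subtype.val (IsKleinFour.mul_self (⟨x, hx⟩ : ↥A))
    obtain ⟨u, v, hu1, huo, hxu, hxv⟩ := exists_odd x hxx (hnc x hx hx1)
    have hex := h x hx hx1 v⁻¹
    obtain ⟨⟨z, hz⟩, hz1'⟩ := (Subgroup.ne_bot_iff_exists_ne_one).mp hex
    have hz1 : z ≠ 1 := fun h => hz1' (Subtype.ext h)
    obtain ⟨hzA, hzC⟩ := Subgroup.mem_inf.mp hz
    have hzd : z * (v⁻¹ * x * v⁻¹⁻¹) = (v⁻¹ * x * v⁻¹⁻¹) * z :=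
      Subgroup.mem_centralizer_singleton_iff.mp hzC
    rw [inv_inv, ← hxv] at hzd
    have hzx : z * x = x * z :=
      congrArg Subtype.val (mul_comm_of_exponent_two (IsKleinFour.exponent_two (G := ↥A)) ⟨z, hzA⟩ ⟨x, hx⟩)
    have hzu : z * u = u * z := by
      have : x * (z * u) = x * (u * z) := by
        calc x * (z * u) = (x * z) * u := by group
          _ = (z * x) * u := by rw [hzx]
          _ = z * (x * u) := by group
          _ = x * u * z := hzd
          _ = x * (u * z) := by group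
      exact mul_left_cancel this
    refine ⟨z, hzA, hz1, ?_, u, hu1, huo, hxu, hzu⟩
    intro hzx'
    rw [hzx'] at hzu
    apply hu1
    apply eq_one_of_odd_of_pow_four u huo
    have h5 : u = u⁻¹ := by
      calc u = (u * x) * x⁻¹ := by group
        _ = (x * u) * x⁻¹ := by rw [hzu]
        _ = u⁻¹ := hxu
    calc u ^ 4 = (u * u) * (u * u) := by simp [pow_succ, mul_assoc]
      _ = (u⁻¹ * u) * (u⁻¹ * u) := by rw [← h5]
      _ = 1 := by group
  have hcard : Nat.card ↥A = 4 := IsKleinFour.card_four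
  have hnt : Nontrivial ↥A := (Finite.one_lt_card_iff_nontrivial).mp (by rw [hcard]; norm_num)
  obtain ⟨⟨a, haA⟩, ha1'⟩ := exists_ne (1 : ↥A)
  have ha1 : a ≠ 1 := fun h => ha1' (Subtype.ext h)
  obtain ⟨b, hbA, hb1, hba, u, hu1, huo, hau, hbu⟩ := hR a haA ha1
  obtain ⟨z, hzA, hz1, hzb, w, hw1, hwo, hbw, hzw⟩ := hR b hbA hb1
  rcases four_cases A hA a b haA hbA ha1 hb1 (Ne.symm hba) z hzA with h0 | h0 | h0 | h0
  · exact hz1 h0
  · rw [h0] at hzw
    exact no_pair A hA h a b haA hbA ha1 hb1 (Ne.symm hba) u w hu1 hw1 huo hwo hau hbu hbw hzw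
  · exact hzb h0
  · rw [h0] at hzw
    have hab1 : a * b ≠ 1 := by rw [← h0]; exact hz1
    have habb : a * b ≠ b := by
      intro h1
      apply ha1
      calc a = (a * b) * b⁻¹ := by group
        _ = 1 := by rw [h1]; group
    have habu : (a * b) * u * (a * b)⁻¹ = u⁻¹ := by
      have hbu' : b * u * b⁻¹ = u := by rw [hbu]; group
      calc (a * b) * u * (a * b)⁻¹ = a * (b * u * b⁻¹) * a⁻¹ := by group
        _ = u⁻¹ := by rw [hbu', hau]
    exact no_pair A hA h (a * b) b (A.mul_mem haA hbA) hbA hab1 hb1 habb u w hu1 hw1 huo hwo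
      habu hbu hbw hzw

end Cfsg.Agent.S3195
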