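import Cfsg.Statements.S3196
import Mathlib

set_option autoImplicit false
open Cfsg

namespace Cfsg.Agent.S3196

/-- elementwise commuting of two subgroups -/
def Comm {G : Type*} [Group G] (X Y : Subgroup G) : Prop := ∀ x ∈ X, ∀ y ∈ Y, x * y = y * x

theorem Comm.symm {G : Type*} [Group G] {X Y : Subgroup G} (h : Comm X Y) : Comm Y X :=
  fun y hy x hx => (h x hx y hy).symm

theorem eq_zpowers {G : Type*} [Group G] [Finite G] {p : ℕ} (hp : p.Prime) (X : Subgroup G)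
    (hX : Nat.card ↥X = p) (x : G) (hx : x ∈ X) (hx1 : x ≠ 1) : X = Subgroup.zpowers x := by
  symm
  apply Subgroup.eq_of_le_of_card_ge
  · rw [Subgroup.zpowers_le]; exact hx
  · rw [Nat.card_zpowers, hX]
    have h1 : orderOf x ∣ p := by
      rw [← hX]
      have := Subgroup.card_dvd_of_le ((Subgroup.zpowers_le (H := X)).mpr hx)
      rwa [Nat.card_zpowers] at this
    rcases (Nat.dvd_prime hp).mp h1 with h2 | h2
    · exact absurd (orderOf_eq_one_iff.mp h2) hx1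
    · exact h2.ge

theorem pow_eq_one_of_mem {G : Type*} [Group G] [Finite G] {p : ℕ} (X : Subgroup G)
    (hX : Nat.card ↥X = p) (x : G) (hx : x ∈ X) : x ^ p = 1 := by
  have h := pow_card_eq_one' (G := ↥X) (x := ⟨x, hx⟩)
  rw [hX] at h
  exact congrArg Subtype.val h

theorem exists_ne_one {G : Type*} [Group G] [Finite G] {p : ℕ} (hp : p.Prime) (X : Subgroup G)
    (hX : Nat.card ↥X = p) : ∃ x ∈ X, x ≠ 1 := by
  have hnt : Nontrivial ↥X := (Finite.one_lt_card_iff_nontrivial).mp (by rw [hX]; exact hp.one_lt)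
  obtain ⟨⟨x, hx⟩, hx1⟩ := exists_ne (1 : ↥X)
  exact ⟨x, hx, fun h => hx1 (Subtype.ext h)⟩

theorem comm_zpowers {G : Type*} [Group G] (x y : G) (h : x * y = y * x) :
    Comm (Subgroup.zpowers x) (Subgroup.zpowers y) := by
  intro a ha b hb
  obtain ⟨i, rfl⟩ := Subgroup.mem_zpowers_iff.mp ha
  obtain ⟨j, rfl⟩ := Subgroup.mem_zpowers_iff.mp hb
  exact ((show Commute x y from h).zpow_zpow i j).eq

theorem comm_self {G : Type*} [Group G] [Finite G] {p : ℕ} (hp : p.Prime) (X : Subgroup G)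
    (hX : Nat.card ↥X = p) : Comm X X := by
  obtain ⟨x, hx, hx1⟩ := exists_ne_one hp X hX
  rw [eq_zpowers hp X hX x hx hx1]
  exact comm_zpowers x x rfl

theorem mem_sup_comm {G : Type*} [Group G] {X Y : Subgroup G} (h : Comm X Y) (g : G) :
    g ∈ X ⊔ Y ↔ ∃ a ∈ X, ∃ b ∈ Y, g = a * b := by
  constructor
  · intro hg
    let S : Subgroup G :=
      { carrier := {g | ∃ a ∈ X, ∃ b ∈ Y, g = a * b}
        mul_mem' := by
          rintro _ _ ⟨a, ha, b, hb, rfl⟩ ⟨a', ha', b', hb', rfl⟩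
          refine ⟨a * a', X.mul_mem ha ha', b * b', Y.mul_mem hb hb', ?_⟩
          have := h a' ha' b hb
          calc a * b * (a' * b') = a * (b * a') * b' := by group
            _ = a * (a' * b) * b' := by rw [this]
            _ = a * a' * (b * b') := by group
        one_mem' := ⟨1, X.one_mem, 1, Y.one_mem, by simp⟩
        inv_mem' := by
          rintro _ ⟨a, ha, b, hb, rfl⟩
          refine ⟨a⁻¹, X.inv_mem ha, b⁻¹, Y.inv_mem hb, ?_⟩
          have := h a⁻¹ (X.inv_mem ha) b⁻¹ (Y.inv_mem hb)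
          calc (a * b)⁻¹ = b⁻¹ * a⁻¹ := by group
            _ = a⁻¹ * b⁻¹ := this.symm }
    have hle : X ⊔ Y ≤ S := sup_le (fun a ha => ⟨a, ha, 1, Y.one_mem, by simp⟩)
      (fun b hb => ⟨1, X.one_mem, b, hb, by simp⟩)
    exact hle hg
  · rintro ⟨a, ha, b, hb, rfl⟩
    exact Subgroup.mul_mem _ (Subgroup.mem_sup_left ha) (Subgroup.mem_sup_right hb)

/-- all elements of a line commute -/
theorem line_comm {G : Type*} [Group G] [Finite G] {p : ℕ} (hp : p.Prime) (X Y : Subgroup G)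
    (hX : Nat.card ↥X = p) (hY : Nat.card ↥Y = p) (h : Comm X Y) :
    ∀ e ∈ X ⊔ Y, ∀ f ∈ X ⊔ Y, e * f = f * e := by
  intro e he f hf
  obtain ⟨a, ha, b, hb, rfl⟩ := (mem_sup_comm h e).mp he
  obtain ⟨a', ha', b', hb', rfl⟩ := (mem_sup_comm h f).mp hf
  have h1 := comm_self hp X hX a ha a' ha'
  have h2 := comm_self hp Y hY b hb b' hb'
  have h3 := h a ha b' hb'
  have h4 := h a' ha' b hb
  calc a * b * (a' * b') = a * (b * a') * b' := by group
    _ = a * (a' * b) * b' := by rw [h4]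
    _ = (a * a') * (b * b') := by group
    _ = (a' * a) * (b' * b) := by rw [h1, h2]
    _ = a' * (a * b') * b := by group
    _ = a' * (b' * a) * b := by rw [h3]
    _ = a' * b' * (a * b) := by group

/-- a nontrivial element of a line generates a subgroup of order `p` -/
theorem card_zpowers_line {G : Type*} [Group G] [Finite G] {p : ℕ} (hp : p.Prime) (X Y : Subgroup G)
    (hX : Nat.card ↥X = p) (hY : Nat.card ↥Y = p) (h : Comm X Y) (e : G) (he : e ∈ X ⊔ Y)
    (he1 : e ≠ 1) : Nat.card ↥(Subgroup.zpowers e) = p := by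
  obtain ⟨a, ha, b, hb, rfl⟩ := (mem_sup_comm h e).mp he
  have h1 : (a * b) ^ p = 1 := by
    rw [(show Commute a b from h a ha b hb).mul_pow, pow_eq_one_of_mem X hX a ha,
      pow_eq_one_of_mem Y hY b hb, one_mul]
  rw [Nat.card_zpowers]
  rcases (Nat.dvd_prime hp).mp (orderOf_dvd_of_pow_eq_one h1) with h2 | h2
  · exact absurd (orderOf_eq_one_iff.mp h2) he1
  · exact h2


structure Cfg {G : Type*} [Group G] (p : ℕ) (K : Set (Subgroup G)) : Prop where
  hp : p.Prime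
  hK : ∀ X ∈ K, Nat.card ↥X = p
  hKc : ∀ X ∈ K, ∀ g : G, X.map (MulAut.conj g).toMonoidHom ∈ K
  ha : ∀ X ∈ K, ∀ Y ∈ K, X ≠ Y → Comm X Y →
      ∀ Z : Subgroup G, Z ≤ X ⊔ Y → Nat.card ↥Z = p → Z ∈ K
  hb : ∀ X ∈ K, ∀ Y ∈ K, X ≠ Y → Comm X Y →
      ∀ W ∈ K, (X ⊔ Y) ⊓ Subgroup.centralizer (W : Set G) ≠ ⊥

theorem Cfg.point {G : Type*} [Group G] [Finite G] {p : ℕ} {K : Set (Subgroup G)} (c : Cfg p K)
    {X Y : Subgroup G} (hX : X ∈ K) (hY : Y ∈ K) (hne : X ≠ Y) (h : Comm X Y) (e : G)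
    (he : e ∈ X ⊔ Y) (he1 : e ≠ 1) : Subgroup.zpowers e ∈ K :=
  c.ha X hX Y hY hne h _ ((Subgroup.zpowers_le).mpr he)
    (card_zpowers_line c.hp X Y (c.hK X hX) (c.hK Y hY) h e he he1)

theorem Cfg.meet {G : Type*} [Group G] [Finite G] {p : ℕ} {K : Set (Subgroup G)} (c : Cfg p K)
    {X Y : Subgroup G} (hX : X ∈ K) (hY : Y ∈ K) (hne : X ≠ Y) (h : Comm X Y) {W : Subgroup G}
    (hW : W ∈ K) : ∃ e ∈ X ⊔ Y, e ≠ 1 ∧ ∀ w ∈ W, e * w = w * e := by
  have := c.hb X hX Y hY hne h W hW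
  obtain ⟨⟨e, he⟩, he1⟩ := (Subgroup.ne_bot_iff_exists_ne_one).mp this
  obtain ⟨h1, h2⟩ := Subgroup.mem_inf.mp he
  exact ⟨e, h1, fun h => he1 (Subtype.ext h),
    fun w hw => ((Subgroup.mem_centralizer_iff.mp h2) w hw).symm⟩

theorem Cfg.comm_of_gen_left {G : Type*} [Group G] [Finite G] {p : ℕ} {K : Set (Subgroup G)}
    (c : Cfg p K) {X : Subgroup G} (hX : X ∈ K) (x : G) (hx : x ∈ X) (hx1 : x ≠ 1)
    (Y : Subgroup G) (h : ∀ y ∈ Y, x * y = y * x) : Comm X Y := by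
  rw [eq_zpowers c.hp X (c.hK X hX) x hx hx1]
  intro a ha y hy
  obtain ⟨i, rfl⟩ := Subgroup.mem_zpowers_iff.mp ha
  exact ((show Commute x y from h y hy).zpow_left i).eq

theorem Cfg.comm_of_mem {G : Type*} [Group G] [Finite G] {p : ℕ} {K : Set (Subgroup G)}
    (c : Cfg p K) {X Y : Subgroup G} (hX : X ∈ K) (hY : Y ∈ K) (x : G) (hx : x ∈ X) (hx1 : x ≠ 1)
    (y : G) (hy : y ∈ Y) (hy1 : y ≠ 1) (h : x * y = y * x) : Comm X Y := by
  rw [eq_zpowers c.hp X (c.hK X hX) x hx hx1, eq_zpowers c.hp Y (c.hK Y hY) y hy hy1]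
  exact comm_zpowers x y h

theorem Cfg.exists_center {G : Type*} [Group G] [Finite G] {p : ℕ} {K : Set (Subgroup G)}
    (c : Cfg p K) {V W : Subgroup G} (hV : V ∈ K) (hW : W ∈ K) (hVW : ¬ Comm V W)
    (hT : ∃ Z ∈ K, Comm Z V ∧ Comm Z W) :
    ∃ C ∈ K, Comm C V ∧ Comm C W ∧ ∀ Z ∈ K, Comm Z V → Comm Z W → Comm C Z := by
  by_cases hcl : ∀ Z ∈ K, Comm Z V → Comm Z W → ∀ Z' ∈ K, Comm Z' V → Comm Z' W → Comm Z Z'
  · obtain ⟨Z, hZ, hZV, hZW⟩ := hT
    exact ⟨Z, hZ, hZV, hZW, fun Z' hZ' h1 h2 => hcl Z hZ hZV hZW Z' hZ' h1 h2⟩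
  · push Not at hcl
    obtain ⟨Z, hZ, hZV, hZW, Z', hZ', hZ'V, hZ'W, hZZ'⟩ := hcl
    obtain ⟨v, hv, hv1⟩ := exists_ne_one c.hp V (c.hK V hV)
    obtain ⟨z, hz, hz1⟩ := exists_ne_one c.hp Z (c.hK Z hZ)
    have hVZ : V ≠ Z := by
      intro h; rw [h] at hVW; exact hVW hZW
    have hWZ' : W ≠ Z' := by
      intro h; rw [h] at hVW; exact hVW hZ'V.symm
    have hvz : v * z = z * v := (hZV z hz v hv).symm
    have hvz1 : v * z ≠ 1 := by
      intro h1
      apply hVW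
      have hzv : z = v⁻¹ := eq_inv_of_mul_eq_one_right h1
      have hvZ : v ∈ Z := by
        have := Z.inv_mem hz
        rw [hzv, inv_inv] at this
        exact this
      exact c.comm_of_gen_left hV v hv hv1 W (fun w hw => hZW v hvZ w hw)
    have hX : Subgroup.zpowers (v * z) ∈ K :=
      c.point hV hZ hVZ hZV.symm (v * z)
        (Subgroup.mul_mem _ (Subgroup.mem_sup_left hv) (Subgroup.mem_sup_right hz)) hvz1
    obtain ⟨e, he, he1, hecomm⟩ := c.meet hW hZ' hWZ' hZ'W.symm hX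
    obtain ⟨a, ha, b, hb, rfl⟩ := (mem_sup_comm hZ'W.symm e).mp he
    have h0 : (a * b) * (v * z) = (v * z) * (a * b) := hecomm (v * z) (Subgroup.mem_zpowers _)
    have hbv : b * v = v * b := hZ'V b hb v hv
    have haz : a * z = z * a := (hZW z hz a ha).symm
    obtain ⟨c₀, hc₀⟩ : ∃ c₀, c₀ = a⁻¹ * v⁻¹ * a * v := ⟨_, rfl⟩
    have hc₀' : c₀ = z * b * z⁻¹ * b⁻¹ := by
      have h1 : a * v * (b * z) = v * a * (z * b) := by
        calc a * v * (b * z) = a * (v * b) * z := by group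
          _ = a * (b * v) * z := by rw [hbv]
          _ = (a * b) * (v * z) := by group
          _ = (v * z) * (a * b) := h0
          _ = v * (z * a) * b := by group
          _ = v * (a * z) * b := by rw [haz]
          _ = v * a * (z * b) := by group
      calc c₀ = (v * a)⁻¹ * (a * v * (b * z)) * (b * z)⁻¹ := by rw [hc₀]; group
        _ = (v * a)⁻¹ * (v * a * (z * b)) * (b * z)⁻¹ := by rw [h1]
        _ = z * b * z⁻¹ * b⁻¹ := by group
    have comm1 : ∀ g : G, g * v = v * g → g * a = a * g → g * c₀ = c₀ * g := by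
      intro g h1 h2
      have hgv : Commute g v := h1
      have hga : Commute g a := h2
      rw [hc₀]
      exact (((hga.inv_right.mul_right hgv.inv_right).mul_right hga).mul_right hgv).eq
    have comm2 : ∀ g : G, g * z = z * g → g * b = b * g → g * c₀ = c₀ * g := by
      intro g h1 h2
      have hgz : Commute g z := h1
      have hgb : Commute g b := h2
      rw [hc₀']
      exact (((hgz.mul_right hgb).mul_right hgz.inv_right).mul_right hgb.inv_right).eq
    have hcv : c₀ * v = v * c₀ := (comm2 v hvz hbv.symm).symm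
    have hcw : ∀ w ∈ W, w * c₀ = c₀ * w :=
      fun w hw => comm2 w (hZW z hz w hw).symm (hZ'W b hb w hw).symm
    have hc1 : c₀ ≠ 1 := by
      intro h1
      have hav : a * v = v * a := by
        have : a⁻¹ * v⁻¹ * a * v = 1 := by rw [← hc₀]; exact h1
        calc a * v = v * a * (a⁻¹ * v⁻¹ * a * v) := by group
          _ = v * a := by rw [this, mul_one]
      have hzb : z * b = b * z := by
        have : z * b * z⁻¹ * b⁻¹ = 1 := by rw [← hc₀']; exact h1
        calc z * b = (z * b * z⁻¹ * b⁻¹) * (b * z) := by group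
          _ = b * z := by rw [this, one_mul]
      by_cases ha1 : a = 1
      · have hb1 : b ≠ 1 := by
          intro hb1; apply he1; rw [ha1, hb1, mul_one]
        exact hZZ' (c.comm_of_mem hZ hZ' z hz hz1 b hb hb1 hzb)
      · exact hVW (c.comm_of_mem hV hW v hv hv1 a ha ha1 hav.symm)
    have hV' : V.map (MulAut.conj a⁻¹).toMonoidHom ∈ K := c.hKc V hV a⁻¹
    have hv' : a⁻¹ * v⁻¹ * a ∈ V.map (MulAut.conj a⁻¹).toMonoidHom :=
      ⟨v⁻¹, V.inv_mem hv, by simp⟩
    have hv'1 : a⁻¹ * v⁻¹ * a ≠ 1 := by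
      intro h1
      apply hv1
      have : v⁻¹ = 1 := by
        calc v⁻¹ = a * (a⁻¹ * v⁻¹ * a) * a⁻¹ := by group
          _ = 1 := by rw [h1]; group
      exact inv_eq_one.mp this
    have hc₀eq : c₀ = (a⁻¹ * v⁻¹ * a) * v := hc₀
    have hv'v : (a⁻¹ * v⁻¹ * a) * v = v * (a⁻¹ * v⁻¹ * a) := by
      have h2 : (a⁻¹ * v⁻¹ * a) * v * v = v * (a⁻¹ * v⁻¹ * a) * v := by
        calc (a⁻¹ * v⁻¹ * a) * v * v = c₀ * v := by rw [hc₀eq]
          _ = v * c₀ := hcv
          _ = v * (a⁻¹ * v⁻¹ * a) * v := by rw [hc₀eq]; group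
      exact mul_right_cancel h2
    have hV'V : Comm (V.map (MulAut.conj a⁻¹).toMonoidHom) V :=
      c.comm_of_mem hV' hV _ hv' hv'1 v hv hv1 hv'v
    have hV'ne : V.map (MulAut.conj a⁻¹).toMonoidHom ≠ V := by
      intro h
      apply hVW
      have hcV : c₀ ∈ V := by
        rw [hc₀eq]
        exact V.mul_mem (h ▸ hv') hv
      exact c.comm_of_gen_left hV c₀ hcV hc1 W (fun w hw => (hcw w hw).symm)
    have hC : Subgroup.zpowers c₀ ∈ K :=
      c.point hV' hV hV'ne hV'V c₀ (by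
        rw [hc₀eq]
        exact Subgroup.mul_mem _ (Subgroup.mem_sup_left hv') (Subgroup.mem_sup_right hv)) hc1
    refine ⟨Subgroup.zpowers c₀, hC, ?_, ?_, ?_⟩
    · exact c.comm_of_mem hC hV c₀ (Subgroup.mem_zpowers c₀) hc1 v hv hv1 hcv
    · exact c.comm_of_gen_left hC c₀ (Subgroup.mem_zpowers c₀) hc1 W (fun w hw => (hcw w hw).symm)
    · intro Z₁ hZ₁ hZ₁V hZ₁W
      exact c.comm_of_gen_left hC c₀ (Subgroup.mem_zpowers c₀) hc1 Z₁
        (fun g hg => (comm1 g (hZ₁V g hg v hv) (hZ₁W g hg a ha)).symm)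

theorem Cfg.perp_le {G : Type*} [Group G] [Finite G] {p : ℕ} {K : Set (Subgroup G)}
    (c : Cfg p K) {V W C : Subgroup G} (hV : V ∈ K) (hW : W ∈ K) (hVW : ¬ Comm V W)
    (hCV : Comm C V) (hCT : ∀ Z ∈ K, Comm Z V → Comm Z W → Comm C Z) :
    ∀ U ∈ K, Comm V U → Comm C U := by
  intro U hU hVU
  by_cases hUV : V = U
  · rw [← hUV]; exact hCV
  obtain ⟨e, he, he1, hew⟩ := c.meet hV hU hUV hVU hW
  have hZ1 : Subgroup.zpowers e ∈ K := c.point hV hU hUV hVU e he he1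
  have hZ1V : Comm (Subgroup.zpowers e) V :=
    c.comm_of_gen_left hZ1 e (Subgroup.mem_zpowers e) he1 V
      (fun v hv => line_comm c.hp V U (c.hK V hV) (c.hK U hU) hVU e he v (Subgroup.mem_sup_left hv))
  have hZ1W : Comm (Subgroup.zpowers e) W :=
    c.comm_of_gen_left hZ1 e (Subgroup.mem_zpowers e) he1 W hew
  have hCe := hCT _ hZ1 hZ1V hZ1W
  obtain ⟨a, ha, b, hb, rfl⟩ := (mem_sup_comm hVU e).mp he
  have hb1 : b ≠ 1 := by
    intro hb1
    rw [hb1, mul_one] at hew he1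
    exact hVW (c.comm_of_gen_left hV a ha he1 W hew)
  intro x hx u hu
  have h1 : x * (a * b) = (a * b) * x := hCe x hx (a * b) (Subgroup.mem_zpowers _)
  have h2 : x * a = a * x := hCV x hx a ha
  have h3 : x * b = b * x := by
    have : a * (x * b) = a * (b * x) := by
      calc a * (x * b) = (a * x) * b := by group
        _ = (x * a) * b := by rw [h2]
        _ = x * (a * b) := by group
        _ = a * b * x := h1
        _ = a * (b * x) := by group
    exact mul_left_cancel this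
  rw [eq_zpowers c.hp U (c.hK U hU) b hb hb1] at hu
  obtain ⟨i, rfl⟩ := Subgroup.mem_zpowers_iff.mp hu
  exact ((show Commute x b from h3).zpow_right i).eq


/-- Let p be a prime and K a set of subgroups of order p of a finite group G, closed under conjugation, such that at least two distinct members of K commute elementwise, and whenever two distinct members X, Y of K commute: every subgroup of order p of the group XY they generate belongs to K, and every member W of K has centralizer meeting XY nontrivially. Then some member V of K commutes elementwise with every member of K and lies in O_p(G); in particular G is not simple. -/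
theorem result {G : Type*} [Group G] [Finite G]
    {p : ℕ} (hp : p.Prime) (K : Set (Subgroup G)) (hK : ∀ X ∈ K, Nat.card ↥X = p)
    (hKc : ∀ X ∈ K, ∀ g : G, X.map (MulAut.conj g).toMonoidHom ∈ K)
    (hex : ∃ X ∈ K, ∃ Y ∈ K, X ≠ Y ∧ ∀ x ∈ X, ∀ y ∈ Y, x * y = y * x)
    (ha : ∀ X ∈ K, ∀ Y ∈ K, X ≠ Y → (∀ x ∈ X, ∀ y ∈ Y, x * y = y * x) →
      ∀ Z : Subgroup G, Z ≤ X ⊔ Y → Nat.card ↥Z = p → Z ∈ K)
    (hb : ∀ X ∈ K, ∀ Y ∈ K, X ≠ Y → (∀ x ∈ X, ∀ y ∈ Y, x * y = y * x) →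
      ∀ W ∈ K, (X ⊔ Y) ⊓ Subgroup.centralizer (W : Set G) ≠ ⊥) :
    (∃ V ∈ K, (∀ W ∈ K, ∀ v ∈ V, ∀ w ∈ W, v * w = w * v) ∧ V ≤ Cfsg.pCore p G) ∧ ¬ IsSimpleGroup G := by
  have c : Cfg p K := ⟨hp, hK, hKc, ha, hb⟩
  classical
  have hfin : K.Finite := Set.toFinite K
  obtain ⟨X₀, hX₀, Y₀, hY₀, hne₀, hcomm₀⟩ := hex
  let f : Subgroup G → ℕ := fun V => Set.ncard {U | U ∈ K ∧ Comm V U}
  obtain ⟨V, hVmem, hVmax⟩ := hfin.toFinset.exists_max_image f ⟨X₀, by simpa using hX₀⟩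
  have hV : V ∈ K := by simpa using hVmem
  have hmax : ∀ C ∈ K, f C ≤ f V := fun C hC => hVmax C (by simpa using hC)
  have hall : ∀ W ∈ K, Comm V W := by
    intro W hW
    by_contra hVW
    have hline : ∃ U ∈ K, V ≠ U ∧ Comm V U := by
      obtain ⟨e, he, he1, hev⟩ := c.meet hX₀ hY₀ hne₀ hcomm₀ hV
      have hZ : Subgroup.zpowers e ∈ K := c.point hX₀ hY₀ hne₀ hcomm₀ e he he1
      by_cases hZV : V = Subgroup.zpowers e
      · by_cases hVX : V = X₀
        · refine ⟨Y₀, hY₀, ?_, ?_⟩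
          · rw [hVX]; exact hne₀
          · rw [hVX]; exact hcomm₀
        · refine ⟨X₀, hX₀, hVX, ?_⟩
          rw [hZV]
          exact c.comm_of_gen_left hZ e (Subgroup.mem_zpowers e) he1 X₀
            (fun x hx => line_comm c.hp X₀ Y₀ (hK X₀ hX₀) (hK Y₀ hY₀) hcomm₀ e he x
              (Subgroup.mem_sup_left hx))
      · refine ⟨Subgroup.zpowers e, hZ, hZV, ?_⟩
        exact (c.comm_of_gen_left hZ e (Subgroup.mem_zpowers e) he1 V hev).symm
    obtain ⟨U, hU, hVU, hcVU⟩ := hline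
    obtain ⟨e, he, he1, hew⟩ := c.meet hV hU hVU hcVU hW
    have hZ1 : Subgroup.zpowers e ∈ K := c.point hV hU hVU hcVU e he he1
    have hZ1V : Comm (Subgroup.zpowers e) V :=
      c.comm_of_gen_left hZ1 e (Subgroup.mem_zpowers e) he1 V
        (fun v hv => line_comm c.hp V U (hK V hV) (hK U hU) hcVU e he v (Subgroup.mem_sup_left hv))
    have hZ1W : Comm (Subgroup.zpowers e) W :=
      c.comm_of_gen_left hZ1 e (Subgroup.mem_zpowers e) he1 W hew
    obtain ⟨C, hC, hCV, hCW, hCT⟩ := c.exists_center hV hW hVW ⟨_, hZ1, hZ1V, hZ1W⟩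
    have hperp := c.perp_le hV hW hVW hCV hCT
    have hlt : f V < f C := by
      apply Set.ncard_lt_ncard _ (hfin.subset (fun U hU => hU.1))
      constructor
      · intro U hU; exact ⟨hU.1, hperp U hU.1 hU.2⟩
      · intro hsub
        exact hVW (hsub ⟨hW, hCW⟩).2
    exact absurd (hmax C hC) (not_le.mpr hlt)
  have hVne : ∃ v ∈ V, v ≠ 1 := exists_ne_one hp V (hK V hV)
  obtain ⟨N, hN⟩ : ∃ N, N = Subgroup.normalClosure (V : Set G) := ⟨_, rfl⟩
  have hconjcomm : ∀ s₁ ∈ Group.conjugatesOfSet (V : Set G),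
      ∀ s₂ ∈ Group.conjugatesOfSet (V : Set G), s₁ * s₂ = s₂ * s₁ := by
    intro s₁ h₁ s₂ h₂
    rw [Group.mem_conjugatesOfSet_iff] at h₁ h₂
    obtain ⟨v₁, hv₁, hc₁⟩ := h₁
    obtain ⟨v₂, hv₂, hc₂⟩ := h₂
    obtain ⟨g₁, rfl⟩ := isConj_iff.mp hc₁
    obtain ⟨g₂, rfl⟩ := isConj_iff.mp hc₂
    have hW : V.map (MulAut.conj (g₁⁻¹ * g₂)).toMonoidHom ∈ K := hKc V hV _
    have h1 := hall _ hW v₁ hv₁ ((g₁⁻¹ * g₂) * v₂ * (g₁⁻¹ * g₂)⁻¹)
      ⟨v₂, hv₂, by rw [MulEquiv.coe_toMonoidHom, MulAut.conj_apply]⟩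
    calc g₁ * v₁ * g₁⁻¹ * (g₂ * v₂ * g₂⁻¹)
        = g₁ * (v₁ * ((g₁⁻¹ * g₂) * v₂ * (g₁⁻¹ * g₂)⁻¹)) * g₁⁻¹ := by group
      _ = g₁ * (((g₁⁻¹ * g₂) * v₂ * (g₁⁻¹ * g₂)⁻¹) * v₁) * g₁⁻¹ := by rw [h1]
      _ = g₂ * v₂ * g₂⁻¹ * (g₁ * v₁ * g₁⁻¹) := by group
  have hNc : IsMulCommutative N := by
    rw [hN]; exact Subgroup.isMulCommutative_closure hconjcomm
  have hNp : ∀ n ∈ N, n ^ p = 1 := by
    intro n hn
    rw [hN] at hn
    have hcl : ∀ x ∈ Subgroup.closure (Group.conjugatesOfSet (V : Set G)),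
        ∀ y ∈ Subgroup.closure (Group.conjugatesOfSet (V : Set G)), x * y = y * x := by
      intro x hx y hy
      have hx' : x ∈ N := by rw [hN]; exact hx
      have hy' : y ∈ N := by rw [hN]; exact hy
      exact setLike_mul_comm hx' hy'
    induction hn using Subgroup.closure_induction with
    | mem s hs =>
      rw [Group.mem_conjugatesOfSet_iff] at hs
      obtain ⟨v, hv, hc⟩ := hs
      obtain ⟨g, rfl⟩ := isConj_iff.mp hc
      rw [conj_pow, pow_eq_one_of_mem V (hK V hV) v hv]; group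
    | one => simp
    | mul x y hx hy hx2 hy2 =>
      rw [(show Commute x y from hcl x hx y hy).mul_pow, hx2, hy2, one_mul]
    | inv x hx hx2 => rw [inv_pow, hx2, inv_one]
  have hNpg : IsPGroup p N := by
    rintro ⟨n, hn⟩
    exact ⟨1, Subtype.ext (by simpa using hNp n hn)⟩
  have hNn : N.Normal := by rw [hN]; exact Subgroup.normalClosure_normal
  have hVN : V ≤ N := by
    rw [hN]; exact fun v hv => Subgroup.subset_normalClosure hv
  refine ⟨⟨V, hV, fun W hW v hv w hw => hall W hW v hv w hw, hVN.trans (le_sSup ⟨hNn, hNpg⟩)⟩, ?_⟩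
  intro hs
  rcases hNn.eq_bot_or_eq_top with h0 | h0
  · obtain ⟨v, hv, hv1⟩ := hVne
    have : v ∈ N := hVN hv
    rw [h0, Subgroup.mem_bot] at this
    exact hv1 this
  · have hcommG : ∀ x y : G, x * y = y * x := by
      intro x y
      have hx : x ∈ N := by rw [h0]; trivial
      have hy : y ∈ N := by rw [h0]; trivial
      exact setLike_mul_comm hx hy
    have hnorm : ∀ X : Subgroup G, X.Normal :=
      fun X => ⟨fun n hn g => by rw [hcommG g n]; simpa using hn⟩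
    have htop : ∀ X ∈ K, X = ⊤ := by
      intro X hX
      rcases (hnorm X).eq_bot_or_eq_top with h1 | h1
      · obtain ⟨x, hx, hx1⟩ := exists_ne_one hp X (hK X hX)
        rw [h1, Subgroup.mem_bot] at hx
        exact absurd hx hx1
      · exact h1
    exact hne₀ ((htop X₀ hX₀).trans (htop Y₀ hY₀).symm)

end Cfsg.Agent.S3196
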