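import Cfsg.Statements.S3200
import Mathlib
import Cfsg.Agent.Lib.helper23.BurnsidePQ
import Cfsg.Agent.Lib.helper1.Hall
import Cfsg.Agent.Lib.helper3.Basic

set_option autoImplicit false
open Cfsg

namespace Cfsg.Agent.S3200

universe u
open scoped Pointwise

/-- `H` has an abelian Hall `2'`-subgroup. -/
def AH (H : Type u) [Group H] : Prop :=
  ∃ C : Subgroup H, IsMulCommutative C ∧ Odd (Nat.card C) ∧ ∃ k : ℕ, C.index = 2 ^ k

theorem two_part_eq {a b e j : ℕ} (ha : Odd a) (hb : Odd b) (h : 2 ^ e * a = b * 2 ^ j) : e = j := by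
  have h1 : 2 ^ e ∣ b * 2 ^ j := ⟨a, h.symm⟩
  have h2 : 2 ^ e ∣ 2 ^ j :=
    (Nat.Coprime.pow_left e (Nat.coprime_two_left.mpr hb)).dvd_of_dvd_mul_left h1
  have h3 : 2 ^ j ∣ a * 2 ^ e := ⟨b, by rw [mul_comm a, h, mul_comm]⟩
  have h4 : 2 ^ j ∣ 2 ^ e :=
    (Nat.Coprime.pow_left j (Nat.coprime_two_left.mpr ha)).dvd_of_dvd_mul_left h3
  have h5 := (Nat.pow_dvd_pow_iff_le_right (by norm_num : 1 < 2)).mp h2
  have h6 := (Nat.pow_dvd_pow_iff_le_right (by norm_num : 1 < 2)).mp h4
  omega

theorem ah_of_compl {H : Type u} [Group H] [Finite H] (S : Sylow 2 H) (C : Subgroup H)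
    (hC : IsMulCommutative ↥C) (hSC : Subgroup.IsComplement' (S : Subgroup H) C) : AH H := by
  have h2 : Fact (Nat.Prime 2) := ⟨Nat.prime_two⟩
  have h1 := hSC.card_mul_card
  have h3 := (S : Subgroup H).card_mul_index
  have h4 := C.card_mul_index
  have hSpos : 0 < Nat.card (S : Subgroup H) := Nat.card_pos
  have hCpos : 0 < Nat.card C := Nat.card_pos
  have h5 : Nat.card C = (S : Subgroup H).index :=
    Nat.eq_of_mul_eq_mul_left hSpos (h1.trans h3.symm)
  have h6 : C.index = Nat.card (S : Subgroup H) := by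
    apply Nat.eq_of_mul_eq_mul_left hCpos
    rw [h4, ← h1, mul_comm]
  obtain ⟨e, he⟩ := IsPGroup.iff_card.mp S.2
  refine ⟨C, hC, ?_, e, by rw [h6, he]⟩
  rw [h5, ← Nat.not_even_iff_odd, even_iff_two_dvd]
  exact S.not_dvd_index

theorem compl_of_ah {H : Type u} [Group H] [Finite H] (P : Sylow 2 H) (C : Subgroup H)
    (hodd : Odd (Nat.card C)) (k : ℕ) (hk : Nat.card H = Nat.card C * 2 ^ k) :
    Subgroup.IsComplement' (P : Subgroup H) C := by
  have h2 : Fact (Nat.Prime 2) := ⟨Nat.prime_two⟩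
  obtain ⟨e, he⟩ := IsPGroup.iff_card.mp P.2
  have h3 := (P : Subgroup H).card_mul_index
  have hio : Odd (P : Subgroup H).index := by
    rw [← Nat.not_even_iff_odd, even_iff_two_dvd]
    exact P.not_dvd_index
  have hek : e = k := by
    apply two_part_eq hio hodd
    rw [← he, h3, hk]
  apply Subgroup.isComplement'_of_coprime
  · rw [he, hek, hk, mul_comm]
  · rw [he]
    exact Nat.Coprime.pow_left e (Nat.coprime_two_left.mpr hodd)

theorem ah_card {H : Type u} [Group H] [Finite H] (C : Subgroup H) (k : ℕ) (hk : C.index = 2 ^ k) :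
    Nat.card H = Nat.card C * 2 ^ k := by
  rw [← hk, C.card_mul_index]

theorem ah_quot {H : Type u} [Group H] [Finite H] (N : Subgroup H) [N.Normal] (h : AH H) :
    AH (H ⧸ N) := by
  obtain ⟨C, hC, hodd, k, hk⟩ := h
  refine ⟨C.map (QuotientGroup.mk' N), inferInstance, ?_, ?_⟩
  · exact Odd.of_dvd_nat hodd (Subgroup.card_map_dvd _ _)
  · have h1 : (C.map (QuotientGroup.mk' N)).index ∣ C.index :=
      Subgroup.index_map_dvd C (QuotientGroup.mk'_surjective N)
    rw [hk] at h1
    obtain ⟨j, -, hj⟩ := (Nat.dvd_prime_pow Nat.prime_two).mp h1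
    exact ⟨j, hj⟩

theorem ah_normal {H : Type u} [Group H] [Finite H] (N : Subgroup H) [N.Normal] (h : AH H) :
    AH N := by
  obtain ⟨C, hC, hodd, k, hk⟩ := h
  refine ⟨C.subgroupOf N, inferInstance, ?_, ?_⟩
  · have h1 : Nat.card (C.subgroupOf N) = Nat.card (C ⊓ N : Subgroup H) := by
      rw [← Subgroup.subgroupOf_map_subtype, Subgroup.card_map_of_injective N.subtype_injective]
    rw [h1]
    exact Odd.of_dvd_nat hodd (Subgroup.card_dvd_of_le inf_le_left)
  · have e1 := Cfsg.Agent.Lib.helper3.card_sup_mul_card_inf_of_normal C N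
    have e2 := Subgroup.relIndex_mul_relIndex ⊥ C (C ⊔ N) bot_le le_sup_left
    have e3 := Subgroup.relIndex_mul_relIndex ⊥ (C ⊓ N) N bot_le inf_le_right
    rw [Subgroup.relIndex_bot_left, Subgroup.relIndex_bot_left] at e2 e3
    rw [Subgroup.inf_relIndex_right] at e3
    have hCpos : 0 < Nat.card C := Nat.card_pos
    have hIpos : 0 < Nat.card (C ⊓ N : Subgroup H) := Nat.card_pos
    have e4 : C.relIndex (C ⊔ N) = C.relIndex N := by
      apply Nat.eq_of_mul_eq_mul_left (Nat.mul_pos hCpos hIpos)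
      calc Nat.card C * Nat.card (C ⊓ N : Subgroup H) * C.relIndex (C ⊔ N)
          = (Nat.card C * C.relIndex (C ⊔ N)) * Nat.card (C ⊓ N : Subgroup H) := by ring
        _ = Nat.card C * Nat.card N := by rw [e2, e1]
        _ = Nat.card C * Nat.card (C ⊓ N : Subgroup H) * C.relIndex N := by rw [← e3]; ring
    have h1 : C.relIndex (C ⊔ N) ∣ C.index := Subgroup.relIndex_dvd_index_of_le le_sup_left
    rw [hk, e4] at h1
    obtain ⟨j, -, hj⟩ := (Nat.dvd_prime_pow Nat.prime_two).mp h1
    exact ⟨j, hj⟩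

theorem solv_aux : ∀ (n : ℕ) (H : Type u) [Group H] [Finite H], Nat.card H ≤ n → AH H →
    Group.IsSolvable H := by
  intro n
  induction n with
  | zero =>
    intro H _ _ hcard _
    have : 0 < Nat.card H := Nat.card_pos
    omega
  | succ n ih =>
    intro H _ _ hcard hA
    by_cases hsimple : ∀ N : Subgroup H, N.Normal → N = ⊥ ∨ N = ⊤
    · obtain ⟨C, hC, hodd, k, hk⟩ := hA
      by_cases hCbot : C = ⊥
      · rw [hCbot, Subgroup.index_bot] at hk
        exact Cfsg.Agent.Lib.helper23.isSolvable_of_card_prime_pow Nat.prime_two hk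
      · obtain ⟨c, hc1⟩ := (Subgroup.ne_bot_iff_exists_ne_one).mp hCbot
        have hc1' : (c : H) ≠ 1 := fun h => hc1 (Subtype.ext h)
        have hle : C ≤ Subgroup.centralizer ({(c : H)} : Set H) := by
          intro x hx
          rw [Subgroup.mem_centralizer_singleton_iff]
          have := hC.is_comm.comm ⟨x, hx⟩ c
          exact congrArg Subtype.val this
        have hdvd := Subgroup.index_dvd_of_le hle
        rw [hk] at hdvd
        obtain ⟨j, -, hj⟩ := (Nat.dvd_prime_pow Nat.prime_two).mp hdvd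
        have hnt : Nontrivial H := ⟨⟨_, 1, hc1'⟩⟩
        have hsimp : IsSimpleGroup H := ⟨hsimple⟩
        have hprime := Cfsg.Agent.Lib.helper23.burnside_simple_prime_power_class 2 j
          Nat.prime_two _ hc1' hj
        exact Cfsg.Agent.Lib.helper23.isSolvable_of_card_prime_pow hprime (pow_one _).symm
    · push Not at hsimple
      obtain ⟨N, hN, hbot, htop⟩ := hsimple
      have hlt1 : Nat.card N < Nat.card H := by
        rcases Nat.lt_or_ge (Nat.card N) (Nat.card H) with h | h
        · exact h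
        · exact absurd (Subgroup.card_eq_iff_eq_top N |>.mp (le_antisymm (Subgroup.card_le_card_group N) h)) htop
      have hlt2 : Nat.card (H ⧸ N) < Nat.card H := by
        have h1 := N.card_mul_index
        have hN1 : 1 < Nat.card N := by
          rw [Finite.one_lt_card_iff_nontrivial]
          exact (Subgroup.nontrivial_iff_ne_bot N).mpr hbot
        have hidx : N.index = Nat.card (H ⧸ N) := rfl
        rw [← hidx]
        have hpos : 0 < N.index := Nat.pos_of_ne_zero (Subgroup.index_ne_zero_of_finite)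
        nlinarith
      have s1 : Group.IsSolvable N := ih N (by omega) (ah_normal N hA)
      have s2 : Group.IsSolvable (H ⧸ N) := ih (H ⧸ N) (by omega) (ah_quot N hA)
      exact Group.isSolvable_of_ker_le_range N.subtype (QuotientGroup.mk' N) (by simp)

/-- Let H be a finite group in which a Sylow 2-subgroup has an abelian complement (an abelian subgroup meeting it trivially whose product with it is all of H). Then H is solvable, and every subgroup and every quotient group of H again has a Sylow 2-subgroup with an abelian complement. -/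
theorem result {H : Type*} [Group H] [Finite H]
    (S : Sylow 2 H) (C : Subgroup H) (hC : IsMulCommutative ↥C) (hSC : Subgroup.IsComplement' (S : Subgroup H) C) :
    Group.IsSolvable H ∧
    (∀ L : Subgroup H, ∃ (P : Sylow 2 ↥L) (D : Subgroup ↥L), IsMulCommutative ↥D ∧ Subgroup.IsComplement' (P : Subgroup ↥L) D) ∧
    (∀ (N : Subgroup H) [N.Normal], ∃ (P : Sylow 2 (H ⧸ N)) (D : Subgroup (H ⧸ N)),
      IsMulCommutative ↥D ∧ Subgroup.IsComplement' (P : Subgroup (H ⧸ N)) D) := by
  have h2 : Fact (Nat.Prime 2) := ⟨Nat.prime_two⟩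
  have hA : AH H := ah_of_compl S C hC hSC
  have hsol : Group.IsSolvable H := solv_aux (Nat.card H) H le_rfl hA
  refine ⟨hsol, ?_, ?_⟩
  · intro L
    obtain ⟨C₀, hC₀, hodd₀, k₀, hk₀⟩ := hA
    have hHcard := ah_card C₀ k₀ hk₀
    have hLpos : Nat.card L ≠ 0 := Nat.card_pos.ne'
    have hLcard : Nat.card L = (Nat.card L / 2 ^ (Nat.card L).factorization 2) *
        2 ^ (Nat.card L).factorization 2 := by
      rw [mul_comm]; exact (Nat.ordProj_mul_ordCompl_eq_self (Nat.card L) 2).symm
    have hcop : (Nat.card L / 2 ^ (Nat.card L).factorization 2).Coprime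
        (2 ^ (Nat.card L).factorization 2) :=
      (Nat.Coprime.pow_left _ (Nat.coprime_ordCompl Nat.prime_two hLpos)).symm
    obtain ⟨D, hD⟩ := Cfsg.Agent.Lib.helper1.hall_exists _ _ hLcard hcop
    have hDodd : Odd (Nat.card D) := by
      rw [hD]
      exact Nat.coprime_two_left.mp (Nat.coprime_ordCompl Nat.prime_two hLpos)
    have hKcard : Nat.card (D.map L.subtype) = Nat.card D :=
      Subgroup.card_map_of_injective L.subtype_injective
    obtain ⟨g, hg⟩ := Cfsg.Agent.Lib.helper1.hall_dominance (Nat.card C₀) (2 ^ k₀) hHcard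
      (Nat.Coprime.pow_right _ (Nat.coprime_two_right.mpr hodd₀)) C₀ (D.map L.subtype) rfl
      (by rw [hKcard]; exact Nat.Coprime.pow_right _ (Nat.coprime_two_right.mpr hDodd))
    have hcomm : ∀ x y : D, x * y = y * x := by
      intro x y
      have hx : ((x : L) : H) ∈ MulAut.conj g • C₀ := hg ⟨x, x.2, rfl⟩
      have hy : ((y : L) : H) ∈ MulAut.conj g • C₀ := hg ⟨y, y.2, rfl⟩
      rw [Subgroup.mem_pointwise_smul_iff_inv_smul_mem] at hx hy
      have hxy := hC₀.is_comm.comm ⟨_, hx⟩ ⟨_, hy⟩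
      have hxy' := congrArg Subtype.val hxy
      simp only [Subgroup.coe_mul, MulAut.smul_def, MulAut.conj_inv_apply] at hxy'
      apply Subtype.ext
      apply Subtype.ext
      have e : ((x : L) : H) * ((y : L) : H) = ((y : L) : H) * ((x : L) : H) := by
        have e1 : g⁻¹ * (((x : L) : H) * ((y : L) : H)) * g
            = g⁻¹ * (((y : L) : H) * ((x : L) : H)) * g := by
          calc g⁻¹ * (((x : L) : H) * ((y : L) : H)) * g
              = (g⁻¹ * ((x : L) : H) * g) * (g⁻¹ * ((y : L) : H) * g) := by simp [mul_assoc]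
            _ = (g⁻¹ * ((y : L) : H) * g) * (g⁻¹ * ((x : L) : H) * g) := hxy'
            _ = g⁻¹ * (((y : L) : H) * ((x : L) : H)) * g := by simp [mul_assoc]
        exact mul_left_cancel (mul_right_cancel e1)
      exact e
    have hDc : IsMulCommutative ↥D := ⟨⟨hcomm⟩⟩
    obtain ⟨P⟩ : Nonempty (Sylow 2 L) := inferInstance
    refine ⟨P, D, hDc, compl_of_ah P D hDodd ((Nat.card L).factorization 2) ?_⟩
    rw [hD]; exact hLcard
  · intro N _
    obtain ⟨D, hDc, hDodd, j, hj⟩ := ah_quot N hA
    obtain ⟨P⟩ : Nonempty (Sylow 2 (H ⧸ N)) := inferInstance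
    exact ⟨P, D, hDc, compl_of_ah P D hDodd j (ah_card D j hj)⟩

end Cfsg.Agent.S3200
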