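import Cfsg.Statements.S3201
import Mathlib
import Cfsg.Agent.S0016

set_option autoImplicit false
open Cfsg

namespace Cfsg.Agent.S3201

theorem coatom_facts {Z : Type*} [Group Z] [Finite Z] (hZ : IsPGroup 2 Z)
    (hcomm : ∀ a b : Z, a * b = b * a) (H : Subgroup Z)
    (hH : IsCoatom H) :
    (∀ x : Z, x ^ 2 ∈ H) ∧ (∀ x x' : Z, x ∉ H → x' ∉ H → x * x'⁻¹ ∈ H) ∧ ∃ y : Z, y ∉ H := by
  have : Fact (Nat.Prime 2) := ⟨Nat.prime_two⟩
  have hHn : H.Normal := ⟨fun n hn g => by rw [hcomm g n]; simpa using hn⟩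
  have hne : H ≠ ⊤ := hH.1
  have hq : IsPGroup 2 (Z ⧸ H) := hZ.to_quotient H
  obtain ⟨k, hk⟩ := hq.exists_card_eq
  have hk0 : k ≠ 0 := by
    rintro rfl
    rw [pow_zero] at hk
    exact hne (Subgroup.index_eq_one.mp hk)
  have h2dvd : 2 ∣ Nat.card (Z ⧸ H) := by rw [hk]; exact dvd_pow_self 2 hk0
  obtain ⟨ybar, hy⟩ := exists_prime_orderOf_dvd_card' 2 h2dvd
  obtain ⟨y, rfl⟩ := QuotientGroup.mk_surjective ybar
  have hyH : y ∉ H := by
    intro h
    have h1 : (QuotientGroup.mk y : Z ⧸ H) = 1 := (QuotientGroup.eq_one_iff y).mpr h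
    rw [h1, orderOf_one] at hy; omega
  have hy2 : y ^ 2 ∈ H := by
    have h1 := pow_orderOf_eq_one (QuotientGroup.mk y : Z ⧸ H)
    rw [hy, ← QuotientGroup.mk_pow] at h1
    exact (QuotientGroup.eq_one_iff _).mp h1
  have htop : H ⊔ Subgroup.zpowers y = ⊤ := by
    apply hH.2
    refine lt_of_le_of_ne le_sup_left (fun h => hyH ?_)
    rw [h]
    exact (le_sup_right : Subgroup.zpowers y ≤ H ⊔ Subgroup.zpowers y) (Subgroup.mem_zpowers y)
  have hdec : ∀ x : Z, x ∈ H ∨ x * y⁻¹ ∈ H := by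
    intro x
    have hx : x ∈ H ⊔ Subgroup.zpowers y := by rw [htop]; trivial
    have hx' : x ∈ ((H ⊔ Subgroup.zpowers y : Subgroup Z) : Set Z) := hx
    rw [Subgroup.normal_mul] at hx'
    obtain ⟨h, hh, w, hw, rfl⟩ := Set.mem_mul.mp hx'
    obtain ⟨j, rfl⟩ := Subgroup.mem_zpowers_iff.mp hw
    rcases Int.even_or_odd' j with ⟨l, rfl | rfl⟩
    · left
      refine mul_mem hh ?_
      have e1 : y ^ (2 * l) = (y ^ 2) ^ l := by rw [zpow_mul]; norm_cast
      rw [e1]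
      exact zpow_mem hy2 l
    · right
      have e1 : h * y ^ (2 * l + 1) * y⁻¹ = h * (y ^ 2) ^ l := by
        have e2 : y ^ (2 * l) = (y ^ 2) ^ l := by rw [zpow_mul]; norm_cast
        rw [zpow_add, zpow_one, e2]; simp [mul_assoc]
      rw [e1]; exact mul_mem hh (zpow_mem hy2 l)
  refine ⟨?_, ?_, y, hyH⟩
  · intro x
    rcases hdec x with h | h
    · exact pow_mem h 2
    · have e1 : x ^ 2 = (x * y⁻¹) ^ 2 * y ^ 2 := by
        rw [pow_two, pow_two, pow_two]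
        calc x * x = x * (x * y⁻¹) * y := by simp [mul_assoc]
          _ = x * (y⁻¹ * x) * y := by rw [hcomm x y⁻¹]
          _ = (x * y⁻¹) * (x * y⁻¹) * (y * y) := by simp [mul_assoc]
      rw [e1]; exact mul_mem (pow_mem h 2) hy2
  · intro x x' hx hx'
    have h1 := (hdec x).resolve_left hx
    have h2 := (hdec x').resolve_left hx'
    have e1 : x * x'⁻¹ = (x * y⁻¹) * (x' * y⁻¹)⁻¹ := by simp [mul_assoc]
    rw [e1]; exact mul_mem h1 (inv_mem h2)

theorem beta_lemma {S : Type*} [Group S] (D' : Subgroup S) [D'.Normal]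
    (hu : ∃! x : S ⧸ D', orderOf x = 2) (z : S) (hz : z ∉ D') (hz2 : z * z ∈ D') :
    ∀ x : S, x * x ∈ D' → x ∈ D' ∨ z⁻¹ * x ∈ D' := by
  have : Fact (Nat.Prime 2) := ⟨Nat.prime_two⟩
  obtain ⟨x₀, hx₀, hx₀u⟩ := hu
  have hord : ∀ x : S, x ∉ D' → x * x ∈ D' → (QuotientGroup.mk x : S ⧸ D') = x₀ := by
    intro x hx hx2
    apply hx₀u
    apply orderOf_eq_prime
    · rw [pow_two, ← QuotientGroup.mk_mul]; exact (QuotientGroup.eq_one_iff _).mpr hx2
    · intro h; exact hx ((QuotientGroup.eq_one_iff _).mp h)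
  intro x hx2
  by_cases hx : x ∈ D'
  · exact Or.inl hx
  · right
    have h1 := hord x hx hx2
    have h2 := hord z hz hz2
    exact QuotientGroup.eq.mp (h2.trans h1.symm)

theorem quat_setup {S : Type*} [Group S] [Finite S] (hS : IsPGroup 2 S) (D' : Subgroup S) [D'.Normal]
    (hD'Z : ∀ d ∈ D', ∀ g : S, g * d = d * g)
    (hna : ¬ IsMulCommutative (S ⧸ D')) (hu : ∃! x : S ⧸ D', orderOf x = 2) :
    ∃ (A : Subgroup S) (x₁ : S), A.index = 2 ∧ (∀ x ∈ A, ∀ x' ∈ A, x * x' = x' * x) ∧ x₁ ∈ A ∧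
      x₁ * x₁ ∉ D' ∧ (x₁ * x₁) * (x₁ * x₁) ∈ D' ∧ ∀ g : S, g ∉ A → (x₁ * x₁)⁻¹ * (g * g) ∈ D' := by
  classical
  have h2 : Fact (Nat.Prime 2) := ⟨Nat.prime_two⟩
  obtain ⟨x₀, hx₀, hx₀u⟩ := hu
  have huniq : ∀ H K : Subgroup (S ⧸ D'), Nat.card H = 2 → Nat.card K = 2 → H = K := by
    have key : ∀ H : Subgroup (S ⧸ D'), Nat.card H = 2 → Subgroup.zpowers x₀ = H := by
      intro H hH
      have hnt : H ≠ ⊥ := by
        intro h; rw [h] at hH; simp at hH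
      obtain ⟨⟨h, hh⟩, hh1⟩ := Subgroup.ne_bot_iff_exists_ne_one.mp hnt
      have ho : orderOf h ∣ 2 := by
        have h1 := orderOf_dvd_natCard (⟨h, hh⟩ : H)
        rwa [Subgroup.orderOf_mk, hH] at h1
      have ho2 : orderOf h = 2 := by
        rcases (Nat.dvd_prime Nat.prime_two).mp ho with h1 | h1
        · exact absurd (orderOf_eq_one_iff.mp h1) (fun h' => hh1 (Subtype.ext h'))
        · exact h1
      have hx : h = x₀ := hx₀u h ho2
      subst hx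
      apply Subgroup.eq_of_le_of_card_ge
      · rw [Subgroup.zpowers_le]; exact hh
      · rw [Nat.card_zpowers, ho2, hH]
    intro H K hH hK
    rw [← key H hH, ← key K hK]
  rcases Cfsg.Agent.S0016.result 2 (hS.to_quotient D') huniq with hcyc | ⟨-, k, ⟨e⟩⟩
  · exact absurd IsCyclic.isMulCommutative hna
  obtain ⟨m, rfl⟩ : ∃ m, k = m + 1 := by
    rcases k with _ | m
    · exfalso
      have e' : S ⧸ D' ≃* QuaternionGroup 1 := e
      have hc : IsMulCommutative (QuaternionGroup 1) :=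
        @IsCyclic.isMulCommutative _ _ QuaternionGroup.quaternionGroup_one_isCyclic
      exact hna ⟨⟨fun u v => e'.injective (by rw [map_mul, map_mul]; exact hc.is_comm.comm _ _)⟩⟩
    · exact ⟨m, rfl⟩
  let π : S →* QuaternionGroup (2 ^ (m + 1)) := e.toMonoidHom.comp (QuotientGroup.mk' D')
  have hπs : Function.Surjective π := e.surjective.comp (QuotientGroup.mk'_surjective D')
  have hπk : ∀ s, π s = 1 → s ∈ D' := by
    intro s hs
    have h1 : e (QuotientGroup.mk s : S ⧸ D') = e 1 := by rw [map_one]; exact hs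
    exact (QuotientGroup.eq_one_iff s).mp (e.injective h1)
  have hπD : ∀ d ∈ D', π d = 1 := by
    intro d hd
    have h1 : (QuotientGroup.mk d : S ⧸ D') = 1 := (QuotientGroup.eq_one_iff d).mpr hd
    show e (QuotientGroup.mk d : S ⧸ D') = 1
    rw [h1, map_one]
  obtain ⟨a₀, ha₀⟩ := hπs (QuaternionGroup.a 1)
  obtain ⟨A, hA⟩ : ∃ A : Subgroup S,
    A = (Subgroup.zpowers (QuaternionGroup.a (1 : ZMod (2 * 2 ^ (m + 1))))).comap π := ⟨_, rfl⟩
  have hAmem : ∀ x, x ∈ A ↔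
      π x ∈ Subgroup.zpowers (QuaternionGroup.a (1 : ZMod (2 * 2 ^ (m + 1)))) := by
    intro x; rw [hA, Subgroup.mem_comap]
  have hN : NeZero (2 ^ (m + 1)) := ⟨by positivity⟩
  have hN2 : NeZero (2 * 2 ^ (m + 1)) := ⟨by positivity⟩
  have hAidx : A.index = 2 := by
    rw [hA, Subgroup.index_comap_of_surjective _ hπs]
    have h1 := Subgroup.card_mul_index
      (Subgroup.zpowers (QuaternionGroup.a (1 : ZMod (2 * 2 ^ (m + 1)))))
    rw [Nat.card_zpowers, QuaternionGroup.orderOf_a_one, Nat.card_eq_fintype_card,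
      QuaternionGroup.card] at h1
    have h3 : 0 < 2 ^ (m + 1) := by positivity
    nlinarith
  have hAdec : ∀ x ∈ A, ∃ i : ℤ, ∃ d ∈ D', x = d * a₀ ^ i := by
    intro x hx
    rw [hAmem] at hx
    obtain ⟨i, hi⟩ := Subgroup.mem_zpowers_iff.mp hx
    refine ⟨i, x * (a₀ ^ i)⁻¹, hπk _ ?_, by simp⟩
    rw [map_mul, map_inv, map_zpow, ha₀, hi]; simp
  have hAcomm : ∀ x ∈ A, ∀ x' ∈ A, x * x' = x' * x := by
    intro x hx x' hx'
    obtain ⟨i, d, hd, rfl⟩ := hAdec x hx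
    obtain ⟨j, d', hd', rfl⟩ := hAdec x' hx'
    have h1 := hD'Z d hd
    have h2 := hD'Z d' hd'
    have h3 : a₀ ^ i * a₀ ^ j = a₀ ^ j * a₀ ^ i := by rw [← zpow_add, ← zpow_add, add_comm]
    calc d * a₀ ^ i * (d' * a₀ ^ j) = d * (a₀ ^ i * d') * a₀ ^ j := by simp [mul_assoc]
      _ = d * (d' * a₀ ^ i) * a₀ ^ j := by rw [h2]
      _ = d * d' * (a₀ ^ i * a₀ ^ j) := by simp [mul_assoc]
      _ = d' * d * (a₀ ^ j * a₀ ^ i) := by rw [h3, h2 d]
      _ = d' * (d * a₀ ^ j) * a₀ ^ i := by simp [mul_assoc]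
      _ = d' * (a₀ ^ j * d) * a₀ ^ i := by rw [← h1]
      _ = _ := by simp [mul_assoc]
  have ha₀A : a₀ ∈ A := by rw [hAmem, ha₀]; exact Subgroup.mem_zpowers _
  have hcast : ((2 ^ m : ℕ) : ZMod (2 * 2 ^ (m + 1))) + ((2 ^ m : ℕ) : ZMod (2 * 2 ^ (m + 1)))
      = ((2 ^ (m + 1) : ℕ) : ZMod (2 * 2 ^ (m + 1))) := by
    rw [← Nat.cast_add]; congr 1; rw [pow_succ]; ring
  have hx1 : π (a₀ ^ (2 ^ m) * a₀ ^ (2 ^ m)) =
      QuaternionGroup.a ((2 ^ (m + 1) : ℕ) : ZMod (2 * 2 ^ (m + 1))) := by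
    rw [map_mul, map_pow, ha₀, QuaternionGroup.a_one_pow, QuaternionGroup.a_mul_a, hcast]
  refine ⟨A, a₀ ^ (2 ^ m), hAidx, hAcomm, pow_mem ha₀A _, ?_, ?_, ?_⟩
  · intro h
    have h1 := hπD _ h
    rw [hx1, QuaternionGroup.one_def] at h1
    have h3 : ((2 ^ (m + 1) : ℕ) : ZMod (2 * 2 ^ (m + 1))) = 0 := by
      injection h1
    rw [ZMod.natCast_eq_zero_iff] at h3
    have h4 := Nat.le_of_dvd (by positivity) h3
    have h5 : 0 < 2 ^ (m + 1) := by positivity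
    omega
  · apply hπk
    rw [map_mul, hx1, QuaternionGroup.a_mul_a, QuaternionGroup.one_def, ← Nat.cast_add]
    congr 1
    rw [ZMod.natCast_eq_zero_iff]
    exact ⟨1, by ring⟩
  · intro g hg
    apply hπk
    rw [map_mul, map_inv, hx1, map_mul]
    have hgj : ∃ j, π g = QuaternionGroup.xa j := by
      rcases hπg : π g with i | j
      · exfalso; apply hg; rw [hAmem, hπg]
        refine Subgroup.mem_zpowers_iff.mpr ⟨(i.val : ℤ), ?_⟩
        rw [zpow_natCast, QuaternionGroup.a_one_pow, ZMod.natCast_zmod_val]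
      · exact ⟨j, rfl⟩
    obtain ⟨j, hj⟩ := hgj
    rw [hj, QuaternionGroup.xa_mul_xa, add_sub_cancel_right]
    simp

/-- Let S be a finite 2-group whose centre Z(S) has n ≥ 2 distinct maximal subgroups C₁, …, Cₙ with trivial intersection such that each quotient S/Cᵢ is a non-abelian group with exactly one involution (a generalized quaternion group). Then S is the internal direct product of an elementary abelian subgroup and a non-abelian subgroup with exactly one involution. -/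
theorem result {S : Type*} [Group S] [Finite S]
    (hS : IsPGroup 2 S) (n : ℕ) (hn : 2 ≤ n) (C : Fin n → Subgroup ↥(Subgroup.center S))
    (hCmax : ∀ i, IsCoatom (C i)) (hCinj : Function.Injective C) (hCint : ⨅ i, C i = ⊥)
    (hCq : ∀ i, ∃ (_ : ((C i).map (Subgroup.center S).subtype).Normal),
      ¬ IsMulCommutative (S ⧸ (C i).map (Subgroup.center S).subtype) ∧
      ∃! x : S ⧸ (C i).map (Subgroup.center S).subtype, orderOf x = 2) :
    ∃ E Q : Subgroup S, Cfsg.IsInternalDirectProduct E Q ⊤ ∧ Cfsg.IsElementaryAbelian 2 E ∧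
      ¬ IsMulCommutative ↥Q ∧ ∃! x : ↥Q, orderOf x = 2 := by
  classical
  have h2 : Fact (Nat.Prime 2) := ⟨Nat.prime_two⟩
  have hZp : IsPGroup 2 ↥(Subgroup.center S) := hS.to_subgroup _
  have hco := fun i => coatom_facts hZp
    (fun a b => Subtype.ext (Subgroup.mem_center_iff.mp b.2 a.1)) (C i) (hCmax i)
  obtain ⟨C', hC', hCq'⟩ : ∃ C' : Fin n → Subgroup S,
      (∀ i, C' i = (C i).map (Subgroup.center S).subtype) ∧
      ∀ i, ∃ (_ : (C' i).Normal), ¬ IsMulCommutative (S ⧸ C' i) ∧ ∃! x : S ⧸ C' i, orderOf x = 2 :=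
    ⟨_, fun _ => rfl, hCq⟩
  have hC'mem : ∀ i (x : S), x ∈ C' i ↔
      ∃ hx : x ∈ Subgroup.center S, (⟨x, hx⟩ : ↥(Subgroup.center S)) ∈ C i := by
    intro i x; rw [hC' i]; constructor
    · rintro ⟨z, hz, rfl⟩; exact ⟨z.2, hz⟩
    · rintro ⟨hx, h⟩; exact ⟨⟨x, hx⟩, h, rfl⟩
  have hC'Z : ∀ i, ∀ d ∈ C' i, d ∈ Subgroup.center S := fun i d hd => ((hC'mem i d).mp hd).1
  have hZ2 : ∀ x ∈ Subgroup.center S, x * x = 1 := by
    intro x hx
    have h1 : (⟨x, hx⟩ : ↥(Subgroup.center S)) ^ 2 ∈ ⨅ i, C i :=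
      Subgroup.mem_iInf.mpr (fun i => (hco i).1 _)
    rw [hCint, Subgroup.mem_bot] at h1
    have h3 := congrArg Subtype.val h1
    simpa [pow_two] using h3
  have huq : ∀ x ∈ Subgroup.center S, ∀ x' ∈ Subgroup.center S, (∀ i, x ∉ C' i) →
      (∀ i, x' ∉ C' i) → x = x' := by
    intro x hx x' hx' h h'
    have h1 : (⟨x, hx⟩ : ↥(Subgroup.center S)) * (⟨x', hx'⟩ : ↥(Subgroup.center S))⁻¹ ∈ ⨅ i, C i := by
      refine Subgroup.mem_iInf.mpr (fun i => (hco i).2.1 _ _ ?_ ?_)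
      · intro hc; exact h i ((hC'mem i x).mpr ⟨hx, hc⟩)
      · intro hc; exact h' i ((hC'mem i x').mpr ⟨hx', hc⟩)
    rw [hCint, Subgroup.mem_bot] at h1
    have h3 := congrArg Subtype.val h1
    simpa [mul_inv_eq_one] using h3
  have hzi : ∀ i, ∃ z ∈ Subgroup.center S, z ∉ C' i := by
    intro i
    obtain ⟨y, hy⟩ := (hco i).2.2
    exact ⟨y, y.2, fun h => hy ((hC'mem i y).mp h).2⟩
  have hβ : ∀ i, ∀ x : S, x * x ∈ C' i → x ∈ Subgroup.center S := by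
    intro i x hx
    obtain ⟨hN, -, hu⟩ := hCq' i
    obtain ⟨z, hzZ, hz⟩ := hzi i
    rcases beta_lemma (C' i) hu z hz (by rw [hZ2 z hzZ]; exact one_mem _) x hx with h | h
    · exact hC'Z i x h
    · have h3 := mul_mem hzZ (hC'Z i _ h)
      simpa using h3
  obtain ⟨i₀⟩ : Nonempty (Fin n) := ⟨⟨0, by omega⟩⟩
  obtain ⟨hN, hna, hu⟩ := hCq' i₀
  have hD'Z : ∀ d ∈ C' i₀, ∀ g : S, g * d = d * g :=
    fun d hd g => Subgroup.mem_center_iff.mp (hC'Z i₀ d hd) g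
  obtain ⟨A, x₁, hAidx, hAcomm, hx₁A, hx₁D, hx₁4, hgA⟩ := quat_setup hS (C' i₀) hD'Z hna hu
  obtain ⟨z, hzZ, hz⟩ := hzi i₀
  have hx₁Z : x₁ * x₁ ∈ Subgroup.center S := by
    rcases beta_lemma (C' i₀) hu z hz (by rw [hZ2 z hzZ]; exact one_mem _) (x₁ * x₁) hx₁4 with h | h
    · exact absurd h hx₁D
    · have h3 := mul_mem hzZ (hC'Z i₀ _ h)
      simpa using h3
  have hL : ∀ g : S, (x₁ * x₁)⁻¹ * (g * g) ∈ C' i₀ →
      g * g ∈ Subgroup.center S ∧ ∀ i, g * g ∉ C' i := by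
    intro g hg
    have hgZ : g * g ∈ Subgroup.center S := by
      have h3 := mul_mem hx₁Z (hC'Z i₀ _ hg)
      rw [mul_inv_cancel_left] at h3
      exact h3
    have hgD : g * g ∉ C' i₀ := by
      intro h
      apply hx₁D
      have h3 := mul_mem h (inv_mem hg)
      rw [mul_inv_rev, inv_inv, mul_inv_cancel_left] at h3
      exact h3
    refine ⟨hgZ, fun i hi => hgD ?_⟩
    have h1 := hβ i g hi
    rw [hZ2 g h1]; exact one_mem _
  have hsq : ∀ g : S, g ∉ A → g * g = x₁ * x₁ := by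
    intro g hg
    have h1 := hL g (hgA g hg)
    have h3 := hL x₁ (by rw [inv_mul_cancel]; exact one_mem _)
    exact huq _ h1.1 _ h3.1 h1.2 h3.2
  let sq : ↥A →* S :=
    { toFun := fun x => (x : S) * (x : S)
      map_one' := by simp
      map_mul' := fun x y => by
        have hc := hAcomm _ x.2 _ y.2
        simp only [Subgroup.coe_mul]
        calc (x : S) * (y : S) * ((x : S) * (y : S)) = (x : S) * ((y : S) * (x : S)) * (y : S) := by
              simp [mul_assoc]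
          _ = (x : S) * ((x : S) * (y : S)) * (y : S) := by rw [hc]
          _ = _ := by simp [mul_assoc] }
  have hP1 : ∀ g : S, g * g ∈ sq.range := by
    intro g
    by_cases hg : g ∈ A
    · exact ⟨⟨g, hg⟩, rfl⟩
    · rw [hsq g hg]; exact ⟨⟨x₁, hx₁A⟩, rfl⟩
  have hP2 : ∀ p ∈ sq.range, p ∈ C' i₀ → p = 1 := by
    rintro _ ⟨x, rfl⟩ hp
    have h1 : (x : S) * (x : S) ∈ C' i₀ := hp
    exact hZ2 _ (hβ i₀ _ h1)
  have hP3 : ∀ g h : S, g * h * g⁻¹ * h⁻¹ ∈ sq.range := by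
    intro g h
    have e1 : g * h * g⁻¹ * h⁻¹ = ((g * h) * (g * h)) * ((h⁻¹ * g⁻¹ * h) * (h⁻¹ * g⁻¹ * h)) *
        (h⁻¹ * h⁻¹) := by simp [mul_assoc]
    rw [e1]
    exact mul_mem (mul_mem (hP1 _) (hP1 _)) (hP1 _)
  have hP0 : sq.range ⊓ C' i₀ = ⊥ := by
    rw [eq_bot_iff]
    intro p hp
    obtain ⟨hp1, hp2⟩ := Subgroup.mem_inf.mp hp
    exact Subgroup.mem_bot.mpr (hP2 p hp1 hp2)
  obtain ⟨M, hPM, hM⟩ := Finite.exists_le_maximal
    (p := fun M : Subgroup S => sq.range ≤ M ∧ M ⊓ C' i₀ = ⊥) (a := sq.range) ⟨le_rfl, hP0⟩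
  have hMn : M.Normal := ⟨fun mm hm g => by
    have h1 := hM.1.1 (hP3 g mm)
    have e1 : g * mm * g⁻¹ = (g * mm * g⁻¹ * mm⁻¹) * mm := by simp
    rw [e1]; exact mul_mem h1 hm⟩
  have hsup : M ⊔ C' i₀ = ⊤ := by
    by_contra hne
    obtain ⟨x, hx⟩ : ∃ x : S, x ∉ M ⊔ C' i₀ := by
      by_contra h; push Not at h; exact hne (eq_top_iff.mpr fun x _ => h x)
    have hx2 : x ^ 2 ∈ M := by rw [pow_two]; exact hM.1.1 (hP1 x)
    have hp' : sq.range ≤ M ⊔ Subgroup.zpowers x ∧ (M ⊔ Subgroup.zpowers x) ⊓ C' i₀ = ⊥ := by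
      refine ⟨le_trans hM.1.1 le_sup_left, ?_⟩
      rw [eq_bot_iff]
      intro y hy
      obtain ⟨hy1, hy2⟩ := Subgroup.mem_inf.mp hy
      have hy1' : y ∈ ((M ⊔ Subgroup.zpowers x : Subgroup S) : Set S) := hy1
      rw [Subgroup.normal_mul] at hy1'
      obtain ⟨mm, hmm, w, hw, rfl⟩ := Set.mem_mul.mp hy1'
      obtain ⟨j, rfl⟩ := Subgroup.mem_zpowers_iff.mp hw
      rcases Int.even_or_odd' j with ⟨l, rfl | rfl⟩
      · have e1 : x ^ (2 * l) = (x ^ 2) ^ l := by rw [zpow_mul]; norm_cast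
        have h3 : mm * x ^ (2 * l) ∈ M := by rw [e1]; exact mul_mem hmm (zpow_mem hx2 l)
        have h4 : mm * x ^ (2 * l) ∈ M ⊓ C' i₀ := Subgroup.mem_inf.mpr ⟨h3, hy2⟩
        rw [hM.1.2] at h4
        exact h4
      · exfalso
        apply hx
        have e1 : x ^ (2 * l + 1) = (x ^ 2) ^ l * x := by
          have e2 : x ^ (2 * l) = (x ^ 2) ^ l := by rw [zpow_mul]; norm_cast
          rw [zpow_add, zpow_one, e2]
        have h3 : mm * (x ^ 2) ^ l ∈ M := mul_mem hmm (zpow_mem hx2 l)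
        have e3 : x = (mm * (x ^ 2) ^ l)⁻¹ * (mm * x ^ (2 * l + 1)) := by rw [e1]; simp [mul_assoc]
        rw [e3]
        exact mul_mem ((le_sup_left : M ≤ M ⊔ C' i₀) (inv_mem h3))
          ((le_sup_right : C' i₀ ≤ M ⊔ C' i₀) hy2)
    have hle := hM.2 hp' le_sup_left
    exact hx ((le_sup_left : M ≤ M ⊔ C' i₀)
      (hle ((le_sup_right : Subgroup.zpowers x ≤ M ⊔ Subgroup.zpowers x) (Subgroup.mem_zpowers x))))
  have hdecM : ∀ g : S, ∃ mm ∈ M, ∃ d ∈ C' i₀, g = mm * d := by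
    intro g
    have hg : g ∈ ((M ⊔ C' i₀ : Subgroup S) : Set S) := by rw [hsup]; trivial
    rw [Subgroup.normal_mul] at hg
    obtain ⟨mm, hmm, d, hd, rfl⟩ := Set.mem_mul.mp hg
    exact ⟨mm, hmm, d, hd, rfl⟩
  have emk : ∀ (mm d : S), d ∈ C' i₀ →
      (QuotientGroup.mk (mm * d) : S ⧸ C' i₀) = QuotientGroup.mk mm := by
    intro mm d hd
    rw [QuotientGroup.mk_mul, (QuotientGroup.eq_one_iff d).mpr hd, mul_one]
  refine ⟨C' i₀, M, ⟨le_top, le_top, ?_, ?_, ?_⟩, ⟨?_, ?_⟩, ?_, ?_⟩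
  · intro a ha b hb; exact (hD'Z a ha b).symm
  · rw [inf_comm]; exact hM.1.2
  · rw [sup_comm]; exact hsup
  · exact ⟨⟨fun a b => Subtype.ext (hD'Z b.1 b.2 a.1)⟩⟩
  · intro a ha; rw [pow_two]; exact hZ2 a (hC'Z i₀ a ha)
  · intro hMc
    apply hna
    refine ⟨⟨fun u v => ?_⟩⟩
    induction u using QuotientGroup.induction_on with
    | H g =>
      induction v using QuotientGroup.induction_on with
      | H h =>
        obtain ⟨m₁, hm₁, d₁, hd₁, rfl⟩ := hdecM g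
        obtain ⟨m₂, hm₂, d₂, hd₂, rfl⟩ := hdecM h
        rw [emk _ _ hd₁, emk _ _ hd₂, ← QuotientGroup.mk_mul, ← QuotientGroup.mk_mul]
        have h3 := hMc.is_comm.comm (⟨m₁, hm₁⟩ : ↥M) ⟨m₂, hm₂⟩
        have h4 : m₁ * m₂ = m₂ * m₁ := congrArg Subtype.val h3
        rw [h4]
  · let ψ : ↥M →* S ⧸ C' i₀ := (QuotientGroup.mk' (C' i₀)).comp M.subtype
    have hψinj : Function.Injective ψ := by
      rw [injective_iff_map_eq_one]
      intro a ha
      have h1 : (a : S) ∈ C' i₀ := (QuotientGroup.eq_one_iff _).mp ha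
      have h3 : (a : S) ∈ M ⊓ C' i₀ := Subgroup.mem_inf.mpr ⟨a.2, h1⟩
      rw [hM.1.2, Subgroup.mem_bot] at h3
      exact Subtype.ext h3
    obtain ⟨x₀, hx₀, hx₀u⟩ := hu
    obtain ⟨g, rfl⟩ := QuotientGroup.mk_surjective x₀
    obtain ⟨m₁, hm₁, d₁, hd₁, rfl⟩ := hdecM g
    have e1 : ψ ⟨m₁, hm₁⟩ = QuotientGroup.mk (m₁ * d₁) := (emk m₁ d₁ hd₁).symm
    refine ⟨⟨m₁, hm₁⟩, ?_, ?_⟩
    · show orderOf (⟨m₁, hm₁⟩ : ↥M) = 2
      rw [← orderOf_injective ψ hψinj, e1]; exact hx₀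
    · intro y hy
      apply hψinj
      rw [e1]
      apply hx₀u
      show orderOf (ψ y) = 2
      rw [orderOf_injective ψ hψinj]; exact hy

end Cfsg.Agent.S3201
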