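import Cfsg.Statements.S3202
import Mathlib
import Cfsg.Agent.S0016

set_option autoImplicit false
open Cfsg

namespace Cfsg.Agent.S3202

open scoped commutatorElement

/-- Let S be a finite 2-group of 2-rank exactly 2 and D a maximal subgroup of the centre of S such that S/D is a non-abelian group with exactly one involution (a generalized quaternion group). Then S has a nontrivial cyclic characteristic subgroup. -/
theorem result {S : Type*} [Group S]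
    [Finite S] (hS : IsPGroup 2 S) (hr2 : Cfsg.PRankLE 2 2 S) (hr1 : ¬ Cfsg.PRankLE 2 1 S)
    (D : Subgroup ↥(Subgroup.center S)) (hD : IsCoatom D)
    (hq : ∃ (_ : (D.map (Subgroup.center S).subtype).Normal),
      ¬ IsMulCommutative (S ⧸ D.map (Subgroup.center S).subtype) ∧
      ∃! x : S ⧸ D.map (Subgroup.center S).subtype, orderOf x = 2) :
    ∃ C : Subgroup S, C ≠ ⊥ ∧ IsCyclic ↥C ∧ C.Characteristic := by
  classical
  have h2 : Fact (Nat.Prime 2) := ⟨Nat.prime_two⟩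
  obtain ⟨D', hD', hq'⟩ : ∃ D' : Subgroup S, D' = D.map (Subgroup.center S).subtype ∧
      ∃ (_ : D'.Normal), ¬ IsMulCommutative (S ⧸ D') ∧ ∃! x : S ⧸ D', orderOf x = 2 :=
    ⟨_, rfl, hq⟩
  obtain ⟨hDn, hna, x₀, hx₀, hx₀u⟩ := hq'
  have hD'Z : ∀ d ∈ D', ∀ g : S, g * d = d * g := by
    intro d hd g
    rw [hD'] at hd
    obtain ⟨z, -, rfl⟩ := hd
    exact (Subgroup.mem_center_iff.mp z.2 g)
  have huniq : ∀ H K : Subgroup (S ⧸ D'), Nat.card H = 2 → Nat.card K = 2 → H = K := by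
    have key : ∀ H : Subgroup (S ⧸ D'), Nat.card H = 2 → Subgroup.zpowers x₀ = H := by
      intro H hH
      have hnt : H ≠ ⊥ := by
        intro h; rw [h] at hH; simp at hH
      obtain ⟨⟨h, hh⟩, hh1⟩ := Subgroup.ne_bot_iff_exists_ne_one.mp hnt
      have ho : orderOf h ∣ 2 := by
        have h1 := orderOf_dvd_natCard (⟨h, hh⟩ : H)
        rwa [Subgroup.orderOf_mk, hH] at h1
      have ho2 : orderOf h = 2 := by
        rcases (Nat.dvd_prime Nat.prime_two).mp ho with h1 | h1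
        · exact absurd (orderOf_eq_one_iff.mp h1) (fun h' => hh1 (Subtype.ext h'))
        · exact h1
      have hx : h = x₀ := hx₀u h ho2
      subst hx
      apply Subgroup.eq_of_le_of_card_ge
      · rw [Subgroup.zpowers_le]; exact hh
      · rw [Nat.card_zpowers, ho2, hH]
    intro H K hH hK
    rw [← key H hH, ← key K hK]
  rcases Cfsg.Agent.S0016.result 2 (hS.to_quotient D') huniq with hcyc | ⟨-, k, ⟨e⟩⟩
  · exact absurd IsCyclic.isMulCommutative hna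
  let π : S →* QuaternionGroup (2 ^ k) := e.toMonoidHom.comp (QuotientGroup.mk' D')
  have hπs : Function.Surjective π := e.surjective.comp (QuotientGroup.mk'_surjective D')
  have hπk : ∀ s, π s = 1 → s ∈ D' := by
    intro s hs
    have h1 : e (QuotientGroup.mk s : S ⧸ D') = e 1 := by rw [map_one]; exact hs
    exact (QuotientGroup.eq_one_iff s).mp (e.injective h1)
  have hπD : ∀ d ∈ D', π d = 1 := by
    intro d hd
    have h1 : (QuotientGroup.mk d : S ⧸ D') = 1 := (QuotientGroup.eq_one_iff d).mpr hd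
    show e (QuotientGroup.mk d : S ⧸ D') = 1
    rw [h1, map_one]
  obtain ⟨a₀, ha₀⟩ := hπs (QuaternionGroup.a 1)
  obtain ⟨A, hA⟩ : ∃ A : Subgroup S, A = (Subgroup.zpowers (QuaternionGroup.a (1 : ZMod (2 * 2 ^ k)))).comap π := ⟨_, rfl⟩
  have hAmem : ∀ x, x ∈ A ↔ π x ∈ Subgroup.zpowers (QuaternionGroup.a (1 : ZMod (2 * 2 ^ k))) := by
    intro x; rw [hA, Subgroup.mem_comap]
  have hAidx : A.index = 2 := by
    rw [hA, Subgroup.index_comap_of_surjective _ hπs]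
    have : NeZero (2 ^ k) := ⟨by positivity⟩
    have h1 := Subgroup.card_mul_index (Subgroup.zpowers (QuaternionGroup.a (1 : ZMod (2 * 2 ^ k))))
    rw [Nat.card_zpowers, QuaternionGroup.orderOf_a_one, Nat.card_eq_fintype_card,
      QuaternionGroup.card] at h1
    have h3 : 0 < 2 ^ k := by positivity
    nlinarith
  have hAn : A.Normal := Subgroup.normal_of_index_eq_two hAidx
  have hAdec : ∀ x ∈ A, ∃ i : ℤ, ∃ d ∈ D', x = d * a₀ ^ i := by
    intro x hx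
    rw [hAmem] at hx
    obtain ⟨i, hi⟩ := Subgroup.mem_zpowers_iff.mp hx
    refine ⟨i, x * (a₀ ^ i)⁻¹, hπk _ ?_, by simp⟩
    rw [map_mul, map_inv, map_zpow, ha₀, hi]; simp
  have hAcomm : ∀ x ∈ A, ∀ x' ∈ A, x * x' = x' * x := by
    intro x hx x' hx'
    obtain ⟨i, d, hd, rfl⟩ := hAdec x hx
    obtain ⟨j, d', hd', rfl⟩ := hAdec x' hx'
    have h1 := hD'Z d hd
    have h2 := hD'Z d' hd'
    have h3 : a₀ ^ i * a₀ ^ j = a₀ ^ j * a₀ ^ i := by rw [← zpow_add, ← zpow_add, add_comm]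
    calc d * a₀ ^ i * (d' * a₀ ^ j) = d * (a₀ ^ i * d') * a₀ ^ j := by simp [mul_assoc]
      _ = d * (d' * a₀ ^ i) * a₀ ^ j := by rw [h2]
      _ = d * d' * (a₀ ^ i * a₀ ^ j) := by simp [mul_assoc]
      _ = d' * d * (a₀ ^ j * a₀ ^ i) := by rw [h3, h2 d]
      _ = d' * (d * a₀ ^ j) * a₀ ^ i := by simp [mul_assoc]
      _ = d' * (a₀ ^ j * d) * a₀ ^ i := by rw [← h1]
      _ = _ := by simp [mul_assoc]
  have ha₀A : a₀ ∈ A := by rw [hAmem, ha₀]; exact Subgroup.mem_zpowers _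
  obtain ⟨b, hb⟩ : ∃ b : S, b ∉ A := by
    by_contra h
    push Not at h
    have h1 : A = ⊤ := eq_top_iff.mpr fun x _ => h x
    rw [h1, Subgroup.index_top] at hAidx
    omega
  have hκA : ∀ x ∈ A, x * b * x⁻¹ * b⁻¹ ∈ A := by
    intro x hx
    have h1 := hAn.conj_mem _ (inv_mem hx) b
    have h3 := mul_mem hx h1
    simpa [mul_assoc] using h3
  let κ : ↥A →* S :=
    { toFun := fun x => (x : S) * b * (x : S)⁻¹ * b⁻¹
      map_one' := by simp
      map_mul' := fun x x' => by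
        have hu : b * (x : S)⁻¹ * b⁻¹ ∈ A := hAn.conj_mem _ (inv_mem x.2) b
        have ht := hκA _ x'.2
        have hc := hAcomm _ ht _ hu
        simp only [Subgroup.coe_mul]
        calc (x : S) * (x' : S) * b * ((x : S) * (x' : S))⁻¹ * b⁻¹
            = (x : S) * (((x' : S) * b * (x' : S)⁻¹ * b⁻¹) * (b * (x : S)⁻¹ * b⁻¹)) := by
              simp [mul_assoc]
          _ = (x : S) * ((b * (x : S)⁻¹ * b⁻¹) * ((x' : S) * b * (x' : S)⁻¹ * b⁻¹)) := by rw [hc]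
          _ = _ := by simp [mul_assoc] }
  obtain ⟨c, hc⟩ : ∃ c : S, c = a₀ * b * a₀⁻¹ * b⁻¹ := ⟨_, rfl⟩
  have hκR : ∀ x ∈ A, x * b * x⁻¹ * b⁻¹ ∈ Subgroup.zpowers c := by
    intro x hx
    obtain ⟨i, d, hd, rfl⟩ := hAdec x hx
    have h1 := hD'Z d hd
    have e1 : d * a₀ ^ i * b * (d * a₀ ^ i)⁻¹ * b⁻¹ = a₀ ^ i * b * (a₀ ^ i)⁻¹ * b⁻¹ := by
      calc d * a₀ ^ i * b * (d * a₀ ^ i)⁻¹ * b⁻¹ = d * (a₀ ^ i * b * (a₀ ^ i)⁻¹) * d⁻¹ * b⁻¹ := by
            simp [mul_assoc]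
        _ = (a₀ ^ i * b * (a₀ ^ i)⁻¹) * d * d⁻¹ * b⁻¹ := by rw [← h1]
        _ = _ := by simp [mul_assoc]
    rw [e1]
    have e2 : κ ((⟨a₀, ha₀A⟩ : ↥A) ^ i) = (κ ⟨a₀, ha₀A⟩) ^ i := map_zpow κ _ i
    have e3 : κ ((⟨a₀, ha₀A⟩ : ↥A) ^ i) = a₀ ^ i * b * (a₀ ^ i)⁻¹ * b⁻¹ := by
      show ((((⟨a₀, ha₀A⟩ : ↥A) ^ i : ↥A) : S)) * b * ((((⟨a₀, ha₀A⟩ : ↥A) ^ i : ↥A) : S))⁻¹ * b⁻¹ = _
      rw [Subgroup.coe_zpow]
    have e4 : κ ⟨a₀, ha₀A⟩ = c := by rw [hc]; rfl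
    rw [← e3, e2, e4]
    exact Subgroup.zpow_mem_zpowers c i
  have hbinv : b⁻¹ ∉ A := fun h => hb (by simpa using inv_mem h)
  have hdecb : ∀ g : S, g ∉ A → g * b⁻¹ ∈ A := by
    intro g hg
    rw [Subgroup.mul_mem_iff_of_index_two hAidx]
    exact ⟨fun h => absurd h hg, fun h => absurd h hbinv⟩
  have hAA : ∀ x ∈ A, ∀ x' ∈ A, ⁅x, x'⁆ ∈ Subgroup.zpowers c := by
    intro x hx x' hx'
    rw [commutatorElement_def, hAcomm x hx x' hx']
    simp
  have hAb : ∀ x ∈ A, ∀ h : S, h ∉ A → ⁅x, h⁆ ∈ Subgroup.zpowers c := by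
    intro x hx h hh
    have hx' := hdecb h hh
    have h1 := hκA x hx
    have h2 := hAcomm _ h1 _ hx'
    have h3 := hAcomm _ hx _ hx'
    have e1 : ⁅x, h⁆ = x * b * x⁻¹ * b⁻¹ := by
      rw [commutatorElement_def]
      calc x * h * x⁻¹ * h⁻¹ = (x * (h * b⁻¹)) * b * x⁻¹ * b⁻¹ * (h * b⁻¹)⁻¹ := by simp [mul_assoc]
        _ = ((h * b⁻¹) * x) * b * x⁻¹ * b⁻¹ * (h * b⁻¹)⁻¹ := by rw [h3]
        _ = (h * b⁻¹) * (x * b * x⁻¹ * b⁻¹) * (h * b⁻¹)⁻¹ := by simp [mul_assoc]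
        _ = (x * b * x⁻¹ * b⁻¹) * (h * b⁻¹) * (h * b⁻¹)⁻¹ := by rw [h2]
        _ = _ := by simp [mul_assoc]
    rw [e1]; exact hκR x hx
  have hall : ∀ g h : S, ⁅g, h⁆ ∈ Subgroup.zpowers c := by
    intro g h
    by_cases hg : g ∈ A <;> by_cases hh : h ∈ A
    · exact hAA g hg h hh
    · exact hAb g hg h hh
    · rw [← commutatorElement_inv]
      exact inv_mem (hAb h hh g hg)
    · have hx := hdecb g hg
      have hx' := hdecb h hh
      have hw : (h * b⁻¹) * (g * b⁻¹)⁻¹ ∈ A := mul_mem hx' (inv_mem hx)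
      have hk := hκA _ hw
      have hkR := hκR _ hw
      have e1 : ⁅g, h⁆ = (g * b⁻¹) * ((h * b⁻¹) * (g * b⁻¹)⁻¹ * b * ((h * b⁻¹) * (g * b⁻¹)⁻¹)⁻¹ * b⁻¹)⁻¹ *
          ((h * b⁻¹) * (g * b⁻¹)⁻¹ * (h * b⁻¹)⁻¹) := by
        rw [commutatorElement_def]
        simp [mul_assoc]
      have e2 : (h * b⁻¹) * (g * b⁻¹)⁻¹ * (h * b⁻¹)⁻¹ = (g * b⁻¹)⁻¹ := by
        rw [hAcomm _ hx' _ (inv_mem hx), mul_inv_cancel_right]
      rw [e1, e2, hAcomm _ hx _ (inv_mem hk), mul_inv_cancel_right]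
      exact inv_mem hkR
  refine ⟨commutator S, ?_, ?_, ?_⟩
  · intro hbot
    apply hna
    refine ⟨⟨fun u v => ?_⟩⟩
    induction u using QuotientGroup.induction_on with
    | H g =>
      induction v using QuotientGroup.induction_on with
      | H h =>
        have h1 : ⁅g, h⁆ ∈ commutator S := Subgroup.commutator_mem_commutator (Subgroup.mem_top g) (Subgroup.mem_top h)
        rw [hbot, Subgroup.mem_bot, commutatorElement_eq_one_iff_mul_comm] at h1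
        rw [← QuotientGroup.mk_mul, ← QuotientGroup.mk_mul, h1]
  · have hle : commutator S ≤ Subgroup.zpowers c := by
      rw [commutator_def, Subgroup.commutator_le]
      intro g _ h _
      exact hall g h
    exact Subgroup.isCyclic_of_le hle
  · rw [commutator_def]; infer_instance

end Cfsg.Agent.S3202
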