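import Cfsg.Statements.S3208
import Mathlib

set_option autoImplicit false
open Cfsg

namespace Cfsg.Agent.S3208

/-- Let j be an involution of a finite group G, H a subgroup of G, and T a Sylow 2-subgroup of H ∩ C_G(j) containing j such that ⟨j⟩ is a characteristic subgroup of T. Then T is a Sylow 2-subgroup of H. -/
theorem result {G : Type*} [Group G] [Finite G]
    (j : G) (hj : orderOf j = 2) (H T : Subgroup G) (hT : T ≤ H ⊓ Subgroup.centralizer ({j} : Set G)) (h2 : IsPGroup 2 ↥T)
    (hSyl : ¬ 2 ∣ T.relIndex (H ⊓ Subgroup.centralizer ({j} : Set G))) (hjT : j ∈ T)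
    (hchar : ((Subgroup.zpowers j).subgroupOf T).Characteristic) :
    ¬ 2 ∣ T.relIndex H := by
  intro hdvd
  have : Fact (Nat.Prime 2) := ⟨Nat.prime_two⟩
  have hTH : T ≤ H := hT.trans inf_le_left
  have hTC : T ≤ Subgroup.centralizer ({j} : Set G) := hT.trans inf_le_right
  -- a Sylow 2-subgroup of H containing T
  have h2' : IsPGroup 2 (T.subgroupOf H) := h2.comap_subtype
  obtain ⟨P, hP⟩ := h2'.exists_le_sylow
  set P' : Subgroup G := (P : Subgroup H).map H.subtype with hP'
  have hP'2 : IsPGroup 2 P' := P.2.map _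
  have hP'H : P' ≤ H := by
    rintro _ ⟨x, _, rfl⟩; exact x.2
  have hTP' : T ≤ P' := by
    intro t ht
    exact ⟨⟨t, hTH ht⟩, hP (by simpa [Subgroup.mem_subgroupOf] using ht), rfl⟩
  have hne : T ≠ P' := by
    intro h
    have h1 : T.subgroupOf H = (P : Subgroup H) := by
      ext x
      rw [Subgroup.mem_subgroupOf, h]
      constructor
      · rintro ⟨y, hy, hxy⟩
        have : y = x := Subtype.ext hxy
        rwa [← this]
      · intro hx; exact ⟨x, hx, rfl⟩
    have h3 : ¬ 2 ∣ (P : Subgroup H).index := P.not_dvd_index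
    rw [← h1] at h3
    exact h3 hdvd
  -- T is Sylow in H ⊓ C(j), hence equals P' ⊓ C(j)
  have hQ : P' ⊓ Subgroup.centralizer ({j} : Set G) = T := by
    set M := H ⊓ Subgroup.centralizer ({j} : Set G) with hM
    have hTM : IsPGroup 2 (T.subgroupOf M) := h2.comap_subtype
    let S := hTM.toSylow hSyl
    have hS : (S : Subgroup M) = T.subgroupOf M := IsPGroup.toSylow_coe _ _
    have hQ2 : IsPGroup 2 ((P' ⊓ Subgroup.centralizer ({j} : Set G)).subgroupOf M) :=
      (hP'2.to_le inf_le_left).comap_subtype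
    have hle : (S : Subgroup M) ≤ (P' ⊓ Subgroup.centralizer ({j} : Set G)).subgroupOf M := by
      intro x hx
      have hx' : (x : G) ∈ T := by
        rw [hS, Subgroup.mem_subgroupOf] at hx; exact hx
      rw [Subgroup.mem_subgroupOf]
      exact ⟨hTP' hx', hTC hx'⟩
    have heq := S.3 hQ2 hle
    apply le_antisymm
    · intro x hx
      have hxM : x ∈ M := ⟨hP'H hx.1, hx.2⟩
      have : (⟨x, hxM⟩ : M) ∈ (P' ⊓ Subgroup.centralizer ({j} : Set G)).subgroupOf M := by
        rw [Subgroup.mem_subgroupOf]; exact hx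
      rw [heq, hS, Subgroup.mem_subgroupOf] at this
      exact this
    · exact le_inf hTP' hTC
  -- normalizer condition in P'
  have : Finite P' := inferInstance
  have : Group.IsNilpotent P' := hP'2.isNilpotent
  have hlt : T.subgroupOf P' < ⊤ := by
    rw [lt_top_iff_ne_top]
    intro h
    apply hne
    apply le_antisymm hTP'
    intro x hx
    have : (⟨x, hx⟩ : P') ∈ T.subgroupOf P' := by rw [h]; trivial
    simpa [Subgroup.mem_subgroupOf] using this
  have hnc := Group.normalizerCondition_of_isNilpotent (G := P') (T.subgroupOf P') hlt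
  obtain ⟨k, hkN, hkT⟩ := SetLike.exists_of_lt hnc
  have hkT' : (k : G) ∉ T := by simpa [Subgroup.mem_subgroupOf] using hkT
  -- k normalizes T in G
  have hkn : (k : G) ∈ Subgroup.normalizer (T : Set G) := by
    rw [Subgroup.mem_normalizer_iff]
    intro g
    rw [Subgroup.mem_normalizer_iff] at hkN
    constructor
    · intro hg
      have := (hkN ⟨g, hTP' hg⟩).mp (by simpa [Subgroup.mem_subgroupOf] using hg)
      simpa [Subgroup.mem_subgroupOf] using this
    · intro hg
      have hgP : g ∈ P' := by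
        have h1 : (k : G)⁻¹ * ((k : G) * g * (k : G)⁻¹) * (k : G) ∈ P' :=
          P'.mul_mem (P'.mul_mem (P'.inv_mem k.2) (hTP' hg)) k.2
        simpa [mul_assoc] using h1
      have := (hkN ⟨g, hgP⟩).mpr (by simpa [Subgroup.mem_subgroupOf] using hg)
      simpa [Subgroup.mem_subgroupOf] using this
  -- the automorphism of T induced by k fixes j
  have hfix := hchar.fixed (T.normalizerMonoidHom ⟨(k : G), hkn⟩)
  have hjmem : (⟨j, hjT⟩ : T) ∈ (Subgroup.zpowers j).subgroupOf T := by
    rw [Subgroup.mem_subgroupOf]; exact Subgroup.mem_zpowers j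
  rw [← hfix] at hjmem
  rw [Subgroup.mem_comap, Subgroup.mem_subgroupOf] at hjmem
  have hkj : (k : G) * j * (k : G)⁻¹ ∈ Subgroup.zpowers j := by
    simpa using hjmem
  have hkj' : (k : G) * j * (k : G)⁻¹ = j := by
    rw [Subgroup.mem_zpowers_iff] at hkj
    obtain ⟨n, hn⟩ := hkj
    have hj2 : j ^ 2 = 1 := by rw [← hj]; exact pow_orderOf_eq_one j
    have hj1 : j ≠ 1 := by
      intro h; rw [h, orderOf_one] at hj; omega
    rcases Int.even_or_odd' n with ⟨m, rfl | rfl⟩
    · rw [zpow_mul, zpow_ofNat, hj2, one_zpow] at hn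
      exfalso; apply hj1
      have : (k : G) * j * (k : G)⁻¹ = 1 := hn.symm
      have h3 : j = (k : G)⁻¹ * 1 * (k : G) := by rw [← this]; group
      simpa using h3
    · rw [zpow_add, zpow_mul, zpow_ofNat, hj2, one_zpow, one_mul, zpow_one] at hn
      exact hn.symm
  have hkC : (k : G) ∈ Subgroup.centralizer ({j} : Set G) := by
    rw [Subgroup.mem_centralizer_iff]
    intro x hx
    rw [Set.mem_singleton_iff] at hx
    subst hx
    have := congrArg (· * (k : G)) hkj'
    simpa using this.symm
  apply hkT'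
  rw [← hQ]
  exact ⟨k.2, hkC⟩

end Cfsg.Agent.S3208
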