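import Cfsg.Statements.S3209
import Mathlib
import Cfsg.Agent.Lib.helper12.SL2Cent
import Cfsg.Agent.Lib.helper7.Central

set_option autoImplicit false
open Cfsg

namespace Cfsg.Agent.S3209

open Cfsg.Agent.Lib.helper12

section sl2facts
variable {F : Type*} [Field F]

theorem two_ne_zero_of_odd [Fintype F] (hF : Odd (Fintype.card F)) : (2 : F) ≠ 0 := by
  intro h
  have h1 : ringChar F = 2 :=
    CharP.ringChar_of_prime_eq_zero Nat.prime_two (by exact_mod_cast h)
  have h2 := FiniteField.even_card_iff_char_two.mp h1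
  rcases hF with ⟨m, hm⟩
  omega

/-- An element of `SL₂` of square one over a field with `2 ≠ 0` is `±1` as a matrix. -/
theorem sl2_sq_one (h2 : (2 : F) ≠ 0) (g : Matrix.SpecialLinearGroup (Fin 2) F) (hg : g * g = 1)
    (hg1 : g ≠ 1) : (g : Matrix (Fin 2) (Fin 2) F) = -1 := by
  have h := SL2_sq_eq g
  have hgg : (g : Matrix (Fin 2) (Fin 2) F) * (g : Matrix (Fin 2) (Fin 2) F) = 1 := by
    rw [← Matrix.SpecialLinearGroup.coe_mul, hg]; rfl
  rw [hgg] at h
  have hdet := g.det_coe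
  rw [Matrix.det_fin_two] at hdet
  have h00 := congrFun (congrFun h 0) 0
  have h01 := congrFun (congrFun h 0) 1
  have h10 := congrFun (congrFun h 1) 0
  have h11 := congrFun (congrFun h 1) 1
  simp only [Matrix.one_apply_eq, Matrix.sub_apply, Matrix.smul_apply, smul_eq_mul] at h00 h11
  simp only [Matrix.sub_apply, Matrix.smul_apply, smul_eq_mul, Matrix.one_apply_ne (show (0 : Fin 2) ≠ 1 by decide),
    Matrix.one_apply_ne (show (1 : Fin 2) ≠ 0 by decide), sub_zero] at h01 h10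
  have htr : (g : Matrix (Fin 2) (Fin 2) F).trace ≠ 0 := by
    intro ht
    rw [ht, zero_mul] at h00
    apply h2
    linear_combination h00
  have e01 : (g : Matrix (Fin 2) (Fin 2) F) 0 1 = 0 := by
    rcases mul_eq_zero.mp h01.symm with h | h
    · exact absurd h htr
    · exact h
  have e10 : (g : Matrix (Fin 2) (Fin 2) F) 1 0 = 0 := by
    rcases mul_eq_zero.mp h10.symm with h | h
    · exact absurd h htr
    · exact h
  have e00 : (g : Matrix (Fin 2) (Fin 2) F) 0 0 = (g : Matrix (Fin 2) (Fin 2) F) 1 1 := by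
    have : (g : Matrix (Fin 2) (Fin 2) F).trace * ((g : Matrix (Fin 2) (Fin 2) F) 0 0 -
        (g : Matrix (Fin 2) (Fin 2) F) 1 1) = 0 := by linear_combination h11 - h00
    rcases mul_eq_zero.mp this with h | h
    · exact absurd h htr
    · exact sub_eq_zero.mp h
  rw [e01, e10, e00] at hdet
  have hsq : ((g : Matrix (Fin 2) (Fin 2) F) 1 1 - 1) * ((g : Matrix (Fin 2) (Fin 2) F) 1 1 + 1) = 0 := by
    linear_combination hdet
  rcases mul_eq_zero.mp hsq with h | h
  · exfalso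
    apply hg1
    apply Subtype.ext
    ext i j
    have e11 : (g : Matrix (Fin 2) (Fin 2) F) 1 1 = 1 := sub_eq_zero.mp h
    fin_cases i <;> fin_cases j <;> simp [e00, e01, e10, e11]
  · have e11 : (g : Matrix (Fin 2) (Fin 2) F) 1 1 = -1 := eq_neg_of_add_eq_zero_left h
    ext i j
    fin_cases i <;> fin_cases j <;> simp [e00, e01, e10, e11]

/-- An element of `SL₂` whose square is `-1` has trace zero. -/
theorem sl2_trace_zero (g : Matrix.SpecialLinearGroup (Fin 2) F)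
    (hg : ((g * g : Matrix.SpecialLinearGroup (Fin 2) F) : Matrix (Fin 2) (Fin 2) F) = -1) :
    (g : Matrix (Fin 2) (Fin 2) F).trace = 0 := by
  have h := SL2_sq_eq g
  rw [← Matrix.SpecialLinearGroup.coe_mul, hg] at h
  by_contra htr
  have hdet := g.det_coe
  rw [Matrix.det_fin_two] at hdet
  have h00 := congrFun (congrFun h 0) 0
  have h01 := congrFun (congrFun h 0) 1
  have h10 := congrFun (congrFun h 1) 0
  have h11 := congrFun (congrFun h 1) 1
  simp only [Matrix.one_apply_eq, Matrix.sub_apply, Matrix.smul_apply, smul_eq_mul, Matrix.neg_apply] at h00 h11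
  simp only [Matrix.sub_apply, Matrix.smul_apply, smul_eq_mul, Matrix.neg_apply,
    Matrix.one_apply_ne (show (0 : Fin 2) ≠ 1 by decide),
    Matrix.one_apply_ne (show (1 : Fin 2) ≠ 0 by decide), sub_zero, neg_zero] at h01 h10
  have e00 : (g : Matrix (Fin 2) (Fin 2) F) 0 0 = 0 := by
    have : (g : Matrix (Fin 2) (Fin 2) F).trace * (g : Matrix (Fin 2) (Fin 2) F) 0 0 = 0 := by
      linear_combination -h00
    rcases mul_eq_zero.mp this with h | h
    · exact absurd h htr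
    · exact h
  have e01 : (g : Matrix (Fin 2) (Fin 2) F) 0 1 = 0 := by
    rcases mul_eq_zero.mp h01.symm with h | h
    · exact absurd h htr
    · exact h
  rw [e00, e01] at hdet
  simp at hdet

theorem sl2_conj_of_sq [Fintype F] (hF : Odd (Fintype.card F))
    (g h : Matrix.SpecialLinearGroup (Fin 2) F)
    (hg : ((g * g : Matrix.SpecialLinearGroup (Fin 2) F) : Matrix (Fin 2) (Fin 2) F) = -1)
    (hh : ((h * h : Matrix.SpecialLinearGroup (Fin 2) F) : Matrix (Fin 2) (Fin 2) F) = -1) :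
    IsConj g h := by
  have h2 := two_ne_zero_of_odd hF
  have hF' : Fintype.card F % 2 = 1 := Nat.odd_iff.mp hF
  have h4 : (0 : F) ^ 2 ≠ 4 := by
    intro h
    apply h2
    have : (2 : F) * 2 = 0 := by linear_combination -h
    rcases mul_eq_zero.mp this with h | h <;> exact h
  have c1 := SL2_isConj_compSL_odd hF' g (by rw [sl2_trace_zero g hg]; exact h4)
  have c2 := SL2_isConj_compSL_odd hF' h (by rw [sl2_trace_zero h hh]; exact h4)
  rw [sl2_trace_zero g hg] at c1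
  rw [sl2_trace_zero h hh] at c2
  exact c1.symm.trans c2

/-- The element `[[0, 1], [-1, 0]]` of `SL₂`. -/
def wSL (F : Type*) [Field F] : Matrix.SpecialLinearGroup (Fin 2) F :=
  ⟨!![0, 1; -1, 0], by rw [Matrix.det_fin_two]; simp⟩

theorem wSL_sq : ((wSL F * wSL F : Matrix.SpecialLinearGroup (Fin 2) F) : Matrix (Fin 2) (Fin 2) F) = -1 := by
  rw [Matrix.SpecialLinearGroup.coe_mul]
  ext i j
  fin_cases i <;> fin_cases j <;> simp [wSL, Matrix.mul_apply, Fin.sum_univ_two]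

end sl2facts

/-- Facts about a subgroup isomorphic to `SL₂(F)`, `F` finite of odd order, with a given
involution `j`. -/
theorem sl2_subgroup_facts {G : Type*} [Group G] {F : Type*} [Field F] [Fintype F]
    (hF : Odd (Fintype.card F)) (L : Subgroup G) (e : ↥L ≃* Matrix.SpecialLinearGroup (Fin 2) F)
    (j : G) (hjL : j ∈ L) (hj : orderOf j = 2) :
    (∀ a ∈ L, a * a = 1 → a = 1 ∨ a = j) ∧ (∃ a₀ ∈ L, a₀ * a₀ = j) ∧
      (∀ a ∈ L, ∀ a' ∈ L, a * a = j → a' * a' = j → ∃ g ∈ L, g * a * g⁻¹ = a') := by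
  have h2 := two_ne_zero_of_odd hF
  have hjj : j * j = 1 := by rw [← pow_two, ← hj, pow_orderOf_eq_one]
  have hj1 : j ≠ 1 := by
    intro h; rw [h] at hj; simp at hj
  have hJ : ((e ⟨j, hjL⟩ : Matrix.SpecialLinearGroup (Fin 2) F) : Matrix (Fin 2) (Fin 2) F) = -1 := by
    apply sl2_sq_one h2
    · rw [← map_mul]
      have : (⟨j, hjL⟩ : L) * ⟨j, hjL⟩ = 1 := Subtype.ext hjj
      rw [this, map_one]
    · intro h
      apply hj1
      have : (⟨j, hjL⟩ : L) = 1 := by
        apply e.injective; rw [h, map_one]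
      exact congrArg Subtype.val this
  have key : ∀ a : L, ((e (a * a) : Matrix.SpecialLinearGroup (Fin 2) F) : Matrix (Fin 2) (Fin 2) F) = -1 →
      (a : G) * a = j := by
    intro a ha
    have : e (a * a) = e ⟨j, hjL⟩ := Subtype.ext (ha.trans hJ.symm)
    have := e.injective this
    exact congrArg Subtype.val this
  have key' : ∀ a : L, (a : G) * a = j →
      ((e a * e a : Matrix.SpecialLinearGroup (Fin 2) F) : Matrix (Fin 2) (Fin 2) F) = -1 := by
    intro a ha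
    rw [← map_mul]
    have : a * a = ⟨j, hjL⟩ := Subtype.ext ha
    rw [this, hJ]
  refine ⟨?_, ?_, ?_⟩
  · intro a ha haa
    by_cases ha1 : a = 1
    · exact Or.inl ha1
    · right
      have h1 : ((e ⟨a, ha⟩ : Matrix.SpecialLinearGroup (Fin 2) F) : Matrix (Fin 2) (Fin 2) F) = -1 := by
        apply sl2_sq_one h2
        · rw [← map_mul]
          have : (⟨a, ha⟩ : L) * ⟨a, ha⟩ = 1 := Subtype.ext haa
          rw [this, map_one]
        · intro h
          apply ha1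
          have : (⟨a, ha⟩ : L) = 1 := by
            apply e.injective; rw [h, map_one]
          exact congrArg Subtype.val this
      have : e ⟨a, ha⟩ = e ⟨j, hjL⟩ := Subtype.ext (h1.trans hJ.symm)
      have := e.injective this
      exact congrArg Subtype.val this
  · refine ⟨(e.symm (wSL F) : G), (e.symm (wSL F)).2, ?_⟩
    apply key
    rw [map_mul, e.apply_symm_apply]
    exact wSL_sq
  · intro a ha a' ha' haa haa'
    have c := sl2_conj_of_sq hF (e ⟨a, ha⟩) (e ⟨a', ha'⟩) (key' ⟨a, ha⟩ haa) (key' ⟨a', ha'⟩ haa')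
    obtain ⟨g, hg⟩ := isConj_iff.mp c
    refine ⟨(e.symm g : G), (e.symm g).2, ?_⟩
    have h1 : e.symm g * ⟨a, ha⟩ * (e.symm g)⁻¹ = ⟨a', ha'⟩ := by
      apply e.injective
      rw [map_mul, map_mul, map_inv, e.apply_symm_apply]
      exact hg
    exact congrArg Subtype.val h1

/-- Let L₁ ≅ SL₂(q₁) and L₂ ≅ SL₂(q₂), q₁ and q₂ odd, be elementwise-commuting subgroups of a finite group meeting in ⟨j⟩ for an involution j. Then L₁L₂ has exactly two conjugacy classes of involutions: the central involution j, and one further class (there is an involution x ≠ j in L₁L₂, and every involution of L₁L₂ other than j is conjugate to x by an element of L₁L₂). -/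
theorem result {G : Type*} [Group G] [Finite G]
    {F₁ : Type*} [Field F₁] [Fintype F₁] {F₂ : Type*} [Field F₂] [Fintype F₂]
    (hF₁ : Odd (Fintype.card F₁)) (hF₂ : Odd (Fintype.card F₂)) (L₁ L₂ : Subgroup G)
    (e₁ : ↥L₁ ≃* Matrix.SpecialLinearGroup (Fin 2) F₁) (e₂ : ↥L₂ ≃* Matrix.SpecialLinearGroup (Fin 2) F₂)
    (hc : ∀ x ∈ L₁, ∀ y ∈ L₂, x * y = y * x) (j : G) (hj : orderOf j = 2) (hm : L₁ ⊓ L₂ = Subgroup.zpowers j) :
    ∃ x ∈ L₁ ⊔ L₂, orderOf x = 2 ∧ x ≠ j ∧
      ∀ y ∈ L₁ ⊔ L₂, orderOf y = 2 → y = j ∨ ∃ g ∈ L₁ ⊔ L₂, g * x * g⁻¹ = y := by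
  have hjm : j ∈ L₁ ⊓ L₂ := by rw [hm]; exact Subgroup.mem_zpowers j
  have hjj : j * j = 1 := by rw [← pow_two, ← hj, pow_orderOf_eq_one]
  have hj1 : j ≠ 1 := by
    intro h; rw [h] at hj; simp at hj
  have hjinv : j⁻¹ = j := inv_eq_of_mul_eq_one_left hjj
  obtain ⟨u1, ⟨a₀, ha₀, ha₀j⟩, c1⟩ := sl2_subgroup_facts hF₁ L₁ e₁ j hjm.1 hj
  obtain ⟨u2, ⟨b₀, hb₀, hb₀j⟩, c2⟩ := sl2_subgroup_facts hF₂ L₂ e₂ j hjm.2 hj
  -- elements of the intersection
  have hint : ∀ z, z ∈ L₁ → z ∈ L₂ → z = 1 ∨ z = j := by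
    intro z h1 h2
    have : z ∈ Subgroup.zpowers j := by rw [← hm]; exact ⟨h1, h2⟩
    obtain ⟨k, hk⟩ := Subgroup.mem_zpowers_iff.mp this
    rcases Int.even_or_odd k with ⟨m, hm'⟩ | ⟨m, hm'⟩
    · left
      rw [← hk, hm', ← two_mul, zpow_mul, zpow_ofNat, pow_two, hjj, one_zpow]
    · right
      rw [← hk, hm', zpow_add, zpow_mul, zpow_ofNat, pow_two, hjj, one_zpow, one_mul, zpow_one]
  have hsq : ∀ z, z ∈ L₁ → z ∈ L₂ → z * z = 1 := by
    intro z h1 h2
    rcases hint z h1 h2 with h | h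
    · rw [h, one_mul]
    · rw [h, hjj]
  have hx2 : (a₀ * b₀) * (a₀ * b₀) = 1 := by
    calc (a₀ * b₀) * (a₀ * b₀) = a₀ * (b₀ * a₀) * b₀ := by simp only [mul_assoc]
      _ = a₀ * (a₀ * b₀) * b₀ := by rw [hc a₀ ha₀ b₀ hb₀]
      _ = (a₀ * a₀) * (b₀ * b₀) := by simp only [mul_assoc]
      _ = 1 := by rw [ha₀j, hb₀j, hjj]
  have ha₀L₂ : a₀ ∉ L₂ := by
    intro h
    have := hsq a₀ ha₀ h
    rw [ha₀j] at this
    exact hj1 this
  have hx1 : a₀ * b₀ ≠ 1 := by
    intro h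
    apply ha₀L₂
    have : a₀ = b₀⁻¹ := eq_inv_of_mul_eq_one_left h
    rw [this]; exact L₂.inv_mem hb₀
  have hxj : a₀ * b₀ ≠ j := by
    intro h
    apply ha₀L₂
    have : a₀ = j * b₀⁻¹ := by rw [← h]; simp
    rw [this]; exact L₂.mul_mem hjm.2 (L₂.inv_mem hb₀)
  refine ⟨a₀ * b₀, Subgroup.mul_mem _ (Subgroup.mem_sup_left ha₀) (Subgroup.mem_sup_right hb₀), ?_,
    hxj, ?_⟩
  · exact orderOf_eq_prime (by rw [pow_two]; exact hx2) hx1
  · intro y hy hyo
    obtain ⟨a, ha, b, hb, rfl⟩ := Cfsg.Agent.Lib.helper7.mem_sup_of_comm hc hy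
    have hyy : (a * b) * (a * b) = 1 := by rw [← pow_two, ← hyo, pow_orderOf_eq_one]
    have hy1 : a * b ≠ 1 := by
      intro h; rw [h] at hyo; simp at hyo
    have hab : (a * a) * (b * b) = 1 := by
      calc (a * a) * (b * b) = a * (a * b) * b := by simp only [mul_assoc]
        _ = a * (b * a) * b := by rw [hc a ha b hb]
        _ = (a * b) * (a * b) := by simp only [mul_assoc]
        _ = 1 := hyy
    have haaL₂ : a * a ∈ L₂ := by
      have : a * a = (b * b)⁻¹ := eq_inv_of_mul_eq_one_left hab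
      rw [this]; exact L₂.inv_mem (L₂.mul_mem hb hb)
    rcases hint (a * a) (L₁.mul_mem ha ha) haaL₂ with haa | haa
    · left
      have hbb : b * b = 1 := by rw [haa, one_mul] at hab; exact hab
      rcases u1 a ha haa with h | h <;> rcases u2 b hb hbb with h' | h'
      · exact absurd (by rw [h, h', one_mul]) hy1
      · rw [h, h', one_mul]
      · rw [h, h', mul_one]
      · exact absurd (by rw [h, h', hjj]) hy1
    · right
      have hbb : b * b = j := by
        rw [haa] at hab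
        calc b * b = (j * j) * (b * b) := by rw [hjj, one_mul]
          _ = j * (j * (b * b)) := by rw [mul_assoc]
          _ = j := by rw [hab, mul_one]
      obtain ⟨g₁, hg₁, hg₁a⟩ := c1 a₀ ha₀ a ha ha₀j haa
      obtain ⟨g₂, hg₂, hg₂b⟩ := c2 b₀ hb₀ b hb hb₀j hbb
      refine ⟨g₁ * g₂, Subgroup.mul_mem _ (Subgroup.mem_sup_left hg₁) (Subgroup.mem_sup_right hg₂), ?_⟩
      rw [← hg₁a, ← hg₂b]
      have e1 : g₂ * a₀ = a₀ * g₂ := (hc a₀ ha₀ g₂ hg₂).symm
      have e2 : g₁⁻¹ * (g₂ * b₀ * g₂⁻¹) = (g₂ * b₀ * g₂⁻¹) * g₁⁻¹ :=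
        hc g₁⁻¹ (L₁.inv_mem hg₁) _ (L₂.mul_mem (L₂.mul_mem hg₂ hb₀) (L₂.inv_mem hg₂))
      calc g₁ * g₂ * (a₀ * b₀) * (g₁ * g₂)⁻¹
          = g₁ * (g₂ * a₀) * b₀ * g₂⁻¹ * g₁⁻¹ := by simp only [mul_assoc, mul_inv_rev]
        _ = g₁ * (a₀ * g₂) * b₀ * g₂⁻¹ * g₁⁻¹ := by rw [e1]
        _ = g₁ * a₀ * ((g₂ * b₀ * g₂⁻¹) * g₁⁻¹) := by simp only [mul_assoc]
        _ = g₁ * a₀ * (g₁⁻¹ * (g₂ * b₀ * g₂⁻¹)) := by rw [e2]
        _ = g₁ * a₀ * g₁⁻¹ * (g₂ * b₀ * g₂⁻¹) := by simp only [mul_assoc]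

end Cfsg.Agent.S3209
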