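import Cfsg.Statements.S3210
import Mathlib
import Cfsg.Agent.Lib.helper12.SL2Cent

set_option autoImplicit false
open Cfsg

namespace Cfsg.Agent.S3210

open Matrix Matrix.SpecialLinearGroup
open scoped MatrixGroups commutatorElement LinearAlgebra.Projectivization

section SL2facts

variable {F : Type*} [Field F]

theorem transvection_pow' {i j : Fin 2} (hij : i ≠ j) (b : F) (k : ℕ) :
    (SpecialLinearGroup.transvection hij b : SL(2,F)) ^ k =
      SpecialLinearGroup.transvection hij (k • b) := by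
  induction k with
  | zero => simp [transvection_coeff_zero]
  | succ k ih => rw [pow_succ, ih, ← transvection_add, succ_nsmul]

/-- central elements are `1` or have matrix `-1` -/
theorem sl2_center_cases (z : SL(2,F)) (hz : z ∈ Subgroup.center SL(2,F)) :
    z = 1 ∨ (z : Matrix (Fin 2) (Fin 2) F) = -1 := by
  rw [Matrix.SpecialLinearGroup.mem_center_iff] at hz
  obtain ⟨r, hr, hrz⟩ := hz
  have hr2 : r ^ 2 = 1 := by simpa using hr
  have h3 : (r - 1) * (r + 1) = 0 := by ring_nf; rw [hr2]; ring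
  rcases mul_eq_zero.mp h3 with h | h
  · left
    apply Subtype.ext
    rw [← hrz, sub_eq_zero.mp h]; simp
  · right
    rw [← hrz, eq_neg_of_add_eq_zero_left h]
    ext i k; by_cases hik : i = k <;> simp [hik, Matrix.diagonal_apply]

theorem sl2_neg_one_mem_center (z : SL(2,F)) (hz : (z : Matrix (Fin 2) (Fin 2) F) = -1) :
    z ∈ Subgroup.center SL(2,F) := by
  rw [Matrix.SpecialLinearGroup.mem_center_iff]
  refine ⟨-1, by simp, ?_⟩
  rw [hz]
  ext i k; by_cases hik : i = k <;> simp [hik, Matrix.diagonal_apply]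

/-- the involution of SL₂ in odd characteristic -/
theorem sl2_invol (h2 : (2 : F) ≠ 0) (j : SL(2,F)) (hj : orderOf j = 2) :
    (j : Matrix (Fin 2) (Fin 2) F) = -1 := by
  have hjj : j * j = 1 := by
    have := pow_orderOf_eq_one j
    rwa [hj, pow_two] at this
  have hj1 : j ≠ 1 := by
    intro h; rw [h, orderOf_one] at hj; omega
  have hA : (j : Matrix (Fin 2) (Fin 2) F) * (j : Matrix (Fin 2) (Fin 2) F) = 1 := by
    have := congrArg Subtype.val hjj
    simpa using this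
  have hdet : (j : Matrix (Fin 2) (Fin 2) F) 0 0 * (j : Matrix (Fin 2) (Fin 2) F) 1 1 -
      (j : Matrix (Fin 2) (Fin 2) F) 0 1 * (j : Matrix (Fin 2) (Fin 2) F) 1 0 = 1 := by
    rw [← Matrix.det_fin_two]; exact j.2
  obtain ⟨A, hAdef⟩ : ∃ A : Matrix (Fin 2) (Fin 2) F, A = (j : Matrix (Fin 2) (Fin 2) F) := ⟨_, rfl⟩
  rw [← hAdef] at hA hdet ⊢
  have h00 := congrFun (congrFun hA 0) 0
  have h01 := congrFun (congrFun hA 0) 1
  have h10 := congrFun (congrFun hA 1) 0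
  have h11 := congrFun (congrFun hA 1) 1
  simp only [Matrix.mul_apply, Fin.sum_univ_two, Matrix.one_apply_eq, Matrix.one_apply_ne,
    ne_eq, zero_ne_one, one_ne_zero, not_false_eq_true] at h00 h01 h10 h11
  by_cases hs : A 0 0 + A 1 1 = 0
  · exfalso
    have hd : A 1 1 = -A 0 0 := eq_neg_of_add_eq_zero_right hs
    rw [hd] at hdet
    have : (2 : F) = 0 := by linear_combination -h00 - hdet
    exact h2 this
  · have hb : A 0 1 = 0 := by
      have : A 0 1 * (A 0 0 + A 1 1) = 0 := by linear_combination h01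
      rcases mul_eq_zero.mp this with h | h
      · exact h
      · exact absurd h hs
    have hc : A 1 0 = 0 := by
      have : A 1 0 * (A 0 0 + A 1 1) = 0 := by linear_combination h10
      rcases mul_eq_zero.mp this with h | h
      · exact h
      · exact absurd h hs
    rw [hb, hc] at h00 h11 hdet
    have had : A 0 0 = A 1 1 := by linear_combination (-A 0 0) * h11 + (A 1 1) * hdet
    have ha : (A 0 0 - 1) * (A 0 0 + 1) = 0 := by linear_combination h00
    rcases mul_eq_zero.mp ha with h | h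
    · exfalso
      apply hj1
      apply Subtype.ext
      rw [← hAdef]
      have ha1 : A 0 0 = 1 := sub_eq_zero.mp h
      ext i k
      fin_cases i <;> fin_cases k <;> simp [hb, hc, ha1, ← had]
    · have ha1 : A 0 0 = -1 := eq_neg_of_add_eq_zero_left h
      ext i k
      fin_cases i <;> fin_cases k <;> simp [hb, hc, ha1, ← had]

theorem sl2_nab : ∃ a b : SL(2,F), ⁅a, b⁆ ∉ Subgroup.center SL(2,F) := by
  refine ⟨SpecialLinearGroup.transvection (zero_ne_one : (0 : Fin 2) ≠ 1) 1,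
    SpecialLinearGroup.transvection (one_ne_zero : (1 : Fin 2) ≠ 0) 1, ?_⟩
  intro hmem
  rw [Matrix.SpecialLinearGroup.mem_center_iff] at hmem
  obtain ⟨r, -, hr⟩ := hmem
  obtain ⟨a, ha⟩ : ∃ a : SL(2,F), a = SpecialLinearGroup.transvection (zero_ne_one : (0 : Fin 2) ≠ 1) 1 := ⟨_, rfl⟩
  obtain ⟨b, hb⟩ : ∃ b : SL(2,F), b = SpecialLinearGroup.transvection (one_ne_zero : (1 : Fin 2) ≠ 0) 1 := ⟨_, rfl⟩
  rw [← ha, ← hb] at hr
  have h1 : ⁅a, b⁆ * (b * a) = a * b := by rw [commutatorElement_def]; group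
  have h2 : (scalar (Fin 2) r) * ((b : Matrix (Fin 2) (Fin 2) F) * (a : Matrix (Fin 2) (Fin 2) F)) =
      (a : Matrix (Fin 2) (Fin 2) F) * (b : Matrix (Fin 2) (Fin 2) F) := by
    rw [hr]
    have := congrArg Subtype.val h1
    simpa using this
  rw [ha, hb] at h2
  have h01 := congrFun (congrFun h2 0) 1
  have h00 := congrFun (congrFun h2 0) 0
  simp [transvection_coe, Matrix.mul_apply, Fin.sum_univ_two, Matrix.one_apply, Matrix.single_apply] at h01 h00
  rw [h01] at h00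
  exact one_ne_zero (show (1 : F) = 0 by linear_combination -h00)

theorem sl2_gen [Fintype F] (hodd : Odd (Fintype.card F)) (H : Subgroup SL(2,F))
    (hH : ∀ x : SL(2,F), Odd (orderOf x) → x ∈ H) : ∀ A : SL(2,F), A ∈ H := by
  intro A
  refine SL2.transvection_induction (fun A => A ∈ H) ?_ (fun A B hA hB => H.mul_mem hA hB) A
  intro i j hij c
  apply hH
  have h1 : (SpecialLinearGroup.transvection hij c : SL(2,F)) ^ (Fintype.card F) = 1 := by
    rw [transvection_pow', nsmul_eq_mul, Nat.cast_card_eq_zero, zero_mul, transvection_coeff_zero]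
  exact Odd.of_dvd_nat hodd (orderOf_dvd_of_pow_eq_one h1)

theorem sl2_normal (N : Subgroup SL(2,F)) [N.Normal] (hN : ¬ N ≤ Subgroup.center SL(2,F)) :
    commutator SL(2,F) ≤ N ⊔ Subgroup.center SL(2,F) := by
  have hπ : Function.Surjective (QuotientGroup.mk' (Subgroup.center SL(2,F))) :=
    QuotientGroup.mk'_surjective _
  haveI : (N.map (QuotientGroup.mk' (Subgroup.center SL(2,F)))).Normal :=
    Subgroup.Normal.map inferInstance _ hπ
  have hne : N.map (QuotientGroup.mk' (Subgroup.center SL(2,F))) ≠ ⊥ := by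
    intro h
    apply hN
    rw [Subgroup.map_eq_bot_iff, QuotientGroup.ker_mk'] at h
    exact h
  have hfix : MulAction.fixedPoints (N.map (QuotientGroup.mk' (Subgroup.center SL(2,F))))
      (ℙ F (Fin 2 → F)) ≠ Set.univ := by
    intro h
    apply hne
    rw [Subgroup.eq_bot_iff_forall]
    intro n hn
    apply (inferInstance : FaithfulSMul PSL(2,F) (ℙ F (Fin 2 → F))).eq_of_smul_eq_smul
    intro x
    rw [one_smul]
    exact Set.eq_univ_iff_forall.mp h x ⟨n, hn⟩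
  have hcomm := MulAction.IwasawaStructure.commutator_le PSL2.Iwasawa
    (N.map (QuotientGroup.mk' (Subgroup.center SL(2,F)))) hfix
  have h1 : (commutator SL(2,F)).map (QuotientGroup.mk' (Subgroup.center SL(2,F))) ≤
      N.map (QuotientGroup.mk' (Subgroup.center SL(2,F))) := by
    refine le_trans ?_ hcomm
    rw [commutator_def, Subgroup.map_commutator, Subgroup.map_top_of_surjective _ hπ, commutator_def]
  have h2 := (Subgroup.map_le_map_iff).mp h1
  rwa [QuotientGroup.ker_mk'] at h2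

end SL2facts

/-- abstract properties of a subgroup `L ≅ SL₂(q)`, `q` odd, with central involution `j` -/
structure GoodSub {G : Type*} [Group G] (L : Subgroup G) (j : G) : Prop where
  cen : ∀ z ∈ L, (∀ x ∈ L, x * z = z * x) → z = 1 ∨ z = j
  nrm : ∀ N : Subgroup G, N ≤ L → (∀ x ∈ L, ∀ n ∈ N, x * n * x⁻¹ ∈ N) → (∃ n ∈ N, n ≠ 1 ∧ n ≠ j) →
    ∀ a ∈ L, ∀ b ∈ L, ∃ n ∈ N, ⁅a, b⁆ = n ∨ ⁅a, b⁆ = n * j
  nab : ∃ a ∈ L, ∃ b ∈ L, ⁅a, b⁆ ≠ 1 ∧ ⁅a, b⁆ ≠ j
  gen : ∀ H : Subgroup G, (∀ x ∈ L, Odd (orderOf x) → x ∈ H) → L ≤ H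

theorem goodSub_of_equiv {G : Type*} [Group G] {F : Type*} [Field F] [Fintype F]
    (hF : Odd (Fintype.card F)) (L : Subgroup G) (e : ↥L ≃* Matrix.SpecialLinearGroup (Fin 2) F)
    (j : G) (hj : orderOf j = 2) (hjL : j ∈ L) : GoodSub L j := by
  classical
  have h2 : (2 : F) ≠ 0 := by
    apply Ring.two_ne_zero
    intro h
    have := FiniteField.even_card_iff_char_two.mp h
    rcases hF with ⟨k, hk⟩
    omega
  have hjj : orderOf (e ⟨j, hjL⟩) = 2 := by
    rw [MulEquiv.orderOf_eq, Subgroup.orderOf_mk, hj]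
  have hjm := sl2_invol h2 _ hjj
  have hcen : ∀ z : ↥L, e z ∈ Subgroup.center SL(2,F) → (z : G) = 1 ∨ (z : G) = j := by
    intro z hz
    rcases sl2_center_cases _ hz with h | h
    · left
      have : z = 1 := by
        apply e.injective; rw [h, map_one]
      rw [this]; rfl
    · right
      have : z = ⟨j, hjL⟩ := by
        apply e.injective; apply Subtype.ext; rw [h, hjm]
      rw [this]
  refine ⟨?_, ?_, ?_, ?_⟩
  · intro z hz hcz
    apply hcen ⟨z, hz⟩
    rw [Subgroup.mem_center_iff]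
    intro g
    have h1 := hcz (e.symm g) (e.symm g).2
    have h3 : e.symm g * ⟨z, hz⟩ = ⟨z, hz⟩ * e.symm g := Subtype.ext h1
    have h4 := congrArg e h3
    rw [map_mul, map_mul, MulEquiv.apply_symm_apply] at h4
    exact h4
  · intro N hNL hNinv ⟨n₀, hn₀, hn₀1, hn₀j⟩ a ha b hb
    haveI hsn : (N.subgroupOf L).Normal := by
      refine ⟨fun n hn g => ?_⟩
      rw [Subgroup.mem_subgroupOf] at hn ⊢
      exact hNinv g g.2 n hn
    haveI hmn : ((N.subgroupOf L).map e.toMonoidHom).Normal :=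
      Subgroup.Normal.map hsn e.toMonoidHom e.surjective
    have hnc : ¬ (N.subgroupOf L).map e.toMonoidHom ≤ Subgroup.center SL(2,F) := by
      intro hle
      have hmem : e ⟨n₀, hNL hn₀⟩ ∈ (N.subgroupOf L).map e.toMonoidHom :=
        ⟨⟨n₀, hNL hn₀⟩, by rw [SetLike.mem_coe, Subgroup.mem_subgroupOf]; exact hn₀, rfl⟩
      rcases hcen _ (hle hmem) with h | h
      · exact hn₀1 h
      · exact hn₀j h
    have hcomm := sl2_normal _ hnc
    have hab : ⁅e ⟨a, ha⟩, e ⟨b, hb⟩⁆ ∈ commutator SL(2,F) := by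
      rw [commutator_def]
      exact Subgroup.commutator_mem_commutator (Subgroup.mem_top _) (Subgroup.mem_top _)
    obtain ⟨y, hy, zc, hzc, hyz⟩ := Subgroup.mem_sup_of_normal_right.mp (hcomm hab)
    obtain ⟨nn, hnn, rfl⟩ := hy
    rw [SetLike.mem_coe, Subgroup.mem_subgroupOf] at hnn
    refine ⟨(nn : G), hnn, ?_⟩
    have hzc' : e (e.symm zc) ∈ Subgroup.center SL(2,F) := by
      rw [MulEquiv.apply_symm_apply]; exact hzc
    have hkey : e (nn * e.symm zc) = e ⁅(⟨a, ha⟩ : ↥L), ⟨b, hb⟩⁆ := by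
      rw [map_mul, MulEquiv.apply_symm_apply, map_commutatorElement]
      exact hyz
    have hkey' : nn * e.symm zc = ⁅(⟨a, ha⟩ : ↥L), ⟨b, hb⟩⁆ := e.injective hkey
    have hkey'' : (nn : G) * ((e.symm zc : ↥L) : G) = ⁅a, b⁆ := by
      have := congrArg Subtype.val hkey'
      simpa [commutatorElement_def] using this
    rcases hcen _ hzc' with h | h
    · left; rw [← hkey'', h, mul_one]
    · right; rw [← hkey'', h]
  · obtain ⟨a, b, hab⟩ := sl2_nab (F := F)
    refine ⟨(e.symm a : ↥L), (e.symm a).2, (e.symm b : ↥L), (e.symm b).2, ?_, ?_⟩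
    · intro h
      apply hab
      have h1 : ⁅e.symm a, e.symm b⁆ = 1 := by
        apply Subtype.ext
        simpa [commutatorElement_def] using h
      have h3 := congrArg e h1
      rw [map_commutatorElement, MulEquiv.apply_symm_apply, MulEquiv.apply_symm_apply, map_one] at h3
      rw [h3]; exact Subgroup.one_mem _
    · intro h
      apply hab
      have h1 : ⁅e.symm a, e.symm b⁆ = ⟨j, hjL⟩ := by
        apply Subtype.ext
        simpa [commutatorElement_def] using h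
      have h3 := congrArg e h1
      rw [map_commutatorElement, MulEquiv.apply_symm_apply, MulEquiv.apply_symm_apply] at h3
      rw [h3]; exact sl2_neg_one_mem_center _ hjm
  · intro H hH x hx
    have hall := sl2_gen hF ((H.subgroupOf L).map e.toMonoidHom) (by
      intro t ht
      refine ⟨e.symm t, ?_, by simp⟩
      rw [SetLike.mem_coe, Subgroup.mem_subgroupOf]
      apply hH _ (e.symm t).2
      rw [Subgroup.orderOf_coe, MulEquiv.orderOf_eq]
      exact ht) (e ⟨x, hx⟩)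
    obtain ⟨y, hy, hye⟩ := hall
    rw [SetLike.mem_coe, Subgroup.mem_subgroupOf] at hy
    have : y = ⟨x, hx⟩ := e.injective hye
    rw [this] at hy
    exact hy

section Grp

variable {G : Type*} [Group G]

theorem zpowers_cases {j : G} (hj : orderOf j = 2) {x : G} (hx : x ∈ Subgroup.zpowers j) :
    x = 1 ∨ x = j := by
  obtain ⟨k, rfl⟩ := Subgroup.mem_zpowers_iff.mp hx
  rw [← zpow_mod_orderOf, hj]
  have h2 : ((2 : ℕ) : ℤ) = 2 := rfl
  rw [h2]
  rcases Int.emod_two_eq_zero_or_one k with h | h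
  · left; rw [h]; exact zpow_zero j
  · right; rw [h]; exact zpow_one j

theorem cent_le {X K K' : Subgroup G} {j : G} (hX : GoodSub X j) (hj : orderOf j = 2)
    (hjK : j ∈ K) (hjc : ∀ x ∈ X, x * j = j * x)
    (hXK' : ∀ x ∈ X, ∀ k ∈ K', x * k * x⁻¹ ∈ K')
    (hK'X : ∀ k ∈ K', ∀ x ∈ X, k * x * k⁻¹ ∈ X)
    (hcomm : ∀ k ∈ K, ∀ k' ∈ K', k * k' = k' * k)
    (hprod : ∀ x ∈ X, ∃ k ∈ K, ∃ k' ∈ K', x = k * k')
    (hcenK' : ∀ z ∈ K', (∀ x ∈ K', x * z = z * x) → z = 1 ∨ z = j)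
    (hB : ∀ b ∈ X, b ∈ K' → b = 1 ∨ b = j) : X ≤ K := by
  have hj2 : j * j = 1 := by have := pow_orderOf_eq_one j; rwa [hj, pow_two] at this
  have hj1 : j ≠ 1 := by intro h; rw [h, orderOf_one] at hj; omega
  have hcent : ∀ k' ∈ K', ∀ x ∈ X, x * k' = k' * x := by
    intro k' hk'
    have hle : X ≤ Subgroup.centralizer ({k'} : Set G) := by
      apply hX.gen
      intro x hx hodd
      rw [Subgroup.mem_centralizer_iff]
      intro h hh
      rw [Set.mem_singleton_iff] at hh; subst hh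
      have hc1 : x * h * x⁻¹ * h⁻¹ ∈ K' := K'.mul_mem (hXK' x hx h hk') (K'.inv_mem hk')
      have hc2 : x * h * x⁻¹ * h⁻¹ ∈ X := by
        have : x * h * x⁻¹ * h⁻¹ = x * (h * x⁻¹ * h⁻¹) := by group
        rw [this]; exact X.mul_mem hx (hK'X h hk' _ (X.inv_mem hx))
      rcases hB _ hc2 hc1 with h1 | h1
      · have : x * h = h * x := by
          calc x * h = (x * h * x⁻¹ * h⁻¹) * (h * x) := by group
            _ = h * x := by rw [h1, one_mul]
        exact this.symm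
      · exfalso
        have h3 : h * x * h⁻¹ = x * j := by
          have e1 : h * x⁻¹ * h⁻¹ = x⁻¹ * j := by
            calc h * x⁻¹ * h⁻¹ = x⁻¹ * (x * h * x⁻¹ * h⁻¹) := by group
              _ = x⁻¹ * j := by rw [h1]
          have e2 : h * x * h⁻¹ = (h * x⁻¹ * h⁻¹)⁻¹ := by group
          rw [e2, e1, _root_.mul_inv_rev, inv_inv, inv_eq_of_mul_eq_one_right hj2]
          exact (hjc x hx).symm
        obtain ⟨m, hm⟩ := hodd
        have h4 : (h * x * h⁻¹) ^ (orderOf x) = 1 := by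
          rw [conj_pow, pow_orderOf_eq_one]; group
        rw [h3, (show Commute x j from hjc x hx).mul_pow, pow_orderOf_eq_one, one_mul, hm,
          pow_succ, pow_mul, pow_two, hj2, one_pow, one_mul] at h4
        exact hj1 h4
    intro x hx
    exact (Subgroup.mem_centralizer_iff.mp (hle hx) k' rfl).symm
  intro x hx
  obtain ⟨k, hk, k', hk', rfl⟩ := hprod x hx
  have hz : k' = 1 ∨ k' = j := by
    apply hcenK' k' hk'
    intro y hy
    have h1 := hcent y hy (k * k') hx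
    have h2 := hcomm k hk y hy
    have h3 : k * (k' * y) = k * (y * k') := by
      calc k * (k' * y) = (k * k') * y := by group
        _ = y * (k * k') := h1
        _ = (y * k) * k' := by group
        _ = (k * y) * k' := by rw [h2]
        _ = k * (y * k') := by group
    exact (mul_left_cancel h3).symm
  rcases hz with h | h
  · rw [h, mul_one]; exact hk
  · rw [h]; exact K.mul_mem hk hjK

theorem dich {X K K' : Subgroup G} {j : G} (hX : GoodSub X j) (hj : orderOf j = 2)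
    (hjK : j ∈ K) (hjK' : j ∈ K') (hjc : ∀ x ∈ X, x * j = j * x)
    (hXK : ∀ x ∈ X, ∀ k ∈ K, x * k * x⁻¹ ∈ K) (hXK' : ∀ x ∈ X, ∀ k ∈ K', x * k * x⁻¹ ∈ K')
    (hKX : ∀ k ∈ K, ∀ x ∈ X, k * x * k⁻¹ ∈ X) (hK'X : ∀ k ∈ K', ∀ x ∈ X, k * x * k⁻¹ ∈ X)
    (hcomm : ∀ k ∈ K, ∀ k' ∈ K', k * k' = k' * k)
    (hint : ∀ x ∈ K, x ∈ K' → x = 1 ∨ x = j)
    (hprod : ∀ x ∈ X, ∃ k ∈ K, ∃ k' ∈ K', x = k * k')
    (hcenK : ∀ z ∈ K, (∀ x ∈ K, x * z = z * x) → z = 1 ∨ z = j)
    (hcenK' : ∀ z ∈ K', (∀ x ∈ K', x * z = z * x) → z = 1 ∨ z = j) : X ≤ K ∨ X ≤ K' := by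
  by_cases hB : ∀ b ∈ X, b ∈ K' → b = 1 ∨ b = j
  · left; exact cent_le hX hj hjK hjc hXK' hK'X hcomm hprod hcenK' hB
  by_cases hA : ∀ a ∈ X, a ∈ K → a = 1 ∨ a = j
  · right
    refine cent_le hX hj hjK' hjc hXK hKX (fun k hk k' hk' => (hcomm k' hk' k hk).symm) ?_ hcenK hA
    intro x hx
    obtain ⟨k, hk, k', hk', rfl⟩ := hprod x hx
    exact ⟨k', hk', k, hk, hcomm k hk k' hk'⟩
  exfalso
  push Not at hA hB
  obtain ⟨a₀, ha₀X, ha₀K, ha₀1, ha₀j⟩ := hA
  obtain ⟨b₀, hb₀X, hb₀K, hb₀1, hb₀j⟩ := hB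
  obtain ⟨a, ha, b, hb, hab1, habj⟩ := hX.nab
  have h1 := hX.nrm (X ⊓ K) inf_le_left
    (fun x hx n hn => ⟨X.mul_mem (X.mul_mem hx hn.1) (X.inv_mem hx), hXK x hx n hn.2⟩)
    ⟨a₀, ⟨ha₀X, ha₀K⟩, ha₀1, ha₀j⟩ a ha b hb
  have h2 := hX.nrm (X ⊓ K') inf_le_left
    (fun x hx n hn => ⟨X.mul_mem (X.mul_mem hx hn.1) (X.inv_mem hx), hXK' x hx n hn.2⟩)
    ⟨b₀, ⟨hb₀X, hb₀K⟩, hb₀1, hb₀j⟩ a ha b hb
  have hcK : ⁅a, b⁆ ∈ K := by
    obtain ⟨n, hn, h | h⟩ := h1
    · rw [h]; exact hn.2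
    · rw [h]; exact K.mul_mem hn.2 hjK
  have hcK' : ⁅a, b⁆ ∈ K' := by
    obtain ⟨n, hn, h | h⟩ := h2
    · rw [h]; exact hn.2
    · rw [h]; exact K'.mul_mem hn.2 hjK'
  rcases hint _ hcK hcK' with h | h
  · exact hab1 h
  · exact habj h

theorem card_inj {a b : ℕ} (ha : 1 ≤ a) (hb : 1 ≤ b) (h : a * (a ^ 2 - 1) = b * (b ^ 2 - 1)) :
    a = b := by
  have key : ∀ a b : ℕ, 1 ≤ a → a < b → a * (a ^ 2 - 1) < b * (b ^ 2 - 1) := by
    intro a b ha hab
    have h1 : a ^ 2 - 1 ≤ b ^ 2 - 1 := Nat.sub_le_sub_right (Nat.pow_le_pow_left hab.le 2) 1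
    have h2 : 0 < b ^ 2 - 1 := by
      have : 2 ^ 2 ≤ b ^ 2 := Nat.pow_le_pow_left (by omega) 2
      omega
    calc a * (a ^ 2 - 1) ≤ a * (b ^ 2 - 1) := Nat.mul_le_mul_left a h1
      _ < b * (b ^ 2 - 1) := Nat.mul_lt_mul_of_pos_right hab h2
  rcases Nat.lt_trichotomy a b with hlt | heq | hgt
  · have := key a b ha hlt; omega
  · exact heq
  · have := key b a hb hgt; omega

end Grp

/-- Let G be a finite group with subgroups L₁ ≅ SL₂(q₁) and L₂ ≅ SL₂(q₂), q₁ and q₂ odd prime powers, which commute elementwise and meet in ⟨j⟩ for an involution j, and suppose L₁L₂ has index 2 in C_G(j). Then every element n of C_G(j) outside L₁L₂ either normalizes both L₁ and L₂, or conjugates L₁ onto L₂; in the second case q₁ = q₂ and there is an element n′ of C_G(j) outside L₁L₂ conjugating L₁ onto L₂ with n′² ∈ ⟨j⟩. -/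
theorem result {G : Type*} [Group G] [Finite G]
    {F₁ : Type*} [Field F₁] [Fintype F₁] {F₂ : Type*} [Field F₂] [Fintype F₂]
    (hF₁ : Odd (Fintype.card F₁)) (hF₂ : Odd (Fintype.card F₂)) (L₁ L₂ : Subgroup G)
    (e₁ : ↥L₁ ≃* Matrix.SpecialLinearGroup (Fin 2) F₁) (e₂ : ↥L₂ ≃* Matrix.SpecialLinearGroup (Fin 2) F₂)
    (hc : ∀ x ∈ L₁, ∀ y ∈ L₂, x * y = y * x) (j : G) (hj : orderOf j = 2) (hm : L₁ ⊓ L₂ = Subgroup.zpowers j)
    (hle : L₁ ⊔ L₂ ≤ Subgroup.centralizer ({j} : Set G)) (hi : (L₁ ⊔ L₂).relIndex (Subgroup.centralizer ({j} : Set G)) = 2) (n : G) (hn : n ∈ Subgroup.centralizer ({j} : Set G)) (hn' : n ∉ L₁ ⊔ L₂) :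
    (L₁.map (MulAut.conj n).toMonoidHom = L₁ ∧ L₂.map (MulAut.conj n).toMonoidHom = L₂) ∨
      (L₁.map (MulAut.conj n).toMonoidHom = L₂ ∧ Fintype.card F₁ = Fintype.card F₂ ∧
        ∃ n' ∈ Subgroup.centralizer ({j} : Set G), n' ∉ L₁ ⊔ L₂ ∧ L₁.map (MulAut.conj n').toMonoidHom = L₂ ∧ n' ^ 2 ∈ Subgroup.zpowers j) := by
  classical
  have hj2 : j * j = 1 := by have := pow_orderOf_eq_one j; rwa [hj, pow_two] at this
  have hj1 : j ≠ 1 := by intro h; rw [h, orderOf_one] at hj; omega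
  have hjL : j ∈ L₁ ⊓ L₂ := by rw [hm]; exact Subgroup.mem_zpowers j
  have hjL₁ : j ∈ L₁ := hjL.1
  have hjL₂ : j ∈ L₂ := hjL.2
  have hint : ∀ x ∈ L₁, x ∈ L₂ → x = 1 ∨ x = j := by
    intro x h1 h2
    have : x ∈ L₁ ⊓ L₂ := ⟨h1, h2⟩
    rw [hm] at this
    exact zpowers_cases hj this
  have hG₁ : GoodSub L₁ j := goodSub_of_equiv hF₁ L₁ e₁ j hj hjL₁
  have hG₂ : GoodSub L₂ j := goodSub_of_equiv hF₂ L₂ e₂ j hj hjL₂
  obtain ⟨C, hC⟩ : ∃ C : Subgroup G, C = Subgroup.centralizer ({j} : Set G) := ⟨_, rfl⟩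
  rw [← hC] at hle hi hn
  have hcj : ∀ c ∈ C, c * j = j * c := by
    intro c hc'
    rw [hC] at hc'
    exact (Subgroup.mem_centralizer_iff.mp hc' j rfl).symm
  have hconj_j : ∀ c ∈ C, c * j * c⁻¹ = j := by
    intro c hc'; rw [hcj c hc', mul_inv_cancel_right]
  have hMprod : ∀ x ∈ L₁ ⊔ L₂, ∃ a ∈ L₁, ∃ b ∈ L₂, x = a * b := by
    let D : Subgroup G :=
      { carrier := {x | ∃ a ∈ L₁, ∃ b ∈ L₂, x = a * b}
        one_mem' := ⟨1, L₁.one_mem, 1, L₂.one_mem, (one_mul 1).symm⟩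
        mul_mem' := by
          rintro _ _ ⟨a, ha, b, hb, rfl⟩ ⟨a', ha', b', hb', rfl⟩
          refine ⟨a * a', L₁.mul_mem ha ha', b * b', L₂.mul_mem hb hb', ?_⟩
          have := hc a' ha' b hb
          calc a * b * (a' * b') = a * (b * a') * b' := by group
            _ = a * (a' * b) * b' := by rw [this]
            _ = a * a' * (b * b') := by group
        inv_mem' := by
          rintro _ ⟨a, ha, b, hb, rfl⟩
          refine ⟨a⁻¹, L₁.inv_mem ha, b⁻¹, L₂.inv_mem hb, ?_⟩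
          have := hc a⁻¹ (L₁.inv_mem ha) b⁻¹ (L₂.inv_mem hb)
          rw [_root_.mul_inv_rev, this] }
    have h1 : L₁ ≤ D := fun a ha => ⟨a, ha, 1, L₂.one_mem, (mul_one a).symm⟩
    have h2 : L₂ ≤ D := fun b hb => ⟨1, L₁.one_mem, b, hb, (one_mul b).symm⟩
    intro x hx
    exact (sup_le h1 h2) hx
  have hML₁ : ∀ m ∈ L₁ ⊔ L₂, ∀ l ∈ L₁, m * l * m⁻¹ ∈ L₁ := by
    intro m hm' l hl
    obtain ⟨a, ha, b, hb, rfl⟩ := hMprod m hm'
    have h1 := hc l hl b hb
    have : a * b * l * (a * b)⁻¹ = a * l * a⁻¹ := by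
      calc a * b * l * (a * b)⁻¹ = a * (b * l) * b⁻¹ * a⁻¹ := by group
        _ = a * (l * b) * b⁻¹ * a⁻¹ := by rw [h1]
        _ = a * l * a⁻¹ := by group
    rw [this]; exact L₁.mul_mem (L₁.mul_mem ha hl) (L₁.inv_mem ha)
  have hML₂ : ∀ m ∈ L₁ ⊔ L₂, ∀ l ∈ L₂, m * l * m⁻¹ ∈ L₂ := by
    intro m hm' l hl
    obtain ⟨a, ha, b, hb, rfl⟩ := hMprod m hm'
    have hbl : b * l * b⁻¹ ∈ L₂ := L₂.mul_mem (L₂.mul_mem hb hl) (L₂.inv_mem hb)
    have h2 := hc a ha (b * l * b⁻¹) hbl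
    have : a * b * l * (a * b)⁻¹ = b * l * b⁻¹ := by
      calc a * b * l * (a * b)⁻¹ = a * (b * l * b⁻¹) * a⁻¹ := by group
        _ = (b * l * b⁻¹) * a * a⁻¹ := by rw [h2]
        _ = b * l * b⁻¹ := by group
    rw [this]; exact hbl
  haveI hMn : ((L₁ ⊔ L₂).subgroupOf C).Normal := Subgroup.normal_of_index_eq_two hi
  have hCM : ∀ c ∈ C, ∀ m ∈ L₁ ⊔ L₂, c * m * c⁻¹ ∈ L₁ ⊔ L₂ := by
    intro c hc' m hm'
    have := hMn.conj_mem ⟨m, hle hm'⟩ (by rw [Subgroup.mem_subgroupOf]; exact hm') ⟨c, hc'⟩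
    rw [Subgroup.mem_subgroupOf] at this
    exact this
  have hninv : n⁻¹ ∈ C := C.inv_mem hn
  obtain ⟨K, hKdef⟩ : ∃ K : Subgroup G, K = L₁.map (MulAut.conj n).toMonoidHom := ⟨_, rfl⟩
  obtain ⟨K', hKdef'⟩ : ∃ K' : Subgroup G, K' = L₂.map (MulAut.conj n).toMonoidHom := ⟨_, rfl⟩
  rw [← hKdef, ← hKdef']
  have hKmem : ∀ x, x ∈ K ↔ ∃ l ∈ L₁, x = n * l * n⁻¹ := by
    intro x
    rw [hKdef]
    constructor
    · rintro ⟨l, hl, rfl⟩; exact ⟨l, hl, rfl⟩
    · rintro ⟨l, hl, rfl⟩; exact ⟨l, hl, rfl⟩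
  have hK'mem : ∀ x, x ∈ K' ↔ ∃ l ∈ L₂, x = n * l * n⁻¹ := by
    intro x
    rw [hKdef']
    constructor
    · rintro ⟨l, hl, rfl⟩; exact ⟨l, hl, rfl⟩
    · rintro ⟨l, hl, rfl⟩; exact ⟨l, hl, rfl⟩
  have hKM : K ≤ L₁ ⊔ L₂ := by
    intro x hx
    obtain ⟨l, hl, rfl⟩ := (hKmem x).mp hx
    exact hCM n hn l (Subgroup.mem_sup_left hl)
  have hK'M : K' ≤ L₁ ⊔ L₂ := by
    intro x hx
    obtain ⟨l, hl, rfl⟩ := (hK'mem x).mp hx
    exact hCM n hn l (Subgroup.mem_sup_right hl)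
  have hjK : j ∈ K := (hKmem j).mpr ⟨j, hjL₁, (hconj_j n hn).symm⟩
  have hjK' : j ∈ K' := (hK'mem j).mpr ⟨j, hjL₂, (hconj_j n hn).symm⟩
  have hnM : ∀ m ∈ L₁ ⊔ L₂, n⁻¹ * m * n ∈ L₁ ⊔ L₂ := by
    intro m hm'
    have := hCM n⁻¹ hninv m hm'
    rwa [inv_inv] at this
  have hMK : ∀ m ∈ L₁ ⊔ L₂, ∀ k ∈ K, m * k * m⁻¹ ∈ K := by
    intro m hm' k hk
    obtain ⟨l, hl, rfl⟩ := (hKmem k).mp hk
    rw [hKmem]
    exact ⟨(n⁻¹ * m * n) * l * (n⁻¹ * m * n)⁻¹, hML₁ _ (hnM m hm') l hl, by group⟩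
  have hMK' : ∀ m ∈ L₁ ⊔ L₂, ∀ k ∈ K', m * k * m⁻¹ ∈ K' := by
    intro m hm' k hk
    obtain ⟨l, hl, rfl⟩ := (hK'mem k).mp hk
    rw [hK'mem]
    exact ⟨(n⁻¹ * m * n) * l * (n⁻¹ * m * n)⁻¹, hML₂ _ (hnM m hm') l hl, by group⟩
  have hcommK : ∀ k ∈ K, ∀ k' ∈ K', k * k' = k' * k := by
    intro k hk k' hk'
    obtain ⟨l, hl, rfl⟩ := (hKmem k).mp hk
    obtain ⟨l', hl', rfl⟩ := (hK'mem k').mp hk'
    have := hc l hl l' hl'
    calc n * l * n⁻¹ * (n * l' * n⁻¹) = n * (l * l') * n⁻¹ := by group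
      _ = n * (l' * l) * n⁻¹ := by rw [this]
      _ = n * l' * n⁻¹ * (n * l * n⁻¹) := by group
  have hintK : ∀ x ∈ K, x ∈ K' → x = 1 ∨ x = j := by
    intro x hx hx'
    obtain ⟨l, hl, rfl⟩ := (hKmem x).mp hx
    obtain ⟨l', hl', h⟩ := (hK'mem _).mp hx'
    have hll : l = l' := by
      have : n⁻¹ * (n * l * n⁻¹) * n = n⁻¹ * (n * l' * n⁻¹) * n := by rw [h]
      calc l = n⁻¹ * (n * l * n⁻¹) * n := by group
        _ = n⁻¹ * (n * l' * n⁻¹) * n := this
        _ = l' := by group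
    rcases hint l hl (hll ▸ hl') with h1 | h1
    · left; rw [h1]; group
    · right; rw [h1]; exact hconj_j n hn
  have hprodK : ∀ m ∈ L₁ ⊔ L₂, ∃ k ∈ K, ∃ k' ∈ K', m = k * k' := by
    intro m hm'
    obtain ⟨a, ha, b, hb, hab⟩ := hMprod _ (hnM m hm')
    refine ⟨n * a * n⁻¹, (hKmem _).mpr ⟨a, ha, rfl⟩, n * b * n⁻¹, (hK'mem _).mpr ⟨b, hb, rfl⟩, ?_⟩
    calc m = n * (n⁻¹ * m * n) * n⁻¹ := by group
      _ = n * (a * b) * n⁻¹ := by rw [hab]
      _ = n * a * n⁻¹ * (n * b * n⁻¹) := by group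
  have hcenK : ∀ z ∈ K, (∀ x ∈ K, x * z = z * x) → z = 1 ∨ z = j := by
    intro z hz hzc
    obtain ⟨l, hl, rfl⟩ := (hKmem z).mp hz
    have : l = 1 ∨ l = j := by
      apply hG₁.cen l hl
      intro x hx
      have h1 := hzc (n * x * n⁻¹) ((hKmem _).mpr ⟨x, hx, rfl⟩)
      have h2 : n * (x * l) * n⁻¹ = n * (l * x) * n⁻¹ := by
        calc n * (x * l) * n⁻¹ = n * x * n⁻¹ * (n * l * n⁻¹) := by group
          _ = n * l * n⁻¹ * (n * x * n⁻¹) := h1
          _ = n * (l * x) * n⁻¹ := by group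
      exact mul_left_cancel (mul_right_cancel h2)
    rcases this with h1 | h1
    · left; rw [h1]; group
    · right; rw [h1]; exact hconj_j n hn
  have hcenK' : ∀ z ∈ K', (∀ x ∈ K', x * z = z * x) → z = 1 ∨ z = j := by
    intro z hz hzc
    obtain ⟨l, hl, rfl⟩ := (hK'mem z).mp hz
    have : l = 1 ∨ l = j := by
      apply hG₂.cen l hl
      intro x hx
      have h1 := hzc (n * x * n⁻¹) ((hK'mem _).mpr ⟨x, hx, rfl⟩)
      have h2 : n * (x * l) * n⁻¹ = n * (l * x) * n⁻¹ := by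
        calc n * (x * l) * n⁻¹ = n * x * n⁻¹ * (n * l * n⁻¹) := by group
          _ = n * l * n⁻¹ * (n * x * n⁻¹) := h1
          _ = n * (l * x) * n⁻¹ := by group
      exact mul_left_cancel (mul_right_cancel h2)
    rcases this with h1 | h1
    · left; rw [h1]; group
    · right; rw [h1]; exact hconj_j n hn
  have hcardK : Nat.card K = Nat.card L₁ := by
    rw [hKdef]; exact Subgroup.card_map_of_injective (MulAut.conj n).injective
  have hcardK' : Nat.card K' = Nat.card L₂ := by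
    rw [hKdef']; exact Subgroup.card_map_of_injective (MulAut.conj n).injective
  have hjM : ∀ m ∈ L₁ ⊔ L₂, m * j = j * m := fun m hm' => hcj m (hle hm')
  have d1 : L₁ ≤ K ∨ L₁ ≤ K' := dich hG₁ hj hjK hjK'
    (fun x hx => hjM x (Subgroup.mem_sup_left hx))
    (fun x hx k hk => hMK x (Subgroup.mem_sup_left hx) k hk)
    (fun x hx k hk => hMK' x (Subgroup.mem_sup_left hx) k hk)
    (fun k hk x hx => hML₁ k (hKM hk) x hx) (fun k hk x hx => hML₁ k (hK'M hk) x hx)
    hcommK hintK (fun x hx => hprodK x (Subgroup.mem_sup_left hx)) hcenK hcenK'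
  have d2 : L₂ ≤ K ∨ L₂ ≤ K' := dich hG₂ hj hjK hjK'
    (fun x hx => hjM x (Subgroup.mem_sup_right hx))
    (fun x hx k hk => hMK x (Subgroup.mem_sup_right hx) k hk)
    (fun x hx k hk => hMK' x (Subgroup.mem_sup_right hx) k hk)
    (fun k hk x hx => hML₂ k (hKM hk) x hx) (fun k hk x hx => hML₂ k (hK'M hk) x hx)
    hcommK hintK (fun x hx => hprodK x (Subgroup.mem_sup_right hx)) hcenK hcenK'
  rcases d1 with h1 | h1
  · left
    have hK1 : L₁ = K := Subgroup.eq_of_le_of_card_ge h1 (le_of_eq hcardK)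
    have hK'L₂ : K' ≤ L₂ := by
      intro k' hk'
      obtain ⟨a, ha, b, hb, rfl⟩ := hMprod k' (hK'M hk')
      have ha' : a = 1 ∨ a = j := by
        apply hG₁.cen a ha
        intro x hx
        have h2 := hcommK x (h1 hx) (a * b) hk'
        have h3 := hc x hx b hb
        have h4 : (x * a) * b = (a * x) * b := by
          calc (x * a) * b = x * (a * b) := by group
            _ = (a * b) * x := h2
            _ = a * (b * x) := by group
            _ = a * (x * b) := by rw [h3]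
            _ = (a * x) * b := by group
        exact mul_right_cancel h4
      rcases ha' with h | h
      · rw [h, one_mul]; exact hb
      · rw [h]; exact L₂.mul_mem hjL₂ hb
    have hK2 : K' = L₂ := Subgroup.eq_of_le_of_card_ge hK'L₂ (le_of_eq hcardK'.symm)
    exact ⟨hK1.symm, hK2⟩
  · rcases d2 with h2 | h2
    · right
      have c1 : Nat.card L₁ ≤ Nat.card L₂ := by
        calc Nat.card L₁ ≤ Nat.card K' := Subgroup.card_le_of_le h1
          _ = Nat.card L₂ := hcardK'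
      have c2 : Nat.card L₂ ≤ Nat.card L₁ := by
        calc Nat.card L₂ ≤ Nat.card K := Subgroup.card_le_of_le h2
          _ = Nat.card L₁ := hcardK
      have hK2 : L₂ = K := Subgroup.eq_of_le_of_card_ge h2 (by rw [hcardK]; exact c1)
      have hK1 : L₁ = K' := Subgroup.eq_of_le_of_card_ge h1 (by rw [hcardK']; exact c2)
      have hcard : Nat.card L₁ = Nat.card L₂ := le_antisymm c1 c2
      refine ⟨hK2.symm, ?_, ?_⟩
      · have e1 := Nat.card_congr e₁.toEquiv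
        have e2 := Nat.card_congr e₂.toEquiv
        rw [Cfsg.Agent.Lib.helper12.card_SL2] at e1 e2
        have : Fintype.card F₁ * (Fintype.card F₁ ^ 2 - 1) =
            Fintype.card F₂ * (Fintype.card F₂ ^ 2 - 1) := by rw [← e1, ← e2, hcard]
        exact card_inj Fintype.card_pos Fintype.card_pos this
      · have hnn : n * n ∈ L₁ ⊔ L₂ := by
          have := Subgroup.mul_self_mem_of_index_two hi (⟨n, hn⟩ : C)
          rw [Subgroup.mem_subgroupOf] at this
          exact this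
        obtain ⟨a, ha, b, hb, hab⟩ := hMprod _ hnn
        have hnL₁ : ∀ l ∈ L₁, n * l * n⁻¹ ∈ L₂ := by
          intro l hl; rw [hK2]; exact (hKmem _).mpr ⟨l, hl, rfl⟩
        have hnL₂ : ∀ l ∈ L₂, n * l * n⁻¹ ∈ L₁ := by
          intro l hl; rw [hK1]; exact (hK'mem _).mpr ⟨l, hl, rfl⟩
        refine ⟨n * a⁻¹, ?_, ?_, ?_, ?_⟩
        · rw [← hC]; exact C.mul_mem hn (C.inv_mem (hle (Subgroup.mem_sup_left ha)))
        · intro hmem
          apply hn'
          have : n = (n * a⁻¹) * a := by group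
          rw [this]; exact (L₁ ⊔ L₂).mul_mem hmem (Subgroup.mem_sup_left ha)
        · have hle' : L₁.map (MulAut.conj (n * a⁻¹)).toMonoidHom ≤ L₂ := by
            rintro _ ⟨l, hl, rfl⟩
            have : (MulAut.conj (n * a⁻¹)).toMonoidHom l = n * (a⁻¹ * l * a) * n⁻¹ := by
              show n * a⁻¹ * l * (n * a⁻¹)⁻¹ = _
              group
            rw [this]
            exact hnL₁ _ (L₁.mul_mem (L₁.mul_mem (L₁.inv_mem ha) hl) ha)
          exact Subgroup.eq_of_le_of_card_ge hle' (by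
            rw [Subgroup.card_map_of_injective (MulAut.conj (n * a⁻¹)).injective]; exact c2)
        · rw [← hm, pow_two]
          obtain ⟨w, hw⟩ : ∃ w : G, w = n * a⁻¹ * (n * a⁻¹) := ⟨_, rfl⟩
          rw [← hw]
          have hw2 : w ∈ L₂ := by
            have hba : b * a⁻¹ = a⁻¹ * b := (hc a⁻¹ (L₁.inv_mem ha) b hb).symm
            have : w = (n * a⁻¹ * n⁻¹) * b := by
              calc w = (n * a⁻¹ * n⁻¹) * (n * n) * a⁻¹ := by rw [hw]; group
                _ = (n * a⁻¹ * n⁻¹) * (a * b) * a⁻¹ := by rw [hab]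
                _ = (n * a⁻¹ * n⁻¹) * a * (b * a⁻¹) := by group
                _ = (n * a⁻¹ * n⁻¹) * a * (a⁻¹ * b) := by rw [hba]
                _ = (n * a⁻¹ * n⁻¹) * b := by group
            rw [this]
            exact L₂.mul_mem (hnL₁ _ (L₁.inv_mem ha)) hb
          refine ⟨?_, hw2⟩
          have hwa : a⁻¹ * w * a = w := by
            have := hc a ha w hw2
            calc a⁻¹ * w * a = a⁻¹ * (w * a) := by group
              _ = a⁻¹ * (a * w) := by rw [this]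
              _ = w := by group
          have h5 : w = n * (a⁻¹ * w * a) * n⁻¹ := by
            rw [hw]; group
          rw [h5, hwa]
          exact hnL₂ w hw2
    · exfalso
      have hMK'' : L₁ ⊔ L₂ ≤ K' := sup_le h1 h2
      obtain ⟨a, ha, b, hb, hab1, habj⟩ := hG₁.nab
      have hcab : ⁅a, b⁆ ∈ L₁ := by
        rw [commutatorElement_def]
        exact L₁.mul_mem (L₁.mul_mem (L₁.mul_mem ha hb) (L₁.inv_mem ha)) (L₁.inv_mem hb)
      have h3 : n * ⁅a, b⁆ * n⁻¹ ∈ K := (hKmem _).mpr ⟨_, hcab, rfl⟩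
      have h4 : n * ⁅a, b⁆ * n⁻¹ ∈ K' := hMK'' (hKM h3)
      have h5 : ⁅a, b⁆ = n⁻¹ * (n * ⁅a, b⁆ * n⁻¹) * n := by group
      rcases hintK _ h3 h4 with h | h
      · apply hab1
        rw [h5, h]; group
      · apply habj
        rw [h5, h]
        have := hconj_j n⁻¹ hninv
        rwa [inv_inv] at this

end Cfsg.Agent.S3210
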