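import Cfsg.Statements.S3213
import Mathlib

-- import your own Cfsg.Agent.* helpers here

set_option autoImplicit false
open Cfsg

namespace Cfsg.Agent.S3213

section helpers

set_option linter.unusedSectionVars false

open Matrix

section LA

variable {F : Type*} [Field F] [Fintype F]

/-- the alternating form -/
def fm (v w : Fin 2 ⊕ Fin 2 → F) : F := dotProduct v ((Matrix.J (Fin 2) F).mulVec w)

theorem fm_add_left (a b c : Fin 2 ⊕ Fin 2 → F) : fm (a + b) c = fm a c + fm b c := by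
  unfold fm; rw [add_dotProduct]

theorem fm_sub_left (a b c : Fin 2 ⊕ Fin 2 → F) : fm (a - b) c = fm a c - fm b c := by
  unfold fm; rw [sub_dotProduct]

theorem fm_smul_left (k : F) (a c : Fin 2 ⊕ Fin 2 → F) : fm (k • a) c = k * fm a c := by
  unfold fm; rw [smul_dotProduct, smul_eq_mul]

theorem fm_add_right (a b c : Fin 2 ⊕ Fin 2 → F) : fm a (b + c) = fm a b + fm a c := by
  unfold fm; rw [Matrix.mulVec_add, dotProduct_add]

theorem fm_skew (a b : Fin 2 ⊕ Fin 2 → F) : fm a b = - fm b a := by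
  unfold fm
  rw [Matrix.dotProduct_mulVec b, dotProduct_comm (b ᵥ* J (Fin 2) F), ← Matrix.mulVec_transpose,
    Matrix.J_transpose, Matrix.neg_mulVec, dotProduct_neg, neg_neg]

theorem fm_inv (u : Matrix (Fin 2 ⊕ Fin 2) (Fin 2 ⊕ Fin 2) F)
    (hu : uᵀ * J (Fin 2) F * u = J (Fin 2) F) (a b : Fin 2 ⊕ Fin 2 → F) :
    fm (u *ᵥ a) (u *ᵥ b) = fm a b := by
  unfold fm
  rw [← Matrix.vecMul_transpose u a, ← Matrix.dotProduct_mulVec, Matrix.mulVec_mulVec,
    Matrix.mulVec_mulVec, hu]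

theorem fm_nondeg (a : Fin 2 ⊕ Fin 2 → F) (h : ∀ b, fm a b = 0) : a = 0 := by
  funext i
  have h1 := h ((J (Fin 2) F) *ᵥ (Pi.single i 1))
  unfold fm at h1
  rw [Matrix.mulVec_mulVec, Matrix.J_squared, Matrix.neg_mulVec, Matrix.one_mulVec,
    dotProduct_neg, dotProduct_single, mul_one, neg_eq_zero] at h1
  exact h1

theorem ord5 (hF : Fintype.card F = 3) (W : Matrix (Fin 2 ⊕ Fin 2) (Fin 2 ⊕ Fin 2) F)
    (h5 : W ^ 5 = 1) (h1 : W ≠ 1) (v : Fin 2 ⊕ Fin 2 → F) (hv0 : v ≠ 0) (hv : W *ᵥ v = v) :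
    False := by
  classical
  haveI : Fact (Nat.Prime 5) := ⟨by norm_num⟩
  let f : Function.End (Fin 2 ⊕ Fin 2 → F) := fun x => W *ᵥ x
  have hfpow : ∀ k : ℕ, ∀ x, (f ^ k) x = (W ^ k) *ᵥ x := by
    intro k
    induction k with
    | zero => intro x; rw [pow_zero, pow_zero, Matrix.one_mulVec]; rfl
    | succ k ih =>
      intro x
      rw [pow_succ, pow_succ, ← Matrix.mulVec_mulVec]
      show (f ^ k) (f x) = _
      rw [ih]
  have hf : f ^ 5 ^ 1 = 1 := by
    funext x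
    rw [pow_one, hfpow, h5, Matrix.one_mulVec]; rfl
  have hmod := Equiv.Perm.card_fixedPoints_modEq (p := 5) (n := 1) hf
  let A : AddSubgroup (Fin 2 ⊕ Fin 2 → F) :=
    { carrier := {x | W *ᵥ x = x}
      add_mem' := fun {a b} ha hb => by
        show W *ᵥ (a + b) = a + b
        rw [Matrix.mulVec_add, ha, hb]
      zero_mem' := Matrix.mulVec_zero W
      neg_mem' := fun {a} ha => by
        show W *ᵥ (-a) = -a
        rw [Matrix.mulVec_neg, ha] }
  have hAset : (A : Set (Fin 2 ⊕ Fin 2 → F)) = Function.fixedPoints f := rfl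
  have hcardV : Fintype.card (Fin 2 ⊕ Fin 2 → F) = 81 := by
    rw [Fintype.card_fun, hF]; rfl
  have hcardA : Fintype.card (Function.fixedPoints f) = Nat.card A := by
    rw [← Nat.card_eq_fintype_card]; rfl
  rw [hcardV, hcardA] at hmod
  have hdvd : Nat.card A ∣ 81 := by
    have := AddSubgroup.card_addSubgroup_dvd_card A
    rwa [Nat.card_eq_fintype_card (α := (Fin 2 ⊕ Fin 2 → F)), hcardV] at this
  have hgt : 1 < Nat.card A := by
    rw [Nat.card_eq_fintype_card]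
    exact Fintype.one_lt_card_iff.2 ⟨⟨0, A.zero_mem⟩, ⟨v, hv⟩, fun h => hv0 (congrArg Subtype.val h).symm⟩
  have h81 : Nat.card A = 81 := by
    have h34 : (81 : ℕ) = 3 ^ 4 := by norm_num
    rw [h34] at hdvd
    obtain ⟨m, hm, hAm⟩ := (Nat.dvd_prime_pow Nat.prime_three).1 hdvd
    rw [hAm] at hmod hgt ⊢
    interval_cases m <;> simp_all [Nat.ModEq]
  have htop : A = ⊤ := by
    apply AddSubgroup.eq_top_of_card_eq
    rw [h81, Nat.card_eq_fintype_card, hcardV]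
  apply h1
  apply Matrix.toLin'.injective
  apply LinearMap.ext
  intro x
  rw [Matrix.toLin'_apply, Matrix.toLin'_one]
  have : x ∈ A := by rw [htop]; exact AddSubgroup.mem_top x
  exact this

theorem LA (hF : Fintype.card F = 3) (u g g' : Matrix (Fin 2 ⊕ Fin 2) (Fin 2 ⊕ Fin 2) F)
    (hu : uᵀ * J (Fin 2) F * u = J (Fin 2) F) (hu3 : u * u * u = 1) (hu1 : u ≠ 1)
    (hg : g * g' = 1) (hW10 : (u * (g * u * g')) ^ 10 = 1) (hW2 : (u * (g * u * g')) ^ 2 ≠ 1) :
    Module.finrank F ↥(LinearMap.ker (Matrix.toLin' u - LinearMap.id)) = 2 ∧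
      ∀ v w : Fin 2 ⊕ Fin 2 → F, u.mulVec v = v → u.mulVec w = w →
        dotProduct v ((Matrix.J (Fin 2) F).mulVec w) = 0 := by
  classical
  have h3 : (3 : F) = 0 := by
    have := Nat.cast_card_eq_zero F
    rw [hF] at this
    exact_mod_cast this
  have h2 : (2 : F) ≠ 0 := by
    intro h
    have : (1 : F) = 3 - 2 := by norm_num
    rw [h3, h, sub_zero] at this
    exact one_ne_zero this
  have u3v : ∀ v : Fin 2 ⊕ Fin 2 → F, u *ᵥ (u *ᵥ (u *ᵥ v)) = v := by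
    intro v
    rw [Matrix.mulVec_mulVec, Matrix.mulVec_mulVec, hu3, Matrix.one_mulVec]
  -- N = u - 1 at the vector level
  have hNv : ∀ v : Fin 2 ⊕ Fin 2 → F, (u - 1) *ᵥ v = u *ᵥ v - v := by
    intro v; rw [Matrix.sub_mulVec, Matrix.one_mulVec]
  have hNN : ∀ v : Fin 2 ⊕ Fin 2 → F,
      (u - 1) *ᵥ ((u - 1) *ᵥ v) = v + u *ᵥ v + u *ᵥ (u *ᵥ v) := by
    intro v
    rw [hNv, hNv, Matrix.mulVec_sub]
    have e : ∀ x y z : Fin 2 ⊕ Fin 2 → F, x - y - (y - z) = z + y + x - (3 : F) • y := by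
      intro x y z; module
    rw [e, h3, zero_smul, sub_zero]
  have hTfix : ∀ v : Fin 2 ⊕ Fin 2 → F,
      u *ᵥ (v + u *ᵥ v + u *ᵥ (u *ᵥ v)) = v + u *ᵥ v + u *ᵥ (u *ᵥ v) := by
    intro v
    rw [Matrix.mulVec_add, Matrix.mulVec_add, u3v]; abel
  have hNT : ∀ v : Fin 2 ⊕ Fin 2 → F, (u - 1) *ᵥ (v + u *ᵥ v + u *ᵥ (u *ᵥ v)) = 0 := by
    intro v; rw [hNv, hTfix, sub_self]
  have hA : ∀ a w : Fin 2 ⊕ Fin 2 → F, u *ᵥ w = w → fm ((u - 1) *ᵥ a) w = 0 := by
    intro a w hw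
    rw [hNv, fm_sub_left]
    have := fm_inv u hu a w
    rw [hw] at this
    rw [this, sub_self]
  have hSA : ∀ a b : Fin 2 ⊕ Fin 2 → F,
      fm (a + u *ᵥ a + u *ᵥ (u *ᵥ a)) b = fm a (b + u *ᵥ b + u *ᵥ (u *ᵥ b)) := by
    intro a b
    rw [fm_add_left, fm_add_left, fm_add_right, fm_add_right]
    have e1 : fm (u *ᵥ a) b = fm a (u *ᵥ (u *ᵥ b)) := by
      have := fm_inv u hu a (u *ᵥ (u *ᵥ b))
      rw [u3v] at this
      exact this
    have e2 : fm (u *ᵥ (u *ᵥ a)) b = fm a (u *ᵥ b) := by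
      have := fm_inv u hu (u *ᵥ a) (u *ᵥ (u *ᵥ b))
      rw [u3v] at this
      rw [this]
      exact fm_inv u hu a (u *ᵥ b)
    rw [e1, e2]; ring
  have hTT : ∀ b : Fin 2 ⊕ Fin 2 → F, fm (b + u *ᵥ b + u *ᵥ (u *ᵥ b)) b = 0 := by
    intro b
    have e1 := hSA b b
    rw [fm_skew b] at e1
    have e2 : (2 : F) * fm (b + u *ᵥ b + u *ᵥ (u *ᵥ b)) b = 0 := by linear_combination e1
    rcases mul_eq_zero.1 e2 with h | h
    · exact absurd h h2
    · exact h
  -- N ^ 2 = 0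
  have hT0 : ∀ a : Fin 2 ⊕ Fin 2 → F, a + u *ᵥ a + u *ᵥ (u *ᵥ a) = 0 := by
    by_contra hcon
    push Not at hcon
    obtain ⟨a, ha⟩ := hcon
    obtain ⟨b, hb⟩ : ∃ b, fm (a + u *ᵥ a + u *ᵥ (u *ᵥ a)) b ≠ 0 := by
      by_contra h
      push Not at h
      exact ha (fm_nondeg _ h)
    have hb' : fm (b + u *ᵥ b + u *ᵥ (u *ᵥ b)) a = - fm (a + u *ᵥ a + u *ᵥ (u *ᵥ a)) b := by
      rw [hSA b a, fm_skew]
    have key : ∀ c d : F, c • (a + u *ᵥ a + u *ᵥ (u *ᵥ a)) + d • (b + u *ᵥ b + u *ᵥ (u *ᵥ b)) = 0 →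
        c = 0 ∧ d = 0 := by
      intro c d hcd
      have fz : ∀ z : Fin 2 ⊕ Fin 2 → F, fm (0 : Fin 2 ⊕ Fin 2 → F) z = 0 := by
        intro z; unfold fm; rw [zero_dotProduct]
      have k1 : fm (c • (a + u *ᵥ a + u *ᵥ (u *ᵥ a)) + d • (b + u *ᵥ b + u *ᵥ (u *ᵥ b))) b = 0 := by
        rw [hcd, fz]
      have k2 : fm (c • (a + u *ᵥ a + u *ᵥ (u *ᵥ a)) + d • (b + u *ᵥ b + u *ᵥ (u *ᵥ b))) a = 0 := by
        rw [hcd, fz]
      rw [fm_add_left, fm_smul_left, fm_smul_left, hTT, mul_zero, add_zero] at k1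
      rw [fm_add_left, fm_smul_left, fm_smul_left, hTT, mul_zero, zero_add, hb'] at k2
      constructor
      · rcases mul_eq_zero.1 k1 with h | h
        · exact h
        · exact absurd h hb
      · rcases mul_eq_zero.1 k2 with h | h
        · exact h
        · exact absurd (neg_eq_zero.1 h) hb
    have hli : LinearIndependent F ![(u - 1) *ᵥ a, (u - 1) *ᵥ b, a + u *ᵥ a + u *ᵥ (u *ᵥ a),
        b + u *ᵥ b + u *ᵥ (u *ᵥ b)] := by
      rw [Fintype.linearIndependent_iff]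
      intro c hc
      rw [Fin.sum_univ_four] at hc
      simp only [Matrix.cons_val_zero, Matrix.cons_val_one, Matrix.cons_val] at hc
      have hc' := congrArg (fun z => (u - 1) *ᵥ z) hc
      simp only [Matrix.mulVec_add, Matrix.mulVec_smul, hNN, hNT, smul_zero, add_zero,
        Matrix.mulVec_zero] at hc'
      obtain ⟨h0, h1⟩ := key _ _ hc'
      rw [h0, h1, zero_smul, zero_smul, zero_add, zero_add] at hc
      obtain ⟨h2', h3'⟩ := key _ _ hc
      intro i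
      fin_cases i
      · exact h0
      · exact h1
      · exact h2'
      · exact h3'
    have hsp := hli.span_eq_top_of_card_eq_finrank' (by simp)
    have hle : Submodule.span F (Set.range ![(u - 1) *ᵥ a, (u - 1) *ᵥ b,
        a + u *ᵥ a + u *ᵥ (u *ᵥ a), b + u *ᵥ b + u *ᵥ (u *ᵥ b)]) ≤
        LinearMap.range (Matrix.toLin' (u - 1)) := by
      rw [Submodule.span_le]
      rintro _ ⟨i, rfl⟩
      fin_cases i
      · exact ⟨a, Matrix.toLin'_apply _ _⟩
      · exact ⟨b, Matrix.toLin'_apply _ _⟩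
      · exact ⟨(u - 1) *ᵥ a, by rw [Matrix.toLin'_apply, hNN]; rfl⟩
      · exact ⟨(u - 1) *ᵥ b, by rw [Matrix.toLin'_apply, hNN]; rfl⟩
    have hsurj : ∀ v : Fin 2 ⊕ Fin 2 → F, ∃ z, (u - 1) *ᵥ z = v := by
      intro v
      have hv : v ∈ LinearMap.range (Matrix.toLin' (u - 1)) := hle (hsp ▸ Submodule.mem_top)
      obtain ⟨z, hz⟩ := hv
      exact ⟨z, by rwa [Matrix.toLin'_apply] at hz⟩
    obtain ⟨z1, hz1⟩ := hsurj (a + u *ᵥ a + u *ᵥ (u *ᵥ a))
    obtain ⟨z2, hz2⟩ := hsurj z1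
    obtain ⟨z3, hz3⟩ := hsurj z2
    apply ha
    have hrw : a + u *ᵥ a + u *ᵥ (u *ᵥ a) = (u - 1) *ᵥ ((u - 1) *ᵥ ((u - 1) *ᵥ z3)) := by
      rw [hz3, hz2, hz1]
    rw [hrw, hNN z3, hNT]
  -- the kernel
  have hmem : ∀ (M : Matrix (Fin 2 ⊕ Fin 2) (Fin 2 ⊕ Fin 2) F) (v : Fin 2 ⊕ Fin 2 → F),
      v ∈ LinearMap.ker (Matrix.toLin' M - LinearMap.id) ↔ M *ᵥ v = v := by
    intro M v
    rw [LinearMap.mem_ker, LinearMap.sub_apply, Matrix.toLin'_apply, LinearMap.id_apply,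
      sub_eq_zero]
  have hL : ∀ v : Fin 2 ⊕ Fin 2 → F,
      ((Matrix.toLin' u - LinearMap.id : (Fin 2 ⊕ Fin 2 → F) →ₗ[F] (Fin 2 ⊕ Fin 2 → F)) v) =
        (u - 1) *ᵥ v := by
    intro v
    rw [LinearMap.sub_apply, Matrix.toLin'_apply, LinearMap.id_apply, hNv]
  have hfinV : Module.finrank F (Fin 2 ⊕ Fin 2 → F) = 4 := by simp
  -- finrank of the kernel is at most 2
  have hle2 : Module.finrank F ↥(LinearMap.ker (Matrix.toLin' u - LinearMap.id)) ≤ 2 := by
    by_contra hcon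
    push Not at hcon
    have hg' : g' * g = 1 := mul_eq_one_comm.1 hg
    let ψ : ↥(LinearMap.ker (Matrix.toLin' u - LinearMap.id)) →ₗ[F]
        ↥(LinearMap.ker (Matrix.toLin' (g * u * g') - LinearMap.id)) :=
      LinearMap.codRestrict _ ((Matrix.toLin' g).comp (Submodule.subtype _)) (fun v => by
        rw [hmem]
        have hv := (hmem u v.1).1 v.2
        show (g * u * g') *ᵥ (g *ᵥ v.1) = g *ᵥ v.1
        rw [Matrix.mulVec_mulVec, mul_assoc (g * u), hg', mul_one, ← Matrix.mulVec_mulVec, hv])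
    have hψ : Function.Injective ψ := by
      intro v w hvw
      have h1 : g *ᵥ v.1 = g *ᵥ w.1 := congrArg Subtype.val hvw
      have h2 := congrArg (fun z => g' *ᵥ z) h1
      simp only [Matrix.mulVec_mulVec, hg', Matrix.one_mulVec] at h2
      exact Subtype.ext h2
    have h1 := LinearMap.finrank_le_finrank_of_injective hψ
    have h2' := Submodule.finrank_sup_add_finrank_inf_eq
      (LinearMap.ker (Matrix.toLin' u - LinearMap.id))
      (LinearMap.ker (Matrix.toLin' (g * u * g') - LinearMap.id))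
    have h3' := Submodule.finrank_le
      (LinearMap.ker (Matrix.toLin' u - LinearMap.id) ⊔
        LinearMap.ker (Matrix.toLin' (g * u * g') - LinearMap.id))
    rw [hfinV] at h3'
    have hne : LinearMap.ker (Matrix.toLin' u - LinearMap.id) ⊓
        LinearMap.ker (Matrix.toLin' (g * u * g') - LinearMap.id) ≠ ⊥ := by
      intro h
      rw [h, finrank_bot] at h2'
      omega
    obtain ⟨v, hv, hv0⟩ := Submodule.exists_mem_ne_zero_of_ne_bot hne
    have hv1 := (hmem u v).1 hv.1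
    have hv2 := (hmem (g * u * g') v).1 hv.2
    have hWv : (u * (g * u * g')) *ᵥ v = v := by
      rw [← Matrix.mulVec_mulVec, hv2, hv1]
    refine ord5 hF ((u * (g * u * g')) ^ 2) ?_ hW2 v hv0 ?_
    · rw [← pow_mul]; exact hW10
    · rw [pow_two, ← Matrix.mulVec_mulVec, hWv, hWv]
  have hRK : LinearMap.range (Matrix.toLin' u - LinearMap.id) ≤
      LinearMap.ker (Matrix.toLin' u - LinearMap.id) := by
    rintro _ ⟨a, rfl⟩
    rw [LinearMap.mem_ker, hL, hL, hNN, hT0]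
  have hsum := LinearMap.finrank_range_add_finrank_ker (Matrix.toLin' u - LinearMap.id)
  rw [hfinV] at hsum
  have hmono := Submodule.finrank_mono hRK
  have hk2 : Module.finrank F ↥(LinearMap.ker (Matrix.toLin' u - LinearMap.id)) = 2 := by omega
  refine ⟨hk2, ?_⟩
  have heq := Submodule.eq_of_le_of_finrank_eq hRK (by omega)
  intro v w hv hw
  have hvk : v ∈ LinearMap.ker (Matrix.toLin' u - LinearMap.id) := (hmem u v).2 hv
  rw [← heq] at hvk
  obtain ⟨a, ha⟩ := hvk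
  rw [hL] at ha
  have := hA a w hw
  rw [ha] at this
  exact this

end LA

theorem conj_of {K : Type*} [Field K] (e : ZMod 5 →+* K) (he : Function.Injective e)
    (X₀ Y₀ Y₀' : Matrix (Fin 2) (Fin 2) (ZMod 5)) (hY : Y₀ * Y₀' = 1) (hdetY : Y₀.det = 1)
    (x : Matrix.SpecialLinearGroup (Fin 2) K) (hx : e.mapMatrix X₀ = x.1)
    (h10 : (X₀ * (Y₀ * X₀ * Y₀')) ^ 10 = 1) (h2 : (X₀ * (Y₀ * X₀ * Y₀')) ^ 2 ≠ 1) :
    ∃ y : Matrix.SpecialLinearGroup (Fin 2) K,
      (x * (y * x * y⁻¹)) ^ 10 = 1 ∧ (x * (y * x * y⁻¹)) ^ 2 ≠ 1 := by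
  have hdetY' : Y₀'.det = 1 := by
    have := congrArg Matrix.det hY
    rw [Matrix.det_mul, hdetY, one_mul, Matrix.det_one] at this
    exact this
  have hE : Function.Injective
      (e.mapMatrix : Matrix (Fin 2) (Fin 2) (ZMod 5) →+* Matrix (Fin 2) (Fin 2) K) := by
    intro A B hAB
    ext i j
    have := congrFun (congrFun hAB i) j
    simp only [RingHom.mapMatrix_apply, Matrix.map_apply] at this
    exact he this
  let y : Matrix.SpecialLinearGroup (Fin 2) K :=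
    ⟨e.mapMatrix Y₀, by rw [← RingHom.map_det, hdetY, map_one]⟩
  let y' : Matrix.SpecialLinearGroup (Fin 2) K :=
    ⟨e.mapMatrix Y₀', by rw [← RingHom.map_det, hdetY', map_one]⟩
  have hyy' : y * y' = 1 := by
    apply Subtype.ext
    show e.mapMatrix Y₀ * e.mapMatrix Y₀' = 1
    rw [← map_mul, hY, map_one]
  have hy' : y' = y⁻¹ := eq_inv_of_mul_eq_one_right hyy'
  have hval : (x * (y * x * y⁻¹)).1 = e.mapMatrix (X₀ * (Y₀ * X₀ * Y₀')) := by
    rw [← hy']
    show x.1 * (e.mapMatrix Y₀ * x.1 * e.mapMatrix Y₀') = _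
    rw [← hx, map_mul, map_mul, map_mul]
  refine ⟨y, ?_, ?_⟩
  · apply Subtype.ext
    rw [Matrix.SpecialLinearGroup.coe_pow, hval, ← map_pow, h10, map_one]; rfl
  · intro h
    apply h2
    apply hE
    have := congrArg Subtype.val h
    rw [Matrix.SpecialLinearGroup.coe_pow, hval, ← map_pow] at this
    rw [this, map_one]; rfl

set_option maxRecDepth 100000 in
theorem sl25 : ∀ a b c d : ZMod 5, a * d - b * c = 1 →
    (!![a, b; c, d] : Matrix (Fin 2) (Fin 2) (ZMod 5)) ^ 3 = 1 →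
    (!![a, b; c, d] : Matrix (Fin 2) (Fin 2) (ZMod 5)) ≠ 1 →
    (((!![a, b; c, d] : Matrix (Fin 2) (Fin 2) (ZMod 5)) * (!![0, 1; 4, 2] * !![a, b; c, d] * !![2, 4; 1, 0])) ^ 10 = 1 ∧
      ((!![a, b; c, d] : Matrix (Fin 2) (Fin 2) (ZMod 5)) * (!![0, 1; 4, 2] * !![a, b; c, d] * !![2, 4; 1, 0])) ^ 2 ≠ 1) ∨
    (((!![a, b; c, d] : Matrix (Fin 2) (Fin 2) (ZMod 5)) * (!![1, 3; 2, 2] * !![a, b; c, d] * !![2, 2; 3, 1])) ^ 10 = 1 ∧
      ((!![a, b; c, d] : Matrix (Fin 2) (Fin 2) (ZMod 5)) * (!![1, 3; 2, 2] * !![a, b; c, d] * !![2, 2; 3, 1])) ^ 2 ≠ 1) := by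
  decide +kernel

theorem exists_conj {K : Type*} [Field K] [Fintype K] (hK : Fintype.card K = 5)
    (x : Matrix.SpecialLinearGroup (Fin 2) K) (hx3 : x ^ 3 = 1) (hx1 : x ≠ 1) :
    ∃ y : Matrix.SpecialLinearGroup (Fin 2) K,
      (x * (y * x * y⁻¹)) ^ 10 = 1 ∧ (x * (y * x * y⁻¹)) ^ 2 ≠ 1 := by
  let e : ZMod 5 ≃+* K := ZMod.ringEquivOfPrime K (by norm_num) hK
  have he : Function.Injective (e : ZMod 5 →+* K) := e.injective
  have hE : Function.Injective
      ((e : ZMod 5 →+* K).mapMatrix : Matrix (Fin 2) (Fin 2) (ZMod 5) →+* Matrix (Fin 2) (Fin 2) K) := by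
    intro A B hAB
    ext i j
    have := congrFun (congrFun hAB i) j
    simp only [RingHom.mapMatrix_apply, Matrix.map_apply] at this
    exact he this
  have hXx : (e : ZMod 5 →+* K).mapMatrix
      !![e.symm (x.1 0 0), e.symm (x.1 0 1); e.symm (x.1 1 0), e.symm (x.1 1 1)] = x.1 := by
    ext i j
    fin_cases i <;> fin_cases j <;> simp
  have hdet : e.symm (x.1 0 0) * e.symm (x.1 1 1) - e.symm (x.1 0 1) * e.symm (x.1 1 0) = 1 := by
    have h1 := x.2
    rw [Matrix.det_fin_two] at h1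
    rw [← map_mul, ← map_mul, ← map_sub, h1, map_one]
  have hX3 : (!![e.symm (x.1 0 0), e.symm (x.1 0 1); e.symm (x.1 1 0), e.symm (x.1 1 1)] :
      Matrix (Fin 2) (Fin 2) (ZMod 5)) ^ 3 = 1 := by
    apply hE
    rw [map_pow, hXx, map_one, ← Matrix.SpecialLinearGroup.coe_pow, hx3]; rfl
  have hX1 : (!![e.symm (x.1 0 0), e.symm (x.1 0 1); e.symm (x.1 1 0), e.symm (x.1 1 1)] :
      Matrix (Fin 2) (Fin 2) (ZMod 5)) ≠ 1 := by
    intro h
    apply hx1
    apply Subtype.ext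
    rw [← hXx, h, map_one]; rfl
  rcases sl25 _ _ _ _ hdet hX3 hX1 with ⟨h10, h2⟩ | ⟨h10, h2⟩
  · exact conj_of (e : ZMod 5 →+* K) he _ _ _ (by decide) (by decide) x hXx h10 h2
  · exact conj_of (e : ZMod 5 →+* K) he _ _ _ (by decide) (by decide) x hXx h10 h2

end helpers

/-- Let F be the field with 3 elements and K the field with 5 elements. For every injective homomorphism φ from SL₂(K) into the symplectic group Sp₄(F) (4 × 4 matrices g with g J gᵀ = J for the standard alternating matrix J) and every element x of order 3 of SL₂(K), the vectors of F⁴ fixed by φ(x) form a 2-dimensional subspace that is totally isotropic for the alternating form defined by J. -/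
theorem result {F : Type*} [Field F] [Fintype F] (hF : Fintype.card F = 3)
    {K : Type*} [Field K] [Fintype K] (hK : Fintype.card K = 5)
    (φ : Matrix.SpecialLinearGroup (Fin 2) K →* ↥(Matrix.symplecticGroup (Fin 2) F)) (hφ : Function.Injective φ)
    (x : Matrix.SpecialLinearGroup (Fin 2) K) (hx : orderOf x = 3) :
    Module.finrank F ↥(LinearMap.ker (Matrix.toLin' ((φ x : Matrix (Fin 2 ⊕ Fin 2) (Fin 2 ⊕ Fin 2) F)) - LinearMap.id)) = 2 ∧
      ∀ v w : Fin 2 ⊕ Fin 2 → F, (φ x : Matrix (Fin 2 ⊕ Fin 2) (Fin 2 ⊕ Fin 2) F).mulVec v = v →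
        (φ x : Matrix (Fin 2 ⊕ Fin 2) (Fin 2 ⊕ Fin 2) F).mulVec w = w →
          dotProduct v ((Matrix.J (Fin 2) F).mulVec w) = 0 := by
  have hx3 : x ^ 3 = 1 := by rw [← hx]; exact pow_orderOf_eq_one x
  have hx1 : x ≠ 1 := by
    intro h
    rw [h, orderOf_one] at hx
    norm_num at hx
  obtain ⟨y, h10, h2⟩ := exists_conj hK x hx3 hx1
  have hu := SymplecticGroup.mem_iff'.1 (φ x).2
  have hxxx : x * x * x = 1 := by rw [← hx3, pow_succ, pow_succ, pow_one]
  have hu3 : (φ x).1 * (φ x).1 * (φ x).1 = 1 := by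
    have := congrArg φ hxxx
    rw [map_mul, map_mul, map_one] at this
    exact congrArg Subtype.val this
  have hu1 : (φ x).1 ≠ 1 := by
    intro h
    apply hx1
    apply hφ
    rw [map_one]
    exact Subtype.ext h
  have hg : (φ y).1 * (φ y⁻¹).1 = 1 := by
    have : φ y * φ y⁻¹ = 1 := by rw [← map_mul, mul_inv_cancel, map_one]
    exact congrArg Subtype.val this
  have hW10 : ((φ x).1 * ((φ y).1 * (φ x).1 * (φ y⁻¹).1)) ^ 10 = 1 := by
    have := congrArg φ h10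
    rw [map_pow, map_mul, map_mul, map_mul, map_one] at this
    exact congrArg Subtype.val this
  have hW2 : ((φ x).1 * ((φ y).1 * (φ x).1 * (φ y⁻¹).1)) ^ 2 ≠ 1 := by
    intro h
    apply h2
    apply hφ
    rw [map_pow, map_mul, map_mul, map_mul, map_one]
    exact Subtype.ext h
  exact LA hF (φ x).1 (φ y).1 (φ y⁻¹).1 hu hu3 hu1 hg hW10 hW2

end Cfsg.Agent.S3213
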