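import Cfsg.Statements.S3215
import Mathlib
import Cfsg.Agent.S0016
import Cfsg.Agent.S0058
import Cfsg.Agent.S0072
import Cfsg.Agent.Lib.helper16.OddQuot
import Cfsg.Agent.Lib.helper15.PCore
import Cfsg.Agent.Lib.helper8.CoprimeAction
import Cfsg.Agent.Lib.helper3.Basic
import Cfsg.Agent.Lib.helper7.PConstr

set_option autoImplicit false
open Cfsg

namespace Cfsg.Agent.S3215

open Cfsg.Agent.Lib.helper16

theorem core_aux {H : Type*} [Group H] [Finite H]
    (hI : ∀ t : H, orderOf t = 2 → Cfsg.HasNormalPComplement 2 ↥(Subgroup.centralizer ({t} : Set H)))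
    (Y : Subgroup H) (hYn : Y.Normal) (hY2 : IsPGroup 2 Y)
    (t x y : H) (ht : orderOf t = 2) (hx : Odd (orderOf x)) (hxt : x * t = t * x) (hy : y ∈ Y)
    (hyt : y * t = t * y) : x * y = y * x := by
  have h2 : Fact (Nat.Prime 2) := ⟨Nat.prime_two⟩
  obtain ⟨K, hKn, hKc, a, ha⟩ := (Cfsg.Agent.S0072.hasNormalPComplement_iff 2).mp (hI t ht)
  have hxC : x ∈ Subgroup.centralizer ({t} : Set H) := Subgroup.mem_centralizer_singleton_iff.mpr hxt
  have hyC : y ∈ Subgroup.centralizer ({t} : Set H) := Subgroup.mem_centralizer_singleton_iff.mpr hyt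
  have hxK : (⟨x, hxC⟩ : ↥(Subgroup.centralizer ({t} : Set H))) ∈ K := by
    have h1 : orderOf (QuotientGroup.mk' K ⟨x, hxC⟩) ∣ 2 ^ a := by
      have h3 := orderOf_dvd_natCard (QuotientGroup.mk' K ⟨x, hxC⟩)
      rwa [← Subgroup.index_eq_card, ha] at h3
    have h3 : orderOf (QuotientGroup.mk' K ⟨x, hxC⟩) ∣ orderOf x := by
      have h4 := orderOf_map_dvd (QuotientGroup.mk' K) (⟨x, hxC⟩ : ↥(Subgroup.centralizer ({t} : Set H)))
      rwa [Subgroup.orderOf_mk] at h4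
    have hcop : Nat.Coprime (2 ^ a) (orderOf x) := Nat.Coprime.pow_left a (Nat.coprime_two_left.mpr hx)
    have h5 : orderOf (QuotientGroup.mk' K ⟨x, hxC⟩) = 1 :=
      Nat.eq_one_of_dvd_coprimes hcop h1 h3
    rw [orderOf_eq_one_iff] at h5
    exact (QuotientGroup.eq_one_iff _).mp h5
  have hcK' : ∀ (u v : ↥(Subgroup.centralizer ({t} : Set H))), u ∈ K → u * v * u⁻¹ * v⁻¹ ∈ K := by
    intro u v hu
    have h1 := hKn.conj_mem _ (inv_mem hu) v
    have h3 := mul_mem hu h1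
    have e : u * v * u⁻¹ * v⁻¹ = u * (v * u⁻¹ * v⁻¹) := by simp [mul_assoc]
    rw [e]; exact h3
  have hcK := hcK' ⟨x, hxC⟩ ⟨y, hyC⟩ hxK
  have hcY : x * y * x⁻¹ * y⁻¹ ∈ Y := mul_mem (hYn.conj_mem y hy x) (inv_mem hy)
  have ho1 : orderOf (x * y * x⁻¹ * y⁻¹) ∣ Nat.card K := by
    have h1 := orderOf_dvd_natCard (⟨_, hcK⟩ : ↥K)
    rw [Subgroup.orderOf_mk] at h1
    have h3 : orderOf ((⟨x, hxC⟩ : ↥(Subgroup.centralizer ({t} : Set H))) * ⟨y, hyC⟩ * ⟨x, hxC⟩⁻¹ * ⟨y, hyC⟩⁻¹)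
        = orderOf (x * y * x⁻¹ * y⁻¹) := by
      rw [← Subgroup.orderOf_coe]; rfl
    rwa [h3] at h1
  obtain ⟨k, hk⟩ := (IsPGroup.iff_orderOf.mp hY2) ⟨_, hcY⟩
  rw [Subgroup.orderOf_mk] at hk
  have h6 : orderOf (x * y * x⁻¹ * y⁻¹) = 1 := by
    have hcop : Nat.Coprime (Nat.card K) (2 ^ k) := Nat.Coprime.pow_right k hKc
    exact Nat.eq_one_of_dvd_coprimes hcop ho1 (by rw [hk])
  rw [orderOf_eq_one_iff] at h6
  calc x * y = (x * y * x⁻¹ * y⁻¹) * y * x := by simp [mul_assoc]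
    _ = y * x := by rw [h6, one_mul]

theorem lemmaA {H : Type*} [Group H] [Finite H] (hsol : Group.IsSolvable H)
    (hO : Cfsg.oddCore H = ⊥)
    (hI : ∀ t : H, orderOf t = 2 → Cfsg.HasNormalPComplement 2 ↥(Subgroup.centralizer ({t} : Set H)))
    (x g : H) (hx : Odd (orderOf x)) (hg : Even (orderOf g)) (hxg : x * g = g * x) : x = 1 := by
  have h2 : Fact (Nat.Prime 2) := ⟨Nat.prime_two⟩
  have hYn : (Cfsg.pCore 2 H).Normal := Cfsg.Agent.Lib.helper15.pCore_normal 2 H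
  have hY2 : IsPGroup 2 (Cfsg.pCore 2 H) := Cfsg.Agent.Lib.helper15.pCore_isPGroup 2 H
  obtain ⟨t, ht⟩ : ∃ t : H, t = g ^ (orderOf g / 2) := ⟨_, rfl⟩
  have hto : orderOf t = 2 := by
    rw [ht]
    exact orderOf_pow_orderOf_div (orderOf_pos g).ne' (even_iff_two_dvd.mp hg)
  have hxt : x * t = t * x := by
    rw [ht]
    exact ((Commute.pow_right (show Commute x g from hxg) _)).eq
  have hPQ : Subgroup.zpowers t ≤ Subgroup.centralizer ((Subgroup.zpowers x : Subgroup H) : Set H) := by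
    rw [Subgroup.zpowers_le, Subgroup.mem_centralizer_iff]
    rintro _ ⟨i, rfl⟩
    exact (Commute.zpow_left (show Commute x t from hxt) i).eq
  have hC : Cfsg.pCore 2 H ⊓ Subgroup.centralizer ((Subgroup.zpowers t : Subgroup H) : Set H) ≤
      Subgroup.centralizer ((Subgroup.zpowers x : Subgroup H) : Set H) := by
    intro y hy
    obtain ⟨hy1, hy2⟩ := Subgroup.mem_inf.mp hy
    rw [Subgroup.mem_centralizer_iff] at hy2 ⊢
    have h1 : y * t = t * y := (hy2 t (Subgroup.mem_zpowers t)).symm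
    have h3 := core_aux hI _ hYn hY2 t x y hto hx hxt hy1 h1
    rintro _ ⟨i, rfl⟩
    exact (Commute.zpow_left (show Commute x y from h3) i).eq
  have hP : IsPGroup 2 (Subgroup.zpowers t) := IsPGroup.of_card (n := 1) (by rw [Nat.card_zpowers, hto, pow_one])
  have hQ : (Nat.card (Subgroup.zpowers x)).Coprime 2 := by
    rw [Nat.card_zpowers]; exact Nat.coprime_two_right.mpr hx
  have h1 := Cfsg.Agent.Lib.helper8.thompson_pq (Subgroup.zpowers t) (Subgroup.zpowers x) (Cfsg.pCore 2 H)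
    hP hQ hY2 hPQ Subgroup.le_normalizer_of_normal Subgroup.le_normalizer_of_normal hC
  have hF2 := fitting_isPGroup_of_oddCore_eq_bot H hO
  have hFY : Cfsg.fittingSubgroup H ≤ Cfsg.pCore 2 H :=
    Cfsg.Agent.Lib.helper15.le_pCore (Cfsg.Agent.Lib.helper7.fitting_normal H) hF2
  have hxF : x ∈ Cfsg.fittingSubgroup H := by
    apply Cfsg.Agent.Lib.helper7.centralizer_fitting_le_of_solvable H hsol
    exact Subgroup.centralizer_le hFY (h1 (Subgroup.mem_zpowers x))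
  obtain ⟨k, hk⟩ := (IsPGroup.iff_orderOf.mp hF2) ⟨x, hxF⟩
  rw [Subgroup.orderOf_mk] at hk
  rw [hk] at hx
  rcases k with _ | k
  · rw [pow_zero] at hk; exact orderOf_eq_one_iff.mp hk
  · exfalso
    rw [Nat.odd_iff] at hx
    have : 2 ^ (k + 1) % 2 = 0 := by rw [pow_succ]; omega
    omega

/-- Let H be a finite solvable group with no nontrivial normal subgroup of odd order in which the centralizer of every involution has a normal 2-complement. Let X be a Hall 2'-subgroup of H (odd order, index a power of 2) and Y = O₂(H). Then no non-identity element of X commutes with a non-identity element of Y (so for X ≠ 1 the group XY is a Frobenius group with kernel Y), every Sylow subgroup of X is cyclic, XY is normal in H, and H/XY is a cyclic 2-group. -/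
theorem cyclic_mem_zpowers {G : Type*} [Group G] [Finite G] [IsCyclic G] (u v : G) (p : ℕ)
    (hp : p.Prime) (hu : orderOf u = p) (hv : v ^ p = 1) : v ∈ Subgroup.zpowers u := by
  classical
  let _ := Fintype.ofFinite G
  have h := IsCyclic.card_pow_eq_one_le (α := G) hp.pos
  by_contra hv'
  have hsub : insert v (Finset.univ.filter (fun a : G => a ∈ Subgroup.zpowers u)) ⊆
      Finset.univ.filter (fun a : G => a ^ p = 1) := by
    intro a ha
    rw [Finset.mem_insert] at ha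
    rw [Finset.mem_filter]
    refine ⟨Finset.mem_univ _, ?_⟩
    rcases ha with rfl | ha
    · exact hv
    · rw [Finset.mem_filter] at ha
      obtain ⟨i, rfl⟩ := ha.2
      rw [← zpow_natCast, ← zpow_mul, mul_comm, zpow_mul, zpow_natCast, ← hu, pow_orderOf_eq_one, one_zpow]
  have hcard : (insert v (Finset.univ.filter (fun a : G => a ∈ Subgroup.zpowers u))).card = p + 1 := by
    rw [Finset.card_insert_of_notMem (by simpa using hv')]
    congr 1
    rw [← Fintype.card_subtype, ← Nat.card_eq_fintype_card]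
    exact (Nat.card_zpowers u).trans hu
  have := Finset.card_le_card hsub
  omega

theorem lifting {H : Type*} [Group H] [Finite H] (hsol : Group.IsSolvable H)
    (hO : Cfsg.oddCore H = ⊥)
    (hI : ∀ t : H, orderOf t = 2 → Cfsg.HasNormalPComplement 2 ↥(Subgroup.centralizer ({t} : Set H)))
    (Y : Subgroup H) [hYn : Y.Normal] (hY2 : IsPGroup 2 Y) (e : H ⧸ Y) (he : orderOf e = 2)
    (x : H) (hx : Odd (orderOf x)) (hex : e * (QuotientGroup.mk x : H ⧸ Y) = QuotientGroup.mk x * e) :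
    x = 1 := by
  have h2 : Fact (Nat.Prime 2) := ⟨Nat.prime_two⟩
  obtain ⟨e₀, rfl⟩ := QuotientGroup.mk_surjective e
  have hcop : (Nat.card (Subgroup.zpowers x)).Coprime (Nat.card Y) := by
    obtain ⟨k, hk⟩ := IsPGroup.iff_card.mp hY2
    rw [hk, Nat.card_zpowers]
    exact Nat.Coprime.pow_right k (Nat.coprime_two_right.mpr hx)
  have hxx : ∀ a ∈ Subgroup.zpowers x, e₀⁻¹ * a * e₀ * a⁻¹ ∈ Y := by
    rintro _ ⟨i, rfl⟩
    have h1 : Commute (QuotientGroup.mk e₀ : H ⧸ Y) (QuotientGroup.mk x) := hex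
    have h3 := (h1.zpow_right i).eq
    rw [← QuotientGroup.eq_one_iff]
    simp only [QuotientGroup.mk_mul, QuotientGroup.mk_inv, QuotientGroup.mk_zpow]
    rw [mul_assoc (QuotientGroup.mk e₀ : H ⧸ Y)⁻¹, ← h3]
    simp
  obtain ⟨d, hd, hcomm⟩ := Cfsg.Agent.Lib.helper8.coset_fix (Subgroup.zpowers x) Y
    Subgroup.le_normalizer_of_normal hcop (Or.inr (by have := hsol; infer_instance)) e₀ hxx
  have hxg : x * (e₀ * d) = (e₀ * d) * x := hcomm x (Subgroup.mem_zpowers x)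
  have hev : Even (orderOf (e₀ * d)) := by
    have h1 := orderOf_map_dvd (QuotientGroup.mk' Y) (e₀ * d)
    have h3 : QuotientGroup.mk' Y (e₀ * d) = (QuotientGroup.mk e₀ : H ⧸ Y) := by
      show (QuotientGroup.mk (e₀ * d) : H ⧸ Y) = _
      rw [QuotientGroup.mk_mul, (QuotientGroup.eq_one_iff d).mpr hd, mul_one]
    rw [h3, he] at h1
    exact even_iff_two_dvd.mpr h1
  exact lemmaA hsol hO hI x (e₀ * d) hx hev hxg

theorem result {H : Type*} [Group H] [Finite H] (hsol : Group.IsSolvable H)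
    (hO : Cfsg.oddCore H = ⊥)
    (hI : ∀ t : H, orderOf t = 2 → Cfsg.HasNormalPComplement 2 ↥(Subgroup.centralizer ({t} : Set H)))
    (X : Subgroup H) (hXodd : Odd (Nat.card X)) (hXidx : ∃ k : ℕ, X.index = 2 ^ k) :
    (∀ x ∈ X, x ≠ 1 → ∀ y ∈ Cfsg.pCore 2 H, y ≠ 1 → x * y ≠ y * x) ∧
      (∀ (p : ℕ) [Fact p.Prime] (P : Sylow p ↥X), IsCyclic ↥(P : Subgroup ↥X)) ∧
      (X ⊔ Cfsg.pCore 2 H).Normal ∧
      ∀ hN : (X ⊔ Cfsg.pCore 2 H).Normal, IsCyclic (H ⧸ (X ⊔ Cfsg.pCore 2 H)) ∧ IsPGroup 2 (H ⧸ (X ⊔ Cfsg.pCore 2 H)) := by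
  classical
  have h2 : Fact (Nat.Prime 2) := ⟨Nat.prime_two⟩
  have hYn0 : (Cfsg.pCore 2 H).Normal := Cfsg.Agent.Lib.helper15.pCore_normal 2 H
  have hY20 : IsPGroup 2 (Cfsg.pCore 2 H) := Cfsg.Agent.Lib.helper15.pCore_isPGroup 2 H
  obtain ⟨Y, hY⟩ : ∃ Y : Subgroup H, Y = Cfsg.pCore 2 H := ⟨_, rfl⟩
  rw [← hY] at hYn0 hY20 ⊢
  have hYn : Y.Normal := hYn0
  have hY2 : IsPGroup 2 Y := hY20
  have hsolI : Group.IsSolvable H := hsol
  obtain ⟨k0, hk0⟩ := hXidx
  have hXo : ∀ x ∈ X, Odd (orderOf x) := by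
    intro x hx
    have h1 := orderOf_dvd_natCard (⟨x, hx⟩ : ↥X)
    rw [Subgroup.orderOf_mk] at h1
    exact Odd.of_dvd_nat hXodd h1
  have hYev : ∀ y ∈ Y, y ≠ 1 → Even (orderOf y) := by
    intro y hy hy1
    obtain ⟨k, hk⟩ := (IsPGroup.iff_orderOf.mp hY2) ⟨y, hy⟩
    rw [Subgroup.orderOf_mk] at hk
    rw [hk]
    rcases k with _ | k
    · rw [pow_zero] at hk; exact absurd (orderOf_eq_one_iff.mp hk) hy1
    · rw [pow_succ]; exact even_two.mul_left _
  have hP1 : ∀ x ∈ X, x ≠ 1 → ∀ y ∈ Y, y ≠ 1 → x * y ≠ y * x := by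
    intro x hx hx1 y hy hy1 hxy
    exact hx1 (lemmaA hsol hO hI x y (hXo x hx) (hYev y hy hy1) hxy)
  have hXY : ∀ x ∈ X, x ∈ Y → x = 1 := by
    intro x hx hxY
    by_contra hx1
    have h1 := hXo x hx
    have h3 := hYev x hxY hx1
    rw [← Nat.not_even_iff_odd] at h1
    exact h1 h3
  have hYbot : Y = ⊥ → ∀ h : H, h = 1 := by
    intro hYb h
    have hF2 := fitting_isPGroup_of_oddCore_eq_bot H hO
    have hFY : Cfsg.fittingSubgroup H ≤ Y := by
      rw [hY]
      exact Cfsg.Agent.Lib.helper15.le_pCore (Cfsg.Agent.Lib.helper7.fitting_normal H) hF2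
    have hFb : Cfsg.fittingSubgroup H = ⊥ := by rw [eq_bot_iff, ← hYb]; exact hFY
    have h1 := Cfsg.Agent.Lib.helper7.centralizer_fitting_le_of_solvable H hsol
    rw [hFb] at h1
    have h3 : h ∈ Subgroup.centralizer ((⊥ : Subgroup H) : Set H) := by
      rw [Subgroup.mem_centralizer_iff]
      intro z hz
      have hz' : z ∈ (⊥ : Subgroup H) := hz
      rw [Subgroup.mem_bot.mp hz']; simp
    exact Subgroup.mem_bot.mp (h1 h3)
  have hP2 : ∀ (p : ℕ) [Fact p.Prime] (P : Sylow p ↥X), IsCyclic ↥(P : Subgroup ↥X) := by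
    intro p hp P
    by_cases hp2 : p = 2
    · subst hp2
      have hc : Nat.card ↥(P : Subgroup ↥X) = 1 := by
        obtain ⟨k, hk⟩ := IsPGroup.iff_card.mp P.isPGroup'
        have hdvd := Subgroup.card_subgroup_dvd_card (P : Subgroup ↥X)
        rw [hk] at hdvd ⊢
        rcases k with _ | k
        · rfl
        · exfalso
          have h3 : 2 ∣ Nat.card ↥X := dvd_trans (dvd_pow_self 2 (by omega)) hdvd
          rw [Nat.odd_iff] at hXodd; omega
      have hss : Subsingleton ↥(P : Subgroup ↥X) := (Nat.card_eq_one_iff_unique.mp hc).1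
      exact isCyclic_of_subsingleton
    · have huniq : ∀ K₁ K₂ : Subgroup ↥(P : Subgroup ↥X), Nat.card K₁ = p → Nat.card K₂ = p →
          K₁ = K₂ := by
        by_contra hcon
        push Not at hcon
        obtain ⟨K₁, K₂, hK₁, hK₂, hne⟩ := hcon
        have hPnt : Nontrivial ↥(P : Subgroup ↥X) := by
          rw [← Finite.one_lt_card_iff_nontrivial]
          have h1 := Subgroup.card_subgroup_dvd_card K₁
          rw [hK₁] at h1
          have h3 := Nat.le_of_dvd Nat.card_pos h1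
          have := hp.out.two_le
          omega
        have hZnt := (P.isPGroup').center_nontrivial
        have hZp : IsPGroup p ↥(Subgroup.center ↥(P : Subgroup ↥X)) := (P.isPGroup').to_subgroup _
        have hpdvd : p ∣ Nat.card ↥(Subgroup.center ↥(P : Subgroup ↥X)) := by
          obtain ⟨k, hk⟩ := IsPGroup.iff_card.mp hZp
          rw [hk]
          rcases k with _ | k
          · exfalso
            rw [pow_zero] at hk
            have := Finite.one_lt_card_iff_nontrivial.mpr hZnt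
            omega
          · exact dvd_pow_self p (by omega)
        obtain ⟨⟨z, hzc⟩, hz⟩ := exists_prime_orderOf_dvd_card' p hpdvd
        rw [Subgroup.orderOf_mk] at hz
        obtain ⟨K, hK, hKz⟩ : ∃ K : Subgroup ↥(P : Subgroup ↥X), Nat.card K = p ∧ K ≠ Subgroup.zpowers z := by
          by_cases h1 : K₁ = Subgroup.zpowers z
          · exact ⟨K₂, hK₂, fun h => hne (h1.trans h.symm)⟩
          · exact ⟨K₁, hK₁, h1⟩
        obtain ⟨k, hkK, hkz⟩ : ∃ k ∈ K, k ∉ Subgroup.zpowers z := by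
          by_contra h
          push Not at h
          apply hKz
          apply Subgroup.eq_of_le_of_card_ge h
          rw [Nat.card_zpowers, hz, hK]
        have hkp : k ^ p = 1 := by
          have h1 := orderOf_dvd_natCard (⟨k, hkK⟩ : ↥K)
          rw [Subgroup.orderOf_mk, hK] at h1
          exact orderOf_dvd_iff_pow_eq_one.mp h1
        have hzk : z * k = k * z := (Subgroup.mem_center_iff.mp hzc k).symm
        -- the subgroup of H
        obtain ⟨zH, hzH⟩ : ∃ zH : H, zH = ((z : ↥X) : H) := ⟨_, rfl⟩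
        obtain ⟨kH, hkH⟩ : ∃ kH : H, kH = ((k : ↥X) : H) := ⟨_, rfl⟩
        have hzkH : zH * kH = kH * zH := by
          rw [hzH, hkH]
          have h1 := congrArg (fun q : ↥(P : Subgroup ↥X) => ((q : ↥X) : H)) hzk
          simpa using h1
        have hEc : IsMulCommutative (Subgroup.closure ({zH, kH} : Set H)) := by
          apply Subgroup.isMulCommutative_closure
          intro a ha b hb
          rcases ha with rfl | rfl <;> rcases hb with rfl | rfl
          · rfl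
          · exact hzkH
          · exact hzkH.symm
          · rfl
        have hzE : zH ∈ Subgroup.closure ({zH, kH} : Set H) := Subgroup.subset_closure (by simp)
        have hkE : kH ∈ Subgroup.closure ({zH, kH} : Set H) := Subgroup.subset_closure (by simp)
        have hEX : Subgroup.closure ({zH, kH} : Set H) ≤ X := by
          rw [Subgroup.closure_le]
          intro a ha
          rcases ha with rfl | rfl
          · rw [hzH]; exact (z : ↥X).2
          · rw [hkH]; exact (k : ↥X).2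
        have hEnc : ¬ IsCyclic (Subgroup.closure ({zH, kH} : Set H)) := by
          intro hcyc
          have ho : orderOf (⟨zH, hzE⟩ : Subgroup.closure ({zH, kH} : Set H)) = p := by
            rw [Subgroup.orderOf_mk, hzH, Subgroup.orderOf_coe, Subgroup.orderOf_coe, hz]
          have hkp' : (⟨kH, hkE⟩ : Subgroup.closure ({zH, kH} : Set H)) ^ p = 1 := by
            apply Subtype.ext
            rw [Subgroup.coe_pow]
            show kH ^ p = 1
            rw [hkH, ← Subgroup.coe_pow, ← Subgroup.coe_pow, hkp]; rfl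
          have h1 := cyclic_mem_zpowers _ _ p hp.out ho hkp'
          obtain ⟨i, hi⟩ := h1
          apply hkz
          refine ⟨i, ?_⟩
          have h3 := congrArg Subtype.val hi
          simp only [Subgroup.coe_zpow] at h3
          apply Subtype.ext
          apply Subtype.ext
          rw [Subgroup.coe_zpow, Subgroup.coe_zpow, ← hzH, ← hkH]
          exact h3
        have hcop : (Nat.card (Subgroup.closure ({zH, kH} : Set H))).Coprime (Nat.card Y) := by
          obtain ⟨j, hj⟩ := IsPGroup.iff_card.mp hY2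
          rw [hj]
          apply Nat.Coprime.pow_right
          rw [Nat.coprime_two_right]
          exact Odd.of_dvd_nat hXodd (Subgroup.card_dvd_of_le hEX)
        have h58 := Cfsg.Agent.S0058.result (Subgroup.closure ({zH, kH} : Set H)) Y hEnc
          Subgroup.le_normalizer_of_normal hcop
        have hYb : Y = ⊥ := by
          rw [← h58, eq_bot_iff]
          apply iSup₂_le
          intro a ha y hy
          obtain ⟨hy1, hy2⟩ := Subgroup.mem_inf.mp hy
          rw [Subgroup.mem_centralizer_singleton_iff] at hy2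
          by_contra hyne
          exact hP1 a (hEX ha.1) ha.2 y hy1 (fun h => hyne (Subgroup.mem_bot.mpr h)) hy2.symm
        have h1 := hYbot hYb zH
        have h3 : z = 1 := by
          apply Subtype.ext; apply Subtype.ext
          rw [← hzH, h1]; rfl
        rw [h3, orderOf_one] at hz
        exact hp.out.one_lt.ne hz
      rcases Cfsg.Agent.S0016.result p P.isPGroup' huniq with h | ⟨h, -⟩
      · exact h
      · exact absurd h hp2
  refine ⟨hP1, hP2, ?_⟩
  -- the quotient by Y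
  have hπs := QuotientGroup.mk'_surjective Y
  have hO2 : Cfsg.pCore 2 (H ⧸ Y) = ⊥ := by
    have hN2 : IsPGroup 2 ((Cfsg.pCore 2 (H ⧸ Y)).comap (QuotientGroup.mk' Y)) := by
      apply IsPGroup.comap_of_ker_isPGroup (Cfsg.Agent.Lib.helper15.pCore_isPGroup 2 (H ⧸ Y))
        (QuotientGroup.mk' Y)
      rw [QuotientGroup.ker_mk']; exact hY2
    have hNn : ((Cfsg.pCore 2 (H ⧸ Y)).comap (QuotientGroup.mk' Y)).Normal :=
      (Cfsg.Agent.Lib.helper15.pCore_normal 2 (H ⧸ Y)).comap _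
    have hle : (Cfsg.pCore 2 (H ⧸ Y)).comap (QuotientGroup.mk' Y) ≤ Y :=
      (Cfsg.Agent.Lib.helper15.le_pCore hNn hN2).trans (le_of_eq hY.symm)
    rw [eq_bot_iff]
    intro q hq
    obtain ⟨h, rfl⟩ := hπs q
    have h3 : h ∈ Y := hle hq
    exact Subgroup.mem_bot.mpr ((QuotientGroup.eq_one_iff h).mpr h3)
  obtain ⟨Fb, hFb⟩ : ∃ Fb : Subgroup (H ⧸ Y), Fb = Cfsg.fittingSubgroup (H ⧸ Y) := ⟨_, rfl⟩
  have hFn : Fb.Normal := by rw [hFb]; exact Cfsg.Agent.Lib.helper7.fitting_normal _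
  have hFnil : Group.IsNilpotent ↥Fb := by rw [hFb]; exact Cfsg.Agent.Lib.helper7.fitting_nilpotent _
  have hFC : Subgroup.centralizer (Fb : Set (H ⧸ Y)) ≤ Fb := by
    rw [hFb]; exact Cfsg.Agent.Lib.helper7.centralizer_fitting_le_of_solvable _ inferInstance
  have hFodd : Odd (Nat.card Fb) := by
    by_contra hne
    have hdvd : 2 ∣ Nat.card Fb := by
      rw [Nat.not_odd_iff_even] at hne; exact even_iff_two_dvd.mp hne
    let S : Sylow 2 ↥Fb := default
    have hSn : (S : Subgroup ↥Fb).Normal := inferInstance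
    have hSc : (S : Subgroup ↥Fb).Characteristic := Sylow.characteristic_of_normal S hSn
    have hSX : ((S : Subgroup ↥Fb).map Fb.subtype).Normal :=
      Cfsg.Agent.Lib.helper7.normal_map_subtype_of_char _
    have hSp : IsPGroup 2 ((S : Subgroup ↥Fb).map Fb.subtype) := S.isPGroup'.map _
    have hle := Cfsg.Agent.Lib.helper15.le_pCore hSX hSp
    rw [hO2, le_bot_iff, Subgroup.map_eq_bot_iff_of_injective _ (Subgroup.subtype_injective _)] at hle
    exact Sylow.ne_bot_of_dvd_card S hdvd hle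
  obtain ⟨Xb, hXb⟩ : ∃ Xb : Subgroup (H ⧸ Y), Xb = X.map (QuotientGroup.mk' Y) := ⟨_, rfl⟩
  have hXbodd : Odd (Nat.card Xb) := by
    rw [hXb]; exact Odd.of_dvd_nat hXodd (Subgroup.card_map_dvd _ _)
  obtain ⟨j0, hj0⟩ : ∃ j0 : ℕ, Xb.index = 2 ^ j0 := by
    have h1 : Xb.index ∣ 2 ^ k0 := by
      rw [hXb, ← hk0]; exact Subgroup.index_map_dvd X hπs
    obtain ⟨m, -, hm⟩ := (Nat.dvd_prime_pow Nat.prime_two).mp h1
    exact ⟨m, hm⟩
  have hFX : Fb ≤ Xb := by
    have h1 := Cfsg.Agent.Lib.helper3.card_sup_mul_card_inf_of_normal Xb Fb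
    have hJodd : Odd (Nat.card (Xb ⊔ Fb : Subgroup (H ⧸ Y))) := by
      have h3 : Odd (Nat.card Xb * Nat.card Fb) := hXbodd.mul hFodd
      rw [← h1] at h3
      exact (Nat.odd_mul.mp h3).1
    have h4 : Xb.relIndex (Xb ⊔ Fb) ∣ Nat.card (Xb ⊔ Fb : Subgroup (H ⧸ Y)) := Subgroup.relIndex_dvd_card _ _
    have h5 : Xb.relIndex (Xb ⊔ Fb) ∣ 2 ^ j0 := by
      rw [← hj0]; exact Subgroup.relIndex_dvd_index_of_le le_sup_left
    have h6 : Xb.relIndex (Xb ⊔ Fb) = 1 :=
      Nat.eq_one_of_dvd_coprimes (Nat.Coprime.pow_left j0 (Nat.coprime_two_left.mpr hJodd)) h5 h4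
    exact le_trans le_sup_right (Subgroup.relIndex_eq_one.mp h6)
  have hXZ : IsZGroup ↥X := ⟨fun p hp P => by
    have : Fact p.Prime := ⟨hp⟩
    exact hP2 p P⟩
  have hXbZ : IsZGroup ↥Xb := by
    rw [hXb]
    exact IsZGroup.of_surjective (f := (QuotientGroup.mk' Y).subgroupMap X)
      ((QuotientGroup.mk' Y).subgroupMap_surjective X)
  have hFZ : IsZGroup ↥Fb :=
    IsZGroup.of_injective (f := Subgroup.inclusion hFX) (Subgroup.inclusion_injective hFX)
  have hFcyc : IsCyclic ↥Fb := inferInstance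
  obtain ⟨f₀, hf₀⟩ := (Subgroup.isCyclic_iff_exists_zpowers_eq_top Fb).mp hFcyc
  have hconj : ∀ a : H ⧸ Y, ∃ m : ℤ, a * f₀ * a⁻¹ = f₀ ^ m := by
    intro a
    have h1 : a * f₀ * a⁻¹ ∈ Fb := hFn.conj_mem f₀ (by rw [← hf₀]; exact Subgroup.mem_zpowers f₀) a
    rw [← hf₀] at h1
    obtain ⟨m, hm⟩ := h1
    exact ⟨m, hm.symm⟩
  have hcommF : ∀ u v : H ⧸ Y, u * v * u⁻¹ * v⁻¹ ∈ Fb := by
    intro u v
    apply hFC
    rw [Subgroup.mem_centralizer_iff]
    intro f hf
    have hf' : f ∈ Fb := hf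
    rw [← hf₀] at hf'
    obtain ⟨i, rfl⟩ := hf'
    obtain ⟨m, hm⟩ := hconj u⁻¹
    obtain ⟨n, hn⟩ := hconj v⁻¹
    rw [inv_inv] at hm hn
    have e1 : (v⁻¹ * u⁻¹) * f₀ * (v⁻¹ * u⁻¹)⁻¹ = (u⁻¹ * v⁻¹) * f₀ * (u⁻¹ * v⁻¹)⁻¹ := by
      calc (v⁻¹ * u⁻¹) * f₀ * (v⁻¹ * u⁻¹)⁻¹ = v⁻¹ * (u⁻¹ * f₀ * u) * v := by simp [mul_assoc]
        _ = v⁻¹ * f₀ ^ m * v := by rw [hm]
        _ = (v⁻¹ * f₀ * v) ^ m := by
            have := conj_zpow (a := v⁻¹) (b := f₀) (i := m)
            rw [inv_inv] at this; exact this.symm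
        _ = (f₀ ^ n) ^ m := by rw [hn]
        _ = (f₀ ^ m) ^ n := by rw [← zpow_mul, ← zpow_mul, mul_comm]
        _ = (u⁻¹ * f₀ * u) ^ n := by rw [hm]
        _ = u⁻¹ * f₀ ^ n * u := by
            have := conj_zpow (a := u⁻¹) (b := f₀) (i := n)
            rw [inv_inv] at this; exact this
        _ = u⁻¹ * (v⁻¹ * f₀ * v) * u := by rw [hn]
        _ = _ := by simp [mul_assoc]
    have e2 : f₀ * (u * v * u⁻¹ * v⁻¹) = (u * v * u⁻¹ * v⁻¹) * f₀ := by
      have h3 : f₀ = (u * v) * ((v⁻¹ * u⁻¹) * f₀ * (v⁻¹ * u⁻¹)⁻¹) * (u * v)⁻¹ := by simp [mul_assoc]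
      calc f₀ * (u * v * u⁻¹ * v⁻¹)
          = ((u * v) * ((v⁻¹ * u⁻¹) * f₀ * (v⁻¹ * u⁻¹)⁻¹) * (u * v)⁻¹) * (u * v * u⁻¹ * v⁻¹) := by
            rw [← h3]
        _ = ((u * v) * ((u⁻¹ * v⁻¹) * f₀ * (u⁻¹ * v⁻¹)⁻¹) * (u * v)⁻¹) * (u * v * u⁻¹ * v⁻¹) := by
            rw [e1]
        _ = _ := by simp [mul_assoc]
    exact ((Commute.zpow_left (show Commute f₀ (u * v * u⁻¹ * v⁻¹) from e2) i).eq)
  have hXbn : Xb.Normal := ⟨fun xb hxb g => by
    have h1 := hFX (hcommF g xb)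
    have e : g * xb * g⁻¹ = (g * xb * g⁻¹ * xb⁻¹) * xb := by simp
    rw [e]; exact mul_mem h1 hxb⟩
  have hXYeq : X ⊔ Y = Xb.comap (QuotientGroup.mk' Y) := by
    rw [hXb, Subgroup.comap_map_eq, QuotientGroup.ker_mk']
  refine ⟨by rw [hXYeq]; exact hXbn.comap _, ?_⟩
  intro hN
  have hp2 : IsPGroup 2 (H ⧸ (X ⊔ Y)) := by
    have h1 : (X ⊔ Y).index ∣ 2 ^ k0 := by rw [← hk0]; exact Subgroup.index_dvd_of_le le_sup_left
    obtain ⟨m, -, hm⟩ := (Nat.dvd_prime_pow Nat.prime_two).mp h1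
    exact IsPGroup.of_card (n := m) (by rw [← Subgroup.index_eq_card, hm])
  refine ⟨?_, hp2⟩
  let T : Sylow 2 (H ⧸ Y) := default
  have hTF : ∀ q ∈ (T : Subgroup (H ⧸ Y)), q ∈ Fb → q = 1 := by
    intro q hqT hqF
    obtain ⟨k, hk⟩ := (IsPGroup.iff_orderOf.mp T.isPGroup') ⟨q, hqT⟩
    rw [Subgroup.orderOf_mk] at hk
    have h1 := orderOf_dvd_natCard (⟨q, hqF⟩ : ↥Fb)
    rw [Subgroup.orderOf_mk, hk] at h1
    have h3 : Odd (2 ^ k) := Odd.of_dvd_nat hFodd h1
    rcases k with _ | k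
    · rw [pow_zero] at hk; exact orderOf_eq_one_iff.mp hk
    · exfalso; rw [Nat.odd_iff, pow_succ] at h3; omega
  have hFab : ∀ f ∈ Fb, ∀ f' ∈ Fb, f * f' = f' * f := by
    intro f hf f' hf'
    rw [← hf₀] at hf hf'
    obtain ⟨i, rfl⟩ := hf
    obtain ⟨j, rfl⟩ := hf'
    show f₀ ^ i * f₀ ^ j = f₀ ^ j * f₀ ^ i
    rw [← zpow_add, ← zpow_add, add_comm]
  have hXbmem : ∀ q ∈ Xb, ∃ x ∈ X, (QuotientGroup.mk x : H ⧸ Y) = q := by
    intro q hq; rw [hXb] at hq; obtain ⟨x, hx, rfl⟩ := hq; exact ⟨x, hx, rfl⟩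
  have hinv : ∀ e : H ⧸ Y, orderOf e = 2 → ∀ f ∈ Fb, e * f * e⁻¹ = f⁻¹ := by
    intro e he f hf
    have he2 : e * e = 1 := by rw [← pow_two, ← he, pow_orderOf_eq_one]
    have hef : e * f * e⁻¹ ∈ Fb := hFn.conj_mem f hf e
    have hw : f * (e * f * e⁻¹) ∈ Fb := mul_mem hf hef
    obtain ⟨x, hx, hxw⟩ := hXbmem _ (hFX hw)
    have h1 : e * (f * (e * f * e⁻¹)) * e⁻¹ = (e * f * e⁻¹) * f := by
      calc e * (f * (e * f * e⁻¹)) * e⁻¹ = (e * f * e⁻¹) * ((e * e) * f * (e * e)⁻¹) := by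
            simp [mul_assoc]
        _ = (e * f * e⁻¹) * f := by rw [he2]; simp
    have h3 : (e * f * e⁻¹) * f = f * (e * f * e⁻¹) := hFab _ hef _ hf
    have hcomm : e * (f * (e * f * e⁻¹)) = (f * (e * f * e⁻¹)) * e := by
      have h4 := h1.trans h3
      calc e * (f * (e * f * e⁻¹)) = (e * (f * (e * f * e⁻¹)) * e⁻¹) * e := by simp
        _ = (f * (e * f * e⁻¹)) * e := by rw [h4]
    have hx1 := lifting hsol hO hI Y hY2 e he x (hXo x hx) (by rw [hxw]; exact hcomm)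
    rw [hx1, QuotientGroup.mk_one] at hxw
    exact eq_inv_of_mul_eq_one_right hxw.symm
  have hinvol : ∀ e₁ ∈ (T : Subgroup (H ⧸ Y)), ∀ e₂ ∈ (T : Subgroup (H ⧸ Y)), orderOf e₁ = 2 →
      orderOf e₂ = 2 → e₁ = e₂ := by
    intro e₁ h₁ e₂ h₂ ho₁ ho₂
    have hc : e₁ * e₂ ∈ Fb := by
      apply hFC
      rw [Subgroup.mem_centralizer_iff]
      intro f hf
      have hf' : f ∈ Fb := hf
      have h1 := hinv e₂ ho₂ f hf'
      have h3 := hinv e₁ ho₁ f⁻¹ (inv_mem hf')
      rw [inv_inv] at h3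
      have h4 : (e₁ * e₂) * f * (e₁ * e₂)⁻¹ = f := by
        calc (e₁ * e₂) * f * (e₁ * e₂)⁻¹ = e₁ * (e₂ * f * e₂⁻¹) * e₁⁻¹ := by simp [mul_assoc]
          _ = f := by rw [h1, h3]
      calc f * (e₁ * e₂) = ((e₁ * e₂) * f * (e₁ * e₂)⁻¹) * (e₁ * e₂) := by rw [h4]
        _ = (e₁ * e₂) * f := by rw [inv_mul_cancel_right]
    have h5 := hTF _ (mul_mem h₁ h₂) hc
    have he2 : e₂ * e₂ = 1 := by rw [← pow_two, ← ho₂, pow_orderOf_eq_one]
    calc e₁ = e₁ * (e₂ * e₂) := by rw [he2, mul_one]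
      _ = (e₁ * e₂) * e₂ := by rw [mul_assoc]
      _ = e₂ := by rw [h5, one_mul]
  have hTab : ∀ s ∈ (T : Subgroup (H ⧸ Y)), ∀ t ∈ (T : Subgroup (H ⧸ Y)), s * t = t * s := by
    intro s hs t ht
    have h1 := hTF _ (mul_mem (mul_mem (mul_mem hs ht) (inv_mem hs)) (inv_mem ht)) (hcommF s t)
    calc s * t = (s * t * s⁻¹ * t⁻¹) * t * s := by simp [mul_assoc]
      _ = t * s := by rw [h1, one_mul]
  have hTcyc : IsCyclic ↥(T : Subgroup (H ⧸ Y)) := by
    have huniq : ∀ K₁ K₂ : Subgroup ↥(T : Subgroup (H ⧸ Y)), Nat.card K₁ = 2 → Nat.card K₂ = 2 →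
        K₁ = K₂ := by
      have key : ∀ K : Subgroup ↥(T : Subgroup (H ⧸ Y)), Nat.card K = 2 →
          ∃ k : ↥(T : Subgroup (H ⧸ Y)), orderOf k = 2 ∧ Subgroup.zpowers k = K := by
        intro K hK
        have hnt : K ≠ ⊥ := by intro h; rw [h] at hK; simp at hK
        obtain ⟨⟨k, hk⟩, hk1⟩ := Subgroup.ne_bot_iff_exists_ne_one.mp hnt
        have ho : orderOf k ∣ 2 := by
          have h1 := orderOf_dvd_natCard (⟨k, hk⟩ : K)
          rwa [Subgroup.orderOf_mk, hK] at h1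
        have ho2 : orderOf k = 2 := by
          rcases (Nat.dvd_prime Nat.prime_two).mp ho with h1 | h1
          · exact absurd (orderOf_eq_one_iff.mp h1) (fun h' => hk1 (Subtype.ext h'))
          · exact h1
        refine ⟨k, ho2, ?_⟩
        apply Subgroup.eq_of_le_of_card_ge
        · rw [Subgroup.zpowers_le]; exact hk
        · rw [Nat.card_zpowers, ho2, hK]
      intro K₁ K₂ h₁ h₂
      obtain ⟨k₁, ho₁, rfl⟩ := key K₁ h₁
      obtain ⟨k₂, ho₂, rfl⟩ := key K₂ h₂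
      have hkk : k₁ = k₂ := Subtype.ext (hinvol _ k₁.2 _ k₂.2
        (by rw [Subgroup.orderOf_coe]; exact ho₁) (by rw [Subgroup.orderOf_coe]; exact ho₂))
      rw [hkk]
    rcases Cfsg.Agent.S0016.result 2 T.isPGroup' huniq with h | ⟨-, n, ⟨e⟩⟩
    · exact h
    · rcases n with _ | n
      · have hc : IsCyclic (QuaternionGroup (2 ^ 0)) := QuaternionGroup.quaternionGroup_one_isCyclic
        exact isCyclic_of_surjective e.symm e.symm.surjective
      · exfalso
        have h1 : e.symm (QuaternionGroup.a 1) * e.symm (QuaternionGroup.xa 0) =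
            e.symm (QuaternionGroup.xa 0) * e.symm (QuaternionGroup.a 1) :=
          Subtype.ext (hTab _ (e.symm _).2 _ (e.symm _).2)
        rw [← map_mul, ← map_mul] at h1
        have h3 := e.symm.injective h1
        rw [QuaternionGroup.a_mul_xa, QuaternionGroup.xa_mul_a] at h3
        have h4 : (0 : ZMod (2 * 2 ^ (n + 1))) - 1 = 0 + 1 := by injection h3
        have h5 : ((2 : ℕ) : ZMod (2 * 2 ^ (n + 1))) = 0 := by
          push_cast
          linear_combination (-1 : ZMod (2 * 2 ^ (n + 1))) * h4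
        rw [ZMod.natCast_eq_zero_iff] at h5
        have h6 := Nat.le_of_dvd (by norm_num) h5
        have h7 : 1 ≤ 2 ^ n := Nat.one_le_two_pow
        rw [pow_succ] at h6
        omega
  obtain ⟨τb, hτb⟩ := (Subgroup.isCyclic_iff_exists_zpowers_eq_top (T : Subgroup (H ⧸ Y))).mp hTcyc
  obtain ⟨τ, rfl⟩ := hπs τb
  have hsup : Xb ⊔ (T : Subgroup (H ⧸ Y)) = ⊤ := by
    rw [← Subgroup.index_eq_one]
    have h1 : (Xb ⊔ (T : Subgroup (H ⧸ Y))).index ∣ 2 ^ j0 := by
      rw [← hj0]; exact Subgroup.index_dvd_of_le le_sup_left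
    have h3 : (Xb ⊔ (T : Subgroup (H ⧸ Y))).index ∣ (T : Subgroup (H ⧸ Y)).index :=
      Subgroup.index_dvd_of_le le_sup_right
    obtain ⟨m, -, hm⟩ := (Nat.dvd_prime_pow Nat.prime_two).mp h1
    rcases m with _ | m
    · rw [hm, pow_zero]
    · exfalso
      apply T.not_dvd_index
      exact dvd_trans (by rw [hm]; exact dvd_pow_self 2 (by omega)) h3
  refine isCyclic_iff_exists_zpowers_eq_top.mpr ⟨QuotientGroup.mk' (X ⊔ Y) τ, eq_top_iff.mpr ?_⟩
  intro q _
  obtain ⟨h, rfl⟩ := QuotientGroup.mk'_surjective (X ⊔ Y) q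
  have hh : (QuotientGroup.mk' Y h) ∈
      ((Xb ⊔ (T : Subgroup (H ⧸ Y)) : Subgroup (H ⧸ Y)) : Set (H ⧸ Y)) := by rw [hsup]; trivial
  rw [Subgroup.normal_mul] at hh
  obtain ⟨xb, hxb, tb, htb, hprod⟩ := Set.mem_mul.mp hh
  obtain ⟨x, hx, rfl⟩ := hXbmem xb hxb
  have htb' : tb ∈ (T : Subgroup (H ⧸ Y)) := htb
  rw [← hτb] at htb'
  obtain ⟨i, rfl⟩ := Subgroup.mem_zpowers_iff.mp htb'
  have h1 : (QuotientGroup.mk (x * τ ^ i) : H ⧸ Y) = QuotientGroup.mk h := by
    rw [QuotientGroup.mk_mul, QuotientGroup.mk_zpow]; exact hprod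
  have h3 : (x * τ ^ i)⁻¹ * h ∈ Y := QuotientGroup.eq.mp h1
  obtain ⟨y, hy, hhy⟩ : ∃ y ∈ Y, h = x * τ ^ i * y := ⟨_, h3, by rw [mul_inv_cancel_left]⟩
  have hx1 : QuotientGroup.mk' (X ⊔ Y) x = 1 :=
    (QuotientGroup.eq_one_iff x).mpr ((le_sup_left : X ≤ X ⊔ Y) hx)
  have hy1 : QuotientGroup.mk' (X ⊔ Y) y = 1 :=
    (QuotientGroup.eq_one_iff y).mpr ((le_sup_right : Y ≤ X ⊔ Y) hy)
  refine Subgroup.mem_zpowers_iff.mpr ⟨i, ?_⟩
  rw [hhy, map_mul, map_mul, map_zpow, hx1, hy1, one_mul, mul_one]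

end Cfsg.Agent.S3215
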