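import Cfsg.Statements.S3224
import Mathlib
import Cfsg.Agent.S0206

set_option autoImplicit false
open Cfsg

namespace Cfsg.Agent.S3224

universe u

theorem cyc_max : ∀ (n : ℕ) (S : Type u) [Group S] [Finite S], Nat.card S = n → IsPGroup 2 S →
    ∀ x : S, orderOf x = 2 → Nat.card ↥(Subgroup.centralizer ({x} : Set S)) ≤ 4 → 8 ≤ Nat.card S →
    ∃ a : S, (Subgroup.zpowers a).index = 2 ∧ x ∉ Subgroup.zpowers a := by
  intro n
  induction n using Nat.strong_induction_on with
  | _ n ih =>
  intro S _ _ hn hS x hx hC h8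
  classical
  have h2 : Fact (Nat.Prime 2) := ⟨Nat.prime_two⟩
  have hx2 : x * x = 1 := by rw [← pow_two, ← hx, pow_orderOf_eq_one]
  have hx1 : x ≠ 1 := by intro h; rw [h, orderOf_one] at hx; omega
  have hxnc : x ∉ Subgroup.center S := by
    intro hxc
    have h1 : Subgroup.centralizer ({x} : Set S) = ⊤ := by
      rw [eq_top_iff]; intro g _
      rw [Subgroup.mem_centralizer_singleton_iff]
      exact (Subgroup.mem_center_iff.mp hxc g)
    rw [h1, Subgroup.card_top] at hC
    omega
  have hnt : Nontrivial S := by rw [← Finite.one_lt_card_iff_nontrivial]; omega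
  have hZnt := hS.center_nontrivial
  have hZp : IsPGroup 2 ↥(Subgroup.center S) := hS.to_subgroup _
  have h2dvd : 2 ∣ Nat.card ↥(Subgroup.center S) := by
    obtain ⟨k, hk⟩ := IsPGroup.iff_card.mp hZp
    rw [hk]
    rcases k with _ | k
    · exfalso; rw [pow_zero] at hk
      have := Finite.one_lt_card_iff_nontrivial.mpr hZnt; omega
    · exact dvd_pow_self 2 (by omega)
  obtain ⟨⟨z, hzc⟩, hz⟩ := exists_prime_orderOf_dvd_card' 2 h2dvd
  rw [Subgroup.orderOf_mk] at hz
  have hzc' : ∀ g : S, g * z = z * g := Subgroup.mem_center_iff.mp hzc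
  have hz2 : z * z = 1 := by rw [← pow_two, ← hz, pow_orderOf_eq_one]
  have hz1 : z ≠ 1 := by intro h; rw [h, orderOf_one] at hz; omega
  have hZmem : ∀ g : S, g ∈ Subgroup.zpowers z ↔ g = 1 ∨ g = z := by
    intro g; constructor
    · rintro ⟨i, rfl⟩
      rcases Int.even_or_odd' i with ⟨l, rfl | rfl⟩
      · left; show z ^ (2 * l) = 1
        rw [zpow_mul, zpow_ofNat, pow_two, hz2, one_zpow]
      · right; show z ^ (2 * l + 1) = z
        rw [zpow_add, zpow_mul, zpow_ofNat, pow_two, hz2, one_zpow, one_mul, zpow_one]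
    · rintro (rfl | rfl)
      · exact one_mem _
      · exact Subgroup.mem_zpowers _
  have hZn : (Subgroup.zpowers z).Normal := ⟨fun g hg k => by
    rcases (hZmem g).mp hg with rfl | rfl
    · simp
    · rw [hzc' k, mul_inv_cancel_right]; exact Subgroup.mem_zpowers _⟩
  have hZcard : Nat.card (Subgroup.zpowers z) = 2 := by rw [Nat.card_zpowers, hz]
  have hcardq : Nat.card S = Nat.card (S ⧸ Subgroup.zpowers z) * 2 := by
    rw [← hZcard]; exact Subgroup.card_eq_card_quotient_mul_card_subgroup _
  have hxZ : x ∉ Subgroup.zpowers z := by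
    intro h
    rcases (hZmem x).mp h with h | h
    · exact hx1 h
    · exact hxnc (h ▸ hzc)
  have hxb : orderOf (QuotientGroup.mk x : S ⧸ Subgroup.zpowers z) = 2 := by
    apply orderOf_eq_prime
    · rw [pow_two, ← QuotientGroup.mk_mul, hx2]; rfl
    · intro h; exact hxZ ((QuotientGroup.eq_one_iff x).mp h)
  have hCb : Nat.card ↥(Subgroup.centralizer
      ({(QuotientGroup.mk x : S ⧸ Subgroup.zpowers z)} : Set (S ⧸ Subgroup.zpowers z))) ≤ 4 := by
    obtain ⟨N, hN⟩ : ∃ N : Subgroup S, N = (Subgroup.centralizer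
      ({(QuotientGroup.mk x : S ⧸ Subgroup.zpowers z)} : Set (S ⧸ Subgroup.zpowers z))).comap
        (QuotientGroup.mk' (Subgroup.zpowers z)) := ⟨_, rfl⟩
    have hNZ : ∀ g ∈ N, g * x * g⁻¹ * x⁻¹ ∈ Subgroup.zpowers z := by
      intro g hg
      rw [hN, Subgroup.mem_comap, Subgroup.mem_centralizer_singleton_iff] at hg
      rw [← QuotientGroup.eq_one_iff]
      simp only [QuotientGroup.mk_mul, QuotientGroup.mk_inv]
      have hg' : (QuotientGroup.mk g : S ⧸ Subgroup.zpowers z) * QuotientGroup.mk x =
          QuotientGroup.mk x * QuotientGroup.mk g := hg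
      rw [hg']; simp
    have hZc : ∀ c ∈ Subgroup.zpowers z, ∀ g : S, g * c = c * g := by
      intro c hc g
      rcases (hZmem c).mp hc with rfl | rfl
      · simp
      · exact hzc' g
    let ψ : ↥N →* S :=
      { toFun := fun g => (g : S) * x * (g : S)⁻¹ * x⁻¹
        map_one' := by simp
        map_mul' := fun g h => by
          have h1 := hZc _ (hNZ h h.2)
          have h3 := hZc _ (hNZ g g.2)
          simp only [Subgroup.coe_mul]
          calc (g : S) * (h : S) * x * ((g : S) * (h : S))⁻¹ * x⁻¹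
              = ((g : S) * ((h : S) * x * (h : S)⁻¹ * x⁻¹)) * x * (g : S)⁻¹ * x⁻¹ := by
                simp [mul_assoc]
            _ = (((h : S) * x * (h : S)⁻¹ * x⁻¹) * (g : S)) * x * (g : S)⁻¹ * x⁻¹ := by rw [h1]
            _ = ((h : S) * x * (h : S)⁻¹ * x⁻¹) * ((g : S) * x * (g : S)⁻¹ * x⁻¹) := by
                simp [mul_assoc]
            _ = _ := h3 _ }
    have hrange : ψ.range ≤ Subgroup.zpowers z := by
      rintro _ ⟨g, rfl⟩
      exact hNZ g g.2
    have hcr : Nat.card ψ.range ≤ 2 := by
      rw [← hZcard]; exact Subgroup.card_le_of_le hrange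
    have hck : Nat.card ψ.ker ≤ 4 := by
      refine le_trans ?_ hC
      apply Nat.card_le_card_of_injective
        (fun k : ψ.ker => (⟨((k : ↥N) : S), by
          rw [Subgroup.mem_centralizer_singleton_iff]
          have h1 : ((k : ↥N) : S) * x * ((k : ↥N) : S)⁻¹ * x⁻¹ = 1 := k.2
          calc ((k : ↥N) : S) * x = (((k : ↥N) : S) * x * ((k : ↥N) : S)⁻¹ * x⁻¹) * x * ((k : ↥N) : S) := by
                simp [mul_assoc]
            _ = x * ((k : ↥N) : S) := by rw [h1, one_mul]⟩ : ↥(Subgroup.centralizer ({x} : Set S))))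
      intro k₁ k₂ h
      have h1 := congrArg Subtype.val h
      exact Subtype.ext (Subtype.ext h1)
    have hcN : Nat.card N ≤ 8 := by
      have h1 := Subgroup.card_eq_card_quotient_mul_card_subgroup ψ.ker
      rw [Nat.card_congr (QuotientGroup.quotientKerEquivRange ψ).toEquiv] at h1
      rw [h1]
      calc Nat.card ψ.range * Nat.card ψ.ker ≤ 2 * 4 := Nat.mul_le_mul hcr hck
        _ = 8 := by norm_num
    have hidx : N.index = (Subgroup.centralizer
      ({(QuotientGroup.mk x : S ⧸ Subgroup.zpowers z)} : Set (S ⧸ Subgroup.zpowers z))).index := by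
      rw [hN]; exact Subgroup.index_comap_of_surjective _ (QuotientGroup.mk'_surjective _)
    have h1 := Subgroup.card_mul_index N
    have h3 := Subgroup.card_mul_index (Subgroup.centralizer
      ({(QuotientGroup.mk x : S ⧸ Subgroup.zpowers z)} : Set (S ⧸ Subgroup.zpowers z)))
    rw [hidx, hcardq, ← h3] at h1
    have hpos : 0 < (Subgroup.centralizer
      ({(QuotientGroup.mk x : S ⧸ Subgroup.zpowers z)} : Set (S ⧸ Subgroup.zpowers z))).index :=
      Nat.pos_of_ne_zero Subgroup.index_ne_zero_of_finite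
    have h4 : Nat.card N = Nat.card ↥(Subgroup.centralizer
      ({(QuotientGroup.mk x : S ⧸ Subgroup.zpowers z)} : Set (S ⧸ Subgroup.zpowers z))) * 2 := by
      have h5 : Nat.card N * (Subgroup.centralizer
          ({(QuotientGroup.mk x : S ⧸ Subgroup.zpowers z)} : Set (S ⧸ Subgroup.zpowers z))).index =
          (Nat.card ↥(Subgroup.centralizer
          ({(QuotientGroup.mk x : S ⧸ Subgroup.zpowers z)} : Set (S ⧸ Subgroup.zpowers z))) * 2) *
          (Subgroup.centralizer
          ({(QuotientGroup.mk x : S ⧸ Subgroup.zpowers z)} : Set (S ⧸ Subgroup.zpowers z))).index := by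
        rw [h1]; ring
      exact Nat.eq_of_mul_eq_mul_right hpos h5
    omega
  have hqcard : Nat.card (S ⧸ Subgroup.zpowers z) < n := by omega
  have hqp : IsPGroup 2 (S ⧸ Subgroup.zpowers z) := hS.to_quotient _
  by_cases hq8 : 8 ≤ Nat.card (S ⧸ Subgroup.zpowers z)
  · -- inductive step
    obtain ⟨ab, habidx, hxab⟩ := ih _ hqcard (S ⧸ Subgroup.zpowers z) rfl hqp _ hxb hCb hq8
    obtain ⟨a, rfl⟩ := QuotientGroup.mk_surjective ab
    obtain ⟨A, hA⟩ : ∃ A : Subgroup S, A = (Subgroup.zpowers (QuotientGroup.mk a : S ⧸ Subgroup.zpowers z)).comap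
        (QuotientGroup.mk' (Subgroup.zpowers z)) := ⟨_, rfl⟩
    have hAidx : A.index = 2 := by
      rw [hA, Subgroup.index_comap_of_surjective _ (QuotientGroup.mk'_surjective _)]; exact habidx
    have hAmem : ∀ g : S, g ∈ A ↔ ∃ i : ℤ, ∃ d ∈ Subgroup.zpowers z, g = a ^ i * d := by
      intro g
      rw [hA, Subgroup.mem_comap]
      constructor
      · rintro ⟨i, hi⟩
        have h1 : (QuotientGroup.mk (a ^ i) : S ⧸ Subgroup.zpowers z) = QuotientGroup.mk g := by
          rw [QuotientGroup.mk_zpow]; exact hi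
        exact ⟨i, (a ^ i)⁻¹ * g, QuotientGroup.eq.mp h1, by rw [mul_inv_cancel_left]⟩
      · rintro ⟨i, d, hd, rfl⟩
        refine ⟨i, ?_⟩
        show (QuotientGroup.mk a : S ⧸ Subgroup.zpowers z) ^ i = QuotientGroup.mk (a ^ i * d)
        rw [QuotientGroup.mk_mul, (QuotientGroup.eq_one_iff d).mpr hd, mul_one, QuotientGroup.mk_zpow]
    have hxA : x ∉ A := by
      intro h
      rw [hA, Subgroup.mem_comap] at h
      exact hxab h
    have haA : a ∈ A := (hAmem a).mpr ⟨1, 1, one_mem _, by simp⟩
    have hzA : z ∈ A := (hAmem z).mpr ⟨0, z, Subgroup.mem_zpowers z, by simp⟩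
    have hAn : A.Normal := Subgroup.normal_of_index_eq_two hAidx
    -- order of ab
    obtain ⟨m, hm⟩ : ∃ m, m = orderOf (QuotientGroup.mk a : S ⧸ Subgroup.zpowers z) := ⟨_, rfl⟩
    have hm4 : 4 ≤ m := by
      have h1 := Subgroup.card_mul_index (Subgroup.zpowers (QuotientGroup.mk a : S ⧸ Subgroup.zpowers z))
      rw [Nat.card_zpowers, habidx, ← hm] at h1
      omega
    have ham : a ^ m ∈ Subgroup.zpowers z := by
      rw [← QuotientGroup.eq_one_iff, QuotientGroup.mk_pow, hm, pow_orderOf_eq_one]
    rcases (hZmem _).mp ham with ham1 | hamz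
    · -- a^m = 1 : contradiction
      exfalso
      have hoa : orderOf a = m := by
        apply Nat.dvd_antisymm (orderOf_dvd_of_pow_eq_one ham1)
        rw [hm]
        exact orderOf_map_dvd (QuotientGroup.mk' (Subgroup.zpowers z)) a
      obtain ⟨k, hk⟩ := (IsPGroup.iff_orderOf.mp hS) a
      rw [hoa] at hk
      have hk2 : 2 ≤ k := by
        by_contra hlt
        push Not at hlt
        have : m ≤ 2 := by
          rw [hk]
          calc 2 ^ k ≤ 2 ^ 1 := Nat.pow_le_pow_right (by norm_num) (by omega)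
            _ = 2 := by norm_num
        omega
      obtain ⟨k', rfl⟩ : ∃ k', k = k' + 2 := ⟨k - 2, by omega⟩
      have hm2 : m = 2 * (2 * 2 ^ k') := by rw [hk, pow_succ, pow_succ]; ring
      obtain ⟨w, hw⟩ : ∃ w : S, w = a ^ (2 * 2 ^ k') := ⟨_, rfl⟩
      have hw2 : w * w = 1 := by
        rw [hw, ← pow_add, ← two_mul, ← hm2, ham1]
      have hw1 : w ≠ 1 := by
        intro h
        rw [hw] at h
        have h1 := orderOf_dvd_of_pow_eq_one h
        rw [hoa, hm2] at h1
        have h3 := Nat.le_of_dvd (by positivity) h1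
        have : 0 < 2 ^ k' := by positivity
        omega
      have hwA : w ∈ A := by rw [hw]; exact pow_mem haA _
      -- z ∉ zpowers a
      have hzna : z ∉ Subgroup.zpowers a := by
        rintro ⟨j, hj⟩
        have hj' : a ^ j = z := hj
        have h1 : (QuotientGroup.mk a : S ⧸ Subgroup.zpowers z) ^ j = 1 := by
          rw [← QuotientGroup.mk_zpow, hj']
          exact (QuotientGroup.eq_one_iff z).mpr (Subgroup.mem_zpowers z)
        have h3 := orderOf_dvd_iff_zpow_eq_one.mpr h1
        rw [← hm, ← hoa] at h3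
        have h4 := orderOf_dvd_iff_zpow_eq_one.mp h3
        rw [hj'] at h4
        exact hz1 h4
      have hwz : w ≠ z := by
        intro h
        apply hzna
        rw [← h, hw]
        exact Subgroup.npow_mem_zpowers a _
      -- x w x⁻¹ = w
      obtain ⟨i, d, hd, hxa⟩ := (hAmem _).mp (hAn.conj_mem a haA x)
      have hdc : ∀ g : S, g * d = d * g := by
        intro g
        rcases (hZmem d).mp hd with rfl | rfl
        · simp
        · exact hzc' g
      have hd2 : d * d = 1 := by
        rcases (hZmem d).mp hd with rfl | rfl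
        · simp
        · exact hz2
      have hxw : x * w * x⁻¹ = w ^ i := by
        have h1 : x * w * x⁻¹ = (x * a * x⁻¹) ^ (2 * 2 ^ k') := by rw [hw, conj_pow]
        rw [h1, hxa]
        have hcomm : Commute (a ^ i) d := (hdc (a ^ i))
        rw [hcomm.mul_pow]
        have h3 : d ^ (2 * 2 ^ k') = 1 := by rw [pow_mul, pow_two, hd2, one_pow]
        rw [h3, mul_one, hw, ← zpow_natCast, ← zpow_natCast, ← zpow_mul, ← zpow_mul, mul_comm]
      have hxw' : x * w * x⁻¹ = w := by
        rw [hxw]
        rcases Int.even_or_odd' i with ⟨l, rfl | rfl⟩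
        · exfalso
          have h1 : w ^ (2 * l) = 1 := by rw [zpow_mul, zpow_ofNat, pow_two, hw2, one_zpow]
          rw [h1] at hxw
          apply hw1
          have h3 : w = x⁻¹ * (x * w * x⁻¹) * x := by simp [mul_assoc]
          rw [h3, hxw]; simp
        · rw [zpow_add, zpow_mul, zpow_ofNat, pow_two, hw2, one_zpow, one_mul, zpow_one]
      -- C ⊓ A
      have hlt : Subgroup.centralizer ({x} : Set S) ⊓ A < Subgroup.centralizer ({x} : Set S) := by
        refine lt_of_le_of_ne inf_le_left (fun h => hxA ?_)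
        have h1 : x ∈ Subgroup.centralizer ({x} : Set S) ⊓ A := by
          rw [h]; exact Subgroup.mem_centralizer_singleton_iff.mpr rfl
        exact (Subgroup.mem_inf.mp h1).2
      have hcard2 : Nat.card ↥(Subgroup.centralizer ({x} : Set S) ⊓ A : Subgroup S) ≤ 2 := by
        obtain ⟨r, hr⟩ := Subgroup.card_dvd_of_le (le_of_lt hlt)
        have hr1 : r ≠ 1 := by
          rintro rfl
          rw [mul_one] at hr
          exact (ne_of_lt hlt) (Subgroup.eq_of_le_of_card_ge (le_of_lt hlt) (le_of_eq hr))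
        have hr0 : r ≠ 0 := by
          rintro rfl
          rw [mul_zero] at hr
          have := Nat.card_pos (α := ↥(Subgroup.centralizer ({x} : Set S)))
          omega
        have hr2 : 2 ≤ r := by omega
        nlinarith
      have hzC : z ∈ Subgroup.centralizer ({x} : Set S) ⊓ A :=
        Subgroup.mem_inf.mpr ⟨Subgroup.mem_centralizer_singleton_iff.mpr (hzc' x).symm, hzA⟩
      have hwC : w ∈ Subgroup.centralizer ({x} : Set S) ⊓ A := by
        refine Subgroup.mem_inf.mpr ⟨Subgroup.mem_centralizer_singleton_iff.mpr ?_, hwA⟩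
        calc w * x = (x * w * x⁻¹) * x := by rw [hxw']
          _ = x * w := by rw [inv_mul_cancel_right]
      have heq : Subgroup.zpowers z = Subgroup.centralizer ({x} : Set S) ⊓ A := by
        apply Subgroup.eq_of_le_of_card_ge
        · rw [Subgroup.zpowers_le]; exact hzC
        · rw [hZcard]; exact hcard2
      rw [← heq] at hwC
      rcases (hZmem w).mp hwC with h | h
      · exact hw1 h
      · exact hwz h
    · -- a^m = z: zpowers a = A
      refine ⟨a, ?_, ?_⟩
      · have hAeq : Subgroup.zpowers a = A := by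
          apply le_antisymm
          · rw [Subgroup.zpowers_le]; exact haA
          · intro g hg
            obtain ⟨i, d, hd, rfl⟩ := (hAmem g).mp hg
            refine mul_mem (Subgroup.zpow_mem_zpowers a i) ?_
            rcases (hZmem d).mp hd with rfl | rfl
            · exact one_mem _
            · rw [← hamz]; exact Subgroup.npow_mem_zpowers a m
        rw [hAeq]; exact hAidx
      · intro h
        apply hxA
        exact (Subgroup.zpowers_le.mpr haA) h
  · -- base case: card S = 8
    have hS8 : Nat.card S = 8 := by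
      obtain ⟨k, hk⟩ := IsPGroup.iff_card.mp hS
      have hk3 : k < 4 := by
        by_contra hge
        push Not at hge
        have : 2 ^ 4 ≤ 2 ^ k := Nat.pow_le_pow_right (by norm_num) hge
        omega
      have hk3' : 3 ≤ k := by
        by_contra hlt
        push Not at hlt
        have : 2 ^ k ≤ 2 ^ 2 := Nat.pow_le_pow_right (by norm_num) (by omega)
        omega
      have : k = 3 := by omega
      rw [hk, this]; norm_num
    have hex : ∃ a : S, a * a ≠ 1 := by
      by_contra hno
      push Not at hno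
      apply hxnc
      rw [Subgroup.mem_center_iff]
      intro g
      have h1 := hno (g * x)
      have h2' := hno g
      calc g * x = g * x * ((g * x) * (g * x))⁻¹ := by rw [h1]; simp
        _ = x⁻¹ * g⁻¹ := by simp [mul_assoc]
        _ = x * g := by
          rw [inv_eq_of_mul_eq_one_left hx2, inv_eq_of_mul_eq_one_left h2']
    obtain ⟨a, ha⟩ := hex
    have ha1 : a ≠ 1 := by rintro rfl; simp at ha
    have hoa_dvd : orderOf a ∣ 8 := by rw [← hS8]; exact orderOf_dvd_natCard a
    have hoa1 : orderOf a ≠ 1 := by rw [Ne, orderOf_eq_one_iff]; exact ha1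
    have hoa2 : orderOf a ≠ 2 := by
      intro h; apply ha; rw [← pow_two, ← h, pow_orderOf_eq_one]
    have hcent : (Subgroup.zpowers a).Normal → x ∈ Subgroup.zpowers a → False := by
      intro hn hxa
      obtain ⟨i, hi⟩ := hxa
      have hi' : a ^ i = x := hi
      apply hxnc
      rw [Subgroup.mem_center_iff]
      intro g
      obtain ⟨j, hj⟩ := hn.conj_mem a (Subgroup.mem_zpowers a) g
      have hj' : a ^ j = g * a * g⁻¹ := hj
      have h1 : g * x * g⁻¹ = x ^ j := by
        rw [← hi', ← conj_zpow, ← hj', ← zpow_mul, ← zpow_mul, mul_comm]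
      have h3 : g * x * g⁻¹ = x := by
        rw [h1]
        rcases Int.even_or_odd' j with ⟨l, rfl | rfl⟩
        · exfalso
          have h4 : x ^ (2 * l) = 1 := by rw [zpow_mul, zpow_ofNat, pow_two, hx2, one_zpow]
          rw [h4] at h1
          apply hx1
          have h5 : x = g⁻¹ * (g * x * g⁻¹) * g := by simp [mul_assoc]
          rw [h5, h1]; simp
        · rw [zpow_add, zpow_mul, zpow_ofNat, pow_two, hx2, one_zpow, one_mul, zpow_one]
      calc g * x = (g * x * g⁻¹) * g := by rw [inv_mul_cancel_right]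
        _ = x * g := by rw [h3]
    have hoa4 : orderOf a = 4 := by
      have h8n : orderOf a ≠ 8 := by
        intro h8'
        have htop : Subgroup.zpowers a = ⊤ := by
          apply Subgroup.eq_top_of_card_eq
          rw [Nat.card_zpowers, h8', hS8]
        exact hcent (by rw [htop]; infer_instance) (by rw [htop]; exact Subgroup.mem_top x)
      have h83 : (8 : ℕ) = 2 ^ 3 := by norm_num
      rw [h83] at hoa_dvd
      obtain ⟨m, hm, hm'⟩ := (Nat.dvd_prime_pow Nat.prime_two).mp hoa_dvd
      have hm0 : m ≠ 0 := by rintro rfl; exact hoa1 (by rw [hm']; norm_num)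
      have hm1 : m ≠ 1 := by rintro rfl; exact hoa2 (by rw [hm']; norm_num)
      have hm3 : m ≠ 3 := by rintro rfl; exact h8n (by rw [hm']; norm_num)
      have hm2 : m = 2 := by omega
      rw [hm', hm2]; norm_num
    have hidx : (Subgroup.zpowers a).index = 2 := by
      have h1 := Subgroup.card_mul_index (Subgroup.zpowers a)
      rw [Nat.card_zpowers, hoa4, hS8] at h1
      omega
    exact ⟨a, hidx, fun hxa => hcent (Subgroup.normal_of_index_eq_two hidx) hxa⟩

/-- A finite 2-group containing an involution whose centralizer has order 4 is dihedral, quasi-dihedral (semidihedral), or of order 4. -/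
theorem result {S : Type*} [Group S] [Finite S] (hS : IsPGroup 2 S)
    (x : S) (hx : orderOf x = 2) (hC : Nat.card ↥(Subgroup.centralizer ({x} : Set S)) = 4) :
    (∃ n : ℕ, Nonempty (S ≃* DihedralGroup n)) ∨ Cfsg.IsQuasiDihedral S ∨ Nat.card S = 4 := by
  classical
  by_cases h8 : 8 ≤ Nat.card S
  swap
  · right; right
    have h1 : 4 ∣ Nat.card S := by rw [← hC]; exact Subgroup.card_subgroup_dvd_card _
    obtain ⟨r, hr⟩ := h1
    have : 0 < Nat.card S := Nat.card_pos
    omega
  obtain ⟨a, haidx, hxa⟩ := cyc_max _ S rfl hS x hx hC.le h8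
  have hx2 : x * x = 1 := by rw [← pow_two, ← hx, pow_orderOf_eq_one]
  have hx1 : x ≠ 1 := by intro h; rw [h, orderOf_one] at hx; omega
  have hxinv : x⁻¹ = x := inv_eq_of_mul_eq_one_left hx2
  have hAn : (Subgroup.zpowers a).Normal := Subgroup.normal_of_index_eq_two haidx
  have hcardS : Nat.card S = orderOf a * 2 := by
    have h1 := Subgroup.card_mul_index (Subgroup.zpowers a)
    rw [Nat.card_zpowers, haidx] at h1
    exact h1.symm
  obtain ⟨n, hn⟩ := (IsPGroup.iff_orderOf.mp hS) a
  have hn2 : 2 ≤ n := by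
    by_contra hlt
    push Not at hlt
    have : 2 ^ n ≤ 2 ^ 1 := Nat.pow_le_pow_right (by norm_num) (by omega)
    omega
  obtain ⟨n', rfl⟩ : ∃ n', n = n' + 1 := ⟨n - 1, by omega⟩
  have hN : orderOf a = 2 * 2 ^ n' := by rw [hn, pow_succ]; ring
  have hMpos : 0 < 2 ^ n' := by positivity
  -- commutativity in zpowers a
  have hAcomm : ∀ g ∈ Subgroup.zpowers a, ∀ h ∈ Subgroup.zpowers a, g * h = h * g := by
    rintro _ ⟨i, rfl⟩ _ ⟨j, rfl⟩
    show a ^ i * a ^ j = a ^ j * a ^ i
    rw [← zpow_add, ← zpow_add, add_comm]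
  have hxax : x * a * x⁻¹ ∈ Subgroup.zpowers a := hAn.conj_mem a (Subgroup.mem_zpowers a) x
  obtain ⟨b, hb⟩ : ∃ b : S, b = x * a * x⁻¹ * a := ⟨_, rfl⟩
  have hbA : b ∈ Subgroup.zpowers a := by rw [hb]; exact mul_mem hxax (Subgroup.mem_zpowers a)
  have hbx : x * b * x⁻¹ = b := by
    rw [hb]
    calc x * (x * a * x⁻¹ * a) * x⁻¹ = (x * x) * a * x⁻¹ * a * x⁻¹ := by simp only [mul_assoc]
      _ = a * (x * a * x⁻¹) := by rw [hx2, one_mul]; nth_rewrite 1 [hxinv]; simp only [mul_assoc]
      _ = x * a * x⁻¹ * a := hAcomm _ (Subgroup.mem_zpowers a) _ hxax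
  have hlt : Subgroup.centralizer ({x} : Set S) ⊓ Subgroup.zpowers a < Subgroup.centralizer ({x} : Set S) := by
    refine lt_of_le_of_ne inf_le_left (fun h => hxa ?_)
    have h1 : x ∈ Subgroup.centralizer ({x} : Set S) ⊓ Subgroup.zpowers a := by
      rw [h]; exact Subgroup.mem_centralizer_singleton_iff.mpr rfl
    exact (Subgroup.mem_inf.mp h1).2
  have hcard2 : Nat.card ↥(Subgroup.centralizer ({x} : Set S) ⊓ Subgroup.zpowers a : Subgroup S) ≤ 2 := by
    obtain ⟨r, hr⟩ := Subgroup.card_dvd_of_le (le_of_lt hlt)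
    have hr1 : r ≠ 1 := by
      rintro rfl
      rw [mul_one] at hr
      exact (ne_of_lt hlt) (Subgroup.eq_of_le_of_card_ge (le_of_lt hlt) (le_of_eq hr))
    have hr0 : r ≠ 0 := by
      rintro rfl
      rw [mul_zero] at hr
      have := Nat.card_pos (α := ↥(Subgroup.centralizer ({x} : Set S)))
      omega
    have hr2 : 2 ≤ r := by omega
    nlinarith
  have hsmall : ∀ g : S, g ∈ Subgroup.zpowers a → x * g * x⁻¹ = g → orderOf g ≤ 2 := by
    intro g hgA hgx
    have hgC : g ∈ Subgroup.centralizer ({x} : Set S) ⊓ Subgroup.zpowers a := by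
      refine Subgroup.mem_inf.mpr ⟨Subgroup.mem_centralizer_singleton_iff.mpr ?_, hgA⟩
      calc g * x = (x * g * x⁻¹) * x := by rw [hgx]
        _ = x * g := by rw [inv_mul_cancel_right]
    have h1 : Subgroup.zpowers g ≤ Subgroup.centralizer ({x} : Set S) ⊓ Subgroup.zpowers a := by
      rw [Subgroup.zpowers_le]; exact hgC
    have h3 := Subgroup.card_le_of_le h1
    rw [Nat.card_zpowers] at h3
    omega
  have hb2 : b * b = 1 := by
    have h1 := hsmall b hbA hbx
    obtain ⟨k, hk⟩ := (IsPGroup.iff_orderOf.mp hS) b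
    have hk1 : k ≤ 1 := by
      by_contra hlt
      push Not at hlt
      have : 2 ^ 2 ≤ 2 ^ k := Nat.pow_le_pow_right (by norm_num) hlt
      omega
    have h4 : orderOf b ∣ 2 := by
      rw [hk]
      calc 2 ^ k ∣ 2 ^ 1 := Nat.pow_dvd_pow 2 hk1
        _ = 2 := by norm_num
    rw [← pow_two]
    exact orderOf_dvd_iff_pow_eq_one.mp h4
  by_cases hb1 : b = 1
  · -- dihedral
    left
    have hinv : x * a * x⁻¹ = a⁻¹ := by
      rw [hb1] at hb
      exact eq_inv_of_mul_eq_one_left hb.symm
    obtain ⟨y, hy⟩ : ∃ y : S, y = x * a := ⟨_, rfl⟩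
    have hyy : y * y = 1 := by
      rw [hy]
      calc x * a * (x * a) = (x * a * x) * a := by simp only [mul_assoc]
        _ = (x * a * x⁻¹) * a := by rw [hxinv]
        _ = 1 := by rw [hinv, inv_mul_cancel]
    have hy1 : y ≠ 1 := by
      intro h
      rw [hy] at h
      apply hxa
      have : a = x⁻¹ := eq_inv_of_mul_eq_one_right h
      rw [hxinv] at this
      rw [← this]; exact Subgroup.mem_zpowers a
    have hoy : orderOf y = 2 := by
      apply orderOf_eq_prime
      · rw [pow_two]; exact hyy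
      · exact hy1
    have ha1 : a ≠ 1 := by
      intro h
      rw [h, orderOf_one] at hN
      omega
    have hxy : x ≠ y := by
      intro h
      rw [hy] at h
      apply ha1
      exact (mul_eq_left.mp h.symm)
    have hxya : x * y = a := by rw [hy, ← mul_assoc, hx2, one_mul]
    have hcl : Subgroup.closure ({x, y} : Set S) = ⊤ := by
      rw [eq_top_iff]
      intro g _
      have hxm : x ∈ Subgroup.closure ({x, y} : Set S) := Subgroup.subset_closure (by simp)
      have hym : y ∈ Subgroup.closure ({x, y} : Set S) := Subgroup.subset_closure (by simp)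
      have ham : a ∈ Subgroup.closure ({x, y} : Set S) := by rw [← hxya]; exact mul_mem hxm hym
      have hAle : Subgroup.zpowers a ≤ Subgroup.closure ({x, y} : Set S) := by
        rw [Subgroup.zpowers_le]; exact ham
      by_cases hg : g ∈ Subgroup.zpowers a
      · exact hAle hg
      · have h1 : x⁻¹ * g ∈ Subgroup.zpowers a := by
          rw [Subgroup.mul_mem_iff_of_index_two haidx]
          constructor
          · intro h; exact absurd (inv_mem_iff.mp h) hxa
          · intro h; exact absurd h hg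
        have h3 : g = x * (x⁻¹ * g) := by rw [mul_inv_cancel_left]
        rw [h3]
        exact mul_mem hxm (hAle h1)
    obtain ⟨e⟩ := Cfsg.Agent.S0206.result x y hx hoy hxy
    exact ⟨orderOf (x * y), ⟨(Subgroup.topEquiv.symm.trans (MulEquiv.subgroupCongr hcl.symm)).trans e⟩⟩
  · -- quasidihedral
    right; left
    obtain ⟨k, hk⟩ := hbA
    have hk' : a ^ k = b := hk
    -- b = a ^ (2^n')
    have hM2 : (a ^ (2 ^ n')) * (a ^ (2 ^ n')) = 1 := by
      rw [← pow_add, ← two_mul, ← hN, pow_orderOf_eq_one]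
    have hbM : b = a ^ (2 ^ n') := by
      have h1 : a ^ (2 * k) = 1 := by
        rw [mul_comm, zpow_mul, hk', zpow_ofNat, pow_two, hb2]
      have h3 := orderOf_dvd_iff_zpow_eq_one.mpr h1
      rw [hN] at h3
      have h4 : ((2 ^ n' : ℕ) : ℤ) ∣ k := by
        push_cast at h3 ⊢
        exact (mul_dvd_mul_iff_left (by norm_num : (2 : ℤ) ≠ 0)).mp h3
      obtain ⟨l, hl⟩ := h4
      rw [← hk', hl, zpow_mul, zpow_natCast]
      rcases Int.even_or_odd' l with ⟨l', rfl | rfl⟩
      · exfalso
        apply hb1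
        rw [← hk', hl, zpow_mul, zpow_natCast, zpow_mul, zpow_ofNat, pow_two, hM2, one_zpow]
      · rw [zpow_add, zpow_mul, zpow_ofNat, pow_two, hM2, one_zpow, one_mul, zpow_one]
    have hconj : x * a * x⁻¹ = a ^ (2 ^ n' - 1) := by
      have h1 : x * a * x⁻¹ = b * a⁻¹ := by rw [hb, mul_inv_cancel_right]
      rw [h1, hbM]
      have h3 : a ^ (2 ^ n') = a ^ (2 ^ n' - 1) * a := by
        rw [← pow_succ]; congr 1; omega
      rw [h3, mul_inv_cancel_right]
    have hn3 : 3 ≤ n' + 1 := by
      by_contra hlt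
      push Not at hlt
      have hn1 : n' = 1 := by omega
      subst hn1
      have h1 : x * a * x⁻¹ = a := by rw [hconj]; norm_num
      have h3 := hsmall a (Subgroup.mem_zpowers a) h1
      rw [hN] at h3
      norm_num at h3
    refine ⟨n' + 1, hn3, ?_, a, x, hn, hx, ?_⟩
    · rw [hcardS, hn]; ring
    · rw [hconj]; rfl

end Cfsg.Agent.S3224
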