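import Cfsg.Statements.S3246
import Cfsg.Agent.Lib.helper16.PConstr
import Cfsg.Agent.S0065

set_option autoImplicit false
open Cfsg

namespace Cfsg.Agent.S3246

open Subgroup

theorem index_le_two {S : Type*} [Group S] [Finite S] (S₀ : Subgroup S)
    (h : ∀ s t : S, s ∉ S₀ → t ∉ S₀ → s⁻¹ * t ∈ S₀) : S₀.index ≤ 2 := by
  classical
  by_cases htop : ∀ s : S, s ∈ S₀
  · have : S₀ = ⊤ := (Subgroup.eq_top_iff' S₀).mpr htop
    rw [this, Subgroup.index_top]; norm_num
  · push Not at htop
    obtain ⟨s₁, hs₁⟩ := htop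
    have hsurj : Function.Surjective
        (fun b : Bool => if b then (QuotientGroup.mk 1 : S ⧸ S₀) else QuotientGroup.mk s₁) := by
      intro q
      induction q using QuotientGroup.induction_on with
      | H t =>
        by_cases ht : t ∈ S₀
        · refine ⟨true, ?_⟩
          simp only [if_true]
          exact QuotientGroup.eq.mpr (by simpa using ht)
        · refine ⟨false, ?_⟩
          simp only [Bool.false_eq_true, if_false]
          exact QuotientGroup.eq.mpr (h s₁ t hs₁ ht)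
    have h1 := Nat.card_le_card_of_surjective _ hsurj
    have h2 : Nat.card Bool = 2 := by rw [Nat.card_eq_fintype_card, Fintype.card_bool]
    rw [h2] at h1
    exact h1

theorem exists_max_two_local {G : Type*} [Group G] [Finite G] (N : Subgroup G)
    (hN : Cfsg.IsTwoLocal N) : ∃ M, Cfsg.IsMaximalTwoLocal M ∧ N ≤ M := by
  classical
  let 𝒮 : Set (Subgroup G) := {M | Cfsg.IsTwoLocal M ∧ N ≤ M}
  have hNS : N ∈ 𝒮 := ⟨hN, le_rfl⟩
  obtain ⟨M, hNM, hMmax⟩ := Finite.exists_le_maximal (p := fun M => M ∈ 𝒮) hNS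
  have hMS : M ∈ 𝒮 := hMmax.prop
  refine ⟨M, ⟨hMS.1, ?_⟩, hMS.2⟩
  intro N' hN' hMN'
  have hN'S : N' ∈ 𝒮 := ⟨hN', hMS.2.trans hMN'⟩
  exact le_antisymm (hMmax.le_of_ge hN'S hMN') hMN'

/-- An odd-order subgroup `D` of `H` normalized by a 2-subgroup `S₀` of `H` of index at most 2 in a
Sylow 2-subgroup of the ambient group is trivial, if `C_H(O_2(H)) ≤ O_2(H)`. -/
theorem killD {G : Type*} [Group G] [Finite G] (S : Sylow 2 G) (H : Subgroup G)
    (hH : centralizer ((Cfsg.pCore 2 ↥H : Subgroup ↥H) : Set ↥H) ≤ Cfsg.pCore 2 ↥H)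
    (S₀ : Subgroup G) (hS₀H : S₀ ≤ H) (h2 : IsPGroup 2 ↥S₀)
    (hidx : Nat.card ↥(S : Subgroup G) ≤ 2 * Nat.card ↥S₀)
    (D : Subgroup G) (hDH : D ≤ H) (hDodd : (Nat.card ↥D).Coprime 2)
    (hS₀D : S₀ ≤ normalizer (D : Set G)) : D = ⊥ := by
  classical
  haveI : Fact (Nat.Prime 2) := ⟨Nat.prime_two⟩
  set R : Subgroup G := (Cfsg.pCore 2 ↥H).map H.subtype with hR
  have hRp : IsPGroup 2 ↥R := (Cfsg.Agent.Lib.helper7.pCore_isPGroup 2 ↥H).map _
  have hcn : (Cfsg.pCore 2 ↥H).Normal := Cfsg.Agent.Lib.helper15.pCore_normal 2 ↥H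
  have hRn : ∀ h ∈ H, ∀ r ∈ R, h⁻¹ * r * h ∈ R := by
    rintro h hh _ ⟨x, hx, rfl⟩
    refine ⟨(⟨h, hh⟩ : ↥H)⁻¹ * x * ⟨h, hh⟩, ?_, rfl⟩
    have := hcn.conj_mem x hx (⟨h, hh⟩ : ↥H)⁻¹
    simpa using this
  obtain ⟨P, hP⟩ := (h2.comap_subtype (K := H)).exists_le_sylow
  set P' : Subgroup G := (P : Subgroup ↥H).map H.subtype with hP'
  have hS₀P : S₀ ≤ P' := by
    intro s hs
    exact ⟨⟨s, hS₀H hs⟩, hP (mem_subgroupOf.mpr hs), rfl⟩
  have hRP : R ≤ P' := by
    rintro _ ⟨x, hx, rfl⟩
    exact ⟨x, (Cfsg.Agent.Lib.helper7.pCore_isPGroup 2 ↥H).le_sylow_of_normal P hx, rfl⟩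
  have hP'p : IsPGroup 2 ↥P' := P.isPGroup'.map _
  have hP'card : Nat.card ↥P' ≤ Nat.card ↥(S : Subgroup G) := by
    obtain ⟨Q, hQ⟩ := hP'p.exists_le_sylow
    have h1 : Nat.card ↥P' ≤ Nat.card ↥(Q : Subgroup G) := Subgroup.card_le_of_le hQ
    have h3 : Nat.card ↥(Q : Subgroup G) = Nat.card ↥(S : Subgroup G) := by
      rw [Sylow.card_eq_multiplicity, Sylow.card_eq_multiplicity]
    omega
  have hrel : Nat.card ↥S₀ * S₀.relIndex P' = Nat.card ↥P' := by
    have h1 := Subgroup.relIndex_mul_relIndex (⊥ : Subgroup G) S₀ P' bot_le hS₀P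
    rwa [Subgroup.relIndex_bot_left, Subgroup.relIndex_bot_left] at h1
  have hS₀pos : 0 < Nat.card ↥S₀ := Nat.card_pos
  have hrel2 : S₀.relIndex P' ≤ 2 := by
    have : Nat.card ↥S₀ * S₀.relIndex P' ≤ Nat.card ↥S₀ * 2 := by rw [hrel]; omega
    exact Nat.le_of_mul_le_mul_left this hS₀pos
  have hrel0 : S₀.relIndex P' ≠ 0 := by
    intro h0; rw [h0, mul_zero] at hrel
    have : 0 < Nat.card ↥P' := Nat.card_pos
    omega
  -- elements of R ∩ S₀ commute with D
  have hcase1 : ∀ r ∈ R, r ∈ S₀ → ∀ d ∈ D, r * d = d * r := by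
    intro r hr hrS d hd
    have huR : r⁻¹ * d⁻¹ * r * d ∈ R := by
      have h1 := hRn d (hDH hd) r hr
      have h2 := R.mul_mem (R.inv_mem hr) h1
      have e : r⁻¹ * (d⁻¹ * r * d) = r⁻¹ * d⁻¹ * r * d := by group
      rwa [e] at h2
    have huD : r⁻¹ * d⁻¹ * r * d ∈ D := by
      have h1 := (mem_normalizer_iff.mp (hS₀D (S₀.inv_mem hrS)) d⁻¹).mp (D.inv_mem hd)
      rw [inv_inv] at h1
      exact D.mul_mem h1 hd
    have hu1 := Cfsg.Agent.Lib.helper16.inter_eq_one D R hDodd hRp huD huR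
    have e : r * d = d * r * (r⁻¹ * d⁻¹ * r * d) := by group
    rw [e, hu1, mul_one]
  have hcore : ∀ r ∈ R, ∀ d ∈ D, r * d = d * r := by
    intro r hr d hd
    by_cases hrS : r ∈ S₀
    · exact hcase1 r hr hrS d hd
    · have hrP : r ∈ P' := hRP hr
      have hr'R : d⁻¹ * r * d ∈ R := hRn d (hDH hd) r hr
      have hr'S : d⁻¹ * r * d ∉ S₀ := by
        intro h'
        have h1 := hcase1 _ hr'R h' d⁻¹ (D.inv_mem hd)
        apply hrS
        have e : r = d * (d⁻¹ * r * d * d⁻¹) := by group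
        rw [e, h1]
        have e2 : d * (d⁻¹ * (d⁻¹ * r * d)) = d⁻¹ * r * d := by group
        rw [e2]; exact h'
      have hrel1 : S₀.relIndex P' ≠ 1 := by
        intro h1
        exact hrS (Subgroup.relIndex_eq_one.mp h1 hrP)
      have hidx2 : (S₀.subgroupOf P').index = 2 := by
        have : S₀.relIndex P' = 2 := by omega
        exact this
      set u := r⁻¹ * d⁻¹ * r * d with hu
      have huR : u ∈ R := by
        have h2 := R.mul_mem (R.inv_mem hr) hr'R
        have e : r⁻¹ * (d⁻¹ * r * d) = u := by rw [hu]; group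
        rwa [e] at h2
      have huS : u ∈ S₀ := by
        have h1 := Subgroup.mul_mem_iff_of_index_two hidx2
          (a := (⟨r⁻¹, P'.inv_mem hrP⟩ : ↥P')) (b := (⟨d⁻¹ * r * d, hRP hr'R⟩ : ↥P'))
        rw [mem_subgroupOf, mem_subgroupOf, mem_subgroupOf] at h1
        have h3 : (r⁻¹ : G) * (d⁻¹ * r * d) ∈ S₀ := by
          apply h1.mpr
          constructor
          · intro h4; exact absurd (by simpa using S₀.inv_mem h4) hrS
          · intro h4; exact absurd h4 hr'S
        have e : r⁻¹ * (d⁻¹ * r * d) = u := by rw [hu]; group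
        rwa [e] at h3
      have hud : u * d = d * u := hcase1 u huR huS d hd
      have hpow : ∀ n : ℕ, r⁻¹ * (d ^ n)⁻¹ * r * d ^ n = u ^ n := by
        intro n
        induction n with
        | zero => simp
        | succ n ih =>
          have hun : u ^ n * d = d * u ^ n := (Commute.pow_left (show Commute u d from hud) n).eq
          calc r⁻¹ * (d ^ (n + 1))⁻¹ * r * d ^ (n + 1)
              = r⁻¹ * d⁻¹ * r * (r⁻¹ * (d ^ n)⁻¹ * r * d ^ n) * d := by rw [pow_succ]; group
            _ = r⁻¹ * d⁻¹ * r * (u ^ n * d) := by rw [ih]; group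
            _ = r⁻¹ * d⁻¹ * r * (d * u ^ n) := by rw [hun]
            _ = u * u ^ n := by rw [hu]; group
            _ = u ^ (n + 1) := by rw [pow_succ']
      have h1 : u ^ orderOf d = 1 := by
        rw [← hpow, pow_orderOf_eq_one]; group
      obtain ⟨k, hk⟩ := hRp ⟨u, huR⟩
      have hk' : u ^ 2 ^ k = 1 := by
        have := congrArg (fun z : ↥R => (z : G)) hk
        simpa using this
      have hcop : (orderOf u).Coprime 2 := by
        have h2 : orderOf u ∣ orderOf d := orderOf_dvd_of_pow_eq_one h1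
        have h3 : orderOf d ∣ Nat.card ↥D := Subgroup.orderOf_dvd_natCard D hd
        exact Nat.Coprime.coprime_dvd_left (h2.trans h3) hDodd
      have hu1 := Cfsg.Agent.Lib.helper16.eq_one_of_pow_of_coprime_order hcop hk'
      have e : r * d = d * r * u := by rw [hu]; group
      rw [e, hu1, mul_one]
  rw [eq_bot_iff]
  intro d hd
  have hdc : (⟨d, hDH hd⟩ : ↥H) ∈ centralizer ((Cfsg.pCore 2 ↥H : Subgroup ↥H) : Set ↥H) := by
    rw [mem_centralizer_iff]
    intro x hx
    apply Subtype.ext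
    exact hcore (x : G) ⟨x, hx, rfl⟩ d hd
  have hdR : d ∈ R := ⟨⟨d, hDH hd⟩, hH hdc, rfl⟩
  rw [mem_bot]
  exact Cfsg.Agent.Lib.helper16.inter_eq_one D R hDodd hRp hd hdR

theorem cent_triv {G : Type*} [Group G] [Finite G] (S : Sylow 2 G) (X : Subgroup G)
    (hXodd : Odd (Nat.card ↥X)) (hSX : (S : Subgroup G) ≤ normalizer (X : Set G)) (e : G)
    (hK : ∃ H : Subgroup G, centralizer ({e} : Set G) ≤ H ∧ Cfsg.IsPConstrained 2 ↥H ∧
      Cfsg.oddCore ↥H = ⊥)
    (S₀ : Subgroup G) (hS₀S : S₀ ≤ S) (hS₀e : S₀ ≤ centralizer ({e} : Set G))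
    (hidx : Nat.card ↥(S : Subgroup G) ≤ 2 * Nat.card ↥S₀) :
    X ⊓ centralizer ({e} : Set G) = ⊥ := by
  haveI : Fact (Nat.Prime 2) := ⟨Nat.prime_two⟩
  obtain ⟨H, hCH, hpc, hO⟩ := hK
  have hH := (Cfsg.Agent.Lib.helper16.pc_iff_of_core_bot hO).mp hpc
  apply killD S H hH S₀ (hS₀e.trans hCH) (S.isPGroup'.to_le hS₀S) hidx _ (inf_le_right.trans hCH)
  · have hdvd : Nat.card ↥(X ⊓ centralizer ({e} : Set G)) ∣ Nat.card ↥X :=
      Subgroup.card_dvd_of_le inf_le_left
    exact Nat.Coprime.coprime_dvd_left hdvd (Nat.coprime_two_right.mpr hXodd)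
  · intro s hs
    rw [mem_normalizer_iff]
    intro x
    have hsX := mem_normalizer_iff.mp (hSX (hS₀S hs)) x
    have hsC : s ∈ centralizer ({e} : Set G) := hS₀e hs
    rw [mem_inf, mem_inf, ← hsX]
    constructor
    · rintro ⟨h1, h2⟩
      exact ⟨h1, (centralizer _).mul_mem ((centralizer _).mul_mem hsC h2)
        ((centralizer _).inv_mem hsC)⟩
    · rintro ⟨h1, h2⟩
      refine ⟨h1, ?_⟩
      have h3 := (centralizer ({e} : Set G)).mul_mem
        ((centralizer _).mul_mem ((centralizer _).inv_mem hsC) h2) hsC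
      have e3 : s⁻¹ * (s * x * s⁻¹) * s = x := by group
      rwa [e3] at h3

theorem inverts {G : Type*} [Group G] [Finite G] (X : Subgroup G) (e : G) (he : e * e = 1)
    (heX : e ∈ normalizer (X : Set G)) (hfix : X ⊓ centralizer ({e} : Set G) = ⊥) :
    ∀ x ∈ X, e * x * e⁻¹ = x⁻¹ := by
  have hmem : ∀ x : ↥X, e * (x : G) * e⁻¹ ∈ X := fun x => (mem_normalizer_iff.mp heX x).mp x.2
  let φ : ↥X →* ↥X :=
    { toFun := fun x => ⟨e * x * e⁻¹, hmem x⟩
      map_one' := by ext; simp
      map_mul' := by intro x y; ext; simp [mul_assoc] }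
  have hfpf : MonoidHom.FixedPointFree φ := by
    intro x hx
    have hx' : e * (x : G) * e⁻¹ = x := congrArg Subtype.val hx
    have hxc : (x : G) ∈ X ⊓ centralizer ({e} : Set G) := by
      refine Subgroup.mem_inf.mpr ⟨x.2, ?_⟩
      rw [mem_centralizer_singleton_iff]
      calc (x : G) * e = (e * (x : G) * e⁻¹) * e := by rw [hx']
        _ = e * x := by group
    rw [hfix, mem_bot] at hxc
    exact Subtype.ext hxc
  have hinv : Function.Involutive φ := by
    intro x
    apply Subtype.ext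
    show e * (e * (x : G) * e⁻¹) * e⁻¹ = x
    have he' : e⁻¹ = e := inv_eq_of_mul_eq_one_left he
    rw [he']
    calc e * (e * (x : G) * e) * e = (e * e) * x * (e * e) := by group
      _ = x := by rw [he, one_mul, mul_one]
  have hφ := MonoidHom.FixedPointFree.coe_eq_inv_of_involutive hfpf hinv
  intro x hx
  have h1 := congrFun hφ ⟨x, hx⟩
  exact congrArg Subtype.val h1

/-- (adapted from `Cfsg.Agent.S3247`) -/
theorem pc_sub {G : Type*} [Group G] [Finite G] {p : ℕ} [hp : Fact p.Prime] (M : Subgroup G)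
    (hMpc : Cfsg.IsPConstrained p ↥M) (T : Subgroup G) (hT : IsPGroup p ↥T)
    (hle : Subgroup.normalizer (T : Set G) ≤ M) :
    Cfsg.IsPConstrained p ↥(Subgroup.normalizer (T : Set G)) := by
  have hTN : T ≤ Subgroup.normalizer (T : Set G) := Subgroup.le_normalizer
  apply Cfsg.Agent.Lib.helper16.pc_of_embedding hMpc (Subgroup.inclusion hle)
    (Subgroup.inclusion_injective hle) (T.subgroupOf M) (hT.comap_subtype)
  · intro y hy
    have hyN : (y : G) ∈ Subgroup.normalizer (T : Set G) := by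
      apply Subgroup.centralizer_le_normalizer
      rw [Subgroup.mem_centralizer_iff]
      intro t ht
      have h1 := Subgroup.mem_centralizer_iff.mp hy ⟨t, hle (hTN ht)⟩
        (Subgroup.mem_subgroupOf.mpr ht)
      exact congrArg Subtype.val h1
    exact ⟨⟨y, hyN⟩, rfl⟩
  · rintro _ ⟨n, rfl⟩
    rw [Subgroup.mem_normalizer_iff]
    intro q
    rw [Subgroup.mem_subgroupOf, Subgroup.mem_subgroupOf]
    exact Subgroup.mem_normalizer_iff.mp n.2 q
  · left
    intro q hq
    exact ⟨⟨q, hTN (Subgroup.mem_subgroupOf.mp hq)⟩, rfl⟩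

/-- (adapted from `Cfsg.Agent.S3247`) -/
theorem pc_cent {G : Type*} [Group G] [Finite G] {p : ℕ} [hp : Fact p.Prime]
    (h : ∀ x : G, orderOf x = p → Cfsg.IsPConstrained p ↥(Subgroup.centralizer ({x} : Set G)))
    (T : Subgroup G) (hT : IsPGroup p ↥T) (hT1 : T ≠ ⊥) :
    Cfsg.IsPConstrained p ↥(Subgroup.normalizer (T : Set G)) := by
  have hTnt : Nontrivial ↥T := (Subgroup.nontrivial_iff_ne_bot T).mpr hT1
  have hZnt := hT.center_nontrivial
  have hZp : IsPGroup p ↥(Subgroup.center ↥T) := hT.to_subgroup _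
  have hpdvd : p ∣ Nat.card ↥(Subgroup.center ↥T) := by
    obtain ⟨k, hk⟩ := IsPGroup.iff_card.mp hZp
    rw [hk]
    rcases k with _ | k
    · exfalso
      rw [pow_zero] at hk
      have := Finite.one_lt_card_iff_nontrivial.mpr hZnt
      omega
    · exact dvd_pow_self p (by omega)
  obtain ⟨⟨z, hzc⟩, hz⟩ := exists_prime_orderOf_dvd_card' p hpdvd
  rw [Subgroup.orderOf_mk] at hz
  have hzG : orderOf (z : G) = p := by rw [Subgroup.orderOf_coe]; exact hz
  have hzc' : ∀ t ∈ T, t * (z : G) = (z : G) * t := by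
    intro t ht
    have h1 := Subgroup.mem_center_iff.mp hzc ⟨t, ht⟩
    exact congrArg Subtype.val h1
  have hCz := h (z : G) hzG
  have hTCz : T ≤ Subgroup.centralizer ({(z : G)} : Set G) := by
    intro t ht
    rw [Subgroup.mem_centralizer_singleton_iff]
    exact hzc' t ht
  have hCTCz : Subgroup.centralizer (T : Set G) ≤ Subgroup.centralizer ({(z : G)} : Set G) := by
    apply Subgroup.centralizer_le
    intro y hy
    rw [Set.mem_singleton_iff] at hy
    rw [hy]; exact z.2
  have hCT : Cfsg.IsPConstrained p ↥(Subgroup.centralizer (T : Set G)) := by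
    apply Cfsg.Agent.Lib.helper16.pc_of_embedding hCz (Subgroup.inclusion hCTCz)
      (Subgroup.inclusion_injective hCTCz) (T.subgroupOf _) (hT.comap_subtype)
    · intro y hy
      have hyC : (y : G) ∈ Subgroup.centralizer (T : Set G) := by
        rw [Subgroup.mem_centralizer_iff]
        intro t ht
        have h1 := Subgroup.mem_centralizer_iff.mp hy ⟨t, hTCz ht⟩
          (Subgroup.mem_subgroupOf.mpr ht)
        exact congrArg Subtype.val h1
      exact ⟨⟨y, hyC⟩, rfl⟩
    · rintro _ ⟨c, rfl⟩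
      apply Subgroup.centralizer_le_normalizer
      rw [Subgroup.mem_centralizer_iff]
      intro q hq
      apply Subtype.ext
      exact Subgroup.mem_centralizer_iff.mp c.2 q (Subgroup.mem_subgroupOf.mp hq)
    · right
      rintro _ ⟨c, rfl⟩
      rw [Subgroup.mem_centralizer_iff]
      intro q hq
      apply Subtype.ext
      exact Subgroup.mem_centralizer_iff.mp c.2 q (Subgroup.mem_subgroupOf.mp hq)
  have hCN : Subgroup.centralizer (T : Set G) ≤ Subgroup.normalizer (T : Set G) :=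
    Subgroup.centralizer_le_normalizer _
  apply Cfsg.Agent.Lib.helper16.pc_of_normal_centralizer
    (T.subgroupOf (Subgroup.normalizer (T : Set G))) (hT.comap_subtype)
    (Subgroup.inclusion hCN) (Subgroup.inclusion_injective hCN) ?_ hCT
  ext y
  constructor
  · rintro ⟨c, rfl⟩
    rw [Subgroup.mem_centralizer_iff]
    intro q hq
    apply Subtype.ext
    exact Subgroup.mem_centralizer_iff.mp c.2 q (Subgroup.mem_subgroupOf.mp hq)
  · intro hy
    have hyC : (y : G) ∈ Subgroup.centralizer (T : Set G) := by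
      rw [Subgroup.mem_centralizer_iff]
      intro t ht
      have h1 := Subgroup.mem_centralizer_iff.mp hy ⟨t, Subgroup.le_normalizer ht⟩
        (Subgroup.mem_subgroupOf.mpr ht)
      exact congrArg Subtype.val h1
    exact ⟨⟨y, hyC⟩, rfl⟩

/-- three commuting involutions `z`, `a`, `z a` of `S` with `z` central and `|S : C_S(a)| ≤ 2`. -/
theorem exists_za {G : Type*} [Group G] [Finite G] (S : Sylow 2 G) (A : Subgroup G)
    (hA : Cfsg.IsSCN (S : Subgroup G) A) (hA3 : ¬ Cfsg.PRankLE 2 2 ↥A) :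
    ∃ z a : G, z ∈ (S : Subgroup G) ∧ a ∈ (S : Subgroup G) ∧ z ≠ 1 ∧ a ≠ 1 ∧ a ≠ z ∧
      z * z = 1 ∧ a * a = 1 ∧ (∀ s ∈ (S : Subgroup G), s * z = z * s) ∧
      (∀ s ∈ (S : Subgroup G), s * a * s⁻¹ = a ∨ s * a * s⁻¹ = z * a) := by
  classical
  haveI : Fact (Nat.Prime 2) := ⟨Nat.prime_two⟩
  obtain ⟨hAS, hSA, hAC⟩ := hA
  have hAab : ∀ x ∈ A, ∀ y ∈ A, x * y = y * x := by
    intro x hx y hy
    have hx' : x ∈ (S : Subgroup G) ⊓ centralizer (A : Set G) := by rw [hAC]; exact hx
    exact (mem_centralizer_iff.mp hx'.2 y hy).symm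
  let E : Subgroup G :=
    { carrier := {x | x ∈ A ∧ x ^ 2 = 1}
      mul_mem' := by
        rintro x y ⟨hx, hx2⟩ ⟨hy, hy2⟩
        refine ⟨A.mul_mem hx hy, ?_⟩
        rw [(show Commute x y from hAab x hx y hy).mul_pow, hx2, hy2, one_mul]
      one_mem' := ⟨A.one_mem, one_pow 2⟩
      inv_mem' := by
        rintro x ⟨hx, hx2⟩
        exact ⟨A.inv_mem hx, by rw [inv_pow, hx2, inv_one]⟩ }
  have hEmem : ∀ x, x ∈ E ↔ x ∈ A ∧ x ^ 2 = 1 := fun x => Iff.rfl
  have hES : E ≤ (S : Subgroup G) := fun x hx => hAS hx.1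
  have hEn : ∀ s ∈ (S : Subgroup G), ∀ x ∈ E, s * x * s⁻¹ ∈ E := by
    intro s hs x hx
    refine ⟨(mem_normalizer_iff.mp (hSA hs) x).mp hx.1, ?_⟩
    rw [conj_pow, hx.2, mul_one, mul_inv_cancel]
  have hEcard : 4 < Nat.card ↥E := by
    unfold Cfsg.PRankLE at hA3
    push Not at hA3
    obtain ⟨B, -, hB2, hBcard⟩ := hA3
    have hle : B.map A.subtype ≤ E := by
      rintro _ ⟨b, hb, rfl⟩
      refine ⟨b.2, ?_⟩
      have := hB2 b hb
      have h2 := congrArg Subtype.val this
      simpa using h2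
    have h1 := Subgroup.card_le_of_le hle
    rw [Subgroup.card_map_of_injective A.subtype_injective] at h1
    norm_num at hBcard
    omega
  haveI hESn : (E.subgroupOf (S : Subgroup G)).Normal :=
    ⟨fun x hx s => by
      rw [mem_subgroupOf] at hx ⊢
      exact hEn s s.2 x hx⟩
  haveI : Group.IsNilpotent ↥(S : Subgroup G) := S.isPGroup'.isNilpotent
  have hEScard : Nat.card ↥(E.subgroupOf (S : Subgroup G)) = Nat.card ↥E :=
    Nat.card_congr (Subgroup.subgroupOfEquivOfLe hES).toEquiv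
  have hESne : E.subgroupOf (S : Subgroup G) ≠ ⊥ := by
    intro hbot
    rw [hbot, Subgroup.card_bot] at hEScard
    omega
  have hcen := Cfsg.Agent.S0065.normal_inf_center_ne_bot (E.subgroupOf (S : Subgroup G)) hESne
  obtain ⟨⟨z, hzmem⟩, hz1'⟩ := (Subgroup.ne_bot_iff_exists_ne_one).mp hcen
  have hz1 : z ≠ 1 := fun h => hz1' (Subtype.ext h)
  rw [Subgroup.mem_inf] at hzmem
  have hzE : (z : G) ∈ E := mem_subgroupOf.mp hzmem.1
  have hzc : ∀ s : ↥(S : Subgroup G), s * z = z * s := fun s => Subgroup.mem_center_iff.mp hzmem.2 s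
  have hzsq : z ^ 2 = 1 := by
    apply Subtype.ext
    simpa using hzE.2
  have hoz : orderOf z = 2 := orderOf_eq_prime hzsq hz1
  haveI hZn : (zpowers z).Normal :=
    ⟨fun x hx s => by
      obtain ⟨k, rfl⟩ := mem_zpowers_iff.mp hx
      have hc : Commute s (z ^ k) := (show Commute s z from hzc s).zpow_right k
      rw [hc.eq, mul_inv_cancel_right]
      exact hx⟩
  have hZcard : Nat.card ↥(zpowers z) = 2 := by rw [Nat.card_zpowers, hoz]
  have hZmem : ∀ x ∈ zpowers z, x = 1 ∨ x = z := by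
    intro x hx
    rw [← mem_powers_iff_mem_zpowers, mem_powers_iff_mem_range_orderOf, hoz] at hx
    simp only [Finset.mem_image, Finset.mem_range] at hx
    obtain ⟨k, hk, rfl⟩ := hx
    interval_cases k
    · left; simp
    · right; simp
  haveI : Group.IsNilpotent (↥(S : Subgroup G) ⧸ zpowers z) :=
    (S.isPGroup'.to_quotient (zpowers z)).isNilpotent
  haveI hEbn : ((E.subgroupOf (S : Subgroup G)).map (QuotientGroup.mk' (zpowers z))).Normal :=
    Subgroup.Normal.map hESn _ (QuotientGroup.mk'_surjective _)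
  have hEbne : (E.subgroupOf (S : Subgroup G)).map (QuotientGroup.mk' (zpowers z)) ≠ ⊥ := by
    intro hbot
    rw [Subgroup.map_eq_bot_iff, QuotientGroup.ker_mk'] at hbot
    have := Subgroup.card_le_of_le hbot
    omega
  have hcen2 := Cfsg.Agent.S0065.normal_inf_center_ne_bot _ hEbne
  obtain ⟨⟨ab, habmem⟩, hab1'⟩ := (Subgroup.ne_bot_iff_exists_ne_one).mp hcen2
  have hab1 : ab ≠ 1 := fun h => hab1' (Subtype.ext h)
  rw [Subgroup.mem_inf] at habmem
  obtain ⟨a, haE, rfl⟩ := habmem.1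
  have haZ : a ∉ zpowers z := by
    intro h
    exact hab1 ((QuotientGroup.eq_one_iff a).mpr h)
  have hacen : ∀ s : ↥(S : Subgroup G), s * a * s⁻¹ * a⁻¹ ∈ zpowers z := by
    intro s
    rw [← QuotientGroup.eq_one_iff]
    have h1 := Subgroup.mem_center_iff.mp habmem.2 (QuotientGroup.mk' (zpowers z) s)
    have h2 : (QuotientGroup.mk' (zpowers z)) (s * a * s⁻¹ * a⁻¹) =
        (QuotientGroup.mk' (zpowers z) s) * (QuotientGroup.mk' (zpowers z) a) *
          (QuotientGroup.mk' (zpowers z) s)⁻¹ * (QuotientGroup.mk' (zpowers z) a)⁻¹ := by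
      simp
    show (QuotientGroup.mk' (zpowers z)) (s * a * s⁻¹ * a⁻¹) = 1
    rw [h2, h1]; group
  have haE' : (a : G) ∈ E := mem_subgroupOf.mp haE
  refine ⟨(z : G), (a : G), z.2, a.2, ?_, ?_, ?_, ?_, ?_, ?_, ?_⟩
  · intro h; exact hz1 (Subtype.ext h)
  · intro h; exact haZ (by rw [show a = 1 from Subtype.ext h]; exact one_mem _)
  · intro h; exact haZ (by rw [show a = z from Subtype.ext h]; exact mem_zpowers z)
  · have := hzE.2; rwa [pow_two] at this
  · have := haE'.2; rwa [pow_two] at this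
  · intro s hs
    have := hzc ⟨s, hs⟩
    exact congrArg Subtype.val this
  · intro s hs
    rcases hZmem _ (hacen ⟨s, hs⟩) with h | h
    · left
      have h' := congrArg Subtype.val h
      simp only [Subgroup.coe_mul, Subgroup.coe_inv, Subgroup.coe_one] at h'
      exact mul_inv_eq_one.mp h'
    · right
      have h' := congrArg Subtype.val h
      simp only [Subgroup.coe_mul, Subgroup.coe_inv] at h'
      exact mul_inv_eq_iff_eq_mul.mp h'

/-- Let G be a finite group whose Sylow 2-subgroup S has a self-centralizing normal subgroup of rank at least 3. Suppose that either every maximal 2-local subgroup of G is 2-constrained with no nontrivial normal subgroup of odd order, or the centralizer of every involution of G is 2-constrained with no nontrivial normal subgroup of odd order. Then S normalizes no nontrivial subgroup of G of odd order and every 2-local subgroup of G is 2-constrained. -/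
theorem result {G : Type*} [Group G] [Finite G]
    (S : Sylow 2 G) (A : Subgroup G) (hA : Cfsg.IsSCN (S : Subgroup G) A) (hA3 : ¬ Cfsg.PRankLE 2 2 ↥A)
    (h : (∀ M : Subgroup G, Cfsg.IsMaximalTwoLocal M → Cfsg.IsPConstrained 2 ↥M ∧ Cfsg.oddCore ↥M = ⊥) ∨
      (∀ t : G, orderOf t = 2 → Cfsg.IsPConstrained 2 ↥(Subgroup.centralizer ({t} : Set G)) ∧
        Cfsg.oddCore ↥(Subgroup.centralizer ({t} : Set G)) = ⊥)) :
    (∀ X : Subgroup G, Odd (Nat.card ↥X) → (S : Subgroup G) ≤ Subgroup.normalizer (X : Set G) → X = ⊥) ∧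
      (∀ T : Subgroup G, IsPGroup 2 ↥T → T ≠ ⊥ → Cfsg.IsPConstrained 2 ↥(Subgroup.normalizer (T : Set G))) := by
  classical
  haveI : Fact (Nat.Prime 2) := ⟨Nat.prime_two⟩
  have hK : ∀ t : G, orderOf t = 2 → ∃ H : Subgroup G, Subgroup.centralizer ({t} : Set G) ≤ H ∧
      Cfsg.IsPConstrained 2 ↥H ∧ Cfsg.oddCore ↥H = ⊥ := by
    intro t ht
    rcases h with h | h
    · have hloc : Cfsg.IsTwoLocal (Subgroup.normalizer ((Subgroup.zpowers t : Subgroup G) : Set G)) := by
        refine ⟨Subgroup.zpowers t, ?_, ?_, rfl⟩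
        · apply IsPGroup.of_card (n := 1); rw [Nat.card_zpowers, ht, pow_one]
        · intro hbot
          rw [Subgroup.zpowers_eq_bot] at hbot
          rw [hbot, orderOf_one] at ht; norm_num at ht
      obtain ⟨M, hM, hNM⟩ := exists_max_two_local _ hloc
      refine ⟨M, ?_, h M hM⟩
      refine le_trans ?_ hNM
      intro g hg
      apply Subgroup.centralizer_le_normalizer
      rw [Subgroup.mem_centralizer_iff]
      intro x hx
      obtain ⟨k, rfl⟩ := Subgroup.mem_zpowers_iff.mp hx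
      have hc : Commute g t := Subgroup.mem_centralizer_singleton_iff.mp hg
      exact (hc.zpow_right k).eq.symm
    · exact ⟨Subgroup.centralizer {t}, le_rfl, h t ht⟩
  constructor
  · intro X hXodd hSX
    obtain ⟨z, a, hzS, haS, hz1, ha1, haz, hzz, haa, hzc, hconj⟩ := exists_za S A hA hA3
    have hoz : orderOf z = 2 := orderOf_eq_prime (by rw [pow_two]; exact hzz) hz1
    have hoa : orderOf a = 2 := orderOf_eq_prime (by rw [pow_two]; exact haa) ha1
    have hza_comm : z * a = a * z := (hzc a haS).symm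
    have hza1 : z * a ≠ 1 := by
      intro h1
      apply haz
      have : a = z⁻¹ := eq_inv_of_mul_eq_one_right h1
      rw [this]; exact inv_eq_of_mul_eq_one_left hzz
    have hzaza : (z * a) * (z * a) = 1 := by
      calc (z * a) * (z * a) = z * (a * z) * a := by group
        _ = z * (z * a) * a := by rw [hza_comm]
        _ = (z * z) * (a * a) := by group
        _ = 1 := by rw [hzz, haa, one_mul]
    have hoza : orderOf (z * a) = 2 := orderOf_eq_prime (by rw [pow_two]; exact hzaza) hza1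
    set S₀ : Subgroup G := (S : Subgroup G) ⊓ Subgroup.centralizer ({a} : Set G) with hS₀
    have hidx : Nat.card ↥(S : Subgroup G) ≤ 2 * Nat.card ↥S₀ := by
      have h1 : (S₀.subgroupOf (S : Subgroup G)).index ≤ 2 := by
        apply index_le_two
        intro s t hs ht
        rw [Subgroup.mem_subgroupOf] at hs ht ⊢
        have hs' : (s : G) * a * (s : G)⁻¹ = z * a := by
          rcases hconj s s.2 with h' | h'
          · exfalso; apply hs
            refine Subgroup.mem_inf.mpr ⟨s.2, ?_⟩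
            rw [Subgroup.mem_centralizer_singleton_iff]
            exact (mul_inv_eq_iff_eq_mul.mp h')
          · exact h'
        have ht' : (t : G) * a * (t : G)⁻¹ = z * a := by
          rcases hconj t t.2 with h' | h'
          · exfalso; apply ht
            refine Subgroup.mem_inf.mpr ⟨t.2, ?_⟩
            rw [Subgroup.mem_centralizer_singleton_iff]
            exact (mul_inv_eq_iff_eq_mul.mp h')
          · exact h'
        refine Subgroup.mem_inf.mpr ⟨(S : Subgroup G).mul_mem ((S : Subgroup G).inv_mem s.2) t.2, ?_⟩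
        rw [Subgroup.mem_centralizer_singleton_iff]
        have e1 : ((s⁻¹ * t : ↥(S : Subgroup G)) : G) = (s : G)⁻¹ * (t : G) := rfl
        rw [e1]
        have e2 : (s : G)⁻¹ * (t : G) * a = (s : G)⁻¹ * ((t : G) * a * (t : G)⁻¹) * (t : G) := by group
        have e3 : a * ((s : G)⁻¹ * (t : G)) = (s : G)⁻¹ * ((s : G) * a * (s : G)⁻¹) * (t : G) := by group
        rw [e2, e3, hs', ht']
      have h2 := Subgroup.card_mul_index (S₀.subgroupOf (S : Subgroup G))
      have h3 : Nat.card ↥(S₀.subgroupOf (S : Subgroup G)) = Nat.card ↥S₀ :=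
        Nat.card_congr (Subgroup.subgroupOfEquivOfLe (inf_le_left : S₀ ≤ (S : Subgroup G))).toEquiv
      rw [h3] at h2
      have h4 : Nat.card ↥S₀ * (S₀.subgroupOf (S : Subgroup G)).index ≤ Nat.card ↥S₀ * 2 :=
        Nat.mul_le_mul_left _ h1
      omega
    have hSz : (S : Subgroup G) ≤ Subgroup.centralizer ({z} : Set G) := by
      intro s hs
      rw [Subgroup.mem_centralizer_singleton_iff]
      exact hzc s hs
    have hz_fix := cent_triv S X hXodd hSX z (hK z hoz) (S : Subgroup G) le_rfl hSz (by omega)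
    have ha_fix := cent_triv S X hXodd hSX a (hK a hoa) S₀ inf_le_left inf_le_right hidx
    have hS₀za : S₀ ≤ Subgroup.centralizer ({z * a} : Set G) := by
      intro s hs
      rw [Subgroup.mem_centralizer_singleton_iff]
      have h1 : s * z = z * s := hzc s hs.1
      have h2 : s * a = a * s := Subgroup.mem_centralizer_singleton_iff.mp hs.2
      calc s * (z * a) = (s * z) * a := by group
        _ = z * (s * a) := by rw [h1]; group
        _ = z * a * s := by rw [h2]; group
    have hza_fix := cent_triv S X hXodd hSX (z * a) (hK _ hoza) S₀ inf_le_left hS₀za hidx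
    have hzinv := inverts X z hzz (hSX hzS) hz_fix
    have hainv := inverts X a haa (hSX haS) ha_fix
    rw [eq_bot_iff, ← hza_fix]
    intro x hx
    refine Subgroup.mem_inf.mpr ⟨hx, ?_⟩
    rw [Subgroup.mem_centralizer_singleton_iff]
    have h1 : a * x * a⁻¹ = x⁻¹ := hainv x hx
    have h2 : z * x⁻¹ * z⁻¹ = x⁻¹⁻¹ := hzinv x⁻¹ (X.inv_mem hx)
    rw [inv_inv] at h2
    have h3 : (z * a) * x * (z * a)⁻¹ = x := by
      calc (z * a) * x * (z * a)⁻¹ = z * (a * x * a⁻¹) * z⁻¹ := by group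
        _ = x := by rw [h1, h2]
    calc x * (z * a) = ((z * a) * x * (z * a)⁻¹) * (z * a) := by rw [h3]
      _ = z * a * x := by group
  · intro T hT hT1
    rcases h with h | h
    · obtain ⟨M, hM, hNM⟩ := exists_max_two_local _ ⟨T, hT, hT1, rfl⟩
      exact pc_sub M (h M hM).1 T hT hNM
    · exact pc_cent (fun x hx => (h x hx).1) T hT hT1

end Cfsg.Agent.S3246
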