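import Cfsg.Statements.S3247
import Mathlib
import Cfsg.Agent.Lib.helper16.PConstr

set_option autoImplicit false
open Cfsg

namespace Cfsg.Agent.S3247

/-- Let G be a finite group and p a prime; here a p-local subgroup means the normalizer of a nontrivial p-subgroup, other than G itself. If every p-local subgroup of G that is maximal among p-local subgroups is p-constrained, or if the centralizer of every element of order p of G is p-constrained, then every p-local subgroup of G is p-constrained. -/
theorem result {G : Type*} [Group G] [Finite G] (p : ℕ) [hp : Fact p.Prime]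
    (h : (∀ M : Subgroup G, (∃ T : Subgroup G, IsPGroup p ↥T ∧ T ≠ ⊥ ∧ M = Subgroup.normalizer (T : Set G)) → M ≠ ⊤ →
        (∀ M' : Subgroup G, (∃ T' : Subgroup G, IsPGroup p ↥T' ∧ T' ≠ ⊥ ∧ M' = Subgroup.normalizer (T' : Set G)) → M' ≠ ⊤ → M ≤ M' → M = M') →
        Cfsg.IsPConstrained p ↥M) ∨
      (∀ x : G, orderOf x = p → Cfsg.IsPConstrained p ↥(Subgroup.centralizer ({x} : Set G))))
    (T : Subgroup G) (hT : IsPGroup p ↥T) (hT1 : T ≠ ⊥) (hTG : Subgroup.normalizer (T : Set G) ≠ ⊤) :
    Cfsg.IsPConstrained p ↥(Subgroup.normalizer (T : Set G)) := by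
  classical
  rcases h with h | h
  · -- Case 1: maximal p-locals are p-constrained
    let S : Set (Subgroup G) := {M | (∃ T' : Subgroup G, IsPGroup p ↥T' ∧ T' ≠ ⊥ ∧
      M = Subgroup.normalizer (T' : Set G)) ∧ M ≠ ⊤ ∧ Subgroup.normalizer (T : Set G) ≤ M}
    have hNS : Subgroup.normalizer (T : Set G) ∈ S := ⟨⟨T, hT, hT1, rfl⟩, hTG, le_rfl⟩
    obtain ⟨M, hNM, hMmax⟩ := Finite.exists_le_maximal (p := fun M => M ∈ S) hNS
    have hMS : M ∈ S := hMmax.prop
    have hMpc : IsPConstrained p ↥M := by
      apply h M hMS.1 hMS.2.1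
      intro M' hM' hM'top hMM'
      have hM'S : M' ∈ S := ⟨hM', hM'top, hMS.2.2.trans hMM'⟩
      exact le_antisymm hMM' (hMmax.le_of_ge hM'S hMM')
    have hle : Subgroup.normalizer (T : Set G) ≤ M := hMS.2.2
    have hTN : T ≤ Subgroup.normalizer (T : Set G) := Subgroup.le_normalizer
    apply Cfsg.Agent.Lib.helper16.pc_of_embedding hMpc (Subgroup.inclusion hle)
      (Subgroup.inclusion_injective hle) (T.subgroupOf M) (hT.comap_subtype)
    · intro y hy
      have hyN : (y : G) ∈ Subgroup.normalizer (T : Set G) := by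
        apply Subgroup.centralizer_le_normalizer
        rw [Subgroup.mem_centralizer_iff]
        intro t ht
        have h1 := Subgroup.mem_centralizer_iff.mp hy ⟨t, hle (hTN ht)⟩
          (Subgroup.mem_subgroupOf.mpr ht)
        exact congrArg Subtype.val h1
      exact ⟨⟨y, hyN⟩, rfl⟩
    · rintro _ ⟨n, rfl⟩
      rw [Subgroup.mem_normalizer_iff]
      intro q
      rw [Subgroup.mem_subgroupOf, Subgroup.mem_subgroupOf]
      exact Subgroup.mem_normalizer_iff.mp n.2 q
    · left
      intro q hq
      exact ⟨⟨q, hTN (Subgroup.mem_subgroupOf.mp hq)⟩, rfl⟩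
  · -- Case 2: centralizers of elements of order p are p-constrained
    have hTnt : Nontrivial ↥T := (Subgroup.nontrivial_iff_ne_bot T).mpr hT1
    have hZnt := hT.center_nontrivial
    have hZp : IsPGroup p ↥(Subgroup.center ↥T) := hT.to_subgroup _
    have hpdvd : p ∣ Nat.card ↥(Subgroup.center ↥T) := by
      obtain ⟨k, hk⟩ := IsPGroup.iff_card.mp hZp
      rw [hk]
      rcases k with _ | k
      · exfalso
        rw [pow_zero] at hk
        have := Finite.one_lt_card_iff_nontrivial.mpr hZnt
        omega
      · exact dvd_pow_self p (by omega)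
    obtain ⟨⟨z, hzc⟩, hz⟩ := exists_prime_orderOf_dvd_card' p hpdvd
    rw [Subgroup.orderOf_mk] at hz
    have hzG : orderOf (z : G) = p := by rw [Subgroup.orderOf_coe]; exact hz
    have hzc' : ∀ t ∈ T, t * (z : G) = (z : G) * t := by
      intro t ht
      have h1 := Subgroup.mem_center_iff.mp hzc ⟨t, ht⟩
      exact congrArg Subtype.val h1
    have hCz := h (z : G) hzG
    have hTCz : T ≤ Subgroup.centralizer ({(z : G)} : Set G) := by
      intro t ht
      rw [Subgroup.mem_centralizer_singleton_iff]
      exact hzc' t ht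
    have hCTCz : Subgroup.centralizer (T : Set G) ≤ Subgroup.centralizer ({(z : G)} : Set G) := by
      apply Subgroup.centralizer_le
      intro y hy
      rw [Set.mem_singleton_iff] at hy
      rw [hy]; exact z.2
    have hCT : IsPConstrained p ↥(Subgroup.centralizer (T : Set G)) := by
      apply Cfsg.Agent.Lib.helper16.pc_of_embedding hCz (Subgroup.inclusion hCTCz)
        (Subgroup.inclusion_injective hCTCz) (T.subgroupOf _) (hT.comap_subtype)
      · intro y hy
        have hyC : (y : G) ∈ Subgroup.centralizer (T : Set G) := by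
          rw [Subgroup.mem_centralizer_iff]
          intro t ht
          have h1 := Subgroup.mem_centralizer_iff.mp hy ⟨t, hTCz ht⟩
            (Subgroup.mem_subgroupOf.mpr ht)
          exact congrArg Subtype.val h1
        exact ⟨⟨y, hyC⟩, rfl⟩
      · rintro _ ⟨c, rfl⟩
        apply Subgroup.centralizer_le_normalizer
        rw [Subgroup.mem_centralizer_iff]
        intro q hq
        apply Subtype.ext
        exact Subgroup.mem_centralizer_iff.mp c.2 q (Subgroup.mem_subgroupOf.mp hq)
      · right
        rintro _ ⟨c, rfl⟩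
        rw [Subgroup.mem_centralizer_iff]
        intro q hq
        apply Subtype.ext
        exact Subgroup.mem_centralizer_iff.mp c.2 q (Subgroup.mem_subgroupOf.mp hq)
    have hCN : Subgroup.centralizer (T : Set G) ≤ Subgroup.normalizer (T : Set G) :=
      Subgroup.centralizer_le_normalizer _
    apply Cfsg.Agent.Lib.helper16.pc_of_normal_centralizer
      (T.subgroupOf (Subgroup.normalizer (T : Set G))) (hT.comap_subtype)
      (Subgroup.inclusion hCN) (Subgroup.inclusion_injective hCN) ?_ hCT
    ext y
    constructor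
    · rintro ⟨c, rfl⟩
      rw [Subgroup.mem_centralizer_iff]
      intro q hq
      apply Subtype.ext
      exact Subgroup.mem_centralizer_iff.mp c.2 q (Subgroup.mem_subgroupOf.mp hq)
    · intro hy
      have hyC : (y : G) ∈ Subgroup.centralizer (T : Set G) := by
        rw [Subgroup.mem_centralizer_iff]
        intro t ht
        have h1 := Subgroup.mem_centralizer_iff.mp hy ⟨t, Subgroup.le_normalizer ht⟩
          (Subgroup.mem_subgroupOf.mpr ht)
        exact congrArg Subtype.val h1
      exact ⟨⟨y, hyC⟩, rfl⟩

end Cfsg.Agent.S3247
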