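import Cfsg.Statements.S3276
import Mathlib
import Cfsg.Agent.Lib.helper6.Invol

set_option autoImplicit false
open Cfsg

namespace Cfsg.Agent.S3276

open Cfsg.Agent.Lib.helper6

/-- Let x and y be commuting, non-conjugate involutions of a finite group G, and suppose that for every involution u commuting with x, each conjugate of y that commutes with u also commutes with y. Then the normal closure of y is a proper, normal, elementary abelian 2-subgroup of G; and if y is the only involution of that normal closure commuting with x, it has order at most 4. -/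
theorem result {G : Type*} [Group G] [Finite G] (x y : G) (hx : orderOf x = 2) (hy : orderOf y = 2)
    (hxy : Commute x y) (hnc : ¬ IsConj x y)
    (hstar : ∀ u : G, orderOf u = 2 → Commute u x → ∀ g : G, Commute (g * y * g⁻¹) u → Commute (g * y * g⁻¹) y) :
    Subgroup.normalClosure ({y} : Set G) ≠ ⊤ ∧ Cfsg.IsElementaryAbelian 2 (Subgroup.normalClosure ({y} : Set G)) ∧
      ((∀ u ∈ Subgroup.normalClosure ({y} : Set G), orderOf u = 2 → Commute u x → u = y) →
        Nat.card ↥(Subgroup.normalClosure ({y} : Set G)) ≤ 4) := by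
  classical
  have hx2 : x * x = 1 := mul_self_of_orderOf_two hx
  have hy2 : y * y = 1 := mul_self_of_orderOf_two hy
  have hx1 : x ≠ 1 := ne_one_of_orderOf_two hx
  have hy1 : y ≠ 1 := ne_one_of_orderOf_two hy
  have hx_inv : x⁻¹ = x := inv_eq_self_of_mul_self hx2
  have hy_inv : y⁻¹ = y := inv_eq_self_of_mul_self hy2
  -- every conjugate of y commutes with y
  have hA : ∀ g : G, Commute (g * y * g⁻¹) y := by
    intro g
    have hy'2 : (g * y * g⁻¹) * (g * y * g⁻¹) = 1 := by
      calc (g * y * g⁻¹) * (g * y * g⁻¹) = g * (y * y) * g⁻¹ := by group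
        _ = 1 := by rw [hy2]; group
    rcases Nat.even_or_odd (orderOf (x * (g * y * g⁻¹))) with he | ho
    · obtain ⟨z, hz1, hz2, hxz, hyz, -, -⟩ :=
        exists_central_invol_of_even hx2 hy'2 he (orderOf_pos _).ne'
      have hzo : orderOf z = 2 := orderOf_two_of_mul_self hz2 hz1
      exact hstar z hzo hxz.symm g hyz
    · exfalso
      obtain ⟨i, -, hi, -⟩ := exists_conj_invol_of_odd hx2 hy'2 ho
      apply hnc
      rw [isConj_iff]
      refine ⟨g⁻¹ * i, ?_⟩
      calc g⁻¹ * i * x * (g⁻¹ * i)⁻¹ = g⁻¹ * (i * x * i⁻¹) * g := by group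
        _ = y := by rw [hi]; group
  have hB : ∀ a ∈ Group.conjugatesOfSet ({y} : Set G), ∀ b ∈ Group.conjugatesOfSet ({y} : Set G),
      a * b = b * a := by
    intro a ha b hb
    rw [Group.mem_conjugatesOfSet_iff] at ha hb
    obtain ⟨y1, hy1', hca⟩ := ha
    obtain ⟨y2, hy2', hcb⟩ := hb
    rw [Set.mem_singleton_iff] at hy1' hy2'
    rw [hy1'] at hca; rw [hy2'] at hcb
    rw [isConj_iff] at hca hcb
    obtain ⟨c, rfl⟩ := hca
    obtain ⟨d, rfl⟩ := hcb
    have h1 : (d⁻¹ * c) * y * (d⁻¹ * c)⁻¹ * y = y * ((d⁻¹ * c) * y * (d⁻¹ * c)⁻¹) := hA (d⁻¹ * c)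
    calc c * y * c⁻¹ * (d * y * d⁻¹) = d * ((d⁻¹ * c) * y * (d⁻¹ * c)⁻¹ * y) * d⁻¹ := by group
      _ = d * (y * ((d⁻¹ * c) * y * (d⁻¹ * c)⁻¹)) * d⁻¹ := by rw [h1]
      _ = d * y * d⁻¹ * (c * y * c⁻¹) := by group
  have hNcl : Subgroup.normalClosure ({y} : Set G) =
      Subgroup.closure (Group.conjugatesOfSet ({y} : Set G)) := rfl
  have h1 : ∀ s ∈ Group.conjugatesOfSet ({y} : Set G), ∀ b ∈ Subgroup.normalClosure ({y} : Set G),
      s * b = b * s := by
    intro s hs b hb
    have hle : Subgroup.normalClosure ({y} : Set G) ≤ Subgroup.centralizer ({s} : Set G) := by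
      rw [hNcl, Subgroup.closure_le]
      intro t ht
      rw [SetLike.mem_coe, Subgroup.mem_centralizer_iff]
      intro u hu
      rw [Set.mem_singleton_iff] at hu; subst hu
      exact hB u hs t ht
    exact Subgroup.mem_centralizer_iff.mp (hle hb) s rfl
  have hcomm : ∀ a ∈ Subgroup.normalClosure ({y} : Set G), ∀ b ∈ Subgroup.normalClosure ({y} : Set G),
      a * b = b * a := by
    intro a ha b hb
    have hle : Subgroup.normalClosure ({y} : Set G) ≤ Subgroup.centralizer ({b} : Set G) := by
      rw [hNcl, Subgroup.closure_le]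
      intro t ht
      rw [SetLike.mem_coe, Subgroup.mem_centralizer_iff]
      intro u hu
      rw [Set.mem_singleton_iff] at hu; subst hu
      exact (h1 t ht u hb).symm
    exact (Subgroup.mem_centralizer_iff.mp (hle ha) b rfl).symm
  have hsq : ∀ a ∈ Subgroup.normalClosure ({y} : Set G), a ^ 2 = 1 := by
    intro a ha
    rw [hNcl] at ha
    refine Subgroup.closure_induction (p := fun a _ => a ^ 2 = 1) ?_ ?_ ?_ ?_ ha
    · intro s hs
      rw [Group.mem_conjugatesOfSet_iff] at hs
      obtain ⟨y1, hy1', hca⟩ := hs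
      rw [Set.mem_singleton_iff] at hy1'
      rw [hy1', isConj_iff] at hca
      obtain ⟨c, rfl⟩ := hca
      calc (c * y * c⁻¹) ^ 2 = c * (y * y) * c⁻¹ := by rw [pow_two]; group
        _ = 1 := by rw [hy2]; group
    · exact one_pow 2
    · intro a b ha hb ha2 hb2
      have hc : Commute a b := hcomm a ha b hb
      rw [hc.mul_pow, ha2, hb2, one_mul]
    · intro a _ ha2
      rw [inv_pow, ha2, inv_one]
  have hyN : y ∈ Subgroup.normalClosure ({y} : Set G) :=
    Subgroup.subset_normalClosure (Set.mem_singleton y)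
  haveI hNn : (Subgroup.normalClosure ({y} : Set G)).Normal := Subgroup.normalClosure_normal
  refine ⟨?_, ⟨⟨⟨fun a b => Subtype.ext (hcomm a a.2 b b.2)⟩⟩, hsq⟩, ?_⟩
  · intro htop
    have hall : ∀ a ∈ Subgroup.normalClosure ({y} : Set G), a = 1 ∨ a = y := by
      intro a ha
      rw [hNcl] at ha
      refine Subgroup.closure_induction (p := fun a _ => a = 1 ∨ a = y) ?_ ?_ ?_ ?_ ha
      · intro s hs
        rw [Group.mem_conjugatesOfSet_iff] at hs
        obtain ⟨y1, hy1', hca⟩ := hs
        rw [Set.mem_singleton_iff] at hy1'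
        rw [hy1', isConj_iff] at hca
        obtain ⟨c, rfl⟩ := hca
        right
        have hcN : c ∈ Subgroup.normalClosure ({y} : Set G) := by rw [htop]; exact Subgroup.mem_top c
        rw [hcomm c hcN y hyN]; group
      · exact Or.inl rfl
      · rintro a b _ _ (rfl | rfl) (rfl | rfl)
        · left; exact one_mul 1
        · right; exact one_mul _
        · right; exact mul_one _
        · left; exact hy2
      · rintro a _ (rfl | rfl)
        · left; exact inv_one
        · right; exact hy_inv
    have hxN : x ∈ Subgroup.normalClosure ({y} : Set G) := by rw [htop]; exact Subgroup.mem_top x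
    rcases hall x hxN with h | h
    · exact hx1 h
    · exact hnc (h ▸ IsConj.refl x)
  · intro hu
    have hfix : ∀ n ∈ Subgroup.normalClosure ({y} : Set G), n * x = x * n → n = 1 ∨ n = y := by
      intro n hn hnx
      by_cases hn1 : n = 1
      · exact Or.inl hn1
      · right
        have hn2 : n * n = 1 := by have := hsq n hn; rwa [pow_two] at this
        exact hu n hn (orderOf_two_of_mul_self hn2 hn1) hnx
    let f : ↥(Subgroup.normalClosure ({y} : Set G)) →* ↥(Subgroup.normalClosure ({y} : Set G)) :=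
      { toFun := fun n => ⟨(n : G) * (x * n * x⁻¹), mul_mem n.2 (hNn.conj_mem n n.2 x)⟩
        map_one' := by apply Subtype.ext; simp
        map_mul' := by
          intro a b
          apply Subtype.ext
          show (a : G) * b * (x * (a * b) * x⁻¹) = (a * (x * a * x⁻¹)) * (b * (x * b * x⁻¹))
          have h1 := hcomm b b.2 (x * a * x⁻¹) (hNn.conj_mem a a.2 x)
          calc (a : G) * b * (x * (a * b) * x⁻¹) = a * (b * (x * a * x⁻¹)) * (x * b * x⁻¹) := by group
            _ = a * ((x * a * x⁻¹) * b) * (x * b * x⁻¹) := by rw [h1]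
            _ = (a * (x * a * x⁻¹)) * (b * (x * b * x⁻¹)) := by group }
    have hfv : ∀ n : ↥(Subgroup.normalClosure ({y} : Set G)), (f n : G) = (n : G) * (x * n * x⁻¹) :=
      fun n => rfl
    have hval : ∀ n : ↥(Subgroup.normalClosure ({y} : Set G)), (f n : G) = 1 ∨ (f n : G) = y := by
      intro n
      apply hfix _ (f n).2
      rw [hfv]
      have h1 := hcomm n n.2 (x * n * x⁻¹) (hNn.conj_mem n n.2 x)
      calc (n : G) * (x * n * x⁻¹) * x = n * x * n := by group
        _ = x * (x * n * x⁻¹ * n) := by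
            rw [show x * (x * (n : G) * x⁻¹ * n) = (x * x) * n * x⁻¹ * n by group, hx2, hx_inv, one_mul]
        _ = x * ((n : G) * (x * n * x⁻¹)) := by rw [h1]
    have hker : ∀ n : ↥(Subgroup.normalClosure ({y} : Set G)), f n = 1 → (n : G) = 1 ∨ (n : G) = y := by
      intro n hn
      have h1 : (n : G) * (x * n * x⁻¹) = 1 := by rw [← hfv, hn]; rfl
      have hn2 : (n : G) * n = 1 := by have := hsq n n.2; rwa [pow_two] at this
      apply hfix n n.2
      have h2 : x * (n : G) * x⁻¹ = n := by
        rw [← inv_eq_of_mul_eq_one_right h1]; exact inv_eq_of_mul_eq_one_right hn2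
      calc (n : G) * x = (x * n * x⁻¹) * x := by rw [h2]
        _ = x * n := by group
    have hcard2 : ∀ K : Subgroup ↥(Subgroup.normalClosure ({y} : Set G)),
        (∀ k ∈ K, (k : G) = 1 ∨ (k : G) = y) → Nat.card K ≤ 2 := by
      intro K hK
      have hsub : (K : Set ↥(Subgroup.normalClosure ({y} : Set G))) ⊆ {1, ⟨y, hyN⟩} := by
        intro k hk
        rcases hK k hk with h | h
        · left; exact Subtype.ext h
        · right; exact Subtype.ext h
      calc Nat.card K = (K : Set ↥(Subgroup.normalClosure ({y} : Set G))).ncard :=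
            (Nat.card_coe_set_eq _)
        _ ≤ ({1, ⟨y, hyN⟩} : Set ↥(Subgroup.normalClosure ({y} : Set G))).ncard :=
            Set.ncard_le_ncard hsub (Set.toFinite _)
        _ ≤ 2 := (Set.ncard_insert_le _ _).trans (by rw [Set.ncard_singleton])
    have h1 := hcard2 f.ker (fun k hk => hker k (MonoidHom.mem_ker.mp hk))
    have h2 := hcard2 f.range (by rintro k ⟨n, rfl⟩; exact hval n)
    have h3 := Subgroup.card_mul_index f.ker
    rw [Subgroup.index_ker] at h3
    calc Nat.card ↥(Subgroup.normalClosure ({y} : Set G)) = Nat.card f.ker * Nat.card f.range := h3.symm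
      _ ≤ 2 * 2 := Nat.mul_le_mul h1 h2

end Cfsg.Agent.S3276
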