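import Cfsg.Statements.S3277
import Cfsg.Agent.S1230
import Cfsg.Agent.S0252
import Cfsg.Agent.S0111
import Cfsg.Agent.S0112
import Cfsg.Agent.S0113

set_option autoImplicit false
open Cfsg

open scoped Pointwise

namespace Cfsg.Agent.S3277

theorem comm_of_sq_one {G : Type*} [Group G] {a b : G} (ha : a ^ 2 = 1) (hb : b ^ 2 = 1)
    (hab : (a * b) ^ 2 = 1) : a * b = b * a := by
  have h1 : a * b * (a * b) = 1 := by rw [← pow_two]; exact hab
  have h2 : a⁻¹ = a := by
    rw [inv_eq_iff_mul_eq_one, ← pow_two]; exact ha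
  have h3 : b⁻¹ = b := by
    rw [inv_eq_iff_mul_eq_one, ← pow_two]; exact hb
  have h4 : a * b = (a * b)⁻¹ := by
    rw [eq_inv_iff_mul_eq_one]; exact h1
  rw [h4, mul_inv_rev, h2, h3]

theorem inv_of_sq_one {G : Type*} [Group G] {a : G} (ha : a ^ 2 = 1) : a⁻¹ = a := by
  rw [inv_eq_iff_mul_eq_one, ← pow_two]; exact ha

theorem cent_conj {G : Type*} [Group G] (x g c : G)
    (hc : c ∈ Subgroup.centralizer ({g * x * g⁻¹} : Set G)) :
    g⁻¹ * c * g ∈ Subgroup.centralizer ({x} : Set G) := by
  rw [Subgroup.mem_centralizer_singleton_iff] at hc ⊢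
  have h1 : g⁻¹ * c * g * x = g⁻¹ * (c * (g * x * g⁻¹)) * g := by group
  rw [h1, hc]; group

theorem pow_mem_iff_even {G : Type*} [Group G] {N : Subgroup G} (hN2 : N.index = 2) {d : G}
    (hd : d ∉ N) (j : ℕ) : d ^ j ∈ N ↔ Even j := by
  induction j with
  | zero => simp
  | succ j ih =>
    rw [pow_succ, Subgroup.mul_mem_iff_of_index_two hN2, ih, Nat.even_add_one]
    simp [hd]

/-- In a group where the involution `x` has an elementary abelian centraliser of order `4`
properly contained in a Sylow `2`-subgroup, there is a normal subgroup of index `2`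
missing `x` (Thompson transfer). -/
theorem exists_index_two {G : Type*} [Group G] [Finite G] (x : G) (hx : orderOf x = 2)
    (hC4 : Nat.card ↥(Subgroup.centralizer ({x} : Set G)) = 4)
    (hCe : ∀ c ∈ Subgroup.centralizer ({x} : Set G), c ^ 2 = 1)
    (S : Sylow 2 G) (hVS : Subgroup.centralizer ({x} : Set G) ≤ (S : Subgroup G))
    (hS4 : Nat.card (S : Subgroup G) ≠ 4) :
    ∃ N : Subgroup G, N.Normal ∧ N.index = 2 ∧ x ∉ N := by
  haveI : Fact (Nat.Prime 2) := ⟨Nat.prime_two⟩
  have hxV : x ∈ Subgroup.centralizer ({x} : Set G) :=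
    Subgroup.mem_centralizer_singleton_iff.mpr rfl
  obtain ⟨n, hn⟩ := S.isPGroup'.exists_card_eq
  have h4le : 4 ≤ Nat.card (S : Subgroup G) := by
    rw [← hC4]; exact Subgroup.card_le_of_le hVS
  have hn3 : 3 ≤ n := by
    by_contra hcon
    have hn2 : n ≤ 2 := by omega
    interval_cases n <;> omega
  -- the centraliser of `x` is self-centralising in `S`
  have hA : Nat.card ((Subgroup.centralizer ({x} : Set G)).subgroupOf (S : Subgroup G)) = 2 ^ 2 := by
    rw [Nat.card_congr (Subgroup.subgroupOfEquivOfLe hVS).toEquiv, hC4]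
    norm_num
  have hCA : Subgroup.centralizer
      (((Subgroup.centralizer ({x} : Set G)).subgroupOf (S : Subgroup G) :
        Subgroup ↥(S : Subgroup G)) : Set ↥(S : Subgroup G))
      = (Subgroup.centralizer ({x} : Set G)).subgroupOf (S : Subgroup G) := by
    ext c
    constructor
    · intro hc
      have hxA : (⟨x, hVS hxV⟩ : ↥(S : Subgroup G)) ∈
          (Subgroup.centralizer ({x} : Set G)).subgroupOf (S : Subgroup G) :=
        Subgroup.mem_subgroupOf.mpr hxV
      have h1 := hc ⟨x, hVS hxV⟩ hxA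
      rw [Subgroup.mem_subgroupOf, Subgroup.mem_centralizer_singleton_iff]
      exact (congrArg Subtype.val h1).symm
    · intro hc a ha
      have ha' : a ∈ (Subgroup.centralizer ({x} : Set G)).subgroupOf (S : Subgroup G) := ha
      rw [Subgroup.mem_subgroupOf] at hc ha'
      apply Subtype.ext
      exact comm_of_sq_one (hCe _ ha') (hCe _ hc) (hCe _ (mul_mem ha' hc))
  have hclass := Cfsg.Agent.S0112.result (p := 2) n hn _ hA hCA
  obtain ⟨C, hCcyc, hCi⟩ := Cfsg.Agent.S0113.result n hn3 hn hclass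
  -- the cyclic maximal subgroup
  have hQS : C.map (S : Subgroup G).subtype ≤ (S : Subgroup G) := Subgroup.map_subtype_le C
  have hQi : (C.map (S : Subgroup G).subtype).relIndex (S : Subgroup G) = 2 := by
    unfold Subgroup.relIndex Subgroup.subgroupOf
    rw [Subgroup.comap_map_eq_self_of_injective (Subgroup.subtype_injective _), hCi]
  obtain ⟨c₀, hc₀⟩ := hCcyc.exists_generator
  have hcardC : Nat.card C * 2 = 2 ^ n := by
    have h := Subgroup.card_mul_index C
    rw [hCi, hn] at h
    exact h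
  have hcardC4 : 4 ≤ Nat.card C := by
    have h8 : 2 ^ 3 ≤ 2 ^ n := Nat.pow_le_pow_right (by norm_num) hn3
    omega
  have hord : orderOf c₀ = Nat.card C := orderOf_eq_card_of_forall_mem_zpowers hc₀
  have hnoconj : ∀ g : G, g * x * g⁻¹ ∉ C.map (S : Subgroup G).subtype := by
    intro g hg
    obtain ⟨q, hqC, hq⟩ := Subgroup.mem_map.mp hg
    obtain ⟨k, hk⟩ := Subgroup.mem_zpowers_iff.mp (hc₀ ⟨q, hqC⟩)
    have hk' : (((c₀ : ↥C) : ↥(S : Subgroup G)) : G) ^ k = g * x * g⁻¹ := by
      rw [← hq]
      have := congrArg (fun y : ↥C => ((y : ↥(S : Subgroup G)) : G)) hk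
      simpa using this
    have hcomm : (((c₀ : ↥C) : ↥(S : Subgroup G)) : G) ∈
        Subgroup.centralizer ({g * x * g⁻¹} : Set G) := by
      rw [Subgroup.mem_centralizer_singleton_iff, ← hk']
      exact ((Commute.refl (((c₀ : ↥C) : ↥(S : Subgroup G)) : G)).zpow_right k).eq
    have h1 := hCe _ (cent_conj x g _ hcomm)
    have h2 : (((c₀ : ↥C) : ↥(S : Subgroup G)) : G) ^ 2 = 1 := by
      have h3 : (g⁻¹ * (((c₀ : ↥C) : ↥(S : Subgroup G)) : G) * g) ^ 2
          = g⁻¹ * (((c₀ : ↥C) : ↥(S : Subgroup G)) : G) ^ 2 * g := by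
        rw [pow_two, pow_two]; group
      rw [h3] at h1
      have h4 : (((c₀ : ↥C) : ↥(S : Subgroup G)) : G) ^ 2 = g * (g⁻¹ *
          (((c₀ : ↥C) : ↥(S : Subgroup G)) : G) ^ 2 * g) * g⁻¹ := by group
      rw [h4, h1]; group
    have h5 : c₀ ^ 2 = 1 := by
      apply Subtype.ext
      apply Subtype.ext
      simpa using h2
    have h6 : orderOf c₀ ≤ 2 := orderOf_le_of_pow_eq_one (by norm_num) h5
    omega
  have hxQ : x ∉ C.map (S : Subgroup G).subtype := by
    have := hnoconj 1
    simpa using this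
  rcases Cfsg.Agent.S0111.result S _ hQS hQi x hx (hVS hxV) hxQ with h | ⟨g, hg⟩
  · exact h
  · exact absurd hg (hnoconj g)

/-- Case of a Sylow `2`-subgroup of order at least `8`: there is a normal elementary abelian
subgroup of order `2` or `4`. -/
theorem caseB {G : Type*} [Group G] [Finite G] (x : G) (hx : orderOf x = 2)
    (hC4 : Nat.card ↥(Subgroup.centralizer ({x} : Set G)) = 4)
    (hCe : ∀ c ∈ Subgroup.centralizer ({x} : Set G), c ^ 2 = 1)
    (S : Sylow 2 G) (hVS : Subgroup.centralizer ({x} : Set G) ≤ (S : Subgroup G))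
    (hS4 : Nat.card (S : Subgroup G) ≠ 4) :
    ∃ E : Subgroup G, E.Normal ∧ Cfsg.IsElementaryAbelian 2 E ∧
      (Nat.card ↥E = 2 ∨ Nat.card ↥E = 4) := by
  haveI : Fact (Nat.Prime 2) := ⟨Nat.prime_two⟩
  obtain ⟨N, hNn, hN2, hxN⟩ := exists_index_two x hx hC4 hCe S hVS hS4
  have hxV : x ∈ Subgroup.centralizer ({x} : Set G) :=
    Subgroup.mem_centralizer_singleton_iff.mpr rfl
  have hx2 : x ^ 2 = 1 := by rw [← hx]; exact pow_orderOf_eq_one x
  have hxi : x⁻¹ = x := inv_of_sq_one hx2
  have hx1 : x ≠ 1 := by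
    intro h; rw [h, orderOf_one] at hx; omega
  -- an involution `z` of the centraliser lying in `N`
  obtain ⟨z, hzV, hzN, hz1⟩ : ∃ z ∈ Subgroup.centralizer ({x} : Set G), z ∈ N ∧ z ≠ 1 := by
    obtain ⟨v, hvV, hv⟩ : ∃ v ∈ Subgroup.centralizer ({x} : Set G), v ∉ Subgroup.zpowers x := by
      by_contra hcon
      push Not at hcon
      have hle : Subgroup.centralizer ({x} : Set G) ≤ Subgroup.zpowers x := hcon
      have h1 := Subgroup.card_le_of_le hle
      rw [hC4, Nat.card_zpowers, hx] at h1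
      omega
    by_cases hvN : v ∈ N
    · refine ⟨v, hvV, hvN, ?_⟩
      rintro rfl
      exact hv (one_mem _)
    · refine ⟨v * x, mul_mem hvV hxV, ?_, ?_⟩
      · rw [Subgroup.mul_mem_iff_of_index_two hN2]
        simp [hvN, hxN]
      · intro h
        apply hv
        have h2 : v = x⁻¹ := eq_inv_of_mul_eq_one_left h
        rw [h2, hxi]
        exact Subgroup.mem_zpowers x
  have hz2 : z ^ 2 = 1 := hCe z hzV
  have hzo : orderOf z = 2 := orderOf_eq_prime hz2 hz1
  -- the centraliser meets `N` in `{1, z}`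
  have hK : ∀ w : G, w ∈ Subgroup.centralizer ({x} : Set G) → w ∈ N → w = 1 ∨ w = z := by
    intro w hwV hwN
    have hKle : Subgroup.centralizer ({x} : Set G) ⊓ N ≤ Subgroup.centralizer ({x} : Set G) :=
      inf_le_left
    have hdvd := Subgroup.card_dvd_of_le hKle
    rw [hC4] at hdvd
    have hzK : Subgroup.zpowers z ≤ Subgroup.centralizer ({x} : Set G) ⊓ N := by
      rw [Subgroup.zpowers_le]
      exact ⟨hzV, hzN⟩
    have h2le := Subgroup.card_le_of_le hzK
    rw [Nat.card_zpowers, hzo] at h2le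
    have hne4 : Nat.card ↥(Subgroup.centralizer ({x} : Set G) ⊓ N) ≠ 4 := by
      intro h4
      have heq : Subgroup.centralizer ({x} : Set G) ⊓ N = Subgroup.centralizer ({x} : Set G) :=
        Subgroup.eq_of_le_of_card_ge hKle (by rw [h4, hC4])
      apply hxN
      have : x ∈ Subgroup.centralizer ({x} : Set G) ⊓ N := by rw [heq]; exact hxV
      exact this.2
    have hle4 : Nat.card ↥(Subgroup.centralizer ({x} : Set G) ⊓ N) ≤ 4 :=
      Nat.le_of_dvd (by norm_num) hdvd
    have hK2 : Nat.card ↥(Subgroup.centralizer ({x} : Set G) ⊓ N) = 2 := by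
      generalize Nat.card ↥(Subgroup.centralizer ({x} : Set G) ⊓ N) = m at *
      interval_cases m <;> simp_all
    have heq : Subgroup.zpowers z = Subgroup.centralizer ({x} : Set G) ⊓ N :=
      Subgroup.eq_of_le_of_card_ge hzK (by rw [hK2, Nat.card_zpowers, hzo])
    have hw : w ∈ Subgroup.zpowers z := by rw [heq]; exact ⟨hwV, hwN⟩
    obtain ⟨k, rfl⟩ := Subgroup.mem_zpowers_iff.mp hw
    rw [← zpow_mod_orderOf, hzo]
    rcases Int.emod_two_eq_zero_or_one k with h | h
    · left; rw [show ((2 : ℕ) : ℤ) = 2 from rfl, h, zpow_zero]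
    · right; rw [show ((2 : ℕ) : ℤ) = 2 from rfl, h, zpow_one]
  have hVN : ∀ a b : G, a ∈ Subgroup.centralizer ({x} : Set G) →
      b ∈ Subgroup.centralizer ({x} : Set G) → a ∉ N → b ∉ N → a * b = 1 ∨ a * b = z := by
    intro a b ha hb haN hbN
    apply hK _ (mul_mem ha hb)
    rw [Subgroup.mul_mem_iff_of_index_two hN2]
    simp [haN, hbN]
  -- an element of `S` normalising the centraliser
  obtain ⟨s, hsS, hsV, hsn, hsn'⟩ : ∃ s : G, s ∈ (S : Subgroup G) ∧
      s ∉ Subgroup.centralizer ({x} : Set G) ∧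
      (∀ v ∈ Subgroup.centralizer ({x} : Set G), s * v * s⁻¹ ∈ Subgroup.centralizer ({x} : Set G)) ∧
      (∀ v ∈ Subgroup.centralizer ({x} : Set G), s⁻¹ * v * s ∈ Subgroup.centralizer ({x} : Set G)) := by
    haveI : Group.IsNilpotent ↥(S : Subgroup G) := S.isPGroup'.isNilpotent
    have hlt : (Subgroup.centralizer ({x} : Set G)).subgroupOf (S : Subgroup G) < ⊤ := by
      rw [lt_top_iff_ne_top]
      intro h
      rw [Subgroup.subgroupOf_eq_top] at h
      have := Subgroup.card_le_of_le h
      have h4le : 4 ≤ Nat.card (S : Subgroup G) := by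
        rw [← hC4]; exact Subgroup.card_le_of_le hVS
      omega
    have hlt2 := Group.normalizerCondition_of_isNilpotent _ hlt
    obtain ⟨s, hsn, hsA⟩ := SetLike.exists_of_lt hlt2
    rw [Subgroup.mem_normalizer_iff] at hsn
    refine ⟨(s : G), s.2, ?_, ?_, ?_⟩
    · intro h
      exact hsA (Subgroup.mem_subgroupOf.mpr h)
    · intro v hv
      have h1 := (hsn ⟨v, hVS hv⟩).mp (Subgroup.mem_subgroupOf.mpr hv)
      exact Subgroup.mem_subgroupOf.mp h1
    · intro v hv
      have h1 := (hsn (s⁻¹ * ⟨v, hVS hv⟩ * s)).mpr (by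
        have : s * (s⁻¹ * ⟨v, hVS hv⟩ * s) * s⁻¹ = ⟨v, hVS hv⟩ := by group
        rw [this]
        exact Subgroup.mem_subgroupOf.mpr hv)
      exact Subgroup.mem_subgroupOf.mp h1
  -- `x z` is conjugate to `x` by `s`
  have hsx : s * x * s⁻¹ = z * x := by
    have h1 : s * x * s⁻¹ ∉ N := by
      intro h
      apply hxN
      have := hNn.conj_mem _ h s⁻¹
      have e : s⁻¹ * (s * x * s⁻¹) * s⁻¹⁻¹ = x := by group
      rwa [e] at this
    rcases hVN _ _ (hsn x hxV) hxV h1 hxN with h | h
    · exfalso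
      apply hsV
      rw [Subgroup.mem_centralizer_singleton_iff]
      have h2 : s * x * s⁻¹ = x := by
        rw [eq_inv_of_mul_eq_one_left h, hxi]
      calc s * x = (s * x * s⁻¹) * s := by group
        _ = x * s := by rw [h2]
    · calc s * x * s⁻¹ = (s * x * s⁻¹ * x) * x := by
            rw [mul_assoc (s * x * s⁻¹), ← pow_two, hx2, mul_one]
        _ = z * x := by rw [h]
  have hsz : s * z * s⁻¹ = z := by
    rcases hK _ (hsn z hzV) (hNn.conj_mem _ hzN s) with h | h
    · exact absurd (conj_eq_one_iff.mp h) hz1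
    · exact h
  -- every involution of `N` commutes with `z`
  have hmain : ∀ w : G, w ∈ N → w ^ 2 = 1 → w * z = z * w := by
    intro w hwN hw2
    by_cases hw1 : w = 1
    · rw [hw1, one_mul, mul_one]
    have hwi : w⁻¹ = w := inv_of_sq_one hw2
    have hdN : w * x ∉ N := by
      rw [Subgroup.mul_mem_iff_of_index_two hN2]
      simp [hwN, hxN]
    have hkpos : 0 < orderOf (w * x) := orderOf_pos _
    have hkeven : Even (orderOf (w * x)) := by
      rw [← pow_mem_iff_even hN2 hdN, pow_orderOf_eq_one]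
      exact one_mem _
    obtain ⟨m, hm⟩ := hkeven
    have hv2 : ((w * x) ^ m) ^ 2 = 1 := by
      rw [← pow_mul, mul_two, ← hm, pow_orderOf_eq_one]
    have hv1 : (w * x) ^ m ≠ 1 := pow_ne_one_of_lt_orderOf (by omega) (by omega)
    have hvi : ((w * x) ^ m)⁻¹ = (w * x) ^ m := inv_of_sq_one hv2
    have hxv : x * (w * x) ^ m * x⁻¹ = (w * x) ^ m := by
      have h1 : x * (w * x) ^ m * x⁻¹ = (x * (w * x) * x⁻¹) ^ m := by
        rw [conj_pow]
      have h2 : x * (w * x) * x⁻¹ = (w * x)⁻¹ := by
        rw [mul_inv_rev, hxi, hwi]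
        calc x * (w * x) * x = x * w * (x * x) := by group
          _ = x * w := by rw [← pow_two, hx2, mul_one]
      rw [h1, h2, inv_pow, hvi]
    have hwv : w * (w * x) ^ m * w⁻¹ = (w * x) ^ m := by
      have h1 : w * (w * x) ^ m * w⁻¹ = (w * (w * x) * w⁻¹) ^ m := by
        rw [conj_pow]
      have h2 : w * (w * x) * w⁻¹ = (w * x)⁻¹ := by
        rw [mul_inv_rev, hxi, hwi]
        have : w * w = 1 := by rw [← pow_two]; exact hw2
        calc w * (w * x) * w = (w * w) * x * w := by group
          _ = x * w := by rw [this, one_mul]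
      rw [h1, h2, inv_pow, hvi]
    have hvV : (w * x) ^ m ∈ Subgroup.centralizer ({x} : Set G) := by
      rw [Subgroup.mem_centralizer_singleton_iff]
      calc (w * x) ^ m * x = (x * (w * x) ^ m * x⁻¹) * x := by rw [hxv]
        _ = x * (w * x) ^ m := by group
    have hwv' : w * (w * x) ^ m = (w * x) ^ m * w := by
      calc w * (w * x) ^ m = (w * (w * x) ^ m * w⁻¹) * w := by group
        _ = (w * x) ^ m * w := by rw [hwv]
    by_cases hvN : (w * x) ^ m ∈ N
    · rcases hK _ hvV hvN with h | h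
      · exact absurd h hv1
      · rw [← h]; exact hwv'
    · rcases hVN _ _ hvV hxV hvN hxN with h | h
      · -- the central involution is `x`
        have h2 : (w * x) ^ m = x := by rw [eq_inv_of_mul_eq_one_left h, hxi]
        rw [h2] at hwv'
        have hwV : w ∈ Subgroup.centralizer ({x} : Set G) :=
          Subgroup.mem_centralizer_singleton_iff.mpr hwv'
        rcases hK w hwV hwN with h3 | h3
        · exact absurd h3 hw1
        · rw [h3]
      · -- the central involution is `z x`
        have h2 : (w * x) ^ m = s * x * s⁻¹ := by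
          rw [hsx, ← h, mul_assoc, ← pow_two, hx2, mul_one]
        rw [h2] at hwv'
        have hwC : w ∈ Subgroup.centralizer ({s * x * s⁻¹} : Set G) :=
          Subgroup.mem_centralizer_singleton_iff.mpr hwv'
        have h3 := cent_conj x s w hwC
        have h4 : s⁻¹ * w * s ∈ N := by
          have := hNn.conj_mem _ hwN s⁻¹
          rwa [inv_inv] at this
        rcases hK _ h3 h4 with h5 | h5
        · exfalso
          apply hw1
          have : w = s * (s⁻¹ * w * s) * s⁻¹ := by group
          rw [this, h5]; group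
        · have h6 : w = z := by
            have : w = s * (s⁻¹ * w * s) * s⁻¹ := by group
            rw [this, h5, hsz]
          rw [h6]
  -- the normal elementary abelian subgroup
  let E : Subgroup G :=
    { carrier := {g | g ∈ N ∧ g ^ 2 = 1 ∧ ∀ w ∈ N, w ^ 2 = 1 → g * w = w * g}
      one_mem' := ⟨one_mem _, one_pow _, fun w _ _ => by rw [one_mul, mul_one]⟩
      mul_mem' := by
        rintro a b ⟨haN, ha2, hac⟩ ⟨hbN, hb2, hbc⟩
        refine ⟨mul_mem haN hbN, ?_, ?_⟩
        · have hab : a * b = b * a := hac b hbN hb2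
          rw [pow_two]
          calc a * b * (a * b) = a * (b * a) * b := by group
            _ = a * (a * b) * b := by rw [hab]
            _ = (a * a) * (b * b) := by group
            _ = 1 := by rw [← pow_two, ← pow_two, ha2, hb2, one_mul]
        · intro w hwN hw2
          calc a * b * w = a * (b * w) := by group
            _ = a * (w * b) := by rw [hbc w hwN hw2]
            _ = (a * w) * b := by group
            _ = (w * a) * b := by rw [hac w hwN hw2]
            _ = w * (a * b) := by group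
      inv_mem' := by
        rintro a ⟨haN, ha2, hac⟩
        rw [inv_of_sq_one ha2]
        exact ⟨haN, ha2, hac⟩ }
  have hEmem : ∀ g : G, g ∈ E ↔ g ∈ N ∧ g ^ 2 = 1 ∧ ∀ w ∈ N, w ^ 2 = 1 → g * w = w * g :=
    fun g => Iff.rfl
  have hEn : E.Normal := by
    constructor
    intro g hg a
    obtain ⟨hgN, hg2, hgc⟩ := (hEmem g).mp hg
    rw [hEmem]
    refine ⟨hNn.conj_mem _ hgN a, ?_, ?_⟩
    · rw [conj_pow, hg2]; group
    · intro w hwN hw2
      have h1 : a⁻¹ * w * a ∈ N := by
        have := hNn.conj_mem _ hwN a⁻¹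
        rwa [inv_inv] at this
      have h2 : (a⁻¹ * w * a) ^ 2 = 1 := by
        have := conj_pow (a := a⁻¹) (b := w) (i := 2)
        rw [inv_inv] at this
        rw [this, hw2]; group
      have h3 := hgc _ h1 h2
      calc a * g * a⁻¹ * w = a * (g * (a⁻¹ * w * a)) * a⁻¹ := by group
        _ = a * ((a⁻¹ * w * a) * g) * a⁻¹ := by rw [h3]
        _ = w * (a * g * a⁻¹) := by group
  have hEe : Cfsg.IsElementaryAbelian 2 E := by
    refine ⟨?_, fun a ha => ((hEmem a).mp ha).2.1⟩
    rw [isMulCommutative_iff]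
    intro a b
    apply Subtype.ext
    obtain ⟨-, -, hac⟩ := (hEmem a).mp a.2
    obtain ⟨hbN, hb2, -⟩ := (hEmem b).mp b.2
    exact hac b hbN hb2
  have hzE : z ∈ E := (hEmem z).mpr ⟨hzN, hz2, fun w hwN hw2 => (hmain w hwN hw2).symm⟩
  refine ⟨E, hEn, hEe, ?_⟩
  -- order of `E`
  have hEcomm : ∀ a b : G, a ∈ E → b ∈ E → a * b = b * a := by
    intro a b ha hb
    obtain ⟨-, -, hac⟩ := (hEmem a).mp ha
    obtain ⟨hbN, hb2, -⟩ := (hEmem b).mp hb
    exact hac b hbN hb2
  have hEx : ∀ e : G, e ∈ E → x * e * x⁻¹ ∈ E := fun e he => hEn.conj_mem e he x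
  let φ : ↥E →* ↥E :=
    { toFun := fun e => ⟨(e : G) * (x * e * x⁻¹), mul_mem e.2 (hEx e e.2)⟩
      map_one' := by
        apply Subtype.ext
        simp
      map_mul' := by
        intro a b
        apply Subtype.ext
        have h1 := hEcomm (b : G) (x * a * x⁻¹) b.2 (hEx a a.2)
        show (a : G) * b * (x * ((a : G) * b) * x⁻¹) = a * (x * a * x⁻¹) * (b * (x * b * x⁻¹))
        calc (a : G) * b * (x * ((a : G) * b) * x⁻¹)
            = a * (b * (x * a * x⁻¹)) * (x * b * x⁻¹) := by group
          _ = a * ((x * a * x⁻¹) * b) * (x * b * x⁻¹) := by rw [h1]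
          _ = a * (x * a * x⁻¹) * (b * (x * b * x⁻¹)) := by group }
  have hφ : ∀ e : ↥E, ((φ e : ↥E) : G) = (e : G) * (x * e * x⁻¹) := fun e => rfl
  let zE : ↥E := ⟨z, hzE⟩
  have hzEo : orderOf zE = 2 := by
    rw [← Subgroup.orderOf_coe]; exact hzo
  have hsmall : ∀ H : Subgroup ↥E, (∀ h ∈ H, (h : G) = 1 ∨ (h : G) = z) → Nat.card H ≤ 2 := by
    intro H hH
    have hle : H ≤ Subgroup.zpowers zE := by
      intro h hh
      rcases hH h hh with h1 | h1
      · have : h = 1 := Subtype.ext h1
        rw [this]; exact one_mem _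
      · have : h = zE := Subtype.ext h1
        rw [this]; exact Subgroup.mem_zpowers zE
    have := Subgroup.card_le_of_le hle
    rwa [Nat.card_zpowers, hzEo] at this
  have hker : Nat.card φ.ker ≤ 2 := by
    apply hsmall
    intro e he
    rw [MonoidHom.mem_ker] at he
    have h1 : (e : G) * (x * e * x⁻¹) = 1 := by
      rw [← hφ, he]; rfl
    obtain ⟨heN, he2, -⟩ := (hEmem e).mp e.2
    have h2 : x * e * x⁻¹ = (e : G) := by
      have h3 : x * e * x⁻¹ = (e : G)⁻¹ := eq_inv_of_mul_eq_one_right h1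
      rw [h3, inv_of_sq_one he2]
    apply hK _ _ heN
    rw [Subgroup.mem_centralizer_singleton_iff]
    calc (e : G) * x = (x * e * x⁻¹) * x := by rw [h2]
      _ = x * e := by group
  have hrange : Nat.card φ.range ≤ 2 := by
    apply hsmall
    rintro f ⟨e, rfl⟩
    obtain ⟨hfN, -, -⟩ := (hEmem (φ e)).mp (φ e).2
    apply hK _ _ hfN
    rw [Subgroup.mem_centralizer_singleton_iff, hφ]
    have h1 := hEcomm (e : G) (x * e * x⁻¹) e.2 (hEx e e.2)
    have hxx : x * x = 1 := by rw [← pow_two]; exact hx2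
    calc (e : G) * (x * e * x⁻¹) * x = (x * e * x⁻¹) * e * x := by rw [h1]
      _ = x * e * (x⁻¹ * e * x) := by group
      _ = x * e * (x * e * x⁻¹) := by rw [hxi]
      _ = x * (e * (x * e * x⁻¹)) := by group
  have hcard : Nat.card φ.ker * Nat.card φ.range = Nat.card ↥E := by
    rw [← Subgroup.index_ker, Subgroup.card_mul_index]
  have hge : 2 ≤ Nat.card ↥E := by
    have := Subgroup.card_le_of_le (le_top : Subgroup.zpowers zE ≤ ⊤)
    rw [Nat.card_zpowers, hzEo, Subgroup.card_top] at this
    exact this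
  have hk1 : 0 < Nat.card φ.ker := Nat.card_pos
  have hr1 : 0 < Nat.card φ.range := Nat.card_pos
  generalize Nat.card φ.ker = a at *
  generalize Nat.card φ.range = b at *
  interval_cases a <;> interval_cases b <;> omega


/-- Case of a Sylow `2`-subgroup of order `4`: all involutions are conjugate to `x`. -/
theorem caseA {G : Type*} [Group G] [Finite G] (x : G) (hx : orderOf x = 2)
    (hC4 : Nat.card ↥(Subgroup.centralizer ({x} : Set G)) = 4)
    (hCe : ∀ c ∈ Subgroup.centralizer ({x} : Set G), c ^ 2 = 1)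
    (hnc : ¬ Cfsg.HasNormalPComplement 2 G)
    (S : Sylow 2 G) (hVS : Subgroup.centralizer ({x} : Set G) ≤ (S : Subgroup G))
    (hS4 : Nat.card (S : Subgroup G) = 4) :
    ∀ w : G, orderOf w = 2 → ∃ g : G, g * x * g⁻¹ = w := by
  classical
  haveI : Fact (Nat.Prime 2) := ⟨Nat.prime_two⟩
  have hVeq : Subgroup.centralizer ({x} : Set G) = (S : Subgroup G) :=
    Subgroup.eq_of_le_of_card_ge hVS (by rw [hC4, hS4])
  have hxV : x ∈ Subgroup.centralizer ({x} : Set G) :=
    Subgroup.mem_centralizer_singleton_iff.mpr rfl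
  have hx2 : x ^ 2 = 1 := by rw [← hx]; exact pow_orderOf_eq_one x
  have hxi : x⁻¹ = x := inv_of_sq_one hx2
  have hx1 : x ≠ 1 := by
    intro h; rw [h, orderOf_one] at hx; omega
  have hVcomm : ∀ a b : G, a ∈ Subgroup.centralizer ({x} : Set G) →
      b ∈ Subgroup.centralizer ({x} : Set G) → a * b = b * a :=
    fun a b ha hb => comm_of_sq_one (hCe _ ha) (hCe _ hb) (hCe _ (mul_mem ha hb))
  -- Burnside's transfer theorem
  have hNC : ¬ (Subgroup.normalizer ((S : Subgroup G) : Set G) ≤
      Subgroup.centralizer ((S : Subgroup G) : Set G)) := by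
    intro h
    apply hnc
    exact ⟨S, (MonoidHom.transferSylow S h).ker, inferInstance,
      MonoidHom.ker_transferSylow_isComplement' S h⟩
  obtain ⟨y, hyN, hyC⟩ := SetLike.not_le_iff_exists.mp hNC
  have hyV : y ∉ Subgroup.centralizer ({x} : Set G) := by
    intro h
    apply hyC
    rw [Subgroup.mem_centralizer_iff]
    intro v hv
    have hv' : v ∈ Subgroup.centralizer ({x} : Set G) := by rw [hVeq]; exact hv
    exact hVcomm v y hv' h
  rw [Subgroup.mem_normalizer_iff] at hyN
  have hyn : ∀ v ∈ Subgroup.centralizer ({x} : Set G),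
      y * v * y⁻¹ ∈ Subgroup.centralizer ({x} : Set G) := by
    intro v hv
    rw [hVeq] at hv ⊢
    exact (hyN v).mp hv
  have hx₁V := hyn x hxV
  have hx₁x : y * x * y⁻¹ ≠ x := by
    intro h
    apply hyV
    rw [Subgroup.mem_centralizer_singleton_iff]
    calc y * x = (y * x * y⁻¹) * y := by group
      _ = x * y := by rw [h]
  have hx₁1 : y * x * y⁻¹ ≠ 1 := fun h => hx1 (conj_eq_one_iff.mp h)
  have hx₁2 : (y * x * y⁻¹) ^ 2 = 1 := hCe _ hx₁V
  have hx₂V : x * (y * x * y⁻¹) ∈ Subgroup.centralizer ({x} : Set G) := mul_mem hxV hx₁V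
  -- the four elements of the centraliser
  have henum : ∀ v ∈ Subgroup.centralizer ({x} : Set G),
      v = 1 ∨ v = x ∨ v = y * x * y⁻¹ ∨ v = x * (y * x * y⁻¹) := by
    intro v hv
    by_contra hcon
    push Not at hcon
    obtain ⟨h1, h2, h3, h4⟩ := hcon
    let f : Fin 5 → ↥(Subgroup.centralizer ({x} : Set G)) :=
      ![⟨1, one_mem _⟩, ⟨x, hxV⟩, ⟨y * x * y⁻¹, hx₁V⟩, ⟨x * (y * x * y⁻¹), hx₂V⟩, ⟨v, hv⟩]
    have hx₂1 : x * (y * x * y⁻¹) ≠ 1 := by
      intro h
      apply hx₁x
      rw [eq_inv_of_mul_eq_one_right h, hxi]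
    have hx₂x : x * (y * x * y⁻¹) ≠ x := by
      intro h
      exact hx₁1 (mul_left_cancel (h.trans (mul_one x).symm))
    have hx₂x₁ : x * (y * x * y⁻¹) ≠ y * x * y⁻¹ := by
      intro h
      exact hx1 (mul_right_cancel (h.trans (one_mul _).symm))
    have hf : Function.Injective f := by
      intro i j hij
      have hij' : ((f i : ↥(Subgroup.centralizer ({x} : Set G))) : G) = f j := congrArg Subtype.val hij
      fin_cases i <;> fin_cases j <;> simp [f] at hij' ⊢ <;> first
        | exact absurd hij' hx1 | exact absurd hij'.symm hx1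
        | exact absurd hij' hx₁1 | exact absurd hij'.symm hx₁1
        | exact absurd hij' hx₂1 | exact absurd hij'.symm hx₂1
        | exact absurd hij' hx₁x | exact absurd hij'.symm hx₁x
        | exact absurd hij' hx₂x | exact absurd hij'.symm hx₂x
        | exact absurd hij' hx₂x₁ | exact absurd hij'.symm hx₂x₁
        | exact absurd hij' h1 | exact absurd hij'.symm h1
        | exact absurd hij' h2 | exact absurd hij'.symm h2
        | exact absurd hij' h3 | exact absurd hij'.symm h3
        | exact absurd hij' h4 | exact absurd hij'.symm h4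
    have := Nat.card_le_card_of_injective f hf
    rw [hC4, Nat.card_fin] at this
    omega
  -- the third involution is conjugate to `x`
  have hx₂conj : ∃ g : G, g * x * g⁻¹ = x * (y * x * y⁻¹) := by
    have h1 := hyn _ hx₁V
    have h2 : y * (y * x * y⁻¹) * y⁻¹ ≠ y * x * y⁻¹ := by
      intro h
      apply hx₁x
      have h3 : y * (y * x * y⁻¹) = y * x := by
        calc y * (y * x * y⁻¹) = (y * (y * x * y⁻¹) * y⁻¹) * y := by group
          _ = (y * x * y⁻¹) * y := by rw [h]
          _ = y * x := by group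
      exact mul_left_cancel h3
    have h3 : y * (y * x * y⁻¹) * y⁻¹ ≠ 1 := fun h => hx₁1 (conj_eq_one_iff.mp h)
    rcases henum _ h1 with h | h | h | h
    · exact absurd h h3
    · -- `y ^ 2` centralises `x`, so `y` is a `2`-element normalising `S`
      exfalso
      have hyy : y * y ∈ Subgroup.centralizer ({x} : Set G) := by
        rw [Subgroup.mem_centralizer_singleton_iff]
        calc y * y * x = (y * (y * x * y⁻¹) * y⁻¹) * (y * y) := by group
          _ = x * (y * y) := by rw [h]
      have hy4 : y ^ 4 = 1 := by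
        have := hCe _ hyy
        rw [← pow_two, ← pow_mul] at this
        exact this
      have hzp : IsPGroup 2 ↥(Subgroup.zpowers y) := by
        intro g
        refine ⟨2, ?_⟩
        obtain ⟨k, hk⟩ := Subgroup.mem_zpowers_iff.mp g.2
        apply Subtype.ext
        rw [Subgroup.coe_pow, ← hk, Subgroup.coe_one, ← zpow_natCast, ← zpow_mul, mul_comm,
          zpow_mul, zpow_natCast]
        norm_num
        rw [hy4, one_zpow]
      have hle : Subgroup.zpowers y ≤ Subgroup.normalizer ((S : Subgroup G) : Set G) := by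
        rw [Subgroup.zpowers_le, Subgroup.mem_normalizer_iff]
        exact hyN
      have hsup := IsPGroup.to_sup_of_normal_left' S.isPGroup' hzp hle
      have heq := S.is_maximal' hsup le_sup_left
      apply hyV
      rw [hVeq, ← heq]
      exact (le_sup_right : Subgroup.zpowers y ≤ _) (Subgroup.mem_zpowers y)
    · exact absurd h h2
    · exact ⟨y * y, by rw [← h]; group⟩
  -- every involution is conjugate into `S`
  intro w hw
  have hwp : IsPGroup 2 ↥(Subgroup.zpowers w) := by
    apply IsPGroup.of_card (n := 1)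
    rw [Nat.card_zpowers, hw, pow_one]
  obtain ⟨P', hP'⟩ := hwp.exists_le_sylow
  obtain ⟨g, hg⟩ := MulAction.exists_smul_eq G P' S
  have hwP : w ∈ (P' : Subgroup G) := hP' (Subgroup.mem_zpowers w)
  have hgw : g * w * g⁻¹ ∈ (S : Subgroup G) := by
    have h1 : MulAut.conj g • w ∈ MulAut.conj g • (P' : Subgroup G) :=
      Subgroup.smul_mem_pointwise_smul_iff.mpr hwP
    rw [← Sylow.coe_subgroup_smul, hg] at h1
    simpa [MulAut.smul_def] using h1
  have hw1 : w ≠ 1 := by
    intro h; rw [h, orderOf_one] at hw; omega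
  have hgw1 : g * w * g⁻¹ ≠ 1 := fun h => hw1 (conj_eq_one_iff.mp h)
  rw [← hVeq] at hgw
  rcases henum _ hgw with h | h | h | h
  · exact absurd h hgw1
  · exact ⟨g⁻¹, by rw [← h]; group⟩
  · exact ⟨g⁻¹ * y, by
      have : w = g⁻¹ * (g * w * g⁻¹) * g := by group
      rw [this, h]; group⟩
  · obtain ⟨a, ha⟩ := hx₂conj
    exact ⟨g⁻¹ * a, by
      have : w = g⁻¹ * (g * w * g⁻¹) * g := by group
      rw [this, h, ← ha]; group⟩

/-- Let G be a finite group containing an involution whose centralizer is elementary abelian of order 4. If G has no normal 2-complement and no normal elementary abelian 2-subgroup of order 2 or 4, then G is isomorphic to the alternating group of degree 5 (that is, to PSL(2, 5)). -/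
theorem result {G : Type*} [Group G] [Finite G] (x : G) (hx : orderOf x = 2)
    (hC4 : Nat.card ↥(Subgroup.centralizer ({x} : Set G)) = 4) (hCe : ∀ c ∈ Subgroup.centralizer ({x} : Set G), c ^ 2 = 1)
    (hnc : ¬ Cfsg.HasNormalPComplement 2 G)
    (hne : ∀ E : Subgroup G, E.Normal → Cfsg.IsElementaryAbelian 2 E → Nat.card ↥E ≠ 2 ∧ Nat.card ↥E ≠ 4) :
    Nonempty (G ≃* ↥(alternatingGroup (Fin 5))) := by
  classical
  haveI : Fact (Nat.Prime 2) := ⟨Nat.prime_two⟩
  have hVp : IsPGroup 2 ↥(Subgroup.centralizer ({x} : Set G)) :=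
    IsPGroup.of_card (n := 2) (by rw [hC4]; norm_num)
  obtain ⟨S, hVS⟩ := hVp.exists_le_sylow
  by_cases hS4 : Nat.card (S : Subgroup G) = 4
  · have hconj := caseA x hx hC4 hCe hnc S hVS hS4
    have hVeq : Subgroup.centralizer ({x} : Set G) = (S : Subgroup G) :=
      Subgroup.eq_of_le_of_card_ge hVS (by rw [hC4, hS4])
    have hC' : ∀ t : G, orderOf t = 2 →
        IsMulCommutative (Subgroup.centralizer ({t} : Set G)) ∧
          ∀ c ∈ Subgroup.centralizer ({t} : Set G), c ^ 2 = 1 := by
      intro t ht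
      obtain ⟨g, rfl⟩ := hconj t ht
      have hsq : ∀ c ∈ Subgroup.centralizer ({g * x * g⁻¹} : Set G), c ^ 2 = 1 := by
        intro c hc
        have h1 := hCe _ (cent_conj x g c hc)
        have h2 := conj_pow (a := g⁻¹) (b := c) (i := 2)
        rw [inv_inv] at h2
        rw [h2] at h1
        have h3 : c ^ 2 = g * (g⁻¹ * c ^ 2 * g) * g⁻¹ := by group
        rw [h3, h1]; group
      refine ⟨?_, hsq⟩
      rw [isMulCommutative_iff]
      intro a b
      apply Subtype.ext
      exact comm_of_sq_one (hsq _ a.2) (hsq _ b.2) (hsq _ (mul_mem a.2 b.2))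
    have hSsq : ∀ a ∈ (S : Subgroup G), a ^ 2 = 1 := by
      intro a ha
      rw [← hVeq] at ha
      exact hCe a ha
    have hncyc : ¬ IsCyclic (S : Subgroup G) := by
      intro hcyc
      obtain ⟨g, hg⟩ := hcyc.exists_generator
      have h1 : orderOf g = 4 := by
        rw [orderOf_eq_card_of_forall_mem_zpowers hg, hS4]
      have h2 : g ^ 2 = 1 := Subtype.ext (by simpa using hSsq _ g.2)
      have h3 : orderOf g ≤ 2 := orderOf_le_of_pow_eq_one (by norm_num) h2
      omega
    have hnn : ¬ (S : Subgroup G).Normal := by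
      intro hn
      refine (hne _ hn ⟨?_, hSsq⟩).2 hS4
      rw [isMulCommutative_iff]
      intro a b
      apply Subtype.ext
      exact comm_of_sq_one (hSsq _ a.2) (hSsq _ b.2) (hSsq _ (mul_mem a.2 b.2))
    obtain ⟨F, _, _, hF, ⟨e⟩⟩ := Cfsg.Agent.S1230.result S hncyc hnn hC'
    obtain ⟨e2⟩ := Cfsg.Agent.S0252.result (F := F) (hF.trans hS4)
    exact ⟨e.trans e2⟩
  · obtain ⟨E, hEn, hEe, hE⟩ := caseB x hx hC4 hCe S hVS hS4
    have := hne E hEn hEe
    rcases hE with h | h
    · exact absurd h this.1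
    · exact absurd h this.2

end Cfsg.Agent.S3277
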