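import Cfsg.Statements.S3305
import Mathlib
import Cfsg.Agent.Lib.helper16.Syl

set_option autoImplicit false
open Cfsg

namespace Cfsg.Agent.S3305

open Cfsg.Agent.Lib.helper16 in
theorem lift_sylow {G : Type*} [Group G] [Finite G] {p : ℕ} [Fact p.Prime] (H : Subgroup G) [H.Normal]
    (Sb : Sylow p (G ⧸ H)) (Q : Subgroup G) (hQ : IsPGroup p Q)
    (hQS : Q.map (QuotientGroup.mk' H) ≤ (Sb : Subgroup (G ⧸ H))) :
    ∃ S₁ : Sylow p G, Q ≤ (S₁ : Subgroup G) ∧
      (S₁ : Subgroup G).map (QuotientGroup.mk' H) ≤ (Sb : Subgroup (G ⧸ H)) := by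
  have hπ : Function.Surjective (QuotientGroup.mk' H) := QuotientGroup.mk'_surjective H
  obtain ⟨S₀, hS₀⟩ := Sylow.mapSurjective_surjective hπ p Sb
  have hS₀' : (S₀ : Subgroup G).map (QuotientGroup.mk' H) = (Sb : Subgroup (G ⧸ H)) := by
    rw [← hS₀]; rfl
  set Y := (Sb : Subgroup (G ⧸ H)).comap (QuotientGroup.mk' H) with hY
  have hS₀Y : (S₀ : Subgroup G) ≤ Y := by
    rw [hY, ← Subgroup.map_le_iff_le_comap, hS₀']
  have hQY : Q ≤ Y := by
    rw [hY, ← Subgroup.map_le_iff_le_comap]; exact hQS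
  obtain ⟨y, hyY, hy⟩ := exists_conj_mem_sylow Y S₀ hS₀Y Q hQY hQ
  refine ⟨y⁻¹ • S₀, ?_, ?_⟩
  · intro a ha
    have := sylow_smul_mem y⁻¹ S₀ (y⁻¹ • S₀) rfl _ (hy a ha)
    simpa [mul_assoc] using this
  · rintro _ ⟨x, hx, rfl⟩
    have h1 : y • (y⁻¹ • S₀) = S₀ := by rw [smul_smul, mul_inv_cancel, one_smul]
    have h3 : y * x * y⁻¹ ∈ Y := hS₀Y (sylow_smul_mem y (y⁻¹ • S₀) S₀ h1 x hx)
    have h4 : y⁻¹ * (y * x * y⁻¹) * y ∈ Y := Y.mul_mem (Y.mul_mem (Y.inv_mem hyY) h3) hyY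
    have h5 : x ∈ Y := by simpa [mul_assoc] using h4
    exact h5

/-- If any two distinct Sylow 2-subgroups of the finite group G intersect in a cyclic group, then the same holds in every quotient group G/H, H a normal subgroup of G. -/
theorem result {G : Type*} [Group G] [Finite G]
    (hC : ∀ S T : Sylow 2 G, S ≠ T → IsCyclic ↥((S : Subgroup G) ⊓ (T : Subgroup G))) (H : Subgroup G) [H.Normal] :
    ∀ S T : Sylow 2 (G ⧸ H), S ≠ T → IsCyclic ↥((S : Subgroup (G ⧸ H)) ⊓ (T : Subgroup (G ⧸ H))) := by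
  intro S T hST
  have h2 : Fact (Nat.Prime 2) := ⟨Nat.prime_two⟩
  have hπ : Function.Surjective (QuotientGroup.mk' H) := QuotientGroup.mk'_surjective H
  set D := (S : Subgroup (G ⧸ H)) ⊓ (T : Subgroup (G ⧸ H)) with hD
  set X := D.comap (QuotientGroup.mk' H) with hX
  have hf : Function.Surjective ((QuotientGroup.mk' H).subgroupComap D) :=
    (QuotientGroup.mk' H).subgroupComap_surjective_of_surjective D hπ
  obtain ⟨Q⟩ : Nonempty (Sylow 2 X) := inferInstance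
  set QG := (Q : Subgroup X).map X.subtype with hQG
  have hQG2 : IsPGroup 2 QG := Q.2.map _
  have hQGX : QG ≤ X := Subgroup.map_subtype_le _
  have hQGD : QG.map (QuotientGroup.mk' H) ≤ D := by
    rw [Subgroup.map_le_iff_le_comap]; exact hQGX
  obtain ⟨S₁, hS₁, hS₁'⟩ := lift_sylow H S QG hQG2 (hQGD.trans inf_le_left)
  obtain ⟨T₁, hT₁, hT₁'⟩ := lift_sylow H T QG hQG2 (hQGD.trans inf_le_right)
  have hne : S₁ ≠ T₁ := by
    intro h
    apply hST
    have e1 := (S₁.mapSurjective hπ).3 S.2 hS₁'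
    have e2 := (S₁.mapSurjective hπ).3 T.2 (h ▸ hT₁')
    exact Sylow.ext (e1.trans e2.symm)
  have hcyc : IsCyclic ↥((S₁ : Subgroup G) ⊓ (T₁ : Subgroup G)) := hC S₁ T₁ hne
  have hQcyc : IsCyclic QG := Subgroup.isCyclic_of_le (le_inf hS₁ hT₁)
  have hD2 : IsPGroup 2 D := S.2.to_le inf_le_left
  have htop : (⊤ : Subgroup D) = ((Q.mapSurjective hf : Sylow 2 D) : Subgroup D) :=
    (Q.mapSurjective hf).3 (hD2.to_subgroup ⊤) le_top
  let g : QG →* D := ((QuotientGroup.mk' H).subgroupComap D).comp (Subgroup.inclusion hQGX)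
  have hg : Function.Surjective g := by
    intro d
    have hd : d ∈ ((Q.mapSurjective hf : Sylow 2 D) : Subgroup D) := by rw [← htop]; trivial
    obtain ⟨q, hq, hqd⟩ := hd
    refine ⟨⟨(q : G), ⟨q, hq, rfl⟩⟩, ?_⟩
    rw [← hqd]
    rfl
  exact isCyclic_of_surjective g hg

end Cfsg.Agent.S3305
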