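import Cfsg.Statements.S3303
import Mathlib
import Cfsg.Agent.Lib.helper16.OddQuot
import Cfsg.Agent.Lib.helper16.Syl
import Cfsg.Agent.S3305

set_option autoImplicit false
open Cfsg

namespace Cfsg.Agent.S3303

open Cfsg.Agent.Lib.helper16

/-- a normal p-subgroup lies in every Sylow p-subgroup -/
theorem normal_le_sylow {X : Type*} [Group X] [Finite X] {p : ℕ} [Fact p.Prime] (F : Subgroup X)
    [hFn : F.Normal] (hF : IsPGroup p F) (R : Sylow p X) : F ≤ R := by
  obtain ⟨R₀, hR₀⟩ := hF.exists_le_sylow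
  obtain ⟨g, hg⟩ := MulAction.exists_smul_eq X R₀ R
  intro f hf
  have h1 : g⁻¹ * f * g ∈ F := by
    have := hFn.conj_mem f hf g⁻¹
    simpa using this
  have h2 := sylow_smul_mem g R₀ R hg (g⁻¹ * f * g) (hR₀ h1)
  have h3 : g * (g⁻¹ * f * g) * g⁻¹ = f := by group
  rwa [h3] at h2

/-- an element of odd order centralizes a normal cyclic 2-subgroup -/
theorem odd_centralizes_cyclic {X : Type*} [Group X] [Finite X] (F : Subgroup X) [hFn : F.Normal]
    (hF : IsPGroup 2 F) (hcyc : IsCyclic F) (g : X) (hg : Odd (orderOf g)) :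
    ∀ f ∈ F, g * f = f * g := by
  have h1 : orderOf (MulAut.conjNormal g : MulAut F) ∣ orderOf g := by
    apply orderOf_dvd_of_pow_eq_one
    rw [← map_pow, pow_orderOf_eq_one, map_one]
  have h2 : orderOf (MulAut.conjNormal g : MulAut F) ∣ Nat.card (MulAut F) := orderOf_dvd_natCard _
  obtain ⟨j, hj⟩ := IsPGroup.iff_card.mp hF
  have h3 : ∃ i, Nat.card (MulAut F) = 2 ^ i := by
    rw [IsCyclic.card_mulAut, hj]
    rcases Nat.eq_zero_or_pos j with h0 | h0
    · exact ⟨0, by rw [h0, pow_zero, Nat.totient_one]⟩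
    · exact ⟨j - 1, by rw [Nat.totient_prime_pow Nat.prime_two h0]; simp⟩
  obtain ⟨i, hi⟩ := h3
  rw [hi] at h2
  have hcop : Nat.Coprime (orderOf (MulAut.conjNormal g : MulAut F)) (2 ^ i) :=
    Nat.Coprime.pow_right i ((hg.coprime_two_right).coprime_dvd_left h1)
  have h4 : (MulAut.conjNormal g : MulAut F) = 1 :=
    orderOf_eq_one_iff.mp (Nat.Coprime.eq_one_of_dvd hcop h2)
  intro f hf
  have h5 : (MulAut.conjNormal g : MulAut F) ⟨f, hf⟩ = ⟨f, hf⟩ := by rw [h4]; rfl
  have h6 : g * f * g⁻¹ = f := by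
    have := congrArg Subtype.val h5
    rwa [MulAut.conjNormal_apply] at this
  calc g * f = (g * f * g⁻¹) * g := by group
    _ = f * g := by rw [h6]

theorem sylow_eq_top_of_isPGroup {X : Type*} [Group X] [Finite X] {p : ℕ} [hp : Fact p.Prime]
    (h : IsPGroup p X) (R : Sylow p X) : (R : Subgroup X) = ⊤ := by
  obtain ⟨k, hk⟩ := IsPGroup.iff_card.mp h
  apply Subgroup.eq_top_of_card_eq
  rw [Sylow.card_eq_multiplicity, hk, Nat.factorization_pow]
  simp [hp.out.factorization_self]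

/-- Let G be a finite solvable group in which the intersection of any two distinct Sylow 2-subgroups is cyclic. Then G/O(G) has a normal Sylow 2-subgroup, where O(G) is the largest normal subgroup of odd order. -/
theorem result {G : Type*} [Group G] [Finite G] (hs : Group.IsSolvable G)
    (hC : ∀ S T : Sylow 2 G, S ≠ T → IsCyclic ↥((S : Subgroup G) ⊓ (T : Subgroup G))) :
    ∃ P : Sylow 2 (G ⧸ Cfsg.oddCore G), (P : Subgroup (G ⧸ Cfsg.oddCore G)).Normal := by
  have : Fact (Nat.Prime 2) := ⟨Nat.prime_two⟩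
  by_cases hsub : ∀ S T : Sylow 2 (G ⧸ Cfsg.oddCore G), S = T
  · have : Subsingleton (Sylow 2 (G ⧸ Cfsg.oddCore G)) := ⟨hsub⟩
    exact ⟨default, Sylow.normal_of_subsingleton default⟩
  · exfalso
    push Not at hsub
    obtain ⟨S, T, hST⟩ := hsub
    have hcyc := Cfsg.Agent.S3305.result hC (Cfsg.oddCore G) S T hST
    have hbot := oddCore_quotient_eq_bot G
    have hsol : Group.IsSolvable (G ⧸ Cfsg.oddCore G) := inferInstance
    have hF2 := fitting_isPGroup_of_oddCore_eq_bot (G ⧸ Cfsg.oddCore G) hbot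
    have hFn : (Cfsg.fittingSubgroup (G ⧸ Cfsg.oddCore G)).Normal := inferInstance
    have hFcyc : IsCyclic (Cfsg.fittingSubgroup (G ⧸ Cfsg.oddCore G)) :=
      Subgroup.isCyclic_of_le (le_inf (normal_le_sylow _ hF2 S) (normal_le_sylow _ hF2 T))
    have h2grp : IsPGroup 2 (G ⧸ Cfsg.oddCore G) :=
      isPGroup_two_of_odd_centralize _ hsol hbot
        (fun g hg => odd_centralizes_cyclic _ hF2 hFcyc g hg)
    exact hST (Sylow.ext ((sylow_eq_top_of_isPGroup h2grp S).trans
      (sylow_eq_top_of_isPGroup h2grp T).symm))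

end Cfsg.Agent.S3303
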