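import Cfsg.Statements.S3315
import Cfsg.Agent.Lib.helper25.U3Aut2

set_option autoImplicit false
open Cfsg

namespace Cfsg.Agent.S3315

/-- Let S be a Sylow 2-subgroup of SU₃(2ⁿ), n ≥ 2 (realised over the field with 4ⁿ elements). If a finite 2-group R contains a subgroup S' of index 2 isomorphic to S, then the centre of S' is contained in the centre of R. -/
theorem result {R : Type*} [Group R] [Finite R]
    (hR : IsPGroup 2 R) (n : ℕ) (hn : 2 ≤ n) {F : Type*} [Field F] [Fintype F] (hF : Fintype.card F = 4 ^ n)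
    (P : Sylow 2 ↥(Cfsg.SU 3 F (2 ^ n))) (S' : Subgroup R) (hS : Nonempty (↥S' ≃* ↥(P : Subgroup ↥(Cfsg.SU 3 F (2 ^ n)))))
    (hidx : S'.index = 2) :
    (Subgroup.center ↥S').map S'.subtype ≤ Subgroup.center R := by
  have hK : Fintype.card F = (2 ^ n) ^ 2 := by
    rw [hF, ← pow_mul, mul_comm, pow_mul]; norm_num
  have hF' : Fintype.card F = 2 ^ (n * 2) := by rw [hK, pow_mul]
  haveI : CharP F 2 := Cfsg.Agent.Lib.helper25.U3Syl.charP_two_of_card (n * 2) hF'
  obtain ⟨C0⟩ := Cfsg.Agent.Lib.helper25.U3Syl.exists_coord_su hK P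
  obtain ⟨e⟩ := hS
  exact Cfsg.Agent.Lib.helper25.U3Syl.center_le_of_index_two hK (by omega) S' (C0.comap e) hidx

end Cfsg.Agent.S3315
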