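import Mathlib
import Cfsg.Statements.S3349

set_option autoImplicit false
open Cfsg
open scoped commutatorElement

namespace Cfsg.Agent.S3349

/-- Let Q be a finite extraspecial p-group and α an automorphism of Q fixing every element of some maximal abelian subgroup of Q. Then the order of α is a power of p. -/
theorem result {Q : Type*} [Group Q] [Finite Q]
    (p : ℕ) [Fact p.Prime] (hQ : Cfsg.IsExtraspecial p Q) (α : MulAut Q)
    (A : Subgroup Q) (hA : IsMulCommutative A) (hmax : ∀ B : Subgroup Q, A ≤ B → IsMulCommutative B → B = A)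
    (hfix : ∀ a ∈ A, α a = a) :
    ∃ k : ℕ, orderOf α = p ^ k := by
  classical
  obtain ⟨⟨hP, hfrat, hcomm⟩, hcard⟩ := hQ
  have hcommA : ∀ a ∈ A, ∀ b ∈ A, a * b = b * a := fun a ha b hb =>
    congrArg Subtype.val (hA.is_comm.comm ⟨a, ha⟩ ⟨b, hb⟩)
  -- Step A: self-centralizing
  have stepA : ∀ x : Q, (∀ a ∈ A, x * a = a * x) → x ∈ A := by
    intro x hx
    have hB : IsMulCommutative (Subgroup.closure ((A : Set Q) ∪ {x})) := by
      apply Subgroup.isMulCommutative_closure
      rintro u (hu | hu) v (hv | hv)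
      · exact hcommA u hu v hv
      · rw [Set.mem_singleton_iff.mp hv]; exact (hx u hu).symm
      · rw [Set.mem_singleton_iff.mp hu]; exact hx v hv
      · rw [Set.mem_singleton_iff.mp hu, Set.mem_singleton_iff.mp hv]
    have hle : A ≤ Subgroup.closure ((A : Set Q) ∪ {x}) := fun a ha =>
      Subgroup.subset_closure (Or.inl ha)
    have := hmax _ hle hB
    rw [← this]
    exact Subgroup.subset_closure (Or.inr rfl)
  have stepB : Subgroup.center Q ≤ A := fun z hz =>
    stepA z (fun a _ => ((Subgroup.mem_center_iff.mp hz) a).symm)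
  have stepC : ∀ (g : Q), ∀ a ∈ A, g * a * g⁻¹ ∈ A := by
    intro g a ha
    have h1 : ⁅g, a⁆ ∈ commutator Q := by
      rw [commutator_def]
      exact Subgroup.commutator_mem_commutator (Subgroup.mem_top g) (Subgroup.mem_top a)
    rw [hcomm] at h1
    have h2 : ⁅g, a⁆ * a ∈ A := A.mul_mem (stepB h1) ha
    rw [commutatorElement_def] at h2
    simpa using h2
  have stepD : ∀ x : Q, x⁻¹ * α x ∈ A := by
    intro x
    apply stepA
    intro a ha
    have h1 := hfix _ (stepC x a ha)
    rw [map_mul, map_mul, hfix a ha, map_inv] at h1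
    -- h1 : α x * a * (α x)⁻¹ = x * a * x⁻¹
    calc x⁻¹ * α x * a = x⁻¹ * (α x * a * (α x)⁻¹) * α x := by group
      _ = x⁻¹ * (x * a * x⁻¹) * α x := by rw [h1]
      _ = a * (x⁻¹ * α x) := by group
  have stepE : ∀ (k : ℕ) (x : Q), (α ^ k) x = x * (x⁻¹ * α x) ^ k := by
    intro k
    induction k with
    | zero => intro x; simp
    | succ k ih =>
      intro x
      rw [pow_succ', MulAut.mul_apply, ih, map_mul, map_pow, hfix _ (stepD x), pow_succ',
        mul_assoc x⁻¹, mul_inv_cancel_left]
  obtain ⟨n, hn⟩ := (IsPGroup.iff_card (p := p) (G := Q)).mp hP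
  have hpow : α ^ (Nat.card Q) = 1 := by
    ext x
    rw [stepE, pow_card_eq_one', mul_one]
    rfl
  have hdvd : orderOf α ∣ p ^ n := by
    rw [← hn]; exact orderOf_dvd_of_pow_eq_one hpow
  obtain ⟨k, -, hk⟩ := (Nat.dvd_prime_pow (Fact.out : p.Prime)).mp hdvd
  exact ⟨k, hk⟩

end Cfsg.Agent.S3349
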