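import Mathlib
import Cfsg.Statements.S3356

set_option autoImplicit false
open Cfsg

namespace Cfsg.Agent.S3356

lemma orbit_stab {G Ω : Type*} [Group G] [MulAction G Ω] (H : Subgroup G) (δ : Ω) :
    Nat.card (MulAction.orbit ↥H δ) * Nat.card ↥(H ⊓ MulAction.stabilizer G δ) = Nat.card ↥H := by
  have h1 := Subgroup.card_mul_index (MulAction.stabilizer ↥H δ)
  rw [MulAction.index_stabilizer, ← Nat.card_coe_set_eq] at h1
  have h2 : Nat.card (MulAction.stabilizer ↥H δ) = Nat.card ↥(H ⊓ MulAction.stabilizer G δ) := by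
    apply Nat.card_congr
    refine ⟨fun g => ⟨g.1.1, g.1.2, ?_⟩, fun g => ⟨⟨g.1, g.2.1⟩, ?_⟩, ?_, ?_⟩
    · exact g.2
    · exact g.2.2
    · intro g; rfl
    · intro g; rfl
  rw [h2, mul_comm] at h1
  exact h1

lemma dvd_card_of_orbits {S Ω : Type*} [Group S] [MulAction S Ω] [Fintype Ω] (Δ : Finset Ω) (d : ℕ)
    (hinv : ∀ s : S, ∀ δ ∈ Δ, s • δ ∈ Δ) (hd : ∀ δ ∈ Δ, Nat.card (MulAction.orbit S δ) = d) :
    d ∣ Δ.card := by
  classical
  rw [Finset.card_eq_sum_card_fiberwise (f := fun δ => MulAction.orbit S δ)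
    (t := Δ.image (fun δ => MulAction.orbit S δ)) (fun δ hδ => Finset.mem_image_of_mem _ hδ)]
  apply Finset.dvd_sum
  intro O hO
  obtain ⟨δ₀, hδ₀, rfl⟩ := Finset.mem_image.mp hO
  have : (Δ.filter (fun δ => MulAction.orbit S δ = MulAction.orbit S δ₀)).card = d := by
    rw [← hd δ₀ hδ₀, ← Nat.card_eq_finsetCard]
    apply Nat.card_congr
    apply Equiv.subtypeEquivRight
    intro δ
    rw [Finset.mem_filter]
    constructor
    · rintro ⟨_, h⟩; rw [← h]; exact MulAction.mem_orbit_self δ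
    · intro h
      exact ⟨by obtain ⟨s, rfl⟩ := h; exact hinv s δ₀ hδ₀, MulAction.orbit_eq_iff.mpr h⟩
  rw [this]

/-- Let G be a finite 3/2-transitive permutation group: G acts faithfully and transitively on a finite set, the point stabilizers are non-trivial, and for each point a all orbits of G_a on the remaining points have the same size. Suppose G has a regular normal subgroup N and G is not a Frobenius group (some two-point stabilizer is non-trivial). Then N is an elementary abelian p-group for some prime p, and every non-trivial normal subgroup of G contains N (so N is the unique minimal normal subgroup). -/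
theorem result {G Ω : Type*} [Group G] [Finite G]
    [MulAction G Ω] [FaithfulSMul G Ω] [Finite Ω] (htrans : MulAction.IsPretransitive G Ω)
    (hne : ∀ a : Ω, MulAction.stabilizer G a ≠ ⊥)
    (hhalf : ∀ a b c : Ω, b ≠ a → c ≠ a →
      Nat.card (MulAction.orbit (MulAction.stabilizer G a) b) = Nat.card (MulAction.orbit (MulAction.stabilizer G a) c))
    (N : Subgroup G) [hN : N.Normal] (hNt : MulAction.IsPretransitive N Ω) (hNr : ∀ a : Ω, MulAction.stabilizer N a = ⊥)
    (hnotF : ∃ a b : Ω, a ≠ b ∧ MulAction.stabilizer G a ⊓ MulAction.stabilizer G b ≠ ⊥) :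
    (∃ p : ℕ, p.Prime ∧ IsMulCommutative N ∧ ∀ x ∈ N, x ^ p = 1) ∧
    (∀ M : Subgroup G, M.Normal → M ≠ ⊥ → N ≤ M) := by
  classical
  have := Fintype.ofFinite Ω
  obtain ⟨α, β₀, hαβ₀, hb₀⟩ := hnotF
  obtain ⟨A, hA⟩ : ∃ A : Subgroup G, A = MulAction.stabilizer G α := ⟨_, rfl⟩
  have hAmem : ∀ g : G, g ∈ A ↔ g • α = α := by
    intro g; rw [hA, MulAction.mem_stabilizer_iff]
  have hcm : ∀ (g k : G), g ∈ Subgroup.centralizer ({k} : Set G) ↔ Commute g k :=
    fun g k => Subgroup.mem_centralizer_singleton_iff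
  have hconj : ∀ (g : G) (γ δ : Ω),
      Nat.card ↥(MulAction.stabilizer G (g • γ) ⊓ MulAction.stabilizer G (g • δ)) =
        Nat.card ↥(MulAction.stabilizer G γ ⊓ MulAction.stabilizer G δ) := by
    intro g γ δ
    have : MulAction.stabilizer G (g • γ) ⊓ MulAction.stabilizer G (g • δ) =
        (MulAction.stabilizer G γ ⊓ MulAction.stabilizer G δ).map (MulAut.conj g).toMonoidHom := by
      ext h
      simp only [Subgroup.mem_inf, MulAction.mem_stabilizer_iff, Subgroup.mem_map,
        MulEquiv.coe_toMonoidHom, MulAut.conj_apply]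
      constructor
      · rintro ⟨h1, h2⟩
        refine ⟨g⁻¹ * h * g, ⟨?_, ?_⟩, by group⟩
        · rw [mul_smul, mul_smul, h1, inv_smul_smul]
        · rw [mul_smul, mul_smul, h2, inv_smul_smul]
      · rintro ⟨y, ⟨h1, h2⟩, rfl⟩
        constructor
        · rw [mul_smul, mul_smul, inv_smul_smul, h1]
        · rw [mul_smul, mul_smul, inv_smul_smul, h2]
    rw [this]
    exact Subgroup.card_map_of_injective (MulAut.conj g).injective
  obtain ⟨k, hk⟩ : ∃ k, k = Nat.card (MulAction.orbit A β₀) := ⟨_, rfl⟩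
  obtain ⟨b, hb⟩ : ∃ b, b = Nat.card ↥(A ⊓ MulAction.stabilizer G β₀) := ⟨_, rfl⟩
  have hkb0 : k * b = Nat.card A := by rw [hk, hb]; exact orbit_stab A β₀
  have hAk : ∀ δ, δ ≠ α → Nat.card (MulAction.orbit A δ) = k := by
    intro δ hδ; rw [hk, hA]; exact hhalf α δ β₀ hδ (Ne.symm hαβ₀)
  have hApos : 0 < Nat.card A := Nat.card_pos
  have hkpos : 0 < k := by
    rcases Nat.eq_zero_or_pos k with h | h
    · rw [h, zero_mul] at hkb0; omega
    · exact h
  have hbpos : 0 < b := by
    rcases Nat.eq_zero_or_pos b with h | h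
    · rw [h, mul_zero] at hkb0; omega
    · exact h
  have hAb : ∀ δ, δ ≠ α → Nat.card ↥(A ⊓ MulAction.stabilizer G δ) = b := by
    intro δ hδ
    have h1 := orbit_stab A δ
    rw [hAk δ hδ] at h1
    exact Nat.eq_of_mul_eq_mul_left hkpos (h1.trans hkb0.symm)
  have hb_all : ∀ γ δ : Ω, γ ≠ δ → Nat.card ↥(MulAction.stabilizer G γ ⊓ MulAction.stabilizer G δ) = b := by
    intro γ δ hγδ
    obtain ⟨g, hg⟩ := MulAction.exists_smul_eq G α γ
    have h1 := hconj g α (g⁻¹ • δ)
    rw [smul_inv_smul, hg] at h1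
    rw [h1, ← hA]
    apply hAb
    intro h
    apply hγδ
    rw [← hg, ← h, smul_inv_smul]
  have hb2 : 2 ≤ b := by
    by_contra hlt
    have hb1 : b = 1 := by omega
    apply hb₀
    rw [hb, hA] at hb1
    exact Subgroup.card_eq_one.mp hb1
  have hk_dvd : k ∣ Fintype.card Ω - 1 := by
    have h := dvd_card_of_orbits (S := ↥A) (Finset.univ.erase α) k ?_ ?_
    · rwa [Finset.card_erase_of_mem (Finset.mem_univ _), Finset.card_univ] at h
    · intro s δ hδ
      rw [Finset.mem_erase] at hδ ⊢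
      refine ⟨?_, Finset.mem_univ _⟩
      intro h
      apply hδ.1
      have h1 : δ = s⁻¹ • α := eq_inv_smul_iff.mpr h
      rw [h1]
      exact (hAmem _).mp (s⁻¹).2
    · intro δ hδ
      exact hAk δ (Finset.ne_of_mem_erase hδ)
  have hcop : Nat.Coprime k (Fintype.card Ω) := by
    have hpos : 0 < Fintype.card Ω := Fintype.card_pos_iff.mpr ⟨α⟩
    have h3 : Nat.gcd k (Fintype.card Ω) ∣ 1 := by
      have h1 : Nat.gcd k (Fintype.card Ω) ∣ Fintype.card Ω - 1 := (Nat.gcd_dvd_left _ _).trans hk_dvd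
      have h2 : Nat.gcd k (Fintype.card Ω) ∣ Fintype.card Ω := Nat.gcd_dvd_right _ _
      have h4 := Nat.dvd_sub h2 h1
      rwa [Nat.sub_sub_self hpos] at h4
    exact Nat.dvd_one.mp h3
  have hcop1 : ∀ d : ℕ, d ∣ k → d ∣ Fintype.card Ω → d = 1 := by
    intro d h1 h2
    have := Nat.dvd_gcd h1 h2
    rw [hcop] at this
    exact Nat.dvd_one.mp this
  -- regularity of N
  have hNreg : ∀ (x : G), x ∈ N → ∀ γ : Ω, x • γ = γ → x = 1 := by
    intro x hx γ h
    have h1 : (⟨x, hx⟩ : N) ∈ MulAction.stabilizer N γ := h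
    rw [hNr γ, Subgroup.mem_bot] at h1
    exact congrArg Subtype.val h1
  have hNtr : ∀ γ δ : Ω, ∃ x ∈ N, x • γ = δ := by
    intro γ δ
    obtain ⟨x, hx⟩ := MulAction.exists_smul_eq N γ δ
    exact ⟨x.1, x.2, hx⟩
  have hNcard : Nat.card N = Fintype.card Ω := by
    rw [← Nat.card_eq_fintype_card]
    apply Nat.card_congr
    apply Equiv.ofBijective (fun x : N => (x : G) • α)
    constructor
    · intro x y h
      have h' : (x : G) • α = (y : G) • α := h
      have h1 : ((x : G)⁻¹ * (y : G)) • α = α := by rw [mul_smul, ← h', inv_smul_smul]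
      have h2 := hNreg _ (N.mul_mem (N.inv_mem x.2) y.2) α h1
      exact Subtype.ext (inv_mul_eq_one.mp h2)
    · intro δ
      obtain ⟨x, hx, h⟩ := hNtr α δ
      exact ⟨⟨x, hx⟩, h⟩
  have hst_cent : ∀ x ∈ N, ∀ γ : Ω, MulAction.stabilizer G γ ⊓ MulAction.stabilizer G (x • γ) =
      MulAction.stabilizer G γ ⊓ Subgroup.centralizer {x} := by
    intro x hx γ
    ext g
    simp only [Subgroup.mem_inf, MulAction.mem_stabilizer_iff, Subgroup.mem_centralizer_singleton_iff]
    constructor
    · rintro ⟨h1, h2⟩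
      refine ⟨h1, ?_⟩
      have h3 : (x⁻¹ * (g * x * g⁻¹)) • γ = γ := by
        rw [mul_smul, mul_smul, mul_smul, inv_smul_eq_iff.mpr h1.symm, h2, inv_smul_smul]
      have h4 := hNreg _ (N.mul_mem (N.inv_mem hx) (hN.conj_mem x hx g)) γ h3
      have h5 : g * x * g⁻¹ = x := (inv_mul_eq_one.mp h4).symm
      exact mul_inv_eq_iff_eq_mul.mp h5
    · rintro ⟨h1, h2⟩
      refine ⟨h1, ?_⟩
      rw [← mul_smul, h2, mul_smul, h1]
  have hBcard : ∀ x ∈ N, x ≠ 1 → ∀ γ : Ω,
      Nat.card ↥(MulAction.stabilizer G γ ⊓ Subgroup.centralizer {x}) = b := by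
    intro x hx hx1 γ
    rw [← hst_cent x hx γ]
    apply hb_all
    intro h
    exact hx1 (hNreg x hx γ h.symm)
  have hBcardA : ∀ x ∈ N, x ≠ 1 → Nat.card ↥(A ⊓ Subgroup.centralizer {x}) = b := by
    intro x hx hx1; rw [hA]; exact hBcard x hx hx1 α
  -- key claim
  have hstar : ∀ x ∈ N, x ≠ 1 →
      A ⊓ (N ⊔ Subgroup.centralizer {x}) = A ⊓ Subgroup.centralizer {x} := by
    intro x hx hx1
    obtain ⟨C, hC⟩ : ∃ C : Subgroup G, C = Subgroup.centralizer ({x} : Set G) := ⟨_, rfl⟩
    rw [← hC]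
    obtain ⟨e, he⟩ : ∃ e, e = Nat.card (MulAction.orbit ↥C α) := ⟨_, rfl⟩
    have hCorb : ∀ γ : Ω, Nat.card (MulAction.orbit ↥C γ) * b = Nat.card C := by
      intro γ
      have h := orbit_stab C γ
      rwa [inf_comm, hC, hBcard x hx hx1 γ, ← hC] at h
    have hCe : ∀ γ : Ω, Nat.card (MulAction.orbit ↥C γ) = e := by
      intro γ
      rw [he]
      exact Nat.eq_of_mul_eq_mul_right hbpos ((hCorb γ).trans (hCorb α).symm)
    have he_dvd : e ∣ Fintype.card Ω := by
      have h := dvd_card_of_orbits (S := ↥C) Finset.univ e (fun _ _ _ => Finset.mem_univ _)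
        (fun γ _ => hCe γ)
      rwa [Finset.card_univ] at h
    obtain ⟨S, hS⟩ : ∃ S : Subgroup G, S = A ⊓ (N ⊔ C) := ⟨_, rfl⟩
    rw [← hS]
    have hBS : A ⊓ C ≤ S := by rw [hS]; exact inf_le_inf_left A le_sup_right
    have hSN : N ⊓ S = ⊥ := by
      rw [eq_bot_iff]
      intro g hg
      rw [Subgroup.mem_inf, hS] at hg
      rw [Subgroup.mem_bot]
      exact hNreg g hg.1 α ((hAmem g).mp hg.2.1)
    have hded : S ⊔ N = C ⊔ N := by
      apply le_antisymm
      · apply sup_le
        · rw [hS, sup_comm C N]; exact inf_le_right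
        · exact le_sup_right
      · apply sup_le
        · intro c hc
          obtain ⟨m, hm, hmα⟩ := hNtr α (c • α)
          have ha : m⁻¹ * c ∈ S := by
            rw [hS]
            refine ⟨?_, ?_⟩
            · show m⁻¹ * c ∈ A
              rw [hAmem, mul_smul, ← hmα, inv_smul_smul]
            · exact Subgroup.mul_mem _ (Subgroup.mem_sup_left (N.inv_mem hm)) (Subgroup.mem_sup_right hc)
          have h1 : c = m * (m⁻¹ * c) := by group
          rw [h1]
          exact Subgroup.mul_mem _ (Subgroup.mem_sup_right hm) (Subgroup.mem_sup_left ha)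
        · exact le_sup_right
    have hScard : Nat.card S = N.relIndex C := by
      rw [← Subgroup.relIndex_sup_right C N, ← hded, Subgroup.relIndex_sup_right,
        ← Subgroup.inf_relIndex_right, hSN, Subgroup.relIndex_bot_left]
    have hCcard : Nat.card ↥(N ⊓ C) * N.relIndex C = Nat.card C := by
      have h := Subgroup.relIndex_mul_relIndex (⊥ : Subgroup G) (N ⊓ C) C bot_le inf_le_right
      rwa [Subgroup.relIndex_bot_left, Subgroup.relIndex_bot_left, Subgroup.inf_relIndex_right] at h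
    have hb_dvd : b ∣ Nat.card S := by
      have h := Subgroup.card_dvd_of_le hBS
      rwa [hC, hBcardA x hx hx1] at h
    have hS_dvd : Nat.card S ∣ k * b := by
      rw [hkb0, hS]; exact Subgroup.card_dvd_of_le inf_le_left
    obtain ⟨d, hd⟩ := hb_dvd
    have hdk : d ∣ k := by
      rw [hd, mul_comm k b] at hS_dvd
      exact Nat.dvd_of_mul_dvd_mul_left hbpos hS_dvd
    have hde : d ∣ e := by
      have h1 : Nat.card ↥(N ⊓ C) * (b * d) = e * b := by
        rw [← hd, hScard, hCcard, ← hCe α, hCorb α]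
      have h2 : b * (Nat.card ↥(N ⊓ C) * d) = b * e := by
        rw [mul_comm b e, ← h1]; ring
      have h3 := Nat.eq_of_mul_eq_mul_left hbpos h2
      exact ⟨_, by rw [← h3, mul_comm]⟩
    have hd1 : d = 1 := hcop1 d hdk (hde.trans he_dvd)
    have hSb : Nat.card S = b := by rw [hd, hd1, mul_one]
    symm
    apply Subgroup.eq_of_le_of_card_ge hBS
    rw [hSb, hC, hBcardA x hx hx1]
  have h3a : ∀ x ∈ N, x ≠ 1 → ∀ y ∈ N, y ≠ 1 →
      A ⊓ Subgroup.centralizer {x} ≤ Subgroup.centralizer {y} →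
      A ⊓ Subgroup.centralizer {x} = A ⊓ Subgroup.centralizer {y} := by
    intro x hx hx1 y hy hy1 hle
    apply Subgroup.eq_of_le_of_card_ge (le_inf inf_le_left hle)
    rw [hBcardA x hx hx1, hBcardA y hy hy1]
  have h3b : ∀ x ∈ N, x ≠ 1 → ∀ n ∈ N,
      A ⊓ Subgroup.centralizer {x} ≤ Subgroup.centralizer {n * x * n⁻¹} := by
    intro x hx hx1 n hn
    have hx' : n * x * n⁻¹ ∈ N := hN.conj_mem x hx n
    have hx1' : n * x * n⁻¹ ≠ 1 := by
      intro h; apply hx1
      have h1 : x = n⁻¹ * (n * x * n⁻¹) * n := by group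
      rw [h1, h]; group
    have hle : A ⊓ Subgroup.centralizer {n * x * n⁻¹} ≤ A ⊓ Subgroup.centralizer {x} := by
      rw [← hstar x hx hx1]
      apply le_inf inf_le_left
      intro a ha
      have hac : Commute a (n * x * n⁻¹) := (hcm _ _).mp ha.2
      have h1 : n⁻¹ * a * n ∈ Subgroup.centralizer ({x} : Set G) := by
        rw [hcm]
        show n⁻¹ * a * n * x = x * (n⁻¹ * a * n)
        have h2 : n⁻¹ * a * n * x = n⁻¹ * (a * (n * x * n⁻¹)) * n := by group
        rw [h2, hac.eq]; group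
      have h3 : a = n * (n⁻¹ * a * n) * n⁻¹ := by group
      rw [h3]
      exact Subgroup.mul_mem _ (Subgroup.mul_mem _ (Subgroup.mem_sup_left hn)
        (Subgroup.mem_sup_right h1)) (Subgroup.mem_sup_left (N.inv_mem hn))
    have heq := Subgroup.eq_of_le_of_card_ge hle
      (by rw [hBcardA x hx hx1, hBcardA _ hx' hx1'])
    rw [← heq]; exact inf_le_right
  have h3c : ∀ x ∈ N, x ≠ 1 → ∀ y ∈ N, y ≠ 1 →
      A ⊓ Subgroup.centralizer {x} ≠ A ⊓ Subgroup.centralizer {y} → x * y = y * x := by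
    intro x hx hx1 y hy hy1 hne
    by_contra hxy
    obtain ⟨c, hc⟩ : ∃ c, c = x * y * x⁻¹ * y⁻¹ := ⟨_, rfl⟩
    have hcN : c ∈ N := by
      rw [hc]; exact N.mul_mem (N.mul_mem (N.mul_mem hx hy) (N.inv_mem hx)) (N.inv_mem hy)
    have hc1 : c ≠ 1 := by
      intro h; apply hxy
      have h1 : x * y = c * y * x := by rw [hc]; group
      rw [h1, h, one_mul]
    have h1 : A ⊓ Subgroup.centralizer {x} ≤ Subgroup.centralizer {c} := by
      intro g hg
      have g1 : Commute g x := (hcm _ _).mp hg.2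
      have g2 : Commute g (y * x * y⁻¹) := (hcm _ _).mp (h3b x hx hx1 y hy hg)
      have h2 : c = x * (y * x * y⁻¹)⁻¹ := by rw [hc]; group
      rw [hcm, h2]
      exact g1.mul_right g2.inv_right
    have h2 : A ⊓ Subgroup.centralizer {y} ≤ Subgroup.centralizer {c} := by
      intro g hg
      have g1 : Commute g y := (hcm _ _).mp hg.2
      have g2 : Commute g (x * y * x⁻¹) := (hcm _ _).mp (h3b y hy hy1 x hx hg)
      have h2 : c = (x * y * x⁻¹) * y⁻¹ := by rw [hc]
      rw [hcm, h2]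
      exact g2.mul_right g1.inv_right
    exact hne ((h3a x hx hx1 c hcN hc1 h1).trans (h3a y hy hy1 c hcN hc1 h2).symm)
  have hBne : ∀ x ∈ N, x ≠ 1 → ∃ z ∈ N, z ≠ 1 ∧
      A ⊓ Subgroup.centralizer {z} ≠ A ⊓ Subgroup.centralizer {x} := by
    intro x hx hx1
    by_contra hcon
    push Not at hcon
    have hbot : A ⊓ Subgroup.centralizer ({x} : Set G) = ⊥ := by
      rw [eq_bot_iff]
      intro g hg
      rw [Subgroup.mem_bot]
      apply FaithfulSMul.eq_of_smul_eq_smul (α := Ω)
      intro ω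
      rw [one_smul]
      obtain ⟨n, hn, rfl⟩ := hNtr α ω
      have hgα : g • α = α := (hAmem g).mp hg.1
      by_cases hn1 : n = 1
      · rw [hn1, one_smul]; exact hgα
      · have h1 : g ∈ A ⊓ Subgroup.centralizer ({n} : Set G) := by rw [hcon n hn hn1]; exact hg
        have h2 : Commute g n := (hcm _ _).mp h1.2
        rw [← mul_smul, h2.eq, mul_smul, hgα]
    have h := hBcardA x hx hx1
    rw [hbot, Subgroup.card_bot] at h
    omega
  have hab : ∀ x ∈ N, ∀ y ∈ N, x * y = y * x := by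
    intro x hx y hy
    by_cases hx1 : x = 1
    · rw [hx1, one_mul, mul_one]
    by_cases hy1 : y = 1
    · rw [hy1, one_mul, mul_one]
    by_cases hB : A ⊓ Subgroup.centralizer {x} = A ⊓ Subgroup.centralizer {y}
    · obtain ⟨z, hz, hz1, hzx⟩ := hBne x hx hx1
      have hxz : x * z = z * x := h3c x hx hx1 z hz hz1 (Ne.symm hzx)
      have hzy : z * y = y * z := h3c z hz hz1 y hy hy1 (by rw [← hB]; exact hzx)
      have hxz1 : x * z ≠ 1 := by
        intro h
        apply hzx
        have hzinv : z = x⁻¹ := (inv_eq_of_mul_eq_one_right h).symm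
        refine (h3a x hx hx1 z hz hz1 ?_).symm
        intro g hg
        rw [hzinv, hcm]
        exact ((hcm _ _).mp hg.2).inv_right
      have hxzN : x * z ∈ N := N.mul_mem hx hz
      have hBxz : A ⊓ Subgroup.centralizer {x * z} ≠ A ⊓ Subgroup.centralizer {y} := by
        intro h
        apply hzx
        refine (h3a x hx hx1 z hz hz1 ?_).symm
        intro g hg
        have g1 : Commute g x := (hcm _ _).mp hg.2
        have g2 : Commute g (x * z) := by
          have h1 : g ∈ A ⊓ Subgroup.centralizer ({x * z} : Set G) := by rw [h, ← hB]; exact hg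
          exact (hcm _ _).mp h1.2
        have h2 : z = x⁻¹ * (x * z) := by group
        rw [hcm, h2]
        exact g1.inv_right.mul_right g2
      have h4 : x * z * y = y * (x * z) := h3c (x * z) hxzN hxz1 y hy hy1 hBxz
      have h5 : x * y * z = y * x * z := by
        calc x * y * z = x * (y * z) := by group
          _ = x * (z * y) := by rw [hzy]
          _ = x * z * y := by group
          _ = y * (x * z) := h4
          _ = y * x * z := by group
      exact mul_right_cancel h5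
    · exact h3c x hx hx1 y hy hy1 hB
  -- P1
  have hP1 : ∀ M : Subgroup G, M.Normal → M ≤ N → M ≠ ⊥ → M = N := by
    intro M hMn hMN hMbot
    by_contra hMneN
    obtain ⟨m, hm, hm1⟩ : ∃ m ∈ M, m ≠ 1 := by
      by_contra h
      push Not at h
      apply hMbot
      rw [eq_bot_iff]
      intro g hg
      rw [Subgroup.mem_bot]
      exact h g hg
    obtain ⟨x, hxN, hxM⟩ : ∃ x ∈ N, x ∉ M := by
      by_contra h
      push Not at h
      exact hMneN (le_antisymm hMN h)
    have claim : ∀ x ∈ N, x ∉ M → ∀ m' ∈ M,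
        A ⊓ Subgroup.centralizer {x} ≤ Subgroup.centralizer {m'} := by
      intro x hxN hxM m' hm'
      have hx1 : x ≠ 1 := fun h => hxM (h ▸ M.one_mem)
      obtain ⟨β, hβ⟩ : ∃ β, β = x • α := ⟨_, rfl⟩
      obtain ⟨S, hS⟩ : ∃ S : Subgroup G, S = A ⊓ (M ⊔ MulAction.stabilizer G β) := ⟨_, rfl⟩
      let Δ : Finset Ω := Finset.univ.filter (fun δ => ∃ m'' ∈ M, m'' • β = δ)
      have hΔ : ∀ δ, δ ∈ Δ ↔ ∃ m'' ∈ M, m'' • β = δ := by intro δ; simp [Δ]
      have hΔne : ∀ δ ∈ Δ, δ ≠ α := by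
        intro δ hδ h
        obtain ⟨m'', hm'', rfl⟩ := (hΔ δ).mp hδ
        have h1 : m'' * x = 1 := hNreg _ (N.mul_mem (hMN hm'') hxN) α (by rw [mul_smul, ← hβ]; exact h)
        apply hxM
        have h2 : x = m''⁻¹ := (inv_eq_of_mul_eq_one_right h1).symm
        rw [h2]; exact M.inv_mem hm''
      have hSmem : ∀ s ∈ S, ∃ m'' ∈ M, ∃ h ∈ MulAction.stabilizer G β, s = m'' * h := by
        intro s hs
        rw [hS] at hs
        have h1 : s ∈ ((M ⊔ MulAction.stabilizer G β : Subgroup G) : Set G) := hs.2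
        rw [Subgroup.normal_mul] at h1
        obtain ⟨m'', hm'', h, hh, rfl⟩ := Set.mem_mul.mp h1
        exact ⟨m'', hm'', h, hh, rfl⟩
      have hSinv : ∀ s : ↥S, ∀ δ ∈ Δ, s • δ ∈ Δ := by
        intro s δ hδ
        obtain ⟨m1, hm1, h, hh, hs⟩ := hSmem s.1 s.2
        obtain ⟨m2, hm2, rfl⟩ := (hΔ δ).mp hδ
        rw [hΔ]
        refine ⟨m1 * (h * m2 * h⁻¹), M.mul_mem hm1 (hMn.conj_mem m2 hm2 h), ?_⟩
        show _ = (s : G) • m2 • β
        have hhβ : h • β = β := MulAction.mem_stabilizer_iff.mp hh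
        rw [hs, mul_smul, mul_smul, mul_smul, mul_smul, inv_smul_eq_iff.mpr hhβ.symm]
      have hSstab : ∀ δ ∈ Δ, S ⊓ MulAction.stabilizer G δ = A ⊓ MulAction.stabilizer G δ := by
        intro δ hδ
        apply le_antisymm
        · rw [hS]; exact inf_le_inf_right _ inf_le_left
        · apply le_inf _ inf_le_right
          intro a ha
          rw [hS]
          refine ⟨ha.1, ?_⟩
          obtain ⟨m2, hm2, rfl⟩ := (hΔ δ).mp hδ
          have h1 : m2⁻¹ * a * m2 ∈ MulAction.stabilizer G β := by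
            rw [MulAction.mem_stabilizer_iff, mul_smul, mul_smul,
              MulAction.mem_stabilizer_iff.mp ha.2, inv_smul_smul]
          have h2 : a = m2 * (m2⁻¹ * a * m2) * m2⁻¹ := by group
          rw [h2]
          exact Subgroup.mul_mem _ (Subgroup.mul_mem _ (Subgroup.mem_sup_left hm2)
            (Subgroup.mem_sup_right h1)) (Subgroup.mem_sup_left (M.inv_mem hm2))
      obtain ⟨d, hd⟩ : ∃ d, d = Nat.card (MulAction.orbit ↥S β) := ⟨_, rfl⟩
      have hβΔ : β ∈ Δ := (hΔ β).mpr ⟨1, M.one_mem, one_smul _ _⟩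
      have hSorb : ∀ δ ∈ Δ, Nat.card (MulAction.orbit ↥S δ) * b = Nat.card S := by
        intro δ hδ
        have h := orbit_stab S δ
        rwa [hSstab δ hδ, hAb δ (hΔne δ hδ)] at h
      have hSd : ∀ δ ∈ Δ, Nat.card (MulAction.orbit ↥S δ) = d := by
        intro δ hδ; rw [hd]
        exact Nat.eq_of_mul_eq_mul_right hbpos ((hSorb δ hδ).trans (hSorb β hβΔ).symm)
      have hd_dvd : d ∣ Δ.card := dvd_card_of_orbits (S := ↥S) Δ d hSinv hSd
      have hΔcard : Δ.card ∣ Fintype.card Ω := by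
        have h1 : Δ.card = Nat.card M := by
          rw [← Nat.card_eq_finsetCard]
          symm
          apply Nat.card_congr
          apply Equiv.ofBijective (fun m'' : M => (⟨(m'' : G) • β, (hΔ _).mpr ⟨m'', m''.2, rfl⟩⟩ : Δ))
          constructor
          · intro m1 m2 h
            have h' : (m1 : G) • β = (m2 : G) • β := congrArg Subtype.val h
            have h2 : ((m1 : G)⁻¹ * (m2 : G)) • β = β := by rw [mul_smul, ← h', inv_smul_smul]
            have h3 := hNreg _ (N.mul_mem (N.inv_mem (hMN m1.2)) (hMN m2.2)) β h2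
            exact Subtype.ext (inv_mul_eq_one.mp h3)
          · rintro ⟨δ, hδ⟩
            obtain ⟨m2, hm2, rfl⟩ := (hΔ δ).mp hδ
            exact ⟨⟨m2, hm2⟩, rfl⟩
        rw [h1, ← hNcard]
        exact Subgroup.card_dvd_of_le hMN
      have hdk : d ∣ k := by
        have h1 : d * b ∣ k * b := by
          rw [hd, hSorb β hβΔ, hkb0, hS]; exact Subgroup.card_dvd_of_le inf_le_left
        exact Nat.dvd_of_mul_dvd_mul_right hbpos h1
      have hd1 : d = 1 := hcop1 d hdk (hd_dvd.trans hΔcard)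
      have hSb : Nat.card S = b := by rw [← hSorb β hβΔ, ← hd, hd1, one_mul]
      have hSeq : ∀ δ ∈ Δ, A ⊓ MulAction.stabilizer G δ = S := by
        intro δ hδ
        apply Subgroup.eq_of_le_of_card_ge
        · rw [← hSstab δ hδ]; exact inf_le_left
        · rw [hSb]; exact (hAb δ (hΔne δ hδ)).ge
      intro g hg
      have hgβ : g ∈ A ⊓ MulAction.stabilizer G β := by
        have h1 := hst_cent x hxN α
        rw [← hA, ← hβ] at h1
        rw [h1]; exact hg
      have hgδ : g ∈ A ⊓ MulAction.stabilizer G (m' • β) := by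
        rw [hSeq _ ((hΔ _).mpr ⟨m', hm', rfl⟩), ← hSeq β hβΔ]; exact hgβ
      have h2 : g ∈ A ⊓ Subgroup.centralizer ({m' * x} : Set G) := by
        have h1 := hst_cent (m' * x) (N.mul_mem (hMN hm') hxN) α
        rw [← hA, mul_smul, ← hβ] at h1
        rw [← h1]; exact hgδ
      have g1 : Commute g x := (hcm _ _).mp hg.2
      have g2 : Commute g (m' * x) := (hcm _ _).mp h2.2
      have h3 : m' = (m' * x) * x⁻¹ := by group
      rw [hcm, h3]
      exact g2.mul_right g1.inv_right
    have hx1 : x ≠ 1 := fun h => hxM (h ▸ M.one_mem)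
    obtain ⟨z, hz, hz1, hzx⟩ := hBne x hxN hx1
    apply hzx
    by_cases hzM : z ∈ M
    · exact (h3a x hxN hx1 z hz hz1 (claim x hxN hxM z hzM)).symm
    · have e1 := h3a x hxN hx1 m (hMN hm) hm1 (claim x hxN hxM m hm)
      have e2 := h3a z hz hz1 m (hMN hm) hm1 (claim z hz hzM m hm)
      exact e2.trans e1.symm
  -- N is nontrivial
  have hNne : Nontrivial N := by
    obtain ⟨x, hx, hxβ⟩ := hNtr α β₀
    refine ⟨⟨⟨x, hx⟩, 1, ?_⟩⟩
    intro h
    have h1 : x = 1 := congrArg Subtype.val h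
    rw [h1, one_smul] at hxβ
    exact hαβ₀ hxβ
  constructor
  · -- elementary abelian
    obtain ⟨p, hp, hpd⟩ := Nat.exists_prime_and_dvd (show Nat.card N ≠ 1 from by
      have := Finite.one_lt_card (α := N)
      omega)
    have : Fact p.Prime := ⟨hp⟩
    obtain ⟨y, hy⟩ := exists_prime_orderOf_dvd_card' p hpd
    refine ⟨p, hp, ⟨⟨fun a b => Subtype.ext (hab a.1 a.2 b.1 b.2)⟩⟩, ?_⟩
    let M : Subgroup G :=
      { carrier := {x | x ∈ N ∧ x ^ p = 1}
        mul_mem' := by
          rintro a c ⟨ha, hap⟩ ⟨hc, hcp⟩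
          refine ⟨N.mul_mem ha hc, ?_⟩
          have hcomm : Commute a c := hab a ha c hc
          rw [hcomm.mul_pow, hap, hcp, one_mul]
        one_mem' := ⟨N.one_mem, one_pow _⟩
        inv_mem' := by
          rintro a ⟨ha, hap⟩
          exact ⟨N.inv_mem ha, by rw [inv_pow, hap, inv_one]⟩ }
    have hMmem : ∀ x, x ∈ M ↔ x ∈ N ∧ x ^ p = 1 := fun x => Iff.rfl
    have hMn : M.Normal := by
      constructor
      intro a ha g
      rw [hMmem] at ha ⊢
      refine ⟨hN.conj_mem a ha.1 g, ?_⟩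
      rw [conj_pow, ha.2, mul_one, mul_inv_cancel]
    have hMN : M ≤ N := fun x hx => hx.1
    have hMbot : M ≠ ⊥ := by
      intro h
      have hyM : (y : G) ∈ M := by
        rw [hMmem]
        refine ⟨y.2, ?_⟩
        have h1 : y ^ p = 1 := by rw [← hy]; exact pow_orderOf_eq_one y
        have h2 : ((y ^ p : N) : G) = 1 := by rw [h1]; rfl
        simpa using h2
      rw [h, Subgroup.mem_bot] at hyM
      have hy1 : y = 1 := Subtype.ext hyM
      rw [hy1, orderOf_one] at hy
      exact hp.one_lt.ne hy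
    have hMeq := hP1 M hMn hMN hMbot
    intro x hx
    rw [← hMeq] at hx
    exact hx.2
  · intro M hMn hMbot
    have hMNn : (M ⊓ N).Normal := inferInstance
    by_cases hbot : M ⊓ N = ⊥
    · exfalso
      apply hMbot
      rw [eq_bot_iff]
      intro m hm
      rw [Subgroup.mem_bot]
      obtain ⟨x, hx, hxα⟩ := hNtr α (m • α)
      have hcomm : ∀ y ∈ N, m * y = y * m := by
        intro y hy
        have h1 : m * y * m⁻¹ * y⁻¹ ∈ M ⊓ N := by
          refine ⟨?_, ?_⟩
          · have h2 : m * y * m⁻¹ * y⁻¹ = m * (y * m⁻¹ * y⁻¹) := by group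
            rw [h2]
            exact M.mul_mem hm (hMn.conj_mem _ (M.inv_mem hm) y)
          · exact N.mul_mem (hN.conj_mem y hy m) (N.inv_mem hy)
        rw [hbot, Subgroup.mem_bot] at h1
        have h3 : m * y = (m * y * m⁻¹ * y⁻¹) * y * m := by group
        rw [h3, h1, one_mul]
      have hmx : m = x := by
        apply FaithfulSMul.eq_of_smul_eq_smul (α := Ω)
        intro ω
        obtain ⟨y, hy, rfl⟩ := hNtr α ω
        rw [← mul_smul, hcomm y hy, mul_smul, ← hxα, ← mul_smul, ← mul_smul, hab y hy x hx]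
      have h4 : m ∈ M ⊓ N := ⟨hm, hmx ▸ hx⟩
      rw [hbot, Subgroup.mem_bot] at h4
      exact h4
    · have h1 := hP1 (M ⊓ N) hMNn inf_le_right hbot
      rw [← h1]
      exact inf_le_left

end Cfsg.Agent.S3356
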