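import Mathlib
import Cfsg.Statements.S3389

set_option autoImplicit false
open Cfsg
open scoped Pointwise

namespace Cfsg.Agent.S3389

theorem mem_smul_sylow {G : Type*} [Group G] {p : ℕ} (g x : G) (P : Sylow p G) : x ∈ ((g • P : Sylow p G) : Subgroup G) ↔ g⁻¹ * x * g ∈ (P : Subgroup G) := by
  rw [Sylow.coe_subgroup_smul, Subgroup.mem_pointwise_smul_iff_inv_smul_mem]
  simp [MulAut.smul_def]

theorem rel_sylow {G : Type*} [Group G] [Finite G] {p : ℕ} [Fact p.Prime] (R : Sylow p G)
    (M B : Subgroup G) (hRM : (R : Subgroup G) ≤ M) (hBM : B ≤ M) (hB : IsPGroup p B) :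
    ∃ m ∈ M, ∀ b ∈ B, m * b * m⁻¹ ∈ (R : Subgroup G) := by
  have hB' : IsPGroup p (B.subgroupOf M) := hB.comap_subtype
  obtain ⟨S, hS⟩ := hB'.exists_le_sylow
  obtain ⟨m, hm⟩ := MulAction.exists_smul_eq M S (R.subtype hRM)
  refine ⟨m, m.2, fun b hb => ?_⟩
  have h1 : (⟨b, hBM hb⟩ : M) ∈ (S : Subgroup M) := hS (Subgroup.mem_subgroupOf.mpr hb)
  have h2 : m * (⟨b, hBM hb⟩ : M) * m⁻¹ ∈ ((m • S : Sylow p M) : Subgroup M) := by
    rw [mem_smul_sylow]
    have e : m⁻¹ * (m * (⟨b, hBM hb⟩ : M) * m⁻¹) * m = ⟨b, hBM hb⟩ := by group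
    rw [e]; exact h1
  rw [hm, Sylow.coe_subtype, Subgroup.mem_subgroupOf] at h2
  exact h2

theorem three_fixed {G Ω : Type*} [Group G] [Fintype Ω] [MulAction G Ω] (a : G)
    (h2 : Nat.card (MulAction.fixedBy Ω a) ≤ 2)
    (w1 w2 w3 : Ω) (h1 : a • w1 = w1) (h2' : a • w2 = w2) (h3 : a • w3 = w3) (hne : w1 ≠ w2) :
    w3 = w1 ∨ w3 = w2 := by
  classical
  by_contra hcon
  push Not at hcon
  have hf : ∀ i : Fin 3, ![w1, w2, w3] i ∈ MulAction.fixedBy Ω a := by
    intro i
    fin_cases i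
    · exact h1
    · exact h2'
    · exact h3
  have hinj : Function.Injective (fun i : Fin 3 => (⟨![w1, w2, w3] i, hf i⟩ : MulAction.fixedBy Ω a)) := by
    intro i j hij
    have hij' : ![w1, w2, w3] i = ![w1, w2, w3] j := congrArg Subtype.val hij
    fin_cases i <;> fin_cases j <;> simp_all
  have := Nat.card_le_card_of_injective _ hinj
  rw [Nat.card_fin] at this
  have h3' : 3 ≤ Nat.card (MulAction.fixedBy Ω a) := this
  omega

theorem center_dvd {G Ω : Type*} [Group G] [Finite G] [Fintype Ω] [MulAction G Ω] [FaithfulSMul G Ω]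
    (htr : MulAction.IsPretransitive G Ω) (g : G) :
    Nat.card (Subgroup.center G) ∣ Nat.card (MulAction.fixedBy Ω g) := by
  classical
  let S : SubMulAction (Subgroup.center G) Ω :=
    { carrier := MulAction.fixedBy Ω g
      smul_mem' := by
        intro z ω hω
        rw [MulAction.mem_fixedBy] at hω ⊢
        show g • ((z : G) • ω) = (z : G) • ω
        rw [← mul_smul, Subgroup.mem_center_iff.mp z.2 g, mul_smul, hω] }
  have hfree : ∀ b : S, MulAction.stabilizer (Subgroup.center G) b = ⊥ := by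
    intro b
    rw [eq_bot_iff]
    intro z hz
    rw [MulAction.mem_stabilizer_iff] at hz
    rw [Subgroup.mem_bot]
    have hz' : (z : G) • (b : Ω) = b := congrArg Subtype.val hz
    apply Subtype.ext
    apply FaithfulSMul.eq_of_smul_eq_smul (α := Ω)
    intro ω
    obtain ⟨a, rfl⟩ := MulAction.exists_smul_eq G (b : Ω) ω
    rw [Subgroup.coe_one, one_smul, ← mul_smul, ← (Subgroup.mem_center_iff.mp z.2 a), mul_smul, hz']
  have e := MulAction.selfEquivOrbitsQuotientProd hfree
  have h1 : Nat.card S = Nat.card (Quotient (MulAction.orbitRel (Subgroup.center G) S)) * Nat.card (Subgroup.center G) := by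
    rw [Nat.card_congr e, Nat.card_prod]
  have h2 : Nat.card S = Nat.card (MulAction.fixedBy Ω g) := rfl
  rw [← h2, h1]
  exact dvd_mul_left _ _

theorem exists_central {G : Type*} [Group G] [Finite G] (p : ℕ) [Fact p.Prime] (P : Sylow p G)
    (u : G) (hu : u ∈ (P : Subgroup G)) (hu1 : u ≠ 1) :
    ∃ z : G, z ∈ (P : Subgroup G) ∧ orderOf z = p ∧ z ≠ 1 ∧ ∀ v ∈ (P : Subgroup G), z * v = v * z := by
  have hp : p.Prime := Fact.out
  have hnt : Nontrivial (P : Subgroup G) := ⟨⟨⟨u, hu⟩, 1, by intro e; exact hu1 (congrArg Subtype.val e)⟩⟩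
  have hcn : Nontrivial (Subgroup.center (P : Subgroup G)) := P.2.center_nontrivial
  have hcp : IsPGroup p (Subgroup.center (P : Subgroup G)) := P.2.to_subgroup _
  obtain ⟨m, hm⟩ := IsPGroup.iff_card.mp hcp
  have hm0 : m ≠ 0 := by
    rintro rfl
    rw [pow_zero] at hm
    have := (Nat.card_eq_one_iff_unique.mp hm).1
    exact not_subsingleton _ this
  have hpc : p ∣ Nat.card (Subgroup.center (P : Subgroup G)) := by rw [hm]; exact dvd_pow_self p hm0
  obtain ⟨z0, hz0⟩ := exists_prime_orderOf_dvd_card' p hpc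
  have hzo : orderOf (((z0 : (P : Subgroup G)) : G)) = p := by
    rw [Subgroup.orderOf_coe, Subgroup.orderOf_coe]; exact hz0
  refine ⟨((z0 : (P : Subgroup G)) : G), (z0 : (P : Subgroup G)).2, hzo, ?_, ?_⟩
  · intro e
    rw [e, orderOf_one] at hzo
    exact hp.one_lt.ne hzo
  · intro v hv
    have := Subgroup.mem_center_iff.mp z0.2 ⟨v, hv⟩
    exact (congrArg Subtype.val this).symm

theorem part_c {G Ω : Type*} [Group G] [Finite G] [Fintype Ω] [MulAction G Ω]
    (htr : MulAction.IsPretransitive G Ω) (k : ℕ)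
    (hfix : ∀ g : G, g ≠ 1 → Nat.card (MulAction.fixedBy Ω g) ≤ k)
    (p : ℕ) (hp : p.Prime) (hkp : k < p) (α : Ω)
    (h1 : p ∣ Nat.card (MulAction.stabilizer G α)) (h2 : p ∣ (MulAction.stabilizer G α).index) : False := by
  classical
  have hpF : Fact p.Prime := ⟨hp⟩
  obtain ⟨u, hu⟩ := exists_prime_orderOf_dvd_card' p h1
  have huo : orderOf (u : G) = p := by rw [Subgroup.orderOf_coe]; exact hu
  have huα : (u : G) • α = α := u.2
  have hu1 : (u : G) ≠ 1 := by
    intro e; rw [e, orderOf_one] at huo; exact hp.one_lt.ne huo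
  have hzu : IsPGroup p (Subgroup.zpowers (u : G)) :=
    IsPGroup.of_card (n := 1) (by rw [Nat.card_zpowers, huo, pow_one])
  obtain ⟨P, hP⟩ := hzu.exists_le_sylow
  have huP : (u : G) ∈ (P : Subgroup G) := hP (Subgroup.mem_zpowers _)
  obtain ⟨z, hzP, hzo, hz1, hzc⟩ := exists_central p P u huP hu1
  have hzuc : z * u = u * z := hzc u huP
  have hZ : IsPGroup p (Subgroup.zpowers z) :=
    IsPGroup.of_card (n := 1) (by rw [Nat.card_zpowers, hzo, pow_one])
  have hmod := hZ.card_modEq_card_fixedPoints (α := Ω)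
  have hΩ : p ∣ Nat.card Ω := by
    rw [← MulAction.index_stabilizer_of_transitive G α]; exact h2
  have hle : Nat.card (MulAction.fixedPoints (Subgroup.zpowers z) Ω) ≤ Nat.card (MulAction.fixedBy Ω z) := by
    apply Nat.card_mono (Set.toFinite _)
    intro ω hω
    exact hω ⟨z, Subgroup.mem_zpowers z⟩
  have hlt : Nat.card (MulAction.fixedPoints (Subgroup.zpowers z) Ω) < p :=
    lt_of_le_of_lt (hle.trans (hfix z hz1)) hkp
  have hzero : Nat.card (MulAction.fixedPoints (Subgroup.zpowers z) Ω) = 0 := by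
    have hdvd : p ∣ Nat.card (MulAction.fixedPoints (Subgroup.zpowers z) Ω) :=
      (Nat.modEq_zero_iff_dvd.mp ((hmod.symm).trans (Nat.modEq_zero_iff_dvd.mpr hΩ)))
    exact Nat.eq_zero_of_dvd_of_lt hdvd hlt
  have hzα : z • α ≠ α := by
    intro e
    have hmem : α ∈ MulAction.fixedPoints (Subgroup.zpowers z) Ω := by
      rintro ⟨c, hc⟩
      have : c ∈ MulAction.stabilizer G α :=
        (Subgroup.zpowers_le.mpr (show z ∈ MulAction.stabilizer G α from e)) hc
      exact this
    have hne : Nonempty (MulAction.fixedPoints (Subgroup.zpowers z) Ω) := ⟨⟨α, hmem⟩⟩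
    have := Nat.card_pos (α := MulAction.fixedPoints (Subgroup.zpowers z) Ω)
    omega
  have horb : (MulAction.orbit (Subgroup.zpowers z) α).ncard = p := by
    have h3 := MulAction.index_stabilizer (G := Subgroup.zpowers z) (x := α)
    have h4 : (MulAction.stabilizer (Subgroup.zpowers z) α).index ∣ Nat.card (Subgroup.zpowers z) :=
      Subgroup.index_dvd_card _
    rw [Nat.card_zpowers, hzo] at h4
    rw [← h3]
    rcases (Nat.dvd_prime hp).mp h4 with h5 | h5
    · exfalso
      have := Subgroup.index_eq_one.mp h5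
      have hz' : (⟨z, Subgroup.mem_zpowers z⟩ : Subgroup.zpowers z) ∈ MulAction.stabilizer (Subgroup.zpowers z) α := by
        rw [this]; trivial
      exact hzα hz'
    · exact h5
  have hsub : MulAction.orbit (Subgroup.zpowers z) α ⊆ MulAction.fixedBy Ω (u : G) := by
    rintro _ ⟨⟨c, hc⟩, rfl⟩
    show (u : G) • (c • α) = c • α
    obtain ⟨i, rfl⟩ := Subgroup.mem_zpowers_iff.mp hc
    have hcomm : Commute (u : G) (z ^ i) := Commute.zpow_right hzuc.symm i
    rw [← mul_smul, hcomm.eq, mul_smul, huα]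
  have h5 : p ≤ Nat.card (MulAction.fixedBy Ω (u : G)) := by
    rw [← horb, ← Nat.card_coe_set_eq]
    exact Nat.card_mono (Set.toFinite _) hsub
  have := hfix u hu1
  omega

theorem part_b {G Ω : Type*} [Group G] [Finite G] [Fintype Ω] [MulAction G Ω]
    (htr : MulAction.IsPretransitive G Ω)
    (hfix : ∀ g : G, g ≠ 1 → Nat.card (MulAction.fixedBy Ω g) ≤ 2) (g : G) (hg1 : g ≠ 1)
    (hg : Nat.card (MulAction.fixedBy Ω g) = 2) : 2 ∣ Nat.card G := by
  classical
  by_contra hodd
  have L0 : ∀ (n : G) (ω : Ω), n • n • ω = ω → n • ω = ω := by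
    intro n ω h
    have hm : ¬ 2 ∣ orderOf n := fun h2 => hodd (h2.trans (orderOf_dvd_natCard n))
    have hsq : n * n ∈ MulAction.stabilizer G ω := by
      rw [MulAction.mem_stabilizer_iff, mul_smul]; exact h
    have hpow := (MulAction.stabilizer G ω).pow_mem hsq ((orderOf n + 1) / 2)
    have : (n * n) ^ ((orderOf n + 1) / 2) = n := by
      rw [← pow_two, ← pow_mul]
      have : 2 * ((orderOf n + 1) / 2) = orderOf n + 1 := by omega
      rw [this, pow_succ, pow_orderOf_eq_one, one_mul]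
    rw [this] at hpow
    exact hpow
  have L1 : ∀ a b : G, a ≠ 1 → a * b = b * a → ∀ ω : Ω, a • ω = ω → b • ω = ω := by
    intro a b ha hab ω hω
    by_contra hb
    have h1 : a • (b • ω) = b • ω := by rw [← mul_smul, hab, mul_smul, hω]
    have h2 : a • (b • b • ω) = b • b • ω := by rw [← mul_smul, hab, mul_smul, h1]
    rcases three_fixed a (hfix a ha) ω (b • ω) (b • b • ω) hω h1 h2 (Ne.symm hb) with h3 | h3
    · exact hb (L0 b ω h3)
    · exact hb (smul_left_cancel b h3)
  obtain ⟨α, β, hαβ, hgα, hgβ⟩ : ∃ α β : Ω, α ≠ β ∧ g • α = α ∧ g • β = β := by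
    obtain ⟨x, y, hxy, -⟩ := Nat.card_eq_two_iff.mp hg
    exact ⟨x, y, fun e => hxy (Subtype.ext e), x.2, y.2⟩
  have hord1 : orderOf g ≠ 1 := fun e => hg1 (orderOf_eq_one_iff.mp e)
  have hord0 : orderOf g ≠ 0 := (orderOf_pos g).ne'
  set p := (orderOf g).minFac with hp
  have hpp : p.Prime := Nat.minFac_prime hord1
  have hpF : Fact p.Prime := ⟨hpp⟩
  have hpdvd : p ∣ orderOf g := Nat.minFac_dvd _
  set g' := g ^ (orderOf g / p) with hg'
  have hg'ord : orderOf g' = p := orderOf_pow_orderOf_div hord0 hpdvd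
  have hg'1 : g' ≠ 1 := by
    intro e; rw [e, orderOf_one] at hg'ord; exact hpp.one_lt.ne hg'ord
  have hg'α : g' • α = α :=
    (MulAction.stabilizer G α).pow_mem (show g ∈ MulAction.stabilizer G α from hgα) _
  have hg'β : g' • β = β :=
    (MulAction.stabilizer G β).pow_mem (show g ∈ MulAction.stabilizer G β from hgβ) _
  have hzg : IsPGroup p (Subgroup.zpowers g') :=
    IsPGroup.of_card (n := 1) (by rw [Nat.card_zpowers, hg'ord, pow_one])
  obtain ⟨P, hP⟩ := hzg.exists_le_sylow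
  have hg'P : g' ∈ (P : Subgroup G) := hP (Subgroup.mem_zpowers _)
  obtain ⟨z, hzP, hzo, hz1, hzc⟩ := exists_central p P g' hg'P hg'1
  have hzα : z • α = α := L1 g' z hg'1 (hzc g' hg'P).symm α hg'α
  have hzβ : z • β = β := L1 g' z hg'1 (hzc g' hg'P).symm β hg'β
  have hPα : ∀ u ∈ (P : Subgroup G), u • α = α := fun u hu => L1 z u hz1 (hzc u hu) α hzα
  have hPβ : ∀ u ∈ (P : Subgroup G), u • β = β := fun u hu => L1 z u hz1 (hzc u hu) β hzβ
  have hFixP : ∀ ω : Ω, (∀ u ∈ (P : Subgroup G), u • ω = ω) → ω = α ∨ ω = β :=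
    fun ω h => three_fixed z (hfix z hz1) α β ω hzα hzβ (h z hzP) hαβ
  obtain ⟨x, hx⟩ := MulAction.exists_smul_eq G α β
  set B : Subgroup G := (P : Subgroup G).map (MulAut.conj x).toMonoidHom with hB
  have hBp : IsPGroup p B := P.2.map _
  have hBβ : B ≤ MulAction.stabilizer G β := by
    rintro _ ⟨u, hu, rfl⟩
    rw [MulAction.mem_stabilizer_iff]
    show (x * u * x⁻¹) • β = β
    rw [← hx, mul_smul, mul_smul, inv_smul_smul, hPα u hu]
  have hPβ' : (P : Subgroup G) ≤ MulAction.stabilizer G β := fun u hu => hPβ u hu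
  obtain ⟨m, hm, hmB⟩ := rel_sylow P (MulAction.stabilizer G β) B hPβ' hBβ hBp
  have hn : ∀ u ∈ (P : Subgroup G), (m * x) * u * (m * x)⁻¹ ∈ (P : Subgroup G) := by
    intro u hu
    have := hmB (x * u * x⁻¹) ⟨u, hu, rfl⟩
    have e : m * (x * u * x⁻¹) * m⁻¹ = (m * x) * u * (m * x)⁻¹ := by group
    rwa [e] at this
  set n := m * x with hndef
  have hnα : n • α = β := by rw [hndef, mul_smul, hx]; exact hm
  have hninv : ∀ u ∈ (P : Subgroup G), u • (n⁻¹ • α) = n⁻¹ • α := by
    intro u hu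
    have h1 := hPα _ (hn u hu)
    calc u • n⁻¹ • α = n⁻¹ • ((n * u * n⁻¹) • α) := by simp [mul_smul]
      _ = n⁻¹ • α := by rw [h1]
  rcases hFixP _ hninv with h | h
  · have : α = n • α := by
      conv_lhs => rw [← smul_inv_smul n α]
      rw [h]
    exact hαβ (this.trans hnα)
  · have hnβ : n • β = α := by rw [← h, smul_inv_smul]
    have h2 : n • n • α = α := by rw [hnα, hnβ]
    have := L0 n α h2
    exact hαβ (this.symm.trans hnα)

/-- Let G be a finite group acting faithfully and transitively on a finite set Ω with fixity k ≥ 1: every non-identity element fixes at most k points and some non-identity element fixes exactly k points. Then |Z(G)| divides k; if k = 2 then |G| is even; and for every prime p > k dividing |G| and every point α, either p does not divide |G_α| or G_α contains a Sylow p-subgroup of G. -/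
theorem result {G : Type*} [Group G] [Finite G] {Ω : Type*} [Fintype Ω] [MulAction G Ω] [FaithfulSMul G Ω]
    (htr : MulAction.IsPretransitive G Ω) (k : ℕ) (hk : 1 ≤ k)
    (hfix : ∀ g : G, g ≠ 1 → Nat.card (MulAction.fixedBy Ω g) ≤ k) (hex : ∃ g : G, g ≠ 1 ∧ Nat.card (MulAction.fixedBy Ω g) = k) :
    Nat.card (Subgroup.center G) ∣ k ∧ (k = 2 → 2 ∣ Nat.card G) ∧
      ∀ (p : ℕ), p.Prime → k < p → p ∣ Nat.card G → ∀ α : Ω,
        ¬ p ∣ Nat.card (MulAction.stabilizer G α) ∨ ¬ p ∣ (MulAction.stabilizer G α).index := by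
  refine ⟨?_, ?_, ?_⟩
  · obtain ⟨g, hg1, hg⟩ := hex
    rw [← hg]
    exact center_dvd htr g
  · intro hk2
    subst hk2
    obtain ⟨g, hg1, hg⟩ := hex
    exact part_b htr hfix g hg1 hg
  · intro p hp hkp hpG α
    by_contra hcon
    push Not at hcon
    exact part_c htr k hfix p hp hkp α hcon.1 hcon.2

end Cfsg.Agent.S3389
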