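import Cfsg.Statements.S3391
import Cfsg.Agent.Lib.helper25.SzFix3

set_option autoImplicit false
open Cfsg

namespace Cfsg.Agent.S3391

/-- Let q = 2^{2m+1} ≥ 8 and let G be isomorphic to the Suzuki group Sz(q). If G acts faithfully and transitively on a finite set Ω with fixity 2 (every non-identity element fixes at most two points, and some fixes exactly two), then either |Ω| = q² + 1 and the action is 2-transitive, or |Ω| = q²(q² + 1) and the point stabilizers have order q − 1. -/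
theorem result {G : Type*} [Group G] [Finite G] (F : Type) [Field F] [Fintype F] (m : ℕ) (hm : 1 ≤ m) (hF : Fintype.card F = 2 ^ (2 * m + 1))
    (e : G ≃* ↥(Cfsg.Lie.Sz F (2 ^ (m + 1)))) {Ω : Type*} [Fintype Ω] [MulAction G Ω] [FaithfulSMul G Ω] (htr : MulAction.IsPretransitive G Ω)
    (hfix : ∀ g : G, g ≠ 1 → Nat.card (MulAction.fixedBy Ω g) ≤ 2) (hex : ∃ g : G, g ≠ 1 ∧ Nat.card (MulAction.fixedBy Ω g) = 2) :
    (Fintype.card Ω = Fintype.card F ^ 2 + 1 ∧ MulAction.IsMultiplyPretransitive G Ω 2) ∨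
    (Fintype.card Ω = Fintype.card F ^ 2 * (Fintype.card F ^ 2 + 1) ∧ ∀ α : Ω, Nat.card (MulAction.stabilizer G α) = Fintype.card F - 1) := by
  have H := Cfsg.Agent.Lib.helper2.Suzuki.hyp_of_card hm hF
  let E : ↥(Cfsg.Agent.Lib.helper2.Suzuki.Gs F (2 ^ (m + 1))) ≃* G :=
    (Cfsg.Agent.Lib.helper25.SzIso.szEquiv H).trans e.symm
  letI act : MulAction ↥(Cfsg.Agent.Lib.helper2.Suzuki.Gs F (2 ^ (m + 1))) Ω :=
    MulAction.compHom Ω (E : ↥(Cfsg.Agent.Lib.helper2.Suzuki.Gs F (2 ^ (m + 1))) →* G)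
  have hsm : ∀ (g : ↥(Cfsg.Agent.Lib.helper2.Suzuki.Gs F (2 ^ (m + 1)))) (ω : Ω),
      g • ω = E g • ω := fun _ _ => rfl
  haveI : MulAction.IsPretransitive ↥(Cfsg.Agent.Lib.helper2.Suzuki.Gs F (2 ^ (m + 1))) Ω :=
    ⟨fun a b => by
      obtain ⟨g, hg⟩ := MulAction.exists_smul_eq G a b
      exact ⟨E.symm g, by rw [hsm, E.apply_symm_apply]; exact hg⟩⟩
  have hfix' : ∀ g : ↥(Cfsg.Agent.Lib.helper2.Suzuki.Gs F (2 ^ (m + 1))), g ≠ 1 →
      Nat.card (MulAction.fixedBy Ω g) ≤ 2 := by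
    intro g hg
    have h : MulAction.fixedBy Ω g = MulAction.fixedBy Ω (E g) := by
      ext ω
      rfl
    rw [h]
    exact hfix (E g) (fun h => hg (E.injective (h.trans (map_one E).symm)))
  have hex' : ∃ g : ↥(Cfsg.Agent.Lib.helper2.Suzuki.Gs F (2 ^ (m + 1))), g ≠ 1 ∧
      Nat.card (MulAction.fixedBy Ω g) = 2 := by
    obtain ⟨g, hg1, hg2⟩ := hex
    refine ⟨E.symm g, fun h => hg1 ?_, ?_⟩
    · have h' := congrArg E h
      rw [E.apply_symm_apply, map_one] at h'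
      exact h'
    · have h : MulAction.fixedBy Ω (E.symm g) = MulAction.fixedBy Ω g := by
        ext ω
        show E (E.symm g) • ω = ω ↔ g • ω = ω
        rw [E.apply_symm_apply]
      rw [h]
      exact hg2
  rcases Cfsg.Agent.Lib.helper25.SzFix.fix_main hm hF H hfix' hex' with ⟨h1, h2⟩ | ⟨h1, h2⟩
  · left
    refine ⟨h1, ?_⟩
    rw [MulAction.is_two_pretransitive_iff]
    intro a b c d hab hcd
    obtain ⟨g, hg1, hg2⟩ := h2 a b c d hab hcd
    exact ⟨E g, hg1, hg2⟩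
  · right
    refine ⟨h1, ?_⟩
    intro α
    rw [← h2 α]
    apply Nat.card_congr
    exact (E.symm.toEquiv.subtypeEquiv (fun g => by
      rw [MulAction.mem_stabilizer_iff, MulAction.mem_stabilizer_iff]
      show g • α = α ↔ E (E.symm g) • α = α
      rw [E.apply_symm_apply]))

end Cfsg.Agent.S3391
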