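import Cfsg.Statements.S3430
-- import your own Cfsg.Agent.* helpers here
import Mathlib
import Cfsg.Agent.Lib.helper18.PrimPart

set_option autoImplicit false
open Cfsg

namespace Cfsg.Agent.S3430

open Cfsg.Agent.Lib.helper18.PrimPart in
theorem aux (q n : ℕ) (hq : 2 ≤ q) (hn : 2 ≤ n)
    (h1 : ¬ (n = 2 ∧ ∃ s t : ℕ, t ≤ 1 ∧ q + 1 = 2 ^ s * 3 ^ t))
    (h2 : ¬ (q = 2 ∧ (n = 4 ∨ n = 6 ∨ n = 10 ∨ n = 12 ∨ n = 18)))
    (h3 : ¬ (q = 3 ∧ (n = 4 ∨ n = 6))) (h4 : ¬ (q = 5 ∧ n = 6)) :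
    ∃ p : ℕ, p.Prime ∧ p ∣ q ^ n - 1 ∧ (∀ i : ℕ, 1 ≤ i → i < n → ¬ p ∣ q ^ i - 1) ∧
      (n + 1 < p ∨ p ^ 2 ∣ q ^ n - 1) := by
  rcases Nat.lt_or_ge n 3 with hn3 | hn3
  · have hn2 : n = 2 := by omega
    subst hn2
    obtain ⟨s, u, hu, hqu⟩ := Nat.exists_eq_two_pow_mul_odd (n := q + 1) (by omega)
    have hfac : q ^ 2 - 1 = (q - 1) * (q + 1) := by
      obtain ⟨k, rfl⟩ : ∃ k, q = k + 1 := ⟨q - 1, by omega⟩
      have h5 : (k + 1) ^ 2 = k * (k + 1 + 1) + 1 := by ring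
      rw [h5]
      simp
    have key : ∀ p : ℕ, p.Prime → p ≠ 2 → p ∣ q + 1 →
        ∀ i : ℕ, 1 ≤ i → i < 2 → ¬ p ∣ q ^ i - 1 := by
      intro p hp hp2 hpq i hi1 hi2
      have hi : i = 1 := by omega
      subst hi
      rw [pow_one]
      intro hpq'
      have h5 : p ∣ (q + 1) - (q - 1) := Nat.dvd_sub hpq hpq'
      have h6 : (q + 1) - (q - 1) = 2 := by omega
      rw [h6] at h5
      exact hp2 ((Nat.prime_dvd_prime_iff_eq hp Nat.prime_two).mp h5)
    by_cases hex : ∃ p, p.Prime ∧ p ∣ u ∧ p ≠ 3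
    · obtain ⟨p, hp, hpu, hp3⟩ := hex
      have hp2 : p ≠ 2 := by
        rintro rfl
        exact (Nat.not_even_iff_odd.mpr hu) (even_iff_two_dvd.mpr hpu)
      have hpq1 : p ∣ q + 1 := by rw [hqu]; exact Dvd.dvd.mul_left hpu _
      refine ⟨p, hp, by rw [hfac]; exact Dvd.dvd.mul_left hpq1 _, key p hp hp2 hpq1, Or.inl ?_⟩
      have h5 := hp.two_le
      by_contra hle
      have h6 : p = 4 := by omega
      subst h6
      exact absurd hp (by norm_num)
    · push Not at hex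
      have hu0 : u ≠ 0 := by
        rintro rfl
        simp at hqu
      obtain ⟨t, ht⟩ : ∃ t, u = 3 ^ t :=
        ⟨_, Nat.eq_prime_pow_of_unique_prime_dvd hu0 (fun {d} hd hdu => hex d hd hdu)⟩
      by_cases ht1 : t ≤ 1
      · exact absurd ⟨rfl, s, t, ht1, by rw [hqu, ht]⟩ h1
      · have h9 : 9 ∣ q + 1 := by
          rw [hqu, ht]
          have h5 : (9 : ℕ) = 3 ^ 2 := by norm_num
          rw [h5]
          exact Dvd.dvd.mul_left (pow_dvd_pow 3 (by omega)) _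
        have h3q : 3 ∣ q + 1 := Dvd.dvd.trans (by norm_num) h9
        refine ⟨3, Nat.prime_three, by rw [hfac]; exact Dvd.dvd.mul_left h3q _,
          key 3 Nat.prime_three (by norm_num) h3q, Or.inr ?_⟩
        have h5 : (3 : ℕ) ^ 2 = 9 := by norm_num
        rw [h5, hfac]
        exact Dvd.dvd.mul_left h9 _
  · by_cases hl : (q, n) ∈ list13
    · simp only [list13, List.mem_cons, Prod.mk.injEq, List.mem_nil_iff, or_false] at hl
      rcases hl with ⟨rfl, rfl⟩ | ⟨rfl, rfl⟩ | ⟨rfl, rfl⟩ | ⟨rfl, rfl⟩ | ⟨rfl, rfl⟩ | ⟨rfl, rfl⟩ |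
        ⟨rfl, rfl⟩ | ⟨rfl, rfl⟩ | ⟨rfl, rfl⟩ | ⟨rfl, rfl⟩ | ⟨rfl, rfl⟩ | ⟨rfl, rfl⟩ | ⟨rfl, rfl⟩
      · exact absurd (by norm_num) h2
      · exact absurd (by norm_num) h2
      · exact absurd (by norm_num) h2
      · exact absurd (by norm_num) h2
      · exact absurd (by norm_num) h2
      · exact absurd (by norm_num) h3
      · exact absurd (by norm_num) h3
      · exact absurd (by norm_num) h4
      · refine ⟨7, by norm_num, by norm_num, ?_, Or.inl (by norm_num)⟩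
        intro i hi1 hi2
        interval_cases i <;> norm_num
      · refine ⟨17, by norm_num, by norm_num, ?_, Or.inl (by norm_num)⟩
        intro i hi1 hi2
        interval_cases i <;> norm_num
      · refine ⟨41, by norm_num, by norm_num, ?_, Or.inl (by norm_num)⟩
        intro i hi1 hi2
        interval_cases i <;> norm_num
      · refine ⟨7, by norm_num, by norm_num, ?_, Or.inl (by norm_num)⟩
        intro i hi1 hi2
        interval_cases i <;> norm_num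
      · refine ⟨13, by norm_num, by norm_num, ?_, Or.inl (by norm_num)⟩
        intro i hi1 hi2
        interval_cases i <;> norm_num
    · obtain ⟨m, hm1, hm2, hm3⟩ := prim_part q n hq hn3 hl
      have hppd : ∀ p : ℕ, p.Prime → p ∣ m →
          (p ∣ q ^ n - 1 ∧ (∀ i : ℕ, 1 ≤ i → i < n → ¬ p ∣ q ^ i - 1) ∧ n + 1 ≤ p) := by
        intro p hp hpm
        have h5 : ∀ i : ℕ, 1 ≤ i → i < n → ¬ p ∣ q ^ i - 1 := by
          intro i hi1 hi2 hpq
          have h6 := Nat.dvd_gcd hpm hpq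
          rw [hm2 i hi1 hi2] at h6
          exact hp.one_lt.ne' (Nat.dvd_one.mp h6)
        have h6 : p ∣ q ^ n - 1 := hpm.trans hm1
        have h7 := ppd_mod p q n hp (by omega) (by omega) h6 h5
        have h8 := Nat.le_of_dvd (by have := hp.two_le; omega) h7
        exact ⟨h6, h5, by omega⟩
      by_cases hex : ∃ p, p.Prime ∧ p ∣ m ∧ p ≠ n + 1
      · obtain ⟨p, hp, hpm, hpn⟩ := hex
        obtain ⟨a, b, c⟩ := hppd p hp hpm
        exact ⟨p, hp, a, b, Or.inl (by omega)⟩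
      · push Not at hex
        obtain ⟨j, hj⟩ : ∃ j, m = (n + 1) ^ j :=
          ⟨_, Nat.eq_prime_pow_of_unique_prime_dvd (by omega) (fun {d} hd hdm => hex d hd hdm)⟩
        have hj2 : 2 ≤ j := by
          by_contra hj2
          have hj1 : j ≤ 1 := by omega
          have h5 : m ≤ n + 1 := by
            rw [hj]
            calc (n + 1) ^ j ≤ (n + 1) ^ 1 := Nat.pow_le_pow_right (by omega) hj1
              _ = n + 1 := pow_one _
          omega
        have hpr : (n + 1).Prime := by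
          have h5 : m ≠ 1 := by omega
          have h6 := Nat.minFac_prime h5
          have h7 := hex m.minFac h6 (Nat.minFac_dvd m)
          rwa [h7] at h6
        obtain ⟨a, b, c⟩ := hppd (n + 1) hpr (by rw [hj]; exact dvd_pow_self _ (by omega))
        refine ⟨n + 1, hpr, a, b, Or.inr ?_⟩
        have h5 : (n + 1) ^ j ∣ q ^ n - 1 := by rw [← hj]; exact hm1
        exact (pow_dvd_pow (n + 1) hj2).trans h5


/-- Let q, n ≥ 2 be integers. Unless (n = 2 and q + 1 = 2^s·3^t for some s ≥ 0 and t ≤ 1), or (q = 2 and n ∈ {4, 6, 10, 12, 18}), or (q = 3 and n ∈ {4, 6}), or (q, n) = (5, 6), there is a prime p dividing q^n − 1 but no q^i − 1 with 1 ≤ i < n (a primitive prime divisor), such that p > n + 1 or p² divides q^n − 1. -/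
theorem result (q n : ℕ) (hq : 2 ≤ q) (hn : 2 ≤ n)
    (h1 : ¬ (n = 2 ∧ ∃ s t : ℕ, t ≤ 1 ∧ q + 1 = 2 ^ s * 3 ^ t))
    (h2 : ¬ (q = 2 ∧ (n = 4 ∨ n = 6 ∨ n = 10 ∨ n = 12 ∨ n = 18)))
    (h3 : ¬ (q = 3 ∧ (n = 4 ∨ n = 6))) (h4 : ¬ (q = 5 ∧ n = 6)) :
    ∃ p : ℕ, p.Prime ∧ p ∣ q ^ n - 1 ∧ (∀ i : ℕ, 1 ≤ i → i < n → ¬ p ∣ q ^ i - 1) ∧ (n + 1 < p ∨ p ^ 2 ∣ q ^ n - 1) := by
  exact aux q n hq hn h1 h2 h3 h4

end Cfsg.Agent.S3430
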