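import Mathlib
import Cfsg.Statements.S3498

set_option autoImplicit false
open Cfsg

namespace Cfsg.Agent.S3498

/-- A maximal subgroup of a finite almost simple group does not have prime order. Here G is almost simple in the sense that it has a non-abelian simple normal subgroup T with trivial centralizer. -/
theorem result {G : Type*} [Group G] [Finite G] (T : Subgroup G) [T.Normal] (hT : IsSimpleGroup T) (hTc : ¬ IsMulCommutative T)
    (hC : Subgroup.centralizer (T : Set G) = ⊥) (H : Subgroup G) (hmax : IsCoatom H) : ¬ (Nat.card H).Prime := by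
  classical
  intro hq
  have hTn : T.Normal := inferInstance
  have hqF : Fact (Nat.card H).Prime := ⟨hq⟩
  -- T is not an r-group
  have hTnotp : ∀ r : ℕ, r.Prime → ¬ IsPGroup r T := by
    intro r hr hp
    have hrF : Fact r.Prime := ⟨hr⟩
    have hnt : Nontrivial T := hT.toNontrivial
    have hcn : Nontrivial (Subgroup.center T) := hp.center_nontrivial
    have hctop : Subgroup.center T = ⊤ := by
      rcases hT.eq_bot_or_eq_top_of_normal (Subgroup.center T) inferInstance with h | h
      · exfalso
        rw [h] at hcn
        exact not_nontrivial _ hcn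
      · exact h
    apply hTc
    refine ⟨⟨fun a b => ?_⟩⟩
    have ha : a ∈ Subgroup.center T := by rw [hctop]; trivial
    exact ((Subgroup.mem_center_iff.mp ha) b).symm
  -- (S)
  have hS : ∀ N : Subgroup G, N.Normal → N ⊓ T = ⊥ ∨ T ≤ N := by
    intro N hN
    rcases hT.eq_bot_or_eq_top_of_normal (N.subgroupOf T) (hN.subgroupOf T) with h | h
    · left; exact disjoint_iff.mp (Subgroup.subgroupOf_eq_bot.mp h)
    · right; exact Subgroup.subgroupOf_eq_top.mp h
  have hHbot : H ≠ ⊥ := by
    intro h
    rw [h, Subgroup.card_bot] at hq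
    exact Nat.not_prime_one hq
  have hHtop : H ≠ ⊤ := hmax.1
  -- (P) subgroups of H
  have hPH : ∀ D : Subgroup G, D ≤ H → D = ⊥ ∨ D = H := by
    intro D hD
    have hdvd := Subgroup.card_dvd_of_le hD
    rcases (Nat.dvd_prime hq).mp hdvd with h | h
    · left; exact Subgroup.card_eq_one.mp h
    · right; exact Subgroup.eq_of_le_of_card_ge hD (le_of_eq h.symm)
  have hHpg : IsPGroup (Nat.card H) H := IsPGroup.of_card (n := 1) (by simp)
  by_cases hHT : H ≤ T
  · rcases hmax.le_iff.mp hHT with hTtop | hTH
    · -- T = ⊤
      obtain ⟨P, hP⟩ := hHpg.exists_le_sylow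
      rcases hmax.le_iff.mp hP with hPtop | hPH'
      · have hGp : IsPGroup (Nat.card H) G := by
          intro g
          obtain ⟨k, hk⟩ := P.2 ⟨g, by rw [hPtop]; trivial⟩
          exact ⟨k, by simpa [Subtype.ext_iff] using hk⟩
        exact hTnotp _ hq (hGp.to_subgroup T)
      · rcases hmax.le_iff.mp (Subgroup.le_normalizer (H := H)) with hN | hN
        · have hHn : H.Normal := Subgroup.normalizer_eq_top_iff.mp hN
          rcases hS H hHn with h | h
          · rw [hTtop, inf_top_eq] at h; exact hHbot h
          · rw [hTtop] at h; exact hHtop (top_le_iff.mp h)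
        · have hPcomm : IsMulCommutative (P : Subgroup G) := by
            rw [hPH']
            have : IsCyclic H := isCyclic_of_prime_card (p := Nat.card H) rfl
            infer_instance
          have hPn : Subgroup.normalizer ((P : Subgroup G) : Set G) ≤ Subgroup.centralizer ((P : Subgroup G) : Set G) := by
            rw [hPH', hN, ← hPH']
            exact Subgroup.le_centralizer_iff_isMulCommutative.mpr hPcomm
          have hcompl := MonoidHom.ker_transferSylow_isComplement' P hPn
          rcases hS (MonoidHom.transferSylow P hPn).ker inferInstance with h | h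
          · rw [hTtop, inf_top_eq] at h
            rw [h, Subgroup.isComplement'_bot_left, hPH'] at hcompl
            exact hHtop hcompl
          · rw [hTtop, top_le_iff] at h
            rw [h, Subgroup.isComplement'_top_left, hPH'] at hcompl
            exact hHbot hcompl
    · -- T = H
      have : IsPGroup (Nat.card H) T := by rw [hTH]; exact hHpg
      exact hTnotp _ hq this
  · -- H ⊓ T = ⊥
    have hdisj : H ⊓ T = ⊥ := by
      rcases hPH (H ⊓ T) inf_le_left with h | h
      · exact h
      · exact absurd (h ▸ inf_le_right : H ≤ T) hHT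
    -- (M)
    have hM : ∀ U : Subgroup G, U ≤ T → H ≤ Subgroup.normalizer (U : Set G) → U = ⊥ ∨ T ≤ U := by
      intro U hUT hN
      rcases hmax.le_iff.mp (le_sup_right : H ≤ U ⊔ H) with h1 | h1
      · right
        intro t ht
        have hmem : t ∈ (↑(H ⊔ U) : Set G) := by rw [sup_comm, h1]; trivial
        rw [Subgroup.coe_mul_of_left_le_normalizer_right H U hN] at hmem
        obtain ⟨h', hh', u, hu, rfl⟩ := Set.mem_mul.mp hmem
        have hh'T : h' ∈ H ⊓ T := ⟨hh', by
          have := T.mul_mem ht (T.inv_mem (hUT hu)); simpa using this⟩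
        rw [hdisj, Subgroup.mem_bot] at hh'T
        subst hh'T
        simpa using hu
      · left
        have : U ≤ H ⊓ T := le_inf (by rw [← h1]; exact le_sup_left) hUT
        rw [hdisj] at this
        exact le_bot_iff.mp this
    obtain ⟨h, hh1⟩ := (Subgroup.ne_bot_iff_exists_ne_one.mp hHbot)
    have hh1' : (h : G) ≠ 1 := fun e => hh1 (Subtype.ext e)
    have hzp : Subgroup.zpowers (h : G) = H := by
      rcases hPH (Subgroup.zpowers (h : G)) (Subgroup.zpowers_le.mpr h.2) with e | e
      · exact absurd (Subgroup.zpowers_eq_bot.mp e) hh1'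
      · exact e
    have hHle : ∀ U : Subgroup G, (h : G) ∈ Subgroup.normalizer (U : Set G) → H ≤ Subgroup.normalizer (U : Set G) := by
      intro U hU
      rw [← hzp]
      exact Subgroup.zpowers_le.mpr hU
    -- (a)
    have hCT : ∀ x ∈ T, x * (h : G) = h * x → x = 1 := by
      set C : Subgroup G := Subgroup.centralizer {(h : G)} ⊓ T with hCdef
      have hCn : (h : G) ∈ Subgroup.normalizer (C : Set G) := by
        rw [Subgroup.mem_normalizer_iff]
        intro x
        simp only [hCdef, Subgroup.mem_inf, Subgroup.mem_centralizer_singleton_iff]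
        constructor
        · rintro ⟨h1, h2⟩
          refine ⟨?_, hTn.conj_mem x h2 h⟩
          calc (h : G) * x * (h : G)⁻¹ * h = h * x := by group
            _ = h * (x * h * (h : G)⁻¹) := by group
            _ = h * (h * x * (h : G)⁻¹) := by rw [h1]
        · rintro ⟨h1, h2⟩
          constructor
          · have : (h : G) * x * (h : G)⁻¹ = x := by
              calc (h : G) * x * (h : G)⁻¹ = (h : G)⁻¹ * ((h : G) * ((h : G) * x * (h : G)⁻¹)) := by group
                _ = (h : G)⁻¹ * ((h : G) * x * (h : G)⁻¹ * h) := by rw [h1]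
                _ = x := by group
            calc x * (h : G) = ((h : G) * x * (h : G)⁻¹) * h := by rw [this]
              _ = h * x := by group
          · have := hTn.conj_mem _ h2 (h : G)⁻¹
            simpa [mul_assoc] using this
      rcases hM C inf_le_right (hHle C hCn) with e | e
      · intro x hx hcomm
        have : x ∈ C := ⟨Subgroup.mem_centralizer_singleton_iff.mpr hcomm, hx⟩
        rw [e, Subgroup.mem_bot] at this
        exact this
      · exfalso
        have : (h : G) ∈ Subgroup.centralizer (T : Set G) := by
          rw [Subgroup.mem_centralizer_iff]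
          intro t ht
          have := (e ht).1
          exact Subgroup.mem_centralizer_singleton_iff.mp this
        rw [hC, Subgroup.mem_bot] at this
        exact hh1' this
    -- (b)
    let ψ : T → T := fun x => ⟨(x : G)⁻¹ * h * x * (h : G)⁻¹, by
      have h1 := hTn.conj_mem x x.2 h
      have := T.mul_mem (T.inv_mem x.2) h1
      simpa [mul_assoc] using this⟩
    have hψinj : Function.Injective ψ := by
      intro x y hxy
      have hxy' : (x : G)⁻¹ * h * x * (h : G)⁻¹ = (y : G)⁻¹ * h * y * (h : G)⁻¹ := congrArg Subtype.val hxy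
      have h2 : (x : G)⁻¹ * h * x = (y : G)⁻¹ * h * y := mul_right_cancel hxy'
      have h3 : ((x : G) * (y : G)⁻¹) * h = (h : G) * ((x : G) * (y : G)⁻¹) := by
        calc ((x : G) * (y : G)⁻¹) * h = x * ((y : G)⁻¹ * h * y) * (y : G)⁻¹ := by group
          _ = x * ((x : G)⁻¹ * h * x) * (y : G)⁻¹ := by rw [h2]
          _ = _ := by group
      have := hCT _ (T.mul_mem x.2 (T.inv_mem y.2)) h3
      exact Subtype.ext (mul_inv_eq_one.mp this)
    have hψsurj : Function.Surjective ψ := Finite.surjective_of_injective hψinj
    -- (c)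
    have hntT : Nontrivial T := hT.toNontrivial
    have hcardT : Nat.card T ≠ 1 := by
      intro h1
      have : Subsingleton T := (Nat.card_eq_one_iff_unique.mp h1).1
      exact not_subsingleton T this
    set r := (Nat.card T).minFac with hr
    have hrp : r.Prime := Nat.minFac_prime hcardT
    have hrF : Fact r.Prime := ⟨hrp⟩
    have hrdvd : r ∣ Nat.card T := Nat.minFac_dvd _
    obtain ⟨R⟩ := (inferInstance : Nonempty (Sylow r T))
    set U₀ : Subgroup G := (R : Subgroup T).map T.subtype with hU₀
    have hfr := Sylow.normalizer_sup_eq_top R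
    have hmem : (h : G) ∈ (↑(Subgroup.normalizer (U₀ : Set G) ⊔ T) : Set G) := by
      rw [hfr]; trivial
    rw [Subgroup.mul_normal] at hmem
    obtain ⟨n, hn, t, ht, hnt⟩ := Set.mem_mul.mp hmem
    -- choose y with ψ y = h t⁻¹ h⁻¹
    obtain ⟨y, hy⟩ := hψsurj ⟨(h : G) * t⁻¹ * (h : G)⁻¹, hTn.conj_mem _ (T.inv_mem ht) h⟩
    have hy' : (y : G)⁻¹ * h * y * (h : G)⁻¹ = (h : G) * t⁻¹ * (h : G)⁻¹ := congrArg Subtype.val hy
    have hyn : (y : G)⁻¹ * h * y = n := by
      have h2 : (y : G)⁻¹ * h * y = (h : G) * t⁻¹ := mul_right_cancel hy'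
      rw [h2, ← hnt]; group
    set U : Subgroup G := U₀.map (MulAut.conj (y : G)).toMonoidHom with hU
    have hU₀T : U₀ ≤ T := Subgroup.map_subtype_le _
    have hUT : U ≤ T := by
      intro x hx
      rw [hU, Subgroup.mem_map_equiv] at hx
      have h1 := hU₀T hx
      simp only [MulAut.conj_symm_apply] at h1
      have := T.mul_mem (T.mul_mem y.2 h1) (T.inv_mem y.2)
      simpa [mul_assoc] using this
    have hUn : (h : G) ∈ Subgroup.normalizer (U : Set G) := by
      rw [Subgroup.mem_normalizer_iff]
      intro x
      rw [hU, Subgroup.mem_map_equiv, Subgroup.mem_map_equiv]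
      simp only [MulAut.conj_symm_apply]
      rw [(Subgroup.mem_normalizer_iff.mp hn) ((y : G)⁻¹ * x * y), ← hyn]
      have : (y : G)⁻¹ * h * y * ((y : G)⁻¹ * x * y) * ((y : G)⁻¹ * h * y)⁻¹ = (y : G)⁻¹ * (h * x * (h : G)⁻¹) * y := by
        group
      rw [this]
    have hcardU : Nat.card U = r ^ (Nat.card T).factorization r := by
      rw [hU, Subgroup.card_map_of_injective (MulAut.conj (y : G)).injective, hU₀,
        Subgroup.card_map_of_injective T.subtype_injective]
      exact Sylow.card_eq_multiplicity R
    rcases hM U hUT (hHle U hUn) with e | e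
    · have : Nat.card U = 1 := by rw [e]; exact Subgroup.card_bot
      rw [hcardU] at this
      have hRcard : Nat.card (R : Subgroup T) = 1 := by rw [Sylow.card_eq_multiplicity R]; exact this
      exact Sylow.ne_bot_of_dvd_card R hrdvd (Subgroup.card_eq_one.mp hRcard)
    · have hUeq : U = T := le_antisymm hUT e
      have : Nat.card T = r ^ (Nat.card T).factorization r := by
        conv_lhs => rw [← hUeq]
        exact hcardU
      exact hTnotp r hrp (IsPGroup.of_card this)

end Cfsg.Agent.S3498
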