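import Mathlib
import Cfsg.Statements.S3504

set_option autoImplicit false
open Cfsg

namespace Cfsg.Agent.S3504

theorem fpf_prime_cycleType {n : ℕ} (g : Equiv.Perm (Fin n)) (hg : (orderOf g).Prime)
    (hfix : ∀ i : Fin n, g i ≠ i) :
    ∃ m : ℕ, g.cycleType = Multiset.replicate (m + 1) (orderOf g) ∧ (m + 1) * orderOf g = n := by
  obtain ⟨m, hm⟩ := Equiv.Perm.cycleType_prime_order hg
  refine ⟨m, hm, ?_⟩
  have h1 := Equiv.Perm.sum_cycleType g
  have h2 : g.support = Finset.univ := by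
    ext i; simp [Equiv.Perm.mem_support, hfix i]
  rw [h2, hm, Multiset.sum_replicate, Finset.card_univ, Fintype.card_fin] at h1
  simpa using h1

theorem exists_fpf_of_prime_dvd {n : ℕ} (hn : 0 < n) (q : ℕ) (hq : q.Prime) (hqn : q ∣ n) :
    ∃ g : Equiv.Perm (Fin n), orderOf g = q ∧ ∀ i : Fin n, g i ≠ i := by
  obtain ⟨k, hk⟩ := hqn
  have hk0 : 0 < k := by
    rcases Nat.eq_zero_or_pos k with h | h
    · subst h; omega
    · exact h
  obtain ⟨g, hg⟩ := (Equiv.Perm.exists_with_cycleType_iff (α := Fin n) (m := Multiset.replicate k q)).mpr (by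
    constructor
    · rw [Multiset.sum_replicate, Fintype.card_fin, hk, smul_eq_mul, mul_comm]
    · intro a ha
      rw [Multiset.eq_of_mem_replicate ha]
      exact hq.two_le)
  have hord : orderOf g = q := by
    rw [← Equiv.Perm.lcm_cycleType, hg]
    apply Nat.dvd_antisymm
    · apply Multiset.lcm_dvd.mpr
      intro a ha
      rw [Multiset.eq_of_mem_replicate ha]
    · apply Multiset.dvd_lcm
      rw [Multiset.mem_replicate]
      exact ⟨by omega, rfl⟩
  refine ⟨g, hord, ?_⟩
  have h1 := Equiv.Perm.sum_cycleType g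
  rw [hg, Multiset.sum_replicate, smul_eq_mul] at h1
  have h2 : g.support = Finset.univ := by
    apply Finset.eq_univ_of_card
    rw [← h1, Fintype.card_fin, hk, mul_comm]
  intro i
  have : i ∈ g.support := by rw [h2]; exact Finset.mem_univ i
  exact Equiv.Perm.mem_support.mp this

/-- For n ≥ 5, the fixed-point-free permutations of prime order in the symmetric group of degree n form a single conjugacy class if and only if n is a prime power. -/
theorem result (n : ℕ) (hn : 5 ≤ n) :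
    Nat.card {c : ConjClasses (Equiv.Perm (Fin n)) // ∃ g : Equiv.Perm (Fin n), ConjClasses.mk g = c ∧ (orderOf g).Prime ∧ ∀ i : Fin n, g i ≠ i} = 1 ↔ IsPrimePow n := by
  classical
  have hn0 : 0 < n := by omega
  rw [Nat.card_eq_one_iff_unique]
  constructor
  · rintro ⟨hsub, -⟩
    rw [isPrimePow_iff_card_primeFactors_eq_one]
    by_contra hne
    have hpos : 0 < n.primeFactors.card := by
      rw [Finset.card_pos]
      exact Nat.nonempty_primeFactors.mpr (by omega)
    have h2 : 1 < n.primeFactors.card := by omega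
    obtain ⟨q1, hq1, q2, hq2, hne12⟩ := Finset.one_lt_card.mp h2
    obtain ⟨g1, hg1, hf1⟩ := exists_fpf_of_prime_dvd hn0 q1 (Nat.prime_of_mem_primeFactors hq1) (Nat.dvd_of_mem_primeFactors hq1)
    obtain ⟨g2, hg2, hf2⟩ := exists_fpf_of_prime_dvd hn0 q2 (Nat.prime_of_mem_primeFactors hq2) (Nat.dvd_of_mem_primeFactors hq2)
    have heq := hsub.elim
      ⟨ConjClasses.mk g1, g1, rfl, by rw [hg1]; exact Nat.prime_of_mem_primeFactors hq1, hf1⟩
      ⟨ConjClasses.mk g2, g2, rfl, by rw [hg2]; exact Nat.prime_of_mem_primeFactors hq2, hf2⟩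
    have hconj : IsConj g1 g2 := ConjClasses.mk_eq_mk_iff_isConj.mp (Subtype.ext_iff.mp heq)
    obtain ⟨c, hc⟩ := isConj_iff.mp hconj
    have : orderOf g1 = orderOf g2 := by
      rw [← hc]
      exact (orderOf_injective (MulAut.conj c).toMonoidHom (MulAut.conj c).injective g1).symm
    rw [hg1, hg2] at this
    exact hne12 this
  · intro hpp
    obtain ⟨q, k, hq, hk, hqk⟩ := (isPrimePow_nat_iff n).mp hpp
    have hqn : q ∣ n := by rw [← hqk]; exact dvd_pow_self q (by omega)
    obtain ⟨g0, hg0, hf0⟩ := exists_fpf_of_prime_dvd hn0 q hq hqn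
    refine ⟨⟨?_⟩, ⟨⟨ConjClasses.mk g0, g0, rfl, by rw [hg0]; exact hq, hf0⟩⟩⟩
    rintro ⟨c, g, rfl, hg, hf⟩ ⟨c', g', rfl, hg', hf'⟩
    apply Subtype.ext
    show ConjClasses.mk g = ConjClasses.mk g'
    rw [ConjClasses.mk_eq_mk_iff_isConj, Equiv.Perm.isConj_iff_cycleType_eq]
    obtain ⟨m, hm, hmn⟩ := fpf_prime_cycleType g hg hf
    obtain ⟨m', hm', hmn'⟩ := fpf_prime_cycleType g' hg' hf'
    have e1 : orderOf g = q := by
      have : orderOf g ∣ q ^ k := by rw [hqk]; exact Dvd.intro_left _ hmn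
      exact (Nat.prime_dvd_prime_iff_eq hg hq).mp (hg.dvd_of_dvd_pow this)
    have e2 : orderOf g' = q := by
      have : orderOf g' ∣ q ^ k := by rw [hqk]; exact Dvd.intro_left _ hmn'
      exact (Nat.prime_dvd_prime_iff_eq hg' hq).mp (hg'.dvd_of_dvd_pow this)
    rw [hm, hm', e1, e2]
    rw [e1] at hmn
    rw [e2] at hmn'
    have : m + 1 = m' + 1 := Nat.eq_of_mul_eq_mul_right hq.pos (hmn.trans hmn'.symm)
    rw [this]

end Cfsg.Agent.S3504
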