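import Mathlib
import Cfsg.Statements.S3508

set_option autoImplicit false
open Cfsg

namespace Cfsg.Agent.S3508

open Polynomial in
theorem poly_sub_one_pow (p : ℕ) [Fact p.Prime] (n : ℕ) :
    ((X : (ZMod p)[X]) - 1) ^ (p ^ n) = X ^ (p ^ n) - 1 := by
  rw [sub_pow_char_pow, one_pow]

open Polynomial in
theorem poly_geom (p : ℕ) [Fact p.Prime] (n : ℕ) :
    (∑ i ∈ Finset.range (p ^ n), (X : (ZMod p)[X]) ^ i) = (X - 1) ^ (p ^ n - 1) := by
  have hp : p.Prime := Fact.out
  have h1 := geom_sum_mul (X : (ZMod p)[X]) (p ^ n)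
  rw [← poly_sub_one_pow] at h1
  have hpos : 0 < p ^ n := pow_pos hp.pos n
  have h2 : ((X : (ZMod p)[X]) - 1) ^ (p ^ n) = (X - 1) ^ (p ^ n - 1) * (X - 1) := by
    rw [← pow_succ]; congr 1; omega
  rw [h2] at h1
  have hne : ((X : (ZMod p)[X]) - 1) ≠ 0 := by
    intro h
    have := congrArg (Polynomial.eval 0) h
    simp at this
  exact mul_right_cancel₀ hne h1

theorem affine_iter {p : ℕ} [Fact p.Prime] {V : Type*} [AddCommGroup V] [Module (ZMod p) V]
    [Module.Finite (ZMod p) V]
    (c : V →ₗ[ZMod p] V) (r : ℕ) (hc : c ^ (p ^ r) = 1) (v : V) (s : ℕ)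
    (hs : Module.finrank (ZMod p) V < p ^ s) :
    ∀ x : V, (fun y => c y + v)^[p ^ s] x = x := by
  have hp : p.Prime := Fact.out
  -- (c - 1)^(p^r) = 0
  have h1 : ∀ n : ℕ, (c - 1) ^ (p ^ n) = c ^ (p ^ n) - 1 := by
    intro n
    have := congrArg (Polynomial.aeval c) (poly_sub_one_pow p n)
    simpa using this
  have hnil : IsNilpotent (c - 1) := ⟨p ^ r, by rw [h1, hc, sub_self]⟩
  have h2 : (c - 1) ^ (Module.finrank (ZMod p) V) = 0 := by
    have h3 := LinearMap.aeval_self_charpoly (c - 1)
    rw [hnil.charpoly_eq_X_pow_finrank] at h3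
    simpa using h3
  have h4 : c ^ (p ^ s) = 1 := by
    have := h1 s
    rw [pow_eq_zero_of_le hs.le h2] at this
    exact (sub_eq_zero.mp this.symm)
  have h5 : (∑ i ∈ Finset.range (p ^ s), c ^ i) = 0 := by
    have := congrArg (Polynomial.aeval c) (poly_geom p s)
    simp only [map_sum, map_pow, Polynomial.aeval_X, map_sub, map_one] at this
    rw [this]
    exact pow_eq_zero_of_le (by omega) h2
  have h6 : ∀ (j : ℕ) (x : V), (fun y => c y + v)^[j] x = (c ^ j) x + (∑ i ∈ Finset.range j, c ^ i) v := by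
    intro j
    induction j with
    | zero => intro x; simp
    | succ j ih =>
      intro x
      rw [Function.iterate_succ_apply', ih, Finset.sum_range_succ', pow_succ']
      simp only [map_add, Module.End.mul_apply, LinearMap.add_apply, pow_zero, Module.End.one_apply,
        LinearMap.sum_apply, pow_succ', map_sum]
      abel
  intro x
  rw [h6, h4, h5]
  simp


theorem mul_affine_iter' {p : ℕ} [Fact p.Prime] {A : Type*} [CommGroup A] [Finite A]
    [Module (ZMod p) (Additive A)] (m : ℕ) (hcard : Nat.card A = p ^ m)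
    (φ : A →* A) (r : ℕ) (hφ : ∀ a : A, φ^[p ^ r] a = a) (a₀ : A) (s : ℕ) (hs : m < p ^ s) :
    ∀ a : A, (fun y => φ y * a₀)^[p ^ s] a = a := by
  have hp : p.Prime := Fact.out
  have hfin : Finite (Additive A) := ‹Finite A›
  have hmf : Module.Finite (ZMod p) (Additive A) := Module.Finite.of_finite
  have hrank : Module.finrank (ZMod p) (Additive A) = m := by
    have h1 : Nat.card (Additive A) = Nat.card (ZMod p) ^ Module.finrank (ZMod p) (Additive A) :=
      Module.natCard_eq_pow_finrank
    rw [Nat.card_zmod] at h1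
    have h2 : Nat.card (Additive A) = p ^ m := hcard
    rw [h2] at h1
    exact (Nat.pow_right_injective hp.two_le h1).symm
  let c : Additive A →ₗ[ZMod p] Additive A := (MonoidHom.toAdditive φ).toZModLinearMap p
  have key : ∀ (k : ℕ) (y : Additive A), (⇑c)^[k] y = Additive.ofMul (φ^[k] (Additive.toMul y)) := by
    intro k
    induction k with
    | zero => intro y; rfl
    | succ k ih =>
      intro y
      rw [Function.iterate_succ_apply', Function.iterate_succ_apply', ih]
      rfl
  have hc : c ^ (p ^ r) = 1 := by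
    refine LinearMap.ext fun x => ?_
    rw [Module.End.pow_apply, Module.End.one_apply, key, hφ]
    rfl
  have key2 : ∀ (k : ℕ) (y : A), (fun y => c y + Additive.ofMul a₀)^[k] (Additive.ofMul y)
      = Additive.ofMul ((fun y => φ y * a₀)^[k] y) := by
    intro k
    induction k with
    | zero => intro y; rfl
    | succ k ih =>
      intro y
      rw [Function.iterate_succ_apply', Function.iterate_succ_apply', ih]
      rfl
  intro a
  have h := affine_iter c r hc (Additive.ofMul a₀) s (by rw [hrank]; exact hs) (Additive.ofMul a)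
  rw [key2] at h
  exact Additive.ofMul.injective h

theorem mul_affine_iter {p : ℕ} [Fact p.Prime] {A : Type*} [CommGroup A] [Finite A]
    (hexp : ∀ a : A, a ^ p = 1) (m : ℕ) (hcard : Nat.card A = p ^ m)
    (φ : A →* A) (r : ℕ) (hφ : ∀ a : A, φ^[p ^ r] a = a) (a₀ : A) (s : ℕ) (hs : m < p ^ s) :
    ∀ a : A, (fun y => φ y * a₀)^[p ^ s] a = a :=
  @mul_affine_iter' p _ A _ _ (AddCommGroup.zmodModule (n := p) (by
    intro x
    show Additive.ofMul ((Additive.toMul x) ^ p) = 0
    rw [hexp]; rfl)) m hcard φ r hφ a₀ s hs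

/-- Let a finite group G act faithfully on a set Ω with p ^ m points (p prime) and have an elementary abelian normal p-subgroup N acting regularly on Ω (so G is a group of affine transformations of an m-dimensional space over the field with p elements). If G contains an element of order p ^ r with r ≥ 1, then p ^ (r − 1) ≤ m. In particular an element of order p ^ m forces m ≤ 2, and m ≤ 1 when p is odd. -/
theorem result {G : Type*} [Group G] [Finite G] {Ω : Type*} [Fintype Ω] [MulAction G Ω] [FaithfulSMul G Ω] (p m : ℕ) (hp : p.Prime) (hcard : Fintype.card Ω = p ^ m)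
    (N : Subgroup G) [N.Normal] (hNc : IsMulCommutative N) (hNp : ∀ n ∈ N, n ^ p = 1)
    (hNtr : MulAction.IsPretransitive N Ω) (hNreg : ∀ ω : Ω, MulAction.stabilizer N ω = ⊥)
    (g : G) (r : ℕ) (hr : 1 ≤ r) (hg : orderOf g = p ^ r) :
    p ^ (r - 1) ≤ m ∧ (r = m → m ≤ 2 ∧ (2 < p → m ≤ 1)) := by
  classical
  have hpF : Fact p.Prime := ⟨hp⟩
  have main : p ^ (r - 1) ≤ m := by
    by_contra hlt
    push Not at hlt
    -- base point
    have hΩ : 0 < Fintype.card Ω := by rw [hcard]; exact pow_pos hp.pos m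
    obtain ⟨ω₀⟩ := Fintype.card_pos_iff.mp hΩ
    -- regular action
    have hinj : Function.Injective (fun n : N => n • ω₀) := by
      intro a b hab
      have hab' : a • ω₀ = b • ω₀ := hab
      have : b⁻¹ * a ∈ MulAction.stabilizer N ω₀ := by
        rw [MulAction.mem_stabilizer_iff, mul_smul, hab', inv_smul_smul]
      rw [hNreg, Subgroup.mem_bot] at this
      exact (inv_mul_eq_one.mp this).symm
    have hsurj : Function.Surjective (fun n : N => n • ω₀) := fun ω => MulAction.exists_smul_eq N ω₀ ω
    have hcardN : Nat.card N = p ^ m := by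
      rw [← hcard, ← Nat.card_eq_fintype_card]
      exact Nat.card_congr (Equiv.ofBijective _ ⟨hinj, hsurj⟩)
    letI instN : CommGroup N := { (inferInstance : Group N) with mul_comm := fun a b => mul_comm' a b }
    have hexp : ∀ a : N, a ^ p = 1 := fun a => Subtype.ext (hNp a a.2)
    let φ : N →* N := (MulAut.conjNormal g : MulAut N).toMonoidHom
    have hφk : ∀ (k : ℕ) (a : N), φ^[k] a = (MulAut.conjNormal (g ^ k) : MulAut N) a := by
      intro k
      induction k with
      | zero => intro a; simp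
      | succ k ih =>
        intro a
        rw [Function.iterate_succ_apply', ih, pow_succ', map_mul, MulAut.mul_apply]
        rfl
    have hφ : ∀ a : N, φ^[p ^ r] a = a := by
      intro a
      rw [hφk, ← hg, pow_orderOf_eq_one, map_one]
      rfl
    obtain ⟨n₀, hn₀⟩ := hsurj (g • ω₀)
    have hn₀' : n₀ • ω₀ = g • ω₀ := hn₀
    have hstep : ∀ a : N, g • (a • ω₀) = (φ a * n₀) • ω₀ := by
      intro a
      rw [mul_smul, hn₀']
      show g • ((a : G) • ω₀) = ((MulAut.conjNormal g a : N) : G) • (g • ω₀)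
      rw [MulAut.conjNormal_apply, ← mul_smul, ← mul_smul]
      congr 1
      group
    have hiter : ∀ (j : ℕ) (a : N), g ^ j • (a • ω₀) = ((fun y => φ y * n₀)^[j] a) • ω₀ := by
      intro j
      induction j with
      | zero => intro a; simp
      | succ j ih =>
        intro a
        rw [pow_succ', mul_smul, ih, hstep, Function.iterate_succ_apply']
    have hfixall := mul_affine_iter hexp m hcardN φ r hφ n₀ (r - 1) hlt
    have hg1 : g ^ (p ^ (r - 1)) = 1 := by
      apply FaithfulSMul.eq_of_smul_eq_smul (α := Ω)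
      intro ω
      obtain ⟨a, rfl⟩ := hsurj ω
      show g ^ (p ^ (r - 1)) • (a • ω₀) = (1 : G) • (a • ω₀)
      rw [hiter, hfixall, one_smul]
    have hdvd : p ^ r ∣ p ^ (r - 1) := by
      rw [← hg]; exact orderOf_dvd_of_pow_eq_one hg1
    have := (Nat.pow_dvd_pow_iff_le_right hp.one_lt).mp hdvd
    omega
  refine ⟨main, ?_⟩
  intro hrm
  subst hrm
  constructor
  · by_contra h3
    push Not at h3
    obtain ⟨t, rfl⟩ : ∃ t, r = t + 3 := ⟨r - 3, by omega⟩
    have h1 : 2 ^ (t + 3 - 1) ≤ p ^ (t + 3 - 1) := Nat.pow_le_pow_left hp.two_le _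
    have h2 : t < 2 ^ t := Nat.lt_two_pow_self
    have h3 : 2 ^ (t + 3 - 1) = 2 ^ t * 4 := by
      have : t + 3 - 1 = t + 2 := by omega
      rw [this, pow_add]; norm_num
    omega
  · intro hp2
    by_contra h3
    push Not at h3
    obtain ⟨t, rfl⟩ : ∃ t, r = t + 2 := ⟨r - 2, by omega⟩
    have h1 : 3 ^ (t + 2 - 1) ≤ p ^ (t + 2 - 1) := Nat.pow_le_pow_left (by omega) _
    have h2 : t < 3 ^ t := Nat.lt_pow_self (by norm_num)
    have h3 : 3 ^ (t + 2 - 1) = 3 ^ t * 3 := by
      have : t + 2 - 1 = t + 1 := by omega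
      rw [this, pow_succ]
    omega

end Cfsg.Agent.S3508
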