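import Mathlib
import Cfsg.Statements.S3511

set_option autoImplicit false
open Cfsg

namespace Cfsg.Agent.S3511

theorem aux {G : Type*} [Group G] [Finite G] {Ω : Type*} [MulAction G Ω]
    (h : ∀ g : G, Squarefree (orderOf g) → ∃ ω : Ω, MulAction.stabilizer (Subgroup.zpowers g) ω = ⊥)
    (n : ℕ) : ∀ g : G, orderOf g = n → ∃ ω : Ω, MulAction.stabilizer (Subgroup.zpowers g) ω = ⊥ := by
  induction n using Nat.strong_induction_on with
  | _ n ih =>
    intro g hg
    by_cases hsq : Squarefree (orderOf g)
    · exact h g hsq
    · rw [Nat.squarefree_iff_prime_squarefree] at hsq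
      push Not at hsq
      obtain ⟨p, hp, hpp⟩ := hsq
      have hn_pos : 0 < orderOf g := orderOf_pos g
      have hpdvd : p ∣ orderOf g := dvd_trans (dvd_mul_right p p) hpp
      have hlt : orderOf (g ^ p) < n := by
        rw [orderOf_pow, Nat.gcd_eq_right hpdvd, ← hg]
        exact Nat.div_lt_self hn_pos hp.one_lt
      obtain ⟨ω, hω⟩ := ih _ hlt (g ^ p) rfl
      refine ⟨ω, ?_⟩
      rw [Subgroup.eq_bot_iff_forall]
      rintro ⟨s, hs⟩ hfix
      by_contra hne
      have hs1 : s ≠ 1 := fun h1 => hne (Subtype.ext h1)
      have hsfix : s • ω = ω := hfix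
      have hd1 : orderOf s ≠ 1 := fun h1 => hs1 (orderOf_eq_one_iff.mp h1)
      obtain ⟨q, hq, hqd⟩ := Nat.exists_prime_and_dvd hd1
      set z : G := s ^ (orderOf s / q) with hz
      have hzord : orderOf z = q := orderOf_pow_orderOf_div (orderOf_pos s).ne' hqd
      have hzfix : z • ω = ω := by
        have : ∀ k : ℕ, s ^ k • ω = ω := by
          intro k
          induction k with
          | zero => simp
          | succ k ihk => rw [pow_succ, mul_smul, hsfix, ihk]
        exact this _
      have hzmem : z ∈ Subgroup.zpowers g := Subgroup.pow_mem _ hs _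
      obtain ⟨a, ha⟩ := (mem_powers_iff_mem_zpowers.mpr hzmem)
      have ha' : g ^ a = z := ha
      have hzq : z ^ q = 1 := by rw [← hzord]; exact pow_orderOf_eq_one z
      have hdiv : orderOf g ∣ a * q := by
        rw [orderOf_dvd_iff_pow_eq_one, pow_mul, ha', hzq]
      have hppaq : p * p ∣ a * q := dvd_trans hpp hdiv
      have hpa : p ∣ a := by
        rcases (Nat.Prime.dvd_mul hp).mp (dvd_trans (dvd_mul_right p p) hppaq) with h1 | h1
        · exact h1
        · have hpq : p = q := (Nat.prime_dvd_prime_iff_eq hp hq).mp h1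
          rw [← hpq] at hppaq
          exact Nat.dvd_of_mul_dvd_mul_right hp.pos hppaq
      obtain ⟨b, hb⟩ := hpa
      have hzmem' : z ∈ Subgroup.zpowers (g ^ p) := by
        rw [← ha', hb, pow_mul]
        exact Subgroup.pow_mem _ (Subgroup.mem_zpowers _) _
      have hstab : (⟨z, hzmem'⟩ : Subgroup.zpowers (g ^ p)) ∈
          MulAction.stabilizer (Subgroup.zpowers (g ^ p)) ω := by
        rw [MulAction.mem_stabilizer_iff]
        exact hzfix
      rw [hω, Subgroup.mem_bot] at hstab
      have hz1 : z = 1 := congrArg Subtype.val hstab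
      rw [hz1, orderOf_one] at hzord
      exact hq.one_lt.ne hzord

/-- Let a finite group G act faithfully on a set Ω. If every element of G of square-free order has a regular cycle (an orbit of the cyclic group it generates with trivial stabilizer), then every element of G has a regular cycle. -/
theorem result {G : Type*} [Group G] [Finite G] {Ω : Type*} [MulAction G Ω] [FaithfulSMul G Ω]
    (h : ∀ g : G, Squarefree (orderOf g) → ∃ ω : Ω, MulAction.stabilizer (Subgroup.zpowers g) ω = ⊥) (g : G) :
    ∃ ω : Ω, MulAction.stabilizer (Subgroup.zpowers g) ω = ⊥ := by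
  exact aux h (orderOf g) g rfl

end Cfsg.Agent.S3511
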