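import Mathlib
import Cfsg.Statements.S3514

set_option autoImplicit false
open Cfsg

namespace Cfsg.Agent.S3514

/-- orbit of a subgroup as relative index of the stabilizer -/
theorem card_orbit_eq_relIndex {G X : Type*} [Group G] [MulAction G X] (K : Subgroup G) (x : X) :
    Nat.card {u : X | ∃ k ∈ K, k • x = u} = (MulAction.stabilizer G x).relIndex K := by
  have h1 : {u : X | ∃ k ∈ K, k • x = u} = MulAction.orbit K x := by
    ext u
    simp only [Set.mem_ofPred_eq, MulAction.mem_orbit_iff]
    constructor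
    · rintro ⟨k, hk, rfl⟩; exact ⟨⟨k, hk⟩, rfl⟩
    · rintro ⟨⟨k, hk⟩, rfl⟩; exact ⟨k, hk, rfl⟩
  rw [h1]
  have h2 : MulAction.stabilizer K x = (MulAction.stabilizer G x).subgroupOf K := by
    ext k
    simp only [MulAction.mem_stabilizer_iff, Subgroup.mem_subgroupOf]
    exact Iff.rfl
  rw [Subgroup.relIndex, ← h2, MulAction.index_stabilizer]
  rfl

theorem relIndex_dvd_index_of_normal_right {G : Type*} [Group G] [Finite G] (C N : Subgroup G) [N.Normal] :
    C.relIndex N ∣ C.index := by
  have h1 : (C ⊓ N).relIndex N * N.index = (C ⊓ N).index := Subgroup.relIndex_mul_index inf_le_right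
  have h2 : (C ⊓ N).relIndex C * C.index = (C ⊓ N).index := Subgroup.relIndex_mul_index inf_le_left
  rw [Subgroup.inf_relIndex_right] at h1
  rw [Subgroup.inf_relIndex_left] at h2
  obtain ⟨t, ht⟩ := Subgroup.relIndex_dvd_index_of_normal N C
  have h3 : N.relIndex C ≠ 0 := by
    intro h0
    have := Subgroup.relIndex_dvd_card N C
    rw [h0] at this
    have hpos : 0 < Nat.card C := Nat.card_pos
    omega
  refine ⟨t, ?_⟩
  have h4 : N.relIndex C * C.index = N.relIndex C * (C.relIndex N * t) := by
    rw [h2, ← h1, ht]; ring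
  exact Nat.eq_of_mul_eq_mul_left (Nat.pos_of_ne_zero h3) h4

theorem relIndex_dvd_of_normal {G : Type*} [Group G] [Finite G] (S K H : Subgroup G) (hKH : K ≤ H)
    (hN : H ≤ Subgroup.normalizer (K : Set G)) : S.relIndex K ∣ S.relIndex H := by
  have hnorm : (K.subgroupOf H).Normal := (Subgroup.normal_subgroupOf_iff_le_normalizer hKH).mpr hN
  have h1 : (S.subgroupOf H).relIndex (K.subgroupOf H) = S.relIndex K := Subgroup.relIndex_subgroupOf hKH
  rw [← h1]
  exact relIndex_dvd_index_of_normal_right (S.subgroupOf H) (K.subgroupOf H)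

theorem relIndex_sup_dvd_card {G : Type*} [Group G] [Finite G] (N H : Subgroup G)
    (hN : H ≤ Subgroup.normalizer (N : Set G)) : H.relIndex (N ⊔ H) ∣ Nat.card N := by
  set L := N ⊔ H with hL
  have hNL : N ≤ L := le_sup_left
  have hHL : H ≤ L := le_sup_right
  have hnorm : (N.subgroupOf L).Normal :=
    (Subgroup.normal_subgroupOf_iff_le_normalizer hNL).mpr (sup_le Subgroup.le_normalizer hN)
  have h0 := Subgroup.relIndex_sup_right (H.subgroupOf L) (N.subgroupOf L)
  have htop : H.subgroupOf L ⊔ N.subgroupOf L = ⊤ := by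
    rw [← Subgroup.subgroupOf_sup hHL hNL, sup_comm, ← hL, Subgroup.subgroupOf_self]
  rw [htop, Subgroup.relIndex_top_right, Subgroup.relIndex_subgroupOf hHL] at h0
  -- h0 : (N.subgroupOf L).index = N.relIndex H
  have h0' : N.relIndex L = N.relIndex H := h0
  have e1 := Subgroup.relIndex_mul_relIndex (⊥ : Subgroup G) N L bot_le hNL
  have e2 := Subgroup.relIndex_mul_relIndex (⊥ : Subgroup G) H L bot_le hHL
  have e3 := Subgroup.relIndex_mul_relIndex (⊥ : Subgroup G) (N ⊓ H) H bot_le inf_le_right
  rw [Subgroup.inf_relIndex_right] at e3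
  simp only [Subgroup.relIndex_bot_left] at e1 e2 e3
  have hr : N.relIndex H ≠ 0 := by
    intro h
    have := Subgroup.relIndex_dvd_card N H
    rw [h] at this
    have hpos : 0 < Nat.card H := Nat.card_pos
    omega
  refine ⟨Nat.card (N ⊓ H : Subgroup G), ?_⟩
  have : N.relIndex H * Nat.card N = N.relIndex H * (H.relIndex L * Nat.card (N ⊓ H : Subgroup G)) := by
    rw [h0'] at e1
    calc N.relIndex H * Nat.card N = Nat.card L := by rw [← e1]; ring
      _ = Nat.card H * H.relIndex L := e2.symm
      _ = Nat.card (N ⊓ H : Subgroup G) * N.relIndex H * H.relIndex L := by rw [e3]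
      _ = _ := by ring
  exact Nat.eq_of_mul_eq_mul_left (Nat.pos_of_ne_zero hr) this

/-- Let p be a prime, V a finite vector space over the field with p elements, and H a group of linear transformations of V all of whose orbits on V have size coprime to p. (i) Every normal subgroup K of H has all its orbits on V of size coprime to p. (ii) If N is a group of linear transformations of V of order coprime to p that is normalized by H, then the group generated by N and H has all its orbits on V of size coprime to p. -/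
theorem result (p : ℕ) [Fact p.Prime] {V : Type*} [AddCommGroup V] [Module (ZMod p) V] [Finite V]
    (H : Subgroup (V ≃ₗ[ZMod p] V)) (hH : ∀ v : V, ¬ p ∣ Nat.card {u : V | ∃ h ∈ H, h v = u}) :
    (∀ K : Subgroup (V ≃ₗ[ZMod p] V), K ≤ H → H ≤ Subgroup.normalizer (K : Set (V ≃ₗ[ZMod p] V)) →
        ∀ v : V, ¬ p ∣ Nat.card {u : V | ∃ k ∈ K, k v = u}) ∧
    (∀ N : Subgroup (V ≃ₗ[ZMod p] V), ¬ p ∣ Nat.card N → H ≤ Subgroup.normalizer (N : Set (V ≃ₗ[ZMod p] V)) →
        ∀ v : V, ¬ p ∣ Nat.card {u : V | ∃ x ∈ N ⊔ H, x v = u}) := by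
  classical
  have hfin : Finite (V ≃ₗ[ZMod p] V) :=
    Finite.of_injective (fun e : V ≃ₗ[ZMod p] V => (e : V → V)) DFunLike.coe_injective
  have hp : p.Prime := Fact.out
  have key : ∀ (K : Subgroup (V ≃ₗ[ZMod p] V)) (v : V),
      Nat.card {u : V | ∃ k ∈ K, k v = u} = (MulAction.stabilizer (V ≃ₗ[ZMod p] V) v).relIndex K :=
    fun K v => card_orbit_eq_relIndex K v
  simp only [key] at hH ⊢
  refine ⟨fun K hKH hN v hdvd => hH v (hdvd.trans (relIndex_dvd_of_normal _ K H hKH hN)), ?_⟩
  intro N hpN hN v hdvd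
  set S := MulAction.stabilizer (V ≃ₗ[ZMod p] V) v
  have h1 : S.relIndex (N ⊔ H) ∣ (S ⊓ H).relIndex (N ⊔ H) := Subgroup.relIndex_dvd_of_le_left _ inf_le_left
  have h2 := Subgroup.relIndex_mul_relIndex (S ⊓ H) H (N ⊔ H) inf_le_right le_sup_right
  rw [Subgroup.inf_relIndex_right] at h2
  rw [← h2] at h1
  rcases (hp.dvd_mul).mp (hdvd.trans h1) with h | h
  · exact hH v h
  · exact hpN (h.trans (relIndex_sup_dvd_card N H hN))

end Cfsg.Agent.S3514
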