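import Mathlib
import Cfsg.Statements.S3515

set_option autoImplicit false
open Cfsg

namespace Cfsg.Agent.S3515

theorem four_points : ∀ v : Fin 2 → ZMod 2, v = 0 ∨ v = ![1, 0] ∨ v = ![0, 1] ∨ v = ![1, 1] := by
  decide

theorem fix_two (τ : Equiv.Perm (Fin 2 → ZMod 2)) (h0 : τ 0 = 0) (h1 : τ ![1, 0] = ![1, 0])
    (h2 : τ ![0, 1] = ![0, 1]) (v : Fin 2 → ZMod 2) : τ v = v := by
  rcases four_points v with rfl | rfl | rfl | rfl
  · exact h0
  · exact h1
  · exact h2
  · rcases four_points (τ ![1, 1]) with h | h | h | h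
    · rw [← h0] at h
      exact absurd (τ.injective h) (by decide)
    · rw [← h1] at h
      exact absurd (τ.injective h) (by decide)
    · rw [← h2] at h
      exact absurd (τ.injective h) (by decide)
    · exact h

theorem fix_odd (p : ℕ) [Fact p.Prime] (hp : p ≠ 2) (τ : Equiv.Perm (Fin 2 → ZMod p))
    (haff : ∀ x y : Fin 2 → ZMod p, ∀ c : ZMod p, τ (x + c • (y - x)) = τ x + c • (τ y - τ x))
    (h0 : τ 0 = 0) (h1 : τ ![1, 0] = ![1, 0])
    (h2 : τ ![0, 1] = ![0, 1]) (v : Fin 2 → ZMod p) : τ v = v := by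
  have h2ne : (2 : ZMod p) ≠ 0 := by
    intro h
    have h' : ((2 : ℕ) : ZMod p) = 0 := by exact_mod_cast h
    rw [ZMod.natCast_eq_zero_iff] at h'
    have := (Nat.prime_dvd_prime_iff_eq (Fact.out : p.Prime) Nat.prime_two).mp h'
    exact hp this
  have hs1 : ∀ c : ZMod p, τ (c • ![1, 0]) = c • ![1, 0] := by
    intro c
    have := haff 0 ![1, 0] c
    simpa [h0, h1] using this
  have hs2 : ∀ c : ZMod p, τ (c • ![0, 1]) = c • ![0, 1] := by
    intro c
    have := haff 0 ![0, 1] c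
    simpa [h0, h2] using this
  have key := haff ((2 * v 0) • ![1, 0]) ((2 * v 1) • ![0, 1]) (2⁻¹ : ZMod p)
  rw [hs1, hs2] at key
  have e1 : (2 * v 0) • ![(1 : ZMod p), 0] + (2⁻¹ : ZMod p) • ((2 * v 1) • ![(0 : ZMod p), 1] - (2 * v 0) • ![(1 : ZMod p), 0]) = v := by
    ext i
    fin_cases i
    · simp; field_simp; ring
    · simp; field_simp
  rw [e1] at key
  exact key

/-- Every primitive affine permutation group of degree p² is 3-closed. Let p be a prime and G a group of permutations of the plane V = F_p² consisting of affine maps x ↦ Ax + b, containing all translations, and acting primitively on V. Then any permutation σ of V that agrees on every triple of points with some element of G (σ preserves every G-orbit on ordered triples) already lies in G. -/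
theorem result (p : ℕ) [Fact p.Prime] (G : Subgroup (Equiv.Perm (Fin 2 → ZMod p)))
    (haff : (G : Set (Equiv.Perm (Fin 2 → ZMod p))) ⊆ {τ : Equiv.Perm (Fin 2 → ZMod p) | ∃ (A : (Fin 2 → ZMod p) ≃ₗ[ZMod p] (Fin 2 → ZMod p)) (b : Fin 2 → ZMod p), ∀ x, τ x = A x + b})
    (htrans : ∀ b : Fin 2 → ZMod p, ∃ g ∈ G, ∀ x, g x = x + b) (hprim : MulAction.IsPreprimitive G (Fin 2 → ZMod p))
    (σ : Equiv.Perm (Fin 2 → ZMod p)) (hσ : (∀ t : Fin 3 → (Fin 2 → ZMod p), ∃ g ∈ G, ∀ i, σ (t i) = g (t i))) : σ ∈ G := by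
  obtain ⟨g, hg, hgt⟩ := hσ ![0, ![1, 0], ![0, 1]]
  have hg0 : σ 0 = g 0 := hgt 0
  have hg1 : σ ![1, 0] = g ![1, 0] := hgt 1
  have hg2 : σ ![0, 1] = g ![0, 1] := hgt 2
  set τ : Equiv.Perm (Fin 2 → ZMod p) := g⁻¹ * σ with hτ
  have h0 : τ 0 = 0 := by rw [hτ, Equiv.Perm.mul_apply, hg0]; simp
  have h1 : τ ![1, 0] = ![1, 0] := by rw [hτ, Equiv.Perm.mul_apply, hg1]; simp
  have h2 : τ ![0, 1] = ![0, 1] := by rw [hτ, Equiv.Perm.mul_apply, hg2]; simp
  have hτaff : ∀ t : Fin 3 → (Fin 2 → ZMod p),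
      ∃ (A : (Fin 2 → ZMod p) ≃ₗ[ZMod p] (Fin 2 → ZMod p)) (b : Fin 2 → ZMod p),
        ∀ i, τ (t i) = A (t i) + b := by
    intro t
    obtain ⟨g', hg', hgt'⟩ := hσ t
    obtain ⟨A, b, hA⟩ := haff (G.mul_mem (G.inv_mem hg) hg')
    refine ⟨A, b, fun i => ?_⟩
    rw [← hA, hτ, Equiv.Perm.mul_apply, Equiv.Perm.mul_apply, hgt' i]
  have hτ1 : ∀ v, τ v = v := by
    by_cases hp : p = 2
    · subst hp
      exact fix_two τ h0 h1 h2
    · refine fix_odd p hp τ ?_ h0 h1 h2
      intro x y c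
      obtain ⟨A, b, hA⟩ := hτaff ![x, y, x + c • (y - x)]
      have e0 : τ x = A x + b := hA 0
      have e1 : τ y = A y + b := hA 1
      have e2 : τ (x + c • (y - x)) = A (x + c • (y - x)) + b := hA 2
      rw [e2, e0, e1, map_add, map_smul, map_sub]
      module
  have : τ = 1 := Equiv.ext hτ1
  have hσg : σ = g := by
    rw [hτ] at this
    exact (inv_mul_eq_one.mp this).symm
  rw [hσg]; exact hg

end Cfsg.Agent.S3515
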