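import Mathlib
import Cfsg.Statements.S3516

set_option autoImplicit false
open Cfsg

namespace Cfsg.Agent.S3516

/-- Let p be an odd prime, d ≥ 3, and G a group of affine permutations x ↦ Ax + b of V = F_p^d containing all translations and all maps x ↦ Ax with A of determinant 1. Then the 3-closure of G is the full affine group: a permutation σ of V agrees on every triple of points with some element of G if and only if σ is an affine map. -/
theorem result (p : ℕ) [Fact p.Prime] (hp : p ≠ 2) (d : ℕ) (hd : 3 ≤ d) (G : Subgroup (Equiv.Perm (Fin d → ZMod p)))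
    (haff : (G : Set (Equiv.Perm (Fin d → ZMod p))) ⊆ {τ : Equiv.Perm (Fin d → ZMod p) | ∃ (A : (Fin d → ZMod p) ≃ₗ[ZMod p] (Fin d → ZMod p)) (b : Fin d → ZMod p), ∀ x, τ x = A x + b})
    (htrans : ∀ b : Fin d → ZMod p, ∃ g ∈ G, ∀ x, g x = x + b)
    (hsl : ∀ A : (Fin d → ZMod p) ≃ₗ[ZMod p] (Fin d → ZMod p), LinearMap.det (A : (Fin d → ZMod p) →ₗ[ZMod p] (Fin d → ZMod p)) = 1 → ∃ g ∈ G, ∀ x, g x = A x)
    (σ : Equiv.Perm (Fin d → ZMod p)) :
    (∀ t : Fin 3 → (Fin d → ZMod p), ∃ g ∈ G, ∀ i, σ (t i) = g (t i)) ↔ σ ∈ {τ : Equiv.Perm (Fin d → ZMod p) | ∃ (A : (Fin d → ZMod p) ≃ₗ[ZMod p] (Fin d → ZMod p)) (b : Fin d → ZMod p), ∀ x, τ x = A x + b} := by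
  classical
  have hpp : p.Prime := Fact.out
  have h2 : (2 : ZMod p) ≠ 0 := by
    intro h
    have : ((2 : ℕ) : ZMod p) = 0 := by exact_mod_cast h
    rw [ZMod.natCast_eq_zero_iff] at this
    exact hp ((Nat.prime_dvd_prime_iff_eq hpp Nat.prime_two).mp this)
  constructor
  · intro H
    -- key: for any three points, an affine map agrees
    have key : ∀ x y z : Fin d → ZMod p, ∃ (A : (Fin d → ZMod p) ≃ₗ[ZMod p] (Fin d → ZMod p)) (b : Fin d → ZMod p),
        σ x = A x + b ∧ σ y = A y + b ∧ σ z = A z + b := by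
      intro x y z
      obtain ⟨g, hg, hgt⟩ := H ![x, y, z]
      obtain ⟨A, b, hA⟩ := haff hg
      refine ⟨A, b, ?_, ?_, ?_⟩
      · have := hgt 0; simpa [hA] using this
      · have := hgt 1; simpa [hA] using this
      · have := hgt 2; simpa [hA] using this
    have hsmul : ∀ (c : ZMod p) (x : Fin d → ZMod p), σ (c • x) - σ 0 = c • (σ x - σ 0) := by
      intro c x
      obtain ⟨A, b, h0, h1, h2'⟩ := key 0 x (c • x)
      rw [h0, h1, h2']
      simp [smul_sub]
    have hmid : ∀ (x y : Fin d → ZMod p), (2 : ZMod p) • (σ ((2 : ZMod p)⁻¹ • (x + y))) = σ x + σ y := by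
      intro x y
      obtain ⟨A, b, h0, h1, h2'⟩ := key x y ((2 : ZMod p)⁻¹ • (x + y))
      rw [h0, h1, h2']
      simp only [map_smul, map_add, smul_add, smul_smul, mul_inv_cancel₀ h2, one_smul, two_smul]
      abel
    have hadd : ∀ (x y : Fin d → ZMod p), σ (x + y) - σ 0 = (σ x - σ 0) + (σ y - σ 0) := by
      intro x y
      have e1 := hmid x y
      have e2 := hsmul ((2 : ZMod p)⁻¹) (x + y)
      have e3 : σ ((2 : ZMod p)⁻¹ • (x + y)) = (2 : ZMod p)⁻¹ • (σ (x + y) - σ 0) + σ 0 := by
        rw [← e2]; abel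
      rw [e3] at e1
      simp only [smul_add, smul_smul, mul_inv_cancel₀ h2, one_smul, two_smul] at e1
      have : σ (x + y) - σ 0 + (σ 0 + σ 0) = σ x + σ y := e1
      calc σ (x + y) - σ 0 = (σ (x + y) - σ 0 + (σ 0 + σ 0)) - (σ 0 + σ 0) := by abel
        _ = σ x + σ y - (σ 0 + σ 0) := by rw [this]
        _ = _ := by abel
    let L : (Fin d → ZMod p) →ₗ[ZMod p] (Fin d → ZMod p) :=
      { toFun := fun x => σ x - σ 0
        map_add' := hadd
        map_smul' := fun c x => by simpa using hsmul c x }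
    have hL : Function.Bijective L := by
      constructor
      · intro x y hxy
        have : σ x - σ 0 = σ y - σ 0 := hxy
        exact σ.injective (sub_left_injective this)
      · intro y
        obtain ⟨x, hx⟩ := σ.surjective (y + σ 0)
        exact ⟨x, by show σ x - σ 0 = y; rw [hx]; abel⟩
    refine ⟨LinearEquiv.ofBijective L hL, σ 0, fun x => ?_⟩
    show σ x = (σ x - σ 0) + σ 0
    abel
  · rintro ⟨A, b, hA⟩ t
    -- subspace spanned by differences
    set W : Submodule (ZMod p) (Fin d → ZMod p) := Submodule.span (ZMod p) {t 1 - t 0, t 2 - t 0} with hW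
    have hWlt : W < ⊤ := by
      rw [lt_top_iff_ne_top]
      intro htop
      have h1 : Module.finrank (ZMod p) W ≤ 2 := by
        have := finrank_span_le_card (R := ZMod p) ({t 1 - t 0, t 2 - t 0} : Set (Fin d → ZMod p))
        refine le_trans (by simpa [hW] using this) ?_
        exact Finset.card_le_two
      rw [htop] at h1
      simp at h1
      omega
    obtain ⟨f, hf0, hfW⟩ := Submodule.exists_le_ker_of_lt_top W hWlt
    obtain ⟨v0, hv0⟩ : ∃ v0, f v0 ≠ 0 := by
      by_contra hcon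
      push Not at hcon
      exact hf0 (LinearMap.ext hcon)
    have hdetA : LinearMap.det (A : (Fin d → ZMod p) →ₗ[ZMod p] (Fin d → ZMod p)) ≠ 0 :=
      (LinearEquiv.isUnit_det' A).ne_zero
    set lam : ZMod p := (LinearMap.det (A : (Fin d → ZMod p) →ₗ[ZMod p] (Fin d → ZMod p)))⁻¹ with hlam
    set v : Fin d → ZMod p := ((lam - 1) * (f v0)⁻¹) • v0 with hv
    have hfv : f v = lam - 1 := by
      rw [hv, map_smul, smul_eq_mul, mul_assoc, inv_mul_cancel₀ hv0, mul_one]
    set D : (Fin d → ZMod p) →ₗ[ZMod p] (Fin d → ZMod p) := LinearMap.transvection f v with hD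
    have hdetD : LinearMap.det D = lam := by
      rw [hD, LinearMap.transvection.det, hfv]; ring
    set B : (Fin d → ZMod p) →ₗ[ZMod p] (Fin d → ZMod p) := (A : (Fin d → ZMod p) →ₗ[ZMod p] (Fin d → ZMod p)) ∘ₗ D with hB
    have hdetB : LinearMap.det B = 1 := by
      rw [hB, LinearMap.det_comp, hdetD, hlam, mul_inv_cancel₀ hdetA]
    have hBu : IsUnit (LinearMap.det B) := by rw [hdetB]; exact isUnit_one
    obtain ⟨g1, hg1, hg1x⟩ := hsl (LinearMap.equivOfIsUnitDet hBu) (by
      rw [LinearMap.coe_equivOfIsUnitDet]; exact hdetB)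
    obtain ⟨g2, hg2, hg2x⟩ := htrans (σ (t 0) - B (t 0))
    refine ⟨g2 * g1, G.mul_mem hg2 hg1, fun i => ?_⟩
    have hgi : (g2 * g1) (t i) = B (t i) + (σ (t 0) - B (t 0)) := by
      rw [Equiv.Perm.mul_apply, hg2x, hg1x, LinearMap.equivOfIsUnitDet_apply]
    have hDfix : ∀ w ∈ W, D w = w := by
      intro w hw
      have : f w = 0 := hfW hw
      rw [hD, LinearMap.transvection.apply, this, zero_smul, add_zero]
    have hBi : B (t i - t 0) = A (t i - t 0) := by
      have hmem : t i - t 0 ∈ W := by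
        fin_cases i
        · simp
        · exact Submodule.subset_span (by simp)
        · exact Submodule.subset_span (by simp)
      rw [hB, LinearMap.comp_apply, hDfix _ hmem]; rfl
    rw [hgi, hA, hA]
    have : B (t i) = B (t i - t 0) + B (t 0) := by rw [← map_add]; congr 1; abel
    rw [this, hBi, map_sub]
    abel
end Cfsg.Agent.S3516
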