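import Mathlib
import Cfsg.Statements.S3517

set_option autoImplicit false
open Cfsg

namespace Cfsg.Agent.S3517

theorem exists_equiv_of_ker_eq {K M V : Type*} [Field K] [AddCommGroup M] [Module K M]
    [AddCommGroup V] [Module K V] [FiniteDimensional K V] (φ φ' : M →ₗ[K] V)
    (h : LinearMap.ker φ = LinearMap.ker φ') : ∃ g : V ≃ₗ[K] V, ∀ m, g (φ m) = φ' m := by
  let f : LinearMap.range φ ≃ₗ[K] LinearMap.range φ' :=
    (φ.quotKerEquivRange).symm ≪≫ₗ (Submodule.quotEquivOfEq _ _ h) ≪≫ₗ φ'.quotKerEquivRange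
  obtain ⟨g, hg⟩ := Submodule.exists_linearEquiv_restrict_eq f
  refine ⟨g, fun m => ?_⟩
  have := hg ⟨φ m, LinearMap.mem_range_self φ m⟩
  rw [← this]
  simp only [f, LinearEquiv.trans_apply]
  rw [LinearMap.quotKerEquivRange_symm_apply_image]
  simp

theorem zmod2_cases : ∀ x : ZMod 2, x = 0 ∨ x = 1 := by decide

theorem zmod2_sub : ∀ x y z : ZMod 2, (x - z) + (y - z) = x - y := by decide

/-- For d ≥ 3, the 3-closure of the affine group AGL_d(2) acting on F_2^d is the full symmetric group: every permutation of F_2^d agrees on every ordered triple of points with some affine map (AGL_d(2) is 3-transitive). -/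
theorem result (d : ℕ) (hd : 3 ≤ d) (σ : Equiv.Perm (Fin d → ZMod 2)) (t : Fin 3 → (Fin d → ZMod 2)) :
    ∃ (A : (Fin d → ZMod 2) ≃ₗ[ZMod 2] (Fin d → ZMod 2)) (b : Fin d → ZMod 2), ∀ i, σ (t i) = A (t i) + b := by
  have hsub : ∀ x y z : Fin d → ZMod 2, (x - z) + (y - z) = x - y := by
    intro x y z
    ext i
    exact zmod2_sub (x i) (y i) (z i)
  let φ : (Fin 2 → ZMod 2) →ₗ[ZMod 2] (Fin d → ZMod 2) :=
    { toFun := fun α => α 0 • (t 1 - t 0) + α 1 • (t 2 - t 0)
      map_add' := by intro α β; simp only [Pi.add_apply]; module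
      map_smul' := by intro c α; simp only [Pi.smul_apply, smul_eq_mul, RingHom.id_apply]; module }
  let φ' : (Fin 2 → ZMod 2) →ₗ[ZMod 2] (Fin d → ZMod 2) :=
    { toFun := fun α => α 0 • (σ (t 1) - σ (t 0)) + α 1 • (σ (t 2) - σ (t 0))
      map_add' := by intro α β; simp only [Pi.add_apply]; module
      map_smul' := by intro c α; simp only [Pi.smul_apply, smul_eq_mul, RingHom.id_apply]; module }
  have hker : LinearMap.ker φ = LinearMap.ker φ' := by
    ext α
    simp only [LinearMap.mem_ker]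
    show α 0 • (t 1 - t 0) + α 1 • (t 2 - t 0) = 0 ↔
      α 0 • (σ (t 1) - σ (t 0)) + α 1 • (σ (t 2) - σ (t 0)) = 0
    rcases zmod2_cases (α 0) with h0 | h0 <;> rcases zmod2_cases (α 1) with h1 | h1 <;>
      simp only [h0, h1, zero_smul, one_smul, add_zero, zero_add, sub_eq_zero, hsub,
        σ.injective.eq_iff]
  obtain ⟨A, hA⟩ := exists_equiv_of_ker_eq φ φ' hker
  have hA1 : A (t 1 - t 0) = σ (t 1) - σ (t 0) := by
    have := hA ![1, 0]
    simpa [φ, φ'] using this
  have hA2 : A (t 2 - t 0) = σ (t 2) - σ (t 0) := by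
    have := hA ![0, 1]
    simpa [φ, φ'] using this
  refine ⟨A, σ (t 0) - A (t 0), fun i => ?_⟩
  fin_cases i
  · simp
  · have : A (t 1) = A (t 1 - t 0) + A (t 0) := by rw [← map_add, sub_add_cancel]
    simp only [Fin.mk_one, Fin.isValue]
    rw [this, hA1]; abel
  · have : A (t 2) = A (t 2 - t 0) + A (t 0) := by rw [← map_add, sub_add_cancel]
    show σ (t 2) = A (t 2) + (σ (t 0) - A (t 0))
    rw [this, hA2]; abel

end Cfsg.Agent.S3517
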