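import Mathlib
import Cfsg.Statements.S3518
import Cfsg.Agent.Lib.helper29.PrimeDeg

set_option autoImplicit false
open Cfsg

namespace Cfsg.Agent.S3518

/-- the 2-closure of a group of permutations -/
def closure2 {p : ℕ} (G : Subgroup (Equiv.Perm (ZMod p))) : Subgroup (Equiv.Perm (ZMod p)) where
  carrier := {σ | ∀ t : Fin 2 → ZMod p, ∃ g ∈ G, ∀ i, σ (t i) = g (t i)}
  mul_mem' := by
    intro σ τ hσ hτ t
    obtain ⟨g, hg, h1⟩ := hτ t
    obtain ⟨g', hg', h2⟩ := hσ (fun i => τ (t i))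
    refine ⟨g' * g, G.mul_mem hg' hg, fun i => ?_⟩
    rw [Equiv.Perm.mul_apply, Equiv.Perm.mul_apply, ← h1 i]
    exact h2 i
  one_mem' := fun t => ⟨1, G.one_mem, fun i => rfl⟩
  inv_mem' := by
    intro σ hσ t
    obtain ⟨g, hg, h1⟩ := hσ (fun i => σ⁻¹ (t i))
    refine ⟨g⁻¹, G.inv_mem hg, fun i => ?_⟩
    have h2 : t i = g (σ⁻¹ (t i)) := by
      have h3 := h1 i
      simpa using h3
    rw [Equiv.Perm.eq_inv_iff_eq]
    exact h2.symm

theorem mem_closure2 {p : ℕ} (G : Subgroup (Equiv.Perm (ZMod p))) (σ : Equiv.Perm (ZMod p)) :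
    σ ∈ closure2 G ↔ ∀ t : Fin 2 → ZMod p, ∃ g ∈ G, ∀ i, σ (t i) = g (t i) := Iff.rfl

theorem zmod2 : ∀ c : ZMod 2, c ≠ 0 → c = 1 := by decide

theorem part1 (p : ℕ) [Fact p.Prime] (G : Subgroup (Equiv.Perm (ZMod p)))
    (hG : G ≤ Cfsg.affineGroup (ZMod p))
    (htrans : ∀ b : ZMod p, ∃ g ∈ G, ∀ x, g x = x + b) (hne : G ≠ Cfsg.affineGroup (ZMod p))
    (σ : Equiv.Perm (ZMod p)) (hσ : ∀ t : Fin 2 → ZMod p, ∃ g ∈ G, ∀ i, σ (t i) = g (t i)) :
    σ ∈ G := by
  classical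
  have hp : p.Prime := Fact.out
  have hmulG : (∀ c : ZMod p, c ≠ 0 → ∃ g ∈ G, ∀ x, g x = c * x) → G = Cfsg.affineGroup (ZMod p) := by
    intro h
    apply le_antisymm hG
    rintro τ ⟨a, b, hτ⟩
    obtain ⟨g₁, hg₁, h1⟩ := h (a : ZMod p) a.ne_zero
    obtain ⟨g₂, hg₂, h2⟩ := htrans b
    have : τ = g₂ * g₁ := by
      ext x
      rw [Equiv.Perm.mul_apply, h1, h2, hτ]
    rw [this]
    exact G.mul_mem hg₂ hg₁
  by_cases hp2 : p = 2
  · exfalso
    apply hne
    apply hmulG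
    subst hp2
    intro c hc
    refine ⟨1, G.one_mem, fun x => ?_⟩
    have hc1 : c = 1 := zmod2 c hc
    rw [hc1, one_mul]
    rfl
  · have hGK : G ≤ closure2 G := by
      intro g hg t
      exact ⟨g, hg, fun i => rfl⟩
    have htrK : MulAction.IsPretransitive (closure2 G) (ZMod p) := by
      refine ⟨fun x y => ?_⟩
      obtain ⟨g, hg, h1⟩ := htrans (y - x)
      refine ⟨⟨g, hGK hg⟩, ?_⟩
      show g x = y
      rw [h1]
      ring
    obtain ⟨g₁, hg₁, h1⟩ := htrans 1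
    have h01 : (0 : ZMod p) ≠ 1 := zero_ne_one
    have hσK : σ ∈ closure2 G := hσ
    obtain ⟨g0, hg0, hg0σ⟩ := hσ ![0, 1]
    have hσ0 : σ 0 = g0 0 := hg0σ 0
    have hσ1 : σ 1 = g0 1 := hg0σ 1
    obtain ⟨a, b, hab⟩ := hG hg0
    rcases Cfsg.Agent.Lib.helper29.affine_or_two_trans (K := ZMod p) hp2 (ZMod.card p) (closure2 G)
      g₁ (hGK hg₁) (Equiv.refl _) (by intro j; simp [h1]) with haff | ⟨h2t, -⟩
    · obtain ⟨A, B, hAB⟩ := haff ⟨σ, hσK⟩
      simp only [Equiv.refl_symm, Equiv.refl_apply, ZMod.cast_id', id_eq] at hAB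
      have hB : B = b := by
        have := hAB 0
        rw [hσ0, hab] at this
        simpa using this.symm
      have hA : A = a := by
        have := hAB 1
        rw [hσ1, hab, hB] at this
        simpa using this.symm
      have : σ = g0 := by
        ext x
        rw [hAB x, hab x, hA, hB]
      rw [this]
      exact hg0
    · exfalso
      apply hne
      apply hmulG
      intro c hc
      rw [MulAction.is_two_pretransitive_iff] at h2t
      obtain ⟨k, hk0, hk1⟩ := h2t h01 (Ne.symm hc)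
      obtain ⟨g, hg, hgk⟩ := k.2 ![0, 1]
      have hg0' : (k : Equiv.Perm (ZMod p)) 0 = g 0 := hgk 0
      have hg1' : (k : Equiv.Perm (ZMod p)) 1 = g 1 := hgk 1
      have hk0' : (k : Equiv.Perm (ZMod p)) 0 = 0 := hk0
      have hk1' : (k : Equiv.Perm (ZMod p)) 1 = c := hk1
      obtain ⟨a', b', hab'⟩ := hG hg
      have hb' : b' = 0 := by
        have := hab' 0
        rw [← hg0', hk0'] at this
        simpa using this.symm
      have ha' : (a' : ZMod p) = c := by
        have := hab' 1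
        rw [← hg1', hk1', hb'] at this
        simpa using this.symm
      refine ⟨g, hg, fun x => ?_⟩
      rw [hab' x, hb', ha', add_zero]

theorem part2 (p : ℕ) [Fact p.Prime] (σ : Equiv.Perm (ZMod p)) (t : Fin 2 → ZMod p) :
    ∃ g ∈ Cfsg.affineGroup (ZMod p), ∀ i, σ (t i) = g (t i) := by
  by_cases h : t 0 = t 1
  · refine ⟨Equiv.addRight (σ (t 0) - t 0), ⟨1, σ (t 0) - t 0, fun x => by simp⟩, ?_⟩
    rw [Fin.forall_fin_two]
    constructor
    · simp
    · rw [← h]; simp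
  · have hσ : σ (t 1) - σ (t 0) ≠ 0 := by
      intro h0
      apply h
      exact (σ.injective (sub_eq_zero.mp h0)).symm
    have hd : t 1 - t 0 ≠ 0 := fun h0 => h (sub_eq_zero.mp h0).symm
    obtain ⟨a, ha⟩ : ∃ a : ZMod p, a = (σ (t 1) - σ (t 0)) / (t 1 - t 0) := ⟨_, rfl⟩
    have ha0 : a ≠ 0 := by
      rw [ha]
      exact div_ne_zero hσ hd
    obtain ⟨b, hb⟩ : ∃ b : ZMod p, b = σ (t 0) - a * t 0 := ⟨_, rfl⟩
    refine ⟨(Equiv.mulLeft₀ a ha0).trans (Equiv.addRight b),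
      ⟨Units.mk0 a ha0, b, fun x => rfl⟩, ?_⟩
    rw [Fin.forall_fin_two]
    constructor
    · show σ (t 0) = a * t 0 + b
      rw [hb]
      ring
    · show σ (t 1) = a * t 1 + b
      rw [hb, ha]
      field_simp
      ring

theorem part3 (p : ℕ) [Fact p.Prime] (σ : Equiv.Perm (ZMod p))
    (h : ∀ t : Fin 3 → ZMod p, ∃ g ∈ Cfsg.affineGroup (ZMod p), ∀ i, σ (t i) = g (t i)) :
    σ ∈ Cfsg.affineGroup (ZMod p) := by
  obtain ⟨g0, hg0, h0⟩ := h ![0, 1, 0]
  have hσ0 : σ 0 = g0 0 := h0 0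
  have hσ1 : σ 1 = g0 1 := h0 1
  obtain ⟨a, b, hab⟩ := hg0
  have : σ = g0 := by
    ext x
    obtain ⟨g, hg, hgx⟩ := h ![0, 1, x]
    have h0' : σ 0 = g 0 := hgx 0
    have h1' : σ 1 = g 1 := hgx 1
    have h2' : σ x = g x := hgx 2
    obtain ⟨a', b', hab'⟩ := hg
    have hb : b' = b := by
      have e1 := hab' 0
      have e2 := hab 0
      rw [← h0'] at e1
      rw [← hσ0] at e2
      rw [e1] at e2
      simpa using e2
    have ha : (a' : ZMod p) = a := by
      have e1 := hab' 1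
      have e2 := hab 1
      rw [← h1'] at e1
      rw [← hσ1] at e2
      rw [e1, hb] at e2
      simpa using e2
    rw [h2', hab', hab, ha, hb]
  rw [this]
  exact ⟨a, b, hab⟩

/-- Closures of subgroups of the one-dimensional affine group. Let p be a prime and G a group of permutations of F_p lying in the affine group AGL₁(p) = {x ↦ ax + b, a ≠ 0} and containing all translations. (1) If G is a proper subgroup of AGL₁(p), then G is 2-closed: a permutation of F_p agreeing on every ordered pair of points with some element of G lies in G. (2) Every permutation of F_p agrees on every ordered pair with some element of AGL₁(p) (the 2-closure of AGL₁(p) is the symmetric group). (3) AGL₁(p) is 3-closed: a permutation agreeing on every ordered triple with some affine map is affine. -/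
theorem result (p : ℕ) [Fact p.Prime] (G : Subgroup (Equiv.Perm (ZMod p))) (hG : G ≤ Cfsg.affineGroup (ZMod p))
    (htrans : ∀ b : ZMod p, ∃ g ∈ G, ∀ x, g x = x + b) :
    (G ≠ Cfsg.affineGroup (ZMod p) → ∀ σ : Equiv.Perm (ZMod p), (∀ t : Fin 2 → ZMod p, ∃ g ∈ G, ∀ i, σ (t i) = g (t i)) → σ ∈ G) ∧
    (∀ σ : Equiv.Perm (ZMod p), (∀ t : Fin 2 → ZMod p, ∃ g ∈ Cfsg.affineGroup (ZMod p), ∀ i, σ (t i) = g (t i))) ∧
    (∀ σ : Equiv.Perm (ZMod p), (∀ t : Fin 3 → ZMod p, ∃ g ∈ Cfsg.affineGroup (ZMod p), ∀ i, σ (t i) = g (t i)) → σ ∈ Cfsg.affineGroup (ZMod p)) := by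
  exact ⟨fun hne σ hσ => part1 p G hG htrans hne σ hσ, fun σ t => part2 p σ t, fun σ h => part3 p σ h⟩

end Cfsg.Agent.S3518
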