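import Cfsg.Statements.S3532
import Cfsg.Agent.Lib.helper12.PSL2Spec
import Mathlib


set_option autoImplicit false
open Cfsg

namespace Cfsg.Agent.S3532

universe u

/-- The group of affine maps `x ↦ u x + c` of a field with `u` in a subgroup of the units. -/
@[ext]
structure FAff (K : Type u) [Field K] (U : Subgroup Kˣ) where
  u : U
  c : K

namespace FAff

variable {K : Type u} [Field K] {U : Subgroup Kˣ}

instance : Mul (FAff K U) := ⟨fun a b => ⟨a.u * b.u, a.c + ((a.u : Kˣ) : K) * b.c⟩⟩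

instance : One (FAff K U) := ⟨⟨1, 0⟩⟩

instance : Inv (FAff K U) := ⟨fun a => ⟨a.u⁻¹, -((((a.u⁻¹ : U) : Kˣ) : K) * a.c)⟩⟩

theorem mul_u (a b : FAff K U) : (a * b).u = a.u * b.u := rfl

theorem mul_c (a b : FAff K U) : (a * b).c = a.c + ((a.u : Kˣ) : K) * b.c := rfl

theorem one_u : (1 : FAff K U).u = 1 := rfl

theorem one_c : (1 : FAff K U).c = 0 := rfl

theorem inv_u (a : FAff K U) : (a⁻¹).u = a.u⁻¹ := rfl

theorem inv_c (a : FAff K U) : (a⁻¹).c = -((((a.u⁻¹ : U) : Kˣ) : K) * a.c) := rfl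

instance : Group (FAff K U) := Group.ofLeftAxioms
  (by
    intro a b c
    apply FAff.ext
    · simp only [mul_u, mul_assoc]
    · simp only [mul_c, mul_u, Subgroup.coe_mul, Units.val_mul]
      ring)
  (by
    intro a
    apply FAff.ext
    · simp only [mul_u, one_u, one_mul]
    · simp only [mul_c, one_c, one_u, Subgroup.coe_one, Units.val_one, one_mul, zero_add])
  (by
    intro a
    apply FAff.ext
    · simp only [mul_u, inv_u, one_u, inv_mul_cancel]
    · simp only [mul_c, inv_c, inv_u, one_c]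
      ring)

theorem pow_u (a : FAff K U) (n : ℕ) : (a ^ n).u = a.u ^ n := by
  induction n with
  | zero => rw [pow_zero, pow_zero, one_u]
  | succ n ih => rw [pow_succ, mul_u, ih, pow_succ]

theorem pow_c (a : FAff K U) (n : ℕ) :
    (a ^ n).c * (((a.u : Kˣ) : K) - 1) = (((a.u : Kˣ) : K) ^ n - 1) * a.c := by
  induction n with
  | zero => rw [pow_zero, pow_zero, one_c, zero_mul, sub_self, zero_mul]
  | succ n ih =>
    rw [pow_succ, mul_c, pow_u, add_mul, ih]
    simp only [Subgroup.coe_pow, Units.val_pow_eq_pow_val]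
    ring

theorem pow_c_of_one (a : FAff K U) (h : a.u = 1) (n : ℕ) : (a ^ n).c = n * a.c := by
  induction n with
  | zero => rw [pow_zero, one_c, Nat.cast_zero, zero_mul]
  | succ n ih =>
    rw [pow_succ, mul_c, pow_u, h, one_pow, ih]
    simp only [Subgroup.coe_one, Units.val_one, one_mul, Nat.cast_add, Nat.cast_one]
    ring

theorem orderOf_eq_of_ne_one (a : FAff K U) (h : a.u ≠ 1) : orderOf a = orderOf a.u := by
  rw [orderOf_eq_orderOf_iff]
  intro n
  have hne : ((a.u : Kˣ) : K) - 1 ≠ 0 := by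
    intro h0
    apply h
    apply Subtype.ext
    apply Units.ext
    rw [Subgroup.coe_one, Units.val_one]
    linear_combination h0
  constructor
  · intro hn
    have := congrArg FAff.u hn
    rwa [pow_u, one_u] at this
  · intro hn
    apply FAff.ext
    · rw [pow_u, one_u, hn]
    · have h1 := pow_c a n
      have h2 : ((a.u : Kˣ) : K) ^ n = 1 := by
        have := congrArg (fun x : U => ((x : Kˣ) : K)) hn
        simpa using this
      rw [h2, sub_self, zero_mul] at h1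
      rw [one_c]
      exact (mul_eq_zero.mp h1).resolve_right hne

theorem pow_char_of_one (p : ℕ) [CharP K p] (a : FAff K U) (h : a.u = 1) : a ^ p = 1 := by
  apply FAff.ext
  · rw [pow_u, h, one_pow, one_u]
  · rw [pow_c_of_one a h, CharP.cast_eq_zero, zero_mul, one_c]

/-- the projection to the units part -/
def proj : FAff K U →* U where
  toFun a := a.u
  map_one' := rfl
  map_mul' _ _ := rfl

/-- the inclusion of the translations -/
def incl : Multiplicative K →* FAff K U where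
  toFun c := ⟨1, Multiplicative.toAdd c⟩
  map_one' := rfl
  map_mul' x y := by
    apply FAff.ext
    · simp only [mul_u, mul_one]
    · simp only [mul_c, Subgroup.coe_one, Units.val_one, one_mul, toAdd_mul]

theorem solvable : Group.IsSolvable (FAff K U) :=
  Group.isSolvable_of_ker_le_range (incl : Multiplicative K →* FAff K U) proj (by
    intro a ha
    rw [MonoidHom.mem_ker] at ha
    exact ⟨Multiplicative.ofAdd a.c, by
      apply FAff.ext
      · exact ha.symm
      · rfl⟩)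

instance [Finite K] : Finite (FAff K U) :=
  Finite.of_injective (fun a : FAff K U => (a.u, a.c)) (by
    intro a b h
    rw [Prod.mk.injEq] at h
    exact FAff.ext h.1 h.2)

theorem exists_order_dvd {G : Type*} [Group G] [Finite G] (x : G) (m : ℕ) (hm : m ∣ orderOf x) :
    ∃ y : G, orderOf y = m := by
  have hpos : 0 < orderOf x := orderOf_pos x
  refine ⟨x ^ (orderOf x / m), ?_⟩
  have h1 : orderOf x / m ∣ orderOf x := Nat.div_dvd_of_dvd hm
  have h0 : orderOf x / m ≠ 0 :=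
    (Nat.div_pos (Nat.le_of_dvd hpos hm) (Nat.pos_of_dvd_of_pos hm hpos)).ne'
  rw [orderOf_pow_of_dvd h0 h1, Nat.div_div_self hm hpos.ne']

/-- the spectrum of the affine group -/
theorem spectrum [Finite K] (p : ℕ) (hp : p.Prime) [CharP K p] (ζ : U)
    (hζ : orderOf ζ = Nat.card U) :
    Set.range (orderOf : FAff K U → ℕ) = {n : ℕ | n ∣ p ∨ n ∣ Nat.card U} := by
  have hpf := Fact.mk hp
  ext n
  constructor
  · rintro ⟨a, rfl⟩
    by_cases h : a.u = 1
    · left
      exact orderOf_dvd_of_pow_eq_one (pow_char_of_one p a h)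
    · right
      rw [orderOf_eq_of_ne_one a h]
      exact orderOf_dvd_natCard _
  · rintro (h | h)
    · rcases (Nat.dvd_prime hp).mp h with rfl | rfl
      · exact ⟨1, orderOf_one⟩
      · refine ⟨⟨1, 1⟩, ?_⟩
        apply orderOf_eq_prime
        · exact pow_char_of_one n _ rfl
        · intro h1
          have := congrArg FAff.c h1
          rw [one_c] at this
          exact one_ne_zero this
    · rw [← hζ] at h
      obtain ⟨y, hy⟩ := exists_order_dvd ζ n h
      by_cases h1 : y = 1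
      · refine ⟨1, ?_⟩
        rw [orderOf_one, ← hy, h1, orderOf_one]
      · refine ⟨⟨y, 0⟩, ?_⟩
        rw [orderOf_eq_of_ne_one _ h1]
        exact hy

end FAff

theorem lcm_cases (p a b o₁ o₂ : ℕ) (h₁ : o₁ ∣ p ∨ o₁ ∣ a ∨ o₁ ∣ b)
    (h₂ : o₂ ∣ p ∨ o₂ ∣ a ∨ o₂ ∣ b) :
    ∃ c₁ c₂, (c₁ ∣ p ∨ c₁ ∣ a) ∧ (c₂ ∣ p ∨ c₂ ∣ b) ∧ Nat.lcm c₁ c₂ = Nat.lcm o₁ o₂ := by
  rcases h₁ with h₁ | h₁ | h₁ <;> rcases h₂ with h₂ | h₂ | h₂
  · exact ⟨Nat.lcm o₁ o₂, 1, Or.inl (Nat.lcm_dvd h₁ h₂), Or.inl (one_dvd _), Nat.lcm_one_right _⟩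
  · exact ⟨o₂, o₁, Or.inr h₂, Or.inl h₁, Nat.lcm_comm _ _⟩
  · exact ⟨o₁, o₂, Or.inl h₁, Or.inr h₂, rfl⟩
  · exact ⟨o₁, o₂, Or.inr h₁, Or.inl h₂, rfl⟩
  · exact ⟨Nat.lcm o₁ o₂, 1, Or.inr (Nat.lcm_dvd h₁ h₂), Or.inl (one_dvd _), Nat.lcm_one_right _⟩
  · exact ⟨o₁, o₂, Or.inr h₁, Or.inr h₂, rfl⟩
  · exact ⟨o₂, o₁, Or.inl h₂, Or.inr h₁, Nat.lcm_comm _ _⟩
  · exact ⟨o₂, o₁, Or.inr h₂, Or.inr h₁, Nat.lcm_comm _ _⟩
  · exact ⟨1, Nat.lcm o₁ o₂, Or.inl (one_dvd _), Or.inr (Nat.lcm_dvd h₁ h₂), Nat.lcm_one_left _⟩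

/-- a cyclic subgroup of the units of a finite field of any order dividing `|K| - 1` -/
theorem exists_units_subgroup (K : Type u) [Field K] [Finite K] (m : ℕ)
    (hm : m ∣ Nat.card K - 1) :
    ∃ (U : Subgroup Kˣ) (ζ : U), Nat.card U = m ∧ orderOf ζ = Nat.card U := by
  obtain ⟨g, hg⟩ := IsCyclic.exists_ofOrder_eq_natCard (α := Kˣ)
  rw [Nat.card_units] at hg
  rw [← hg] at hm
  obtain ⟨y, hy⟩ := FAff.exists_order_dvd g m hm
  refine ⟨Subgroup.zpowers y, ⟨y, Subgroup.mem_zpowers y⟩, ?_, ?_⟩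
  · rw [Nat.card_zpowers, hy]
  · rw [Nat.card_zpowers, Subgroup.orderOf_mk]

theorem result_aux {F : Type u} [Field F] [Fintype F] :
    ∃ (H : Type) (_ : Group H) (_ : Finite H), Group.IsSolvable H ∧
      Set.range (orderOf : H → ℕ) = Set.range (orderOf : Matrix.ProjectiveSpecialLinearGroup (Fin 2) F × Matrix.ProjectiveSpecialLinearGroup (Fin 2) F → ℕ) := by
  classical
  obtain ⟨p, hchar⟩ := CharP.exists F
  have hp : p.Prime := CharP.char_is_prime F p
  have hpf := Fact.mk hp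
  obtain ⟨n, -, hn⟩ := FiniteField.card F p
  have hq1 : 1 ≤ Fintype.card F := Fintype.card_pos
  have hd1 : Nat.gcd 2 (Fintype.card F - 1) ∣ Fintype.card F - 1 := Nat.gcd_dvd_right _ _
  have hd2 : Nat.gcd 2 (Fintype.card F - 1) ∣ Fintype.card F + 1 := by
    have h2 : Nat.gcd 2 (Fintype.card F - 1) ∣ 2 := Nat.gcd_dvd_left _ _
    have : Fintype.card F + 1 = (Fintype.card F - 1) + 2 := by omega
    rw [this]
    exact Nat.dvd_add hd1 h2
  have hcard1 : Nat.card (GaloisField p n) = Fintype.card F := by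
    rw [GaloisField.card p n n.ne_zero, hn]
  have hcard2 : Nat.card (GaloisField p (2 * n)) = Fintype.card F ^ 2 := by
    rw [GaloisField.card p (2 * n) (by simp), hn, ← pow_mul, mul_comm]
  have ha : (Fintype.card F - 1) / Nat.gcd 2 (Fintype.card F - 1)
      ∣ Nat.card (GaloisField p n) - 1 := by
    rw [hcard1]
    exact Nat.div_dvd_of_dvd hd1
  have hb : (Fintype.card F + 1) / Nat.gcd 2 (Fintype.card F - 1)
      ∣ Nat.card (GaloisField p (2 * n)) - 1 := by
    rw [hcard2]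
    refine (Nat.div_dvd_of_dvd hd2).trans ?_
    refine ⟨Fintype.card F - 1, ?_⟩
    obtain ⟨k, hk⟩ : ∃ k, Fintype.card F = k + 1 := ⟨Fintype.card F - 1, by omega⟩
    rw [hk]
    have : (k + 1) ^ 2 = (k + 1 + 1) * (k + 1 - 1) + 1 := by
      simp only [Nat.add_sub_cancel]
      ring
    omega
  obtain ⟨U₁, ζ₁, hU₁, hζ₁⟩ := exists_units_subgroup (GaloisField p n) _ ha
  obtain ⟨U₂, ζ₂, hU₂, hζ₂⟩ := exists_units_subgroup (GaloisField p (2 * n)) _ hb
  have hs1 := FAff.spectrum (K := GaloisField p n) p hp ζ₁ hζ₁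
  have hs2 := FAff.spectrum (K := GaloisField p (2 * n)) p hp ζ₂ hζ₂
  rw [hU₁] at hs1
  rw [hU₂] at hs2
  have hsL := Cfsg.Agent.Lib.helper12.PSL2_spectrum (F := F) p
  have sol1 : Group.IsSolvable (FAff (GaloisField p n) U₁) := FAff.solvable
  have sol2 : Group.IsSolvable (FAff (GaloisField p (2 * n)) U₂) := FAff.solvable
  refine ⟨FAff (GaloisField p n) U₁ × FAff (GaloisField p (2 * n)) U₂, inferInstance,
    inferInstance, inferInstance, ?_⟩
  ext m
  constructor
  · rintro ⟨⟨x₁, x₂⟩, rfl⟩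
    have h1 : orderOf x₁ ∈ Set.range (orderOf : FAff (GaloisField p n) U₁ → ℕ) := ⟨x₁, rfl⟩
    have h2 : orderOf x₂ ∈ Set.range (orderOf : FAff (GaloisField p (2 * n)) U₂ → ℕ) :=
      ⟨x₂, rfl⟩
    rw [hs1] at h1
    rw [hs2] at h2
    have h1' : orderOf x₁ ∈ Set.range
        (orderOf : Matrix.ProjectiveSpecialLinearGroup (Fin 2) F → ℕ) := by
      rw [hsL]
      rcases h1 with h | h
      · exact Or.inl h
      · exact Or.inr (Or.inl h)
    have h2' : orderOf x₂ ∈ Set.range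
        (orderOf : Matrix.ProjectiveSpecialLinearGroup (Fin 2) F → ℕ) := by
      rw [hsL]
      rcases h2 with h | h
      · exact Or.inl h
      · exact Or.inr (Or.inr h)
    obtain ⟨y₁, hy₁⟩ := h1'
    obtain ⟨y₂, hy₂⟩ := h2'
    refine ⟨(y₁, y₂), ?_⟩
    rw [Prod.orderOf, Prod.orderOf, hy₁, hy₂]
  · rintro ⟨⟨y₁, y₂⟩, rfl⟩
    have h1 : orderOf y₁ ∈ Set.range
        (orderOf : Matrix.ProjectiveSpecialLinearGroup (Fin 2) F → ℕ) := ⟨y₁, rfl⟩
    have h2 : orderOf y₂ ∈ Set.range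
        (orderOf : Matrix.ProjectiveSpecialLinearGroup (Fin 2) F → ℕ) := ⟨y₂, rfl⟩
    rw [hsL] at h1 h2
    obtain ⟨c₁, c₂, hc₁, hc₂, hc⟩ := lcm_cases _ _ _ _ _ h1 h2
    have hc₁' : c₁ ∈ Set.range (orderOf : FAff (GaloisField p n) U₁ → ℕ) := by
      rw [hs1]; exact hc₁
    have hc₂' : c₂ ∈ Set.range (orderOf : FAff (GaloisField p (2 * n)) U₂ → ℕ) := by
      rw [hs2]; exact hc₂
    obtain ⟨x₁, hx₁⟩ := hc₁'
    obtain ⟨x₂, hx₂⟩ := hc₂'
    refine ⟨(x₁, x₂), ?_⟩
    rw [Prod.orderOf, Prod.orderOf, hx₁, hx₂]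
    exact hc



/-- Let q ≥ 4 be a prime power and L = PSL(2,q). There is a finite solvable group with the same set of element orders as L × L (so L × L is not determined by its spectrum). -/
theorem result {F : Type*} [Field F] [Fintype F] (hF : 4 ≤ Fintype.card F) :
    ∃ (H : Type) (_ : Group H) (_ : Finite H), Group.IsSolvable H ∧
      Set.range (orderOf : H → ℕ) = Set.range (orderOf : Matrix.ProjectiveSpecialLinearGroup (Fin 2) F × Matrix.ProjectiveSpecialLinearGroup (Fin 2) F → ℕ) := by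
  exact result_aux

end Cfsg.Agent.S3532
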