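import Cfsg.Statements.S3547
import Cfsg.Agent.S3546

set_option autoImplicit false
open Cfsg

namespace Cfsg.Agent.S3547

open MulAction

theorem card_fixedBy_prod {G X : Type*} [Group G] [MulAction G X] [Finite X] (g : G) :
    Nat.card (fixedBy (X × X) g) = Nat.card (fixedBy X g) * Nat.card (fixedBy X g) := by
  rw [← Nat.card_prod]
  refine Nat.card_congr ⟨fun p => (⟨p.1.1, congrArg Prod.fst p.2⟩, ⟨p.1.2, congrArg Prod.snd p.2⟩),
    fun q => ⟨(q.1.1, q.2.1), Prod.ext q.1.2 q.2.2⟩, fun p => rfl, fun q => rfl⟩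

theorem rank_formula {G X : Type*} [Group G] [MulAction G X] [Finite G] [Finite X]
    [IsPretransitive G X] [Nonempty X] (D : Subgroup G)
    (hD : ∀ g : G, g ∉ D → ∃ x : X, g • x = x) :
    Nat.card (orbitRel.Quotient D (X × X)) - 1 =
      (Nat.card (orbitRel.Quotient G (X × X)) - 1) * D.index := by
  classical
  haveI : Fintype G := Fintype.ofFinite G
  obtain ⟨-, hone⟩ := Cfsg.Agent.S3546.main_lemma (X := X) D hD
  have hG : ∑ g : G, Nat.card (fixedBy (X × X) g) =
      Nat.card (orbitRel.Quotient G (X × X)) * Nat.card G :=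
    Cfsg.Agent.S3546.burnside_natCard
  have hDsum : ∑ d : D, Nat.card (fixedBy (X × X) d) =
      Nat.card (orbitRel.Quotient D (X × X)) * Nat.card D :=
    Cfsg.Agent.S3546.burnside_natCard
  have hsplit : ∑ g : G, Nat.card (fixedBy (X × X) g) =
      ∑ g ∈ Finset.univ.filter (fun g : G => g ∈ D), Nat.card (fixedBy (X × X) g) +
      ∑ g ∈ Finset.univ.filter (fun g : G => g ∉ D), Nat.card (fixedBy (X × X) g) :=
    (Finset.sum_filter_add_sum_filter_not Finset.univ (fun g : G => g ∈ D) _).symm
  have hDsum' : ∑ g ∈ Finset.univ.filter (fun g : G => g ∈ D), Nat.card (fixedBy (X × X) g) =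
      ∑ d : D, Nat.card (fixedBy (X × X) d) := by
    rw [Finset.sum_subtype (Finset.univ.filter (fun g : G => g ∈ D)) (p := fun g => g ∈ D)
      (by simp) (fun g => Nat.card (fixedBy (X × X) g))]
    rfl
  have hcards : (Finset.univ.filter (fun g : G => g ∈ D)).card +
      (Finset.univ.filter (fun g : G => g ∉ D)).card = Nat.card G := by
    rw [Finset.card_filter_add_card_filter_not, Finset.card_univ, Nat.card_eq_fintype_card]
  have hcardD : (Finset.univ.filter (fun g : G => g ∈ D)).card = Nat.card D := by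
    rw [Nat.card_eq_fintype_card, Fintype.card_subtype]
  have hA : ∑ g ∈ Finset.univ.filter (fun g : G => g ∉ D), Nat.card (fixedBy (X × X) g) =
      (Finset.univ.filter (fun g : G => g ∉ D)).card := by
    rw [Finset.card_eq_sum_ones]
    apply Finset.sum_congr rfl
    intro g hg
    simp only [Finset.mem_filter, Finset.mem_univ, true_and] at hg
    rw [card_fixedBy_prod, hone g hg]
  have hidx : D.index * Nat.card D = Nat.card G := D.index_mul_card
  have hDpos : 0 < Nat.card D := Nat.card_pos
  have hrG : 0 < Nat.card (orbitRel.Quotient G (X × X)) := by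
    haveI : Nonempty (orbitRel.Quotient G (X × X)) :=
      ⟨Quotient.mk'' (Classical.arbitrary X, Classical.arbitrary X)⟩
    exact Nat.card_pos
  set rG := Nat.card (orbitRel.Quotient G (X × X)) with hrGdef
  set rD := Nat.card (orbitRel.Quotient D (X × X)) with hrDdef
  set k := D.index with hk
  set d := Nat.card D with hd
  have key : rG * (k * d) + d = rD * d + k * d := by
    rw [hidx]
    omega
  have key2 : (rG * k + 1) * d = (rD + k) * d := by
    rw [add_mul, add_mul, one_mul, mul_assoc]
    exact key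
  have key3 : rG * k + 1 = rD + k := Nat.eq_of_mul_eq_mul_right hDpos key2
  obtain ⟨r, hr⟩ : ∃ r, rG = r + 1 := ⟨rG - 1, by omega⟩
  rw [hr] at key3 ⊢
  rw [Nat.add_sub_cancel]
  have : (r + 1) * k = r * k + k := by ring
  omega

/-- Let G act faithfully and transitively on a finite set Ω, let D be the subgroup generated by the derangements, and let r_G and r_D be the numbers of orbits of G and of D on ordered pairs of points (the permutation ranks). Then r_D − 1 = (r_G − 1)·[G : D]. -/
theorem result {G Ω : Type*} [Group G] [Finite G] [MulAction G Ω] [FaithfulSMul G Ω] [Finite Ω]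
    (htrans : MulAction.IsPretransitive G Ω) :
    Nat.card (MulAction.orbitRel.Quotient ↥(Subgroup.closure {g : G | ∀ ω : Ω, g • ω ≠ ω}) (Ω × Ω)) - 1 =
      (Nat.card (MulAction.orbitRel.Quotient G (Ω × Ω)) - 1) * (Subgroup.closure {g : G | ∀ ω : Ω, g • ω ≠ ω}).index := by
  rcases isEmpty_or_nonempty Ω with hΩ | hΩ
  · haveI : IsEmpty (MulAction.orbitRel.Quotient ↥(Subgroup.closure {g : G | ∀ ω : Ω, g • ω ≠ ω})
        (Ω × Ω)) := ⟨fun q => Quotient.inductionOn' q (fun p => hΩ.false p.1)⟩
    haveI : IsEmpty (MulAction.orbitRel.Quotient G (Ω × Ω)) :=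
      ⟨fun q => Quotient.inductionOn' q (fun p => hΩ.false p.1)⟩
    simp
  · exact rank_formula _ (fun g hg => Cfsg.Agent.S3546.exists_fixed_of_notMem_closure g hg)

end Cfsg.Agent.S3547
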