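import Cfsg.Statements.S3548
import Cfsg.Agent.S3546

set_option autoImplicit false
open Cfsg

namespace Cfsg.Agent.S3548

open MulAction Cfsg.Agent.S3546

theorem prime_pow_of_index {G X : Type*} [Group G] [MulAction G X] [FaithfulSMul G X] [Finite G]
    [Finite X] [IsPretransitive G X] (D : Subgroup G) (hDn : D.Normal)
    (hDt : IsPretransitive D X)
    (hD1 : ∀ g : G, g ∉ D → Nat.card (fixedBy X g) ≤ 1) (hX : 2 ≤ Nat.card X)
    (hidx : D.index = Nat.card X - 1) : IsPrimePow (Nat.card X) := by
  classical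
  have hXpos : 0 < Nat.card X := by omega
  obtain ⟨α⟩ : Nonempty X := (Nat.card_pos_iff.mp hXpos).1
  have hk : D.relIndex (stabilizer G α) = Nat.card X - 1 := by
    rw [relIndex_stabilizer_eq_index D hDt α, hidx]
  have hcardY : Nat.card (SubMulAction.ofStabilizer G α) = Nat.card X - 1 :=
    SubMulAction.nat_card_ofStabilizer_eq G α
  have horb : ∀ y : SubMulAction.ofStabilizer G α, orbit (stabilizer G α) y = Set.univ := by
    intro y
    rw [Set.eq_univ_iff_ncard, hcardY]
    have h1 := relIndex_dvd_orbit D hD1 α y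
    rw [hk] at h1
    have h2 : (orbit (stabilizer G α) y).ncard ≤ Nat.card (SubMulAction.ofStabilizer G α) :=
      Set.ncard_le_card _
    have h3 : 0 < Nat.card (orbit (stabilizer G α) y) := by
      haveI : Nonempty (orbit (stabilizer G α) y) := ⟨⟨y, mem_orbit_self y⟩⟩
      exact Nat.card_pos
    rw [Nat.card_coe_set_eq] at h1 h3
    exact le_antisymm (by omega) (Nat.le_of_dvd h3 h1)
  have hbot : ∀ d ∈ D, d • α = α → d = 1 := by
    intro d hd hdα
    apply FaithfulSMul.eq_of_smul_eq_smul (α := X)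
    intro x
    rw [one_smul]
    by_cases hx : x = α
    · rw [hx, hdα]
    · have h1 := stabilizer_le_subgroupOf D hD1 α ⟨x, hx⟩
      have h2 : (stabilizer (stabilizer G α) (⟨x, hx⟩ : SubMulAction.ofStabilizer G α)).index =
          (D.subgroupOf (stabilizer G α)).index := by
        rw [MulAction.index_stabilizer, horb, Set.ncard_univ, hcardY]
        exact hk.symm
      have h3 := Subgroup.relIndex_mul_index h1
      rw [h2] at h3
      have hne : (D.subgroupOf (stabilizer G α)).index ≠ 0 := by
        change D.relIndex (stabilizer G α) ≠ 0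
        rw [hk]; omega
      have h4 : (stabilizer (stabilizer G α) (⟨x, hx⟩ : SubMulAction.ofStabilizer G α)).relIndex
          (D.subgroupOf (stabilizer G α)) = 1 := by
        have : (stabilizer (stabilizer G α) (⟨x, hx⟩ : SubMulAction.ofStabilizer G α)).relIndex
          (D.subgroupOf (stabilizer G α)) * (D.subgroupOf (stabilizer G α)).index =
            1 * (D.subgroupOf (stabilizer G α)).index := by rw [h3, one_mul]
        exact Nat.eq_of_mul_eq_mul_right (Nat.pos_of_ne_zero hne) this
      have h5 := Subgroup.relIndex_eq_one.mp h4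
      have h6 : (⟨d, hdα⟩ : stabilizer G α) ∈
          stabilizer (stabilizer G α) (⟨x, hx⟩ : SubMulAction.ofStabilizer G α) :=
        h5 (Subgroup.mem_subgroupOf.mpr hd)
      exact congrArg (fun t : SubMulAction.ofStabilizer G α => (t : X)) h6
  have hconj : ∀ d ∈ D, ∀ d' ∈ D, d ≠ 1 → d' ≠ 1 → ∃ h : G, h * d * h⁻¹ = d' := by
    intro d hd d' hd' hd1 hd'1
    have hdα : d • α ≠ α := fun h => hd1 (hbot d hd h)
    have hd'α : d' • α ≠ α := fun h => hd'1 (hbot d' hd' h)
    have hmem : (⟨d' • α, hd'α⟩ : SubMulAction.ofStabilizer G α) ∈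
        orbit (stabilizer G α) (⟨d • α, hdα⟩ : SubMulAction.ofStabilizer G α) := by
      rw [horb]; exact Set.mem_univ _
    obtain ⟨h, hh⟩ := hmem
    have hh' : (h : G) • d • α = d' • α :=
      congrArg (fun t : SubMulAction.ofStabilizer G α => (t : X)) hh
    refine ⟨(h : G), ?_⟩
    have hhα : (h : G) • α = α := h.2
    have he : d'⁻¹ * ((h : G) * d * (h : G)⁻¹) = 1 := by
      apply hbot
      · exact D.mul_mem (D.inv_mem hd') (hDn.conj_mem d hd (h : G))
      · have hinv : (h : G)⁻¹ • α = α := by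
          rw [inv_smul_eq_iff, hhα]
        rw [mul_smul, mul_smul, mul_smul, hinv, hh', inv_smul_smul]
    have := congrArg (fun t => d' * t) he
    simpa using this
  have hcardD : Nat.card D = Nat.card X := by
    have h1 : (stabilizer D α).index = Nat.card X := MulAction.index_stabilizer_of_transitive D α
    have h2 : stabilizer D α = ⊥ := by
      rw [eq_bot_iff]
      intro d hd
      rw [Subgroup.mem_bot]
      apply Subtype.ext
      exact hbot d d.2 hd
    rw [h2, Subgroup.index_bot] at h1
    exact h1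
  have hD1' : Nat.card D ≠ 1 := by omega
  obtain ⟨p, hp, hpd⟩ := Nat.exists_prime_and_dvd hD1'
  have := Fact.mk hp
  obtain ⟨d₀, hd₀⟩ := exists_prime_orderOf_dvd_card' p hpd
  have hd₀1 : (d₀ : G) ≠ 1 := by
    intro h
    have : d₀ = 1 := Subtype.ext h
    rw [this, orderOf_one] at hd₀
    exact hp.one_lt.ne hd₀
  have hpg : IsPGroup p D := by
    intro g
    refine ⟨1, ?_⟩
    rw [pow_one]
    by_cases hg : g = 1
    · rw [hg, one_pow]
    · have hg' : (g : G) ≠ 1 := fun h => hg (Subtype.ext h)
      obtain ⟨h, hh⟩ := hconj (d₀ : G) d₀.2 (g : G) g.2 hd₀1 hg'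
      apply Subtype.ext
      rw [Subgroup.coe_pow, Subgroup.coe_one, ← hh, conj_pow]
      have : (d₀ : G) ^ p = 1 := by
        rw [← Subgroup.coe_pow, ← hd₀, pow_orderOf_eq_one]; rfl
      rw [this]; simp
  obtain ⟨m, hm⟩ := (IsPGroup.iff_card (p := p) (G := D)).mp hpg
  rw [isPrimePow_nat_iff]
  refine ⟨p, m, hp, ?_, ?_⟩
  · rcases Nat.eq_zero_or_pos m with h0 | h0
    · rw [h0, pow_zero] at hm
      exact absurd hm hD1'
    · exact h0
  · rw [← hm, hcardD]

/-- Let G act faithfully and transitively on a finite set with n ≥ 2 points and let D be the subgroup generated by the derangements. Then the index of D in G divides n − 1, and if it equals n − 1 then n is a prime power. -/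
theorem result {G Ω : Type*} [Group G] [Finite G] [MulAction G Ω] [FaithfulSMul G Ω] [Finite Ω]
    (htrans : MulAction.IsPretransitive G Ω) (hΩ : 2 ≤ Nat.card Ω) :
    (Subgroup.closure {g : G | ∀ ω : Ω, g • ω ≠ ω}).index ∣ Nat.card Ω - 1 ∧
    ((Subgroup.closure {g : G | ∀ ω : Ω, g • ω ≠ ω}).index = Nat.card Ω - 1 → IsPrimePow (Nat.card Ω)) := by
  have hXpos : 0 < Nat.card Ω := by omega
  obtain ⟨α⟩ : Nonempty Ω := (Nat.card_pos_iff.mp hXpos).1
  haveI : Nonempty Ω := ⟨α⟩
  obtain ⟨h1, h2⟩ := main_lemma (X := Ω) (Subgroup.closure {g : G | ∀ ω : Ω, g • ω ≠ ω})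
    (fun g hg => exists_fixed_of_notMem_closure g hg)
  refine ⟨index_dvd_card_sub_one _ h1 (fun g hg => (h2 g hg).le) α, fun hidx => ?_⟩
  exact prime_pow_of_index _ derangement_closure_normal h1 (fun g hg => (h2 g hg).le) hΩ hidx

end Cfsg.Agent.S3548
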