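import Cfsg.Statements.S3549
import Cfsg.Agent.S3546

set_option autoImplicit false
open Cfsg

namespace Cfsg.Agent.S3549

open MulAction Cfsg.Agent.S3546

theorem key {G : Type*} [Group G] [Finite G] (D K : Subgroup G)
    (hfix : ∀ g : G, g ∉ D → ∃ x : G ⧸ K, g • x = x) (hK : K ≠ ⊤) :
    D.relIndex K = D.index ∧ D.index + 1 ≤ K.index ∧
      ∀ g : G, g ∉ D → Nat.card (fixedBy (G ⧸ K) g) = 1 := by
  obtain ⟨h1, h2⟩ := main_lemma (X := G ⧸ K) D hfix
  refine ⟨?_, ?_, h2⟩
  · have := relIndex_stabilizer_eq_index D h1 ((1 : G) : G ⧸ K)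
    rwa [MulAction.stabilizer_quotient] at this
  · have h3 := index_dvd_card_sub_one D h1 (fun g hg => (h2 g hg).le) ((1 : G) : G ⧸ K)
    rw [← Subgroup.index_eq_card] at h3
    have h4 : K.index ≠ 0 := Subgroup.index_ne_zero_of_finite
    have h5 : K.index ≠ 1 := fun h => hK (Subgroup.index_eq_one.mp h)
    have := Nat.le_of_dvd (by omega) h3
    omega

/-- Let G act faithfully, transitively but imprimitively on a finite set with n points, and let D be the subgroup generated by the derangements. Then the index of D in G is at most √n − 1. -/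
theorem result {G Ω : Type*} [Group G] [Finite G] [MulAction G Ω] [FaithfulSMul G Ω] [Finite Ω]
    (htrans : MulAction.IsPretransitive G Ω) (himp : ¬ MulAction.IsPreprimitive G Ω) :
    ((Subgroup.closure {g : G | ∀ ω : Ω, g • ω ≠ ω}).index : ℝ) ≤ Real.sqrt (Nat.card Ω) - 1 := by
  classical
  haveI := htrans
  have hnt : Nontrivial Ω := by
    by_contra h
    rw [not_nontrivial_iff_subsingleton] at h
    exact himp MulAction.IsPreprimitive.of_subsingleton
  obtain ⟨α⟩ := (inferInstance : Nonempty Ω)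
  have hnc : ¬ IsCoatom (stabilizer G α) := by
    rw [MulAction.isCoatom_stabilizer_iff_preprimitive]; exact himp
  have hne_top : stabilizer G α ≠ ⊤ := by
    intro h
    obtain ⟨x, y, hxy⟩ := hnt
    obtain ⟨g, hg⟩ := MulAction.exists_smul_eq G α x
    obtain ⟨g', hg'⟩ := MulAction.exists_smul_eq G α y
    have h1 : g ∈ stabilizer G α := by rw [h]; exact Subgroup.mem_top g
    have h2 : g' ∈ stabilizer G α := by rw [h]; exact Subgroup.mem_top g'
    rw [mem_stabilizer_iff] at h1 h2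
    exact hxy (by rw [← hg, ← hg', h1, h2])
  obtain ⟨K, hlt, hKtop⟩ : ∃ K, stabilizer G α < K ∧ K ≠ ⊤ := by
    by_contra h
    push Not at h
    exact hnc ⟨hne_top, fun b hb => h b hb⟩
  have hfixΩ : ∀ g : G, g ∉ Subgroup.closure {g : G | ∀ ω : Ω, g • ω ≠ ω} → ∃ x : Ω, g • x = x :=
    fun g hg => exists_fixed_of_notMem_closure g hg
  generalize Subgroup.closure {g : G | ∀ ω : Ω, g • ω ≠ ω} = D at hfixΩ ⊢
  have hcoset : ∀ (g x : G), g • x • α = x • α → g • (x : G ⧸ K) = x := by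
    intro g x hω
    rw [MulAction.Quotient.smul_coe, QuotientGroup.eq]
    apply hlt.le
    rw [mem_stabilizer_iff, smul_eq_mul, mul_inv_rev, mul_smul, mul_smul, inv_smul_eq_iff,
      inv_smul_eq_iff, hω]
  have hfix1 : ∀ g : G, g ∉ D → ∃ x : G ⧸ K, g • x = x := by
    intro g hg
    obtain ⟨ω, hω⟩ := hfixΩ g hg
    obtain ⟨x, rfl⟩ := MulAction.exists_smul_eq G α ω
    exact ⟨(x : G ⧸ K), hcoset g x hω⟩
  obtain ⟨hrel, hle1, hone1⟩ := key D K hfix1 hKtop
  have hfix2 : ∀ g : K, g ∉ D.subgroupOf K →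
      ∃ x : K ⧸ (stabilizer G α).subgroupOf K, g • x = x := by
    intro g hg
    have hg' : (g : G) ∉ D := fun h => hg (Subgroup.mem_subgroupOf.mpr h)
    obtain ⟨ω, hω⟩ := hfixΩ g hg'
    obtain ⟨x, rfl⟩ := MulAction.exists_smul_eq G α ω
    have hx1 : (g : G) • (x : G ⧸ K) = x := hcoset g x hω
    have hx2 : (g : G) • ((1 : G) : G ⧸ K) = ((1 : G) : G ⧸ K) := by
      rw [MulAction.Quotient.smul_coe, QuotientGroup.eq]
      simp
    have hsub := (Nat.card_eq_one_iff_unique.mp (hone1 g hg')).1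
    have hxK : x ∈ K := by
      have h3 := congrArg Subtype.val (Subsingleton.elim
        (⟨((1 : G) : G ⧸ K), hx2⟩ : fixedBy (G ⧸ K) (g : G)) ⟨(x : G ⧸ K), hx1⟩)
      have h4 : ((1 : G) : G ⧸ K) = (x : G ⧸ K) := h3
      rw [QuotientGroup.eq] at h4
      simpa using h4
    refine ⟨((⟨x, hxK⟩ : K) : K ⧸ (stabilizer G α).subgroupOf K), ?_⟩
    rw [MulAction.Quotient.smul_coe, QuotientGroup.eq, Subgroup.mem_subgroupOf]
    simp only [smul_eq_mul, mul_inv_rev, Subgroup.coe_mul, Subgroup.coe_inv]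
    rw [mem_stabilizer_iff, mul_smul, mul_smul, inv_smul_eq_iff, inv_smul_eq_iff, hω]
  have hK2 : (stabilizer G α).subgroupOf K ≠ ⊤ := by
    intro h
    rw [Subgroup.subgroupOf_eq_top] at h
    exact absurd h (not_le_of_gt hlt)
  obtain ⟨-, hle2, -⟩ := key (D.subgroupOf K) ((stabilizer G α).subgroupOf K) hfix2 hK2
  have hle2' : D.relIndex K + 1 ≤ (stabilizer G α).relIndex K := hle2
  have hn : (stabilizer G α).relIndex K * K.index = Nat.card Ω := by
    rw [Subgroup.relIndex_mul_index hlt.le, MulAction.index_stabilizer_of_transitive]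
  have hfinal : (D.index + 1) * (D.index + 1) ≤ Nat.card Ω := by
    rw [← hn]
    exact Nat.mul_le_mul (by rw [← hrel]; exact hle2') hle1
  have h1 : ((D.index : ℝ) + 1) ≤ Real.sqrt (Nat.card Ω) := by
    apply Real.le_sqrt_of_sq_le
    have : ((D.index + 1) * (D.index + 1) : ℕ) ≤ Nat.card Ω := hfinal
    have h2 : (((D.index + 1) * (D.index + 1) : ℕ) : ℝ) ≤ (Nat.card Ω : ℝ) := by exact_mod_cast this
    push_cast at h2
    nlinarith
  linarith

end Cfsg.Agent.S3549
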