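import Cfsg.Statements.S3559
import Cfsg.Agent.Lib.helper23.SRingD

set_option autoImplicit false
open Cfsg

namespace Cfsg.Agent.S3559

/-- Let G act faithfully and transitively on a finite set whose number of points n ≥ 2 is not a prime power, and suppose G has a cyclic subgroup acting regularly (transitively with trivial point stabilizers). Then G is imprimitive or doubly transitive. -/
theorem result {G Ω : Type*} [Group G] [Finite G] [MulAction G Ω] [FaithfulSMul G Ω] [Finite Ω]
    (htrans : MulAction.IsPretransitive G Ω) (hn : 2 ≤ Nat.card Ω) (hnp : ¬ IsPrimePow (Nat.card Ω))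
    (C : Subgroup G) (hcyc : IsCyclic ↥C) (hC : MulAction.IsPretransitive ↥C Ω ∧ ∀ a : Ω, MulAction.stabilizer ↥C a = ⊥) :
    ¬ MulAction.IsPreprimitive G Ω ∨ MulAction.IsMultiplyPretransitive G Ω 2 := by
  classical
  by_cases h2 : MulAction.IsMultiplyPretransitive G Ω 2
  · exact Or.inr h2
  left
  haveI : Fintype Ω := Fintype.ofFinite Ω
  have hcardΩ : Nat.card Ω = Fintype.card Ω := Nat.card_eq_fintype_card
  obtain ⟨p, hp, hpdvd⟩ := Nat.exists_prime_and_dvd (show Nat.card Ω ≠ 1 by omega)
  have hnep : Nat.card Ω ≠ p := fun h => hnp (h ▸ hp.isPrimePow)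
  haveI : NeZero (Nat.card Ω) := ⟨by omega⟩
  haveI := hcyc
  obtain ⟨c, hc⟩ := IsCyclic.exists_generator (α := ↥C)
  obtain ⟨ω0⟩ : Nonempty Ω := (Nat.card_pos_iff.1 (by omega)).1
  have hbij : Function.Bijective (fun x : ↥C => x • ω0) := by
    constructor
    · intro x y hxy
      have hxy' : x • ω0 = y • ω0 := hxy
      have h3 : y⁻¹ * x ∈ MulAction.stabilizer ↥C ω0 := by
        rw [MulAction.mem_stabilizer_iff, mul_smul, hxy', inv_smul_smul]
      rw [hC.2 ω0, Subgroup.mem_bot] at h3
      exact (inv_mul_eq_one.1 h3).symm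
    · intro ω
      exact hC.1.exists_smul_eq ω0 ω
  have hcardC : Nat.card ↥C = Nat.card Ω := Nat.card_eq_of_bijective _ hbij
  have hordc : orderOf c = Nat.card Ω := by
    rw [← hcardC]; exact orderOf_eq_card_of_forall_mem_zpowers hc
  have hcpow : (c : G) ^ (Nat.card Ω) = 1 := by
    rw [← hordc, ← Subgroup.coe_pow, pow_orderOf_eq_one, Subgroup.coe_one]
  have hg'pow : (MulAction.toPermHom G Ω (c : G)) ^ (Nat.card Ω) = 1 := by
    rw [← map_pow, hcpow, map_one]
  let ψ : Multiplicative (ZMod (Nat.card Ω)) →* Equiv.Perm Ω :=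
    { toFun := fun h => (MulAction.toPermHom G Ω (c : G)) ^ (Multiplicative.toAdd h).val
      map_one' := by
        show (MulAction.toPermHom G Ω (c : G)) ^
          (Multiplicative.toAdd (1 : Multiplicative (ZMod (Nat.card Ω)))).val = 1
        rw [toAdd_one, ZMod.val_zero, pow_zero]
      map_mul' := by
        intro a b
        show (MulAction.toPermHom G Ω (c : G)) ^ (Multiplicative.toAdd (a * b)).val =
          (MulAction.toPermHom G Ω (c : G)) ^ (Multiplicative.toAdd a).val *
            (MulAction.toPermHom G Ω (c : G)) ^ (Multiplicative.toAdd b).val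
        rw [toAdd_mul, ZMod.val_add, ← pow_add, ← pow_eq_pow_mod _ hg'pow] }
  have hψ : ∀ h : Multiplicative (ZMod (Nat.card Ω)),
      ψ h = (MulAction.toPermHom G Ω (c : G)) ^ (Multiplicative.toAdd h).val := fun h => rfl
  have hψG : ∀ h, ψ h ∈ (MulAction.toPermHom G Ω).range := by
    intro h
    rw [hψ]
    exact Subgroup.pow_mem _ (MonoidHom.mem_range.2 ⟨(c : G), rfl⟩) _
  have hfix : ∀ x : Multiplicative (ZMod (Nat.card Ω)), ψ x ω0 = ω0 → x = 1 := by
    intro x hx
    rw [hψ] at hx
    have h6 : ((MulAction.toPermHom G Ω (c : G)) ^ (Multiplicative.toAdd x).val) ω0 =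
        (c ^ (Multiplicative.toAdd x).val) • ω0 := by
      rw [← map_pow]; rfl
    have h3 : (c ^ (Multiplicative.toAdd x).val) • ω0 = ω0 := by rw [← h6]; exact hx
    have h4 : c ^ (Multiplicative.toAdd x).val ∈ MulAction.stabilizer ↥C ω0 := h3
    rw [hC.2 ω0, Subgroup.mem_bot] at h4
    have h5 : orderOf c ∣ (Multiplicative.toAdd x).val := orderOf_dvd_of_pow_eq_one h4
    rw [hordc] at h5
    have h0 : (Multiplicative.toAdd x).val = 0 := Nat.eq_zero_of_dvd_of_lt h5 (ZMod.val_lt _)
    exact toAdd_eq_zero.1 ((ZMod.val_eq_zero _).1 h0)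
  have hcardH : Fintype.card (Multiplicative (ZMod (Nat.card Ω))) = Fintype.card Ω := by
    rw [Fintype.card_multiplicative, ZMod.card]
    exact hcardΩ
  have hdvd : p ∣ Fintype.card (Multiplicative (ZMod (Nat.card Ω))) := by
    rw [hcardH, ← hcardΩ]; exact hpdvd
  have hne' : Fintype.card (Multiplicative (ZMod (Nat.card Ω))) ≠ p := by
    rw [hcardH, ← hcardΩ]; exact hnep
  have h2' : ¬ MulAction.IsMultiplyPretransitive (MulAction.toPermHom G Ω).range Ω 2 := by
    intro h
    apply h2
    rw [MulAction.is_two_pretransitive_iff] at h ⊢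
    intro a b c' d hab hcd
    obtain ⟨⟨_, g, rfl⟩, h1, h2⟩ := h hab hcd
    exact ⟨g, h1, h2⟩
  have hnp' := Cfsg.Agent.Lib.helper23.sr_bridge2 hp (MulAction.toPermHom G Ω).range h2' hcardH
    hdvd hne' ψ hψG ω0 hfix
  intro hprim
  apply hnp'
  haveI : MulAction.IsPretransitive (MulAction.toPermHom G Ω).range Ω := by
    constructor
    intro a b
    obtain ⟨g, hg⟩ := htrans.exists_smul_eq a b
    exact ⟨⟨MulAction.toPermHom G Ω g, g, rfl⟩, hg⟩
  refine { isTrivialBlock_of_isBlock := ?_ }
  intro B hB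
  apply hprim.isTrivialBlock_of_isBlock
  rw [MulAction.isBlock_iff_smul_eq_of_mem] at hB ⊢
  intro g a ha hga
  exact hB (g := ⟨MulAction.toPermHom G Ω g, g, rfl⟩) ha hga

end Cfsg.Agent.S3559
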