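import Cfsg.Statements.S3560
import Mathlib

set_option autoImplicit false
open Cfsg

namespace Cfsg.Agent.S3560

section
open MulAction
open scoped Pointwise

universe u v w

section Ham
variable {ι : Type v} [Fintype ι] [DecidableEq ι] {m : ℕ}

def IsIso (τ : Equiv.Perm (ι → Fin m)) : Prop :=
  ∀ a b, hammingDist (τ a) (τ b) = hammingDist a b

theorem iso_cw (σ : ι → Equiv.Perm (Fin m)) : IsIso (Equiv.piCongrRight σ) := by
  intro a b
  exact hammingDist_comp (fun i => (σ i : Fin m → Fin m)) (fun i => (σ i).injective)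

theorem iso_cs (π : Equiv.Perm ι) :
    IsIso (Equiv.arrowCongr π (Equiv.refl (Fin m))) := by
  intro a b
  unfold hammingDist
  apply Finset.card_bij (fun i _ => π.symm i)
  · intro i hi
    simpa using hi
  · intro i _ j _ h
    exact π.symm.injective h
  · intro k hk
    refine ⟨π k, ?_, by simp⟩
    simpa using hk

theorem iso_mul {τ τ' : Equiv.Perm (ι → Fin m)} (h : IsIso τ) (h' : IsIso τ') :
    IsIso (τ * τ') := by
  intro a b
  rw [Equiv.Perm.mul_apply, Equiv.Perm.mul_apply, h, h']

theorem exists_third (hm : 3 ≤ m) (a b : Fin m) : ∃ v : Fin m, v ≠ a ∧ v ≠ b := by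
  by_cases h0 : a.val ≠ 0 ∧ b.val ≠ 0
  · exact ⟨⟨0, by omega⟩, fun h => h0.1 (by rw [← h]), fun h => h0.2 (by rw [← h])⟩
  by_cases h1 : a.val ≠ 1 ∧ b.val ≠ 1
  · exact ⟨⟨1, by omega⟩, fun h => h1.1 (by rw [← h]), fun h => h1.2 (by rw [← h])⟩
  refine ⟨⟨2, by omega⟩, fun h => ?_, fun h => ?_⟩
  · have : a.val = 2 := by rw [← h]
    omega
  · have : b.val = 2 := by rw [← h]
    omega

theorem exists_perm_two (a c a' c' : Fin m) (h : a ≠ c) (h' : a' ≠ c') :
    ∃ σ : Equiv.Perm (Fin m), σ a = a' ∧ σ c = c' := by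
  refine ⟨Equiv.swap (Equiv.swap a a' c) c' * Equiv.swap a a', ?_, ?_⟩
  · rw [Equiv.Perm.mul_apply, Equiv.swap_apply_left]
    apply Equiv.swap_apply_of_ne_of_ne
    · intro h1
      have : Equiv.swap a a' a = Equiv.swap a a' c := by rw [Equiv.swap_apply_left]; exact h1
      exact h ((Equiv.swap a a').injective this)
    · exact h'
  · rw [Equiv.Perm.mul_apply, Equiv.swap_apply_left]

/-- arc transitivity of the isometry group of the Hamming space -/
theorem arc (x' x'' x w : ι → Fin m) (i₀ j : ι) (h1 : ∀ k, x' k ≠ x'' k ↔ k = i₀)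
    (h2 : ∀ k, x k ≠ w k ↔ k = j) :
    ∃ τ : Equiv.Perm (ι → Fin m), IsIso τ ∧ τ x' = x ∧ τ x'' = w := by
  set π : Equiv.Perm ι := Equiv.swap i₀ j with hπ
  have hex : ∀ k, ∃ σ : Equiv.Perm (Fin m), σ (x' (π k)) = x k ∧ σ (x'' (π k)) = w k := by
    intro k
    by_cases hk : k = j
    · subst hk
      have hπk : π k = i₀ := by rw [hπ, Equiv.swap_apply_right]
      rw [hπk]
      exact exists_perm_two _ _ _ _ ((h1 i₀).mpr rfl) ((h2 k).mpr rfl)
    · have hπk : π k ≠ i₀ := by
        intro h
        apply hk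
        have : π k = π j := by rw [h, hπ, Equiv.swap_apply_right]
        exact π.injective this
      have e1 : x' (π k) = x'' (π k) := by
        by_contra hne
        exact hπk ((h1 _).mp hne)
      have e2 : x k = w k := by
        by_contra hne
        exact hk ((h2 _).mp hne)
      refine ⟨Equiv.swap (x' (π k)) (x k), Equiv.swap_apply_left _ _, ?_⟩
      rw [← e1, ← e2, Equiv.swap_apply_left]
  choose σ hσ using hex
  refine ⟨Equiv.piCongrRight σ * Equiv.arrowCongr π (Equiv.refl (Fin m)),
    iso_mul (iso_cw σ) (iso_cs π), ?_, ?_⟩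
  · funext k
    have hsymm : π.symm k = π k := by rw [hπ, Equiv.symm_swap]
    simp only [Equiv.Perm.mul_apply, Equiv.piCongrRight_apply, Equiv.arrowCongr_apply,
      Equiv.refl_apply, Pi.map_apply, Function.comp_apply]
    rw [hsymm]
    exact (hσ k).1
  · funext k
    have hsymm : π.symm k = π k := by rw [hπ, Equiv.symm_swap]
    simp only [Equiv.Perm.mul_apply, Equiv.piCongrRight_apply, Equiv.arrowCongr_apply,
      Equiv.refl_apply, Pi.map_apply, Function.comp_apply]
    rw [hsymm]
    exact (hσ k).2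

variable {Y : Type w}

def isoGroup (δ : Y ≃ (ι → Fin m)) : Subgroup (Equiv.Perm Y) where
  carrier := {σ | ∀ a b, hammingDist (δ (σ a)) (δ (σ b)) = hammingDist (δ a) (δ b)}
  one_mem' := fun a b => rfl
  mul_mem' := fun {σ τ} hσ hτ a b => by
    rw [Equiv.Perm.mul_apply, Equiv.Perm.mul_apply, hσ, hτ]
  inv_mem' := fun {σ} hσ a b => by
    have := hσ (σ⁻¹ a) (σ⁻¹ b)
    have e1 : ∀ y, σ (σ⁻¹ y) = y := fun y => σ.apply_symm_apply y
    rw [e1, e1] at this
    exact this.symm

def liftP (δ : Y ≃ (ι → Fin m)) (τ : Equiv.Perm (ι → Fin m)) : Equiv.Perm Y :=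
  (δ.trans τ).trans δ.symm

theorem liftP_apply (δ : Y ≃ (ι → Fin m)) (τ : Equiv.Perm (ι → Fin m)) (y : Y) :
    liftP δ τ y = δ.symm (τ (δ y)) := rfl

theorem liftP_mem (δ : Y ≃ (ι → Fin m)) (τ : Equiv.Perm (ι → Fin m)) (hτ : IsIso τ) :
    liftP δ τ ∈ isoGroup δ := by
  intro a b
  rw [liftP_apply, liftP_apply, Equiv.apply_symm_apply, Equiv.apply_symm_apply]
  exact hτ _ _

theorem prim (δ : Y ≃ (ι → Fin m)) (hm : 3 ≤ m)
    (htr : IsPretransitive (isoGroup δ) Y) : IsPreprimitive (isoGroup δ) Y := by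
  refine { toIsPretransitive := htr, isTrivialBlock_of_isBlock := ?_ }
  intro B hB
  by_cases hs : B.Subsingleton
  · exact Or.inl hs
  right
  have KB : ∀ τ : Equiv.Perm (ι → Fin m), IsIso τ → ∀ x, δ.symm x ∈ B → δ.symm (τ x) ∈ B →
      ∀ x', δ.symm x' ∈ B → δ.symm (τ x') ∈ B := by
    intro τ hτ x hx hτx x' hx'
    set g : isoGroup δ := ⟨liftP δ τ, liftP_mem δ τ hτ⟩ with hg
    have hgx : ∀ z, g • δ.symm z = δ.symm (τ z) := by
      intro z
      show liftP δ τ (δ.symm z) = _
      rw [liftP_apply, Equiv.apply_symm_apply]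
    have hne : (g • B ∩ B).Nonempty :=
      ⟨δ.symm (τ x), ⟨δ.symm x, hx, hgx x⟩, hτx⟩
    have hgB := (isBlock_iff_smul_eq_of_nonempty.mp hB) hne
    have h1 : g • δ.symm x' ∈ g • B := Set.smul_mem_smul_set hx'
    rw [hgB, hgx] at h1
    exact h1
  rw [Set.not_subsingleton_iff] at hs
  obtain ⟨a, ha, b, hb, hab⟩ := hs
  have claimP : ∀ x x' : ι → Fin m, δ.symm x ∈ B → δ.symm x' ∈ B → x ≠ x' →
      ∀ (j : ι) (u : Fin m), u ≠ x j → δ.symm (Function.update x j u) ∈ B := by
    intro x x' hx hx' hne j u hu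
    obtain ⟨i₀, hi₀⟩ : ∃ i₀, x i₀ ≠ x' i₀ := by
      by_contra h
      push Not at h
      exact hne (funext h)
    obtain ⟨v, hv1, hv2⟩ := exists_third hm (x i₀) (x' i₀)
    -- first isometry: fixes x, moves x' to x''
    set σ₁ : ι → Equiv.Perm (Fin m) := fun i => if i = i₀ then Equiv.swap (x' i₀) v else 1
      with hσ₁
    have hx1 : Equiv.piCongrRight σ₁ x = x := by
      funext i
      simp only [Equiv.piCongrRight_apply, Pi.map_apply, hσ₁]
      by_cases hi : i = i₀
      · subst hi
        rw [if_pos rfl]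
        exact Equiv.swap_apply_of_ne_of_ne hi₀ (Ne.symm hv1)
      · rw [if_neg hi]; rfl
    have hx'1 : Equiv.piCongrRight σ₁ x' = Function.update x' i₀ v := by
      funext i
      simp only [Equiv.piCongrRight_apply, Pi.map_apply, hσ₁]
      by_cases hi : i = i₀
      · subst hi
        rw [if_pos rfl, Equiv.swap_apply_left, Function.update_self]
      · rw [if_neg hi, Function.update_of_ne hi]; rfl
    have hx'' : δ.symm (Function.update x' i₀ v) ∈ B := by
      have := KB _ (iso_cw σ₁) x hx (by rw [hx1]; exact hx) x' hx'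
      rwa [hx'1] at this
    -- arc transitivity
    have h1 : ∀ k, x' k ≠ Function.update x' i₀ v k ↔ k = i₀ := by
      intro k
      by_cases hk : k = i₀
      · subst hk
        rw [Function.update_self]
        exact ⟨fun _ => rfl, fun _ => Ne.symm hv2⟩
      · rw [Function.update_of_ne hk]
        exact ⟨fun h => absurd rfl h, fun h => absurd h hk⟩
    have h2 : ∀ k, x k ≠ Function.update x j u k ↔ k = j := by
      intro k
      by_cases hk : k = j
      · subst hk
        rw [Function.update_self]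
        exact ⟨fun _ => rfl, fun _ => Ne.symm hu⟩
      · rw [Function.update_of_ne hk]
        exact ⟨fun h => absurd rfl h, fun h => absurd h hk⟩
    obtain ⟨τ, hτ, hτ1, hτ2⟩ := arc x' (Function.update x' i₀ v) x (Function.update x j u) i₀ j h1 h2
    have := KB τ hτ x' hx' (by rw [hτ1]; exact hx) _ hx''
    rwa [hτ2] at this
  have hδab : δ a ≠ δ b := fun h => hab (δ.injective h)
  have hclosed : ∀ z : ι → Fin m, δ.symm z ∈ B → ∀ (j : ι) (u : Fin m),
      δ.symm (Function.update z j u) ∈ B := by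
    intro z hz j u
    by_cases hu : u = z j
    · rw [hu, Function.update_eq_self]; exact hz
    · by_cases hza : z = δ a
      · exact claimP z (δ b) hz (by rw [Equiv.symm_apply_apply]; exact hb)
          (by rw [hza]; exact hδab) j u hu
      · exact claimP z (δ a) hz (by rw [Equiv.symm_apply_apply]; exact ha) hza j u hu
  have hall : ∀ w : ι → Fin m, δ.symm w ∈ B := by
    intro w
    have key : ∀ S : Finset ι, δ.symm (fun i => if i ∈ S then w i else δ a i) ∈ B := by
      intro S
      induction S using Finset.induction_on with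
      | empty =>
        simp only [Finset.notMem_empty, if_false]
        rw [Equiv.symm_apply_apply]; exact ha
      | insert i S hi ih =>
        have := hclosed _ ih i (w i)
        convert this using 2
        funext k
        by_cases hk : k = i
        · subst hk
          simp
        · rw [Function.update_of_ne hk]
          simp [hk]
    have := key Finset.univ
    simpa using this
  ext y
  simp only [Set.mem_univ, iff_true]
  have := hall (δ y)
  rwa [Equiv.symm_apply_apply] at this

theorem not_two (δ : Y ≃ (ι → Fin m)) (hm : 3 ≤ m) (hr : 2 ≤ Fintype.card ι) :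
    ¬ IsMultiplyPretransitive (isoGroup δ) Y 2 := by
  intro h2
  rw [is_two_pretransitive_iff] at h2
  obtain ⟨i₀, i₁, hi⟩ := Fintype.exists_pair_of_one_lt_card (α := ι) (by omega)
  set z0 : Fin m := ⟨0, by omega⟩
  set z1 : Fin m := ⟨1, by omega⟩
  have hz : z1 ≠ z0 := by
    intro h
    have := congrArg Fin.val h
    simp [z0, z1] at this
  set x₀ : ι → Fin m := fun _ => z0 with hx₀
  set x₁ : ι → Fin m := Function.update x₀ i₀ z1 with hx₁
  set x₂ : ι → Fin m := Function.update x₁ i₁ z1 with hx₂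
  have d1 : hammingDist x₀ x₁ = 1 := by
    unfold hammingDist
    rw [Finset.card_eq_one]
    refine ⟨i₀, ?_⟩
    ext k
    simp only [Finset.mem_filter, Finset.mem_univ, true_and, Finset.mem_singleton]
    by_cases hk : k = i₀
    · subst hk
      simp only [hx₁, Function.update_self, iff_true]
      exact Ne.symm hz
    · simp only [hx₁, Function.update_of_ne hk, hk, iff_false]
      exact fun h => h rfl
  have d2 : hammingDist x₀ x₂ = 2 := by
    unfold hammingDist
    rw [Finset.card_eq_two]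
    refine ⟨i₀, i₁, hi, ?_⟩
    ext k
    simp only [Finset.mem_filter, Finset.mem_univ, true_and, Finset.mem_insert,
      Finset.mem_singleton]
    by_cases hk1 : k = i₁
    · subst hk1
      simp only [hx₂, Function.update_self, or_true, iff_true]
      exact Ne.symm hz
    · by_cases hk0 : k = i₀
      · subst hk0
        simp only [hx₂, hx₁, Function.update_of_ne hk1, Function.update_self, true_or, iff_true]
        exact Ne.symm hz
      · simp only [hx₂, hx₁, Function.update_of_ne hk1, Function.update_of_ne hk0, hk0, hk1,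
          or_self, iff_false]
        exact fun h => h rfl
  have n1 : δ.symm x₀ ≠ δ.symm x₁ := by
    intro h
    have := δ.symm.injective h
    rw [← hammingDist_eq_zero, d1] at this
    omega
  have n2 : δ.symm x₀ ≠ δ.symm x₂ := by
    intro h
    have := δ.symm.injective h
    rw [← hammingDist_eq_zero, d2] at this
    omega
  obtain ⟨g, hg1, hg2⟩ := h2 n1 n2
  have := g.2 (δ.symm x₀) (δ.symm x₁)
  have e1 : (g : Equiv.Perm Y) (δ.symm x₀) = δ.symm x₀ := hg1
  have e2 : (g : Equiv.Perm Y) (δ.symm x₁) = δ.symm x₂ := hg2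
  rw [e1, e2] at this
  simp only [Equiv.apply_symm_apply] at this
  omega

end Ham

theorem aux {K : Type u} [Group K] [Finite K] {ι : Type v} [Fintype ι] (F : ι → Type w)
    [∀ i, Group (F i)]
    (hr : 2 ≤ Fintype.card ι) (m : ℕ) (hm : 3 ≤ m) (hcard : ∀ i, Nat.card (F i) = m)
    (e : K ≃* (∀ i, F i)) :
    ∃ (n : ℕ) (G R : Subgroup (Equiv.Perm (Fin n))), R ≤ G ∧ Nonempty (↥R ≃* K) ∧
      MulAction.IsPretransitive ↥R (Fin n) ∧ (∀ a : Fin n, MulAction.stabilizer ↥R a = ⊥) ∧
      MulAction.IsPreprimitive ↥G (Fin n) ∧ ¬ MulAction.IsMultiplyPretransitive ↥G (Fin n) 2 := by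
  classical
  have hfin : ∀ i, Finite (F i) := fun i => Nat.finite_of_card_ne_zero (by rw [hcard i]; omega)
  let φ : ∀ i, F i ≃ Fin m := fun i => Finite.equivFinOfCardEq (hcard i)
  let β : K ≃ (ι → Fin m) := e.toEquiv.trans (Equiv.piCongrRight φ)
  have hβ : ∀ (k : K) (i : ι), β k i = φ i (e k i) := fun k i => rfl
  let ε : (ι → Fin m) ≃ Fin (Fintype.card (ι → Fin m)) := Fintype.equivFin _
  let δ : Fin (Fintype.card (ι → Fin m)) ≃ (ι → Fin m) := ε.symm
  let γ : K ≃ Fin (Fintype.card (ι → Fin m)) := β.trans ε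
  have hδγ : ∀ k : K, δ (γ k) = β k := fun k => ε.symm_apply_apply (β k)
  let ρ : K →* Equiv.Perm (Fin (Fintype.card (ι → Fin m))) :=
    { toFun := fun k => (γ.symm.trans (Equiv.mulLeft k)).trans γ
      map_one' := by ext a; simp
      map_mul' := fun k k' => by ext a; simp }
  have hρ : ∀ (k : K) (a : Fin (Fintype.card (ι → Fin m))), ρ k a = γ (k * γ.symm a) :=
    fun k a => rfl
  have hdist : ∀ k u u' : K, hammingDist (β (k * u)) (β (k * u')) = hammingDist (β u) (β u') := by
    intro k u u'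
    unfold hammingDist
    congr 1
    ext i
    simp only [Finset.mem_filter, Finset.mem_univ, true_and, hβ, map_mul, Pi.mul_apply]
    rw [(φ i).injective.ne_iff, (φ i).injective.ne_iff, mul_right_injective _ |>.ne_iff]
  have hle : ρ.range ≤ isoGroup δ := by
    rintro _ ⟨k, rfl⟩ a b
    rw [hρ, hρ, hδγ, hδγ, hdist]
    have ha : δ a = β (γ.symm a) := by rw [← hδγ, Equiv.apply_symm_apply]
    have hb : δ b = β (γ.symm b) := by rw [← hδγ, Equiv.apply_symm_apply]
    rw [ha, hb]
  have hinj : Function.Injective ρ := by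
    intro k k' h
    have := congrArg (fun σ => σ (γ 1)) h
    simp only [hρ, Equiv.symm_apply_apply, mul_one] at this
    exact γ.injective this
  have htrR : MulAction.IsPretransitive ρ.range (Fin (Fintype.card (ι → Fin m))) := by
    refine ⟨fun a b => ⟨⟨ρ (γ.symm b * (γ.symm a)⁻¹), ⟨_, rfl⟩⟩, ?_⟩⟩
    show ρ (γ.symm b * (γ.symm a)⁻¹) a = b
    rw [hρ, inv_mul_cancel_right, Equiv.apply_symm_apply]
  have htrG : MulAction.IsPretransitive (isoGroup δ) (Fin (Fintype.card (ι → Fin m))) := by
    refine ⟨fun a b => ?_⟩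
    obtain ⟨g, hg⟩ := htrR.exists_smul_eq a b
    exact ⟨⟨g.1, hle g.2⟩, hg⟩
  refine ⟨Fintype.card (ι → Fin m), isoGroup δ, ρ.range, hle,
    ⟨(MonoidHom.ofInjective hinj).symm⟩, htrR, ?_, prim δ hm htrG, not_two δ hm hr⟩
  intro a
  rw [eq_bot_iff]
  rintro ⟨_, ⟨k, rfl⟩⟩ h
  rw [MulAction.mem_stabilizer_iff] at h
  have h' : ρ k a = a := h
  rw [hρ] at h'
  have h2 : k * γ.symm a = γ.symm a := by
    apply γ.injective
    rw [h', Equiv.apply_symm_apply]
  have hk : k = 1 := by
    have := mul_right_cancel (h2.trans (one_mul _).symm)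
    exact this
  rw [Subgroup.mem_bot]
  apply Subtype.ext
  show ρ k = 1
  rw [hk, map_one]
end


/-- Let K be a finite group isomorphic to a direct product of r ≥ 2 groups all of the same order m ≥ 3. Then K is not a B-group: there is a primitive but not doubly transitive permutation group (on some finite set) containing a regular subgroup isomorphic to K. -/
theorem result {K : Type*} [Group K] [Finite K] {ι : Type*} [Fintype ι] (F : ι → Type*) [∀ i, Group (F i)]
    (hr : 2 ≤ Fintype.card ι) (m : ℕ) (hm : 3 ≤ m) (hcard : ∀ i, Nat.card (F i) = m) (e : K ≃* (∀ i, F i)) :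
    ∃ (n : ℕ) (G R : Subgroup (Equiv.Perm (Fin n))), R ≤ G ∧ Nonempty (↥R ≃* K) ∧
      MulAction.IsPretransitive ↥R (Fin n) ∧ (∀ a : Fin n, MulAction.stabilizer ↥R a = ⊥) ∧
      MulAction.IsPreprimitive ↥G (Fin n) ∧ ¬ MulAction.IsMultiplyPretransitive ↥G (Fin n) 2 := by
  exact aux F hr m hm hcard e

end Cfsg.Agent.S3560
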