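import Cfsg.Statements.S3573
import Mathlib

set_option autoImplicit false
open Cfsg

namespace Cfsg.Agent.S3573

section
open Equiv

variable {α : Type*} [Fintype α] [DecidableEq α]

theorem image_eq_of_maps (σ : Perm α) (s : Finset α) (h : ∀ y ∈ s, σ y ∈ s) : s.image σ = s := by
  apply Finset.eq_of_subset_of_card_le
  · intro y hy
    obtain ⟨x, hx, rfl⟩ := Finset.mem_image.mp hy
    exact h x hx
  · rw [Finset.card_image_of_injective _ σ.injective]

theorem maps_of_image_eq (σ : Perm α) (s : Finset α) (h : s.image σ = s) :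
    ∀ y, y ∈ s ↔ σ y ∈ s := by
  intro y
  constructor
  · intro hy
    rw [← h]
    exact Finset.mem_image_of_mem σ hy
  · intro hy
    rw [← h] at hy
    obtain ⟨x, hx, hxy⟩ := Finset.mem_image.mp hy
    rw [← σ.injective hxy]
    exact hx

theorem maps_pow (σ : Perm α) (s : Finset α) (h : s.image σ = s) (i : ℕ) :
    ∀ y, y ∈ s ↔ (σ ^ i) y ∈ s := by
  induction i with
  | zero => intro y; simp
  | succ i ih =>
    intro y
    rw [pow_succ', Perm.mul_apply, ← maps_of_image_eq σ s h]
    exact ih y

theorem step (r : ℕ) (hr : r.Prime) (σ : Perm α) (hσ : orderOf σ = r) (s : Finset α)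
    (hs : s.image σ = s) (hcard : s.card + r ≤ Fintype.card α) :
    ∃ s' : Finset α, s'.image σ = s' ∧ s'.card = s.card + r := by
  have hmaps := maps_of_image_eq σ s hs
  by_cases hex : ∃ x, x ∉ s ∧ σ x ≠ x
  · obtain ⟨x, hxs, hx⟩ := hex
    set c := (σ.cycleOf x).support with hc
    have hccard : c.card = r := by
      have h1 : (σ.cycleOf x).IsCycle := Perm.isCycle_cycleOf σ hx
      have h2 := Perm.orderOf_cycleOf_dvd_orderOf σ x
      rw [hσ, h1.orderOf] at h2
      have h3 := h1.two_le_card_support
      rcases (Nat.dvd_prime hr).mp h2 with h | h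
      · omega
      · exact h
    have hcmem : ∀ y, y ∈ c ↔ σ.SameCycle x y := fun y => Perm.mem_support_cycleOf_iff' hx
    have hdisj : Disjoint s c := by
      rw [Finset.disjoint_left]
      intro y hys hyc
      obtain ⟨i, hi⟩ := ((hcmem y).mp hyc).exists_nat_pow_eq
      apply hxs
      rw [maps_pow σ s hs i x, hi]
      exact hys
    refine ⟨s ∪ c, image_eq_of_maps σ _ ?_, ?_⟩
    · intro y hy
      rcases Finset.mem_union.mp hy with h | h
      · exact Finset.mem_union_left _ ((hmaps y).mp h)
      · apply Finset.mem_union_right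
        rw [hcmem] at h ⊢
        exact Perm.sameCycle_apply_right.mpr h
    · rw [Finset.card_union_of_disjoint hdisj, hccard]
  · push Not at hex
    have hle : r ≤ sᶜ.card := by rw [Finset.card_compl]; omega
    obtain ⟨t, hts, htc⟩ := Finset.exists_subset_card_eq hle
    have hdisj : Disjoint s t := by
      rw [Finset.disjoint_left]
      intro y hys hyt
      exact (Finset.mem_compl.mp (hts hyt)) hys
    refine ⟨s ∪ t, image_eq_of_maps σ _ ?_, ?_⟩
    · intro y hy
      rcases Finset.mem_union.mp hy with h | h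
      · exact Finset.mem_union_left _ ((hmaps y).mp h)
      · have hys : y ∉ s := Finset.mem_compl.mp (hts h)
        rw [hex y hys]
        exact hy
    · rw [Finset.card_union_of_disjoint hdisj, htc]

theorem iter (r : ℕ) (hr : r.Prime) (σ : Perm α) (hσ : orderOf σ = r) (s : Finset α)
    (hs : s.image σ = s) :
    ∀ i, s.card + i * r ≤ Fintype.card α →
      ∃ s' : Finset α, s'.image σ = s' ∧ s'.card = s.card + i * r := by
  intro i
  induction i with
  | zero => intro _; exact ⟨s, hs, by simp⟩
  | succ i ih =>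
    intro h
    have e : (i + 1) * r = i * r + r := by ring
    rw [e] at h
    obtain ⟨s₁, h1, h2⟩ := ih (by omega)
    obtain ⟨s₂, h3, h4⟩ := step r hr σ hσ s₁ h1 (by rw [h2]; omega)
    exact ⟨s₂, h3, by rw [h4, h2, e]; ring⟩

theorem suff (n k r : ℕ) (hr : r.Prime) (hkn : k ≤ n) (hkr : k % r ≤ n % r)
    (σ : Perm (Fin n)) (hσ : orderOf σ = r) :
    ∃ s : Finset (Fin n), s.card = k ∧ s.image σ = s := by
  haveI : Fact r.Prime := ⟨hr⟩
  have h1 : σ.supportᶜ.card ≡ Fintype.card (Fin n) [MOD r] :=
    Perm.card_compl_support_modEq (n := 1) (by rw [pow_one, ← hσ]; exact pow_orderOf_eq_one σ)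
  rw [Fintype.card_fin] at h1
  have h2 : k % r ≤ σ.supportᶜ.card := by
    have e1 : σ.supportᶜ.card % r = n % r := h1
    have e2 := Nat.mod_le σ.supportᶜ.card r
    omega
  obtain ⟨t, hts, htc⟩ := Finset.exists_subset_card_eq h2
  have htinv : t.image σ = t := by
    apply image_eq_of_maps
    intro y hy
    have hy' : y ∉ σ.support := Finset.mem_compl.mp (hts hy)
    rw [Perm.notMem_support.mp hy']
    exact hy
  have hk : k % r + k / r * r = k := Nat.mod_add_div' k r
  obtain ⟨s, hs1, hs2⟩ := iter r hr σ hσ t htinv (k / r) (by rw [htc, Fintype.card_fin]; omega)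
  exact ⟨s, by rw [hs2, htc]; exact hk, hs1⟩

theorem nec (n k r : ℕ) (hr : r.Prime) (hrn : r ≤ n)
    (h : ∀ σ : Perm (Fin n), orderOf σ = r →
      ∃ s : Finset (Fin n), s.card = k ∧ s.image σ = s) :
    k % r ≤ n % r := by
  haveI : Fact r.Prime := ⟨hr⟩
  have hdiv : 1 ≤ n / r := (Nat.one_le_div_iff hr.pos).mpr hrn
  obtain ⟨σ, hσ⟩ := (Perm.exists_with_cycleType_iff (α := Fin n)
    (m := Multiset.replicate (n / r) r)).mpr
    ⟨by rw [Multiset.sum_replicate, smul_eq_mul, Fintype.card_fin]; exact Nat.div_mul_le_self n r,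
     fun a ha => by rw [Multiset.eq_of_mem_replicate ha]; exact hr.two_le⟩
  have hord : orderOf σ = r := by
    have h1 : orderOf σ ∣ r := by
      rw [← Perm.lcm_cycleType, hσ, Multiset.lcm_dvd]
      intro b hb
      rw [Multiset.eq_of_mem_replicate hb]
    rcases (Nat.dvd_prime hr).mp h1 with h2 | h2
    · exfalso
      rw [orderOf_eq_one_iff, ← Perm.cycleType_eq_zero, hσ] at h2
      have h3 := congrArg Multiset.card h2
      rw [Multiset.card_replicate, Multiset.card_zero] at h3
      omega
    · exact h2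
  have hsupp : σ.support.card = n / r * r := by
    rw [← Perm.sum_cycleType, hσ, Multiset.sum_replicate, smul_eq_mul]
  have hfix : σ.supportᶜ.card = n % r := by
    rw [Finset.card_compl, hsupp, Fintype.card_fin]
    have := Nat.mod_add_div' n r
    omega
  obtain ⟨s, hsk, hsinv⟩ := h σ hord
  have hmaps := maps_of_image_eq σ s hsinv
  set τ : Perm {x // x ∈ s} := σ.subtypePerm (fun x => (hmaps x).symm) with hτ
  have hτr : τ ^ r ^ 1 = 1 := by
    rw [pow_one, hτ, Perm.subtypePerm_pow]
    ext x
    have e1 : σ ^ r = 1 := by rw [← hord]; exact pow_orderOf_eq_one σ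
    simp [e1]
  have h1 := Perm.card_compl_support_modEq (σ := τ) hτr
  have h2 : τ.supportᶜ.card ≤ σ.supportᶜ.card := by
    apply Finset.card_le_card_of_injOn (fun x => x.1)
    · intro x hx
      have hx' : τ x = x := by
        have := Finset.mem_compl.mp (Finset.mem_coe.mp hx)
        exact Perm.notMem_support.mp this
      have hx'' : σ x.1 = x.1 := by
        have := congrArg Subtype.val hx'
        simpa [hτ] using this
      exact Finset.mem_coe.mpr (Finset.mem_compl.mpr (Perm.notMem_support.mpr hx''))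
    · intro x _ y _ hxy
      exact Subtype.ext hxy
  have h3 : Fintype.card {x // x ∈ s} = k := by rw [Fintype.card_coe, hsk]
  unfold Nat.ModEq at h1
  rw [h3] at h1
  have h4 : τ.supportᶜ.card < r := by
    have := Nat.mod_lt n hr.pos
    omega
  rw [Nat.mod_eq_of_lt h4] at h1
  omega

theorem aux (n k : ℕ) (hk : 1 ≤ k) (hkn : 2 * k < n) (r : ℕ) (hr : r.Prime)
    (hrd : r ∣ Nat.choose n k) :
    (r ≠ 2 → ((∀ σ : Equiv.Perm (Fin n), orderOf σ = r →
        ∃ s : Finset (Fin n), s.card = k ∧ s.image σ = s) ↔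
      (r ≤ k ∧ k % r ≤ n % r))) ∧
    (r = 2 → ((∀ σ : Equiv.Perm (Fin n), orderOf σ = 2 →
        ∃ s : Finset (Fin n), s.card = k ∧ s.image σ = s) ↔
      (Even k ∨ Odd n))) := by
  haveI : Fact r.Prime := ⟨hr⟩
  have hrn : r ≤ n := by
    have h1 : Nat.choose n k ∣ n.factorial :=
      ⟨_, ((Nat.choose_mul_factorial_mul_factorial (by omega : k ≤ n)).symm.trans
        (mul_assoc _ _ _))⟩
    exact (hr.dvd_factorial).mp (hrd.trans h1)
  have key : (∀ σ : Equiv.Perm (Fin n), orderOf σ = r →
      ∃ s : Finset (Fin n), s.card = k ∧ s.image σ = s) ↔ k % r ≤ n % r :=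
    ⟨nec n k r hr hrn, fun h σ hσ => suff n k r hr (by omega) h σ hσ⟩
  constructor
  · intro _
    rw [key]
    constructor
    · intro h
      refine ⟨?_, h⟩
      by_contra hlt
      push Not at hlt
      have hl := Choose.choose_modEq_choose_mod_mul_choose_div_nat (n := n) (k := k) (p := r)
      rw [Nat.mod_eq_of_lt hlt, Nat.div_eq_of_lt hlt, Nat.choose_zero_right, mul_one] at hl
      have h2 : r ∣ Nat.choose (n % r) k :=
        (Nat.modEq_zero_iff_dvd.mp ((hl.symm).trans (Nat.modEq_zero_iff_dvd.mpr hrd)))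
      rw [Nat.mod_eq_of_lt hlt] at h
      have h3 : Nat.choose (n % r) k ∣ (n % r).factorial :=
        ⟨_, ((Nat.choose_mul_factorial_mul_factorial h).symm.trans (mul_assoc _ _ _))⟩
      have h4 := (hr.dvd_factorial).mp (h2.trans h3)
      have := Nat.mod_lt n hr.pos
      omega
    · intro h
      exact h.2
  · intro h2
    subst h2
    rw [key, Nat.even_iff, Nat.odd_iff]
    omega
end


/-- Let 1 ≤ k with 2k < n and consider the symmetric group of degree n acting on the k-subsets of an n-set. Let r be a prime dividing the number C(n,k) of k-subsets. If r is odd, then every permutation of order r fixes some k-subset if and only if r ≤ k and the remainder of k modulo r is at most the remainder of n modulo r. If r = 2, then every involution fixes some k-subset if and only if k is even or n is odd. -/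
theorem result (n k : ℕ) (hk : 1 ≤ k) (hkn : 2 * k < n) (r : ℕ) (hr : r.Prime) (hrd : r ∣ Nat.choose n k) :
    (r ≠ 2 → ((∀ σ : Equiv.Perm (Fin n), orderOf σ = r → ∃ s : Finset (Fin n), s.card = k ∧ s.image σ = s) ↔
      (r ≤ k ∧ k % r ≤ n % r))) ∧
    (r = 2 → ((∀ σ : Equiv.Perm (Fin n), orderOf σ = 2 → ∃ s : Finset (Fin n), s.card = k ∧ s.image σ = s) ↔
      (Even k ∨ Odd n))) := by
  exact aux n k hk hkn r hr hrd

end Cfsg.Agent.S3573
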