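import Cfsg.Statements.S3619
-- import your own Cfsg.Agent.* helpers here

set_option autoImplicit false
open Cfsg

namespace Cfsg.Agent.S3619

section
open scoped Pointwise

theorem aux {G Ω : Type*} [Group G] [Finite G] [MulAction G Ω] [FaithfulSMul G Ω] [Finite Ω]
    (hqp : ∀ N : Subgroup G, N.Normal → N ≠ ⊥ → MulAction.IsPretransitive ↥N Ω)
    (Γ : Set Ω) (hΓ1 : 1 < Γ.ncard) (hΓ2 : Γ.ncard < Nat.card Ω)
    (hJ : MulAction.IsPretransitive ↥(fixingSubgroup G Γᶜ) ↥(SubMulAction.ofFixingSubgroup G Γᶜ))
    (hJp : MulAction.IsPreprimitive ↥(fixingSubgroup G Γᶜ) ↥(SubMulAction.ofFixingSubgroup G Γᶜ)) :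
    MulAction.IsMultiplyPretransitive G Ω (Nat.card Ω - Γ.ncard + 1) := by
  classical
  have hmemC : ∀ x : Ω, x ∈ SubMulAction.ofFixingSubgroup G Γᶜ ↔ x ∈ Γ := by
    intro x
    rw [SubMulAction.mem_ofFixingSubgroup_iff]
    simp
  obtain ⟨a, b, ha, hb, hab⟩ := (Set.one_lt_ncard_iff).mp hΓ1
  obtain ⟨j, hj⟩ := hJ.exists_smul_eq (⟨a, (hmemC a).2 ha⟩ : SubMulAction.ofFixingSubgroup G Γᶜ)
    ⟨b, (hmemC b).2 hb⟩
  have hjab : (j : G) • a = b := congrArg Subtype.val hj
  have hj1 : (j : G) ≠ 1 := by
    intro h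
    rw [h, one_smul] at hjab
    exact hab hjab
  have hjfix : ∀ x : Ω, x ∉ Γ → (j : G) • x = x := by
    intro x hx
    have := j.2
    rw [mem_fixingSubgroup_iff] at this
    exact this x hx
  have htop : (⊤ : Subgroup G) ≠ ⊥ := by
    intro h
    apply hj1
    have : (j : G) ∈ (⊥ : Subgroup G) := h ▸ Subgroup.mem_top _
    simpa using this
  have hGt : MulAction.IsPretransitive G Ω := by
    have := hqp ⊤ inferInstance htop
    constructor
    intro x y
    obtain ⟨g, hg⟩ := this.exists_smul_eq x y
    exact ⟨g, hg⟩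
  have hprim : MulAction.IsPreprimitive G Ω := by
    refine { toIsPretransitive := hGt, isTrivialBlock_of_isBlock := ?_ }
    intro B hB
    by_contra hBt
    rw [MulAction.IsTrivialBlock, not_or] at hBt
    obtain ⟨hBs, hBu⟩ := hBt
    rw [Set.not_subsingleton_iff] at hBs
    have hNnormal : (⨅ g : G, MulAction.stabilizer G (g • B)).Normal := by
      constructor
      intro n hn h
      rw [Subgroup.mem_iInf] at hn ⊢
      intro g
      have := hn (h⁻¹ * g)
      rw [MulAction.mem_stabilizer_iff] at this ⊢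
      rw [mul_smul, mul_smul, ← mul_smul h⁻¹ g B, this, mul_smul, smul_inv_smul]
    have hNbot : (⨅ g : G, MulAction.stabilizer G (g • B)) = ⊥ := by
      by_contra hne
      have hNt := hqp _ hNnormal hne
      obtain ⟨x, hx⟩ := hBs.nonempty
      obtain ⟨y, hy⟩ : ∃ y, y ∉ B := by
        by_contra h
        push Not at h
        exact hBu (Set.eq_univ_of_forall h)
      obtain ⟨n, hn⟩ := hNt.exists_smul_eq x y
      have hn2 := n.2
      rw [Subgroup.mem_iInf] at hn2
      have hn3 := hn2 1
      rw [one_smul, MulAction.mem_stabilizer_iff] at hn3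
      apply hy
      rw [← hn3, ← hn]
      exact Set.smul_mem_smul_set hx
    have hjN : (j : G) ∈ (⨅ g : G, MulAction.stabilizer G (g • B)) := by
      rw [Subgroup.mem_iInf]
      intro g
      rw [MulAction.mem_stabilizer_iff]
      have hB' : MulAction.IsBlock G (g • B) := hB.translate g
      apply (MulAction.isBlock_iff_smul_eq_of_nonempty.mp hB') 
      by_cases hsub : g • B ⊆ Γ
      · have hblk : MulAction.IsBlock (fixingSubgroup G Γᶜ)
            (Subtype.val ⁻¹' (g • B) : Set (SubMulAction.ofFixingSubgroup G Γᶜ)) :=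
          (hB'.subgroup).subtype_val_preimage
        have htriv := hJp.isTrivialBlock_of_isBlock hblk
        obtain ⟨x, hx, y, hy, hxy⟩ := hBs
        have hgx : g • x ∈ g • B := Set.smul_mem_smul_set hx
        have hgy : g • y ∈ g • B := Set.smul_mem_smul_set hy
        rcases htriv with hsubs | huniv
        · exfalso
          have := @hsubs ⟨g • x, (hmemC _).2 (hsub hgx)⟩ hgx
            ⟨g • y, (hmemC _).2 (hsub hgy)⟩ hgy
          apply hxy
          have h2 : g • x = g • y := congrArg Subtype.val this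
          exact smul_left_cancel g h2
        · have haB : a ∈ g • B := by
            have : (⟨a, (hmemC a).2 ha⟩ : SubMulAction.ofFixingSubgroup G Γᶜ) ∈
                (Subtype.val ⁻¹' (g • B) : Set (SubMulAction.ofFixingSubgroup G Γᶜ)) := by
              rw [huniv]; exact Set.mem_univ _
            exact this
          have hbB : b ∈ g • B := by
            have : (⟨b, (hmemC b).2 hb⟩ : SubMulAction.ofFixingSubgroup G Γᶜ) ∈
                (Subtype.val ⁻¹' (g • B) : Set (SubMulAction.ofFixingSubgroup G Γᶜ)) := by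
              rw [huniv]; exact Set.mem_univ _
            exact this
          refine ⟨b, ?_, hbB⟩
          rw [← hjab]
          exact Set.smul_mem_smul_set haB
      · obtain ⟨δ, hδB, hδΓ⟩ := Set.not_subset.mp hsub
        refine ⟨δ, ?_, hδB⟩
        have := Set.smul_mem_smul_set (a := (j : G)) hδB
        rwa [hjfix δ hδΓ] at this
    rw [hNbot, Subgroup.mem_bot] at hjN
    exact hj1 hjN
  have hcompl : (Γᶜ).ncard = Nat.card Ω - Γ.ncard := by
    have := Set.ncard_add_ncard_compl Γ
    omega
  obtain ⟨n, hn⟩ : ∃ n, Nat.card Ω - Γ.ncard = n + 1 := ⟨Nat.card Ω - Γ.ncard - 1, by omega⟩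
  have hmp := hprim.isMultiplyPreprimitive (s := Γᶜ) (n := n) (by rw [hcompl, hn]) (by omega) hJp
  have : Nat.card Ω - Γ.ncard + 1 = n + 2 := by omega
  rw [this]
  exact hmp.isMultiplyPretransitive

end

/-- Let G act faithfully on a finite set in such a way that every non-trivial normal subgroup of G is transitive (G is quasiprimitive). Let Γ be a subset with more than one point and not the whole set, such that the pointwise stabilizer of the complement of Γ acts transitively on Γ (a Jordan set). If that pointwise stabilizer acts primitively on Γ, then G is k-fold transitive where k is one more than the number of points outside Γ (the Jordan set is a trivial one). -/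
theorem result {G Ω : Type*} [Group G] [Finite G] [MulAction G Ω] [FaithfulSMul G Ω] [Finite Ω]
    (hqp : ∀ N : Subgroup G, N.Normal → N ≠ ⊥ → MulAction.IsPretransitive ↥N Ω)
    (Γ : Set Ω) (hΓ1 : 1 < Γ.ncard) (hΓ2 : Γ.ncard < Nat.card Ω)
    (hJ : MulAction.IsPretransitive ↥(fixingSubgroup G Γᶜ) ↥(SubMulAction.ofFixingSubgroup G Γᶜ))
    (hJp : MulAction.IsPreprimitive ↥(fixingSubgroup G Γᶜ) ↥(SubMulAction.ofFixingSubgroup G Γᶜ)) :
    MulAction.IsMultiplyPretransitive G Ω (Nat.card Ω - Γ.ncard + 1) := by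
  exact aux hqp Γ hΓ1 hΓ2 hJ hJp

end Cfsg.Agent.S3619
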