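import Cfsg.Statements.S3627
import Cfsg.Agent.Lib.helper27.J1Spec

set_option autoImplicit false
open Cfsg

namespace Cfsg.Agent.S3627


/-- An elementary abelian 7-group. -/
abbrev E7 (k : ℕ) : Type := Fin k → Multiplicative (ZMod 7)

/-- The group generated by inversion. -/
abbrev IG (k : ℕ) : Subgroup (MulAut (E7 k)) := Subgroup.zpowers (MulEquiv.inv (E7 k))

/-- A generalized dihedral group. -/
abbrev Dih (k : ℕ) : Type := E7 k ⋊[(IG k).subtype] (IG k)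

instance (k : ℕ) : Finite (Dih k) := Finite.of_equiv _ SemidirectProduct.equivProd.symm

theorem e7_pow (k : ℕ) (x : E7 k) : x ^ 7 = 1 := by
  funext i
  have h : ∀ a : Multiplicative (ZMod 7), a ^ 7 = 1 := by decide
  exact h (x i)

theorem inv_mul_inv (k : ℕ) : MulEquiv.inv (E7 k) * MulEquiv.inv (E7 k) = 1 := by
  apply MulEquiv.ext
  intro x
  rw [MulAut.mul_apply, MulEquiv.inv_apply, MulEquiv.inv_apply, inv_inv, MulAut.one_apply]

theorem ig_cases (k : ℕ) (g : IG k) : g.1 = 1 ∨ g.1 = MulEquiv.inv (E7 k) := by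
  obtain ⟨g, z, rfl⟩ := g
  have h2 : MulEquiv.inv (E7 k) ^ (2 : ℤ) = 1 := by
    rw [zpow_two]; exact inv_mul_inv k
  have h3 := zpow_eq_zpow_emod z h2
  rcases Int.emod_two_eq_zero_or_one z with h | h
  · left
    show MulEquiv.inv (E7 k) ^ z = 1
    rw [h3, h, zpow_zero]
  · right
    show MulEquiv.inv (E7 k) ^ z = MulEquiv.inv (E7 k)
    rw [h3, h, zpow_one]

theorem dih_order (k : ℕ) (s : Dih k) : orderOf s = 1 ∨ orderOf s = 2 ∨ orderOf s = 7 := by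
  rcases ig_cases k s.right with h | h
  · have hs : s = SemidirectProduct.inl s.left := by
      refine SemidirectProduct.ext ?_ ?_
      · rw [SemidirectProduct.left_inl]
      · rw [SemidirectProduct.right_inl]; exact Subtype.ext h
    have h7 : s ^ 7 = 1 := by
      rw [hs, ← map_pow, e7_pow, map_one]
    have hd : orderOf s ∣ 7 := orderOf_dvd_of_pow_eq_one h7
    rcases (Nat.dvd_prime (by norm_num)).mp hd with h1 | h1
    · exact Or.inl h1
    · exact Or.inr (Or.inr h1)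
  · have h2 : s ^ 2 = 1 := by
      rw [pow_two]
      refine SemidirectProduct.ext ?_ ?_
      · rw [SemidirectProduct.mul_left, SemidirectProduct.one_left]
        show s.left * (s.right.1 s.left) = 1
        rw [h, MulEquiv.inv_apply, mul_inv_cancel]
      · rw [SemidirectProduct.mul_right, SemidirectProduct.one_right]
        apply Subtype.ext
        show s.right.1 * s.right.1 = 1
        rw [h]
        exact inv_mul_inv k
    have hd : orderOf s ∣ 2 := orderOf_dvd_of_pow_eq_one h2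
    rcases (Nat.dvd_prime Nat.prime_two).mp hd with h1 | h1
    · exact Or.inl h1
    · exact Or.inr (Or.inl h1)

/-- A nontrivial element. -/
def x0 (k : ℕ) : E7 (k + 1) := Pi.mulSingle 0 (Multiplicative.ofAdd 1)

theorem x0_ne (k : ℕ) : x0 k ≠ 1 := by
  intro h
  have h1 := congrFun h 0
  rw [x0, Pi.mulSingle_eq_same] at h1
  have h2 : Multiplicative.ofAdd (1 : ZMod 7) = 1 := h1
  exact absurd h2 (by decide)

theorem dih_seven (k : ℕ) : ∃ s : Dih (k + 1), orderOf s = 7 := by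
  haveI : Fact (Nat.Prime 7) := ⟨by norm_num⟩
  refine ⟨SemidirectProduct.inl (x0 k), ?_⟩
  rw [orderOf_injective _ SemidirectProduct.inl_injective]
  exact orderOf_eq_prime (e7_pow _ _) (x0_ne k)

theorem dih_two (k : ℕ) : ∃ s : Dih (k + 1), orderOf s = 2 := by
  haveI : Fact (Nat.Prime 2) := ⟨Nat.prime_two⟩
  refine ⟨SemidirectProduct.inr ⟨MulEquiv.inv _, Subgroup.mem_zpowers _⟩, ?_⟩
  rw [orderOf_injective _ SemidirectProduct.inr_injective]
  refine orderOf_eq_prime ?_ ?_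
  · apply Subtype.ext
    show MulEquiv.inv (E7 (k + 1)) ^ 2 = 1
    rw [pow_two]; exact inv_mul_inv _
  · intro h
    have h1 : MulEquiv.inv (E7 (k + 1)) = 1 := congrArg Subtype.val h
    have h2 : (x0 k)⁻¹ = x0 k := by
      have := congrArg (fun e : MulAut (E7 (k + 1)) => e (x0 k)) h1
      simpa using this
    have h3 : x0 k ^ 2 = 1 := by rw [pow_two]; nth_rewrite 1 [← h2]; exact inv_mul_cancel _
    have h4 : x0 k ^ 7 = 1 := e7_pow _ _
    have h5 : x0 k = 1 := by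
      have : x0 k = x0 k ^ 7 * ((x0 k ^ 2) ^ 3)⁻¹ := by group
      rw [this, h3, h4]; simp
    exact x0_ne k h5

theorem dih_card (k : ℕ) : 7 ^ k ≤ Nat.card (Dih k) := by
  have h := Nat.card_le_card_of_injective _
    (SemidirectProduct.inl_injective (N := E7 k) (φ := (IG k).subtype))
  have h7 : Nat.card (E7 k) = 7 ^ k := by
    rw [Nat.card_fun, Nat.card_fin, Nat.card_eq_fintype_card]
    rfl
  rwa [h7] at h

/-- The element orders of `J₁`. -/
def LJ : List ℕ := [1, 2, 3, 5, 6, 7, 10, 11, 15, 19]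

/-- The proper divisors of 43890, each as a least common multiple of three element orders of
`J₁` and one of 1, 2, 7. -/
def WL : List (ℕ × ℕ × ℕ × ℕ × ℕ) := [(1, 1, 1, 1, 1), (2, 1, 1, 1, 2), (3, 1, 1, 3, 1), (5, 1, 1, 5, 1), (6, 1, 1, 3, 2), (7, 1, 1, 1, 7), (10, 1, 1, 5, 2), (11, 1, 1, 11, 1), (14, 1, 1, 2, 7), (15, 1, 1, 15, 1), (19, 1, 1, 19, 1), (21, 1, 1, 3, 7), (22, 1, 1, 11, 2), (30, 1, 1, 15, 2), (33, 1, 3, 11, 1), (35, 1, 1, 5, 7), (38, 1, 1, 19, 2), (42, 1, 1, 6, 7), (55, 1, 5, 11, 1), (57, 1, 3, 19, 1), (66, 1, 3, 11, 2), (70, 1, 1, 10, 7), (77, 1, 1, 11, 7), (95, 1, 5, 19, 1), (105, 1, 1, 15, 7), (110, 1, 5, 11, 2), (114, 1, 3, 19, 2), (133, 1, 1, 19, 7), (154, 1, 2, 11, 7), (165, 1, 11, 15, 1), (190, 1, 5, 19, 2), (209, 1, 11, 19, 1), (210, 1, 2, 15, 7), (231, 1, 3, 11, 7), (266, 1, 2, 19, 7), (285, 1, 15, 19, 1), (330, 1, 11, 15, 2), (385, 1, 5, 11, 7), (399, 1, 3, 19, 7), (418, 1,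 11, 19, 2), (462, 1, 6, 11, 7), (570, 1, 15, 19, 2), (627, 3, 11, 19, 1), (665, 1, 5, 19, 7), (770, 1, 10, 11, 7), (798, 1, 6, 19, 7), (1045, 5, 11, 19, 1), (1155, 1, 11, 15, 7), (1254, 3, 11, 19, 2), (1330, 1, 10, 19, 7), (1463, 1, 11, 19, 7), (1995, 1, 15, 19, 7), (2090, 5, 11, 19, 2), (2310, 2, 11, 15, 7), (2926, 2, 11, 19, 7), (3135, 11, 15, 19, 1), (3990, 2, 15, 19, 7), (4389, 3, 11, 19, 7), (6270, 11, 15, 19, 2), (7315, 5, 11, 19, 7), (8778, 6, 11, 19, 7), (14630, 10, 11, 19, 7), (21945, 11, 15, 19, 7)]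

theorem chkW : ∀ t ∈ WL, t.2.1 ∈ LJ ∧ t.2.2.1 ∈ LJ ∧ t.2.2.2.1 ∈ LJ ∧
    (t.2.2.2.2 = 1 ∨ t.2.2.2.2 = 2 ∨ t.2.2.2.2 = 7) ∧
    Nat.lcm t.2.1 (Nat.lcm t.2.2.1 (Nat.lcm t.2.2.2.1 t.2.2.2.2)) = t.1 := by decide +kernel

theorem comb1 : ∀ a ∈ LJ, ∀ b ∈ LJ, ∀ c ∈ LJ, ∀ d ∈ LJ,
    ∃ t ∈ WL, t.1 = Nat.lcm a (Nat.lcm b (Nat.lcm c d)) := by decide +kernel

theorem mem_LJ (k : ℕ) : k ∈ LJ ↔ ∃ g : ↥Cfsg.Spor.J1, orderOf g = k := by
  rw [Cfsg.Agent.Lib.helper27.J1B.spec_J1]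
  simp [LJ]

theorem ord4 {A B C E : Type*} [Monoid A] [Monoid B] [Monoid C] [Monoid E] (x : A × B × C × E) :
    orderOf x = Nat.lcm (orderOf x.1) (Nat.lcm (orderOf x.2.1)
      (Nat.lcm (orderOf x.2.2.1) (orderOf x.2.2.2))) := by
  rw [Prod.orderOf, Prod.orderOf, Prod.orderOf]


/-- Let J be the first Janko group. Then there are finite groups of arbitrarily large order with exactly the same set of element orders as J × J × J × J. -/
theorem result (N : ℕ) : ∃ (H : Type) (_ : Group H) (_ : Fintype H), N < Fintype.card H ∧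
      Set.range (orderOf : H → ℕ) = Set.range (orderOf : ↥Cfsg.Spor.J1 × ↥Cfsg.Spor.J1 × ↥Cfsg.Spor.J1 × ↥Cfsg.Spor.J1 → ℕ) := by
  classical
  let H : Type := ↥Cfsg.Spor.J1 × ↥Cfsg.Spor.J1 × ↥Cfsg.Spor.J1 × Dih (N + 1)
  refine ⟨H, inferInstance, Fintype.ofFinite H, ?_, ?_⟩
  · have hc : @Fintype.card H (Fintype.ofFinite H) = Nat.card H :=
      (@Nat.card_eq_fintype_card H (Fintype.ofFinite H)).symm
    rw [hc]
    have hinj : Function.Injective (fun s : Dih (N + 1) => ((1, 1, 1, s) : H)) := by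
      intro a b h
      simpa using h
    have h1 : Nat.card (Dih (N + 1)) ≤ Nat.card H := Nat.card_le_card_of_injective _ hinj
    have h2 := dih_card (N + 1)
    have h3 : N < 7 ^ N := Nat.lt_pow_self (by norm_num)
    have h4 : 7 ^ N ≤ 7 ^ (N + 1) := Nat.pow_le_pow_right (by norm_num) (Nat.le_succ N)
    omega
  · ext n
    constructor
    · rintro ⟨⟨g1, g2, g3, s⟩, rfl⟩
      have hs : orderOf s ∈ LJ := by
        rcases dih_order (N + 1) s with h | h | h <;> rw [h] <;> decide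
      obtain ⟨g4, hg4⟩ := (mem_LJ _).mp hs
      refine ⟨(g1, g2, g3, g4), ?_⟩
      show orderOf ((g1, g2, g3, g4) : ↥Cfsg.Spor.J1 × ↥Cfsg.Spor.J1 × ↥Cfsg.Spor.J1 × ↥Cfsg.Spor.J1) =
        orderOf ((g1, g2, g3, s) : H)
      rw [ord4, ord4, hg4]
    · rintro ⟨⟨g1, g2, g3, g4⟩, rfl⟩
      obtain ⟨t, ht, hn⟩ := comb1 _ ((mem_LJ _).mpr ⟨g1, rfl⟩) _ ((mem_LJ _).mpr ⟨g2, rfl⟩)
        _ ((mem_LJ _).mpr ⟨g3, rfl⟩) _ ((mem_LJ _).mpr ⟨g4, rfl⟩)
      obtain ⟨ha, hb, hc, hs, hl⟩ := chkW t ht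
      obtain ⟨a, ha⟩ := (mem_LJ _).mp ha
      obtain ⟨b, hb⟩ := (mem_LJ _).mp hb
      obtain ⟨c, hc⟩ := (mem_LJ _).mp hc
      have hs' : ∃ s : Dih (N + 1), orderOf s = t.2.2.2.2 := by
        rcases hs with h | h | h <;> rw [h]
        · exact ⟨1, orderOf_one⟩
        · exact dih_two N
        · exact dih_seven N
      obtain ⟨s, hs⟩ := hs'
      refine ⟨(a, b, c, s), ?_⟩
      show orderOf ((a, b, c, s) : H) =
        orderOf ((g1, g2, g3, g4) : ↥Cfsg.Spor.J1 × ↥Cfsg.Spor.J1 × ↥Cfsg.Spor.J1 × ↥Cfsg.Spor.J1)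
      rw [ord4, ord4, ha, hb, hc, hs, hl, hn]

end Cfsg.Agent.S3627
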