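import Cfsg.Statements.S3660
import Mathlib

set_option autoImplicit false
open Cfsg

namespace Cfsg.Agent.S3660

universe u

/-- The semidirect product of `k` copies of the natural module with `SL(2,F)`. -/
@[ext]
structure Aff (F : Type u) [Field F] (k : ℕ) where
  v : Fin k → Fin 2 → F
  g : Matrix.SpecialLinearGroup (Fin 2) F

namespace Aff

variable {F : Type u} [Field F] {k : ℕ}

instance : Mul (Aff F k) :=
  ⟨fun a b => ⟨fun i => a.v i + (a.g : Matrix (Fin 2) (Fin 2) F).mulVec (b.v i), a.g * b.g⟩⟩

instance : One (Aff F k) := ⟨⟨fun _ => 0, 1⟩⟩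

instance : Inv (Aff F k) :=
  ⟨fun a => ⟨fun i => -((a.g⁻¹ : Matrix.SpecialLinearGroup (Fin 2) F) :
    Matrix (Fin 2) (Fin 2) F).mulVec (a.v i), a.g⁻¹⟩⟩

theorem mul_v (a b : Aff F k) (i : Fin k) :
    (a * b).v i = a.v i + (a.g : Matrix (Fin 2) (Fin 2) F).mulVec (b.v i) := rfl

theorem mul_g (a b : Aff F k) : (a * b).g = a.g * b.g := rfl

theorem one_v (i : Fin k) : (1 : Aff F k).v i = 0 := rfl

theorem one_g : (1 : Aff F k).g = 1 := rfl

theorem inv_v (a : Aff F k) (i : Fin k) :
    (a⁻¹).v i = -((a.g⁻¹ : Matrix.SpecialLinearGroup (Fin 2) F) :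
      Matrix (Fin 2) (Fin 2) F).mulVec (a.v i) := rfl

theorem inv_g (a : Aff F k) : (a⁻¹).g = a.g⁻¹ := rfl

instance : Group (Aff F k) := Group.ofLeftAxioms
  (by
    intro a b c
    apply Aff.ext
    · funext i
      simp only [mul_v, mul_g, Matrix.mulVec_add, Matrix.mulVec_mulVec,
        Matrix.SpecialLinearGroup.coe_mul, add_assoc]
    · simp only [mul_g, mul_assoc])
  (by
    intro a
    apply Aff.ext
    · funext i
      simp only [mul_v, one_v, one_g, Matrix.SpecialLinearGroup.coe_one, Matrix.one_mulVec,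
        zero_add]
    · simp only [mul_g, one_g, one_mul])
  (by
    intro a
    apply Aff.ext
    · funext i
      simp only [mul_v, inv_v, inv_g, one_v, neg_add_cancel]
    · simp only [mul_g, inv_g, one_g, inv_mul_cancel])

/-- the inclusion of `SL(2,F)` -/
def inr : Matrix.SpecialLinearGroup (Fin 2) F →* Aff F k where
  toFun g := ⟨fun _ => 0, g⟩
  map_one' := rfl
  map_mul' a b := by
    apply Aff.ext
    · funext i
      simp only [mul_v, Matrix.mulVec_zero, add_zero]
    · rfl

theorem inr_injective : Function.Injective (inr : Matrix.SpecialLinearGroup (Fin 2) F → Aff F k) := by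
  intro a b h
  exact congrArg Aff.g h

instance [Finite F] : Finite (Aff F k) :=
  Finite.of_injective (fun a : Aff F k => (a.v, a.g)) (by
    intro a b h
    rw [Prod.mk.injEq] at h
    exact Aff.ext h.1 h.2)

theorem card_lt [Fintype F] : k < Nat.card (Aff F k) := by
  have hinj : Function.Injective (fun w : Fin k → Fin 2 → F => (⟨w, 1⟩ : Aff F k)) := by
    intro a b h
    exact congrArg Aff.v h
  have h1 := Nat.card_le_card_of_injective _ hinj
  have h2 : Nat.card (Fin k → Fin 2 → F) = (Fintype.card F ^ 2) ^ k := by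
    simp [Nat.card_eq_fintype_card]
  have h3 : 2 ≤ Fintype.card F ^ 2 := by
    have : 1 < Fintype.card F := Fintype.one_lt_card
    nlinarith
  have h4 : k < 2 ^ k := Nat.lt_two_pow_self
  have h5 : 2 ^ k ≤ (Fintype.card F ^ 2) ^ k := Nat.pow_le_pow_left h3 k
  omega

/-- Key dichotomy: the order of an element is that of its linear part, or divides 4. -/
theorem order_cases [CharP F 2] (a : Aff F k) : orderOf a = orderOf a.g ∨ a ^ 4 = 1 := by
  set A : Matrix (Fin 2) (Fin 2) F := (a.g : Matrix (Fin 2) (Fin 2) F) with hA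
  have hdet : A 0 0 * A 1 1 - A 0 1 * A 1 0 = 1 := by
    have := a.g.det_coe
    rw [Matrix.det_fin_two] at this
    exact this
  by_cases htr : A 0 0 + A 1 1 = 0
  · right
    have h11 : A 1 1 = A 0 0 := by
      have : A 1 1 = -A 0 0 := by linear_combination htr
      rw [this, CharTwo.neg_eq]
    have h2 : (2 : F) = 0 := CharTwo.two_eq_zero
    have hsq : A * A = 1 := by
      ext i j
      fin_cases i <;> fin_cases j <;>
        simp only [Matrix.mul_apply, Fin.sum_univ_two, Matrix.one_apply, Fin.zero_eta, Fin.mk_one,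
          Fin.isValue] <;> simp
      · linear_combination hdet - A 0 0 * h11 + A 0 1 * A 1 0 * h2
      · linear_combination A 0 1 * htr
      · linear_combination A 1 0 * htr
      · linear_combination hdet + A 1 1 * h11 + A 0 1 * A 1 0 * h2
    have hg2 : a.g * a.g = 1 := by
      apply Subtype.ext
      rw [Matrix.SpecialLinearGroup.coe_mul, Matrix.SpecialLinearGroup.coe_one]
      exact hsq
    have ha2 : (a * a).g = 1 := by rw [mul_g, hg2]
    have h4 : a ^ 4 = (a * a) * (a * a) := by
      rw [show (4 : ℕ) = 2 + 2 from rfl, pow_add, pow_two]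
    rw [h4]
    apply Aff.ext
    · funext i
      rw [mul_v, ha2, Matrix.SpecialLinearGroup.coe_one, Matrix.one_mulVec, one_v]
      exact CharTwo.add_self_eq_zero _
    · rw [mul_g, ha2, one_g, one_mul]
  · left
    set M : Matrix (Fin 2) (Fin 2) F := 1 - A with hM
    have hMdet : M.det = -(A 0 0 + A 1 1) := by
      rw [Matrix.det_fin_two]
      simp only [hM, Matrix.sub_apply, Matrix.one_apply_eq, Matrix.one_apply_ne, ne_eq,
        zero_ne_one, not_false_eq_true, one_ne_zero, zero_sub, Fin.isValue]
      have h2 : (2 : F) = 0 := CharTwo.two_eq_zero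
      linear_combination hdet + h2
    have hMu : IsUnit M.det := by
      rw [hMdet, isUnit_iff_ne_zero]
      exact neg_ne_zero.mpr htr
    let w : Fin k → Fin 2 → F := fun i => M⁻¹.mulVec (a.v i)
    have hw : ∀ i, w i - A.mulVec (w i) = a.v i := by
      intro i
      have h1 : w i - A.mulVec (w i) = M.mulVec (w i) := by
        rw [hM, Matrix.sub_mulVec, Matrix.one_mulVec]
      rw [h1, Matrix.mulVec_mulVec, Matrix.mul_nonsing_inv _ hMu, Matrix.one_mulVec]
    let c : Aff F k := ⟨w, 1⟩
    have hconj : a = MulAut.conj c (inr a.g) := by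
      rw [MulAut.conj_apply]
      apply Aff.ext
      · funext i
        simp only [mul_v, mul_g, inv_v, c, inr, MonoidHom.coe_mk, OneHom.coe_mk,
          Matrix.SpecialLinearGroup.coe_one, Matrix.one_mulVec, Matrix.mulVec_zero, add_zero,
          inv_one, one_mul, Matrix.mulVec_neg]
        rw [← hw i, hA, sub_eq_add_neg]
      · simp only [mul_g, inv_g, c, inr, MonoidHom.coe_mk, OneHom.coe_mk, inv_one, one_mul,
          mul_one]
    have h5 : orderOf (MulAut.conj c (inr a.g)) = orderOf (inr a.g : Aff F k) :=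
      MulEquiv.orderOf_eq _ _
    rw [← hconj] at h5
    rw [h5, orderOf_injective inr inr_injective]

end Aff

/-- a finite group has a copy in `Type` -/
theorem exists_type_zero (K : Type u) [Group K] [Finite K] :
    ∃ (H : Type) (_ : Group H) (_ : Finite H), Nonempty (K ≃* H) := by
  have : Small.{0} K := inferInstance
  exact ⟨Shrink.{0} K, inferInstance, Finite.of_equiv K (equivShrink K),
    ⟨(Shrink.mulEquiv).symm⟩⟩

/-- the involution of `SL(2,F)` in characteristic 2 -/
theorem two_dvd_card_SL (F : Type u) [Field F] [Fintype F] [CharP F 2] :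
    2 ∣ Nat.card (Matrix.SpecialLinearGroup (Fin 2) F) := by
  classical
  let U : Matrix.SpecialLinearGroup (Fin 2) F :=
    ⟨!![1, 1; 0, 1], by simp [Matrix.det_fin_two]⟩
  have h1 : U ^ 2 = 1 := by
    apply Subtype.ext
    rw [Matrix.SpecialLinearGroup.coe_pow, Matrix.SpecialLinearGroup.coe_one, pow_two]
    ext i j
    fin_cases i <;> fin_cases j <;> simp [U, Matrix.mul_apply, Fin.sum_univ_two]
    exact CharTwo.add_self_eq_zero (1 : F)
  have h2 : U ≠ 1 := by
    intro h
    have := congrArg (fun X : Matrix.SpecialLinearGroup (Fin 2) F =>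
      (X : Matrix (Fin 2) (Fin 2) F) 0 1) h
    simp [U] at this
  have := Fact.mk Nat.prime_two
  have h3 : orderOf U = 2 := orderOf_eq_prime h1 h2
  have h4 := orderOf_dvd_natCard U
  rwa [h3] at h4

/-- Arbitrarily large finite groups with the same prime graph as `SL(2,F)`, in characteristic 2. -/
theorem aff_graph (F : Type u) [Field F] [Fintype F] [CharP F 2] (N : ℕ) :
    ∃ (H : Type) (_ : Group H) (_ : Finite H), N < Nat.card H ∧
      ((∀ p : ℕ, p.Prime → (p ∣ Nat.card (Matrix.SpecialLinearGroup (Fin 2) F) ↔ p ∣ Nat.card H)) ∧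
      (∀ p q : ℕ, p.Prime → q.Prime → p ≠ q →
        ((∃ g : (Matrix.SpecialLinearGroup (Fin 2) F), orderOf g = p * q) ↔
          (∃ g : H, orderOf g = p * q)))) := by
  obtain ⟨H, hG, hFin, ⟨e⟩⟩ := exists_type_zero (Aff F N)
  refine ⟨H, hG, hFin, ?_, ?_, ?_⟩
  · rw [← Nat.card_congr e.toEquiv]
    exact Aff.card_lt
  · intro p hp
    have := Fact.mk hp
    rw [← Nat.card_congr e.toEquiv]
    constructor
    · intro h
      obtain ⟨g, hg⟩ := exists_prime_orderOf_dvd_card' p h
      rw [← hg, ← orderOf_injective (Aff.inr (k := N)) Aff.inr_injective g]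
      exact orderOf_dvd_natCard _
    · intro h
      obtain ⟨a, ha⟩ := exists_prime_orderOf_dvd_card' p h
      rcases Aff.order_cases a with h1 | h1
      · rw [← ha, h1]
        exact orderOf_dvd_natCard _
      · have h2 : p ∣ 4 := ha ▸ orderOf_dvd_of_pow_eq_one h1
        have h3 : p ∣ 2 := by
          have : p ∣ 2 ^ 2 := by norm_num; exact h2
          exact hp.dvd_of_dvd_pow this
        have h4 : p = 2 := (Nat.prime_dvd_prime_iff_eq hp Nat.prime_two).mp h3
        rw [h4]
        exact two_dvd_card_SL F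
  · intro p q hp hq hpq
    constructor
    · rintro ⟨g, hg⟩
      refine ⟨e (Aff.inr g), ?_⟩
      rw [MulEquiv.orderOf_eq, orderOf_injective Aff.inr Aff.inr_injective, hg]
    · rintro ⟨h, hh⟩
      obtain ⟨a, rfl⟩ := e.surjective h
      rw [MulEquiv.orderOf_eq] at hh
      rcases Aff.order_cases a with h1 | h1
      · exact ⟨a.g, by rw [← h1, hh]⟩
      · exfalso
        have h2 : p * q ∣ 4 := hh ▸ orderOf_dvd_of_pow_eq_one h1
        have h3 : ∀ r : ℕ, r.Prime → r ∣ 4 → r = 2 := by
          intro r hr h
          have : r ∣ 2 ^ 2 := by norm_num; exact h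
          exact (Nat.prime_dvd_prime_iff_eq hr Nat.prime_two).mp (hr.dvd_of_dvd_pow this)
        have h4 := h3 p hp ((dvd_mul_right p q).trans h2)
        have h5 := h3 q hq ((dvd_mul_left q p).trans h2)
        exact hpq (h4.trans h5.symm)

/-- in characteristic 2 the centre of `SL(2,F)` is trivial -/
theorem center_eq_bot (F : Type u) [Field F] [Fintype F] [CharP F 2] :
    Subgroup.center (Matrix.SpecialLinearGroup (Fin 2) F) = ⊥ := by
  classical
  rw [eq_bot_iff]
  intro A hA
  rw [Matrix.SpecialLinearGroup.mem_center_iff] at hA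
  obtain ⟨r, hr, hrA⟩ := hA
  rw [Fintype.card_fin] at hr
  have h1 : (r - 1) ^ 2 = 0 := by
    have h2 : (2 : F) = 0 := CharTwo.two_eq_zero
    linear_combination hr - r * h2 + h2
  have h3 : r = 1 := by
    have := pow_eq_zero_iff (n := 2) (by norm_num) |>.mp h1
    linear_combination this
  rw [Subgroup.mem_bot]
  apply Subtype.ext
  rw [← hrA, h3]
  simp

/-- The prime graph of a finite group has the prime divisors of its order as vertices, two distinct primes p, q being joined when the group has an element of order pq; two groups have the same prime graph when they have the same prime divisors and the same joined pairs. Let F be a finite field of characteristic 2 with at least 4 elements. Then there are finite groups of arbitrarily large order with the same prime graph as PSL(2,F); in particular PSL(2,F) is not determined by its prime graph. -/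
theorem result {F : Type*} [Field F] [Fintype F] [CharP F 2] (hF : 4 ≤ Fintype.card F) (N : ℕ) :
    ∃ (H : Type) (_ : Group H) (_ : Finite H), N < Nat.card H ∧
      ((∀ p : ℕ, p.Prime → (p ∣ Nat.card (Matrix.ProjectiveSpecialLinearGroup (Fin 2) F) ↔ p ∣ Nat.card H)) ∧
      (∀ p q : ℕ, p.Prime → q.Prime → p ≠ q → ((∃ g : (Matrix.ProjectiveSpecialLinearGroup (Fin 2) F), orderOf g = p * q) ↔ (∃ g : H, orderOf g = p * q)))) := by
  obtain ⟨H, hG, hFin, hN, h1, h2⟩ := aff_graph F N
  let e : Matrix.ProjectiveSpecialLinearGroup (Fin 2) F ≃* Matrix.SpecialLinearGroup (Fin 2) F :=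
    (QuotientGroup.quotientMulEquivOfEq (center_eq_bot F)).trans QuotientGroup.quotientBot
  refine ⟨H, hG, hFin, hN, ?_, ?_⟩
  · intro p hp
    rw [Nat.card_congr e.toEquiv]
    exact h1 p hp
  · intro p q hp hq hpq
    rw [← h2 p q hp hq hpq]
    constructor
    · rintro ⟨g, hg⟩
      exact ⟨e g, by rw [MulEquiv.orderOf_eq, hg]⟩
    · rintro ⟨g, hg⟩
      exact ⟨e.symm g, by rw [MulEquiv.orderOf_eq, hg]⟩

end Cfsg.Agent.S3660
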