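import Cfsg.Statements.S3678
import Cfsg.Agent.S3660
import Mathlib


set_option autoImplicit false
open Cfsg

namespace Cfsg.Agent.S3678

universe u


/-- Cayley–Hamilton for a 2×2 matrix of determinant one. -/
theorem cayley_hamilton {F : Type u} [Field F] (g : Matrix.SpecialLinearGroup (Fin 2) F) :
    (g : Matrix (Fin 2) (Fin 2) F) * (g : Matrix (Fin 2) (Fin 2) F)
      = ((g : Matrix (Fin 2) (Fin 2) F) 0 0 + (g : Matrix (Fin 2) (Fin 2) F) 1 1) •
        (g : Matrix (Fin 2) (Fin 2) F) - 1 := by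
  set A : Matrix (Fin 2) (Fin 2) F := (g : Matrix (Fin 2) (Fin 2) F) with hA
  have hdet : A 0 0 * A 1 1 - A 0 1 * A 1 0 = 1 := by
    have := g.det_coe
    rw [Matrix.det_fin_two] at this
    exact this
  ext i j
  fin_cases i <;> fin_cases j <;>
    simp only [Matrix.mul_apply, Fin.sum_univ_two, Matrix.sub_apply, Matrix.smul_apply,
      Matrix.one_apply, Fin.zero_eta, Fin.mk_one, Fin.isValue, smul_eq_mul] <;> simp
  · linear_combination (-1 : F) * hdet
  · ring
  · ring
  · linear_combination (-1 : F) * hdet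

theorem not_pq_dvd_prime_pow {p q r k : ℕ} (hp : p.Prime) (hq : q.Prime) (hpq : p ≠ q)
    (hr : r.Prime) (h : p * q ∣ r ^ k) : False := by
  have h1 : p = r := (Nat.prime_dvd_prime_iff_eq hp hr).mp
    (hp.dvd_of_dvd_pow ((dvd_mul_right p q).trans h))
  have h2 : q = r := (Nat.prime_dvd_prime_iff_eq hq hr).mp
    (hq.dvd_of_dvd_pow ((dvd_mul_left q p).trans h))
  exact hpq (h1.trans h2.symm)

section SL8
variable {K : Type u} [Field K] [Fintype K] [CharP K 2]

theorem sl8_pow (hK : Fintype.card K = 8) (g : Matrix.SpecialLinearGroup (Fin 2) K) :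
    g ^ 2 = 1 ∨ g ^ 7 = 1 ∨ g ^ 9 = 1 := by
  classical
  set A : Matrix (Fin 2) (Fin 2) K := (g : Matrix (Fin 2) (Fin 2) K) with hA
  set t : K := A 0 0 + A 1 1 with ht
  have hCH : A * A = t • A + 1 := by
    have := cayley_hamilton g
    rw [this, CharTwo.sub_eq_add]
  by_cases ht0 : t = 0
  · left
    apply Subtype.ext
    rw [Matrix.SpecialLinearGroup.coe_pow, Matrix.SpecialLinearGroup.coe_one, pow_two, hCH, ht0,
      zero_smul, zero_add]
  · right
    have ht7 : t ^ 7 = 1 := by
      have := FiniteField.pow_card_sub_one_eq_one t ht0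
      rwa [hK] at this
    have hA2 : A ^ 2 = t • A + 1 := by rw [pow_two, hCH]
    have hc1 : Commute (t • A) (1 : Matrix (Fin 2) (Fin 2) K) := Commute.one_right _
    have hA4 : A ^ 4 = t ^ 3 • A + (t ^ 2 + 1) • (1 : Matrix (Fin 2) (Fin 2) K) := by
      have h : A ^ 4 = (A ^ 2) ^ 2 := by rw [← pow_mul]
      rw [h, hA2, add_pow_char_of_commute 2 hc1, smul_pow, hA2, one_pow]
      module
    have hA8 : A ^ 8 = A + (t ^ 6 + t ^ 4 + 1) • (1 : Matrix (Fin 2) (Fin 2) K) := by
      have h : A ^ 8 = (A ^ 4) ^ 2 := by rw [← pow_mul]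
      have hc2 : Commute (t ^ 3 • A) ((t ^ 2 + 1) • (1 : Matrix (Fin 2) (Fin 2) K)) :=
        (Commute.one_right _).smul_right _
      rw [h, hA4, add_pow_char_of_commute 2 hc2, smul_pow, smul_pow, one_pow, hA2]
      have h1 : (t ^ 2 + 1) ^ 2 = t ^ 4 + 1 := by rw [CharTwo.add_sq]; ring
      have h2 : (t ^ 3) ^ 2 * t = 1 := by rw [← ht7]; ring
      rw [h1, smul_add, smul_smul, h2, one_smul]
      module
    set s : K := t ^ 5 + t ^ 3 + t ^ 6 with hs
    have h2 : (2 : K) = 0 := CharTwo.two_eq_zero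
    have hs2 : s * (s - 1) = 0 := by
      rw [hs]
      linear_combination (t ^ 3 + t ^ 5) * ht7 + (t ^ 8 + t ^ 11 + t ^ 9) * h2
    have hc : t ^ 6 + t ^ 4 + 1 = t * s := by
      rw [hs]; linear_combination (-1 : K) * ht7
    rcases mul_eq_zero.mp hs2 with hs0 | hs1
    · left
      rw [hc, hs0, mul_zero, zero_smul, add_zero] at hA8
      have h8 : g ^ 8 = g := by
        apply Subtype.ext
        rw [Matrix.SpecialLinearGroup.coe_pow]
        exact hA8
      have h9 : g ^ 7 * g = 1 * g := by rw [← pow_succ, one_mul]; exact h8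
      exact mul_right_cancel h9
    · right
      have hs1' : s = 1 := by linear_combination hs1
      rw [hc, hs1', mul_one] at hA8
      apply Subtype.ext
      rw [Matrix.SpecialLinearGroup.coe_pow, Matrix.SpecialLinearGroup.coe_one, pow_succ, hA8,
        add_mul, hCH, smul_mul_assoc, one_mul]
      have h3 : t • A + t • A = 0 := CharTwo.add_self_eq_zero _
      rw [add_right_comm, h3, zero_add]

theorem sl8_no_edge (hK : Fintype.card K = 8) (p q : ℕ) (hp : p.Prime) (hq : q.Prime)
    (hpq : p ≠ q) : ¬ ∃ g : Matrix.SpecialLinearGroup (Fin 2) K, orderOf g = p * q := by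
  rintro ⟨g, hg⟩
  rcases sl8_pow hK g with h | h | h
  · have := orderOf_dvd_of_pow_eq_one h
    rw [hg] at this
    exact not_pq_dvd_prime_pow (k := 1) hp hq hpq Nat.prime_two (by simpa using this)
  · have := orderOf_dvd_of_pow_eq_one h
    rw [hg] at this
    exact not_pq_dvd_prime_pow (k := 1) hp hq hpq (by norm_num : Nat.Prime 7) (by simpa using this)
  · have := orderOf_dvd_of_pow_eq_one h
    rw [hg] at this
    exact not_pq_dvd_prime_pow (k := 2) hp hq hpq Nat.prime_three (by norm_num; exact this)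

theorem three_dvd_card_SL : 3 ∣ Nat.card (Matrix.SpecialLinearGroup (Fin 2) K) := by
  classical
  let U : Matrix.SpecialLinearGroup (Fin 2) K :=
    ⟨!![0, 1; 1, 1], by simp [Matrix.det_fin_two, CharTwo.neg_eq]⟩
  have h1 : U ^ 3 = 1 := by
    apply Subtype.ext
    rw [Matrix.SpecialLinearGroup.coe_pow, Matrix.SpecialLinearGroup.coe_one, pow_succ, pow_two]
    ext i j
    fin_cases i <;> fin_cases j <;> simp [U, Matrix.mul_apply, Fin.sum_univ_two] <;>
      exact CharTwo.add_self_eq_zero (1 : K)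
  have h2 : U ≠ 1 := by
    intro h
    have := congrArg (fun X : Matrix.SpecialLinearGroup (Fin 2) K =>
      (X : Matrix (Fin 2) (Fin 2) K) 0 1) h
    simp [U] at this
  have := Fact.mk Nat.prime_three
  have h3 : orderOf U = 3 := orderOf_eq_prime h1 h2
  have h4 := orderOf_dvd_natCard U
  rwa [h3] at h4

theorem seven_dvd_card_SL (hK : Fintype.card K = 8) :
    7 ∣ Nat.card (Matrix.SpecialLinearGroup (Fin 2) K) := by
  classical
  obtain ⟨a, ha0, ha1⟩ : ∃ a : K, a ≠ 0 ∧ a ≠ 1 := by
    by_contra h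
    push Not at h
    have hsub : (Finset.univ : Finset K) ⊆ {0, 1} := by
      intro a _
      by_cases h0 : a = 0
      · simp [h0]
      · simp [h a h0]
    have h1 := Finset.card_le_card hsub
    have h2 : ({0, 1} : Finset K).card ≤ 2 := Finset.card_le_two
    rw [Finset.card_univ, hK] at h1
    omega
  have ha7 : a ^ 7 = 1 := by
    have := FiniteField.pow_card_sub_one_eq_one a ha0
    rwa [hK] at this
  let D : Matrix.SpecialLinearGroup (Fin 2) K :=
    ⟨Matrix.diagonal ![a, a⁻¹], by simp [Matrix.det_diagonal, Fin.prod_univ_two, ha0]⟩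
  have h1 : D ^ 7 = 1 := by
    apply Subtype.ext
    rw [Matrix.SpecialLinearGroup.coe_pow, Matrix.SpecialLinearGroup.coe_one]
    show (Matrix.diagonal ![a, a⁻¹]) ^ 7 = 1
    rw [Matrix.diagonal_pow, ← Matrix.diagonal_one]
    congr 1
    funext i
    fin_cases i
    · simpa using ha7
    · simp [inv_pow, ha7]
  have h2 : D ≠ 1 := by
    intro h
    have := congrArg (fun X : Matrix.SpecialLinearGroup (Fin 2) K =>
      (X : Matrix (Fin 2) (Fin 2) K) 0 0) h
    simp [D] at this
    exact ha1 this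
  have := Fact.mk (by norm_num : Nat.Prime 7)
  have h3 : orderOf D = 7 := orderOf_eq_prime h1 h2
  have h4 := orderOf_dvd_natCard D
  rwa [h3] at h4

theorem sl8_primes (hK : Fintype.card K = 8) (p : ℕ) (hp : p.Prime) :
    p ∣ Nat.card (Matrix.SpecialLinearGroup (Fin 2) K) ↔ p = 2 ∨ p = 3 ∨ p = 7 := by
  constructor
  · intro h
    have := Fact.mk hp
    obtain ⟨g, hg⟩ := exists_prime_orderOf_dvd_card' p h
    rcases sl8_pow hK g with h1 | h1 | h1
    · have h2 := orderOf_dvd_of_pow_eq_one h1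
      rw [hg] at h2
      exact Or.inl ((Nat.prime_dvd_prime_iff_eq hp Nat.prime_two).mp h2)
    · have h2 := orderOf_dvd_of_pow_eq_one h1
      rw [hg] at h2
      exact Or.inr (Or.inr ((Nat.prime_dvd_prime_iff_eq hp (by norm_num)).mp h2))
    · have h2 := orderOf_dvd_of_pow_eq_one h1
      rw [hg] at h2
      have h3 : p ∣ 3 ^ 2 := by norm_num; exact h2
      exact Or.inr (Or.inl ((Nat.prime_dvd_prime_iff_eq hp Nat.prime_three).mp
        (hp.dvd_of_dvd_pow h3)))
  · rintro (rfl | rfl | rfl)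
    · exact Cfsg.Agent.S3660.two_dvd_card_SL K
    · exact three_dvd_card_SL
    · exact seven_dvd_card_SL hK

end SL8

section PSL7
variable {F : Type u} [Field F] [Fintype F]

theorem psl7_matrix (hF : Fintype.card F = 7) (g : Matrix.SpecialLinearGroup (Fin 2) F) (n : ℕ)
    (hn : (g : Matrix (Fin 2) (Fin 2) F) 0 0 + (g : Matrix (Fin 2) (Fin 2) F) 1 1 = (n : F)) :
    (n = 0 → (g : Matrix (Fin 2) (Fin 2) F) ^ 2 = -1) ∧
    (n = 1 → (g : Matrix (Fin 2) (Fin 2) F) ^ 3 = -1) ∧
    (n = 2 → (g : Matrix (Fin 2) (Fin 2) F) ^ 7 = 1) ∧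
    (n = 3 → (g : Matrix (Fin 2) (Fin 2) F) ^ 4 = -1) ∧
    (n = 4 → (g : Matrix (Fin 2) (Fin 2) F) ^ 4 = -1) ∧
    (n = 5 → (g : Matrix (Fin 2) (Fin 2) F) ^ 7 = -1) ∧
    (n = 6 → (g : Matrix (Fin 2) (Fin 2) F) ^ 3 = 1) := by
  classical
  set A : Matrix (Fin 2) (Fin 2) F := (g : Matrix (Fin 2) (Fin 2) F) with hA
  have hp7 := Fact.mk (by norm_num : Nat.Prime 7)
  have hchar : CharP F 7 := charP_of_card_eq_prime hF
  have h7 : (7 : Polynomial F) = 0 := by
    have := CharP.cast_eq_zero (Polynomial F) 7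
    exact_mod_cast this
  have hCH : A * A = (n : F) • A - 1 := by rw [← hn]; exact cayley_hamilton g
  have hP : Polynomial.aeval A
      (Polynomial.X ^ 2 - (n : Polynomial F) * Polynomial.X + 1 : Polynomial F) = 0 := by
    simp only [map_add, map_sub, map_mul, map_pow, Polynomial.aeval_X, map_natCast,
      map_one]
    rw [pow_two, hCH, Nat.cast_smul_eq_nsmul F n A, nsmul_eq_mul]
    abel
  have key : ∀ Q : Polynomial F,
      (Polynomial.X ^ 2 - (n : Polynomial F) * Polynomial.X + 1 : Polynomial F) ∣ Q →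
      Polynomial.aeval A Q = 0 := by
    rintro Q ⟨S, rfl⟩
    rw [map_mul, hP, zero_mul]
  refine ⟨?_, ?_, ?_, ?_, ?_, ?_, ?_⟩
  · rintro rfl
    have h := key (Polynomial.X ^ 2 + 1) ⟨1, by simp⟩
    simp only [map_add, map_pow, Polynomial.aeval_X, map_one] at h
    exact eq_neg_of_add_eq_zero_left h
  · rintro rfl
    have h := key (Polynomial.X ^ 3 + 1) ⟨Polynomial.X + 1, by simp only [Nat.cast_one]; ring⟩
    simp only [map_add, map_pow, Polynomial.aeval_X, map_one] at h
    exact eq_neg_of_add_eq_zero_left h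
  · rintro rfl
    have h := key (Polynomial.X ^ 7 - 1) ⟨(Polynomial.X - 1) ^ 5, by
      have e : (Polynomial.X ^ 7 - 1 : Polynomial F) = (Polynomial.X - 1) ^ 7 := by
        rw [sub_pow_char, one_pow]
      rw [e]; simp only [Nat.cast_ofNat]; ring⟩
    simp only [map_sub, map_pow, Polynomial.aeval_X, map_one] at h
    exact sub_eq_zero.mp h
  · rintro rfl
    have h := key (Polynomial.X ^ 4 + 1) ⟨Polynomial.X ^ 2 + 3 * Polynomial.X + 8, by
      simp only [Nat.cast_ofNat]
      linear_combination (3 * Polynomial.X - 1) * h7⟩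
    simp only [map_add, map_pow, Polynomial.aeval_X, map_one] at h
    exact eq_neg_of_add_eq_zero_left h
  · rintro rfl
    have h := key (Polynomial.X ^ 4 + 1) ⟨Polynomial.X ^ 2 + 4 * Polynomial.X + 15, by
      simp only [Nat.cast_ofNat]
      linear_combination (8 * Polynomial.X - 2) * h7⟩
    simp only [map_add, map_pow, Polynomial.aeval_X, map_one] at h
    exact eq_neg_of_add_eq_zero_left h
  · rintro rfl
    have h := key (Polynomial.X ^ 7 + 1) ⟨(Polynomial.X + 1) ^ 5, by
      have e : (Polynomial.X ^ 7 + 1 : Polynomial F) = (Polynomial.X + 1) ^ 7 := by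
        rw [add_pow_char, one_pow]
      rw [e]; simp only [Nat.cast_ofNat]
      linear_combination (Polynomial.X * (Polynomial.X + 1) ^ 5) * h7⟩
    simp only [map_add, map_pow, Polynomial.aeval_X, map_one] at h
    exact eq_neg_of_add_eq_zero_left h
  · rintro rfl
    have h := key (Polynomial.X ^ 3 - 1) ⟨Polynomial.X + 6, by
      simp only [Nat.cast_ofNat]
      linear_combination (5 * Polynomial.X - 1) * h7⟩
    simp only [map_sub, map_pow, Polynomial.aeval_X, map_one] at h
    exact sub_eq_zero.mp h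

theorem exists_nat_cast (hF : Fintype.card F = 7) (t : F) : ∃ n : ℕ, n < 7 ∧ t = (n : F) := by
  have hp7 := Fact.mk (by norm_num : Nat.Prime 7)
  let e := ZMod.ringEquivOfPrime F (by norm_num : Nat.Prime 7) hF
  refine ⟨(e.symm t).val, ZMod.val_lt _, ?_⟩
  have h1 : t = e (e.symm t) := (e.apply_symm_apply t).symm
  have h2 : e.symm t = (((e.symm t).val : ℕ) : ZMod 7) := (ZMod.natCast_zmod_val _).symm
  rw [h2, map_natCast] at h1
  exact h1

theorem mk_pow_eq_one (g : Matrix.SpecialLinearGroup (Fin 2) F) (k : ℕ)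
    (h : (g : Matrix (Fin 2) (Fin 2) F) ^ k = 1 ∨ (g : Matrix (Fin 2) (Fin 2) F) ^ k = -1) :
    (QuotientGroup.mk g : Matrix.ProjectiveSpecialLinearGroup (Fin 2) F) ^ k = 1 := by
  rw [← QuotientGroup.mk_pow, QuotientGroup.eq_one_iff, Matrix.SpecialLinearGroup.mem_center_iff]
  rcases h with h | h
  · refine ⟨1, one_pow _, ?_⟩
    rw [Matrix.SpecialLinearGroup.coe_pow, h, map_one]
  · refine ⟨-1, by simp, ?_⟩
    rw [Matrix.SpecialLinearGroup.coe_pow, h, map_neg, map_one]

theorem mk_ne_one (g : Matrix.SpecialLinearGroup (Fin 2) F)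
    (h : (g : Matrix (Fin 2) (Fin 2) F) 0 1 ≠ 0 ∨ (g : Matrix (Fin 2) (Fin 2) F) 1 0 ≠ 0) :
    (QuotientGroup.mk g : Matrix.ProjectiveSpecialLinearGroup (Fin 2) F) ≠ 1 := by
  intro h1
  rw [QuotientGroup.eq_one_iff, Matrix.SpecialLinearGroup.mem_center_iff] at h1
  obtain ⟨r, -, hr⟩ := h1
  rcases h with h | h
  · apply h
    rw [← hr]
    simp
  · apply h
    rw [← hr]
    simp

theorem psl7_pow (hF : Fintype.card F = 7) (x : Matrix.ProjectiveSpecialLinearGroup (Fin 2) F) :
    x ^ 2 = 1 ∨ x ^ 3 = 1 ∨ x ^ 4 = 1 ∨ x ^ 7 = 1 := by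
  obtain ⟨g, rfl⟩ := QuotientGroup.mk_surjective x
  obtain ⟨n, hn7, hn⟩ := exists_nat_cast hF
    ((g : Matrix (Fin 2) (Fin 2) F) 0 0 + (g : Matrix (Fin 2) (Fin 2) F) 1 1)
  obtain ⟨h0, h1, h2, h3, h4, h5, h6⟩ := psl7_matrix hF g n hn
  interval_cases n
  · exact Or.inl (mk_pow_eq_one g 2 (Or.inr (h0 rfl)))
  · exact Or.inr (Or.inl (mk_pow_eq_one g 3 (Or.inr (h1 rfl))))
  · exact Or.inr (Or.inr (Or.inr (mk_pow_eq_one g 7 (Or.inl (h2 rfl)))))
  · exact Or.inr (Or.inr (Or.inl (mk_pow_eq_one g 4 (Or.inr (h3 rfl)))))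
  · exact Or.inr (Or.inr (Or.inl (mk_pow_eq_one g 4 (Or.inr (h4 rfl)))))
  · exact Or.inr (Or.inr (Or.inr (mk_pow_eq_one g 7 (Or.inr (h5 rfl)))))
  · exact Or.inr (Or.inl (mk_pow_eq_one g 3 (Or.inl (h6 rfl))))

theorem psl7_no_edge (hF : Fintype.card F = 7) (p q : ℕ) (hp : p.Prime) (hq : q.Prime)
    (hpq : p ≠ q) :
    ¬ ∃ g : Matrix.ProjectiveSpecialLinearGroup (Fin 2) F, orderOf g = p * q := by
  rintro ⟨g, hg⟩
  rcases psl7_pow hF g with h | h | h | h
  · have := orderOf_dvd_of_pow_eq_one h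
    rw [hg] at this
    exact not_pq_dvd_prime_pow (k := 1) hp hq hpq Nat.prime_two (by simpa using this)
  · have := orderOf_dvd_of_pow_eq_one h
    rw [hg] at this
    exact not_pq_dvd_prime_pow (k := 1) hp hq hpq Nat.prime_three (by simpa using this)
  · have := orderOf_dvd_of_pow_eq_one h
    rw [hg] at this
    exact not_pq_dvd_prime_pow (k := 2) hp hq hpq Nat.prime_two (by norm_num; exact this)
  · have := orderOf_dvd_of_pow_eq_one h
    rw [hg] at this
    exact not_pq_dvd_prime_pow (k := 1) hp hq hpq (by norm_num : Nat.Prime 7) (by simpa using this)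

theorem psl7_primes (hF : Fintype.card F = 7) (p : ℕ) (hp : p.Prime) :
    p ∣ Nat.card (Matrix.ProjectiveSpecialLinearGroup (Fin 2) F) ↔ p = 2 ∨ p = 3 ∨ p = 7 := by
  classical
  constructor
  · intro h
    have := Fact.mk hp
    obtain ⟨g, hg⟩ := exists_prime_orderOf_dvd_card' p h
    rcases psl7_pow hF g with h1 | h1 | h1 | h1
    · have h2 := orderOf_dvd_of_pow_eq_one h1
      rw [hg] at h2
      exact Or.inl ((Nat.prime_dvd_prime_iff_eq hp Nat.prime_two).mp h2)
    · have h2 := orderOf_dvd_of_pow_eq_one h1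
      rw [hg] at h2
      exact Or.inr (Or.inl ((Nat.prime_dvd_prime_iff_eq hp Nat.prime_three).mp h2))
    · have h2 := orderOf_dvd_of_pow_eq_one h1
      rw [hg] at h2
      have h3 : p ∣ 2 ^ 2 := by norm_num; exact h2
      exact Or.inl ((Nat.prime_dvd_prime_iff_eq hp Nat.prime_two).mp (hp.dvd_of_dvd_pow h3))
    · have h2 := orderOf_dvd_of_pow_eq_one h1
      rw [hg] at h2
      exact Or.inr (Or.inr ((Nat.prime_dvd_prime_iff_eq hp (by norm_num)).mp h2))
  · rintro (rfl | rfl | rfl)
    · let U : Matrix.SpecialLinearGroup (Fin 2) F :=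
        ⟨!![0, -1; 1, 0], by simp [Matrix.det_fin_two]⟩
      have hn : (U : Matrix (Fin 2) (Fin 2) F) 0 0 + (U : Matrix (Fin 2) (Fin 2) F) 1 1
          = ((0 : ℕ) : F) := by simp [U]
      have h1 := mk_pow_eq_one U 2 (Or.inr ((psl7_matrix hF U 0 hn).1 rfl))
      have h2 := mk_ne_one U (Or.inr (by simp [U]))
      have := Fact.mk Nat.prime_two
      have h3 := orderOf_eq_prime h1 h2
      have h4 := orderOf_dvd_natCard
        (QuotientGroup.mk U : Matrix.ProjectiveSpecialLinearGroup (Fin 2) F)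
      rwa [h3] at h4
    · let U : Matrix.SpecialLinearGroup (Fin 2) F :=
        ⟨!![0, -1; 1, 1], by simp [Matrix.det_fin_two]⟩
      have hn : (U : Matrix (Fin 2) (Fin 2) F) 0 0 + (U : Matrix (Fin 2) (Fin 2) F) 1 1
          = ((1 : ℕ) : F) := by simp [U]
      have h1 := mk_pow_eq_one U 3 (Or.inr ((psl7_matrix hF U 1 hn).2.1 rfl))
      have h2 := mk_ne_one U (Or.inr (by simp [U]))
      have := Fact.mk Nat.prime_three
      have h3 := orderOf_eq_prime h1 h2
      have h4 := orderOf_dvd_natCard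
        (QuotientGroup.mk U : Matrix.ProjectiveSpecialLinearGroup (Fin 2) F)
      rwa [h3] at h4
    · let U : Matrix.SpecialLinearGroup (Fin 2) F :=
        ⟨!![1, 1; 0, 1], by simp [Matrix.det_fin_two]⟩
      have hn : (U : Matrix (Fin 2) (Fin 2) F) 0 0 + (U : Matrix (Fin 2) (Fin 2) F) 1 1
          = ((2 : ℕ) : F) := by simp [U]; norm_num
      have h1 := mk_pow_eq_one U 7 (Or.inl ((psl7_matrix hF U 2 hn).2.2.1 rfl))
      have h2 := mk_ne_one U (Or.inl (by simp [U]))
      have := Fact.mk (by norm_num : Nat.Prime 7)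
      have h3 := orderOf_eq_prime h1 h2
      have h4 := orderOf_dvd_natCard
        (QuotientGroup.mk U : Matrix.ProjectiveSpecialLinearGroup (Fin 2) F)
      rwa [h3] at h4

end PSL7

theorem result_aux {F : Type u} [Field F] [Fintype F] (hF : Fintype.card F = 7) (N : ℕ) :
    ∃ (H : Type) (_ : Group H) (_ : Finite H), N < Nat.card H ∧
      ((∀ p : ℕ, p.Prime → (p ∣ Nat.card (Matrix.ProjectiveSpecialLinearGroup (Fin 2) F) ↔ p ∣ Nat.card H)) ∧
      (∀ p q : ℕ, p.Prime → q.Prime → p ≠ q → ((∃ g : (Matrix.ProjectiveSpecialLinearGroup (Fin 2) F), orderOf g = p * q) ↔ (∃ g : H, orderOf g = p * q)))) := by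
  classical
  have hp2 := Fact.mk Nat.prime_two
  letI : Fintype (GaloisField 2 3) := Fintype.ofFinite _
  have hK : Fintype.card (GaloisField 2 3) = 8 := by
    rw [← Nat.card_eq_fintype_card, GaloisField.card 2 3 (by norm_num)]
    norm_num
  obtain ⟨H, iG, iF, hN, h1, h2⟩ := Cfsg.Agent.S3660.aff_graph (GaloisField 2 3) N
  refine ⟨H, iG, iF, hN, ?_, ?_⟩
  · intro p hp
    rw [← h1 p hp, psl7_primes hF p hp, sl8_primes hK p hp]
  · intro p q hp hq hpq
    rw [← h2 p q hp hq hpq]
    constructor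
    · intro h; exact absurd h (psl7_no_edge hF p q hp hq hpq)
    · intro h; exact absurd h (sl8_no_edge hK p q hp hq hpq)



/-- The prime graph of a finite group has the prime divisors of its order as vertices, two distinct primes p, q being joined when the group has an element of order pq; two groups have the same prime graph when they have the same prime divisors and the same joined pairs. Let F be the field with 7 elements. There are finite groups of arbitrarily large order with the same prime graph as PSL(2,F) (the graph on {2, 3, 7} with no edges, which is also the prime graph of PSL(2,8)). -/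
theorem result {F : Type*} [Field F] [Fintype F] (hF : Fintype.card F = 7) (N : ℕ) :
    ∃ (H : Type) (_ : Group H) (_ : Finite H), N < Nat.card H ∧
      ((∀ p : ℕ, p.Prime → (p ∣ Nat.card (Matrix.ProjectiveSpecialLinearGroup (Fin 2) F) ↔ p ∣ Nat.card H)) ∧
      (∀ p q : ℕ, p.Prime → q.Prime → p ≠ q → ((∃ g : (Matrix.ProjectiveSpecialLinearGroup (Fin 2) F), orderOf g = p * q) ↔ (∃ g : H, orderOf g = p * q)))) := by
  exact result_aux hF N

end Cfsg.Agent.S3678
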