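import Cfsg.Statements.S3681
import Mathlib

set_option autoImplicit false
open Cfsg

namespace Cfsg.Agent.S3681

/-- two permutations whose supports meet in exactly one point have a 3-cycle as commutator -/
theorem three_cycle_of_supports {Ω : Type*} [Fintype Ω] [DecidableEq Ω] (Δ : Finset Ω) (α : Ω)
    (hαΔ : α ∉ Δ) (x y : Equiv.Perm Ω)
    (hx : ∀ z, z ∉ Δ → z ≠ α → x z = z) (hy : ∀ z ∈ Δ, y z = z)
    (hxα : x α ≠ α) (hyα : y α ≠ α) :
    (x * y * x⁻¹ * y⁻¹).IsThreeCycle := by
  have ais : ∀ (f : Equiv.Perm Ω) (z : Ω), f (f⁻¹ z) = z := fun f z => by simp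
  have ias : ∀ (f : Equiv.Perm Ω) (z : Ω), f⁻¹ (f z) = z := fun f z => by simp
  have hxi : ∀ z, z ∉ Δ → z ≠ α → x⁻¹ z = z := by
    intro z h1 h2
    rw [Equiv.Perm.inv_eq_iff_eq]; exact (hx z h1 h2).symm
  have hyi : ∀ z ∈ Δ, y⁻¹ z = z := by
    intro z h1
    rw [Equiv.Perm.inv_eq_iff_eq]; exact (hy z h1).symm
  -- points moved by x lie in Δ ∪ {α}; points moved by y lie outside Δ
  have hxm : ∀ z, x z ≠ z → z ≠ α → z ∈ Δ := by
    intro z h1 h2
    by_contra h3
    exact h1 (hx z h3 h2)
  have hym : ∀ z, y z ≠ z → z ∉ Δ := fun z h1 h2 => h1 (hy z h2)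
  set b := x α with hb
  set c := y α with hc
  have hbΔ : b ∈ Δ := by
    apply hxm b
    · intro h; exact hxα (x.injective h)
    · exact hxα
  have hcΔ : c ∉ Δ := by
    apply hym c
    intro h; exact hyα (y.injective h)
  have hab : α ≠ b := fun h => hxα h.symm
  have hac : α ≠ c := fun h => hyα h.symm
  have hbc : b ≠ c := fun h => hcΔ (h ▸ hbΔ)
  have key : x * y * x⁻¹ * y⁻¹ = Equiv.swap α c * Equiv.swap α b := by
    ext z
    simp only [Equiv.Perm.mul_apply]
    by_cases hza : z = α
    · subst hza
      -- y⁻¹ α is moved by y, so outside Δ and ≠ α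
      have h1 : y⁻¹ z ∉ Δ := by
        apply hym
        rw [ais]
        intro h
        apply hyα
        have := congrArg y h
        rw [ais] at this
        exact this
      have h2 : y⁻¹ z ≠ z := by
        intro h
        apply hyα
        have := congrArg y h
        rw [ais] at this
        exact this.symm
      rw [hxi _ h1 h2, ais, Equiv.swap_apply_left,
        Equiv.swap_apply_of_ne_of_ne hab.symm hbc]
    · by_cases hzb : z = b
      · subst hzb
        rw [hyi _ hbΔ, hb, ias, ← hc, hx c hcΔ (Ne.symm hac),
          Equiv.swap_apply_right, Equiv.swap_apply_left]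
      · by_cases hzc : z = c
        · subst hzc
          rw [hc, ias]
          have h1 : x⁻¹ α ≠ α := by
            intro h
            apply hxα
            have := congrArg x h
            rw [ais] at this
            exact this.symm
          have h2 : x⁻¹ α ∈ Δ := by
            apply hxm _ _ h1
            rw [ais]
            exact fun h => h1 h.symm
          rw [hy _ h2, ais, ← hc,
            Equiv.swap_apply_of_ne_of_ne (Ne.symm hac) (Ne.symm hbc), Equiv.swap_apply_right]
        · rw [Equiv.swap_apply_of_ne_of_ne hza hzb, Equiv.swap_apply_of_ne_of_ne hza hzc]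
          by_cases hzΔ : z ∈ Δ
          · rw [hyi z hzΔ]
            by_cases hxz : x z = z
            · have : x⁻¹ z = z := by rw [Equiv.Perm.inv_eq_iff_eq]; exact hxz.symm
              rw [this, hy z hzΔ, hxz]
            · have h1 : x (x⁻¹ z) ≠ x⁻¹ z := by
                rw [ais]
                intro h
                apply hxz
                have := congrArg x h
                rw [ais] at this
                exact this
              have h2 : x⁻¹ z ≠ α := by
                intro h
                apply hzb
                have := congrArg x h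
                rw [ais] at this
                exact this
              rw [hy _ (hxm _ h1 h2), ais]
          · by_cases hyz : y z = z
            · have : y⁻¹ z = z := by rw [Equiv.Perm.inv_eq_iff_eq]; exact hyz.symm
              rw [this, hxi z hzΔ hza, hyz, hx z hzΔ hza]
            · have h1 : y (y⁻¹ z) ≠ y⁻¹ z := by
                rw [ais]
                intro h
                apply hyz
                have := congrArg y h
                rw [ais] at this
                exact this
              have h2 : y⁻¹ z ≠ α := by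
                intro h
                apply hzc
                have := congrArg y h
                rw [ais] at this
                exact this
              rw [hxi _ (hym _ h1) h2, ais, hx z hzΔ hza]
  rw [key]
  exact Equiv.Perm.isThreeCycle_swap_mul_swap_same hac hab (Ne.symm hbc)

theorem bochert_perm {Ω : Type*} [Fintype Ω] [DecidableEq Ω] (P : Subgroup (Equiv.Perm Ω))
    (hprim : MulAction.IsPreprimitive P Ω) (hA : ¬ alternatingGroup Ω ≤ P) :
    Nat.card P * Nat.factorial ((Fintype.card Ω + 1) / 2) ≤ Nat.factorial (Fintype.card Ω) := by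
  classical
  let good : Finset Ω → Prop := fun Δ => ∀ σ ∈ P, (∀ z, z ∉ Δ → σ z = z) → σ = 1
  have hgood0 : good ∅ := by
    intro σ _ h
    ext z
    simpa using h z (by simp)
  obtain ⟨Δ, hΔmem, hΔmax⟩ := Finset.exists_max_image (Finset.univ.filter good) Finset.card
    ⟨∅, by simp [hgood0]⟩
  have hΔ : good Δ := (Finset.mem_filter.mp hΔmem).2
  have hmax : ∀ Δ' : Finset Ω, good Δ' → Δ'.card ≤ Δ.card := fun Δ' h =>
    hΔmax Δ' (Finset.mem_filter.mpr ⟨Finset.mem_univ _, h⟩)
  -- claim 1
  have h1 : Fintype.card Ω ≤ 2 * Δ.card := by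
    by_contra hlt
    push Not at hlt
    have hcompl : Δ.card < Δᶜ.card := by
      rw [Finset.card_compl]; omega
    have hng : ¬ good Δᶜ := fun h => absurd (hmax _ h) (by omega)
    simp only [good] at hng
    push Not at hng
    obtain ⟨y, hyP, hyfix, hy1⟩ := hng
    have hy : ∀ z ∈ Δ, y z = z := fun z hz => hyfix z (by simpa using hz)
    obtain ⟨α, hα⟩ : ∃ α, y α ≠ α := by
      by_contra h
      push Not at h
      exact hy1 (Equiv.ext h)
    have hαΔ : α ∉ Δ := fun h => hα (hy α h)
    have hng2 : ¬ good (insert α Δ) := fun h => absurd (hmax _ h) (by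
      rw [Finset.card_insert_of_notMem hαΔ]; omega)
    simp only [good] at hng2
    push Not at hng2
    obtain ⟨x, hxP, hxfix, hx1⟩ := hng2
    have hx : ∀ z, z ∉ Δ → z ≠ α → x z = z := fun z hz hza => hxfix z (by simp [hz, hza])
    have hxα : x α ≠ α := by
      intro h
      apply hx1
      apply hΔ x hxP
      intro z hz
      by_cases hza : z = α
      · rw [hza]; exact h
      · exact hx z hz hza
    have h3 := three_cycle_of_supports Δ α hαΔ x y hx hy hxα hα
    have hmem : x * y * x⁻¹ * y⁻¹ ∈ P :=
      P.mul_mem (P.mul_mem (P.mul_mem hxP hyP) (P.inv_mem hxP)) (P.inv_mem hyP)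
    exact hA (Equiv.Perm.alternatingGroup_le_of_isPreprimitive_of_isThreeCycle_mem hprim h3 hmem)
  -- claim 2
  have h2 : Nat.card P * Nat.factorial Δ.card ≤ Nat.factorial (Fintype.card Ω) := by
    let f : P × Equiv.Perm {z // z ∈ Δ} → Equiv.Perm Ω := fun ps =>
      (ps.1 : Equiv.Perm Ω) * Equiv.Perm.ofSubtype ps.2
    have hf : Function.Injective f := by
      rintro ⟨p, s⟩ ⟨p', s'⟩ h
      have h' : (p : Equiv.Perm Ω) * Equiv.Perm.ofSubtype s
          = (p' : Equiv.Perm Ω) * Equiv.Perm.ofSubtype s' := h
      have h3 : (p' : Equiv.Perm Ω)⁻¹ * p = Equiv.Perm.ofSubtype (s' * s⁻¹) := by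
        rw [map_mul, map_inv, inv_mul_eq_iff_eq_mul, ← mul_assoc, ← h', mul_assoc,
          mul_inv_cancel, mul_one]
      have h4 : (p' : Equiv.Perm Ω)⁻¹ * p = 1 := by
        apply hΔ _ (P.mul_mem (P.inv_mem p'.2) p.2)
        intro z hz
        rw [h3]
        exact Equiv.Perm.ofSubtype_apply_of_not_mem _ hz
      have h5 : (p : Equiv.Perm Ω) = p' := by
        rw [inv_mul_eq_one] at h4; exact h4.symm
      have h6 : s = s' := by
        apply Equiv.Perm.ofSubtype_injective
        rw [h5] at h'
        exact mul_left_cancel h'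
      rw [Prod.mk.injEq]
      exact ⟨Subtype.ext h5, h6⟩
    have hc := Nat.card_le_card_of_injective f hf
    have e1 : Nat.card {z // z ∈ Δ} = Δ.card := by simp
    have e2 : Nat.card Ω = Fintype.card Ω := Nat.card_eq_fintype_card
    rw [Nat.card_prod, Nat.card_perm, Nat.card_perm, e1, e2] at hc
    exact hc
  have h3 : (Fintype.card Ω + 1) / 2 ≤ Δ.card := by omega
  calc Nat.card P * Nat.factorial ((Fintype.card Ω + 1) / 2)
      ≤ Nat.card P * Nat.factorial Δ.card := Nat.mul_le_mul_left _ (Nat.factorial_le h3)
    _ ≤ _ := h2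

/-- Bochert's bound for primitive groups. Let a finite group G act faithfully and primitively on a finite set Ω with n elements, and suppose the image of G in the symmetric group of Ω does not contain the alternating group of Ω. Then |G| · ⌊(n + 1)/2⌋! ≤ n!, that is, the index of G in the symmetric group is at least ⌊(n + 1)/2⌋!. -/
theorem result {G Ω : Type*} [Group G] [Finite G] [MulAction G Ω] [FaithfulSMul G Ω] [Fintype Ω] [DecidableEq Ω]
    (hprim : MulAction.IsPreprimitive G Ω) (hA : ¬ alternatingGroup Ω ≤ (MulAction.toPermHom G Ω).range) :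
    Nat.card G * Nat.factorial ((Fintype.card Ω + 1) / 2) ≤ Nat.factorial (Fintype.card Ω) := by
  have hinj : Function.Injective (MulAction.toPermHom G Ω) := MulAction.toPerm_injective
  have hcard : Nat.card G = Nat.card (MulAction.toPermHom G Ω).range :=
    Nat.card_congr (MonoidHom.ofInjective hinj).toEquiv
  let f : Ω →ₑ[(MulAction.toPermHom G Ω).rangeRestrict] Ω :=
    { toFun := id, map_smul' := fun g x => rfl }
  have hprim' : MulAction.IsPreprimitive (MulAction.toPermHom G Ω).range Ω :=
    MulAction.IsPreprimitive.of_surjective (f := f) Function.surjective_id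
  rw [hcard]
  exact bochert_perm _ hprim' hA

end Cfsg.Agent.S3681
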