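import Cfsg.Statements.S3683
-- import your own Cfsg.Agent.* helpers here

set_option autoImplicit false
open Cfsg

namespace Cfsg.Agent.S3683

/-- Let a finite group G act faithfully and primitively on a set Ω, and suppose the stabilizer of a point a fixes a second point b ≠ a (a suborbit of length 1 other than {a}). Then the stabilizer of a is trivial and G is cyclic of prime order. -/
theorem result {G Ω : Type*} [Group G] [Finite G] [MulAction G Ω] [FaithfulSMul G Ω] [Finite Ω]
    (hprim : MulAction.IsPreprimitive G Ω) (a b : Ω) (hab : a ≠ b) (hfix : ∀ g : G, g • a = a → g • b = b) :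
    MulAction.stabilizer G a = ⊥ ∧ IsCyclic G ∧ (Nat.card G).Prime := by
  classical
  haveI : Nontrivial Ω := ⟨⟨a, b, hab⟩⟩
  haveI := hprim
  haveI : MulAction.IsPretransitive G Ω := hprim.toIsPretransitive
  have hco : IsCoatom (MulAction.stabilizer G a) :=
    MulAction.IsPreprimitive.isCoatom_stabilizer_of_isPreprimitive G a
  obtain ⟨g, hg⟩ := MulAction.exists_smul_eq G a b
  have hle : MulAction.stabilizer G a ≤ MulAction.stabilizer G b := fun x hx => hfix x hx
  have hcard : Nat.card (MulAction.stabilizer G a) = Nat.card (MulAction.stabilizer G b) := by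
    rw [← hg, MulAction.stabilizer_smul_eq_stabilizer_map_conj]
    exact (Subgroup.card_map_of_injective (MulAut.conj g).injective).symm
  have heq : MulAction.stabilizer G a = MulAction.stabilizer G b :=
    Subgroup.eq_of_le_of_card_ge hle hcard.ge
  have hgN : g ∈ Subgroup.normalizer (MulAction.stabilizer G a : Set G) := by
    rw [Subgroup.mem_normalizer_iff]
    intro h
    constructor
    · intro hh
      rw [heq, MulAction.mem_stabilizer_iff, ← hg, mul_smul, mul_smul, inv_smul_smul]
      rw [MulAction.mem_stabilizer_iff] at hh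
      rw [hh]
    · intro hh
      rw [heq, MulAction.mem_stabilizer_iff, ← hg, mul_smul, mul_smul, inv_smul_smul] at hh
      rw [MulAction.mem_stabilizer_iff]
      exact smul_left_cancel g hh
  have hgS : g ∉ MulAction.stabilizer G a := by
    intro h
    rw [MulAction.mem_stabilizer_iff] at h
    exact hab (h.symm.trans hg)
  have hlt : MulAction.stabilizer G a < Subgroup.normalizer (MulAction.stabilizer G a : Set G) := by
    refine lt_of_le_of_ne Subgroup.le_normalizer ?_
    intro h
    rw [← h] at hgN
    exact hgS hgN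
  have hNtop : Subgroup.normalizer (MulAction.stabilizer G a : Set G) = ⊤ := hco.2 _ hlt
  have hnormal : (MulAction.stabilizer G a).Normal := Subgroup.normalizer_eq_top_iff.mp hNtop
  have hbot : MulAction.stabilizer G a = ⊥ := by
    rw [eq_bot_iff]
    intro x hx
    rw [Subgroup.mem_bot]
    apply FaithfulSMul.eq_of_smul_eq_smul (α := Ω)
    intro c
    obtain ⟨h, rfl⟩ := MulAction.exists_smul_eq G a c
    have h1 : h⁻¹ * x * h ∈ MulAction.stabilizer G a := by
      have := hnormal.conj_mem x hx h⁻¹
      simpa using this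
    rw [MulAction.mem_stabilizer_iff] at h1
    rw [one_smul]
    calc x • h • a = h • ((h⁻¹ * x * h) • a) := by simp [mul_smul]
      _ = h • a := by rw [h1]
  refine ⟨hbot, ?_⟩
  rw [hbot] at hco
  have hg1 : g ≠ 1 := by
    rintro rfl
    rw [one_smul] at hg
    exact hab hg
  have hcardG : Nat.card G ≠ 1 := by
    intro h
    haveI : Subsingleton G := (Nat.card_eq_one_iff_unique.mp h).1
    exact hg1 (Subsingleton.elim _ _)
  obtain ⟨p, hp, hpd⟩ := Nat.exists_prime_and_dvd hcardG
  have := Fact.mk hp
  obtain ⟨y, hy⟩ := exists_prime_orderOf_dvd_card' p hpd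
  have hy1 : y ≠ 1 := by
    rintro rfl
    rw [orderOf_one] at hy
    exact hp.one_lt.ne hy
  have hz : Subgroup.zpowers y = ⊤ := by
    apply hco.2
    rw [bot_lt_iff_ne_bot]
    intro h
    exact hy1 (Subgroup.zpowers_eq_bot.mp h)
  refine ⟨isCyclic_iff_exists_zpowers_eq_top.mpr ⟨y, hz⟩, ?_⟩
  have : Nat.card G = p := by
    rw [← hy, ← Nat.card_zpowers, hz, Subgroup.card_top]
  rw [this]
  exact hp

end Cfsg.Agent.S3683
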