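import Cfsg.Statements.S3684
import Mathlib
import Cfsg.Agent.S0206

set_option autoImplicit false
open Cfsg

namespace Cfsg.Agent.S3684

section
open MulAction Cfsg.Agent.Lib.helper1

universe u v

variable {G : Type u} {Ω : Type v} [Group G] [MulAction G Ω]

theorem mem_zpowers_two {t s : G} (ht : t * t = 1) (hs : s ∈ Subgroup.zpowers t) :
    s = 1 ∨ s = t := by
  obtain ⟨i, rfl⟩ := Subgroup.mem_zpowers_iff.mp hs
  have h2 : t ^ (2 : ℤ) = 1 := by
    rw [show (2 : ℤ) = ((2 : ℕ) : ℤ) from rfl, zpow_natCast, pow_two, ht]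
  have hi : t ^ i = t ^ (i % 2) := by
    conv_lhs => rw [← Int.mul_ediv_add_emod i 2]
    rw [zpow_add, zpow_mul, h2, one_zpow, one_mul]
  rw [hi]
  rcases Int.emod_two_eq_zero_or_one i with h | h
  · left; rw [h, zpow_zero]
  · right; rw [h, zpow_one]

theorem aux [Finite G] [FaithfulSMul G Ω] [Finite Ω]
    (hprim : MulAction.IsPreprimitive G Ω) (a b : Ω)
    (h2 : Nat.card (MulAction.orbit (MulAction.stabilizer G a) b) = 2) :
    Nat.card (MulAction.stabilizer G a) = 2 ∧
      ∃ p : ℕ, p.Prime ∧ Nonempty (G ≃* DihedralGroup p) := by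
  classical
  have htrans : IsPretransitive G Ω := hprim.toIsPretransitive
  set Ga := stabilizer G a with hGa
  set Gb := stabilizer G b with hGb
  have hab : b ≠ a := by
    rintro rfl
    have : MulAction.orbit Ga b = {b} := by
      ext x
      constructor
      · rintro ⟨g, rfl⟩
        exact g.2
      · rintro rfl
        exact mem_orbit_self _
    rw [this] at h2
    simp at h2
  haveI : Nontrivial Ω := ⟨⟨b, a, hab⟩⟩
  have hco : IsCoatom Ga := IsPreprimitive.isCoatom_stabilizer_of_isPreprimitive G a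
  set L : Subgroup G := Ga ⊓ Gb with hL
  have hidx : (stabilizer Ga b).index = 2 := by
    rw [MulAction.index_stabilizer, ← Nat.card_coe_set_eq]; exact h2
  have hLsub : L.subgroupOf Ga = stabilizer Ga b := by
    ext g
    rw [Subgroup.mem_subgroupOf, hL, Subgroup.mem_inf, mem_stabilizer_iff]
    constructor
    · intro h; exact h.2
    · intro h; exact ⟨g.2, h⟩
  have hLa : (L.subgroupOf Ga).index = 2 := by rw [hLsub, hidx]
  have hcardab : Nat.card Ga = Nat.card Gb := by
    have h1 : Ga.index = Nat.card Ω := MulAction.index_stabilizer_of_transitive G a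
    have h2 : Gb.index = Nat.card Ω := MulAction.index_stabilizer_of_transitive G b
    have h3 := Subgroup.card_mul_index Ga
    have h4 := Subgroup.card_mul_index Gb
    rw [h1] at h3
    rw [h2, ← h3] at h4
    have hpos : 0 < Nat.card Ω := Nat.card_pos
    exact (Nat.eq_of_mul_eq_mul_right hpos h4).symm
  have hLc1 : Nat.card (L.subgroupOf Ga) = Nat.card L :=
    Nat.card_congr (Subgroup.subgroupOfEquivOfLe (inf_le_left : L ≤ Ga)).toEquiv
  have hLc2 : Nat.card (L.subgroupOf Gb) = Nat.card L :=
    Nat.card_congr (Subgroup.subgroupOfEquivOfLe (inf_le_right : L ≤ Gb)).toEquiv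
  have hLcard : Nat.card L * 2 = Nat.card Ga := by
    have := Subgroup.card_mul_index (L.subgroupOf Ga)
    rw [hLa, hLc1] at this
    exact this
  have hLpos : 0 < Nat.card L := Nat.card_pos
  have hLb : (L.subgroupOf Gb).index = 2 := by
    have := Subgroup.card_mul_index (L.subgroupOf Gb)
    rw [hLc2, ← hcardab, ← hLcard] at this
    exact Nat.eq_of_mul_eq_mul_left hLpos this
  have hNa : Ga ≤ Subgroup.normalizer (L : Set G) :=
    (Subgroup.normal_subgroupOf_iff_le_normalizer inf_le_left).mp
      (Subgroup.normal_of_index_eq_two hLa)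
  have hNb : Gb ≤ Subgroup.normalizer (L : Set G) :=
    (Subgroup.normal_subgroupOf_iff_le_normalizer inf_le_right).mp
      (Subgroup.normal_of_index_eq_two hLb)
  have hsup : Ga ⊔ Gb = ⊤ := by
    apply hco.2
    apply lt_of_le_of_ne le_sup_left
    intro h
    have hle : Gb ≤ Ga := by rw [h]; exact le_sup_right
    have hLeq : L = Gb := by rw [hL]; exact inf_eq_right.mpr hle
    rw [hLeq, ← hcardab] at hLcard
    have : 0 < Nat.card Ga := Nat.card_pos
    omega
  have hLn : L.Normal := by
    rw [← Subgroup.normalizer_eq_top_iff, eq_top_iff, ← hsup]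
    exact sup_le hNa hNb
  have hLbot : ∀ g ∈ L, g = 1 := by
    intro g hg
    apply FaithfulSMul.eq_of_smul_eq_smul (α := Ω)
    intro ω
    obtain ⟨k, rfl⟩ := exists_smul_eq G a ω
    have h1 : k⁻¹ * g * k⁻¹⁻¹ ∈ L := hLn.conj_mem g hg k⁻¹
    have h2 : (k⁻¹ * g * k⁻¹⁻¹) • a = a := (Subgroup.mem_inf.mp h1).1
    rw [inv_inv, mul_smul, mul_smul, inv_smul_eq_iff] at h2
    rw [one_smul, h2]
  have hL1 : Nat.card L = 1 := by
    rw [Nat.card_eq_one_iff_unique]
    refine ⟨⟨fun x y => ?_⟩, ⟨1⟩⟩
    apply Subtype.ext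
    rw [hLbot x.1 x.2, hLbot y.1 y.2]
  have hGa2 : Nat.card Ga = 2 := by rw [← hLcard, hL1]
  refine ⟨hGa2, ?_⟩
  -- the involution
  haveI : Fact (Nat.Prime 2) := ⟨Nat.prime_two⟩
  obtain ⟨t', ht'⟩ := exists_prime_orderOf_dvd_card' (G := Ga) 2 (by rw [hGa2])
  set t : G := (t' : G) with ht
  have hto : orderOf t = 2 := by rw [ht, Subgroup.orderOf_coe]; exact ht'
  have htt : t * t = 1 := by rw [← pow_two, ← hto]; exact pow_orderOf_eq_one t
  have htinv : t⁻¹ = t := inv_eq_of_mul_eq_one_left htt
  have ht1 : t ≠ 1 := by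
    intro h
    rw [h, orderOf_one] at hto
    omega
  have hGaz : Subgroup.zpowers t = Ga := by
    apply Subgroup.eq_of_le_of_card_ge
    · rw [Subgroup.zpowers_le]; exact t'.2
    · rw [Nat.card_zpowers, hto, hGa2]
  -- a conjugate different from t
  have hexk : ∃ k : G, k * t * k⁻¹ ≠ t := by
    by_contra h
    push Not at h
    apply ht1
    apply FaithfulSMul.eq_of_smul_eq_smul (α := Ω)
    intro ω
    obtain ⟨k, rfl⟩ := exists_smul_eq G a ω
    have h1 := h k⁻¹
    rw [inv_inv] at h1
    have h2 : t • a = a := t'.2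
    rw [one_smul]
    have h3 : t • k • a = k • ((k⁻¹ * t * k) • a) := by
      rw [← mul_smul, ← mul_smul]
      congr 1
      group
    rw [h3, h1, h2]
  obtain ⟨k, hk⟩ := hexk
  set s : G := k * t * k⁻¹ with hs
  have hss : s * s = 1 := by
    rw [hs]
    calc k * t * k⁻¹ * (k * t * k⁻¹) = k * (t * t) * k⁻¹ := by group
      _ = 1 := by rw [htt]; group
  have hs1 : s ≠ 1 := by
    intro h
    apply ht1
    have : t = k⁻¹ * s * k := by rw [hs]; group
    rw [this, h]; group
  have hso : orderOf s = 2 := orderOf_eq_prime (by rw [pow_two]; exact hss) hs1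
  have hts : t ≠ s := fun h => hk h.symm
  have hsGa : s ∉ Ga := by
    rw [← hGaz]
    intro h
    rcases mem_zpowers_two htt h with h' | h'
    · exact hs1 h'
    · exact hts h'.symm
  have hcl : Subgroup.closure ({t, s} : Set G) = ⊤ := by
    apply hco.2
    apply lt_of_le_of_ne
    · rw [← hGaz, Subgroup.zpowers_le]
      exact Subgroup.subset_closure (Set.mem_insert _ _)
    · intro h
      apply hsGa
      rw [h]
      exact Subgroup.subset_closure (Set.mem_insert_of_mem _ rfl)
  obtain ⟨e0⟩ := Cfsg.Agent.S0206.result t s hto hso hts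
  set m := orderOf (t * s) with hm
  have e : G ≃* DihedralGroup m :=
    (Subgroup.topEquiv.symm.trans (MulEquiv.subgroupCongr hcl.symm)).trans e0
  have hGcard : Nat.card G = 2 * m := by
    rw [Nat.card_congr e.toEquiv, DihedralGroup.nat_card]
  refine ⟨m, ?_, ⟨e⟩⟩
  by_contra hnp
  have hm0 : 0 < m := orderOf_pos _
  have hm1 : m ≠ 1 := by
    intro h
    rw [hm, orderOf_eq_one_iff] at h
    apply hts
    have : s = t⁻¹ := (inv_eq_of_mul_eq_one_right h).symm
    rw [this, htinv]
  obtain ⟨d, hdm, hd2, hdlt⟩ := Nat.exists_dvd_of_not_prime2 (by omega) hnp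
  set ρ : G := t * s with hρ
  have hconj : t * ρ * t⁻¹ = ρ⁻¹ := invol_conj t s htt hss
  have hρd : ρ ^ d ≠ 1 := pow_ne_one_of_lt_orderOf (by omega) hdlt
  set u : G := t * ρ ^ d with hu
  have hnot : t ∉ Subgroup.zpowers ρ := invol_not_mem_zpowers t s hto hso hts
  have huu : u * u = 1 := by
    have h1 : t * ρ ^ d * t⁻¹ = (ρ⁻¹) ^ d := by rw [← conj_pow, hconj]
    rw [htinv] at h1
    calc u * u = (t * ρ ^ d * t) * ρ ^ d := by rw [hu]; group
      _ = 1 := by rw [h1, inv_pow, inv_mul_cancel]
  have hu1 : u ≠ 1 := by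
    intro h
    apply hnot
    have : ρ ^ d = t := by
      have : ρ ^ d = t⁻¹ * u := by rw [hu]; group
      rw [this, h, mul_one, htinv]
    rw [← this]
    exact Subgroup.pow_mem _ (Subgroup.mem_zpowers ρ) d
  have huo : orderOf u = 2 := orderOf_eq_prime (by rw [pow_two]; exact huu) hu1
  have htu : t ≠ u := by
    intro h
    apply hρd
    have : ρ ^ d = t⁻¹ * u := by rw [hu]; group
    rw [this, ← h, inv_mul_cancel]
  have huGa : u ∉ Ga := by
    rw [← hGaz]
    intro h
    rcases mem_zpowers_two htt h with h' | h'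
    · exact hu1 h'
    · exact htu h'.symm
  have hcl2 : Subgroup.closure ({t, u} : Set G) = ⊤ := by
    apply hco.2
    apply lt_of_le_of_ne
    · rw [← hGaz, Subgroup.zpowers_le]
      exact Subgroup.subset_closure (Set.mem_insert _ _)
    · intro h
      apply huGa
      rw [h]
      exact Subgroup.subset_closure (Set.mem_insert_of_mem _ rfl)
  obtain ⟨e2⟩ := Cfsg.Agent.S0206.result t u hto huo htu
  have htu' : t * u = ρ ^ d := by
    rw [hu, ← mul_assoc, htt, one_mul]
  have hord : orderOf (t * u) = m / d := by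
    rw [htu', orderOf_pow' ρ (by omega), ← hm, Nat.gcd_eq_right hdm]
  have hcard2 : Nat.card G = 2 * (m / d) := by
    rw [← hord, ← DihedralGroup.nat_card, ← Nat.card_congr e2.toEquiv, hcl2]
    exact (Nat.card_congr Subgroup.topEquiv.toEquiv).symm
  have hlt : m / d < m := Nat.div_lt_self hm0 (by omega)
  omega
end


/-- Let a finite group G act faithfully and primitively on a set Ω, and suppose the stabilizer of a point a has an orbit of length 2. Then the stabilizer of a has order 2 and G is isomorphic to the dihedral group of order 2p for some prime p. -/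
theorem result {G Ω : Type*} [Group G] [Finite G] [MulAction G Ω] [FaithfulSMul G Ω] [Finite Ω]
    (hprim : MulAction.IsPreprimitive G Ω) (a b : Ω) (h2 : Nat.card (MulAction.orbit (MulAction.stabilizer G a) b) = 2) :
    Nat.card (MulAction.stabilizer G a) = 2 ∧ ∃ p : ℕ, p.Prime ∧ Nonempty (G ≃* DihedralGroup p) := by
  exact aux hprim a b h2

end Cfsg.Agent.S3684
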