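import Cfsg.Statements.S3696
import Mathlib

set_option autoImplicit false
open Cfsg

namespace Cfsg.Agent.S3696

section
open MulAction

universe u v

theorem amgm_real (k : ℕ) (z : Fin k → ℝ) (hz : ∀ i, 0 ≤ z i) :
    (k : ℝ) ^ k * ∏ i, z i ≤ (∑ i, z i) ^ k := by
  rcases Nat.eq_zero_or_pos k with rfl | hk
  · simp
  have hk' : (0 : ℝ) < k := by exact_mod_cast hk
  have h1 := Real.geom_mean_le_arith_mean_weighted Finset.univ (fun _ : Fin k => (1 : ℝ) / k) z
    (fun i _ => by positivity) (by simp; field_simp) (fun i _ => hz i)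
  rw [Real.finsetProd_rpow _ _ (fun i _ => hz i), ← Finset.mul_sum] at h1
  have hP : 0 ≤ ∏ i, z i := Finset.prod_nonneg (fun i _ => hz i)
  have h2 : ((∏ i, z i) ^ ((1 : ℝ) / k)) ^ k = ∏ i, z i := by
    rw [← Real.rpow_natCast, ← Real.rpow_mul hP, one_div_mul_cancel hk'.ne', Real.rpow_one]
  have h3 := pow_le_pow_left₀ (Real.rpow_nonneg hP _) h1 k
  rw [h2, mul_pow, one_div, inv_pow] at h3
  calc (k : ℝ) ^ k * ∏ i, z i ≤ (k : ℝ) ^ k * (((k : ℝ) ^ k)⁻¹ * (∑ i, z i) ^ k) := by gcongr
    _ = (∑ i, z i) ^ k := by field_simp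

theorem amgm_list (l : List ℕ) : l.length ^ l.length * l.prod ≤ l.sum ^ l.length := by
  have h := amgm_real l.length (fun i => (l.get i : ℝ)) (fun i => by positivity)
  have hp : l.prod = ∏ i, l.get i := by rw [← List.prod_ofFn, List.ofFn_get]
  have hs : l.sum = ∑ i, l.get i := by rw [← List.sum_ofFn, List.ofFn_get]
  rw [hp, hs]
  exact_mod_cast h

theorem arith_pow (p c j : ℕ) (hp : 2 ≤ p) (hc : 1 ≤ c) : p ^ c + j * p ≤ p ^ (c + j) := by
  induction j with
  | zero => simp
  | succ j ih =>
    have h1 : p ≤ p ^ (c + j) := by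
      calc p = p ^ 1 := (pow_one p).symm
        _ ≤ p ^ (c + j) := Nat.pow_le_pow_right (by omega) (by omega)
    have h2 : p ^ (c + (j + 1)) = p ^ (c + j) * p := by rw [← add_assoc, pow_succ]
    rw [h2]
    nlinarith [Nat.mul_le_mul_left (p ^ (c + j)) hp]

def om {B : Type u} [Group B] (hc : ∀ a b : B, a * b = b * a) (p : ℕ) : Subgroup B where
  carrier := {b | b ^ p = 1}
  one_mem' := one_pow p
  mul_mem' := by
    intro a b ha hb
    have hab : Commute a b := hc a b
    have ha' : a ^ p = 1 := ha
    have hb' : b ^ p = 1 := hb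
    show (a * b) ^ p = 1
    rw [hab.mul_pow, ha', hb', one_mul]
  inv_mem' := by
    intro a ha
    have ha' : a ^ p = 1 := ha
    show a⁻¹ ^ p = 1
    rw [inv_pow, ha', inv_one]

theorem mem_om {B : Type u} [Group B] (hc : ∀ a b : B, a * b = b * a) (p : ℕ) (b : B) :
    b ∈ om hc p ↔ b ^ p = 1 := Iff.rfl

theorem claim (p : ℕ) [hpf : Fact p.Prime] : ∀ (N : ℕ) (A : Type u) [Group A] [Finite A]
    (hc : ∀ a b : A, a * b = b * a) (_ : IsPGroup p A) (Ω : Type v) [MulAction A Ω] [Finite Ω]
    [FaithfulSMul A Ω], Nat.card A = N → ∀ k, Nat.card (om hc p) = p ^ k →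
    ∃ l : List ℕ, l.length = k ∧ l.sum ≤ Nat.card Ω ∧ Nat.card A ≤ l.prod := by
  intro N
  induction N using Nat.strong_induction_on with
  | _ N ih =>
    intro A _ _ hc hp Ω _ _ _ hN k hk
    have hp2 : 2 ≤ p := hpf.out.two_le
    by_cases htriv : Nat.card A = 1
    · have hk0 : k = 0 := by
        have h1 : Nat.card (om hc p) ≤ Nat.card A := Subgroup.card_le_card_group _
        rw [hk, htriv] at h1
        by_contra hne
        have h2 : p ^ 1 ≤ p ^ k := Nat.pow_le_pow_right (by omega) (by omega)
        rw [pow_one] at h2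
        omega
      exact ⟨[], by simp [hk0], by simp, by simp [htriv]⟩
    · have hpd : p ∣ Nat.card A := by
        obtain ⟨j, hj⟩ := hp.exists_card_eq
        rw [hj]
        have : j ≠ 0 := by
          rintro rfl
          exact htriv (by simpa using hj)
        exact dvd_pow_self p this
      obtain ⟨z, hz⟩ := exists_prime_orderOf_dvd_card' (G := A) p hpd
      have hz1 : z ≠ 1 := by
        rintro rfl
        rw [orderOf_one] at hz
        omega
      have hzp : z ^ p = 1 := by rw [← hz]; exact pow_orderOf_eq_one z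
      obtain ⟨x, hx⟩ : ∃ x : Ω, z • x ≠ x := by
        by_contra h
        push Not at h
        exact hz1 (FaithfulSMul.eq_of_smul_eq_smul (α := Ω) (fun x => by rw [h x, one_smul]))
      set K : Subgroup A := stabilizer A x with hK
      set O : Set Ω := orbit A x with hO
      have hzK : z ∉ K := hx
      have hKO : Nat.card K * O.ncard = Nat.card A := by
        have := Subgroup.card_mul_index K
        rwa [MulAction.index_stabilizer] at this
      obtain ⟨b, hb⟩ := hp.index K
      rw [MulAction.index_stabilizer] at hb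
      have hKlt : Nat.card K < Nat.card A := by
        apply lt_of_le_of_ne (Subgroup.card_le_card_group K)
        intro h
        have := Subgroup.eq_top_of_card_eq K h
        exact hzK (this ▸ Subgroup.mem_top z)
      let S : SubMulAction A Ω :=
        { carrier := Oᶜ
          smul_mem' := by
            intro a y hy hay
            apply hy
            obtain ⟨g, hg⟩ := hay
            refine ⟨a⁻¹ * g, ?_⟩
            show (a⁻¹ * g) • x = y
            have hg' : g • x = a • y := hg
            rw [mul_smul, hg', inv_smul_smul] }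
      have hfaith : FaithfulSMul K S := by
        refine ⟨fun {k₁ k₂} h => ?_⟩
        apply Subtype.ext
        apply FaithfulSMul.eq_of_smul_eq_smul (α := Ω)
        intro y
        by_cases hy : y ∈ O
        · obtain ⟨g, rfl⟩ := hy
          have e1 : ∀ k : K, (k : A) • g • x = g • x := by
            intro k
            rw [← mul_smul, hc, mul_smul]
            congr 1
            exact k.2
          rw [e1, e1]
        · have := h ⟨y, hy⟩
          exact congrArg Subtype.val this
      have hcK : ∀ a b : K, a * b = b * a := fun a b => Subtype.ext (hc a b)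
      have hpK : IsPGroup p K := hp.to_subgroup K
      obtain ⟨k', hk'⟩ := (hpK.to_subgroup (om hcK p)).exists_card_eq
      -- orbit-stabilizer for W
      set W : Subgroup A := om hc p with hW
      have hWst : Nat.card (stabilizer W x) = Nat.card (om hcK p) := by
        refine Nat.card_congr ⟨fun w => ⟨⟨w.1.1, w.2⟩, ?_⟩, fun k => ⟨⟨k.1.1, ?_⟩, k.1.2⟩,
          fun _ => rfl, fun _ => rfl⟩
        · show (⟨w.1.1, w.2⟩ : K) ^ p = 1
          apply Subtype.ext
          show (w.1.1) ^ p = 1
          exact w.1.2
        · show (k.1.1) ^ p = 1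
          have := congrArg Subtype.val k.2
          exact this
      have hWO : Nat.card (stabilizer W x) * (orbit W x).ncard = Nat.card W := by
        have := Subgroup.card_mul_index (stabilizer W x)
        rwa [MulAction.index_stabilizer] at this
      rw [hWst, hk', hk] at hWO
      have ht2 : 2 ≤ (orbit W x).ncard := by
        have h1 : x ∈ orbit W x := mem_orbit_self x
        have h2 : z • x ∈ orbit W x := ⟨⟨z, hzp⟩, rfl⟩
        have := (Set.one_lt_ncard_iff (Set.toFinite _)).mpr ⟨_, _, h2, h1, hx⟩
        omega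
      have htle : (orbit W x).ncard ≤ O.ncard := by
        apply Set.ncard_le_ncard _ (Set.toFinite _)
        rintro _ ⟨w, rfl⟩
        exact ⟨w.1, rfl⟩
      have hk'k : k' < k := by
        by_contra hle
        push Not at hle
        have h1 : p ^ k ≤ p ^ k' := Nat.pow_le_pow_right (by omega) hle
        have h2 : 0 < p ^ k' := Nat.pow_pos (by omega)
        nlinarith
      obtain ⟨r, hr⟩ : ∃ r, k = k' + r := ⟨k - k', by omega⟩
      have hr1 : 1 ≤ r := by omega
      have htr : (orbit W x).ncard = p ^ r := by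
        rw [hr, pow_add] at hWO
        exact Nat.eq_of_mul_eq_mul_left (Nat.pow_pos (by omega)) hWO
      have hrb : r ≤ b := by
        rw [htr, hb] at htle
        exact (Nat.pow_le_pow_iff_right (by omega)).mp htle
      obtain ⟨l, hl1, hl2, hl3⟩ :=
        ih (Nat.card K) (by rw [← hN]; exact hKlt) K hcK hpK S rfl k' hk'
      have hScard : Nat.card S + O.ncard = Nat.card Ω := by
        have h1 : Nat.card S = (Oᶜ : Set Ω).ncard := by
          rw [← Nat.card_coe_set_eq]
          exact Nat.card_congr (Equiv.subtypeEquivRight (fun _ => Iff.rfl))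
        rw [h1, add_comm]
        exact Set.ncard_add_ncard_compl O
      have hcj : b - (r - 1) + (r - 1) = b := by omega
      refine ⟨l ++ (p ^ (b - (r - 1)) :: List.replicate (r - 1) p), ?_, ?_, ?_⟩
      · rw [List.length_append, List.length_cons, List.length_replicate, hl1, hr]
        omega
      · rw [List.sum_append, List.sum_cons, List.sum_replicate, smul_eq_mul]
        have := arith_pow p (b - (r - 1)) (r - 1) hp2 (by omega)
        rw [hcj] at this
        have hb' : O.ncard = p ^ b := hb
        omega
      · rw [List.prod_append, List.prod_cons, List.prod_replicate, ← pow_add, hcj, ← hb, ← hKO]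
        exact Nat.mul_le_mul_right _ hl3

theorem aux {Ω : Type v} [Fintype Ω] [DecidableEq Ω]
    (p : ℕ) (hp : p.Prime) (A : Subgroup (Equiv.Perm Ω)) (hA : IsPGroup p A)
    (hab : IsMulCommutative A)
    (k : ℕ) (hk : Nat.card {x : A // x ^ p = 1} = p ^ k) :
    Nat.card A * k ^ k ≤ Fintype.card Ω ^ k := by
  have : Fact p.Prime := ⟨hp⟩
  have hc : ∀ a b : A, a * b = b * a := fun a b => hab.is_comm.comm a b
  have hfaith : FaithfulSMul A Ω := ⟨fun {a b} h => Subtype.ext (Equiv.ext h)⟩
  have hk' : Nat.card (om hc p) = p ^ k := by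
    rw [← hk]
    exact Nat.card_congr (Equiv.subtypeEquivRight (fun b => Iff.rfl))
  obtain ⟨l, hl1, hl2, hl3⟩ := claim p (Nat.card A) A hc hA Ω rfl k hk'
  have h1 := amgm_list l
  rw [hl1] at h1
  rw [Nat.card_eq_fintype_card] at hl2
  calc Nat.card A * k ^ k ≤ l.prod * k ^ k := Nat.mul_le_mul_right _ hl3
    _ = k ^ k * l.prod := mul_comm _ _
    _ ≤ l.sum ^ k := h1
    _ ≤ Fintype.card Ω ^ k := Nat.pow_le_pow_left hl2 k
end


/-- Let p be a prime, Ω a finite set with n ≥ p elements, and A an abelian p-subgroup of the symmetric group on Ω whose elements of order dividing p number p^k (so k is the rank of A). Then |A| · k^k ≤ n^k, that is, |A| ≤ (n/k)^k. -/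
theorem result {Ω : Type*} [Fintype Ω] [DecidableEq Ω]
    (p : ℕ) (hp : p.Prime) (hn : p ≤ Fintype.card Ω) (A : Subgroup (Equiv.Perm Ω)) (hA : IsPGroup p A) (hab : IsMulCommutative A)
    (k : ℕ) (hk : Nat.card {x : A // x ^ p = 1} = p ^ k) :
    Nat.card A * k ^ k ≤ Fintype.card Ω ^ k := by
  exact aux p hp A hA hab k hk

end Cfsg.Agent.S3696
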