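import Cfsg.Statements.S3703
-- import your own Cfsg.Agent.* helpers here
import Cfsg.Agent.S0001
import Cfsg.Agent.S0035
import Cfsg.Agent.S0042

set_option autoImplicit false
open Cfsg

namespace Cfsg.Agent.S3703

open scoped Pointwise

theorem order_lift {G Γ : Type*} [Group G] [Finite G] [Group Γ] (ψ : G →* Γ) (x : G) (h : ℕ)
    (hh : orderOf (ψ x) = h) (hx : x ^ h ≠ 1) :
    ∃ p : ℕ, p.Prime ∧ p ∣ Nat.card ψ.ker ∧ ∃ g : G, orderOf g = p * h := by
  obtain ⟨m, hm⟩ : ∃ m, m = orderOf (x ^ h) := ⟨_, rfl⟩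
  have hm1 : m ≠ 1 := by
    rw [hm]; intro h1; exact hx (orderOf_eq_one_iff.mp h1)
  have hmpos : 0 < m := by rw [hm]; exact orderOf_pos _
  have hker : x ^ h ∈ ψ.ker := by
    rw [MonoidHom.mem_ker, map_pow, ← hh]; exact pow_orderOf_eq_one _
  obtain ⟨p, hp, hpm⟩ := Nat.exists_prime_and_dvd hm1
  have hmN : m ∣ Nat.card ψ.ker := by
    have h1 : orderOf (⟨x ^ h, hker⟩ : ψ.ker) ∣ Nat.card ψ.ker := orderOf_dvd_natCard _
    rwa [← Subgroup.orderOf_coe, ← hm] at h1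
  have hho : h ∣ orderOf x := by rw [← hh]; exact orderOf_map_dvd ψ x
  have hopos : 0 < orderOf x := orderOf_pos x
  have hh0 : h ≠ 0 := by
    rintro rfl
    rw [zero_dvd_iff] at hho; omega
  have ho : orderOf x = h * m := by
    rw [hm, orderOf_pow' x hh0, Nat.gcd_eq_right hho, Nat.mul_div_cancel' hho]
  obtain ⟨t, ht⟩ := hpm
  have ht0 : t ≠ 0 := by rintro rfl; rw [mul_zero] at ht; omega
  refine ⟨p, hp, (Dvd.intro t ht.symm).trans hmN, x ^ t, ?_⟩
  have htdvd : t ∣ orderOf x := by rw [ho, ht]; exact Dvd.intro_left (h * p) (by ring)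
  rw [orderOf_pow' x ht0, Nat.gcd_eq_right htdvd, ho, ht]
  have : h * (p * t) = (p * h) * t := by ring
  rw [this, Nat.mul_div_cancel _ (Nat.pos_of_ne_zero ht0)]

theorem frob_sum {Γ V : Type*} [Group Γ] [Finite Γ] [CommGroup V] [Finite V]
    (Fb Hb : Subgroup Γ) [Fb.Normal] [Fintype Hb] (hHb : Cfsg.IsFrobeniusComplement Hb)
    (hker : Cfsg.frobeniusKernel Hb = (Fb : Set Γ)) (hcompl : Subgroup.IsComplement' Fb Hb)
    (ρ : Γ →* MulAut V) (hcop : (Nat.card Fb).Coprime (Nat.card V))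
    (hT : ∀ v : V, ∏ y : Hb, ρ (y : Γ) v = 1) :
    ∀ k ∈ Fb, ∀ v : V, ρ k v = v := by
  classical
  have : Fintype Γ := Fintype.ofFinite Γ
  have : Fintype Fb := Fintype.ofFinite Fb
  have hdisj : ∀ x : Γ, x ∈ Fb → x ∈ Hb → x = 1 := by
    intro x h1 h2
    have := hcompl.disjoint
    rw [Subgroup.disjoint_def] at this
    exact this h1 h2
  obtain ⟨e, he⟩ : ∃ e : Fb × Hb ≃ Γ, ∀ p, e p = (p.1 : Γ) * p.2 :=
    ⟨Equiv.ofBijective (fun p : Fb × Hb => (p.1 : Γ) * p.2) hcompl, fun p => rfl⟩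
  -- total product
  have htot : ∀ v : V, ∏ x : Γ, ρ x v = 1 := by
    intro v
    rw [← Equiv.prod_comp e (fun x => ρ x v), Fintype.prod_prod_type]
    have : ∀ k : Fb, ∏ y : Hb, ρ (e (k, y)) v = 1 := by
      intro k
      have h1 : ∀ y : Hb, ρ (e (k, y)) v = ρ (k : Γ) (ρ (y : Γ) v) := by
        intro y; rw [he, map_mul]; rfl
      simp only [h1]
      rw [← map_prod, hT, map_one]
    simp only [this, Finset.prod_const_one]
  -- the part outside the kernel
  have hout : ∀ v : V, ∏ x ∈ Finset.univ.filter (fun x : Γ => x ∉ Fb), ρ x v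
      = (v⁻¹) ^ Fintype.card Fb := by
    intro v
    have hbij : ∏ p ∈ (Finset.univ : Finset (Fb × Hb)).filter (fun p => p.2 ≠ 1),
        ρ ((p.1 : Γ) * p.2 * (p.1 : Γ)⁻¹) v
        = ∏ x ∈ Finset.univ.filter (fun x : Γ => x ∉ Fb), ρ x v := by
      refine Finset.prod_bij (fun p _ => (p.1 : Γ) * p.2 * (p.1 : Γ)⁻¹) ?_ ?_ ?_ ?_
      · intro p hp
        rw [Finset.mem_filter] at hp ⊢
        refine ⟨Finset.mem_univ _, fun hmem => hp.2 ?_⟩
        have h1 : ((p.2 : Hb) : Γ) ∈ Fb := by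
          have := ‹Fb.Normal›.conj_mem _ hmem (p.1 : Γ)⁻¹
          have h2 : (p.1 : Γ)⁻¹ * ((p.1 : Γ) * p.2 * (p.1 : Γ)⁻¹) * ((p.1 : Γ)⁻¹)⁻¹ = p.2 := by group
          rwa [h2] at this
        exact Subtype.ext (hdisj _ h1 p.2.2)
      · intro p hp q hq hpq
        rw [Finset.mem_filter] at hp hq
        obtain ⟨k, y⟩ := p
        obtain ⟨k', y'⟩ := q
        simp only at hpq hp hq
        have hc : ((k' : Γ)⁻¹ * k) * y * ((k' : Γ)⁻¹ * k)⁻¹ = y' := by
          have : ((k' : Γ)⁻¹ * k) * y * ((k' : Γ)⁻¹ * k)⁻¹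
              = (k' : Γ)⁻¹ * ((k : Γ) * y * (k : Γ)⁻¹) * k' := by group
          rw [this, hpq]; group
        have hcF : (k' : Γ)⁻¹ * k ∈ Fb := Fb.mul_mem (Fb.inv_mem k'.2) k.2
        have hcH : (k' : Γ)⁻¹ * k ∈ Hb := by
          by_contra hnH
          have h1 := hHb.2.2 _ hnH
          have h2 : (y' : Γ) ∈ Hb ⊓ MulAut.conj ((k' : Γ)⁻¹ * k) • Hb := by
            refine ⟨y'.2, ?_⟩
            rw [← hc]
            have := Subgroup.smul_mem_pointwise_smul (y : Γ) (MulAut.conj ((k' : Γ)⁻¹ * k)) Hb y.2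
            rwa [MulAut.smul_def, MulAut.conj_apply] at this
          rw [h1, Subgroup.mem_bot] at h2
          exact hq.2 (Subtype.ext h2)
        have hc1 : (k' : Γ)⁻¹ * k = 1 := hdisj _ hcF hcH
        have hkk : k = k' := by
          apply Subtype.ext
          have := inv_mul_eq_one.mp hc1
          exact this.symm
        subst hkk
        have hyy : (y : Γ) = y' := by
          rw [← hc, hc1]; group
        rw [Subtype.ext hyy]
      · intro x hx
        rw [Finset.mem_filter] at hx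
        have hx' : x ∉ Cfsg.frobeniusKernel Hb := by rw [hker]; exact hx.2
        have hx1 : x ≠ 1 := fun h => hx' (Or.inl h)
        have hx2 : ∃ g : Γ, x ∈ MulAut.conj g • Hb := by
          by_contra hno
          push Not at hno
          exact hx' (Or.inr hno)
        obtain ⟨g, hg⟩ := hx2
        obtain ⟨⟨k, y₀⟩, hky⟩ := e.surjective g
        rw [he] at hky
        simp only at hky
        rw [Subgroup.mem_pointwise_smul_iff_inv_smul_mem, MulAut.smul_def, ← map_inv,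
          MulAut.conj_apply, inv_inv] at hg
        -- hg : g⁻¹ * x * g ∈ Hb
        have hy'' : (y₀ : Γ) * (g⁻¹ * x * g) * (y₀ : Γ)⁻¹ ∈ Hb :=
          Hb.mul_mem (Hb.mul_mem y₀.2 hg) (Hb.inv_mem y₀.2)
        have hxeq : (k : Γ) * ((y₀ : Γ) * (g⁻¹ * x * g) * (y₀ : Γ)⁻¹) * (k : Γ)⁻¹ = x := by
          rw [← hky]; group
        refine ⟨(k, ⟨_, hy''⟩), ?_, hxeq⟩
        rw [Finset.mem_filter]
        refine ⟨Finset.mem_univ _, fun h1 => hx1 ?_⟩
        have h2 : (y₀ : Γ) * (g⁻¹ * x * g) * (y₀ : Γ)⁻¹ = 1 := congrArg Subtype.val h1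
        rw [← hxeq, h2]; group
      · intro p _; rfl
    rw [← hbij, Finset.prod_filter, Fintype.prod_prod_type]
    have hin : ∀ k : Fb, ∏ y : Hb, (if (y : Hb) ≠ 1 then ρ ((k : Γ) * y * (k : Γ)⁻¹) v else 1)
        = v⁻¹ := by
      intro k
      rw [← Finset.prod_filter, Finset.filter_ne' Finset.univ (1 : Hb)]
      have h1 := Finset.mul_prod_erase Finset.univ
        (fun y : Hb => ρ ((k : Γ) * y * (k : Γ)⁻¹) v) (Finset.mem_univ (1 : Hb))
      have h2 : ∏ y : Hb, ρ ((k : Γ) * y * (k : Γ)⁻¹) v = 1 := by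
        have h3 : ∀ y : Hb, ρ ((k : Γ) * y * (k : Γ)⁻¹) v
            = ρ (k : Γ) (ρ (y : Γ) (ρ ((k : Γ)⁻¹) v)) := by
          intro y; rw [map_mul, map_mul]; rfl
        simp only [h3]
        rw [← map_prod, hT, map_one]
      rw [h2] at h1
      have h4 : ρ ((k : Γ) * ((1 : Hb) : Γ) * (k : Γ)⁻¹) v = v := by
        have : (k : Γ) * ((1 : Hb) : Γ) * (k : Γ)⁻¹ = 1 := by
          rw [Subgroup.coe_one]; group
        rw [this, map_one]; rfl
      simp only [h4] at h1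
      exact eq_inv_of_mul_eq_one_right h1
    simp only [hin, Finset.prod_const, Finset.card_univ]
  -- the kernel part
  have hA : ∀ v : V, ∏ k : Fb, ρ (k : Γ) v = v ^ Fintype.card Fb := by
    intro v
    have h1 := Finset.prod_filter_mul_prod_filter_not Finset.univ (fun x : Γ => x ∈ Fb)
      (fun x => ρ x v)
    rw [htot, hout] at h1
    have h2 : ∏ x ∈ Finset.univ.filter (fun x : Γ => x ∈ Fb), ρ x v = ∏ k : Fb, ρ (k : Γ) v :=
      Finset.prod_subtype _ (fun x => by simp) _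
    rw [h2, inv_pow] at h1
    exact eq_of_mul_inv_eq_one h1
  intro k₀ hk₀ v
  have h1 : ρ k₀ (∏ k : Fb, ρ (k : Γ) v) = ∏ k : Fb, ρ (k : Γ) v := by
    rw [map_prod]
    have h2 : ∀ k : Fb, ρ k₀ (ρ (k : Γ) v) = ρ (((⟨k₀, hk₀⟩ : Fb) * k : Fb) : Γ) v := by
      intro k; rw [Subgroup.coe_mul, map_mul]; rfl
    simp only [h2]
    exact Equiv.prod_comp (Equiv.mulLeft (⟨k₀, hk₀⟩ : Fb)) (fun k => ρ (k : Γ) v)
  rw [hA, map_pow] at h1
  have h3 : (ρ k₀ v * v⁻¹) ^ Fintype.card Fb = 1 := by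
    rw [mul_pow, h1, inv_pow, mul_inv_cancel]
  have h4 : (ρ k₀ v * v⁻¹) ^ Nat.card V = 1 := pow_card_eq_one'
  have h5 := pow_gcd_eq_one.mpr ⟨h3, h4⟩
  rw [← Nat.card_eq_fintype_card, Nat.Coprime.gcd_eq_one hcop, pow_one] at h5
  exact mul_inv_eq_one.mp h5

theorem ab_surj (D : Type*) [Group D] (v : Abelianization D) :
    ∃ d : D, Abelianization.of d = v := by
  refine Quot.inductionOn v (fun d => ⟨d, rfl⟩)

noncomputable def abAut (D : Type*) [Group D] : MulAut D →* MulAut (Abelianization D) where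
  toFun φ := MulEquiv.abelianizationCongr φ
  map_one' := by
    apply MulEquiv.ext
    intro x
    obtain ⟨d, rfl⟩ := ab_surj D x
    rfl
  map_mul' := by
    intro φ ψ
    apply MulEquiv.ext
    intro x
    obtain ⟨d, rfl⟩ := ab_surj D x
    rfl

theorem abAut_of (D : Type*) [Group D] (φ : MulAut D) (d : D) :
    abAut D φ (Abelianization.of d) = Abelianization.of (φ d) := rfl

theorem frob_centralize {Γ A : Type*} [Group Γ] [Finite Γ] [Group A]
    (Fb Hb : Subgroup Γ) [Fb.Normal] (hHb : Cfsg.IsFrobeniusComplement Hb)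
    (hker : Cfsg.frobeniusKernel Hb = (Fb : Set Γ)) (hcompl : Subgroup.IsComplement' Fb Hb)
    (gb : Γ) (hgb : Hb = Subgroup.zpowers gb) (θ : Γ →* A) (r : ℕ) [Fact r.Prime] (n : ℕ) :
    ∀ (D : Subgroup A), D.Normal → Finite D → IsPGroup r D → Nat.card D ≤ n →
      (Nat.card Fb).Coprime (Nat.card D) →
      (∀ d ∈ D, (d * θ gb) ^ orderOf gb = 1) → ∀ k ∈ Fb, ∀ d ∈ D, θ k * d = d * θ k := by
  induction n with
  | zero =>
    intro D _ hfin _ hcard
    exfalso
    have : 0 < Nat.card D := Nat.card_pos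
    omega
  | succ n ih =>
    intro D hDn hfin hDp hcard hcop hstar k hk d hd
    by_cases hbot : D = ⊥
    · rw [hbot, Subgroup.mem_bot] at hd
      rw [hd, mul_one, one_mul]
    have hle : ⁅D, D⁆ ≤ D := Subgroup.commutator_le_right D D
    have hne : ⁅D, D⁆ ≠ D := by
      intro heq
      have : Nontrivial ↥D := (Subgroup.nontrivial_iff_ne_bot D).mpr hbot
      have hnil : Group.IsNilpotent ↥D := hDp.isNilpotent
      have h1 := Group.IsSolvable.commutator_lt_top_of_nontrivial ↥D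
      have h2 : (commutator ↥D).map D.subtype = D := by
        rw [Subgroup.map_subtype_commutator]; exact heq
      apply h1.ne
      rw [eq_top_iff]
      intro x _
      have hx : (x : A) ∈ (commutator ↥D).map D.subtype := by rw [h2]; exact x.2
      obtain ⟨y, hy, hyx⟩ := hx
      have : y = x := Subtype.ext hyx
      rwa [← this]
    have hfin' : Finite ↥⁅D, D⁆ :=
      Finite.of_injective (Subgroup.inclusion hle) (Subgroup.inclusion_injective hle)
    have hcard' : Nat.card ↥⁅D, D⁆ ≤ n := by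
      by_contra hgt
      push Not at hgt
      exact hne (Subgroup.eq_of_le_of_card_ge hle (by omega))
    have hIH := ih ⁅D, D⁆ inferInstance hfin' (hDp.to_le hle) hcard'
      (Nat.Coprime.coprime_dvd_right (Subgroup.card_dvd_of_le hle) hcop)
      (fun d hd => hstar d (hle hd))
    -- the Frobenius sum argument on the abelianization
    obtain ⟨ρ, hρ⟩ : ∃ ρ : Γ →* MulAut (Abelianization ↥D), ∀ (γ : Γ) (x : ↥D),
        ρ γ (Abelianization.of x) = Abelianization.of (MulAut.conjNormal (θ γ) x) :=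
      ⟨(abAut ↥D).comp ((MulAut.conjNormal (H := D)).comp θ), fun _ _ => rfl⟩
    have hfinV : Finite (Abelianization ↥D) :=
      Finite.of_surjective _ (ab_surj ↥D)
    have hcopV : (Nat.card Fb).Coprime (Nat.card (Abelianization ↥D)) :=
      Nat.Coprime.coprime_dvd_right
        (Subgroup.card_dvd_of_surjective (Abelianization.of (G := ↥D)) (ab_surj ↥D)) hcop
    have : Fintype ↥Hb := Fintype.ofFinite _
    have hT : ∀ v : Abelianization ↥D, ∏ y : Hb, ρ (y : Γ) v = 1 := by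
      subst hgb
      intro v
      obtain ⟨x, rfl⟩ := ab_surj ↥D v
      have hfo : IsOfFinOrder gb := isOfFinOrder_of_finite gb
      have key : ∀ m : ℕ, ∃ hu : ((x : A) * θ gb) ^ m * (θ gb ^ m)⁻¹ ∈ D,
          ∏ i ∈ Finset.range m, ρ (gb ^ i) (Abelianization.of x)
            = Abelianization.of ⟨_, hu⟩ := by
        intro m
        induction m with
        | zero =>
          refine ⟨by simp, ?_⟩
          rw [Finset.prod_range_zero]
          have : (⟨((x : A) * θ gb) ^ 0 * (θ gb ^ 0)⁻¹, by simp⟩ : ↥D) = 1 := by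
            apply Subtype.ext; simp
          rw [this, map_one]
        | succ m ihm =>
          obtain ⟨hu, hprod⟩ := ihm
          have hconj : θ (gb ^ m) * (x : A) * (θ (gb ^ m))⁻¹ ∈ D := hDn.conj_mem _ x.2 _
          have heq : ((x : A) * θ gb) ^ (m + 1) * (θ gb ^ (m + 1))⁻¹
              = (((x : A) * θ gb) ^ m * (θ gb ^ m)⁻¹)
                * (θ (gb ^ m) * (x : A) * (θ (gb ^ m))⁻¹) := by
            rw [map_pow, pow_succ, pow_succ]; group
          refine ⟨by rw [heq]; exact D.mul_mem hu hconj, ?_⟩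
          rw [Finset.prod_range_succ, hprod, hρ, ← map_mul]
          congr 1
          apply Subtype.ext
          rw [Subgroup.coe_mul, MulAut.conjNormal_apply]
          exact heq.symm
      have h1 : ∏ y : Subgroup.zpowers gb, ρ (y : Γ) (Abelianization.of x)
          = ∏ i ∈ Finset.range (orderOf gb), ρ (gb ^ i) (Abelianization.of x) := by
        rw [← Equiv.prod_comp (finEquivZPowers hfo)
          (fun y => ρ (y : Γ) (Abelianization.of x))]
        simp only [finEquivZPowers_apply]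
        exact Fin.prod_univ_eq_prod_range (fun i => ρ (gb ^ i) (Abelianization.of x)) (orderOf gb)
      obtain ⟨hu, hprod⟩ := key (orderOf gb)
      rw [h1, hprod]
      have : (⟨((x : A) * θ gb) ^ orderOf gb * (θ gb ^ orderOf gb)⁻¹, hu⟩ : ↥D) = 1 := by
        apply Subtype.ext
        show ((x : A) * θ gb) ^ orderOf gb * (θ gb ^ orderOf gb)⁻¹ = 1
        rw [hstar x x.2, ← map_pow, pow_orderOf_eq_one, map_one, inv_one, mul_one]
      rw [this, map_one]
    have hfs := frob_sum Fb Hb hHb hker hcompl ρ hcopV hT k hk (Abelianization.of ⟨d, hd⟩)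
    rw [hρ] at hfs
    -- the commutator element
    obtain ⟨c, hcdef⟩ : ∃ c : A, c = (θ k * d * (θ k)⁻¹)⁻¹ * d := ⟨_, rfl⟩
    have hcD' : c ∈ ⁅D, D⁆ := by
      have h1 : (MulAut.conjNormal (θ k) (⟨d, hd⟩ : ↥D))⁻¹ * ⟨d, hd⟩ ∈ commutator ↥D := by
        rw [← Abelianization.ker_of, MonoidHom.mem_ker, map_mul, map_inv, hfs, inv_mul_cancel]
      have h2 := Subgroup.mem_map_of_mem D.subtype h1
      rw [Subgroup.map_subtype_commutator] at h2
      rw [hcdef]
      have h3 : D.subtype ((MulAut.conjNormal (θ k) (⟨d, hd⟩ : ↥D))⁻¹ * ⟨d, hd⟩)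
          = (θ k * d * (θ k)⁻¹)⁻¹ * d := by
        rw [map_mul, map_inv, Subgroup.subtype_apply, Subgroup.subtype_apply,
          MulAut.conjNormal_apply]
      rwa [h3] at h2
    have hct : θ k * c = c * θ k := hIH k hk c hcD'
    have hcomm : Commute (θ k) c⁻¹ := (show Commute (θ k) c from hct).inv_right
    have hconj : θ k * d * (θ k)⁻¹ = d * c⁻¹ := by rw [hcdef]; group
    have hpow : ∀ j : ℕ, θ k ^ j * d * (θ k ^ j)⁻¹ = d * c⁻¹ ^ j := by
      intro j
      induction j with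
      | zero => simp
      | succ j ihj =>
        calc θ k ^ (j + 1) * d * (θ k ^ (j + 1))⁻¹
            = θ k * (θ k ^ j * d * (θ k ^ j)⁻¹) * (θ k)⁻¹ := by rw [pow_succ']; group
          _ = θ k * (d * c⁻¹ ^ j) * (θ k)⁻¹ := by rw [ihj]
          _ = (θ k * d * (θ k)⁻¹) * (θ k * c⁻¹ ^ j * (θ k)⁻¹) := by group
          _ = (d * c⁻¹) * c⁻¹ ^ j := by
              rw [hconj, (hcomm.pow_right j).eq, mul_inv_cancel_right]
          _ = d * c⁻¹ ^ (j + 1) := by rw [pow_succ', mul_assoc]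
    have h1 := hpow (orderOf k)
    rw [← map_pow, pow_orderOf_eq_one, map_one, one_mul, inv_one, mul_one] at h1
    have hc1 : c⁻¹ ^ orderOf k = 1 := by
      have : d * 1 = d * c⁻¹ ^ orderOf k := by rw [mul_one]; exact h1
      exact (mul_left_cancel this).symm
    have hc2 : c⁻¹ ^ Nat.card D = 1 := by
      have hcD : c⁻¹ ∈ D := D.inv_mem (hle hcD')
      have := pow_card_eq_one' (G := ↥D) (x := ⟨c⁻¹, hcD⟩)
      exact congrArg Subtype.val this
    have hdvd : orderOf k ∣ Nat.card Fb := by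
      have := orderOf_dvd_natCard (⟨k, hk⟩ : Fb)
      rwa [← Subgroup.orderOf_coe] at this
    have h5 := pow_gcd_eq_one.mpr ⟨hc1, hc2⟩
    rw [Nat.Coprime.gcd_eq_one (Nat.Coprime.coprime_dvd_left hdvd hcop), pow_one] at h5
    have hc : c = 1 := inv_eq_one.mp h5
    rw [hc, inv_one, mul_one] at hconj
    calc θ k * d = (θ k * d * (θ k)⁻¹) * θ k := by group
      _ = d * θ k := by rw [hconj]

/-- Common setup: the preimage `F` of `Fb`, the restricted map and its kernel as a normal Hall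
subgroup of `F` with solvable quotient. -/
theorem hall_setup {G Γ : Type*} [Group G] [Finite G] [Group Γ] (Fb : Subgroup Γ)
    (ψ : G →* Γ) (hψ : Function.Surjective ψ)
    (hcop : (Nat.card Fb).Coprime (Nat.card ψ.ker)) :
    (Nat.card (ψ.subgroupComap Fb).ker).Coprime (ψ.subgroupComap Fb).ker.index := by
  have hsurj := MonoidHom.subgroupComap_surjective_of_surjective ψ Fb hψ
  have hidx : (ψ.subgroupComap Fb).ker.index = Nat.card Fb := by
    rw [Subgroup.index_ker, MonoidHom.range_eq_top.mpr hsurj, Subgroup.card_top]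
  have hmem : ∀ x : (ψ.subgroupComap Fb).ker, ((x : Fb.comap ψ) : G) ∈ ψ.ker := by
    intro x
    have h1 : (ψ.subgroupComap Fb) (x : Fb.comap ψ) = 1 := x.2
    have h2 := congrArg Subtype.val h1
    exact h2
  have hdvd : Nat.card (ψ.subgroupComap Fb).ker ∣ Nat.card ψ.ker := by
    refine Subgroup.card_dvd_of_injective
      ((((Fb.comap ψ).subtype.comp (ψ.subgroupComap Fb).ker.subtype)).codRestrict ψ.ker hmem) ?_
    intro x y hxy
    have h1 := congrArg Subtype.val hxy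
    exact Subtype.ext (Subtype.ext h1)
  rw [hidx]
  exact (Nat.Coprime.coprime_dvd_right hdvd hcop).symm

theorem exists_compl {G Γ : Type*} [Group G] [Finite G] [Group Γ] (Fb : Subgroup Γ)
    (ψ : G →* Γ) (hψ : Function.Surjective ψ)
    (hcop : (Nat.card Fb).Coprime (Nat.card ψ.ker)) :
    ∃ K : Subgroup G, K ⊓ ψ.ker = ⊥ ∧ K.map ψ = Fb := by
  have hsurj := MonoidHom.subgroupComap_surjective_of_surjective ψ Fb hψ
  obtain ⟨K', hK'⟩ := Subgroup.exists_right_complement'_of_coprime (hall_setup Fb ψ hψ hcop)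
  refine ⟨K'.map (Fb.comap ψ).subtype, ?_, ?_⟩
  · rw [eq_bot_iff]
    rintro x ⟨⟨k, hk, rfl⟩, hx⟩
    rw [Subgroup.mem_bot]
    have h1 : k ∈ (ψ.subgroupComap Fb).ker := by
      rw [MonoidHom.mem_ker]
      exact Subtype.ext hx
    have h2 := hK'.disjoint
    rw [Subgroup.disjoint_def] at h2
    rw [h2 h1 hk]; rfl
  · ext φ
    constructor
    · rintro ⟨x, ⟨k, hk, rfl⟩, rfl⟩
      exact k.2
    · intro hφ
      obtain ⟨f, hf⟩ := hsurj ⟨φ, hφ⟩
      obtain ⟨⟨n, k⟩, hnk⟩ := hK'.2 f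
      simp only at hnk
      refine ⟨(k : Fb.comap ψ), Subgroup.mem_map_of_mem _ k.2, ?_⟩
      have h1 : (ψ.subgroupComap Fb) (n : Fb.comap ψ) = 1 := n.2
      have h2 : (ψ.subgroupComap Fb) f = (ψ.subgroupComap Fb) (k : Fb.comap ψ) := by
        rw [← hnk, map_mul, h1, one_mul]
      have h3 := congrArg Subtype.val (h2.symm.trans hf)
      exact h3

theorem conj_compl {G Γ : Type*} [Group G] [Finite G] [Group Γ] (Fb : Subgroup Γ)
    (hsolv : Group.IsSolvable Fb) (ψ : G →* Γ) (hψ : Function.Surjective ψ)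
    (hcop : (Nat.card Fb).Coprime (Nat.card ψ.ker))
    (K₁ K₂ : Subgroup G) (h1 : K₁ ⊓ ψ.ker = ⊥) (h1' : K₁.map ψ = Fb)
    (h2 : K₂ ⊓ ψ.ker = ⊥) (h2' : K₂.map ψ = Fb) :
    ∃ n ∈ ψ.ker, K₂ = K₁.map (MulAut.conj n).toMonoidHom := by
  have hsurj := MonoidHom.subgroupComap_surjective_of_surjective ψ Fb hψ
  have hle : ∀ K : Subgroup G, K.map ψ = Fb → K ≤ Fb.comap ψ := by
    intro K hK x hx
    rw [Subgroup.mem_comap, ← hK]
    exact Subgroup.mem_map_of_mem ψ hx
  have hcompl : ∀ K : Subgroup G, K ⊓ ψ.ker = ⊥ → K.map ψ = Fb →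
      Subgroup.IsComplement' (ψ.subgroupComap Fb).ker (K.subgroupOf (Fb.comap ψ)) := by
    intro K hK hK'
    apply Subgroup.isComplement'_of_disjoint_and_mul_eq_univ
    · rw [Subgroup.disjoint_def]
      intro x hx1 hx2
      have h3 : (x : G) ∈ K ⊓ ψ.ker := by
        refine ⟨hx2, ?_⟩
        have := congrArg Subtype.val (show (ψ.subgroupComap Fb) x = 1 from hx1)
        exact this
      rw [hK, Subgroup.mem_bot] at h3
      exact Subtype.ext h3
    · rw [Set.eq_univ_iff_forall]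
      intro f
      have hf : ψ (f : G) ∈ K.map ψ := by rw [hK']; exact f.2
      obtain ⟨k, hk, hkf⟩ := hf
      have hkF : k ∈ Fb.comap ψ := hle K hK' hk
      refine ⟨f * (⟨k, hkF⟩ : Fb.comap ψ)⁻¹, ?_, ⟨k, hkF⟩, hk, by group⟩
      show f * (⟨k, hkF⟩ : Fb.comap ψ)⁻¹ ∈ (ψ.subgroupComap Fb).ker
      rw [MonoidHom.mem_ker]
      apply Subtype.ext
      show ψ ((f : G) * k⁻¹) = 1
      rw [map_mul, map_inv, hkf, mul_inv_cancel]
  have hc1 := hcompl K₁ h1 h1'
  have hc2 := hcompl K₂ h2 h2'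
  have hsolvQ : Group.IsSolvable (↥(Fb.comap ψ) ⧸ (ψ.subgroupComap Fb).ker) :=
    Group.isSolvable_of_isSolvable_injective (QuotientGroup.kerLift_injective (ψ.subgroupComap Fb))
  obtain ⟨f, hf⟩ := Cfsg.Agent.S0001.result (ψ.subgroupComap Fb).ker (hall_setup Fb ψ hψ hcop)
    (Or.inr hsolvQ) _ _ hc1 hc2
  obtain ⟨⟨n, k⟩, hnk⟩ := hc1.2 f
  simp only at hnk
  have hnker : ((n : Fb.comap ψ) : G) ∈ ψ.ker := by
    have := congrArg Subtype.val (show (ψ.subgroupComap Fb) (n : Fb.comap ψ) = 1 from n.2)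
    exact this
  have hkK : ((k : Fb.comap ψ) : G) ∈ K₁ := k.2
  refine ⟨((n : Fb.comap ψ) : G), hnker, ?_⟩
  ext y
  rw [Subgroup.mem_map]
  constructor
  · intro hy
    have hyF : y ∈ Fb.comap ψ := hle K₂ h2' hy
    have hy' : (⟨y, hyF⟩ : Fb.comap ψ) ∈ MulAut.conj f • K₁.subgroupOf (Fb.comap ψ) := by
      rw [hf]; exact hy
    rw [Subgroup.mem_smul_pointwise_iff_exists] at hy'
    obtain ⟨z, hz, hzy⟩ := hy'
    rw [MulAut.smul_def, MulAut.conj_apply] at hzy
    have hzK : (z : G) ∈ K₁ := hz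
    refine ⟨(k : Fb.comap ψ) * z * ((k : Fb.comap ψ) : G)⁻¹,
      K₁.mul_mem (K₁.mul_mem hkK hzK) (K₁.inv_mem hkK), ?_⟩
    have h3 := congrArg Subtype.val hzy
    rw [← hnk] at h3
    simp only [Subgroup.coe_mul, Subgroup.coe_inv] at h3
    rw [MulEquiv.coe_toMonoidHom, MulAut.conj_apply, ← h3]
    group
  · rintro ⟨x, hx, rfl⟩
    have hxF : x ∈ Fb.comap ψ := hle K₁ h1' hx
    have hmem : (MulAut.conj f • (⟨((k : Fb.comap ψ) : G)⁻¹ * x * (k : Fb.comap ψ),
        (Fb.comap ψ).mul_mem ((Fb.comap ψ).mul_mem ((Fb.comap ψ).inv_mem (k : Fb.comap ψ).2) hxF)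
          (k : Fb.comap ψ).2⟩ : Fb.comap ψ)) ∈ MulAut.conj f • K₁.subgroupOf (Fb.comap ψ) := by
      apply Subgroup.smul_mem_pointwise_smul
      show ((k : Fb.comap ψ) : G)⁻¹ * x * (k : Fb.comap ψ) ∈ K₁
      exact K₁.mul_mem (K₁.mul_mem (K₁.inv_mem hkK) hx) hkK
    rw [hf] at hmem
    have hmem' : ((MulAut.conj f • (⟨((k : Fb.comap ψ) : G)⁻¹ * x * (k : Fb.comap ψ),
        (Fb.comap ψ).mul_mem ((Fb.comap ψ).mul_mem ((Fb.comap ψ).inv_mem (k : Fb.comap ψ).2) hxF)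
          (k : Fb.comap ψ).2⟩ : Fb.comap ψ) : Fb.comap ψ) : G) ∈ K₂ := hmem
    rw [MulAut.smul_def, MulAut.conj_apply, ← hnk] at hmem'
    simp only [Subgroup.coe_mul, Subgroup.coe_inv] at hmem'
    rw [MulEquiv.coe_toMonoidHom, MulAut.conj_apply]
    have heq : ((n : Fb.comap ψ) : G) * (k : Fb.comap ψ)
        * (((k : Fb.comap ψ) : G)⁻¹ * x * (k : Fb.comap ψ))
        * (((n : Fb.comap ψ) : G) * (k : Fb.comap ψ))⁻¹
        = ((n : Fb.comap ψ) : G) * x * ((n : Fb.comap ψ) : G)⁻¹ := by group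
    rwa [heq] at hmem'

theorem exists_section {G Γ : Type*} [Group G] [Finite G] [Group Γ] (Fb Hb : Subgroup Γ)
    [Fb.Normal] (hcompl : Subgroup.IsComplement' Fb Hb) (hsolv : Group.IsSolvable Fb)
    (gb : Γ) (hgb : Hb = Subgroup.zpowers gb)
    (ψ : G →* Γ) (hψ : Function.Surjective ψ) (hcop : (Nat.card Fb).Coprime (Nat.card ψ.ker))
    (hstar : ∀ x : G, ψ x = gb → x ^ orderOf gb = 1) :
    ∃ θ : Γ →* G, ∀ γ, ψ (θ γ) = γ := by
  obtain ⟨K, hK1, hK2⟩ := exists_compl Fb ψ hψ hcop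
  obtain ⟨a, ha⟩ := hψ gb
  have hKF : ∀ k ∈ K, ψ k ∈ Fb := by
    intro k hk; rw [← hK2]; exact Subgroup.mem_map_of_mem ψ hk
  have hK1' : ∀ k ∈ K, ψ k = 1 → k = 1 := by
    intro k hk hk1
    have : k ∈ K ⊓ ψ.ker := ⟨hk, hk1⟩
    rwa [hK1, Subgroup.mem_bot] at this
  have h2 : K.map (MulAut.conj a).toMonoidHom ⊓ ψ.ker = ⊥ := by
    rw [eq_bot_iff]
    rintro x ⟨⟨k, hk, rfl⟩, hx⟩
    rw [Subgroup.mem_bot]
    rw [MulEquiv.coe_toMonoidHom, MulAut.conj_apply] at hx ⊢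
    have hx' : ψ (a * k * a⁻¹) = 1 := hx
    rw [map_mul, map_mul, map_inv, ha] at hx'
    have hk1 : ψ k = 1 := by
      have : ψ k = gb⁻¹ * (gb * ψ k * gb⁻¹) * gb := by group
      rw [this, hx']; group
    rw [hK1' k hk hk1]; group
  have h2' : (K.map (MulAut.conj a).toMonoidHom).map ψ = Fb := by
    ext φ
    constructor
    · rintro ⟨x, ⟨k, hk, rfl⟩, rfl⟩
      rw [MulEquiv.coe_toMonoidHom, MulAut.conj_apply, map_mul, map_mul, map_inv, ha]
      exact ‹Fb.Normal›.conj_mem _ (hKF k hk) gb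
    · intro hφ
      have h3 : gb⁻¹ * φ * gb ∈ K.map ψ := by
        rw [hK2]
        have := ‹Fb.Normal›.conj_mem _ hφ gb⁻¹
        rwa [inv_inv] at this
      obtain ⟨k, hk, hkφ⟩ := h3
      refine ⟨a * k * a⁻¹, ⟨k, hk, ?_⟩, ?_⟩
      · rw [MulEquiv.coe_toMonoidHom, MulAut.conj_apply]
      · rw [map_mul, map_mul, map_inv, ha, hkφ]; group
  obtain ⟨n, hn, hconj⟩ := conj_compl Fb hsolv ψ hψ hcop K _ hK1 hK2 h2 h2'
  obtain ⟨g, hgdef⟩ : ∃ g : G, g = n⁻¹ * a := ⟨_, rfl⟩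
  have hψg : ψ g = gb := by
    rw [hgdef, map_mul, map_inv, ha, MonoidHom.mem_ker.mp hn, inv_one, one_mul]
  have hgo : g ^ orderOf gb = 1 := hstar g hψg
  have hgnorm : g ∈ Subgroup.normalizer (K : Set G) := by
    rw [Subgroup.mem_normalizer_iff]
    intro x
    constructor
    · intro hx
      have h3 : a * x * a⁻¹ ∈ K.map (MulAut.conj a).toMonoidHom :=
        ⟨x, hx, by rw [MulEquiv.coe_toMonoidHom, MulAut.conj_apply]⟩
      rw [hconj] at h3
      obtain ⟨y, hy, hyx⟩ := h3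
      rw [MulEquiv.coe_toMonoidHom, MulAut.conj_apply] at hyx
      have : g * x * g⁻¹ = y := by
        rw [hgdef]
        have : n⁻¹ * a * x * (n⁻¹ * a)⁻¹ = n⁻¹ * (a * x * a⁻¹) * n := by group
        rw [this, ← hyx]; group
      rw [this]; exact hy
    · intro hx
      have h3 : n * (g * x * g⁻¹) * n⁻¹ ∈ K.map (MulAut.conj n).toMonoidHom :=
        ⟨_, hx, by rw [MulEquiv.coe_toMonoidHom, MulAut.conj_apply]⟩
      rw [← hconj] at h3
      obtain ⟨y, hy, hyx⟩ := h3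
      rw [MulEquiv.coe_toMonoidHom, MulAut.conj_apply] at hyx
      have : x = y := by
        have h4 : n * (g * x * g⁻¹) * n⁻¹ = a * x * a⁻¹ := by rw [hgdef]; group
        rw [h4] at hyx
        have h5 : x = a⁻¹ * (a * x * a⁻¹) * a := by group
        rw [h5, ← hyx]; group
      rw [this]; exact hy
  have hLE : Subgroup.zpowers g ≤ Subgroup.normalizer (K : Set G) :=
    (Subgroup.zpowers_le).mpr hgnorm
  have hdisj : ∀ x : Γ, x ∈ Fb → x ∈ Hb → x = 1 := by
    intro x hx1 hx2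
    have := hcompl.disjoint
    rw [Subgroup.disjoint_def] at this
    exact this hx1 hx2
  have hinj : Function.Injective (ψ.comp (K ⊔ Subgroup.zpowers g).subtype) := by
    rw [injective_iff_map_eq_one]
    intro x hx
    have hx' : ψ (x : G) = 1 := hx
    have hxmem : (x : G) ∈ ((K ⊔ Subgroup.zpowers g : Subgroup G) : Set G) := x.2
    rw [Subgroup.coe_mul_of_right_le_normalizer_left K _ hLE] at hxmem
    obtain ⟨k, hk, z, hz, hkz⟩ := Set.mem_mul.mp hxmem
    obtain ⟨i, rfl⟩ := Subgroup.mem_zpowers_iff.mp hz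
    rw [← hkz, map_mul, map_zpow, hψg] at hx'
    have hz1 : gb ^ i = 1 := by
      apply hdisj
      · have : gb ^ i = (ψ k)⁻¹ := eq_inv_of_mul_eq_one_right hx'
        rw [this]; exact Fb.inv_mem (hKF k hk)
      · rw [hgb]; exact Subgroup.zpow_mem_zpowers gb i
    rw [hz1, mul_one] at hx'
    have hk1 := hK1' k hk hx'
    have hgi : g ^ i = 1 := by
      obtain ⟨t, rfl⟩ := (orderOf_dvd_iff_zpow_eq_one).mpr hz1
      rw [zpow_mul, zpow_natCast, hgo, one_zpow]
    apply Subtype.ext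
    rw [← hkz, hk1, hgi, one_mul]; rfl
  have hsurj : Function.Surjective (ψ.comp (K ⊔ Subgroup.zpowers g).subtype) := by
    intro γ
    obtain ⟨⟨φ, y⟩, hφy⟩ := hcompl.2 γ
    simp only at hφy
    have hφ : (φ : Γ) ∈ K.map ψ := by rw [hK2]; exact φ.2
    obtain ⟨k, hk, hkφ⟩ := hφ
    have hy : (y : Γ) ∈ Subgroup.zpowers gb := by rw [← hgb]; exact y.2
    obtain ⟨i, hi⟩ := Subgroup.mem_zpowers_iff.mp hy
    refine ⟨⟨k * g ^ i, Subgroup.mul_mem_sup hk (Subgroup.zpow_mem_zpowers g i)⟩, ?_⟩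
    show ψ (k * g ^ i) = γ
    rw [map_mul, map_zpow, hψg, hkφ, hi, hφy]
  obtain ⟨e, he⟩ : ∃ e : ↥(K ⊔ Subgroup.zpowers g) ≃* Γ, ∀ x, e x = ψ (x : G) :=
    ⟨MulEquiv.ofBijective (ψ.comp (K ⊔ Subgroup.zpowers g).subtype) ⟨hinj, hsurj⟩, fun x => rfl⟩
  refine ⟨(K ⊔ Subgroup.zpowers g).subtype.comp e.symm.toMonoidHom, fun γ => ?_⟩
  show ψ ((e.symm γ : ↥(K ⊔ Subgroup.zpowers g)) : G) = γ
  rw [← he, MulEquiv.apply_symm_apply]

theorem section_compl {G Γ : Type*} [Group G] [Group Γ] (Fb : Subgroup Γ)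
    (ψ : G →* Γ) (θ : Γ →* G) (hθ : ∀ γ, ψ (θ γ) = γ) :
    (Fb.map θ) ⊓ ψ.ker = ⊥ ∧ (Fb.map θ).map ψ = Fb := by
  constructor
  · rw [eq_bot_iff]
    rintro x ⟨hx1, hx2⟩
    obtain ⟨φ, hφ, rfl⟩ := Subgroup.mem_map.mp hx1
    have h1 : ψ (θ φ) = 1 := hx2
    rw [hθ] at h1
    rw [Subgroup.mem_bot, h1, map_one]
  · ext x
    constructor
    · intro hx
      obtain ⟨y, hy, rfl⟩ := Subgroup.mem_map.mp hx
      obtain ⟨φ, hφ, rfl⟩ := Subgroup.mem_map.mp hy
      rw [hθ]; exact hφ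
    · intro hx
      exact Subgroup.mem_map.mpr ⟨θ x, Subgroup.mem_map_of_mem θ hx, hθ x⟩

theorem sylow_centralized {G Γ : Type*} [Group G] [Finite G] [Group Γ] [Finite Γ]
    (N : Subgroup G) [N.Normal]
    (Fb Hb : Subgroup Γ) [Fb.Normal] (hHb : Cfsg.IsFrobeniusComplement Hb)
    (hker : Cfsg.frobeniusKernel Hb = (Fb : Set Γ)) (hcompl : Subgroup.IsComplement' Fb Hb)
    (hsolv : Group.IsSolvable Fb)
    (gb : Γ) (hgb : Hb = Subgroup.zpowers gb)
    (π : G →* Γ) (hπ : Function.Surjective π) (hkerπ : π.ker = N)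
    (hcop : (Nat.card Fb).Coprime (Nat.card N))
    (hst : ∀ x : G, π x = gb → x ^ orderOf gb = 1)
    (r : ℕ) [Fact r.Prime] (P : Sylow r N) :
    ∃ θ : Γ →* G, (∀ γ, π (θ γ) = γ) ∧
      ∀ φ ∈ Fb, ∀ y : N, y ∈ (P : Subgroup N) → θ φ * (y : G) = (y : G) * θ φ := by
  obtain ⟨R, hR⟩ : ∃ R : Subgroup G, R = (P : Subgroup N).map N.subtype := ⟨_, rfl⟩
  have hRN : R ≤ N := by
    intro x hx
    rw [hR] at hx
    obtain ⟨y, hy, rfl⟩ := Subgroup.mem_map.mp hx
    exact y.2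
  have htop : Subgroup.normalizer (R : Set G) ⊔ N = ⊤ := by
    rw [hR]; exact Sylow.normalizer_sup_eq_top P
  obtain ⟨G₁, hG₁⟩ : ∃ G₁ : Subgroup G, G₁ = Subgroup.normalizer (R : Set G) := ⟨_, rfl⟩
  rw [← hG₁] at htop
  have hRG₁ : R ≤ G₁ := by rw [hG₁]; exact Subgroup.le_normalizer
  obtain ⟨ψ₁, hψ₁def⟩ : ∃ ψ₁ : G₁ →* Γ, ψ₁ = π.comp G₁.subtype := ⟨_, rfl⟩
  have hψ₁a : ∀ x : G₁, ψ₁ x = π (x : G) := by intro x; rw [hψ₁def]; rfl
  have hψ₁ : Function.Surjective ψ₁ := by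
    intro γ
    obtain ⟨x, rfl⟩ := hπ γ
    have hx : x ∈ ((G₁ ⊔ N : Subgroup G) : Set G) := by rw [htop]; trivial
    rw [Subgroup.mul_normal] at hx
    obtain ⟨u, hu, n, hn, rfl⟩ := Set.mem_mul.mp hx
    refine ⟨⟨u, hu⟩, ?_⟩
    rw [hψ₁a, map_mul]
    have : π n = 1 := by
      have : n ∈ π.ker := by rw [hkerπ]; exact hn
      exact this
    rw [this, mul_one]
  have hkerdvd : Nat.card ψ₁.ker ∣ Nat.card N := by
    have hmem : ∀ x : ψ₁.ker, ((x : G₁) : G) ∈ N := by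
      intro x
      have h1 : ψ₁ (x : G₁) = 1 := x.2
      rw [hψ₁a] at h1
      rw [← hkerπ]; exact h1
    refine Subgroup.card_dvd_of_injective
      ((G₁.subtype.comp ψ₁.ker.subtype).codRestrict N hmem) ?_
    intro x y hxy
    have h1 := congrArg Subtype.val hxy
    exact Subtype.ext (Subtype.ext h1)
  have hcop₁ : (Nat.card Fb).Coprime (Nat.card ψ₁.ker) :=
    Nat.Coprime.coprime_dvd_right hkerdvd hcop
  have hst₁ : ∀ x : G₁, ψ₁ x = gb → x ^ orderOf gb = 1 := by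
    intro x hx
    rw [hψ₁a] at hx
    have := hst (x : G) hx
    apply Subtype.ext
    rw [Subgroup.coe_pow, this]; rfl
  obtain ⟨θ₁, hθ₁⟩ := exists_section Fb Hb hcompl hsolv gb hgb ψ₁ hψ₁ hcop₁ hst₁
  obtain ⟨D, hD⟩ : ∃ D : Subgroup G₁, D = R.subgroupOf G₁ := ⟨_, rfl⟩
  have hDn : D.Normal := by
    rw [hD]
    subst hG₁
    exact Subgroup.normal_in_normalizer
  have hDmem : ∀ d : G₁, d ∈ D ↔ (d : G) ∈ R := by
    intro d; rw [hD]; exact Subgroup.mem_subgroupOf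
  have hDp : IsPGroup r D := by
    rw [hD]
    have h1 : IsPGroup r R := by
      rw [hR]; exact P.isPGroup'.map N.subtype
    exact h1.comap_subtype
  have hDdvd : Nat.card D ∣ Nat.card N := by
    have hmem : ∀ x : D, ((x : G₁) : G) ∈ N := by
      intro x
      exact hRN ((hDmem _).mp x.2)
    refine Subgroup.card_dvd_of_injective
      ((G₁.subtype.comp D.subtype).codRestrict N hmem) ?_
    intro x y hxy
    have h1 := congrArg Subtype.val hxy
    exact Subtype.ext (Subtype.ext h1)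
  have hcopD : (Nat.card Fb).Coprime (Nat.card D) :=
    Nat.Coprime.coprime_dvd_right hDdvd hcop
  have hstarD : ∀ d ∈ D, (d * θ₁ gb) ^ orderOf gb = 1 := by
    intro d hd
    apply hst₁
    rw [map_mul, hθ₁, hψ₁a]
    have : π (d : G) = 1 := by
      have : (d : G) ∈ π.ker := by rw [hkerπ]; exact hRN ((hDmem d).mp hd)
      exact this
    rw [this, one_mul]
  have hcent := frob_centralize Fb Hb hHb hker hcompl gb hgb θ₁ r (Nat.card D) D hDn
    inferInstance hDp le_rfl hcopD hstarD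
  refine ⟨G₁.subtype.comp θ₁, ?_, ?_⟩
  · intro γ
    have := hθ₁ γ
    rw [hψ₁a] at this
    exact this
  · intro φ hφ y hy
    have hyR : (y : G) ∈ R := by
      rw [hR]; exact Subgroup.mem_map_of_mem N.subtype hy
    have h1 := hcent φ hφ ⟨(y : G), hRG₁ hyR⟩ ((hDmem _).mpr hyR)
    have h2 := congrArg Subtype.val h1
    exact h2

/-- Let N be a normal subgroup of the finite group G such that G/N is a Frobenius group with kernel F and cyclic complement H, where the order of F is coprime to that of N and F is not contained in the image of C_G(N) in G/N. Then G has an element of order p·#H for some prime p dividing the order of N. (A standard tool in recognising groups by their element orders.) -/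
theorem result {G : Type*} [Group G] [Finite G] (N : Subgroup G) [N.Normal]
    (Fb Hb : Subgroup (G ⧸ N)) [Fb.Normal] (hHb : Cfsg.IsFrobeniusComplement Hb) (hker : Cfsg.frobeniusKernel Hb = (Fb : Set (G ⧸ N)))
    (hcyc : IsCyclic Hb) (hcop : (Nat.card Fb).Coprime (Nat.card N))
    (hnot : ¬ Fb ≤ (Subgroup.centralizer (N : Set G)).map (QuotientGroup.mk' N)) :
    ∃ p : ℕ, p.Prime ∧ p ∣ Nat.card N ∧ ∃ g : G, orderOf g = p * Nat.card Hb := by
  classical
  obtain ⟨N₁, hset, hN₁n, hN₁c⟩ := Cfsg.Agent.S0035.result Hb hHb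
  have hN₁ : N₁ = Fb := SetLike.coe_injective (hset.trans hker)
  have hcompl : Subgroup.IsComplement' Fb Hb := hN₁ ▸ hN₁c
  obtain ⟨N₂, hset2, _, hnil⟩ := Cfsg.Agent.S0042.result Hb hHb
  have hN₂ : N₂ = Fb := SetLike.coe_injective (hset2.trans hker)
  have hnilF : Group.IsNilpotent Fb := hN₂ ▸ hnil
  have hsolv : Group.IsSolvable Fb := inferInstance
  obtain ⟨gb', hgb'⟩ := hcyc.exists_generator
  obtain ⟨gb, hgbdef⟩ : ∃ gb : G ⧸ N, gb = (gb' : G ⧸ N) := ⟨_, rfl⟩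
  have hgb : Hb = Subgroup.zpowers gb := by
    apply le_antisymm
    · intro x hx
      obtain ⟨k, hk⟩ := Subgroup.mem_zpowers_iff.mp (hgb' ⟨x, hx⟩)
      refine Subgroup.mem_zpowers_iff.mpr ⟨k, ?_⟩
      have := congrArg Subtype.val hk
      rw [hgbdef]
      simpa using this
    · rw [Subgroup.zpowers_le, hgbdef]; exact gb'.2
  have hord : Nat.card Hb = orderOf gb := by
    conv_lhs => rw [hgb]
    exact Nat.card_zpowers gb
  have hπ : Function.Surjective (QuotientGroup.mk' N) := QuotientGroup.mk'_surjective N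
  have hkerπ : (QuotientGroup.mk' N).ker = N := QuotientGroup.ker_mk' N
  by_cases hst : ∀ x : G, QuotientGroup.mk' N x = gb → x ^ orderOf gb = 1
  swap
  · push Not at hst
    obtain ⟨x, hx1, hx2⟩ := hst
    obtain ⟨p, hp, hpd, g, hg⟩ :=
      order_lift (QuotientGroup.mk' N) x (orderOf gb) (by rw [hx1]) hx2
    refine ⟨p, hp, ?_, g, ?_⟩
    · rwa [hkerπ] at hpd
    · rw [hg, hord]
  exfalso
  apply hnot
  have hcopπ : (Nat.card Fb).Coprime (Nat.card (QuotientGroup.mk' N).ker) := by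
    rw [hkerπ]; exact hcop
  obtain ⟨θ₀, hθ₀⟩ := exists_section Fb Hb hcompl hsolv gb hgb (QuotientGroup.mk' N) hπ hcopπ hst
  have hC : (Subgroup.centralizer ((Fb.map θ₀ : Subgroup G) : Set G)).subgroupOf N = ⊤ := by
    rw [← Subgroup.index_eq_one, Nat.eq_one_iff_not_exists_prime_dvd]
    intro r hr hrd
    have : Fact r.Prime := ⟨hr⟩
    obtain ⟨P⟩ : Nonempty (Sylow r N) := inferInstance
    obtain ⟨θ₂, hθ₂, hcent⟩ := sylow_centralized N Fb Hb hHb hker hcompl hsolv gb hgb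
      (QuotientGroup.mk' N) hπ hkerπ hcop hst r P
    obtain ⟨h1, h1'⟩ := section_compl Fb (QuotientGroup.mk' N) θ₀ hθ₀
    obtain ⟨h2, h2'⟩ := section_compl Fb (QuotientGroup.mk' N) θ₂ hθ₂
    obtain ⟨n, hn, hK⟩ := conj_compl Fb hsolv (QuotientGroup.mk' N) hπ hcopπ
      (Fb.map θ₀) (Fb.map θ₂) h1 h1' h2 h2'
    rw [hkerπ] at hn
    have hQ : (P : Subgroup N).map (MulAut.conj (⟨n, hn⟩ : N)⁻¹).toMonoidHom ≤
        (Subgroup.centralizer ((Fb.map θ₀ : Subgroup G) : Set G)).subgroupOf N := by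
      intro q hq
      obtain ⟨y, hy, rfl⟩ := Subgroup.mem_map.mp hq
      rw [Subgroup.mem_subgroupOf, Subgroup.mem_centralizer_iff]
      intro h hh
      obtain ⟨φ, hφ, rfl⟩ := Subgroup.mem_map.mp hh
      have h3 : n * θ₀ φ * n⁻¹ ∈ Fb.map θ₂ := by
        rw [hK]
        refine Subgroup.mem_map.mpr ⟨θ₀ φ, Subgroup.mem_map_of_mem θ₀ hφ, ?_⟩
        simp
      obtain ⟨φ', hφ', h4⟩ := Subgroup.mem_map.mp h3
      have h5 := hcent φ' hφ' y hy
      rw [h4] at h5
      have h6 : (((MulAut.conj (⟨n, hn⟩ : N)⁻¹).toMonoidHom y : N) : G) = n⁻¹ * (y : G) * n := by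
        simp
      rw [h6]
      have h7 : θ₀ φ * (n⁻¹ * (y : G) * n) = n⁻¹ * (n * θ₀ φ * n⁻¹ * (y : G)) * n := by group
      rw [h7, h5]; group
    have hidx := Subgroup.index_dvd_of_le hQ
    have hidx2 : ((P : Subgroup N).map (MulAut.conj (⟨n, hn⟩ : N)⁻¹).toMonoidHom).index
        = (P : Subgroup N).index :=
      Subgroup.index_map_of_bijective (f := (MulAut.conj (⟨n, hn⟩ : N)⁻¹).toMonoidHom)
        (MulEquiv.bijective (MulAut.conj (⟨n, hn⟩ : N)⁻¹)) (P : Subgroup N)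
    rw [hidx2] at hidx
    exact P.not_dvd_index (hrd.trans hidx)
  intro φ hφ
  refine Subgroup.mem_map.mpr ⟨θ₀ φ, ?_, hθ₀ φ⟩
  rw [Subgroup.mem_centralizer_iff]
  intro n hn
  have h1 : (⟨n, hn⟩ : N) ∈ (Subgroup.centralizer ((Fb.map θ₀ : Subgroup G) : Set G)).subgroupOf N := by
    rw [hC]; trivial
  rw [Subgroup.mem_subgroupOf, Subgroup.mem_centralizer_iff] at h1
  exact (h1 (θ₀ φ) (Subgroup.mem_map_of_mem θ₀ hφ)).symm

end Cfsg.Agent.S3703
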