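import Cfsg.Statements.S3744
import Mathlib
import Cfsg.Agent.Lib.helper1.Hall
import Cfsg.Agent.Lib.helper8.CoprimeAction
import Cfsg.Agent.Lib.helper1.Hall
import Cfsg.Agent.Lib.helper8.CoprimeAction

set_option autoImplicit false
open Cfsg

namespace Cfsg.Agent.S3744

universe u

/-- existence of a `p`-complement dominating all `p'`-subgroups. -/
def Claims (p : ℕ) (G : Type u) [Group G] : Prop :=
  ∃ H : Subgroup G, (Nat.card H).Coprime p ∧ (∃ n : ℕ, H.index = p ^ n) ∧
    ∀ U : Subgroup G, (Nat.card U).Coprime p → ∃ g : G, U.map (MulAut.conj g).toMonoidHom ≤ H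

theorem relIndex_map_mk {G : Type u} [Group G] (N A B : Subgroup G) [N.Normal] (hNA : N ≤ A) :
    (A.map (QuotientGroup.mk' N)).relIndex (B.map (QuotientGroup.mk' N)) = A.relIndex B := by
  rw [← Subgroup.relIndex_comap, Subgroup.comap_map_eq, QuotientGroup.ker_mk', sup_eq_left.mpr hNA]

theorem lift_dom {G : Type u} [Group G] [Finite G] (p : ℕ) (N : Subgroup G) [N.Normal]
    (Hb : Subgroup (G ⧸ N))
    (hdom : ∀ U : Subgroup (G ⧸ N), (Nat.card U).Coprime p →
      ∃ g : G ⧸ N, U.map (MulAut.conj g).toMonoidHom ≤ Hb)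
    (U : Subgroup G) (hU : (Nat.card U).Coprime p) :
    ∃ g : G, U.map (MulAut.conj g).toMonoidHom ≤ Hb.comap (QuotientGroup.mk' N) := by
  have h1 : (Nat.card (U.map (QuotientGroup.mk' N))).Coprime p :=
    Nat.Coprime.coprime_dvd_left (Subgroup.card_map_dvd U (QuotientGroup.mk' N)) hU
  obtain ⟨q, hq⟩ := hdom _ h1
  obtain ⟨g, rfl⟩ := QuotientGroup.mk'_surjective N q
  refine ⟨g, ?_⟩
  rintro _ ⟨x, hx, rfl⟩
  rw [Subgroup.mem_comap]
  have : (QuotientGroup.mk' N) ((MulAut.conj g).toMonoidHom x) =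
      (MulAut.conj ((QuotientGroup.mk' N) g)).toMonoidHom ((QuotientGroup.mk' N) x) := by
    simp
  rw [this]
  exact hq (Subgroup.mem_map_of_mem _ (Subgroup.mem_map_of_mem _ hx))

theorem claims_of_quot {G : Type u} [Group G] [Finite G] (p : ℕ) [Fact p.Prime] (N : Subgroup G)
    [N.Normal] (hN : (∃ m : ℕ, Nat.card N = p ^ m) ∨ (Nat.card N).Coprime p)
    (hq : Claims p (G ⧸ N)) : Claims p G := by
  obtain ⟨Hb, hHb1, ⟨a, hHb2⟩, hdom⟩ := hq
  set L := Hb.comap (QuotientGroup.mk' N) with hL
  have hLcard : Nat.card L = Nat.card Hb * Nat.card N := Cfsg.Agent.Lib.helper1.card_comap_mk N Hb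
  have hLidx : L.index = p ^ a := by
    rw [hL, Subgroup.index_comap_of_surjective _ (QuotientGroup.mk'_surjective N), hHb2]
  have hNL : N ≤ L := by
    intro x hx
    rw [hL, Subgroup.mem_comap]
    have : QuotientGroup.mk' N x = 1 := (QuotientGroup.eq_one_iff x).mpr hx
    rw [this]; exact Hb.one_mem
  rcases hN with ⟨m, hm⟩ | hN
  · -- `N` is a `p`-group: Schur–Zassenhaus
    have hcop : (Nat.card (N.subgroupOf L)).Coprime (N.subgroupOf L).index := by
      have h1 : Nat.card (N.subgroupOf L) = Nat.card N :=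
        Nat.card_congr (Subgroup.subgroupOfEquivOfLe hNL).toEquiv
      have h2 := Subgroup.card_mul_index (N.subgroupOf L)
      rw [h1, hLcard, mul_comm] at h2
      have h3 : (N.subgroupOf L).index = Nat.card Hb :=
        Nat.eq_of_mul_eq_mul_right Nat.card_pos h2
      rw [h1, h3, hm]
      exact (Nat.Coprime.pow_right m hHb1).symm
    obtain ⟨K₀, hK₀⟩ := Subgroup.exists_right_complement'_of_coprime hcop
    set K := K₀.map L.subtype with hK
    have hKL : K ≤ L := by
      rintro _ ⟨x, -, rfl⟩; exact x.2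
    have hKcard : Nat.card K = Nat.card Hb := by
      have h0 : Nat.card K = Nat.card K₀ :=
        Subgroup.card_map_of_injective (Subgroup.subtype_injective L)
      have h1 : Nat.card (N.subgroupOf L) = Nat.card N :=
        Nat.card_congr (Subgroup.subgroupOfEquivOfLe hNL).toEquiv
      have h2 := hK₀.card_mul_card
      rw [h1, hLcard, mul_comm] at h2
      rw [h0]
      exact Nat.eq_of_mul_eq_mul_right Nat.card_pos h2
    have hKcop : (Nat.card K).Coprime p := by rw [hKcard]; exact hHb1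
    have hsup : N ⊔ K = L := by
      apply Subgroup.eq_of_le_of_card_ge (sup_le hNL hKL)
      have hd : Disjoint K N := Subgroup.disjoint_of_coprime_natCard (by
        rw [hm]; exact Nat.Coprime.pow_right m hKcop)
      rw [sup_comm, Cfsg.Agent.Lib.helper1.card_sup_of_disjoint_normal K N hd, hKcard, hLcard,
        mul_comm]
    refine ⟨K, hKcop, ⟨a + m, ?_⟩, ?_⟩
    · have h1 := Subgroup.card_mul_index K
      have h2 := Subgroup.card_mul_index L
      rw [hLcard, hLidx, hm] at h2
      rw [hKcard, ← h2] at h1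
      have h3 : Nat.card Hb * K.index = Nat.card Hb * (p ^ a * p ^ m) := by
        rw [h1]; ring
      rw [pow_add]
      exact Nat.eq_of_mul_eq_mul_left Nat.card_pos h3
    · intro U hU
      obtain ⟨g, hg⟩ := lift_dom p N Hb hdom U hU
      set V := U.map (MulAut.conj g).toMonoidHom with hV
      have hVcard : Nat.card V = Nat.card U :=
        Subgroup.card_map_of_injective (MulAut.conj g).injective
      have hVcop : (Nat.card V).Coprime p := by rw [hVcard]; exact hU
      set A := K ⊓ (N ⊔ V) with hA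
      have hAcop : (Nat.card A).Coprime p :=
        Nat.Coprime.coprime_dvd_left (Subgroup.card_dvd_of_le inf_le_left) hKcop
      have hNA : N ⊔ A = N ⊔ V := by
        apply le_antisymm (sup_le le_sup_left inf_le_right)
        apply sup_le le_sup_left
        intro v hv
        have hvL : v ∈ N ⊔ K := by rw [hsup]; exact hg hv
        rw [← SetLike.mem_coe, Subgroup.normal_mul] at hvL
        obtain ⟨n, hn, k, hk, rfl⟩ := hvL
        have hk' : k ∈ N ⊔ V := by
          have : k = n⁻¹ * (n * k) := by group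
          rw [this]
          exact Subgroup.mul_mem _ (Subgroup.mem_sup_left (N.inv_mem hn)) (Subgroup.mem_sup_right hv)
        exact Subgroup.mul_mem _ (Subgroup.mem_sup_left hn) (Subgroup.mem_sup_right ⟨hk, hk'⟩)
      have hdV : Disjoint V N := Subgroup.disjoint_of_coprime_natCard (by
        rw [hm]; exact Nat.Coprime.pow_right m hVcop)
      have hdA : Disjoint A N := Subgroup.disjoint_of_coprime_natCard (by
        rw [hm]; exact Nat.Coprime.pow_right m hAcop)
      have hc1 := Cfsg.Agent.Lib.helper1.card_sup_of_disjoint_normal V N hdV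
      have hc2 := Cfsg.Agent.Lib.helper1.card_sup_of_disjoint_normal A N hdA
      rw [sup_comm] at hc1 hc2
      rw [hNA, hc1] at hc2
      have hAV : Nat.card V = Nat.card A := Nat.eq_of_mul_eq_mul_left Nat.card_pos hc2
      have hNp : IsPGroup p N := IsPGroup.of_card hm
      have hsolv : Group.IsSolvable N := by
        have : Group.IsNilpotent N := hNp.isNilpotent
        infer_instance
      obtain ⟨n, hn, hn2⟩ := Cfsg.Agent.Lib.helper8.szi N A V
        (by rw [Subgroup.normalizer_eq_top]; exact le_top)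
        (by rw [hm]; exact (Nat.Coprime.pow_right m hAcop).symm)
        (Or.inl hsolv) (by rw [hNA]; exact le_sup_right) hAV
      refine ⟨n⁻¹ * g, ?_⟩
      rintro _ ⟨x, hx, rfl⟩
      have h1 : (MulAut.conj g).toMonoidHom x ∈ V := Subgroup.mem_map_of_mem _ hx
      have h2 := ((hn2 _).mp h1)
      have h3 : (MulAut.conj (n⁻¹ * g)).toMonoidHom x = n⁻¹ * (MulAut.conj g).toMonoidHom x * n := by
        simp [mul_assoc]
      rw [h3]
      exact (inf_le_left : A ≤ K) h2
  · -- `N` is a `p'`-group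
    refine ⟨L, ?_, ⟨a, hLidx⟩, fun U hU => lift_dom p N Hb hdom U hU⟩
    rw [hLcard]
    exact Nat.Coprime.mul_left hHb1 hN

theorem claims_chain (p : ℕ) [Fact p.Prime] (n : ℕ) : ∀ (G : Type u) [Group G] [Finite G]
    (H : Fin (n + 1) → Subgroup G), H 0 = ⊥ → H (Fin.last n) = ⊤ → Monotone H →
    (∀ i, (H i).Normal) →
    (∀ i : Fin n, (∃ m : ℕ, (H i.castSucc).relIndex (H i.succ) = p ^ m) ∨
      ((H i.castSucc).relIndex (H i.succ)).Coprime p) → Claims p G := by
  induction n with
  | zero =>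
    intro G _ _ H h0 h1 _ _ _
    have hbt : (⊥ : Subgroup G) = ⊤ := by rw [← h0, ← h1]; rfl
    refine ⟨⊤, ?_, ⟨0, by simp⟩, fun U _ => ⟨1, le_top⟩⟩
    rw [← hbt, Subgroup.card_bot]
    exact Nat.coprime_one_left p
  | succ n ih =>
    intro G _ _ H h0 h1 hmono hnorm hstep
    have : (H 1).Normal := hnorm 1
    have hN : (∃ m : ℕ, Nat.card (H 1) = p ^ m) ∨ (Nat.card (H 1)).Coprime p := by
      have := hstep 0
      rw [Fin.castSucc_zero, Fin.succ_zero_eq_one, h0, Subgroup.relIndex_bot_left] at this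
      exact this
    apply claims_of_quot p (H 1) hN
    apply ih (G ⧸ H 1) (fun i => (H i.succ).map (QuotientGroup.mk' (H 1)))
    · show (H (Fin.succ 0)).map (QuotientGroup.mk' (H 1)) = ⊥
      rw [Fin.succ_zero_eq_one, QuotientGroup.map_mk'_self]
    · show (H (Fin.succ (Fin.last n))).map (QuotientGroup.mk' (H 1)) = ⊤
      rw [Fin.succ_last, h1]
      exact Subgroup.map_top_of_surjective _ (QuotientGroup.mk'_surjective _)
    · intro i j hij
      exact Subgroup.map_mono (hmono (Fin.succ_le_succ_iff.mpr hij))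
    · intro i
      exact Subgroup.Normal.map (hnorm _) _ (QuotientGroup.mk'_surjective _)
    · intro i
      have h1le : H 1 ≤ H i.castSucc.succ := hmono (by
        rw [Fin.le_def]; simp)
      show (∃ m : ℕ, ((H i.castSucc.succ).map (QuotientGroup.mk' (H 1))).relIndex
          ((H i.succ.succ).map (QuotientGroup.mk' (H 1))) = p ^ m) ∨
        (((H i.castSucc.succ).map (QuotientGroup.mk' (H 1))).relIndex
          ((H i.succ.succ).map (QuotientGroup.mk' (H 1)))).Coprime p
      rw [relIndex_map_mk _ _ _ h1le]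
      have := hstep i.succ
      rw [Fin.succ_castSucc]
      exact this

/-- A finite p-soluble group has a p-complement, all its p-complements are conjugate, and every subgroup of order prime to p lies in one of them. Here a p-complement is a subgroup of order prime to p whose index is a power of p. -/
theorem result {G : Type*} [Group G] [Finite G] {p : ℕ} [Fact p.Prime] (hG : Cfsg.IsPSolvable p G) : (∃ H : Subgroup G, (Nat.card H).Coprime p ∧ ∃ n : ℕ, H.index = p ^ n) ∧ (∀ H₁ H₂ : Subgroup G, (Nat.card H₁).Coprime p → (∃ n : ℕ, H₁.index = p ^ n) → (Nat.card H₂).Coprime p → (∃ n : ℕ, H₂.index = p ^ n) → ∃ g : G, H₂ = H₁.map (MulAut.conj g).toMonoidHom) ∧ (∀ U : Subgroup G, (Nat.card U).Coprime p → ∃ H : Subgroup G, (Nat.card H).Coprime p ∧ (∃ n : ℕ, H.index = p ^ n) ∧ ∃ g : G, U.map (MulAut.conj g).toMonoidHom ≤ H) := by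
  obtain ⟨n, H, h0, h1, hmono, hnorm, hstep⟩ := hG
  obtain ⟨K, hK1, ⟨a, hK2⟩, hdom⟩ := claims_chain p n G H h0 h1 hmono hnorm hstep
  have key : ∀ H₁ : Subgroup G, (Nat.card H₁).Coprime p → (∃ n : ℕ, H₁.index = p ^ n) →
      ∃ g : G, H₁.map (MulAut.conj g).toMonoidHom = K := by
    intro H₁ hc ⟨b, hb⟩
    obtain ⟨g, hg⟩ := hdom H₁ hc
    refine ⟨g, ?_⟩
    apply Subgroup.eq_of_le_of_card_ge hg
    rw [Subgroup.card_map_of_injective (MulAut.conj g).injective]
    have e1 := Subgroup.card_mul_index H₁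
    have e2 := Subgroup.card_mul_index K
    rw [hb] at e1
    rw [hK2] at e2
    have d1 : Nat.card K ∣ Nat.card H₁ * p ^ b := by rw [e1, ← e2]; exact dvd_mul_right _ _
    exact Nat.le_of_dvd Nat.card_pos ((Nat.Coprime.pow_right b hK1).dvd_of_dvd_mul_right d1)
  refine ⟨⟨K, hK1, a, hK2⟩, ?_, ?_⟩
  · intro H₁ H₂ c1 i1 c2 i2
    obtain ⟨g1, hg1⟩ := key H₁ c1 i1
    obtain ⟨g2, hg2⟩ := key H₂ c2 i2
    refine ⟨g2⁻¹ * g1, ?_⟩
    ext x
    constructor
    · intro hx
      have h1 : (MulAut.conj g2).toMonoidHom x ∈ K := by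
        rw [← hg2]; exact Subgroup.mem_map_of_mem _ hx
      rw [← hg1] at h1
      obtain ⟨y, hy, hyx⟩ := h1
      refine ⟨y, hy, ?_⟩
      have : (MulAut.conj (g2⁻¹ * g1)).toMonoidHom y = g2⁻¹ * (MulAut.conj g1).toMonoidHom y * g2 := by
        simp [mul_assoc]
      rw [this, hyx]
      simp [mul_assoc]
    · rintro ⟨y, hy, rfl⟩
      have h1 : (MulAut.conj g1).toMonoidHom y ∈ K := by
        rw [← hg1]; exact Subgroup.mem_map_of_mem _ hy
      rw [← hg2] at h1
      obtain ⟨z, hz, hzy⟩ := h1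
      have : (MulAut.conj (g2⁻¹ * g1)).toMonoidHom y = g2⁻¹ * (MulAut.conj g1).toMonoidHom y * g2 := by
        simp [mul_assoc]
      rw [this, ← hzy]
      simpa [mul_assoc] using hz
  · intro U hU
    obtain ⟨g, hg⟩ := hdom U hU
    exact ⟨K, hK1, ⟨a, hK2⟩, g, hg⟩

end Cfsg.Agent.S3744
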