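import Cfsg.Statements.S3802
import Mathlib
import Cfsg.Agent.Lib.helper3.Subnormal

set_option autoImplicit false
open Cfsg

namespace Cfsg.Agent.S3802

universe u

open Pointwise

/-- the join of all subnormal subgroups inside `M` -/
def subJoin {G : Type u} [Group G] (M : Subgroup G) : Subgroup G :=
  sSup {L : Subgroup G | L.IsSubnormal ∧ L ≤ M}

theorem subJoin_le {G : Type u} [Group G] (M : Subgroup G) : subJoin M ≤ M :=
  sSup_le (fun _ hL => hL.2)

theorem le_subJoin {G : Type u} [Group G] (M L : Subgroup G) (h1 : L.IsSubnormal) (h2 : L ≤ M) :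
    L ≤ subJoin M := le_sSup ⟨h1, h2⟩

theorem sSup_subnormal {G : Type u} [Group G] [Finite G] (T : Set (Subgroup G))
    (h : ∀ A ∈ T, A.IsSubnormal) : (sSup T).IsSubnormal := by
  have hfin : T.Finite := Set.toFinite T
  induction T, hfin using Set.Finite.induction_on with
  | empty => simp only [sSup_empty]; exact Subgroup.IsSubnormal.bot
  | @insert a s ha hs ih =>
    rw [sSup_insert]
    exact Cfsg.Agent.Lib.helper3.isSubnormal_sup (h a (Set.mem_insert a s))
      (ih (fun A hA => h A (Set.mem_insert_of_mem a hA)))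

theorem subJoin_subnormal {G : Type u} [Group G] [Finite G] (M : Subgroup G) :
    (subJoin M).IsSubnormal := sSup_subnormal _ (fun _ hA => hA.1)

theorem le_normalizer_subJoin {G : Type u} [Group G] [Finite G] (M : Subgroup G) :
    M ≤ Subgroup.normalizer (subJoin M : Set G) := by
  have key : ∀ m ∈ M, MulAut.conj m • subJoin M ≤ subJoin M := by
    intro m hm
    rw [Subgroup.pointwise_smul_subset_iff]
    apply sSup_le
    rintro L ⟨hL1, hL2⟩
    rw [← Subgroup.pointwise_smul_subset_iff]
    refine le_subJoin M _ (hL1.smul _) ?_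
    intro x hx
    rw [Subgroup.mem_pointwise_smul_iff_inv_smul_mem] at hx
    have h1 := hL2 hx
    have h2 : (MulAut.conj m)⁻¹ • x = m⁻¹ * x * m := by simp [MulAut.smul_def]
    rw [h2] at h1
    have h3 : x = m * (m⁻¹ * x * m) * m⁻¹ := by group
    rw [h3]; exact M.mul_mem (M.mul_mem hm h1) (M.inv_mem hm)
  intro m hm
  apply Subgroup.mem_normalizer_fintype
  intro x hx
  have h1 := key m hm (Subgroup.smul_mem_pointwise_smul_iff.mpr hx)
  simpa [MulAut.smul_def] using h1

theorem subJoin_top {G : Type u} [Group G] [Finite G] (M : Subgroup G)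
    (h : Subgroup.normalizer (subJoin M : Set G) ≤ M) : subJoin M = ⊤ := by
  rcases Subgroup.IsSubnormal.iff_eq_top_or_exists.mp (subJoin_subnormal M) with h1 | ⟨K, hK, hKs, hKn⟩
  · exact h1
  · exfalso
    have h2 : K ≤ Subgroup.normalizer (subJoin M : Set G) :=
      (Subgroup.normal_subgroupOf_iff_le_normalizer hK.le).mp hKn
    have h3 : K ≤ subJoin M := le_subJoin M K hKs (h2.trans h)
    exact absurd (le_antisymm hK.le h3) hK.ne

/-- Let G be a finite group, M a maximal subgroup of G and N a subnormal subgroup of G contained in M. Then N is contained in every conjugate of M, that is, N lies in the core of M in G. -/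
theorem result {G : Type*} [Group G] [Finite G] (M N : Subgroup G) (hM : IsCoatom M) (hN : N.IsSubnormal) (hNM : N ≤ M) :
    N ≤ Subgroup.normalCore M := by
  have h1 : N ≤ subJoin M := le_subJoin M N hN hNM
  have h2 := le_normalizer_subJoin M
  by_cases h3 : Subgroup.normalizer (subJoin M : Set G) = ⊤
  · haveI : (subJoin M).Normal := Subgroup.normalizer_eq_top_iff.mp h3
    exact h1.trans ((Subgroup.normal_le_normalCore).mpr (subJoin_le M))
  · exfalso
    have h4 : Subgroup.normalizer (subJoin M : Set G) = M := by
      rcases eq_or_lt_of_le h2 with h5 | h5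
      · exact h5.symm
      · exact absurd (hM.2 _ h5) h3
    have h5 := subJoin_top M h4.le
    have h6 : M = ⊤ := top_le_iff.mp (h5 ▸ subJoin_le M)
    exact hM.1 h6

end Cfsg.Agent.S3802
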