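import Cfsg.Statements.S3748
import Mathlib
import Cfsg.Agent.S3802
import Cfsg.Agent.Lib.helper20.Zipper
import Cfsg.Agent.Lib.helper1.Fitting

set_option autoImplicit false
open Cfsg

namespace Cfsg.Agent.S3748

/-- Call a proper subgroup M of G primitive when M = N_G(N) for every non-trivial normal subgroup N of M. If M is a primitive subgroup of the finite group G, then no non-trivial subnormal subgroup of G is contained in M; in particular M ∩ F(G) = 1. -/
theorem result {G : Type*} [Group G] [Finite G] (M : Subgroup G) (hM : M ≠ ⊤) (hprim : ∀ N : Subgroup G, N ≤ M → M ≤ Subgroup.normalizer (N : Set G) → N ≠ ⊥ → Subgroup.normalizer (N : Set G) = M) : (∀ L : Subgroup G, L.IsSubnormal → L ≤ M → L = ⊥) ∧ M ⊓ Cfsg.fittingSubgroup G = ⊥ := by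
  have main : ∀ L : Subgroup G, L.IsSubnormal → L ≤ M → L = ⊥ := by
    intro L hL hLM
    have h1 : L ≤ Cfsg.Agent.S3802.subJoin M := Cfsg.Agent.S3802.le_subJoin M L hL hLM
    have h2 := Cfsg.Agent.S3802.le_normalizer_subJoin M
    by_contra hne
    have h3 : Cfsg.Agent.S3802.subJoin M ≠ ⊥ := by
      intro h
      rw [h] at h1
      exact hne (le_bot_iff.mp h1)
    have h4 := hprim _ (Cfsg.Agent.S3802.subJoin_le M) h2 h3
    have h5 := Cfsg.Agent.S3802.subJoin_top M h4.le
    exact hM (top_le_iff.mp (h5 ▸ Cfsg.Agent.S3802.subJoin_le M))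
  refine ⟨main, ?_⟩
  apply main _ _ inf_le_left
  haveI : Group.IsNilpotent (Cfsg.fittingSubgroup G) :=
    Cfsg.Agent.Lib.helper1.fitting_isNilpotent G
  have hFn : (Cfsg.fittingSubgroup G).Normal := Cfsg.Agent.Lib.helper1.fitting_normal G
  have h1 : ((M ⊓ Cfsg.fittingSubgroup G).subgroupOf (Cfsg.fittingSubgroup G)).IsSubnormal :=
    Cfsg.Agent.Lib.helper20.subnormal_of_isNilpotent _
  exact Subgroup.IsSubnormal.trans inf_le_right h1 hFn.isSubnormal

end Cfsg.Agent.S3748
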