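import Cfsg.Statements.S3857
import Mathlib
import Cfsg.Agent.Lib.helper24.FrobGroup
import Cfsg.Agent.Lib.helper9.PPrimeCore

set_option autoImplicit false
open Cfsg

namespace Cfsg.Agent.S3857

open scoped Pointwise
open scoped commutatorElement

/-- all prime divisors of the order lie in `S` -/
def PiGrp (S : Set ℕ) {G : Type*} [Group G] (H : Subgroup G) : Prop :=
  ∀ p : ℕ, p.Prime → p ∣ Nat.card H → p ∈ S

/-- graph condition: no element of order `a * b` with `a ∈ S`, `b ∉ S` primes -/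
def GC (S : Set ℕ) (G : Type*) [Group G] : Prop :=
  ∀ a ∈ S, ∀ b ∉ S, a.Prime → b.Prime → ¬ ∃ g : G, orderOf g = a * b

theorem gc_quot {S : Set ℕ} {G : Type*} [Group G] [Finite G] (N : Subgroup G) [N.Normal]
    (h : GC S G) : GC S (G ⧸ N) := by
  intro a ha b hb hap hbp ⟨g', hg'⟩
  obtain ⟨g, rfl⟩ := QuotientGroup.mk_surjective g'
  have hdvd : orderOf (g : G ⧸ N) ∣ orderOf g := by
    apply orderOf_dvd_of_pow_eq_one
    rw [← QuotientGroup.mk_pow, pow_orderOf_eq_one]
    rfl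
  apply h a ha b hb hap hbp
  refine ⟨g ^ (orderOf g / (a * b)), ?_⟩
  exact orderOf_pow_orderOf_div (orderOf_pos g).ne' (hg' ▸ hdvd)

theorem gc_comm {S : Set ℕ} {G : Type*} [Group G] [Finite G] (h : GC S G) (u v : G)
    (huv : Commute u v) (hu : u ≠ 1) (hv : v ≠ 1)
    (hu' : ∀ p : ℕ, p.Prime → p ∣ orderOf u → p ∈ S)
    (hv' : ∀ p : ℕ, p.Prime → p ∣ orderOf v → p ∉ S) : False := by
  have h1 : orderOf u ≠ 1 := fun hh => hu (orderOf_eq_one_iff.mp hh)
  have h2 : orderOf v ≠ 1 := fun hh => hv (orderOf_eq_one_iff.mp hh)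
  obtain ⟨a, hap, had⟩ := Nat.exists_prime_and_dvd h1
  obtain ⟨b, hbp, hbd⟩ := Nat.exists_prime_and_dvd h2
  have ha := hu' a hap had
  have hb := hv' b hbp hbd
  have hab : a ≠ b := fun hh => hb (hh ▸ ha)
  have h3 : orderOf (u ^ (orderOf u / a)) = a := orderOf_pow_orderOf_div (orderOf_pos u).ne' had
  have h4 : orderOf (v ^ (orderOf v / b)) = b := orderOf_pow_orderOf_div (orderOf_pos v).ne' hbd
  have h5 : Commute (u ^ (orderOf u / a)) (v ^ (orderOf v / b)) := huv.pow_pow _ _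
  have h6 : Nat.Coprime (orderOf (u ^ (orderOf u / a))) (orderOf (v ^ (orderOf v / b))) := by
    rw [h3, h4]; exact (Nat.coprime_primes hap hbp).mpr hab
  have h7 := h5.orderOf_mul_eq_mul_orderOf_of_coprime h6
  rw [h3, h4] at h7
  exact h a ha b hb hap hbp ⟨_, h7⟩

theorem card_lt_of_lt {G : Type*} [Group G] [Finite G] {H K : Subgroup G} (h : H < K) :
    Nat.card H < Nat.card K :=
  lt_of_le_of_ne (Subgroup.card_le_of_le h.le)
    (fun he => h.ne (Subgroup.eq_of_le_of_card_ge h.le he.ge))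

theorem exists_normal_abelian {G : Type*} [Group G] [Finite G] :
    ∀ (n : ℕ) (M : Subgroup G), Nat.card M = n → M.Normal → Group.IsSolvable ↥M → M ≠ ⊥ →
      ∃ A : Subgroup G, A ≤ M ∧ A.Normal ∧ A ≠ ⊥ ∧ ∀ x ∈ A, ∀ y ∈ A, x * y = y * x := by
  intro n
  induction n using Nat.strong_induction_on with
  | _ n ih =>
    intro M hn hM hs hne
    haveI := hM
    haveI := hs
    by_cases hc : ⁅M, M⁆ = ⊥
    · refine ⟨M, le_rfl, hM, hne, ?_⟩
      intro x hx y hy
      have h1 : ⁅x, y⁆ ∈ ⁅M, M⁆ := Subgroup.commutator_mem_commutator hx hy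
      rw [hc, Subgroup.mem_bot, commutatorElement_def] at h1
      have h2 : x * y = (x * y * x⁻¹ * y⁻¹) * (y * x) := by group
      rw [h2, h1, one_mul]
    · have hle : ⁅M, M⁆ ≤ M := Subgroup.commutator_le_left M M
      have hne' : ⁅M, M⁆ ≠ M := by
        intro heq
        haveI : Nontrivial ↥M := (Subgroup.nontrivial_iff_ne_bot M).mpr hne
        have h1 := Group.IsSolvable.commutator_lt_top_of_nontrivial ↥M
        have h2 : (commutator ↥M).map M.subtype = (⊤ : Subgroup ↥M).map M.subtype := by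
          rw [Subgroup.map_subtype_commutator, heq, ← MonoidHom.range_eq_map, Subgroup.range_subtype]
        have h3 := Subgroup.map_injective M.subtype_injective h2
        exact h1.ne h3
      have hlt : ⁅M, M⁆ < M := lt_of_le_of_ne hle hne'
      have hn' : (⁅M, M⁆).Normal := Subgroup.commutator_normal M M
      have hs' : Group.IsSolvable ↥⁅M, M⁆ :=
        Group.isSolvable_of_isSolvable_injective (Subgroup.inclusion_injective hle)
      obtain ⟨A, hA, hAn, hA1, hAc⟩ := ih (Nat.card ↥⁅M, M⁆) (hn ▸ card_lt_of_lt hlt) ⁅M, M⁆ rfl hn' hs' hc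
      exact ⟨A, hA.trans hle, hAn, hA1, hAc⟩

theorem exists_normal_elem {G : Type*} [Group G] [Finite G] (M : Subgroup G) (hM : M.Normal)
    (hs : Group.IsSolvable ↥M) (hne : M ≠ ⊥) :
    ∃ (p : ℕ) (T : Subgroup G), p.Prime ∧ T ≤ M ∧ T.Normal ∧ T ≠ ⊥ ∧
      (∀ x ∈ T, ∀ y ∈ T, x * y = y * x) ∧ ∀ t ∈ T, t ^ p = 1 := by
  obtain ⟨A, hA, hAn, hA1, hAc⟩ := exists_normal_abelian (Nat.card M) M rfl hM hs hne
  have hcard : Nat.card A ≠ 1 := fun h => hA1 (Subgroup.eq_bot_of_card_eq A h)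
  obtain ⟨p, hp, hpd⟩ := Nat.exists_prime_and_dvd hcard
  haveI : Fact p.Prime := ⟨hp⟩
  obtain ⟨x, hx⟩ := exists_prime_orderOf_dvd_card' (G := ↥A) p hpd
  let T : Subgroup G :=
    { carrier := {t | t ∈ A ∧ t ^ p = 1}
      mul_mem' := by
        rintro s t ⟨hs, hs'⟩ ⟨ht, ht'⟩
        refine ⟨A.mul_mem hs ht, ?_⟩
        have hc : Commute s t := hAc s hs t ht
        rw [hc.mul_pow, hs', ht', one_mul]
      one_mem' := ⟨A.one_mem, one_pow _⟩
      inv_mem' := by
        rintro t ⟨ht, ht'⟩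
        exact ⟨A.inv_mem ht, by rw [inv_pow, ht', inv_one]⟩ }
  refine ⟨p, T, hp, fun t ht => hA ht.1, ?_, ?_, fun x hx y hy => hAc x hx.1 y hy.1, fun t ht => ht.2⟩
  · constructor
    intro t ht g
    refine ⟨hAn.conj_mem t ht.1 g, ?_⟩
    rw [conj_pow, ht.2, mul_one, mul_inv_cancel]
  · intro hbot
    have h1 : (x : G) ∈ T := by
      refine ⟨x.2, ?_⟩
      have : x ^ p = 1 := by rw [← hx]; exact pow_orderOf_eq_one x
      have := congrArg Subtype.val this
      simpa using this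
    rw [hbot, Subgroup.mem_bot] at h1
    have h2 : x = 1 := Subtype.ext h1
    rw [h2, orderOf_one] at hx
    exact hp.one_lt.ne hx

theorem pi_of_exp {S : Set ℕ} {G : Type*} [Group G] [Finite G] (T : Subgroup G) (p : ℕ)
    (hp : p.Prime) (hT : ∀ t ∈ T, t ^ p = 1) (hpS : p ∈ S) : PiGrp S T := by
  haveI : Fact p.Prime := ⟨hp⟩
  have h1 : IsPGroup p ↥T := by
    intro t
    refine ⟨1, ?_⟩
    apply Subtype.ext
    simpa using hT t.1 t.2
  obtain ⟨k, hk⟩ := IsPGroup.iff_card.mp h1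
  intro r hr hrd
  rw [hk] at hrd
  have := (Nat.prime_dvd_prime_iff_eq hr hp).mp (hr.dvd_of_dvd_pow hrd)
  rw [this]; exact hpS

theorem exists_max_normal (S : Set ℕ) (G : Type*) [Group G] [Finite G] :
    ∃ N : Subgroup G, N.Normal ∧ PiGrp S N ∧
      ∀ K : Subgroup G, K.Normal → PiGrp S K → Nat.card K ≤ Nat.card N := by
  classical
  haveI : Nonempty {N : Subgroup G // N.Normal ∧ PiGrp S N} :=
    ⟨⟨⊥, inferInstance, by
      intro p hp hd
      rw [Subgroup.card_bot] at hd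
      exact absurd (Nat.dvd_one.mp hd) hp.one_lt.ne'⟩⟩
  obtain ⟨x, hx⟩ := Finite.exists_max (fun N : {N : Subgroup G // N.Normal ∧ PiGrp S N} => Nat.card N.1)
  exact ⟨x.1, x.2.1, x.2.2, fun K hK hK' => hx ⟨K, hK, hK'⟩⟩

theorem card_sup_dvd {G : Type*} [Group G] [Finite G] (H K : Subgroup G) [K.Normal] :
    Nat.card ↥(H ⊔ K) ∣ Nat.card K * Nat.card H := by
  have h1 : Nat.card ↥(H ⊔ K) = Nat.card K * K.relIndex (H ⊔ K) := by
    rw [← Subgroup.card_mul_index (K.subgroupOf (H ⊔ K))]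
    congr 1
    exact (Nat.card_congr (Subgroup.subgroupOfEquivOfLe (le_sup_right : K ≤ H ⊔ K)).toEquiv)
  have h2 : K.relIndex (H ⊔ K) = K.relIndex H := Subgroup.relIndex_sup_right H K
  rw [h1, h2]
  exact Nat.mul_dvd_mul_left _ (Subgroup.relIndex_dvd_card K H)

theorem pi_sup {S : Set ℕ} {G : Type*} [Group G] [Finite G] (H K : Subgroup G) [K.Normal]
    (hH : PiGrp S H) (hK : PiGrp S K) : PiGrp S (H ⊔ K) := by
  intro p hp hd
  have h1 := dvd_trans hd (card_sup_dvd H K)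
  rcases (Nat.Prime.dvd_mul hp).mp h1 with h | h
  · exact hK p hp h
  · exact hH p hp h

theorem card_comap {G : Type*} [Group G] [Finite G] (N : Subgroup G) [N.Normal]
    (T : Subgroup (G ⧸ N)) :
    Nat.card (T.comap (QuotientGroup.mk' N)) = Nat.card N * Nat.card T := by
  have h1 := Cfsg.Agent.Lib.helper9.card_comap_of_surjective' (QuotientGroup.mk' N)
    (QuotientGroup.mk'_surjective N) T
  rw [QuotientGroup.ker_mk'] at h1
  exact h1

theorem exists_eq_inv_mul {B : Type*} [Group B] [Finite B] (σ : MulAut B)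
    (hf : ∀ u, σ u = u → u = 1) (n : B) : ∃ u : B, n = u⁻¹ * σ u := by
  have hinj : Function.Injective (fun u : B => u⁻¹ * σ u) := by
    intro u v huv
    simp only at huv
    have h1 : σ (u * v⁻¹) = u * v⁻¹ := by
      rw [map_mul, map_inv]
      have h2 : σ u = u * (v⁻¹ * σ v) := by rw [← huv]; group
      rw [h2]; group
    have h3 := hf _ h1
    exact mul_inv_eq_one.mp h3
  obtain ⟨u, hu⟩ := (Finite.injective_iff_surjective.mp hinj) n
  exact ⟨u, hu.symm⟩

theorem norm_eq_one {B : Type*} [CommGroup B] [Finite B] (p : ℕ) (σ : MulAut B) (hσ : σ ^ p = 1)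
    (hf : ∀ u, σ u = u → u = 1) (n : B) : ∏ i ∈ Finset.range p, (σ ^ i) n = 1 := by
  obtain ⟨u, rfl⟩ := exists_eq_inv_mul σ hf n
  have h1 : ∀ i : ℕ, (σ ^ i) (u⁻¹ * σ u) = (σ ^ (i + 1)) u / (σ ^ i) u := by
    intro i
    rw [map_mul, map_inv, pow_succ, MulAut.mul_apply, div_eq_mul_inv, mul_comm]
  simp_rw [h1]
  rw [Finset.prod_range_div (fun i => (σ ^ i) u), hσ]
  simp

theorem pow_eq_one_of_fpf {B : Type*} [CommGroup B] [Finite B] (p : ℕ) (hp : 1 < p)
    (α β : MulAut B) (hc : Commute α β) (hα : α ^ p = 1) (hβ : β ^ p = 1)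
    (hf : ∀ i j : ℕ, i < p → j < p → ¬ (i = 0 ∧ j = 0) → ∀ u : B, (α ^ i * β ^ j) u = u → u = 1)
    (n : B) : n ^ p = 1 := by
  have h1 : ∀ j, j < p → ∏ i ∈ Finset.range p, ((α * β ^ j) ^ i) n = 1 := by
    intro j hj
    apply norm_eq_one
    · rw [(hc.pow_right j).mul_pow, hα, one_mul, ← pow_mul, mul_comm, pow_mul, hβ, one_pow]
    · intro u hu
      have := hf 1 j hp hj (by simp) u
      rw [pow_one] at this
      exact this hu
  have h2 : ∀ i, 0 < i → i < p → ∏ j ∈ Finset.range p, ((β ^ i) ^ j) n = 1 := by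
    intro i hi0 hi
    apply norm_eq_one
    · rw [← pow_mul, mul_comm, pow_mul, hβ, one_pow]
    · intro u hu
      have := hf 0 i (by omega) hi (by omega) u
      rw [pow_zero, one_mul] at this
      exact this hu
  have h3 : ∏ j ∈ Finset.range p, ∏ i ∈ Finset.range p, ((α * β ^ j) ^ i) n = 1 :=
    Finset.prod_eq_one (fun j hj => h1 j (Finset.mem_range.mp hj))
  have h4 : ∀ i j : ℕ, ((α * β ^ j) ^ i) n = (α ^ i) (((β ^ i) ^ j) n) := by
    intro i j
    rw [(hc.pow_right j).mul_pow, MulAut.mul_apply, pow_right_comm]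
  simp_rw [h4] at h3
  rw [Finset.prod_comm] at h3
  simp_rw [← map_prod] at h3
  rw [Finset.prod_eq_single 0] at h3
  · simpa using h3
  · intro i hi hi0
    rw [h2 i (Nat.pos_of_ne_zero hi0) (Finset.mem_range.mp hi), map_one]
  · intro h0
    exact absurd (Finset.mem_range.mpr (by omega)) h0


theorem elem_card_le {S : Set ℕ} {G : Type*} [Group G] [Finite G] (hgc : GC S G)
    (N : Subgroup G) (hNn : N.Normal) (hN1 : N ≠ ⊥) (hNs : Group.IsSolvable ↥N) (hNS : PiGrp S N)
    (p : ℕ) (hp : p.Prime) (hpS : p ∉ S) (E : Subgroup G)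
    (hEc : ∀ x ∈ E, ∀ y ∈ E, x * y = y * x) (hEp : ∀ t ∈ E, t ^ p = 1) : Nat.card E ≤ p := by
  haveI : Fact p.Prime := ⟨hp⟩
  by_contra hlt
  push_neg at hlt
  have hE1 : E ≠ ⊥ := by
    intro h
    rw [h, Subgroup.card_bot] at hlt
    have := hp.one_lt
    omega
  obtain ⟨⟨b, hbE⟩, hb1'⟩ := (Subgroup.ne_bot_iff_exists_ne_one).mp hE1
  have hb1 : b ≠ 1 := fun h => hb1' (Subtype.ext h)
  have hbo : orderOf b = p := orderOf_eq_prime (hEp b hbE) hb1
  have hzb : Subgroup.zpowers b ≤ E := Subgroup.zpowers_le.mpr hbE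
  have hex : ∃ a ∈ E, a ∉ Subgroup.zpowers b := by
    by_contra hcon
    push_neg at hcon
    have h1 : Nat.card E ≤ Nat.card (Subgroup.zpowers b) := Subgroup.card_le_of_le hcon
    rw [Nat.card_zpowers, hbo] at h1
    omega
  obtain ⟨a, haE, hab⟩ := hex
  obtain ⟨A, hAN, hAn, hA1, hAc⟩ := exists_normal_abelian (Nat.card N) N rfl hNn hNs hN1
  haveI := hAn
  letI : CommGroup ↥A :=
    { (inferInstance : Group ↥A) with mul_comm := fun x y => Subtype.ext (hAc x.1 x.2 y.1 y.2) }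
  have hne : ∀ i j : ℕ, i < p → j < p → ¬ (i = 0 ∧ j = 0) → a ^ i * b ^ j ≠ 1 := by
    intro i j hi hj hij h
    by_cases hi0 : i = 0
    · subst hi0
      rw [pow_zero, one_mul] at h
      have h1 : orderOf b ∣ j := orderOf_dvd_of_pow_eq_one h
      rw [hbo] at h1
      have hj0 : j ≠ 0 := fun hh => hij ⟨rfl, hh⟩
      have := Nat.le_of_dvd (Nat.pos_of_ne_zero hj0) h1
      omega
    · apply hab
      have h1 : a ^ i = (b ^ j)⁻¹ := eq_inv_of_mul_eq_one_left h
      have h2 : a ^ i ∈ Subgroup.zpowers b := by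
        rw [h1]; exact Subgroup.inv_mem _ (Subgroup.pow_mem _ (Subgroup.mem_zpowers b) j)
      have hcop : Nat.Coprime i p := (Nat.coprime_of_lt_prime hi0 hi hp).symm
      obtain ⟨m, -, hm⟩ := Nat.exists_mul_mod_eq_one_of_coprime hcop hp.one_lt
      have h3 : a ^ (i * m) = a := by
        conv_lhs => rw [← Nat.mod_add_div (i * m) p, hm, pow_add, pow_mul, hEp a haE, one_pow, mul_one, pow_one]
      rw [← h3, pow_mul]
      exact Subgroup.pow_mem _ h2 m
  have key : ∀ n : ↥A, n ^ p = 1 := by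
    intro n
    apply pow_eq_one_of_fpf p hp.one_lt (MulAut.conjNormal a) (MulAut.conjNormal b)
    · show MulAut.conjNormal a * MulAut.conjNormal b = MulAut.conjNormal b * MulAut.conjNormal a
      rw [← map_mul, ← map_mul, hEc a haE b hbE]
    · rw [← map_pow, hEp a haE, map_one]
    · rw [← map_pow, hEp b hbE, map_one]
    · intro i j hi hj hij u hu
      have hg : MulAut.conjNormal a ^ i * MulAut.conjNormal b ^ j
          = (MulAut.conjNormal (a ^ i * b ^ j) : MulAut ↥A) := by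
        rw [map_mul, map_pow, map_pow]
      rw [hg] at hu
      have hu' : a ^ i * b ^ j * (u : G) * (a ^ i * b ^ j)⁻¹ = (u : G) := by
        have := congrArg Subtype.val hu
        rwa [MulAut.conjNormal_apply] at this
      by_contra hu1
      have hgE : a ^ i * b ^ j ∈ E := E.mul_mem (E.pow_mem haE i) (E.pow_mem hbE j)
      have hcm : Commute (u : G) (a ^ i * b ^ j) := (mul_inv_eq_iff_eq_mul.mp hu').symm
      refine gc_comm hgc (u : G) (a ^ i * b ^ j) hcm (fun h => hu1 (Subtype.ext h))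
        (hne i j hi hj hij) ?_ ?_
      · intro r hr hrd
        exact hNS r hr (dvd_trans hrd (Subgroup.orderOf_dvd_natCard N (hAN u.2)))
      · intro r hr hrd
        have h1 : orderOf (a ^ i * b ^ j) ∣ p := orderOf_dvd_of_pow_eq_one (hEp _ hgE)
        have h2 := (Nat.prime_dvd_prime_iff_eq hr hp).mp (dvd_trans hrd h1)
        rw [h2]; exact hpS
  obtain ⟨⟨n, hnA⟩, hn1'⟩ := (Subgroup.ne_bot_iff_exists_ne_one).mp hA1
  have hn1 : n ≠ 1 := fun h => hn1' (Subtype.ext h)
  have hnp : n ^ p = 1 := by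
    have := congrArg Subtype.val (key ⟨n, hnA⟩)
    simpa using this
  have hno : orderOf n = p := orderOf_eq_prime hnp hn1
  apply hpS
  apply hNS p hp
  rw [← hno]
  exact Subgroup.orderOf_dvd_natCard N (hAN hnA)

theorem lift_card_le {S : Set ℕ} {G : Type*} [Group G] [Finite G] (hgc : GC S G)
    (N : Subgroup G) [hNn : N.Normal] (hN1 : N ≠ ⊥) (hNs : Group.IsSolvable ↥N) (hNS : PiGrp S N)
    (p : ℕ) (hp : p.Prime) (hpS : p ∉ S) (T : Subgroup (G ⧸ N))
    (hTc : ∀ x ∈ T, ∀ y ∈ T, x * y = y * x) (hTp : ∀ t ∈ T, t ^ p = 1) : Nat.card T ≤ p := by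
  haveI : Fact p.Prime := ⟨hp⟩
  obtain ⟨P⟩ : Nonempty (Sylow p ↥(T.comap (QuotientGroup.mk' N))) := inferInstance
  have hmem : ∀ x ∈ (P : Subgroup ↥(T.comap (QuotientGroup.mk' N))).map
      (T.comap (QuotientGroup.mk' N)).subtype, ((x : G) : G ⧸ N) ∈ T := by
    intro x hx
    obtain ⟨k, -, rfl⟩ := Subgroup.mem_map.mp hx
    exact k.2
  have hpow : ∀ x ∈ (P : Subgroup ↥(T.comap (QuotientGroup.mk' N))).map
      (T.comap (QuotientGroup.mk' N)).subtype, ∃ j : ℕ, x ^ (p ^ j) = 1 := by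
    intro x hx
    obtain ⟨k, hk, rfl⟩ := Subgroup.mem_map.mp hx
    obtain ⟨j, hj⟩ := P.isPGroup' ⟨k, hk⟩
    refine ⟨j, ?_⟩
    have := congrArg (fun z : ↥(P : Subgroup ↥(T.comap (QuotientGroup.mk' N))) =>
      ((z : ↥(T.comap (QuotientGroup.mk' N))) : G)) hj
    simpa using this
  have hinf : ∀ x ∈ (P : Subgroup ↥(T.comap (QuotientGroup.mk' N))).map
      (T.comap (QuotientGroup.mk' N)).subtype, x ∈ N → x = 1 := by
    intro x hx hxN
    by_contra hx1
    have h1 : orderOf x ≠ 1 := fun hh => hx1 (orderOf_eq_one_iff.mp hh)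
    obtain ⟨r, hr, hrd⟩ := Nat.exists_prime_and_dvd h1
    obtain ⟨j, hj⟩ := hpow x hx
    have h2 : r ∣ p ^ j := dvd_trans hrd (orderOf_dvd_of_pow_eq_one hj)
    have h3 := (Nat.prime_dvd_prime_iff_eq hr hp).mp (hr.dvd_of_dvd_pow h2)
    apply hpS
    rw [← h3]
    exact hNS r hr (dvd_trans hrd (Subgroup.orderOf_dvd_natCard N hxN))
  have hexp : ∀ x ∈ (P : Subgroup ↥(T.comap (QuotientGroup.mk' N))).map
      (T.comap (QuotientGroup.mk' N)).subtype, x ^ p = 1 := by
    intro x hx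
    apply hinf _ (Subgroup.pow_mem _ hx p)
    rw [← QuotientGroup.eq_one_iff, QuotientGroup.mk_pow]
    exact hTp _ (hmem x hx)
  have hcomm : ∀ x ∈ (P : Subgroup ↥(T.comap (QuotientGroup.mk' N))).map
      (T.comap (QuotientGroup.mk' N)).subtype, ∀ y ∈ (P : Subgroup ↥(T.comap (QuotientGroup.mk' N))).map
      (T.comap (QuotientGroup.mk' N)).subtype, x * y = y * x := by
    intro x hx y hy
    have h1 : x * y * (y * x)⁻¹ = 1 := by
      apply hinf _ (Subgroup.mul_mem _ (Subgroup.mul_mem _ hx hy) (Subgroup.inv_mem _ (Subgroup.mul_mem _ hy hx)))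
      rw [← QuotientGroup.eq_one_iff, QuotientGroup.mk_mul, QuotientGroup.mk_inv, QuotientGroup.mk_mul,
        QuotientGroup.mk_mul, hTc _ (hmem x hx) _ (hmem y hy), mul_inv_cancel]
    exact mul_inv_eq_one.mp h1
  have h1 := elem_card_le hgc N hNn hN1 hNs hNS p hp hpS _ hcomm hexp
  have h2 : Nat.card ↥((P : Subgroup ↥(T.comap (QuotientGroup.mk' N))).map
      (T.comap (QuotientGroup.mk' N)).subtype) = Nat.card ↥(P : Subgroup ↥(T.comap (QuotientGroup.mk' N))) :=
    Subgroup.card_map_of_injective (Subgroup.subtype_injective _)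
  have h3 := Sylow.card_eq_multiplicity P
  have h4 : IsPGroup p ↥T := by
    intro t
    refine ⟨1, ?_⟩
    apply Subtype.ext
    simpa using hTp t.1 t.2
  obtain ⟨k, hk⟩ := IsPGroup.iff_card.mp h4
  have h5 : p ^ k ∣ Nat.card ↥(T.comap (QuotientGroup.mk' N)) := by
    rw [card_comap, ← hk]; exact Dvd.intro_left _ rfl
  have h6 : k ≤ (Nat.card ↥(T.comap (QuotientGroup.mk' N))).factorization p :=
    (hp.pow_dvd_iff_le_factorization Nat.card_pos.ne').mp h5
  have h7 : p ^ k ≤ p ^ (Nat.card ↥(T.comap (QuotientGroup.mk' N))).factorization p :=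
    Nat.pow_le_pow_right hp.pos h6
  rw [hk]
  rw [h2, h3] at h1
  exact h7.trans h1

theorem normal_of_commutator_le {Q : Type*} [Group Q] (K : Subgroup Q) (h : commutator Q ≤ K) :
    K.Normal := by
  constructor
  intro k hk g
  have h1 : g * k * g⁻¹ = ⁅g, k⁆ * k := by
    rw [commutatorElement_def]; group
  rw [h1]
  refine K.mul_mem (h ?_) hk
  rw [commutator_def]
  exact Subgroup.commutator_mem_commutator (Subgroup.mem_top g) (Subgroup.mem_top k)

theorem decomp {G : Type*} [Group G] (N C : Subgroup G) [N.Normal] (h : N ⊔ C = ⊤) (g : G) :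
    ∃ k ∈ N, ∃ c ∈ C, g = k * c := by
  have h1 : g ∈ ((N ⊔ C : Subgroup G) : Set G) := by rw [h]; exact Set.mem_univ g
  rw [Subgroup.normal_mul] at h1
  obtain ⟨k, hk, c, hc, rfl⟩ := Set.mem_mul.mp h1
  exact ⟨k, hk, c, hc, rfl⟩

theorem main {G : Type*} [Group G] [Finite G] (hsol : Group.IsSolvable G) (S : Set ℕ) (hgc : GC S G)
    (hb : ∃ b, b ∉ S ∧ b.Prime ∧ b ∣ Nat.card G)
    (T : Subgroup G) (hTn : T.Normal) (hT1 : T ≠ ⊥) (hTS : PiGrp S T) :
    (∃ C : Subgroup G, Cfsg.IsFrobeniusComplement C) ∨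
    (∃ (H K : Subgroup G) (_ : H.Normal), K.Normal ∧ H < K ∧
      (∃ C : Subgroup ↥K, Cfsg.IsFrobeniusComplement C ∧ Cfsg.frobeniusKernel C = (H.subgroupOf K : Set ↥K)) ∧
      (∃ C : Subgroup (G ⧸ H), Cfsg.IsFrobeniusComplement C ∧ Cfsg.frobeniusKernel C = (K.map (QuotientGroup.mk' H) : Set (G ⧸ H)))) := by
  classical
  haveI := hsol
  obtain ⟨N, hNn, hNS, hNmax⟩ := exists_max_normal S G
  haveI := hNn
  have hN1 : N ≠ ⊥ := by
    intro h
    have h1 := hNmax T hTn hTS
    rw [h, Subgroup.card_bot] at h1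
    exact hT1 (Subgroup.eq_bot_of_card_le T h1)
  have hgcQ : GC S (G ⧸ N) := gc_quot N hgc
  have hQS : ∀ K : Subgroup (G ⧸ N), K.Normal → PiGrp S K → K = ⊥ := by
    intro K hK hKS
    have h1 : PiGrp S (K.comap (QuotientGroup.mk' N)) := by
      intro r hr hrd
      rw [card_comap] at hrd
      rcases (Nat.Prime.dvd_mul hr).mp hrd with h | h
      · exact hNS r hr h
      · exact hKS r hr h
    have h2 := hNmax _ (hK.comap _) h1
    rw [card_comap] at h2
    have h3 : Nat.card K ≤ 1 := by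
      have hpos : 0 < Nat.card N := Nat.card_pos
      by_contra hc
      push_neg at hc
      have : Nat.card N * 2 ≤ Nat.card N * Nat.card K := Nat.mul_le_mul_left _ hc
      omega
    exact Subgroup.eq_bot_of_card_le K h3
  obtain ⟨M, hMn, hMS, hMmax⟩ := exists_max_normal Sᶜ (G ⧸ N)
  haveI := hMn
  obtain ⟨b, hbS, hbp, hbd⟩ := hb
  have hbQ : b ∣ Nat.card (G ⧸ N) := by
    have h1 : Nat.card G = Nat.card N * Nat.card (G ⧸ N) := by
      rw [← Subgroup.index_eq_card, Subgroup.card_mul_index]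
    rw [h1] at hbd
    rcases (Nat.Prime.dvd_mul hbp).mp hbd with h | h
    · exact absurd (hNS b hbp h) hbS
    · exact h
  have hQtop : (⊤ : Subgroup (G ⧸ N)) ≠ ⊥ := by
    intro h
    have h1 : Nat.card (G ⧸ N) = 1 := by
      rw [← Subgroup.card_top (G := G ⧸ N), h, Subgroup.card_bot]
    rw [h1] at hbQ
    exact hbp.one_lt.ne' (Nat.dvd_one.mp hbQ)
  have hM1 : M ≠ ⊥ := by
    have hs1 : Group.IsSolvable ↥(⊤ : Subgroup (G ⧸ N)) := inferInstance
    obtain ⟨p₂, T₂, hp₂, -, hT₂n, hT₂1, -, hT₂p⟩ :=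
      exists_normal_elem (⊤ : Subgroup (G ⧸ N)) inferInstance hs1 hQtop
    have hp₂S : p₂ ∉ S := fun h => hT₂1 (hQS T₂ hT₂n (pi_of_exp T₂ p₂ hp₂ hT₂p h))
    have h1 := hMmax T₂ hT₂n (pi_of_exp T₂ p₂ hp₂ hT₂p hp₂S)
    intro h
    rw [h, Subgroup.card_bot] at h1
    exact hT₂1 (Subgroup.eq_bot_of_card_le T₂ h1)
  have hMs : Group.IsSolvable ↥M := inferInstance
  obtain ⟨p, Tb, hp, hTbM, hTbn, hTb1, hTbc, hTbp⟩ := exists_normal_elem M hMn hMs hM1
  haveI : Fact p.Prime := ⟨hp⟩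
  obtain ⟨⟨z, hzT⟩, hz1'⟩ := (Subgroup.ne_bot_iff_exists_ne_one).mp hTb1
  have hz1 : z ≠ 1 := fun h => hz1' (Subtype.ext h)
  have hzo : orderOf z = p := orderOf_eq_prime (hTbp z hzT) hz1
  have hpS : p ∉ S := by
    have h1 : p ∣ Nat.card M := by
      rw [← hzo]; exact Subgroup.orderOf_dvd_natCard M (hTbM hzT)
    exact hMS p hp h1
  have hNs : Group.IsSolvable ↥N := inferInstance
  have hTcard : Nat.card Tb ≤ p := lift_card_le hgc N hN1 hNs hNS p hp hpS Tb hTbc hTbp
  have hTz : Tb = Subgroup.zpowers z := by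
    symm
    apply Subgroup.eq_of_le_of_card_ge (Subgroup.zpowers_le.mpr hzT)
    rw [Nat.card_zpowers, hzo]; exact hTcard
  have hCn : (Subgroup.centralizer (Tb : Set (G ⧸ N))).Normal := by
    constructor
    intro c hc g
    rw [Subgroup.mem_centralizer_iff] at hc ⊢
    intro t ht
    have h1 : g⁻¹ * t * g ∈ Tb := by
      have := hTbn.conj_mem t ht g⁻¹
      simpa using this
    have h2 := hc _ h1
    calc t * (g * c * g⁻¹) = g * ((g⁻¹ * t * g) * c) * g⁻¹ := by group
      _ = g * (c * (g⁻¹ * t * g)) * g⁻¹ := by rw [h2]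
      _ = g * c * g⁻¹ * t := by group
  have hCS : PiGrp Sᶜ (Subgroup.centralizer (Tb : Set (G ⧸ N))) := by
    intro r hr hrd hrS
    haveI : Fact r.Prime := ⟨hr⟩
    obtain ⟨x, hx⟩ := exists_prime_orderOf_dvd_card' (G := ↥(Subgroup.centralizer (Tb : Set (G ⧸ N)))) r hrd
    have hxo : orderOf (x : G ⧸ N) = r := by rw [Subgroup.orderOf_coe]; exact hx
    have hcm : z * (x : G ⧸ N) = (x : G ⧸ N) * z := (Subgroup.mem_centralizer_iff.mp x.2) z hzT
    refine gc_comm hgcQ (x : G ⧸ N) z hcm.symm ?_ hz1 ?_ ?_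
    · intro h
      rw [h, orderOf_one] at hxo
      exact hr.one_lt.ne hxo
    · intro r' hr' hrd'
      rw [hxo] at hrd'
      rw [(Nat.prime_dvd_prime_iff_eq hr' hr).mp hrd']; exact hrS
    · intro r' hr' hrd'
      rw [hzo] at hrd'
      rw [(Nat.prime_dvd_prime_iff_eq hr' hp).mp hrd']; exact hpS
  have hcentM : Subgroup.centralizer (Tb : Set (G ⧸ N)) ≤ M := by
    haveI := hCn
    have h1 := hMmax (Subgroup.centralizer (Tb : Set (G ⧸ N)) ⊔ M) inferInstance (pi_sup _ M hCS hMS)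
    have h2 : M = Subgroup.centralizer (Tb : Set (G ⧸ N)) ⊔ M :=
      Subgroup.eq_of_le_of_card_ge le_sup_right h1
    rw [h2]; exact le_sup_left
  have haux : ∀ g h : G ⧸ N, (g⁻¹ * h⁻¹ * g * h) * z = z * (g⁻¹ * h⁻¹ * g * h) := by
    intro g h
    have hg : g * z * g⁻¹ ∈ Subgroup.zpowers z := hTz ▸ hTbn.conj_mem z hzT g
    have hh : h * z * h⁻¹ ∈ Subgroup.zpowers z := hTz ▸ hTbn.conj_mem z hzT h
    obtain ⟨i, hi⟩ := Subgroup.mem_zpowers_iff.mp hg
    obtain ⟨j, hj⟩ := Subgroup.mem_zpowers_iff.mp hh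
    have h1 : (g * h) * z * (g * h)⁻¹ = z ^ (j * i) := by
      calc (g * h) * z * (g * h)⁻¹ = g * (h * z * h⁻¹) * g⁻¹ := by group
        _ = g * z ^ j * g⁻¹ := by rw [hj]
        _ = (g * z * g⁻¹) ^ j := by rw [conj_zpow]
        _ = (z ^ i) ^ j := by rw [hi]
        _ = z ^ (j * i) := by rw [← zpow_mul, mul_comm]
    have h2 : (h * g) * z * (h * g)⁻¹ = z ^ (j * i) := by
      calc (h * g) * z * (h * g)⁻¹ = h * (g * z * g⁻¹) * h⁻¹ := by group
        _ = h * z ^ i * h⁻¹ := by rw [hi]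
        _ = (h * z * h⁻¹) ^ i := by rw [conj_zpow]
        _ = (z ^ j) ^ i := by rw [hj]
        _ = z ^ (j * i) := by rw [← zpow_mul]
    have e : (g * h) * z * (g * h)⁻¹ = (h * g) * z * (h * g)⁻¹ := h1.trans h2.symm
    calc (g⁻¹ * h⁻¹ * g * h) * z = (h * g)⁻¹ * ((g * h) * z * (g * h)⁻¹) * (g * h) := by group
      _ = (h * g)⁻¹ * ((h * g) * z * (h * g)⁻¹) * (g * h) := by rw [e]
      _ = z * (g⁻¹ * h⁻¹ * g * h) := by group
  have hcomm : commutator (G ⧸ N) ≤ M := by
    refine le_trans ?_ hcentM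
    rw [commutator_def, Subgroup.commutator_le]
    intro g _ h _
    have h3 : ⁅g, h⁆ * z = z * ⁅g, h⁆ := by
      have := haux g⁻¹ h⁻¹
      rw [commutatorElement_def]
      simpa using this
    rw [Subgroup.mem_centralizer_iff]
    intro t ht
    have ht' : t ∈ Subgroup.zpowers z := hTz ▸ ht
    obtain ⟨k, rfl⟩ := Subgroup.mem_zpowers_iff.mp ht'
    exact ((Commute.zpow_right (show Commute ⁅g, h⁆ z from h3) k)).symm
  have hindex : ∀ q : ℕ, q.Prime → q ∣ M.index → q ∈ S := by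
    intro q hq hqd
    by_contra hqS
    haveI : Fact q.Prime := ⟨hq⟩
    obtain ⟨Q₂⟩ : Nonempty (Sylow q (G ⧸ N)) := inferInstance
    have hn : ((Q₂ : Subgroup (G ⧸ N)) ⊔ M).Normal :=
      normal_of_commutator_le _ (hcomm.trans le_sup_right)
    have hS2 : PiGrp Sᶜ ((Q₂ : Subgroup (G ⧸ N)) ⊔ M) := by
      apply pi_sup _ _ _ hMS
      intro r hr hrd
      obtain ⟨k, hk⟩ := IsPGroup.iff_card.mp Q₂.isPGroup'
      rw [hk] at hrd
      have := (Nat.prime_dvd_prime_iff_eq hr hq).mp (hr.dvd_of_dvd_pow hrd)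
      rw [this]; exact hqS
    have h1 := hMmax _ hn hS2
    have h2 : M = (Q₂ : Subgroup (G ⧸ N)) ⊔ M := Subgroup.eq_of_le_of_card_ge le_sup_right h1
    have h3 : (Q₂ : Subgroup (G ⧸ N)) ≤ M := by rw [h2]; exact le_sup_left
    have h4 : M.index ∣ (Q₂ : Subgroup (G ⧸ N)).index := Subgroup.index_dvd_of_le h3
    exact Q₂.not_dvd_index (dvd_trans hqd h4)
  by_cases hMtop : M = ⊤
  · left
    have hidx : N.index = Nat.card M := by
      rw [hMtop, Subgroup.card_top, Subgroup.index_eq_card]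
    have hcop : Nat.Coprime (Nat.card N) N.index := by
      by_contra hc
      obtain ⟨r, hr, h1, h2⟩ := Nat.Prime.not_coprime_iff_dvd.mp hc
      exact hMS r hr (hidx ▸ h2) (hNS r hr h1)
    obtain ⟨C, hC⟩ := Subgroup.exists_right_complement'_of_coprime hcop
    have hCcard : Nat.card C = Nat.card M := by rw [← hidx]; exact hC.symm.index_eq_card.symm
    have hC1 : C ≠ ⊥ := by
      intro h
      rw [h, Subgroup.card_bot] at hCcard
      exact hM1 (Subgroup.eq_bot_of_card_eq M hCcard.symm)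
    have hfpf : ∀ h ∈ C, h ≠ 1 → ∀ k ∈ N, h * k = k * h → k = 1 := by
      intro h hh hh1 k hk hcm
      by_contra hk1
      exact gc_comm hgc k h hcm.symm hk1 hh1
        (fun r hr hrd => hNS r hr (dvd_trans hrd (Subgroup.orderOf_dvd_natCard N hk)))
        (fun r hr hrd => hMS r hr (hCcard ▸ dvd_trans hrd (Subgroup.orderOf_dvd_natCard C hh)))
    have := Cfsg.Agent.Lib.helper24.frobenius_of_fpf N C hC.disjoint.eq_bot
      (decomp N C hC.sup_eq_top) hC1 hN1 hfpf
    exact ⟨C, this.1⟩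
  · right
    have hKn : (M.comap (QuotientGroup.mk' N)).Normal := hMn.comap _
    have hNK : N ≤ M.comap (QuotientGroup.mk' N) := by
      intro x hx
      rw [Subgroup.mem_comap, QuotientGroup.mk'_apply, (QuotientGroup.eq_one_iff x).mpr hx]
      exact M.one_mem
    have hKmap : (M.comap (QuotientGroup.mk' N)).map (QuotientGroup.mk' N) = M :=
      Subgroup.map_comap_eq_self_of_surjective (QuotientGroup.mk'_surjective N) M
    have hKcard : Nat.card (M.comap (QuotientGroup.mk' N)) = Nat.card N * Nat.card M := card_comap N M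
    have hNK' : N < M.comap (QuotientGroup.mk' N) := by
      refine lt_of_le_of_ne hNK ?_
      intro h
      apply hM1
      rw [← hKmap, ← h]
      exact (Subgroup.map_eq_bot_iff N).mpr (by rw [QuotientGroup.ker_mk'])
    refine ⟨N, M.comap (QuotientGroup.mk' N), hNn, hKn, hNK', ?_, ?_⟩
    · have hc1 : Nat.card (N.subgroupOf (M.comap (QuotientGroup.mk' N))) = Nat.card N :=
        Nat.card_congr (Subgroup.subgroupOfEquivOfLe hNK).toEquiv
      have hi1 : (N.subgroupOf (M.comap (QuotientGroup.mk' N))).index = Nat.card M := by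
        have h1 := Subgroup.card_mul_index (N.subgroupOf (M.comap (QuotientGroup.mk' N)))
        rw [hc1, hKcard] at h1
        exact Nat.eq_of_mul_eq_mul_left Nat.card_pos h1
      have hcop : Nat.Coprime (Nat.card (N.subgroupOf (M.comap (QuotientGroup.mk' N))))
          (N.subgroupOf (M.comap (QuotientGroup.mk' N))).index := by
        rw [hc1, hi1]
        by_contra hc
        obtain ⟨r, hr, h1, h2⟩ := Nat.Prime.not_coprime_iff_dvd.mp hc
        exact hMS r hr h2 (hNS r hr h1)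
      obtain ⟨C, hC⟩ := Subgroup.exists_right_complement'_of_coprime hcop
      have hCcard : Nat.card C = Nat.card M := by rw [← hi1]; exact hC.symm.index_eq_card.symm
      have hC1 : C ≠ ⊥ := by
        intro h
        rw [h, Subgroup.card_bot] at hCcard
        exact hM1 (Subgroup.eq_bot_of_card_eq M hCcard.symm)
      have hN1' : N.subgroupOf (M.comap (QuotientGroup.mk' N)) ≠ ⊥ := by
        intro h
        rw [h, Subgroup.card_bot] at hc1
        exact hN1 (Subgroup.eq_bot_of_card_eq N hc1.symm)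
      have hfpf : ∀ h ∈ C, h ≠ 1 → ∀ k ∈ N.subgroupOf (M.comap (QuotientGroup.mk' N)),
          h * k = k * h → k = 1 := by
        intro h hh hh1 k hk hcm
        by_contra hk1
        have hcm' : (k : G) * (h : G) = (h : G) * (k : G) := by
          have := congrArg Subtype.val hcm
          simpa using this.symm
        refine gc_comm hgc (k : G) (h : G) hcm' (fun e => hk1 (Subtype.ext e))
          (fun e => hh1 (Subtype.ext e)) ?_ ?_
        · intro r hr hrd
          exact hNS r hr (dvd_trans hrd (Subgroup.orderOf_dvd_natCard N (Subgroup.mem_subgroupOf.mp hk)))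
        · intro r hr hrd
          rw [Subgroup.orderOf_coe] at hrd
          exact hMS r hr (hCcard ▸ dvd_trans hrd (Subgroup.orderOf_dvd_natCard C hh))
      have := Cfsg.Agent.Lib.helper24.frobenius_of_fpf (N.subgroupOf (M.comap (QuotientGroup.mk' N))) C
        hC.disjoint.eq_bot (decomp _ C hC.sup_eq_top) hC1 hN1' hfpf
      exact ⟨C, this.1, this.2⟩
    · rw [hKmap]
      have hcop : Nat.Coprime (Nat.card M) M.index := by
        by_contra hc
        obtain ⟨r, hr, h1, h2⟩ := Nat.Prime.not_coprime_iff_dvd.mp hc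
        exact hMS r hr h1 (hindex r hr h2)
      obtain ⟨C, hC⟩ := Subgroup.exists_right_complement'_of_coprime hcop
      have hCcard : Nat.card C = M.index := hC.symm.index_eq_card.symm
      have hC1 : C ≠ ⊥ := by
        intro h
        rw [h, Subgroup.card_bot] at hCcard
        exact hMtop (Subgroup.index_eq_one.mp hCcard.symm)
      have hfpf : ∀ h ∈ C, h ≠ 1 → ∀ k ∈ M, h * k = k * h → k = 1 := by
        intro h hh hh1 k hk hcm
        by_contra hk1
        exact gc_comm hgcQ h k hcm hh1 hk1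
          (fun r hr hrd => hindex r hr (hCcard ▸ dvd_trans hrd (Subgroup.orderOf_dvd_natCard C hh)))
          (fun r hr hrd => hMS r hr (dvd_trans hrd (Subgroup.orderOf_dvd_natCard M hk)))
      have := Cfsg.Agent.Lib.helper24.frobenius_of_fpf M C hC.disjoint.eq_bot
        (decomp M C hC.sup_eq_top) hC1 hM1 hfpf
      exact ⟨C, this.1, this.2⟩

/-- A finite solvable group whose prime graph (prime divisors of the order, two distinct primes joined when there is an element of order their product) is disconnected is a Frobenius group or a 2-Frobenius group (it has normal subgroups H < K with K a Frobenius group with kernel H and G/H a Frobenius group with kernel K/H). -/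
theorem result {G : Type*} [Group G] [Finite G] (hsol : Group.IsSolvable G)
    (hdisc : (∃ A : Set ℕ, (∃ a ∈ A, a.Prime ∧ a ∣ Nat.card G) ∧ (∃ b ∉ A, b.Prime ∧ b ∣ Nat.card G) ∧
      ∀ a ∈ A, ∀ b ∉ A, a.Prime → b.Prime → a ∣ Nat.card G → b ∣ Nat.card G → ¬ ∃ g : G, orderOf g = a * b)) :
    (∃ C : Subgroup G, Cfsg.IsFrobeniusComplement C) ∨
    (∃ (H K : Subgroup G) (_ : H.Normal), K.Normal ∧ H < K ∧
      (∃ C : Subgroup ↥K, Cfsg.IsFrobeniusComplement C ∧ Cfsg.frobeniusKernel C = (H.subgroupOf K : Set ↥K)) ∧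
      (∃ C : Subgroup (G ⧸ H), Cfsg.IsFrobeniusComplement C ∧ Cfsg.frobeniusKernel C = (K.map (QuotientGroup.mk' H) : Set (G ⧸ H)))) := by
  obtain ⟨A, ⟨a, haA, hap, had⟩, ⟨b, hbA, hbp, hbd⟩, hno⟩ := hdisc
  have hgcA : GC A G := by
    intro a' ha' b' hb' hap' hbp' ⟨g, hg⟩
    have h1 : a' ∣ Nat.card G := dvd_trans (Dvd.intro _ hg.symm) (orderOf_dvd_natCard g)
    have h2 : b' ∣ Nat.card G := dvd_trans (Dvd.intro_left _ hg.symm) (orderOf_dvd_natCard g)
    exact hno a' ha' b' hb' hap' hbp' h1 h2 ⟨g, hg⟩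
  have hgcA' : GC Aᶜ G := by
    intro a' ha' b' hb' hap' hbp' ⟨g, hg⟩
    have hb'' : b' ∈ A := not_not.mp hb'
    have h1 : a' ∣ Nat.card G := dvd_trans (Dvd.intro _ hg.symm) (orderOf_dvd_natCard g)
    have h2 : b' ∣ Nat.card G := dvd_trans (Dvd.intro_left _ hg.symm) (orderOf_dvd_natCard g)
    exact hno b' hb'' a' ha' hbp' hap' h2 h1 ⟨g, by rw [hg, mul_comm]⟩
  have htop : (⊤ : Subgroup G) ≠ ⊥ := by
    intro h
    have h1 : Nat.card G = 1 := by rw [← Subgroup.card_top (G := G), h, Subgroup.card_bot]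
    rw [h1] at had
    exact hap.one_lt.ne' (Nat.dvd_one.mp had)
  haveI := hsol
  have hs1 : Group.IsSolvable ↥(⊤ : Subgroup G) := inferInstance
  obtain ⟨p, T, hp, -, hTn, hT1, -, hTp⟩ := exists_normal_elem (⊤ : Subgroup G) inferInstance hs1 htop
  by_cases hpA : p ∈ A
  · exact main hsol A hgcA ⟨b, hbA, hbp, hbd⟩ T hTn hT1 (pi_of_exp T p hp hTp hpA)
  · exact main hsol Aᶜ hgcA' ⟨a, fun h => h haA, hap, had⟩ T hTn hT1 (pi_of_exp T p hp hTp hpA)

end Cfsg.Agent.S3857
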