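import Cfsg.Statements.S3791
import Mathlib
import Cfsg.Agent.Lib.helper19.PLen
import Cfsg.Agent.S3857

set_option autoImplicit false
open Cfsg

namespace Cfsg.Agent.S3791

universe u
open Cfsg.Agent.Lib.helper19.PLen in
theorem thmD : ∀ (n : ℕ) (G : Type u) [Group G] [Finite G], Nat.card G = n → Group.IsSolvable G →
    ∀ (s : Finset ℕ) (d l : ℕ → ℕ), (∀ r ∈ s, r.Prime) →
      (∀ r : ℕ, r.Prime → r ∣ Nat.card G → r ∈ s) →
      (∀ r ∈ s, ∀ P : Sylow r G, derivedSeries ↥(P : Subgroup G) (d r) = ⊥) →
      (∀ r ∈ s, PLengthLE r (l r) G) →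
      derivedSeries G (∑ r ∈ s, d r * l r) = ⊥ := by
  intro n
  induction n using Nat.strong_induction_on with
  | _ n ih =>
    intro G _ _ hn hsol s d l hs hcov hd hl
    classical
    by_cases htriv : Subsingleton G
    · rw [eq_bot_iff]
      intro x _
      rw [Subgroup.mem_bot]
      exact Subsingleton.elim x 1
    · have hnt : Nontrivial G := not_subsingleton_iff_nontrivial.mp htriv
      have htb : (⊤ : Subgroup G) ≠ ⊥ := by
        intro h
        apply htriv
        constructor
        intro a b
        have ha : a ∈ (⊥ : Subgroup G) := h ▸ Subgroup.mem_top a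
        have hb : b ∈ (⊥ : Subgroup G) := h ▸ Subgroup.mem_top b
        rw [Subgroup.mem_bot] at ha hb
        rw [ha, hb]
      have hsolT : Group.IsSolvable ↥(⊤ : Subgroup G) :=
        Group.isSolvable_of_isSolvable_injective (Subgroup.subtype_injective _)
      obtain ⟨q, T, hqp, -, hTn, hT1, -, hTe⟩ :=
        Cfsg.Agent.S3857.exists_normal_elem (⊤ : Subgroup G) inferInstance hsolT htb
      haveI : Fact q.Prime := ⟨hqp⟩
      have hTq : IsPGroup q T := by
        intro t
        refine ⟨1, ?_⟩
        rw [pow_one]
        exact Subtype.ext (by simpa using hTe t.1 t.2)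
      have hTP : T ≤ pCore q G := Cfsg.Agent.Lib.helper15.le_pCore hTn hTq
      obtain ⟨P, hP⟩ : ∃ P : Subgroup G, P = pCore q G := ⟨_, rfl⟩
      rw [← hP] at hTP
      haveI hPn : P.Normal := by rw [hP]; exact Cfsg.Agent.Lib.helper15.pCore_normal q G
      have hP1 : P ≠ ⊥ := fun h => hT1 (eq_bot_iff.mpr (h ▸ hTP))
      have hPq : IsPGroup q P := by rw [hP]; exact Cfsg.Agent.Lib.helper15.pCore_isPGroup q G
      have hqdiv : q ∣ Nat.card G := by
        obtain ⟨m, hm⟩ := IsPGroup.iff_card.mp hPq
        have hm0 : m ≠ 0 := by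
          intro h0
          rw [h0, pow_zero] at hm
          exact hP1 (Subgroup.eq_bot_of_card_eq P hm)
        have h1 : q ∣ Nat.card P := by rw [hm]; exact dvd_pow_self q hm0
        exact h1.trans (Subgroup.card_subgroup_dvd_card P)
      have hqs : q ∈ s := hcov q hqp hqdiv
      have quot : ∀ (N : Subgroup G) [N.Normal], N ≠ ⊥ → ∀ l'' : ℕ → ℕ,
          (∀ r ∈ s, PLengthLE r (l'' r) (G ⧸ N)) →
          derivedSeries G (∑ r ∈ s, d r * l'' r) ≤ N := by
        intro N _ hN1 l'' hl''
        have hlt : Nat.card (G ⧸ N) < n := by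
          have h1 := Subgroup.card_eq_card_quotient_mul_card_subgroup N
          have h2 : 1 < Nat.card N := (Subgroup.one_lt_card_iff_ne_bot N).mpr hN1
          have h3 : 0 < Nat.card (G ⧸ N) := Nat.card_pos
          rw [← hn, h1]
          nlinarith
        have hsolQ : Group.IsSolvable (G ⧸ N) :=
          solvable_of_surjective (QuotientGroup.mk'_surjective N)
        have h1 := ih (Nat.card (G ⧸ N)) hlt (G ⧸ N) rfl hsolQ s d l'' hs
          (fun r hr hd' => hcov r hr (hd'.trans (Subgroup.card_quotient_dvd_card N))) ?_ hl''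
        · have h2 := map_derivedSeries_le_derivedSeries (QuotientGroup.mk' N)
            (∑ r ∈ s, d r * l'' r)
          rw [h1] at h2
          intro x hx
          have h3 : QuotientGroup.mk' N x ∈ (⊥ : Subgroup (G ⧸ N)) :=
            h2 (Subgroup.mem_map_of_mem _ hx)
          exact (QuotientGroup.eq_one_iff x).mp (Subgroup.mem_bot.mp h3)
        · intro r hr Pb
          haveI : Fact r.Prime := ⟨hs r hr⟩
          obtain ⟨P0, rfl⟩ := Sylow.mapSurjective_surjective (QuotientGroup.mk'_surjective N) r Pb
          show derivedSeries ↥((P0 : Subgroup G).map (QuotientGroup.mk' N)) (d r) = ⊥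
          exact ds_surj ((QuotientGroup.mk' N).subgroupMap (P0 : Subgroup G))
            ((QuotientGroup.mk' N).subgroupMap_surjective (P0 : Subgroup G)) (d r) (hd r hr P0)
      by_cases hK : pPrimeCore q G = ⊥
      · have hU1 : (upperPSeries q G 1).1 = ⊥ :=
          eq_bot_iff.mpr (hK ▸ ups_one_le_pPrimeCore q)
        have hlq : 1 ≤ l q := by
          by_contra hcon
          have h0 : l q = 0 := by omega
          have h1 : (upperPSeries q G (2 * l q + 1)).1 = ⊤ := hl q hqs
          rw [h0] at h1
          have h2 : (upperPSeries q G 1).1 = ⊤ := h1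
          rw [hU1] at h2
          exact htb h2.symm
        have hU2 : (upperPSeries q G 2).1 ≤ P := by
          obtain ⟨m, hm⟩ := card_ups_odd (G := G) q 1 (by decide)
          have hm' : Nat.card (upperPSeries q G 2).1 = Nat.card (upperPSeries q G 1).1 * q ^ m := hm
          rw [hU1, Subgroup.card_bot, one_mul] at hm'
          rw [hP]
          exact Cfsg.Agent.Lib.helper15.le_pCore (upperPSeries q G 2).2 (IsPGroup.of_card hm')
        have hsurj : Function.Surjective (QuotientGroup.mk' P) := QuotientGroup.mk'_surjective P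
        have hV : IsPSerFrom q 0
            (fun j => (upperPSeries q G (2 + j)).1.map (QuotientGroup.mk' P)) :=
          ((isPSerFrom_ups q G 2).map (QuotientGroup.mk' P) hsurj).parity
            ⟨fun _ => ⟨0, rfl⟩, fun _ => ⟨1, rfl⟩⟩
        have h0 : (upperPSeries q G (2 + 0)).1.map (QuotientGroup.mk' P) ≤
            (upperPSeries q (G ⧸ P) 0).1 := by
          show (upperPSeries q G 2).1.map (QuotientGroup.mk' P) ≤ _
          rw [ups_zero]
          apply le_of_eq
          rw [Subgroup.map_eq_bot_iff, QuotientGroup.ker_mk']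
          exact hU2
        have h5 := hV.le_ups h0 (2 * (l q - 1) + 1)
        have hlenq : PLengthLE q (l q - 1) (G ⧸ P) := by
          have e1 : 2 + (2 * (l q - 1) + 1) = 2 * l q + 1 := by omega
          have e2 : 0 + (2 * (l q - 1) + 1) = 2 * (l q - 1) + 1 := zero_add _
          have h6 : (upperPSeries q G (2 + (2 * (l q - 1) + 1))).1.map (QuotientGroup.mk' P) ≤
              (upperPSeries q (G ⧸ P) (0 + (2 * (l q - 1) + 1))).1 := h5
          rw [e1, e2, (hl q hqs : (upperPSeries q G (2 * l q + 1)).1 = ⊤),
            Subgroup.map_top_of_surjective _ hsurj] at h6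
          exact eq_top_iff.mpr h6
        have hl' : ∀ r ∈ s, PLengthLE r (Function.update l q (l q - 1) r) (G ⧸ P) := by
          intro r hr
          by_cases hrq : r = q
          · subst hrq
            rw [Function.update_self]
            exact hlenq
          · rw [Function.update_of_ne hrq]
            haveI : Fact r.Prime := ⟨hs r hr⟩
            exact pLengthLE_of_surjective r _ hsurj _ (hl r hr)
        have h1 := quot P hP1 (Function.update l q (l q - 1)) hl'
        have hPd : derivedSeries ↥P (d q) = ⊥ := by
          obtain ⟨S⟩ : Nonempty (Sylow q G) := inferInstance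
          have hPS : P ≤ (S : Subgroup G) := by
            rw [hP]; exact Cfsg.Agent.Lib.helper15.pCore_le_sylow S
          exact ds_inj (Subgroup.inclusion hPS) (Subgroup.inclusion_injective hPS) (d q)
            (hd q hqs S)
        have hsum : ∑ r ∈ s, d r * l r =
            (∑ r ∈ s, d r * Function.update l q (l q - 1) r) + d q := by
          rw [← Finset.add_sum_erase s (fun r => d r * l r) hqs,
            ← Finset.add_sum_erase s (fun r => d r * Function.update l q (l q - 1) r) hqs]
          have e1 : ∑ r ∈ s.erase q, d r * Function.update l q (l q - 1) r =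
              ∑ r ∈ s.erase q, d r * l r := by
            apply Finset.sum_congr rfl
            intro r hr
            rw [Function.update_of_ne (Finset.ne_of_mem_erase hr)]
          rw [e1]
          simp only [Function.update_self]
          obtain ⟨k, hk⟩ : ∃ k, l q = k + 1 := ⟨l q - 1, by omega⟩
          rw [hk]
          simp only [Nat.add_sub_cancel]
          ring
        rw [hsum]
        exact ds_add P _ _ h1 hPd
      · haveI : (pPrimeCore q G).Normal := Cfsg.Agent.Lib.helper9.ppc_normal q G
        have h1 := quot P hP1 l (fun r hr => by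
          haveI : Fact r.Prime := ⟨hs r hr⟩
          exact pLengthLE_of_surjective r _ (QuotientGroup.mk'_surjective P) _ (hl r hr))
        have h2 := quot (pPrimeCore q G) hK l (fun r hr => by
          haveI : Fact r.Prime := ⟨hs r hr⟩
          exact pLengthLE_of_surjective r _ (QuotientGroup.mk'_surjective (pPrimeCore q G)) _
            (hl r hr))
        have h3 : P ⊓ pPrimeCore q G = ⊥ := by
          apply Subgroup.inf_eq_bot_of_coprime
          obtain ⟨m, hm⟩ := IsPGroup.iff_card.mp hPq
          rw [hm]
          exact Nat.Coprime.pow_left _ (Cfsg.Agent.Lib.helper9.pPrimeCore_coprime q G).symm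
        exact eq_bot_iff.mpr (h3 ▸ le_inf h1 h2)



/-- The Hall–Higman bound on derived length: let G be a finite solvable group, let p₁, …, p_r be distinct primes that include every prime dividing the order of G, and suppose that for each i the Sylow p_i-subgroups of G have derived length at most d_i and G has p_i-length at most l_i. Then G has derived length at most Σ d_i l_i. -/
theorem result {G : Type*} [Group G] [Finite G] (hG : Group.IsSolvable G) (r : ℕ) (q : Fin r → ℕ) (hq : ∀ i, (q i).Prime) (hinj : Function.Injective q) (hcover : ∀ s : ℕ, s.Prime → s ∣ Nat.card G → ∃ i, q i = s) (d l : Fin r → ℕ) (hd : ∀ i, ∀ P : Subgroup G, (haveI := Fact.mk (hq i); ∃ S : Sylow (q i) G, (S : Subgroup G) = P) → derivedSeries ↥P (d i) = ⊥) (hl : ∀ i, Cfsg.PLengthLE (q i) (l i) G) : derivedSeries G (Finset.univ.sum fun i => d i * l i) = ⊥ := by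
  classical
  obtain ⟨l', hl'def⟩ : ∃ l' : ℕ → ℕ, l' = fun x : ℕ => if h : ∃ i, q i = x then l h.choose else 0 :=
    ⟨_, rfl⟩
  obtain ⟨d', hd'def⟩ : ∃ d' : ℕ → ℕ, d' = fun x : ℕ => if h : ∃ i, q i = x then d h.choose else 0 :=
    ⟨_, rfl⟩
  have hl' : ∀ i, l' (q i) = l i := by
    intro i
    have h : ∃ j, q j = q i := ⟨i, rfl⟩
    rw [hl'def]
    simp only [dif_pos h]
    exact congrArg l (hinj h.choose_spec)
  have hd' : ∀ i, d' (q i) = d i := by
    intro i
    have h : ∃ j, q j = q i := ⟨i, rfl⟩
    rw [hd'def]
    simp only [dif_pos h]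
    exact congrArg d (hinj h.choose_spec)
  have h := thmD (Nat.card G) G rfl hG (Finset.univ.image q) d' l' ?_ ?_ ?_ ?_
  · have e : ∑ r ∈ Finset.univ.image q, d' r * l' r = ∑ i, d i * l i := by
      rw [Finset.sum_image (fun a _ b _ hab => hinj hab)]
      exact Finset.sum_congr rfl (fun i _ => by rw [hd' i, hl' i])
    rw [e] at h
    exact h
  · intro r hr
    obtain ⟨i, -, rfl⟩ := Finset.mem_image.mp hr
    exact hq i
  · intro r hr hdv
    obtain ⟨i, hi⟩ := hcover r hr hdv
    exact Finset.mem_image.mpr ⟨i, Finset.mem_univ _, hi⟩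
  · intro r hr P
    obtain ⟨i, -, rfl⟩ := Finset.mem_image.mp hr
    rw [hd' i]
    exact hd i (P : Subgroup G) ⟨P, rfl⟩
  · intro r hr
    obtain ⟨i, -, rfl⟩ := Finset.mem_image.mp hr
    rw [hl' i]
    exact hl i

end Cfsg.Agent.S3791
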