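import Cfsg.Statements.S3803
import Mathlib
import Cfsg.Agent.S3736
import Cfsg.Agent.Lib.helper1.Quat
import Cfsg.Agent.Lib.helper1.SZ
import Cfsg.Agent.Lib.helper3.Subnormal
import Cfsg.Agent.Lib.helper7.Fitting

set_option autoImplicit false
open Cfsg

namespace Cfsg.Agent.S3803

universe u

open Pointwise
open scoped commutatorElement

section
variable {X : Type u} [Group X] [Finite X]

theorem fact2 : Fact (Nat.Prime 2) := ⟨Nat.prime_two⟩

theorem cop_of_odd (E A : Subgroup X) (hE : IsPGroup 2 E) (hA : Odd (Nat.card A)) :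
    (Nat.card A).Coprime (Nat.card E) := by
  haveI := fact2
  obtain ⟨k, hk⟩ := IsPGroup.iff_card.mp hE
  rw [hk]
  exact Nat.Coprime.pow_right k (Nat.coprime_two_right.mpr hA)

theorem solv_of_p (E : Subgroup X) (hE : IsPGroup 2 E) : Group.IsSolvable E := by
  haveI := fact2
  haveI := hE.isNilpotent
  infer_instance

theorem relIndex_map_subtype (E : Subgroup X) (M' : Subgroup E) :
    (M'.map E.subtype).relIndex E = M'.index := by
  unfold Subgroup.relIndex Subgroup.subgroupOf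
  rw [Subgroup.comap_map_eq_self_of_injective E.subtype_injective]

/-- if `A` fixes every subgroup of index 2 of the 2-group `E`, then `[E, A] ≤ Φ(E)` -/
theorem comm_mem_frattini (E A : Subgroup X) (hE : IsPGroup 2 E)
    (hAE : A ≤ Subgroup.normalizer (E : Set X))
    (hmax : ∀ M : Subgroup X, M ≤ E → M.relIndex E = 2 → A ≤ Subgroup.normalizer (M : Set X))
    (a : X) (ha : a ∈ A) (x : X) (hx : x ∈ E) :
    a * x * a⁻¹ * x⁻¹ ∈ (frattini ↥E).map E.subtype := by
  haveI := fact2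
  have hy : a * x * a⁻¹ ∈ E := Cfsg.Agent.Lib.helper8.conj_mem_of_mem_normalizer (hAE ha) hx
  refine Subgroup.mem_map.mpr ⟨⟨a * x * a⁻¹, hy⟩ * ⟨x, hx⟩⁻¹, ?_, rfl⟩
  simp only [frattini, Order.radical, Subgroup.mem_iInf]
  intro M' hM'
  obtain ⟨_, hidx⟩ := Cfsg.Agent.Lib.helper1.coatom_normal_index 2 hE M' hM'
  rw [Subgroup.mul_mem_iff_of_index_two hidx, inv_mem_iff]
  have hMn := hmax (M'.map E.subtype) (Subgroup.map_subtype_le _)
    ((relIndex_map_subtype E M').trans hidx) ha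
  constructor
  · intro h
    have h1 : a * x * a⁻¹ ∈ M'.map E.subtype := Subgroup.mem_map.mpr ⟨_, h, rfl⟩
    have h2 := Cfsg.Agent.Lib.helper8.conj_mem_of_mem_normalizer' hMn h1
    have e : a⁻¹ * (a * x * a⁻¹) * a = x := by group
    rw [e] at h2
    obtain ⟨z, hz, hzx⟩ := Subgroup.mem_map.mp h2
    have : z = ⟨x, hx⟩ := Subtype.ext hzx
    rwa [this] at hz
  · intro h
    have h1 : x ∈ M'.map E.subtype := Subgroup.mem_map.mpr ⟨_, h, rfl⟩
    have h2 := Cfsg.Agent.Lib.helper8.conj_mem_of_mem_normalizer hMn h1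
    obtain ⟨z, hz, hzx⟩ := Subgroup.mem_map.mp h2
    have : z = ⟨a * x * a⁻¹, hy⟩ := Subtype.ext hzx
    rwa [this] at hz

theorem cent_of_max_inv (E A : Subgroup X) (hE : IsPGroup 2 E) (hA : Odd (Nat.card A))
    (hAE : A ≤ Subgroup.normalizer (E : Set X))
    (hmax : ∀ M : Subgroup X, M ≤ E → M.relIndex E = 2 → A ≤ Subgroup.normalizer (M : Set X)) :
    A ≤ Subgroup.centralizer (E : Set X) := by
  have hcop := cop_of_odd E A hE hA
  have h1 := Cfsg.Agent.Lib.helper8.commutator_sup_fixed A E hAE hcop (Or.inr (solv_of_p E hE))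
  have h2 : ⁅E, A⁆ ≤ (frattini ↥E).map E.subtype := by
    rw [Subgroup.commutator_le]
    intro x hx a ha
    have h3 := comm_mem_frattini E A hE hAE hmax a ha x hx
    have e : ⁅x, a⁆ = (a * x * a⁻¹ * x⁻¹)⁻¹ := by
      simp only [commutatorElement_def]; group
    rw [e]; exact Subgroup.inv_mem _ h3
  set C := E ⊓ Subgroup.centralizer (A : Set X) with hC
  have h4 : (C.subgroupOf E) ⊔ frattini ↥E = ⊤ := by
    rw [eq_top_iff]
    intro e _
    have he : (e : X) ∈ (frattini ↥E).map E.subtype ⊔ C := by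
      have : (e : X) ∈ ⁅E, A⁆ ⊔ C := by rw [h1]; exact e.2
      exact (sup_le_sup_right h2 C) this
    have h5 : e ∈ (((frattini ↥E).map E.subtype ⊔ C).subgroupOf E) := he
    rw [Subgroup.subgroupOf_sup (Subgroup.map_subtype_le _) inf_le_left] at h5
    have h6 : ((frattini ↥E).map E.subtype).subgroupOf E = frattini ↥E :=
      Subgroup.comap_map_eq_self_of_injective E.subtype_injective _
    rw [h6, sup_comm] at h5
    exact h5
  have h7 := frattini_nongenerating h4
  intro a ha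
  rw [Subgroup.mem_centralizer_iff]
  intro x hx
  have h8 : (⟨x, hx⟩ : E) ∈ C.subgroupOf E := by rw [h7]; exact Subgroup.mem_top _
  have h9 : x ∈ C := h8
  exact ((Subgroup.mem_centralizer_iff.mp h9.2) a ha).symm

theorem cyc_unique (x : X) (H K : Subgroup X) (hH : H ≤ Subgroup.zpowers x)
    (hK : K ≤ Subgroup.zpowers x) (h : Nat.card H = Nat.card K) : H = K := by
  have e1 : Nat.card (H.subgroupOf (Subgroup.zpowers x)) = Nat.card H :=
    Nat.card_congr (Subgroup.subgroupOfEquivOfLe hH).toEquiv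
  have e2 : Nat.card (K.subgroupOf (Subgroup.zpowers x)) = Nat.card K :=
    Nat.card_congr (Subgroup.subgroupOfEquivOfLe hK).toEquiv
  have h1 := Cfsg.Agent.Lib.helper1.le_of_card_dvd_of_isCyclic
    (H.subgroupOf (Subgroup.zpowers x)) (K.subgroupOf (Subgroup.zpowers x))
    (by rw [e1, e2, h])
  have h2 := Cfsg.Agent.Lib.helper1.le_of_card_dvd_of_isCyclic
    (K.subgroupOf (Subgroup.zpowers x)) (H.subgroupOf (Subgroup.zpowers x))
    (by rw [e1, e2, h])
  apply le_antisymm
  · intro y hy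
    exact h1 (show (⟨y, hH hy⟩ : Subgroup.zpowers x) ∈ H.subgroupOf (Subgroup.zpowers x) from hy)
  · intro y hy
    exact h2 (show (⟨y, hK hy⟩ : Subgroup.zpowers x) ∈ K.subgroupOf (Subgroup.zpowers x) from hy)

theorem claim (P A : Subgroup X) (hP : IsPGroup 2 P) (hA : Odd (Nat.card A)) (j : ℕ)
    (hj : 2 ^ j < Nat.card P)
    (hinv : ∀ E : Subgroup X, E ≤ P → Nat.card E = 2 ^ j → A ≤ Subgroup.normalizer (E : Set X)) :
    ∀ E₁ : Subgroup X, E₁ ≤ P → Nat.card E₁ = 2 ^ j → A ≤ Subgroup.centralizer (E₁ : Set X) := by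
  haveI := fact2
  intro E₁ hE₁P hE₁c
  obtain ⟨n, hn⟩ := IsPGroup.iff_card.mp hP
  have hjn : j < n := by
    rw [hn] at hj
    exact (Nat.pow_lt_pow_iff_right (by norm_num)).mp hj
  have hdvd : 2 ^ (j + 1) ∣ Nat.card P := by rw [hn]; exact pow_dvd_pow 2 (by omega)
  have hH : Nat.card (E₁.subgroupOf P) = 2 ^ j := by
    rw [← hE₁c]; exact Nat.card_congr (Subgroup.subgroupOfEquivOfLe hE₁P).toEquiv
  obtain ⟨K, hKc, hHK⟩ := Sylow.exists_subgroup_card_pow_succ hdvd hH
  set E₂ : Subgroup X := K.map P.subtype with hE₂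
  have hE₂P : E₂ ≤ P := Subgroup.map_subtype_le _
  have hE₂c : Nat.card E₂ = 2 ^ (j + 1) := by
    rw [hE₂, Subgroup.card_map_of_injective P.subtype_injective, hKc]
  have hE₁E₂ : E₁ ≤ E₂ := by
    intro y hy
    exact Subgroup.mem_map.mpr ⟨⟨y, hE₁P hy⟩, hHK hy, rfl⟩
  have hE₂p : IsPGroup 2 E₂ := hP.to_le hE₂P
  have hidx : ∀ M : Subgroup X, M ≤ E₂ → M.relIndex E₂ = 2 → Nat.card M = 2 ^ j := by
    intro M hM hr
    have h1 := Cfsg.Agent.Lib.helper7.card_mul_relIndex_of_le hM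
    rw [hr, hE₂c, pow_succ] at h1
    omega
  by_cases hc : ∃ M : Subgroup X, M ≤ E₂ ∧ M.relIndex E₂ = 2 ∧ M ≠ E₁
  · obtain ⟨M, hM, hMr, hMne⟩ := hc
    have hMc := hidx M hM hMr
    have hAM := hinv M (hM.trans hE₂P) hMc
    have hAE₁ := hinv E₁ hE₁P hE₁c
    have hsup : E₁ ⊔ M = E₂ := by
      apply Subgroup.eq_of_le_of_card_ge (sup_le hE₁E₂ hM)
      have h1 : Nat.card (E₁ ⊔ M : Subgroup X) ∣ 2 ^ (j + 1) := by
        rw [← hE₂c]; exact Subgroup.card_dvd_of_le (sup_le hE₁E₂ hM)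
      obtain ⟨i, hi, hic⟩ := (Nat.dvd_prime_pow Nat.prime_two).mp h1
      have h2 : 2 ^ j < Nat.card (E₁ ⊔ M : Subgroup X) := by
        by_contra hle
        push Not at hle
        have h3 : E₁ = E₁ ⊔ M := Subgroup.eq_of_le_of_card_ge le_sup_left (by rw [hE₁c]; exact hle)
        have h4 : M ≤ E₁ := by rw [h3]; exact le_sup_right
        exact hMne (Subgroup.eq_of_le_of_card_ge h4 (by rw [hE₁c, hMc]))
      rw [hic] at h2
      have h5 : j < i := (Nat.pow_lt_pow_iff_right (by norm_num)).mp h2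
      have h6 : i = j + 1 := by omega
      rw [hE₂c, hic, h6]
    have hAE₂ : A ≤ Subgroup.normalizer (E₂ : Set X) := by
      rw [← hsup]
      exact (le_inf hAE₁ hAM).trans (Cfsg.Agent.Lib.helper3.normalizer_inf_le_normalizer_sup E₁ M)
    have h7 := cent_of_max_inv E₂ A hE₂p hA hAE₂
      (fun M' hM' hr => hinv M' (hM'.trans hE₂P) (hidx M' hM' hr))
    exact h7.trans (Subgroup.centralizer_le hE₁E₂)
  · push Not at hc
    have hne : E₁ ≠ E₂ := by
      intro h
      rw [h, hE₂c, pow_succ] at hE₁c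
      have : 0 < 2 ^ j := pow_pos (by norm_num) j
      omega
    obtain ⟨x, hxE₂, hxE₁⟩ : ∃ x ∈ E₂, x ∉ E₁ := by
      by_contra h
      push Not at h
      exact hne (le_antisymm hE₁E₂ h)
    have hZ : E₂ ≤ Subgroup.zpowers x := by
      by_contra hnle
      have hZle : Subgroup.zpowers x ≤ E₂ := Subgroup.zpowers_le.mpr hxE₂
      have hnt : (Subgroup.zpowers x).subgroupOf E₂ ≠ ⊤ := by
        intro h
        apply hnle
        intro y hy
        have : (⟨y, hy⟩ : E₂) ∈ (Subgroup.zpowers x).subgroupOf E₂ := by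
          rw [h]; exact Subgroup.mem_top _
        exact this
      obtain ⟨M', hM', hle⟩ := (eq_top_or_exists_le_coatom _).resolve_left hnt
      obtain ⟨_, hidx'⟩ := Cfsg.Agent.Lib.helper1.coatom_normal_index 2 hE₂p M' hM'
      have h1 := hc (M'.map E₂.subtype) (Subgroup.map_subtype_le _)
        ((relIndex_map_subtype E₂ M').trans hidx')
      apply hxE₁
      rw [← h1]
      exact Subgroup.mem_map.mpr ⟨⟨x, hxE₂⟩, hle (show (⟨x, hxE₂⟩ : E₂) ∈
        (Subgroup.zpowers x).subgroupOf E₂ from Subgroup.mem_zpowers x), rfl⟩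
    have hAE₁ := hinv E₁ hE₁P hE₁c
    apply cent_of_max_inv E₁ A (hP.to_le hE₁P) hA hAE₁
    intro M hM hr a ha
    rw [Cfsg.Agent.Lib.helper1.mem_normalizer_iff_conj_smul]
    apply cyc_unique x
    · intro y hy
      rw [Cfsg.Agent.Lib.helper1.mem_conj_smul] at hy
      have h1 := Cfsg.Agent.Lib.helper8.conj_mem_of_mem_normalizer (hAE₁ ha) (hM hy)
      have e : a * (a⁻¹ * y * a) * a⁻¹ = y := by group
      rw [e] at h1
      exact hZ (hE₁E₂ h1)
    · exact hM.trans (hE₁E₂.trans hZ)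
    · exact Cfsg.Agent.Lib.helper1.card_conj_smul a M

theorem ext_cyc (P : Subgroup X) (hP : IsPGroup 2 P) (j : ℕ) (hj : 2 ^ j ≤ Nat.card P)
    (x : X) (hx : x ∈ P) (hxj : x ^ 2 ^ j = 1) :
    ∃ E₁ : Subgroup X, E₁ ≤ P ∧ Nat.card E₁ = 2 ^ j ∧ x ∈ E₁ := by
  haveI := fact2
  obtain ⟨n, hn⟩ := IsPGroup.iff_card.mp hP
  have hjn : j ≤ n := by
    rw [hn] at hj
    exact (Nat.pow_le_pow_iff_right (by norm_num)).mp hj
  have hdvd : 2 ^ j ∣ Nat.card P := by rw [hn]; exact pow_dvd_pow 2 hjn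
  obtain ⟨i, hi, hic⟩ := (Nat.dvd_prime_pow Nat.prime_two).mp (orderOf_dvd_of_pow_eq_one hxj)
  have hH : Nat.card (Subgroup.zpowers (⟨x, hx⟩ : P)) = 2 ^ i := by
    rw [Nat.card_zpowers, Subgroup.orderOf_mk, hic]
  obtain ⟨K, hKc, hHK⟩ := Sylow.exists_subgroup_card_pow_prime_le 2 hdvd _ hH hi
  refine ⟨K.map P.subtype, Subgroup.map_subtype_le _, ?_, ?_⟩
  · rw [Subgroup.card_map_of_injective P.subtype_injective, hKc]
  · exact Subgroup.mem_map.mpr ⟨⟨x, hx⟩, hHK (Subgroup.mem_zpowers _), rfl⟩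

theorem cent_of_order4 (P A : Subgroup X) (hP : IsPGroup 2 P) (hA : Odd (Nat.card A))
    (hAP : A ≤ Subgroup.normalizer (P : Set X))
    (h4 : ∀ x ∈ P, x ^ 4 = 1 → ∀ a ∈ A, a * x = x * a) :
    A ≤ Subgroup.centralizer (P : Set X) := by
  haveI := fact2
  suffices hbot : ⁅P, A⁆ = ⊥ by
    rw [Subgroup.commutator_eq_bot_iff_le_centralizer] at hbot
    intro a ha
    rw [Subgroup.mem_centralizer_iff]
    intro x hx
    exact ((Subgroup.mem_centralizer_iff.mp (hbot hx)) a ha).symm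
  by_contra hne
  let T : Set (Subgroup X) := {U | U ≤ P ∧ A ≤ Subgroup.normalizer (U : Set X) ∧ ⁅U, A⁆ ≠ ⊥}
  have hTfin : T.Finite := Set.toFinite T
  have hTne : T.Nonempty := ⟨P, le_refl _, hAP, hne⟩
  obtain ⟨U, hUT, hUmin⟩ := Set.exists_min_image T (fun U : Subgroup X => Nat.card U) hTfin hTne
  obtain ⟨hUP, hAU, hUne⟩ := hUT
  have hmin : ∀ V : Subgroup X, V < U → A ≤ Subgroup.normalizer (V : Set X) → ⁅V, A⁆ = ⊥ := by
    intro V hV hAV
    by_contra hVne
    have h1 := hUmin V ⟨hV.le.trans hUP, hAV, hVne⟩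
    have h2 : Nat.card V < Nat.card U := by
      rcases Nat.lt_or_ge (Nat.card V) (Nat.card U) with h1 | h1
      · exact h1
      · exact absurd (Subgroup.eq_of_le_of_card_ge hV.le h1) hV.ne
    omega
  have hUp : IsPGroup 2 U := hP.to_le hUP
  obtain ⟨_, hstr, _, _⟩ := Cfsg.Agent.S3736.result A A U hUp hAU le_rfl
    Subgroup.le_normalizer (Nat.coprime_two_right.mpr hA) hUne hmin
  have hexp4 : ∀ u ∈ U, u ^ 4 = 1 := by
    rcases hstr with ⟨_, hexp⟩ | ⟨_, hfc, hcc⟩
    · intro u hu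
      have := hexp u hu
      rw [show (4 : ℕ) = 2 * 2 by norm_num, pow_mul, this, one_pow]
    · have hc : ∀ a b : U, ⁅a, b⁆ ∈ Subgroup.center U := by
        intro a b
        rw [← hcc]
        exact Subgroup.commutator_mem_commutator (Subgroup.mem_top a) (Subgroup.mem_top b)
      have hsq : ∀ u : U, u ^ 2 ∈ Subgroup.center U := by
        intro u
        rw [← hfc]
        exact Cfsg.Agent.Lib.helper1.pow_mem_frattini 2 hUp u
      have hz : ∀ z ∈ commutator U, z ∈ Subgroup.center U ∧ z ^ 2 = 1 := by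
        intro z hz
        rw [commutator_def, Subgroup.commutator_def] at hz
        induction hz using Subgroup.closure_induction with
        | mem z hz =>
          obtain ⟨a, _, b, _, rfl⟩ := hz
          refine ⟨hc a b, ?_⟩
          rw [← Cfsg.Agent.S0096.comm_pow a b hc 2, commutatorElement_eq_one_iff_commute]
          exact ((Subgroup.mem_center_iff.mp (hsq a)) b).symm
        | one => exact ⟨Subgroup.one_mem _, one_pow 2⟩
        | mul z w _ _ hz hw =>
          refine ⟨Subgroup.mul_mem _ hz.1 hw.1, ?_⟩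
          have hcomm : Commute z w := ((Subgroup.mem_center_iff.mp hz.1) w).symm
          rw [hcomm.mul_pow, hz.2, hw.2, one_mul]
        | inv z _ hz =>
          refine ⟨Subgroup.inv_mem _ hz.1, ?_⟩
          rw [inv_pow, hz.2, inv_one]
      intro u hu
      have h1 : ((⟨u, hu⟩ : U) ^ 2) ^ 2 = 1 := (hz _ (by rw [hcc]; exact hsq ⟨u, hu⟩)).2
      have h2 := congrArg Subtype.val h1
      simp only [Subgroup.coe_pow, Subgroup.coe_one] at h2
      rw [show (4 : ℕ) = 2 * 2 by norm_num, pow_mul]; exact h2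
  apply hUne
  rw [Subgroup.commutator_eq_bot_iff_le_centralizer]
  intro u hu
  rw [Subgroup.mem_centralizer_iff]
  intro a ha
  exact h4 u (hUP hu) (hexp4 u hu) a ha

end

/-- Let P be a 2-subgroup and A a subgroup of odd order of a finite group, with A normalizing P. Let D ≤ P with 1 < |D| < |P|. If every subgroup of P of order |D|, and also every subgroup of P of order 4 in case |D| = 2, is normalized by A, then A centralizes P. -/
theorem result {X : Type*} [Group X] [Finite X] (P A D : Subgroup X) (hP : IsPGroup 2 P) (hA : Odd (Nat.card A))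
    (hAP : A ≤ Subgroup.normalizer (P : Set X)) (hDP : D ≤ P) (hD1 : 1 < Nat.card D) (hD2 : Nat.card D < Nat.card P)
    (hinv : ∀ E : Subgroup X, E ≤ P → (Nat.card E = Nat.card D ∨ (Nat.card D = 2 ∧ Nat.card E = 4)) → A ≤ Subgroup.normalizer (E : Set X)) :
    A ≤ Subgroup.centralizer (P : Set X) := by
  haveI := fact2
  obtain ⟨k, hk⟩ := IsPGroup.iff_card.mp (hP.to_le hDP)
  obtain ⟨n, hn⟩ := IsPGroup.iff_card.mp hP
  have hk1 : 1 ≤ k := by
    by_contra h
    have : k = 0 := by omega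
    rw [hk, this] at hD1
    simp at hD1
  -- reduction: centralizing all subgroups of order 2^j with j ≥ 2
  have red : ∀ j : ℕ, 2 ≤ j → 2 ^ j < Nat.card P →
      (∀ E : Subgroup X, E ≤ P → Nat.card E = 2 ^ j → A ≤ Subgroup.normalizer (E : Set X)) →
      A ≤ Subgroup.centralizer (P : Set X) := by
    intro j hj2 hjP hinvj
    have hcl := claim P A hP hA j hjP hinvj
    apply cent_of_order4 P A hP hA hAP
    intro x hx hx4 a ha
    have hxj : x ^ 2 ^ j = 1 := by
      have : (2 : ℕ) ^ j = 4 * 2 ^ (j - 2) := by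
        rw [show (4 : ℕ) = 2 ^ 2 by norm_num, ← pow_add]; congr 1; omega
      rw [this, pow_mul, hx4, one_pow]
    obtain ⟨E₁, hE₁P, hE₁c, hxE₁⟩ := ext_cyc P hP j hjP.le x hx hxj
    exact ((Subgroup.mem_centralizer_iff.mp (hcl E₁ hE₁P hE₁c ha)) x hxE₁).symm
  by_cases hk2 : 2 ≤ k
  · exact red k hk2 (hk ▸ hD2) (fun E hE hc => hinv E hE (Or.inl (hc.trans hk.symm)))
  · have hk1' : k = 1 := by omega
    rw [hk1', pow_one] at hk
    by_cases h4P : 4 < Nat.card P
    · exact red 2 le_rfl (by norm_num; exact h4P) (fun E hE hc => hinv E hE (Or.inr ⟨hk, by rw [hc]; norm_num⟩))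
    · have hPc : Nat.card P = 4 := by
        rw [hk] at hD2
        rw [hn] at hD2 h4P ⊢
        have h1 : 1 < n := by
          by_contra h
          have : n = 0 ∨ n = 1 := by omega
          rcases this with rfl | rfl <;> simp at hD2
        have h2 : n ≤ 2 := by
          by_contra h
          have : 2 ^ 3 ≤ 2 ^ n := Nat.pow_le_pow_right (by norm_num) (by omega)
          omega
        have : n = 2 := by omega
        rw [this]; norm_num
      apply cent_of_max_inv P A hP hA hAP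
      intro M hM hr
      apply hinv M hM
      left
      have h1 := Cfsg.Agent.Lib.helper7.card_mul_relIndex_of_le hM
      rw [hr, hPc] at h1
      rw [hk]; omega

end Cfsg.Agent.S3803
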