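import Cfsg.Statements.S3815
-- import your own Cfsg.Agent.* helpers here

set_option autoImplicit false
open Cfsg

namespace Cfsg.Agent.S3815

/-- Let G be a finite group, p a prime and d ∈ G an element of order prime to p. If dg has order prime to p for every element g ∈ G of order prime to p, then d ∈ O_{p'}(G). -/
theorem result {G : Type*} [Group G] [Finite G] {p : ℕ} [Fact p.Prime]
    (d : G) (hd : (orderOf d).Coprime p)
    (h : ∀ g : G, (orderOf g).Coprime p → (orderOf (d * g)).Coprime p) :
    d ∈ Cfsg.pPrimeCore p G := by
  classical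
  have hp : p.Prime := Fact.out
  let M : Submonoid G :=
    { carrier := {x | ∀ g : G, (orderOf g).Coprime p → (orderOf (x * g)).Coprime p}
      one_mem' := by
        intro g hg
        simpa using hg
      mul_mem' := by
        intro a b ha hb g hg
        rw [mul_assoc]
        exact ha _ (hb g hg) }
  let D : Subgroup G :=
    { M with
      inv_mem' := by
        intro a ha
        have hpos : 0 < orderOf a := orderOf_pos a
        have : a⁻¹ = a ^ (orderOf a - 1) := by
          apply inv_eq_of_mul_eq_one_right
          rw [← pow_succ', Nat.sub_add_cancel hpos, pow_orderOf_eq_one]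
        rw [this]
        exact M.pow_mem ha _ }
  have hDmem : ∀ x : G, x ∈ D ↔ ∀ g : G, (orderOf g).Coprime p → (orderOf (x * g)).Coprime p :=
    fun x => Iff.rfl
  have hDn : D.Normal := by
    constructor
    intro x hx c
    rw [hDmem] at hx ⊢
    intro g hg
    have h1 : (orderOf (c⁻¹ * g * c)).Coprime p := by
      have : orderOf (c⁻¹ * g * c) = orderOf g := by
        have := orderOf_injective (MulAut.conj c⁻¹).toMonoidHom (MulAut.conj c⁻¹).injective g
        simpa [MulAut.conj_apply] using this
      rw [this]; exact hg
    have h2 := hx _ h1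
    have h3 : c * x * c⁻¹ * g = c * (x * (c⁻¹ * g * c)) * c⁻¹ := by group
    rw [h3]
    have : orderOf (c * (x * (c⁻¹ * g * c)) * c⁻¹) = orderOf (x * (c⁻¹ * g * c)) := by
      have := orderOf_injective (MulAut.conj c).toMonoidHom (MulAut.conj c).injective (x * (c⁻¹ * g * c))
      simpa [MulAut.conj_apply] using this
    rw [this]; exact h2
  have hDcop : (Nat.card D).Coprime p := by
    rw [Nat.coprime_comm, Nat.Prime.coprime_iff_not_dvd hp]
    intro hdvd
    obtain ⟨x, hx⟩ := exists_prime_orderOf_dvd_card' p hdvd
    have hx' : orderOf (x : G) = p := by rw [Subgroup.orderOf_coe]; exact hx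
    have h1 := (hDmem x).1 x.2 1 (by simp)
    rw [mul_one, hx'] at h1
    exact hp.one_lt.ne' (Nat.coprime_self p |>.1 h1)
  have hle : D ≤ Cfsg.pPrimeCore p G := le_sSup ⟨hDn, hDcop⟩
  exact hle ((hDmem d).2 h)

end Cfsg.Agent.S3815
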