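import Cfsg.Statements.S3819
import Cfsg.Agent.Lib.helper5.CoreControl

set_option autoImplicit false
open Cfsg

namespace Cfsg.Agent.S3819

open Cfsg.Agent.Lib.helper5

/-- Let G be a finite group with Sylow p-subgroup P and H = O_{p'}(G), and suppose G = PH and the commutator subgroup [H, P] is solvable. Let q be a prime and z an element of q-power order of C_H(P). Then (O_{q'}(C_H(z)) ∩ O_{q'}(C_H(P))) · [O_{q'}(C_H(z)), P] ≤ O_{q'}(H). -/
theorem result {G : Type*} [Group G] [Finite G] {p : ℕ} [Fact p.Prime]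
    (P : Sylow p G) (hPH : Cfsg.pPrimeCore p G ⊔ (P : Subgroup G) = ⊤)
    (hsol : Group.IsSolvable ↥⁅Cfsg.pPrimeCore p G, (P : Subgroup G)⁆)
    {q : ℕ} [Fact q.Prime] (z : G) (hzH : z ∈ Cfsg.pPrimeCore p G) (hzP : z ∈ Subgroup.centralizer ((P : Subgroup G) : Set G))
    (hz : ∃ k : ℕ, orderOf z = q ^ k) :
    ((Cfsg.pPrimeCore q ↥(Cfsg.pPrimeCore p G ⊓ Subgroup.centralizer ({z} : Set G))).map
        (Cfsg.pPrimeCore p G ⊓ Subgroup.centralizer ({z} : Set G)).subtype ⊓
      (Cfsg.pPrimeCore q ↥(Cfsg.pPrimeCore p G ⊓ Subgroup.centralizer ((P : Subgroup G) : Set G))).map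
        (Cfsg.pPrimeCore p G ⊓ Subgroup.centralizer ((P : Subgroup G) : Set G)).subtype) ⊔
    ⁅(Cfsg.pPrimeCore q ↥(Cfsg.pPrimeCore p G ⊓ Subgroup.centralizer ({z} : Set G))).map
        (Cfsg.pPrimeCore p G ⊓ Subgroup.centralizer ({z} : Set G)).subtype, (P : Subgroup G)⁆ ≤
    (Cfsg.pPrimeCore q ↥(Cfsg.pPrimeCore p G)).map (Cfsg.pPrimeCore p G).subtype := by
  classical
  haveI hHn : (Cfsg.pPrimeCore p G).Normal := Cfsg.Agent.Lib.helper9.ppc_normal p G
  have hHp := Cfsg.Agent.Lib.helper9.pPrimeCore_coprime p G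
  have hPp : IsPGroup p (P : Subgroup G) := P.isPGroup'
  have hcz := Cfsg.Agent.Lib.helper9.pPrimeCore_characteristic q
    ↥(Cfsg.pPrimeCore p G ⊓ Subgroup.centralizer ({z} : Set G))
  have hcP := Cfsg.Agent.Lib.helper9.pPrimeCore_characteristic q
    ↥(Cfsg.pPrimeCore p G ⊓ Subgroup.centralizer ((P : Subgroup G) : Set G))
  refine cc_main (Cfsg.pPrimeCore p G) (P : Subgroup G) _ _ hHp hPp hsol z hzH hz
    (Subgroup.map_subtype_le _) ?_ ?_ ?_ (Subgroup.map_subtype_le _) ?_ ?_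
  · exact Subgroup.le_normalizer.trans (cc_char_map _ _)
  · refine le_trans ?_ (cc_char_map _ _)
    apply Cfsg.Agent.Lib.helper8.le_normalizer_of_conj_mem
    intro a ha x hx
    refine Subgroup.mem_inf.mpr ⟨hHn.conj_mem x hx.1 a, ?_⟩
    have hxz : x ∈ Subgroup.centralizer ({z} : Set G) := hx.2
    rw [Subgroup.mem_centralizer_iff] at hxz ⊢
    intro y hy
    rw [Set.mem_singleton_iff] at hy
    subst hy
    have c1 : Commute y x := hxz y (Set.mem_singleton y)
    have c2 : Commute y a := ((Subgroup.mem_centralizer_iff.mp hzP) a ha).symm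
    exact ((c2.mul_right c1).mul_right c2.inv_right).eq
  · rw [Subgroup.card_map_of_injective (Subgroup.subtype_injective _)]
    exact Cfsg.Agent.Lib.helper9.pPrimeCore_coprime q _
  · exact Subgroup.le_normalizer.trans (cc_char_map _ _)
  · rw [Subgroup.card_map_of_injective (Subgroup.subtype_injective _)]
    exact Cfsg.Agent.Lib.helper9.pPrimeCore_coprime q _

end Cfsg.Agent.S3819
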