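import Cfsg.Statements.S3820
import Mathlib

set_option autoImplicit false
open Cfsg

namespace Cfsg.Agent.S3820

theorem mem_conj_map {G : Type*} [Group G] (K : Subgroup G) (g y : G) :
    y ∈ K.map (MulAut.conj g).toMonoidHom ↔ g⁻¹ * y * g ∈ K := by
  constructor
  · rintro ⟨k, hk, rfl⟩
    simpa [MulAut.conj_apply, mul_assoc] using hk
  · intro h
    refine ⟨g⁻¹ * y * g, h, ?_⟩
    simp [MulAut.conj_apply, mul_assoc]


/-- Call a subgroup H of G pronormal if H and gHg⁻¹ are conjugate inside ⟨H, gHg⁻¹⟩ for every g ∈ G. Let S ≤ H ≤ G be subgroups of a finite group with S pronormal in G (for instance S a Sylow subgroup). Then H is pronormal in G if and only if H and gHg⁻¹ are conjugate inside ⟨H, gHg⁻¹⟩ for every g ∈ N_G(S). In particular H is pronormal whenever N_G(S) ≤ H. -/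
theorem result {G : Type*} [Group G] [Finite G] (S H : Subgroup G) (hSH : S ≤ H)
    (hS : Cfsg.IsPronormal S) :
    Cfsg.IsPronormal H ↔
      ∀ g ∈ Subgroup.normalizer (S : Set G), ∃ w ∈ H ⊔ H.map (MulAut.conj g).toMonoidHom,
        H.map (MulAut.conj g).toMonoidHom = H.map (MulAut.conj w).toMonoidHom := by
  constructor
  · intro hH g _
    exact hH g
  · intro hN g
    obtain ⟨x, hx, hxe⟩ := hS g
    have hxH : x ∈ H ⊔ H.map (MulAut.conj g).toMonoidHom :=
      (sup_le_sup hSH (Subgroup.map_mono hSH)) hx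
    have hn : x⁻¹ * g ∈ Subgroup.normalizer (S : Set G) := by
      rw [Subgroup.mem_normalizer_iff]
      intro s
      have h1 : g * s * g⁻¹ ∈ S.map (MulAut.conj g).toMonoidHom ↔ s ∈ S := by
        rw [mem_conj_map]
        have : g⁻¹ * (g * s * g⁻¹) * g = s := by group
        rw [this]
      rw [hxe, mem_conj_map] at h1
      rw [← h1]
      have : x⁻¹ * g * s * (x⁻¹ * g)⁻¹ = x⁻¹ * (g * s * g⁻¹) * x := by group
      rw [this]
    obtain ⟨w, hw, hwe⟩ := hN _ hn
    have hle : H.map (MulAut.conj (x⁻¹ * g)).toMonoidHom ≤ H ⊔ H.map (MulAut.conj g).toMonoidHom := by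
      intro y hy
      rw [mem_conj_map] at hy
      have h2 : x * y * x⁻¹ ∈ H.map (MulAut.conj g).toMonoidHom := by
        rw [mem_conj_map]
        have : g⁻¹ * (x * y * x⁻¹) * g = (x⁻¹ * g)⁻¹ * y * (x⁻¹ * g) := by group
        rw [this]; exact hy
      have h3 : x * y * x⁻¹ ∈ H ⊔ H.map (MulAut.conj g).toMonoidHom :=
        (le_sup_right : H.map (MulAut.conj g).toMonoidHom ≤ _) h2
      have h4 : y = x⁻¹ * (x * y * x⁻¹) * x := by group
      rw [h4]
      exact Subgroup.mul_mem _ (Subgroup.mul_mem _ (Subgroup.inv_mem _ hxH) h3) hxH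
    have hw' : w ∈ H ⊔ H.map (MulAut.conj g).toMonoidHom :=
      (sup_le le_sup_left hle) hw
    refine ⟨x * w, Subgroup.mul_mem _ hxH hw', ?_⟩
    ext y
    rw [mem_conj_map, mem_conj_map]
    have h5 : x⁻¹ * y * x ∈ H.map (MulAut.conj (x⁻¹ * g)).toMonoidHom ↔
        x⁻¹ * y * x ∈ H.map (MulAut.conj w).toMonoidHom := by rw [hwe]
    rw [mem_conj_map, mem_conj_map] at h5
    have e1 : (x⁻¹ * g)⁻¹ * (x⁻¹ * y * x) * (x⁻¹ * g) = g⁻¹ * y * g := by group
    have e2 : w⁻¹ * (x⁻¹ * y * x) * w = (x * w)⁻¹ * y * (x * w) := by group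
    rw [e1, e2] at h5
    exact h5

end Cfsg.Agent.S3820
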