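import Cfsg.Statements.S3821
import Mathlib

set_option autoImplicit false
open Cfsg

namespace Cfsg.Agent.S3821

theorem mem_conj_map {G : Type*} [Group G] (K : Subgroup G) (g y : G) :
    y ∈ K.map (MulAut.conj g).toMonoidHom ↔ g⁻¹ * y * g ∈ K := by
  constructor
  · rintro ⟨k, hk, rfl⟩
    simpa [MulAut.conj_apply, mul_assoc] using hk
  · intro h
    refine ⟨g⁻¹ * y * g, h, ?_⟩
    simp [MulAut.conj_apply, mul_assoc]

theorem mem_conj_map_sub {G : Type*} [Group G] (A H : Subgroup G) (a z : A) :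
    z ∈ (H.subgroupOf A).map (MulAut.conj a).toMonoidHom ↔ (a : G)⁻¹ * (z : G) * (a : G) ∈ H := by
  rw [mem_conj_map, Subgroup.mem_subgroupOf]
  simp

theorem conj_le_normal {G : Type*} [Group G] (A H : Subgroup G) [A.Normal] (hHA : H ≤ A) (g : G) :
    H.map (MulAut.conj g).toMonoidHom ≤ A := by
  intro y hy
  rw [mem_conj_map] at hy
  have h1 := hHA hy
  have h2 : y = g * (g⁻¹ * y * g) * g⁻¹ := by group
  rw [h2]
  exact Subgroup.Normal.conj_mem inferInstance _ h1 g

theorem sup_sub_le {G : Type*} [Group G] (A H : Subgroup G) (a : A) :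
    ((H.subgroupOf A) ⊔ (H.subgroupOf A).map (MulAut.conj a).toMonoidHom).map A.subtype ≤
      H ⊔ H.map (MulAut.conj (a : G)).toMonoidHom := by
  rw [Subgroup.map_sup]
  apply sup_le_sup
  · rintro _ ⟨z, hz, rfl⟩
    have hz' : z ∈ H.subgroupOf A := hz
    exact Subgroup.mem_subgroupOf.1 hz'
  · rintro _ ⟨z, hz, rfl⟩
    have hz' : z ∈ (H.subgroupOf A).map (MulAut.conj a).toMonoidHom := hz
    rw [mem_conj_map_sub] at hz'
    rw [mem_conj_map]
    exact hz'

theorem le_sup_sub {G : Type*} [Group G] (A H : Subgroup G) (hHA : H ≤ A) (a : A) :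
    H ⊔ H.map (MulAut.conj (a : G)).toMonoidHom ≤
      ((H.subgroupOf A) ⊔ (H.subgroupOf A).map (MulAut.conj a).toMonoidHom).map A.subtype := by
  apply sup_le
  · intro h hh
    refine ⟨⟨h, hHA hh⟩, ?_, rfl⟩
    exact (le_sup_left : H.subgroupOf A ≤ _) (Subgroup.mem_subgroupOf.2 hh)
  · intro y hy
    rw [mem_conj_map] at hy
    have hyA : y ∈ A := by
      have h2 : y = (a : G) * ((a : G)⁻¹ * y * (a : G)) * (a : G)⁻¹ := by group
      rw [h2]
      exact A.mul_mem (A.mul_mem a.2 (hHA hy)) (A.inv_mem a.2)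
    refine ⟨⟨y, hyA⟩, ?_, rfl⟩
    apply (le_sup_right : (H.subgroupOf A).map (MulAut.conj a).toMonoidHom ≤ _)
    rw [mem_conj_map_sub]
    exact hy


/-- Let A be a normal subgroup of the finite group G and H a subgroup of A. Then H is pronormal in G (H and gHg⁻¹ conjugate inside ⟨H, gHg⁻¹⟩ for every g ∈ G) if and only if H is pronormal in A and G = A · N_G(H). -/
theorem result {G : Type*} [Group G] [Finite G] (A H : Subgroup G) [A.Normal] (hHA : H ≤ A) :
    Cfsg.IsPronormal H ↔ (Cfsg.IsPronormal (H.subgroupOf A) ∧ A ⊔ Subgroup.normalizer (H : Set G) = ⊤) := by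
  constructor
  · intro hP
    refine ⟨?_, ?_⟩
    · intro a
      obtain ⟨x, hx, hxe⟩ := hP (a : G)
      obtain ⟨x', hx', rfl⟩ := le_sup_sub A H hHA a hx
      refine ⟨x', hx', ?_⟩
      ext z
      rw [mem_conj_map_sub, mem_conj_map_sub]
      have h1 : (z : G) ∈ H.map (MulAut.conj (a : G)).toMonoidHom ↔
          (z : G) ∈ H.map (MulAut.conj (A.subtype x')).toMonoidHom := by rw [hxe]
      rw [mem_conj_map, mem_conj_map] at h1
      exact h1
    · rw [eq_top_iff]
      intro g _
      obtain ⟨x, hx, hxe⟩ := hP g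
      have hxA : x ∈ A := (sup_le hHA (conj_le_normal A H hHA g)) hx
      have hn : x⁻¹ * g ∈ Subgroup.normalizer (H : Set G) := by
        rw [Subgroup.mem_normalizer_iff]
        intro s
        have h1 : g * s * g⁻¹ ∈ H.map (MulAut.conj g).toMonoidHom ↔ s ∈ H := by
          rw [mem_conj_map]
          have : g⁻¹ * (g * s * g⁻¹) * g = s := by group
          rw [this]
        rw [hxe, mem_conj_map] at h1
        rw [← h1]
        have : x⁻¹ * g * s * (x⁻¹ * g)⁻¹ = x⁻¹ * (g * s * g⁻¹) * x := by group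
        rw [this]
      have : g = x * (x⁻¹ * g) := by group
      rw [this]
      exact Subgroup.mul_mem _ ((le_sup_left : A ≤ _) hxA) ((le_sup_right : Subgroup.normalizer (H : Set G) ≤ _) hn)
  · rintro ⟨hPA, hsup⟩ g
    have hg : g ∈ A ⊔ Subgroup.normalizer (H : Set G) := by rw [hsup]; trivial
    have hg' : g ∈ ((A ⊔ Subgroup.normalizer (H : Set G) : Subgroup G) : Set G) := hg
    rw [Subgroup.normal_mul] at hg'
    obtain ⟨a, ha, n, hn, rfl⟩ := Set.mem_mul.1 hg'
    have hconj : H.map (MulAut.conj (a * n)).toMonoidHom = H.map (MulAut.conj a).toMonoidHom := by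
      ext y
      rw [mem_conj_map, mem_conj_map]
      have h1 := (Subgroup.mem_normalizer_iff.1 hn) ((a * n)⁻¹ * y * (a * n))
      rw [h1]
      have : n * ((a * n)⁻¹ * y * (a * n)) * n⁻¹ = a⁻¹ * y * a := by group
      rw [this]
    rw [hconj]
    obtain ⟨x', hx', hxe⟩ := hPA ⟨a, ha⟩
    refine ⟨(x' : G), ?_, ?_⟩
    · exact sup_sub_le A H ⟨a, ha⟩ ⟨x', hx', rfl⟩
    · ext y
      by_cases hyA : y ∈ A
      · have h1 : (⟨y, hyA⟩ : A) ∈ (H.subgroupOf A).map (MulAut.conj (⟨a, ha⟩ : A)).toMonoidHom ↔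
            (⟨y, hyA⟩ : A) ∈ (H.subgroupOf A).map (MulAut.conj x').toMonoidHom := by rw [hxe]
        rw [mem_conj_map_sub, mem_conj_map_sub] at h1
        rw [mem_conj_map, mem_conj_map]
        exact h1
      · constructor
        · intro h; exact absurd (conj_le_normal A H hHA a h) hyA
        · intro h; exact absurd (conj_le_normal A H hHA _ h) hyA

end Cfsg.Agent.S3821
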