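import Cfsg.Statements.S3825
import Mathlib

set_option autoImplicit false
open Cfsg

namespace Cfsg.Agent.S3825

/-- Let U be a subgroup of a finite group H and w an involution of H normalizing U and commuting with exactly two elements of U, the identity and y. If V is a non-cyclic elementary abelian 2-subgroup of U containing y which is normal in U and invariant under w, then V is a Sylow 2-subgroup of U, V has order 4, and U/V is abelian. -/
theorem result {H : Type*} [Group H] [Finite H] (U : Subgroup H) (w : H) (hw : orderOf w = 2)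
    (hwU : w ∈ Subgroup.normalizer (U : Set H)) (y : H) (hy : y ≠ 1) (hyU : y ∈ U)
    (hfix : ∀ u ∈ U, w * u * w⁻¹ = u ↔ (u = 1 ∨ u = y))
    (V : Subgroup H) (hVU : V ≤ U) (hVn : (V.subgroupOf U).Normal) (hVw : ∀ v ∈ V, w * v * w⁻¹ ∈ V)
    (hVe : Cfsg.IsElementaryAbelian 2 V) (hVc : ¬ IsCyclic ↥V) (hyV : y ∈ V) :
    ¬ 2 ∣ V.relIndex U ∧ Nat.card ↥V = 4 ∧ ⁅U, U⁆ ≤ V := by
  classical
  obtain ⟨hVcomm, hVexp⟩ := hVe
  set σ : MulAut H := MulAut.conj w with hσdef
  have hσ : ∀ x, σ x = w * x * w⁻¹ := fun x => by simp [hσdef, MulAut.conj_apply]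
  have hww : w * w = 1 := by have := pow_orderOf_eq_one w; rwa [hw, pow_two] at this
  have hσσ : ∀ x, σ (σ x) = x := by
    intro x; rw [hσ, hσ]
    have hwi : w⁻¹ = w := inv_eq_of_mul_eq_one_left hww
    rw [hwi]
    calc w * (w * x * w) * w = (w * w) * x * (w * w) := by group
      _ = x := by rw [hww]; simp
  have hfix' : ∀ u ∈ U, σ u = u ↔ (u = 1 ∨ u = y) := fun u hu => by rw [hσ]; exact hfix u hu
  have hVσ : ∀ v ∈ V, σ v ∈ V := fun v hv => by rw [hσ]; exact hVw v hv
  have hUσ : ∀ u ∈ U, σ u ∈ U := fun u hu => by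
    rw [hσ]; exact (Subgroup.mem_normalizer_iff.mp hwU u).mp hu
  have hc : ∀ a ∈ V, ∀ b ∈ V, a * b = b * a := by
    intro a ha b hb
    have := hVcomm.is_comm.comm (⟨a, ha⟩ : V) ⟨b, hb⟩
    exact congrArg Subtype.val this
  have hsq : ∀ a ∈ V, a * a = 1 := fun a ha => by have := hVexp a ha; rwa [pow_two] at this
  have hinv : ∀ a ∈ V, a⁻¹ = a := fun a ha => inv_eq_of_mul_eq_one_left (hsq a ha)
  have hτfix : ∀ v ∈ V, σ (v * σ v) = v * σ v := by
    intro v hv
    rw [map_mul, hσσ, hc _ (hVσ v hv) _ hv]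
  have hτ : ∀ v ∈ V, v * σ v = 1 ∨ v * σ v = y := fun v hv =>
    (hfix' _ (hVU (V.mul_mem hv (hVσ v hv)))).mp (hτfix v hv)
  have hτ1 : ∀ v ∈ V, v * σ v = 1 → v = 1 ∨ v = y := by
    intro v hv h
    apply (hfix' v (hVU hv)).mp
    have h2 : σ v = v⁻¹ := (inv_eq_of_mul_eq_one_right h).symm
    rw [h2, hinv v hv]
  obtain ⟨v0, hv0V, hv01, hv0y⟩ : ∃ v0 ∈ V, v0 ≠ 1 ∧ v0 ≠ y := by
    by_contra hcon
    push Not at hcon
    apply hVc
    refine ⟨⟨⟨y, hyV⟩, fun v => ?_⟩⟩
    by_cases h : (v : H) = 1
    · exact ⟨0, by ext; simp [h]⟩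
    · exact ⟨1, by ext; simp [hcon v v.2 h]⟩
  have hτv0 : v0 * σ v0 = y := by
    rcases hτ v0 hv0V with h | h
    · rcases hτ1 v0 hv0V h with h' | h'
      · exact absurd h' hv01
      · exact absurd h' hv0y
    · exact h
  have hσv0 : σ v0 = v0 * y := by
    have h2 : σ v0 = v0⁻¹ * y := by rw [← hτv0]; group
    rw [h2, hinv v0 hv0V]
  have hyy : y * y = 1 := hsq y hyV
  have hyv0y : y * (v0 * y) = v0 := by
    calc y * (v0 * y) = (y * v0) * y := by group
      _ = (v0 * y) * y := by rw [hc y hyV v0 hv0V]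
      _ = v0 * (y * y) := by group
      _ = v0 := by rw [hyy, mul_one]
  have hVsub : ∀ v ∈ V, v = 1 ∨ v = y ∨ v = v0 ∨ v = v0 * y := by
    intro v hv
    rcases hτ v hv with h | h
    · rcases hτ1 v hv h with h' | h'
      · exact Or.inl h'
      · exact Or.inr (Or.inl h')
    · have hσv : σ v = v * y := by
        have h2 : σ v = v⁻¹ * y := by rw [← h]; group
        rw [h2, hinv v hv]
      have ht : σ (v * v0) = v * v0 := by
        rw [map_mul, hσv, hσv0, mul_assoc, hyv0y]
      rcases (hfix' _ (hVU (V.mul_mem hv hv0V))).mp ht with h' | h'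
      · right; right; left
        have h2 : v = v0⁻¹ := eq_inv_of_mul_eq_one_left h'
        rw [h2, hinv v0 hv0V]
      · right; right; right
        have h2 : v = y * v0⁻¹ := by rw [← h']; group
        rw [h2, hinv v0 hv0V, hc y hyV v0 hv0V]
  have hcard : Nat.card V = 4 := by
    have hVset : (V : Set H) = (({1, y, v0, v0 * y} : Finset H) : Set H) := by
      ext v
      simp only [SetLike.mem_coe, Finset.coe_insert, Finset.coe_singleton, Set.mem_insert_iff,
        Set.mem_singleton_iff]
      constructor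
      · exact hVsub v
      · rintro (rfl | rfl | rfl | rfl)
        exacts [V.one_mem, hyV, hv0V, V.mul_mem hv0V hyV]
    have h1 : Nat.card V = Set.ncard (V : Set H) := rfl
    rw [h1, hVset, Set.ncard_coe_finset]
    rw [Finset.card_insert_of_notMem, Finset.card_insert_of_notMem, Finset.card_insert_of_notMem,
      Finset.card_singleton]
    · simp [hy]
    · simp [Ne.symm hv0y, hv01]
    · simp only [Finset.mem_insert, Finset.mem_singleton, not_or]
      refine ⟨Ne.symm hy, Ne.symm hv01, ?_⟩
      intro h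
      have h2 : v0 = y⁻¹ := eq_inv_of_mul_eq_one_left h.symm
      rw [hinv y hyV] at h2
      exact hv0y h2
  let c : U →* U :=
    { toFun := fun u => ⟨σ u, hUσ u u.2⟩
      map_one' := by ext; simp
      map_mul' := fun a b => by ext; simp }
  have hle : V.subgroupOf U ≤ Subgroup.comap c (V.subgroupOf U) := by
    intro u hu
    rw [Subgroup.mem_comap, Subgroup.mem_subgroupOf]
    exact hVσ _ (Subgroup.mem_subgroupOf.mp hu)
  let φ : U ⧸ V.subgroupOf U →* U ⧸ V.subgroupOf U := QuotientGroup.map _ _ c hle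
  have hinvol : Function.Involutive φ := by
    intro a
    induction a using QuotientGroup.induction_on with
    | H u =>
      show QuotientGroup.map _ _ c hle (QuotientGroup.map _ _ c hle (u : U ⧸ V.subgroupOf U)) = _
      rw [QuotientGroup.map_mk, QuotientGroup.map_mk]
      congr 1
      ext
      exact hσσ u
  have hfpf : MonoidHom.FixedPointFree φ := by
    intro a ha
    induction a using QuotientGroup.induction_on with
    | H u =>
      change QuotientGroup.map _ _ c hle (u : U ⧸ V.subgroupOf U) = _ at ha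
      rw [QuotientGroup.map_mk, QuotientGroup.eq, Subgroup.mem_subgroupOf] at ha
      rw [QuotientGroup.eq_one_iff, Subgroup.mem_subgroupOf]
      have hvV : (σ (u : H))⁻¹ * (u : H) ∈ V := ha
      set v := (σ (u : H))⁻¹ * (u : H) with hv
      have hσu : σ (u : H) = u * v := by
        have h2 : σ (u : H) = u * v⁻¹ := by rw [hv]; group
        rw [h2, hinv v hvV]
      have h3 : v * σ v = 1 := by
        have h4 : (u : H) = u * (v * σ v) := by
          conv_lhs => rw [← hσσ (u : H), hσu, map_mul, hσu]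
          group
        exact (mul_eq_left.mp h4.symm)
      rcases hτ1 v hvV h3 with h5 | h5
      · rw [h5, mul_one] at hσu
        rcases (hfix' _ u.2).mp hσu with h6 | h6
        · rw [h6]; exact V.one_mem
        · rw [h6]; exact hyV
      · rw [h5] at hσu
        have ht : σ ((u : H) * v0) = u * v0 := by
          rw [map_mul, hσu, hσv0, mul_assoc, hyv0y]
        have h7 : (u : H) * v0 ∈ V := by
          rcases (hfix' _ (U.mul_mem u.2 (hVU hv0V))).mp ht with h6 | h6
          · rw [h6]; exact V.one_mem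
          · rw [h6]; exact hyV
        have h8 : (u : H) = (u * v0) * v0⁻¹ := by group
        rw [h8]
        exact V.mul_mem h7 (V.inv_mem hv0V)
  refine ⟨?_, hcard, ?_⟩
  · have hodd := hfpf.odd_card_of_involutive hinvol
    rw [Subgroup.relIndex, Subgroup.index_eq_card]
    intro h2
    exact (Nat.not_even_iff_odd.mpr hodd) (even_iff_two_dvd.mpr h2)
  · rw [Subgroup.commutator_le]
    intro a ha b hb
    have hcomm := hfpf.commute_all_of_involutive hinvol
      (QuotientGroup.mk (⟨a, ha⟩ : U)) (QuotientGroup.mk (⟨b, hb⟩ : U))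
    have h9 : (QuotientGroup.mk ((⟨a, ha⟩ : U) * ⟨b, hb⟩ * (⟨a, ha⟩ : U)⁻¹ * (⟨b, hb⟩ : U)⁻¹) : U ⧸ V.subgroupOf U) = 1 := by
      simp only [QuotientGroup.mk_mul, QuotientGroup.mk_inv]
      rw [hcomm.eq]; group
    rw [QuotientGroup.eq_one_iff, Subgroup.mem_subgroupOf] at h9
    exact h9

end Cfsg.Agent.S3825
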