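import Cfsg.Statements.S3836
import Mathlib
import Cfsg.Agent.Lib.helper7.FStar

set_option autoImplicit false
open Cfsg

namespace Cfsg.Agent.S3836

open Cfsg.Agent.Lib.helper7 in
theorem pCore_isPGroup.{u} (p : ℕ) (X : Type u) [Group X] [Finite X] : IsPGroup p (Cfsg.pCore p X) := by
  rw [pCore_eq_rad]; exact rad_mem (radHyp_pGroup p) X

theorem pCore_normal' (p : ℕ) (X : Type*) [Group X] : (Cfsg.pCore p X).Normal :=
  Subgroup.sSup_normal _ (fun _ h => h.1)

/-- Let G be a finite group that is p-stable in the normalizer form: for every p-subgroup Q and every x ∈ N_G(Q) with [Q, x, x] = 1, the image of x in N_G(Q)/C_G(Q) lies in O_p(N_G(Q)/C_G(Q)). Then every subgroup of G is p-stable in the same sense. -/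
theorem result {G : Type*} [Group G] [Finite G] {p : ℕ} [Fact p.Prime] (hst : Cfsg.IsNormalizerPStable p G) (H : Subgroup G) : Cfsg.IsNormalizerPStable p ↥H := by
  intro Q hQ h hh hquad
  set P := Q.map H.subtype with hP
  have hPp : IsPGroup p P := hQ.map _
  have hgN : (h : G) ∈ Subgroup.normalizer (P : Set G) := by
    apply Subgroup.mem_normalizer_fintype
    rintro _ ⟨q, hq, rfl⟩
    exact ⟨h * q * h⁻¹, (Subgroup.mem_normalizer_iff.mp hh q).mp hq, by simp⟩
  have hquadG : ⁅⁅P, Subgroup.zpowers (h : G)⁆, Subgroup.zpowers (h : G)⁆ = ⊥ := by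
    have h1 : Subgroup.zpowers (h : G) = (Subgroup.zpowers h).map H.subtype := by
      rw [MonoidHom.map_zpowers]; rfl
    rw [h1, hP, ← Subgroup.map_commutator, ← Subgroup.map_commutator, hquad, Subgroup.map_bot]
  have key := hst P hPp h hgN hquadG
  have hfmem : ∀ x : Subgroup.normalizer (Q : Set H), ((x : H) : G) ∈ Subgroup.normalizer (P : Set G) := by
    intro x
    apply Subgroup.mem_normalizer_fintype
    rintro _ ⟨q, hq, rfl⟩
    exact ⟨x * q * x⁻¹, (Subgroup.mem_normalizer_iff.mp x.2 q).mp hq, by simp⟩
  let f : Subgroup.normalizer (Q : Set H) →* Subgroup.normalizer (P : Set G) :=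
    { toFun := fun x => ⟨((x : H) : G), hfmem x⟩
      map_one' := rfl
      map_mul' := fun _ _ => rfl }
  have hle : (Subgroup.centralizer (Q : Set H)).subgroupOf (Subgroup.normalizer (Q : Set H)) ≤
      Subgroup.comap f ((Subgroup.centralizer (P : Set G)).subgroupOf (Subgroup.normalizer (P : Set G))) := by
    intro x hx
    rw [Subgroup.mem_comap, Subgroup.mem_subgroupOf]
    rw [Subgroup.mem_subgroupOf] at hx
    show ((x : H) : G) ∈ Subgroup.centralizer (P : Set G)
    rw [Subgroup.mem_centralizer_iff]
    rintro _ ⟨q, hq, rfl⟩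
    have := Subgroup.mem_centralizer_iff.mp hx q hq
    exact congrArg Subtype.val this
  let φ := QuotientGroup.map _ _ f hle
  have hinj : Function.Injective φ := by
    rw [injective_iff_map_eq_one]
    intro a ha
    induction a using QuotientGroup.induction_on with
    | H x =>
      rw [QuotientGroup.map_mk, QuotientGroup.eq_one_iff, Subgroup.mem_subgroupOf] at ha
      rw [QuotientGroup.eq_one_iff, Subgroup.mem_subgroupOf, Subgroup.mem_centralizer_iff]
      intro q hq
      have := Subgroup.mem_centralizer_iff.mp ha (q : G) ⟨q, hq, rfl⟩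
      exact Subtype.ext this
  have hcomap_le : Subgroup.comap φ (pCore p _) ≤ pCore p _ := by
    apply le_sSup
    have hn := pCore_normal' p (↥(Subgroup.normalizer (P : Set G)) ⧸
          (Subgroup.centralizer (P : Set G)).subgroupOf (Subgroup.normalizer (P : Set G)))
    exact ⟨hn.comap φ, (pCore_isPGroup p _).comap_of_injective φ hinj⟩
  apply hcomap_le
  rw [Subgroup.mem_comap, QuotientGroup.map_mk]
  exact key

end Cfsg.Agent.S3836
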