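import Cfsg.Statements.S3838
import Mathlib
import Cfsg.Agent.Lib.helper1.Hall
import Cfsg.Agent.Lib.helper8.CoprimeAction
import Cfsg.Agent.Lib.helper20.ClassSize
import Cfsg.Agent.S0072

set_option autoImplicit false
open Cfsg

open Pointwise
open scoped commutatorElement

namespace Cfsg.Agent.S3838

universe u

theorem lemA {M : Type u} [Group M] [Finite M] {p : ℕ} [Fact p.Prime] (P : Sylow p M)
    (Q : Subgroup M) [Q.Normal] (hQP : Q ≤ P)
    (hab : ∀ x ∈ (P : Subgroup M), ∀ y ∈ (P : Subgroup M), ⁅x, y⁆ ∈ Q)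
    (hfr : ∀ R : Subgroup M, R ≤ P → Q ⊔ R = P → R = P)
    (hcen : ∀ g ∈ Subgroup.normalizer ((P : Subgroup M) : Set M), (orderOf g).Coprime p →
      ∀ x ∈ (P : Subgroup M), g * x = x * g) :
    ∃ H : Subgroup M, H.Normal ∧ (Nat.card H).Coprime p ∧ ∃ a : ℕ, H.index = p ^ a := by
  have hp : p.Prime := Fact.out
  set f := QuotientGroup.mk' Q with hf
  have hfs : Function.Surjective f := QuotientGroup.mk'_surjective Q
  set Pb : Sylow p (M ⧸ Q) := P.mapSurjective hfs with hPb
  have hPbc : (Pb : Subgroup (M ⧸ Q)) = (P : Subgroup M).map f := rfl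
  have hcomap : ((P : Subgroup M).map f).comap f = P := by
    rw [Subgroup.comap_map_eq, QuotientGroup.ker_mk', sup_eq_left.mpr hQP]
  have hPbN : Subgroup.normalizer ((Pb : Subgroup (M ⧸ Q)) : Set (M ⧸ Q)) ≤
      Subgroup.centralizer ((Pb : Subgroup (M ⧸ Q)) : Set (M ⧸ Q)) := by
    intro gb hgb
    obtain ⟨g, rfl⟩ := hfs gb
    have hgN : g ∈ Subgroup.normalizer ((P : Subgroup M) : Set M) := by
      have h1 : g ∈ (Subgroup.normalizer
          (((P : Subgroup M).map f : Subgroup (M ⧸ Q)) : Set (M ⧸ Q))).comap f := hgb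
      have h2 := Subgroup.le_normalizer_comap f h1
      rwa [hcomap] at h2
    obtain ⟨u, v, huv, hcomm, ⟨k, hu⟩, hv, hug, hvg⟩ :=
      Cfsg.Agent.Lib.helper20.exists_p_decomp p g
    have hzN : Subgroup.zpowers g ≤ Subgroup.normalizer ((P : Subgroup M) : Set M) :=
      (Subgroup.zpowers_le).mpr hgN
    have huP : u ∈ (P : Subgroup M) := by
      have h1 : IsPGroup p (Subgroup.zpowers u) := by
        obtain ⟨j, -, hj⟩ := (Nat.dvd_prime_pow hp).mp (orderOf_dvd_of_pow_eq_one hu)
        exact IsPGroup.of_card (n := j) (by rw [Nat.card_zpowers, hj])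
      have h2 : IsPGroup p ((P : Subgroup M) ⊔ Subgroup.zpowers u : Subgroup M) :=
        IsPGroup.to_sup_of_normal_left' P.2 h1 ((Subgroup.zpowers_le.mpr (hzN hug)))
      have h3 := P.is_maximal' h2 le_sup_left
      rw [← h3]
      exact Subgroup.mem_sup_right (Subgroup.mem_zpowers u)
    rw [Subgroup.mem_centralizer_iff]
    intro xb hxb
    obtain ⟨x, hx, rfl⟩ := hxb
    have hvx : v * x = x * v := hcen v (hzN hvg) hv x hx
    have hq : ⁅u, x⁆ ∈ Q := hab u huP x hx
    have e : g * x = ⁅u, x⁆ * (x * g) := by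
      rw [huv, commutatorElement_def]
      have : u * v * x = u * x * v := by rw [mul_assoc, hvx, ← mul_assoc]
      rw [this]; group
    have hq1 : f ⁅u, x⁆ = 1 := (QuotientGroup.eq_one_iff _).mpr hq
    have h4 : f (g * x) = f (x * g) := by
      rw [e, map_mul, hq1, one_mul]
    rw [map_mul, map_mul] at h4
    exact h4.symm
  have hcompl := MonoidHom.ker_transferSylow_isComplement' Pb hPbN
  set Kb := (MonoidHom.transferSylow Pb hPbN).ker with hKb
  set L := Kb.comap f with hL
  have hLn : L.Normal := inferInstance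
  have hQL : Q ≤ L := by
    intro x hx
    rw [hL, Subgroup.mem_comap]
    have : f x = 1 := (QuotientGroup.eq_one_iff x).mpr hx
    rw [this]; exact Kb.one_mem
  have hKbcop : (Nat.card Kb).Coprime p :=
    ((Nat.Prime.coprime_iff_not_dvd hp).mpr
      (MonoidHom.not_dvd_card_ker_transferSylow Pb hPbN)).symm
  have hLcard : Nat.card L = Nat.card Kb * Nat.card Q :=
    Cfsg.Agent.Lib.helper1.card_comap_mk Q Kb
  have hQp : IsPGroup p Q := P.2.to_le hQP
  obtain ⟨e, he⟩ := hQp.exists_card_eq
  have hcopL : (Nat.card (Q.subgroupOf L)).Coprime (Q.subgroupOf L).index := by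
    have h1 : Nat.card (Q.subgroupOf L) = Nat.card Q :=
      Nat.card_congr (Subgroup.subgroupOfEquivOfLe hQL).toEquiv
    have h2 := Subgroup.card_mul_index (Q.subgroupOf L)
    rw [h1, hLcard, mul_comm] at h2
    have h3 : (Q.subgroupOf L).index = Nat.card Kb := Nat.eq_of_mul_eq_mul_right Nat.card_pos h2
    rw [h1, h3, he]
    exact (Nat.Coprime.pow_right e hKbcop).symm
  obtain ⟨H₀, hH₀⟩ := Subgroup.exists_right_complement'_of_coprime hcopL
  set H := H₀.map L.subtype with hH
  have hHL : H ≤ L := by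
    rintro _ ⟨x, -, rfl⟩; exact x.2
  have hHcard : Nat.card H = Nat.card Kb := by
    have h0 : Nat.card H = Nat.card H₀ :=
      Subgroup.card_map_of_injective (Subgroup.subtype_injective L)
    have h1 : Nat.card (Q.subgroupOf L) = Nat.card Q :=
      Nat.card_congr (Subgroup.subgroupOfEquivOfLe hQL).toEquiv
    have h2 := hH₀.card_mul_card
    rw [h1, hLcard, mul_comm] at h2
    rw [h0]
    exact Nat.eq_of_mul_eq_mul_right Nat.card_pos h2
  have hHcop : (Nat.card H).Coprime p := by rw [hHcard]; exact hKbcop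
  have hdHQ : Disjoint H Q := Subgroup.disjoint_of_coprime_natCard (by
    rw [he]; exact Nat.Coprime.pow_right e hHcop)
  have hsup : H ⊔ Q = L := by
    apply Subgroup.eq_of_le_of_card_ge (sup_le hHL hQL)
    rw [Cfsg.Agent.Lib.helper1.card_sup_of_disjoint_normal H Q hdHQ, hHcard, hLcard, mul_comm]
  have hQsolv : Group.IsSolvable Q := by
    have : Group.IsNilpotent Q := hQp.isNilpotent
    infer_instance
  -- Frattini argument
  have hfrat : ∀ m : M, ∃ n ∈ Q, n⁻¹ * m ∈ Subgroup.normalizer (H : Set M) := by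
    intro m
    set B := MulAut.conj m • H with hB
    have hBL : B ≤ L := by
      intro x hx
      rw [hB, Cfsg.Agent.Lib.helper1.mem_conj_smul] at hx
      have h1 := hLn.conj_mem _ (hHL hx) m
      have e1 : m * (m⁻¹ * x * m) * m⁻¹ = x := by group
      rwa [e1] at h1
    obtain ⟨n, hn, hn2⟩ := Cfsg.Agent.Lib.helper8.szi Q H B
      (by rw [Subgroup.normalizer_eq_top]; exact le_top)
      (by rw [he]; exact (Nat.Coprime.pow_right e hHcop).symm) (Or.inl hQsolv)
      (by rw [sup_comm, hsup]; exact hBL)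
      (by rw [hB, Cfsg.Agent.Lib.helper1.card_conj_smul])
    refine ⟨n, hn, ?_⟩
    rw [Cfsg.Agent.Lib.helper1.mem_normalizer_iff_conj_smul,
      Cfsg.Agent.Lib.helper1.conj_mul_smul, ← hB]
    ext x
    rw [Cfsg.Agent.Lib.helper1.mem_conj_smul, inv_inv, hn2]
    have e1 : n⁻¹ * (n * x * n⁻¹) * n = x := by group
    rw [e1]
  have hPN : (P : Subgroup M) ≤ Subgroup.normalizer (H : Set M) := by
    have h1 : (P : Subgroup M) ⊓ Subgroup.normalizer (H : Set M) = P := by
      apply hfr _ inf_le_left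
      apply le_antisymm (sup_le hQP inf_le_left)
      intro x hx
      obtain ⟨n, hn, hn2⟩ := hfrat x
      have e1 : x = n * (n⁻¹ * x) := by group
      rw [e1]
      exact Subgroup.mul_mem _ (Subgroup.mem_sup_left hn) (Subgroup.mem_sup_right
        ⟨Subgroup.mul_mem _ (Subgroup.inv_mem _ (hQP hn)) hx, hn2⟩)
    exact inf_eq_left.mp h1
  have hLP : L ⊔ (P : Subgroup M) = ⊤ := by
    have h1 : (L ⊔ (P : Subgroup M)).map f = ⊤ := by
      rw [Subgroup.map_sup, hL, Subgroup.map_comap_eq_self_of_surjective hfs, ← hPbc]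
      exact hcompl.sup_eq_top
    have h2 := congrArg (Subgroup.comap f) h1
    rwa [Subgroup.comap_map_eq, QuotientGroup.ker_mk', Subgroup.comap_top,
      sup_eq_left.mpr (hQL.trans le_sup_left)] at h2
  have hHP : H ⊔ (P : Subgroup M) = ⊤ := by
    rw [← hLP, ← hsup, sup_assoc, sup_eq_right.mpr hQP]
  have hHn : H.Normal := by
    rw [← Subgroup.normalizer_eq_top_iff, eq_top_iff, ← hHP]
    exact sup_le Subgroup.le_normalizer hPN
  refine ⟨H, hHn, hHcop, ?_⟩
  obtain ⟨a, ha⟩ := P.2.exists_card_eq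
  refine ⟨a, ?_⟩
  have hdPH : Disjoint (P : Subgroup M) H := Subgroup.disjoint_of_coprime_natCard (by
    rw [ha]; exact (Nat.Coprime.pow_right a hHcop).symm)
  have h1 := Cfsg.Agent.Lib.helper1.card_sup_of_disjoint_normal (P : Subgroup M) H hdPH
  rw [sup_comm, hHP, Subgroup.card_top, ← Subgroup.card_mul_index H, ha] at h1
  exact Nat.eq_of_mul_eq_mul_left Nat.card_pos h1

/-- Let G be a finite group with Sylow p-subgroup P such that N_G(P) has a normal p-complement. Then N_G(Q) has a normal p-complement for every subgroup Q with [P, P] ≤ Q ≤ Φ(P). -/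
theorem result {G : Type*} [Group G] [Finite G] {p : ℕ} [Fact p.Prime] (P : Sylow p G) (hN : Cfsg.HasNormalPComplement p ↥(Subgroup.normalizer ((P : Subgroup G) : Set G))) (Q : Subgroup G) (h1 : (commutator ↥(P : Subgroup G)).map (P : Subgroup G).subtype ≤ Q) (h2 : Q ≤ (frattini ↥(P : Subgroup G)).map (P : Subgroup G).subtype) : Cfsg.HasNormalPComplement p ↥(Subgroup.normalizer (Q : Set G)) := by
  have hp : p.Prime := Fact.out
  have hcomm : ⁅(P : Subgroup G), (P : Subgroup G)⁆ ≤ Q := by
    rw [← Subgroup.map_subtype_commutator]; exact h1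
  have hQP : Q ≤ P := h2.trans (Subgroup.map_subtype_le _)
  have hFP : ∀ R : Subgroup G, R ≤ P → Q ⊔ R = P → R = P := by
    intro R hRP hQR
    have hK : R.subgroupOf (P : Subgroup G) ⊔ frattini (P : Subgroup G) = ⊤ := by
      apply Subgroup.map_injective (P : Subgroup G).subtype_injective
      rw [Subgroup.map_sup, Subgroup.map_subgroupOf_eq_of_le hRP, ← MonoidHom.range_eq_map,
        Subgroup.range_subtype]
      apply le_antisymm (sup_le hRP (Subgroup.map_subtype_le _))
      have h5 : (P : Subgroup G) ≤ R ⊔ Q := by rw [sup_comm, hQR]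
      exact h5.trans (sup_le_sup_left h2 R)
    have h3 := frattini_nongenerating hK
    exact le_antisymm hRP ((Subgroup.subgroupOf_eq_top).mp h3)
  have hcenG : ∀ g ∈ Subgroup.normalizer ((P : Subgroup G) : Set G), (orderOf g).Coprime p →
      ∀ x ∈ (P : Subgroup G), g * x = x * g := by
    obtain ⟨K, hKn, hKc, a, ha⟩ := (Cfsg.Agent.S0072.hasNormalPComplement_iff p).mp hN
    have hF := Cfsg.Agent.Lib.lead.frob_of_core K hKc ha
    intro g hg hcop x hx
    have hNt := Subgroup.normalizer_eq_top ((P : Subgroup G).subgroupOf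
        (Subgroup.normalizer ((P : Subgroup G) : Set G)))
    have h3 := hF ((P : Subgroup G).subgroupOf (Subgroup.normalizer ((P : Subgroup G) : Set G)))
      (P.2.comap_subtype) ⟨g, hg⟩ (hNt ▸ Subgroup.mem_top _)
      (by rw [Subgroup.orderOf_mk]; exact hcop)
    rw [Subgroup.mem_centralizer_iff] at h3
    have h4 := h3 ⟨x, Subgroup.le_normalizer hx⟩ hx
    exact (congrArg Subtype.val h4).symm
  set M := Subgroup.normalizer (Q : Set G) with hM
  have hPM : (P : Subgroup G) ≤ M := by
    apply Cfsg.Agent.Lib.helper8.le_normalizer_of_conj_mem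
    intro x hx q hq
    have h3 : ⁅x, q⁆ ∈ Q := hcomm (Subgroup.commutator_mem_commutator hx (hQP hq))
    have e : x * q * x⁻¹ = ⁅x, q⁆ * q := by rw [commutatorElement_def]; group
    rw [e]; exact Q.mul_mem h3 hq
  rw [Cfsg.Agent.S0072.hasNormalPComplement_iff]
  have hQn : (Q.subgroupOf M).Normal := Subgroup.normal_in_normalizer
  refine lemA (P.subtype hPM) (Q.subgroupOf M) ?_ ?_ ?_ ?_
  · intro x hx; exact hQP hx
  · intro x hx y hy
    show ((⁅x, y⁆ : M) : G) ∈ Q
    have e : ((⁅x, y⁆ : M) : G) = ⁅(x : G), (y : G)⁆ := rfl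
    rw [e]; exact hcomm (Subgroup.commutator_mem_commutator hx hy)
  · intro R' hR' hQR'
    have h3 := hFP (R'.map M.subtype) (by rintro _ ⟨y, hy, rfl⟩; exact hR' hy) (by
      have h4 := congrArg (Subgroup.map M.subtype) hQR'
      rw [Subgroup.map_sup, Subgroup.map_subgroupOf_eq_of_le (hQP.trans hPM)] at h4
      rw [h4]
      exact Subgroup.map_subgroupOf_eq_of_le hPM)
    apply Subgroup.map_injective M.subtype_injective
    rw [h3]; exact (Subgroup.map_subgroupOf_eq_of_le hPM).symm
  · intro g hg hcop x hx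
    have hgN : (g : G) ∈ Subgroup.normalizer ((P : Subgroup G) : Set G) := by
      rw [Subgroup.mem_normalizer_iff]
      intro y
      constructor
      · intro hy
        exact Cfsg.Agent.Lib.helper8.conj_mem_of_mem_normalizer hg (x := ⟨y, hPM hy⟩) hy
      · intro hy
        have h5 := Cfsg.Agent.Lib.helper8.conj_mem_of_mem_normalizer' hg
          (x := ⟨(g : G) * y * (g : G)⁻¹, hPM hy⟩) hy
        have e : ((g⁻¹ * ⟨(g : G) * y * (g : G)⁻¹, hPM hy⟩ * g : M) : G) = y := by
          show (g : G)⁻¹ * ((g : G) * y * (g : G)⁻¹) * (g : G) = y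
          group
        rw [← e]; exact h5
    have h6 := hcenG (g : G) hgN (by rw [Subgroup.orderOf_coe]; exact hcop) (x : G) hx
    exact Subtype.ext h6

end Cfsg.Agent.S3838
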