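import Cfsg.Statements.S3858
import Mathlib

set_option autoImplicit false
open Cfsg

namespace Cfsg.Agent.S3858

theorem mem_conj_map {G : Type*} [Group G] (K : Subgroup G) (g y : G) :
    y ∈ K.map (MulAut.conj g).toMonoidHom ↔ g⁻¹ * y * g ∈ K := by
  constructor
  · rintro ⟨k, hk, rfl⟩
    simpa [MulAut.conj_apply, mul_assoc] using hk
  · intro h
    refine ⟨g⁻¹ * y * g, h, ?_⟩
    simp [MulAut.conj_apply, mul_assoc]

open Pointwise in
theorem mem_smul_sylow {G : Type*} [Group G] {p : ℕ} (g : G) (P : Sylow p G) (x : G) :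
    x ∈ g • P ↔ g⁻¹ * x * g ∈ P := by
  change x ∈ ((g • P : Sylow p G) : Subgroup G) ↔ _
  rw [Sylow.coe_subgroup_smul, Subgroup.mem_pointwise_smul_iff_inv_smul_mem]
  simp only [MulAut.smul_def, MulAut.conj_inv_apply]
  exact Iff.rfl

open Pointwise in
theorem sylow_subgroupOf_normal {G : Type*} [Group G] [Finite G] {p : ℕ} [Fact p.Prime]
    (P : Sylow p G) (N : Subgroup G) [N.Normal] :
    ∃ Q : Sylow p N, (Q : Subgroup N) = (P : Subgroup G).subgroupOf N := by
  obtain ⟨Q0⟩ : Nonempty (Sylow p N) := inferInstance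
  obtain ⟨P', hP'⟩ := Sylow.exists_comap_subtype_eq Q0
  obtain ⟨g, hg⟩ := MulAction.exists_smul_eq G P' P
  refine ⟨(MulAut.conjNormal g : MulAut N) • Q0, ?_⟩
  ext x
  rw [Sylow.pointwise_smul_def, Subgroup.mem_pointwise_smul_iff_inv_smul_mem, Subgroup.mem_subgroupOf]
  rw [← hg, ← hP']
  rw [Sylow.smul_def, Sylow.pointwise_smul_def, Subgroup.mem_pointwise_smul_iff_inv_smul_mem]
  rw [Subgroup.mem_comap]
  simp [MulAut.smul_def, MulAut.conjNormal_symm_apply, MulAut.conj_symm_apply]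

theorem not_isPGroup_of_simple {T : Type*} [Group T] [Finite T] (hT : IsSimpleGroup T)
    (hna : ¬ IsMulCommutative T) (r : ℕ) [Fact r.Prime] : ¬ IsPGroup r T := by
  intro hp
  have : Nontrivial T := hT.toNontrivial
  have hcn := hp.center_nontrivial
  have hcen : Subgroup.center T = ⊤ := by
    rcases hT.eq_bot_or_eq_top_of_normal (Subgroup.center T) inferInstance with h | h
    · exfalso; exact (Subgroup.nontrivial_iff_ne_bot _).1 hcn h
    · exact h
  apply hna
  constructor; constructor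
  intro a b
  have : a ∈ Subgroup.center T := by rw [hcen]; trivial
  exact (Subgroup.mem_center_iff.1 this b).symm

theorem inf_not_normal {G : Type*} [Group G] [Finite G] (T : Subgroup G) [T.Normal] (hT : IsSimpleGroup T)
    (hna : ¬ IsMulCommutative T) {r : ℕ} [Fact r.Prime] (R : Sylow r G) (hR0 : (R : Subgroup G) ⊓ T ≠ ⊥) :
    ¬ ((R : Subgroup G) ⊓ T).Normal := by
  intro hnorm
  obtain ⟨Q, hQ⟩ := sylow_subgroupOf_normal R T
  have hmap : (Q : Subgroup T).map T.subtype = (R : Subgroup G) ⊓ T := by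
    rw [hQ, Subgroup.subgroupOf_map_subtype]
  have hQn : (Q : Subgroup T).Normal := by
    rw [hQ]
    have : (R : Subgroup G).subgroupOf T = ((R : Subgroup G) ⊓ T).subgroupOf T := by
      simp
    rw [this]
    exact hnorm.subgroupOf T
  rcases hT.eq_bot_or_eq_top_of_normal _ hQn with h | h
  · apply hR0
    rw [← hmap, h, Subgroup.map_bot]
  · apply not_isPGroup_of_simple hT hna r
    have := Q.isPGroup'
    rw [h] at this
    exact this.of_equiv Subgroup.topEquiv

theorem isCoatom_conj {G : Type*} [Group G] (M : Subgroup G) (g : G) (hM : IsCoatom M) :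
    IsCoatom (M.map (MulAut.conj g).toMonoidHom) :=
  (OrderIso.isCoatom_iff (MulAut.conj g).mapSubgroup M).2 hM

theorem conj_eq_self {G : Type*} [Group G] (M : Subgroup G) (g : G) (hg : g ∈ M) :
    M.map (MulAut.conj g).toMonoidHom = M := by
  ext y
  rw [mem_conj_map]
  constructor
  · intro h
    have : y = g * (g⁻¹ * y * g) * g⁻¹ := by group
    rw [this]; exact M.mul_mem (M.mul_mem hg h) (M.inv_mem hg)
  · intro h
    exact M.mul_mem (M.mul_mem (M.inv_mem hg) h) hg

theorem not_dvd_index_of_sylow_le {G : Type*} [Group G] [Finite G] {r : ℕ} [Fact r.Prime] (R : Sylow r G)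
    (M : Subgroup G) (h : (R : Subgroup G) ≤ M) : ¬ r ∣ M.index := by
  intro hd
  exact R.not_dvd_index (hd.trans (Subgroup.index_dvd_of_le h))

theorem exists_conj_of_not_dvd_index {G : Type*} [Group G] [Finite G] {r : ℕ} [Fact r.Prime] (R : Sylow r G)
    (M : Subgroup G) (h : ¬ r ∣ M.index) : ∃ g : G, (R : Subgroup G) ≤ M.map (MulAut.conj g).toMonoidHom := by
  obtain ⟨Q⟩ : Nonempty (Sylow r M) := inferInstance
  have hK : IsPGroup r ((Q : Subgroup M).map M.subtype) := Q.isPGroup'.map _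
  have hnd : ¬ r ∣ ((Q : Subgroup M).map M.subtype).index := by
    rw [Subgroup.index_map_subtype]
    intro hd
    rcases (Nat.Prime.dvd_mul Fact.out).1 hd with h1 | h1
    · exact Q.not_dvd_index h1
    · exact h h1
  let R' : Sylow r G := hK.toSylow hnd
  have hR' : (R' : Subgroup G) ≤ M := by
    intro x hx
    have hx' : x ∈ (Q : Subgroup M).map M.subtype := hx
    exact Subgroup.map_subtype_le _ hx'
  obtain ⟨g, hg⟩ := MulAction.exists_smul_eq G R' R
  refine ⟨g, ?_⟩
  intro x hx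
  have hx' : x ∈ g • R' := by rw [hg]; exact hx
  rw [mem_smul_sylow] at hx'
  rw [mem_conj_map]
  exact hR' hx'

theorem exists_mul_inv_mem_normalizer {G : Type*} [Group G] [Finite G] {r : ℕ} [Fact r.Prime] (R : Sylow r G)
    (M : Subgroup G) (hRM : (R : Subgroup G) ≤ M) (h : G)
    (hRh : (R : Subgroup G) ≤ M.map (MulAut.conj h).toMonoidHom) :
    ∃ m ∈ M, m * h⁻¹ ∈ Subgroup.normalizer ((R : Subgroup G) : Set G) := by
  have hR'M : ((h⁻¹ • R : Sylow r G) : Subgroup G) ≤ M := by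
    intro x hx
    have hx' : x ∈ h⁻¹ • R := hx
    rw [mem_smul_sylow] at hx'
    have h1 := hRh hx'
    rw [mem_conj_map] at h1
    have : h⁻¹ * (h⁻¹⁻¹ * x * h⁻¹) * h = x := by group
    rw [this] at h1
    exact h1
  obtain ⟨m, hm⟩ := MulAction.exists_smul_eq M ((h⁻¹ • R : Sylow r G).subtype hR'M) (R.subtype hRM)
  rw [Sylow.smul_subtype] at hm
  have hm' := Sylow.subtype_injective hm
  refine ⟨m, m.2, ?_⟩
  have h2 : ((m : G) * h⁻¹) • R = R := by rw [mul_smul]; exact hm'
  exact (Sylow.smul_eq_iff_mem_normalizer (g := (m : G) * h⁻¹) (P := R)).1 h2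


/-- Let G be a finite group with a normal non-abelian simple subgroup T whose centralizer is trivial (G almost simple with socle T), r a prime and R a Sylow r-subgroup of G meeting T nontrivially. Then R lies in exactly one maximal subgroup of G if and only if G has exactly one conjugacy class of maximal subgroups whose index is prime to r. -/
theorem result {G : Type*} [Group G] [Finite G] (T : Subgroup G) [T.Normal] (hT : IsSimpleGroup T) (hna : ¬ IsMulCommutative T)
    (hC : Subgroup.centralizer (T : Set G) = ⊥) {r : ℕ} [Fact r.Prime] (R : Sylow r G) (hR0 : (R : Subgroup G) ⊓ T ≠ ⊥) :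
    (∃! M : Subgroup G, IsCoatom M ∧ (R : Subgroup G) ≤ M) ↔
      ((∃ M : Subgroup G, IsCoatom M ∧ ¬ r ∣ M.index) ∧
        ∀ M₁ M₂ : Subgroup G, IsCoatom M₁ → ¬ r ∣ M₁.index → IsCoatom M₂ → ¬ r ∣ M₂.index → ∃ g : G, M₂ = M₁.map (MulAut.conj g).toMonoidHom) := by
  have hRnn : Subgroup.normalizer ((R : Subgroup G) : Set G) ≠ ⊤ := by
    intro htop
    have hn : (R : Subgroup G).Normal := Subgroup.normalizer_eq_top_iff.1 htop
    exact inf_not_normal T hT hna R hR0 inferInstance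
  constructor
  · rintro ⟨M, ⟨hMco, hRM⟩, hMuniq⟩
    refine ⟨⟨M, hMco, not_dvd_index_of_sylow_le R M hRM⟩, ?_⟩
    intro M₁ M₂ hM₁ hi₁ hM₂ hi₂
    obtain ⟨g₁, hg₁⟩ := exists_conj_of_not_dvd_index R M₁ hi₁
    obtain ⟨g₂, hg₂⟩ := exists_conj_of_not_dvd_index R M₂ hi₂
    have e₁ := hMuniq _ ⟨isCoatom_conj M₁ g₁ hM₁, hg₁⟩
    have e₂ := hMuniq _ ⟨isCoatom_conj M₂ g₂ hM₂, hg₂⟩
    refine ⟨g₂⁻¹ * g₁, ?_⟩
    ext y
    have h1 : g₂ * y * g₂⁻¹ ∈ M₂.map (MulAut.conj g₂).toMonoidHom ↔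
        g₂ * y * g₂⁻¹ ∈ M₁.map (MulAut.conj g₁).toMonoidHom := by rw [e₁, e₂]
    rw [mem_conj_map, mem_conj_map] at h1
    rw [mem_conj_map]
    have e3 : g₂⁻¹ * (g₂ * y * g₂⁻¹) * g₂ = y := by group
    have e4 : g₁⁻¹ * (g₂ * y * g₂⁻¹) * g₁ = (g₂⁻¹ * g₁)⁻¹ * y * (g₂⁻¹ * g₁) := by group
    rw [e3, e4] at h1
    exact h1
  · rintro ⟨⟨M₀, hM₀, hi₀⟩, hconj⟩
    obtain ⟨g₀, hg₀⟩ := exists_conj_of_not_dvd_index R M₀ hi₀
    set M := M₀.map (MulAut.conj g₀).toMonoidHom with hMdef
    have hMco : IsCoatom M := isCoatom_conj M₀ g₀ hM₀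
    have hMi : ¬ r ∣ M.index := not_dvd_index_of_sylow_le R M hg₀
    have key : ∀ M' : Subgroup G, IsCoatom M' → (R : Subgroup G) ≤ M' →
        ∃ h : G, M' = M.map (MulAut.conj h).toMonoidHom ∧ ∃ m ∈ M, m * h⁻¹ ∈ Subgroup.normalizer ((R : Subgroup G) : Set G) := by
      intro M' hM' hRM'
      obtain ⟨h, hh⟩ := hconj M M' hMco hMi hM' (not_dvd_index_of_sylow_le R M' hRM')
      refine ⟨h, hh, ?_⟩
      exact exists_mul_inv_mem_normalizer R M hg₀ h (hh ▸ hRM')
    have hNM : Subgroup.normalizer ((R : Subgroup G) : Set G) ≤ M := by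
      rcases eq_top_or_exists_le_coatom (Subgroup.normalizer ((R : Subgroup G) : Set G)) with h | ⟨M'', hM'', hle⟩
      · exact absurd h hRnn
      · obtain ⟨h, hh, m, hm, hn⟩ := key M'' hM'' (Subgroup.le_normalizer.trans hle)
        have h1 := hle hn
        rw [hh, mem_conj_map] at h1
        have h2 : h⁻¹ * (m * h⁻¹) * h = h⁻¹ * m := by group
        rw [h2] at h1
        have h3 : h ∈ M := by
          have : h = m * (h⁻¹ * m)⁻¹ := by group
          rw [this]
          exact M.mul_mem hm (M.inv_mem h1)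
        rw [hh, conj_eq_self M h h3] at hle
        exact hle
    refine ⟨M, ⟨hMco, hg₀⟩, ?_⟩
    rintro M' ⟨hM', hRM'⟩
    obtain ⟨h, hh, m, hm, hn⟩ := key M' hM' hRM'
    have h1 := hNM hn
    have h3 : h ∈ M := by
      have : h = (m * h⁻¹)⁻¹ * m := by group
      rw [this]
      exact M.mul_mem (M.inv_mem h1) hm
    rw [hh, conj_eq_self M h h3]

end Cfsg.Agent.S3858
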