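import Cfsg.Statements.S3859
import Mathlib

set_option autoImplicit false
open Cfsg

namespace Cfsg.Agent.S3859

open Pointwise in
theorem sylow_subgroupOf_normal {G : Type*} [Group G] [Finite G] {p : ℕ} [Fact p.Prime]
    (P : Sylow p G) (N : Subgroup G) [N.Normal] :
    ∃ Q : Sylow p N, (Q : Subgroup N) = (P : Subgroup G).subgroupOf N := by
  obtain ⟨Q0⟩ : Nonempty (Sylow p N) := inferInstance
  obtain ⟨P', hP'⟩ := Sylow.exists_comap_subtype_eq Q0
  obtain ⟨g, hg⟩ := MulAction.exists_smul_eq G P' P
  refine ⟨(MulAut.conjNormal g : MulAut N) • Q0, ?_⟩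
  ext x
  rw [Sylow.pointwise_smul_def, Subgroup.mem_pointwise_smul_iff_inv_smul_mem, Subgroup.mem_subgroupOf]
  rw [← hg, ← hP']
  rw [Sylow.smul_def, Sylow.pointwise_smul_def, Subgroup.mem_pointwise_smul_iff_inv_smul_mem]
  rw [Subgroup.mem_comap]
  simp [MulAut.smul_def, MulAut.conjNormal_symm_apply, MulAut.conj_symm_apply]

theorem not_isPGroup_of_simple {T : Type*} [Group T] [Finite T] (hT : IsSimpleGroup T)
    (hna : ¬ IsMulCommutative T) (r : ℕ) [Fact r.Prime] : ¬ IsPGroup r T := by
  intro hp
  have : Nontrivial T := hT.toNontrivial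
  have hcn := hp.center_nontrivial
  have hcen : Subgroup.center T = ⊤ := by
    rcases hT.eq_bot_or_eq_top_of_normal (Subgroup.center T) inferInstance with h | h
    · exfalso; exact (Subgroup.nontrivial_iff_ne_bot _).1 hcn h
    · exact h
  apply hna
  constructor; constructor
  intro a b
  have : a ∈ Subgroup.center T := by rw [hcen]; trivial
  exact (Subgroup.mem_center_iff.1 this b).symm

theorem le_normalizer_inf_normal {G : Type*} [Group G] (R T : Subgroup G) [T.Normal] :
    R ≤ Subgroup.normalizer ((R ⊓ T : Subgroup G) : Set G) := by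
  intro g hg
  rw [Subgroup.mem_normalizer_iff]
  intro h
  simp only [Subgroup.mem_inf]
  constructor
  · rintro ⟨h1, h2⟩
    exact ⟨mul_mem (mul_mem hg h1) (inv_mem hg), Subgroup.Normal.conj_mem inferInstance h h2 g⟩
  · rintro ⟨h1, h2⟩
    refine ⟨?_, ?_⟩
    · have : h = g⁻¹ * (g * h * g⁻¹) * g := by group
      rw [this]; exact mul_mem (mul_mem (inv_mem hg) h1) hg
    · have := Subgroup.Normal.conj_mem (inferInstance : T.Normal) _ h2 g⁻¹
      simpa [mul_assoc] using this


/-- Let G be a finite group with a normal non-abelian simple subgroup T whose centralizer is trivial (G almost simple with socle T), r a prime and R a Sylow r-subgroup of G meeting T nontrivially. If R lies in exactly one maximal subgroup of G, then G/T is an r-group. -/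
theorem result {G : Type*} [Group G] [Finite G] (T : Subgroup G) [T.Normal] (hT : IsSimpleGroup T) (hna : ¬ IsMulCommutative T)
    (hC : Subgroup.centralizer (T : Set G) = ⊥) {r : ℕ} [Fact r.Prime] (R : Sylow r G) (hR0 : (R : Subgroup G) ⊓ T ≠ ⊥)
    (huniq : ∃! M : Subgroup G, IsCoatom M ∧ (R : Subgroup G) ≤ M) : IsPGroup r (G ⧸ T) := by
  obtain ⟨M, ⟨hMco, hRM⟩, hMuniq⟩ := huniq
  have hTnp : ¬ IsPGroup r T := not_isPGroup_of_simple hT hna r
  have step1 : ∀ K : Subgroup G, (R : Subgroup G) ≤ K → K ≠ ⊤ → K ≤ M := by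
    intro K hRK hK
    rcases eq_top_or_exists_le_coatom K with h | ⟨M', hM', hKM'⟩
    · exact absurd h hK
    · have := hMuniq M' ⟨hM', hRK.trans hKM'⟩
      rw [← this]; exact hKM'
  have hsup : (R : Subgroup G) ⊔ T = ⊤ := by
    by_contra hne
    have hle := step1 _ le_sup_left hne
    have hTM : T ≤ M := le_sup_right.trans hle
    obtain ⟨Q, hQ⟩ := sylow_subgroupOf_normal R T
    have hfr := Sylow.normalizer_sup_eq_top Q
    have hmap : (Q : Subgroup T).map T.subtype = (R : Subgroup G) ⊓ T := by
      rw [hQ, Subgroup.subgroupOf_map_subtype]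
    rw [hmap] at hfr
    have hRN := le_normalizer_inf_normal (R : Subgroup G) T
    have hNne : Subgroup.normalizer (((R : Subgroup G) ⊓ T : Subgroup G) : Set G) ≠ ⊤ := by
      intro htop
      have hnorm : ((R : Subgroup G) ⊓ T).Normal := Subgroup.normalizer_eq_top_iff.1 htop
      have hQn : (Q : Subgroup T).Normal := by
        rw [hQ]
        have : (R : Subgroup G).subgroupOf T = ((R : Subgroup G) ⊓ T).subgroupOf T := by
          simp
        rw [this]
        exact hnorm.subgroupOf T
      rcases hT.eq_bot_or_eq_top_of_normal _ hQn with h | h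
      · apply hR0
        rw [← hmap, h, Subgroup.map_bot]
      · apply hTnp
        have := Q.isPGroup'
        rw [h] at this
        exact this.of_equiv Subgroup.topEquiv
    have := step1 _ hRN hNne
    have htop : (⊤ : Subgroup G) ≤ M := by rw [← hfr]; exact sup_le this hTM
    exact hMco.1 (top_le_iff.1 htop)
  have hmapR : (R : Subgroup G).map (QuotientGroup.mk' T) = ⊤ := by
    have h1 : ((R : Subgroup G) ⊔ T).map (QuotientGroup.mk' T) = ⊤ := by
      rw [hsup]; exact Subgroup.map_top_of_surjective _ (QuotientGroup.mk'_surjective T)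
    rw [Subgroup.map_sup] at h1
    have h2 : T.map (QuotientGroup.mk' T) = ⊥ := by
      rw [(Subgroup.map_eq_bot_iff T), QuotientGroup.ker_mk']
    rw [h2, sup_bot_eq] at h1
    exact h1
  have hp : IsPGroup r ((R : Subgroup G).map (QuotientGroup.mk' T)) := R.isPGroup'.map _
  rw [hmapR] at hp
  exact hp.of_equiv Subgroup.topEquiv

end Cfsg.Agent.S3859
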