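import Cfsg.Statements.S3863
import Mathlib

set_option autoImplicit false
open Cfsg

namespace Cfsg.Agent.S3863

theorem exists_two_elt {G : Type*} [Group G] [Finite G] (x : G) (hx : IsConj x x⁻¹) :
    ∃ t : G, (∃ j : ℕ, orderOf t = 2 ^ j) ∧ t * x * t⁻¹ = x⁻¹ := by
  obtain ⟨g, hg⟩ := isConj_iff.1 hx
  obtain ⟨k, m, hm, hn⟩ := Nat.exists_eq_two_pow_mul_odd (orderOf_pos g).ne'
  obtain ⟨c, rfl⟩ := hm
  have h1 : g * x = x⁻¹ * g := by rw [← hg]; group
  have h2 : g * x⁻¹ = x * g := by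
    have : g * x⁻¹ * g⁻¹ = x := by
      have : g * x⁻¹ * g⁻¹ = (g * x * g⁻¹)⁻¹ := by group
      rw [this, hg, inv_inv]
    calc g * x⁻¹ = (g * x⁻¹ * g⁻¹) * g := by group
      _ = x * g := by rw [this]
  have hcomm : Commute (g ^ 2) x := by
    show g ^ 2 * x = x * g ^ 2
    rw [pow_two, mul_assoc, h1, ← mul_assoc, h2, mul_assoc]
  have hcomm' : Commute ((g ^ 2) ^ c) x := hcomm.pow_left c
  refine ⟨g ^ (2 * c + 1), ?_, ?_⟩
  · have : (g ^ (2 * c + 1)) ^ (2 ^ k) = 1 := by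
      rw [← pow_mul, mul_comm, ← hn, pow_orderOf_eq_one]
    obtain ⟨j, -, hj⟩ := (Nat.dvd_prime_pow Nat.prime_two).1 (orderOf_dvd_of_pow_eq_one this)
    exact ⟨j, hj⟩
  · have e : g ^ (2 * c + 1) = (g ^ 2) ^ c * g := by rw [pow_succ, pow_mul]
    rw [e]
    have : (g ^ 2) ^ c * g * x * ((g ^ 2) ^ c * g)⁻¹ = (g ^ 2) ^ c * (g * x * g⁻¹) * ((g ^ 2) ^ c)⁻¹ := by group
    rw [this, hg]
    have h3 : (g ^ 2) ^ c * x⁻¹ = x⁻¹ * (g ^ 2) ^ c := (hcomm'.inv_right).eq
    rw [h3]; group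

theorem odd_card_inv_fixed {G : Type*} [Group G] [DecidableEq G] (S : Finset G) (hinv : ∀ y ∈ S, y⁻¹ ∈ S)
    (hodd : Odd S.card) : ∃ y ∈ S, y⁻¹ = y := by
  by_contra h
  push Not at h
  have hsum : (∑ _y ∈ S, (1 : ZMod 2)) = 0 :=
    Finset.sum_involution (fun a _ => a⁻¹) (fun _ _ => by decide) (fun a ha _ => h a ha)
      (fun a ha => hinv a ha) (fun a _ => inv_inv a)
  simp only [Finset.sum_const, nsmul_eq_mul, mul_one] at hsum
  have : Even S.card := (ZMod.natCast_eq_zero_iff_even).1 hsum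
  exact (Nat.not_even_iff_odd.2 hodd) this

theorem two_elt_mem_of_odd_index {G : Type*} [Group G] [Finite G] (N : Subgroup G) [N.Normal]
    (hN : Odd N.index) (t : G) (j : ℕ) (ht : t ^ (2 ^ j) = 1) : t ∈ N := by
  rw [← QuotientGroup.eq_one_iff]
  have h1 : orderOf (t : G ⧸ N) ∣ 2 ^ j := by
    apply orderOf_dvd_of_pow_eq_one
    rw [← QuotientGroup.mk_pow, ht]; rfl
  have h2 : orderOf (t : G ⧸ N) ∣ N.index := by
    rw [Subgroup.index_eq_card]; exact orderOf_dvd_natCard _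
  have h3 : (2 ^ j).Coprime N.index := (Nat.Coprime.pow_left j (Nat.coprime_two_left.2 hN))
  have h4 : orderOf (t : G ⧸ N) = 1 := Nat.eq_one_of_dvd_coprimes h3 h1 h2
  exact orderOf_eq_one_iff.1 h4


/-- Let x be an element of the finite group G that is conjugate to its inverse. Then some 2-element conjugates x to its inverse; if the conjugacy class of x has odd size then x ^ 2 = 1; and x lies in, and is conjugate to its inverse inside, every normal subgroup of odd index. -/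
theorem result {G : Type*} [Group G] [Finite G] (x : G) (hx : IsConj x x⁻¹) : (∃ t : G, (∃ j : ℕ, orderOf t = 2 ^ j) ∧ t * x * t⁻¹ = x⁻¹) ∧ (Odd (Subgroup.centralizer ({x} : Set G)).index → x ^ 2 = 1) ∧ ∀ (N : Subgroup G) [N.Normal], Odd N.index → ∃ hxN : x ∈ N, IsConj (⟨x, hxN⟩ : N) (⟨x, hxN⟩ : N)⁻¹ := by
  classical
  obtain ⟨t, ⟨j, hj⟩, ht⟩ := exists_two_elt x hx
  refine ⟨⟨t, ⟨j, hj⟩, ht⟩, ?_, ?_⟩
  · intro hodd
    have hidx : (Subgroup.centralizer ({x} : Set G)).index = (MulAction.orbit (ConjAct G) x).ncard := by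
      rw [← MulAction.index_stabilizer, Subgroup.centralizer_eq_comap_stabilizer]
      exact Subgroup.index_comap_of_surjective _ (ConjAct.toConjAct (G := G)).surjective
    rw [hidx] at hodd
    have hfin : (MulAction.orbit (ConjAct G) x).Finite := Set.toFinite _
    rw [Set.ncard_eq_toFinset_card _ hfin] at hodd
    obtain ⟨y, hy, hyy⟩ := odd_card_inv_fixed hfin.toFinset (by
      intro y hy
      rw [Set.Finite.mem_toFinset, ConjAct.mem_orbit_conjAct] at hy ⊢
      have h1 : IsConj y⁻¹ x⁻¹ := by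
        obtain ⟨c, hc⟩ := isConj_iff.1 hy
        exact isConj_iff.2 ⟨c, by rw [← hc]; group⟩
      exact h1.trans hx.symm) hodd
    rw [Set.Finite.mem_toFinset, ConjAct.mem_orbit_conjAct] at hy
    obtain ⟨c, hc⟩ := isConj_iff.1 hy
    have hy2 : y ^ 2 = 1 := by
      rw [pow_two]
      nth_rewrite 1 [← hyy]
      exact inv_mul_cancel y
    have : x ^ 2 = c * y ^ 2 * c⁻¹ := by
      rw [← hc, conj_pow]
    rw [this, hy2]; group
  · intro N _ hN
    have htN : t ∈ N := two_elt_mem_of_odd_index N hN t j (by rw [← hj, pow_orderOf_eq_one])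
    have hx2 : x ^ 2 ∈ N := by
      have h1 : (x ^ 2)⁻¹ = t * (x * t⁻¹ * x⁻¹) := by
        have : t * (x * t⁻¹ * x⁻¹) = (t * x * t⁻¹) * x⁻¹ := by group
        rw [this, ht]; group
      have h2 : x * t⁻¹ * x⁻¹ ∈ N := Subgroup.Normal.conj_mem inferInstance _ (N.inv_mem htN) x
      have h3 : (x ^ 2)⁻¹ ∈ N := by rw [h1]; exact N.mul_mem htN h2
      exact (N.inv_mem_iff).1 h3
    have hxN : x ∈ N := by
      rw [← QuotientGroup.eq_one_iff]
      have h1 : orderOf (x : G ⧸ N) ∣ 2 := by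
        apply orderOf_dvd_of_pow_eq_one
        rw [← QuotientGroup.mk_pow]
        exact (QuotientGroup.eq_one_iff _).2 hx2
      have h2 : orderOf (x : G ⧸ N) ∣ N.index := by
        rw [Subgroup.index_eq_card]; exact orderOf_dvd_natCard _
      have h3 : (2 : ℕ).Coprime N.index := Nat.coprime_two_left.2 hN
      have h4 : orderOf (x : G ⧸ N) = 1 := Nat.eq_one_of_dvd_coprimes h3 h1 h2
      exact orderOf_eq_one_iff.1 h4
    refine ⟨hxN, ?_⟩
    rw [isConj_iff]
    refine ⟨⟨t, htN⟩, ?_⟩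
    apply Subtype.ext
    simpa using ht

end Cfsg.Agent.S3863
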