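import Cfsg.Statements.S3861
import Mathlib
import Cfsg.Agent.Lib.helper20.TwoClosed
import Cfsg.Agent.S3863

set_option autoImplicit false
open Cfsg

namespace Cfsg.Agent.S3861

theorem conj_pow_iter {G : Type*} [Group G] (s h : G) (m : ℕ) (hs : s * h * s⁻¹ = h ^ m) (j : ℕ) :
    s ^ j * h * (s ^ j)⁻¹ = h ^ (m ^ j) := by
  induction j with
  | zero => simp
  | succ j ih =>
    have h1 : s ^ (j + 1) * h * (s ^ (j + 1))⁻¹ = s * (s ^ j * h * (s ^ j)⁻¹) * s⁻¹ := by
      rw [pow_succ']; group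
    rw [h1, ih]
    have h2 : s * h ^ (m ^ j) * s⁻¹ = (s * h * s⁻¹) ^ (m ^ j) := by
      rw [conj_pow]
    rw [h2, hs, ← pow_mul, pow_succ, mul_comm]

theorem real_of_core {G : Type*} [Group G] [Finite G] (q : ℕ) (h s : G) (hq : q.Prime) (hq2 : q ≠ 2)
    (hh : orderOf h = q) (hs : s ∈ Subgroup.normalizer ((Subgroup.zpowers h : Subgroup G) : Set G))
    (hk : ∀ k : ℕ, Odd k → s ^ k * h ≠ h * s ^ k) : IsConj h h⁻¹ := by
  have : Fact q.Prime := ⟨hq⟩
  have h1 : s * h * s⁻¹ ∈ Subgroup.zpowers h :=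
    (Subgroup.mem_normalizer_iff.mp hs h).mp (Subgroup.mem_zpowers h)
  obtain ⟨m, hm⟩ := (mem_powers_iff_mem_zpowers).mpr h1
  have hm' : s * h * s⁻¹ = h ^ m := hm.symm
  have hiter := conj_pow_iter s h m hm'
  have hpow : ∀ a b : ℕ, (a : ZMod q) = (b : ZMod q) → h ^ a = h ^ b := by
    intro a b hab
    rw [pow_eq_pow_iff_modEq, hh]
    exact (ZMod.natCast_eq_natCast_iff a b q).mp hab
  set u : ZMod q := (m : ZMod q) with hu
  have hu0 : u ≠ 0 := by
    intro h0
    have h2 : h ^ m = h ^ 0 := hpow m 0 (by rw [← hu, h0]; simp)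
    rw [pow_zero, ← hm'] at h2
    have h3 : h = 1 := by
      have : h = s⁻¹ * (s * h * s⁻¹) * s := by group
      rw [this, h2]; group
    rw [h3, orderOf_one] at hh
    exact hq.one_lt.ne hh
  have hfin : IsOfFinOrder u := by
    have hunit : IsUnit u := isUnit_iff_ne_zero.mpr hu0
    obtain ⟨v, hv⟩ := hunit
    rw [← hv]
    exact MonoidHom.isOfFinOrder (Units.coeHom (ZMod q)) (isOfFinOrder_of_finite v)
  set d := orderOf u with hd
  have hdpos : 0 < d := hfin.orderOf_pos
  have hud : u ^ d = 1 := pow_orderOf_eq_one u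
  have hdeven : Even d := by
    by_contra hodd
    rw [Nat.not_even_iff_odd] at hodd
    apply hk d hodd
    have h2 := hiter d
    have h3 : h ^ (m ^ d) = h ^ 1 := hpow _ _ (by push_cast; rw [← hu, hud])
    rw [h3, pow_one] at h2
    calc s ^ d * h = (s ^ d * h * (s ^ d)⁻¹) * s ^ d := by group
      _ = h * s ^ d := by rw [h2]
  obtain ⟨e, he⟩ := hdeven
  have hepos : 0 < e := by omega
  have hlt : e < d := by omega
  have hw1 : u ^ e ≠ 1 := pow_ne_one_of_lt_orderOf hepos.ne' hlt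
  have hw2 : u ^ e * u ^ e = 1 := by rw [← pow_add, ← he, hud]
  have hw : u ^ e = -1 := (mul_self_eq_one_iff.mp hw2).resolve_left hw1
  rw [isConj_iff]
  refine ⟨s ^ e, ?_⟩
  rw [hiter e]
  have h4 : h ^ (m ^ e + 1) = h ^ 0 := hpow _ _ (by push_cast; rw [← hu, hw]; ring)
  rw [pow_zero, pow_succ] at h4
  exact eq_inv_of_mul_eq_one_left h4

/-- A finite group G has no non-identity element of odd order that is conjugate to its inverse if and only if the Sylow 2-subgroups of G are normal. -/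
theorem result {G : Type*} [Group G] [Finite G] (P : Sylow 2 G) : (∀ x : G, x ≠ 1 → Odd (orderOf x) → ¬ IsConj x x⁻¹) ↔ (P : Subgroup G).Normal := by
  constructor
  · intro hall
    by_contra hP
    obtain ⟨q, h, s, hq, hq2, hh, hs, hk⟩ := Cfsg.Agent.Lib.helper20.not_normal_sylow_two_core P hP
    have hreal := real_of_core q h s hq hq2 hh hs hk
    have hne : h ≠ 1 := by
      intro h1; rw [h1, orderOf_one] at hh; exact hq.one_lt.ne hh
    have hodd : Odd (orderOf h) := by
      rw [hh]; exact hq.odd_of_ne_two hq2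
    exact hall h hne hodd hreal
  · intro hPn x hx1 hodd hconj
    obtain ⟨t, ⟨j, hj⟩, ht⟩ := Cfsg.Agent.S3863.exists_two_elt x hconj
    have htP : t ∈ (P : Subgroup G) := by
      have hp2 : IsPGroup 2 (Subgroup.zpowers t) := by
        apply IsPGroup.of_card (n := j)
        rw [Nat.card_zpowers, hj]
      obtain ⟨Q, hQ⟩ := hp2.exists_le_sylow
      have := Sylow.unique_of_normal P hPn
      have hQP : Q = P := Subsingleton.elim _ _
      rw [hQP] at hQ
      exact hQ (Subgroup.mem_zpowers t)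
    have h1 : x * t * x⁻¹ * t⁻¹ ∈ (P : Subgroup G) :=
      Subgroup.mul_mem _ (hPn.conj_mem t htP x) (Subgroup.inv_mem _ htP)
    have h2 : x * t * x⁻¹ * t⁻¹ = x ^ 2 := by
      have h3 : t * x⁻¹ * t⁻¹ = x := by
        have : t * x⁻¹ * t⁻¹ = (t * x * t⁻¹)⁻¹ := by group
        rw [this, ht, inv_inv]
      calc x * t * x⁻¹ * t⁻¹ = x * (t * x⁻¹ * t⁻¹) := by group
        _ = x ^ 2 := by rw [h3, pow_two]
    rw [h2] at h1
    obtain ⟨k, hk⟩ := P.isPGroup' ⟨x ^ 2, h1⟩
    have h4 : (x ^ 2) ^ (2 ^ k) = 1 := by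
      have := congrArg Subtype.val hk
      simpa using this
    have h5 : orderOf x ∣ 2 ^ (k + 1) := by
      apply orderOf_dvd_of_pow_eq_one
      rw [pow_succ', pow_mul, h4]
    have h6 : (orderOf x).Coprime (2 ^ (k + 1)) := Nat.Coprime.pow_right _ (Nat.Coprime.symm (Nat.coprime_two_left.mpr hodd))
    have h7 : orderOf x = 1 := Nat.Coprime.eq_one_of_dvd h6 h5
    exact hx1 (orderOf_eq_one_iff.mp h7)

end Cfsg.Agent.S3861
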