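import Cfsg.Statements.S3862
import Mathlib
import Cfsg.Agent.S0071

set_option autoImplicit false
open Cfsg

namespace Cfsg.Agent.S3862

theorem conj_iter {G : Type*} [Group G] (g x u : G) (hu : u ∈ Subgroup.center G) (h : g * x * g⁻¹ = x * u)
    (k : ℕ) : g ^ k * x * (g ^ k)⁻¹ = x * u ^ k := by
  induction k with
  | zero => simp
  | succ k ih =>
    have h1 : g ^ (k + 1) * x * (g ^ (k + 1))⁻¹ = g * (g ^ k * x * (g ^ k)⁻¹) * g⁻¹ := by
      rw [pow_succ']; group
    rw [h1, ih]
    have h2 : g * (x * u ^ k) * g⁻¹ = (g * x * g⁻¹) * (g * u ^ k * g⁻¹) := by group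
    have h3 : g * u ^ k * g⁻¹ = u ^ k := by
      have := Subgroup.mem_center_iff.mp (Subgroup.pow_mem _ hu k) g
      rw [this]; group
    rw [h2, h, h3, mul_assoc, ← pow_succ']

theorem central_of_odd {G : Type*} [Group G] [Finite G]
    (h : ∀ x : G, (∃ j : ℕ, orderOf x = 2 ^ j) → IsConj x x⁻¹ → x ∈ Subgroup.center G)
    (Q : Subgroup G) (hQ : IsPGroup 2 Q) (g : G) (hg : g ∈ Subgroup.normalizer (Q : Set G))
    (hodd : Nat.Coprime (orderOf g) 2) : ∀ n : ℕ, ∀ x ∈ Q, orderOf x = n → g * x * g⁻¹ = x := by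
  have hord : ∀ x ∈ Q, ∃ j : ℕ, orderOf x = 2 ^ j := by
    intro x hx
    obtain ⟨k, hk⟩ := hQ ⟨x, hx⟩
    have h1 : x ^ (2 ^ k) = 1 := by
      have := congrArg Subtype.val hk
      simpa using this
    obtain ⟨j, -, hj⟩ := (Nat.dvd_prime_pow Nat.prime_two).mp (orderOf_dvd_of_pow_eq_one h1)
    exact ⟨j, hj⟩
  intro n
  induction n using Nat.strong_induction_on with
  | _ n ih =>
    intro x hx hn
    obtain ⟨j, hj⟩ := hord x hx
    rcases Nat.eq_zero_or_pos j with h0 | hpos
    · rw [h0, pow_zero, orderOf_eq_one_iff] at hj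
      rw [hj]; group
    · have hx2 : x ^ 2 ∈ Q := Q.pow_mem hx 2
      have h2dvd : 2 ∣ orderOf x := by rw [hj]; exact dvd_pow_self 2 hpos.ne'
      have hlt : orderOf (x ^ 2) < n := by
        rw [orderOf_pow_of_dvd (by norm_num) h2dvd, ← hn]
        exact Nat.div_lt_self (orderOf_pos x) (by norm_num)
      have hsq := ih _ hlt (x ^ 2) hx2 rfl
      set y := g * x * g⁻¹ with hy
      have hyQ : y ∈ Q := (Subgroup.mem_normalizer_iff.mp hg x).mp hx
      have hyy : y * y = x * x := by
        have : y * y = g * x ^ 2 * g⁻¹ := by rw [hy, pow_two]; group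
        rw [this, hsq, pow_two]
      set u := x⁻¹ * y with hu
      have huQ : u ∈ Q := Q.mul_mem (Q.inv_mem hx) hyQ
      have hreal : IsConj u u⁻¹ := by
        rw [isConj_iff]
        refine ⟨x, ?_⟩
        have h1 : x * u * x⁻¹ = y * x⁻¹ := by rw [hu]; group
        have h2 : u⁻¹ = y⁻¹ * x := by rw [hu]; group
        rw [h1, h2]
        calc y * x⁻¹ = y⁻¹ * (y * y) * x⁻¹ := by group
          _ = y⁻¹ * (x * x) * x⁻¹ := by rw [hyy]
          _ = y⁻¹ * x := by group
      have hucen : u ∈ Subgroup.center G := h u (hord u huQ) hreal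
      have hyxu : y = x * u := by rw [hu]; group
      have hiter := conj_iter g x u hucen hyxu (orderOf g)
      rw [pow_orderOf_eq_one] at hiter
      have hu1 : u ^ orderOf g = 1 := by
        have : x = x * u ^ orderOf g := by simpa using hiter
        exact (mul_eq_left.mp this.symm)
      obtain ⟨i, hi⟩ := hord u huQ
      have hdvd : orderOf u ∣ orderOf g := orderOf_dvd_of_pow_eq_one hu1
      have hcop : (orderOf u).Coprime (orderOf g) := by
        rw [hi]; exact Nat.Coprime.pow_left _ hodd.symm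
      have hu_one : orderOf u = 1 := Nat.Coprime.eq_one_of_dvd hcop hdvd
      rw [orderOf_eq_one_iff] at hu_one
      rw [hyxu, hu_one, mul_one]

/-- If every 2-element of the finite group G that is conjugate to its inverse lies in the centre of G, then G has a normal 2-complement. -/
theorem result {G : Type*} [Group G] [Finite G] (h : ∀ x : G, (∃ j : ℕ, orderOf x = 2 ^ j) → IsConj x x⁻¹ → x ∈ Subgroup.center G) : Cfsg.HasNormalPComplement 2 G := by
  obtain ⟨P⟩ : Nonempty (Sylow 2 G) := inferInstance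
  have hfrob : ∀ Q : Subgroup G, Q ≤ (P : Subgroup G) → ∀ g ∈ Subgroup.normalizer (Q : Set G),
      Nat.Coprime (orderOf g) 2 → g ∈ Subgroup.centralizer (Q : Set G) := by
    intro Q hQP g hg hodd
    rw [Subgroup.mem_centralizer_iff]
    intro x hx
    have h1 := central_of_odd h Q (P.isPGroup'.to_le hQP) g hg hodd _ x hx rfl
    calc x * g = (g * x * g⁻¹) * g := by rw [h1]
      _ = g * x := by group
  obtain ⟨N, hN, hc⟩ := (Cfsg.Agent.S0071.result P).mpr hfrob
  exact ⟨P, N, hN, hc⟩

end Cfsg.Agent.S3862
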