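import Cfsg.Statements.S3864
import Cfsg.Agent.Lib.helper7.DihFus2

set_option autoImplicit false
open Cfsg

namespace Cfsg.Agent.S3864

open Subgroup Cfsg.Agent.Lib.helper7 Cfsg.Agent.Lib.helper8

theorem ncard3 {α : Type*} (a b c : α) :
    (a = b → b = c → ({a, b, c} : Set α).ncard = 1) ∧
    (a = b → a ≠ c → ({a, b, c} : Set α).ncard = 2) ∧
    (a = c → a ≠ b → ({a, b, c} : Set α).ncard = 2) ∧
    (a ≠ b → a ≠ c → b ≠ c → ({a, b, c} : Set α).ncard = 3) := by
  refine ⟨?_, ?_, ?_, ?_⟩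
  · rintro rfl rfl; simp
  · rintro rfl h; simp [Set.ncard_pair h]
  · rintro rfl h
    have : ({a, b, a} : Set α) = {a, b} := by ext x; simp; tauto
    rw [this, Set.ncard_pair h]
  · intro h1 h2 h3
    rw [Set.ncard_insert_of_notMem, Set.ncard_pair h3]
    simp [h1, h2]

theorem conj_sq_one {G : Type*} [Group G] (g u : G) (h : u * u = 1) :
    (g * u * g⁻¹) * (g * u * g⁻¹) = 1 := by
  calc (g * u * g⁻¹) * (g * u * g⁻¹) = g * (u * u) * g⁻¹ := by group
    _ = 1 := by rw [h]; group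

theorem conj_ne_one {G : Type*} [Group G] (g u : G) (h : u ≠ 1) : g * u * g⁻¹ ≠ 1 := by
  intro h0
  apply h
  have : u = g⁻¹ * (g * u * g⁻¹) * g := by group
  rw [this, h0]; group

theorem conj_conj {G : Type*} [Group G] (c g u : G) :
    c * g * u * (c * g)⁻¹ = c * (g * u * g⁻¹) * c⁻¹ := by group

theorem conj_inv_of {G : Type*} [Group G] (g u w : G) (h : g * u * g⁻¹ = w) :
    g⁻¹ * w * g⁻¹⁻¹ = u := by rw [← h]; group

/-- Let G be a finite group whose Sylow 2-subgroups are dihedral of order 2 ^ n with n ≥ 3, and count the conjugacy classes of involutions of G. Then exactly one of the following holds: there is one class of involutions and no normal subgroup of index 2; there are two classes of involutions, a normal subgroup of index 2 and none of index 4; there are three classes of involutions and G has a normal 2-complement. -/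
theorem result {G : Type*} [Group G] [Finite G] (P : Sylow 2 G) (n : ℕ) (hn : 3 ≤ n) (hdih : Nonempty (↥(P : Subgroup G) ≃* DihedralGroup (2 ^ (n - 1)))) : (Nat.card {C : ConjClasses G // ∃ g : G, ConjClasses.mk g = C ∧ orderOf g = 2} = 1 ∧ ∀ N : Subgroup G, N.Normal → N.index ≠ 2) ∨ (Nat.card {C : ConjClasses G // ∃ g : G, ConjClasses.mk g = C ∧ orderOf g = 2} = 2 ∧ (∃ N : Subgroup G, N.Normal ∧ N.index = 2) ∧ ∀ N : Subgroup G, N.Normal → N.index ≠ 4) ∨ (Nat.card {C : ConjClasses G // ∃ g : G, ConjClasses.mk g = C ∧ orderOf g = 2} = 3 ∧ Cfsg.HasNormalPComplement 2 G) := by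
  classical
  haveI : Fact (Nat.Prime 2) := ⟨Nat.prime_two⟩
  obtain ⟨eP⟩ := hdih
  have hm4 : 4 ≤ 2 ^ (n - 1) := by
    obtain ⟨k, rfl⟩ : ∃ k, n = k + 3 := ⟨n - 3, by omega⟩
    have : k + 3 - 1 = k + 2 := by omega
    rw [this, pow_add]
    have := Nat.one_le_two_pow (n := k)
    omega
  obtain ⟨ρ, σ, j, hD, hmj, hcard, hrel, hje⟩ := dih_data2 P (2 ^ (n - 1)) (by omega) eP
  have hjeven := hje hm4
  have hzo : orderOf (ρ ^ j) = 2 := (invol_iff _).mpr ⟨hD.zz, hD.z_ne⟩
  have hσo : orderOf σ = 2 := (invol_iff _).mpr ⟨hD.σσ, hD.σ_ne⟩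
  have hτo : orderOf (ρ * σ) = 2 := (invol_iff _).mpr ⟨hD.ττ, hD.τ_ne⟩
  have hset : {C : ConjClasses G | ∃ g : G, ConjClasses.mk g = C ∧ orderOf g = 2} =
      {ConjClasses.mk (ρ ^ j), ConjClasses.mk σ, ConjClasses.mk (ρ * σ)} := by
    ext C
    simp only [Set.mem_setOf_eq, Set.mem_insert_iff, Set.mem_singleton_iff]
    constructor
    · rintro ⟨g, rfl, hg⟩
      obtain ⟨c, hc⟩ := hD.invol_class g hg
      have hconj : IsConj g (c * g * c⁻¹) := isConj_iff.mpr ⟨c, rfl⟩
      rcases hc with hc | hc | hc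
      · left; rw [← hc]; exact ConjClasses.mk_eq_mk_iff_isConj.mpr hconj
      · right; left; rw [← hc]; exact ConjClasses.mk_eq_mk_iff_isConj.mpr hconj
      · right; right; rw [← hc]; exact ConjClasses.mk_eq_mk_iff_isConj.mpr hconj
    · rintro (rfl | rfl | rfl)
      · exact ⟨_, rfl, hzo⟩
      · exact ⟨_, rfl, hσo⟩
      · exact ⟨_, rfl, hτo⟩
  have hcardC : Nat.card {C : ConjClasses G // ∃ g : G, ConjClasses.mk g = C ∧ orderOf g = 2} =
      ({ConjClasses.mk (ρ ^ j), ConjClasses.mk σ, ConjClasses.mk (ρ * σ)} :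
        Set (ConjClasses G)).ncard := by
    rw [← hset]
    exact Nat.card_coe_set_eq _
  rw [hcardC]
  obtain ⟨hn1, hn2, hn3, hn4⟩ :=
    ncard3 (ConjClasses.mk (ρ ^ j)) (ConjClasses.mk σ) (ConjClasses.mk (ρ * σ))
  have hmk : ∀ a b : G, ConjClasses.mk a = ConjClasses.mk b ↔ ∃ c : G, c * a * c⁻¹ = b := by
    intro a b; rw [ConjClasses.mk_eq_mk_iff_isConj, isConj_iff]
  have htransfer : ∀ u ∈ (P : Subgroup G), u ∉ zpowers ρ → orderOf u = 2 →
      (∃ N : Subgroup G, N.Normal ∧ N.index = 2) ∨ ∃ g : G, g * u * g⁻¹ = ρ ^ j := by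
    intro u huP huQ huo
    rcases Cfsg.Agent.S0111.result P (zpowers ρ) hD.hQS hrel u huo huP huQ with
      ⟨M, hM, hMi, -⟩ | ⟨g, hg⟩
    · exact Or.inl ⟨M, hM, hMi⟩
    · right
      have hu' := (invol_iff u).mp huo
      exact ⟨g, hD.uniq _ hg (conj_sq_one g u hu'.1) (conj_ne_one g u hu'.2)⟩
  have hno4 : ((∃ c : G, c * ρ ^ j * c⁻¹ = σ) ∨ (∃ c : G, c * ρ ^ j * c⁻¹ = ρ * σ)) →
      ∀ N : Subgroup G, N.Normal → N.index ≠ 4 := by
    intro hc N hN hidx
    obtain ⟨hzN, hσN, hτN⟩ := hD.idx4 hjeven hcard N hidx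
    rcases hc with ⟨c, hc⟩ | ⟨c, hc⟩
    · exact hσN (hc ▸ hN.conj_mem _ hzN c)
    · exact hτN (hc ▸ hN.conj_mem _ hzN c)
  by_cases c1 : ∃ c : G, c * ρ ^ j * c⁻¹ = σ
  · by_cases c2 : ∃ c : G, c * ρ ^ j * c⁻¹ = ρ * σ
    · left
      have e1 : ConjClasses.mk (ρ ^ j) = ConjClasses.mk σ := (hmk _ _).mpr c1
      have e2 : ConjClasses.mk (ρ ^ j) = ConjClasses.mk (ρ * σ) := (hmk _ _).mpr c2
      refine ⟨hn1 e1 (e1.symm.trans e2), ?_⟩
      have hall : ∀ a b : G, orderOf a = 2 → orderOf b = 2 → IsConj a b := by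
        have key : ∀ a : G, orderOf a = 2 → ConjClasses.mk a = ConjClasses.mk (ρ ^ j) := by
          intro a ha
          have hmem : ConjClasses.mk a ∈
              {C : ConjClasses G | ∃ g : G, ConjClasses.mk g = C ∧ orderOf g = 2} :=
            ⟨a, rfl, ha⟩
          rw [hset] at hmem
          rcases hmem with h | h | h
          · exact h
          · rw [h, e1]
          · rw [h, e2]
        intro a b ha hb
        exact ConjClasses.mk_eq_mk_iff_isConj.mp ((key a ha).trans (key b hb).symm)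
      intro N _
      exact ((Cfsg.Agent.S1255.result P (2 ^ (n - 1)) (by omega) eP).mpr (Or.inl hall)).1 N
    · right; left
      have e1 : ConjClasses.mk (ρ ^ j) = ConjClasses.mk σ := (hmk _ _).mpr c1
      have e2 : ConjClasses.mk (ρ ^ j) ≠ ConjClasses.mk (ρ * σ) := fun h => c2 ((hmk _ _).mp h)
      refine ⟨hn2 e1 e2, ?_, hno4 (Or.inl c1)⟩
      rcases htransfer (ρ * σ) hD.τS hD.τQ hτo with h | ⟨g, hg⟩
      · exact h
      · exfalso; apply c2
        exact ⟨g⁻¹, conj_inv_of g _ _ hg⟩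
  · by_cases c2 : ∃ c : G, c * ρ ^ j * c⁻¹ = ρ * σ
    · right; left
      have e1 : ConjClasses.mk (ρ ^ j) ≠ ConjClasses.mk σ := fun h => c1 ((hmk _ _).mp h)
      have e2 : ConjClasses.mk (ρ ^ j) = ConjClasses.mk (ρ * σ) := (hmk _ _).mpr c2
      refine ⟨hn3 e2 e1, ?_, hno4 (Or.inr c2)⟩
      rcases htransfer σ hD.hσ hD.hσQ hσo with h | ⟨g, hg⟩
      · exact h
      · exfalso; apply c1
        exact ⟨g⁻¹, conj_inv_of g _ _ hg⟩
    · right; right
      have hcompl : Cfsg.HasNormalPComplement 2 G := by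
        rw [Cfsg.Agent.S1254.result P (2 ^ (n - 1)) (by omega) eP]
        intro U hU hK
        apply hD.four_normalizer_decomp hjeven U hU hK
        intro g hg
        obtain ⟨u, huS, huQ, huu, hUm⟩ := hD.four U hU hK
        have hzU : ρ ^ j ∈ U := (hUm _).mpr (Or.inr (Or.inl rfl))
        have hgz : g * ρ ^ j * g⁻¹ ∈ U := (mem_normalizer_iff.mp hg _).mp hzU
        by_contra hne
        have hnQ : g * ρ ^ j * g⁻¹ ∉ zpowers ρ := by
          intro hq
          exact hne (hD.uniq _ hq (conj_sq_one g _ hD.zz) (conj_ne_one g _ hD.z_ne))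
        obtain ⟨c, hcS, hc⟩ := hD.conj_class _ (hU hgz) hnQ
        rcases hc with hc | hc
        · apply c1; exact ⟨c * g, by rw [conj_conj, hc]⟩
        · apply c2; exact ⟨c * g, by rw [conj_conj, hc]⟩
      refine ⟨hn4 ?_ ?_ ?_, hcompl⟩
      · exact fun h => c1 ((hmk _ _).mp h)
      · exact fun h => c2 ((hmk _ _).mp h)
      · intro h
        obtain ⟨g, hg⟩ := (hmk _ _).mp h
        obtain ⟨N, hN, hdisj, hprod⟩ := complement_sylow hcompl P
        obtain ⟨s, hs, hs'⟩ := fusion_of_complement (P : Subgroup G) N hdisj hprod σ (ρ * σ)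
          hD.hσ hD.τS g hg
        exact hD.not_conj s hs hs'

end Cfsg.Agent.S3864
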