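import Cfsg.Statements.S3866
import Mathlib

set_option autoImplicit false
open Cfsg

namespace Cfsg.Agent.S3866

theorem comm_of_mem {G : Type*} [Group G] (A : Subgroup G) (hA : IsMulCommutative A) :
    ∀ a ∈ A, ∀ b ∈ A, a * b = b * a := by
  intro a ha b hb
  have := mul_comm' (⟨a, ha⟩ : A) ⟨b, hb⟩
  exact congrArg Subtype.val this

theorem comm_mem {G : Type*} [Group G] (A : Subgroup G) [A.Normal] (x a : G) (ha : a ∈ A) :
    x * a * x⁻¹ * a⁻¹ ∈ A :=
  A.mul_mem (Subgroup.Normal.conj_mem inferInstance a ha x) (A.inv_mem ha)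

theorem comm_mul {G : Type*} [Group G] (A : Subgroup G) [A.Normal] (hA : IsMulCommutative A) (x : G) :
    ∀ a ∈ A, ∀ b ∈ A, x * (a * b) * x⁻¹ * (a * b)⁻¹ = (x * a * x⁻¹ * a⁻¹) * (x * b * x⁻¹ * b⁻¹) := by
  intro a ha b hb
  have hc := comm_of_mem A hA
  have h1 : x * b * x⁻¹ * b⁻¹ ∈ A := comm_mem A x b hb
  have h2 := hc a⁻¹ (A.inv_mem ha) _ h1
  calc x * (a * b) * x⁻¹ * (a * b)⁻¹ = x * a * x⁻¹ * ((x * b * x⁻¹ * b⁻¹) * a⁻¹) := by group
    _ = x * a * x⁻¹ * (a⁻¹ * (x * b * x⁻¹ * b⁻¹)) := by rw [h2]
    _ = (x * a * x⁻¹ * a⁻¹) * (x * b * x⁻¹ * b⁻¹) := by group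

/-- the commutator map as a homomorphism -/
def psi {G : Type*} [Group G] (A : Subgroup G) [A.Normal] (hA : IsMulCommutative A) (x : G) : A →* G where
  toFun a := x * (a : G) * x⁻¹ * (a : G)⁻¹
  map_one' := by simp
  map_mul' a b := by
    simpa using comm_mul A hA x a a.2 b b.2

theorem psi_apply {G : Type*} [Group G] (A : Subgroup G) [A.Normal] (hA : IsMulCommutative A) (x : G) (a : A) :
    psi A hA x a = x * (a : G) * x⁻¹ * (a : G)⁻¹ := rfl

theorem mem_range_psi {G : Type*} [Group G] (A : Subgroup G) [A.Normal] (hA : IsMulCommutative A) (x c : G) :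
    c ∈ (psi A hA x).range ↔ ∃ a ∈ A, x * a * x⁻¹ * a⁻¹ = c := by
  constructor
  · rintro ⟨a, rfl⟩
    exact ⟨a, a.2, rfl⟩
  · rintro ⟨a, ha, rfl⟩
    exact ⟨⟨a, ha⟩, rfl⟩

theorem range_le {G : Type*} [Group G] (A : Subgroup G) [A.Normal] (hA : IsMulCommutative A) (x : G) :
    (psi A hA x).range ≤ A := by
  rintro _ ⟨a, rfl⟩
  exact comm_mem A x a a.2

theorem range_normal {G : Type*} [Group G] (A : Subgroup G) [A.Normal] (hA : IsMulCommutative A) (x : G)
    (hgen : A ⊔ Subgroup.zpowers x = ⊤) : (psi A hA x).range.Normal := by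
  rw [← Subgroup.normalizer_eq_top_iff, eq_top_iff, ← hgen]
  have hc := comm_of_mem A hA
  apply sup_le
  · intro b hb
    rw [Subgroup.mem_normalizer_iff]
    intro h
    constructor
    · intro hh
      have hhA := range_le A hA x hh
      have : b * h * b⁻¹ = h := by rw [hc b hb h hhA]; group
      rw [this]; exact hh
    · intro hh
      have hhA := range_le A hA x hh
      have hA' : h ∈ A := by
        have : h = b⁻¹ * (b * h * b⁻¹) * b := by group
        rw [this]
        exact A.mul_mem (A.mul_mem (A.inv_mem hb) hhA) hb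
      have : b * h * b⁻¹ = h := by rw [hc b hb h hA']; group
      rw [this] at hh; exact hh
  · rw [Subgroup.zpowers_le, Subgroup.mem_normalizer_iff]
    intro h
    rw [mem_range_psi, mem_range_psi]
    constructor
    · rintro ⟨a, ha, rfl⟩
      refine ⟨x * a * x⁻¹, Subgroup.Normal.conj_mem inferInstance a ha x, ?_⟩
      group
    · rintro ⟨a, ha, hae⟩
      refine ⟨x⁻¹ * a * x, ?_, ?_⟩
      · have := Subgroup.Normal.conj_mem (inferInstance : A.Normal) a ha x⁻¹
        simpa using this
      · have : h = x⁻¹ * (x * a * x⁻¹ * a⁻¹) * x := by rw [hae]; group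
        rw [this]; group

theorem commutator_le_range {G : Type*} [Group G] (A : Subgroup G) [A.Normal] (hA : IsMulCommutative A) (x : G)
    (hgen : A ⊔ Subgroup.zpowers x = ⊤) : commutator G ≤ (psi A hA x).range := by
  have := range_normal A hA x hgen
  have hc := comm_of_mem A hA
  set I := (psi A hA x).range with hI
  -- every element of A ∪ {x} is central modulo I
  have key : ∀ y : G, (y ∈ A ∨ y = x) → ∀ g : G, (QuotientGroup.mk' I g) * (QuotientGroup.mk' I y) = (QuotientGroup.mk' I y) * (QuotientGroup.mk' I g) := by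
    intro y hy g
    have hg : g ∈ (Subgroup.centralizer {QuotientGroup.mk' I y}).comap (QuotientGroup.mk' I) := by
      have : A ⊔ Subgroup.zpowers x ≤ (Subgroup.centralizer {QuotientGroup.mk' I y}).comap (QuotientGroup.mk' I) := by
        apply sup_le
        · intro a ha
          rw [Subgroup.mem_comap, Subgroup.mem_centralizer_singleton_iff]
          rcases hy with hy | rfl
          · rw [← map_mul, ← map_mul, hc a ha y hy]
          · rw [← map_mul, ← map_mul]
            apply (QuotientGroup.eq).2
            have h1 : (a * y)⁻¹ * (y * a) = (y * (y⁻¹ * a⁻¹ * y) * y⁻¹ * (y⁻¹ * a⁻¹ * y)⁻¹)⁻¹ := by group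
            rw [h1]
            apply I.inv_mem
            rw [hI, mem_range_psi]
            refine ⟨y⁻¹ * a⁻¹ * y, ?_, rfl⟩
            have := Subgroup.Normal.conj_mem (inferInstance : A.Normal) a⁻¹ (A.inv_mem ha) y⁻¹
            simpa using this
        · rw [Subgroup.zpowers_le, Subgroup.mem_comap, Subgroup.mem_centralizer_singleton_iff]
          rcases hy with hy | rfl
          · rw [← map_mul, ← map_mul]
            apply (QuotientGroup.eq).2
            have h1 : (x * y)⁻¹ * (y * x) = y⁻¹ * (x * (x⁻¹ * y * x) * x⁻¹ * (x⁻¹ * y * x)⁻¹)⁻¹ * y := by group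
            rw [h1]
            have h2 : x * (x⁻¹ * y * x) * x⁻¹ * (x⁻¹ * y * x)⁻¹ ∈ I := by
              rw [hI, mem_range_psi]
              refine ⟨x⁻¹ * y * x, ?_, rfl⟩
              have := Subgroup.Normal.conj_mem (inferInstance : A.Normal) y hy x⁻¹
              simpa using this
            have h3 := Subgroup.Normal.conj_mem (inferInstance : I.Normal) _ (I.inv_mem h2) y⁻¹
            simpa using h3
          · rfl
      rw [hgen] at this
      exact this trivial
    rw [Subgroup.mem_comap, Subgroup.mem_centralizer_singleton_iff] at hg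
    exact hg
  have hcomm : ∀ a b : G ⧸ I, a * b = b * a := by
    intro a b
    obtain ⟨g, rfl⟩ := QuotientGroup.mk'_surjective I a
    obtain ⟨h, rfl⟩ := QuotientGroup.mk'_surjective I b
    have hh : h ∈ (Subgroup.centralizer {QuotientGroup.mk' I g}).comap (QuotientGroup.mk' I) := by
      have : A ⊔ Subgroup.zpowers x ≤ (Subgroup.centralizer {QuotientGroup.mk' I g}).comap (QuotientGroup.mk' I) := by
        apply sup_le
        · intro a ha
          rw [Subgroup.mem_comap, Subgroup.mem_centralizer_singleton_iff]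
          exact (key a (Or.inl ha) g).symm
        · rw [Subgroup.zpowers_le, Subgroup.mem_comap, Subgroup.mem_centralizer_singleton_iff]
          exact (key x (Or.inr rfl) g).symm
      rw [hgen] at this
      exact this trivial
    rw [Subgroup.mem_comap, Subgroup.mem_centralizer_singleton_iff] at hh
    exact hh.symm
  let _ : CommGroup (G ⧸ I) := { (inferInstance : Group (G ⧸ I)) with mul_comm := hcomm }
  have := Abelianization.commutator_subset_ker (QuotientGroup.mk' I)
  rwa [QuotientGroup.ker_mk'] at this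


/-- Let A be a commutative normal subgroup of the finite group G with G generated by A and an element x. Then a ↦ x a x⁻¹ a⁻¹ is a surjective homomorphism from A onto the commutator subgroup of G whose kernel is the centralizer of x in A; in particular the commutator subgroup has order equal to the index in A of that centralizer. -/
theorem result {G : Type*} [Group G] [Finite G] (A : Subgroup G) [A.Normal] (hA : IsMulCommutative A) (x : G) (hgen : A ⊔ Subgroup.zpowers x = ⊤) : (∀ a ∈ A, x * a * x⁻¹ * a⁻¹ ∈ commutator G) ∧ (∀ c ∈ commutator G, ∃ a ∈ A, x * a * x⁻¹ * a⁻¹ = c) ∧ (∀ a ∈ A, ∀ b ∈ A, x * (a * b) * x⁻¹ * (a * b)⁻¹ = (x * a * x⁻¹ * a⁻¹) * (x * b * x⁻¹ * b⁻¹)) ∧ Nat.card (commutator G) * Nat.card ↥(A ⊓ Subgroup.centralizer ({x} : Set G)) = Nat.card A := by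
  have hrange : commutator G = (psi A hA x).range := by
    apply le_antisymm (commutator_le_range A hA x hgen)
    rintro _ ⟨a, rfl⟩
    rw [psi_apply, commutator_def]
    have := Subgroup.commutator_mem_commutator (Subgroup.mem_top x) (Subgroup.mem_top (a : G))
    rwa [commutatorElement_def] at this
  refine ⟨?_, ?_, comm_mul A hA x, ?_⟩
  · intro a ha
    rw [hrange, mem_range_psi]
    exact ⟨a, ha, rfl⟩
  · intro c hc
    rw [hrange, mem_range_psi] at hc
    exact hc
  · have hker : (psi A hA x).ker = (A ⊓ Subgroup.centralizer ({x} : Set G)).subgroupOf A := by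
      ext a
      rw [MonoidHom.mem_ker, psi_apply, Subgroup.mem_subgroupOf, Subgroup.mem_inf,
        Subgroup.mem_centralizer_singleton_iff]
      constructor
      · intro h
        refine ⟨a.2, ?_⟩
        have : x * (a : G) = (x * (a : G) * x⁻¹ * (a : G)⁻¹) * ((a : G) * x) := by group
        rw [this, h, one_mul]
      · rintro ⟨_, h⟩
        rw [← h]; group
    have h1 := Subgroup.card_mul_index (psi A hA x).ker
    rw [Subgroup.index_ker] at h1
    have h2 : Nat.card (psi A hA x).ker = Nat.card ↥(A ⊓ Subgroup.centralizer ({x} : Set G)) := by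
      rw [hker]
      exact Nat.card_congr (Subgroup.subgroupOfEquivOfLe inf_le_left).toEquiv
    rw [hrange, ← h2, mul_comm]
    exact h1

end Cfsg.Agent.S3866
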