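import Cfsg.Statements.S3867
import Mathlib

set_option autoImplicit false
open Cfsg

namespace Cfsg.Agent.S3867

open Pointwise

theorem relIndex_eq_of_mul {G : Type*} [Group G] (A B E : Subgroup G) (hAE : A ≤ E) (hBE : B ≤ E)
    (h : ∀ e ∈ E, ∃ a ∈ A, ∃ b ∈ B, e = a * b) : B.relIndex A = B.relIndex E := by
  unfold Subgroup.relIndex Subgroup.index
  apply Nat.card_congr
  let f : A ⧸ B.subgroupOf A → E ⧸ B.subgroupOf E :=
    Quotient.map' (fun a => ⟨a.1, hAE a.2⟩) (by
      intro a₁ a₂ h12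
      rw [QuotientGroup.leftRel_apply] at h12 ⊢
      exact h12)
  refine Equiv.ofBijective f ⟨?_, ?_⟩
  · intro x y
    refine Quotient.inductionOn₂' x y ?_
    intro a₁ a₂ hxy
    have := Quotient.exact' hxy
    apply Quotient.sound'
    rw [QuotientGroup.leftRel_apply] at this ⊢
    exact this
  · intro y
    refine Quotient.inductionOn' y ?_
    intro e
    obtain ⟨a, ha, b, hb, he⟩ := h e.1 e.2
    refine ⟨Quotient.mk'' ⟨a, ha⟩, ?_⟩
    apply Quotient.sound'
    rw [QuotientGroup.leftRel_apply, Subgroup.mem_subgroupOf]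
    simp only [Subgroup.coe_mul, Subgroup.coe_inv]
    rw [he]
    simpa using hb

theorem card_sylow_quot {G : Type*} [Group G] [Finite G] {p : ℕ} [Fact p.Prime] (P : Sylow p G)
    (M : Subgroup G) [M.Normal] :
    Nat.card (Sylow p (G ⧸ M)) =
      (Subgroup.normalizer (((P : Subgroup G) ⊔ M : Subgroup G) : Set G)).index := by
  have hf := QuotientGroup.mk'_surjective M
  have h1 : Nat.card (Sylow p (G ⧸ M)) = (Subgroup.normalizer
      ((((P.mapSurjective hf : Sylow p (G ⧸ M)) : Subgroup (G ⧸ M))) : Set (G ⧸ M))).index :=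
    (P.mapSurjective hf).card_eq_index_normalizer
  rw [h1, ← Subgroup.index_comap_of_surjective _ hf,
    Subgroup.comap_normalizer_eq_of_surjective _ hf, Sylow.coe_mapSurjective,
    Subgroup.comap_map_eq, QuotientGroup.ker_mk']

theorem pow_mem_of_mem_sup {G : Type*} [Group G] {p : ℕ} (P : Subgroup G) (hP : IsPGroup p P)
    (M : Subgroup G) [M.Normal] (x : G) (hx : x ∈ P ⊔ M) : ∃ a : ℕ, x ^ (p ^ a) ∈ M := by
  rw [← SetLike.mem_coe, Subgroup.mul_normal] at hx
  obtain ⟨y, hy, m, hm, rfl⟩ := Set.mem_mul.mp hx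
  obtain ⟨a, ha⟩ := hP ⟨y, hy⟩
  refine ⟨a, ?_⟩
  have h1 : y ^ p ^ a = 1 := congrArg Subtype.val ha
  have h2 : (QuotientGroup.mk' M) ((y * m) ^ p ^ a) = 1 := by
    have hm1 : (QuotientGroup.mk' M) m = 1 := (QuotientGroup.eq_one_iff m).mpr hm
    rw [map_pow, map_mul, hm1, mul_one, ← map_pow, h1, map_one]
  exact (QuotientGroup.eq_one_iff _).mp h2


/-- Let M and N be nontrivial normal subgroups of the finite group G with M ⊓ N trivial, and let p be a prime. Writing n(X) for the number of Sylow p-subgroups of a group X, one has n(G) · n(G/MN) = n(G/M) · n(G/N). -/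
theorem result {G : Type*} [Group G] [Finite G] (p : ℕ) [Fact p.Prime] (M N : Subgroup G) [M.Normal] [N.Normal] (hM : M ≠ ⊥) (hN : N ≠ ⊥) (hMN : M ⊓ N = ⊥) : Nat.card (Sylow p G) * Nat.card (Sylow p (G ⧸ (M ⊔ N))) = Nat.card (Sylow p (G ⧸ M)) * Nat.card (Sylow p (G ⧸ N)) := by
  classical
  obtain ⟨P⟩ : Nonempty (Sylow p G) := inferInstance
  set Pg : Subgroup G := (P : Subgroup G) with hPg
  set A := Subgroup.normalizer ((Pg ⊔ M : Subgroup G) : Set G) with hA
  set B := Subgroup.normalizer ((Pg ⊔ N : Subgroup G) : Set G) with hB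
  set D := Subgroup.normalizer (Pg : Set G) with hD
  set E := Subgroup.normalizer ((Pg ⊔ (M ⊔ N) : Subgroup G) : Set G) with hE
  have c1 : Nat.card (Sylow p G) = D.index := P.card_eq_index_normalizer
  have c2 : Nat.card (Sylow p (G ⧸ M)) = A.index := card_sylow_quot P M
  have c3 : Nat.card (Sylow p (G ⧸ N)) = B.index := card_sylow_quot P N
  have c4 : Nat.card (Sylow p (G ⧸ (M ⊔ N))) = E.index := card_sylow_quot P (M ⊔ N)
  have hsupn : ∀ (H K : Subgroup G) [K.Normal],
      Subgroup.normalizer (H : Set G) ≤ Subgroup.normalizer ((H ⊔ K : Subgroup G) : Set G) := by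
    intro H K _
    refine le_trans (le_inf le_rfl ?_) (Subgroup.normalizer_inf_normalizer_le_normalizer_sup H K)
    rw [Subgroup.normalizer_eq_top (H := K)]; exact le_top
  have hDA : D ≤ A := hsupn Pg M
  have hDB : D ≤ B := hsupn Pg N
  have hAE : A ≤ E := by
    have := hsupn (Pg ⊔ M) N
    rwa [sup_assoc] at this
  have hBE : B ≤ E := by
    have := hsupn (Pg ⊔ N) M
    rwa [sup_assoc, sup_comm N M] at this
  have hX : (Pg ⊔ M) ⊓ (Pg ⊔ N) = Pg := by
    apply P.is_maximal' ?_ (le_inf le_sup_left le_sup_left)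
    intro x
    obtain ⟨a, ha⟩ := pow_mem_of_mem_sup Pg P.isPGroup' M x.1 (Subgroup.mem_inf.mp x.2).1
    obtain ⟨b, hb⟩ := pow_mem_of_mem_sup Pg P.isPGroup' N x.1 (Subgroup.mem_inf.mp x.2).2
    refine ⟨a + b, ?_⟩
    have h1 : x.1 ^ p ^ (a + b) ∈ M := by
      rw [pow_add, pow_mul]; exact M.pow_mem ha _
    have h2 : x.1 ^ p ^ (a + b) ∈ N := by
      rw [pow_add, mul_comm, pow_mul]; exact N.pow_mem hb _
    have h3 : x.1 ^ p ^ (a + b) ∈ M ⊓ N := Subgroup.mem_inf.mpr ⟨h1, h2⟩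
    rw [hMN, Subgroup.mem_bot] at h3
    exact Subtype.ext h3
  have hAB : A ⊓ B = D := by
    apply le_antisymm
    · have := Subgroup.inf_normalizer_le_normalizer_inf (H := Pg ⊔ M) (K := Pg ⊔ N)
      rw [hX] at this
      exact this
    · exact le_inf hDA hDB
  have hmul : ∀ e ∈ E, ∃ a ∈ A, ∃ b ∈ B, e = a * b := by
    intro e he
    set T : Subgroup G := Pg ⊔ (M ⊔ N) with hT
    have hPT : Pg ≤ T := le_sup_left
    have hePT : ((e • P : Sylow p G) : Subgroup G) ≤ T := by
      rintro x ⟨y, hy, rfl⟩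
      exact (Subgroup.mem_normalizer_iff.mp he y).mp (hPT hy)
    obtain ⟨t, ht⟩ := MulAction.exists_smul_eq T (P.subtype hPT) ((e • P).subtype hePT)
    have key : ∀ y ∈ Pg, (t : G)⁻¹ * (e * y * e⁻¹) * (t : G) ∈ Pg := by
      intro y hy
      have h1 : e * y * e⁻¹ ∈ ((e • P : Sylow p G) : Subgroup G) := ⟨y, hy, rfl⟩
      have h2 : (⟨e * y * e⁻¹, hePT h1⟩ : T) ∈ (((e • P).subtype hePT : Sylow p T) : Subgroup T) := h1
      rw [← ht, Sylow.coe_subgroup_smul, Subgroup.mem_pointwise_smul_iff_inv_smul_mem] at h2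
      exact h2
    have hh : (t : G)⁻¹ * e ∈ D := by
      apply Subgroup.mem_normalizer_fintype
      intro y hy
      have := key y hy
      have e1 : (t : G)⁻¹ * e * y * ((t : G)⁻¹ * e)⁻¹ = (t : G)⁻¹ * (e * y * e⁻¹) * (t : G) := by
        group
      rw [e1]; exact this
    have htT : (t : G) ∈ ((Pg ⊔ M : Subgroup G) ⊔ N : Subgroup G) := by
      rw [sup_assoc]; exact t.2
    rw [← SetLike.mem_coe, Subgroup.mul_normal] at htT
    obtain ⟨y, hy, n, hn, hyn⟩ := Set.mem_mul.mp htT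
    refine ⟨y, Subgroup.le_normalizer hy, n * ((t : G)⁻¹ * e), ?_, ?_⟩
    · exact B.mul_mem (Subgroup.le_normalizer (Subgroup.mem_sup_right hn)) (hDB hh)
    · rw [← mul_assoc, hyn]; group
  rw [c1, c2, c3, c4]
  have h1 : D.index = B.relIndex A * A.index := by
    rw [← hAB, ← Subgroup.inf_relIndex_left, Subgroup.relIndex_mul_index inf_le_left]
  have h2 : B.relIndex A = B.relIndex E := relIndex_eq_of_mul A B E hAE hBE hmul
  have h3 : B.relIndex E * E.index = B.index := Subgroup.relIndex_mul_index hBE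
  rw [h1, h2, ← h3]; ring

end Cfsg.Agent.S3867
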