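import Cfsg.Statements.S3895
import Mathlib
import Cfsg.Agent.Lib.lead.Frobenius

set_option autoImplicit false
open Cfsg

namespace Cfsg.Agent.S3895

open Cfsg.Agent.Lib.lead

/-- `Q * C_G(Q)` as a subgroup. -/
def QC {G : Type*} [Group G] (Q : Subgroup G) : Subgroup G where
  carrier := {g | ∃ q ∈ Q, ∃ c ∈ Subgroup.centralizer (Q : Set G), g = q * c}
  mul_mem' := by
    rintro a b ⟨q, hq, c, hc, rfl⟩ ⟨q', hq', c', hc', rfl⟩
    refine ⟨q * q', Q.mul_mem hq hq', c * c', Subgroup.mul_mem _ hc hc', ?_⟩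
    have h := Subgroup.mem_centralizer_iff.mp hc q' hq'
    calc q * c * (q' * c') = q * (c * q') * c' := by group
      _ = q * (q' * c) * c' := by rw [h]
      _ = q * q' * (c * c') := by group
  one_mem' := ⟨1, Q.one_mem, 1, Subgroup.one_mem _, by simp⟩
  inv_mem' := by
    rintro a ⟨q, hq, c, hc, rfl⟩
    refine ⟨q⁻¹, Q.inv_mem hq, c⁻¹, Subgroup.inv_mem _ hc, ?_⟩
    have h := Subgroup.mem_centralizer_iff.mp hc q hq
    rw [h]; group

theorem mem_QC {G : Type*} [Group G] (Q : Subgroup G) (g : G) :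
    g ∈ QC Q ↔ ∃ q ∈ Q, ∃ c ∈ Subgroup.centralizer (Q : Set G), g = q * c := Iff.rfl

theorem le_QC {G : Type*} [Group G] (Q : Subgroup G) : Q ≤ QC Q := by
  intro q hq
  exact ⟨q, hq, 1, Subgroup.one_mem _, by simp⟩

theorem cent_le_QC {G : Type*} [Group G] (Q : Subgroup G) : Subgroup.centralizer (Q : Set G) ≤ QC Q := by
  intro c hc
  exact ⟨1, Q.one_mem, c, hc, by simp⟩

theorem QC_le_normalizer {G : Type*} [Group G] (Q : Subgroup G) :
    QC Q ≤ Subgroup.normalizer (Q : Set G) := by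
  rintro g ⟨q, hq, c, hc, rfl⟩
  exact Subgroup.mul_mem _ (Subgroup.le_normalizer hq) (Subgroup.centralizer_le_normalizer _ hc)

theorem conj_mem_cent {G : Type*} [Group G] (Q : Subgroup G) (n c : G)
    (hn : n ∈ Subgroup.normalizer (Q : Set G)) (hc : c ∈ Subgroup.centralizer (Q : Set G)) :
    n * c * n⁻¹ ∈ Subgroup.centralizer (Q : Set G) := by
  rw [Subgroup.mem_centralizer_iff]
  intro x hx
  have hx' : n⁻¹ * x * n ∈ Q := by
    have h1 := (Subgroup.mem_normalizer_iff.mp (Subgroup.inv_mem _ hn) x).mp hx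
    simpa using h1
  have h := Subgroup.mem_centralizer_iff.mp hc _ hx'
  calc x * (n * c * n⁻¹) = n * ((n⁻¹ * x * n) * c) * n⁻¹ := by group
    _ = n * (c * (n⁻¹ * x * n)) * n⁻¹ := by rw [h]
    _ = n * c * n⁻¹ * x := by group

theorem conj_mem_QC {G : Type*} [Group G] (Q : Subgroup G) (n g : G)
    (hn : n ∈ Subgroup.normalizer (Q : Set G)) (hg : g ∈ QC Q) : n * g * n⁻¹ ∈ QC Q := by
  obtain ⟨q, hq, c, hc, rfl⟩ := hg
  refine ⟨n * q * n⁻¹, (Subgroup.mem_normalizer_iff.mp hn q).mp hq, n * c * n⁻¹,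
    conj_mem_cent Q n c hn hc, by group⟩

/-- An element of odd order lying in `Q C_G(Q)` (`Q` a 2-group) centralizes `Q`. -/
theorem odd_mem_QC {G : Type*} [Group G] [Finite G] (Q : Subgroup G) (hQ2 : IsPGroup 2 Q) (y : G)
    (hodd : Nat.Coprime (orderOf y) 2) (hy : y ∈ QC Q) : y ∈ Subgroup.centralizer (Q : Set G) := by
  obtain ⟨q, hq, c, hc, rfl⟩ := hy
  set y := q * c with hy
  have hact : ∀ x ∈ Q, y * x * y⁻¹ = q * x * q⁻¹ := by
    intro x hx
    have h := Subgroup.mem_centralizer_iff.mp hc x hx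
    calc y * x * y⁻¹ = q * (c * x) * c⁻¹ * q⁻¹ := by rw [hy]; group
      _ = q * (x * c) * c⁻¹ * q⁻¹ := by rw [h]
      _ = q * x * q⁻¹ := by group
  have hpow : ∀ j : ℕ, ∀ x ∈ Q, y ^ j * x * (y ^ j)⁻¹ = q ^ j * x * (q ^ j)⁻¹ := by
    intro j
    induction j with
    | zero => intro x hx; simp
    | succ j ih =>
      intro x hx
      have hx' : q * x * q⁻¹ ∈ Q := Q.mul_mem (Q.mul_mem hq hx) (Q.inv_mem hq)
      calc y ^ (j + 1) * x * (y ^ (j + 1))⁻¹ = y ^ j * (y * x * y⁻¹) * (y ^ j)⁻¹ := by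
            rw [pow_succ]; group
        _ = y ^ j * (q * x * q⁻¹) * (y ^ j)⁻¹ := by rw [hact x hx]
        _ = q ^ j * (q * x * q⁻¹) * (q ^ j)⁻¹ := ih _ hx'
        _ = q ^ (j + 1) * x * (q ^ (j + 1))⁻¹ := by rw [pow_succ]; group
  obtain ⟨e, he⟩ := hQ2 ⟨q, hq⟩
  have he' : q ^ 2 ^ e = 1 := by
    have := congrArg Subtype.val he
    simpa using this
  have hcop : Nat.Coprime (2 ^ e) (orderOf y) := (Nat.Coprime.pow_right e hodd).symm
  obtain ⟨m, hm⟩ := exists_pow_eq_self_of_coprime hcop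
  have h1 : y ^ 2 ^ e ∈ Subgroup.centralizer (Q : Set G) := by
    rw [Subgroup.mem_centralizer_iff]
    intro x hx
    have h2 := hpow (2 ^ e) x hx
    rw [he'] at h2
    have h3 : y ^ 2 ^ e * x * (y ^ 2 ^ e)⁻¹ = x := by rw [h2]; group
    calc x * y ^ 2 ^ e = (y ^ 2 ^ e * x * (y ^ 2 ^ e)⁻¹) * y ^ 2 ^ e := by rw [h3]
      _ = y ^ 2 ^ e * x := by group
  rw [← hm]
  exact Subgroup.pow_mem _ h1 m

/-- `C_Q(y)` has index at least 4 in the 2-group `Q` when the odd-order element `y` normalizes but does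
not centralize `Q`. -/
theorem four_mul_card_le {G : Type*} [Group G] [Finite G] (Q : Subgroup G) (hQ2 : IsPGroup 2 Q) (y : G)
    (hyN : y ∈ Subgroup.normalizer (Q : Set G)) (hodd : Nat.Coprime (orderOf y) 2)
    (hyC : y ∉ Subgroup.centralizer (Q : Set G)) :
    4 * Nat.card ↥(Q ⊓ Subgroup.centralizer ({y} : Set G)) ≤ Nat.card Q := by
  set C : Subgroup G := Q ⊓ Subgroup.centralizer ({y} : Set G) with hC
  have hCQ : C ≤ Q := inf_le_left
  set H : Subgroup Q := C.subgroupOf Q with hH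
  have hcardH : Nat.card H = Nat.card C := Nat.card_congr (Subgroup.subgroupOfEquivOfLe hCQ).toEquiv
  have hmul : Nat.card H * H.index = Nat.card Q := Subgroup.card_mul_index H
  obtain ⟨e, he⟩ := IsPGroup.iff_card.mp hQ2
  have hdvd : H.index ∣ 2 ^ e := by rw [← he, ← hmul]; exact dvd_mul_left _ _
  obtain ⟨j, hj, hidx⟩ := (Nat.dvd_prime_pow Nat.prime_two).mp hdvd
  -- a non-centralized element
  rw [Subgroup.mem_centralizer_iff] at hyC
  push Not at hyC
  obtain ⟨x, hxQ, hxy⟩ := hyC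
  have hmemH : ∀ (z : G) (hz : z ∈ Q), (⟨z, hz⟩ : Q) ∈ H ↔ z * y = y * z := by
    intro z hz
    rw [hH, Subgroup.mem_subgroupOf, hC, Subgroup.mem_inf, Subgroup.mem_centralizer_singleton_iff]
    exact ⟨fun h => h.2, fun h => ⟨hz, h⟩⟩
  have hxH : (⟨x, hxQ⟩ : Q) ∉ H := by rw [hmemH]; exact hxy
  have hx'Q : y * x * y⁻¹ ∈ Q := (Subgroup.mem_normalizer_iff.mp hyN x).mp hxQ
  have hx'H : (⟨y * x * y⁻¹, hx'Q⟩ : Q) ∉ H := by
    rw [hmemH]
    intro h
    apply hxy
    have h2 : y * x * y⁻¹ = x := by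
      calc y * x * y⁻¹ = y⁻¹ * (y * (y * x * y⁻¹)) := by group
        _ = y⁻¹ * (y * x * y⁻¹ * y) := by rw [h]
        _ = x := by group
    calc x * y = (y * x * y⁻¹) * y := by rw [h2]
      _ = y * x := by group
  have hj2 : 2 ≤ j := by
    by_contra hlt
    push Not at hlt
    interval_cases j
    · -- index 1
      rw [pow_zero] at hidx
      rw [Subgroup.index_eq_one] at hidx
      exact hxH (by rw [hidx]; exact Subgroup.mem_top _)
    · -- index 2
      rw [pow_one] at hidx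
      have h1 : (⟨x, hxQ⟩ : Q)⁻¹ * ⟨y * x * y⁻¹, hx'Q⟩ ∈ H := by
        rw [Subgroup.mul_mem_iff_of_index_two hidx]
        constructor
        · intro h; exact absurd ((Subgroup.inv_mem_iff _).mp h) hxH
        · intro h; exact absurd h hx'H
      set c₀ : G := x⁻¹ * (y * x * y⁻¹) with hc₀
      have hc₀Q : c₀ ∈ Q := Q.mul_mem (Q.inv_mem hxQ) hx'Q
      have hc₀y : c₀ * y = y * c₀ := by
        have := (hmemH c₀ hc₀Q).mp (by exact h1)
        exact this
      have hcomm : ∀ j : ℕ, y * c₀ ^ j * y⁻¹ = c₀ ^ j := by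
        intro j
        have : Commute y (c₀ ^ j) := (Commute.pow_right (show Commute y c₀ from hc₀y.symm) j)
        calc y * c₀ ^ j * y⁻¹ = c₀ ^ j * y * y⁻¹ := by rw [this.eq]
          _ = c₀ ^ j := by group
      have hpow : ∀ j : ℕ, y ^ j * x * (y ^ j)⁻¹ = x * c₀ ^ j := by
        intro j
        induction j with
        | zero => simp
        | succ j ih =>
          calc y ^ (j + 1) * x * (y ^ (j + 1))⁻¹ = y * (y ^ j * x * (y ^ j)⁻¹) * y⁻¹ := by
                rw [pow_succ']; group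
            _ = y * (x * c₀ ^ j) * y⁻¹ := by rw [ih]
            _ = (y * x * y⁻¹) * (y * c₀ ^ j * y⁻¹) := by group
            _ = (x * c₀) * c₀ ^ j := by rw [hcomm j]; congr 1; rw [hc₀]; group
            _ = x * c₀ ^ (j + 1) := by rw [pow_succ']; group
      have h2 := hpow (orderOf y)
      rw [pow_orderOf_eq_one] at h2
      have h3 : c₀ ^ orderOf y = 1 := by
        have : x * c₀ ^ orderOf y = x * 1 := by rw [← h2]; group
        exact mul_left_cancel this
      obtain ⟨i, hi⟩ := hQ2 ⟨c₀, hc₀Q⟩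
      have hi' : c₀ ^ 2 ^ i = 1 := by
        have := congrArg Subtype.val hi
        simpa using this
      have hd1 : orderOf c₀ ∣ orderOf y := orderOf_dvd_of_pow_eq_one h3
      have hd2 : orderOf c₀ ∣ 2 ^ i := orderOf_dvd_of_pow_eq_one hi'
      have hone : orderOf c₀ = 1 :=
        Nat.eq_one_of_dvd_coprimes (Nat.Coprime.pow_right i hodd) hd1 hd2
      rw [orderOf_eq_one_iff] at hone
      apply hxy
      have h4 : y * x * y⁻¹ = x := by
        calc y * x * y⁻¹ = x * c₀ := by rw [hc₀]; group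
          _ = x := by rw [hone, mul_one]
      calc x * y = (y * x * y⁻¹) * y := by rw [h4]
        _ = y * x := by group
  have h4 : 4 ∣ H.index := by
    rw [hidx]
    calc 4 = 2 ^ 2 := by norm_num
      _ ∣ 2 ^ j := pow_dvd_pow 2 hj2
  obtain ⟨t, ht⟩ := h4
  have htpos : 0 < t := by
    rcases Nat.eq_zero_or_pos t with h | h
    · exfalso
      rw [h, mul_zero] at ht
      rw [ht, mul_zero] at hmul
      exact Nat.card_pos.ne' hmul.symm
    · exact h
  rw [← hmul, ht, ← hcardH]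
  nlinarith [Nat.card_pos (α := H)]

/-- Three distinct conjugates. -/
theorem three_conj {G : Type*} [Group G] [Finite G] (y x : G) (hodd : Nat.Coprime (orderOf y) 2)
    (hxy : y * x ≠ x * y) :
    x ≠ y * x * y⁻¹ ∧ x ≠ y ^ 2 * x * (y ^ 2)⁻¹ ∧ y * x * y⁻¹ ≠ y ^ 2 * x * (y ^ 2)⁻¹ := by
  have h1 : x ≠ y * x * y⁻¹ := by
    intro h
    apply hxy
    calc y * x = (y * x * y⁻¹) * y := by group
      _ = x * y := by rw [← h]
  refine ⟨h1, ?_, ?_⟩
  · intro h
    obtain ⟨m, hm⟩ := exists_pow_eq_self_of_coprime (x := y) (n := 2) hodd.symm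
    have hc : Commute (y ^ 2) x := by
      show y ^ 2 * x = x * y ^ 2
      calc y ^ 2 * x = (y ^ 2 * x * (y ^ 2)⁻¹) * y ^ 2 := by group
        _ = x * y ^ 2 := by rw [← h]
    have hc' : Commute ((y ^ 2) ^ m) x := hc.pow_left m
    rw [hm] at hc'
    exact hxy hc'.eq
  · intro h
    apply h1
    calc x = y⁻¹ * (y * x * y⁻¹) * y := by group
      _ = y⁻¹ * (y ^ 2 * x * (y ^ 2)⁻¹) * y := by rw [h]
      _ = y * x * y⁻¹ := by rw [pow_two]; group

theorem two_of_mem {G : Type*} [Group G] (P : Sylow 2 G) (x : G) (hx : x ∈ (P : Subgroup G)) :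
    ∃ k : ℕ, orderOf x = 2 ^ k := by
  obtain ⟨e, he⟩ := P.2 ⟨x, hx⟩
  have he' : x ^ 2 ^ e = 1 := by
    have := congrArg Subtype.val he
    simpa using this
  obtain ⟨j, _, hj⟩ := (Nat.dvd_prime_pow Nat.prime_two).mp (orderOf_dvd_of_pow_eq_one he')
  exact ⟨j, hj⟩

theorem orderOf_conj' {G : Type*} [Group G] (g x : G) : orderOf (g * x * g⁻¹) = orderOf x := by
  have := (MulAut.conj g).orderOf_eq x
  simpa using this

theorem exists_conj_mem {G : Type*} [Group G] [Finite G] (P : Sylow 2 G) (x : G)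
    (hx : ∃ k : ℕ, orderOf x = 2 ^ k) : ∃ g : G, g * x * g⁻¹ ∈ (P : Subgroup G) := by
  obtain ⟨k, hk⟩ := hx
  have h2 : IsPGroup 2 (Subgroup.zpowers x) := by
    apply IsPGroup.of_card (n := k)
    rw [Nat.card_zpowers, hk]
  obtain ⟨P', hP'⟩ := h2.exists_le_sylow
  obtain ⟨g, hg⟩ := MulAction.exists_smul_eq G P' P
  refine ⟨g, ?_⟩
  have hx' : x ∈ (P' : Subgroup G) := hP' (Subgroup.mem_zpowers x)
  rw [← hg, mem_smul_sylow]
  have e : g⁻¹ * (g * x * g⁻¹) * g = x := by group
  rw [e]; exact hx'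

theorem map_two {G : Type*} [Group G] (P : Sylow 2 G) (d : ConjClasses (P : Subgroup G)) :
    ∀ x ∈ (ConjClasses.map (P : Subgroup G).subtype d).carrier, ∃ k : ℕ, orderOf x = 2 ^ k := by
  obtain ⟨z, rfl⟩ := ConjClasses.exists_rep d
  intro x hx
  rw [ConjClasses.mem_carrier_iff_mk_eq] at hx
  have hx' : ConjClasses.mk x = ConjClasses.mk (z : G) := hx
  rw [ConjClasses.mk_eq_mk_iff_isConj, isConj_iff] at hx'
  obtain ⟨c, hc⟩ := hx'
  obtain ⟨k, hk⟩ := two_of_mem P z z.2
  exact ⟨k, by rw [← hk, ← hc, orderOf_conj']⟩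

/-- The fusion map from classes of `P` to classes of 2-elements of `G`. -/
def phi {G : Type*} [Group G] (P : Sylow 2 G) (d : ConjClasses (P : Subgroup G)) :
    {c : ConjClasses G // ∀ x ∈ c.carrier, ∃ k : ℕ, orderOf x = 2 ^ k} :=
  ⟨ConjClasses.map (P : Subgroup G).subtype d, map_two P d⟩

theorem phi_surj {G : Type*} [Group G] [Finite G] (P : Sylow 2 G) : Function.Surjective (phi P) := by
  rintro ⟨c, hc⟩
  obtain ⟨x₀, rfl⟩ := ConjClasses.exists_rep c
  have h0 : x₀ ∈ (ConjClasses.mk x₀).carrier := ConjClasses.mem_carrier_mk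
  obtain ⟨g, hg⟩ := exists_conj_mem P x₀ (hc x₀ h0)
  refine ⟨ConjClasses.mk ⟨g * x₀ * g⁻¹, hg⟩, ?_⟩
  apply Subtype.ext
  show ConjClasses.mk (g * x₀ * g⁻¹) = ConjClasses.mk x₀
  rw [ConjClasses.mk_eq_mk_iff_isConj, isConj_iff]
  exact ⟨g⁻¹, by group⟩

theorem phi_inj {G : Type*} [Group G] [Finite G] (P : Sylow 2 G) (hF : Frob 2 G) :
    Function.Injective (phi P) := by
  intro d d' h
  obtain ⟨z, rfl⟩ := ConjClasses.exists_rep d
  obtain ⟨z', rfl⟩ := ConjClasses.exists_rep d'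
  have h1 : ConjClasses.mk (z : G) = ConjClasses.mk (z' : G) := congrArg Subtype.val h
  rw [ConjClasses.mk_eq_mk_iff_isConj, isConj_iff] at h1
  obtain ⟨g, hg⟩ := h1
  obtain ⟨u, hu, hux⟩ := frob_fusion hF P (z : G) g z.2 (by rw [hg]; exact z'.2)
  rw [ConjClasses.mk_eq_mk_iff_isConj, isConj_iff]
  refine ⟨⟨u, hu⟩, ?_⟩
  apply Subtype.ext
  simp only [Subgroup.coe_mul, Subgroup.coe_inv]
  rw [hux, hg]

theorem conj_ne {G : Type*} [Group G] (y n x : G) (hn : Commute n y) (hxy : y * x ≠ x * y) :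
    y * (n * x * n⁻¹) ≠ (n * x * n⁻¹) * y := by
  intro h
  apply hxy
  have h1 : n * y = y * n := hn.eq
  have h2 : n⁻¹ * y = y * n⁻¹ := (hn.inv_left).eq
  calc y * x = n⁻¹ * (n * y) * x := by group
    _ = n⁻¹ * (y * n) * x := by rw [h1]
    _ = n⁻¹ * (y * (n * x * n⁻¹)) * n := by group
    _ = n⁻¹ * ((n * x * n⁻¹) * y) * n := by rw [h]
    _ = x * (n⁻¹ * y) * n := by group
    _ = x * (y * n⁻¹) * n := by rw [h2]
    _ = x * y := by group

theorem cls_conj {G : Type*} [Group G] (n x : G) :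
    ConjClasses.mk (n * x * n⁻¹) = ConjClasses.mk x := by
  rw [ConjClasses.mk_eq_mk_iff_isConj, isConj_iff]
  exact ⟨n⁻¹, by group⟩

theorem count {G : Type*} [Group G] [Finite G] (P : Sylow 2 G) (Q : Subgroup G)
    (hQP : Q ≤ (P : Subgroup G))
    (hZ : ∀ x ∈ (P : Subgroup G), (∀ u ∈ (P : Subgroup G), u * x = x * u) → x ∈ Q) (y : G)
    (hyN : y ∈ Subgroup.normalizer (Q : Set G)) (hodd : Nat.Coprime (orderOf y) 2)
    (hyC : y ∉ Subgroup.centralizer (Q : Set G)) :
    2 * Nat.card {c : ConjClasses G // ∀ x ∈ c.carrier, ∃ k : ℕ, orderOf x = 2 ^ k} ≤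
      Nat.card (P : Subgroup G) := by
  classical
  haveI : Fintype G := Fintype.ofFinite G
  have hQ2 : IsPGroup 2 Q := P.2.to_le hQP
  let cls : G → ConjClasses G := ConjClasses.mk
  let sP : Finset G := Finset.univ.filter (fun x => x ∈ (P : Subgroup G))
  let sQ : Finset G := Finset.univ.filter (fun x => x ∈ Q)
  let sC : Finset G := Finset.univ.filter (fun x => x ∈ Q ⊓ Subgroup.centralizer ({y} : Set G))
  let sB : Finset G := Finset.univ.filter (fun x => x ∈ Q ∧ y * x ≠ x * y)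
  let sA : Finset G := Finset.univ.filter (fun x => x ∈ (P : Subgroup G) ∧ ∀ q ∈ Q, cls q ≠ cls x)
  have hcP : Nat.card (P : Subgroup G) = sP.card := Nat.subtype_card sP (fun x => by simp [sP])
  have hcQ : Nat.card Q = sQ.card := Nat.subtype_card sQ (fun x => by simp [sQ])
  have hcC : Nat.card ↥(Q ⊓ Subgroup.centralizer ({y} : Set G)) = sC.card :=
    Nat.subtype_card sC (fun x => by simp [sC])
  have h4 := four_mul_card_le Q hQ2 y hyN hodd hyC
  have hAQ : sA.card + sQ.card ≤ sP.card := by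
    rw [← Finset.card_union_of_disjoint]
    · apply Finset.card_le_card
      intro x hx
      rcases Finset.mem_union.mp hx with h | h
      · simp only [sA, Finset.mem_filter, Finset.mem_univ, true_and] at h
        simp only [sP, Finset.mem_filter, Finset.mem_univ, true_and]; exact h.1
      · simp only [sQ, Finset.mem_filter, Finset.mem_univ, true_and] at h
        simp only [sP, Finset.mem_filter, Finset.mem_univ, true_and]; exact hQP h
    · rw [Finset.disjoint_left]
      intro x hxA hxQ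
      simp only [sA, Finset.mem_filter, Finset.mem_univ, true_and] at hxA
      simp only [sQ, Finset.mem_filter, Finset.mem_univ, true_and] at hxQ
      exact hxA.2 x hxQ rfl
  have hBC : sB.card + sC.card ≤ sQ.card := by
    rw [← Finset.card_union_of_disjoint]
    · apply Finset.card_le_card
      intro x hx
      rcases Finset.mem_union.mp hx with h | h
      · simp only [sB, Finset.mem_filter, Finset.mem_univ, true_and] at h
        simp only [sQ, Finset.mem_filter, Finset.mem_univ, true_and]; exact h.1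
      · simp only [sC, Finset.mem_filter, Finset.mem_univ, true_and] at h
        simp only [sQ, Finset.mem_filter, Finset.mem_univ, true_and]; exact (Subgroup.mem_inf.mp h).1
    · rw [Finset.disjoint_left]
      intro x hxB hxC
      simp only [sB, Finset.mem_filter, Finset.mem_univ, true_and] at hxB
      simp only [sC, Finset.mem_filter, Finset.mem_univ, true_and] at hxC
      have h := (Subgroup.mem_inf.mp hxC).2
      rw [Subgroup.mem_centralizer_singleton_iff] at h
      exact hxB.2 h.symm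
  have hC1 : (sC.image cls).card ≤ sC.card := Finset.card_image_le
  have hB3 : 3 * (sB.image cls).card ≤ sB.card := by
    apply Finset.mul_card_image_le_card
    intro b hb
    obtain ⟨x, hx, rfl⟩ := Finset.mem_image.mp hb
    simp only [sB, Finset.mem_filter, Finset.mem_univ, true_and] at hx
    obtain ⟨h1, h2, h3⟩ := three_conj y x hodd hx.2
    have hsub : ({x, y * x * y⁻¹, y ^ 2 * x * (y ^ 2)⁻¹} : Finset G) ⊆
        sB.filter (fun a => cls a = cls x) := by
      intro a ha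
      simp only [Finset.mem_insert, Finset.mem_singleton] at ha
      simp only [sB, Finset.mem_filter, Finset.mem_univ, true_and]
      rcases ha with rfl | rfl | rfl
      · exact ⟨hx, rfl⟩
      · exact ⟨⟨(Subgroup.mem_normalizer_iff.mp hyN x).mp hx.1,
          conj_ne y y x (Commute.refl y) hx.2⟩, cls_conj y x⟩
      · exact ⟨⟨(Subgroup.mem_normalizer_iff.mp (Subgroup.pow_mem _ hyN 2) x).mp hx.1,
          conj_ne y (y ^ 2) x ((Commute.refl y).pow_left 2) hx.2⟩, cls_conj (y ^ 2) x⟩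
    calc 3 = ({x, y * x * y⁻¹, y ^ 2 * x * (y ^ 2)⁻¹} : Finset G).card :=
          (Finset.card_eq_three.mpr ⟨_, _, _, h1, h2, h3, rfl⟩).symm
      _ ≤ _ := Finset.card_le_card hsub
  have hA2 : 2 * (sA.image cls).card ≤ sA.card := by
    apply Finset.mul_card_image_le_card
    intro b hb
    obtain ⟨x, hx, rfl⟩ := Finset.mem_image.mp hb
    simp only [sA, Finset.mem_filter, Finset.mem_univ, true_and] at hx
    have hxQ : x ∉ Q := fun h => hx.2 x h rfl
    have hex : ∃ u ∈ (P : Subgroup G), u * x ≠ x * u := by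
      by_contra hcon
      push Not at hcon
      exact hxQ (hZ x hx.1 hcon)
    obtain ⟨u, hu, hux⟩ := hex
    have hne : x ≠ u * x * u⁻¹ := by
      intro h
      apply hux
      calc u * x = (u * x * u⁻¹) * u := by group
        _ = x * u := by rw [← h]
    have hsub : ({x, u * x * u⁻¹} : Finset G) ⊆ sA.filter (fun a => cls a = cls x) := by
      intro a ha
      simp only [Finset.mem_insert, Finset.mem_singleton] at ha
      simp only [sA, Finset.mem_filter, Finset.mem_univ, true_and]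
      rcases ha with rfl | rfl
      · exact ⟨hx, rfl⟩
      · refine ⟨⟨Subgroup.mul_mem _ (Subgroup.mul_mem _ hu hx.1) (Subgroup.inv_mem _ hu), ?_⟩,
          cls_conj u x⟩
        intro q hq
        show cls q ≠ cls (u * x * u⁻¹)
        have e : cls (u * x * u⁻¹) = cls x := cls_conj u x
        rw [e]
        exact hx.2 q hq
    calc 2 = ({x, u * x * u⁻¹} : Finset G).card := (Finset.card_pair hne).symm
      _ ≤ _ := Finset.card_le_card hsub
  have hK : Nat.card {c : ConjClasses G // ∀ x ∈ c.carrier, ∃ k : ℕ, orderOf x = 2 ^ k} ≤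
      (sA.image cls ∪ sB.image cls ∪ sC.image cls).card := by
    rw [Nat.subtype_card (Finset.univ.filter
      (fun c : ConjClasses G => ∀ x ∈ c.carrier, ∃ k : ℕ, orderOf x = 2 ^ k)) (fun x => by simp)]
    apply Finset.card_le_card
    intro c hc
    simp only [Finset.mem_filter, Finset.mem_univ, true_and] at hc
    obtain ⟨x₀, rfl⟩ := ConjClasses.exists_rep c
    have h0 : x₀ ∈ (ConjClasses.mk x₀).carrier := ConjClasses.mem_carrier_mk
    obtain ⟨g, hg⟩ := exists_conj_mem P x₀ (hc x₀ h0)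
    have hcls : cls (g * x₀ * g⁻¹) = ConjClasses.mk x₀ := cls_conj g x₀
    by_cases hq : ∃ q ∈ Q, cls q = cls (g * x₀ * g⁻¹)
    · obtain ⟨q, hqQ, hqc⟩ := hq
      rw [hcls] at hqc
      by_cases hyq : y * q = q * y
      · apply Finset.mem_union_right
        rw [Finset.mem_image]
        refine ⟨q, ?_, hqc⟩
        simp only [sC, Finset.mem_filter, Finset.mem_univ, true_and]
        exact Subgroup.mem_inf.mpr ⟨hqQ, Subgroup.mem_centralizer_singleton_iff.mpr hyq.symm⟩
      · apply Finset.mem_union_left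
        apply Finset.mem_union_right
        rw [Finset.mem_image]
        refine ⟨q, ?_, hqc⟩
        simp only [sB, Finset.mem_filter, Finset.mem_univ, true_and]
        exact ⟨hqQ, hyq⟩
    · push Not at hq
      apply Finset.mem_union_left
      apply Finset.mem_union_left
      rw [Finset.mem_image]
      refine ⟨g * x₀ * g⁻¹, ?_, hcls⟩
      simp only [sA, Finset.mem_filter, Finset.mem_univ, true_and]
      exact ⟨hg, hq⟩
  have hU1 := Finset.card_union_le (sA.image cls ∪ sB.image cls) (sC.image cls)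
  have hU2 := Finset.card_union_le (sA.image cls) (sB.image cls)
  omega

theorem exists_data {G : Type*} [Group G] [Finite G] (hnF : ¬ Frob 2 G) :
    ∃ (Q : Subgroup G) (P : Sylow 2 G) (y : G), Q ≤ (P : Subgroup G) ∧
      (∀ x ∈ (P : Subgroup G), (∀ u ∈ (P : Subgroup G), u * x = x * u) → x ∈ Q) ∧
      y ∈ Subgroup.normalizer (Q : Set G) ∧ Nat.Coprime (orderOf y) 2 ∧
      y ∉ Subgroup.centralizer (Q : Set G) := by
  classical
  let 𝒮 : Set (Subgroup G) := {Q | IsPGroup 2 Q ∧ ∃ y ∈ Subgroup.normalizer (Q : Set G),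
    Nat.Coprime (orderOf y) 2 ∧ y ∉ Subgroup.centralizer (Q : Set G)}
  have hne : 𝒮.Nonempty := by
    unfold Frob at hnF
    push Not at hnF
    obtain ⟨Q, hQ, g, hg, hcop, hgc⟩ := hnF
    exact ⟨Q, hQ, g, hg, hcop, hgc⟩
  obtain ⟨Q, ⟨hQ2, y, hyN, hodd, hyC⟩, hmax⟩ :=
    Set.exists_max_image 𝒮 (fun Q => Nat.card Q) (Set.toFinite _) hne
  set L : Subgroup G := QC Q with hL
  have hQL : Q ≤ L := le_QC Q
  obtain ⟨R, hR⟩ := (hQ2.comap_subtype (K := L)).exists_le_sylow
  set R' : Subgroup G := (R : Subgroup L).map L.subtype with hR'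
  have hR'L : R' ≤ L := Subgroup.map_subtype_le _
  have hmemR' : ∀ x : G, x ∈ R' ↔ ∃ h : x ∈ L, (⟨x, h⟩ : L) ∈ (R : Subgroup L) := by
    intro x
    rw [hR', Subgroup.mem_map]
    constructor
    · rintro ⟨z, hz, rfl⟩
      exact ⟨z.2, hz⟩
    · rintro ⟨h, hz⟩
      exact ⟨⟨x, h⟩, hz, rfl⟩
  have hQR' : Q ≤ R' := by
    intro x hx
    rw [hmemR']
    exact ⟨hQL hx, hR (Subgroup.mem_subgroupOf.mpr hx)⟩
  have hR'2 : IsPGroup 2 R' := R.2.map L.subtype
  have hyL : ∀ g ∈ L, y * g * y⁻¹ ∈ L := fun g hg => conj_mem_QC Q y g hyN hg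
  set S : Subgroup G := R'.map (MulAut.conj y).toMonoidHom with hS
  have hmemS : ∀ x : G, x ∈ S ↔ y⁻¹ * x * y ∈ R' := by
    intro x
    rw [hS, Subgroup.mem_map]
    constructor
    · rintro ⟨z, hz, rfl⟩
      have e : y⁻¹ * ((MulAut.conj y).toMonoidHom z) * y = z := by
        show y⁻¹ * (y * z * y⁻¹) * y = z
        group
      rw [e]; exact hz
    · intro h
      refine ⟨y⁻¹ * x * y, h, ?_⟩
      show y * (y⁻¹ * x * y) * y⁻¹ = x
      group
  have hSL : S ≤ L := by
    intro x hx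
    have h1 := hR'L ((hmemS x).mp hx)
    have h2 := hyL _ h1
    have e : y * (y⁻¹ * x * y) * y⁻¹ = x := by group
    rwa [e] at h2
  have hS2 : IsPGroup 2 S := hR'2.map _
  have hcardS : Nat.card S = Nat.card R' :=
    Subgroup.card_map_of_injective (MulAut.conj y).injective
  obtain ⟨R₂, hR₂⟩ := (hS2.comap_subtype (K := L)).exists_le_sylow
  have hcardR' : Nat.card R' = Nat.card (R : Subgroup L) :=
    Subgroup.card_map_of_injective L.subtype_injective
  have hSR₂ : S.subgroupOf L = (R₂ : Subgroup L) := by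
    apply Subgroup.eq_of_le_of_card_ge hR₂
    rw [Sylow.card_eq_multiplicity R₂, ← Sylow.card_eq_multiplicity R, ← hcardR', ← hcardS]
    exact le_of_eq (Nat.card_congr (Subgroup.subgroupOfEquivOfLe hSL).toEquiv).symm
  obtain ⟨a, ha⟩ := MulAction.exists_smul_eq L R R₂
  set n : G := y⁻¹ * (a : G) with hn
  have haL : (a : G) ∈ L := a.2
  have hnR' : n ∈ Subgroup.normalizer (R' : Set G) := by
    rw [Subgroup.mem_normalizer_iff]
    intro z
    constructor
    · intro hz
      obtain ⟨hzL, hzR⟩ := (hmemR' z).mp hz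
      have hw : a * ⟨z, hzL⟩ * a⁻¹ ∈ ((a • R : Sylow 2 L) : Subgroup L) := by
        rw [mem_smul_sylow]
        have e : a⁻¹ * (a * ⟨z, hzL⟩ * a⁻¹) * a = (⟨z, hzL⟩ : L) := by group
        rw [e]; exact hzR
      rw [ha, ← hSR₂, Subgroup.mem_subgroupOf] at hw
      have hw' : (a : G) * z * (a : G)⁻¹ ∈ S := hw
      have h1 := (hmemS _).mp hw'
      have e : n * z * n⁻¹ = y⁻¹ * ((a : G) * z * (a : G)⁻¹) * y := by rw [hn]; group
      rw [e]; exact h1
    · intro hz
      have e : n * z * n⁻¹ = y⁻¹ * ((a : G) * z * (a : G)⁻¹) * y := by rw [hn]; group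
      rw [e] at hz
      have hw : (a : G) * z * (a : G)⁻¹ ∈ S := (hmemS _).mpr hz
      have hwL : (a : G) * z * (a : G)⁻¹ ∈ L := hSL hw
      have hw2 : (⟨(a : G) * z * (a : G)⁻¹, hwL⟩ : L) ∈ ((a • R : Sylow 2 L) : Subgroup L) := by
        rw [ha, ← hSR₂, Subgroup.mem_subgroupOf]; exact hw
      rw [mem_smul_sylow] at hw2
      have hzL : z ∈ L := by
        have h1 := L.mul_mem (L.mul_mem (L.inv_mem haL) hwL) haL
        have e2 : (a : G)⁻¹ * ((a : G) * z * (a : G)⁻¹) * (a : G) = z := by group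
        rwa [e2] at h1
      rw [hmemR']
      refine ⟨hzL, ?_⟩
      have e3 : a⁻¹ * (⟨(a : G) * z * (a : G)⁻¹, hwL⟩ : L) * a = ⟨z, hzL⟩ := by
        apply Subtype.ext
        simp only [Subgroup.coe_mul, Subgroup.coe_inv]
        group
      rw [e3] at hw2
      exact hw2
  have hnN : n ∈ Subgroup.normalizer (Q : Set G) :=
    Subgroup.mul_mem _ (Subgroup.inv_mem _ hyN) (QC_le_normalizer Q haL)
  have hpowL : ∀ j : ℕ, y ^ j * n ^ j ∈ L := by
    intro j
    induction j with
    | zero => simp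
    | succ j ih =>
      have h1 : y ^ j * (a : G) * (y ^ j)⁻¹ ∈ L :=
        conj_mem_QC Q _ _ (Subgroup.pow_mem _ hyN j) haL
      have hyn : y * n = (a : G) := by rw [hn]; group
      have e : y ^ (j + 1) * n ^ (j + 1) = (y ^ j * (a : G) * (y ^ j)⁻¹) * (y ^ j * n ^ j) := by
        calc y ^ (j + 1) * n ^ (j + 1) = y ^ j * (y * n) * n ^ j := by
              rw [pow_succ, pow_succ']; simp only [mul_assoc]
          _ = y ^ j * (a : G) * n ^ j := by rw [hyn]
          _ = (y ^ j * (a : G) * (y ^ j)⁻¹) * (y ^ j * n ^ j) := by group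
      rw [e]; exact L.mul_mem h1 ih
  have hnk : ∀ k : ℕ, n ^ 2 ^ k ∉ Subgroup.centralizer (Q : Set G) := by
    intro k hk
    have h1 : y ^ 2 ^ k ∈ L := by
      have h2 := hpowL (2 ^ k)
      have h3 : n ^ 2 ^ k ∈ L := cent_le_QC Q hk
      have e : y ^ 2 ^ k = (y ^ 2 ^ k * n ^ 2 ^ k) * (n ^ 2 ^ k)⁻¹ := by group
      rw [e]; exact L.mul_mem h2 (L.inv_mem h3)
    have hcop : Nat.Coprime (2 ^ k) (orderOf y) := (Nat.Coprime.pow_right k hodd).symm
    obtain ⟨m, hm⟩ := exists_pow_eq_self_of_coprime hcop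
    have h4 : y ∈ L := by rw [← hm]; exact L.pow_mem h1 m
    exact hyC (odd_mem_QC Q hQ2 y hodd h4)
  have hn0 : orderOf n ≠ 0 := (orderOf_pos n).ne'
  obtain ⟨k, m, hmodd, hkm⟩ := Nat.exists_eq_two_pow_mul_odd hn0
  set n' : G := n ^ 2 ^ k with hn'
  have hn'odd : Nat.Coprime (orderOf n') 2 := by
    have h1 : n' ^ m = 1 := by rw [hn', ← pow_mul, ← hkm, pow_orderOf_eq_one]
    have h2 : orderOf n' ∣ m := orderOf_dvd_of_pow_eq_one h1
    exact Nat.Coprime.coprime_dvd_left h2 (Nat.Coprime.symm (Nat.coprime_two_left.mpr hmodd))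
  have hR'S : R' ∈ 𝒮 := by
    refine ⟨hR'2, n', Subgroup.pow_mem _ hnR' _, hn'odd, ?_⟩
    intro h
    exact hnk k (Subgroup.centralizer_le hQR' h)
  have hRQ : Q = R' := Subgroup.eq_of_le_of_card_ge hQR' (hmax R' hR'S)
  obtain ⟨P, hP⟩ := hR'2.exists_le_sylow
  refine ⟨Q, P, y, hQR'.trans hP, ?_, hyN, hodd, hyC⟩
  intro x hxP hxc
  have hxC : x ∈ Subgroup.centralizer (Q : Set G) := by
    rw [Subgroup.mem_centralizer_iff]
    intro q hq
    exact hxc q (hP (hQR' hq))
  have hxL : x ∈ L := cent_le_QC Q hxC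
  set R'' : Subgroup G := R' ⊔ Subgroup.zpowers x with hR''
  have hR''P : R'' ≤ (P : Subgroup G) := sup_le hP (by rw [Subgroup.zpowers_le]; exact hxP)
  have hR''L : R'' ≤ L := sup_le hR'L (by rw [Subgroup.zpowers_le]; exact hxL)
  have h2 : IsPGroup 2 (R''.subgroupOf L) := (P.2.to_le hR''P).comap_subtype
  have hle : (R : Subgroup L) ≤ R''.subgroupOf L := by
    intro r hr
    rw [Subgroup.mem_subgroupOf]
    have : (r : G) ∈ R' := (hmemR' _).mpr ⟨r.2, hr⟩
    exact (le_sup_left : R' ≤ R'') this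
  have heq := R.is_maximal' h2 hle
  have hxR'' : x ∈ R'' := (le_sup_right : Subgroup.zpowers x ≤ R'') (Subgroup.mem_zpowers x)
  have hxR : (⟨x, hxL⟩ : L) ∈ (R : Subgroup L) := by
    rw [← heq, Subgroup.mem_subgroupOf]; exact hxR''
  rw [hRQ]
  exact (hmemR' x).mpr ⟨hxL, hxR⟩

/-- Let G be a finite group with Sylow 2-subgroup P, and write k₂(G) for the number of conjugacy classes of G consisting of 2-elements (elements of 2-power order, the identity included). Then k₂(G) > |P|/2 if and only if G has a normal 2-complement and P has more than |P|/2 conjugacy classes. -/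
theorem result {G : Type*} [Group G] [Finite G] (P : Sylow 2 G) :
    Nat.card ↥(P : Subgroup G) < 2 * Nat.card {c : ConjClasses G // ∀ x ∈ c.carrier, ∃ k : ℕ, orderOf x = 2 ^ k} ↔
      Cfsg.HasNormalPComplement 2 G ∧ Nat.card ↥(P : Subgroup G) < 2 * Nat.card (ConjClasses ↥(P : Subgroup G)) := by
  constructor
  · intro h
    have hsurj := Nat.card_le_card_of_surjective (phi P) (phi_surj P)
    refine ⟨?_, by omega⟩
    by_contra hno
    have hnF : ¬ Frob 2 G := by
      intro hF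
      obtain ⟨N, hN, hc⟩ := frob_complement hF P
      exact hno ⟨P, N, hN, hc⟩
    obtain ⟨Q, P', y, hQP, hZ, hyN, hodd, hyC⟩ := exists_data hnF
    have hcount := count P' Q hQP hZ y hyN hodd hyC
    have hcard : Nat.card (P' : Subgroup G) = Nat.card (P : Subgroup G) := by
      rw [Sylow.card_eq_multiplicity, Sylow.card_eq_multiplicity]
    omega
  · rintro ⟨⟨P', N, hN, hc⟩, hk⟩
    haveI := hN
    obtain ⟨hcop, a, ha⟩ := core_of_isComplement' N P' hc
    have hF : Frob 2 G := frob_of_core N hcop ha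
    have hinj := Nat.card_le_card_of_injective (phi P) (phi_inj P hF)
    omega

end Cfsg.Agent.S3895
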