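import Cfsg.Statements.S3897
import Mathlib

set_option autoImplicit false
open Cfsg

namespace Cfsg.Agent.S3897


open scoped Pointwise

theorem orbit_bound {N X : Type*} [Group N] [Finite N] [Group X] [Finite X] [MulDistribMulAction N X]
    {p : ℕ} [Fact p.Prime] (hX : IsPGroup p X) (hnt : ∃ (n : N) (x : X), n • x ≠ x) :
    2 * p * Nat.card (Quotient (MulAction.orbitRel N X)) ≤ (p + 1) * Nat.card X := by
  classical
  haveI := Fintype.ofFinite N
  haveI := Fintype.ofFinite X
  haveI : Fintype (Quotient (MulAction.orbitRel N X)) := Fintype.ofFinite _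
  have hp1 : 1 ≤ p := (Fact.out : p.Prime).one_le
  let K : Subgroup N := (MulAction.toPermHom N X).ker
  have hK : ∀ n, n ∈ K ↔ ∀ x : X, n • x = x := by
    intro n
    rw [MonoidHom.mem_ker]
    constructor
    · intro h x
      have := congrArg (fun f : Equiv.Perm X => f x) h
      simpa using this
    · intro h
      ext x
      simpa using h x
  have hKtop : K ≠ ⊤ := by
    obtain ⟨n, x, hnx⟩ := hnt
    intro h
    exact hnx ((hK n).1 (h ▸ Subgroup.mem_top n) x)
  have hK2 : 2 * Nat.card K ≤ Nat.card N := by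
    have h1 := Subgroup.card_mul_index K
    have h2 : K.index ≠ 1 := fun h => hKtop (Subgroup.index_eq_one.1 h)
    have h3 : K.index ≠ 0 := Subgroup.index_ne_zero_of_finite
    have h4 : 2 ≤ K.index := by omega
    calc 2 * Nat.card K = Nat.card K * 2 := by ring
      _ ≤ Nat.card K * K.index := Nat.mul_le_mul_left _ h4
      _ = Nat.card N := h1
  let fixSub : N → Subgroup X := fun n =>
    { carrier := {x | n • x = x}
      mul_mem' := by
        intro a b ha hb
        simp only [Set.mem_setOf_eq] at *
        rw [smul_mul', ha, hb]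
      one_mem' := smul_one n
      inv_mem' := by
        intro a ha
        simp only [Set.mem_setOf_eq] at *
        rw [smul_inv', ha] }
  have hfix : ∀ n, Fintype.card (MulAction.fixedBy X n) = Nat.card (fixSub n) := by
    intro n
    rw [← Nat.card_eq_fintype_card]
    rfl
  have hfix1 : ∀ n, Nat.card (fixSub n) ≤ Nat.card X := fun n => Subgroup.card_le_card_group _
  have hfix2 : ∀ n, n ∉ K → p * Nat.card (fixSub n) ≤ Nat.card X := by
    intro n hn
    have h1 := Subgroup.card_mul_index (fixSub n)
    obtain ⟨k, hk⟩ := hX.index (fixSub n)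
    have h2 : (fixSub n).index ≠ 1 := by
      intro h
      apply hn
      rw [hK]
      intro x
      have : x ∈ fixSub n := by rw [Subgroup.index_eq_one.1 h]; exact Subgroup.mem_top x
      exact this
    have h3 : p ∣ (fixSub n).index := by
      rw [hk]
      rcases k with _ | k
      · exact absurd (by simpa using hk) h2
      · exact dvd_pow_self p (Nat.succ_ne_zero k)
    obtain ⟨c, hc⟩ := h3
    have hc0 : c ≠ 0 := by
      rintro rfl
      exact (Subgroup.index_ne_zero_of_finite (H := fixSub n)) (by simpa using hc)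
    have hc1 : 1 ≤ c := Nat.pos_of_ne_zero hc0
    calc p * Nat.card (fixSub n) = p * 1 * Nat.card (fixSub n) := by ring
      _ ≤ p * c * Nat.card (fixSub n) :=
          Nat.mul_le_mul_right _ (Nat.mul_le_mul_left _ hc1)
      _ = Nat.card X := by rw [← h1, hc]; ring
  have hB := MulAction.sum_card_fixedBy_eq_card_orbits_mul_card_group N X
  set orb := Nat.card (Quotient (MulAction.orbitRel N X)) with horb
  have horb' : Fintype.card (Quotient (MulAction.orbitRel N X)) = orb := by
    rw [horb, Nat.card_eq_fintype_card]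
  rw [horb'] at hB
  set a := (Finset.univ.filter (fun n : N => n ∈ K)).card with ha
  set b := (Finset.univ.filter (fun n : N => ¬ n ∈ K)).card with hb
  have hab : a + b = Nat.card N := by
    rw [ha, hb, Finset.card_filter_add_card_filter_not, Finset.card_univ, Nat.card_eq_fintype_card]
  have haK : a = Nat.card K := by
    rw [ha, Nat.card_eq_fintype_card, Fintype.card_subtype]
  have hsum : p * (∑ n : N, Fintype.card (MulAction.fixedBy X n))
      ≤ a * (p * Nat.card X) + b * Nat.card X := by
    rw [Finset.mul_sum]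
    calc ∑ n : N, p * Fintype.card (MulAction.fixedBy X n)
        ≤ ∑ n : N, (if n ∈ K then p * Nat.card X else Nat.card X) := by
          apply Finset.sum_le_sum
          intro n _
          rw [hfix]
          split_ifs with h
          · exact Nat.mul_le_mul_left _ (hfix1 n)
          · exact hfix2 n h
      _ = a * (p * Nat.card X) + b * Nat.card X := by
          rw [Finset.sum_ite, Finset.sum_const, Finset.sum_const, smul_eq_mul, smul_eq_mul]
  rw [hB] at hsum
  rw [Nat.card_eq_fintype_card (α := N)] at hab hK2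
  have hab2 : a ≤ b := by omega
  obtain ⟨d, hd'⟩ := Nat.exists_eq_add_of_le hab2
  rw [hd'] at hsum hab
  have hd : d ≤ p * d := Nat.le_mul_of_pos_left d (by omega)
  have hfin : (2 * p * orb) * Fintype.card N ≤ ((p + 1) * Nat.card X) * Fintype.card N := by
    rw [← hab]
    have e1 : (2 * p * orb) * Fintype.card N = 2 * (p * (orb * Fintype.card N)) := by ring
    rw [← hab] at e1 hsum
    rw [e1]
    calc 2 * (p * (orb * (a + (a + d)))) ≤ 2 * (a * (p * Nat.card X) + (a + d) * Nat.card X) :=
          Nat.mul_le_mul_left _ hsum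
      _ = (2 * a * p + 2 * a + 2 * d) * Nat.card X := by ring
      _ ≤ (2 * a * p + 2 * a + (d + p * d)) * Nat.card X := by
          apply Nat.mul_le_mul_right
          omega
      _ = ((p + 1) * Nat.card X) * (a + (a + d)) := by ring
  exact Nat.le_of_mul_le_mul_right hfin Fintype.card_pos

theorem pclass_of_mem {G : Type*} [Group G] {p : ℕ} [Fact p.Prime] (P : Sylow p G)
    (x : G) (hx : x ∈ (P : Subgroup G)) :
    ∀ y ∈ (ConjClasses.mk x).carrier, ∃ k : ℕ, orderOf y = p ^ k := by
  intro y hy
  rw [ConjClasses.mem_carrier_iff_mk_eq, ConjClasses.mk_eq_mk_iff_isConj, isConj_iff] at hy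
  obtain ⟨c, hc⟩ := hy
  have h1 : orderOf x = orderOf y := by
    rw [← hc]
    have := orderOf_injective (MulAut.conj c).toMonoidHom (MulAut.conj c).injective y
    simpa using this
  rw [← h1]
  have h2 := (IsPGroup.iff_orderOf.1 P.isPGroup') ⟨x, hx⟩
  obtain ⟨k, hk⟩ := h2
  exact ⟨k, by rw [← hk, Subgroup.orderOf_mk]⟩


/-- Let p be an odd prime and G a finite group with Sylow p-subgroup P, and write k_p(G) for the number of conjugacy classes of G consisting of p-elements (elements of p-power order, the identity included). Then k_p(G) > (p + 1)|P|/(2p) if and only if G has a normal p-complement and P is abelian. -/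
theorem result {G : Type*} [Group G] [Finite G] {p : ℕ} [Fact p.Prime] (hp : p ≠ 2) (P : Sylow p G) :
    (p + 1) * Nat.card ↥(P : Subgroup G) < 2 * p * Nat.card {c : ConjClasses G // ∀ x ∈ c.carrier, ∃ k : ℕ, orderOf x = p ^ k} ↔
      Cfsg.HasNormalPComplement p G ∧ IsMulCommutative ↥(P : Subgroup G) := by
  classical
  have hpp : p.Prime := Fact.out
  set kp := Nat.card {c : ConjClasses G // ∀ x ∈ c.carrier, ∃ k : ℕ, orderOf x = p ^ k} with hkp
  constructor
  · intro hlt
    have hNC : Subgroup.normalizer ((P : Subgroup G) : Set G) ≤ Subgroup.centralizer ((P : Subgroup G) : Set G) := by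
      by_contra hcon
      rw [SetLike.not_le_iff_exists] at hcon
      obtain ⟨n, hn, hnc⟩ := hcon
      rw [Subgroup.mem_centralizer_iff] at hnc
      push Not at hnc
      obtain ⟨x, hx, hxn⟩ := hnc
      have hnt : ∃ (n : ↥(Subgroup.normalizer ((P : Subgroup G) : Set G))) (x : ↥(P : Subgroup G)), n • x ≠ x := by
        refine ⟨⟨n, hn⟩, ⟨x, hx⟩, ?_⟩
        intro h
        have h1 : n * x * n⁻¹ = x := congrArg Subtype.val h
        exact hxn (mul_inv_eq_iff_eq_mul.1 h1).symm
      have hb := orbit_bound (N := ↥(Subgroup.normalizer ((P : Subgroup G) : Set G)))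
        (X := ↥(P : Subgroup G)) (p := p) P.isPGroup' hnt
      -- surjection from orbits onto the p-classes
      let φ : Quotient (MulAction.orbitRel ↥(Subgroup.normalizer ((P : Subgroup G) : Set G)) ↥(P : Subgroup G)) →
          {c : ConjClasses G // ∀ x ∈ c.carrier, ∃ k : ℕ, orderOf x = p ^ k} :=
        Quotient.lift (fun x : ↥(P : Subgroup G) =>
          (⟨ConjClasses.mk (x : G), pclass_of_mem P x x.2⟩ :
            {c : ConjClasses G // ∀ x ∈ c.carrier, ∃ k : ℕ, orderOf x = p ^ k})) (by
          intro x y hxy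
          apply Subtype.ext
          show ConjClasses.mk (x : G) = ConjClasses.mk (y : G)
          have hxy' : x ∈ MulAction.orbit ↥(Subgroup.normalizer ((P : Subgroup G) : Set G)) y := hxy
          obtain ⟨m, hm⟩ := hxy'
          have hm' : (m : G) * (y : G) * (m : G)⁻¹ = (x : G) := congrArg Subtype.val hm
          rw [ConjClasses.mk_eq_mk_iff_isConj, isConj_comm, isConj_iff]
          exact ⟨m, hm'⟩)
      have hφ : Function.Surjective φ := by
        rintro ⟨c, hc⟩
        obtain ⟨g, rfl⟩ := ConjClasses.exists_rep c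
        obtain ⟨k, hk⟩ := hc g ConjClasses.mem_carrier_mk
        have hpg : IsPGroup p (Subgroup.zpowers g) := by
          apply IsPGroup.of_card (n := k)
          rw [Nat.card_zpowers, hk]
        obtain ⟨Q, hQ⟩ := hpg.exists_le_sylow
        obtain ⟨a, ha⟩ := MulAction.exists_smul_eq G Q P
        have hmem : a * g * a⁻¹ ∈ (P : Subgroup G) := by
          rw [← ha, Sylow.smul_def]
          change _ ∈ MulAut.conj a • (Q : Subgroup G)
          rw [Subgroup.mem_pointwise_smul_iff_inv_smul_mem]
          have : (MulAut.conj a)⁻¹ • (a * g * a⁻¹) = g := by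
            rw [MulAut.smul_def, ← map_inv, MulAut.conj_apply]
            group
          rw [this]
          exact hQ (Subgroup.mem_zpowers g)
        refine ⟨Quotient.mk _ ⟨a * g * a⁻¹, hmem⟩, ?_⟩
        apply Subtype.ext
        show ConjClasses.mk (a * g * a⁻¹) = ConjClasses.mk g
        rw [ConjClasses.mk_eq_mk_iff_isConj, isConj_comm, isConj_iff]
        exact ⟨a, rfl⟩
      have hle : kp ≤ Nat.card (Quotient (MulAction.orbitRel ↥(Subgroup.normalizer ((P : Subgroup G) : Set G)) ↥(P : Subgroup G))) :=
        Nat.card_le_card_of_surjective φ hφ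
      have : 2 * p * kp ≤ (p + 1) * Nat.card ↥(P : Subgroup G) :=
        le_trans (Nat.mul_le_mul_left _ hle) hb
      omega
    refine ⟨⟨P, (MonoidHom.transferSylow P hNC).ker, inferInstance,
      MonoidHom.ker_transferSylow_isComplement' P hNC⟩, ?_⟩
    exact ⟨⟨fun a b => Subtype.ext (hNC (Subgroup.le_normalizer b.2) a a.2)⟩⟩
  · rintro ⟨⟨Q, K, hKn, hcomp⟩, hab⟩
    have hcardPQ : Nat.card ↥(P : Subgroup G) = Nat.card ↥(Q : Subgroup G) := by
      rw [Sylow.card_eq_multiplicity, Sylow.card_eq_multiplicity]
    have hmul : Nat.card ↥K * Nat.card ↥(P : Subgroup G) = Nat.card G := by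
      rw [hcardPQ]; exact hcomp.card_mul
    have hKidx : (Q : Subgroup G).index = Nat.card ↥K := hcomp.index_eq_card
    have hndvd : ¬ p ∣ Nat.card ↥K := by
      rw [← hKidx]; exact Sylow.not_dvd_index Q
    have hcop : Nat.Coprime (Nat.card ↥K) (Nat.card ↥(P : Subgroup G)) := by
      rw [Sylow.card_eq_multiplicity]
      exact Nat.Coprime.pow_right _ ((Nat.Prime.coprime_iff_not_dvd hpp).2 hndvd).symm
    have hcP : Subgroup.IsComplement' K (P : Subgroup G) :=
      Subgroup.isComplement'_of_coprime hmul hcop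
    have hc' : Function.Bijective (fun q : ↥K × ↥(P : Subgroup G) => (q.1 : G) * (q.2 : G)) := hcP
    have hdisj : K ⊓ (P : Subgroup G) = ⊥ := (Subgroup.IsComplement'.disjoint hcP).eq_bot
    let ψ : ↥(P : Subgroup G) → {c : ConjClasses G // ∀ x ∈ c.carrier, ∃ k : ℕ, orderOf x = p ^ k} :=
      fun x => ⟨ConjClasses.mk (x : G), pclass_of_mem P x x.2⟩
    have hψ : Function.Injective ψ := by
      intro x y hxy
      have h1 : ConjClasses.mk (x : G) = ConjClasses.mk (y : G) := congrArg Subtype.val hxy
      rw [ConjClasses.mk_eq_mk_iff_isConj, isConj_iff] at h1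
      obtain ⟨g, hg⟩ := h1
      obtain ⟨⟨k, u⟩, hku⟩ := hc'.2 g
      simp only at hku
      have hux : (u : G) * (x : G) * (u : G)⁻¹ = (x : G) := by
        have := hab.is_comm.comm u x
        have h2 : (u : G) * (x : G) = (x : G) * (u : G) := congrArg Subtype.val this
        rw [h2]; group
      have hy : (y : G) = (k : G) * (x : G) * (k : G)⁻¹ := by
        rw [← hg, ← hku]
        calc (k : G) * (u : G) * (x : G) * ((k : G) * (u : G))⁻¹
            = (k : G) * ((u : G) * (x : G) * (u : G)⁻¹) * (k : G)⁻¹ := by group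
          _ = (k : G) * (x : G) * (k : G)⁻¹ := by rw [hux]
      have hmemK : (y : G) * (x : G)⁻¹ ∈ K := by
        rw [hy]
        have h3 : (x : G) * (k : G)⁻¹ * (x : G)⁻¹ ∈ K := hKn.conj_mem _ (K.inv_mem k.2) _
        have h4 : (k : G) * (x : G) * (k : G)⁻¹ * (x : G)⁻¹ = (k : G) * ((x : G) * (k : G)⁻¹ * (x : G)⁻¹) := by group
        rw [h4]
        exact K.mul_mem k.2 h3
      have hmemP : (y : G) * (x : G)⁻¹ ∈ (P : Subgroup G) :=
        Subgroup.mul_mem _ y.2 (Subgroup.inv_mem _ x.2)
      have hbot : (y : G) * (x : G)⁻¹ ∈ K ⊓ (P : Subgroup G) := ⟨hmemK, hmemP⟩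
      rw [hdisj, Subgroup.mem_bot] at hbot
      apply Subtype.ext
      exact (mul_inv_eq_one.1 hbot).symm
    have hle : Nat.card ↥(P : Subgroup G) ≤ kp := Nat.card_le_card_of_injective ψ hψ
    have hpos : 0 < Nat.card ↥(P : Subgroup G) := Nat.card_pos
    have hp2 : 2 ≤ p := hpp.two_le
    calc (p + 1) * Nat.card ↥(P : Subgroup G) < 2 * p * Nat.card ↥(P : Subgroup G) := by
          apply Nat.mul_lt_mul_of_pos_right _ hpos
          omega
      _ ≤ 2 * p * kp := Nat.mul_le_mul_left _ hle

end Cfsg.Agent.S3897
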