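import Cfsg.Statements.S3908
import Mathlib
import Cfsg.Agent.S0016
import Cfsg.Agent.Lib.helper1.SZ

set_option autoImplicit false
open Cfsg

namespace Cfsg.Agent.S3908

universe u

theorem core {G : Type u} [Group G] [Finite G]
    (hB : ∀ A B : Subgroup G, IsMulCommutative ↥A → IsMulCommutative ↥B → Nat.card ↥A = Nat.card ↥B →
      ∃ g : G, B = A.map (MulAut.conj g).toMonoidHom)
    (p : ℕ) [Fact p.Prime] (P : Sylow p G) :
    (∀ x ∈ (P : Subgroup G), x ^ p = 1) ∨ IsCyclic ↥(P : Subgroup G) ∨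
      (p = 2 ∧ ∃ n : ℕ, Nonempty (↥(P : Subgroup G) ≃* QuaternionGroup (2 ^ n))) := by
  classical
  have hp : p.Prime := Fact.out
  by_cases hexp : ∀ x ∈ (P : Subgroup G), x ^ p = 1
  · exact Or.inl hexp
  right
  apply Cfsg.Agent.S0016.result p P.2
  intro H K hH hK
  by_contra hHK
  push Not at hexp
  obtain ⟨x, hx, hxp⟩ := hexp
  -- an element of order p^2
  obtain ⟨k, hk⟩ := P.2 ⟨x, hx⟩
  have hk' : x ^ p ^ k = 1 := by
    have := congrArg Subtype.val hk
    simpa using this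
  obtain ⟨j, hj, hoj⟩ := (Nat.dvd_prime_pow hp).mp (orderOf_dvd_of_pow_eq_one hk')
  have hj2 : 2 ≤ j := by
    by_contra hlt
    apply hxp
    have : orderOf x ∣ p := by
      rw [hoj]
      have : j = 0 ∨ j = 1 := by omega
      rcases this with rfl | rfl <;> simp
    exact orderOf_dvd_iff_pow_eq_one.mp this
  let y : G := x ^ p ^ (j - 2)
  have hoy : orderOf y = p ^ 2 := by
    show orderOf (x ^ p ^ (j - 2)) = p ^ 2
    rw [orderOf_pow_of_dvd (pow_pos hp.pos _).ne' (by rw [hoj]; exact pow_dvd_pow p (by omega)), hoj,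
      Nat.pow_div (by omega) hp.pos]
    congr 1; omega
  -- a central element of order p
  haveI : Nontrivial ↥(P : Subgroup G) := by
    refine ⟨⟨⟨x, hx⟩, 1, ?_⟩⟩
    intro h
    apply hxp
    have := congrArg Subtype.val h
    simp only [Subgroup.coe_one] at this
    rw [this, one_pow]
  haveI := P.2.center_nontrivial
  have hcz : p ∣ Nat.card (Subgroup.center ↥(P : Subgroup G)) := by
    have h1 : IsPGroup p (Subgroup.center ↥(P : Subgroup G)) := P.2.to_subgroup _
    obtain ⟨n, hn⟩ := IsPGroup.iff_card.mp h1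
    have h2 : 1 < Nat.card (Subgroup.center ↥(P : Subgroup G)) := Finite.one_lt_card
    rw [hn] at h2 ⊢
    have : n ≠ 0 := by rintro rfl; simp at h2
    exact dvd_pow_self p this
  obtain ⟨z₀, hz₀⟩ := exists_prime_orderOf_dvd_card' p hcz
  let z : ↥(P : Subgroup G) := z₀.1
  have hoz : orderOf z = p := (Subgroup.orderOf_coe z₀).trans hz₀
  have hzc : ∀ g : ↥(P : Subgroup G), g * z = z * g := fun g => Subgroup.mem_center_iff.mp z₀.2 g
  let Z : Subgroup ↥(P : Subgroup G) := Subgroup.zpowers z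
  have hZcard : Nat.card Z = p := by rw [Nat.card_zpowers, hoz]
  have hZc : ∀ w ∈ Z, ∀ g : ↥(P : Subgroup G), g * w = w * g := by
    intro w hw g
    obtain ⟨i, rfl⟩ := Subgroup.mem_zpowers_iff.mp hw
    exact (Commute.zpow_right (show Commute g z from hzc g) i).eq
  haveI hZn : Z.Normal := by
    constructor
    intro n hn g
    rw [hZc n hn g, mul_inv_cancel_right]
    exact hn
  -- a subgroup of order p different from Z
  obtain ⟨H', hH', hH'Z⟩ : ∃ H' : Subgroup ↥(P : Subgroup G), Nat.card H' = p ∧ H' ≠ Z := by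
    by_cases h : H = Z
    · exact ⟨K, hK, fun h' => hHK (h.trans h'.symm)⟩
    · exact ⟨H, hH, h⟩
  have hdisj : Disjoint H' Z := by
    rw [disjoint_iff]
    have h1 : Nat.card (H' ⊓ Z : Subgroup ↥(P : Subgroup G)) ∣ p := by
      have h0 := Subgroup.card_dvd_of_le (inf_le_left : H' ⊓ Z ≤ H')
      rwa [hH'] at h0
    rcases (Nat.dvd_prime hp).mp h1 with h2 | h2
    · exact Subgroup.card_eq_one.mp h2
    · exfalso
      have h3 : H' ⊓ Z = H' := Subgroup.eq_of_le_of_card_ge inf_le_left (by omega)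
      have h4 : H' ⊓ Z = Z := Subgroup.eq_of_le_of_card_ge inf_le_right (by omega)
      exact hH'Z (h3.symm.trans h4)
  have hEcard : Nat.card (H' ⊔ Z : Subgroup ↥(P : Subgroup G)) = p ^ 2 := by
    rw [Cfsg.Agent.Lib.helper1.card_sup_of_disjoint_normal H' Z hdisj, hZcard, hH', sq]
  have hH'comm : ∀ a ∈ H', ∀ b ∈ H', a * b = b * a := by
    haveI : IsCyclic H' := isCyclic_of_prime_card hH'
    obtain ⟨c, hc⟩ := IsCyclic.exists_generator (α := H')
    intro a ha b hb
    obtain ⟨i, hi⟩ := Subgroup.mem_zpowers_iff.mp (hc ⟨a, ha⟩)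
    obtain ⟨i', hi'⟩ := Subgroup.mem_zpowers_iff.mp (hc ⟨b, hb⟩)
    have ha' : a = (c : ↥(P : Subgroup G)) ^ i := by
      have := congrArg Subtype.val hi; simpa using this.symm
    have hb' : b = (c : ↥(P : Subgroup G)) ^ i' := by
      have := congrArg Subtype.val hi'; simpa using this.symm
    rw [ha', hb', ← zpow_add, ← zpow_add, add_comm]
  have hEdec : ∀ e ∈ (H' ⊔ Z : Subgroup ↥(P : Subgroup G)), ∃ a ∈ H', ∃ w ∈ Z, e = a * w := by
    intro e he
    have h1 : e ∈ ((H' ⊔ Z : Subgroup ↥(P : Subgroup G)) : Set ↥(P : Subgroup G)) := he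
    rw [Subgroup.mul_normal] at h1
    obtain ⟨a, ha, w, hw, rfl⟩ := Set.mem_mul.mp h1
    exact ⟨a, ha, w, hw, rfl⟩
  have hEcomm : ∀ e₁ ∈ (H' ⊔ Z : Subgroup ↥(P : Subgroup G)), ∀ e₂ ∈ (H' ⊔ Z : Subgroup ↥(P : Subgroup G)),
      e₁ * e₂ = e₂ * e₁ := by
    intro e₁ he₁ e₂ he₂
    obtain ⟨a₁, ha₁, w₁, hw₁, rfl⟩ := hEdec e₁ he₁
    obtain ⟨a₂, ha₂, w₂, hw₂, rfl⟩ := hEdec e₂ he₂
    calc a₁ * w₁ * (a₂ * w₂) = a₁ * (w₁ * a₂) * w₂ := by group
      _ = a₁ * (a₂ * w₁) * w₂ := by rw [hZc w₁ hw₁ a₂]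
      _ = (a₁ * a₂) * (w₁ * w₂) := by group
      _ = (a₂ * a₁) * (w₂ * w₁) := by rw [hH'comm a₁ ha₁ a₂ ha₂, hZc w₁ hw₁ w₂]
      _ = a₂ * (a₁ * w₂) * w₁ := by group
      _ = a₂ * (w₂ * a₁) * w₁ := by rw [hZc w₂ hw₂ a₁]
      _ = a₂ * w₂ * (a₁ * w₁) := by group
  have hEexp : ∀ e ∈ (H' ⊔ Z : Subgroup ↥(P : Subgroup G)), e ^ p = 1 := by
    intro e he
    obtain ⟨a, ha, w, hw, rfl⟩ := hEdec e he
    have h1 : a ^ p = 1 := by
      have := pow_card_eq_one' (G := H') (x := ⟨a, ha⟩)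
      rw [hH'] at this
      have := congrArg Subtype.val this
      simpa using this
    have h2 : w ^ p = 1 := by
      have := pow_card_eq_one' (G := Z) (x := ⟨w, hw⟩)
      rw [hZcard] at this
      have := congrArg Subtype.val this
      simpa using this
    rw [(show Commute a w from hZc w hw a).mul_pow, h1, h2, one_mul]
  -- transfer to G
  let E' : Subgroup G := (H' ⊔ Z : Subgroup ↥(P : Subgroup G)).map (P : Subgroup G).subtype
  have hE'card : Nat.card E' = p ^ 2 := by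
    rw [← hEcard]
    exact Subgroup.card_map_of_injective (Subgroup.subtype_injective _)
  have hE'comm : IsMulCommutative ↥E' := by
    refine ⟨⟨fun a b => Subtype.ext ?_⟩⟩
    obtain ⟨a', ha', haa⟩ := Subgroup.mem_map.mp a.2
    obtain ⟨b', hb', hbb⟩ := Subgroup.mem_map.mp b.2
    show (a : G) * (b : G) = (b : G) * (a : G)
    rw [← haa, ← hbb, ← map_mul, ← map_mul, hEcomm a' ha' b' hb']
  let Y : Subgroup G := Subgroup.zpowers y
  have hYcard : Nat.card Y = p ^ 2 := by rw [Nat.card_zpowers, hoy]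
  have hYcomm : IsMulCommutative ↥Y := by
    refine ⟨⟨fun a b => Subtype.ext ?_⟩⟩
    obtain ⟨i, hi⟩ := Subgroup.mem_zpowers_iff.mp a.2
    obtain ⟨i', hi'⟩ := Subgroup.mem_zpowers_iff.mp b.2
    show (a : G) * (b : G) = (b : G) * (a : G)
    rw [← hi, ← hi', ← zpow_add, ← zpow_add, add_comm]
  obtain ⟨g, hg⟩ := hB E' Y hE'comm hYcomm (hE'card.trans hYcard.symm)
  have hyY : y ∈ Y := Subgroup.mem_zpowers y
  rw [hg] at hyY
  obtain ⟨e, he, hey⟩ := Subgroup.mem_map.mp hyY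
  obtain ⟨e', he', hee⟩ := Subgroup.mem_map.mp he
  have h1 : e ^ p = 1 := by
    rw [← hee, ← map_pow, hEexp e' he', map_one]
  have h2 : y ^ p = 1 := by
    rw [← hey, ← map_pow, h1, map_one]
  have h3 : p ^ 2 ∣ p := by rw [← hoy]; exact orderOf_dvd_of_pow_eq_one h2
  have h4 : p ^ 2 ≤ p := Nat.le_of_dvd hp.pos h3
  have h5 : 2 ≤ p := hp.two_le
  nlinarith

/-- Let G be a finite group in which any two abelian subgroups of the same order are conjugate. Then a Sylow 2-subgroup of G is cyclic, elementary abelian or generalized quaternion, and for an odd prime p a Sylow p-subgroup of G is cyclic or has exponent dividing p. -/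
theorem result {G : Type*} [Group G] [Finite G] (hB : ∀ A B : Subgroup G, IsMulCommutative ↥A → IsMulCommutative ↥B → Nat.card ↥A = Nat.card ↥B → ∃ g : G, B = A.map (MulAut.conj g).toMonoidHom) :
    (∀ P : Sylow 2 G, IsCyclic ↥(P : Subgroup G) ∨ Cfsg.IsElementaryAbelian 2 (P : Subgroup G) ∨ ∃ k : ℕ, Nonempty (↥(P : Subgroup G) ≃* QuaternionGroup (2 ^ k))) ∧
    ∀ (p : ℕ) [Fact p.Prime], p ≠ 2 → ∀ P : Sylow p G, IsCyclic ↥(P : Subgroup G) ∨ ∀ x ∈ (P : Subgroup G), x ^ p = 1 := by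
  constructor
  · intro P
    haveI : Fact (Nat.Prime 2) := ⟨Nat.prime_two⟩
    rcases core hB 2 P with h | h | ⟨_, n, hn⟩
    · right; left
      refine ⟨⟨⟨fun a b => Subtype.ext ?_⟩⟩, h⟩
      have ha := h a.1 a.2
      have hb := h b.1 b.2
      have hab := h (a.1 * b.1) (mul_mem a.2 b.2)
      show (a : G) * (b : G) = (b : G) * (a : G)
      have e1 : (a : G) * b = ((a : G) * b)⁻¹ := by
        rw [eq_inv_iff_mul_eq_one, ← sq]; exact hab
      have e2 : (a : G)⁻¹ = a := by rw [inv_eq_iff_mul_eq_one, ← sq]; exact ha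
      have e3 : (b : G)⁻¹ = b := by rw [inv_eq_iff_mul_eq_one, ← sq]; exact hb
      rw [e1, mul_inv_rev, e2, e3]
    · left; exact h
    · right; right; exact ⟨n, hn⟩
  · intro p _ hp2 P
    rcases core hB p P with h | h | ⟨h, _⟩
    · right; exact h
    · left; exact h
    · exact absurd h hp2

end Cfsg.Agent.S3908
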