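import Cfsg.Statements.S3909
import Mathlib

set_option autoImplicit false
open Cfsg

namespace Cfsg.Agent.S3909

theorem mem_conj_map {G : Type*} [Group G] (K : Subgroup G) (g y : G) :
    y ∈ K.map (MulAut.conj g).toMonoidHom ↔ g⁻¹ * y * g ∈ K := by
  constructor
  · rintro ⟨k, hk, rfl⟩
    simpa [MulAut.conj_apply, mul_assoc] using hk
  · intro h
    refine ⟨g⁻¹ * y * g, h, ?_⟩
    simp [MulAut.conj_apply, mul_assoc]

theorem conj_le_normal {G : Type*} [Group G] (A H : Subgroup G) [A.Normal] (hHA : H ≤ A) (g : G) :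
    H.map (MulAut.conj g).toMonoidHom ≤ A := by
  intro y hy
  rw [mem_conj_map] at hy
  have h1 := hHA hy
  have h2 : y = g * (g⁻¹ * y * g) * g⁻¹ := by group
  rw [h2]
  exact Subgroup.Normal.conj_mem inferInstance _ h1 g

theorem part_one {G : Type*} [Group G] [Finite G] (hB : ∀ A B : Subgroup G, IsMulCommutative ↥A → IsMulCommutative ↥B → Nat.card ↥A = Nat.card ↥B → ∃ g : G, B = A.map (MulAut.conj g).toMonoidHom) (M : Subgroup G) [M.Normal] :
    ∀ a : G, (∃ m ∈ M, orderOf m = orderOf a) → a ∈ M := by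
  rintro a ⟨m, hm, hord⟩
  obtain ⟨g, hg⟩ := hB (Subgroup.zpowers m) (Subgroup.zpowers a) inferInstance inferInstance
    (by rw [Nat.card_zpowers, Nat.card_zpowers, hord])
  have h1 : a ∈ Subgroup.zpowers a := Subgroup.mem_zpowers a
  rw [hg] at h1
  exact conj_le_normal M _ ((Subgroup.zpowers_le).2 hm) g h1


/-- Let G be a finite group in which any two abelian subgroups of the same order are conjugate. Let M be a normal subgroup of G. If M contains an element of the same order as a ∈ G, then a ∈ M; and if M is elementary abelian of order p^t with p prime and t ≥ 2, then M is the unique Sylow p-subgroup of G. -/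
theorem result {G : Type*} [Group G] [Finite G] (hB : ∀ A B : Subgroup G, IsMulCommutative ↥A → IsMulCommutative ↥B → Nat.card ↥A = Nat.card ↥B → ∃ g : G, B = A.map (MulAut.conj g).toMonoidHom) (M : Subgroup G) [M.Normal] :
    (∀ a : G, (∃ m ∈ M, orderOf m = orderOf a) → a ∈ M) ∧
    ∀ (p t : ℕ) [Fact p.Prime], 2 ≤ t → Nat.card ↥M = p ^ t → Cfsg.IsElementaryAbelian p M → ∀ P : Sylow p G, (P : Subgroup G) = M := by
  refine ⟨part_one hB M, ?_⟩
  intro p t _ ht hcard hel P
  have hp : p.Prime := Fact.out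
  have hMp : IsPGroup p M := IsPGroup.of_card hcard
  have hMP : M ≤ (P : Subgroup G) := hMp.le_sylow_of_normal P
  apply le_antisymm _ hMP
  by_contra hnot
  obtain ⟨y, hyP, hyM⟩ := Set.not_subset.1 hnot
  -- find x in P outside M with x ^ p in M
  obtain ⟨k, hk⟩ := P.isPGroup' ⟨y, hyP⟩
  have hk' : y ^ p ^ k = 1 := by
    have := congrArg Subtype.val hk
    simpa using this
  have hex : ∃ j : ℕ, y ^ p ^ j ∈ M := ⟨k, by rw [hk']; exact M.one_mem⟩
  classical
  set j := Nat.find hex with hj
  have hj1 : y ^ p ^ j ∈ M := Nat.find_spec hex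
  have hjpos : 0 < j := by
    rcases Nat.eq_zero_or_pos j with h0 | h0
    · rw [h0] at hj1
      simp at hj1
      exact absurd hj1 hyM
    · exact h0
  set x := y ^ p ^ (j - 1) with hx
  have hxM : x ∉ M := Nat.find_min hex (by omega : j - 1 < j)
  have hxp : x ^ p ∈ M := by
    have : x ^ p = y ^ p ^ j := by
      rw [hx, ← pow_mul, ← pow_succ, Nat.sub_add_cancel hjpos]
    rw [this]; exact hj1
  have hxP : x ∈ (P : Subgroup G) := Subgroup.pow_mem _ hyP _
  -- order of x is p ^ 2
  have hMne : ∃ m ∈ M, m ≠ 1 := by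
    by_contra hall
    push Not at hall
    have : M = ⊥ := (Subgroup.eq_bot_iff_forall M).2 hall
    rw [this] at hcard
    simp at hcard
    have h1 : 1 < p ^ t := Nat.one_lt_pow (by omega) hp.one_lt
    omega
  obtain ⟨m, hmM, hm1⟩ := hMne
  have hmord : orderOf m = p := orderOf_eq_prime (hel.2 m hmM) hm1
  have hxpp : x ^ p ^ 2 = 1 := by
    rw [pow_two, pow_mul]
    exact hel.2 _ hxp
  obtain ⟨i, hi, hxord⟩ := (Nat.dvd_prime_pow hp).1 (orderOf_dvd_of_pow_eq_one hxpp)
  have hi2 : i = 2 := by
    interval_cases i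
    · exfalso
      apply hxM
      rw [pow_zero, orderOf_eq_one_iff] at hxord
      rw [hxord]; exact M.one_mem
    · exfalso
      apply hxM
      exact part_one hB M x ⟨m, hmM, by rw [hmord, hxord, pow_one]⟩
    · rfl
  rw [hi2] at hxord
  -- subgroup of M of order p ^ 2
  have hle : p ^ 2 ≤ Nat.card M := by
    rw [hcard]; exact Nat.pow_le_pow_right hp.pos ht
  obtain ⟨K, hK⟩ := Sylow.exists_subgroup_card_pow_prime_of_le_card hp hMp hle
  have hcomm : IsMulCommutative M := hel.1
  have hKc : IsMulCommutative (K.map M.subtype) := inferInstance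
  have hKcard : Nat.card (K.map M.subtype) = p ^ 2 := by
    rw [Subgroup.card_map_of_injective M.subtype_injective, hK]
  obtain ⟨g, hg⟩ := hB (K.map M.subtype) (Subgroup.zpowers x) hKc inferInstance
    (by rw [hKcard, Nat.card_zpowers, hxord])
  have h1 : x ∈ Subgroup.zpowers x := Subgroup.mem_zpowers x
  rw [hg] at h1
  exact hxM (conj_le_normal M _ (Subgroup.map_subtype_le K) g h1)

end Cfsg.Agent.S3909
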