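import Cfsg.Statements.S3910
import Mathlib

set_option autoImplicit false
open Cfsg

namespace Cfsg.Agent.S3910

theorem mem_conj_map {G : Type*} [Group G] (K : Subgroup G) (g y : G) :
    y ∈ K.map (MulAut.conj g).toMonoidHom ↔ g⁻¹ * y * g ∈ K := by
  constructor
  · rintro ⟨k, hk, rfl⟩
    simpa [MulAut.conj_apply, mul_assoc] using hk
  · intro h
    refine ⟨g⁻¹ * y * g, h, ?_⟩
    simp [MulAut.conj_apply, mul_assoc]

/-- A finite group is not the union of the conjugates of a proper subgroup. -/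
theorem not_union_conj {G : Type*} [Group G] [Finite G] (H : Subgroup G) (hH : H ≠ ⊤) :
    ∃ x : G, ∀ g : G, g⁻¹ * x * g ∉ H := by
  by_contra hcon
  push Not at hcon
  apply hH
  let F : (G ⧸ H) × H → G := fun qh => qh.1.out * (qh.2 : G) * qh.1.out⁻¹
  have hsurj : Function.Surjective F := by
    intro x
    obtain ⟨g, hg⟩ := hcon x
    obtain ⟨k, hk⟩ := QuotientGroup.mk_out_eq_mul H g
    refine ⟨((g : G ⧸ H), ⟨(g * k)⁻¹ * x * (g * k), ?_⟩), ?_⟩
    · have : (g * (k : G))⁻¹ * x * (g * k) = (k : G)⁻¹ * (g⁻¹ * x * g) * k := by group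
      rw [this]
      exact H.mul_mem (H.mul_mem (H.inv_mem k.2) hg) k.2
    · show (g : G ⧸ H).out * ((g * k)⁻¹ * x * (g * k)) * (g : G ⧸ H).out⁻¹ = x
      rw [hk]; group
  have hinj : Function.Injective F :=
    (Finite.injective_iff_surjective_of_equiv (Subgroup.groupEquivQuotientProdSubgroup (s := H)).symm).2 hsurj
  rw [eq_top_iff]
  intro g _
  have h1 : F ((g : G ⧸ H), 1) = F (((1 : G) : G ⧸ H), 1) := by
    show (g : G ⧸ H).out * ((1 : H) : G) * (g : G ⧸ H).out⁻¹ = ((1 : G) : G ⧸ H).out * ((1 : H) : G) * ((1 : G) : G ⧸ H).out⁻¹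
    simp
  have h2 := congrArg Prod.fst (hinj h1)
  have h3 : (g : G ⧸ H) = ((1 : G) : G ⧸ H) := h2
  rw [QuotientGroup.eq] at h3
  simpa using H.inv_mem h3

theorem commute_p_p' {G : Type*} [Group G] [Finite G] (hnil : Group.IsNilpotent G) (p : ℕ) [Fact p.Prime]
    (u v : G) (hu : ∃ a : ℕ, orderOf u = p ^ a) (hv : (orderOf v).Coprime p) : Commute u v := by
  have hp : p.Prime := Fact.out
  have hnorm : ∀ (q : ℕ) [Fact q.Prime] (Q : Sylow q G), (Q : Subgroup G).Normal :=
    fun q _ Q => Sylow.normal_of_normalizerCondition Group.normalizerCondition_of_isNilpotent Q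
  obtain ⟨a, ha⟩ := hu
  have hzp : IsPGroup p (Subgroup.zpowers u) := IsPGroup.of_card (n := a) (by rw [Nat.card_zpowers, ha])
  obtain ⟨P, hP⟩ := hzp.exists_le_sylow
  have huP : u ∈ (P : Subgroup G) := hP (Subgroup.mem_zpowers u)
  have hPn : (P : Subgroup G).Normal := hnorm p P
  set S : Set (Subgroup G) := {N : Subgroup G | N.Normal ∧ (Nat.card N).Coprime p} with hS
  set K : Subgroup G := sSup S with hK
  have hKn : K.Normal := Subgroup.sSup_normal _ (fun _ h => h.1)
  have hKC : K ≤ Subgroup.centralizer {u} := by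
    apply sSup_le
    rintro N ⟨hNn, hNc⟩
    have hdis : Disjoint N (P : Subgroup G) := by
      rw [Subgroup.disjoint_def]
      intro x hxN hxP
      have h1 : orderOf x ∣ Nat.card N := by
        have := orderOf_dvd_natCard (⟨x, hxN⟩ : N)
        rwa [Subgroup.orderOf_mk] at this
      obtain ⟨k, hk⟩ := P.isPGroup' ⟨x, hxP⟩
      have hk' : x ^ p ^ k = 1 := by
        have := congrArg Subtype.val hk
        simpa using this
      have h2 : orderOf x ∣ p ^ k := orderOf_dvd_of_pow_eq_one hk'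
      have h3 : (Nat.card N).Coprime (p ^ k) := Nat.Coprime.pow_right k hNc
      exact orderOf_eq_one_iff.1 (Nat.eq_one_of_dvd_coprimes h3 h1 h2)
    intro n hn
    rw [Subgroup.mem_centralizer_singleton_iff]
    exact (Subgroup.commute_of_normal_of_disjoint N P hNn hPn hdis n u hn huP).eq
  have hvK : v ∈ K := by
    rw [← QuotientGroup.eq_one_iff, ← orderOf_eq_one_iff]
    by_contra hne
    obtain ⟨q, hq, hqd⟩ := Nat.exists_prime_and_dvd hne
    have h1 : orderOf (v : G ⧸ K) ∣ orderOf v := by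
      apply orderOf_dvd_of_pow_eq_one
      rw [← QuotientGroup.mk_pow, pow_orderOf_eq_one]; rfl
    have h2 : orderOf (v : G ⧸ K) ∣ K.index := by
      rw [Subgroup.index_eq_card]; exact orderOf_dvd_natCard _
    have hqp : q ≠ p := by
      rintro rfl
      have : q ∣ orderOf v := hqd.trans h1
      exact (Nat.Prime.coprime_iff_not_dvd hq).1 hv.symm this
    have : Fact q.Prime := ⟨hq⟩
    obtain ⟨Q⟩ : Nonempty (Sylow q G) := inferInstance
    have hQK : (Q : Subgroup G) ≤ K := by
      apply le_sSup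
      refine ⟨hnorm q Q, ?_⟩
      obtain ⟨n, hn⟩ := IsPGroup.iff_card.1 Q.isPGroup'
      have hn' : Nat.card (Q : Subgroup G) = q ^ n := hn
      rw [hn']
      exact Nat.Coprime.pow_left n ((Nat.coprime_primes hq hp).2 hqp)
    have h3 : K.index ∣ (Q : Subgroup G).index := Subgroup.index_dvd_of_le hQK
    exact Q.not_dvd_index ((hqd.trans h2).trans h3)
  have := hKC hvK
  rw [Subgroup.mem_centralizer_singleton_iff] at this
  exact this.symm

theorem exists_order_dvd {G : Type*} [Group G] [Finite G] (hnil : Group.IsNilpotent G) :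
    ∃ x : G, ∀ y : G, orderOf y ∣ orderOf x := by
  obtain ⟨x, hx⟩ := Finite.exists_max (fun g : G => orderOf g)
  refine ⟨x, fun y => ?_⟩
  by_contra hnd
  have hx0 : orderOf x ≠ 0 := (orderOf_pos x).ne'
  have hy0 : orderOf y ≠ 0 := (orderOf_pos y).ne'
  have hnle : ¬ (orderOf y).factorization ≤ (orderOf x).factorization :=
    fun h => hnd ((Nat.factorization_le_iff_dvd hy0 hx0).1 h)
  rw [Finsupp.le_def] at hnle
  push Not at hnle
  obtain ⟨p, hp⟩ := hnle
  have hpp : p.Prime := by
    by_contra hnp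
    simp [Nat.factorization_eq_zero_of_not_prime _ hnp] at hp
  have : Fact p.Prime := ⟨hpp⟩
  set u := y ^ (ordCompl[p] (orderOf y)) with hu
  set v := x ^ (ordProj[p] (orderOf x)) with hv
  have hu_ord : orderOf u = ordProj[p] (orderOf y) := by
    rw [hu, orderOf_pow_of_dvd (Nat.ordCompl_pos p hy0).ne' (Nat.ordCompl_dvd _ p)]
    apply Nat.div_eq_of_eq_mul_left (Nat.ordCompl_pos p hy0)
    exact (Nat.ordProj_mul_ordCompl_eq_self _ p).symm
  have hv_ord : orderOf v = ordCompl[p] (orderOf x) := by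
    rw [hv, orderOf_pow_of_dvd (Nat.ordProj_pos _ p).ne' (Nat.ordProj_dvd _ p)]
  have hcop : (orderOf v).Coprime p := by
    rw [hv_ord]; exact (Nat.coprime_ordCompl hpp hx0).symm
  have hcomm : Commute u v := commute_p_p' hnil p u v ⟨_, hu_ord⟩ hcop
  have hord : orderOf (u * v) = orderOf u * orderOf v :=
    hcomm.orderOf_mul_eq_mul_orderOf_of_coprime (by
      rw [hu_ord]; exact Nat.Coprime.pow_left _ hcop.symm)
  have hle := hx (u * v)
  rw [hord, hu_ord, hv_ord] at hle
  have hlt : ordProj[p] (orderOf x) < ordProj[p] (orderOf y) :=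
    Nat.pow_lt_pow_right hpp.one_lt hp
  have hpos : 0 < ordCompl[p] (orderOf x) := Nat.ordCompl_pos p hx0
  have h4 : ordProj[p] (orderOf x) * ordCompl[p] (orderOf x) = orderOf x :=
    Nat.ordProj_mul_ordCompl_eq_self _ p
  nlinarith


/-- A finite nilpotent group in which any two abelian subgroups of the same order are conjugate is cyclic. -/
theorem result {G : Type*} [Group G] [Finite G] (hB : ∀ A B : Subgroup G, IsMulCommutative ↥A → IsMulCommutative ↥B → Nat.card ↥A = Nat.card ↥B → ∃ g : G, B = A.map (MulAut.conj g).toMonoidHom) (hnil : Group.IsNilpotent G) : IsCyclic G := by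
  obtain ⟨x, hx⟩ := exists_order_dvd hnil
  have htop : Subgroup.zpowers x = ⊤ := by
    by_contra hne
    obtain ⟨y, hy⟩ := not_union_conj (Subgroup.zpowers x) hne
    have hx0 : orderOf x ≠ 0 := (orderOf_pos x).ne'
    have hord : orderOf (x ^ (orderOf x / orderOf y)) = orderOf y :=
      orderOf_pow_orderOf_div hx0 (hx y)
    obtain ⟨g, hg⟩ := hB (Subgroup.zpowers (x ^ (orderOf x / orderOf y))) (Subgroup.zpowers y)
      inferInstance inferInstance (by rw [Nat.card_zpowers, Nat.card_zpowers, hord])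
    have h1 : y ∈ Subgroup.zpowers y := Subgroup.mem_zpowers y
    rw [hg, mem_conj_map] at h1
    apply hy g
    exact (Subgroup.zpowers_le.2 (Subgroup.pow_mem _ (Subgroup.mem_zpowers x) _)) h1
  exact isCyclic_iff_exists_zpowers_eq_top.2 ⟨x, htop⟩

end Cfsg.Agent.S3910
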