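import Cfsg.Statements.S3917
import Mathlib

set_option autoImplicit false
open Cfsg

namespace Cfsg.Agent.S3917

open Finset in
theorem exists_prime_many {G : Type*} [CommGroup G] [Fintype G] [DecidableEq G] (hnc : ¬ IsCyclic G) :
    ∃ p : ℕ, p.Prime ∧ p < #{a : G | a ^ p = 1} := by
  by_contra hcon
  push Not at hcon
  apply hnc
  apply isCyclic_of_card_pow_eq_one_le
  intro n
  induction n using Nat.strong_induction_on with
  | _ n ih =>
    intro hn
    rcases Nat.lt_or_ge 1 n with h1 | h1
    · obtain ⟨p, hp, m, rfl⟩ := Nat.exists_prime_and_dvd (show n ≠ 1 by omega)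
      have hm : 0 < m := by
        rcases Nat.eq_zero_or_pos m with h | h
        · subst h; simp at hn
        · exact h
      have hlt : m < p * m := by
        have := hp.two_le
        nlinarith
      have hm' := ih m hlt hm
      have hp' := hcon p hp
      have h1 : #{a : G | a ^ (p * m) = 1} ≤ #{a : G | a ^ p = 1} * #(image (fun a : G => a ^ p) {a : G | a ^ (p * m) = 1}) := by
        apply Finset.card_le_mul_card_image
        intro b hb
        obtain ⟨a0, ha0, rfl⟩ := Finset.mem_image.mp hb
        apply Finset.card_le_card_of_injOn (fun x => x * a0⁻¹)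
        · intro x hx
          simp only [Finset.coe_filter, Finset.mem_filter, Finset.mem_univ, true_and, Set.mem_ofPred_eq] at hx ⊢
          rw [mul_pow, inv_pow, hx.2, mul_inv_cancel]
        · intro x _ y _ hxy
          exact mul_right_cancel hxy
      have h2 : #(image (fun a : G => a ^ p) {a : G | a ^ (p * m) = 1}) ≤ #{a : G | a ^ m = 1} := by
        apply Finset.card_le_card
        intro b hb
        obtain ⟨a0, ha0, rfl⟩ := Finset.mem_image.mp hb
        simp only [Finset.mem_filter, Finset.mem_univ, true_and] at ha0 ⊢
        rw [← pow_mul]; exact ha0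
      calc #{a : G | a ^ (p * m) = 1} ≤ #{a : G | a ^ p = 1} * #(image (fun a : G => a ^ p) {a : G | a ^ (p * m) = 1}) := h1
        _ ≤ p * m := Nat.mul_le_mul hp' (h2.trans hm')
    · have : n = 1 := by omega
      subst this
      simp only [pow_one]
      rw [Finset.filter_eq']
      simp

/-- Say that a group has self-centralizing non-cyclic subgroups when every non-cyclic subgroup H satisfies C_G(H) ≤ H. A finite abelian group with self-centralizing non-cyclic subgroups is cyclic or elementary abelian of order p² for a prime p. -/
theorem result {G : Type*} [CommGroup G] [Finite G] (hX : (∀ H : Subgroup G, ¬ IsCyclic ↥H → Subgroup.centralizer (H : Set G) ≤ H)) :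
    IsCyclic G ∨ ∃ p : ℕ, p.Prime ∧ Nat.card G = p ^ 2 ∧ Monoid.exponent G = p := by
  classical
  by_contra hcon
  push Not at hcon
  obtain ⟨hnc, hnp⟩ := hcon
  have key : ∀ H : Subgroup G, ¬ IsCyclic H → H = ⊤ := by
    intro H hH
    exact top_le_iff.mp (le_trans (fun x _ => Subgroup.mem_centralizer_iff.mpr (fun y _ => mul_comm y x)) (hX H hH))
  have : Fintype G := Fintype.ofFinite G
  obtain ⟨p, hp, hlt⟩ := exists_prime_many hnc
  have : Fact p.Prime := ⟨hp⟩
  have hnt : Nontrivial G := by
    by_contra h
    rw [not_nontrivial_iff_subsingleton] at h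
    exact hnc inferInstance
  -- Ω_p is not cyclic
  have hK : ¬ IsCyclic (powMonoidHom p : G →* G).ker := by
    intro hc
    have h1 := IsCyclic.card_pow_eq_one_le (α := (powMonoidHom p : G →* G).ker) hp.pos
    have h2 : (Finset.univ.filter (fun a : (powMonoidHom p : G →* G).ker => a ^ p = 1)) = Finset.univ := by
      apply Finset.filter_true_of_mem
      intro a _
      have := a.2
      rw [MonoidHom.mem_ker, powMonoidHom_apply] at this
      exact Subtype.ext this
    rw [h2, Finset.card_univ] at h1
    have h3 : Fintype.card (powMonoidHom p : G →* G).ker = (Finset.univ.filter (fun a : G => a ^ p = 1)).card := by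
      rw [Fintype.card_subtype]
      congr 1
      ext a
      simp [MonoidHom.mem_ker]
    omega
  have hall : ∀ a : G, a ^ p = 1 := by
    intro a
    have := key _ hK
    have h : a ∈ (powMonoidHom p : G →* G).ker := by rw [this]; trivial
    simpa [MonoidHom.mem_ker] using h
  have hexp : Monoid.exponent G = p := by
    rw [Monoid.exponent_eq_prime_iff hp]
    intro g hg
    exact orderOf_eq_prime (hall g) hg
  have hpg : IsPGroup p G := fun g => ⟨1, by simpa using hall g⟩
  obtain ⟨n, hn⟩ := IsPGroup.iff_card.mp hpg
  apply hnp p hp _ hexp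
  have hn2 : n = 2 := by
    rcases Nat.lt_or_ge n 2 with h | h
    · exfalso
      interval_cases n
      · rw [pow_zero] at hn
        have : Subsingleton G := (Nat.card_eq_one_iff_unique.mp hn).1
        exact not_subsingleton G this
      · rw [pow_one] at hn
        exact hnc (isCyclic_of_prime_card hn)
    · by_contra hne
      have h3 : 3 ≤ n := by omega
      obtain ⟨K, hKc⟩ := Sylow.exists_subgroup_card_pow_prime (G := G) p (n := 2) (by rw [hn]; exact pow_dvd_pow p (by omega))
      have hKne : K ≠ ⊤ := by
        intro h
        rw [h, Subgroup.card_top, hn] at hKc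
        have := Nat.pow_right_injective hp.two_le hKc
        omega
      have hKcyc : IsCyclic K := by
        by_contra h
        exact hKne (key K h)
      obtain ⟨k, hk⟩ := IsCyclic.exists_ofOrder_eq_natCard (α := K)
      have hkp : k ^ p = 1 := Subtype.ext (by simpa using hall (k : G))
      have := orderOf_dvd_of_pow_eq_one hkp
      rw [hk, hKc] at this
      have h4 := Nat.le_of_dvd hp.pos this
      have := hp.two_le
      nlinarith
  rw [hn, hn2]

end Cfsg.Agent.S3917
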