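import Cfsg.Statements.S3920
import Mathlib

set_option autoImplicit false
open Cfsg

namespace Cfsg.Agent.S3920

theorem cyclic_of_le_zpowers {G : Type*} [Group G] (H : Subgroup G) (g : G)
    (h : H ≤ Subgroup.zpowers g) : IsCyclic ↥H := by
  haveI : IsCyclic ↥(H.subgroupOf (Subgroup.zpowers g)) := inferInstance
  exact isCyclic_of_surjective (Subgroup.subgroupOfEquivOfLe h).toMonoidHom
    (Subgroup.subgroupOfEquivOfLe h).surjective

theorem r_mem_zpowers {n : ℕ} (i : ZMod n) :
    (DihedralGroup.r i : DihedralGroup n) ∈ Subgroup.zpowers (DihedralGroup.r 1) := by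
  refine ⟨(i.cast : ℤ), ?_⟩
  simp

theorem key {n : ℕ} (hn : 3 ≤ n) (H : Subgroup (DihedralGroup n)) (hH : ¬ IsCyclic ↥H)
    (hk : (∃ j : ZMod n, j ≠ 0 ∧ DihedralGroup.r j ∈ H) →
      ∀ k : ZMod n, k + k = 0 → DihedralGroup.r k ∈ H) :
    Subgroup.centralizer (H : Set (DihedralGroup n)) ≤ H := by
  -- a reflection in H
  have h1 : ∃ i : ZMod n, DihedralGroup.sr i ∈ H := by
    by_contra hcon
    push_neg at hcon
    apply hH
    apply cyclic_of_le_zpowers H (DihedralGroup.r 1)
    intro g hg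
    cases g with
    | r i => exact r_mem_zpowers i
    | sr i => exact absurd hg (hcon i)
  obtain ⟨i, hi⟩ := h1
  have h2 : ∃ j : ZMod n, j ≠ 0 ∧ DihedralGroup.r j ∈ H := by
    by_contra hcon
    push_neg at hcon
    apply hH
    apply cyclic_of_le_zpowers H (DihedralGroup.sr i)
    intro g hg
    cases g with
    | r j =>
      have : j = 0 := by
        by_contra hj
        exact hcon j hj hg
      subst this
      exact Subgroup.one_mem _
    | sr j =>
      have h3 : DihedralGroup.r (j - i) ∈ H := by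
        have := H.mul_mem hi hg
        simpa using this
      have : j - i = 0 := by
        by_contra hj
        exact hcon _ hj h3
      have hji : j = i := sub_eq_zero.mp this
      subst hji
      exact Subgroup.mem_zpowers _
  have hk' := hk h2
  obtain ⟨j, hj0, hj⟩ := h2
  intro x hx
  rw [Subgroup.mem_centralizer_iff] at hx
  cases x with
  | r k =>
    have h3 := hx _ hi
    simp only [DihedralGroup.sr_mul_r, DihedralGroup.r_mul_sr, DihedralGroup.sr.injEq] at h3
    apply hk'
    have : k + k = (i + k) - (i - k) := by ring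
    rw [this, h3, sub_self]
  | sr k =>
    have h3 := hx _ hi
    simp only [DihedralGroup.sr_mul_sr, DihedralGroup.r.injEq] at h3
    have h4 : DihedralGroup.r (k - i) ∈ H := by
      apply hk'
      have : (k - i) + (k - i) = (k - i) - (i - k) := by ring
      rw [this, h3, sub_self]
    have := H.mul_mem hi h4
    simpa using this

theorem two_pow_case {e : ℕ} (he : 1 ≤ e) (k : ZMod (2 ^ e)) (hk : k + k = 0) :
    k = 0 ∨ k = ((2 ^ (e - 1) : ℕ) : ZMod (2 ^ e)) := by
  haveI : NeZero (2 ^ e) := ⟨by positivity⟩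
  have h1 : ((k.val + k.val : ℕ) : ZMod (2 ^ e)) = 0 := by
    push_cast
    rw [ZMod.natCast_zmod_val]
    exact hk
  rw [ZMod.natCast_eq_zero_iff] at h1
  have h2 : k.val < 2 ^ e := ZMod.val_lt k
  have h3 : 2 ^ e = 2 * 2 ^ (e - 1) := by
    rw [← pow_succ']
    congr 1
    omega
  have h4 : 2 ^ (e - 1) ∣ k.val := by
    have h1' : 2 * 2 ^ (e - 1) ∣ k.val + k.val := h3 ▸ h1
    have : 2 * 2 ^ (e - 1) ∣ 2 * k.val := by
      have : k.val + k.val = 2 * k.val := by ring
      rwa [this] at h1'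
    exact (Nat.mul_dvd_mul_iff_left (by norm_num)).mp this
  obtain ⟨c, hc⟩ := h4
  have hc2 : c < 2 := by
    by_contra hcon
    push_neg at hcon
    have : 2 ^ (e - 1) * 2 ≤ 2 ^ (e - 1) * c := Nat.mul_le_mul_left _ hcon
    omega
  interval_cases c
  · left
    have : k.val = 0 := by rw [hc]; ring
    exact (ZMod.val_eq_zero k).mp this
  · right
    rw [← ZMod.natCast_zmod_val k, hc, mul_one]

theorem two_pow_mem {e : ℕ} (he : 1 ≤ e) (H : Subgroup (DihedralGroup (2 ^ e)))
    (j : ZMod (2 ^ e)) (hj0 : j ≠ 0) (hj : DihedralGroup.r j ∈ H) :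
    DihedralGroup.r ((2 ^ (e - 1) : ℕ) : ZMod (2 ^ e)) ∈ H := by
  haveI : NeZero (2 ^ e) := ⟨by positivity⟩
  have hv : j.val ≠ 0 := fun h => hj0 ((ZMod.val_eq_zero j).mp h)
  obtain ⟨b, m, hm, hbm⟩ := Nat.exists_eq_two_pow_mul_odd hv
  have hlt : j.val < 2 ^ e := ZMod.val_lt j
  have hb : b < e := by
    by_contra hcon
    push_neg at hcon
    have h1 : 2 ^ e ≤ 2 ^ b := Nat.pow_le_pow_right (by norm_num) hcon
    have h2 : 1 ≤ m := by
      rcases hm with ⟨q, rfl⟩; omega
    have : 2 ^ b * 1 ≤ 2 ^ b * m := Nat.mul_le_mul_left _ h2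
    omega
  have h1 : (DihedralGroup.r j) ^ (2 ^ (e - 1 - b)) ∈ H := H.pow_mem hj _
  rw [DihedralGroup.r_pow] at h1
  have h2 : j * ((2 ^ (e - 1 - b) : ℕ) : ZMod (2 ^ e)) = ((2 ^ (e - 1) : ℕ) : ZMod (2 ^ e)) := by
    rw [← ZMod.natCast_zmod_val j, ← Nat.cast_mul, hbm]
    obtain ⟨q, rfl⟩ := hm
    have h3 : 2 ^ b * (2 * q + 1) * 2 ^ (e - 1 - b) = q * 2 ^ e + 2 ^ (e - 1) := by
      have e1 : 2 ^ b * 2 ^ (e - 1 - b) = 2 ^ (e - 1) := by
        rw [← pow_add]; congr 1; omega
      have e2 : 2 ^ e = 2 * 2 ^ (e - 1) := by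
        rw [← pow_succ']; congr 1; omega
      calc 2 ^ b * (2 * q + 1) * 2 ^ (e - 1 - b) = (2 * q + 1) * (2 ^ b * 2 ^ (e - 1 - b)) := by ring
        _ = (2 * q + 1) * 2 ^ (e - 1) := by rw [e1]
        _ = q * 2 ^ e + 2 ^ (e - 1) := by rw [e2]; ring
    rw [h3]
    push_cast
    have : ((2 : ZMod (2 ^ e)) ^ e) = 0 := by
      have := ZMod.natCast_self (2 ^ e)
      push_cast at this
      exact this
    rw [this, mul_zero, zero_add]
  rw [h2] at h1
  exact h1


/-- Say that a group has self-centralizing non-cyclic subgroups when every non-cyclic subgroup H satisfies C_G(H) ≤ H. For n ≥ 3, the dihedral group of order 2n has self-centralizing non-cyclic subgroups if and only if n is odd or a power of 2. -/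
theorem result (n : ℕ) (hn : 3 ≤ n) : (∀ H : Subgroup (DihedralGroup n), ¬ IsCyclic ↥H → Subgroup.centralizer (H : Set (DihedralGroup n)) ≤ H) ↔ (Odd n ∨ ∃ k : ℕ, n = 2 ^ k) := by
  constructor
  · intro h
    by_contra hcon
    push_neg at hcon
    obtain ⟨hodd, hpow⟩ := hcon
    have hne : n ≠ 0 := by omega
    obtain ⟨a, m, hm, hnm⟩ := Nat.exists_eq_two_pow_mul_odd hne
    have ha : 1 ≤ a := by
      by_contra ha0
      have : a = 0 := by omega
      subst this
      apply hodd
      rw [hnm]; simpa using hm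
    have hm3 : 3 ≤ m := by
      obtain ⟨q, rfl⟩ := hm
      rcases Nat.eq_zero_or_pos q with rfl | hq
      · exfalso; exact hpow a (by rw [hnm]; ring)
      · omega
    haveI : NeZero n := ⟨hne⟩
    let A : AddSubgroup (ZMod n) := AddSubgroup.zmultiples ((2 ^ a : ℕ) : ZMod n)
    let H : Subgroup (DihedralGroup n) :=
      { carrier := {g | match g with | DihedralGroup.r i => i ∈ A | DihedralGroup.sr i => i ∈ A}
        mul_mem' := by
          rintro (x | x) (y | y) hx hy
          · exact A.add_mem hx hy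
          · exact A.sub_mem hy hx
          · exact A.add_mem hx hy
          · exact A.sub_mem hy hx
        one_mem' := A.zero_mem
        inv_mem' := by
          rintro (x | x) hx
          · exact A.neg_mem hx
          · exact hx }
    have hxA : ((2 ^ a : ℕ) : ZMod n) ∈ A := AddSubgroup.mem_zmultiples _
    have h0A : (0 : ZMod n) ∈ A := A.zero_mem
    have hnc : ¬ IsCyclic ↥H := by
      intro hc
      have hcomm : IsMulCommutative ↥H := IsCyclic.isMulCommutative
      have h1 := hcomm.is_comm.comm (⟨DihedralGroup.sr 0, h0A⟩ : ↥H) ⟨DihedralGroup.r ((2 ^ a : ℕ) : ZMod n), hxA⟩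
      have h2 := congrArg Subtype.val h1
      simp only [Subgroup.coe_mul, DihedralGroup.sr_mul_r, DihedralGroup.r_mul_sr,
        DihedralGroup.sr.injEq, zero_add, zero_sub] at h2
      have h3 : ((2 ^ a + 2 ^ a : ℕ) : ZMod n) = 0 := by
        push_cast
        have : ((2 : ZMod n) ^ a) + (2 : ZMod n) ^ a = (2 : ZMod n) ^ a - (-((2 : ZMod n) ^ a)) := by ring
        rw [this]
        push_cast at h2
        rw [← h2, sub_self]
      rw [ZMod.natCast_eq_zero_iff] at h3
      have h4 : 2 ^ a * m ∣ 2 ^ a * 2 := by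
        rw [← hnm]
        have : 2 ^ a * 2 = 2 ^ a + 2 ^ a := by ring
        rw [this]; exact h3
      have h5 : m ∣ 2 := (Nat.mul_dvd_mul_iff_left (by positivity)).mp h4
      have := Nat.le_of_dvd (by norm_num) h5
      omega
    have hcent := h H hnc
    have hn2 : n = 2 ^ (a - 1) * m + 2 ^ (a - 1) * m := by
      rw [hnm]
      have : 2 ^ a = 2 * 2 ^ (a - 1) := by
        rw [← pow_succ']; congr 1; omega
      rw [this]; ring
    have hzz : ((2 ^ (a - 1) * m : ℕ) : ZMod n) + ((2 ^ (a - 1) * m : ℕ) : ZMod n) = 0 := by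
      rw [← Nat.cast_add, ← hn2]
      exact ZMod.natCast_self n
    have hz : DihedralGroup.r ((2 ^ (a - 1) * m : ℕ) : ZMod n) ∈
        Subgroup.centralizer (H : Set (DihedralGroup n)) := by
      rw [Subgroup.mem_centralizer_iff]
      rintro (i | i) _
      · simp only [DihedralGroup.r_mul_r, DihedralGroup.r.injEq]
        exact add_comm _ _
      · simp only [DihedralGroup.sr_mul_r, DihedralGroup.r_mul_sr, DihedralGroup.sr.injEq]
        have e1 := eq_neg_of_add_eq_zero_left hzz
        rw [sub_eq_add_neg, ← e1]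
    have hzH : ((2 ^ (a - 1) * m : ℕ) : ZMod n) ∈ A := hcent hz
    obtain ⟨t, ht⟩ := AddSubgroup.mem_zmultiples_iff.mp hzH
    have ht2 : ((t * (2 ^ a : ℕ) : ℤ) : ZMod n) = (((2 ^ (a - 1) * m : ℕ) : ℤ) : ZMod n) := by
      push_cast
      push_cast at ht
      rw [← ht]
      simp
    rw [ZMod.intCast_eq_intCast_iff_dvd_sub] at ht2
    have h6 : ((2 ^ a : ℕ) : ℤ) ∣ (n : ℤ) := by
      rw [hnm]; push_cast; exact Dvd.intro _ rfl
    have h7 : ((2 ^ a : ℕ) : ℤ) ∣ ((2 ^ (a - 1) * m : ℕ) : ℤ) := by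
      have h8 := dvd_trans h6 ht2
      have h9 : ((2 ^ a : ℕ) : ℤ) ∣ t * ((2 ^ a : ℕ) : ℤ) := Dvd.intro_left _ rfl
      have := dvd_add h8 h9
      simpa using this
    have h8 : 2 ^ a ∣ 2 ^ (a - 1) * m := Int.natCast_dvd_natCast.mp h7
    have h9 : 2 ^ a = 2 ^ (a - 1) * 2 := by
      rw [← pow_succ]; congr 1; omega
    rw [h9] at h8
    have h10 : 2 ∣ m := (Nat.mul_dvd_mul_iff_left (by positivity)).mp h8
    rcases hm with ⟨q, rfl⟩
    omega
  · rintro (hodd | ⟨e, rfl⟩) H hH
    · apply key hn H hH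
      intro _ k hk
      have hne : n ≠ 0 := by omega
      haveI : NeZero n := ⟨hne⟩
      have h1 : ((k.val + k.val : ℕ) : ZMod n) = 0 := by
        push_cast
        rw [ZMod.natCast_zmod_val]
        exact hk
      rw [ZMod.natCast_eq_zero_iff] at h1
      have h2 : n ∣ k.val := by
        have hc : Nat.Coprime n 2 := (Nat.coprime_two_right).mpr hodd
        have : n ∣ 2 * k.val := by
          have e : k.val + k.val = 2 * k.val := by ring
          rwa [e] at h1
        exact hc.dvd_of_dvd_mul_left this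
      have h3 : k.val = 0 := Nat.eq_zero_of_dvd_of_lt h2 (ZMod.val_lt k)
      have h4 : k = 0 := (ZMod.val_eq_zero k).mp h3
      rw [h4]
      exact H.one_mem
    · have he : 1 ≤ e := by
        by_contra hcon
        have : e = 0 := by omega
        subst this
        norm_num at hn
      apply key hn H hH
      rintro ⟨j, hj0, hj⟩ k hk
      rcases two_pow_case he k hk with rfl | rfl
      · exact H.one_mem
      · exact two_pow_mem he H j hj0 hj

end Cfsg.Agent.S3920
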