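import Mathlib
import Cfsg.Statements.S3927
import Cfsg.Agent.Lib.helper17.Flavell

set_option autoImplicit false
open Cfsg

namespace Cfsg.Agent.S3927

open Pointwise
open Cfsg.Agent.Lib.helper20 Cfsg.Agent.Lib.helper17.Flavell

universe u

section
variable {G : Type u} [Group G]

theorem pow_invariant (α : MulAut G) (D : Subgroup G) (hD : ∀ d ∈ D, α d ∈ D) :
    ∀ i : ℕ, ∀ d ∈ D, (α ^ i) d ∈ D := by
  intro i
  induction i with
  | zero => intro d hd; simpa using hd
  | succ i ih =>
    intro d hd
    rw [pow_succ, MulAut.mul_apply]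
    exact ih _ (hD d hd)

theorem exists_pow_of_mem_zpowers [Finite G] (α β : MulAut G) (hβ : β ∈ Subgroup.zpowers α) :
    ∃ i : ℕ, α ^ i = β := by
  have hfin : IsOfFinOrder α := isOfFinOrder_of_finite α
  exact (Submonoid.mem_powers_iff _ _).mp (hfin.mem_powers_iff_mem_zpowers.mpr hβ)

theorem telescope (α : MulAut G) (G₁ D : Subgroup G) (hG₁ : ∀ c ∈ G₁, α c ∈ G₁)
    (hD : ∀ c ∈ G₁, c * (α c)⁻¹ ∈ D) : ∀ i : ℕ, ∀ c ∈ G₁, c * ((α ^ i) c)⁻¹ ∈ D := by
  intro i
  induction i with
  | zero => intro c _; simp
  | succ i ih =>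
    intro c hc
    rw [pow_succ, MulAut.mul_apply]
    have h1 := hD c hc
    have h2 := ih (α c) (hG₁ c hc)
    have e : c * ((α ^ i) (α c))⁻¹ = (c * (α c)⁻¹) * (α c * ((α ^ i) (α c))⁻¹) := by group
    rw [e]
    exact D.mul_mem h1 h2

/-- Pairs whose left component lies in an invariant subgroup. -/
def hat (α : MulAut G) (D : Subgroup G)
    (hD : ∀ β ∈ Subgroup.zpowers α, ∀ d ∈ D, β d ∈ D) :
    Subgroup (SemidirectProduct G (Subgroup.zpowers α) (Subgroup.zpowers α).subtype) where
  carrier := {x | x.left ∈ D}
  mul_mem' := by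
    intro x y hx hy
    show (x * y).left ∈ D
    rw [SemidirectProduct.mul_left]
    exact D.mul_mem hx (hD _ x.right.2 _ hy)
  one_mem' := D.one_mem
  inv_mem' := by
    intro x hx
    show x⁻¹.left ∈ D
    rw [SemidirectProduct.inv_left]
    exact hD _ (x.right⁻¹).2 _ (D.inv_mem hx)

/-- The semidirect product of `G` with the cyclic group generated by `α`. -/
abbrev Gam (α : MulAut G) : Type u :=
  SemidirectProduct G (Subgroup.zpowers α) (Subgroup.zpowers α).subtype

end

theorem iter_aux : ∀ (n : ℕ) (G : Type u) [Group G] [Finite G], Nat.card G = n →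
    ∀ (α : MulAut G), Subgroup.closure (Set.range (fun c : G => c * (α c)⁻¹)) = ⊤ → ∀ k : ℕ,
    Subgroup.closure (Set.range ((fun c : G => c * (α c)⁻¹)^[k])) = ⊤ := by
  intro n
  induction n using Nat.strong_induction_on with
  | _ n IH =>
    intro G _ _ hn α hG k
    by_cases hsub : Subsingleton G
    · rw [eq_top_iff]
      intro x _
      rw [Subsingleton.elim x 1]
      exact Subgroup.one_mem _
    rw [not_subsingleton_iff_nontrivial] at hsub
    let f : G → G := fun c => c * (α c)⁻¹
    have hαf : ∀ c, α (f c) = f (α c) := by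
      intro c
      simp [f]
    have hαfk : ∀ j c, α (f^[j] c) = f^[j] (α c) := by
      intro j
      induction j with
      | zero => intro c; rfl
      | succ j ih =>
        intro c
        rw [Function.iterate_succ_apply', Function.iterate_succ_apply', hαf, ih]
    let R : Subgroup G := Subgroup.closure (Set.range (f^[k]))
    show R = ⊤
    have hRα : ∀ r ∈ R, α r ∈ R := by
      intro r hr
      have hle : R ≤ R.comap α.toMonoidHom := by
        apply (Subgroup.closure_le _).mpr
        rintro _ ⟨c, rfl⟩
        show α (f^[k] c) ∈ R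
        rw [hαfk]
        exact Subgroup.subset_closure ⟨α c, rfl⟩
      exact hle hr
    have hRZ : ∀ β ∈ Subgroup.zpowers α, ∀ r ∈ R, β r ∈ R := by
      intro β hβ r hr
      obtain ⟨i, rfl⟩ := exists_pow_of_mem_zpowers α β hβ
      exact pow_invariant α R hRα i r hr
    have : Finite (Gam α) :=
      Finite.of_equiv (G × Subgroup.zpowers α) SemidirectProduct.equivProd.symm
    let A : Subgroup (Gam α) := hat α ⊥ (by
      intro β _ d hd
      rw [Subgroup.mem_bot] at hd ⊢
      rw [hd, map_one])
    let a : Gam α := SemidirectProduct.inr ⟨α, Subgroup.mem_zpowers α⟩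
    have hA_mem : ∀ x : Gam α, x ∈ A ↔ x.left = 1 := fun x => Subgroup.mem_bot
    have ha : a ∈ A := (hA_mem a).mpr rfl
    have hinr : ∀ z : Subgroup.zpowers α, (SemidirectProduct.inr z : Gam α) ∈ A :=
      fun z => (hA_mem _).mpr rfl
    have hconj : ∀ g : G, (SemidirectProduct.inl g : Gam α) * a * (SemidirectProduct.inl g)⁻¹ =
        SemidirectProduct.inl (f g) * a := by
      intro g
      ext <;> simp [a, f]
    have hconj2 : ∀ g : G, a * SemidirectProduct.inl g * a⁻¹ =
        (SemidirectProduct.inl (α g) : Gam α) := by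
      intro g
      ext <;> simp [a]
    have hnc : Subgroup.normalClosure (A : Set (Gam α)) = ⊤ := by
      rw [eq_top_iff]
      have haN : a ∈ Subgroup.normalClosure (A : Set (Gam α)) := Subgroup.subset_normalClosure ha
      have hinl : ∀ g : G, (SemidirectProduct.inl g : Gam α) ∈
          Subgroup.normalClosure (A : Set (Gam α)) := by
        have hle : Subgroup.closure (Set.range f) ≤
            (Subgroup.normalClosure (A : Set (Gam α))).comap SemidirectProduct.inl := by
          apply (Subgroup.closure_le _).mpr
          rintro _ ⟨g, rfl⟩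
          show SemidirectProduct.inl (f g) ∈ Subgroup.normalClosure (A : Set (Gam α))
          have h1 := (Subgroup.normalClosure_normal (s := (A : Set (Gam α)))).conj_mem a haN
            (SemidirectProduct.inl g)
          rw [hconj] at h1
          have h2 := Subgroup.mul_mem _ h1 (Subgroup.inv_mem _ haN)
          simpa using h2
        intro g
        exact hle (hG ▸ Subgroup.mem_top g)
      intro x _
      rw [← SemidirectProduct.inl_left_mul_inr_right x]
      exact Subgroup.mul_mem _ (hinl _) (Subgroup.subset_normalClosure (hinr _))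
    have hAtop : A ≠ ⊤ := by
      intro h
      obtain ⟨g, hg⟩ := exists_ne (1 : G)
      have h1 : (SemidirectProduct.inl g : Gam α) ∈ A := h ▸ Subgroup.mem_top _
      exact hg ((hA_mem _).mp h1)
    let RR : Subgroup (Gam α) := hat α R hRZ
    have hRR : ∀ x : Gam α, x ∈ RR ↔ x.left ∈ R := fun x => Iff.rfl
    have hARR : A ≤ RR := by
      intro x hx
      rw [hRR, (hA_mem x).mp hx]
      exact R.one_mem
    have hgoal : RR = ⊤ → R = ⊤ := by
      intro h
      rw [eq_top_iff]
      intro g _
      have h1 : (SemidirectProduct.inl g : Gam α) ∈ RR := h ▸ Subgroup.mem_top _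
      exact h1
    apply hgoal
    rcases flavell A hnc hAtop with hI | ⟨M₀, ⟨hM₀, hAM₀⟩, huniq⟩
    · -- generated by the family
      rw [eq_top_iff, ← hI]
      apply sSup_le
      rintro H ⟨hAH, hHtop, hHnc⟩
      let G₁ : Subgroup G := H.comap SemidirectProduct.inl
      have hG₁ : ∀ g, g ∈ G₁ ↔ (SemidirectProduct.inl g : Gam α) ∈ H := fun g => Iff.rfl
      have haH : a ∈ H := hAH ha
      have hleft : ∀ x ∈ H, x.left ∈ G₁ := by
        intro x hx
        rw [hG₁, eq_mul_inv_of_mul_eq (SemidirectProduct.inl_left_mul_inr_right x)]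
        exact H.mul_mem hx (H.inv_mem (hAH (hinr _)))
      have hG₁α : ∀ c ∈ G₁, α c ∈ G₁ := by
        intro c hc
        rw [hG₁] at hc ⊢
        rw [← hconj2]
        exact H.mul_mem (H.mul_mem haH hc) (H.inv_mem haH)
      have hG₁ne : G₁ ≠ ⊤ := by
        intro h
        apply hHtop
        rw [eq_top_iff]
        intro x _
        rw [← SemidirectProduct.inl_left_mul_inr_right x]
        exact H.mul_mem ((hG₁ _).mp (h ▸ Subgroup.mem_top _)) (hAH (hinr _))
      let D : Subgroup G := Subgroup.closure {d | ∃ c ∈ G₁, d = c * (α c)⁻¹}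
      have hDgen : ∀ c ∈ G₁, c * (α c)⁻¹ ∈ D := fun c hc => Subgroup.subset_closure ⟨c, hc, rfl⟩
      have hDα : ∀ d ∈ D, α d ∈ D := by
        intro d hd
        have hle : D ≤ D.comap α.toMonoidHom := by
          apply (Subgroup.closure_le _).mpr
          rintro _ ⟨c, hc, rfl⟩
          show α (c * (α c)⁻¹) ∈ D
          rw [map_mul, map_inv]
          exact hDgen (α c) (hG₁α c hc)
        exact hle hd
      have hDZ : ∀ β ∈ Subgroup.zpowers α, ∀ d ∈ D, β d ∈ D := by
        intro β hβ d hd
        obtain ⟨i, rfl⟩ := exists_pow_of_mem_zpowers α β hβ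
        exact pow_invariant α D hDα i d hd
      have htel : ∀ β ∈ Subgroup.zpowers α, ∀ c ∈ G₁, c * (β c)⁻¹ ∈ D := by
        intro β hβ c hc
        obtain ⟨i, rfl⟩ := exists_pow_of_mem_zpowers α β hβ
        exact telescope α G₁ D hG₁α hDgen i c hc
      have hHD : ∀ x ∈ H, x.left ∈ D := by
        intro x hx
        have hmem : (⟨x, hx⟩ : ↥H) ∈
            Subgroup.normalClosure ((A.subgroupOf H : Subgroup ↥H) : Set ↥H) :=
          hHnc ▸ Subgroup.mem_top _
        have hle : Subgroup.normalClosure ((A.subgroupOf H : Subgroup ↥H) : Set ↥H) ≤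
            (hat α D hDZ).subgroupOf H := by
          show Subgroup.closure (Group.conjugatesOfSet _) ≤ _
          apply (Subgroup.closure_le _).mpr
          intro y hy
          rw [Group.mem_conjugatesOfSet_iff] at hy
          obtain ⟨b, hb, hconjby⟩ := hy
          obtain ⟨h, rfl⟩ := isConj_iff.mp hconjby
          show ((h * b * h⁻¹ : ↥H) : Gam α).left ∈ D
          have hb1 : (b : Gam α).left = 1 := (hA_mem _).mp hb
          have e : ((h * b * h⁻¹ : ↥H) : Gam α).left =
              (h : Gam α).left * ((Subgroup.zpowers α).subtype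
                ((h : Gam α).right * (b : Gam α).right * (h : Gam α).right⁻¹)
                  (h : Gam α).left)⁻¹ := by
            simp [SemidirectProduct.mul_left, SemidirectProduct.inv_left, hb1]
          rw [e]
          exact htel ((Subgroup.zpowers α).subtype
            ((h : Gam α).right * (b : Gam α).right * (h : Gam α).right⁻¹))
            ((h : Gam α).right * (b : Gam α).right * (h : Gam α).right⁻¹).2 _
            (hleft _ h.2)
        exact hle hmem
      have hG₁D : G₁ ≤ D := fun g hg => hHD _ ((hG₁ g).mp hg)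
      let r : ↥G₁ →* ↥G₁ :=
        (α.toMonoidHom.comp G₁.subtype).codRestrict G₁ (fun c => hG₁α c c.2)
      have hr_inj : Function.Injective r := by
        intro c d hcd
        have h1 : α (c : G) = α (d : G) := congrArg Subtype.val hcd
        exact Subtype.ext (α.injective h1)
      let α₁ : MulAut ↥G₁ :=
        MulEquiv.ofBijective r ⟨hr_inj, Finite.injective_iff_surjective.mp hr_inj⟩
      let f₁ : ↥G₁ → ↥G₁ := fun c => c * (α₁ c)⁻¹
      have hf₁ : ∀ c : ↥G₁, ((f₁ c : ↥G₁) : G) = f (c : G) := fun c => rfl
      have hf₁k : ∀ j (c : ↥G₁), ((f₁^[j] c : ↥G₁) : G) = f^[j] (c : G) := by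
        intro j
        induction j with
        | zero => intro c; rfl
        | succ j ih =>
          intro c
          rw [Function.iterate_succ_apply', Function.iterate_succ_apply', hf₁, ih]
      have h₁ : Subgroup.closure (Set.range f₁) = ⊤ := by
        rw [eq_top_iff]
        intro c _
        have hc : (c : G) ∈ D := hG₁D c.2
        have hle : D ≤ (Subgroup.closure (Set.range f₁)).map G₁.subtype := by
          apply (Subgroup.closure_le _).mpr
          rintro _ ⟨c', hc', rfl⟩
          exact ⟨f₁ ⟨c', hc'⟩, Subgroup.subset_closure ⟨_, rfl⟩, rfl⟩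
        obtain ⟨c'', hc'', e⟩ := hle hc
        have h2 : c'' = c := Subtype.ext e
        exact h2 ▸ hc''
      have hcard : Nat.card ↥G₁ < n := by
        rw [← hn]
        have hle := Subgroup.card_le_card_group G₁
        rcases hle.lt_or_eq with h | h
        · exact h
        · exact absurd ((Subgroup.card_eq_iff_eq_top G₁).mp h) hG₁ne
      have h₂ := IH _ hcard ↥G₁ rfl α₁ h₁ k
      have hG₁R : G₁ ≤ R := by
        intro g hg
        have hmem : (⟨g, hg⟩ : ↥G₁) ∈ Subgroup.closure (Set.range (f₁^[k])) :=
          h₂ ▸ Subgroup.mem_top _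
        have hle : Subgroup.closure (Set.range (f₁^[k])) ≤ R.comap G₁.subtype := by
          apply (Subgroup.closure_le _).mpr
          rintro _ ⟨c, rfl⟩
          show ((f₁^[k] c : ↥G₁) : G) ∈ R
          rw [hf₁k]
          exact Subgroup.subset_closure ⟨_, rfl⟩
        exact hle hmem
      intro x hx
      exact hG₁R (hleft x hx)
    · -- unique maximal subgroup
      by_contra hRRtop
      obtain ⟨L, hL, hRRL⟩ := (eq_top_or_exists_le_coatom RR).resolve_left hRRtop
      have hLM : L = M₀ := huniq L ⟨hL, hARR.trans hRRL⟩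
      have hk : ∀ g : G, (SemidirectProduct.inl (f^[k] g) : Gam α) ∈ M₀ := by
        intro g
        apply hLM ▸ hRRL
        show f^[k] g ∈ R
        exact Subgroup.subset_closure ⟨g, rfl⟩
      have haM₀ : a ∈ M₀ := hAM₀ ha
      have hA_le : ∀ L' : Subgroup (Gam α), a ∈ L' → A ≤ L' := by
        intro L' haL x hx
        have hx1 : x.left = 1 := (hA_mem x).mp hx
        obtain ⟨i, hi⟩ := Subgroup.mem_zpowers_iff.mp x.right.2
        have hr : x.right = (⟨α, Subgroup.mem_zpowers α⟩ : Subgroup.zpowers α) ^ i :=
          Subtype.ext (by simpa using hi.symm)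
        have hxa : x = a ^ i := by
          calc x = SemidirectProduct.inl x.left * SemidirectProduct.inr x.right :=
                (SemidirectProduct.inl_left_mul_inr_right x).symm
            _ = a ^ i := by rw [hx1, hr, map_one, one_mul, map_zpow]
        rw [hxa]
        exact Subgroup.zpow_mem _ haL i
      have hNM : ∀ y ∈ Subgroup.normalizer (M₀ : Set (Gam α)), y ∈ M₀ := by
        intro y hy
        rcases eq_or_lt_of_le
          (Subgroup.le_normalizer : M₀ ≤ Subgroup.normalizer (M₀ : Set (Gam α))) with e | lt
        · exact e ▸ hy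
        · exfalso
          have htop := hM₀.2 _ lt
          have hnorm : M₀.Normal := ⟨fun x hx g => by
            have hg : g ∈ Subgroup.normalizer (M₀ : Set (Gam α)) := htop ▸ Subgroup.mem_top g
            exact (Subgroup.mem_normalizer_iff.mp hg x).mp hx⟩
          apply hM₀.1
          rw [eq_top_iff, ← hnc]
          exact Subgroup.normalClosure_le_normal hAM₀
      have step : ∀ g' : G, (SemidirectProduct.inl (f g') : Gam α) ∈ M₀ →
          (SemidirectProduct.inl g' : Gam α) ∈ M₀ := by
        intro g' hg'
        have h1 : (SemidirectProduct.inl g' : Gam α) * a * (SemidirectProduct.inl g')⁻¹ ∈ M₀ := by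
          rw [hconj]
          exact M₀.mul_mem hg' haM₀
        have h2 : a ∈ MulAut.conj (SemidirectProduct.inl g' : Gam α)⁻¹ • M₀ := by
          rw [mem_conj_smul_iff]
          simpa using h1
        have h3 : MulAut.conj (SemidirectProduct.inl g' : Gam α)⁻¹ • M₀ = M₀ :=
          huniq _ ⟨isCoatom_smul hM₀ _, hA_le _ h2⟩
        have h4 : (SemidirectProduct.inl g' : Gam α)⁻¹ ∈ Subgroup.normalizer (M₀ : Set (Gam α)) :=
          mem_normalizer_of_conj_smul_le h3.le
        have h5 := hNM _ (Subgroup.inv_mem _ h4)
        simpa using h5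
      have all : ∀ j : ℕ, (∀ g : G, (SemidirectProduct.inl (f^[j] g) : Gam α) ∈ M₀) →
          ∀ g : G, (SemidirectProduct.inl g : Gam α) ∈ M₀ := by
        intro j
        induction j with
        | zero => intro h g; exact h g
        | succ j ih =>
          intro h
          apply ih
          intro g
          apply step
          have h1 := h g
          rwa [Function.iterate_succ_apply'] at h1
      have hinlM := all k hk
      apply hM₀.1
      rw [eq_top_iff]
      intro x _
      rw [← SemidirectProduct.inl_left_mul_inr_right x]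
      exact M₀.mul_mem (hinlM _) (hAM₀ (hinr _))

/-- Let G be a finite group and α an automorphism of G with [G, α] = G, that is, the elements g·α(g)⁻¹ generate G. Then for every k ≥ 1 the iterated commutators [g, α, …, α] with k entries α — the values of the k-th iterate of the map c ↦ c·α(c)⁻¹ — also generate G. -/
theorem result {G : Type*} [Group G] [Finite G] (α : MulAut G) (hG : Subgroup.closure (Set.range (fun c : G => c * (α c)⁻¹)) = ⊤) (k : ℕ) (hk : 1 ≤ k) :
    Subgroup.closure (Set.range ((fun c : G => c * (α c)⁻¹)^[k])) = ⊤ := by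
  exact iter_aux _ G rfl α hG k

end Cfsg.Agent.S3927
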