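import Cfsg.Statements.S3941
import Mathlib

set_option autoImplicit false
open Cfsg

namespace Cfsg.Agent.S3941

/-- In a `p`-closed finite group the product of two elements of order dividing `p` is a `p`-element. -/
theorem pclosed_mul {H : Type*} [Group H] [Finite H] {p : ℕ} [Fact p.Prime]
    (h : Cfsg.IsPClosed p H) {a b : H} (ha : a ^ p = 1) (hb : b ^ p = 1) :
    ∃ k : ℕ, orderOf (a * b) = p ^ k := by
  have hpp : p.Prime := Fact.out
  obtain ⟨P⟩ : Nonempty (Sylow p H) := inferInstance
  haveI := h P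
  have key : ∀ x : H, x ^ p = 1 → x ∈ (P : Subgroup H) := by
    intro x hx
    have hz : IsPGroup p (Subgroup.zpowers x) := by
      intro y
      obtain ⟨y, hy⟩ := y
      obtain ⟨m, rfl⟩ := Subgroup.mem_zpowers_iff.1 hy
      refine ⟨1, ?_⟩
      apply Subtype.ext
      simp only [pow_one, Subgroup.coe_pow, Subgroup.coe_one]
      rw [← zpow_natCast, ← zpow_mul, mul_comm, zpow_mul, zpow_natCast, hx, one_zpow]
    obtain ⟨Q, hQ⟩ := hz.exists_le_sylow
    obtain ⟨g, hg⟩ := MulAction.exists_smul_eq H P Q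
    have hQP : Q = P := by rw [← hg]; exact Sylow.smul_eq_of_normal
    rw [← hQP]
    exact hQ (Subgroup.mem_zpowers x)
  have hab : a * b ∈ (P : Subgroup H) := mul_mem (key a ha) (key b hb)
  obtain ⟨k, hk⟩ := P.2 ⟨a * b, hab⟩
  have hk' : (a * b) ^ (p ^ k) = 1 := by
    have := congrArg Subtype.val hk
    simpa using this
  obtain ⟨m, -, hm⟩ := (Nat.dvd_prime_pow hpp).1 (orderOf_dvd_of_pow_eq_one hk')
  exact ⟨m, hm⟩

theorem contra (n p : ℕ) [Fact p.Prime]
    (h : ∀ H : Subgroup ↥(alternatingGroup (Fin n)), H ≠ ⊤ → p ∣ Nat.card ↥H → Cfsg.IsPClosed p ↥H)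
    (z i j : Fin n) (hzi : z ≠ i) (hzj : z ≠ j) (hij : i ≠ j)
    (a b : Equiv.Perm (Fin n)) (ha : a ∈ alternatingGroup (Fin n)) (hb : b ∈ alternatingGroup (Fin n))
    (haz : a z = z) (hbz : b z = z) (hap : a ^ p = 1) (hbp : b ^ p = 1) (ha1 : a ≠ 1)
    (q : ℕ) (hq : q.Prime) (hqp : q ≠ p) (hab : orderOf (a * b) = q) : False := by
  have hpp : p.Prime := Fact.out
  set H : Subgroup ↥(alternatingGroup (Fin n)) :=
    (MulAction.stabilizer (Equiv.Perm (Fin n)) z).subgroupOf (alternatingGroup (Fin n)) with hH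
  have hmem : ∀ x : ↥(alternatingGroup (Fin n)), x ∈ H ↔ (x : Equiv.Perm (Fin n)) z = z := by
    intro x
    rw [hH, Subgroup.mem_subgroupOf, MulAction.mem_stabilizer_iff, Equiv.Perm.smul_def]
  have hHtop : H ≠ ⊤ := by
    intro htop
    have ht : Equiv.swap z i * Equiv.swap z j ∈ alternatingGroup (Fin n) := by
      rw [Equiv.Perm.mem_alternatingGroup]
      simp [Equiv.Perm.sign_swap hzi, Equiv.Perm.sign_swap hzj]
    have h1 : (⟨_, ht⟩ : ↥(alternatingGroup (Fin n))) ∈ H := by rw [htop]; exact Subgroup.mem_top _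
    rw [hmem] at h1
    simp only [Equiv.Perm.mul_apply, Equiv.swap_apply_left] at h1
    rw [Equiv.swap_apply_of_ne_of_ne (Ne.symm hzj) (Ne.symm hij)] at h1
    exact hzj h1.symm
  have haH : (⟨a, ha⟩ : ↥(alternatingGroup (Fin n))) ∈ H := (hmem _).2 haz
  have hbH : (⟨b, hb⟩ : ↥(alternatingGroup (Fin n))) ∈ H := (hmem _).2 hbz
  set a' : ↥H := ⟨⟨a, ha⟩, haH⟩ with ha'
  set b' : ↥H := ⟨⟨b, hb⟩, hbH⟩ with hb'
  have ha'p : a' ^ p = 1 := by
    apply Subtype.ext; apply Subtype.ext
    simpa using hap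
  have hb'p : b' ^ p = 1 := by
    apply Subtype.ext; apply Subtype.ext
    simpa using hbp
  have ha'1 : a' ≠ 1 := by
    intro h1
    apply ha1
    have h2 : ((a' : ↥(alternatingGroup (Fin n))) : Equiv.Perm (Fin n)) = 1 := by rw [h1]; rfl
    exact h2
  have hdvd : p ∣ Nat.card ↥H := by
    have : orderOf a' = p := orderOf_eq_prime ha'p ha'1
    rw [← this]; exact orderOf_dvd_natCard a'
  obtain ⟨k, hk⟩ := pclosed_mul (h H hHtop hdvd) ha'p hb'p
  have hord : orderOf (a' * b') = orderOf (a * b) := by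
    rw [← Subgroup.orderOf_coe, ← Subgroup.orderOf_coe]
    rfl
  rw [hord, hab] at hk
  rcases Nat.eq_zero_or_pos k with rfl | hkpos
  · rw [pow_zero] at hk; exact hq.one_lt.ne' hk
  · have : p ∣ q := by rw [hk]; exact dvd_pow_self p hkpos.ne'
    exact hqp ((Nat.prime_dvd_prime_iff_eq hpp hq).1 this).symm

theorem result (n p : ℕ) (hn : 5 ≤ n) [Fact p.Prime] (hp : p ≠ 2) (hpn : p ≤ n)
    (h : ∀ H : Subgroup ↥(alternatingGroup (Fin n)), H ≠ ⊤ → p ∣ Nat.card ↥H → Cfsg.IsPClosed p ↥H) : n = p := by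
  by_contra hne
  have hlt : p < n := lt_of_le_of_ne hpn (Ne.symm hne)
  have hpp : p.Prime := Fact.out
  by_cases hp3 : p = 3
  · -- explicit three-cycles
    subst hp3
    set z : Fin n := ⟨4, by omega⟩ with hz
    set i0 : Fin n := ⟨0, by omega⟩ with hi0
    set i1 : Fin n := ⟨1, by omega⟩ with hi1
    set i2 : Fin n := ⟨2, by omega⟩ with hi2
    set i3 : Fin n := ⟨3, by omega⟩ with hi3
    have h01 : i0 ≠ i1 := by simp [hi0, hi1, Fin.ext_iff]
    have h02 : i0 ≠ i2 := by simp [hi0, hi2, Fin.ext_iff]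
    have h03 : i0 ≠ i3 := by simp [hi0, hi3, Fin.ext_iff]
    have h12 : i1 ≠ i2 := by simp [hi1, hi2, Fin.ext_iff]
    have h13 : i1 ≠ i3 := by simp [hi1, hi3, Fin.ext_iff]
    have h23 : i2 ≠ i3 := by simp [hi2, hi3, Fin.ext_iff]
    have hz0 : z ≠ i0 := by simp [hz, hi0, Fin.ext_iff]
    have hz1 : z ≠ i1 := by simp [hz, hi1, Fin.ext_iff]
    have hz2 : z ≠ i2 := by simp [hz, hi2, Fin.ext_iff]
    have hz3 : z ≠ i3 := by simp [hz, hi3, Fin.ext_iff]
    set a : Equiv.Perm (Fin n) := Equiv.swap i0 i1 * Equiv.swap i0 i2 with ha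
    set b : Equiv.Perm (Fin n) := Equiv.swap i0 i1 * Equiv.swap i0 i3 with hb
    have ha3 : a.IsThreeCycle := Equiv.Perm.isThreeCycle_swap_mul_swap_same h01 h02 h12
    have hb3 : b.IsThreeCycle := Equiv.Perm.isThreeCycle_swap_mul_swap_same h01 h03 h13
    have haA : a ∈ alternatingGroup (Fin n) := ha3.mem_alternatingGroup
    have hbA : b ∈ alternatingGroup (Fin n) := hb3.mem_alternatingGroup
    have haz : a z = z := by
      simp only [ha, Equiv.Perm.mul_apply]
      rw [Equiv.swap_apply_of_ne_of_ne hz0 hz2, Equiv.swap_apply_of_ne_of_ne hz0 hz1]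
    have hbz : b z = z := by
      simp only [hb, Equiv.Perm.mul_apply]
      rw [Equiv.swap_apply_of_ne_of_ne hz0 hz3, Equiv.swap_apply_of_ne_of_ne hz0 hz1]
    have hap : a ^ 3 = 1 := by rw [← ha3.orderOf]; exact pow_orderOf_eq_one a
    have hbp : b ^ 3 = 1 := by rw [← hb3.orderOf]; exact pow_orderOf_eq_one b
    have ha1 : a ≠ 1 := by
      intro h1
      have := ha3.orderOf
      rw [h1, orderOf_one] at this
      omega
    have hab : a * b = Equiv.swap i1 i2 * Equiv.swap i0 i3 := by
      have h1 : Equiv.swap i0 i1 * Equiv.swap i0 i2 * Equiv.swap i0 i1 = Equiv.swap i1 i2 := by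
        have := Equiv.swap_mul_swap_mul_swap (x := i2) (y := i0) (z := i1) (Ne.symm h02) (Ne.symm h12)
        rw [Equiv.swap_comm i2 i0] at this
        exact this
      rw [ha, hb, ← h1]
      simp only [mul_assoc]
    have hcomm : Commute (Equiv.swap i1 i2) (Equiv.swap i0 i3) := by
      apply Equiv.Perm.Disjoint.commute
      apply Equiv.Perm.disjoint_swap_swap
      simp [h12, h13, h23, h03, Ne.symm h01, Ne.symm h02]
    have hord : orderOf (a * b) = 2 := by
      apply orderOf_eq_prime
      · rw [hab, hcomm.mul_pow]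
        simp [pow_two]
      · rw [hab]
        intro h1
        have := congrArg (fun f : Equiv.Perm (Fin n) => f i1) h1
        simp only [Equiv.Perm.mul_apply, Equiv.Perm.one_apply] at this
        rw [Equiv.swap_apply_of_ne_of_ne (Ne.symm h01) h13, Equiv.swap_apply_left] at this
        exact h12 this.symm
    exact contra n 3 h z i0 i1 hz0 hz1 h01 a b haA hbA haz hbz hap hbp ha1 2 Nat.prime_two (by norm_num) hord
  · -- general case: a of order p fixing a point, b a conjugate of a⁻¹
    set z : Fin n := ⟨0, by omega⟩ with hz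
    have hcard : Nat.card (Equiv.Perm {x : Fin n // x ≠ z}) = (n - 1).factorial := by
      rw [Nat.card_eq_fintype_card, Fintype.card_perm]
      congr 1
      rw [Fintype.card_subtype_compl, Fintype.card_subtype_eq, Fintype.card_fin]
    have hdvd : p ∣ Nat.card (Equiv.Perm {x : Fin n // x ≠ z}) := by
      rw [hcard]
      exact (Nat.Prime.dvd_factorial hpp).2 (by omega)
    obtain ⟨g, hg⟩ := exists_prime_orderOf_dvd_card' p hdvd
    set a : Equiv.Perm (Fin n) := Equiv.Perm.ofSubtype g with ha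
    have hao : orderOf a = p := by
      rw [ha, orderOf_injective (Equiv.Perm.ofSubtype) Equiv.Perm.ofSubtype_injective g, hg]
    have hap : a ^ p = 1 := by rw [← hao]; exact pow_orderOf_eq_one a
    have ha1 : a ≠ 1 := by
      intro h1
      rw [h1, orderOf_one] at hao
      exact hpp.one_lt.ne hao
    have haz : a z = z := by
      rw [ha]
      exact Equiv.Perm.ofSubtype_apply_of_not_mem g (by simp)
    have hodd : Odd p := hpp.odd_of_ne_two hp
    have hsign : Equiv.Perm.sign a = 1 := by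
      have h1 : Equiv.Perm.sign a ^ p = 1 := by rw [← map_pow, hap, map_one]
      rcases Int.units_eq_one_or (Equiv.Perm.sign a) with h2 | h2
      · exact h2
      · rw [h2, hodd.neg_one_pow] at h1
        exact absurd h1 (by decide)
    have haA : a ∈ alternatingGroup (Fin n) := Equiv.Perm.mem_alternatingGroup.2 hsign
    obtain ⟨i, hi⟩ : ∃ i, a i ≠ i := by
      by_contra hcon
      push Not at hcon
      exact ha1 (Equiv.ext hcon)
    set j := a i with hj
    set k := a j with hk
    have hji : j ≠ i := hi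
    have hkj : k ≠ j := by
      intro h1
      exact hi (a.injective h1)
    have hki : k ≠ i := by
      intro h1
      obtain ⟨m, hm⟩ := hodd
      have h2 : (a ^ 2) i = i := by
        rw [pow_two, Equiv.Perm.mul_apply]; exact h1
      have h3 : ((a ^ 2) ^ m) i = i := Equiv.Perm.pow_apply_eq_self_of_apply_eq_self h2 m
      have h4 : a ^ (2 * m + 1) = 1 := by rw [← hm]; exact hap
      have h5 : a i = i := by
        have : (a ^ (2 * m + 1)) i = a i := by
          rw [pow_succ', Equiv.Perm.mul_apply, pow_mul, h3]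
        rw [h4] at this
        exact this.symm
      exact hi h5
    have hzi : z ≠ i := by
      intro h1; rw [h1] at haz; exact hi haz
    have hzj : z ≠ j := by
      intro h1; rw [h1] at haz; exact hkj haz
    set b : Equiv.Perm (Fin n) := Equiv.swap i j * a⁻¹ * Equiv.swap i j with hb
    have hbA : b ∈ alternatingGroup (Fin n) := by
      rw [Equiv.Perm.mem_alternatingGroup]
      simp [hb, hsign, Equiv.Perm.sign_swap (Ne.symm hji)]
    have hainv : a⁻¹ z = z := by
      rw [Equiv.Perm.inv_eq_iff_eq]; exact haz.symm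
    have hbz : b z = z := by
      simp only [hb, Equiv.Perm.mul_apply]
      rw [Equiv.swap_apply_of_ne_of_ne hzi hzj, hainv, Equiv.swap_apply_of_ne_of_ne hzi hzj]
    have hbp : b ^ p = 1 := by
      have : b = Equiv.swap i j * a⁻¹ * (Equiv.swap i j)⁻¹ := by rw [Equiv.swap_inv]
      rw [this, conj_pow, inv_pow, hap]
      simp
    have hab : a * b = Equiv.swap j k * Equiv.swap j i := by
      have h1 : Equiv.swap j k = a * Equiv.swap i j * a⁻¹ := by
        rw [hk, hj]; exact Equiv.swap_apply_apply a i j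
      rw [h1, hb, Equiv.swap_comm j i]
      simp only [mul_assoc]
    have h3c : (a * b).IsThreeCycle := by
      rw [hab]
      exact Equiv.Perm.isThreeCycle_swap_mul_swap_same (Ne.symm hkj) hji hki
    exact contra n p h z i j hzi hzj (Ne.symm hji) a b haA hbA haz hbz hap hbp ha1 3 Nat.prime_three
      (fun h => hp3 h.symm) h3c.orderOf

end Cfsg.Agent.S3941
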