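import Cfsg.Statements.S3946
import Mathlib
import Cfsg.Agent.Lib.helper29.HTK

set_option autoImplicit false
open Cfsg

namespace Cfsg.Agent.S3946

open Cfsg.Agent.Lib.helper29

theorem sd_pow {G : Type*} [Group G] (α : MulAut G)
    (w : SemidirectProduct G (Subgroup.zpowers α) (Subgroup.zpowers α).subtype) (n : ℕ) :
    (w ^ n).left = ((List.range n).map (fun i : ℕ => ((w.right : MulAut G) ^ i) w.left)).prod ∧
      (w ^ n).right = w.right ^ n := by
  induction n with
  | zero => simp
  | succ n ih =>
    rw [pow_succ, SemidirectProduct.mul_left, SemidirectProduct.mul_right, ih.1, ih.2,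
      List.range_succ, List.map_append, List.prod_append, pow_succ]
    refine ⟨?_, rfl⟩
    simp


/-- Call an automorphism α of order n of a group G splitting when x · α(x) · α²(x) ⋯ α^(n−1)(x) = 1 for every x ∈ G. A finite group admitting a splitting automorphism of prime order is nilpotent (this contains the case of a fixed-point-free automorphism of prime order). -/
theorem result {G : Type*} [Group G] [Finite G] (α : MulAut G) (hp : (orderOf α).Prime)
    (hsplit : ∀ x : G, (((List.range (orderOf α)).map (fun i : ℕ => (α ^ i) x)).prod = 1)) : Group.IsNilpotent G := by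
  obtain ⟨p, hpdef⟩ : ∃ p : ℕ, p = orderOf α := ⟨_, rfl⟩
  rw [← hpdef] at hp hsplit
  haveI : Fact p.Prime := ⟨hp⟩
  obtain ⟨α', hα'⟩ : ∃ α' : Subgroup.zpowers α, (α' : MulAut G) = α :=
    ⟨⟨α, Subgroup.mem_zpowers α⟩, rfl⟩
  have hα1 : α ≠ 1 := by
    intro h1
    rw [h1, orderOf_one] at hpdef
    rw [hpdef] at hp
    exact Nat.not_prime_one hp
  have hα'1 : α' ≠ 1 := by
    intro h1
    apply hα1
    rw [← hα', h1]; rfl
  have hcardz : Nat.card (Subgroup.zpowers α) = p := by rw [Nat.card_zpowers, hpdef]
  haveI : Finite (SemidirectProduct G (Subgroup.zpowers α) (Subgroup.zpowers α).subtype) :=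
    Finite.of_equiv _ SemidirectProduct.equivProd.symm
  -- elements with right component `α` have `p`-th power one
  have hL3 : ∀ w : SemidirectProduct G (Subgroup.zpowers α) (Subgroup.zpowers α).subtype,
      w.right = α' → w ^ p = 1 := by
    intro w hw
    have h1 := sd_pow α w p
    apply SemidirectProduct.ext
    · rw [h1.1, hw, hα', SemidirectProduct.one_left]
      exact hsplit w.left
    · rw [h1.2, hw, SemidirectProduct.one_right, ← hcardz]
      exact pow_card_eq_one'
  have hHT : HT p (SemidirectProduct G (Subgroup.zpowers α) (Subgroup.zpowers α).subtype)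
      (SemidirectProduct.inl : G →* SemidirectProduct G (Subgroup.zpowers α)
        (Subgroup.zpowers α).subtype).range := by
    rw [SemidirectProduct.range_inl_eq_ker_rightHom]
    refine ⟨MonoidHom.normal_ker _, ?_, ?_⟩
    · intro htop
      have h1 : (SemidirectProduct.inr α' : SemidirectProduct G (Subgroup.zpowers α)
          (Subgroup.zpowers α).subtype) ∈ (SemidirectProduct.rightHom : SemidirectProduct G
            (Subgroup.zpowers α) (Subgroup.zpowers α).subtype →* Subgroup.zpowers α).ker := by
        rw [htop]; trivial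
      rw [MonoidHom.mem_ker, SemidirectProduct.rightHom_inr] at h1
      exact hα'1 h1
    · intro z hz
      rw [MonoidHom.mem_ker] at hz
      have hσ1 : z.right ≠ 1 := hz
      have hgen : Subgroup.zpowers z.right = ⊤ := zpowers_eq_top_of_prime_card hcardz hσ1
      have hmem : α' ∈ Subgroup.zpowers z.right := by rw [hgen]; trivial
      rw [← mem_powers_iff_mem_zpowers] at hmem
      obtain ⟨j, hj0⟩ := hmem
      have hj : z.right ^ j = α' := hj0
      have hσp : z.right ^ p = 1 := by rw [← hcardz]; exact pow_card_eq_one'
      have h1 : (z ^ j) ^ p = 1 := hL3 _ (by rw [(sd_pow α z j).2]; exact hj)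
      have h2 : (z ^ (j + p)) ^ p = 1 :=
        hL3 _ (by rw [(sd_pow α z (j + p)).2, pow_add, hσp, mul_one]; exact hj)
      rw [← pow_mul] at h1 h2
      have h3 := pow_gcd_eq_one.mpr ⟨h1, h2⟩
      have hpj : ¬ p ∣ j := by
        rintro ⟨m, rfl⟩
        apply hα'1
        rw [← hj, pow_mul, hσp, one_pow]
      have hg : Nat.gcd (j * p) ((j + p) * p) = p := by
        rw [Nat.gcd_mul_right, Nat.gcd_self_add_right]
        have hc : Nat.gcd j p = 1 :=
          Nat.Coprime.symm ((Nat.Prime.coprime_iff_not_dvd hp).mpr hpj)
        rw [hc, one_mul]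
      rw [hg] at h3
      exact h3
  have hn := htk_nilp hp hHT
  haveI := hn
  exact Subgroup.isNilpotent_of_ker_le_center
    (SemidirectProduct.inl : G →* SemidirectProduct G (Subgroup.zpowers α)
      (Subgroup.zpowers α).subtype).rangeRestrict
    (by
      rw [(MonoidHom.ker_eq_bot_iff _).mpr
        (MonoidHom.rangeRestrict_injective_iff.mpr SemidirectProduct.inl_injective)]
      exact bot_le)

end Cfsg.Agent.S3946
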