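import Cfsg.Statements.S3949
import Mathlib

set_option autoImplicit false
open Cfsg

namespace Cfsg.Agent.S3949

theorem iter_inv {G : Type*} [Group G] (α : MulAut G) (g : G) (hg : α g = g⁻¹) (n : ℕ) :
    ((fun c : G => c * (α c)⁻¹)^[n]) g = g ^ (2 ^ n) := by
  induction n generalizing g with
  | zero => simp
  | succ n ih =>
    rw [Function.iterate_succ_apply]
    have h1 : g * (α g)⁻¹ = g ^ 2 := by rw [hg, inv_inv, pow_two]
    have h2 : α (g ^ 2) = (g ^ 2)⁻¹ := by rw [map_pow, hg, inv_pow]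
    show ((fun c : G => c * (α c)⁻¹)^[n]) (g * (α g)⁻¹) = g ^ (2 ^ (n + 1))
    rw [h1, ih (g ^ 2) h2, ← pow_mul, pow_succ']

/-- Let G be a finite group and α an automorphism of G of order 2 such that the elements g·α(g)⁻¹ generate G. Let j be a positive integer such that 2^j divides the order of no element inverted by α. Then the set of values of the j-th iterate of the map c ↦ c·α(c)⁻¹ is exactly the set of elements of odd order inverted by α. -/
theorem result {G : Type*} [Group G] [Finite G] (α : MulAut G) (hα : orderOf α = 2) (hG : Subgroup.closure (Set.range (fun c : G => c * (α c)⁻¹)) = ⊤)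
    (j : ℕ) (hj : ∀ g : G, α g = g⁻¹ → ¬ 2 ^ j ∣ orderOf g) :
    Set.range ((fun c : G => c * (α c)⁻¹)^[j]) = {g : G | Odd (orderOf g) ∧ α g = g⁻¹} := by
  have hα2 : ∀ x : G, α (α x) = x := by
    intro x
    have h := pow_orderOf_eq_one α
    rw [hα] at h
    have h2 : (α ^ 2) x = x := by rw [h]; rfl
    rwa [pow_two] at h2
  have hj0 : j ≠ 0 := by
    intro h0
    apply hj 1 (by simp)
    rw [h0]
    simp
  obtain ⟨i, rfl⟩ : ∃ i, j = i + 1 := ⟨j - 1, by omega⟩
  have hφI : ∀ c : G, α (c * (α c)⁻¹) = (c * (α c)⁻¹)⁻¹ := by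
    intro c
    rw [map_mul, map_inv, hα2, mul_inv_rev, inv_inv]
  ext y
  constructor
  · rintro ⟨c, rfl⟩
    rw [Function.iterate_succ_apply]
    show Odd (orderOf (((fun c : G => c * (α c)⁻¹)^[i]) (c * (α c)⁻¹))) ∧ α (((fun c : G => c * (α c)⁻¹)^[i]) (c * (α c)⁻¹)) = (((fun c : G => c * (α c)⁻¹)^[i]) (c * (α c)⁻¹))⁻¹
    rw [iter_inv α _ (hφI c) i]
    set h := c * (α c)⁻¹ with hh
    have hI : α h = h⁻¹ := hφI c
    refine ⟨?_, by rw [map_pow, hI, inv_pow]⟩
    have hnd := hj h hI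
    rw [orderOf_pow, ← Nat.not_even_iff_odd, even_iff_two_dvd]
    intro h2
    have hopos : 0 < orderOf h := orderOf_pos h
    set o := orderOf h with ho
    have hd : Nat.gcd o (2 ^ i) ∣ 2 ^ i := Nat.gcd_dvd_right _ _
    obtain ⟨k, hk, hk'⟩ := (Nat.dvd_prime_pow Nat.prime_two).mp hd
    have hdo : Nat.gcd o (2 ^ i) ∣ o := Nat.gcd_dvd_left _ _
    have h3 : 2 * Nat.gcd o (2 ^ i) ∣ o := by
      obtain ⟨t, ht⟩ := h2
      have : o = Nat.gcd o (2 ^ i) * (o / Nat.gcd o (2 ^ i)) := (Nat.mul_div_cancel' hdo).symm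
      rw [ht] at this
      exact ⟨t, by linarith⟩
    rw [hk', ← pow_succ'] at h3
    by_cases hki : k + 1 ≤ i
    · have h4 : 2 ^ (k + 1) ∣ 2 ^ i := Nat.pow_dvd_pow 2 hki
      have h5 : 2 ^ (k + 1) ∣ Nat.gcd o (2 ^ i) := Nat.dvd_gcd h3 h4
      rw [hk'] at h5
      have := Nat.pow_dvd_pow_iff_le_right (by norm_num : 1 < 2) |>.mp h5
      omega
    · have h4 : 2 ^ (i + 1) ∣ 2 ^ (k + 1) := Nat.pow_dvd_pow 2 (by omega)
      exact hnd (h4.trans h3)
  · rintro ⟨hodd, hI⟩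
    obtain ⟨k, hk⟩ := hodd
    have hpow : ∀ n : ℕ, y ^ ((orderOf y + 1) ^ n) = y := by
      intro n
      induction n with
      | zero => simp
      | succ n ih =>
        rw [pow_succ, pow_mul, ih, pow_succ, pow_orderOf_eq_one, one_mul]
    refine ⟨y ^ ((k + 1) ^ (i + 1)), ?_⟩
    have hcI : α (y ^ ((k + 1) ^ (i + 1))) = (y ^ ((k + 1) ^ (i + 1)))⁻¹ := by
      rw [map_pow, hI, inv_pow]
    rw [iter_inv α _ hcI (i + 1), ← pow_mul, ← mul_pow]
    have : (k + 1) * 2 = orderOf y + 1 := by omega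
    rw [this]
    exact hpow (i + 1)

end Cfsg.Agent.S3949
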