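import Cfsg.Statements.S3984
import Cfsg.Agent.S3983
import Cfsg.Agent.Lib.helper20.ClassSize

set_option autoImplicit false
open Cfsg

namespace Cfsg.Agent.S3984

open scoped Pointwise
open Cfsg.Agent.S3983 Cfsg.Agent.Lib.helper20

/-- Let P be a Sylow p-subgroup of the finite group G that meets each conjugate g P g⁻¹ with g outside N_G(P) trivially, and let N be a normal subgroup of G of order prime to p. Then every Sylow p-subgroup Q of G ⧸ N meets each conjugate x Q x⁻¹ with x outside its normalizer trivially. -/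
theorem result {G : Type*} [Group G] [Finite G] (p : ℕ) [Fact p.Prime] (P : Sylow p G) (hTI : ∀ g : G, g ∉ Subgroup.normalizer ((P : Subgroup G) : Set G) → (P : Subgroup G) ⊓ (MulAut.conj g • (P : Subgroup G)) = ⊥) (N : Subgroup G) [N.Normal] (hN : (Nat.card ↥N).Coprime p) (Q : Sylow p (G ⧸ N)) : ∀ x : G ⧸ N, x ∉ Subgroup.normalizer ((Q : Subgroup (G ⧸ N)) : Set (G ⧸ N)) → (Q : Subgroup (G ⧸ N)) ⊓ (MulAut.conj x • (Q : Subgroup (G ⧸ N))) = ⊥ := by
  have hsurj : Function.Surjective (QuotientGroup.mk' N) := QuotientGroup.mk'_surjective N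
  have hP := ti_all p P hTI P
  set Pbar : Sylow p (G ⧸ N) := P.mapSurjective hsurj with hPbar
  have hPbar_coe : (Pbar : Subgroup (G ⧸ N)) = (P : Subgroup G).map (QuotientGroup.mk' N) :=
    Sylow.coe_mapSurjective hsurj P
  -- TI for the image
  have hTIbar : ∀ g : G ⧸ N, g ∉ Subgroup.normalizer ((Pbar : Subgroup (G ⧸ N)) : Set (G ⧸ N)) →
      (Pbar : Subgroup (G ⧸ N)) ⊓ (MulAut.conj g • (Pbar : Subgroup (G ⧸ N))) = ⊥ := by
    intro xb hxb
    rw [Subgroup.eq_bot_iff_forall]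
    rintro ab ⟨hab1, hab2⟩
    by_contra hab
    apply hxb
    have hab1 : ab ∈ (Pbar : Subgroup (G ⧸ N)) := hab1
    have hab2 : xb⁻¹ * ab * xb ∈ (Pbar : Subgroup (G ⧸ N)) := mem_conj_smul.mp hab2
    rw [hPbar_coe] at hab1 hab2
    obtain ⟨a, ha, rfl⟩ := hab1
    obtain ⟨x, rfl⟩ := hsurj xb
    obtain ⟨b, hb, hbe⟩ := hab2
    have ha1 : a ≠ 1 := by
      intro h
      apply hab
      rw [h, map_one]
    -- a' = x⁻¹ a x ∈ P ⊔ N
    have hbN : b⁻¹ * (x⁻¹ * a * x) ∈ N := by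
      have : (QuotientGroup.mk' N) (b⁻¹ * (x⁻¹ * a * x)) = 1 := by
        rw [map_mul, map_inv, hbe, map_mul, map_mul, map_inv]
        group
      exact (QuotientGroup.eq_one_iff _).mp this
    have haH : x⁻¹ * a * x ∈ (P : Subgroup G) ⊔ N := by
      have e : x⁻¹ * a * x = b * (b⁻¹ * (x⁻¹ * a * x)) := by group
      rw [e]
      exact Subgroup.mul_mem _ (Subgroup.mem_sup_left hb) (Subgroup.mem_sup_right hbN)
    obtain ⟨k, hk⟩ := P.2 ⟨a, ha⟩
    have hk' : a ^ (p ^ k) = 1 := by simpa using congrArg Subtype.val hk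
    have hpow : (⟨x⁻¹ * a * x, haH⟩ : ((P : Subgroup G) ⊔ N : Subgroup G)) ^ (p ^ k) = 1 := by
      apply Subtype.ext
      have := conj_pow (i := p ^ k) (a := x⁻¹) (b := a)
      rw [inv_inv] at this
      simp [this, hk']
    obtain ⟨d, hd⟩ := exists_conj_mem_sylow (P.subtype le_sup_left)
      (⟨x⁻¹ * a * x, haH⟩ : ((P : Subgroup G) ⊔ N : Subgroup G)) ⟨k, hpow⟩
    rw [Sylow.coe_subtype, Subgroup.mem_subgroupOf] at hd
    obtain ⟨p₁, hp₁, n₁, hn₁, hd'⟩ := Subgroup.mem_sup_of_normal_right.mp d.2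
    have hd2 : (d : G) * (x⁻¹ * a * x) * (d : G)⁻¹ ∈ (P : Subgroup G) := hd
    rw [← hd'] at hd2
    have h3 : n₁ * (x⁻¹ * a * x) * n₁⁻¹ ∈ (P : Subgroup G) := by
      have e : n₁ * (x⁻¹ * a * x) * n₁⁻¹ =
          p₁⁻¹ * (p₁ * n₁ * (x⁻¹ * a * x) * (p₁ * n₁)⁻¹) * p₁ := by group
      rw [e]
      exact Subgroup.mul_mem _ (Subgroup.mul_mem _ (Subgroup.inv_mem _ hp₁) hd2) hp₁
    have hgN := hP (x * n₁⁻¹) a ha (by
      have e : (x * n₁⁻¹)⁻¹ * a * (x * n₁⁻¹) = n₁ * (x⁻¹ * a * x) * n₁⁻¹ := by group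
      rw [e]; exact h3) ha1
    have hmk : (QuotientGroup.mk' N) x = (QuotientGroup.mk' N) (x * n₁⁻¹) := by
      rw [map_mul, map_inv]
      have : (QuotientGroup.mk' N) n₁ = 1 := (QuotientGroup.eq_one_iff _).mpr hn₁
      rw [this, inv_one, mul_one]
    rw [hmk, hPbar_coe]
    exact Subgroup.le_normalizer_map _ ⟨_, hgN, rfl⟩
  have hQ := ti_all p Pbar hTIbar Q
  intro x hx
  rw [Subgroup.eq_bot_iff_forall]
  rintro a ⟨ha1, ha2⟩
  by_contra hane
  exact hx (hQ x a ha1 (mem_conj_smul.mp ha2) hane)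

end Cfsg.Agent.S3984
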