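import Cfsg.Statements.S3985
import Cfsg.Agent.S3983
import Cfsg.Agent.Lib.helper20.ClassSize

set_option autoImplicit false
open Cfsg

namespace Cfsg.Agent.S3985

open scoped Pointwise
open Cfsg.Agent.S3983 Cfsg.Agent.Lib.helper20

theorem key_nt (p k j m : ℕ) [Fact p.Prime] (hk : 0 < k) (h : j * m ≡ m [MOD p ^ k])
    (hm : ¬ p ^ k ∣ m) : j ^ (p ^ (k - 1)) ≡ 1 [MOD p ^ k] := by
  have hp : p.Prime := Fact.out
  have h1 : ((p ^ k : ℕ) : ℤ) ∣ (m : ℤ) - ((j * m : ℕ) : ℤ) := Nat.modEq_iff_dvd.mp h
  have hp1 : (p : ℤ) ∣ (j : ℤ) - 1 := by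
    by_contra hcon
    have hcop : IsCoprime (p : ℤ) ((j : ℤ) - 1) :=
      (Nat.prime_iff_prime_int.mp hp).coprime_iff_not_dvd.mpr hcon
    have hcop' : IsCoprime ((p : ℤ) ^ k) ((j : ℤ) - 1) := hcop.pow_left
    have h2 : ((p : ℤ) ^ k) ∣ (m : ℤ) * ((j : ℤ) - 1) := by
      have e : (m : ℤ) * ((j : ℤ) - 1) = -((m : ℤ) - ((j * m : ℕ) : ℤ)) := by
        push_cast; ring
      rw [e]
      push_cast at h1
      exact (dvd_neg).mpr h1
    have h3 := hcop'.dvd_of_dvd_mul_right h2
    apply hm
    have h4 : ((p ^ k : ℕ) : ℤ) ∣ (m : ℤ) := by push_cast; exact h3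
    exact Int.natCast_dvd_natCast.mp h4
  have h5 := dvd_sub_pow_of_dvd_sub hp1 (k - 1)
  rw [Nat.sub_add_cancel hk, one_pow] at h5
  apply Nat.ModEq.symm
  rw [Nat.modEq_iff_dvd]
  push_cast
  exact h5

/-- Let P be a cyclic Sylow p-subgroup of the finite group G. Then P meets each conjugate g P g⁻¹ with g outside N_G(P) trivially if and only if P is weakly self-centralizing: C_G(x) = C_G(P) for every non-identity x ∈ P. -/
theorem result {G : Type*} [Group G] [Finite G] (p : ℕ) [Fact p.Prime] (P : Sylow p G) (hcyc : IsCyclic ↥(P : Subgroup G)) : (∀ g : G, g ∉ Subgroup.normalizer ((P : Subgroup G) : Set G) → (P : Subgroup G) ⊓ (MulAut.conj g • (P : Subgroup G)) = ⊥) ↔ ∀ x : G, x ∈ (P : Subgroup G) → x ≠ 1 → Subgroup.centralizer ({x} : Set G) = Subgroup.centralizer ((P : Subgroup G) : Set G) := by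
  classical
  have hp : p.Prime := Fact.out
  -- P is commutative
  have hPcomm : ∀ a ∈ (P : Subgroup G), ∀ b ∈ (P : Subgroup G), a * b = b * a := by
    intro a ha b hb
    have := (IsCyclic.isMulCommutative (α := (P : Subgroup G))).is_comm.comm ⟨a, ha⟩ ⟨b, hb⟩
    exact congrArg Subtype.val this
  have hcen1 : ∀ (a c : G), c ∈ Subgroup.centralizer ({a} : Set G) ↔ a * c = c * a := by
    intro a c
    rw [Subgroup.mem_centralizer_iff]
    simp
  constructor
  · intro hTI
    have hP := ti_all p P hTI P
    intro x hx hx1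
    apply le_antisymm
    · intro c hc
      have hcx : x * c = c * x := (hcen1 x c).mp hc
      -- generator
      obtain ⟨y', hy'⟩ := IsCyclic.exists_monoid_generator (α := (P : Subgroup G))
      set y : G := (y' : G) with hy
      have hyP : y ∈ (P : Subgroup G) := y'.2
      have hgen : ∀ a ∈ (P : Subgroup G), ∃ i : ℕ, y ^ i = a := by
        intro a ha
        obtain ⟨i, hi⟩ := hy' ⟨a, ha⟩
        exact ⟨i, by simpa using congrArg Subtype.val hi⟩
      obtain ⟨k, hk⟩ := (IsPGroup.iff_orderOf.mp P.2) y'
      have hoy : orderOf y = p ^ k := by rw [← hk, hy, Subgroup.orderOf_coe]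
      obtain ⟨m, hm⟩ := hgen x hx
      have hk0 : 0 < k := by
        rcases Nat.eq_zero_or_pos k with h0 | h0
        · exfalso
          rw [h0, pow_zero] at hoy
          rw [orderOf_eq_one_iff] at hoy
          rw [hoy, one_pow] at hm
          exact hx1 hm.symm
        · exact h0
      -- it suffices to commute with y
      have hsuff : ∀ w : G, w * y = y * w → w ∈ Subgroup.centralizer ((P : Subgroup G) : Set G) := by
        intro w hw
        rw [Subgroup.mem_centralizer_iff]
        intro a ha
        obtain ⟨i, rfl⟩ := hgen a ha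
        have : Commute w y := hw
        exact (this.pow_right i).eq.symm
      -- elements of the centralizer of x normalize P
      have hnorm : ∀ w : G, x * w = w * x →
          w ∈ Subgroup.normalizer ((P : Subgroup G) : Set G) := by
        intro w hw
        apply hP w x hx _ hx1
        have : w⁻¹ * x * w = x := by rw [mul_assoc, hw, inv_mul_cancel_left]
        rw [this]; exact hx
      obtain ⟨u, v, hcuv, huv, ⟨a, ha⟩, hvcop, hu, hv⟩ := exists_p_decomp p c
      have hzc : Subgroup.zpowers c ≤ Subgroup.centralizer ({x} : Set G) := by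
        rw [Subgroup.zpowers_le]; exact hc
      have hux : x * u = u * x := (hcen1 x u).mp (hzc hu)
      have hvx : x * v = v * x := (hcen1 x v).mp (hzc hv)
      -- u ∈ P
      have huP : u ∈ (P : Subgroup G) := by
        have hUp : IsPGroup p (Subgroup.zpowers u) := by
          have hdvd := orderOf_dvd_of_pow_eq_one ha
          obtain ⟨i, -, hi⟩ := (Nat.dvd_prime_pow hp).mp hdvd
          exact IsPGroup.of_card (n := i) (by rw [Nat.card_zpowers, hi])
        have hsup : IsPGroup p ((P : Subgroup G) ⊔ Subgroup.zpowers u : Subgroup G) :=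
          P.2.to_sup_of_normal_left' hUp (by rw [Subgroup.zpowers_le]; exact hnorm u hux)
        have := P.3 hsup le_sup_left
        rw [← this]
        exact Subgroup.mem_sup_right (Subgroup.mem_zpowers u)
      have huy : u * y = y * u := hPcomm u huP y hyP
      -- v
      have hvN := hnorm v hvx
      have hvy' : v * y * v⁻¹ ∈ (P : Subgroup G) :=
        (Subgroup.mem_set_normalizer_iff.mp hvN y).mp hyP
      obtain ⟨j, hj⟩ := hgen _ hvy'
      have hpow : ∀ i : ℕ, v ^ i * y * (v ^ i)⁻¹ = y ^ (j ^ i) := by
        intro i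
        induction i with
        | zero => simp
        | succ i ih =>
          have e : v ^ (i + 1) * y * (v ^ (i + 1))⁻¹ = v * (v ^ i * y * (v ^ i)⁻¹) * v⁻¹ := by
            rw [pow_succ']; group
          rw [e, ih, ← conj_pow, ← hj, ← pow_mul, pow_succ, mul_comm]
      have hjm : j * m ≡ m [MOD p ^ k] := by
        rw [← hoy, ← pow_eq_pow_iff_modEq]
        have h1 : v * x * v⁻¹ = x := by rw [← hvx, mul_inv_cancel_right]
        rw [← hm, ← conj_pow, ← hj, ← pow_mul] at h1
        exact h1
      have hmk : ¬ p ^ k ∣ m := by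
        intro hdvd
        apply hx1
        rw [← hm]
        rw [← hoy] at hdvd
        exact orderOf_dvd_iff_pow_eq_one.mp hdvd
      have hkey := key_nt p k j m hk0 hjm hmk
      have hwy : v ^ (p ^ (k - 1)) * y = y * v ^ (p ^ (k - 1)) := by
        have h1 := hpow (p ^ (k - 1))
        have h2 : y ^ (j ^ (p ^ (k - 1))) = y ^ 1 := by
          rw [pow_eq_pow_iff_modEq, hoy]; exact hkey
        rw [h2, pow_one] at h1
        exact mul_inv_eq_iff_eq_mul.mp h1
      have hvy : v * y = y * v := by
        have hcop2 : (p ^ (k - 1)).Coprime (orderOf v) :=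
          Nat.Coprime.pow_left _ hvcop.symm
        obtain ⟨s, hs⟩ := exists_pow_eq_self_of_coprime hcop2
        have : Commute (v ^ (p ^ (k - 1))) y := hwy
        have h3 := (this.pow_left s).eq
        rw [hs] at h3
        exact h3
      apply hsuff
      rw [hcuv, mul_assoc, hvy, ← mul_assoc, huy, mul_assoc]
    · intro c hc
      rw [hcen1]
      exact Subgroup.mem_centralizer_iff.mp hc x hx
  · intro hwsc
    -- general claim
    have claim : ∀ g a : G, a ∈ (P : Subgroup G) → a ≠ 1 → g⁻¹ * a * g ∈ (P : Subgroup G) →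
        ∀ s ∈ (P : Subgroup G), g * s * g⁻¹ ∈ (P : Subgroup G) := by
      intro g a ha ha1 hga
      have hga1 : g⁻¹ * a * g ≠ 1 := by
        intro h
        apply ha1
        have e : a = g * (g⁻¹ * a * g) * g⁻¹ := by group
        rw [e, h]; group
      have hC1 := hwsc a ha ha1
      have hC2 := hwsc _ hga hga1
      -- g C g⁻¹ ⊆ C
      have hconjC : ∀ c ∈ Subgroup.centralizer ((P : Subgroup G) : Set G),
          g * c * g⁻¹ ∈ Subgroup.centralizer ((P : Subgroup G) : Set G) := by
        intro c hc
        rw [← hC2] at hc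
        rw [← hC1, hcen1]
        have h1 := (hcen1 _ c).mp hc
        calc a * (g * c * g⁻¹) = g * ((g⁻¹ * a * g) * c) * g⁻¹ := by group
          _ = g * (c * (g⁻¹ * a * g)) * g⁻¹ := by rw [h1]
          _ = g * c * g⁻¹ * a := by group
      have hPC : (P : Subgroup G) ≤ Subgroup.centralizer ((P : Subgroup G) : Set G) := by
        intro s hs
        rw [Subgroup.mem_centralizer_iff]
        intro b hb
        exact hPcomm b hb s hs
      set T : Subgroup G := MulAut.conj g • (P : Subgroup G) with hT
      have hTp : IsPGroup p T := by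
        rw [hT, Subgroup.pointwise_smul_def]
        exact P.2.map _
      have hTC : T ≤ Subgroup.centralizer ((P : Subgroup G) : Set G) := by
        intro t ht
        rw [hT, mem_conj_smul] at ht
        have := hconjC _ (hPC ht)
        have e : g * (g⁻¹ * t * g) * g⁻¹ = t := by group
        rwa [e] at this
      have hPT : (P : Subgroup G) ≤ Subgroup.normalizer (T : Set G) := by
        intro s hs
        rw [Subgroup.mem_set_normalizer_iff]
        intro t
        have hcomm : ∀ t' ∈ T, s * t' * s⁻¹ = t' := by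
          intro t' ht'
          have := Subgroup.mem_centralizer_iff.mp (hTC ht') s hs
          rw [this, mul_inv_cancel_right]
        constructor
        · intro ht
          rw [SetLike.mem_coe] at ht ⊢
          rw [hcomm t ht]; exact ht
        · intro ht
          rw [SetLike.mem_coe] at ht ⊢
          have h2 := hcomm _ ht
          have h3 : s * t * s⁻¹ = t := by
            have := congrArg (fun z => s⁻¹ * z * s) h2
            have this : s⁻¹ * (s * (s * t * s⁻¹) * s⁻¹) * s = s⁻¹ * (s * t * s⁻¹) * s := this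
            have e1 : s⁻¹ * (s * (s * t * s⁻¹) * s⁻¹) * s = s * t * s⁻¹ := by group
            have e2 : s⁻¹ * (s * t * s⁻¹) * s = t := by group
            rw [e1, e2] at this
            exact this
          rw [← h3]; exact ht
      have hsup := P.2.to_sup_of_normal_right' hTp hPT
      have heq := P.3 hsup le_sup_left
      intro s hs
      have : g * s * g⁻¹ ∈ T := by
        rw [hT, mem_conj_smul]
        have e : g⁻¹ * (g * s * g⁻¹) * g = s := by group
        rw [e]; exact hs
      rw [← heq]
      exact Subgroup.mem_sup_right this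
    intro g hg
    rw [Subgroup.eq_bot_iff_forall]
    rintro a ⟨ha1, ha2⟩
    by_contra hane
    apply hg
    have ha1 : a ∈ (P : Subgroup G) := ha1
    have ha2 : g⁻¹ * a * g ∈ (P : Subgroup G) := mem_conj_smul.mp ha2
    have h1 := claim g a ha1 hane ha2
    have hane' : g⁻¹ * a * g ≠ 1 := by
      intro h
      apply hane
      have e : a = g * (g⁻¹ * a * g) * g⁻¹ := by group
      rw [e, h]; group
    have h2 := claim g⁻¹ (g⁻¹ * a * g) ha2 hane' (by
      have e : g⁻¹⁻¹ * (g⁻¹ * a * g) * g⁻¹ = a := by group
      rw [e]; exact ha1)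
    rw [Subgroup.mem_set_normalizer_iff]
    intro s
    constructor
    · exact h1 s
    · intro hs
      have := h2 _ hs
      have e : g⁻¹ * (g * s * g⁻¹) * g⁻¹⁻¹ = s := by group
      rwa [e] at this

end Cfsg.Agent.S3985
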