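import Cfsg.Statements.S3987
import Cfsg.Agent.S3986

set_option autoImplicit false
open Cfsg

namespace Cfsg.Agent.S3987

open Cfsg.Agent.Lib.helper20

theorem mem_class_iff {G : Type*} [Group G] (x h : G) :
    h ∈ (ConjClasses.mk x).carrier ↔ ∃ g : G, g * x * g⁻¹ = h := by
  rw [ConjClasses.mem_carrier_iff_mk_eq, ConjClasses.mk_eq_mk_iff_isConj, isConj_comm, isConj_iff]

/-- If the class of `x * y` has as many elements as the product of the class sizes, then `x`
and `y` commute. -/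
theorem commute_of_index_eq {G : Type*} [Group G] [Finite G] (x y : G)
    (h : (Subgroup.centralizer ({x * y} : Set G)).index =
      (Subgroup.centralizer ({x} : Set G)).index * (Subgroup.centralizer ({y} : Set G)).index) :
    x * y = y * x := by
  classical
  rw [← ncard_carrier_eq_index, ← ncard_carrier_eq_index, ← ncard_carrier_eq_index] at h
  set X : Set G := (ConjClasses.mk x).carrier with hX
  set Y : Set G := (ConjClasses.mk y).carrier with hY
  set Z : Set G := (ConjClasses.mk (x * y)).carrier with hZ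
  haveI : Fintype (X × Y) := Fintype.ofFinite _
  let μ : X × Y → G := fun ab => (ab.1 : G) * (ab.2 : G)
  have hsub : Z ⊆ ((Finset.univ.image μ : Finset G) : Set G) := by
    intro z hz
    obtain ⟨g, rfl⟩ := (mem_class_iff (x * y) z).mp hz
    rw [Finset.coe_image, Finset.coe_univ, Set.image_univ]
    refine ⟨(⟨g * x * g⁻¹, (mem_class_iff x _).mpr ⟨g, rfl⟩⟩,
      ⟨g * y * g⁻¹, (mem_class_iff y _).mpr ⟨g, rfl⟩⟩), ?_⟩
    change g * x * g⁻¹ * (g * y * g⁻¹) = g * (x * y) * g⁻¹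
    group
  have hcard : (Finset.univ.image μ).card = (Finset.univ : Finset (X × Y)).card := by
    apply le_antisymm Finset.card_image_le
    have h1 : Z.ncard ≤ (Finset.univ.image μ).card := by
      have := Set.ncard_le_ncard hsub (Finset.finite_toSet _)
      rwa [Set.ncard_coe_finset] at this
    have h2 : (Finset.univ : Finset (X × Y)).card = X.ncard * Y.ncard := by
      rw [Finset.card_univ, ← Nat.card_eq_fintype_card, Nat.card_prod, Nat.card_coe_set_eq,
        Nat.card_coe_set_eq]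
    rw [h2, ← h]
    exact h1
  have hinj : Set.InjOn μ (Finset.univ : Finset (X × Y)) := Finset.card_image_iff.mp hcard
  have hx : y * x * y⁻¹ ∈ X := (mem_class_iff x _).mpr ⟨y, rfl⟩
  have hy : x⁻¹ * y * x ∈ Y := (mem_class_iff y _).mpr ⟨x⁻¹, by rw [inv_inv]⟩
  have hx0 : x ∈ X := (mem_class_iff x _).mpr ⟨1, by simp⟩
  have hy0 : y ∈ Y := (mem_class_iff y _).mpr ⟨1, by simp⟩
  have heq : μ (⟨y * x * y⁻¹, hx⟩, ⟨y, hy0⟩) = μ (⟨x, hx0⟩, ⟨x⁻¹ * y * x, hy⟩) := by
    change y * x * y⁻¹ * y = x * (x⁻¹ * y * x)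
    group
  have := hinj (Finset.mem_coe.mpr (Finset.mem_univ _)) (Finset.mem_coe.mpr (Finset.mem_univ _)) heq
  have h3 : y * x * y⁻¹ = x := congrArg (fun ab : X × Y => (ab.1 : G)) this
  exact (mul_inv_eq_iff_eq_mul.mp h3).symm

/-- Let p be a prime and G a finite group. Then some Sylow p-subgroup of G is a direct factor of G (normal with a normal complement) if and only if for every element x of p-power order and every element y whose order is a power of a prime other than p, the conjugacy class of x y has as many elements as the product of the sizes of the classes of x and of y. -/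
theorem result {G : Type*} [Group G] [Finite G] (p : ℕ) [Fact p.Prime] : (∃ (P : Sylow p G) (K : Subgroup G), (P : Subgroup G).Normal ∧ K.Normal ∧ (P : Subgroup G) ⊓ K = ⊥ ∧ (P : Subgroup G) ⊔ K = ⊤) ↔ ∀ x y : G, (∃ a : ℕ, orderOf x = p ^ a) → (∃ q b : ℕ, q.Prime ∧ q ≠ p ∧ orderOf y = q ^ b) → (Subgroup.centralizer ({x * y} : Set G)).index = (Subgroup.centralizer ({x} : Set G)).index * (Subgroup.centralizer ({y} : Set G)).index := by
  classical
  have hp : p.Prime := Fact.out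
  constructor
  · rintro ⟨P, K, hPn, hKn, hinf, hsup⟩ x y ⟨a, ha⟩ ⟨q, b, hq, hqp, hb⟩
    haveI := hPn
    haveI := hKn
    have hcomm : ∀ c ∈ (P : Subgroup G), ∀ d ∈ K, c * d = d * c := by
      intro c hc d hd
      have h1 : c * d * c⁻¹ * d⁻¹ ∈ (P : Subgroup G) ⊓ K := by
        constructor
        · have e : c * d * c⁻¹ * d⁻¹ = c * (d * c⁻¹ * d⁻¹) := by group
          rw [e]
          exact Subgroup.mul_mem _ hc (hPn.conj_mem _ (Subgroup.inv_mem _ hc) d)
        · exact Subgroup.mul_mem _ (hKn.conj_mem _ hd c) (Subgroup.inv_mem _ hd)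
      rw [hinf, Subgroup.mem_bot] at h1
      have h2 : c * d * c⁻¹ = d := by rwa [mul_inv_eq_one] at h1
      exact mul_inv_eq_iff_eq_mul.mp h2
    have hxP : x ∈ (P : Subgroup G) := by
      have h1 : IsPGroup p (Subgroup.zpowers x) := IsPGroup.of_card (n := a) (by
        rw [Nat.card_zpowers, ha])
      obtain ⟨Q, hQ⟩ := h1.exists_le_sylow
      haveI := Sylow.unique_of_normal P hPn
      have : Q = P := Subsingleton.elim _ _
      rw [← this]
      exact hQ (Subgroup.mem_zpowers x)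
    have hyK : y ∈ K := by
      have hy : y ∈ (P : Subgroup G) ⊔ K := by rw [hsup]; trivial
      obtain ⟨c, hc, d, hd, hcd⟩ := Subgroup.mem_sup_of_normal_right.mp hy
      have hcd' : Commute c d := hcomm c hc d hd
      have h1 : y ^ (q ^ b) = 1 := by rw [← hb]; exact pow_orderOf_eq_one y
      rw [← hcd, hcd'.mul_pow] at h1
      have h2 : c ^ (q ^ b) ∈ (P : Subgroup G) ⊓ K := by
        refine ⟨Subgroup.pow_mem _ hc _, ?_⟩
        have : c ^ (q ^ b) = (d ^ (q ^ b))⁻¹ := eq_inv_of_mul_eq_one_left h1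
        rw [this]
        exact Subgroup.inv_mem _ (Subgroup.pow_mem _ hd _)
      rw [hinf, Subgroup.mem_bot] at h2
      obtain ⟨k, hk⟩ := P.2 ⟨c, hc⟩
      have hk' : c ^ (p ^ k) = 1 := by simpa using congrArg Subtype.val hk
      have hcop : Nat.Coprime (q ^ b) (p ^ k) :=
        Nat.Coprime.pow b k ((Nat.coprime_primes hq hp).mpr hqp)
      have h3 := pow_gcd_eq_one.mpr ⟨h2, hk'⟩
      rw [hcop, pow_one] at h3
      rw [← hcd, h3, one_mul]
      exact hd
    -- the bijection between class products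
    rw [← ncard_carrier_eq_index, ← ncard_carrier_eq_index, ← ncard_carrier_eq_index]
    set X : Set G := (ConjClasses.mk x).carrier with hX
    set Y : Set G := (ConjClasses.mk y).carrier with hY
    set Z : Set G := (ConjClasses.mk (x * y)).carrier with hZ
    have hXP : ∀ a ∈ X, a ∈ (P : Subgroup G) := by
      intro a ha
      obtain ⟨g, rfl⟩ := (mem_class_iff x a).mp ha
      exact hPn.conj_mem _ hxP g
    have hYK : ∀ b ∈ Y, b ∈ K := by
      intro b hb
      obtain ⟨g, rfl⟩ := (mem_class_iff y b).mp hb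
      exact hKn.conj_mem _ hyK g
    have hμ : ∀ ab : X × Y, (ab.1 : G) * (ab.2 : G) ∈ Z := by
      rintro ⟨⟨a, ha⟩, ⟨b, hb⟩⟩
      obtain ⟨g₁, rfl⟩ := (mem_class_iff x a).mp ha
      obtain ⟨g₂, rfl⟩ := (mem_class_iff y b).mp hb
      have hg₁ : g₁ ∈ (P : Subgroup G) ⊔ K := by rw [hsup]; trivial
      have hg₂ : g₂ ∈ (P : Subgroup G) ⊔ K := by rw [hsup]; trivial
      obtain ⟨p₁, hp₁, k₁, hk₁, rfl⟩ := Subgroup.mem_sup_of_normal_right.mp hg₁
      obtain ⟨p₂, hp₂, k₂, hk₂, rfl⟩ := Subgroup.mem_sup_of_normal_right.mp hg₂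
      rw [mem_class_iff]
      refine ⟨p₁ * k₂, ?_⟩
      have e1 : k₁ * x * k₁⁻¹ = x := by
        rw [← hcomm x hxP k₁ hk₁, mul_inv_cancel_right]
      have e2 : k₂ * x * k₂⁻¹ = x := by
        rw [← hcomm x hxP k₂ hk₂, mul_inv_cancel_right]
      have hky : k₂ * y * k₂⁻¹ ∈ K := hKn.conj_mem _ hyK k₂
      have e3 : p₂ * (k₂ * y * k₂⁻¹) * p₂⁻¹ = k₂ * y * k₂⁻¹ := by
        rw [hcomm p₂ hp₂ _ hky, mul_inv_cancel_right]
      have e4 : p₁ * (k₂ * y * k₂⁻¹) * p₁⁻¹ = k₂ * y * k₂⁻¹ := by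
        rw [hcomm p₁ hp₁ _ hky, mul_inv_cancel_right]
      change p₁ * k₂ * (x * y) * (p₁ * k₂)⁻¹ =
        p₁ * k₁ * x * (p₁ * k₁)⁻¹ * (p₂ * k₂ * y * (p₂ * k₂)⁻¹)
      calc p₁ * k₂ * (x * y) * (p₁ * k₂)⁻¹
          = p₁ * (k₂ * x * k₂⁻¹) * p₁⁻¹ * (p₁ * (k₂ * y * k₂⁻¹) * p₁⁻¹) := by group
        _ = p₁ * x * p₁⁻¹ * (k₂ * y * k₂⁻¹) := by rw [e2, e4]
        _ = p₁ * (k₁ * x * k₁⁻¹) * p₁⁻¹ * (p₂ * (k₂ * y * k₂⁻¹) * p₂⁻¹) := by rw [e1, e3]
        _ = p₁ * k₁ * x * (p₁ * k₁)⁻¹ * (p₂ * k₂ * y * (p₂ * k₂)⁻¹) := by group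
    let f : X × Y → Z := fun ab => ⟨(ab.1 : G) * (ab.2 : G), hμ ab⟩
    have hf : Function.Bijective f := by
      constructor
      · rintro ⟨⟨a, ha⟩, ⟨b, hb⟩⟩ ⟨⟨a', ha'⟩, ⟨b', hb'⟩⟩ hab
        have h1 : a * b = a' * b' := congrArg Subtype.val hab
        have h2 : a'⁻¹ * a ∈ (P : Subgroup G) ⊓ K := by
          refine ⟨Subgroup.mul_mem _ (Subgroup.inv_mem _ (hXP a' ha')) (hXP a ha), ?_⟩
          have e : a'⁻¹ * a = b' * b⁻¹ := by
            calc a'⁻¹ * a = a'⁻¹ * (a * b) * b⁻¹ := by group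
              _ = a'⁻¹ * (a' * b') * b⁻¹ := by rw [h1]
              _ = b' * b⁻¹ := by group
          rw [e]
          exact Subgroup.mul_mem _ (hYK b' hb') (Subgroup.inv_mem _ (hYK b hb))
        rw [hinf, Subgroup.mem_bot] at h2
        have h3 : a = a' := (inv_mul_eq_one.mp h2).symm
        subst h3
        have h4 : b = b' := mul_left_cancel h1
        subst h4
        rfl
      · rintro ⟨z, hz⟩
        obtain ⟨g, rfl⟩ := (mem_class_iff (x * y) z).mp hz
        refine ⟨(⟨g * x * g⁻¹, (mem_class_iff x _).mpr ⟨g, rfl⟩⟩,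
          ⟨g * y * g⁻¹, (mem_class_iff y _).mpr ⟨g, rfl⟩⟩), ?_⟩
        apply Subtype.ext
        change g * x * g⁻¹ * (g * y * g⁻¹) = g * (x * y) * g⁻¹
        group
    have := Nat.card_congr (Equiv.ofBijective f hf)
    rw [Nat.card_prod, Nat.card_coe_set_eq, Nat.card_coe_set_eq, Nat.card_coe_set_eq] at this
    exact this.symm
  · intro h
    apply (Cfsg.Agent.S3986.result p).mpr
    intro x y hx hy
    exact commute_of_index_eq x y (h x y hx hy)

end Cfsg.Agent.S3987
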