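import Cfsg.Statements.S4002
import Cfsg.Agent.S0003
import Cfsg.Agent.S0043
import Cfsg.Agent.S3857
import Cfsg.Agent.Lib.helper1.Carter
import Mathlib

set_option autoImplicit false
open Cfsg

namespace Cfsg.Agent.S4002

universe u

/-- an element whose order is a product of two of the three primes -/
def Good (G : Type*) [Group G] (p q r : ℕ) : Prop :=
  ∃ g : G, orderOf g = p * q ∨ orderOf g = p * r ∨ orderOf g = q * r

theorem FA {G : Type*} [Group G] [Finite G] (N : Subgroup G) [hN : N.Normal]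
    (hNc : ∀ a ∈ N, ∀ b ∈ N, a * b = b * a)
    (M : Subgroup G) (y : G) (u : ℕ) (hu : 0 < u) (hy : y ^ u = 1)
    (hyM : ∀ x ∈ M, y * x * y⁻¹ ∈ M)
    (hMy : ∀ i, 0 < i → i < u → ∀ x ∈ M, y ^ i * x = x * y ^ i → x = 1)
    (hNy : ∀ v ∈ N, y * v = v * y → v = 1)
    (hNM : ∀ v ∈ N, (∀ x ∈ M, x * v = v * x) → v = 1) :
    ∀ v ∈ N, v ^ Nat.card M = 1 := by
  classical
  letI : CommGroup N := { (inferInstance : Group N) with
    mul_comm := fun a b => Subtype.ext (hNc a.1 a.2 b.1 b.2) }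
  haveI : Fintype M := Fintype.ofFinite M
  let φ : G →* MulAut N := MulAut.conjNormal
  have hφ : ∀ (g : G) (w : N), ((φ g w : N) : G) = g * w * g⁻¹ :=
    fun g w => MulAut.conjNormal_apply g w
  have hyiM : ∀ i : ℕ, ∀ x ∈ M, y ^ i * x * (y ^ i)⁻¹ ∈ M := by
    intro i
    induction i with
    | zero => intro x hx; simpa using hx
    | succ i ih =>
      intro x hx
      have := hyM _ (ih x hx)
      have e : y ^ (i + 1) * x * (y ^ (i + 1))⁻¹ = y * (y ^ i * x * (y ^ i)⁻¹) * y⁻¹ := by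
        rw [pow_succ']; group
      rw [e]; exact this
  intro v hv
  set w : N := ⟨v, hv⟩ with hw
  have h1 : ∀ x : M, ∏ i ∈ Finset.range u, (φ ((x : G) * y ^ i * (x : G)⁻¹)) w = 1 := by
    intro x
    have hpow : ∀ i : ℕ, (φ ((x : G) * y * (x : G)⁻¹)) ^ i = φ ((x : G) * y ^ i * (x : G)⁻¹) := by
      intro i; rw [← map_pow, conj_pow]
    have h := Cfsg.Agent.S3857.norm_eq_one u (φ ((x : G) * y * (x : G)⁻¹))
      (by rw [hpow, hy]; simp) (by
        intro z hz
        have hz' : ((x : G) * y * (x : G)⁻¹) * z * ((x : G) * y * (x : G)⁻¹)⁻¹ = z := by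
          have := congrArg Subtype.val hz; rwa [hφ] at this
        have hmem : (x : G)⁻¹ * z * (x : G) ∈ N := by
          have := hN.conj_mem z z.2 (x : G)⁻¹; simpa using this
        have hcomm : y * ((x : G)⁻¹ * z * (x : G)) = ((x : G)⁻¹ * z * (x : G)) * y := by
          have e1 : y * ((x : G)⁻¹ * z * (x : G)) =
              (x : G)⁻¹ * (((x : G) * y * (x : G)⁻¹) * z * ((x : G) * y * (x : G)⁻¹)⁻¹) * (x : G) * y := by
            group
          rw [e1, hz']
        have h3 := hNy _ hmem hcomm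
        have h4 : (z : G) = 1 := by
          have e2 : (z : G) = (x : G) * ((x : G)⁻¹ * z * (x : G)) * (x : G)⁻¹ := by group
          rw [e2, h3]; group
        exact Subtype.ext h4) w
    simp_rw [hpow] at h
    exact h
  have h2 : ∏ x : M, ∏ i ∈ Finset.range u, (φ ((x : G) * y ^ i * (x : G)⁻¹)) w = 1 :=
    Finset.prod_eq_one (fun x _ => h1 x)
  rw [Finset.prod_comm] at h2
  have h3 : ∀ i ∈ Finset.range u, i ≠ 0 → ∏ x : M, (φ ((x : G) * y ^ i * (x : G)⁻¹)) w = 1 := by
    intro i hi hi0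
    have hi' := Finset.mem_range.mp hi
    let θ : M → M := fun x => ⟨(x : G) * (y ^ i * (x : G)⁻¹ * (y ^ i)⁻¹),
      M.mul_mem x.2 (hyiM i _ (M.inv_mem x.2))⟩
    have hθinj : Function.Injective θ := by
      intro a b hab
      have hab' : (a : G) * (y ^ i * (a : G)⁻¹ * (y ^ i)⁻¹) =
          (b : G) * (y ^ i * (b : G)⁻¹ * (y ^ i)⁻¹) := congrArg Subtype.val hab
      have hc : y ^ i * ((b : G)⁻¹ * (a : G)) = ((b : G)⁻¹ * (a : G)) * y ^ i := by
        have e1 : y ^ i * ((b : G)⁻¹ * (a : G)) =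
            (b : G)⁻¹ * ((b : G) * (y ^ i * (b : G)⁻¹ * (y ^ i)⁻¹)) * y ^ i * (a : G) := by group
        rw [e1, ← hab']; group
      have h5 := hMy i (Nat.pos_of_ne_zero hi0) hi' _ (M.mul_mem (M.inv_mem b.2) a.2) hc
      apply Subtype.ext
      have e2 : (a : G) = (b : G) * ((b : G)⁻¹ * (a : G)) := by group
      rw [e2, h5, mul_one]
    have hθbij : Function.Bijective θ := Finite.injective_iff_bijective.mp hθinj
    have hterm : ∀ x : M, (φ ((x : G) * y ^ i * (x : G)⁻¹)) w =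
        (φ ((θ x : M) : G)) (φ (y ^ i) w) := by
      intro x
      rw [← MulAut.mul_apply, ← map_mul]
      congr 2
      show (x : G) * y ^ i * (x : G)⁻¹ = (x : G) * (y ^ i * (x : G)⁻¹ * (y ^ i)⁻¹) * y ^ i
      group
    rw [Finset.prod_congr rfl (fun x _ => hterm x)]
    rw [Fintype.prod_bijective θ hθbij (fun x => (φ ((θ x : M) : G)) (φ (y ^ i) w))
      (fun x' => (φ (x' : G)) (φ (y ^ i) w)) (fun x => rfl)]
    set w' := φ (y ^ i) w with hw'
    have hinv : ∀ z ∈ M, z * ((∏ x' : M, (φ (x' : G)) w' : N) : G) =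
        ((∏ x' : M, (φ (x' : G)) w' : N) : G) * z := by
      intro z hz
      have hfix : φ z (∏ x' : M, (φ (x' : G)) w') = ∏ x' : M, (φ (x' : G)) w' := by
        rw [map_prod]
        apply Fintype.prod_equiv (Equiv.mulLeft (⟨z, hz⟩ : M))
        intro x'
        rw [← MulAut.mul_apply, ← map_mul]; rfl
      have h' := congrArg Subtype.val hfix
      rw [hφ] at h'
      calc z * ((∏ x' : M, (φ (x' : G)) w' : N) : G)
          = (z * ((∏ x' : M, (φ (x' : G)) w' : N) : G) * z⁻¹) * z := by group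
        _ = ((∏ x' : M, (φ (x' : G)) w' : N) : G) * z := by rw [h']
    have h6 := hNM _ (∏ x' : M, (φ (x' : G)) w').2 hinv
    exact Subtype.ext h6
  rw [Finset.prod_eq_single 0 (fun i hi hi0 => h3 i hi hi0)
    (fun h0 => absurd (Finset.mem_range.mpr hu) h0)] at h2
  simp only [pow_zero, mul_one, mul_inv_cancel, map_one, MulAut.one_apply, Finset.prod_const,
    Finset.card_univ] at h2
  have h7 := congrArg Subtype.val h2
  rw [Nat.card_eq_fintype_card]
  simpa [hw] using h7

theorem exists_order_mul {G : Type*} [Group G] (x v : G) (a b : ℕ) (ha : a.Prime) (hb : b.Prime)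
    (hab : a ≠ b) (hx : orderOf x = a) (hv : orderOf v = b) (hc : x * v = v * x) :
    orderOf (x * v) = a * b := by
  have hcm : Commute x v := hc
  have := hcm.orderOf_mul_eq_mul_orderOf_of_coprime (by
    rw [hx, hv]; exact (Nat.coprime_primes ha hb).mpr hab)
  rw [this, hx, hv]

theorem subcore {G : Type*} [Group G] [Finite G] (p t u : ℕ) (hp : p.Prime) (ht : t.Prime)
    (hu : u.Prime) (hpt : p ≠ t) (hpu : p ≠ u) (htu : t ≠ u)
    (N : Subgroup G) [N.Normal] (hN1 : N ≠ ⊥) (hNc : ∀ a ∈ N, ∀ b ∈ N, a * b = b * a)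
    (hNp : ∀ x ∈ N, x ^ p = 1)
    (M : Subgroup G) (hM1 : M ≠ ⊥) (hMt : ∀ x ∈ M, x ^ t = 1)
    (y : G) (hy : orderOf y = u) (hyM : ∀ x ∈ M, y * x * y⁻¹ ∈ M) :
    ∃ g : G, orderOf g = p * t ∨ orderOf g = p * u ∨ orderOf g = t * u := by
  haveI : Fact p.Prime := ⟨hp⟩
  haveI : Fact t.Prime := ⟨ht⟩
  by_contra hno
  push_neg at hno
  have hordN : ∀ v ∈ N, v ≠ 1 → orderOf v = p := fun v hv hv1 => orderOf_eq_prime (hNp v hv) hv1
  have hordM : ∀ x ∈ M, x ≠ 1 → orderOf x = t := fun x hx hx1 => orderOf_eq_prime (hMt x hx) hx1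
  have hNy : ∀ v ∈ N, y * v = v * y → v = 1 := by
    intro v hv hc
    by_contra hv1
    exact (hno (v * y)).2.1 (exists_order_mul v y p u hp hu hpu (hordN v hv hv1) hy hc.symm)
  have hNM : ∀ v ∈ N, (∀ x ∈ M, x * v = v * x) → v = 1 := by
    intro v hv hc
    by_contra hv1
    obtain ⟨x, hx1⟩ := (Subgroup.ne_bot_iff_exists_ne_one.mp hM1)
    have hx1' : (x : G) ≠ 1 := fun h => hx1 (Subtype.ext h)
    exact (hno (v * x)).1 (exists_order_mul v x p t hp ht hpt (hordN v hv hv1)
      (hordM x x.2 hx1') (hc x x.2).symm)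
  have hMy : ∀ i, 0 < i → i < u → ∀ x ∈ M, y ^ i * x = x * y ^ i → x = 1 := by
    intro i hi0 hiu x hx hc
    by_contra hx1
    have hcop : Nat.Coprime i u :=
      (Nat.Coprime.symm ((Nat.Prime.coprime_iff_not_dvd hu).mpr (Nat.not_dvd_of_pos_of_lt hi0 hiu)))
    obtain ⟨j, -, hj⟩ := Nat.exists_mul_mod_eq_one_of_coprime hcop hu.one_lt
    have hyj : (y ^ i) ^ j = y := by
      rw [← pow_mul, ← pow_mod_orderOf, hy, hj, pow_one]
    have hcm : Commute (y ^ i) x := hc
    have hcm2 : Commute y x := by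
      have := hcm.pow_left j
      rwa [hyj] at this
    exact (hno (x * y)).2.2 (exists_order_mul x y t u ht hu htu (hordM x hx hx1) hy hcm2.eq.symm)
  have hFA := FA N hNc M y u hu.pos (by rw [← hy]; exact pow_orderOf_eq_one y) hyM hMy hNy hNM
  -- card M is a power of t
  have hMp : IsPGroup t M := by
    intro g
    refine ⟨1, ?_⟩
    apply Subtype.ext
    simpa using hMt g.1 g.2
  obtain ⟨j, hj⟩ := hMp.exists_card_eq
  apply hN1
  rw [Subgroup.eq_bot_iff_forall]
  intro v hv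
  by_contra hv1
  have h1 : orderOf v ∣ t ^ j := by
    rw [← hj]; exact orderOf_dvd_of_pow_eq_one (hFA v hv)
  rw [hordN v hv hv1] at h1
  exact hpt ((Nat.prime_dvd_prime_iff_eq hp ht).mp (hp.dvd_of_dvd_pow h1))

theorem good_of_quot {G : Type*} [Group G] [Finite G] (N : Subgroup G) [N.Normal] (p q r : ℕ)
    (h : Good (G ⧸ N) p q r) : Good G p q r := by
  obtain ⟨g', hg'⟩ := h
  obtain ⟨g, rfl⟩ := QuotientGroup.mk_surjective g'
  have hdvd : orderOf (g : G ⧸ N) ∣ orderOf g := by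
    apply orderOf_dvd_of_pow_eq_one
    rw [← QuotientGroup.mk_pow, pow_orderOf_eq_one]
    rfl
  refine ⟨g ^ (orderOf g / orderOf (g : G ⧸ N)), ?_⟩
  rw [orderOf_pow_orderOf_div (orderOf_pos g).ne' hdvd]
  exact hg'

theorem core {G : Type u} [Group G] [Finite G] [Group.IsSolvable G] (p q r : ℕ)
    (hp : p.Prime) (hq : q.Prime) (hr : r.Prime) (hpq : p ≠ q) (hpr : p ≠ r) (hqr : q ≠ r)
    (hqG : q ∣ Nat.card G) (hrG : r ∣ Nat.card G)
    (hpi : ∀ s : ℕ, s.Prime → s ∣ Nat.card G → s = p ∨ s = q ∨ s = r)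
    (ih : ∀ (H : Type u) [Group H] [Finite H] [Group.IsSolvable H] (p q r : ℕ),
      Nat.card H < Nat.card G → p.Prime → q.Prime → r.Prime → p ≠ q → p ≠ r → q ≠ r →
      p ∣ Nat.card H → q ∣ Nat.card H → r ∣ Nat.card H → Good H p q r)
    (N : Subgroup G) [N.Normal] (hN1 : N ≠ ⊥) (hNc : ∀ a ∈ N, ∀ b ∈ N, a * b = b * a)
    (hNp : ∀ x ∈ N, x ^ p = 1) : Good G p q r := by
  classical
  haveI : Fact p.Prime := ⟨hp⟩
  have hNP : IsPGroup p N := by
    intro g
    refine ⟨1, ?_⟩
    apply Subtype.ext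
    simpa using hNp g.1 g.2
  obtain ⟨k, hk⟩ := hNP.exists_card_eq
  have hcardG : Nat.card G = Nat.card (G ⧸ N) * Nat.card N :=
    Subgroup.card_eq_card_quotient_mul_card_subgroup N
  have hNgt : 1 < Nat.card N := by
    rw [Subgroup.one_lt_card_iff_ne_bot]; exact hN1
  have hQpos : 0 < Nat.card (G ⧸ N) := Nat.card_pos
  have hcop : ∀ s : ℕ, s.Prime → s ≠ p → s ∣ Nat.card G → s ∣ Nat.card (G ⧸ N) := by
    intro s hs hsp hsG
    rw [hcardG, hk] at hsG
    exact (Nat.Coprime.dvd_of_dvd_mul_right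
      (Nat.Coprime.pow_right k ((Nat.coprime_primes hs hp).mpr hsp)) hsG)
  by_cases hpQ : p ∣ Nat.card (G ⧸ N)
  · apply good_of_quot N
    apply ih (G ⧸ N) p q r _ hp hq hr hpq hpr hqr hpQ (hcop q hq (Ne.symm hpq) hqG)
      (hcop r hr (Ne.symm hpr) hrG)
    rw [hcardG]
    nlinarith
  · -- N is a normal Hall subgroup
    have hidx : N.index = Nat.card (G ⧸ N) := Subgroup.index_eq_card N
    have hcopr : Nat.Coprime (Nat.card N) N.index := by
      rw [hk, hidx]
      exact Nat.Coprime.pow_left k ((Nat.Prime.coprime_iff_not_dvd hp).mpr hpQ)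
    obtain ⟨K, hK⟩ := Subgroup.exists_right_complement'_of_coprime hcopr
    have hKcard : Nat.card K = Nat.card (G ⧸ N) := by
      have h1 := hK.card_mul_card
      rw [hcardG, mul_comm] at h1
      exact Nat.eq_of_mul_eq_mul_right (by omega) h1
    have hqK : q ∣ Nat.card K := by rw [hKcard]; exact hcop q hq (Ne.symm hpq) hqG
    have hrK : r ∣ Nat.card K := by rw [hKcard]; exact hcop r hr (Ne.symm hpr) hrG
    have hpK : ¬ p ∣ Nat.card K := by rw [hKcard]; exact hpQ
    have hKdvd : Nat.card K ∣ Nat.card G := Subgroup.card_subgroup_dvd_card K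
    haveI : Nontrivial K := by
      rw [← Finite.one_lt_card_iff_nontrivial]
      exact lt_of_lt_of_le hq.one_lt (Nat.le_of_dvd Nat.card_pos hqK)
    obtain ⟨M, hMn, hM1, hMmin⟩ := Cfsg.Agent.Lib.helper1.exists_min_normal K
    haveI := hMn
    obtain ⟨hMc, t, ht, hMt⟩ := Cfsg.Agent.S0043.result M hM1 hMmin
    haveI : Fact t.Prime := ⟨ht⟩
    have hMP : IsPGroup t M := by
      intro g
      refine ⟨1, ?_⟩
      apply Subtype.ext
      simpa using hMt g.1 g.2
    obtain ⟨j, hj⟩ := hMP.exists_card_eq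
    have hj0 : j ≠ 0 := by
      intro h0
      rw [h0, pow_zero] at hj
      exact hM1 (Subgroup.eq_bot_of_card_eq M hj)
    have htK : t ∣ Nat.card K := by
      have h1 : Nat.card M ∣ Nat.card K := Subgroup.card_subgroup_dvd_card M
      rw [hj] at h1
      exact dvd_trans (dvd_pow_self t hj0) h1
    have htp : t ≠ p := fun h => hpK (h ▸ htK)
    -- the subgroup M' of G
    set M' : Subgroup G := M.map K.subtype with hM'
    have hM'1 : M' ≠ ⊥ := by
      rw [hM', Ne, Subgroup.map_eq_bot_iff_of_injective M (Subgroup.subtype_injective K)]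
      exact hM1
    have hM't : ∀ x ∈ M', x ^ t = 1 := by
      intro x hx
      obtain ⟨x0, hx0, rfl⟩ := Subgroup.mem_map.mp hx
      have := hMt x0 hx0
      have h2 := congrArg Subtype.val this
      simpa using h2
    have key : ∀ u : ℕ, u.Prime → u ∣ Nat.card K → p ≠ u → t ≠ u →
        ∃ g : G, orderOf g = p * t ∨ orderOf g = p * u ∨ orderOf g = t * u := by
      intro u hu huK hpu htu
      haveI : Fact u.Prime := ⟨hu⟩
      obtain ⟨y0, hy0⟩ := exists_prime_orderOf_dvd_card' (G := K) u huK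
      have hy : orderOf (y0 : G) = u := by rw [Subgroup.orderOf_coe]; exact hy0
      have hyM : ∀ x ∈ M', (y0 : G) * x * (y0 : G)⁻¹ ∈ M' := by
        intro x hx
        obtain ⟨x0, hx0, rfl⟩ := Subgroup.mem_map.mp hx
        exact Subgroup.mem_map.mpr ⟨y0 * x0 * y0⁻¹, hMn.conj_mem x0 hx0 y0, by simp⟩
      exact subcore p t u hp ht hu (Ne.symm htp) hpu htu N hN1 hNc hNp M' hM'1 hM't (y0 : G) hy hyM
    rcases hpi t ht (dvd_trans htK hKdvd) with h | h | h
    · exact absurd h htp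
    · -- t = q, u = r
      subst h
      obtain ⟨g, hg⟩ := key r hr hrK hpr hqr
      exact ⟨g, hg⟩
    · -- t = r, u = q
      subst h
      obtain ⟨g, hg⟩ := key q hq hqK hpq (Ne.symm hqr)
      refine ⟨g, ?_⟩
      rcases hg with h | h | h
      · exact Or.inr (Or.inl h)
      · exact Or.inl h
      · exact Or.inr (Or.inr (by rw [h, mul_comm]))

theorem three_primes (n : ℕ) : ∀ (G : Type u) [Group G] [Finite G] [Group.IsSolvable G] (p q r : ℕ),
    Nat.card G = n → p.Prime → q.Prime → r.Prime → p ≠ q → p ≠ r → q ≠ r →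
    p ∣ Nat.card G → q ∣ Nat.card G → r ∣ Nat.card G → Good G p q r := by
  induction n using Nat.strong_induction_on with
  | _ n ih =>
  intro G _ _ _ p q r hcard hp hq hr hpq hpr hqr hpG hqG hrG
  classical
  have hGpos : Nat.card G ≠ 0 := Nat.card_pos.ne'
  have ih' : ∀ (H : Type u) [Group H] [Finite H] [Group.IsSolvable H] (p q r : ℕ),
      Nat.card H < Nat.card G → p.Prime → q.Prime → r.Prime → p ≠ q → p ≠ r → q ≠ r →
      p ∣ Nat.card H → q ∣ Nat.card H → r ∣ Nat.card H → Good H p q r := by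
    intro H _ _ _ p q r hlt
    exact ih (Nat.card H) (hcard ▸ hlt) H p q r rfl
  by_cases hother : ∃ s : ℕ, s.Prime ∧ s ∣ Nat.card G ∧ s ≠ p ∧ s ≠ q ∧ s ≠ r
  · obtain ⟨s, hs, hsG, hsp, hsq, hsr⟩ := hother
    have hmul : ordProj[s] (Nat.card G) * ordCompl[s] (Nat.card G) = Nat.card G :=
      Nat.ordProj_mul_ordCompl_eq_self _ _
    obtain ⟨H, hH⟩ := Cfsg.Agent.S0003.result (G := G) (ordCompl[s] (Nat.card G))
      (ordProj[s] (Nat.card G)) (by rw [mul_comm]; exact hmul.symm)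
      (Nat.Coprime.pow_right _ (Nat.coprime_ordCompl hs hGpos).symm)
    have hfpos : 0 < (Nat.card G).factorization s :=
      hs.factorization_pos_of_dvd hGpos hsG
    have hproj : 2 ≤ ordProj[s] (Nat.card G) := by
      calc 2 ≤ s := hs.two_le
        _ = s ^ 1 := (pow_one s).symm
        _ ≤ s ^ (Nat.card G).factorization s := Nat.pow_le_pow_right hs.pos hfpos
    have hcpos : 0 < ordCompl[s] (Nat.card G) := Nat.ordCompl_pos s hGpos
    have hlt : Nat.card H < Nat.card G := by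
      rw [hH]; nlinarith
    have hdv : ∀ t : ℕ, t.Prime → t ≠ s → t ∣ Nat.card G → t ∣ Nat.card H := by
      intro t ht hts htG
      rw [hH]
      rw [← hmul] at htG
      exact (Nat.Coprime.dvd_of_dvd_mul_left
        (Nat.Coprime.pow_right _ ((Nat.coprime_primes ht hs).mpr hts)) htG)
    obtain ⟨g, hg⟩ := ih' H p q r hlt hp hq hr hpq hpr hqr (hdv p hp (Ne.symm hsp) hpG)
      (hdv q hq (Ne.symm hsq) hqG) (hdv r hr (Ne.symm hsr) hrG)
    exact ⟨(g : G), by rw [Subgroup.orderOf_coe]; exact hg⟩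
  · push_neg at hother
    have hpi : ∀ s : ℕ, s.Prime → s ∣ Nat.card G → s = p ∨ s = q ∨ s = r := by
      intro s hs hsG
      by_contra hcon
      push_neg at hcon
      exact hcon.2.2 (hother s hs hsG hcon.1 hcon.2.1)
    haveI : Nontrivial G := by
      rw [← Finite.one_lt_card_iff_nontrivial]
      exact lt_of_lt_of_le hp.one_lt (Nat.le_of_dvd Nat.card_pos hpG)
    obtain ⟨N, hNn, hN1, hNmin⟩ := Cfsg.Agent.Lib.helper1.exists_min_normal G
    haveI := hNn
    obtain ⟨hNc, s, hs, hNs⟩ := Cfsg.Agent.S0043.result N hN1 hNmin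
    have hNc' : ∀ a ∈ N, ∀ b ∈ N, a * b = b * a := by
      intro a ha b hb
      exact congrArg Subtype.val (mul_comm' (⟨a, ha⟩ : N) ⟨b, hb⟩)
    haveI : Fact s.Prime := ⟨hs⟩
    have hNP : IsPGroup s N := by
      intro g
      refine ⟨1, ?_⟩
      apply Subtype.ext
      simpa using hNs g.1 g.2
    obtain ⟨k, hk⟩ := hNP.exists_card_eq
    have hk0 : k ≠ 0 := by
      intro h0
      rw [h0, pow_zero] at hk
      exact hN1 (Subgroup.eq_bot_of_card_eq N hk)
    have hsG : s ∣ Nat.card G := by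
      have h1 : Nat.card N ∣ Nat.card G := Subgroup.card_subgroup_dvd_card N
      rw [hk] at h1
      exact dvd_trans (dvd_pow_self s hk0) h1
    rcases hpi s hs hsG with h | h | h
    · subst h
      exact core s q r hp hq hr hpq hpr hqr hqG hrG hpi ih' N hN1 hNc' hNs
    · subst h
      have hpi' : ∀ t : ℕ, t.Prime → t ∣ Nat.card G → t = s ∨ t = p ∨ t = r := by
        intro t ht htG
        rcases hpi t ht htG with h | h | h
        · exact Or.inr (Or.inl h)
        · exact Or.inl h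
        · exact Or.inr (Or.inr h)
      obtain ⟨g, hg⟩ := core s p r hq hp hr (Ne.symm hpq) hqr hpr hpG hrG hpi' ih' N hN1 hNc' hNs
      refine ⟨g, ?_⟩
      rcases hg with h | h | h
      · exact Or.inl (by rw [h, mul_comm])
      · exact Or.inr (Or.inr h)
      · exact Or.inr (Or.inl h)
    · subst h
      have hpi' : ∀ t : ℕ, t.Prime → t ∣ Nat.card G → t = s ∨ t = p ∨ t = q := by
        intro t ht htG
        rcases hpi t ht htG with h | h | h
        · exact Or.inr (Or.inl h)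
        · exact Or.inr (Or.inr h)
        · exact Or.inl h
      obtain ⟨g, hg⟩ := core s p q hr hp hq (Ne.symm hpr) (Ne.symm hqr) hpq hpG hqG hpi' ih' N hN1
        hNc' hNs
      refine ⟨g, ?_⟩
      rcases hg with h | h | h
      · exact Or.inr (Or.inl (by rw [h, mul_comm]))
      · exact Or.inr (Or.inr (by rw [h, mul_comm]))
      · exact Or.inl h

theorem exists_triple (n : ℕ) (hn : 7 ≤ n) : ∃ p q r : ℕ, p.Prime ∧ q.Prime ∧ r.Prime ∧
    p < q ∧ q < r ∧ r ≤ n ∧ n < p * q := by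
  by_cases h1 : n ≤ 14
  · exact ⟨3, 5, 7, by norm_num, by norm_num, by norm_num, by norm_num, by norm_num, hn, by omega⟩
  by_cases h2 : n ≤ 34
  · exact ⟨5, 7, 11, by norm_num, by norm_num, by norm_num, by norm_num, by norm_num, by omega,
      by omega⟩
  obtain ⟨r, hr, hr1, hr2⟩ := Nat.exists_prime_lt_and_le_two_mul (n / 2) (by omega)
  obtain ⟨q, hq, hq1, hq2⟩ := Nat.exists_prime_lt_and_le_two_mul (n / 4) (by omega)
  obtain ⟨p, hp, hp1, hp2⟩ := Nat.exists_prime_lt_and_le_two_mul (n / 8) (by omega)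
  refine ⟨p, q, r, hp, hq, hr, by omega, by omega, by omega, ?_⟩
  have e1 : n < 8 * p := by omega
  have e2 : n < 4 * q := by omega
  have e3 : 35 ≤ n := by omega
  nlinarith

theorem result {G : Type*} [Group G] [Finite G] (n : ℕ) (hn : 7 ≤ n) (h : Set.range (orderOf : G → ℕ) = {k : ℕ | 1 ≤ k ∧ k ≤ n}) : ¬ Group.IsSolvable G := by
  intro hsol
  haveI := hsol
  obtain ⟨p, q, r, hp, hq, hr, hpq, hqr, hrn, hnpq⟩ := exists_triple n hn
  have hmem : ∀ k : ℕ, 1 ≤ k → k ≤ n → ∃ g : G, orderOf g = k := by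
    intro k hk1 hkn
    have : k ∈ Set.range (orderOf : G → ℕ) := by rw [h]; exact ⟨hk1, hkn⟩
    exact this
  have hdiv : ∀ k : ℕ, 1 ≤ k → k ≤ n → k ∣ Nat.card G := by
    intro k hk1 hkn
    obtain ⟨g, rfl⟩ := hmem k hk1 hkn
    exact orderOf_dvd_natCard g
  have hle : ∀ g : G, orderOf g ≤ n := by
    intro g
    have : orderOf g ∈ Set.range (orderOf : G → ℕ) := ⟨g, rfl⟩
    rw [h] at this
    exact this.2
  obtain ⟨g, hg⟩ := three_primes (Nat.card G) G p q r rfl hp hq hr (by omega) (by omega) (by omega)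
    (hdiv p hp.one_lt.le (by omega)) (hdiv q hq.one_lt.le (by omega)) (hdiv r hr.one_lt.le hrn)
  have := hle g
  have e1 : p * q < p * r := by nlinarith [hp.pos]
  have e2 : p * q < q * r := by nlinarith
  rcases hg with h' | h' | h' <;> omega

end Cfsg.Agent.S4002
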