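import Cfsg.Statements.S4013
import Mathlib

set_option autoImplicit false
open Cfsg

namespace Cfsg.Agent.S4013

theorem arith {p a b c : ℕ} (hp : p.Prime) (hbc : b < c) (h : p ^ c - p ^ b ∣ p ^ a) :
    p = 2 ∧ c = b + 1 := by
  obtain ⟨k, rfl⟩ : ∃ k, c = b + (k + 1) := ⟨c - b - 1, by omega⟩
  have h1 : p ^ (b + (k + 1)) - p ^ b = p ^ b * (p ^ (k + 1) - 1) := by
    rw [pow_add, Nat.mul_sub, mul_one]
  rw [h1] at h
  have h2 : p ^ (k + 1) - 1 ∣ p ^ a := Dvd.dvd.trans (Dvd.intro_left _ rfl) h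
  obtain ⟨j, hj, hj'⟩ := (Nat.dvd_prime_pow hp).mp h2
  have hpos : 1 ≤ p ^ (k + 1) := Nat.one_le_pow _ _ hp.pos
  have hj0 : j = 0 := by
    by_contra hne
    have hpd : p ∣ p ^ (k + 1) - 1 := by
      rw [hj']
      exact dvd_pow_self p hne
    have hpd2 : p ∣ p ^ (k + 1) := dvd_pow_self p (Nat.succ_ne_zero k)
    have : p ∣ 1 := by
      have := Nat.dvd_sub hpd2 hpd
      rwa [Nat.sub_sub_self hpos] at this
    exact hp.one_lt.ne' (Nat.dvd_one.mp this)
  rw [hj0, pow_zero] at hj'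
  have h3 : p ^ (k + 1) = 2 := by omega
  have hp2 : p = 2 := by
    have : p ∣ 2 := by
      rw [← h3]
      exact dvd_pow_self p (Nat.succ_ne_zero k)
    exact (Nat.prime_dvd_prime_iff_eq hp Nat.prime_two).mp this
  refine ⟨hp2, ?_⟩
  subst hp2
  have : k = 0 := by
    by_contra hk
    have : 2 ^ 2 ≤ 2 ^ (k + 1) := Nat.pow_le_pow_right (by norm_num) (by omega)
    omega
  omega

/-- Let G be a finite p-group (p prime) and N < M normal subgroups of G such that for some g ∈ M ∖ N the conjugacy class of g is exactly M ∖ N. Then p = 2 and N has index 2 in M. -/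
theorem result {G : Type*} [Group G] [Finite G] (p : ℕ) [Fact p.Prime] (hG : IsPGroup p G) (N M : Subgroup G) [N.Normal] [M.Normal] (hNM : N < M) (g : G) (hgM : g ∈ M) (hgN : g ∉ N) (hcl : {h : G | IsConj g h} = (M : Set G) \ (N : Set G)) : p = 2 ∧ N.relIndex M = 2 := by
  have hp : p.Prime := Fact.out
  have horb : {h : G | IsConj g h} = MulAction.orbit (ConjAct G) g := by
    ext h
    rw [ConjAct.mem_orbit_conjAct, isConj_comm]
    rfl
  have hdvd : ({h : G | IsConj g h}).ncard ∣ Nat.card G := by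
    rw [horb, ← MulAction.index_stabilizer]
    exact Subgroup.index_dvd_card _
  obtain ⟨a, ha⟩ := IsPGroup.iff_card.mp hG
  obtain ⟨b, hb⟩ := IsPGroup.iff_card.mp (hG.to_subgroup N)
  obtain ⟨c, hc⟩ := IsPGroup.iff_card.mp (hG.to_subgroup M)
  have hsub : (N : Set G) ⊆ (M : Set G) := hNM.le
  have hN : (N : Set G).ncard = Nat.card N := (Nat.card_coe_set_eq (N : Set G)).symm
  have hM : (M : Set G).ncard = Nat.card M := (Nat.card_coe_set_eq (M : Set G)).symm
  have hcard : ({h : G | IsConj g h}).ncard = p ^ c - p ^ b := by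
    rw [hcl, Set.ncard_sdiff hsub, ← hb, ← hc, hN, hM]
  have hlt : Nat.card N < Nat.card M := by
    have : (N : Set G) ⊂ (M : Set G) := hNM
    have h1 := Set.ncard_lt_ncard this (Set.toFinite _)
    rwa [hN, hM] at h1
  rw [hb, hc] at hlt
  have hbc : b < c := (Nat.pow_lt_pow_iff_right hp.one_lt).mp hlt
  rw [hcard, ha] at hdvd
  obtain ⟨hp2, hcb⟩ := arith hp hbc hdvd
  refine ⟨hp2, ?_⟩
  have h1 : N.relIndex M * Nat.card N = Nat.card M := by
    have := Subgroup.relIndex_mul_relIndex (⊥ : Subgroup G) N M bot_le hNM.le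
    rwa [Subgroup.relIndex_bot_left, Subgroup.relIndex_bot_left, mul_comm] at this
  rw [hb, hc, hcb, pow_succ, hp2] at h1
  have h2 : (0:ℕ) < 2 ^ b := by positivity
  have : N.relIndex M * 2 ^ b = 2 * 2 ^ b := by rw [h1]; ring
  exact Nat.eq_of_mul_eq_mul_right h2 this

end Cfsg.Agent.S4013
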