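import Cfsg.Statements.S4023
import Cfsg.Agent.S0016
import Cfsg.Agent.Lib.helper15.Rank1
import Cfsg.Agent.Lib.helper20.ClassSize

set_option autoImplicit false

open Cfsg

namespace Cfsg.Agent.S4023

universe u

/-- A generalized quaternion group of order at least 16 has two non-isomorphic subgroups
of index 2. -/
theorem quat_not_iso (m : ℕ) (hm2 : 2 ∣ m) (hm4 : 4 ≤ m) :
    ¬ (∀ H K : Subgroup (QuaternionGroup m), Nat.card H = Nat.card K → Nonempty (H ≃* K)) := by
  intro hI
  haveI : NeZero m := ⟨by omega⟩
  let c : ZMod (2 * m) →+* ZMod 2 := ZMod.castHom (Dvd.intro m rfl) (ZMod 2)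
  have hcm : c (m : ZMod (2 * m)) = 0 := by
    rw [map_natCast]; exact (ZMod.natCast_eq_zero_iff m 2).mpr hm2
  let φ : QuaternionGroup m →* Multiplicative (ZMod 2) :=
    { toFun := fun d => match d with
        | QuaternionGroup.a i => Multiplicative.ofAdd (c i)
        | QuaternionGroup.xa i => Multiplicative.ofAdd (c i)
      map_one' := by
        rw [QuaternionGroup.one_def]
        change Multiplicative.ofAdd (c 0) = 1
        rw [map_zero]; rfl
      map_mul' := by
        rintro (i | i) (j | j)
        · change Multiplicative.ofAdd (c (i + j))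
            = Multiplicative.ofAdd (c i) * Multiplicative.ofAdd (c j)
          rw [map_add, ofAdd_add]
        · change Multiplicative.ofAdd (c (j - i))
            = Multiplicative.ofAdd (c i) * Multiplicative.ofAdd (c j)
          rw [map_sub, CharTwo.sub_eq_add, add_comm, ofAdd_add]
        · change Multiplicative.ofAdd (c (i + j))
            = Multiplicative.ofAdd (c i) * Multiplicative.ofAdd (c j)
          rw [map_add, ofAdd_add]
        · change Multiplicative.ofAdd (c ((m : ZMod (2 * m)) + j - i))
            = Multiplicative.ofAdd (c i) * Multiplicative.ofAdd (c j)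
          rw [map_sub, map_add, hcm, zero_add, CharTwo.sub_eq_add, add_comm, ofAdd_add] }
  have hφa : ∀ i, φ (QuaternionGroup.a i) = Multiplicative.ofAdd (c i) := fun i => rfl
  have hφx : ∀ i, φ (QuaternionGroup.xa i) = Multiplicative.ofAdd (c i) := fun i => rfl
  have hidx : φ.ker.index = 2 := by
    have h1 : φ.ker.index ∣ 2 := by
      rw [Subgroup.index_ker]
      have h := Subgroup.card_subgroup_dvd_card φ.range
      have h2 : Nat.card (Multiplicative (ZMod 2)) = 2 :=
        (Nat.card_congr Multiplicative.toAdd).trans (Nat.card_zmod 2)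
      rwa [h2] at h
    have h2 : φ.ker.index ≠ 1 := by
      intro h
      rw [Subgroup.index_eq_one] at h
      have h3 : QuaternionGroup.a 1 ∈ φ.ker := h ▸ Subgroup.mem_top _
      rw [MonoidHom.mem_ker, hφa, map_one] at h3
      have h4 : (1 : ZMod 2) = 0 := h3
      exact absurd h4 (by decide)
    exact ((Nat.dvd_prime Nat.prime_two).mp h1).resolve_left h2
  have hcardK : Nat.card φ.ker = 2 * m := by
    have h := Subgroup.card_mul_index φ.ker
    rw [hidx, Nat.card_eq_fintype_card (α := QuaternionGroup m), QuaternionGroup.card] at h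
    omega
  have hcardH : Nat.card (Subgroup.zpowers (QuaternionGroup.a 1 : QuaternionGroup m)) = 2 * m := by
    rw [Nat.card_zpowers, QuaternionGroup.orderOf_a_one]
  obtain ⟨ψ⟩ := hI (Subgroup.zpowers (QuaternionGroup.a 1 : QuaternionGroup m)) φ.ker
    (by rw [hcardH, hcardK])
  have hKc : ∀ u v : φ.ker, u * v = v * u := by
    intro u v
    have h : ψ.symm u * ψ.symm v = ψ.symm v * ψ.symm u := by
      obtain ⟨i, hi⟩ := Subgroup.mem_zpowers_iff.mp (ψ.symm u).2
      obtain ⟨j, hj⟩ := Subgroup.mem_zpowers_iff.mp (ψ.symm v).2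
      apply Subtype.ext
      rw [Subgroup.coe_mul, Subgroup.coe_mul, ← hi, ← hj]
      exact (Commute.zpow_zpow_self _ i j).eq
    have h' := congrArg ψ h
    rwa [map_mul, map_mul, MulEquiv.apply_symm_apply, MulEquiv.apply_symm_apply] at h'
  have ha2 : (QuaternionGroup.a 2 : QuaternionGroup m) ∈ φ.ker := by
    rw [MonoidHom.mem_ker, hφa]
    have : c 2 = 0 := by
      have h2 : (2 : ZMod (2 * m)) = ((2 : ℕ) : ZMod (2 * m)) := by norm_cast
      rw [h2, map_natCast]
      decide
    rw [this]; rfl
  have hx0 : (QuaternionGroup.xa 0 : QuaternionGroup m) ∈ φ.ker := by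
    rw [MonoidHom.mem_ker, hφx, map_zero]; rfl
  have h := congrArg Subtype.val (hKc ⟨_, ha2⟩ ⟨_, hx0⟩)
  change (QuaternionGroup.a 2 : QuaternionGroup m) * QuaternionGroup.xa 0
    = QuaternionGroup.xa 0 * QuaternionGroup.a 2 at h
  rw [QuaternionGroup.a_mul_xa, QuaternionGroup.xa_mul_a] at h
  have h' : (0 : ZMod (2 * m)) - 2 = 0 + 2 := by
    injection h
  have h4 : ((4 : ℕ) : ZMod (2 * m)) = 0 := by
    push_cast
    linear_combination (-1 : ZMod (2 * m)) * h'
  have h5 := (ZMod.natCast_eq_zero_iff 4 (2 * m)).mp h4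
  have := Nat.le_of_dvd (by norm_num) h5
  omega

/-- Groups of order `p ^ n` with `n ≤ 2` are commutative. -/
theorem comm_of_card_le {Q : Type u} [Group Q] [Finite Q] {p : ℕ} [Fact p.Prime] (n : ℕ)
    (hn : Nat.card Q = p ^ n) (h : n ≤ 2) : ∀ a b : Q, a * b = b * a := by
  have hp : p.Prime := Fact.out
  interval_cases n
  · rw [pow_zero] at hn
    haveI : Subsingleton Q := (Nat.card_eq_one_iff_unique.mp hn).1
    intro a b
    exact Subsingleton.elim _ _
  · rw [pow_one] at hn
    haveI := isCyclic_of_prime_card hn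
    intro a b
    obtain ⟨g, hg⟩ := IsCyclic.exists_generator (α := Q)
    obtain ⟨i, rfl⟩ := Subgroup.mem_zpowers_iff.mp (hg a)
    obtain ⟨j, rfl⟩ := Subgroup.mem_zpowers_iff.mp (hg b)
    exact (Commute.zpow_zpow_self _ i j).eq
  · have h1 : IsMulCommutative Q := IsPGroup.isMulCommutative_of_card_eq_prime_sq hn
    exact fun a b => h1.is_comm.comm a b

/-- In a finite `p`-group, a proper inclusion of subgroups multiplies the order by at least
`p`. -/
theorem card_pow_lt {Q : Type u} [Group Q] [Finite Q] {p : ℕ} [Fact p.Prime] (hQ : IsPGroup p Q)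
    (D D' : Subgroup Q) (h : D ≤ D') (hne : D ≠ D') : p * Nat.card D ≤ Nat.card D' := by
  have hp : p.Prime := Fact.out
  obtain ⟨d, hd⟩ := IsPGroup.iff_card.mp (hQ.to_subgroup D)
  obtain ⟨d', hd'⟩ := IsPGroup.iff_card.mp (hQ.to_subgroup D')
  have hlt : d < d' := by
    by_contra hle
    push Not at hle
    apply hne
    apply Subgroup.eq_of_le_of_card_ge h
    rw [hd, hd']
    exact Nat.pow_le_pow_right hp.pos hle
  rw [hd, hd', ← pow_succ']
  exact Nat.pow_le_pow_right hp.pos hlt

/-- A subgroup of order at least `p ^ 3` of a `p`-group contains one of order `p ^ 3`. -/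
theorem exists_sub_card {Q : Type u} [Group Q] [Finite Q] {p : ℕ} [Fact p.Prime]
    (hQ : IsPGroup p Q) (A : Subgroup Q) (k : ℕ) (hA : p ^ k ≤ Nat.card A) :
    ∃ A₀ : Subgroup Q, A₀ ≤ A ∧ Nat.card A₀ = p ^ k := by
  have hp : p.Prime := Fact.out
  obtain ⟨e, he⟩ := IsPGroup.iff_card.mp (hQ.to_subgroup A)
  have hke : k ≤ e := by
    rw [he] at hA
    exact (Nat.pow_le_pow_iff_right hp.one_lt).mp hA
  obtain ⟨K, hK⟩ := Sylow.exists_subgroup_card_pow_prime p
    (show p ^ k ∣ Nat.card A by rw [he]; exact pow_dvd_pow p hke)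
  refine ⟨K.map A.subtype, Subgroup.map_subtype_le K, ?_⟩
  rw [← hK]
  exact (Nat.card_congr (K.equivMapOfInjective A.subtype A.subtype_injective).toEquiv).symm

/-- The index of the centralizer of `x` is at most `|Z|` when all commutators with `x`
lie in the subgroup `Z`. -/
theorem index_centralizer_le {Q : Type u} [Group Q] [Finite Q] (Z : Subgroup Q) (x : Q)
    (hx : ∀ g : Q, x * g * x⁻¹ * g⁻¹ ∈ Z) :
    (Subgroup.centralizer ({x} : Set Q)).index ≤ Nat.card Z := by
  rw [← Cfsg.Agent.Lib.helper20.ncard_carrier_eq_index x]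
  have hsub : (ConjClasses.mk x).carrier ⊆ (fun z => z * x) '' (Z : Set Q) := by
    intro y hy
    rw [ConjClasses.mem_carrier_iff_mk_eq, ConjClasses.mk_eq_mk_iff_isConj, isConj_comm,
      isConj_iff] at hy
    obtain ⟨g, rfl⟩ := hy
    refine ⟨g * x * g⁻¹ * x⁻¹, ?_, by group⟩
    have h := Z.inv_mem (hx g)
    have e : (x * g * x⁻¹ * g⁻¹)⁻¹ = g * x * g⁻¹ * x⁻¹ := by group
    rw [e] at h
    exact h
  calc (ConjClasses.mk x).carrier.ncard ≤ ((fun z => z * x) '' (Z : Set Q)).ncard :=
        Set.ncard_le_ncard hsub (Set.toFinite _)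
    _ ≤ (Z : Set Q).ncard := Set.ncard_image_le (Set.toFinite _)
    _ = Nat.card Z := (Nat.card_coe_set_eq _).symm

/-- The abstract core: a finite `p`-group in which subgroups of equal order are isomorphic. -/
theorem core {Q : Type u} [Group Q] [Finite Q] {p : ℕ} [Fact p.Prime] (hQ : IsPGroup p Q)
    (hI : ∀ H K : Subgroup Q, Nat.card H = Nat.card K → Nonempty (H ≃* K)) :
    IsCyclic Q ∨ ((∀ a b : Q, a * b = b * a) ∧ ∀ a : Q, a ^ p = 1) ∨
      (p = 2 ∧ Nonempty (Q ≃* QuaternionGroup 2)) ∨
      (p ≠ 2 ∧ ¬ (∀ a b : Q, a * b = b * a) ∧ Nat.card Q = p ^ 3 ∧ Monoid.exponent Q = p) := by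
  classical
  have hp : p.Prime := Fact.out
  by_cases huniq : ∀ H K : Subgroup Q, Nat.card H = p → Nat.card K = p → H = K
  · rcases Cfsg.Agent.S0016.result p hQ huniq with hc | ⟨hp2, n, ⟨e⟩⟩
    · exact Or.inl hc
    · rcases Nat.lt_or_ge n 2 with hn | hn
      · interval_cases n
        · left
          rw [pow_zero] at e
          haveI := QuaternionGroup.quaternionGroup_one_isCyclic
          exact isCyclic_of_surjective e.symm e.symm.surjective
        · right; right; left
          rw [pow_one] at e
          exact ⟨hp2, ⟨e⟩⟩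
      · exfalso
        apply quat_not_iso (2 ^ n) (dvd_pow_self 2 (by omega))
          (by
            calc 4 = 2 ^ 2 := by norm_num
              _ ≤ 2 ^ n := Nat.pow_le_pow_right (by norm_num) hn)
        intro H K hHK
        obtain ⟨ψ⟩ := hI (H.map (e.symm : QuaternionGroup (2 ^ n) →* Q))
          (K.map (e.symm : QuaternionGroup (2 ^ n) →* Q)) (by
            rw [← Nat.card_congr (e.symm.subgroupMap H).toEquiv,
              ← Nat.card_congr (e.symm.subgroupMap K).toEquiv]
            exact hHK)
        exact ⟨(e.symm.subgroupMap H).trans (ψ.trans (e.symm.subgroupMap K).symm)⟩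
  · -- two subgroups of order `p`
    push Not at huniq
    obtain ⟨H, K, hH, hK, hHK⟩ := huniq
    haveI hnt : Nontrivial Q := by
      have h1 : Nontrivial H := by
        rw [← Finite.one_lt_card_iff_nontrivial, hH]; exact hp.one_lt
      obtain ⟨a, b, hab⟩ := h1
      exact ⟨⟨(a : Q), (b : Q), fun h => hab (Subtype.ext h)⟩⟩
    haveI hZnt := hQ.center_nontrivial
    have hZdvd : p ∣ Nat.card (Subgroup.center Q) := by
      obtain ⟨k, hk⟩ := IsPGroup.iff_card.mp (hQ.to_subgroup (Subgroup.center Q))
      have h1 : 1 < Nat.card (Subgroup.center Q) := Finite.one_lt_card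
      rw [hk] at h1 ⊢
      have hk0 : k ≠ 0 := by
        rintro rfl
        simp at h1
      exact dvd_pow_self p hk0
    obtain ⟨z, hz⟩ := exists_prime_orderOf_dvd_card' p hZdvd
    have hzc : ∀ g : Q, g * (z : Q) = (z : Q) * g := Subgroup.mem_center_iff.mp z.2
    have hzo : orderOf (z : Q) = p := by rw [Subgroup.orderOf_coe]; exact hz
    obtain ⟨L, hL, hLz⟩ : ∃ L : Subgroup Q, Nat.card L = p ∧ L ≠ Subgroup.zpowers (z : Q) := by
      by_cases h : H = Subgroup.zpowers (z : Q)
      · exact ⟨K, hK, fun h' => hHK (h.trans h'.symm)⟩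
      · exact ⟨H, hH, h⟩
    obtain ⟨b, hbL, hb1⟩ : ∃ b ∈ L, b ≠ 1 := by
      have h1 : Nontrivial L := by
        rw [← Finite.one_lt_card_iff_nontrivial, hL]; exact hp.one_lt
      obtain ⟨b, hb⟩ := exists_ne (1 : L)
      exact ⟨b, b.2, fun h => hb (Subtype.ext h)⟩
    have hbp : b ^ p = 1 := by
      have h1 := orderOf_dvd_natCard (⟨b, hbL⟩ : L)
      rw [hL] at h1
      have h2 := orderOf_dvd_iff_pow_eq_one.mp h1
      have h3 := congrArg Subtype.val h2
      simpa using h3
    have hbo : orderOf b = p := orderOf_eq_prime hbp hb1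
    have hLb : Subgroup.zpowers b = L := by
      apply Subgroup.eq_of_le_of_card_ge (Subgroup.zpowers_le.mpr hbL)
      rw [Nat.card_zpowers, hbo, hL]
    have hbz : b ∉ Subgroup.zpowers (z : Q) := by
      intro hmem
      apply hLz
      rw [← hLb]
      apply Subgroup.eq_of_le_of_card_ge (Subgroup.zpowers_le.mpr hmem)
      rw [Nat.card_zpowers, Nat.card_zpowers, hbo, hzo]
    obtain ⟨hE, hEc⟩ := Cfsg.Agent.Lib.helper15.elemAb_pair (z : Q) b (hzc b).symm hzo hbp hbz
    obtain ⟨E₀, hE₀le, hE₀⟩ := exists_sub_card hQ _ 2 hEc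
    have hE₀p : ∀ a ∈ E₀, a ^ p = 1 := fun a ha => hE.2 a (hE₀le ha)
    -- exponent `p`
    have hexp : ∀ x : Q, x ^ p = 1 := by
      intro x
      by_contra hx
      obtain ⟨k, hk⟩ := exists_orderOf_eq_prime_pow_iff.mpr (hQ x)
      have hk2 : 2 ≤ k := by
        by_contra hlt
        apply hx
        have h1 : orderOf x ∣ p := by
          rw [hk]
          calc p ^ k ∣ p ^ 1 := pow_dvd_pow p (by omega)
            _ = p := pow_one p
        exact orderOf_dvd_iff_pow_eq_one.mp h1
      have hyo : orderOf (x ^ (p ^ (k - 2))) = p ^ 2 := by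
        rw [orderOf_pow_of_dvd (pow_ne_zero _ hp.ne_zero)
          (by rw [hk]; exact pow_dvd_pow p (by omega)), hk, Nat.pow_div (by omega) hp.pos]
        congr 1
        omega
      set y := x ^ (p ^ (k - 2)) with hy
      obtain ⟨ψ⟩ := hI (Subgroup.zpowers y) E₀ (by rw [Nat.card_zpowers, hyo, hE₀])
      have h1 : (ψ ⟨y, Subgroup.mem_zpowers y⟩) ^ p = 1 :=
        Subtype.ext (by rw [Subgroup.coe_pow]; exact hE₀p _ (ψ _).2)
      have h2 : (⟨y, Subgroup.mem_zpowers y⟩ : Subgroup.zpowers y) ^ p = 1 := by
        apply ψ.injective; rw [map_pow, h1, map_one]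
      have h3 : y ^ p = 1 := by simpa using congrArg Subtype.val h2
      have h4 := orderOf_dvd_of_pow_eq_one h3
      rw [hyo] at h4
      have h5 := Nat.le_of_dvd hp.pos h4
      nlinarith [hp.one_lt]
    by_cases hcomm : ∀ a b : Q, a * b = b * a
    · exact Or.inr (Or.inl ⟨hcomm, hexp⟩)
    right; right; right
    have hp2 : p ≠ 2 := by
      rintro rfl
      apply hcomm
      intro a b
      have hinv : ∀ g : Q, g⁻¹ = g := fun g =>
        inv_eq_of_mul_eq_one_left (by rw [← sq]; exact hexp g)
      calc a * b = (a * b)⁻¹ := (hinv _).symm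
        _ = b⁻¹ * a⁻¹ := mul_inv_rev a b
        _ = b * a := by rw [hinv, hinv]
    have hexpo : Monoid.exponent Q = p := by
      have h1 : Monoid.exponent Q ∣ p := Monoid.exponent_dvd_of_forall_pow_eq_one hexp
      rcases (Nat.dvd_prime hp).mp h1 with h | h
      · exfalso
        haveI : Subsingleton Q := Monoid.exp_eq_one_iff.mp h
        exact hcomm (fun a b => Subsingleton.elim _ _)
      · exact h
    refine ⟨hp2, hcomm, ?_, hexpo⟩
    obtain ⟨n, hn⟩ := IsPGroup.iff_card.mp hQ
    have hn3 : 3 ≤ n := by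
      by_contra hlt
      exact hcomm (comm_of_card_le n hn (by omega))
    rcases Nat.lt_or_ge n 4 with hn4 | hn4
    · have : n = 3 := by omega
      rw [hn, this]
    exfalso
    -- an element of the second center
    have hZtop : Subgroup.center Q ≠ ⊤ := by
      intro h
      apply hcomm
      intro a b
      have : b ∈ Subgroup.center Q := h ▸ Subgroup.mem_top b
      exact Subgroup.mem_center_iff.mp this a
    obtain ⟨x, hxZ, hxc⟩ : ∃ x : Q, x ∉ Subgroup.center Q ∧
        ∀ g : Q, x * g * x⁻¹ * g⁻¹ ∈ Subgroup.center Q := by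
      haveI : Nontrivial (Q ⧸ Subgroup.center Q) := by
        rw [← Finite.one_lt_card_iff_nontrivial, ← Subgroup.index_eq_card]
        have h1 : (Subgroup.center Q).index ≠ 1 := fun h => hZtop (Subgroup.index_eq_one.mp h)
        have h2 : (Subgroup.center Q).index ≠ 0 := Subgroup.index_ne_zero_of_finite
        omega
      have hQZ : IsPGroup p (Q ⧸ Subgroup.center Q) := hQ.to_quotient (Subgroup.center Q)
      haveI := hQZ.center_nontrivial
      obtain ⟨⟨xb, hxb⟩, hne⟩ := exists_ne (1 : Subgroup.center (Q ⧸ Subgroup.center Q))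
      obtain ⟨x, rfl⟩ := QuotientGroup.mk_surjective xb
      refine ⟨x, ?_, ?_⟩
      · intro hxc
        apply hne
        apply Subtype.ext
        exact (QuotientGroup.eq_one_iff x).mpr hxc
      · intro g
        rw [← QuotientGroup.eq_one_iff]
        have h := Subgroup.mem_center_iff.mp hxb (g : Q ⧸ Subgroup.center Q)
        simp only [QuotientGroup.mk_mul, QuotientGroup.mk_inv]
        rw [← h]
        group
    obtain ⟨y, hxy⟩ : ∃ y : Q, y * x ≠ x * y := by
      by_contra h
      push Not at h
      exact hxZ (Subgroup.mem_center_iff.mpr h)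
    -- (B) a nonabelian subgroup of order `p ^ 3`
    have hB : ∃ B : Subgroup Q, Nat.card B = p ^ 3 ∧ x ∈ B ∧ y ∈ B := by
      set c : Q := (x * y * x⁻¹ * y⁻¹)⁻¹ with hc
      have hcZ : c ∈ Subgroup.center Q := (Subgroup.center Q).inv_mem (hxc y)
      have hcg : ∀ g : Q, g * c = c * g := Subgroup.mem_center_iff.mp hcZ
      have hci : ∀ (g : Q) (i : ℕ), g * c ^ i = c ^ i * g := by
        intro g i
        exact Subgroup.mem_center_iff.mp ((Subgroup.center Q).pow_mem hcZ i) g
      have hyx : y * x = x * y * c := by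
        rw [hcg (x * y), hc]
        group
      have hyxi : ∀ i : ℕ, y * x ^ i = x ^ i * y * c ^ i := by
        intro i
        induction i with
        | zero => simp
        | succ i ih =>
          calc y * x ^ (i + 1) = (y * x ^ i) * x := by rw [pow_succ, mul_assoc]
            _ = x ^ i * y * c ^ i * x := by rw [ih]
            _ = x ^ i * (y * x) * c ^ i := by
                rw [mul_assoc (x ^ i * y), ← hci x i]
                simp only [mul_assoc]
            _ = x ^ i * (x * y * c) * c ^ i := by rw [hyx]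
            _ = x ^ (i + 1) * y * c ^ (i + 1) := by
                rw [pow_succ, pow_succ']
                simp only [mul_assoc]
      let S : Set Q := {g | ∃ i j k : ℕ, g = x ^ i * y ^ j * c ^ k}
      have hSx : ∀ s ∈ S, x * s ∈ S := by
        rintro s ⟨i, j, k, rfl⟩
        refine ⟨i + 1, j, k, ?_⟩
        rw [pow_succ']
        simp only [mul_assoc]
      have hSy : ∀ s ∈ S, y * s ∈ S := by
        rintro s ⟨i, j, k, rfl⟩
        refine ⟨i, j + 1, i + k, ?_⟩
        calc y * (x ^ i * y ^ j * c ^ k) = (y * x ^ i) * y ^ j * c ^ k := by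
              simp only [mul_assoc]
          _ = x ^ i * y * c ^ i * y ^ j * c ^ k := by rw [hyxi]
          _ = x ^ i * y * (y ^ j * c ^ i) * c ^ k := by
              rw [hci (y ^ j) i]
              simp only [mul_assoc]
          _ = x ^ i * y ^ (j + 1) * c ^ (i + k) := by
              rw [pow_succ', pow_add]
              simp only [mul_assoc]
      let T : Subgroup Q :=
        { carrier := {g | ∀ s ∈ S, g * s ∈ S}
          mul_mem' := by
            intro a b ha hb s hs
            rw [mul_assoc]
            exact ha _ (hb s hs)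
          one_mem' := by
            intro s hs
            rw [one_mul]; exact hs
          inv_mem' := by
            intro a ha
            have hpow : ∀ m : ℕ, ∀ s ∈ S, a ^ m * s ∈ S := by
              intro m
              induction m with
              | zero => intro s hs; rw [pow_zero, one_mul]; exact hs
              | succ m ih =>
                intro s hs
                rw [pow_succ', mul_assoc]
                exact ha _ (ih s hs)
            have hinv : a⁻¹ = a ^ (p - 1) := by
              apply inv_eq_of_mul_eq_one_right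
              rw [← pow_succ', Nat.sub_add_cancel hp.pos]
              exact hexp a
            intro s hs
            rw [hinv]
            exact hpow _ s hs }
      have hBT : Subgroup.closure ({x, y} : Set Q) ≤ T := by
        rw [Subgroup.closure_le]
        rintro g (rfl | rfl)
        · exact hSx
        · exact hSy
      have hBS : ((Subgroup.closure ({x, y} : Set Q) : Subgroup Q) : Set Q) ⊆ S := by
        intro g hg
        have h1 : g * 1 ∈ S := hBT hg 1 ⟨0, 0, 0, by simp⟩
        rwa [mul_one] at h1
      let f : Fin p × Fin p × Fin p → Q := fun t =>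
        x ^ (t.1 : ℕ) * y ^ (t.2.1 : ℕ) * c ^ (t.2.2 : ℕ)
      have hSf : S ⊆ Set.range f := by
        rintro s ⟨i, j, k, rfl⟩
        refine ⟨(⟨i % p, Nat.mod_lt _ hp.pos⟩, ⟨j % p, Nat.mod_lt _ hp.pos⟩,
          ⟨k % p, Nat.mod_lt _ hp.pos⟩), ?_⟩
        change x ^ (i % p) * y ^ (j % p) * c ^ (k % p) = _
        rw [← pow_eq_pow_mod i (hexp x), ← pow_eq_pow_mod j (hexp y),
          ← pow_eq_pow_mod k (hexp c)]
      have hcardB : Nat.card (Subgroup.closure ({x, y} : Set Q)) ≤ p ^ 3 := by
        calc Nat.card (Subgroup.closure ({x, y} : Set Q))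
            ≤ Nat.card (Set.range f) :=
              Nat.card_mono (Set.toFinite _) (hBS.trans hSf)
          _ ≤ Nat.card (Fin p × Fin p × Fin p) := Finite.card_range_le f
          _ = p ^ 3 := by
              rw [Nat.card_prod, Nat.card_prod, Nat.card_fin]; ring
      have hxB : x ∈ Subgroup.closure ({x, y} : Set Q) :=
        Subgroup.subset_closure (Set.mem_insert _ _)
      have hyB : y ∈ Subgroup.closure ({x, y} : Set Q) :=
        Subgroup.subset_closure (Set.mem_insert_of_mem _ rfl)
      obtain ⟨b', hb'⟩ := IsPGroup.iff_card.mp (hQ.to_subgroup (Subgroup.closure ({x, y} : Set Q)))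
      have hb3 : 3 ≤ b' := by
        by_contra hlt
        have h1 := comm_of_card_le b' hb' (by omega) ⟨y, hyB⟩ ⟨x, hxB⟩
        exact hxy (congrArg Subtype.val h1)
      have hb3' : b' ≤ 3 := by
        rw [hb'] at hcardB
        exact (Nat.pow_le_pow_iff_right hp.one_lt).mp hcardB
      refine ⟨Subgroup.closure ({x, y} : Set Q), ?_, hxB, hyB⟩
      rw [hb']
      congr 1
      omega
    -- (A) a commutative subgroup of order at least `p ^ 3`
    have hA : ∃ A : Subgroup Q, (∀ a ∈ A, ∀ b ∈ A, a * b = b * a) ∧ p ^ 3 ≤ Nat.card A := by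
      have hZ1 : p ≤ Nat.card (Subgroup.center Q) := Nat.le_of_dvd Nat.card_pos hZdvd
      set D₁ : Subgroup Q := Subgroup.closure ((Subgroup.center Q : Set Q) ∪ {x}) with hD₁
      have hZD : Subgroup.center Q ≤ D₁ := by
        intro g hg
        exact Subgroup.subset_closure (Or.inl hg)
      have hxD : x ∈ D₁ := Subgroup.subset_closure (Or.inr rfl)
      have hD₁c : ∀ a ∈ D₁, ∀ b ∈ D₁, a * b = b * a := by
        have h1 : IsMulCommutative D₁ := by
          apply Subgroup.isMulCommutative_closure
          rintro a (ha | ha) b (hb | hb)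
          · exact (Subgroup.mem_center_iff.mp hb a)
          · exact (Subgroup.mem_center_iff.mp ha b).symm
          · exact (Subgroup.mem_center_iff.mp hb a)
          · rw [Set.mem_singleton_iff] at ha hb
            rw [ha, hb]
        intro a ha b hb
        exact congrArg Subtype.val (h1.is_comm.comm ⟨a, ha⟩ ⟨b, hb⟩)
      have hD₁card : p * Nat.card (Subgroup.center Q) ≤ Nat.card D₁ :=
        card_pow_lt hQ _ _ hZD (fun h => hxZ (h ▸ hxD))
      by_cases hbig : p ^ 3 ≤ Nat.card D₁
      · exact ⟨D₁, hD₁c, hbig⟩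
      push Not at hbig
      have hZp : Nat.card (Subgroup.center Q) ≤ p := by
        have h1 : p * Nat.card (Subgroup.center Q) < p * p ^ 2 := by
          calc p * Nat.card (Subgroup.center Q) ≤ Nat.card D₁ := hD₁card
            _ < p ^ 3 := hbig
            _ = p * p ^ 2 := by ring
        have h2 : Nat.card (Subgroup.center Q) < p ^ 2 := Nat.lt_of_mul_lt_mul_left h1
        obtain ⟨a, ha⟩ := IsPGroup.iff_card.mp (hQ.to_subgroup (Subgroup.center Q))
        rw [ha] at h2 ⊢
        have h3 : a < 2 := (Nat.pow_lt_pow_iff_right hp.one_lt).mp h2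
        calc p ^ a ≤ p ^ 1 := Nat.pow_le_pow_right hp.pos (by omega)
          _ = p := pow_one p
      set C : Subgroup Q := Subgroup.centralizer ({x} : Set Q) with hC
      have hCidx : C.index ≤ p := (index_centralizer_le _ x hxc).trans hZp
      have hCcard : p ^ 3 ≤ Nat.card C := by
        have h1 := Subgroup.card_mul_index C
        rw [hn] at h1
        have h2 : p ^ (n - 1) * p ≤ Nat.card C * p := by
          calc p ^ (n - 1) * p = p ^ n := by rw [← pow_succ]; congr 1; omega
            _ = Nat.card C * C.index := h1.symm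
            _ ≤ Nat.card C * p := Nat.mul_le_mul_left _ hCidx
        have h3 : p ^ (n - 1) ≤ Nat.card C := Nat.le_of_mul_le_mul_right h2 hp.pos
        calc p ^ 3 ≤ p ^ (n - 1) := Nat.pow_le_pow_right hp.pos (by omega)
          _ ≤ Nat.card C := h3
      have hD₁C : D₁ ≤ C := by
        rw [hD₁, Subgroup.closure_le]
        rintro g (hg | hg)
        · rw [SetLike.mem_coe, hC, Subgroup.mem_centralizer_iff]
          intro h hh
          rw [Set.mem_singleton_iff] at hh
          rw [hh]
          exact (Subgroup.mem_center_iff.mp hg x)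
        · rw [Set.mem_singleton_iff] at hg
          rw [hg, SetLike.mem_coe, hC, Subgroup.mem_centralizer_iff]
          intro h hh
          rw [Set.mem_singleton_iff] at hh
          rw [hh]
      obtain ⟨w, hwC, hwD⟩ : ∃ w ∈ C, w ∉ D₁ := by
        by_contra h
        push Not at h
        have h1 : Nat.card C ≤ Nat.card D₁ := Subgroup.card_le_of_le h
        omega
      have hwx : x * w = w * x := by
        have := (Subgroup.mem_centralizer_iff.mp hwC) x (Set.mem_singleton x)
        exact this
      have hwD₁ : ∀ a ∈ D₁, a * w = w * a := by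
        have h1 : D₁ ≤ Subgroup.centralizer ({w} : Set Q) := by
          rw [hD₁, Subgroup.closure_le]
          rintro g (hg | hg)
          · rw [SetLike.mem_coe, Subgroup.mem_centralizer_iff]
            intro h hh
            rw [Set.mem_singleton_iff] at hh
            rw [hh]
            exact (Subgroup.mem_center_iff.mp hg w)
          · rw [Set.mem_singleton_iff] at hg
            rw [hg, SetLike.mem_coe, Subgroup.mem_centralizer_iff]
            intro h hh
            rw [Set.mem_singleton_iff] at hh
            rw [hh]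
            exact hwx.symm
        intro a ha
        have := (Subgroup.mem_centralizer_iff.mp (h1 ha)) w (Set.mem_singleton w)
        exact this.symm
      set D₂ : Subgroup Q := Subgroup.closure ((D₁ : Set Q) ∪ {w}) with hD₂
      have hD₁D₂ : D₁ ≤ D₂ := by
        intro g hg
        exact Subgroup.subset_closure (Or.inl hg)
      have hwD₂ : w ∈ D₂ := Subgroup.subset_closure (Or.inr rfl)
      have hD₂c : ∀ a ∈ D₂, ∀ b ∈ D₂, a * b = b * a := by
        have h1 : IsMulCommutative D₂ := by
          apply Subgroup.isMulCommutative_closure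
          rintro a (ha | ha) b (hb | hb)
          · exact hD₁c a ha b hb
          · rw [Set.mem_singleton_iff] at hb
            rw [hb]; exact hwD₁ a ha
          · rw [Set.mem_singleton_iff] at ha
            rw [ha]; exact (hwD₁ b hb).symm
          · rw [Set.mem_singleton_iff] at ha hb
            rw [ha, hb]
        intro a ha b hb
        exact congrArg Subtype.val (h1.is_comm.comm ⟨a, ha⟩ ⟨b, hb⟩)
      have hD₂card : p * Nat.card D₁ ≤ Nat.card D₂ :=
        card_pow_lt hQ _ _ hD₁D₂ (fun h => hwD (h ▸ hwD₂))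
      refine ⟨D₂, hD₂c, ?_⟩
      calc p ^ 3 = p * (p * p) := by ring
        _ ≤ p * (p * Nat.card (Subgroup.center Q)) :=
            Nat.mul_le_mul_left _ (Nat.mul_le_mul_left _ hZ1)
        _ ≤ p * Nat.card D₁ := Nat.mul_le_mul_left _ hD₁card
        _ ≤ Nat.card D₂ := hD₂card
    obtain ⟨B, hBcard, hxB, hyB⟩ := hB
    obtain ⟨A, hAc, hAcard⟩ := hA
    obtain ⟨A₀, hA₀le, hA₀⟩ := exists_sub_card hQ A 3 hAcard
    obtain ⟨ψ⟩ := hI A₀ B (by rw [hA₀, hBcard])
    have h1 : ψ.symm ⟨y, hyB⟩ * ψ.symm ⟨x, hxB⟩ = ψ.symm ⟨x, hxB⟩ * ψ.symm ⟨y, hyB⟩ :=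
      Subtype.ext (hAc _ (hA₀le (ψ.symm ⟨y, hyB⟩).2) _ (hA₀le (ψ.symm ⟨x, hxB⟩).2))
    have h2 := congrArg ψ h1
    rw [map_mul, map_mul, MulEquiv.apply_symm_apply, MulEquiv.apply_symm_apply] at h2
    exact hxy (congrArg Subtype.val h2)

/-- Let p be a prime and G a finite group in which any two p-subgroups of the same order are conjugate, with Sylow p-subgroup P. Then P is cyclic, or elementary abelian, or p = 2 and P is a quaternion group of order 8, or p is odd and P is non-abelian of order p³ and exponent p. -/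
theorem result {G : Type*} [Group G] [Finite G]
    {p : ℕ} [Fact p.Prime] (hC : ∀ H K : Subgroup G, IsPGroup p H → IsPGroup p K → Nat.card H = Nat.card K →
      ∃ g : G, K = H.map (MulAut.conj g).toMonoidHom) (P : Sylow p G) :
    IsCyclic P ∨ Cfsg.IsElementaryAbelian p (P : Subgroup G) ∨
      (p = 2 ∧ Nonempty ((P : Subgroup G) ≃* QuaternionGroup 2)) ∨
      (p ≠ 2 ∧ ¬ IsMulCommutative P ∧ Nat.card P = p ^ 3 ∧ Monoid.exponent P = p) := by
  have hPp : IsPGroup p (P : Subgroup G) := P.2
  have hI : ∀ H K : Subgroup (P : Subgroup G), Nat.card H = Nat.card K → Nonempty (H ≃* K) := by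
    intro H K hHK
    have e1 := H.equivMapOfInjective (P : Subgroup G).subtype (Subgroup.subtype_injective _)
    have e2 := K.equivMapOfInjective (P : Subgroup G).subtype (Subgroup.subtype_injective _)
    obtain ⟨g, hg⟩ := hC (H.map (P : Subgroup G).subtype) (K.map (P : Subgroup G).subtype)
      ((hPp.to_subgroup H).map _) ((hPp.to_subgroup K).map _)
      (by rw [← Nat.card_congr e1.toEquiv, ← Nat.card_congr e2.toEquiv]; exact hHK)
    have e3 := (MulAut.conj g).subgroupMap (H.map (P : Subgroup G).subtype)
    exact ⟨e1.trans (e3.trans ((MulEquiv.subgroupCongr hg.symm).trans e2.symm))⟩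
  rcases core hPp hI with h | ⟨h1, h2⟩ | h | ⟨h1, h2, h3, h4⟩
  · exact Or.inl h
  · right; left
    refine ⟨⟨⟨fun a b => h1 a b⟩⟩, ?_⟩
    intro a ha
    have := h2 ⟨a, ha⟩
    simpa using congrArg Subtype.val this
  · right; right; left
    exact h
  · right; right; right
    exact ⟨h1, fun hc => h2 (fun a b => hc.is_comm.comm a b), h3, h4⟩

end Cfsg.Agent.S4023
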