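import Cfsg.Statements.S4027
import Cfsg.Agent.Lib.helper20.TwoClosed

set_option autoImplicit false
open Cfsg

namespace Cfsg.Agent.S4027

/-- Let G be a finite group in which every element x of odd order satisfies N_G(⟨x⟩) = C_G(x). Then the Sylow 2-subgroups of G are normal. -/
theorem result {G : Type*} [Group G] [Finite G]
    (hirr : ∀ x : G, (∀ r : ℕ, r.Prime → r ∣ orderOf x → r ≠ 2) →
      Subgroup.normalizer ((Subgroup.zpowers x : Subgroup G) : Set G) ≤ Subgroup.centralizer {x}) (P : Sylow 2 G) :
    (P : Subgroup G).Normal := by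
  by_contra hP
  obtain ⟨q, h, s, hqp, hq2, hord, hsn, hk⟩ :=
    Cfsg.Agent.Lib.helper20.not_normal_sylow_two_core P hP
  have hle := hirr h (by
    intro r hr hdvd
    rw [hord] at hdvd
    have := (Nat.prime_dvd_prime_iff_eq hr hqp).mp hdvd
    rw [this]; exact hq2)
  have hsc := hle hsn
  rw [Subgroup.mem_centralizer_iff] at hsc
  have h1 := hsc h (Set.mem_singleton h)
  apply hk 1 odd_one
  rw [pow_one]
  exact h1.symm
end Cfsg.Agent.S4027
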