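import Cfsg.Statements.S4028
import Cfsg.Agent.Lib.helper20.ClassSize

set_option autoImplicit false
open Cfsg

namespace Cfsg.Agent.S4028

open Cfsg.Agent.Lib.helper20
open scoped Pointwise

theorem mem_zpowers_conj {G : Type*} [Group G] (c x a : G) :
    a ∈ Subgroup.zpowers (c⁻¹ * x * c) ↔ c * a * c⁻¹ ∈ Subgroup.zpowers x := by
  rw [Subgroup.mem_zpowers_iff, Subgroup.mem_zpowers_iff]
  have h : ∀ k : ℤ, (c⁻¹ * x * c) ^ k = c⁻¹ * x ^ k * c := by
    intro k
    have := conj_zpow (i := k) (a := c⁻¹) (b := x)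
    rw [inv_inv] at this
    exact this
  constructor
  · rintro ⟨k, hk⟩
    refine ⟨k, ?_⟩
    rw [← hk, h]; group
  · rintro ⟨k, hk⟩
    refine ⟨k, ?_⟩
    rw [h, hk]; group

/-- Let G be a finite group with Sylow 2-subgroup P. Then N_G(⟨x⟩) = C_G(x) holds for every 2-element x of G if and only if N_P(⟨y⟩) = C_P(y) holds for every y ∈ P (computed inside P). -/
theorem result {G : Type*} [Group G] [Finite G] (P : Sylow 2 G) :
    (∀ x : G, (∀ r : ℕ, r.Prime → r ∣ orderOf x → r = 2) →
      Subgroup.normalizer ((Subgroup.zpowers x : Subgroup G) : Set G) ≤ Subgroup.centralizer {x}) ↔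
    (∀ y : ↥(P : Subgroup G), Subgroup.normalizer ((Subgroup.zpowers y : Subgroup ↥(P : Subgroup G)) : Set ↥(P : Subgroup G)) ≤
        Subgroup.centralizer {y}) := by
  classical
  haveI : Fact (Nat.Prime 2) := ⟨Nat.prime_two⟩
  have hcoe : ∀ (y h : (P : Subgroup G)), h ∈ Subgroup.zpowers y ↔
      (h : G) ∈ Subgroup.zpowers (y : G) := by
    intro y h
    rw [Subgroup.mem_zpowers_iff, Subgroup.mem_zpowers_iff]
    constructor
    · rintro ⟨k, hk⟩
      exact ⟨k, by rw [← hk]; simp⟩
    · rintro ⟨k, hk⟩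
      exact ⟨k, Subtype.ext (by rw [← hk]; simp)⟩
  constructor
  · intro h y g hg
    have hy : ∀ r : ℕ, r.Prime → r ∣ orderOf (y : G) → r = 2 := by
      intro r hr hdvd
      obtain ⟨k, hk⟩ := (IsPGroup.iff_orderOf.mp P.2) y
      rw [Subgroup.orderOf_coe, hk] at hdvd
      exact (Nat.prime_dvd_prime_iff_eq hr Nat.prime_two).mp (hr.dvd_of_dvd_pow hdvd)
    have hgN : (g : G) ∈ Subgroup.normalizer
        ((Subgroup.zpowers (y : G) : Subgroup G) : Set G) := by
      rw [Subgroup.mem_set_normalizer_iff]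
      intro a
      have hg' := Subgroup.mem_set_normalizer_iff.mp hg
      constructor
      · intro ha
        have haP : a ∈ (P : Subgroup G) := by
          obtain ⟨k, rfl⟩ := Subgroup.mem_zpowers_iff.mp ha
          exact Subgroup.zpow_mem _ y.2 k
        have := (hg' ⟨a, haP⟩).mp ((hcoe y ⟨a, haP⟩).mpr ha)
        exact (hcoe y _).mp this
      · intro ha
        have haP : a ∈ (P : Subgroup G) := by
          have h1 : (g : G) * a * (g : G)⁻¹ ∈ (P : Subgroup G) := by
            obtain ⟨k, hk⟩ := Subgroup.mem_zpowers_iff.mp ha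
            rw [← hk]
            exact Subgroup.zpow_mem _ y.2 k
          have h2 : a = (g : G)⁻¹ * ((g : G) * a * (g : G)⁻¹) * (g : G) := by group
          rw [h2]
          exact Subgroup.mul_mem _ (Subgroup.mul_mem _ (Subgroup.inv_mem _ g.2) h1) g.2
        have := (hg' ⟨a, haP⟩).mpr ((hcoe y _).mpr ha)
        exact (hcoe y ⟨a, haP⟩).mp this
    have := h (y : G) hy hgN
    rw [Subgroup.mem_centralizer_iff] at this ⊢
    intro z hz
    rw [Set.mem_singleton_iff] at hz
    subst hz
    exact Subtype.ext (this (z : G) rfl)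
  · intro h x hx g hg
    -- x is a 2-element
    obtain ⟨k, hk⟩ : ∃ k : ℕ, orderOf x = 2 ^ k := by
      obtain ⟨k, m, hm, hkm⟩ := Nat.exists_eq_two_pow_mul_odd (orderOf_pos x).ne'
      refine ⟨k, ?_⟩
      by_cases hm1 : m = 1
      · rw [hkm, hm1, mul_one]
      · exfalso
        obtain ⟨r, hr, hrm⟩ := Nat.exists_prime_and_dvd hm1
        have := hx r hr (by rw [hkm]; exact Dvd.dvd.mul_left hrm _)
        rw [this] at hrm
        exact (Nat.not_even_iff_odd.mpr hm) (even_iff_two_dvd.mpr hrm)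
    set H : Subgroup G := Subgroup.zpowers x with hH
    have hHp : IsPGroup 2 H := IsPGroup.of_card (n := k) (by rw [hH, Nat.card_zpowers, hk])
    have hAut : IsPGroup 2 (MulAut H) := by
      have hc : Nat.card (MulAut H) = Nat.totient (Nat.card H) := IsCyclic.card_mulAut H
      rw [hH, Nat.card_zpowers, hk] at hc
      rcases Nat.eq_zero_or_pos k with h0 | h0
      · apply IsPGroup.of_card (n := 0)
        rw [hc, h0]; simp
      · apply IsPGroup.of_card (n := k - 1)
        rw [hc, Nat.totient_prime_pow Nat.prime_two h0]; simp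
    obtain ⟨u, v, hguv, huv, ⟨j, hj⟩, hvcop, hu, hv⟩ := exists_p_decomp 2 g
    have hzle : Subgroup.zpowers g ≤ Subgroup.normalizer (H : Set G) := by
      rw [Subgroup.zpowers_le]; exact hg
    have huN := hzle hu
    have hvN := hzle hv
    -- v centralizes x
    have hvx : x * v = v * x := by
      have h1 : H.normalizerMonoidHom ⟨v, hvN⟩ = 1 := by
        obtain ⟨i, hi⟩ := (IsPGroup.iff_orderOf.mp hAut) (H.normalizerMonoidHom ⟨v, hvN⟩)
        have hdvd : orderOf (H.normalizerMonoidHom ⟨v, hvN⟩) ∣ orderOf v := by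
          have := orderOf_map_dvd H.normalizerMonoidHom (⟨v, hvN⟩ : Subgroup.normalizer (H : Set G))
          rwa [Subgroup.orderOf_mk] at this
        rw [hi] at hdvd
        have hcop2 : Nat.Coprime (2 ^ i) 2 := Nat.Coprime.coprime_dvd_left hdvd hvcop
        rcases Nat.eq_zero_or_pos i with h0 | h0
        · rw [h0, pow_zero] at hi
          exact orderOf_eq_one_iff.mp hi
        · exfalso
          have : (2 : ℕ) ∣ Nat.gcd (2 ^ i) 2 := Nat.dvd_gcd (dvd_pow_self 2 h0.ne') dvd_rfl
          rw [hcop2] at this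
          omega
      have h2 : (⟨v, hvN⟩ : Subgroup.normalizer (H : Set G)) ∈ H.normalizerMonoidHom.ker := h1
      rw [Subgroup.normalizerMonoidHom_ker, Subgroup.mem_subgroupOf,
        Subgroup.mem_centralizer_iff] at h2
      exact h2 x (Subgroup.mem_zpowers x)
    -- u centralizes x
    have hux : x * u = u * x := by
      have hUp : IsPGroup 2 (Subgroup.zpowers u) := by
        have hdvd := orderOf_dvd_of_pow_eq_one hj
        obtain ⟨i, -, hi⟩ := (Nat.dvd_prime_pow Nat.prime_two).mp hdvd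
        exact IsPGroup.of_card (n := i) (by rw [Nat.card_zpowers, hi])
      have hsup : IsPGroup 2 (H ⊔ Subgroup.zpowers u : Subgroup G) :=
        hHp.to_sup_of_normal_left' hUp (by rw [Subgroup.zpowers_le]; exact huN)
      obtain ⟨Q, hQ⟩ := hsup.exists_le_sylow
      obtain ⟨c, hc⟩ := MulAction.exists_smul_eq G P Q
      have hQmem : ∀ a : G, a ∈ (Q : Subgroup G) → c⁻¹ * a * c ∈ (P : Subgroup G) := by
        intro a ha
        rw [← hc] at ha
        change a ∈ MulAut.conj c • (P : Subgroup G) at ha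
        rw [Subgroup.mem_pointwise_smul_iff_inv_smul_mem] at ha
        simpa [MulAut.smul_def] using ha
      have hxQ : x ∈ (Q : Subgroup G) := hQ (Subgroup.mem_sup_left (Subgroup.mem_zpowers x))
      have huQ : u ∈ (Q : Subgroup G) := hQ (Subgroup.mem_sup_right (Subgroup.mem_zpowers u))
      set y : (P : Subgroup G) := ⟨c⁻¹ * x * c, hQmem x hxQ⟩ with hy
      set t : (P : Subgroup G) := ⟨c⁻¹ * u * c, hQmem u huQ⟩ with ht
      have htN : t ∈ Subgroup.normalizer
          ((Subgroup.zpowers y : Subgroup (P : Subgroup G)) : Set (P : Subgroup G)) := by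
        rw [Subgroup.mem_set_normalizer_iff]
        intro a
        have hu' := Subgroup.mem_set_normalizer_iff.mp huN (c * (a : G) * c⁻¹)
        change a ∈ Subgroup.zpowers y ↔ t * a * t⁻¹ ∈ Subgroup.zpowers y
        rw [hcoe, hcoe]
        change (a : G) ∈ Subgroup.zpowers (c⁻¹ * x * c) ↔
          (c⁻¹ * u * c) * (a : G) * (c⁻¹ * u * c)⁻¹ ∈ Subgroup.zpowers (c⁻¹ * x * c)
        rw [mem_zpowers_conj, mem_zpowers_conj]
        have e : c * (c⁻¹ * u * c * (a : G) * (c⁻¹ * u * c)⁻¹) * c⁻¹ =
            u * (c * (a : G) * c⁻¹) * u⁻¹ := by group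
        rw [e]
        exact hu'
      have hcen := h y htN
      rw [Subgroup.mem_centralizer_iff] at hcen
      have h3 := congrArg Subtype.val (hcen y rfl)
      have h4 : c⁻¹ * x * c * (c⁻¹ * u * c) = c⁻¹ * u * c * (c⁻¹ * x * c) := h3
      have h5 : x * u = c * (c⁻¹ * x * c * (c⁻¹ * u * c)) * c⁻¹ := by group
      rw [h5, h4]; group
    rw [Subgroup.mem_centralizer_iff]
    intro z hz
    rw [Set.mem_singleton_iff] at hz
    subst hz
    rw [hguv, ← mul_assoc, hux, mul_assoc, hvx, mul_assoc]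

end Cfsg.Agent.S4028
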