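import Cfsg.Statements.S4029
import Mathlib
import Cfsg.Agent.Lib.helper24.CharPerm
import Cfsg.Agent.Lib.helper24.CharLin
import Cfsg.Agent.Lib.helper24.CharOrth
import Cfsg.Agent.Lib.helper1.PGroup

set_option autoImplicit false
open Cfsg

namespace Cfsg.Agent.S4029

open scoped IsMulCommutative ComplexConjugate commutatorElement
open Cfsg.Agent.Lib.helper24


/-- Let P be a finite 2-group in which N_P(⟨y⟩) = C_P(y) for every y ∈ P. If s is the number of conjugacy classes of involutions of P, then #(P/Φ(P)) ≤ s + 1; in particular the subgroup generated by the involutions of P has order at least #(P/Φ(P)). -/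
theorem result {P : Type*} [Group P] [Finite P] (hP : IsPGroup 2 P)
    (hirr : ∀ y : P, Subgroup.normalizer ((Subgroup.zpowers y : Subgroup P) : Set P) ≤ Subgroup.centralizer {y}) :
    Nat.card (P ⧸ frattini P) ≤ Nat.card {c : ConjClasses P // ∃ y : P, ConjClasses.mk y = c ∧ orderOf y = 2} + 1 ∧
    Nat.card (P ⧸ frattini P) ≤ Nat.card (Subgroup.closure {y : P | orderOf y = 2}) := by
  classical
  haveI : Fact (Nat.Prime 2) := ⟨Nat.prime_two⟩
  haveI := Fintype.ofFinite P
  -- real elements are involutions
  have hreal : ∀ g : P, IsConj g⁻¹ g → g ^ 2 = 1 := by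
    intro g hg
    obtain ⟨x, hx⟩ := isConj_iff.mp hg
    have h1 : x * g * x⁻¹ = g⁻¹ := by
      have h0 : x * g * x⁻¹ = (x * g⁻¹ * x⁻¹)⁻¹ := by group
      rw [h0, hx]
    have h2 : x⁻¹ * g * x = g⁻¹ := by
      have h0 : g⁻¹ = x⁻¹ * (x * g⁻¹ * x⁻¹) * x := by group
      rw [hx] at h0
      exact h0.symm
    have hxN : x ∈ Subgroup.normalizer ((Subgroup.zpowers g : Subgroup P) : Set P) := by
      rw [Subgroup.mem_normalizer_iff]
      intro h
      constructor
      · intro hh
        obtain ⟨k, rfl⟩ := Subgroup.mem_zpowers_iff.mp hh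
        have h3 : x * g ^ k * x⁻¹ = (g⁻¹) ^ k := by rw [← h1, conj_zpow]
        rw [h3]
        exact Subgroup.zpow_mem _ (Subgroup.inv_mem _ (Subgroup.mem_zpowers g)) k
      · intro hh
        obtain ⟨k, hk⟩ := Subgroup.mem_zpowers_iff.mp hh
        have h3 : h = (g⁻¹) ^ k := by
          have h4 : h = x⁻¹ * (x * h * x⁻¹) * x := by group
          rw [h4, ← hk, ← h2]
          have h5 := conj_zpow (a := x⁻¹) (b := g) (i := k)
          rw [inv_inv] at h5
          exact h5.symm
        rw [h3]
        exact Subgroup.zpow_mem _ (Subgroup.inv_mem _ (Subgroup.mem_zpowers g)) k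
    have hc := hirr g hxN
    have hgx : g * x = x * g := Subgroup.mem_centralizer_iff.mp hc g rfl
    have h6 : g⁻¹ = g := by
      rw [← h1, ← hgx]; group
    rw [pow_two]
    nth_rewrite 1 [← h6]
    exact inv_mul_cancel g
  -- Brauer's permutation lemma for inversion
  have hB := brauer_perm_count (G := P) (fun g => g⁻¹)
    (fun χ => by
      have h1 := isIrrCharacter_conj χ.2
      convert h1 using 1
      funext g
      exact isCharacter_inv (isCharacter_of_isIrrCharacter χ.2) g)
    (fun g h hgh => by
      obtain ⟨c, hc⟩ := isConj_iff.mp hgh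
      exact isConj_iff.mpr ⟨c, by rw [← hc]; group⟩)
  -- real classes are the identity class and the classes of involutions
  have h2 : Nat.card {C : ConjClasses P // ∀ g : P, ConjClasses.mk g = C → IsConj g⁻¹ g} ≤
      Nat.card {c : ConjClasses P // ∃ y : P, ConjClasses.mk y = c ∧ orderOf y = 2} + 1 := by
    rw [← Finite.card_option]
    have hinv : ∀ C : {C : ConjClasses P // ∀ g : P, ConjClasses.mk g = C → IsConj g⁻¹ g},
        C.1 ≠ ConjClasses.mk 1 → ∃ y : P, ConjClasses.mk y = C.1 ∧ orderOf y = 2 := by
      intro C hC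
      obtain ⟨y, hy⟩ := ConjClasses.mk_surjective C.1
      refine ⟨y, hy, ?_⟩
      have hy2 := hreal y (C.2 y hy)
      have hy1 : y ≠ 1 := by
        rintro rfl
        exact hC hy.symm
      exact orderOf_eq_prime hy2 hy1
    apply Nat.card_le_card_of_injective
      (fun C : {C : ConjClasses P // ∀ g : P, ConjClasses.mk g = C → IsConj g⁻¹ g} =>
        if h : C.1 = ConjClasses.mk 1 then none else some ⟨C.1, hinv C h⟩)
    intro C C' hCC
    by_cases h1 : C.1 = ConjClasses.mk 1 <;> by_cases h1' : C'.1 = ConjClasses.mk 1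
    · exact Subtype.ext (h1.trans h1'.symm)
    · simp [h1, h1'] at hCC
    · simp [h1, h1'] at hCC
    · simp only [h1, h1', dite_false, Option.some.injEq, Subtype.mk.injEq] at hCC
      exact Subtype.ext hCC
  -- linear characters of the Frattini quotient are real
  have h3 : Nat.card (P ⧸ frattini P) ≤
      Nat.card {χ : Cfsg.IrrCharacter P // χ.1 ∘ (fun g => g⁻¹) = χ.1} := by
    haveI : IsMulCommutative (P ⧸ frattini P) := ⟨⟨fun a b => by
      obtain ⟨x, rfl⟩ := QuotientGroup.mk_surjective a
      obtain ⟨y, rfl⟩ := QuotientGroup.mk_surjective b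
      rw [← QuotientGroup.mk_mul, ← QuotientGroup.mk_mul, QuotientGroup.eq]
      apply Cfsg.Agent.Lib.helper1.commutator_le_frattini 2 hP
      have h0 : (x * y)⁻¹ * (y * x) = ⁅y⁻¹, x⁻¹⁆ := by
        rw [commutatorElement_def]; group
      rw [h0, commutator_def]
      exact Subgroup.commutator_mem_commutator (Subgroup.mem_top _) (Subgroup.mem_top _)⟩⟩
    have hexp2 : ∀ q : P ⧸ frattini P, q ^ 2 = 1 := by
      intro q
      obtain ⟨x, rfl⟩ := QuotientGroup.mk_surjective q
      rw [← QuotientGroup.mk_pow]
      exact (QuotientGroup.eq_one_iff _).mpr (Cfsg.Agent.Lib.helper1.pow_mem_frattini 2 hP x)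
    haveI : NeZero (Monoid.exponent (P ⧸ frattini P)) := ⟨Monoid.exponent_ne_zero_of_finite⟩
    have hcardhom : Nat.card ((P ⧸ frattini P) →* ℂˣ) = Nat.card (P ⧸ frattini P) :=
      CommGroup.card_monoidHom_of_hasEnoughRootsOfUnity (P ⧸ frattini P) ℂ
    rw [← hcardhom]
    apply Nat.card_le_card_of_injective
      (fun lam : (P ⧸ frattini P) →* ℂˣ =>
        (⟨⟨fun g => ((lam.comp (QuotientGroup.mk' (frattini P))) g : ℂ),
            isIrrCharacter_of_hom _⟩, by
          funext g
          show ((lam.comp (QuotientGroup.mk' (frattini P))) g⁻¹ : ℂ) =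
            ((lam.comp (QuotientGroup.mk' (frattini P))) g : ℂ)
          congr 1
          rw [map_inv]
          have h1 : (lam.comp (QuotientGroup.mk' (frattini P))) g ^ 2 = 1 := by
            rw [MonoidHom.comp_apply, ← map_pow, hexp2, map_one]
          rw [pow_two] at h1
          exact inv_eq_of_mul_eq_one_left h1⟩ :
          {χ : Cfsg.IrrCharacter P // χ.1 ∘ (fun g => g⁻¹) = χ.1}))
    intro lam lam' h
    have h1 : ∀ g : P, ((lam.comp (QuotientGroup.mk' (frattini P))) g : ℂ) =
        ((lam'.comp (QuotientGroup.mk' (frattini P))) g : ℂ) := by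
      intro g
      have h2 := congrArg (fun χ : {χ : Cfsg.IrrCharacter P // χ.1 ∘ (fun g => g⁻¹) = χ.1} =>
        χ.1.1 g) h
      exact h2
    apply MonoidHom.ext
    intro q
    obtain ⟨x, rfl⟩ := QuotientGroup.mk_surjective q
    exact Units.ext (h1 x)
  have hfirst : Nat.card (P ⧸ frattini P) ≤
      Nat.card {c : ConjClasses P // ∃ y : P, ConjClasses.mk y = c ∧ orderOf y = 2} + 1 := by
    rw [hB] at h3
    exact h3.trans h2
  refine ⟨hfirst, hfirst.trans ?_⟩
  rw [← Finite.card_option]
  apply Nat.card_le_card_of_injective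
    (fun o : Option {c : ConjClasses P // ∃ y : P, ConjClasses.mk y = c ∧ orderOf y = 2} =>
      match o with
      | none => (1 : Subgroup.closure {y : P | orderOf y = 2})
      | some c => ⟨Classical.choose c.2, Subgroup.subset_closure (Classical.choose_spec c.2).2⟩)
  intro o o' h
  rcases o with _ | c <;> rcases o' with _ | c'
  · rfl
  · exfalso
    have h1 : (1 : P) = Classical.choose c'.2 := congrArg Subtype.val h
    have h2 := (Classical.choose_spec c'.2).2
    rw [← h1, orderOf_one] at h2
    omega
  · exfalso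
    have h1 : Classical.choose c.2 = (1 : P) := congrArg Subtype.val h
    have h2 := (Classical.choose_spec c.2).2
    rw [h1, orderOf_one] at h2
    omega
  · have h1 : Classical.choose c.2 = Classical.choose c'.2 := congrArg Subtype.val h
    have h2 := (Classical.choose_spec c.2).1
    have h3 := (Classical.choose_spec c'.2).1
    rw [h1, h3] at h2
    exact congrArg some (Subtype.ext h2.symm)

end Cfsg.Agent.S4029
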