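import Cfsg.Statements.S4032
import Cfsg.Agent.Lib.helper1.SZ

set_option autoImplicit false
open Cfsg

namespace Cfsg.Agent.S4032

open scoped Pointwise
open Cfsg.Agent.Lib.helper1

universe u

/-- Cyclic complements of a normal subgroup of coprime order are conjugate by an element of
the normal subgroup. -/
theorem exists_conj_mem_zpowers {G : Type u} [Group G] [Finite G] (N : Subgroup G) [N.Normal]
    (x x' : G) (hord : orderOf x' = orderOf x) (hcop : (orderOf x).Coprime (Nat.card N))
    (hx' : x' ∈ Subgroup.zpowers x ⊔ N) : ∃ n ∈ N, n * x' * n⁻¹ ∈ Subgroup.zpowers x := by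
  classical
  set H : Subgroup G := Subgroup.zpowers x with hH
  set K : Subgroup G := Subgroup.zpowers x' with hK
  set L : Subgroup G := H ⊔ N with hL
  have hHL : H ≤ L := le_sup_left
  have hNL : N ≤ L := le_sup_right
  have hKL : K ≤ L := by rw [hK, Subgroup.zpowers_le]; exact hx'
  have hcardH : Nat.card H = orderOf x := Nat.card_zpowers x
  have hcardK : Nat.card K = orderOf x := by rw [hK, Nat.card_zpowers, hord]
  have hdisj : Disjoint H N := Subgroup.disjoint_of_coprime_natCard (by rw [hcardH]; exact hcop)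
  have hcardL : Nat.card L = Nat.card N * Nat.card H := card_sup_of_disjoint_normal H N hdisj
  have hcardNL : Nat.card (N.subgroupOf L) = Nat.card N :=
    Nat.card_congr (Subgroup.subgroupOfEquivOfLe hNL).toEquiv
  have hidx : (N.subgroupOf L).index = Nat.card H := by
    have h1 := Subgroup.card_mul_index (N.subgroupOf L)
    rw [hcardNL, hcardL] at h1
    exact Nat.eq_of_mul_eq_mul_left Nat.card_pos h1
  have hcop' : (Nat.card (N.subgroupOf L)).Coprime (N.subgroupOf L).index := by
    rw [hcardNL, hidx, hcardH]; exact hcop.symm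
  have hsolv : Group.IsSolvable (H.subgroupOf L) := by
    apply Group.isSolvable_of_comm
    intro a b
    apply Subtype.ext
    apply Subtype.ext
    obtain ⟨i, hi⟩ := Subgroup.mem_zpowers_iff.mp (Subgroup.mem_subgroupOf.mp a.2)
    obtain ⟨j, hj⟩ := Subgroup.mem_zpowers_iff.mp (Subgroup.mem_subgroupOf.mp b.2)
    change ((a : L) : G) * ((b : L) : G) = ((b : L) : G) * ((a : L) : G)
    rw [← hi, ← hj, ← zpow_add, ← zpow_add, add_comm]
  have hcH : Nat.card (H.subgroupOf L) = (N.subgroupOf L).index := by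
    rw [hidx]; exact Nat.card_congr (Subgroup.subgroupOfEquivOfLe hHL).toEquiv
  have hcK : Nat.card (K.subgroupOf L) = (N.subgroupOf L).index := by
    rw [hidx, hcardH, ← hcardK]; exact Nat.card_congr (Subgroup.subgroupOfEquivOfLe hKL).toEquiv
  obtain ⟨l, hl⟩ := sz_conj_of_solvable_compl (N.subgroupOf L) hcop' (H.subgroupOf L)
    (K.subgroupOf L) hsolv hcH hcK
  have hconj := conj_of_conj_subgroupOf L H K hHL hKL l hl
  have hx'K : x' ∈ MulAut.conj (l : G) • H := by
    rw [hconj, hK]; exact Subgroup.mem_zpowers x'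
  rw [mem_conj_smul] at hx'K
  have hlinv : (l : G)⁻¹ ∈ H ⊔ N := Subgroup.inv_mem _ l.2
  obtain ⟨h, hh, n, hn, hhn⟩ := Subgroup.mem_sup_of_normal_right.mp hlinv
  refine ⟨n, hn, ?_⟩
  have e : n * x' * n⁻¹ = h⁻¹ * ((l : G)⁻¹ * x' * (l : G)) * h := by
    have hl' : (l : G) = n⁻¹ * h⁻¹ := by
      rw [← inv_inv (l : G), ← hhn]; group
    rw [hl']; group
  rw [e]
  exact Subgroup.mul_mem _ (Subgroup.mul_mem _ (Subgroup.inv_mem _ hh) hx'K) hh

/-- Let π be a set of primes and G a finite group in which N_G(⟨x⟩) = C_G(x) for every π-element x. If N is a normal subgroup of G whose order is divisible by no prime of π, then G/N has the same property: N_{G/N}(⟨y⟩) = C_{G/N}(y) for every π-element y of G/N. -/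
theorem result {G : Type*} [Group G] [Finite G] (π : Set ℕ)
    (hirr : ∀ x : G, (∀ r : ℕ, r.Prime → r ∣ orderOf x → r ∈ π) →
      Subgroup.normalizer ((Subgroup.zpowers x : Subgroup G) : Set G) ≤ Subgroup.centralizer {x})
    (N : Subgroup G) [N.Normal] (hN : ∀ r : ℕ, r.Prime → r ∣ Nat.card N → r ∉ π) :
    ∀ y : G ⧸ N, (∀ r : ℕ, r.Prime → r ∣ orderOf y → r ∈ π) →
      Subgroup.normalizer ((Subgroup.zpowers y : Subgroup (G ⧸ N)) : Set (G ⧸ N)) ≤ Subgroup.centralizer {y} := by
  classical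
  intro y hy gb hgb
  obtain ⟨g, rfl⟩ := QuotientGroup.mk_surjective gb
  obtain ⟨x₀, rfl⟩ := QuotientGroup.mk_surjective y
  set y : G ⧸ N := QuotientGroup.mk x₀ with hydef
  set m := orderOf y with hm
  have hzN : x₀ ^ m ∈ N := by
    rw [← QuotientGroup.eq_one_iff, QuotientGroup.mk_pow]
    exact pow_orderOf_eq_one y
  have ht : orderOf (x₀ ^ m) ∣ Nat.card N := by
    have := orderOf_dvd_natCard (⟨x₀ ^ m, hzN⟩ : N)
    rwa [Subgroup.orderOf_mk] at this
  have hcop : m.Coprime (orderOf (x₀ ^ m)) := by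
    apply Nat.coprime_of_dvd
    intro k hk hkm hkt
    exact hN k hk (hkt.trans ht) (hy k hk hkm)
  obtain ⟨s, hs1, hs0⟩ := Nat.chineseRemainder hcop 1 0
  set x : G := x₀ ^ s with hx
  have hmkx : (QuotientGroup.mk x : G ⧸ N) = y := by
    rw [hx, QuotientGroup.mk_pow]
    have : y ^ s = y ^ 1 := pow_eq_pow_iff_modEq.mpr hs1
    rw [this, pow_one]
  have hxm : x ^ m = 1 := by
    rw [hx, ← pow_mul, mul_comm, pow_mul]
    exact orderOf_dvd_iff_pow_eq_one.mp ((Nat.modEq_zero_iff_dvd).mp hs0)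
  have hox : orderOf x = m := by
    apply Nat.dvd_antisymm (orderOf_dvd_of_pow_eq_one hxm)
    have := orderOf_map_dvd (QuotientGroup.mk' N) x
    rw [QuotientGroup.mk'_apply, hmkx] at this
    exact this
  have hxπ : ∀ r : ℕ, r.Prime → r ∣ orderOf x → r ∈ π := by
    intro r hr hrx
    rw [hox] at hrx
    exact hy r hr hrx
  have hcopN : (orderOf x).Coprime (Nat.card N) := by
    apply Nat.coprime_of_dvd
    intro k hk hkx hkN
    exact hN k hk hkN (hxπ k hk hkx)
  -- x' = g x g⁻¹
  have hx'L : g * x * g⁻¹ ∈ Subgroup.zpowers x ⊔ N := by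
    have h1 := (Subgroup.mem_set_normalizer_iff.mp hgb y).mp (Subgroup.mem_zpowers y)
    obtain ⟨k, hk⟩ := Subgroup.mem_zpowers_iff.mp h1
    have h2 : (x ^ k)⁻¹ * (g * x * g⁻¹) ∈ N := by
      rw [← QuotientGroup.eq, QuotientGroup.mk_zpow, hmkx, hk, QuotientGroup.mk_mul,
        QuotientGroup.mk_mul, QuotientGroup.mk_inv, hmkx]
    have e : g * x * g⁻¹ = x ^ k * ((x ^ k)⁻¹ * (g * x * g⁻¹)) := by group
    rw [e]
    exact Subgroup.mul_mem _ (Subgroup.mem_sup_left (Subgroup.zpow_mem _ (Subgroup.mem_zpowers x) k))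
      (Subgroup.mem_sup_right h2)
  have hord' : orderOf (g * x * g⁻¹) = orderOf x := (MulAut.conj g).orderOf_eq x
  obtain ⟨n, hn, hnx⟩ := exists_conj_mem_zpowers N x (g * x * g⁻¹) hord' hcopN hx'L
  -- n * g normalizes ⟨x⟩
  have hconj : ∀ a ∈ Subgroup.zpowers x, (n * g) * a * (n * g)⁻¹ ∈ Subgroup.zpowers x := by
    intro a ha
    obtain ⟨i, rfl⟩ := Subgroup.mem_zpowers_iff.mp ha
    rw [← conj_zpow]
    apply Subgroup.zpow_mem
    have e : n * g * x * (n * g)⁻¹ = n * (g * x * g⁻¹) * n⁻¹ := by group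
    rw [e]
    exact hnx
  have hnorm : n * g ∈ Subgroup.normalizer ((Subgroup.zpowers x : Subgroup G) : Set G) := by
    rw [Subgroup.mem_set_normalizer_iff]
    intro a
    constructor
    · exact hconj a
    · intro ha
      let φ : Subgroup.zpowers x → Subgroup.zpowers x := fun b =>
        ⟨(n * g) * (b : G) * (n * g)⁻¹, hconj b b.2⟩
      have hφ : Function.Injective φ := by
        intro b c hbc
        have h1 : (n * g) * (b : G) * (n * g)⁻¹ = (n * g) * (c : G) * (n * g)⁻¹ :=
          congrArg Subtype.val hbc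
        apply Subtype.ext
        exact mul_left_cancel (mul_right_cancel h1)
      obtain ⟨b, hb⟩ := Finite.surjective_of_injective hφ ⟨_, ha⟩
      have h1 : (n * g) * (b : G) * (n * g)⁻¹ = (n * g) * a * (n * g)⁻¹ := congrArg Subtype.val hb
      have h2 : (b : G) = a := mul_left_cancel (mul_right_cancel h1)
      rw [← h2]
      exact b.2
  have hcen := hirr x hxπ hnorm
  rw [Subgroup.mem_centralizer_iff] at hcen ⊢
  intro h hh
  rw [Set.mem_singleton_iff] at hh
  subst hh
  have h1 := hcen x rfl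
  have h2 := congrArg (QuotientGroup.mk : G → G ⧸ N) h1
  simp only [QuotientGroup.mk_mul] at h2
  rw [hmkx, (QuotientGroup.eq_one_iff n).mpr hn, one_mul] at h2
  exact h2

end Cfsg.Agent.S4032
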