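import Cfsg.Statements.S4034
import Mathlib
import Cfsg.Agent.Lib.helper20.ClassSize
import Cfsg.Agent.Lib.helper23.BurnsideSimple
import Cfsg.Agent.Lib.helper3.Solvable

set_option autoImplicit false

universe u

open Cfsg

namespace Cfsg.Agent.S4034

open Cfsg.Agent.Lib.helper20

/-- The hypothesis, in terms of centralizer indices. -/
def Hyp (p : ℕ) (G : Type u) [Group G] : Prop :=
  ∀ x : G, (orderOf x).Coprime p →
    ∃ k : ℕ, (Subgroup.centralizer ({x} : Set G)).index = p ^ k

/-- If `N` is normal then `|N : N ∩ C|` divides `|G : C|`. -/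
theorem relIndex_dvd_index_of_normal_right {G : Type u} [Group G] [Finite G]
    (C N : Subgroup G) [N.Normal] : C.relIndex N ∣ C.index := by
  have h1 : (C ⊓ N).relIndex N * N.index = (C ⊓ N).index :=
    Subgroup.relIndex_mul_index inf_le_right
  have h2 : (C ⊓ N).relIndex C * C.index = (C ⊓ N).index :=
    Subgroup.relIndex_mul_index inf_le_left
  rw [Subgroup.inf_relIndex_right] at h1
  rw [Subgroup.inf_relIndex_left] at h2
  have h3 : N.relIndex (C ⊔ N) * (C ⊔ N).index = N.index :=
    Subgroup.relIndex_mul_index le_sup_right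
  rw [Subgroup.relIndex_sup_right] at h3
  have hne : N.relIndex C ≠ 0 := by
    unfold Subgroup.relIndex
    exact Subgroup.index_ne_zero_of_finite
  refine ⟨(C ⊔ N).index, ?_⟩
  apply Nat.eq_of_mul_eq_mul_left (Nat.pos_of_ne_zero hne)
  rw [h2, ← h1, ← h3]
  ring

/-- Every `p'`-element is conjugate into an abelian subgroup of `p`-power index. -/
theorem exists_conj_mem {G : Type u} [Group G] [Finite G] {p : ℕ} (hp : p.Prime)
    (H : Subgroup G) (hH : ∀ a ∈ H, ∀ b ∈ H, a * b = b * a) (k : ℕ) (hidx : H.index = p ^ k) :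
    ∀ n : ℕ, ∀ x : G, orderOf x = n → n.Coprime p → ∃ g : G, g * x * g⁻¹ ∈ H := by
  intro n
  induction n using Nat.strong_induction_on with
  | _ n ih =>
    intro x hxn hcop
    by_cases hx1 : x = 1
    · exact ⟨1, by rw [hx1]; simp⟩
    have hn1 : n ≠ 1 := by
      rw [← hxn]; intro h; exact hx1 (orderOf_eq_one_iff.mp h)
    have hqp : n.minFac.Prime := Nat.minFac_prime hn1
    haveI : Fact n.minFac.Prime := ⟨hqp⟩
    have hqn : n.minFac ∣ n := Nat.minFac_dvd n
    have hqnep : n.minFac ≠ p := by
      intro h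
      have h1 : p ∣ n := h ▸ hqn
      exact hp.one_lt.ne' (Nat.Coprime.eq_one_of_dvd hcop.symm h1)
    obtain ⟨u, v, hxuv, hcomm, ⟨j, hu⟩, hvq, huz, hvz⟩ := exists_p_decomp n.minFac x
    have hvdvd : orderOf v ∣ n := by
      rw [← hxn]; exact orderOf_dvd_of_mem_zpowers hvz
    have hvlt : orderOf v < n := by
      have hpos : 0 < n := by rw [← hxn]; exact orderOf_pos x
      rcases (Nat.le_of_dvd hpos hvdvd).lt_or_eq with h | h
      · exact h
      · exfalso
        rw [h] at hvq
        exact hqp.one_lt.ne' (Nat.Coprime.eq_one_of_dvd hvq.symm hqn)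
    obtain ⟨g, hg⟩ := ih (orderOf v) hvlt v rfl (Nat.Coprime.coprime_dvd_left hvdvd hcop)
    have hcomm' : g * u * g⁻¹ * (g * v * g⁻¹) = g * v * g⁻¹ * (g * u * g⁻¹) := by
      calc g * u * g⁻¹ * (g * v * g⁻¹) = g * (u * v) * g⁻¹ := by group
        _ = g * (v * u) * g⁻¹ := by rw [hcomm]
        _ = g * v * g⁻¹ * (g * u * g⁻¹) := by group
    have hHC : H ≤ Subgroup.centralizer ({g * v * g⁻¹} : Set G) := by
      intro h hh
      rw [Subgroup.mem_centralizer_iff]
      intro y hy
      rw [Set.mem_singleton_iff] at hy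
      rw [hy]
      exact hH _ hg _ hh
    have hu'C : g * u * g⁻¹ ∈ Subgroup.centralizer ({g * v * g⁻¹} : Set G) := by
      rw [Subgroup.mem_centralizer_iff]
      intro y hy
      rw [Set.mem_singleton_iff] at hy
      rw [hy]; exact hcomm'.symm
    set C := Subgroup.centralizer ({g * v * g⁻¹} : Set G) with hC
    have hKidx : (H.subgroupOf C).index ∣ p ^ k := by
      rw [← hidx]
      exact Subgroup.relIndex_dvd_index_of_le hHC
    have hZ : IsPGroup n.minFac (Subgroup.zpowers (⟨g * u * g⁻¹, hu'C⟩ : C)) := by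
      have h1 : orderOf (⟨g * u * g⁻¹, hu'C⟩ : C) ∣ n.minFac ^ j := by
        rw [Subgroup.orderOf_mk]
        apply orderOf_dvd_of_pow_eq_one
        rw [conj_pow, hu]; group
      obtain ⟨i, -, hi⟩ := (Nat.dvd_prime_pow hqp).mp h1
      exact IsPGroup.of_card (n := i) (by rw [Nat.card_zpowers, hi])
    have hndvd : ¬ n.minFac ∣ Nat.card (C ⧸ H.subgroupOf C) := by
      intro hdvd
      have h1 : n.minFac ∣ p ^ k := dvd_trans hdvd hKidx
      exact hqnep ((Nat.prime_dvd_prime_iff_eq hqp hp).mp (hqp.dvd_of_dvd_pow h1))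
    obtain ⟨c, hc⟩ := hZ.nonempty_fixed_point_of_prime_not_dvd_card (C ⧸ H.subgroupOf C) hndvd
    induction c using QuotientGroup.induction_on with
    | H c =>
      have h1 := hc ⟨⟨g * u * g⁻¹, hu'C⟩, Subgroup.mem_zpowers _⟩
      have h2 : (QuotientGroup.mk ((⟨g * u * g⁻¹, hu'C⟩ : C) * c) : C ⧸ H.subgroupOf C) =
          QuotientGroup.mk c := h1
      rw [QuotientGroup.eq, Subgroup.mem_subgroupOf] at h2
      have h3 : (c : G)⁻¹ * (g * u * g⁻¹)⁻¹ * c ∈ H := by
        have e : (((⟨g * u * g⁻¹, hu'C⟩ : C) * c)⁻¹ * c : C) =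
            ((c : G)⁻¹ * (g * u * g⁻¹)⁻¹ * c : G) := by
          push_cast; group
        rw [← e]; exact h2
      have hcv : (g * v * g⁻¹) * (c : G) = (c : G) * (g * v * g⁻¹) := by
        exact (Subgroup.mem_centralizer_iff.mp c.2) _ (Set.mem_singleton _)
      refine ⟨(c : G)⁻¹ * g, ?_⟩
      have e : (c : G)⁻¹ * g * x * ((c : G)⁻¹ * g)⁻¹ =
          ((c : G)⁻¹ * (g * u * g⁻¹)⁻¹ * c)⁻¹ * (g * v * g⁻¹) := by
        rw [hxuv]
        calc (c : G)⁻¹ * g * (u * v) * ((c : G)⁻¹ * g)⁻¹
            = (c : G)⁻¹ * (g * u * g⁻¹) * ((g * v * g⁻¹) * (c : G)) := by group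
          _ = (c : G)⁻¹ * (g * u * g⁻¹) * ((c : G) * (g * v * g⁻¹)) := by rw [hcv]
          _ = ((c : G)⁻¹ * (g * u * g⁻¹)⁻¹ * c)⁻¹ * (g * v * g⁻¹) := by group
      rw [e]
      exact H.mul_mem (H.inv_mem h3) hg

/-- The hypothesis passes to normal subgroups. -/
theorem hyp_of_normal {G : Type u} [Group G] [Finite G] {p : ℕ} (hp : p.Prime) (h : Hyp p G)
    (N : Subgroup G) [N.Normal] : Hyp p N := by
  intro x hx
  have hx' : (orderOf (x : G)).Coprime p := by rwa [Subgroup.orderOf_coe]
  obtain ⟨k, hk⟩ := h (x : G) hx'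
  have e : Subgroup.centralizer ({x} : Set N) =
      (Subgroup.centralizer ({(x : G)} : Set G)).subgroupOf N := by
    ext y
    rw [Subgroup.mem_subgroupOf, Subgroup.mem_centralizer_iff, Subgroup.mem_centralizer_iff]
    constructor
    · intro hy z hz
      rw [Set.mem_singleton_iff] at hz
      rw [hz]
      exact congrArg Subtype.val (hy x (Set.mem_singleton x))
    · intro hy z hz
      rw [Set.mem_singleton_iff] at hz
      rw [hz]
      exact Subtype.ext (hy (x : G) (Set.mem_singleton _))
  rw [e]
  have hdvd : ((Subgroup.centralizer ({(x : G)} : Set G)).subgroupOf N).index ∣ p ^ k := by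
    rw [← hk]
    exact relIndex_dvd_index_of_normal_right _ N
  obtain ⟨i, -, hi⟩ := (Nat.dvd_prime_pow hp).mp hdvd
  exact ⟨i, hi⟩

/-- The hypothesis passes to quotients. -/
theorem hyp_quotient {G : Type u} [Group G] [Finite G] {p : ℕ} [Fact p.Prime] (h : Hyp p G)
    (N : Subgroup G) [N.Normal] : Hyp p (G ⧸ N) := by
  have hp : p.Prime := Fact.out
  intro y hy
  obtain ⟨g, rfl⟩ := QuotientGroup.mk_surjective y
  obtain ⟨u, v, hguv, hcomm, ⟨j, hu⟩, hv, huz, hvz⟩ := exists_p_decomp p g
  have hu1 : (QuotientGroup.mk u : G ⧸ N) = 1 := by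
    have h1 : orderOf (QuotientGroup.mk u : G ⧸ N) ∣ p ^ j := by
      apply orderOf_dvd_of_pow_eq_one
      rw [← QuotientGroup.mk_pow, hu]; rfl
    have h2 : orderOf (QuotientGroup.mk u : G ⧸ N) ∣ orderOf (QuotientGroup.mk g : G ⧸ N) := by
      apply orderOf_dvd_of_mem_zpowers
      obtain ⟨i, hi⟩ := huz
      exact ⟨i, by rw [← hi, QuotientGroup.mk_zpow]⟩
    have h3 : (orderOf (QuotientGroup.mk u : G ⧸ N)).Coprime (p ^ j) :=
      Nat.Coprime.pow_right j (Nat.Coprime.coprime_dvd_left h2 hy)
    exact orderOf_eq_one_iff.mp (Nat.Coprime.eq_one_of_dvd h3 h1)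
  have hgv : (QuotientGroup.mk g : G ⧸ N) = QuotientGroup.mk v := by
    rw [hguv, QuotientGroup.mk_mul, hu1, one_mul]
  obtain ⟨k, hk⟩ := h v hv
  have hle : (Subgroup.centralizer ({v} : Set G)).map (QuotientGroup.mk' N) ≤
      Subgroup.centralizer ({(QuotientGroup.mk g : G ⧸ N)} : Set (G ⧸ N)) := by
    rintro _ ⟨c, hc, rfl⟩
    rw [Subgroup.mem_centralizer_iff]
    intro z hz
    rw [Set.mem_singleton_iff] at hz
    rw [hz, hgv]
    have h1 := (Subgroup.mem_centralizer_iff.mp hc) v (Set.mem_singleton v)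
    change (QuotientGroup.mk v : G ⧸ N) * QuotientGroup.mk c =
      QuotientGroup.mk c * QuotientGroup.mk v
    rw [← QuotientGroup.mk_mul, ← QuotientGroup.mk_mul, h1]
  have hd1 := Subgroup.index_dvd_of_le hle
  have hd2 := Subgroup.index_map_dvd (Subgroup.centralizer ({v} : Set G))
    (QuotientGroup.mk'_surjective N)
  rw [hk] at hd2
  obtain ⟨i, -, hi⟩ := (Nat.dvd_prime_pow hp).mp (dvd_trans hd1 hd2)
  exact ⟨i, hi⟩

/-- Under the hypothesis the group is solvable (Burnside's `p^a`-class lemma). -/
theorem solvable_of_hyp {p : ℕ} [Fact p.Prime] : ∀ n : ℕ, ∀ (G : Type u) [Group G] [Finite G],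
    Nat.card G = n → Hyp p G → Group.IsSolvable G := by
  have hp : p.Prime := Fact.out
  intro n
  induction n using Nat.strong_induction_on with
  | _ n ih =>
    intro G _ _ hcard hyp
    by_cases hsimple : ∀ N : Subgroup G, N.Normal → N = ⊥ ∨ N = ⊤
    · by_cases hpg : ∀ x : G, ∃ k : ℕ, x ^ (p ^ k) = 1
      · have hPG : IsPGroup p G := hpg
        have := hPG.isNilpotent
        infer_instance
      · simp only [not_forall, not_exists] at hpg
        obtain ⟨g, hg⟩ := hpg
        obtain ⟨u, v, hguv, hcomm, ⟨j, hu⟩, hv, huz, hvz⟩ := exists_p_decomp p g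
        have hv1 : v ≠ 1 := by
          intro h
          rw [h, mul_one] at hguv
          exact hg j (by rw [hguv]; exact hu)
        haveI : Nontrivial G := ⟨⟨v, 1, hv1⟩⟩
        haveI : IsSimpleGroup G := ⟨hsimple⟩
        obtain ⟨k, hk⟩ := hyp v hv
        have hprime := Cfsg.Agent.Lib.helper23.burnside_simple_prime_power_class p k hp v hv1 hk
        haveI : Fact (Nat.card G).Prime := ⟨hprime⟩
        have hPG : IsPGroup (Nat.card G) G := IsPGroup.of_card (n := 1) (by rw [pow_one])
        have := hPG.isNilpotent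
        infer_instance
    · simp only [not_forall] at hsimple
      obtain ⟨N, hN, hN2⟩ := hsimple
      simp only [not_or] at hN2
      obtain ⟨hNbot, hNtop⟩ := hN2
      haveI := hN
      have hcN : Nat.card N < n := by
        rw [← hcard]
        have h1 : Nat.card N ≤ Nat.card G := Subgroup.card_le_card_group N
        rcases h1.lt_or_eq with h | h
        · exact h
        · exact absurd (Subgroup.card_eq_iff_eq_top N |>.mp h) hNtop
      have hcQ : Nat.card (G ⧸ N) < n := by
        rw [← hcard, ← Subgroup.index_eq_card, ← Subgroup.card_mul_index N]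
        have h1 : 1 < Nat.card N := by
          rcases Nat.lt_or_ge 1 (Nat.card N) with h | h
          · exact h
          · exfalso
            have : Nat.card N = 1 := le_antisymm h Nat.card_pos
            exact hNbot (Subgroup.card_eq_one.mp this)
        have h2 : 0 < N.index := Nat.pos_of_ne_zero Subgroup.index_ne_zero_of_finite
        nlinarith
      haveI := ih _ hcN N rfl (hyp_of_normal hp hyp N)
      haveI := ih _ hcQ (G ⧸ N) rfl (hyp_quotient hyp N)
      exact Group.isSolvable_of_ker_le_range N.subtype (QuotientGroup.mk' N) (by simp)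

/-- Main induction: the hypothesis gives an abelian `p`-complement. -/
theorem exists_abelian_compl {p : ℕ} [Fact p.Prime] : ∀ n : ℕ, ∀ (G : Type u) [Group G] [Finite G],
    Nat.card G = n → Hyp p G →
    ∃ H : Subgroup G, (∀ a ∈ H, ∀ b ∈ H, a * b = b * a) ∧ ¬ p ∣ Nat.card H ∧
      ∃ k : ℕ, H.index = p ^ k := by
  have hp : p.Prime := Fact.out
  intro n
  induction n using Nat.strong_induction_on with
  | _ n ih =>
    intro G _ _ hcard hyp
    -- Case (i): a proper normal subgroup of `p`-power index
    by_cases hi : ∃ M : Subgroup G, M.Normal ∧ M ≠ ⊤ ∧ ∃ k : ℕ, M.index = p ^ k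
    · obtain ⟨M, hMn, hMtop, k, hMk⟩ := hi
      haveI := hMn
      have hcM : Nat.card M < n := by
        rw [← hcard]
        have h1 : Nat.card M ≤ Nat.card G := Subgroup.card_le_card_group M
        rcases h1.lt_or_eq with h | h
        · exact h
        · exact absurd (Subgroup.card_eq_iff_eq_top M |>.mp h) hMtop
      obtain ⟨H₀, hc₀, hnd₀, k₀, hk₀⟩ := ih _ hcM M rfl (hyp_of_normal hp hyp M)
      refine ⟨H₀.map M.subtype, ?_, ?_, k₀ + k, ?_⟩
      · rintro _ ⟨a, ha, rfl⟩ _ ⟨b, hb, rfl⟩
        exact congrArg Subtype.val (hc₀ a ha b hb)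
      · rw [Subgroup.card_subtype]; exact hnd₀
      · rw [Subgroup.index_map_subtype, hk₀, hMk, pow_add]
    -- Case (ii): a nontrivial normal `p`-subgroup
    by_cases hii : ∃ U : Subgroup G, U.Normal ∧ U ≠ ⊥ ∧ IsPGroup p U
    · obtain ⟨U, hUn, hUbot, hUp⟩ := hii
      haveI := hUn
      have hcQ : Nat.card (G ⧸ U) < n := by
        rw [← hcard, ← Subgroup.index_eq_card, ← Subgroup.card_mul_index U]
        have h1 : 1 < Nat.card U := by
          rcases Nat.lt_or_ge 1 (Nat.card U) with h | h
          · exact h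
          · exfalso
            have : Nat.card U = 1 := le_antisymm h Nat.card_pos
            exact hUbot (Subgroup.card_eq_one.mp this)
        have h2 : 0 < U.index := Nat.pos_of_ne_zero Subgroup.index_ne_zero_of_finite
        nlinarith
      obtain ⟨Hb, hcb, hndb, kb, hkb⟩ := ih _ hcQ (G ⧸ U) rfl (hyp_quotient hyp U)
      set L : Subgroup G := Hb.comap (QuotientGroup.mk' U) with hL
      have hUL : U ≤ L := by
        intro x hx
        rw [hL, Subgroup.mem_comap]
        have : (QuotientGroup.mk' U) x = 1 := (QuotientGroup.eq_one_iff x).mpr hx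
        rw [this]; exact Hb.one_mem
      have hLidx : L.index = Hb.index :=
        Subgroup.index_comap_of_surjective Hb (QuotientGroup.mk'_surjective U)
      have hrel : U.relIndex L = Nat.card Hb := by
        have h1 : U.relIndex L * L.index = U.index := Subgroup.relIndex_mul_index hUL
        have h2 : Nat.card Hb * Hb.index = Nat.card (G ⧸ U) := Subgroup.card_mul_index Hb
        rw [hLidx, Subgroup.index_eq_card U, ← h2] at h1
        have h3 : 0 < Hb.index := Nat.pos_of_ne_zero Subgroup.index_ne_zero_of_finite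
        exact Nat.eq_of_mul_eq_mul_right h3 h1
      obtain ⟨a, ha⟩ := IsPGroup.iff_card.mp hUp
      have hcardUL : Nat.card (U.subgroupOf L) = p ^ a := by
        rw [Nat.card_congr (Subgroup.subgroupOfEquivOfLe hUL).toEquiv, ha]
      have hcop : Nat.Coprime (Nat.card (U.subgroupOf L)) (U.subgroupOf L).index := by
        rw [hcardUL]
        change Nat.Coprime (p ^ a) (U.relIndex L)
        rw [hrel]
        exact Nat.Coprime.pow_left a ((Nat.Prime.coprime_iff_not_dvd hp).mpr hndb)
      obtain ⟨K, hK⟩ := Subgroup.exists_right_complement'_of_coprime hcop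
      have hKcard : Nat.card K = Nat.card Hb := by
        rw [← hrel]
        exact (hK.symm.index_eq_card).symm
      have hKidx : K.index = p ^ a := by
        rw [hK.index_eq_card, hcardUL]
      refine ⟨K.map L.subtype, ?_, ?_, a + kb, ?_⟩
      · rintro _ ⟨x, hx, rfl⟩ _ ⟨y, hy, rfl⟩
        have hxK : x ∈ K := hx
        have hyK : y ∈ K := hy
        have hmem1 : x * y * x⁻¹ * y⁻¹ ∈ U.subgroupOf L := by
          rw [Subgroup.mem_subgroupOf]
          rw [← QuotientGroup.eq_one_iff]
          have hx' : (QuotientGroup.mk (x : G) : G ⧸ U) ∈ Hb := x.2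
          have hy' : (QuotientGroup.mk (y : G) : G ⧸ U) ∈ Hb := y.2
          have hc := hcb _ hx' _ hy'
          push_cast
          rw [QuotientGroup.mk_mul, QuotientGroup.mk_mul, QuotientGroup.mk_mul,
            QuotientGroup.mk_inv, QuotientGroup.mk_inv, hc]
          group
        have hmem : x * y * x⁻¹ * y⁻¹ ∈ U.subgroupOf L ⊓ K :=
          Subgroup.mem_inf.mpr ⟨hmem1,
            K.mul_mem (K.mul_mem (K.mul_mem hxK hyK) (K.inv_mem hxK)) (K.inv_mem hyK)⟩
        rw [disjoint_iff.mp hK.disjoint, Subgroup.mem_bot] at hmem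
        have hxy : x * y = y * x := by
          calc x * y = (x * y * x⁻¹ * y⁻¹) * (y * x) := by group
            _ = y * x := by rw [hmem, one_mul]
        exact congrArg Subtype.val hxy
      · rw [Subgroup.card_subtype, hKcard]; exact hndb
      · rw [Subgroup.index_map_subtype, hKidx, hLidx, hkb, pow_add]
    -- Case (iii)
    simp only [not_exists, not_and] at hi hii
    have hsolv : Group.IsSolvable G := solvable_of_hyp (Nat.card G) G rfl hyp
    -- (a) the center is a `p'`-group
    have hZp : ¬ p ∣ Nat.card (Subgroup.center G) := by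
      intro hdvd
      obtain ⟨z, hz⟩ := exists_prime_orderOf_dvd_card' p hdvd
      have hzo : orderOf (z : G) = p := by rw [Subgroup.orderOf_coe]; exact hz
      have hzc : ∀ g : G, g * (z : G) = (z : G) * g := fun g =>
        Subgroup.mem_center_iff.mp z.2 g
      have hn : (Subgroup.zpowers (z : G)).Normal := by
        constructor
        intro y hy g
        obtain ⟨i, rfl⟩ := hy
        have : g * (z : G) ^ i * g⁻¹ = (z : G) ^ i := by
          rw [← conj_zpow]
          congr 1
          rw [hzc g, mul_inv_cancel_right]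
        rw [this]; exact ⟨i, rfl⟩
      have hne : Subgroup.zpowers (z : G) ≠ ⊥ := by
        intro h
        rw [Subgroup.zpowers_eq_bot] at h
        rw [h, orderOf_one] at hzo
        exact hp.one_lt.ne hzo
      have hpg : IsPGroup p (Subgroup.zpowers (z : G)) :=
        IsPGroup.of_card (n := 1) (by rw [Nat.card_zpowers, hzo, pow_one])
      exact hii _ hn hne hpg
    -- (b) normal `p'`-subgroups are central
    have hcentral : ∀ N : Subgroup G, N.Normal → ¬ p ∣ Nat.card N → N ≤ Subgroup.center G := by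
      intro N hN hNp
      haveI := hN
      have hall : ∀ x : G, (orderOf x).Coprime p → x ∈ Subgroup.centralizer (N : Set G) := by
        intro x hx
        obtain ⟨k, hk⟩ := hyp x hx
        have h1 : (Subgroup.centralizer ({x} : Set G)).relIndex N ∣ p ^ k := by
          rw [← hk]; exact relIndex_dvd_index_of_normal_right _ N
        have h2 : (Subgroup.centralizer ({x} : Set G)).relIndex N ∣ Nat.card N :=
          Subgroup.relIndex_dvd_card _ N
        have h3 : (Nat.card N).Coprime (p ^ k) :=
          Nat.Coprime.pow_right k ((Nat.Prime.coprime_iff_not_dvd hp).mpr hNp).symm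
        have h4 : (Subgroup.centralizer ({x} : Set G)).relIndex N = 1 :=
          Nat.Coprime.eq_one_of_dvd (Nat.Coprime.coprime_dvd_left h2 h3) h1
        rw [Subgroup.relIndex_eq_one] at h4
        rw [Subgroup.mem_centralizer_iff]
        intro m hm
        have := (Subgroup.mem_centralizer_iff.mp (h4 hm)) x (Set.mem_singleton x)
        exact this.symm
      have hPG : IsPGroup p (G ⧸ Subgroup.centralizer (N : Set G)) := by
        intro y
        obtain ⟨g, rfl⟩ := QuotientGroup.mk_surjective y
        obtain ⟨u, v, hguv, hcomm, ⟨j, hu⟩, hv, huz, hvz⟩ := exists_p_decomp p g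
        refine ⟨j, ?_⟩
        have hv1 : (QuotientGroup.mk v : G ⧸ Subgroup.centralizer (N : Set G)) = 1 :=
          (QuotientGroup.eq_one_iff v).mpr (hall v hv)
        rw [hguv, QuotientGroup.mk_mul, hv1, mul_one, ← QuotientGroup.mk_pow, hu]
        rfl
      obtain ⟨m, hm⟩ := IsPGroup.iff_card.mp hPG
      have htop : Subgroup.centralizer (N : Set G) = ⊤ := by
        by_contra hne
        exact hi _ inferInstance hne m (by rw [Subgroup.index_eq_card, hm])
      intro x hx
      rw [Subgroup.mem_center_iff]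
      intro g
      have hg : g ∈ Subgroup.centralizer (N : Set G) := by rw [htop]; trivial
      exact ((Subgroup.mem_centralizer_iff.mp hg) x hx).symm
    by_cases hZ : Subgroup.center G = ⊤
    · refine ⟨⊤, ?_, ?_, 0, ?_⟩
      · intro a _ b _
        have : b ∈ Subgroup.center G := by rw [hZ]; trivial
        exact (Subgroup.mem_center_iff.mp this a)
      · rw [← hZ]; exact hZp
      · rw [Subgroup.index_top, pow_zero]
    · exfalso
      haveI : Nontrivial (G ⧸ Subgroup.center G) := by
        rw [← Finite.one_lt_card_iff_nontrivial, ← Subgroup.index_eq_card]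
        have h1 : (Subgroup.center G).index ≠ 1 := fun h => hZ (Subgroup.index_eq_one.mp h)
        have h2 : 0 < (Subgroup.center G).index :=
          Nat.pos_of_ne_zero Subgroup.index_ne_zero_of_finite
        omega
      obtain ⟨A, hAchar, hAcomm, hAne⟩ :=
        Cfsg.Agent.Lib.helper3.exists_char_comm_ne_bot (G ⧸ Subgroup.center G)
      haveI := hAchar
      have hAn : A.Normal := inferInstance
      set D : Subgroup G := A.comap (QuotientGroup.mk' (Subgroup.center G)) with hD
      have hDn : D.Normal := hAn.comap _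
      -- p-elements of D commute
      have key : ∀ a ∈ D, ∀ b ∈ D, (∃ i : ℕ, a ^ (p ^ i) = 1) → a * b = b * a := by
        intro a ha b hb ⟨i, hai⟩
        have hcZ : a * b * a⁻¹ * b⁻¹ ∈ Subgroup.center G := by
          rw [← QuotientGroup.eq_one_iff]
          have hc := hAcomm.is_comm.comm ⟨_, ha⟩ ⟨_, hb⟩
          have hc' : (QuotientGroup.mk a : G ⧸ Subgroup.center G) * QuotientGroup.mk b =
              QuotientGroup.mk b * QuotientGroup.mk a := congrArg Subtype.val hc
          rw [QuotientGroup.mk_mul, QuotientGroup.mk_mul, QuotientGroup.mk_mul,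
            QuotientGroup.mk_inv, QuotientGroup.mk_inv, hc']
          group
        set c := a * b * a⁻¹ * b⁻¹ with hc
        have hcc : ∀ g : G, g * c = c * g := fun g => Subgroup.mem_center_iff.mp hcZ g
        have hab : a * b * a⁻¹ = c * b := by rw [hc]; group
        have hpow : ∀ m : ℕ, a ^ m * b * (a ^ m)⁻¹ = c ^ m * b := by
          intro m
          induction m with
          | zero => simp
          | succ m ihm =>
            calc a ^ (m + 1) * b * (a ^ (m + 1))⁻¹
                = a * (a ^ m * b * (a ^ m)⁻¹) * a⁻¹ := by rw [pow_succ']; group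
              _ = a * (c ^ m * b) * a⁻¹ := by rw [ihm]
              _ = (a * c ^ m) * b * a⁻¹ := by group
              _ = (c ^ m * a) * b * a⁻¹ := by
                rw [(Commute.pow_right (show Commute a c from hcc a) m).eq]
              _ = c ^ m * (a * b * a⁻¹) := by group
              _ = c ^ m * (c * b) := by rw [hab]
              _ = c ^ (m + 1) * b := by rw [pow_succ]; group
        have hcp : c ^ (p ^ i) = 1 := by
          have h1 := hpow (p ^ i)
          rw [hai] at h1
          have h2 : b = c ^ (p ^ i) * b := by simpa using h1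
          exact (mul_eq_right.mp h2.symm)
        have hc1 : c = 1 := by
          have h1 : orderOf c ∣ p ^ i := orderOf_dvd_of_pow_eq_one hcp
          have h2 : orderOf c ∣ Nat.card (Subgroup.center G) := by
            have := orderOf_dvd_natCard (⟨c, hcZ⟩ : Subgroup.center G)
            rwa [Subgroup.orderOf_mk] at this
          have h3 : (Nat.card (Subgroup.center G)).Coprime (p ^ i) :=
            Nat.Coprime.pow_right i ((Nat.Prime.coprime_iff_not_dvd hp).mpr hZp).symm
          exact orderOf_eq_one_iff.mp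
            (Nat.Coprime.eq_one_of_dvd (Nat.Coprime.coprime_dvd_left h2 h3) h1)
        calc a * b = (a * b * a⁻¹ * b⁻¹) * (b * a) := by group
          _ = b * a := by rw [← hc, hc1, one_mul]
      -- the subgroup of p-elements of D
      let U : Subgroup G :=
        { carrier := {a | a ∈ D ∧ ∃ i : ℕ, a ^ (p ^ i) = 1}
          mul_mem' := by
            rintro a b ⟨ha, i, hai⟩ ⟨hb, j, hbj⟩
            refine ⟨D.mul_mem ha hb, i + j, ?_⟩
            have hcomm : Commute a b := key a ha b hb ⟨i, hai⟩
            rw [hcomm.mul_pow, pow_add, pow_mul, hai, one_pow, mul_comm (p ^ i), pow_mul, hbj,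
              one_pow, one_mul]
          one_mem' := ⟨D.one_mem, 0, by simp⟩
          inv_mem' := by
            rintro a ⟨ha, i, hai⟩
            exact ⟨D.inv_mem ha, i, by rw [inv_pow, hai, inv_one]⟩ }
      have hUmem : ∀ a : G, a ∈ U ↔ a ∈ D ∧ ∃ i : ℕ, a ^ (p ^ i) = 1 := fun a => Iff.rfl
      have hUn : U.Normal := by
        constructor
        rintro a ⟨ha, i, hai⟩ g
        refine ⟨hDn.conj_mem a ha g, i, ?_⟩
        rw [conj_pow, hai]; group
      have hUp : IsPGroup p U := by
        rintro ⟨a, ha, i, hai⟩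
        exact ⟨i, Subtype.ext hai⟩
      have hUbot : U = ⊥ := by
        by_contra hne
        exact hii U hUn hne hUp
      have hDp : ¬ p ∣ Nat.card D := by
        intro hdvd
        obtain ⟨d, hd⟩ := exists_prime_orderOf_dvd_card' p hdvd
        have hdo : orderOf (d : G) = p := by rw [Subgroup.orderOf_coe]; exact hd
        have hdU : (d : G) ∈ U := by
          rw [hUmem]
          exact ⟨d.2, 1, by rw [pow_one, ← hdo]; exact pow_orderOf_eq_one _⟩
        rw [hUbot, Subgroup.mem_bot] at hdU
        rw [hdU, orderOf_one] at hdo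
        exact hp.one_lt.ne hdo
      have hDZ : D ≤ Subgroup.center G := hcentral D hDn hDp
      apply hAne
      rw [eq_bot_iff]
      intro y hy
      obtain ⟨g, rfl⟩ := QuotientGroup.mk_surjective y
      have hgD : g ∈ D := hy
      rw [Subgroup.mem_bot]
      exact (QuotientGroup.eq_one_iff g).mpr (hDZ hgD)

theorem result {G : Type*} [Group G] [Finite G] {p : ℕ} (hp : p.Prime) :
    (∀ x : G, (orderOf x).Coprime p → ∃ k : ℕ, (ConjClasses.mk x).carrier.ncard = p ^ k) ↔
    (∃ H : Subgroup G, IsMulCommutative H ∧ ¬ p ∣ Nat.card H ∧ ∃ k : ℕ, H.index = p ^ k) := by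
  haveI : Fact p.Prime := ⟨hp⟩
  constructor
  · intro h
    have hyp : Hyp p G := by
      intro x hx
      obtain ⟨k, hk⟩ := h x hx
      exact ⟨k, by rw [← ncard_carrier_eq_index]; exact hk⟩
    obtain ⟨H, hcomm, hnd, hk⟩ := exists_abelian_compl (Nat.card G) G rfl hyp
    exact ⟨H, ⟨⟨fun a b => Subtype.ext (hcomm a a.2 b b.2)⟩⟩, hnd, hk⟩
  · rintro ⟨H, hHc, hnd, k, hk⟩ x hx
    obtain ⟨g, hg⟩ := exists_conj_mem hp H
      (fun a ha b hb => congrArg Subtype.val (hHc.is_comm.comm ⟨a, ha⟩ ⟨b, hb⟩)) k hk
      (orderOf x) x rfl hx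
    have e : ConjClasses.mk x = ConjClasses.mk (g * x * g⁻¹) :=
      ConjClasses.mk_eq_mk_iff_isConj.mpr (isConj_iff.mpr ⟨g, rfl⟩)
    rw [e, ncard_carrier_eq_index]
    have hle : H ≤ Subgroup.centralizer ({g * x * g⁻¹} : Set G) := by
      intro h hh
      rw [Subgroup.mem_centralizer_iff]
      intro y hy
      rw [Set.mem_singleton_iff] at hy
      rw [hy]
      exact congrArg Subtype.val (hHc.is_comm.comm ⟨_, hg⟩ ⟨h, hh⟩)
    have hdvd := Subgroup.index_dvd_of_le hle
    rw [hk] at hdvd
    obtain ⟨i, -, hi⟩ := (Nat.dvd_prime_pow hp).mp hdvd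
    exact ⟨i, hi⟩

end Cfsg.Agent.S4034
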