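import Cfsg.Statements.S4035
import Cfsg.Agent.Lib.helper20.ClassSize

set_option autoImplicit false
open Cfsg

namespace Cfsg.Agent.S4035

open Cfsg.Agent.Lib.helper20

/-- Let G be a finite group and p a prime such that p divides the size of no conjugacy class of p-regular elements (elements of order prime to p). Then G is the internal direct product of a Sylow p-subgroup P and a normal subgroup H of order prime to p: P is normal, P ⊓ H = 1 and PH = G. -/
theorem result {G : Type*} [Group G] [Finite G] {p : ℕ} [Fact p.Prime]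
    (h : ∀ x : G, (orderOf x).Coprime p → ¬ p ∣ (ConjClasses.mk x).carrier.ncard) (P : Sylow p G) :
    (P : Subgroup G).Normal ∧ ∃ H : Subgroup G, H.Normal ∧ ¬ p ∣ Nat.card H ∧
      (P : Subgroup G) ⊓ H = ⊥ ∧ (P : Subgroup G) ⊔ H = ⊤ := by
  have hp : p.Prime := Fact.out
  have h' : ∀ x : G, (orderOf x).Coprime p → ∃ g : G, ∀ s ∈ (P : Subgroup G),
      s * (g * x * g⁻¹) = (g * x * g⁻¹) * s := by
    intro x hx
    apply exists_conj_commute_sylow P x
    rw [← ncard_carrier_eq_index]
    exact h x hx
  set M : Subgroup G := (P : Subgroup G) ⊔ Subgroup.centralizer ((P : Subgroup G) : Set G) with hMdef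
  have hM : M = ⊤ := by
    by_contra hne
    obtain ⟨g, hg⟩ := exists_not_conj_mem M hne
    obtain ⟨u, v, hguv, huv, hu, hv, -, -⟩ := exists_p_decomp p g
    obtain ⟨c, hc⟩ := h' v hv
    set v' := c * v * c⁻¹ with hv'
    set u' := c * u * c⁻¹ with hu'
    have hu'v' : u' * v' = v' * u' := by
      rw [hu', hv']
      calc c * u * c⁻¹ * (c * v * c⁻¹) = c * (u * v) * c⁻¹ := by group
        _ = c * (v * u) * c⁻¹ := by rw [huv]
        _ = c * v * c⁻¹ * (c * u * c⁻¹) := by group
    set C' := Subgroup.centralizer ({v'} : Set G) with hC'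
    have hPC' : (P : Subgroup G) ≤ C' := by
      intro s hs
      rw [hC', Subgroup.mem_centralizer_iff]
      intro y hy
      rw [Set.mem_singleton_iff] at hy
      rw [hy]
      exact (hc s hs).symm
    have hu'C' : u' ∈ C' := by
      rw [hC', Subgroup.mem_centralizer_iff]
      intro y hy
      rw [Set.mem_singleton_iff] at hy
      rw [hy]
      exact hu'v'.symm
    obtain ⟨k, hk⟩ := hu
    have hu'k : (⟨u', hu'C'⟩ : C') ^ (p ^ k) = 1 := by
      apply Subtype.ext
      show u' ^ (p ^ k) = 1
      rw [hu', conj_pow, hk]; group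
    obtain ⟨d, hd⟩ := exists_conj_mem_sylow (P.subtype hPC') ⟨u', hu'C'⟩ ⟨k, hu'k⟩
    have hd' : (d : G) * u' * (d : G)⁻¹ ∈ (P : Subgroup G) := by
      have := hd
      rw [Sylow.coe_subtype, Subgroup.mem_subgroupOf] at this
      exact this
    have hdv : (d : G) * v' * (d : G)⁻¹ = v' := by
      have hdC : (d : G) ∈ Subgroup.centralizer ({v'} : Set G) := d.2
      rw [Subgroup.mem_centralizer_iff] at hdC
      have := hdC v' (Set.mem_singleton v')
      calc (d : G) * v' * (d : G)⁻¹ = (v' * (d : G)) * (d : G)⁻¹ := by rw [this]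
        _ = v' := by group
    apply hg ((d : G) * c)
    have e : (d : G) * c * g * ((d : G) * c)⁻¹ = ((d : G) * u' * (d : G)⁻¹) * ((d : G) * v' * (d : G)⁻¹) := by
      rw [hguv, hu', hv']; group
    rw [e, hdv]
    apply Subgroup.mul_mem
    · exact Subgroup.mem_sup_left hd'
    · apply Subgroup.mem_sup_right
      rw [Subgroup.mem_centralizer_iff]
      intro s hs
      exact hc s hs
  have hPn : (P : Subgroup G).Normal := by
    rw [← Subgroup.normalizer_eq_top_iff, eq_top_iff, ← hM, hMdef, sup_le_iff]
    refine ⟨Subgroup.le_normalizer, ?_⟩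
    intro c hc
    rw [Subgroup.mem_centralizer_iff] at hc
    rw [Subgroup.mem_normalizer_iff]
    intro s
    constructor
    · intro hs
      have := hc s hs
      have e : c * s * c⁻¹ = s := by rw [← this]; group
      rw [e]; exact hs
    · intro hs
      have := hc _ hs
      have e : s = c * s * c⁻¹ := by
        calc s = c⁻¹ * (c * s * c⁻¹ * c) := by group
          _ = c⁻¹ * (c * (c * s * c⁻¹)) := by rw [this]
          _ = c * s * c⁻¹ := by group
      rw [e]; exact hs
  refine ⟨hPn, ?_⟩
  have hcop : (Nat.card (P : Subgroup G)).Coprime (P : Subgroup G).index := by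
    obtain ⟨n, hn⟩ := IsPGroup.iff_card.mp P.isPGroup'
    rw [hn]
    exact Nat.Coprime.pow_left n ((Nat.Prime.coprime_iff_not_dvd hp).mpr P.not_dvd_index)
  obtain ⟨H, hH⟩ := Subgroup.exists_left_complement'_of_coprime hcop
  have hHcard : Nat.card H = (P : Subgroup G).index := by
    have h1 := hH.card_mul_card
    have h2 := (P : Subgroup G).card_mul_index
    have hpos : 0 < Nat.card (P : Subgroup G) := Nat.card_pos
    rw [← h1] at h2
    have h3 : Nat.card (P : Subgroup G) * (P : Subgroup G).index =
        Nat.card (P : Subgroup G) * Nat.card H := by rw [h2, mul_comm]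
    exact (Nat.eq_of_mul_eq_mul_left hpos h3).symm
  have hHp : ¬ p ∣ Nat.card H := by rw [hHcard]; exact P.not_dvd_index
  have hHcent : ∀ x ∈ H, ∀ s ∈ (P : Subgroup G), s * x = x * s := by
    intro x hx s hs
    have hxo : (orderOf x).Coprime p := by
      have hdvd : orderOf x ∣ Nat.card H := by
        have := orderOf_dvd_natCard (⟨x, hx⟩ : H)
        rwa [Subgroup.orderOf_mk] at this
      exact Nat.Coprime.coprime_dvd_left hdvd ((Nat.Prime.coprime_iff_not_dvd hp).mpr hHp).symm
    obtain ⟨g, hg⟩ := h' x hxo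
    have hs' : g * s * g⁻¹ ∈ (P : Subgroup G) := hPn.conj_mem s hs g
    have := hg _ hs'
    have e1 : g * s * g⁻¹ * (g * x * g⁻¹) = g * (s * x) * g⁻¹ := by group
    have e2 : g * x * g⁻¹ * (g * s * g⁻¹) = g * (x * s) * g⁻¹ := by group
    rw [e1, e2] at this
    exact mul_left_cancel (mul_right_cancel this)
  have hsup : (P : Subgroup G) ⊔ H = ⊤ := by
    rw [sup_comm]; exact hH.sup_eq_top
  refine ⟨H, ?_, hHp, ?_, hsup⟩
  · rw [← Subgroup.normalizer_eq_top_iff, eq_top_iff, ← hsup, sup_le_iff]
    refine ⟨?_, Subgroup.le_normalizer⟩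
    intro s hs
    rw [Subgroup.mem_normalizer_iff]
    intro x
    constructor
    · intro hx
      have := hHcent x hx s hs
      have e : s * x * s⁻¹ = x := by rw [this]; group
      rw [e]; exact hx
    · intro hx
      have := hHcent _ hx s hs
      have e : x = s * x * s⁻¹ := by
        calc x = s⁻¹ * (s * x * s⁻¹ * s) := by group
          _ = s⁻¹ * (s * (s * x * s⁻¹)) := by rw [this]
          _ = s * x * s⁻¹ := by group
      rw [e]; exact hx
  · rw [inf_comm]; exact hH.disjoint.eq_bot

end Cfsg.Agent.S4035
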