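import Cfsg.Statements.S4036
import Mathlib

set_option autoImplicit false
open Cfsg

namespace Cfsg.Agent.S4036

/-- Let P be a finite abelian p-group and K a group of automorphisms of P (a subgroup of Aut P) whose order is divisible by p. If all non-identity elements of K have the same fixed-point subgroup on P, then K has no non-trivial normal subgroup of order prime to p. -/
theorem result {P : Type*} [CommGroup P] [Finite P] {p : ℕ}
    [Fact p.Prime] (hP : IsPGroup p P) (K : Subgroup (MulAut P)) (hK : p ∣ Nat.card K)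
    (hfix : ∀ x y : MulAut P, x ∈ K → y ∈ K → x ≠ 1 → y ≠ 1 → ∀ v : P, x v = v ↔ y v = v) :
    ∀ N : Subgroup ↥K, N.Normal → ¬ p ∣ Nat.card N → N = ⊥ := by
  classical
  intro N hNn hNp
  by_contra hNne
  haveI : Finite (MulAut P) :=
    Finite.of_injective (fun e : MulAut P => (e : P → P)) DFunLike.coe_injective
  haveI : Fintype N := Fintype.ofFinite N
  haveI : Fintype P := Fintype.ofFinite P
  have hp : p.Prime := Fact.out
  obtain ⟨a, ha⟩ := exists_prime_orderOf_dvd_card' p hK
  have ha1 : ((a : K) : MulAut P) ≠ 1 := by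
    intro h
    have : a = 1 := Subtype.ext h
    rw [this, orderOf_one] at ha
    exact hp.one_lt.ne ha
  obtain ⟨n₀, hn₀⟩ := Subgroup.ne_bot_iff_exists_ne_one.mp hNne
  have hn₀' : ((n₀ : K) : MulAut P) ≠ 1 := by
    intro h
    apply hn₀
    apply Subtype.ext
    apply Subtype.ext
    exact h
  obtain ⟨v, hv⟩ : ∃ v : P, ((n₀ : K) : MulAut P) v ≠ v := by
    by_contra hcon
    simp only [not_exists, not_not] at hcon
    exact hn₀' (MulEquiv.ext hcon)
  -- the norm map
  let τ : P →* P := MonoidHom.mk' (fun u => ∏ n : N, (((n : K) : MulAut P)) u)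
    (fun x y => by simp [Finset.prod_mul_distrib])
  have hτ : ∀ u, τ u = ∏ n : N, (((n : K) : MulAut P)) u := fun u => rfl
  have hτN : ∀ (m : N) (u : P), τ ((((m : K) : MulAut P)) u) = τ u := by
    intro m u
    rw [hτ, hτ]
    exact Fintype.prod_equiv (Equiv.mulRight m) _ _ (fun n => by simp [MulAut.mul_apply])
  have hτK : ∀ (k : K) (u : P), τ ((k : MulAut P) u) = (k : MulAut P) (τ u) := by
    intro k u
    rw [hτ, hτ, map_prod]
    refine Fintype.prod_equiv (MulAut.conjNormal k⁻¹ : MulAut N).toEquiv _ _ (fun n => ?_)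
    simp [MulAut.conjNormal_apply]
  -- w ∈ ker τ
  set w : P := v⁻¹ * ((n₀ : K) : MulAut P) v with hw
  have hw1 : w ≠ 1 := by
    intro h
    apply hv
    rw [hw, inv_mul_eq_one] at h
    exact h.symm
  have hwW : w ∈ τ.ker := by
    rw [MonoidHom.mem_ker, hw, map_mul, map_inv, hτN, inv_mul_cancel]
  -- the action of K on ker τ
  have hinv : ∀ (k : K) (u : P), u ∈ τ.ker → (k : MulAut P) u ∈ τ.ker := by
    intro k u hu
    rw [MonoidHom.mem_ker] at hu ⊢
    rw [hτK, hu, map_one]
  let ρ : K →* Equiv.Perm τ.ker :=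
    { toFun := fun k =>
        { toFun := fun u => ⟨(k : MulAut P) u, hinv k u.1 u.2⟩
          invFun := fun u => ⟨((k⁻¹ : K) : MulAut P) u, hinv k⁻¹ u.1 u.2⟩
          left_inv := fun u => by
            apply Subtype.ext
            simp
          right_inv := fun u => by
            apply Subtype.ext
            simp }
      map_one' := by
        ext u
        simp
      map_mul' := fun k l => by
        ext u
        simp [MulAut.mul_apply] }
  have hσ : (ρ a) ^ p ^ 1 = 1 := by
    rw [pow_one, ← map_pow, ← ha, pow_orderOf_eq_one, map_one]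
  have hWp : IsPGroup p τ.ker := hP.to_subgroup τ.ker
  have hcard : p ∣ Fintype.card τ.ker := by
    rw [← Nat.card_eq_fintype_card]
    rcases hWp.card_eq_or_dvd with h1 | h1
    · exfalso
      have : τ.ker = ⊥ := Subgroup.card_eq_one.mp h1
      rw [this, Subgroup.mem_bot] at hwW
      exact hw1 hwW
    · exact h1
  obtain ⟨u, hu1, hu2⟩ := Equiv.Perm.exists_fixed_point_of_prime' (p := p) (n := 1) hcard hσ
    (a := (1 : τ.ker)) (by apply Subtype.ext; simp [ρ])
  have hau : ((a : K) : MulAut P) (u : P) = u := congrArg Subtype.val hu1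
  have hu_ne : (u : P) ≠ 1 := fun h => hu2 (Subtype.ext h)
  -- u is fixed by N
  have hNu : ∀ n : N, ((n : K) : MulAut P) (u : P) = u := by
    intro n
    by_cases hn1 : ((n : K) : MulAut P) = 1
    · rw [hn1]; rfl
    · exact (hfix _ _ (n : K).2 a.2 hn1 ha1 (u : P)).mpr hau
  have hτu : τ (u : P) = (u : P) ^ Nat.card N := by
    rw [hτ, Finset.prod_congr rfl (fun n _ => hNu n), Finset.prod_const, Finset.card_univ,
      Nat.card_eq_fintype_card]
  have hu0 : τ (u : P) = 1 := u.2
  rw [hu0] at hτu
  obtain ⟨k, hk⟩ := hP (u : P)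
  have hcop : Nat.Coprime (Nat.card N) (p ^ k) :=
    Nat.Coprime.pow_right k ((Nat.Prime.coprime_iff_not_dvd hp).mpr hNp).symm
  have := pow_gcd_eq_one.mpr ⟨hτu.symm, hk⟩
  rw [hcop, pow_one] at this
  exact hu_ne this

end Cfsg.Agent.S4036
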