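import Cfsg.Statements.S4043
import Cfsg.Agent.Lib.helper8.CoprimeAction
import Cfsg.Agent.S0122
import Cfsg.Agent.S0130
import Mathlib

set_option autoImplicit false
open Cfsg

namespace Cfsg.Agent.S4043

open Cfsg.Agent.Lib.helper8

theorem unpack {G : Type*} [Group G] [Finite G] {p : ℕ} [Fact p.Prime] (A : Subgroup G)
    (h : Cfsg.HasNormalPComplement p A) :
    ∃ K P : Subgroup G, K ≤ A ∧ P ≤ A ∧ (∀ a ∈ A, ∀ x ∈ K, a * x * a⁻¹ ∈ K) ∧
      Nat.Coprime (Nat.card K) p ∧ IsPGroup p P ∧ (∀ a ∈ A, ∃ k ∈ K, ∃ x ∈ P, a = k * x) ∧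
      Nat.card K * p ^ (Nat.card A).factorization p = Nat.card A := by
  obtain ⟨P, K, hKn, hc⟩ := h
  haveI := hKn
  refine ⟨K.map A.subtype, (P : Subgroup A).map A.subtype, Subgroup.map_subtype_le _,
    Subgroup.map_subtype_le _, ?_, ?_, ?_, ?_, ?_⟩
  · rintro a ha x ⟨k, hk, rfl⟩
    exact ⟨⟨a, ha⟩ * k * ⟨a, ha⟩⁻¹, hKn.conj_mem k hk ⟨a, ha⟩, by simp⟩
  · rw [Subgroup.card_map_of_injective A.subtype_injective]
    have h1 : (P : Subgroup A).index = Nat.card K := hc.index_eq_card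
    rw [← h1, Nat.coprime_comm, Nat.Prime.coprime_iff_not_dvd Fact.out]
    exact P.not_dvd_index
  · exact P.isPGroup'.map A.subtype
  · intro a ha
    have hsup : K ⊔ (P : Subgroup A) = ⊤ := hc.sup_eq_top
    have hmem : (⟨a, ha⟩ : A) ∈ K ⊔ (P : Subgroup A) := by rw [hsup]; trivial
    rw [← SetLike.mem_coe, Subgroup.normal_mul, Set.mem_mul] at hmem
    obtain ⟨k, hk, x, hx, hkx⟩ := hmem
    refine ⟨k, ⟨k, hk, rfl⟩, x, ⟨x, hx, rfl⟩, ?_⟩
    have := congrArg Subtype.val hkx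
    simpa using this.symm
  · rw [Subgroup.card_map_of_injective A.subtype_injective, ← P.card_eq_multiplicity]
    exact hc.card_mul_card

theorem normalizer_inf {G : Type*} [Group G] [Finite G] {p : ℕ} [Fact p.Prime] (N : Subgroup G)
    [N.Normal] (hN : IsPGroup p N) (A K P : Subgroup G) (hAN : A ⊓ N = ⊥) (hKA : K ≤ A)
    (hPA : P ≤ A) (hAK : ∀ a ∈ A, ∀ x ∈ K, a * x * a⁻¹ ∈ K) (hP : IsPGroup p P)
    (hdec : ∀ a ∈ A, ∃ k ∈ K, ∃ x ∈ P, a = k * x)
    (hC : ∀ n : G, n ∈ N → (∀ a : G, a ∈ A → a * n * a⁻¹ = n) → n = 1) :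
    N ⊓ Subgroup.normalizer (K : Set G) = ⊥ := by
  obtain ⟨D, hD⟩ : ∃ D : Subgroup G, D = N ⊓ Subgroup.normalizer (K : Set G) := ⟨_, rfl⟩
  rw [← hD]
  have hDN : ∀ d ∈ D, d ∈ N := fun d hd => by rw [hD] at hd; exact hd.1
  have hDnorm : ∀ d ∈ D, d ∈ Subgroup.normalizer (K : Set G) := fun d hd => by
    rw [hD] at hd; exact hd.2
  have hDK : ∀ d ∈ D, ∀ k ∈ K, d * k = k * d := by
    intro d hd k hk
    have h1 : d * k * d⁻¹ * k⁻¹ ∈ K :=
      K.mul_mem ((Subgroup.mem_normalizer_iff.mp (hDnorm d hd) k).mp hk) (K.inv_mem hk)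
    have h2 : d * k * d⁻¹ * k⁻¹ ∈ N := by
      have : d * k * d⁻¹ * k⁻¹ = d * (k * d⁻¹ * k⁻¹) := by group
      rw [this]
      exact N.mul_mem (hDN d hd)
        (Subgroup.Normal.conj_mem inferInstance _ (N.inv_mem (hDN d hd)) k)
    have h3 : d * k * d⁻¹ * k⁻¹ ∈ A ⊓ N := ⟨hKA h1, h2⟩
    rw [hAN, Subgroup.mem_bot] at h3
    calc d * k = (d * k * d⁻¹ * k⁻¹) * k * d := by group
      _ = k * d := by rw [h3, one_mul]
  have hPD : ∀ x ∈ P, ∀ d ∈ D, x * d * x⁻¹ ∈ D := by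
    intro x hx d hd
    rw [hD]
    refine ⟨Subgroup.Normal.conj_mem inferInstance d (hDN d hd) x, ?_⟩
    have hxK : x ∈ Subgroup.normalizer (K : Set G) :=
      Cfsg.Agent.S0130.mem_normalizer_of_conj_mem K x (hAK x (hPA hx))
    exact Subgroup.mul_mem _ (Subgroup.mul_mem _ hxK (hDnorm d hd)) (Subgroup.inv_mem _ hxK)
  by_contra hne
  letI act : MulAction ↥P ↥D :=
    { smul := fun x d => ⟨x.1 * d.1 * x.1⁻¹, hPD x.1 x.2 d.1 d.2⟩
      one_smul := by
        intro w; apply Subtype.ext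
        show (1 : G) * w.1 * (1 : G)⁻¹ = w.1
        group
      mul_smul := by
        intro a b w; apply Subtype.ext
        show (a.1 * b.1) * w.1 * (a.1 * b.1)⁻¹ = a.1 * (b.1 * w.1 * b.1⁻¹) * a.1⁻¹
        group }
  have hDp : IsPGroup p D := hN.to_le (fun d hd => hDN d hd)
  obtain ⟨j, hj⟩ := IsPGroup.iff_card.mp hDp
  have hj0 : j ≠ 0 := by
    rintro rfl
    rw [pow_zero] at hj
    exact hne (Subgroup.card_eq_one.mp hj)
  have hpd : p ∣ Nat.card D := by rw [hj]; exact dvd_pow_self p hj0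
  have hfix1 : (1 : D) ∈ MulAction.fixedPoints ↥P ↥D := by
    intro x; apply Subtype.ext
    show x.1 * (1 : G) * x.1⁻¹ = 1
    group
  obtain ⟨b, hb, hb1⟩ := hP.exists_fixed_point_of_prime_dvd_card_of_fixed_point (α := ↥D) hpd hfix1
  have hbA : ∀ a ∈ A, a * b.1 * a⁻¹ = b.1 := by
    intro a ha
    obtain ⟨k, hk, x, hx, rfl⟩ := hdec a ha
    have h1 : x * b.1 * x⁻¹ = b.1 := congrArg Subtype.val (hb ⟨x, hx⟩)
    have h2 := hDK b.1 b.2 k hk
    calc k * x * b.1 * (k * x)⁻¹ = k * (x * b.1 * x⁻¹) * k⁻¹ := by group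
      _ = k * b.1 * k⁻¹ := by rw [h1]
      _ = (b.1 * k) * k⁻¹ := by rw [h2]
      _ = b.1 := by group
  have := hC b.1 (hDN b.1 b.2) hbA
  exact hb1 (Subtype.ext this.symm)

theorem result {G : Type*} [Group G] [Finite G] {p : ℕ}
    [Fact p.Prime] (N : Subgroup G) [N.Normal] (hN : IsPGroup p N) (A A₁ : Subgroup G)
    (hA : A.IsComplement' N) (hA₁ : A₁.IsComplement' N)
    (hAp : Cfsg.HasNormalPComplement p A) (hA₁p : Cfsg.HasNormalPComplement p A₁)
    (hC : ∀ n : G, n ∈ N → (∀ a : G, a ∈ A → a * n * a⁻¹ = n) → n = 1)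
    (hC₁ : ∀ n : G, n ∈ N → (∀ a : G, a ∈ A₁ → a * n * a⁻¹ = n) → n = 1) :
    ∃ n : G, n ∈ N ∧ A₁ = A.map (MulAut.conj n).toMonoidHom := by
  have hp : p.Prime := Fact.out
  obtain ⟨K, P, hKA, hPA, hAK, hKcop, hPp, hdec, hKcard⟩ := unpack A hAp
  obtain ⟨K₁, P₁, hK₁A, hP₁A, hA₁K, hK₁cop, hP₁p, hdec₁, hK₁card⟩ := unpack A₁ hA₁p
  have hAN : A ⊓ N = ⊥ := disjoint_iff.mp hA.disjoint
  have hA₁N : A₁ ⊓ N = ⊥ := disjoint_iff.mp hA₁.disjoint
  have hcardA : Nat.card A * Nat.card N = Nat.card G := hA.card_mul_card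
  have hcardA₁ : Nat.card A₁ * Nat.card N = Nat.card G := hA₁.card_mul_card
  have hAA₁ : Nat.card A = Nat.card A₁ :=
    Nat.eq_of_mul_eq_mul_right Nat.card_pos (hcardA.trans hcardA₁.symm)
  have hKK₁ : Nat.card K₁ = Nat.card K := by
    have h1 : Nat.card K₁ * p ^ (Nat.card A).factorization p = Nat.card A := by
      rw [hAA₁]; exact hK₁card
    exact Nat.eq_of_mul_eq_mul_right (pow_pos hp.pos _) (h1.trans hKcard.symm)
  obtain ⟨e, he⟩ := IsPGroup.iff_card.mp hN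
  have hNK : K ≤ Subgroup.normalizer (N : Set G) := by
    rw [Subgroup.normalizer_eq_top_iff.mpr inferInstance]; exact le_top
  have hcopNK : (Nat.card N).Coprime (Nat.card K) := by
    rw [he]; exact Nat.Coprime.pow_left _ hKcop.symm
  -- L = N ⊔ K is normal
  have hLnorm : (N ⊔ K).Normal := by
    rw [← Subgroup.normalizer_eq_top_iff]
    have h1 : A ≤ Subgroup.normalizer ((N ⊔ K : Subgroup G) : Set G) := by
      apply le_normalizer_of_conj_mem
      intro a ha x hx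
      obtain ⟨n, hn, k, hk, rfl⟩ := (mem_sup_iff_of_le_normalizer hNK x).mp hx
      have : a * (n * k) * a⁻¹ = (a * n * a⁻¹) * (a * k * a⁻¹) := by group
      rw [this]
      exact Subgroup.mul_mem _
        (Subgroup.mem_sup_left (Subgroup.Normal.conj_mem inferInstance n hn a))
        (Subgroup.mem_sup_right (hAK a ha k hk))
    have h2 : N ≤ Subgroup.normalizer ((N ⊔ K : Subgroup G) : Set G) :=
      le_trans le_sup_left Subgroup.le_normalizer
    have h3 : A ⊔ N = ⊤ := hA.sup_eq_top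
    exact top_le_iff.mp (h3 ▸ sup_le h1 h2)
  -- index of L
  have hLcard : Nat.card (N ⊔ K : Subgroup G) = Nat.card N * Nat.card K := by
    have h1 := Cfsg.Agent.S0122.card_sup_mul_card_inf K N
    have h2 : K ⊓ N = ⊥ := by
      refine le_antisymm ?_ bot_le
      rw [← hAN]; exact inf_le_inf_right N hKA
    rw [h2, Subgroup.card_bot, mul_one, sup_comm] at h1
    rw [h1, mul_comm]
  have hLidx : (N ⊔ K : Subgroup G).index = p ^ (Nat.card A).factorization p := by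
    have h1 : Nat.card (N ⊔ K : Subgroup G) * (N ⊔ K : Subgroup G).index = Nat.card G :=
      Subgroup.card_mul_index _
    rw [hLcard, ← hcardA, ← hKcard] at h1
    have h2 : Nat.card N * Nat.card K * (N ⊔ K : Subgroup G).index =
        Nat.card N * Nat.card K * p ^ (Nat.card A).factorization p := by
      rw [h1]; ring
    exact Nat.eq_of_mul_eq_mul_left (Nat.mul_pos Nat.card_pos Nat.card_pos) h2
  have hK₁L : K₁ ≤ N ⊔ K := by
    intro k hk
    haveI := hLnorm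
    have h1 : k ^ (N ⊔ K : Subgroup G).index ∈ N ⊔ K := Subgroup.pow_index_mem _ k
    have h2 : Nat.Coprime ((N ⊔ K : Subgroup G).index) (orderOf k) := by
      rw [hLidx]
      have h3 : orderOf k ∣ Nat.card K₁ := Subgroup.orderOf_dvd_natCard K₁ hk
      exact Nat.Coprime.pow_left _ (Nat.Coprime.coprime_dvd_left h3 hK₁cop).symm
    obtain ⟨m, hm⟩ := exists_pow_eq_self_of_coprime h2
    rw [← hm]; exact Subgroup.pow_mem _ h1 m
  haveI : Group.IsNilpotent N := hN.isNilpotent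
  obtain ⟨n, hnN, hn⟩ := szi N K K₁ hNK hcopNK (Or.inl inferInstance) hK₁L hKK₁
  refine ⟨n, hnN, ?_⟩
  have hmemA' : ∀ y, y ∈ A.map (MulAut.conj n).toMonoidHom ↔ n⁻¹ * y * n ∈ A := by
    intro y
    rw [Subgroup.mem_map]
    constructor
    · rintro ⟨a, ha, rfl⟩
      have : n⁻¹ * ((MulAut.conj n).toMonoidHom a) * n = a := by
        simp only [MulEquiv.toMonoidHom_eq_coe, MonoidHom.coe_coe, MulAut.conj_apply]
        group
      rw [this]; exact ha
    · intro h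
      refine ⟨n⁻¹ * y * n, h, ?_⟩
      simp only [MulEquiv.toMonoidHom_eq_coe, MonoidHom.coe_coe, MulAut.conj_apply]
      group
  have hM := normalizer_inf N hN A₁ K₁ P₁ hA₁N hK₁A hP₁A hA₁K hP₁p hdec₁ hC₁
  have hA₁M : A₁ ≤ Subgroup.normalizer (K₁ : Set G) := le_normalizer_of_conj_mem hA₁K
  have hA'M : A.map (MulAut.conj n).toMonoidHom ≤ Subgroup.normalizer (K₁ : Set G) := by
    apply le_normalizer_of_conj_mem
    intro y hy k hk
    rw [hmemA'] at hy
    rw [hn] at hk ⊢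
    have := hAK _ hy _ hk
    have e : n⁻¹ * (y * k * y⁻¹) * n = n⁻¹ * y * n * (n⁻¹ * k * n) * (n⁻¹ * y * n)⁻¹ := by group
    rw [e]; exact this
  have hMcard : Nat.card (Subgroup.normalizer (K₁ : Set G)) ≤ Nat.card A₁ := by
    have h1 := Cfsg.Agent.S0122.card_sup_mul_card_inf (Subgroup.normalizer (K₁ : Set G)) N
    rw [inf_comm, hM, Subgroup.card_bot, mul_one] at h1
    have h2 : Nat.card (Subgroup.normalizer (K₁ : Set G) ⊔ N : Subgroup G) ≤ Nat.card G :=
      Subgroup.card_le_card_group _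
    rw [h1, ← hcardA₁] at h2
    exact Nat.le_of_mul_le_mul_right h2 Nat.card_pos
  have e1 : A₁ = Subgroup.normalizer (K₁ : Set G) := Subgroup.eq_of_le_of_card_ge hA₁M hMcard
  have e2 : A.map (MulAut.conj n).toMonoidHom = Subgroup.normalizer (K₁ : Set G) := by
    refine Subgroup.eq_of_le_of_card_ge hA'M ?_
    rw [Subgroup.card_map_of_injective (MulAut.conj n).injective, hAA₁]
    exact hMcard
  rw [e1, e2]

end Cfsg.Agent.S4043
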