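import Cfsg.Statements.S4049
import Cfsg.Agent.Lib.helper20.TwoClosed

set_option autoImplicit false
open Cfsg

namespace Cfsg.Agent.S4049

/-- Let G be a finite group such that N_G(H)/C_G(H) has odd order for every nontrivial subgroup H of odd order. Then the Sylow 2-subgroups of G are normal. -/
theorem result {G : Type*} [Group G] [Finite G]
    (hhom : ∀ H : Subgroup G, H ≠ ⊥ → ¬ 2 ∣ Nat.card ↥H →
        ¬ 2 ∣ (Subgroup.centralizer (H : Set G)).relIndex (Subgroup.normalizer (H : Set G))) (P : Sylow 2 G) :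
    (P : Subgroup G).Normal := by
  by_contra hP
  obtain ⟨q, h, s, hqp, hq2, hord, hsn, hk⟩ :=
    Cfsg.Agent.Lib.helper20.not_normal_sylow_two_core P hP
  set H := Subgroup.zpowers h with hH
  have hHne : H ≠ ⊥ := by
    intro hbot
    have : h ∈ (⊥ : Subgroup G) := by rw [← hbot]; exact Subgroup.mem_zpowers h
    rw [Subgroup.mem_bot] at this
    rw [this, orderOf_one] at hord
    exact hqp.one_lt.ne hord
  have hcard : Nat.card H = q := by rw [hH, Nat.card_zpowers, hord]
  have h2 : ¬ 2 ∣ Nat.card H := by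
    rw [hcard]
    intro hdvd
    exact hq2 ((Nat.prime_dvd_prime_iff_eq Nat.prime_two hqp).mp hdvd).symm
  have hodd := hhom H hHne h2
  set N := Subgroup.normalizer (H : Set G) with hN
  set C := Subgroup.centralizer (H : Set G) with hC
  have hnorm : (C.subgroupOf N).Normal := by
    constructor
    intro x hx g
    rw [Subgroup.mem_subgroupOf] at hx ⊢
    rw [hC, Subgroup.mem_centralizer_iff] at hx ⊢
    intro y hy
    have hg : (g : G) ∈ Subgroup.normalizer (H : Set G) := g.2
    rw [Subgroup.mem_normalizer_iff] at hg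
    have hy' : (g : G)⁻¹ * y * (g : G) ∈ H := by
      have := (hg ((g : G)⁻¹ * y * (g : G))).mpr
      apply this
      have e : (g : G) * ((g : G)⁻¹ * y * (g : G)) * (g : G)⁻¹ = y := by group
      rw [e]; exact hy
    have hc := hx _ hy'
    simp only [Subgroup.coe_mul, Subgroup.coe_inv]
    calc y * ((g : G) * (x : G) * (g : G)⁻¹)
        = (g : G) * (((g : G)⁻¹ * y * (g : G)) * (x : G)) * (g : G)⁻¹ := by group
      _ = (g : G) * ((x : G) * ((g : G)⁻¹ * y * (g : G))) * (g : G)⁻¹ := by rw [hc]
      _ = (g : G) * (x : G) * (g : G)⁻¹ * y := by group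
  have hpow := Subgroup.pow_index_mem (C.subgroupOf N) (⟨s, hsn⟩ : N)
  have hidx : (C.subgroupOf N).index = C.relIndex N := rfl
  rw [hidx] at hpow
  rw [Subgroup.mem_subgroupOf] at hpow
  have hk' : Odd (C.relIndex N) := Nat.not_even_iff_odd.mp (fun he => hodd he.two_dvd)
  apply hk _ hk'
  have hsc : s ^ (C.relIndex N) ∈ C := by simpa using hpow
  rw [hC, Subgroup.mem_centralizer_iff] at hsc
  exact (hsc h (Subgroup.mem_zpowers h)).symm

end Cfsg.Agent.S4049
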