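import Cfsg.Statements.S4050
import Cfsg.Agent.Lib.helper20.PiClosed

set_option autoImplicit false
open Cfsg

namespace Cfsg.Agent.S4050

open Cfsg.Agent.Lib.helper20.PiClosed

/-- Let π be a set of primes and G a finite group. The π-elements of G (elements whose order is divisible only by primes of π) form a subgroup if and only if G is π-separable (it has a chain of normal subgroups from 1 to G with each successive index divisible only by primes in π or only by primes outside π) and N_G(H)/C_G(H) is a π'-group for every nontrivial π'-subgroup H of G. -/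
theorem result {G : Type*} [Group G] [Finite G] (π : Set ℕ)
    (hπ : ∀ p ∈ π, p.Prime) :
    (∃ K : Subgroup G, ∀ x : G, x ∈ K ↔ ∀ p : ℕ, p.Prime → p ∣ orderOf x → p ∈ π) ↔
    ((∃ (n : ℕ) (H : Fin (n + 1) → Subgroup G), H 0 = ⊥ ∧ H (Fin.last n) = ⊤ ∧ Monotone H ∧ (∀ i, (H i).Normal) ∧
      ∀ i : Fin n, (∀ q : ℕ, q.Prime → q ∣ (H i.castSucc).relIndex (H i.succ) → q ∈ π) ∨
        (∀ q : ℕ, q.Prime → q ∣ (H i.castSucc).relIndex (H i.succ) → q ∉ π)) ∧
     (∀ H : Subgroup G, H ≠ ⊥ → (∀ p : ℕ, p.Prime → p ∣ Nat.card ↥H → p ∉ π) →
        ∀ p : ℕ, p.Prime → p ∣ (Subgroup.centralizer (H : Set G)).relIndex (Subgroup.normalizer (H : Set G)) → p ∉ π)) := by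
  classical
  constructor
  · rintro ⟨K, hK⟩
    haveI hKn : K.Normal := by
      constructor
      intro x hx g
      rw [hK] at hx ⊢
      have : orderOf (g * x * g⁻¹) = orderOf x := by
        rw [← MulAut.conj_apply]; exact MulEquiv.orderOf_eq (MulAut.conj g) x
      rw [this]; exact hx
    have hKcard : ∀ q : ℕ, q.Prime → q ∣ Nat.card K → q ∈ π := by
      intro q hq hdvd
      haveI : Fact q.Prime := ⟨hq⟩
      obtain ⟨y, hy⟩ := exists_prime_orderOf_dvd_card' q hdvd
      have := (hK (y : G)).mp y.2
      apply this q hq
      rw [Subgroup.orderOf_coe, hy]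
    have hKidx : ∀ q : ℕ, q.Prime → q ∣ K.index → q ∉ π := by
      intro q hq hdvd hqπ
      haveI : Fact q.Prime := ⟨hq⟩
      obtain ⟨Q⟩ : Nonempty (Sylow q G) := inferInstance
      have hQK : (Q : Subgroup G) ≤ K := by
        intro t ht
        rw [hK]
        intro p hp hpd
        obtain ⟨j, hj⟩ := Q.isPGroup' ⟨t, ht⟩
        have htj : t ^ (q ^ j) = 1 := congrArg Subtype.val hj
        have h2 := orderOf_dvd_of_pow_eq_one htj
        have h4 : p = q :=
          (Nat.prime_dvd_prime_iff_eq hp hq).mp (hp.dvd_of_dvd_pow (dvd_trans hpd h2))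
        rw [h4]; exact hqπ
      exact Q.not_dvd_index (dvd_trans hdvd (Subgroup.index_dvd_of_le hQK))
    constructor
    · refine ⟨2, ![⊥, K, ⊤], rfl, rfl, ?_, ?_, ?_⟩
      · rw [Fin.monotone_iff_le_succ]
        intro i
        fin_cases i
        · exact bot_le
        · exact le_top
      · intro i
        fin_cases i
        · show (⊥ : Subgroup G).Normal
          infer_instance
        · exact hKn
        · show (⊤ : Subgroup G).Normal
          infer_instance
      · intro i
        fin_cases i
        · left
          intro q hq hdvd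
          have h1 : (⊥ : Subgroup G).relIndex K = Nat.card K := Subgroup.relIndex_bot_left K
          have hdvd' : q ∣ (⊥ : Subgroup G).relIndex K := hdvd
          rw [h1] at hdvd'
          exact hKcard q hq hdvd'
        · right
          intro q hq hdvd
          have h1 : K.relIndex ⊤ = K.index := Subgroup.relIndex_top_right K
          have hdvd' : q ∣ K.relIndex ⊤ := hdvd
          rw [h1] at hdvd'
          exact hKidx q hq hdvd'
    · intro H hH hHπ p hp hdvd hpπ
      haveI : Fact p.Prime := ⟨hp⟩
      obtain ⟨P⟩ : Nonempty (Sylow p ↥(Subgroup.normalizer (H : Set G))) := inferInstance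
      have hPC : (P : Subgroup ↥(Subgroup.normalizer (H : Set G))) ≤
          (Subgroup.centralizer (H : Set G)).subgroupOf (Subgroup.normalizer (H : Set G)) := by
        intro n hn
        rw [Subgroup.mem_subgroupOf, Subgroup.mem_centralizer_iff]
        intro h hh
        have hnK : (n : G) ∈ K := by
          rw [hK]
          intro p' hp' hpd
          obtain ⟨j, hj⟩ := P.isPGroup' ⟨n, hn⟩
          have hnj : n ^ (p ^ j) = 1 := congrArg Subtype.val hj
          have hnj' : (n : G) ^ (p ^ j) = 1 := by
            have := congrArg Subtype.val hnj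
            simpa using this
          have h2 := orderOf_dvd_of_pow_eq_one hnj'
          have h4 : p' = p :=
            (Nat.prime_dvd_prime_iff_eq hp' hp).mp (hp'.dvd_of_dvd_pow (dvd_trans hpd h2))
          rw [h4]; exact hpπ
        have h1 : (n : G) * h * (n : G)⁻¹ * h⁻¹ ∈ K := by
          have : (n : G) * h * (n : G)⁻¹ * h⁻¹ = (n : G) * (h * (n : G)⁻¹ * h⁻¹) := by group
          rw [this]
          exact K.mul_mem hnK (hKn.conj_mem _ (K.inv_mem hnK) h)
        have h2 : (n : G) * h * (n : G)⁻¹ * h⁻¹ ∈ H := by
          have hnN : (n : G) ∈ Subgroup.normalizer (H : Set G) := n.2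
          rw [Subgroup.mem_normalizer_iff] at hnN
          exact H.mul_mem ((hnN h).mp hh) (H.inv_mem hh)
        have h3 : (n : G) * h * (n : G)⁻¹ * h⁻¹ = 1 := by
          rw [← orderOf_eq_one_iff]
          by_contra hne
          obtain ⟨q, hq, hqd⟩ := Nat.exists_prime_and_dvd hne
          have hqπ : q ∈ π := (hK _).mp h1 q hq hqd
          have hqH : q ∣ Nat.card H := by
            have := orderOf_dvd_natCard (⟨_, h2⟩ : H)
            rw [Subgroup.orderOf_mk] at this
            exact dvd_trans hqd this
          exact hHπ q hq hqH hqπ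
        calc h * (n : G) = ((n : G) * h * (n : G)⁻¹ * h⁻¹)⁻¹ * ((n : G) * h) := by group
          _ = (n : G) * h := by rw [h3]; group
      have h5 : ((Subgroup.centralizer (H : Set G)).subgroupOf
          (Subgroup.normalizer (H : Set G))).index ∣
          (P : Subgroup ↥(Subgroup.normalizer (H : Set G))).index := Subgroup.index_dvd_of_le hPC
      exact P.not_dvd_index (dvd_trans hdvd h5)
  · rintro ⟨⟨n, H, h0, hlast, hmono, hnorm, hfac⟩, hhom⟩
    have claim : ∀ i : Fin (n + 1), ∃ D : Subgroup G, ∀ x : G,
        x ∈ D ↔ x ∈ H i ∧ ∀ p : ℕ, p.Prime → p ∣ orderOf x → p ∈ π := by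
      intro i
      induction i using Fin.induction with
      | zero =>
        refine ⟨⊥, fun x => ?_⟩
        rw [h0, Subgroup.mem_bot]
        constructor
        · intro hx
          refine ⟨hx, ?_⟩
          intro p hp hpd
          rw [hx, orderOf_one] at hpd
          exact absurd (Nat.dvd_one.mp hpd) hp.ne_one
        · exact fun h => h.1
      | succ i ih =>
        obtain ⟨D, hD⟩ := ih
        have hle : H i.castSucc ≤ H i.succ := hmono (Fin.castSucc_le_succ i)
        haveI : (H i.castSucc).Normal := hnorm _
        rcases hfac i with hπ' | hπ'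
        · have key := mainLemma π (hom_subgroup hhom (H i.succ))
            ((H i.castSucc).subgroupOf (H i.succ)) (D.subgroupOf (H i.succ)) ?_ ?_
          · obtain ⟨D', hD'⟩ := key
            refine ⟨D'.map (H i.succ).subtype, fun x => ?_⟩
            constructor
            · rintro ⟨x', hx', rfl⟩
              refine ⟨x'.2, ?_⟩
              have := (hD' x').mp hx'
              intro p hp hpd
              apply this p hp
              rwa [Subgroup.coe_subtype, Subgroup.orderOf_coe] at hpd
            · rintro ⟨hxM, hx⟩
              refine ⟨⟨x, hxM⟩, (hD' ⟨x, hxM⟩).mpr ?_, rfl⟩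
              intro p hp hpd
              apply hx p hp
              rwa [Subgroup.orderOf_mk] at hpd
          · intro x
            rw [Subgroup.mem_subgroupOf, Subgroup.mem_subgroupOf, hD, Subgroup.orderOf_coe]
          · intro q hq hdvd
            exact hπ' q hq hdvd
        · refine ⟨D, fun x => ?_⟩
          rw [hD]
          constructor
          · exact fun h => ⟨hle h.1, h.2⟩
          · rintro ⟨hxM, hx⟩
            refine ⟨?_, hx⟩
            have := mem_of_coprime_index ((H i.castSucc).subgroupOf (H i.succ))
              (⟨x, hxM⟩ : H i.succ) ?_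
            · rw [Subgroup.mem_subgroupOf] at this; exact this
            · rw [Subgroup.orderOf_mk]
              exact coprime_of_pi hx hπ'
    obtain ⟨D, hD⟩ := claim (Fin.last n)
    refine ⟨D, fun x => ?_⟩
    rw [hD, hlast]
    exact ⟨fun h => h.2, fun h => ⟨Subgroup.mem_top x, h⟩⟩

end Cfsg.Agent.S4050
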