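import Cfsg.Statements.S4051
import Cfsg.Agent.Lib.helper20.PiClosed

set_option autoImplicit false
open Cfsg

namespace Cfsg.Agent.S4051

open Cfsg.Agent.Lib.helper20.PiClosed

/-- Let π be a set of primes and G a finite group such that N_G(H)/C_G(H) is a π'-group for every nontrivial π'-subgroup H of G. If K is a normal subgroup of G such that the π-elements of K form a subgroup and the π-elements of G/K form a subgroup, then the π-elements of G form a subgroup. -/
theorem result {G : Type*} [Group G] [Finite G] (π : Set ℕ)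
    (hπ : ∀ p ∈ π, p.Prime) (hhom : (∀ H : Subgroup G, H ≠ ⊥ → (∀ p : ℕ, p.Prime → p ∣ Nat.card ↥H → p ∉ π) →
        ∀ p : ℕ, p.Prime → p ∣ (Subgroup.centralizer (H : Set G)).relIndex (Subgroup.normalizer (H : Set G)) → p ∉ π))
    (K : Subgroup G) [K.Normal]
    (hK : ∃ L : Subgroup ↥K, ∀ x : ↥K, x ∈ L ↔ ∀ p : ℕ, p.Prime → p ∣ orderOf x → p ∈ π)
    (hQ : ∃ L : Subgroup (G ⧸ K), ∀ x : G ⧸ K, x ∈ L ↔ ∀ p : ℕ, p.Prime → p ∣ orderOf x → p ∈ π) :
    (∃ K : Subgroup G, ∀ x : G, x ∈ K ↔ ∀ p : ℕ, p.Prime → p ∣ orderOf x → p ∈ π) := by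
  classical
  obtain ⟨L, hL⟩ := hK
  obtain ⟨LQ, hLQ⟩ := hQ
  have hπT : ∀ x : G, (∀ p : ℕ, p.Prime → p ∣ orderOf x → p ∈ π) →
      x ∈ LQ.comap (QuotientGroup.mk' K) := by
    intro x hx
    rw [Subgroup.mem_comap, hLQ]
    intro p hp hpd
    exact hx p hp (dvd_trans hpd (orderOf_map_dvd _ x))
  have hhomT : Hom π ↥(LQ.comap (QuotientGroup.mk' K)) := hom_subgroup hhom _
  have key := mainLemma π hhomT (K.subgroupOf (LQ.comap (QuotientGroup.mk' K)))
    ((L.map K.subtype).subgroupOf (LQ.comap (QuotientGroup.mk' K))) ?_ ?_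
  · obtain ⟨D, hD⟩ := key
    refine ⟨D.map (LQ.comap (QuotientGroup.mk' K)).subtype, fun x => ?_⟩
    constructor
    · rintro ⟨x', hx', rfl⟩
      have := (hD x').mp hx'
      intro p hp hpd
      apply this p hp
      rwa [Subgroup.coe_subtype, Subgroup.orderOf_coe] at hpd
    · intro hx
      have hxT := hπT x hx
      refine ⟨⟨x, hxT⟩, (hD ⟨x, hxT⟩).mpr ?_, rfl⟩
      intro p hp hpd
      apply hx p hp
      rwa [Subgroup.orderOf_mk] at hpd
  · intro x
    rw [Subgroup.mem_subgroupOf, Subgroup.mem_subgroupOf]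
    constructor
    · rintro ⟨y, hy, hyx⟩
      have hyx' : (y : G) = (x : G) := hyx
      refine ⟨by rw [← hyx']; exact y.2, ?_⟩
      have := (hL y).mp hy
      intro p hp hpd
      apply this p hp
      rw [← Subgroup.orderOf_coe, hyx', Subgroup.orderOf_coe]
      exact hpd
    · rintro ⟨hxK, hxπ⟩
      refine ⟨⟨(x : G), hxK⟩, (hL _).mpr ?_, rfl⟩
      intro p hp hpd
      apply hxπ p hp
      rw [Subgroup.orderOf_mk, Subgroup.orderOf_coe] at hpd
      exact hpd
  · intro q hq hdvd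
    have h1 : (K.subgroupOf (LQ.comap (QuotientGroup.mk' K))).index = Nat.card LQ := by
      have h2 := Subgroup.relIndex_ker (LQ.comap (QuotientGroup.mk' K)) (QuotientGroup.mk' K)
      rw [QuotientGroup.ker_mk',
        Subgroup.map_comap_eq_self_of_surjective (QuotientGroup.mk'_surjective K)] at h2
      exact h2
    rw [h1] at hdvd
    haveI : Fact q.Prime := ⟨hq⟩
    obtain ⟨y, hy⟩ := exists_prime_orderOf_dvd_card' q hdvd
    have := (hLQ (y : G ⧸ K)).mp y.2
    apply this q hq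
    rw [Subgroup.orderOf_coe, hy]

end Cfsg.Agent.S4051
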