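import Cfsg.Statements.S4056
import Cfsg.Agent.Lib.helper1.PGroup

set_option autoImplicit false
open Cfsg

namespace Cfsg.Agent.S4056

open scoped commutatorElement

/-- If the commutator `c = [x, y]` is central of exponent dividing `4` and `x, y, x*y` have
fourth power one, then `c ^ 2 = 1`. -/
theorem comm_sq_eq_one {P : Type*} [Group P] (x y : P)
    (hc : ∀ g : P, Commute (x * y * x⁻¹ * y⁻¹) g)
    (h4 : ∀ g : P, g ^ 4 = 1) : (x * y * x⁻¹ * y⁻¹) ^ 2 = 1 ∧
      y * x ^ 2 * y⁻¹ = x ^ 2 := by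
  set c := x * y * x⁻¹ * y⁻¹ with hcdef
  have hI : y * x * y⁻¹ = c⁻¹ * x := by rw [hcdef]; group
  have hII : y * x ^ 2 * y⁻¹ = c⁻¹ ^ 2 * x ^ 2 := by
    rw [← conj_pow, hI, ((hc x).inv_left).mul_pow]
  have hIII : Commute (y ^ 2) (x ^ 2) := by
    have : y ^ 2 * x ^ 2 * (y ^ 2)⁻¹ = x ^ 2 := by
      have e1 : y ^ 2 * x ^ 2 * (y ^ 2)⁻¹ = y * (y * x ^ 2 * y⁻¹) * y⁻¹ := by
        rw [pow_two y, mul_inv_rev]; simp only [mul_assoc]
      rw [e1, hII]
      have e2 : y * (c⁻¹ ^ 2 * x ^ 2) * y⁻¹ = c⁻¹ ^ 2 * (y * x ^ 2 * y⁻¹) := by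
        have hcy : Commute (c⁻¹ ^ 2) y := ((hc y).inv_left).pow_left 2
        rw [← mul_assoc, ← hcy.eq]; simp only [mul_assoc]
      rw [e2, hII, ← mul_assoc, ← pow_add, inv_pow, h4 c, inv_one, one_mul]
    exact mul_inv_eq_iff_eq_mul.mp this
  have hL : (x * y) ^ 2 = c⁻¹ * (x ^ 2 * y ^ 2) := by
    have e1 : (x * y) ^ 2 = x * (y * x * y⁻¹) * y ^ 2 := by
      rw [pow_two, pow_two]; simp only [mul_assoc, inv_mul_cancel_left]
    rw [e1, hI]
    have hcx : Commute c⁻¹ x := (hc x).inv_left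
    rw [← mul_assoc, ← hcx.eq]
    simp only [mul_assoc, pow_two]
  have hIV : (c⁻¹) ^ 2 = 1 := by
    have e1 : (x * y) ^ 4 = ((x * y) ^ 2) ^ 2 := by rw [← pow_mul]
    have e2 := h4 (x * y)
    rw [e1, hL, ((hc (x ^ 2 * y ^ 2)).inv_left).mul_pow, hIII.symm.mul_pow, ← pow_mul, ← pow_mul,
      h4 x, h4 y, one_mul, mul_one] at e2
    exact e2
  refine ⟨?_, ?_⟩
  · rw [inv_pow, inv_eq_one] at hIV
    exact hIV
  · rw [hII, hIV, one_mul]

/-- In a finite 2-group of nilpotency class at most 2 and exponent dividing 4, the Frattini subgroup lies in the centre and is elementary abelian. -/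
theorem result {P : Type*} [Group P] [Finite P] (hP : IsPGroup 2 P)
    (hcl : Group.nilpotencyClass P ≤ 2) (hexp : Monoid.exponent P ∣ 4) :
    frattini P ≤ Subgroup.center P ∧ Cfsg.IsElementaryAbelian 2 (frattini P) := by
  haveI : Fact (Nat.Prime 2) := ⟨Nat.prime_two⟩
  haveI : Group.IsNilpotent P := hP.isNilpotent
  have h4 : ∀ g : P, g ^ 4 = 1 := Monoid.exponent_dvd_iff_forall_pow_eq_one.mp hexp
  have htop : Subgroup.upperCentralSeries P 2 = ⊤ :=
    Subgroup.upperCentralSeries_eq_top_iff_nilpotencyClass_le.mpr hcl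
  have hcen : ∀ x y g : P, Commute (x * y * x⁻¹ * y⁻¹) g := by
    intro x y g
    have hx : x ∈ Subgroup.upperCentralSeries P (1 + 1) := by
      show x ∈ Subgroup.upperCentralSeries P 2
      rw [htop]; trivial
    rw [Subgroup.mem_upperCentralSeries_succ_iff] at hx
    have := hx y
    rw [Subgroup.upperCentralSeries_one, Subgroup.mem_center_iff, commutatorElement_def] at this
    exact (this g).symm
  let N : Subgroup P :=
    { carrier := {z | z ∈ Subgroup.center P ∧ z ^ 2 = 1}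
      one_mem' := ⟨Subgroup.one_mem _, one_pow 2⟩
      mul_mem' := by
        rintro a b ⟨ha, ha2⟩ ⟨hb, hb2⟩
        refine ⟨Subgroup.mul_mem _ ha hb, ?_⟩
        have hab : Commute a b := (Subgroup.mem_center_iff.mp ha b).symm
        rw [hab.mul_pow, ha2, hb2, one_mul]
      inv_mem' := by
        rintro a ⟨ha, ha2⟩
        exact ⟨Subgroup.inv_mem _ ha, by rw [inv_pow, ha2, inv_one]⟩ }
  haveI hNn : N.Normal := by
    constructor
    rintro n ⟨hn, hn2⟩ g
    have : g * n * g⁻¹ = n := by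
      rw [Subgroup.mem_center_iff.mp hn g, mul_inv_cancel_right]
    rw [this]
    exact ⟨hn, hn2⟩
  have hcomm : commutator P ≤ N := by
    rw [commutator_eq_closure, Subgroup.closure_le]
    rintro _ ⟨x, y, rfl⟩
    rw [commutatorElement_def]
    refine ⟨?_, (comm_sq_eq_one x y (hcen x y) h4).1⟩
    rw [Subgroup.mem_center_iff]
    intro g
    exact ((hcen x y) g).symm
  have hpow : ∀ x : P, x ^ 2 ∈ N := by
    intro x
    refine ⟨?_, by rw [← pow_mul]; exact h4 x⟩
    rw [Subgroup.mem_center_iff]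
    intro y
    have := (comm_sq_eq_one x y (hcen x y) h4).2
    exact mul_inv_eq_iff_eq_mul.mp this
  have hle : frattini P ≤ N :=
    Cfsg.Agent.Lib.helper1.frattini_le_of_elementary_quotient 2 N hcomm hpow
  refine ⟨fun z hz => (hle hz).1, ⟨⟨fun a b => ?_⟩⟩, fun a ha => (hle ha).2⟩
  apply Subtype.ext
  exact (Subgroup.mem_center_iff.mp (hle a.2).1 b).symm

end Cfsg.Agent.S4056
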