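import Cfsg.Statements.S4066
import Mathlib

set_option autoImplicit false
open Cfsg

namespace Cfsg.Agent.S4066

open scoped Pointwise

/-- Let G be a finite group in which the centralizer of every element meets each of its conjugates by elements outside its normalizer trivially. Then any two distinct Sylow p-subgroups of G, for any prime p, intersect trivially. -/
theorem result {G : Type*} [Group G] [Finite G] (hTI : ∀ x : G, Cfsg.IsTISubset (Subgroup.centralizer ({x} : Set G) : Set G))
    {p : ℕ} [Fact p.Prime] (P Q : Sylow p G) (hPQ : P ≠ Q) : (P : Subgroup G) ⊓ (Q : Subgroup G) = ⊥ := by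
  classical
  have hc : ∀ {a c : G}, c ∈ Subgroup.centralizer ({a} : Set G) ↔ a * c = c * a := by
    intro a c
    rw [Subgroup.mem_centralizer_iff]
    simp
  -- Lemma A
  have lemA : ∀ a b g : G, a * b = b * a → b ≠ 1 → b * g = g * b →
      g ∈ Subgroup.normalizer ((Subgroup.centralizer ({a} : Set G) : Subgroup G) : Set G) := by
    intro a b g hab hb hbg
    by_contra hg
    apply hb
    refine hTI a g hg b (hc.mpr hab) ?_
    have : g * b * g⁻¹ = b := by rw [← hbg, mul_inv_cancel_right]
    rw [this]
    exact hc.mpr hab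
  by_contra hne
  obtain ⟨x, hx1⟩ := (Subgroup.ne_bot_iff_exists_ne_one.mp hne)
  have hxP : (x : G) ∈ (P : Subgroup G) := x.2.1
  have hxQ : (x : G) ∈ (Q : Subgroup G) := x.2.2
  have hx1' : (x : G) ≠ 1 := fun h => hx1 (Subtype.ext h)
  -- z in the center of P
  haveI : Nontrivial (P : Subgroup G) := ⟨⟨⟨x, hxP⟩, 1, fun h => hx1' (congrArg Subtype.val h)⟩⟩
  haveI := P.2.center_nontrivial
  obtain ⟨z', hz'⟩ := exists_ne (1 : Subgroup.center (P : Subgroup G))
  set z : G := ((z' : (P : Subgroup G)) : G) with hz
  have hz1 : z ≠ 1 := by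
    intro h
    apply hz'
    apply Subtype.ext
    apply Subtype.ext
    exact h
  have hzP : ∀ y ∈ (P : Subgroup G), z * y = y * z := by
    intro y hy
    have := Subgroup.mem_center_iff.mp z'.2 ⟨y, hy⟩
    have h2 := congrArg Subtype.val this
    exact h2.symm
  -- Q = g • P
  obtain ⟨g, hg⟩ := MulAction.exists_smul_eq G P Q
  have hQmem : ∀ u : G, u ∈ (Q : Subgroup G) ↔ g⁻¹ * u * g ∈ (P : Subgroup G) := by
    intro u
    rw [← hg]
    change u ∈ MulAut.conj g • (P : Subgroup G) ↔ _
    rw [Subgroup.mem_pointwise_smul_iff_inv_smul_mem]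
    simp [MulAut.smul_def]
  have hginv : g⁻¹ ∈ Subgroup.normalizer
      ((Subgroup.centralizer ({z} : Set G) : Subgroup G) : Set G) := by
    by_contra hcon
    apply hx1'
    refine hTI z g⁻¹ hcon x (hc.mpr (hzP _ hxP)) ?_
    rw [inv_inv]
    exact hc.mpr (hzP _ ((hQmem _).mp hxQ))
  have hQC : ∀ u ∈ (Q : Subgroup G), z * u = u * z := by
    intro u hu
    have h1 := hzP _ ((hQmem u).mp hu)
    have h2 := (Subgroup.mem_set_normalizer_iff.mp hginv u).mpr (by
      rw [inv_inv]; exact hc.mpr h1)
    exact hc.mp h2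
  have key : ∀ u ∈ (Q : Subgroup G), u ∈ (P : Subgroup G) := by
    intro u hu
    by_cases hu1 : u = 1
    · rw [hu1]; exact Subgroup.one_mem _
    have hN : ∀ h : G, z * h = h * z → h ∈ Subgroup.normalizer
        ((Subgroup.centralizer ({u} : Set G) : Subgroup G) : Set G) := by
      intro h hh
      exact lemA u z h (hQC u hu).symm hz1 hh
    let A : Subgroup G :=
      { carrier := {a | u * a = a * u ∧ (∀ c, u * c = c * u → a * c = c * a) ∧
          ∃ k : ℕ, a ^ (p ^ k) = 1}
        one_mem' := ⟨by simp, fun c _ => by simp, 0, by simp⟩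
        mul_mem' := by
          rintro a b ⟨ha1, ha2, ka, hka⟩ ⟨hb1, hb2, kb, hkb⟩
          refine ⟨?_, ?_, ka + kb, ?_⟩
          · rw [← mul_assoc, ha1, mul_assoc, hb1, mul_assoc]
          · intro c hcu
            rw [mul_assoc, hb2 c hcu, ← mul_assoc, ha2 c hcu, mul_assoc]
          · have hab : Commute a b := ha2 b hb1
            rw [hab.mul_pow, pow_add, pow_mul, hka, one_pow, mul_comm (p ^ ka), pow_mul, hkb,
              one_pow, one_mul]
        inv_mem' := by
          rintro a ⟨ha1, ha2, ka, hka⟩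
          refine ⟨?_, ?_, ka, ?_⟩
          · have : Commute u a := ha1
            exact this.inv_right
          · intro c hcu
            have : Commute a c := ha2 c hcu
            exact this.inv_left
          · rw [inv_pow, hka, inv_one] }
    have hA : IsPGroup p A := by
      rintro ⟨a, ha1, ha2, k, hk⟩
      exact ⟨k, Subtype.ext (by simpa using hk)⟩
    have huA : u ∈ A := by
      refine ⟨rfl, fun c hcu => hcu, ?_⟩
      obtain ⟨k, hk⟩ := Q.2 ⟨u, hu⟩
      exact ⟨k, by simpa using congrArg Subtype.val hk⟩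
    have hconj : ∀ n : G, n ∈ Subgroup.normalizer
        ((Subgroup.centralizer ({u} : Set G) : Subgroup G) : Set G) → ∀ a ∈ A,
        n * a * n⁻¹ ∈ A := by
      rintro n hn a ⟨ha1, ha2, k, hk⟩
      have hn' := Subgroup.mem_set_normalizer_iff.mp hn
      refine ⟨?_, ?_, k, ?_⟩
      · exact hc.mp ((hn' a).mp (hc.mpr ha1))
      · intro c hcu
        have h1 : n⁻¹ * c * n ∈ Subgroup.centralizer ({u} : Set G) := by
          apply (hn' _).mpr
          have : n * (n⁻¹ * c * n) * n⁻¹ = c := by group
          rw [this]; exact hc.mpr hcu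
        have h2 := ha2 _ (hc.mp h1)
        calc n * a * n⁻¹ * c = n * (a * (n⁻¹ * c * n)) * n⁻¹ := by group
          _ = n * ((n⁻¹ * c * n) * a) * n⁻¹ := by rw [h2]
          _ = c * (n * a * n⁻¹) := by group
      · rw [conj_pow, hk]; simp
    have hPA : (P : Subgroup G) ≤ Subgroup.normalizer (A : Set G) := by
      intro h hh
      rw [Subgroup.mem_set_normalizer_iff]
      intro a
      constructor
      · intro ha
        exact hconj h (hN h (hzP h hh)) a ha
      · intro ha
        have := hconj h⁻¹ (hN h⁻¹ (hzP _ (Subgroup.inv_mem _ hh))) _ ha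
        have h3 : h⁻¹ * (h * a * h⁻¹) * h⁻¹⁻¹ = a := by group
        rw [h3] at this
        exact this
    have hsup := P.2.to_sup_of_normal_right' hA hPA
    have heq := P.3 hsup le_sup_left
    have : A ≤ (P : Subgroup G) := by rw [← heq]; exact le_sup_right
    exact this huA
  exact hPQ (Sylow.ext (Q.3 P.2 key))

end Cfsg.Agent.S4066
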