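import Cfsg.Statements.S4067
import Cfsg.Agent.Lib.helper23.AutOrbMain
import Cfsg.Agent.Lib.helper23.AutOrbD3
import Cfsg.Agent.Lib.helper23.AutOrbC
import Cfsg.Agent.Lib.helper26.AutOrbA
import Cfsg.Agent.Lib.helper25.AutOrbB
import Cfsg.Agent.Lib.lead.AutOrbE

set_option autoImplicit false
open Cfsg

namespace Cfsg.Agent.S4067

/-- Let G be a finite non-abelian group and p the least prime dividing its order. Then the automorphism group of G has at most #G/p orbits on G. -/
theorem result {G : Type*} [Group G] [Finite G] (hna : ¬ IsMulCommutative G) :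
    Nat.card (MulAction.orbitRel.Quotient (MulAut G) G) ≤ Nat.card G / (Nat.card G).minFac := by
  have hG1 : Nat.card G ≠ 1 := by
    intro h; apply hna
    haveI : Subsingleton G := (Nat.card_eq_one_iff_unique.1 h).1
    exact ⟨⟨fun a b => Subsingleton.elim _ _⟩⟩
  have hp : (Nat.card G).minFac.Prime := Nat.minFac_prime hG1
  refine Cfsg.Agent.Lib.helper23.ao_main hna ?_ ?_ ?_
  · intro h; exact Cfsg.Agent.Lib.lead.AutOrbE.comm_card hna h
  · intro hD hDZ e heZ hep heD g hg
    exact Cfsg.Agent.Lib.helper26.AutOrbA.caseA hp hD hDZ e heZ hep heD g hg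
  · intro hD hDZ hidx hE'
    by_cases h2 : (Nat.card G).minFac = 2
    · rw [h2] at hD hE' ⊢
      exact Cfsg.Agent.Lib.helper25.AutOrbB.caseB_two hD hDZ hE'
    · obtain ⟨u, hu, hup⟩ :=
        Cfsg.Agent.Lib.helper23.AutOrbD.caseB_odd_exists hp h2 hD hDZ hidx hE'
      exact ⟨u, hu, fun g hg =>
        Cfsg.Agent.Lib.helper23.AutOrbD.caseB_odd_orbit hp h2 hD hDZ u hu hup g hg⟩

end Cfsg.Agent.S4067
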