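import Cfsg.Statements.S4072
import Cfsg.Agent.Lib.helper1.PGroup

set_option autoImplicit false

open Cfsg

namespace Cfsg.Agent.S4072

universe u

/-- Commutators of elements of `closure S` lie in `N` if those of the generators do and
`N` is centralized by `S`. -/
theorem comm_closure {G : Type u} [Group G] (S : Set G) (N : Subgroup G)
    (hNS : ∀ n ∈ N, ∀ s ∈ S, n * s = s * n)
    (hS : ∀ s ∈ S, ∀ t ∈ S, s * t * s⁻¹ * t⁻¹ ∈ N) :
    ∀ x ∈ Subgroup.closure S, ∀ y ∈ Subgroup.closure S, x * y * x⁻¹ * y⁻¹ ∈ N := by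
  have hNc : ∀ n ∈ N, ∀ x ∈ Subgroup.closure S, n * x = x * n := by
    intro n hn x hx
    have h1 : Subgroup.closure S ≤ Subgroup.centralizer ({n} : Set G) := by
      rw [Subgroup.closure_le]
      intro s hs
      rw [SetLike.mem_coe, Subgroup.mem_centralizer_iff]
      intro h hh
      rw [Set.mem_singleton_iff] at hh
      rw [hh]
      exact hNS n hn s hs
    exact (Subgroup.mem_centralizer_iff.mp (h1 hx)) n (Set.mem_singleton n)
  have h1 : ∀ s ∈ S, ∀ y ∈ Subgroup.closure S, s * y * s⁻¹ * y⁻¹ ∈ N := by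
    intro s hs y hy
    refine Subgroup.closure_induction (p := fun y _ => s * y * s⁻¹ * y⁻¹ ∈ N) ?_ ?_ ?_ ?_ hy
    · intro t ht
      exact hS s hs t ht
    · simp
    · intro y₁ y₂ hy₁ hy₂ ih₁ ih₂
      have e : s * (y₁ * y₂) * s⁻¹ * (y₁ * y₂)⁻¹
          = (s * y₁ * s⁻¹ * y₁⁻¹) * (y₁ * (s * y₂ * s⁻¹ * y₂⁻¹) * y₁⁻¹) := by group
      rw [e, ← hNc _ ih₂ y₁ hy₁, mul_inv_cancel_right]
      exact N.mul_mem ih₁ ih₂
    · intro y hy ih
      have e : s * y⁻¹ * s⁻¹ * y⁻¹⁻¹ = y⁻¹ * (s * y * s⁻¹ * y⁻¹)⁻¹ * y := by group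
      rw [e, ← hNc _ (N.inv_mem ih) y⁻¹ (inv_mem hy), inv_mul_cancel_right]
      exact N.inv_mem ih
  intro x hx y hy
  refine Subgroup.closure_induction (p := fun x _ => x * y * x⁻¹ * y⁻¹ ∈ N) ?_ ?_ ?_ ?_ hx
  · intro s hs
    exact h1 s hs y hy
  · simp
  · intro x₁ x₂ hx₁ hx₂ ih₁ ih₂
    have e : x₁ * x₂ * y * (x₁ * x₂)⁻¹ * y⁻¹
        = (x₁ * (x₂ * y * x₂⁻¹ * y⁻¹) * x₁⁻¹) * (x₁ * y * x₁⁻¹ * y⁻¹) := by group
    rw [e, ← hNc _ ih₂ x₁ hx₁, mul_inv_cancel_right]
    exact N.mul_mem ih₂ ih₁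
  · intro x hx ih
    have e : x⁻¹ * y * x⁻¹⁻¹ * y⁻¹ = x⁻¹ * (x * y * x⁻¹ * y⁻¹)⁻¹ * x := by group
    rw [e, ← hNc _ (N.inv_mem ih) x⁻¹ (inv_mem hx), inv_mul_cancel_right]
    exact N.inv_mem ih

/-- In a minimal non-abelian `p`-group the commutator `c` of two non-commuting elements is
central of order `p`, and every commutator is a power of `c`. -/
theorem min_nonab {Q : Type u} [Group Q] [Finite Q] {p : ℕ} [Fact p.Prime] (hQ : IsPGroup p Q)
    (hmin : ∀ H : Subgroup Q, H ≠ ⊤ → ∀ x ∈ H, ∀ y ∈ H, x * y = y * x)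
    (a b : Q) (hab : a * b ≠ b * a) :
    a * b * a⁻¹ * b⁻¹ ∈ Subgroup.center Q ∧ (a * b * a⁻¹ * b⁻¹) ^ p = 1 ∧
      ∀ x y : Q, x * y * x⁻¹ * y⁻¹ ∈ Subgroup.zpowers (a * b * a⁻¹ * b⁻¹) := by
  have hp : p.Prime := Fact.out
  set c : Q := a * b * a⁻¹ * b⁻¹ with hc
  have haS : a ∈ Subgroup.closure ({a, b} : Set Q) :=
    Subgroup.subset_closure (Set.mem_insert _ _)
  have hbS : b ∈ Subgroup.closure ({a, b} : Set Q) :=
    Subgroup.subset_closure (Set.mem_insert_of_mem _ rfl)
  have hcl : Subgroup.closure ({a, b} : Set Q) = ⊤ := by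
    by_contra h
    exact hab (hmin _ h a haS b hbS)
  have hza : Subgroup.zpowers a ≠ ⊤ := by
    intro h
    have hb : b ∈ Subgroup.zpowers a := h ▸ Subgroup.mem_top b
    obtain ⟨k, rfl⟩ := Subgroup.mem_zpowers_iff.mp hb
    exact hab ((Commute.zpow_right (Commute.refl a) k).eq)
  have hzb : Subgroup.zpowers b ≠ ⊤ := by
    intro h
    have ha : a ∈ Subgroup.zpowers b := h ▸ Subgroup.mem_top a
    obtain ⟨k, rfl⟩ := Subgroup.mem_zpowers_iff.mp ha
    exact hab ((Commute.zpow_left (Commute.refl b) k).eq)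
  obtain ⟨M₁, hM₁, hle₁⟩ := (eq_top_or_exists_le_coatom _).resolve_left hza
  obtain ⟨M₂, hM₂, hle₂⟩ := (eq_top_or_exists_le_coatom _).resolve_left hzb
  obtain ⟨hn₁, hi₁⟩ := Cfsg.Agent.Lib.helper1.coatom_normal_index p hQ M₁ hM₁
  obtain ⟨hn₂, hi₂⟩ := Cfsg.Agent.Lib.helper1.coatom_normal_index p hQ M₂ hM₂
  have haM : a ∈ M₁ := hle₁ (Subgroup.mem_zpowers a)
  have hbM : b ∈ M₂ := hle₂ (Subgroup.mem_zpowers b)
  have hcM₁ : c ∈ M₁ := by
    have e : c = a * (b * a⁻¹ * b⁻¹) := by rw [hc]; group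
    rw [e]
    exact M₁.mul_mem haM (hn₁.conj_mem _ (M₁.inv_mem haM) b)
  have hcM₂ : c ∈ M₂ := by
    have e : c = (a * b * a⁻¹) * b⁻¹ := by rw [hc]
    rw [e]
    exact M₂.mul_mem (hn₂.conj_mem _ hbM a) (M₂.inv_mem hbM)
  have hca : c * a = a * c := hmin M₁ hM₁.1 c hcM₁ a haM
  have hcb : c * b = b * c := hmin M₂ hM₂.1 c hcM₂ b hbM
  have hcg : ∀ g : Q, g * c = c * g := by
    intro g
    have h1 : Subgroup.closure ({a, b} : Set Q) ≤ Subgroup.centralizer ({c} : Set Q) := by
      rw [Subgroup.closure_le]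
      rintro s (rfl | rfl)
      · rw [SetLike.mem_coe, Subgroup.mem_centralizer_iff]
        intro h hh
        rw [Set.mem_singleton_iff] at hh
        rw [hh]; exact hca
      · rw [SetLike.mem_coe, Subgroup.mem_centralizer_iff]
        intro h hh
        rw [Set.mem_singleton_iff] at hh
        rw [hh]; exact hcb
    have h2 : g ∈ Subgroup.closure ({a, b} : Set Q) := hcl ▸ Subgroup.mem_top g
    exact ((Subgroup.mem_centralizer_iff.mp (h1 h2)) c (Set.mem_singleton c)).symm
  have hcp : c ^ p = 1 := by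
    haveI := hn₁
    have hbp : b ^ p ∈ M₁ := by
      have := Subgroup.pow_index_mem M₁ b
      rwa [hi₁] at this
    have h1 : a * b ^ p = b ^ p * a := hmin M₁ hM₁.1 a haM _ hbp
    have h2 : a * b * a⁻¹ = c * b := by rw [hc]; group
    have h3 : (a * b * a⁻¹) ^ p = a * b ^ p * a⁻¹ := conj_pow
    have h4 : (c * b) ^ p = c ^ p * b ^ p := (show Commute c b from hcb).mul_pow p
    rw [h2, h4, h1, mul_inv_cancel_right] at h3
    exact mul_eq_right.mp h3
  refine ⟨Subgroup.mem_center_iff.mpr hcg, hcp, ?_⟩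
  intro x y
  have hx : x ∈ Subgroup.closure ({a, b} : Set Q) := hcl ▸ Subgroup.mem_top x
  have hy : y ∈ Subgroup.closure ({a, b} : Set Q) := hcl ▸ Subgroup.mem_top y
  refine comm_closure ({a, b} : Set Q) (Subgroup.zpowers c) ?_ ?_ x hx y hy
  · intro n hn s hs
    obtain ⟨k, rfl⟩ := Subgroup.mem_zpowers_iff.mp hn
    exact (Commute.zpow_left (show Commute c s from (hcg s).symm) k).eq
  · intro s hs t ht
    rcases hs with hs | hs <;> rcases ht with ht | ht
    · rw [hs, ht]; simp
    · rw [Set.mem_singleton_iff] at ht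
      rw [hs, ht]; exact Subgroup.mem_zpowers _
    · rw [Set.mem_singleton_iff] at hs
      rw [hs, ht]
      have e : b * a * b⁻¹ * a⁻¹ = c⁻¹ := by rw [hc]; group
      rw [e]
      exact (Subgroup.zpowers c).inv_mem (Subgroup.mem_zpowers _)
    · rw [Set.mem_singleton_iff] at hs ht
      rw [hs, ht]; simp

/-- Solvability from a homomorphism with commutative kernel and commutative target. -/
theorem solvable_of_hom {G : Type u} [Group G] {A : Type*} [Group A] (f : G →* A)
    (hA : ∀ x y : A, x * y = y * x) (hK : ∀ x ∈ f.ker, ∀ y ∈ f.ker, x * y = y * x) :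
    Group.IsSolvable G := by
  haveI : Group.IsSolvable A := Group.isSolvable_of_comm hA
  haveI : Group.IsSolvable f.ker :=
    Group.isSolvable_of_comm (fun x y => Subtype.ext (hK x x.2 y y.2))
  exact Group.isSolvable_of_ker_le_range f.ker.subtype f (by rw [Subgroup.range_subtype])

theorem not_comm {G : Type u} [Group G] {H : Subgroup G} {x y : G} (hx : x ∈ H) (hy : y ∈ H)
    (hxy : x * y ≠ y * x) : ¬ IsMulCommutative H :=
  fun hc => hxy (congrArg Subtype.val (hc.is_comm.comm ⟨x, hx⟩ ⟨y, hy⟩))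

/-- Proper normal subgroups are abelian. -/
theorem normal_comm {G : Type u} [Group G]
    (hS : ∀ H : Subgroup G, ¬ IsMulCommutative H → Subgroup.normalizer (H : Set G) = H)
    (N : Subgroup G) (hN : N.Normal) (hne : N ≠ ⊤) : ∀ x ∈ N, ∀ y ∈ N, x * y = y * x := by
  by_contra h
  push Not at h
  obtain ⟨x, hx, y, hy, hxy⟩ := h
  have h2 := hS N (not_comm hx hy hxy)
  exact hne (h2.symm.trans (Subgroup.normalizer_eq_top_iff.mpr hN))

/-- Case B: a self-centralizing proper normal subgroup forces solvability. -/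
theorem caseB {G : Type u} [Group G] [Finite G]
    (hS : ∀ H : Subgroup G, ¬ IsMulCommutative H → Subgroup.normalizer (H : Set G) = H)
    (M : Subgroup G) [M.Normal] (hMtop : M ≠ ⊤)
    (hCM : Subgroup.centralizer (M : Set G) ≤ M) : Group.IsSolvable G := by
  classical
  have hsurj := QuotientGroup.mk'_surjective M
  have hsn : ∀ H : Subgroup (G ⧸ M), H ≠ ⊥ → Subgroup.normalizer (H : Set (G ⧸ M)) = H := by
    intro H hH
    obtain ⟨⟨xb, hxb⟩, hxb1⟩ := Subgroup.ne_bot_iff_exists_ne_one.mp hH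
    have hxb1' : xb ≠ 1 := fun h => hxb1 (Subtype.ext h)
    obtain ⟨x, rfl⟩ := hsurj xb
    have hxM : x ∉ M := fun h => hxb1' ((QuotientGroup.eq_one_iff x).mpr h)
    have hxC : x ∉ Subgroup.centralizer (M : Set G) := fun h => hxM (hCM h)
    rw [Subgroup.mem_centralizer_iff] at hxC
    push Not at hxC
    obtain ⟨m, hm, hmx⟩ := hxC
    have hMle : M ≤ H.comap (QuotientGroup.mk' M) := by
      intro m hm
      rw [Subgroup.mem_comap]
      have : QuotientGroup.mk' M m = 1 := (QuotientGroup.eq_one_iff m).mpr hm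
      rw [this]; exact H.one_mem
    have hnc : ¬ IsMulCommutative (H.comap (QuotientGroup.mk' M)) :=
      not_comm (hMle hm) (Subgroup.mem_comap.mpr hxb) hmx
    have h1 := hS _ hnc
    apply Subgroup.comap_injective hsurj
    rw [Subgroup.comap_normalizer_eq_of_surjective _ hsurj]
    exact h1
  haveI : Nontrivial (G ⧸ M) := by
    rw [← Finite.one_lt_card_iff_nontrivial, ← Subgroup.index_eq_card]
    have h1 : M.index ≠ 1 := fun h => hMtop (Subgroup.index_eq_one.mp h)
    have h2 : M.index ≠ 0 := Subgroup.index_ne_zero_of_finite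
    omega
  obtain ⟨p, hp, hpdvd⟩ := Nat.exists_prime_and_dvd
    (show Nat.card (G ⧸ M) ≠ 1 from fun h => by
      have := Finite.one_lt_card (α := G ⧸ M)
      omega)
  haveI : Fact p.Prime := ⟨hp⟩
  obtain ⟨P⟩ : Nonempty (Sylow p (G ⧸ M)) := inferInstance
  have hPne : (P : Subgroup (G ⧸ M)) ≠ ⊥ := P.ne_bot_of_dvd_card hpdvd
  have hPn : Subgroup.normalizer ((P : Subgroup (G ⧸ M)) : Set (G ⧸ M)) = P := hsn _ hPne
  -- `P` is cyclic, generated by a central element
  haveI : Nontrivial (P : Subgroup (G ⧸ M)) := by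
    rw [Subgroup.nontrivial_iff_ne_bot]; exact hPne
  haveI := (P.2 : IsPGroup p (P : Subgroup (G ⧸ M))).center_nontrivial
  obtain ⟨w, hw⟩ := exists_ne (1 : Subgroup.center (P : Subgroup (G ⧸ M)))
  have hwc : ∀ g ∈ (P : Subgroup (G ⧸ M)), g * ((w : (P : Subgroup (G ⧸ M))) : G ⧸ M)
      = ((w : (P : Subgroup (G ⧸ M))) : G ⧸ M) * g := by
    intro g hg
    have := Subgroup.mem_center_iff.mp w.2 ⟨g, hg⟩
    exact congrArg Subtype.val this
  have hw1 : ((w : (P : Subgroup (G ⧸ M))) : G ⧸ M) ≠ 1 := by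
    intro h
    apply hw
    apply Subtype.ext
    apply Subtype.ext
    exact h
  have hzne : Subgroup.zpowers ((w : (P : Subgroup (G ⧸ M))) : G ⧸ M) ≠ ⊥ := by
    intro h
    apply hw1
    rw [← Subgroup.mem_bot, ← h]
    exact Subgroup.mem_zpowers _
  have hzn := hsn _ hzne
  have hPz : (P : Subgroup (G ⧸ M)) ≤ Subgroup.zpowers ((w : (P : Subgroup (G ⧸ M))) : G ⧸ M) := by
    intro g hg
    rw [← hzn]
    apply Subgroup.centralizer_le_normalizer
    rw [Subgroup.mem_centralizer_iff]
    intro h hh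
    obtain ⟨k, rfl⟩ := Subgroup.mem_zpowers_iff.mp hh
    exact (Commute.zpow_left (show Commute _ g from (hwc g hg).symm) k).eq
  have hPcomm : ∀ x ∈ (P : Subgroup (G ⧸ M)), ∀ y ∈ (P : Subgroup (G ⧸ M)), x * y = y * x := by
    intro x hx y hy
    obtain ⟨i, rfl⟩ := Subgroup.mem_zpowers_iff.mp (hPz hx)
    obtain ⟨j, rfl⟩ := Subgroup.mem_zpowers_iff.mp (hPz hy)
    exact (Commute.zpow_zpow_self _ i j).eq
  have hP : Subgroup.normalizer ((P : Subgroup (G ⧸ M)) : Set (G ⧸ M))
      ≤ Subgroup.centralizer ((P : Subgroup (G ⧸ M)) : Set (G ⧸ M)) := by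
    rw [hPn]
    intro g hg
    rw [Subgroup.mem_centralizer_iff]
    intro h hh
    exact hPcomm h hh g hg
  have hcompl := MonoidHom.ker_transferSylow_isComplement' P hP
  set f : G →* (P : Subgroup (G ⧸ M)) :=
    (MonoidHom.transferSylow P hP).comp (QuotientGroup.mk' M) with hf
  have hker : f.ker ≠ ⊤ := by
    intro h
    apply hPne
    have h1 : (MonoidHom.transferSylow P hP).ker = ⊤ := by
      rw [eq_top_iff]
      intro y _
      obtain ⟨x, rfl⟩ := hsurj y
      have hx : x ∈ f.ker := h ▸ Subgroup.mem_top x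
      rw [MonoidHom.mem_ker] at hx ⊢
      exact hx
    have h2 := hcompl.disjoint
    rw [h1, disjoint_iff, top_inf_eq] at h2
    exact h2
  exact solvable_of_hom f (fun x y => Subtype.ext (hPcomm x x.2 y y.2))
    (normal_comm hS f.ker inferInstance hker)

/-- A finite group in which every non-abelian subgroup is self-normalizing is solvable or simple. -/
theorem result {G : Type*} [Group G] [Finite G] (hS : ∀ H : Subgroup G, ¬ IsMulCommutative H → Subgroup.normalizer (H : Set G) = H) :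
    Group.IsSolvable G ∨ IsSimpleGroup G := by
  classical
  by_contra hcon
  push Not at hcon
  obtain ⟨hns, hnsimp⟩ := hcon
  haveI : Nontrivial G := by
    by_contra h
    rw [not_nontrivial_iff_subsingleton] at h
    exact hns (Group.isSolvable_of_comm (fun a b => Subsingleton.elim _ _))
  -- `G` is perfect
  have hperf : commutator G = ⊤ := by
    by_contra h
    apply hns
    apply solvable_of_hom (Abelianization.of : G →* Abelianization G)
      (fun x y => mul_comm x y)
    rw [Abelianization.ker_of]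
    exact normal_comm hS (commutator G) inferInstance h
  have hkill : ∀ {A : Type u_1} [CommGroup A] (f : G →* A) (g : G), f g = 1 := by
    intro A _ f g
    have h1 : g ∈ commutator G := hperf ▸ Subgroup.mem_top g
    exact MonoidHom.mem_ker.mp (Abelianization.commutator_subset_ker f h1)
  -- a proper nontrivial normal subgroup
  obtain ⟨N, hN, hNbot, hNtop⟩ : ∃ N : Subgroup G, N.Normal ∧ N ≠ ⊥ ∧ N ≠ ⊤ := by
    by_contra h
    push Not at h
    apply hnsimp
    refine ⟨fun H hH => ?_⟩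
    by_cases hb : H = ⊥
    · exact Or.inl hb
    · exact Or.inr (h H hH hb)
  haveI := hN
  have hNc := normal_comm hS N hN hNtop
  -- `N` is central
  have hNZ : N ≤ Subgroup.center G := by
    by_contra hNZ
    have hCtop : Subgroup.centralizer (N : Set G) ≠ ⊤ := by
      intro h
      apply hNZ
      intro n hn
      rw [Subgroup.mem_center_iff]
      intro g
      have hg : g ∈ Subgroup.centralizer (N : Set G) := h ▸ Subgroup.mem_top g
      exact ((Subgroup.mem_centralizer_iff.mp hg) n hn).symm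
    have hNC : N ≤ Subgroup.centralizer (N : Set G) := by
      intro n hn
      rw [Subgroup.mem_centralizer_iff]
      intro h hh
      exact hNc h hh n hn
    apply hns
    apply caseB hS (Subgroup.centralizer (N : Set G)) hCtop
    exact Subgroup.centralizer_le hNC
  -- a central element of prime order
  obtain ⟨p, hp, hpdvd⟩ := Nat.exists_prime_and_dvd
    (show Nat.card N ≠ 1 from fun h => hNbot (Subgroup.card_eq_one.mp h))
  haveI : Fact p.Prime := ⟨hp⟩
  obtain ⟨z', hz'⟩ := exists_prime_orderOf_dvd_card' p hpdvd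
  set z : G := (z' : G) with hz
  have hzo : orderOf z = p := by rw [hz, Subgroup.orderOf_coe]; exact hz'
  have hzc : ∀ g : G, g * z = z * g := Subgroup.mem_center_iff.mp (hNZ z'.2)
  have hz1 : z ≠ 1 := by
    intro h
    rw [h, orderOf_one] at hzo
    exact hp.one_lt.ne hzo
  have hzp : IsPGroup p (Subgroup.zpowers z) := by
    apply IsPGroup.of_card (n := 1)
    rw [Nat.card_zpowers, hzo, pow_one]
  obtain ⟨P, hzP⟩ := hzp.exists_le_sylow
  have hzP' : z ∈ (P : Subgroup G) := hzP (Subgroup.mem_zpowers z)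
  have hkey : ∀ (k : ℕ) (g₀ : G), g₀⁻¹ * z ^ k * g₀ ∈ (P : Subgroup G) →
      g₀⁻¹ * z ^ k * g₀ = z ^ k := by
    intro k g₀ _
    have h1 : g₀ * z ^ k = z ^ k * g₀ :=
      Subgroup.mem_center_iff.mp ((Subgroup.center G).pow_mem (hNZ z'.2) k) g₀
    rw [mul_assoc, ← h1, inv_mul_cancel_left]
  have hzidx : z ^ (P : Subgroup G).index ≠ 1 := by
    intro h
    have h1 := orderOf_dvd_of_pow_eq_one h
    rw [hzo] at h1
    exact P.not_dvd_index h1
  by_cases hPc : ∀ x ∈ (P : Subgroup G), ∀ y ∈ (P : Subgroup G), x * y = y * x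
  · -- abelian Sylow subgroup: transfer into `P`
    letI : CommGroup (P : Subgroup G) :=
      { (inferInstance : Group (P : Subgroup G)) with
        mul_comm := fun x y => Subtype.ext (hPc x x.2 y y.2) }
    have h1 := MonoidHom.transfer_eq_pow (MonoidHom.id (P : Subgroup G)) z hkey
    rw [hkill] at h1
    exact hzidx (congrArg Subtype.val h1).symm
  · -- non-abelian Sylow subgroup
    push Not at hPc
    obtain ⟨a, haP, b, hbP, hab⟩ := hPc
    have hPn : Subgroup.normalizer ((P : Subgroup G) : Set G) = P := hS _ (not_comm haP hbP hab)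
    have hPp : IsPGroup p (P : Subgroup G) := P.2
    haveI : Group.IsNilpotent (P : Subgroup G) := hPp.isNilpotent
    have hmin : ∀ H : Subgroup (P : Subgroup G), H ≠ ⊤ → ∀ x ∈ H, ∀ y ∈ H, x * y = y * x := by
      intro H hH
      by_contra hcon
      push Not at hcon
      obtain ⟨x, hx, y, hy, hxy⟩ := hcon
      have hnc : ¬ IsMulCommutative (H.map (P : Subgroup G).subtype) := by
        apply not_comm (Subgroup.mem_map_of_mem _ hx) (Subgroup.mem_map_of_mem _ hy)
        intro h
        exact hxy (Subtype.ext h)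
      have h1 := hS _ hnc
      have h2 := Group.normalizerCondition_of_isNilpotent (G := (P : Subgroup G)) H
        (lt_top_iff_ne_top.mpr hH)
      obtain ⟨g, hgN, hgH⟩ := SetLike.exists_of_lt h2
      apply hgH
      have h3 : (g : G) ∈ Subgroup.normalizer ((H.map (P : Subgroup G).subtype : Subgroup G) : Set G) := by
        rw [Subgroup.mem_normalizer_iff]
        intro h
        constructor
        · rintro ⟨h₀, hh₀, rfl⟩
          exact ⟨g * h₀ * g⁻¹, (Subgroup.mem_normalizer_iff.mp hgN h₀).mp hh₀, rfl⟩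
        · rintro ⟨k, hk, hkeq⟩
          have hk' : g⁻¹ * k * g ∈ H := (Subgroup.mem_normalizer_iff''.mp hgN k).mp hk
          refine ⟨g⁻¹ * k * g, hk', ?_⟩
          change (g : G)⁻¹ * (k : G) * (g : G) = h
          have hkeq' : (k : G) = (g : G) * h * (g : G)⁻¹ := hkeq
          rw [hkeq']
          group
      rw [h1] at h3
      obtain ⟨g', hg', hgeq⟩ := h3
      have : g' = g := Subtype.ext hgeq
      rw [← this]; exact hg'
    have habP : (⟨a, haP⟩ : (P : Subgroup G)) * ⟨b, hbP⟩ ≠ ⟨b, hbP⟩ * ⟨a, haP⟩ := by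
      intro h
      exact hab (congrArg Subtype.val h)
    obtain ⟨hcZ, hcp, hcomm⟩ := min_nonab hPp hmin ⟨a, haP⟩ ⟨b, hbP⟩ habP
    set c : G := a * b * a⁻¹ * b⁻¹ with hc
    have hcP : c ∈ (P : Subgroup G) :=
      (P : Subgroup G).mul_mem ((P : Subgroup G).mul_mem ((P : Subgroup G).mul_mem haP hbP)
        ((P : Subgroup G).inv_mem haP)) ((P : Subgroup G).inv_mem hbP)
    have hcc : (⟨a, haP⟩ : (P : Subgroup G)) * ⟨b, hbP⟩ * (⟨a, haP⟩ : (P : Subgroup G))⁻¹
        * (⟨b, hbP⟩ : (P : Subgroup G))⁻¹ = ⟨c, hcP⟩ := rfl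
    rw [hcc] at hcZ hcp hcomm
    have hcp' : c ^ p = 1 := by simpa using congrArg Subtype.val hcp
    have hc1 : c ≠ 1 := by
      intro h
      apply hab
      have : a * b * a⁻¹ * b⁻¹ = 1 := h
      calc a * b = (a * b * a⁻¹ * b⁻¹) * (b * a) := by group
        _ = b * a := by rw [this, one_mul]
    have hco : orderOf c = p := orderOf_eq_prime hcp' hc1
    -- all commutators of `P` lie in `zpowers c`
    have hcomm' : ∀ x ∈ (P : Subgroup G), ∀ y ∈ (P : Subgroup G),
        x * y * x⁻¹ * y⁻¹ ∈ Subgroup.zpowers c := by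
      intro x hx y hy
      obtain ⟨k, hk⟩ := Subgroup.mem_zpowers_iff.mp (hcomm ⟨x, hx⟩ ⟨y, hy⟩)
      have := congrArg Subtype.val hk
      rw [Subgroup.mem_zpowers_iff]
      refine ⟨k, ?_⟩
      simpa using this
    -- transfer into `P ⧸ zpowers c` shows `z ∈ zpowers c`
    have hzc' : z ∈ Subgroup.zpowers c := by
      set N' : Subgroup (P : Subgroup G) := Subgroup.zpowers (⟨c, hcP⟩ : (P : Subgroup G)) with hN'
      haveI : N'.Normal := by
        constructor
        intro n hn g
        have h1 : g * n = n * g := by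
          obtain ⟨k, rfl⟩ := Subgroup.mem_zpowers_iff.mp hn
          exact Subgroup.mem_center_iff.mp ((Subgroup.center _).zpow_mem hcZ k) g
        rw [h1, mul_inv_cancel_right]
        exact hn
      letI : CommGroup ((P : Subgroup G) ⧸ N') :=
        { (inferInstance : Group ((P : Subgroup G) ⧸ N')) with
          mul_comm := by
            intro x y
            induction x using QuotientGroup.induction_on with
            | H x =>
              induction y using QuotientGroup.induction_on with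
              | H y =>
                rw [← QuotientGroup.mk_mul, ← QuotientGroup.mk_mul, QuotientGroup.eq]
                have e : (x * y)⁻¹ * (y * x) = y⁻¹ * x⁻¹ * y⁻¹⁻¹ * x⁻¹⁻¹ := by group
                rw [e]
                exact hcomm y⁻¹ x⁻¹ }
      have h1 := MonoidHom.transfer_eq_pow (QuotientGroup.mk' N') z hkey
      rw [hkill] at h1
      have h2 := (QuotientGroup.eq_one_iff _).mp h1.symm
      obtain ⟨k, hk⟩ := Subgroup.mem_zpowers_iff.mp h2
      have h3 := congrArg Subtype.val hk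
      have h4 : c ^ k = z ^ (P : Subgroup G).index := by simpa using h3
      have hcop : Nat.Coprime (P : Subgroup G).index (orderOf z) := by
        rw [hzo]
        exact ((Nat.Prime.coprime_iff_not_dvd hp).mpr P.not_dvd_index).symm
      obtain ⟨m, hm⟩ := exists_pow_eq_self_of_coprime hcop
      rw [← hm, ← h4]
      exact Subgroup.pow_mem _ (Subgroup.zpow_mem _ (Subgroup.mem_zpowers c) k) m
    have hzz : Subgroup.zpowers z = Subgroup.zpowers c := by
      apply Subgroup.eq_of_le_of_card_ge (Subgroup.zpowers_le.mpr hzc')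
      rw [Nat.card_zpowers, Nat.card_zpowers, hzo, hco]
    -- pass to `G ⧸ zpowers z`
    haveI hZn : (Subgroup.zpowers z).Normal := by
      constructor
      intro n hn g
      have h1 : g * n = n * g := by
        obtain ⟨k, rfl⟩ := Subgroup.mem_zpowers_iff.mp hn
        exact Subgroup.mem_center_iff.mp ((Subgroup.center G).zpow_mem (hNZ z'.2) k) g
      rw [h1, mul_inv_cancel_right]
      exact hn
    have hsurj := QuotientGroup.mk'_surjective (Subgroup.zpowers z)
    set Pb : Sylow p (G ⧸ Subgroup.zpowers z) := P.mapSurjective hsurj with hPb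
    have hPbc : (Pb : Subgroup (G ⧸ Subgroup.zpowers z))
        = (P : Subgroup G).map (QuotientGroup.mk' (Subgroup.zpowers z)) :=
      Sylow.coe_mapSurjective hsurj P
    have hcomap : (Pb : Subgroup (G ⧸ Subgroup.zpowers z)).comap
        (QuotientGroup.mk' (Subgroup.zpowers z)) = P := by
      rw [hPbc, Subgroup.comap_map_eq, QuotientGroup.ker_mk', sup_eq_left]
      exact hzP
    have hPbcomm : ∀ x ∈ (Pb : Subgroup (G ⧸ Subgroup.zpowers z)),
        ∀ y ∈ (Pb : Subgroup (G ⧸ Subgroup.zpowers z)), x * y = y * x := by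
      intro x hx y hy
      rw [hPbc] at hx hy
      obtain ⟨x, hx, rfl⟩ := hx
      obtain ⟨y, hy, rfl⟩ := hy
      change ((x : G) : G ⧸ Subgroup.zpowers z) * (y : G ⧸ Subgroup.zpowers z)
        = (y : G ⧸ Subgroup.zpowers z) * (x : G ⧸ Subgroup.zpowers z)
      rw [← QuotientGroup.mk_mul, ← QuotientGroup.mk_mul, QuotientGroup.eq]
      have e : (x * y)⁻¹ * (y * x) = y⁻¹ * x⁻¹ * y⁻¹⁻¹ * x⁻¹⁻¹ := by group
      rw [e, hzz]
      exact hcomm' _ ((P : Subgroup G).inv_mem hy) _ ((P : Subgroup G).inv_mem hx)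
    have hPbn : Subgroup.normalizer ((Pb : Subgroup (G ⧸ Subgroup.zpowers z)) : Set (G ⧸ Subgroup.zpowers z))
        ≤ Subgroup.centralizer ((Pb : Subgroup (G ⧸ Subgroup.zpowers z)) : Set (G ⧸ Subgroup.zpowers z)) := by
      intro g hg
      have h1 : g ∈ (Pb : Subgroup (G ⧸ Subgroup.zpowers z)) := by
        obtain ⟨g, rfl⟩ := hsurj g
        have h2 : g ∈ (Subgroup.normalizer ((Pb : Subgroup (G ⧸ Subgroup.zpowers z)) : Set (G ⧸ Subgroup.zpowers z))).comap
            (QuotientGroup.mk' (Subgroup.zpowers z)) := hg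
        rw [Subgroup.comap_normalizer_eq_of_surjective _ hsurj, hcomap, hPn] at h2
        rw [hPbc]
        exact Subgroup.mem_map_of_mem _ h2
      rw [Subgroup.mem_centralizer_iff]
      intro h hh
      exact hPbcomm h hh g h1
    have hcompl := MonoidHom.ker_transferSylow_isComplement' Pb hPbn
    letI : CommGroup (Pb : Subgroup (G ⧸ Subgroup.zpowers z)) :=
      { (inferInstance : Group (Pb : Subgroup (G ⧸ Subgroup.zpowers z))) with
        mul_comm := fun x y => Subtype.ext (hPbcomm x x.2 y y.2) }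
    have hker : (MonoidHom.transferSylow Pb hPbn).ker = ⊤ := by
      rw [eq_top_iff]
      intro y _
      obtain ⟨x, rfl⟩ := hsurj y
      rw [MonoidHom.mem_ker]
      exact hkill ((MonoidHom.transferSylow Pb hPbn).comp
        (QuotientGroup.mk' (Subgroup.zpowers z))) x
    have h2 := hcompl.disjoint
    rw [hker, disjoint_iff, top_inf_eq] at h2
    -- so `a ∈ zpowers z` is central
    have ha : (QuotientGroup.mk' (Subgroup.zpowers z)) a
        ∈ (Pb : Subgroup (G ⧸ Subgroup.zpowers z)) := by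
      rw [hPbc]; exact Subgroup.mem_map_of_mem _ haP
    rw [h2, Subgroup.mem_bot] at ha
    have ha' : a ∈ Subgroup.zpowers z := (QuotientGroup.eq_one_iff a).mp ha
    obtain ⟨k, hk⟩ := Subgroup.mem_zpowers_iff.mp ha'
    apply hab
    rw [← hk]
    exact (Subgroup.mem_center_iff.mp ((Subgroup.center G).zpow_mem (hNZ z'.2) k) b).symm

end Cfsg.Agent.S4072
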