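import Cfsg.Statements.S4071
import Cfsg.Agent.S4072
import Cfsg.Agent.Lib.helper3.SchmidtB
import Cfsg.Agent.Lib.helper1.CycMaxOdd

set_option autoImplicit false

open Cfsg

open scoped Pointwise

namespace Cfsg.Agent.S4071

universe u

/-- The elements of order prime to `p` in an abelian subgroup. -/
def pPrimePart {G : Type u} [Group G] (M : Subgroup G)
    (hM : ∀ x ∈ M, ∀ y ∈ M, x * y = y * x) (p : ℕ) : Subgroup G where
  carrier := {m | m ∈ M ∧ (orderOf m).Coprime p}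
  mul_mem' := by
    rintro a b ⟨ha, hao⟩ ⟨hb, hbo⟩
    refine ⟨M.mul_mem ha hb, ?_⟩
    have h1 : orderOf (a * b) ∣ (orderOf a).lcm (orderOf b) :=
      Commute.orderOf_mul_dvd_lcm (hM a ha b hb)
    exact Nat.Coprime.coprime_dvd_left (h1.trans (Nat.lcm_dvd_mul _ _))
      (Nat.Coprime.mul_left hao hbo)
  one_mem' := ⟨M.one_mem, by rw [orderOf_one]; exact Nat.coprime_one_left p⟩
  inv_mem' := by
    rintro a ⟨ha, hao⟩
    exact ⟨M.inv_mem ha, by rw [orderOf_inv]; exact hao⟩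

theorem backward {G : Type u} [Group G] [Finite G] (x : G) (A : Subgroup G) (p : ℕ)
    (hp : p.Prime) (hAn : A.Normal) (hAc : IsMulCommutative A)
    (hk : ∃ k : ℕ, orderOf x = p ^ k)
    (hcompl : (Subgroup.zpowers x).IsComplement' A) (hxp : x ^ p ∈ Subgroup.center G)
    (hfpf : ∀ a : G, a ∈ A → a ≠ 1 → x * a * x⁻¹ ≠ a) :
    ∀ H : Subgroup G, ¬ IsMulCommutative H → Subgroup.normalizer (H : Set G) = H := by
  classical
  haveI := hAn
  have hAc' : ∀ a ∈ A, ∀ b ∈ A, a * b = b * a := fun a ha b hb =>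
    congrArg Subtype.val (hAc.is_comm.comm ⟨a, ha⟩ ⟨b, hb⟩)
  have hdec : ∀ g : G, ∃ n : ℕ, ∃ a ∈ A, g = x ^ n * a := by
    intro g
    have h1 : g ∈ ((Subgroup.zpowers x : Subgroup G) : Set G) * (A : Set G) := by
      rw [Subgroup.IsComplement.mul_eq hcompl]; exact Set.mem_univ g
    obtain ⟨u, hu, a, ha, rfl⟩ := Set.mem_mul.mp h1
    obtain ⟨n, rfl⟩ := mem_powers_iff_mem_zpowers.mpr hu
    exact ⟨n, a, ha, rfl⟩
  have hθ : ∀ a ∈ A, ∀ a' ∈ A, a * (x * a⁻¹ * x⁻¹) = a' * (x * a'⁻¹ * x⁻¹) → a = a' := by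
    intro a ha a' ha' h
    by_contra hne
    have hd : a'⁻¹ * a ∈ A := A.mul_mem (A.inv_mem ha') ha
    have hd1 : a'⁻¹ * a ≠ 1 := by
      intro h1
      apply hne
      exact (inv_mul_eq_one.mp h1).symm
    apply hfpf _ hd hd1
    have h2 : x * a'⁻¹ * x⁻¹ = a'⁻¹ * (a * (x * a⁻¹ * x⁻¹)) := by rw [h]; group
    calc x * (a'⁻¹ * a) * x⁻¹ = (x * a'⁻¹ * x⁻¹) * (x * a * x⁻¹) := by group
      _ = a'⁻¹ * (a * (x * a⁻¹ * x⁻¹)) * (x * a * x⁻¹) := by rw [h2]
      _ = a'⁻¹ * a := by group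
  intro H hH
  apply le_antisymm _ Subgroup.le_normalizer
  have hex : ∃ u ∈ H, ∃ n : ℕ, ∃ a ∈ A, u = x ^ n * a ∧ ¬ p ∣ n := by
    by_contra hcon
    push Not at hcon
    apply hH
    refine ⟨⟨fun u v => ?_⟩⟩
    apply Subtype.ext
    obtain ⟨n, a, ha, hu⟩ := hdec u
    obtain ⟨m, b, hb, hv⟩ := hdec v
    have hn := hcon u u.2 n a ha hu
    have hm := hcon v v.2 m b hb hv
    have hcent : ∀ j : ℕ, p ∣ j → x ^ j ∈ Subgroup.center G := by
      rintro j ⟨t, rfl⟩
      rw [pow_mul]; exact Subgroup.pow_mem _ hxp t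
    have hxn := Subgroup.mem_center_iff.mp (hcent n hn)
    have hxm := Subgroup.mem_center_iff.mp (hcent m hm)
    change (u : G) * (v : G) = (v : G) * (u : G)
    rw [hu, hv]
    calc x ^ n * a * (x ^ m * b) = x ^ n * (a * x ^ m) * b := by group
      _ = x ^ n * (x ^ m * a) * b := by rw [hxm a]
      _ = x ^ n * x ^ m * (a * b) := by group
      _ = x ^ m * x ^ n * (b * a) := by rw [hAc' a ha b hb, ← pow_add, ← pow_add, add_comm]
      _ = x ^ m * (x ^ n * b) * a := by group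
      _ = x ^ m * (b * x ^ n) * a := by rw [← hxn b]
      _ = x ^ m * b * (x ^ n * a) := by group
  obtain ⟨u, huH, n, a, ha, hu, hpn⟩ := hex
  obtain ⟨k, hk⟩ := hk
  have hcop : n.Coprime (orderOf x) := by
    rw [hk]
    exact Nat.Coprime.pow_right k ((Nat.Prime.coprime_iff_not_dvd hp).mpr hpn).symm
  obtain ⟨m, hm⟩ := exists_pow_eq_self_of_coprime hcop
  have ha₁ : x⁻¹ * u ^ m ∈ A := by
    rw [← QuotientGroup.eq (s := A)]
    have h1 : ((u : G) : G ⧸ A) = ((x ^ n : G) : G ⧸ A) := by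
      rw [QuotientGroup.eq, hu]
      have e : (x ^ n * a)⁻¹ * x ^ n = a⁻¹ := by group
      rw [e]
      exact A.inv_mem ha
    rw [QuotientGroup.mk_pow, h1, ← QuotientGroup.mk_pow, hm]
  obtain ⟨a₁, ha₁A, hx₁⟩ : ∃ a₁ ∈ A, u ^ m = x * a₁ := ⟨x⁻¹ * u ^ m, ha₁, by group⟩
  obtain ⟨x₁, hx₁def⟩ : ∃ x₁, x₁ = u ^ m := ⟨_, rfl⟩
  rw [← hx₁def] at hx₁
  have hx₁H : x₁ ∈ H := hx₁def ▸ H.pow_mem huH m
  have hconj : ∀ b ∈ A, x₁ * b * x₁⁻¹ = x * b * x⁻¹ := by
    intro b hb
    rw [hx₁]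
    have : a₁ * b * a₁⁻¹ = b := by rw [hAc' a₁ ha₁A b hb, mul_inv_cancel_right]
    calc x * a₁ * b * (x * a₁)⁻¹ = x * (a₁ * b * a₁⁻¹) * x⁻¹ := by group
      _ = x * b * x⁻¹ := by rw [this]
  intro g hg
  obtain ⟨j, a', ha', hgeq⟩ := hdec g
  obtain ⟨a'', ha''def⟩ : ∃ a'', a'' = (x₁ ^ j)⁻¹ * g := ⟨_, rfl⟩
  have ha''A : a'' ∈ A := by
    rw [ha''def, ← QuotientGroup.eq (s := A), hgeq]
    rw [QuotientGroup.mk_pow, QuotientGroup.mk_mul, QuotientGroup.mk_pow]
    have h1 : ((x₁ : G) : G ⧸ A) = ((x : G) : G ⧸ A) := by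
      rw [hx₁, QuotientGroup.mk_mul, (QuotientGroup.eq_one_iff a₁).mpr ha₁A, mul_one]
    rw [h1, (QuotientGroup.eq_one_iff a').mpr ha', mul_one]
  have ha''N : a'' ∈ Subgroup.normalizer (H : Set G) := by
    rw [ha''def]
    exact Subgroup.mul_mem _ (Subgroup.inv_mem _ (Subgroup.le_normalizer (H.pow_mem hx₁H j))) hg
  have ht : a'' * (x * a''⁻¹ * x⁻¹) ∈ A ⊓ H := by
    refine ⟨A.mul_mem ha''A (hAn.conj_mem _ (A.inv_mem ha''A) x), ?_⟩
    rw [← hconj _ (A.inv_mem ha''A)]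
    have h1 : a'' * x₁ * a''⁻¹ ∈ H := (Subgroup.mem_normalizer_iff.mp ha''N x₁).mp hx₁H
    have e : a'' * (x₁ * a''⁻¹ * x₁⁻¹) = (a'' * x₁ * a''⁻¹) * x₁⁻¹ := by group
    rw [e]; exact H.mul_mem h1 (H.inv_mem hx₁H)
  let θ : (A ⊓ H : Subgroup G) → (A ⊓ H : Subgroup G) := fun b =>
    ⟨(b : G) * (x * (b : G)⁻¹ * x⁻¹), by
      have hbA := (Subgroup.mem_inf.mp b.2).1
      have hbH := (Subgroup.mem_inf.mp b.2).2
      refine ⟨A.mul_mem hbA (hAn.conj_mem _ (A.inv_mem hbA) x), ?_⟩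
      rw [← hconj _ (A.inv_mem hbA)]
      exact H.mul_mem hbH (H.mul_mem (H.mul_mem hx₁H (H.inv_mem hbH)) (H.inv_mem hx₁H))⟩
  have hθinj : Function.Injective θ := by
    intro b b' h
    apply Subtype.ext
    exact hθ _ (Subgroup.mem_inf.mp b.2).1 _ (Subgroup.mem_inf.mp b'.2).1 (congrArg Subtype.val h)
  obtain ⟨b₀, hb₀⟩ := (Finite.injective_iff_surjective.mp hθinj) ⟨_, ht⟩
  have h1 : (b₀ : G) = a'' :=
    hθ _ (Subgroup.mem_inf.mp b₀.2).1 _ ha''A (congrArg Subtype.val hb₀)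
  have h2 : g = x₁ ^ j * a'' := by rw [ha''def]; group
  rw [h2, ← h1]
  exact H.mul_mem (H.pow_mem hx₁H j) (Subgroup.mem_inf.mp b₀.2).2

theorem forward {G : Type u} [Group G] [Finite G] [Group.IsSolvable G]
    (hnn : ¬ Group.IsNilpotent G)
    (hS : ∀ H : Subgroup G, ¬ IsMulCommutative H → Subgroup.normalizer (H : Set G) = H) :
    ∃ (x : G) (A : Subgroup G) (p : ℕ), p.Prime ∧ A.Normal ∧ IsMulCommutative A ∧
      (∃ k : ℕ, orderOf x = p ^ k) ∧
      ¬ p ∣ Nat.card A ∧ (Subgroup.zpowers x).IsComplement' A ∧ x ^ p ∈ Subgroup.center G ∧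
      ∀ a : G, a ∈ A → a ≠ 1 → x * a * x⁻¹ ≠ a := by
  classical
  haveI : Nontrivial G := by
    by_contra h
    rw [not_nontrivial_iff_subsingleton] at h
    exact hnn inferInstance
  obtain ⟨M, hMn, hMp⟩ := Cfsg.Agent.Lib.helper3.exists_normal_prime_index G
  haveI := hMn
  obtain ⟨p, hpdef⟩ : ∃ p, p = M.index := ⟨_, rfl⟩
  rw [← hpdef] at hMp
  haveI : Fact p.Prime := ⟨hMp⟩
  have hp : p.Prime := hMp
  have hMtop : M ≠ ⊤ := by
    intro h
    rw [h, Subgroup.index_top] at hpdef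
    rw [hpdef] at hMp
    exact Nat.not_prime_one hMp
  have hMc := Cfsg.Agent.S4072.normal_comm hS M hMn hMtop
  obtain ⟨A, hAdef⟩ : ∃ A, A = pPrimePart M hMc p := ⟨_, rfl⟩
  have hAM : A ≤ M := fun a ha => by rw [hAdef] at ha; exact ha.1
  have hAo : ∀ a ∈ A, (orderOf a).Coprime p := fun a ha => by rw [hAdef] at ha; exact ha.2
  have hAmem : ∀ m ∈ M, (orderOf m).Coprime p → m ∈ A := fun m hm ho => by
    rw [hAdef]; exact ⟨hm, ho⟩
  have hAn : A.Normal := by
    constructor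
    intro a ha g
    apply hAmem _ (hMn.conj_mem a (hAM ha) g)
    have h1 : orderOf (g * a * g⁻¹) = orderOf a := by
      have := (MulAut.conj g).orderOf_eq a
      rwa [MulAut.conj_apply] at this
    rw [h1]; exact hAo a ha
  haveI := hAn
  have hAc : ∀ a ∈ A, ∀ b ∈ A, a * b = b * a := fun a ha b hb => hMc a (hAM ha) b (hAM hb)
  have hpA : ¬ p ∣ Nat.card A := by
    intro h
    obtain ⟨a, ha⟩ := exists_prime_orderOf_dvd_card' p h
    have h1 := hAo (a : G) a.2
    rw [Subgroup.orderOf_coe, ha] at h1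
    exact hp.one_lt.ne' ((Nat.coprime_self p).mp h1)
  have hQ : IsPGroup p (G ⧸ A) := by
    intro gb
    obtain ⟨g, rfl⟩ := QuotientGroup.mk_surjective gb
    have hgM : g ^ p ∈ M := by
      rw [hpdef]; exact Subgroup.pow_index_mem M g
    obtain ⟨e, t, ht, hn⟩ := Nat.exists_eq_pow_mul_and_not_dvd (orderOf_pos (g ^ p)).ne' p hp.ne_one
    refine ⟨e + 1, ?_⟩
    rw [← QuotientGroup.mk_pow, QuotientGroup.eq_one_iff]
    have e1 : g ^ p ^ (e + 1) = (g ^ p) ^ (p ^ e) := by rw [← pow_mul, pow_succ']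
    rw [e1]
    apply hAmem _ (M.pow_mem hgM _)
    rw [orderOf_pow_of_dvd (pow_ne_zero _ hp.ne_zero) (by rw [hn]; exact dvd_mul_right _ _), hn,
      Nat.mul_div_cancel_left _ (pow_pos hp.pos e)]
    exact ((Nat.Prime.coprime_iff_not_dvd hp).mpr ht).symm
  haveI : Group.IsNilpotent (G ⧸ A) := hQ.isNilpotent
  obtain ⟨P⟩ : Nonempty (Sylow p G) := inferInstance
  obtain ⟨y, hyP, hyM⟩ : ∃ y ∈ (P : Subgroup G), y ∉ M := by
    by_contra h
    push Not at h
    have h0 : (P : Subgroup G) ≤ M := h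
    have h1 := Subgroup.index_dvd_of_le h0
    rw [← hpdef] at h1
    exact P.not_dvd_index h1
  obtain ⟨k, hk⟩ : ∃ k, orderOf y = p ^ k := exists_orderOf_eq_prime_pow_iff.mpr (by
    obtain ⟨k, hk⟩ := P.2 ⟨y, hyP⟩
    exact ⟨k, by simpa using congrArg Subtype.val hk⟩)
  have hMy : M ⊔ Subgroup.zpowers y = ⊤ :=
    Cfsg.Agent.Lib.helper1.eq_top_of_index_prime_of_lt p hp M _ hpdef.symm le_sup_left y
      (Subgroup.mem_sup_right (Subgroup.mem_zpowers y)) hyM
  have hyA : ∃ a ∈ A, y * a ≠ a * y := by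
    by_contra h
    push Not at h
    apply hnn
    have hAZ : A ≤ Subgroup.center G := by
      intro a ha
      rw [Subgroup.mem_center_iff]
      intro g
      have h1 : M ⊔ Subgroup.zpowers y ≤ Subgroup.centralizer ({a} : Set G) := by
        apply sup_le
        · intro m hm
          rw [Subgroup.mem_centralizer_iff]
          intro h hh
          rw [Set.mem_singleton_iff] at hh
          rw [hh]
          exact hMc a (hAM ha) m hm
        · rw [Subgroup.zpowers_le, Subgroup.mem_centralizer_iff]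
          intro t ht
          rw [Set.mem_singleton_iff] at ht
          rw [ht]
          exact (h a ha).symm
      have h2 : g ∈ Subgroup.centralizer ({a} : Set G) := h1 (hMy ▸ Subgroup.mem_top g)
      exact ((Subgroup.mem_centralizer_iff.mp h2) a (Set.mem_singleton a)).symm
    exact Subgroup.isNilpotent_of_ker_le_center (QuotientGroup.mk' A)
      (by rw [QuotientGroup.ker_mk']; exact hAZ)
  obtain ⟨a₁, ha₁, hya₁⟩ := hyA
  have hAy : A ⊔ Subgroup.zpowers y = ⊤ := by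
    by_contra hne
    have hnc : ¬ IsMulCommutative (A ⊔ Subgroup.zpowers y : Subgroup G) :=
      Cfsg.Agent.S4072.not_comm (Subgroup.mem_sup_right (Subgroup.mem_zpowers y))
        (Subgroup.mem_sup_left ha₁) hya₁
    have h1 := hS _ hnc
    have hsurj := QuotientGroup.mk'_surjective A
    obtain ⟨Hb, hHb⟩ : ∃ Hb, Hb = (A ⊔ Subgroup.zpowers y).map (QuotientGroup.mk' A) := ⟨_, rfl⟩
    have hcomap : Hb.comap (QuotientGroup.mk' A) = A ⊔ Subgroup.zpowers y := by
      rw [hHb, Subgroup.comap_map_eq, QuotientGroup.ker_mk', sup_eq_left]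
      exact le_sup_left
    have hHbtop : Hb ≠ ⊤ := by
      intro h
      apply hne
      rw [← hcomap, h, Subgroup.comap_top]
    have h2 := Group.normalizerCondition_of_isNilpotent (G := G ⧸ A) Hb
      (lt_top_iff_ne_top.mpr hHbtop)
    have h3 : (Subgroup.normalizer (Hb : Set (G ⧸ A))).comap (QuotientGroup.mk' A)
        = Hb.comap (QuotientGroup.mk' A) := by
      rw [Subgroup.comap_normalizer_eq_of_surjective _ hsurj, hcomap]; exact h1
    exact h2.ne (Subgroup.comap_injective hsurj h3).symm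
  have hdisj : Disjoint (Subgroup.zpowers y) A := by
    rw [Subgroup.disjoint_def]
    intro g hgy hgA
    have h1 := orderOf_dvd_of_mem_zpowers hgy
    rw [hk] at h1
    have h2 : (orderOf g).Coprime (p ^ k) := Nat.Coprime.pow_right k (hAo g hgA)
    exact orderOf_eq_one_iff.mp (Nat.Coprime.eq_one_of_dvd h2 h1)
  have hcompl : (Subgroup.zpowers y).IsComplement' A := by
    apply Subgroup.isComplement'_of_disjoint_and_mul_eq_univ hdisj
    rw [← Subgroup.mul_normal, sup_comm, hAy]; rfl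
  have hyp : y ^ p ∈ Subgroup.center G := by
    rw [Subgroup.mem_center_iff]
    intro g
    have hyM' : y ^ p ∈ M := by rw [hpdef]; exact Subgroup.pow_index_mem M y
    have h1 : A ⊔ Subgroup.zpowers y ≤ Subgroup.centralizer ({y ^ p} : Set G) := by
      apply sup_le
      · intro a ha
        rw [Subgroup.mem_centralizer_iff]
        intro t ht
        rw [Set.mem_singleton_iff] at ht
        rw [ht]
        exact hMc _ hyM' a (hAM ha)
      · rw [Subgroup.zpowers_le, Subgroup.mem_centralizer_iff]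
        intro t ht
        rw [Set.mem_singleton_iff] at ht
        rw [ht]
        exact pow_mul_comm' y p
    have h2 : g ∈ Subgroup.centralizer ({y ^ p} : Set G) := h1 (hAy ▸ Subgroup.mem_top g)
    exact ((Subgroup.mem_centralizer_iff.mp h2) _ (Set.mem_singleton _)).symm
  have hK : ∀ a ∈ A, y * (a⁻¹ * (y * a * y⁻¹)) * y⁻¹ = a⁻¹ * (y * a * y⁻¹) →
      a⁻¹ * (y * a * y⁻¹) = 1 := by
    intro a ha hfix
    obtain ⟨b, hb⟩ : ∃ b, b = a⁻¹ * (y * a * y⁻¹) := ⟨_, rfl⟩
    rw [← hb] at hfix ⊢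
    have hbA : b ∈ A := by
      rw [hb]; exact A.mul_mem (A.inv_mem ha) (hAn.conj_mem a ha y)
    have e3 : y * a * y⁻¹ = a * b := by rw [hb]; group
    have hconj : ∀ i : ℕ, y ^ i * a * (y ^ i)⁻¹ = a * b ^ i := by
      intro i
      induction i with
      | zero => simp
      | succ i ih =>
        have e : y ^ (i + 1) * a * (y ^ (i + 1))⁻¹ = y * (y ^ i * a * (y ^ i)⁻¹) * y⁻¹ := by
          rw [pow_succ']; group
        have e2 : y * (a * b ^ i) * y⁻¹ = (y * a * y⁻¹) * (y * b * y⁻¹) ^ i := by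
          rw [conj_pow]; group
        rw [e, ih, e2, hfix, e3, pow_succ', mul_assoc]
    have h1 := hconj p
    have h2 : y ^ p * a * (y ^ p)⁻¹ = a := by
      have := Subgroup.mem_center_iff.mp hyp a
      rw [← this, mul_inv_cancel_right]
    rw [h2] at h1
    have hbp : b ^ p = 1 := by
      have h3 : a * 1 = a * b ^ p := by rw [mul_one]; exact h1
      exact (mul_left_cancel h3).symm
    have h3 := orderOf_dvd_of_pow_eq_one hbp
    have h4 := hAo b hbA
    exact orderOf_eq_one_iff.mp (Nat.Coprime.eq_one_of_dvd h4 h3)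
  have hfpf : ∀ a : G, a ∈ A → a ≠ 1 → y * a * y⁻¹ ≠ a := by
    intro a₀ ha₀ hne hfix
    let B : Subgroup G :=
      { carrier := {g | ∃ a ∈ A, g = a⁻¹ * (y * a * y⁻¹)}
        mul_mem' := by
          rintro _ _ ⟨a, ha, rfl⟩ ⟨a', ha', rfl⟩
          refine ⟨a * a', A.mul_mem ha ha', ?_⟩
          have h1 : (y * a * y⁻¹) * a'⁻¹ = a'⁻¹ * (y * a * y⁻¹) :=
            hAc _ (hAn.conj_mem a ha y) _ (A.inv_mem ha')
          have h2 : a⁻¹ * a'⁻¹ = a'⁻¹ * a⁻¹ := hAc _ (A.inv_mem ha) _ (A.inv_mem ha')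
          calc a⁻¹ * (y * a * y⁻¹) * (a'⁻¹ * (y * a' * y⁻¹))
              = a⁻¹ * ((y * a * y⁻¹) * a'⁻¹) * (y * a' * y⁻¹) := by group
            _ = a⁻¹ * (a'⁻¹ * (y * a * y⁻¹)) * (y * a' * y⁻¹) := by rw [h1]
            _ = (a⁻¹ * a'⁻¹) * (y * (a * a') * y⁻¹) := by group
            _ = (a * a')⁻¹ * (y * (a * a') * y⁻¹) := by rw [h2, mul_inv_rev]
        one_mem' := ⟨1, A.one_mem, by simp⟩
        inv_mem' := by
          rintro _ ⟨a, ha, rfl⟩
          refine ⟨a⁻¹, A.inv_mem ha, ?_⟩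
          have h1 : a⁻¹ * (y * a * y⁻¹) = (y * a * y⁻¹) * a⁻¹ :=
            hAc _ (A.inv_mem ha) _ (hAn.conj_mem a ha y)
          rw [h1]; group }
    have hBA : B ≤ A := by
      rintro _ ⟨a, ha, rfl⟩
      exact A.mul_mem (A.inv_mem ha) (hAn.conj_mem a ha y)
    have hBn : B.Normal := by
      have h1 : A ⊔ Subgroup.zpowers y ≤ Subgroup.normalizer (B : Set G) := by
        apply sup_le
        · intro a ha
          apply Subgroup.centralizer_le_normalizer
          rw [Subgroup.mem_centralizer_iff]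
          intro h hh
          exact hAc h (hBA hh) a ha
        · rw [Subgroup.zpowers_le, Subgroup.mem_normalizer_iff]
          intro h
          constructor
          · rintro ⟨a, ha, rfl⟩
            exact ⟨y * a * y⁻¹, hAn.conj_mem a ha y, by group⟩
          · rintro ⟨a, ha, hh⟩
            refine ⟨y⁻¹ * a * y, ?_, ?_⟩
            · have := hAn.conj_mem a ha y⁻¹
              rwa [inv_inv] at this
            · have e : h = y⁻¹ * (y * h * y⁻¹) * y := by group
              rw [e, hh]; group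
      rw [← Subgroup.normalizer_eq_top_iff]
      exact top_le_iff.mp (hAy ▸ h1)
    haveI := hBn
    have hb₁B : a₁⁻¹ * (y * a₁ * y⁻¹) ∈ B := ⟨a₁, ha₁, rfl⟩
    have hb₁ne : a₁⁻¹ * (y * a₁ * y⁻¹) ≠ 1 := by
      intro h
      apply hya₁
      have h1 : y * a₁ * y⁻¹ = a₁ := by
        calc y * a₁ * y⁻¹ = a₁ * (a₁⁻¹ * (y * a₁ * y⁻¹)) := by group
          _ = a₁ := by rw [h, mul_one]
      calc y * a₁ = (y * a₁ * y⁻¹) * y := by group
        _ = a₁ * y := by rw [h1]
    have hyb₁ : y * (a₁⁻¹ * (y * a₁ * y⁻¹)) ≠ (a₁⁻¹ * (y * a₁ * y⁻¹)) * y := by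
      intro h
      apply hb₁ne
      apply hK a₁ ha₁
      rw [h, mul_inv_cancel_right]
    have hnc : ¬ IsMulCommutative (B ⊔ Subgroup.zpowers y : Subgroup G) :=
      Cfsg.Agent.S4072.not_comm (Subgroup.mem_sup_right (Subgroup.mem_zpowers y))
        (Subgroup.mem_sup_left hb₁B) hyb₁
    have h1 := hS _ hnc
    have ha₀N : a₀ ∈ Subgroup.normalizer ((B ⊔ Subgroup.zpowers y : Subgroup G) : Set G) := by
      apply Subgroup.centralizer_le_normalizer
      rw [Subgroup.mem_centralizer_iff]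
      intro h hh
      have h2 : B ⊔ Subgroup.zpowers y ≤ Subgroup.centralizer ({a₀} : Set G) := by
        apply sup_le
        · intro b hb
          rw [Subgroup.mem_centralizer_iff]
          intro t ht
          rw [Set.mem_singleton_iff] at ht
          rw [ht]
          exact hAc a₀ ha₀ b (hBA hb)
        · rw [Subgroup.zpowers_le, Subgroup.mem_centralizer_iff]
          intro t ht
          rw [Set.mem_singleton_iff] at ht
          rw [ht]
          calc a₀ * y = (y * a₀ * y⁻¹) * y := by rw [hfix]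
            _ = y * a₀ := by group
      exact ((Subgroup.mem_centralizer_iff.mp (h2 hh)) a₀ (Set.mem_singleton a₀)).symm
    rw [h1] at ha₀N
    have hmem : a₀ ∈ ((B ⊔ Subgroup.zpowers y : Subgroup G) : Set G) := ha₀N
    rw [Subgroup.normal_mul, Set.mem_mul] at hmem
    obtain ⟨b, hb, u, hu, hbu⟩ := hmem
    have hu1 : u = 1 := by
      have huA : u ∈ A := by
        have e : u = b⁻¹ * a₀ := by rw [← hbu]; group
        rw [e]; exact A.mul_mem (A.inv_mem (hBA hb)) ha₀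
      exact Subgroup.disjoint_def.mp hdisj hu huA
    rw [hu1, mul_one] at hbu
    rw [← hbu] at hne hfix
    obtain ⟨a, ha, rfl⟩ := hb
    exact hne (hK a ha hfix)
  exact ⟨y, A, p, hp, hAn, ⟨⟨fun a b => Subtype.ext (hAc a a.2 b b.2)⟩⟩, ⟨k, hk⟩, hpA, hcompl,
    hyp, hfpf⟩

/-- Let G be a finite solvable non-nilpotent group. Every non-abelian subgroup of G is self-normalizing if and only if G is a semidirect product ⟨x⟩ ⋉ A in which ⟨x⟩ is a p-group for some prime p, A is a normal abelian subgroup of order prime to p, x^p is central in G, and x acts fixed-point-freely on A (no non-identity element of A commutes with x). -/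
theorem result {G : Type*} [Group G] [Finite G]
    [Group.IsSolvable G] (hnn : ¬ Group.IsNilpotent G) :
    (∀ H : Subgroup G, ¬ IsMulCommutative H → Subgroup.normalizer (H : Set G) = H) ↔
    ∃ (x : G) (A : Subgroup G) (p : ℕ), p.Prime ∧ A.Normal ∧ IsMulCommutative A ∧ (∃ k : ℕ, orderOf x = p ^ k) ∧
      ¬ p ∣ Nat.card A ∧ (Subgroup.zpowers x).IsComplement' A ∧ x ^ p ∈ Subgroup.center G ∧
      ∀ a : G, a ∈ A → a ≠ 1 → x * a * x⁻¹ ≠ a := by
  constructor
  · intro hS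
    exact forward hnn hS
  · rintro ⟨x, A, p, hp, hAn, hAc, hk, -, hcompl, hxp, hfpf⟩
    exact backward x A p hp hAn hAc hk hcompl hxp hfpf

end Cfsg.Agent.S4071
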