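import Cfsg.Statements.S4074
import Mathlib

set_option autoImplicit false
open Cfsg

namespace Cfsg.Agent.S4074

open DihedralGroup

/-- The subgroup of "even" elements of a dihedral group of even degree. -/
def evenSub (n : ℕ) (h2 : 2 ∣ n) : Subgroup (DihedralGroup n) where
  carrier := {g | match g with
    | r i => ZMod.castHom h2 (ZMod 2) i = 0
    | sr i => ZMod.castHom h2 (ZMod 2) i = 0}
  one_mem' := by
    change ZMod.castHom h2 (ZMod 2) 0 = 0
    simp
  mul_mem' := by
    rintro (a | a) (b | b) ha hb
    · change ZMod.castHom h2 (ZMod 2) (a + b) = 0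
      have ha' : ZMod.castHom h2 (ZMod 2) a = 0 := ha
      have hb' : ZMod.castHom h2 (ZMod 2) b = 0 := hb
      rw [map_add, ha', hb', add_zero]
    · change ZMod.castHom h2 (ZMod 2) (b - a) = 0
      have ha' : ZMod.castHom h2 (ZMod 2) a = 0 := ha
      have hb' : ZMod.castHom h2 (ZMod 2) b = 0 := hb
      rw [map_sub, ha', hb', sub_zero]
    · change ZMod.castHom h2 (ZMod 2) (a + b) = 0
      have ha' : ZMod.castHom h2 (ZMod 2) a = 0 := ha
      have hb' : ZMod.castHom h2 (ZMod 2) b = 0 := hb
      rw [map_add, ha', hb', add_zero]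
    · change ZMod.castHom h2 (ZMod 2) (b - a) = 0
      have ha' : ZMod.castHom h2 (ZMod 2) a = 0 := ha
      have hb' : ZMod.castHom h2 (ZMod 2) b = 0 := hb
      rw [map_sub, ha', hb', sub_zero]
  inv_mem' := by
    rintro (a | a) ha
    · change ZMod.castHom h2 (ZMod 2) (-a) = 0
      have ha' : ZMod.castHom h2 (ZMod 2) a = 0 := ha
      rw [map_neg, ha', neg_zero]
    · exact ha

theorem r_mem_of_sq {n : ℕ} (hn : Odd n) (H : Subgroup (DihedralGroup n)) (j : ZMod n)
    (h : r (2 * j) ∈ H) : r j ∈ H := by
  obtain ⟨m, hm⟩ := hn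
  have h0 : ((2 * m + 1 : ℕ) : ZMod n) = 0 := by
    rw [← hm]; exact ZMod.natCast_self n
  have h1 : (r (2 * j)) ^ (m + 1) ∈ H := Subgroup.pow_mem _ h _
  rw [r_pow] at h1
  have e : 2 * j * ((m + 1 : ℕ) : ZMod n) = j := by
    push_cast at h0 ⊢
    linear_combination j * h0
  rw [e] at h1
  exact h1

/-- For n > 2, every non-abelian subgroup of the dihedral group of order 2n is self-normalizing if and only if n = 4 or n is odd. -/
theorem result (n : ℕ) (hn : 2 < n) :
    (∀ H : Subgroup (DihedralGroup n), ¬ IsMulCommutative H → Subgroup.normalizer (H : Set (DihedralGroup n)) = H) ↔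
    (n = 4 ∨ Odd n) := by
  haveI : NeZero n := ⟨by omega⟩
  constructor
  · intro h
    by_contra hcon
    simp only [not_or] at hcon
    obtain ⟨hn4, hodd⟩ := hcon
    have heven : Even n := Nat.not_odd_iff_even.mp hodd
    have h2 : 2 ∣ n := even_iff_two_dvd.mp heven
    have hn6 : 6 ≤ n := by
      obtain ⟨k, hk⟩ := h2
      omega
    set H : Subgroup (DihedralGroup n) := Subgroup.closure {r 2, sr 0} with hH
    have hr2 : (r 2 : DihedralGroup n) ∈ H := Subgroup.subset_closure (by simp)
    have hs0 : (sr 0 : DihedralGroup n) ∈ H := Subgroup.subset_closure (by simp)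
    have hnc : ¬ IsMulCommutative H := by
      intro hc
      have := hc.is_comm.comm (⟨r 2, hr2⟩ : H) ⟨sr 0, hs0⟩
      have h3 : (r 2 : DihedralGroup n) * sr 0 = sr 0 * r 2 := congrArg Subtype.val this
      rw [r_mul_sr, sr_mul_r] at h3
      have h4 : (0 : ZMod n) - 2 = 0 + 2 := by
        injection h3
      have h5 : ((4 : ℕ) : ZMod n) = 0 := by
        push_cast
        linear_combination -h4
      rw [ZMod.natCast_eq_zero_iff] at h5
      have := Nat.le_of_dvd (by norm_num) h5
      omega
    have hN := h H hnc
    have hle : H ≤ evenSub n h2 := by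
      rw [hH, Subgroup.closure_le]
      rintro g (rfl | rfl)
      · change ZMod.castHom h2 (ZMod 2) 2 = 0
        rw [map_ofNat]
        rfl
      · change ZMod.castHom h2 (ZMod 2) 0 = 0
        simp
    have hconj1 : ∀ g ∈ H, r 1 * g * (r 1)⁻¹ ∈ H := by
      have hle1 : H ≤ H.comap (MulAut.conj (r 1 : DihedralGroup n)).toMonoidHom := by
        rw [hH, Subgroup.closure_le]
        rintro g (rfl | rfl)
        · change r 1 * r 2 * (r 1)⁻¹ ∈ Subgroup.closure {r 2, sr 0}
          rw [inv_r, r_mul_r, r_mul_r]
          have : (1 : ZMod n) + 2 + -1 = 2 := by ring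
          rw [this]
          exact hr2
        · change r 1 * sr 0 * (r 1)⁻¹ ∈ Subgroup.closure {r 2, sr 0}
          rw [inv_r, r_mul_sr, sr_mul_r]
          have : (r 2 : DihedralGroup n) * sr 0 = sr (0 - 1 + -1) := by
            rw [r_mul_sr]; congr 1; ring
          rw [← this]
          exact Subgroup.mul_mem _ hr2 hs0
      intro g hg
      exact hle1 hg
    have hconj2 : ∀ g ∈ H, (r 1)⁻¹ * g * r 1 ∈ H := by
      have hle2 : H ≤ H.comap (MulAut.conj ((r 1)⁻¹ : DihedralGroup n)).toMonoidHom := by
        rw [hH, Subgroup.closure_le]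
        rintro g (rfl | rfl)
        · change (r 1)⁻¹ * r 2 * (r 1)⁻¹⁻¹ ∈ Subgroup.closure {r 2, sr 0}
          rw [inv_inv, inv_r, r_mul_r, r_mul_r]
          have : -(1 : ZMod n) + 2 + 1 = 2 := by ring
          rw [this]
          exact hr2
        · change (r 1)⁻¹ * sr 0 * (r 1)⁻¹⁻¹ ∈ Subgroup.closure {r 2, sr 0}
          rw [inv_inv, inv_r, r_mul_sr, sr_mul_r]
          have : (sr 0 : DihedralGroup n) * r 2 = sr (0 - -1 + 1) := by
            rw [sr_mul_r]; congr 1; ring
          rw [← this]
          exact Subgroup.mul_mem _ hs0 hr2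
      intro g hg
      have := hle2 hg
      rw [Subgroup.mem_comap] at this
      simpa using this
    have hr1N : (r 1 : DihedralGroup n) ∈ Subgroup.normalizer (H : Set (DihedralGroup n)) := by
      rw [Subgroup.mem_set_normalizer_iff]
      intro g
      constructor
      · exact hconj1 g
      · intro hg
        have := hconj2 _ hg
        have e : (r 1 : DihedralGroup n)⁻¹ * (r 1 * g * (r 1)⁻¹) * r 1 = g := by group
        rwa [e] at this
    rw [hN] at hr1N
    have h1 : ZMod.castHom h2 (ZMod 2) 1 = 0 := hle hr1N
    rw [map_one] at h1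
    exact one_ne_zero h1
  · rintro (rfl | hodd) H hH
    · -- n = 4
      by_cases hHt : H = ⊤
      · rw [hHt, eq_top_iff]
        exact Subgroup.le_normalizer
      · exfalso
        apply hH
        have hcard : Nat.card H ∣ 2 ^ 3 := by
          have := Subgroup.card_subgroup_dvd_card H
          rwa [DihedralGroup.nat_card] at this
        obtain ⟨m, hm, hm'⟩ := (Nat.dvd_prime_pow Nat.prime_two).mp hcard
        haveI : Fact (Nat.Prime 2) := ⟨Nat.prime_two⟩
        interval_cases m
        · rw [pow_zero] at hm'
          haveI : Subsingleton H := (Nat.card_eq_one_iff_unique.mp hm').1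
          exact ⟨⟨fun a b => Subsingleton.elim _ _⟩⟩
        · rw [pow_one] at hm'
          haveI : IsCyclic H := isCyclic_of_prime_card hm'
          infer_instance
        · exact IsPGroup.isMulCommutative_of_card_eq_prime_sq hm'
        · exfalso
          apply hHt
          apply Subgroup.eq_top_of_card_eq
          rw [hm', DihedralGroup.nat_card]
          norm_num
    · -- n odd
      apply le_antisymm _ Subgroup.le_normalizer
      have hsr : ∃ i : ZMod n, sr i ∈ H := by
        by_contra hcon
        simp only [not_exists] at hcon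
        apply hH
        refine ⟨⟨fun a b => ?_⟩⟩
        obtain ⟨a, ha⟩ := a
        obtain ⟨b, hb⟩ := b
        apply Subtype.ext
        cases a with
        | r i =>
          cases b with
          | r j =>
            change r i * r j = r j * r i
            rw [r_mul_r, r_mul_r, add_comm]
          | sr j => exact absurd hb (hcon j)
        | sr i => exact absurd ha (hcon i)
      obtain ⟨i, hi⟩ := hsr
      intro g hg
      have hg' := Subgroup.mem_set_normalizer_iff.mp hg
      cases g with
      | r j =>
        have h1 : r j * sr i * (r j)⁻¹ ∈ H := (hg' _).mp hi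
        rw [inv_r, r_mul_sr, sr_mul_r] at h1
        have h2 : sr (i - j + -j) * sr i ∈ H := Subgroup.mul_mem _ h1 hi
        rw [sr_mul_sr] at h2
        have e : i - (i - j + -j) = 2 * j := by ring
        rw [e] at h2
        exact r_mem_of_sq hodd H j h2
      | sr j =>
        have h1 : sr j * sr i * (sr j)⁻¹ ∈ H := (hg' _).mp hi
        rw [inv_sr, sr_mul_sr, r_mul_sr] at h1
        have h2 : sr i * sr (j - (i - j)) ∈ H := Subgroup.mul_mem _ hi h1
        rw [sr_mul_sr] at h2
        have e : j - (i - j) - i = 2 * (j - i) := by ring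
        rw [e] at h2
        have h3 := r_mem_of_sq hodd H (j - i) h2
        have h4 : sr i * r (j - i) ∈ H := Subgroup.mul_mem _ hi h3
        rw [sr_mul_r] at h4
        have e2 : i + (j - i) = j := by ring
        rw [e2] at h4
        exact h4

end Cfsg.Agent.S4074
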