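import Cfsg.Statements.S4075
import Mathlib

set_option autoImplicit false
open Cfsg

namespace Cfsg.Agent.S4075

/-- Let G be a finite nilpotent group. Every non-abelian subgroup of G is self-normalizing if and only if G is abelian or G is a minimal non-abelian p-group for some prime p (non-abelian of prime-power order with every proper subgroup abelian). -/
theorem result {G : Type*} [Group G] [Finite G]
    [Group.IsNilpotent G] :
    (∀ H : Subgroup G, ¬ IsMulCommutative H → Subgroup.normalizer (H : Set G) = H) ↔
    (IsMulCommutative G ∨ (IsPrimePow (Nat.card G) ∧ ¬ IsMulCommutative G ∧ ∀ H : Subgroup G, H ≠ ⊤ → IsMulCommutative H)) := by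
  classical
  constructor
  · intro h
    have hprop : ∀ H : Subgroup G, H ≠ ⊤ → IsMulCommutative H := by
      intro H hH
      by_contra hnc
      have h1 := h H hnc
      have hnc' : NormalizerCondition G := Group.normalizerCondition_of_isNilpotent
      have h2 := hnc' H (lt_top_iff_ne_top.mpr hH)
      rw [h1] at h2
      exact lt_irrefl _ h2
    by_cases hab : IsMulCommutative G
    · left; exact hab
    · right
      refine ⟨?_, hab, hprop⟩
      by_contra hnpp
      apply hab
      obtain ⟨e⟩ := ((Group.isNilpotent_of_finite_tfae (G := G)).out 0 4 rfl rfl).mp inferInstance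
      refine ⟨⟨fun x y => ?_⟩⟩
      obtain ⟨a, rfl⟩ := e.surjective x
      obtain ⟨b, rfl⟩ := e.surjective y
      rw [← map_mul, ← map_mul]
      congr 1
      funext p
      funext P
      rw [Pi.mul_apply, Pi.mul_apply, Pi.mul_apply, Pi.mul_apply]
      have hpp : (p : ℕ).Prime := Nat.prime_of_mem_primeFactors p.2
      haveI : Fact (p : ℕ).Prime := ⟨hpp⟩
      have hPtop : (P : Subgroup G) ≠ ⊤ := by
        intro htop
        apply hnpp
        obtain ⟨k, hk⟩ := IsPGroup.iff_card.mp P.2
        rw [htop, Subgroup.card_top] at hk
        rw [hk]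
        rcases Nat.eq_zero_or_pos k with h0 | h0
        · exfalso
          rw [h0, pow_zero] at hk
          have hdvd : (p : ℕ) ∣ Nat.card G := Nat.dvd_of_mem_primeFactors p.2
          have hdvd' : (p : ℕ) ∣ 1 := hk ▸ hdvd
          exact hpp.one_lt.ne' (Nat.dvd_one.mp hdvd')
        · exact hpp.isPrimePow.pow h0.ne'
      have := hprop _ hPtop
      exact this.is_comm.comm _ _
  · rintro (hab | ⟨-, -, hprop⟩) H hH
    · exfalso
      apply hH
      exact ⟨⟨fun a b => Subtype.ext (hab.is_comm.comm (a : G) (b : G))⟩⟩
    · by_cases hHt : H = ⊤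
      · rw [hHt]
        rw [eq_top_iff]
        exact Subgroup.le_normalizer
      · exact absurd (hprop H hHt) hH

end Cfsg.Agent.S4075
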