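import Cfsg.Statements.S4080
import Mathlib

set_option autoImplicit false
open Cfsg

namespace Cfsg.Agent.S4080

open Matrix

/-- Cayley–Hamilton for `2 × 2` matrices. -/
theorem ch2 {S : Type*} [CommRing S] (N : Matrix (Fin 2) (Fin 2) S) :
    N * N = (N 0 0 + N 1 1) • N - (N 0 0 * N 1 1 - N 0 1 * N 1 0) • (1 : Matrix (Fin 2) (Fin 2) S) := by
  ext i j
  fin_cases i <;> fin_cases j <;>
    simp [Matrix.mul_apply, Fin.sum_univ_two, Matrix.one_apply] <;> ring

theorem pow_of_sq {S : Type*} [CommRing S] (N : Matrix (Fin 2) (Fin 2) S) (t : S)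
    (h : N * N = t • N) : ∀ k : ℕ, N ^ (k + 1) = t ^ k • N := by
  intro k
  induction k with
  | zero => simp
  | succ k ih =>
    rw [pow_succ N, ih, Matrix.smul_mul, h, smul_smul, pow_succ t]

/-- A nilpotent `2 × 2` matrix over a field has trace and determinant zero. -/
theorem nil2 {K : Type*} [Field K] (N : Matrix (Fin 2) (Fin 2) K) (n : ℕ) (h : N ^ (n + 1) = 0) :
    N 0 0 + N 1 1 = 0 ∧ N 0 0 * N 1 1 - N 0 1 * N 1 0 = 0 := by
  have hdet : N 0 0 * N 1 1 - N 0 1 * N 1 0 = 0 := by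
    have h1 : N.det ^ (n + 1) = 0 := by rw [← Matrix.det_pow, h, Matrix.det_zero]
    have h2 : N.det = 0 := by simpa using h1
    rwa [Matrix.det_fin_two] at h2
  refine ⟨?_, hdet⟩
  have hsq : N * N = (N 0 0 + N 1 1) • N := by
    rw [ch2 N, hdet, zero_smul, sub_zero]
  have h3 := pow_of_sq N _ hsq n
  rw [h] at h3
  rcases smul_eq_zero.mp h3.symm with h4 | h4
  · by_cases hn : n = 0
    · subst hn
      rw [pow_one] at h
      rw [h]; simp
    · exact (pow_eq_zero_iff hn).mp h4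
  · rw [h4]; simp

theorem dvd_of_cast_zero {p : ℕ} [Fact p.Prime] (t : ZMod (p ^ 2))
    (h : ZMod.castHom (dvd_pow_self p two_ne_zero) (ZMod p) t = 0) :
    ∃ t' : ZMod (p ^ 2), t = (p : ZMod (p ^ 2)) * t' := by
  have : NeZero (p ^ 2) := ⟨pow_ne_zero 2 (Fact.out : p.Prime).ne_zero⟩
  have h1 : t = ((t.val : ℕ) : ZMod (p ^ 2)) := (ZMod.natCast_zmod_val t).symm
  rw [h1, map_natCast, ZMod.natCast_eq_zero_iff] at h
  obtain ⟨k, hk⟩ := h
  refine ⟨(k : ZMod (p ^ 2)), ?_⟩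
  rw [h1, hk]; push_cast; ring

theorem dvd_of_mul_zero {p : ℕ} [Fact p.Prime] (t : ZMod (p ^ 2))
    (h : (p : ZMod (p ^ 2)) * t = 0) :
    ∃ t' : ZMod (p ^ 2), t = (p : ZMod (p ^ 2)) * t' := by
  have : NeZero (p ^ 2) := ⟨pow_ne_zero 2 (Fact.out : p.Prime).ne_zero⟩
  have hp : 0 < p := (Fact.out : p.Prime).pos
  have h1 : t = ((t.val : ℕ) : ZMod (p ^ 2)) := (ZMod.natCast_zmod_val t).symm
  rw [h1, ← Nat.cast_mul, ZMod.natCast_eq_zero_iff] at h
  have h2 : p ∣ t.val := by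
    have h' : p * p ∣ p * t.val := (dvd_of_eq (pow_two p).symm).trans h
    exact (Nat.mul_dvd_mul_iff_left hp).mp h'
  obtain ⟨k, hk⟩ := h2
  refine ⟨(k : ZMod (p ^ 2)), ?_⟩
  rw [h1, hk]; push_cast; ring

/-- The matrix computation: `(N + 1) ^ p = 1` over `ZMod (p ^ 2)`, `p ≥ 5`, forces `p • N = 0`. -/
theorem key {p : ℕ} [Fact p.Prime] (hp : 3 < p) (N : Matrix (Fin 2) (Fin 2) (ZMod (p ^ 2)))
    (hA : (N + 1) ^ p = 1) : N * (p : Matrix (Fin 2) (Fin 2) (ZMod (p ^ 2))) = 0 := by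
  have hpp : p.Prime := Fact.out
  obtain ⟨f, hf⟩ : ∃ f : ZMod (p ^ 2) →+* ZMod p,
      f = ZMod.castHom (dvd_pow_self p two_ne_zero) (ZMod p) := ⟨_, rfl⟩
  have hp2 : (p : ZMod (p ^ 2)) * (p : ZMod (p ^ 2)) = 0 := by
    have : ((p ^ 2 : ℕ) : ZMod (p ^ 2)) = 0 := ZMod.natCast_self (p ^ 2)
    rw [← this]; push_cast; ring
  -- reduction mod p
  have hbar : (f.mapMatrix N) ^ p = 0 := by
    have h1 : (f.mapMatrix (N + 1)) ^ p = 1 := by rw [← map_pow, hA, map_one]
    rw [map_add, map_one] at h1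
    have h2 := add_pow_char_of_commute p (Commute.one_right (f.mapMatrix N))
    rw [h1, one_pow] at h2
    exact (add_eq_right.mp h2.symm)
  obtain ⟨n, hn⟩ : ∃ n, p = n + 1 := ⟨p - 1, by omega⟩
  have hnil := nil2 (f.mapMatrix N) n (by rw [← hn]; exact hbar)
  have htr : f (N 0 0 + N 1 1) = 0 := by
    have := hnil.1
    simpa [RingHom.mapMatrix_apply, Matrix.map_apply] using this
  have hdet : f (N 0 0 * N 1 1 - N 0 1 * N 1 0) = 0 := by
    have := hnil.2
    simpa [RingHom.mapMatrix_apply, Matrix.map_apply] using this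
  rw [hf] at htr hdet
  obtain ⟨τ, hτ⟩ := dvd_of_cast_zero _ htr
  obtain ⟨δ, hδ⟩ := dvd_of_cast_zero _ hdet
  obtain ⟨K, hK⟩ : ∃ K : Matrix (Fin 2) (Fin 2) (ZMod (p ^ 2)),
      K = τ • N - δ • (1 : Matrix (Fin 2) (Fin 2) (ZMod (p ^ 2))) := ⟨_, rfl⟩
  have hNN : N * N = (p : ZMod (p ^ 2)) • K := by
    rw [ch2 N, hτ, hδ, hK, smul_sub, smul_smul, smul_smul]
  have hpNN : (p : ZMod (p ^ 2)) • (N * N) = 0 := by
    rw [hNN, smul_smul, hp2, zero_smul]
  have hN4 : N ^ 4 = 0 := by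
    have : N ^ 4 = (N * N) * (N * N) := by
      rw [show (4 : ℕ) = 2 + 2 from rfl, pow_add N, pow_two N]
    rw [this, hNN, Matrix.smul_mul, Matrix.mul_smul, smul_smul, hp2, zero_smul]
  have hpk : ∀ k : ℕ, 2 ≤ k → (p : ZMod (p ^ 2)) • N ^ k = 0 := by
    intro k hk
    obtain ⟨j, rfl⟩ : ∃ j, k = 2 + j := ⟨k - 2, by omega⟩
    rw [pow_add N, pow_two N, ← Matrix.smul_mul, hpNN, zero_mul]
  have hNp : N ^ p = 0 := by
    have : N ^ p = N ^ 4 * N ^ (p - 4) := by
      rw [← pow_add N]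
      congr 1
      omega
    rw [this, hN4, zero_mul]
  -- binomial expansion
  have hexp := (Commute.one_right N).add_pow p
  rw [hA] at hexp
  have hsum : ∑ m ∈ Finset.range (p + 1), N ^ m * 1 ^ (p - m) *
        (p.choose m : Matrix (Fin 2) (Fin 2) (ZMod (p ^ 2)))
      = N ^ 0 * 1 ^ (p - 0) * (p.choose 0 : Matrix (Fin 2) (Fin 2) (ZMod (p ^ 2))) +
        N ^ 1 * 1 ^ (p - 1) * (p.choose 1 : Matrix (Fin 2) (Fin 2) (ZMod (p ^ 2))) := by
    apply Finset.sum_eq_add_of_mem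
    · simp
    · simp; omega
    · exact zero_ne_one
    · intro m hm hne
      rw [Finset.mem_range] at hm
      rw [one_pow, mul_one]
      by_cases hmp : m = p
      · rw [hmp, hNp, zero_mul]
      · have hdvd : p ∣ p.choose m := hpp.dvd_choose_self hne.1 (by omega)
        obtain ⟨c, hc⟩ := hdvd
        rw [hc]
        push_cast
        rw [← mul_assoc]
        have h5 : N ^ m * (p : Matrix (Fin 2) (Fin 2) (ZMod (p ^ 2))) = (p : ZMod (p ^ 2)) • N ^ m := by
          rw [Nat.cast_smul_eq_nsmul, nsmul_eq_mul']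
        rw [h5, hpk m (by omega), zero_mul]
  rw [hsum] at hexp
  simp only [pow_zero, one_pow, mul_one, Nat.choose_zero_right, Nat.cast_one, pow_one,
    Nat.choose_one_right] at hexp
  have := hexp
  rw [eq_comm, add_eq_left] at this
  exact this

/-- the action of a matrix on pairs -/
def act {S : Type*} [CommRing S] (B : Matrix (Fin 2) (Fin 2) S) (m : S × S) : S × S :=
  (B 0 0 * m.1 + B 0 1 * m.2, B 1 0 * m.1 + B 1 1 * m.2)

theorem act_mul {S : Type*} [CommRing S] (B C : Matrix (Fin 2) (Fin 2) S) (m : S × S) :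
    act (B * C) m = act B (act C m) := by
  unfold act
  ext <;> simp [Matrix.mul_apply, Fin.sum_univ_two] <;> ring

theorem act_one {S : Type*} [CommRing S] (m : S × S) :
    act (1 : Matrix (Fin 2) (Fin 2) S) m = m := by
  unfold act
  ext <;> simp

/-- Let p > 3 be a prime and L the direct product of two cyclic groups of order p². Every automorphism of L of order p fixes every element of order p of L. -/
theorem result {p : ℕ} [Fact p.Prime] (hp : 3 < p)
    (a : MulAut (Multiplicative (ZMod (p ^ 2) × ZMod (p ^ 2)))) (ha : orderOf a = p)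
    (x : Multiplicative (ZMod (p ^ 2) × ZMod (p ^ 2))) (hx : orderOf x = p) : a x = x := by
  have hne : NeZero (p ^ 2) := ⟨pow_ne_zero 2 (Fact.out : p.Prime).ne_zero⟩
  obtain ⟨g, hg⟩ : ∃ g : ZMod (p ^ 2) × ZMod (p ^ 2) → ZMod (p ^ 2) × ZMod (p ^ 2),
      g = fun m => Multiplicative.toAdd (a (Multiplicative.ofAdd m)) := ⟨_, rfl⟩
  have hadd : ∀ m n : ZMod (p ^ 2) × ZMod (p ^ 2), g (m + n) = g m + g n := by
    intro m n
    rw [hg]
    show Multiplicative.toAdd (a (Multiplicative.ofAdd (m + n))) = _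
    rw [ofAdd_add, map_mul, toAdd_mul]
  obtain ⟨gh, hgh⟩ : ∃ gh : ZMod (p ^ 2) × ZMod (p ^ 2) →+ ZMod (p ^ 2) × ZMod (p ^ 2),
      ∀ m, gh m = g m := ⟨AddMonoidHom.mk' g hadd, fun m => rfl⟩
  obtain ⟨A, hA⟩ : ∃ A : Matrix (Fin 2) (Fin 2) (ZMod (p ^ 2)),
      A = !![(g (1, 0)).1, (g (0, 1)).1; (g (1, 0)).2, (g (0, 1)).2] := ⟨_, rfl⟩
  have hgA : ∀ m : ZMod (p ^ 2) × ZMod (p ^ 2), g m = act A m := by
    intro m
    have h1 : m = m.1.val • ((1 : ZMod (p ^ 2)), (0 : ZMod (p ^ 2))) +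
        m.2.val • ((0 : ZMod (p ^ 2)), (1 : ZMod (p ^ 2))) := by
      ext <;> simp
    have h2 : g m = m.1.val • g (1, 0) + m.2.val • g (0, 1) := by
      conv_lhs => rw [h1]
      rw [← hgh, map_add, map_nsmul, map_nsmul, hgh, hgh]
    rw [h2]
    unfold act
    ext <;> simp [hA] <;> ring
  have hiter : ∀ (k : ℕ) (m : ZMod (p ^ 2) × ZMod (p ^ 2)),
      Multiplicative.toAdd ((a ^ k) (Multiplicative.ofAdd m)) = act (A ^ k) m := by
    intro k
    induction k with
    | zero => intro m; simp [act_one]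
    | succ k ih =>
      intro m
      rw [pow_succ a k, MulAut.mul_apply, pow_succ A k, act_mul, ← hgA]
      have := ih (g m)
      rw [← this, hg]
      rfl
  have hap : a ^ p = 1 := by
    have := pow_orderOf_eq_one a
    rwa [ha] at this
  have hAp : A ^ p = 1 := by
    have h1 : ∀ m : ZMod (p ^ 2) × ZMod (p ^ 2), act (A ^ p) m = m := by
      intro m
      rw [← hiter, hap]
      rfl
    have e1 := h1 (1, 0)
    have e2 := h1 (0, 1)
    unfold act at e1 e2
    simp only [mul_one, mul_zero, add_zero, zero_add, Prod.mk.injEq] at e1 e2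
    ext i j
    fin_cases i <;> fin_cases j <;> simp [e1.1, e1.2, e2.1, e2.2]
  have hk := key hp (A - 1) (by rw [sub_add_cancel]; exact hAp)
  -- the element x
  obtain ⟨m, hm⟩ : ∃ m : ZMod (p ^ 2) × ZMod (p ^ 2), m = Multiplicative.toAdd x := ⟨_, rfl⟩
  have hxm : p • m = 0 := by
    have : x ^ p = 1 := by
      have := pow_orderOf_eq_one x
      rwa [hx] at this
    have h2 := congrArg Multiplicative.toAdd this
    rw [toAdd_pow, toAdd_one] at h2
    rw [hm]; exact h2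
  have hm1 : (p : ZMod (p ^ 2)) * m.1 = 0 := by
    have := congrArg Prod.fst hxm
    simpa using this
  have hm2 : (p : ZMod (p ^ 2)) * m.2 = 0 := by
    have := congrArg Prod.snd hxm
    simpa using this
  obtain ⟨y1, hy1⟩ := dvd_of_mul_zero _ hm1
  obtain ⟨y2, hy2⟩ := dvd_of_mul_zero _ hm2
  have hent : ∀ i j, (A i j - (1 : Matrix (Fin 2) (Fin 2) (ZMod (p ^ 2))) i j) * (p : ZMod (p ^ 2)) = 0 := by
    intro i j
    have := congrFun (congrFun hk i) j
    rw [← nsmul_eq_mul', Matrix.smul_apply] at this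
    simpa [mul_comm] using this
  have hgm : g m = m := by
    rw [hgA]
    unfold act
    have h00 := hent 0 0
    have h01 := hent 0 1
    have h10 := hent 1 0
    have h11 := hent 1 1
    simp only [Matrix.one_apply_eq, Matrix.one_apply_ne, ne_eq, Fin.isValue, zero_ne_one,
      one_ne_zero, not_false_eq_true, sub_zero] at h00 h01 h10 h11
    ext
    · show A 0 0 * m.1 + A 0 1 * m.2 = m.1
      rw [hy1, hy2]
      linear_combination y1 * h00 + y2 * h01
    · show A 1 0 * m.1 + A 1 1 * m.2 = m.2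
      rw [hy1, hy2]
      linear_combination y1 * h10 + y2 * h11
  have h3 : Multiplicative.toAdd (a x) = Multiplicative.toAdd x := by
    rw [← hm, ← hgm, hg, hm]
    rfl
  exact Multiplicative.toAdd.injective h3

end Cfsg.Agent.S4080
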