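import Cfsg.Statements.S4082
import Mathlib
import Cfsg.Agent.Lib.helper1.Dihedral
-- import your own Cfsg.Agent.* helpers here

set_option autoImplicit false
open Cfsg

namespace Cfsg.Agent.S4082

theorem dih_invert {X : Type*} [Group X] {m : ℕ} (e : X ≃* DihedralGroup m) (u r₀ : X)
    (hr₀ : Odd (orderOf r₀)) (hur : u * r₀ ≠ r₀ * u) :
    u * u = 1 ∧ ∀ r : X, Odd (orderOf r) → u * r * u⁻¹ = r⁻¹ := by
  have hrot : ∀ r : X, Odd (orderOf r) → ∃ j, e r = DihedralGroup.r j := by
    intro r hr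
    rcases h : e r with j | j
    · exact ⟨j, rfl⟩
    · exfalso
      have h1 : orderOf (e r) = 2 := by rw [h]; exact DihedralGroup.orderOf_sr j
      rw [e.orderOf_eq] at h1
      rw [h1] at hr
      exact absurd hr (by decide)
  obtain ⟨j₀, hj₀⟩ := hrot r₀ hr₀
  obtain ⟨i, hi⟩ : ∃ i, e u = DihedralGroup.sr i := by
    rcases h : e u with i | i
    · exfalso
      apply hur
      apply e.injective
      rw [map_mul, map_mul, h, hj₀, DihedralGroup.r_mul_r, DihedralGroup.r_mul_r, add_comm]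
    · exact ⟨i, rfl⟩
  constructor
  · apply e.injective
    rw [map_mul, hi, DihedralGroup.sr_mul_sr, sub_self, map_one, DihedralGroup.one_def]
  · intro r hr
    obtain ⟨j, hj⟩ := hrot r hr
    apply e.injective
    rw [map_mul, map_mul, map_inv, map_inv, hi, hj, DihedralGroup.sr_mul_r, DihedralGroup.inv_sr,
      DihedralGroup.sr_mul_sr, DihedralGroup.inv_r]
    congr 1
    ring

theorem sup_hyp {G : Type*} [Group G] [Finite G] {p : ℕ} [Fact p.Prime] (R : Subgroup G)
    (hR : IsPGroup p R) (u : G) (hu : u ∈ Subgroup.normalizer (R : Set G)) :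
    (∀ S : Sylow p ↥(Subgroup.zpowers u ⊔ R), (S : Subgroup ↥(Subgroup.zpowers u ⊔ R)).Normal) ∧
    (∀ (S : Sylow p ↥(Subgroup.zpowers u ⊔ R)) [(S : Subgroup ↥(Subgroup.zpowers u ⊔ R)).Normal],
      IsCyclic (↥(Subgroup.zpowers u ⊔ R) ⧸ (S : Subgroup ↥(Subgroup.zpowers u ⊔ R)))) := by
  set H : Subgroup G := Subgroup.zpowers u ⊔ R with hH
  have hRH : R ≤ H := le_sup_right
  have huH : u ∈ H := le_sup_left (a := Subgroup.zpowers u) (Subgroup.mem_zpowers u)
  have hzN : Subgroup.zpowers u ≤ Subgroup.normalizer (R : Set G) := by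
    rw [Subgroup.zpowers_le]; exact hu
  have hHN : H ≤ Subgroup.normalizer (R : Set G) := sup_le hzN Subgroup.le_normalizer
  haveI hR'n : (R.subgroupOf H).Normal := (Subgroup.normal_subgroupOf_iff_le_normalizer hRH).mpr hHN
  have hR'p : IsPGroup p (R.subgroupOf H) := hR.comap_subtype
  have hcyc : IsCyclic (↥H ⧸ R.subgroupOf H) := by
    refine ⟨⟨QuotientGroup.mk ⟨u, huH⟩, fun x => ?_⟩⟩
    induction x using QuotientGroup.induction_on with
    | H h =>
      have hh : (h : G) ∈ ((Subgroup.zpowers u ⊔ R : Subgroup G) : Set G) := h.2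
      rw [Subgroup.coe_mul_of_left_le_normalizer_right _ _ hzN] at hh
      obtain ⟨z, hz, r, hr, hzr⟩ := hh
      obtain ⟨k, rfl⟩ := Subgroup.mem_zpowers_iff.mp hz
      refine ⟨k, ?_⟩
      show (QuotientGroup.mk ⟨u, huH⟩ : ↥H ⧸ R.subgroupOf H) ^ k = QuotientGroup.mk h
      rw [← QuotientGroup.mk_zpow, QuotientGroup.eq, Subgroup.mem_subgroupOf]
      have : (((⟨u, huH⟩ : ↥H) ^ k)⁻¹ * h : ↥H).1 = r := by
        rw [Subgroup.coe_mul, Subgroup.coe_inv, Subgroup.coe_zpow, ← hzr]
        simp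
      rw [this]; exact hr
  have hle : ∀ S : Sylow p ↥H, R.subgroupOf H ≤ (S : Subgroup ↥H) := by
    intro S
    have h1 : IsPGroup p (R.subgroupOf H ⊔ (S : Subgroup ↥H) : Subgroup ↥H) :=
      IsPGroup.to_sup_of_normal_left hR'p S.isPGroup'
    have h2 := S.is_maximal' h1 le_sup_right
    rw [← h2]; exact le_sup_left
  have hnorm : ∀ S : Sylow p ↥H, (S : Subgroup ↥H).Normal := by
    intro S
    letI : CommGroup (↥H ⧸ R.subgroupOf H) := IsCyclic.commGroup
    constructor
    intro s hs h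
    have h1 : h * s * h⁻¹ * s⁻¹ ∈ R.subgroupOf H := by
      rw [← QuotientGroup.eq_one_iff]
      rw [QuotientGroup.mk_mul, QuotientGroup.mk_mul, QuotientGroup.mk_mul, QuotientGroup.mk_inv,
        QuotientGroup.mk_inv]
      rw [mul_comm (QuotientGroup.mk h : ↥H ⧸ R.subgroupOf H) (QuotientGroup.mk s)]
      simp
    have h2 := (S : Subgroup ↥H).mul_mem (hle S h1) hs
    rwa [inv_mul_cancel_right] at h2
  refine ⟨hnorm, ?_⟩
  intro S hS
  have hmap : R.subgroupOf H ≤ (S : Subgroup ↥H).comap (MonoidHom.id ↥H) := hle S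
  have hsurj : Function.Surjective (QuotientGroup.map (R.subgroupOf H) (S : Subgroup ↥H)
      (MonoidHom.id ↥H) hmap) := by
    intro y
    induction y using QuotientGroup.induction_on with
    | H h => exact ⟨QuotientGroup.mk h, rfl⟩
  exact isCyclic_of_surjective _ hsurj


theorem L2 {G : Type*} [Group G] [Finite G] {p : ℕ} [Fact p.Prime] (hp : p ≠ 2)
    (hL : ∀ H : Subgroup G, (∀ S : Sylow p ↥H, (S : Subgroup ↥H).Normal) →
        (∀ (S : Sylow p ↥H) [(S : Subgroup ↥H).Normal], IsCyclic (↥H ⧸ (S : Subgroup ↥H))) →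
        IsCyclic H ∨ (∃ n : ℕ, Nonempty (H ≃* DihedralGroup (p ^ n))))
    (R : Subgroup G) (hR : IsPGroup p R) (u : G) (hu : u ∈ Subgroup.normalizer (R : Set G))
    (huc : u ∉ Subgroup.centralizer (R : Set G)) :
    orderOf u = 2 ∧ ∀ r ∈ R, u * r * u⁻¹ = r⁻¹ := by
  haveI : Fact (Nat.Prime 2) := ⟨Nat.prime_two⟩
  have hpodd : Odd p := (Fact.out : p.Prime).odd_of_ne_two hp
  obtain ⟨h1, h2⟩ := sup_hyp R hR u hu
  set H : Subgroup G := Subgroup.zpowers u ⊔ R with hH
  have hRH : R ≤ H := le_sup_right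
  have huH : u ∈ H := le_sup_left (a := Subgroup.zpowers u) (Subgroup.mem_zpowers u)
  obtain ⟨r₀, hr₀R, hr₀⟩ : ∃ r₀ ∈ R, r₀ * u ≠ u * r₀ := by
    by_contra hcon; push_neg at hcon
    exact huc (Subgroup.mem_centralizer_iff.mpr hcon)
  have hodd : ∀ r ∈ R, Odd (orderOf r) := by
    intro r hr
    obtain ⟨k, hk⟩ := hR ⟨r, hr⟩
    have : r ^ p ^ k = 1 := by simpa using congrArg Subtype.val hk
    obtain ⟨j, -, hj⟩ := (Nat.dvd_prime_pow Fact.out).mp (orderOf_dvd_of_pow_eq_one this)
    rw [hj]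
    exact hpodd.pow
  rcases hL H h1 h2 with hc | ⟨n, ⟨e⟩⟩
  · exfalso
    apply hr₀
    haveI := hc
    have := (IsCyclic.commGroup (α := ↥H)).mul_comm ⟨r₀, hRH hr₀R⟩ ⟨u, huH⟩
    exact congrArg Subtype.val this
  · obtain ⟨k1, k2⟩ := dih_invert e ⟨u, huH⟩ ⟨r₀, hRH hr₀R⟩
      (by rw [Subgroup.orderOf_mk]; exact hodd r₀ hr₀R)
      (by intro h; apply hr₀; exact (congrArg Subtype.val h).symm)
    constructor
    · have hu2 : u * u = 1 := congrArg Subtype.val k1
      have hu1 : u ≠ 1 := by rintro rfl; exact hr₀ (by simp)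
      exact orderOf_eq_prime (by rw [pow_two]; exact hu2) hu1
    · intro r hr
      have := k2 ⟨r, hRH hr⟩ (by rw [Subgroup.orderOf_mk]; exact hodd r hr)
      exact congrArg Subtype.val this

theorem forward {G : Type*} [Group G] [Finite G] {p : ℕ} [Fact p.Prime] (hp : p ≠ 2) (P : Sylow p G)
    (hL : ∀ H : Subgroup G, (∀ S : Sylow p ↥H, (S : Subgroup ↥H).Normal) →
        (∀ (S : Sylow p ↥H) [(S : Subgroup ↥H).Normal], IsCyclic (↥H ⧸ (S : Subgroup ↥H))) →
        IsCyclic H ∨ (∃ n : ℕ, Nonempty (H ≃* DihedralGroup (p ^ n)))) :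
    (IsCyclic P ∧
      (Subgroup.normalizer ((P : Subgroup G) : Set G) = Subgroup.centralizer ((P : Subgroup G) : Set G) ∨
       ((Subgroup.centralizer ((P : Subgroup G) : Set G)).relIndex (Subgroup.normalizer ((P : Subgroup G) : Set G)) = 2 ∧
        ∀ Q : Subgroup G, Q ≤ P → Nat.card Q = p →
          IsMulCommutative ↥(Subgroup.centralizer (Q : Set G)) ∧
          ∀ x : G, x ∈ Subgroup.normalizer (Q : Set G) → x ∉ Subgroup.centralizer (Q : Set G) →
            orderOf x = 2 ∧ ∀ c : G, c ∈ Subgroup.centralizer (Q : Set G) → x * c * x⁻¹ = c⁻¹))) := by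
  have hpodd : Odd p := (Fact.out : p.Prime).odd_of_ne_two hp
  have hPp : IsPGroup p (P : Subgroup G) := P.isPGroup'
  have hPc : IsCyclic P := by
    obtain ⟨h1, h2⟩ := sup_hyp (P : Subgroup G) hPp 1 (Subgroup.one_mem _)
    have hHP : Subgroup.zpowers (1 : G) ⊔ (P : Subgroup G) = P := by simp
    rcases hL _ h1 h2 with hc | ⟨n, ⟨e⟩⟩
    · rw [hHP] at hc; exact hc
    · exfalso
      have hc1 := Nat.card_congr e.toEquiv
      rw [DihedralGroup.nat_card, hHP] at hc1
      obtain ⟨k, hk⟩ := IsPGroup.iff_card.mp hPp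
      rw [hk] at hc1
      have : Even (p ^ k) := ⟨p ^ n, by rw [hc1]; ring⟩
      exact (Nat.not_even_iff_odd.mpr hpodd.pow) this
  refine ⟨hPc, ?_⟩
  have hinv : ∀ x ∈ Subgroup.normalizer ((P : Subgroup G) : Set G),
      x ∉ Subgroup.centralizer ((P : Subgroup G) : Set G) →
      orderOf x = 2 ∧ ∀ r ∈ (P : Subgroup G), x * r * x⁻¹ = r⁻¹ :=
    fun x hx hxc => L2 hp hL (P : Subgroup G) hPp x hx hxc
  by_cases hNC : Subgroup.normalizer ((P : Subgroup G) : Set G) =
      Subgroup.centralizer ((P : Subgroup G) : Set G)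
  · left; exact hNC
  · right
    have hCN : Subgroup.centralizer ((P : Subgroup G) : Set G) ≤
        Subgroup.normalizer ((P : Subgroup G) : Set G) := Subgroup.centralizer_le_normalizer _
    obtain ⟨x₀, hx₀N, hx₀C⟩ : ∃ x₀ ∈ Subgroup.normalizer ((P : Subgroup G) : Set G),
        x₀ ∉ Subgroup.centralizer ((P : Subgroup G) : Set G) := by
      by_contra hcon; push_neg at hcon
      exact hNC (le_antisymm hcon hCN)
    obtain ⟨hx₀2, hx₀inv⟩ := hinv x₀ hx₀N hx₀C
    constructor
    · rw [Subgroup.relIndex_eq_two_iff]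
      refine ⟨x₀, hx₀N, fun b hb => ?_⟩
      by_cases hbC : b ∈ Subgroup.centralizer ((P : Subgroup G) : Set G)
      · right
        refine ⟨hbC, fun h => hx₀C ?_⟩
        have := Subgroup.mul_mem _ (Subgroup.inv_mem _ hbC) h
        rwa [inv_mul_cancel_left] at this
      · left
        refine ⟨?_, hbC⟩
        obtain ⟨-, hbinv⟩ := hinv b hb hbC
        rw [Subgroup.mem_centralizer_iff]
        intro r hr
        have h1 := hx₀inv r hr
        have h2 := hbinv r⁻¹ (inv_mem hr)
        rw [inv_inv] at h2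
        have h3 : b * x₀ * r * (b * x₀)⁻¹ = r := by
          have : b * x₀ * r * (b * x₀)⁻¹ = b * (x₀ * r * x₀⁻¹) * b⁻¹ := by group
          rw [this, h1, h2]
        calc r * (b * x₀) = (b * x₀ * r * (b * x₀)⁻¹) * (b * x₀) := by rw [h3]
          _ = b * x₀ * r := by group
    · intro Q hQP hQp
      have hQpg : IsPGroup p Q := IsPGroup.of_card (n := 1) (by rw [hQp, pow_one])
      have key : ∀ x : G, x ∈ Subgroup.normalizer (Q : Set G) →
          x ∉ Subgroup.centralizer (Q : Set G) →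
          orderOf x = 2 ∧ ∀ c : G, c ∈ Subgroup.centralizer (Q : Set G) → x * c * x⁻¹ = c⁻¹ := by
        intro x hx hxc
        obtain ⟨hx2, -⟩ := L2 hp hL Q hQpg x hx hxc
        refine ⟨hx2, fun c hc => ?_⟩
        have hxcN : x * c ∈ Subgroup.normalizer (Q : Set G) :=
          Subgroup.mul_mem _ hx (Subgroup.centralizer_le_normalizer _ hc)
        have hxcC : x * c ∉ Subgroup.centralizer (Q : Set G) := by
          intro h
          apply hxc
          have := Subgroup.mul_mem _ h (Subgroup.inv_mem _ hc)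
          rwa [mul_inv_cancel_right] at this
        obtain ⟨hxc2, -⟩ := L2 hp hL Q hQpg (x * c) hxcN hxcC
        have e1 : (x * c) ^ 2 = 1 := by rw [← hxc2]; exact pow_orderOf_eq_one _
        have e2 : x ^ 2 = 1 := by rw [← hx2]; exact pow_orderOf_eq_one _
        rw [pow_two] at e1 e2
        have hxinv : x⁻¹ = x := inv_eq_of_mul_eq_one_left e2
        rw [hxinv]
        exact eq_inv_of_mul_eq_one_left (by rw [← e1]; group)
      refine ⟨?_, key⟩
      have e2 : x₀ ^ 2 = 1 := by rw [← hx₀2]; exact pow_orderOf_eq_one _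
      rw [pow_two] at e2
      have hxinv : x₀⁻¹ = x₀ := inv_eq_of_mul_eq_one_left e2
      have hx₀NQ : x₀ ∈ Subgroup.normalizer (Q : Set G) := by
        rw [Subgroup.mem_normalizer_iff]
        intro h
        constructor
        · intro hh
          rw [hx₀inv h (hQP hh)]; exact Q.inv_mem hh
        · intro hh
          have h1 := hx₀inv _ (hQP hh)
          have h3 : x₀ * (x₀ * h * x₀⁻¹) * x₀⁻¹ = h := by
            rw [hxinv]
            calc x₀ * (x₀ * h * x₀) * x₀ = (x₀ * x₀) * h * (x₀ * x₀) := by group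
              _ = h := by rw [e2, one_mul, mul_one]
          rw [h3] at h1
          rw [h1]; exact Q.inv_mem hh
      have hx₀CQ : x₀ ∉ Subgroup.centralizer (Q : Set G) := by
        intro hcen
        obtain ⟨q, hq, hq1⟩ : ∃ q ∈ Q, q ≠ 1 := by
          by_contra hcon; push_neg at hcon
          have : Q = ⊥ := (Subgroup.eq_bot_iff_forall _).mpr hcon
          rw [this, Subgroup.card_bot] at hQp
          exact (Fact.out : p.Prime).one_lt.ne hQp
        have h1 := hx₀inv q (hQP hq)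
        have h2 := Subgroup.mem_centralizer_iff.mp hcen q hq
        have h3 : q⁻¹ = q := by rw [← h1, ← h2]; group
        have h4 : q ^ 2 = 1 := by rw [pow_two]; nth_rewrite 1 [← h3]; exact inv_mul_cancel q
        have h5 : q ^ p = 1 := by
          have := pow_card_eq_one' (G := Q) (x := ⟨q, hq⟩)
          rw [hQp] at this
          simpa using congrArg Subtype.val this
        have h6 : orderOf q ∣ Nat.gcd 2 p :=
          Nat.dvd_gcd (orderOf_dvd_of_pow_eq_one h4) (orderOf_dvd_of_pow_eq_one h5)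
        have h7 : Nat.Coprime 2 p := Nat.coprime_two_left.mpr hpodd
        rw [Nat.Coprime.gcd_eq_one h7, Nat.dvd_one, orderOf_eq_one_iff] at h6
        exact hq1 h6
      obtain ⟨-, hinvQ⟩ := key x₀ hx₀NQ hx₀CQ
      refine ⟨⟨fun a b => ?_⟩⟩
      apply Subtype.ext
      show a.1 * b.1 = b.1 * a.1
      have ha := hinvQ a.1 a.2
      have hb := hinvQ b.1 b.2
      have hab := hinvQ (a.1 * b.1) (Subgroup.mul_mem _ a.2 b.2)
      have h1 : a.1⁻¹ * b.1⁻¹ = b.1⁻¹ * a.1⁻¹ := by
        calc a.1⁻¹ * b.1⁻¹ = (x₀ * a.1 * x₀⁻¹) * (x₀ * b.1 * x₀⁻¹) := by rw [ha, hb]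
          _ = x₀ * (a.1 * b.1) * x₀⁻¹ := by group
          _ = (a.1 * b.1)⁻¹ := hab
          _ = b.1⁻¹ * a.1⁻¹ := mul_inv_rev _ _
      have h2 := congrArg (fun t => t⁻¹) h1
      simp only [mul_inv_rev, inv_inv] at h2
      exact h2.symm


theorem zp2 {G : Type*} [Group G] (a z : G) (ha : a * a = 1) (hz : z ∈ Subgroup.zpowers a) :
    z = 1 ∨ z = a := by
  obtain ⟨k, rfl⟩ := Subgroup.mem_zpowers_iff.mp hz
  have ha2 : a ^ 2 = 1 := by rw [pow_two]; exact ha
  rcases Int.emod_two_eq_zero_or_one k with h | h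
  · left
    have : k = 2 * (k / 2) := by omega
    rw [this, zpow_mul, zpow_ofNat, ha2, one_zpow]
  · right
    have : k = 2 * (k / 2) + 1 := by omega
    rw [this, zpow_add, zpow_mul, zpow_ofNat, ha2, one_zpow, one_mul, zpow_one]

theorem cyc_of_sylow {G : Type*} [Group G] [Finite G] {p : ℕ} [Fact p.Prime] (P : Sylow p G)
    (hPc : IsCyclic P) (R : Subgroup G) (hR : IsPGroup p R) :
    IsCyclic R ∧ ∃ g : G, ∀ r ∈ R, g⁻¹ * r * g ∈ (P : Subgroup G) := by
  obtain ⟨P', hRP'⟩ := hR.exists_le_sylow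
  obtain ⟨g, hg⟩ := MulAction.exists_smul_eq G P P'
  haveI := hPc
  haveI : IsCyclic (P' : Subgroup G) := by
    rw [← hg]
    exact isCyclic_of_surjective (Sylow.equivSMul P g) (MulEquiv.surjective _)
  refine ⟨Subgroup.isCyclic_of_le hRP', g, fun r hr => ?_⟩
  have h1 : r ∈ (P' : Subgroup G) := hRP' hr
  rw [← hg, Sylow.coe_subgroup_smul, Subgroup.mem_pointwise_smul_iff_inv_smul_mem] at h1
  have : (MulAut.conj g)⁻¹ • r = g⁻¹ * r * g := by
    rw [← map_inv, MulAut.smul_def, MulAut.conj_apply, inv_inv]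
  rwa [this] at h1

theorem cyc_central {X : Type*} [Group X] [Finite X] {p : ℕ} [Fact p.Prime] (S : Sylow p X)
    [hSn : (S : Subgroup X).Normal] (hSc : IsCyclic (S : Subgroup X))
    (hcen : ∀ h : X, ∀ s ∈ (S : Subgroup X), h * s = s * h)
    (hq : IsCyclic (X ⧸ (S : Subgroup X))) : IsCyclic X := by
  obtain ⟨s, hs⟩ := @IsCyclic.exists_generator _ _ hSc
  obtain ⟨γ', hγ'⟩ := @IsCyclic.exists_generator _ _ hq
  obtain ⟨γ, rfl⟩ := QuotientGroup.mk_surjective γ'
  have hnm : Nat.card (S : Subgroup X) * (S : Subgroup X).index = Nat.card X :=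
    (S : Subgroup X).card_mul_index
  have hcop : Nat.Coprime (Nat.card (S : Subgroup X)) (S : Subgroup X).index := by
    obtain ⟨k, hk⟩ := IsPGroup.iff_card.mp S.isPGroup'
    rw [hk]
    exact Nat.Coprime.pow_left k ((Nat.Prime.coprime_iff_not_dvd Fact.out).mpr S.not_dvd_index)
  have hos : orderOf (s : X) = Nat.card (S : Subgroup X) := by
    rw [Subgroup.orderOf_coe]; exact orderOf_eq_card_of_forall_mem_zpowers hs
  have hoγ : orderOf (QuotientGroup.mk γ : X ⧸ (S : Subgroup X)) = (S : Subgroup X).index := by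
    rw [Subgroup.index_eq_card]; exact orderOf_eq_card_of_forall_mem_zpowers hγ'
  have hl1 : (γ ^ Nat.card (S : Subgroup X)) ^ (S : Subgroup X).index = 1 := by
    rw [← pow_mul, hnm]; exact pow_card_eq_one'
  have hol : orderOf (γ ^ Nat.card (S : Subgroup X)) = (S : Subgroup X).index := by
    apply Nat.dvd_antisymm (orderOf_dvd_of_pow_eq_one hl1)
    have h1 : (QuotientGroup.mk γ : X ⧸ (S : Subgroup X)) ^
        (Nat.card (S : Subgroup X) * orderOf (γ ^ Nat.card (S : Subgroup X))) = 1 := by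
      rw [pow_mul, ← QuotientGroup.mk_pow, ← QuotientGroup.mk_pow, pow_orderOf_eq_one,
        QuotientGroup.mk_one]
    have h2 := orderOf_dvd_of_pow_eq_one h1
    rw [hoγ] at h2
    exact Nat.Coprime.dvd_of_dvd_mul_left hcop.symm h2
  have hcomm : Commute (s : X) (γ ^ Nat.card (S : Subgroup X)) := (hcen _ s s.2).symm
  have hord : orderOf ((s : X) * γ ^ Nat.card (S : Subgroup X)) = Nat.card X := by
    rw [hcomm.orderOf_mul_eq_mul_orderOf_of_coprime (by rw [hos, hol]; exact hcop), hos, hol, hnm]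
  exact isCyclic_of_orderOf_eq_card _ hord

theorem dih_build {X : Type*} [Group X] [Finite X] (S : Subgroup X) (hSc : IsCyclic S)
    (γ : X) (hγ2 : γ * γ = 1) (hγS : γ ∉ S) (hinv : ∀ s ∈ S, γ * s * γ⁻¹ = s⁻¹)
    (hidx : S.index = 2) : Nonempty (X ≃* DihedralGroup (Nat.card S)) := by
  obtain ⟨s, hs⟩ := @IsCyclic.exists_generator _ _ hSc
  have hos : orderOf (s : X) = Nat.card S := by
    rw [Subgroup.orderOf_coe]; exact orderOf_eq_card_of_forall_mem_zpowers hs
  have hzp : Subgroup.zpowers (s : X) = S := by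
    apply le_antisymm
    · rw [Subgroup.zpowers_le]; exact s.2
    · intro x hx
      obtain ⟨k, hk⟩ := Subgroup.mem_zpowers_iff.mp (hs ⟨x, hx⟩)
      exact ⟨k, by simpa using congrArg Subtype.val hk⟩
  have hconj : γ * (s : X) * γ⁻¹ = (s : X)⁻¹ := hinv s s.2
  have hinj := Cfsg.Agent.Lib.helper1.dihHom_injective γ (s : X) hγ2 hconj (by rw [hzp]; exact hγS)
  have hcard : Nat.card (DihedralGroup (orderOf (s : X))) = Nat.card X := by
    rw [DihedralGroup.nat_card, hos, ← S.card_mul_index, hidx, mul_comm]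
  have hbij : Function.Bijective (Cfsg.Agent.Lib.helper1.dihHom γ (s : X) hγ2 hconj) :=
    (Nat.bijective_iff_injective_and_card _).mpr ⟨hinj, hcard⟩
  rw [← hos]
  exact ⟨(MulEquiv.ofBijective _ hbij).symm⟩

theorem omega_card {G : Type*} [Group G] [Finite G] {p : ℕ} [Fact p.Prime] (R : Subgroup G)
    (hR : IsPGroup p R) (hRc : IsCyclic R) (hRne : R ≠ ⊥) :
    ∃ Q : Subgroup G, Q ≤ R ∧ Nat.card Q = p ∧ ∀ x, x ∈ Q ↔ x ∈ R ∧ x ^ p = 1 := by
  classical
  have hcomm : ∀ a ∈ R, ∀ b ∈ R, a * b = b * a := by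
    intro a ha b hb
    haveI := hRc
    have := (IsCyclic.commGroup (α := ↥R)).mul_comm ⟨a, ha⟩ ⟨b, hb⟩
    exact congrArg Subtype.val this
  let Q : Subgroup G :=
    { carrier := {x | x ∈ R ∧ x ^ p = 1}
      one_mem' := ⟨R.one_mem, one_pow p⟩
      mul_mem' := by
        rintro a b ⟨ha, ha'⟩ ⟨hb, hb'⟩
        refine ⟨R.mul_mem ha hb, ?_⟩
        rw [(show Commute a b from hcomm a ha b hb).mul_pow, ha', hb', one_mul]
      inv_mem' := by
        rintro a ⟨ha, ha'⟩
        exact ⟨R.inv_mem ha, by rw [inv_pow, ha', inv_one]⟩ }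
  have hQR : Q ≤ R := fun x hx => hx.1
  refine ⟨Q, hQR, ?_, fun x => Iff.rfl⟩
  have hle : Nat.card Q ≤ p := by
    haveI := hRc
    haveI := Fintype.ofFinite R
    have h1 := IsCyclic.card_pow_eq_one_le (α := R) (n := p) (Fact.out : p.Prime).pos
    have h2 : Nat.card Q ≤ Nat.card {a : R // a ^ p = 1} := by
      apply Nat.card_le_card_of_injective (fun y : Q =>
        (⟨⟨y.1, y.2.1⟩, by apply Subtype.ext; simpa using y.2.2⟩ : {a : R // a ^ p = 1}))
      intro y z hyz
      apply Subtype.ext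
      have := congrArg (fun w : {a : R // a ^ p = 1} => ((w.1 : R) : G)) hyz
      simpa using this
    have h3 : Nat.card {a : R // a ^ p = 1} =
        (Finset.univ.filter (fun a : R => a ^ p = 1)).card := by
      rw [Nat.card_eq_fintype_card, Fintype.card_subtype]
    omega
  have hQp : IsPGroup p Q := hR.to_le hQR
  obtain ⟨k, hk⟩ := IsPGroup.iff_card.mp hQp
  have hpR : p ∣ Nat.card R := by
    obtain ⟨j, hj⟩ := IsPGroup.iff_card.mp hR
    rw [hj]
    have : j ≠ 0 := by
      rintro rfl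
      rw [pow_zero] at hj
      exact hRne (Subgroup.card_eq_one.mp hj)
    exact dvd_pow_self p this
  obtain ⟨y, hy⟩ := exists_prime_orderOf_dvd_card' p hpR
  have hyQ : (y : G) ∈ Q :=
    ⟨y.2, by rw [← Subgroup.orderOf_coe] at hy; rw [← hy]; exact pow_orderOf_eq_one _⟩
  have hk0 : k ≠ 0 := by
    rintro rfl
    rw [pow_zero] at hk
    have hbot := Subgroup.card_eq_one.mp hk
    have hy1 : (y : G) = 1 := by rw [hbot] at hyQ; exact Subgroup.mem_bot.mp hyQ
    rw [← Subgroup.orderOf_coe, hy1, orderOf_one] at hy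
    exact (Fact.out : p.Prime).one_lt.ne hy
  rw [hk] at hle ⊢
  have : k = 1 := by
    by_contra hne
    have h2 : 2 ≤ k := by omega
    have h3 : p ^ 2 ≤ p ^ k := Nat.pow_le_pow_right (Fact.out : p.Prime).pos h2
    have hp2 := (Fact.out : p.Prime).two_le
    nlinarith
  rw [this, pow_one]


theorem backward {G : Type*} [Group G] [Finite G] {p : ℕ} [Fact p.Prime] (hp : p ≠ 2)
    (P : Sylow p G) (hPc : IsCyclic P)
    (h12 : Subgroup.normalizer ((P : Subgroup G) : Set G) = Subgroup.centralizer ((P : Subgroup G) : Set G) ∨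
       ((Subgroup.centralizer ((P : Subgroup G) : Set G)).relIndex (Subgroup.normalizer ((P : Subgroup G) : Set G)) = 2 ∧
        ∀ Q : Subgroup G, Q ≤ P → Nat.card Q = p →
          IsMulCommutative ↥(Subgroup.centralizer (Q : Set G)) ∧
          ∀ x : G, x ∈ Subgroup.normalizer (Q : Set G) → x ∉ Subgroup.centralizer (Q : Set G) →
            orderOf x = 2 ∧ ∀ c : G, c ∈ Subgroup.centralizer (Q : Set G) → x * c * x⁻¹ = c⁻¹))
    (H : Subgroup G) (hSn : ∀ S : Sylow p ↥H, (S : Subgroup ↥H).Normal)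
    (hSq : ∀ (S : Sylow p ↥H) [(S : Subgroup ↥H).Normal], IsCyclic (↥H ⧸ (S : Subgroup ↥H))) :
    IsCyclic H ∨ (∃ n : ℕ, Nonempty (H ≃* DihedralGroup (p ^ n))) := by
  classical
  obtain ⟨S⟩ := (inferInstance : Nonempty (Sylow p ↥H))
  haveI hSnorm := hSn S
  have hq := hSq S
  set R : Subgroup G := (S : Subgroup ↥H).map H.subtype with hR
  have hRH : R ≤ H := Subgroup.map_subtype_le _
  have hRp : IsPGroup p R := S.isPGroup'.map H.subtype
  obtain ⟨hRc, g, hg⟩ := cyc_of_sylow P hPc R hRp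
  have hmemR : ∀ x : ↥H, x ∈ (S : Subgroup ↥H) ↔ (x : G) ∈ R := by
    intro x
    rw [hR]
    constructor
    · intro hx; exact ⟨x, hx, rfl⟩
    · rintro ⟨y, hy, hyx⟩
      have : y = x := Subtype.ext hyx
      rwa [← this]
  have hSc : IsCyclic (S : Subgroup ↥H) := by
    haveI := hRc
    exact isCyclic_of_surjective ((S : Subgroup ↥H).equivMapOfInjective H.subtype
      (Subgroup.subtype_injective H)).symm (MulEquiv.surjective _)
  have hRnorm : ∀ h ∈ H, ∀ r ∈ R, h * r * h⁻¹ ∈ R := by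
    intro h hh r hr
    have h1 : (⟨r, hRH hr⟩ : ↥H) ∈ (S : Subgroup ↥H) := (hmemR _).mpr hr
    have h2 := hSnorm.conj_mem _ h1 ⟨h, hh⟩
    exact (hmemR _).mp h2
  have hRcomm : ∀ a ∈ R, ∀ b ∈ R, a * b = b * a := by
    intro a ha b hb
    haveI := hRc
    have := (IsCyclic.commGroup (α := ↥R)).mul_comm ⟨a, ha⟩ ⟨b, hb⟩
    exact congrArg Subtype.val this
  by_cases hcentral : ∀ h ∈ H, ∀ r ∈ R, h * r = r * h
  · left
    exact cyc_central S hSc
      (fun h s hs => Subtype.ext (hcentral h.1 h.2 s.1 ((hmemR s).mp hs))) hq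
  · push_neg at hcentral
    obtain ⟨h₁, hh₁, r₁, hr₁, hne₁⟩ := hcentral
    rcases h12 with hNC | ⟨-, hQ⟩
    · exfalso
      apply hne₁
      haveI : IsMulCommutative (P : Subgroup G) := by
        haveI := hPc
        exact ⟨⟨fun a b => (IsCyclic.commGroup (α := ↥(P : Subgroup G))).mul_comm a b⟩⟩
      have hx : g⁻¹ * r₁ * g ∈ (P : Subgroup G) := hg r₁ hr₁
      have h3 : (g⁻¹ * h₁⁻¹ * g)⁻¹ * (g⁻¹ * r₁ * g) * (g⁻¹ * h₁⁻¹ * g) =
          g⁻¹ * (h₁ * r₁ * h₁⁻¹) * g := by group
      have hy : (g⁻¹ * h₁⁻¹ * g)⁻¹ * (g⁻¹ * r₁ * g) * (g⁻¹ * h₁⁻¹ * g) ∈ (P : Subgroup G) := by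
        rw [h3]; exact hg _ (hRnorm h₁ hh₁ r₁ hr₁)
      obtain ⟨n, hn, hnx⟩ := P.conj_eq_normalizer_conj_of_mem (g⁻¹ * r₁ * g) (g⁻¹ * h₁⁻¹ * g) hx hy
      have hn' : n ∈ Subgroup.normalizer ((P : Subgroup G) : Set G) := hn
      rw [hNC] at hn'
      have hcx := Subgroup.mem_centralizer_iff.mp hn' (g⁻¹ * r₁ * g) hx
      have h5 : n⁻¹ * (g⁻¹ * r₁ * g) * n = g⁻¹ * r₁ * g := by
        rw [mul_assoc, hcx, ← mul_assoc, inv_mul_cancel, one_mul]
      rw [h5, h3] at hnx
      have h4 : h₁ * r₁ * h₁⁻¹ = r₁ := by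
        have := congrArg (fun t => g * t * g⁻¹) hnx
        simpa [mul_assoc] using this
      calc h₁ * r₁ = (h₁ * r₁ * h₁⁻¹) * h₁ := by group
        _ = r₁ * h₁ := by rw [h4]
    · right
      have hRne : R ≠ ⊥ := by
        rintro hbot
        rw [hbot, Subgroup.mem_bot] at hr₁
        apply hne₁; rw [hr₁]; simp
      obtain ⟨Q', hQ'R, hQ'p, hQ'mem⟩ := omega_card R hRp hRc hRne
      -- the conjugate of Q' inside P
      set Q : Subgroup G := Q'.comap (MulAut.conj g).toMonoidHom with hQdef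
      have hQmem : ∀ y : G, y ∈ Q ↔ g * y * g⁻¹ ∈ Q' := fun y => Iff.rfl
      have hQP : Q ≤ (P : Subgroup G) := by
        intro y hy
        have h1 := hg _ (hQ'R ((hQmem y).mp hy))
        have h2 : g⁻¹ * (g * y * g⁻¹) * g = y := by group
        rwa [h2] at h1
      have hQcard : Nat.card Q = p := by
        rw [hQdef, Subgroup.comap_equiv_eq_map_symm',
          Subgroup.card_map_of_injective (MulEquiv.injective _), hQ'p]
      obtain ⟨hQcomm, hQinv⟩ := hQ Q hQP hQcard
      -- transport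
      have T1 : ∀ c : G, c ∈ Subgroup.centralizer (Q' : Set G) →
          g⁻¹ * c * g ∈ Subgroup.centralizer (Q : Set G) := by
        intro c hc
        rw [Subgroup.mem_centralizer_iff]
        intro y hy
        have h1 := Subgroup.mem_centralizer_iff.mp hc _ ((hQmem y).mp hy)
        calc y * (g⁻¹ * c * g) = g⁻¹ * (g * y * g⁻¹ * c) * g := by group
          _ = g⁻¹ * (c * (g * y * g⁻¹)) * g := by rw [h1]
          _ = g⁻¹ * c * g * y := by group
      have T2 : ∀ x : G, g⁻¹ * x * g ∈ Subgroup.centralizer (Q : Set G) →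
          x ∈ Subgroup.centralizer (Q' : Set G) := by
        intro x hx
        rw [Subgroup.mem_centralizer_iff]
        intro q hq
        have hqQ : g⁻¹ * q * g ∈ Q := by
          rw [hQmem]
          have : g * (g⁻¹ * q * g) * g⁻¹ = q := by group
          rw [this]; exact hq
        have h1 := Subgroup.mem_centralizer_iff.mp hx _ hqQ
        calc q * x = g * ((g⁻¹ * q * g) * (g⁻¹ * x * g)) * g⁻¹ := by group
          _ = g * ((g⁻¹ * x * g) * (g⁻¹ * q * g)) * g⁻¹ := by rw [h1]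
          _ = x * q := by group
      have hHQ' : ∀ h ∈ H, ∀ q ∈ Q', h * q * h⁻¹ ∈ Q' := by
        intro h hh q hq
        rw [hQ'mem] at hq ⊢
        refine ⟨hRnorm h hh q hq.1, ?_⟩
        rw [conj_pow, hq.2, mul_one, mul_inv_cancel]
      have T3 : ∀ x ∈ H, g⁻¹ * x * g ∈ Subgroup.normalizer (Q : Set G) := by
        intro x hx
        rw [Subgroup.mem_normalizer_iff]
        intro y
        rw [hQmem, hQmem]
        have e1 : g * (g⁻¹ * x * g * y * (g⁻¹ * x * g)⁻¹) * g⁻¹ = x * (g * y * g⁻¹) * x⁻¹ := by group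
        rw [e1]
        constructor
        · intro hy; exact hHQ' x hx _ hy
        · intro hy
          have := hHQ' x⁻¹ (H.inv_mem hx) _ hy
          have e2 : x⁻¹ * (x * (g * y * g⁻¹) * x⁻¹) * x⁻¹⁻¹ = g * y * g⁻¹ := by group
          rwa [e2] at this
      have hα : ∀ a ∈ Subgroup.centralizer (Q' : Set G), ∀ b ∈ Subgroup.centralizer (Q' : Set G),
          a * b = b * a := by
        intro a ha b hb
        have h1 := hQcomm.is_comm.comm (⟨g⁻¹ * a * g, T1 a ha⟩ : ↥(Subgroup.centralizer (Q : Set G)))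
          ⟨g⁻¹ * b * g, T1 b hb⟩
        have h2 : (g⁻¹ * a * g) * (g⁻¹ * b * g) = (g⁻¹ * b * g) * (g⁻¹ * a * g) :=
          congrArg Subtype.val h1
        calc a * b = g * ((g⁻¹ * a * g) * (g⁻¹ * b * g)) * g⁻¹ := by group
          _ = g * ((g⁻¹ * b * g) * (g⁻¹ * a * g)) * g⁻¹ := by rw [h2]
          _ = b * a := by group
      have hβ : ∀ x ∈ H, x ∉ Subgroup.centralizer (Q' : Set G) →
          x * x = 1 ∧ ∀ c ∈ Subgroup.centralizer (Q' : Set G), x * c * x⁻¹ = c⁻¹ := by
        intro x hx hxc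
        obtain ⟨h1, h2⟩ := hQinv (g⁻¹ * x * g) (T3 x hx) (fun h => hxc (T2 x h))
        constructor
        · have e1 : (g⁻¹ * x * g) ^ 2 = 1 := by rw [← h1]; exact pow_orderOf_eq_one _
          have e2 : (g⁻¹ * x * g) ^ 2 = g⁻¹ * (x * x) * g := by rw [pow_two]; group
          rw [e2] at e1
          have := congrArg (fun t => g * t * g⁻¹) e1
          simpa [mul_assoc] using this
        · intro c hc
          have h3 := h2 _ (T1 c hc)
          have e3 : g⁻¹ * x * g * (g⁻¹ * c * g) * (g⁻¹ * x * g)⁻¹ = g⁻¹ * (x * c * x⁻¹) * g := by group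
          have e4 : (g⁻¹ * c * g)⁻¹ = g⁻¹ * c⁻¹ * g := by group
          rw [e3, e4] at h3
          have := congrArg (fun t => g * t * g⁻¹) h3
          simpa [mul_assoc] using this
      have hRC : R ≤ Subgroup.centralizer (Q' : Set G) := by
        intro r hr
        rw [Subgroup.mem_centralizer_iff]
        intro q hq
        exact hRcomm q (hQ'R hq) r hr
      -- generator of the quotient
      obtain ⟨γ', hγ'⟩ := @IsCyclic.exists_generator _ _ hq
      obtain ⟨γ, rfl⟩ := QuotientGroup.mk_surjective γ'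
      have hdecomp : ∀ b : ↥H, ∃ k : ℤ, (γ ^ k)⁻¹ * b ∈ (S : Subgroup ↥H) := by
        intro b
        obtain ⟨k, hk⟩ := Subgroup.mem_zpowers_iff.mp (hγ' (QuotientGroup.mk b))
        refine ⟨k, ?_⟩
        rw [← QuotientGroup.eq, QuotientGroup.mk_zpow]
        exact hk
      have hγC : (γ : G) ∉ Subgroup.centralizer (Q' : Set G) := by
        intro hγc
        apply hne₁
        have hall : ∀ h ∈ H, h ∈ Subgroup.centralizer (Q' : Set G) := by
          intro h hh
          obtain ⟨k, hk⟩ := hdecomp ⟨h, hh⟩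
          have h1 : (((γ ^ k)⁻¹ * ⟨h, hh⟩ : ↥H) : G) ∈ Subgroup.centralizer (Q' : Set G) :=
            hRC ((hmemR _).mp hk)
          have h2 : ((γ ^ k : ↥H) : G) ∈ Subgroup.centralizer (Q' : Set G) := by
            rw [Subgroup.coe_zpow]; exact Subgroup.zpow_mem _ hγc k
          have h3 := Subgroup.mul_mem _ h2 h1
          have e : ((γ ^ k : ↥H) : G) * (((γ ^ k)⁻¹ * ⟨h, hh⟩ : ↥H) : G) = h := by
            rw [Subgroup.coe_mul, Subgroup.coe_inv]; simp
          rwa [e] at h3
        exact hα h₁ (hall h₁ hh₁) r₁ (hall r₁ (hRH hr₁))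
      obtain ⟨hγ2, hγinv⟩ := hβ γ γ.2 hγC
      have hγ2' : γ * γ = 1 := Subtype.ext hγ2
      have hγS : γ ∉ (S : Subgroup ↥H) := fun h => hγC (hRC ((hmemR γ).mp h))
      have hγinv' : ∀ s ∈ (S : Subgroup ↥H), γ * s * γ⁻¹ = s⁻¹ := by
        intro s hs
        apply Subtype.ext
        exact hγinv s (hRC ((hmemR s).mp hs))
      have hγi : γ⁻¹ = γ := inv_eq_of_mul_eq_one_left hγ2'
      have hidx : (S : Subgroup ↥H).index = 2 := by
        rw [Subgroup.index_eq_two_iff]
        refine ⟨γ, fun b => ?_⟩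
        obtain ⟨k, hk⟩ := hdecomp b
        rcases zp2 γ (γ ^ k) hγ2' (Subgroup.zpow_mem_zpowers γ k) with h | h
        · rw [h, inv_one, one_mul] at hk
          right
          refine ⟨hk, fun hb => hγS ?_⟩
          have := Subgroup.mul_mem _ (Subgroup.inv_mem _ hk) hb
          rwa [inv_mul_cancel_left] at this
        · rw [h] at hk
          left
          constructor
          · have h1 := hγinv' _ hk
            have h2 : γ * (γ⁻¹ * b) * γ⁻¹ = b * γ := by
              calc γ * (γ⁻¹ * b) * γ⁻¹ = b * γ⁻¹ := by group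
                _ = b * γ := by rw [hγi]
            rw [h2] at h1
            rw [h1]; exact Subgroup.inv_mem _ hk
          · intro hb
            apply hγS
            have := Subgroup.mul_mem _ hb (Subgroup.inv_mem _ hk)
            have e : b * (γ⁻¹ * b)⁻¹ = γ := by group
            rwa [e] at this
      obtain ⟨a, ha⟩ := IsPGroup.iff_card.mp S.isPGroup'
      have := dih_build (S : Subgroup ↥H) hSc γ hγ2' hγS hγinv' hidx
      rw [ha] at this
      exact ⟨a, this⟩

/-- Let p be an odd prime and G a finite group with Sylow p-subgroup P. Say that G has restricted p-by-cyclic subgroups when every subgroup H of G whose Sylow p-subgroup is normal in H with cyclic quotient is itself cyclic or dihedral of order 2pⁿ for some n. Then G has restricted p-by-cyclic subgroups if and only if P is cyclic and one of the following holds: (1) N_G(P) = C_G(P); or (2) N_G(P)/C_G(P) has order 2 and, for the subgroup Q of order p of P, the centralizer C_G(Q) is abelian and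 every element of N_G(Q) outside C_G(Q) is an involution inverting every element of C_G(Q). -/
theorem result {G : Type*} [Group G] [Finite G] {p : ℕ}
    [Fact p.Prime] (hp : p ≠ 2) (P : Sylow p G) :
    (∀ H : Subgroup G, (∀ S : Sylow p ↥H, (S : Subgroup ↥H).Normal) →
        (∀ (S : Sylow p ↥H) [(S : Subgroup ↥H).Normal], IsCyclic (↥H ⧸ (S : Subgroup ↥H))) →
        IsCyclic H ∨ (∃ n : ℕ, Nonempty (H ≃* DihedralGroup (p ^ n)))) ↔
    (IsCyclic P ∧
      (Subgroup.normalizer ((P : Subgroup G) : Set G) = Subgroup.centralizer ((P : Subgroup G) : Set G) ∨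
       ((Subgroup.centralizer ((P : Subgroup G) : Set G)).relIndex (Subgroup.normalizer ((P : Subgroup G) : Set G)) = 2 ∧
        ∀ Q : Subgroup G, Q ≤ P → Nat.card Q = p →
          IsMulCommutative ↥(Subgroup.centralizer (Q : Set G)) ∧
          ∀ x : G, x ∈ Subgroup.normalizer (Q : Set G) → x ∉ Subgroup.centralizer (Q : Set G) →
            orderOf x = 2 ∧ ∀ c : G, c ∈ Subgroup.centralizer (Q : Set G) → x * c * x⁻¹ = c⁻¹))) := by
  constructor
  · intro hL
    exact forward hp P hL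
  · rintro ⟨hPc, h12⟩ H hSn hSq
    exact backward hp P hPc h12 H hSn hSq

end Cfsg.Agent.S4082
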