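import Cfsg.Statements.S4083
import Mathlib
import Cfsg.Agent.S4082
-- import your own Cfsg.Agent.* helpers here

set_option autoImplicit false
open Cfsg

namespace Cfsg.Agent.S4083

theorem comm_of_sq {G : Type*} [Group G] (E : Subgroup G) (h : ∀ e ∈ E, e ^ 2 = 1) :
    ∀ a ∈ E, ∀ b ∈ E, a * b = b * a := by
  intro a ha b hb
  have h1 := h a ha
  have h2 := h b hb
  have h3 := h (a * b) (E.mul_mem ha hb)
  rw [pow_two] at h1 h2 h3
  have ha' : a⁻¹ = a := by rw [inv_eq_iff_mul_eq_one]; exact h1
  have hb' : b⁻¹ = b := by rw [inv_eq_iff_mul_eq_one]; exact h2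
  calc a * b = (a * b)⁻¹ := by rw [eq_comm, inv_eq_iff_mul_eq_one]; exact h3
    _ = b⁻¹ * a⁻¹ := mul_inv_rev a b
    _ = b * a := by rw [ha', hb']

theorem cyc2_central {X : Type*} [Group X] [Finite X] (N : Subgroup X) [hN : N.Normal]
    (hNc : IsCyclic N) (hN2 : IsPGroup 2 N) (h : X) (k : ℕ) (hk : Odd k)
    (hpow : ∀ s ∈ N, h ^ k * s = s * h ^ k) : ∀ s ∈ N, h * s = s * h := by
  haveI := hNc
  set φ : X →* MulAut N := MulAut.conjNormal with hφ
  have h1 : (φ h) ^ k = 1 := by
    rw [← map_pow]
    ext s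
    rw [MulAut.conjNormal_apply, MulAut.one_apply, hpow s s.2]
    group
  have h2 : (φ h) ^ Nat.card (MulAut N) = 1 := pow_card_eq_one'
  have hcard : ∃ j, Nat.card (MulAut N) = 2 ^ j := by
    rw [IsCyclic.card_mulAut]
    obtain ⟨a, ha⟩ := IsPGroup.iff_card.mp hN2
    rw [ha]
    rcases a with _ | a
    · exact ⟨0, by simp⟩
    · exact ⟨a, by rw [Nat.totient_prime_pow_succ Nat.prime_two]; simp⟩
  obtain ⟨j, hj⟩ := hcard
  rw [hj] at h2
  have h3 : orderOf (φ h) ∣ Nat.gcd k (2 ^ j) :=
    Nat.dvd_gcd (orderOf_dvd_of_pow_eq_one h1) (orderOf_dvd_of_pow_eq_one h2)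
  have h4 : Nat.gcd k (2 ^ j) = 1 := Nat.Coprime.pow_right j (Nat.coprime_two_right.mpr hk)
  rw [h4, Nat.dvd_one, orderOf_eq_one_iff] at h3
  intro s hs
  have h5 := congrArg (fun σ : MulAut N => ((σ ⟨s, hs⟩ : N) : X)) h3
  simp only [MulAut.one_apply] at h5
  rw [hφ, MulAut.conjNormal_apply] at h5
  calc h * s = (h * s * h⁻¹) * h := by group
    _ = s * h := by rw [h5]

theorem a4_noncomm : ∃ a b : alternatingGroup (Fin 4), a * b ≠ b * a := by
  refine ⟨⟨Equiv.swap 0 1 * Equiv.swap 1 2, Equiv.Perm.mem_alternatingGroup.mpr (by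
      rw [Equiv.Perm.sign_mul, Equiv.Perm.sign_swap (by decide), Equiv.Perm.sign_swap (by decide)]
      rfl)⟩,
    ⟨Equiv.swap 0 1 * Equiv.swap 2 3, Equiv.Perm.mem_alternatingGroup.mpr (by
      rw [Equiv.Perm.sign_mul, Equiv.Perm.sign_swap (by decide), Equiv.Perm.sign_swap (by decide)]
      rfl)⟩, ?_⟩
  intro h
  have h1 := congrArg (fun x : alternatingGroup (Fin 4) => (x : Equiv.Perm (Fin 4)) 0) h
  revert h1
  decide

theorem dih_comm_small {m : ℕ} (h : ∀ a b : DihedralGroup m, a * b = b * a) : m ∣ 2 := by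
  have h1 := h (DihedralGroup.r 1) (DihedralGroup.sr 0)
  rw [DihedralGroup.r_mul_sr, DihedralGroup.sr_mul_r] at h1
  have h2 : (0 - 1 : ZMod m) = 0 + 1 := by injection h1
  have h3 : ((2 : ℕ) : ZMod m) = 0 := by
    push_cast
    linear_combination -h2
  exact (ZMod.natCast_eq_zero_iff 2 m).mp h3

theorem forward2 {G : Type*} [Group G] [Finite G] (P : Sylow 2 G)
    (hL : ∀ H : Subgroup G, (∀ S : Sylow 2 ↥H, (S : Subgroup ↥H).Normal) →
        (∀ (S : Sylow 2 ↥H) [(S : Subgroup ↥H).Normal], IsCyclic (↥H ⧸ (S : Subgroup ↥H))) →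
        IsCyclic H ∨ (∃ n : ℕ, Nonempty (H ≃* DihedralGroup (2 ^ n))) ∨ Nonempty (H ≃* alternatingGroup (Fin 4))) :
    (IsCyclic P ∨
      ((∃ n : ℕ, 1 ≤ n ∧ Nonempty ((P : Subgroup G) ≃* DihedralGroup (2 ^ n))) ∧
        ∀ K : Subgroup G, K ≤ P → Nat.card K = 4 → (∀ k ∈ K, k ^ 2 = 1) → Subgroup.centralizer (K : Set G) = K)) := by
  haveI : Fact (Nat.Prime 2) := ⟨Nat.prime_two⟩
  have hPp : IsPGroup 2 (P : Subgroup G) := P.isPGroup'
  obtain ⟨k, hk⟩ := IsPGroup.iff_card.mp hPp
  obtain ⟨h1, h2⟩ := Cfsg.Agent.S4082.sup_hyp (P : Subgroup G) hPp 1 (Subgroup.one_mem _)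
  have hHP : Subgroup.zpowers (1 : G) ⊔ (P : Subgroup G) = P := by simp
  rcases hL _ h1 h2 with hc | ⟨n, ⟨e⟩⟩ | ⟨e⟩
  · left; rw [hHP] at hc; exact hc
  · have hc1 := Nat.card_congr e.toEquiv
    rw [DihedralGroup.nat_card, hHP] at hc1
    rcases n with _ | n
    · left
      rw [pow_zero, mul_one] at hc1
      exact isCyclic_of_prime_card hc1
    · right
      refine ⟨⟨n + 1, by omega, ⟨(MulEquiv.subgroupCongr hHP).symm.trans e⟩⟩, ?_⟩
      intro K hKP hK4 hK2
      have hKcomm := comm_of_sq K hK2
      apply le_antisymm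
      · intro c hc
        have hKp : IsPGroup 2 K := IsPGroup.of_card (n := 2) (by rw [hK4]; norm_num)
        have hcN : c ∈ Subgroup.normalizer (K : Set G) := Subgroup.centralizer_le_normalizer _ hc
        obtain ⟨g1, g2⟩ := Cfsg.Agent.S4082.sup_hyp K hKp c hcN
        set H : Subgroup G := Subgroup.zpowers c ⊔ K with hH
        have hKH : K ≤ H := le_sup_right
        have hcH : c ∈ H := le_sup_left (a := Subgroup.zpowers c) (Subgroup.mem_zpowers c)
        have hHcomm : ∀ x ∈ H, ∀ y ∈ H, x * y = y * x := by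
          have hzN : Subgroup.zpowers c ≤ Subgroup.normalizer (K : Set G) := by
            rw [Subgroup.zpowers_le]; exact hcN
          have hdec : ∀ x ∈ H, ∃ i : ℤ, ∃ k ∈ K, x = c ^ i * k := by
            intro x hx
            have hx' : x ∈ ((Subgroup.zpowers c ⊔ K : Subgroup G) : Set G) := hx
            rw [Subgroup.coe_mul_of_left_le_normalizer_right _ _ hzN] at hx'
            obtain ⟨z, hz, k, hk, rfl⟩ := hx'
            obtain ⟨i, rfl⟩ := Subgroup.mem_zpowers_iff.mp hz
            exact ⟨i, k, hk, rfl⟩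
          have hck : ∀ (i : ℤ), ∀ k ∈ K, k * c ^ i = c ^ i * k := by
            intro i k hk
            have := Subgroup.zpow_mem _ hc i
            exact Subgroup.mem_centralizer_iff.mp this k hk
          intro x hx y hy
          obtain ⟨i, k, hk, rfl⟩ := hdec x hx
          obtain ⟨j, l, hl, rfl⟩ := hdec y hy
          calc c ^ i * k * (c ^ j * l) = c ^ i * (k * c ^ j) * l := by group
            _ = c ^ i * (c ^ j * k) * l := by rw [hck j k hk]
            _ = (c ^ i * c ^ j) * (k * l) := by group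
            _ = (c ^ j * c ^ i) * (l * k) := by
                rw [hKcomm k hk l hl, ← zpow_add, ← zpow_add, add_comm]
            _ = c ^ j * (c ^ i * l) * k := by group
            _ = c ^ j * (l * c ^ i) * k := by rw [hck i l hl]
            _ = c ^ j * l * (c ^ i * k) := by group
        rcases hL H g1 g2 with hc' | ⟨n', ⟨e'⟩⟩ | ⟨e'⟩
        · exfalso
          haveI := hc'
          have hKc : IsCyclic K := Subgroup.isCyclic_of_le hKH
          obtain ⟨x, hx⟩ := @IsCyclic.exists_generator _ _ hKc
          have ho := orderOf_eq_card_of_forall_mem_zpowers hx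
          rw [hK4] at ho
          have hx2 : x ^ 2 = 1 := Subtype.ext (by simpa using hK2 x.1 x.2)
          have := orderOf_dvd_of_pow_eq_one hx2
          rw [ho] at this
          omega
        · have hd : 2 ^ n' ∣ 2 := dih_comm_small (fun a b => by
            apply e'.symm.injective
            rw [map_mul, map_mul]
            exact Subtype.ext (hHcomm _ (e'.symm a).2 _ (e'.symm b).2))
          have hcH4 : Nat.card H ≤ 4 := by
            rw [Nat.card_congr e'.toEquiv, DihedralGroup.nat_card]
            have := Nat.le_of_dvd (by norm_num) hd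
            omega
          have hKH' : K = H := Subgroup.eq_of_le_of_card_ge hKH (by rw [hK4]; exact hcH4)
          rw [hKH']; exact hcH
        · exfalso
          obtain ⟨e'⟩ := e'
          obtain ⟨a, b, hab⟩ := a4_noncomm
          apply hab
          apply e'.symm.injective
          rw [map_mul, map_mul]
          exact Subtype.ext (hHcomm _ (e'.symm a).2 _ (e'.symm b).2)
      · intro k hk
        rw [Subgroup.mem_centralizer_iff]
        intro l hl
        exact hKcomm l hl k hk
  · exfalso
    obtain ⟨e⟩ := e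
    have hc1 := Nat.card_congr e.toEquiv
    rw [hHP, hk, nat_card_alternatingGroup] at hc1
    have h12 : (2 : ℕ) ^ k = 12 := by simpa [Nat.factorial] using hc1
    have h3 : 3 ∣ 2 ^ k := by rw [h12]; norm_num
    have := Nat.Prime.dvd_of_dvd_pow Nat.prime_three h3
    omega


theorem conj_into {G : Type*} [Group G] [Finite G] {p : ℕ} [Fact p.Prime] (P : Sylow p G)
    (R : Subgroup G) (hR : IsPGroup p R) : ∃ g : G, ∀ r ∈ R, g⁻¹ * r * g ∈ (P : Subgroup G) := by
  obtain ⟨P', hRP'⟩ := hR.exists_le_sylow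
  obtain ⟨g, hg⟩ := MulAction.exists_smul_eq G P P'
  refine ⟨g, fun r hr => ?_⟩
  have h1 : r ∈ (P' : Subgroup G) := hRP' hr
  rw [← hg, Sylow.coe_subgroup_smul, Subgroup.mem_pointwise_smul_iff_inv_smul_mem] at h1
  have : (MulAut.conj g)⁻¹ • r = g⁻¹ * r * g := by
    rw [← map_inv, MulAut.smul_def, MulAut.conj_apply, inv_inv]
  rwa [this] at h1

theorem ea_ext {G : Type*} [Group G] [Finite G] (U : Subgroup G) (hU2 : ∀ u ∈ U, u ^ 2 = 1)
    (hUc : Nat.card U = 2) (e : G) (he2 : e ^ 2 = 1) (heU : e ∉ U) (heC : ∀ u ∈ U, u * e = e * u) :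
    ∃ K : Subgroup G, Nat.card K = 4 ∧ (∀ k ∈ K, k ^ 2 = 1) ∧ ∀ k ∈ K, k ∈ U ∨ k * e ∈ U := by
  haveI : Fact (Nat.Prime 2) := ⟨Nat.prime_two⟩
  let A : Subgroup G :=
    { carrier := {a | a ∈ U ∨ a * e ∈ U}
      one_mem' := Or.inl U.one_mem
      mul_mem' := by
        rintro a b (ha | ha) (hb | hb)
        · exact Or.inl (U.mul_mem ha hb)
        · right
          show a * b * e ∈ U
          rw [mul_assoc]; exact U.mul_mem ha hb
        · right
          have : a * b * e = a * e * b := by rw [mul_assoc, heC b hb, ← mul_assoc]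
          show a * b * e ∈ U
          rw [this]; exact U.mul_mem ha hb
        · left
          have : a * b = a * e * (b * e) := by
            rw [mul_assoc a e, ← heC (b * e) hb, mul_assoc b e e, ← pow_two, he2, mul_one]
          show a * b ∈ U
          rw [this]; exact U.mul_mem ha hb
      inv_mem' := by
        rintro a (ha | ha)
        · exact Or.inl (U.inv_mem ha)
        · right
          have : a⁻¹ * e = (a * e)⁻¹ := by
            have h1 := heC (a * e)⁻¹ (U.inv_mem ha)
            have h2 : e * (a * e)⁻¹ = a⁻¹ := by group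
            rw [h2] at h1
            rw [← h1, mul_assoc, ← pow_two, he2, mul_one]
          show a⁻¹ * e ∈ U
          rw [this]; exact U.inv_mem ha }
  have hUA : U ≤ A := fun u hu => Or.inl hu
  have heA : e ∈ A := Or.inr (by rw [← pow_two, he2]; exact U.one_mem)
  have hA2 : ∀ a ∈ A, a ^ 2 = 1 := by
    rintro a (ha | ha)
    · exact hU2 a ha
    · have h1 := hU2 (a * e) ha
      have h2 := heC (a * e) ha
      have h3 : a * e * e = a := by rw [mul_assoc, ← pow_two, he2, mul_one]
      rw [h3] at h2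
      calc a ^ 2 = a * a := pow_two a
        _ = a * (e * (a * e)) := by rw [← h2]
        _ = (a * e) ^ 2 := by rw [pow_two]; group
        _ = 1 := h1
  have hAp : IsPGroup 2 A := by
    intro a
    refine ⟨1, ?_⟩
    apply Subtype.ext
    simpa using hA2 a.1 a.2
  obtain ⟨n, hn⟩ := IsPGroup.iff_card.mp hAp
  have hn2 : 2 ≤ n := by
    have hd : 2 ∣ 2 ^ n := by rw [← hn, ← hUc]; exact Subgroup.card_dvd_of_le hUA
    have hne : Nat.card A ≠ 2 := by
      intro h2
      have := Subgroup.eq_of_le_of_card_ge hUA (by rw [h2, hUc])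
      exact heU (this ▸ heA)
    rw [hn] at hne
    by_contra hlt
    push_neg at hlt
    interval_cases n <;> omega
  obtain ⟨K, hK⟩ := Sylow.exists_subgroup_card_pow_prime 2 (G := A) (n := 2)
    (by rw [hn]; exact pow_dvd_pow 2 hn2)
  refine ⟨K.map A.subtype, ?_, ?_, ?_⟩
  · rw [Subgroup.card_map_of_injective (Subgroup.subtype_injective _), hK]; norm_num
  · rintro _ ⟨k, hk, rfl⟩; exact hA2 k.1 k.2
  · rintro _ ⟨k, hk, rfl⟩; exact k.2

theorem dih_struct {X : Type*} [Group X] {m : ℕ} (e : X ≃* DihedralGroup m) :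
    ∃ C : Subgroup X, IsCyclic C ∧ (∀ x, x ∉ C → x * x = 1 ∧ ∀ c ∈ C, x * c * x⁻¹ = c⁻¹) ∧
      (∀ x y, x ∉ C → y ∉ C → x * y ∈ C) := by
  have hmem : ∀ x : X, x ∈ Subgroup.zpowers (e.symm (DihedralGroup.r 1)) ↔
      ∃ i, e x = DihedralGroup.r i := by
    intro x
    constructor
    · rintro ⟨k, rfl⟩
      refine ⟨(k : ZMod m), ?_⟩
      show e ((e.symm (DihedralGroup.r 1)) ^ k) = _
      rw [map_zpow, MulEquiv.apply_symm_apply, DihedralGroup.r_one_zpow]
    · rintro ⟨i, hi⟩
      refine ⟨(ZMod.cast i : ℤ), ?_⟩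
      show (e.symm (DihedralGroup.r 1)) ^ (ZMod.cast i : ℤ) = x
      apply e.injective
      rw [map_zpow, MulEquiv.apply_symm_apply, DihedralGroup.r_one_zpow, ZMod.intCast_zmod_cast, hi]
  have hsr : ∀ x : X, x ∉ Subgroup.zpowers (e.symm (DihedralGroup.r 1)) →
      ∃ i, e x = DihedralGroup.sr i := by
    intro x hx
    rcases h : e x with i | i
    · exact absurd ((hmem x).mpr ⟨i, h⟩) hx
    · exact ⟨i, rfl⟩
  refine ⟨Subgroup.zpowers (e.symm (DihedralGroup.r 1)), inferInstance, ?_, ?_⟩
  · intro x hx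
    obtain ⟨i, hi⟩ := hsr x hx
    constructor
    · apply e.injective
      rw [map_mul, hi, DihedralGroup.sr_mul_sr, sub_self, map_one, DihedralGroup.one_def]
    · intro c hc
      obtain ⟨j, hj⟩ := (hmem c).mp hc
      apply e.injective
      rw [map_mul, map_mul, map_inv, map_inv, hi, hj, DihedralGroup.sr_mul_r, DihedralGroup.inv_sr,
        DihedralGroup.sr_mul_sr, DihedralGroup.inv_r]
      congr 1
      ring
  · intro x y hx hy
    obtain ⟨i, hi⟩ := hsr x hx
    obtain ⟨j, hj⟩ := hsr y hy
    rw [hmem]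
    exact ⟨j - i, by rw [map_mul, hi, hj, DihedralGroup.sr_mul_sr]⟩


theorem backward2 {G : Type*} [Group G] [Finite G] (P : Sylow 2 G)
    (hRHS : IsCyclic P ∨
      ((∃ n : ℕ, 1 ≤ n ∧ Nonempty ((P : Subgroup G) ≃* DihedralGroup (2 ^ n))) ∧
        ∀ K : Subgroup G, K ≤ P → Nat.card K = 4 → (∀ k ∈ K, k ^ 2 = 1) → Subgroup.centralizer (K : Set G) = K))
    (H : Subgroup G) (hSn : ∀ S : Sylow 2 ↥H, (S : Subgroup ↥H).Normal)
    (hSq : ∀ (S : Sylow 2 ↥H) [(S : Subgroup ↥H).Normal], IsCyclic (↥H ⧸ (S : Subgroup ↥H))) :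
    IsCyclic H ∨ (∃ n : ℕ, Nonempty (H ≃* DihedralGroup (2 ^ n))) ∨
      Nonempty (H ≃* alternatingGroup (Fin 4)) := by
  classical
  haveI : Fact (Nat.Prime 2) := ⟨Nat.prime_two⟩
  obtain ⟨S⟩ := (inferInstance : Nonempty (Sylow 2 ↥H))
  haveI hSnorm := hSn S
  have hq := hSq S
  set R : Subgroup G := (S : Subgroup ↥H).map H.subtype with hR
  have hRH : R ≤ H := Subgroup.map_subtype_le _
  have hRp : IsPGroup 2 R := S.isPGroup'.map H.subtype
  have hmemR : ∀ x : ↥H, x ∈ (S : Subgroup ↥H) ↔ (x : G) ∈ R := by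
    intro x
    rw [hR]
    constructor
    · intro hx; exact ⟨x, hx, rfl⟩
    · rintro ⟨y, hy, hyx⟩
      have : y = x := Subtype.ext hyx
      rwa [← this]
  have hSR : Nat.card (S : Subgroup ↥H) = Nat.card R := by
    rw [hR, Subgroup.card_map_of_injective (Subgroup.subtype_injective _)]
  have hRnorm : ∀ h ∈ H, ∀ r ∈ R, h * r * h⁻¹ ∈ R := by
    intro h hh r hr
    have h1 : (⟨r, hRH hr⟩ : ↥H) ∈ (S : Subgroup ↥H) := (hmemR _).mpr hr
    have h2 := hSnorm.conj_mem _ h1 ⟨h, hh⟩
    exact (hmemR _).mp h2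
  set m := (S : Subgroup ↥H).index with hm
  have hmodd : Odd m := by
    rw [← Nat.not_even_iff_odd, even_iff_two_dvd]; exact S.not_dvd_index
  have hpowS : ∀ h : ↥H, h ^ m ∈ (S : Subgroup ↥H) := by
    intro h
    have h1 : (QuotientGroup.mk h : ↥H ⧸ (S : Subgroup ↥H)) ^ m = 1 := by
      rw [hm, Subgroup.index_eq_card]; exact pow_card_eq_one'
    rw [← QuotientGroup.mk_pow] at h1
    exact (QuotientGroup.eq_one_iff _).mp h1
  by_cases hScyc : IsCyclic (S : Subgroup ↥H)
  · left
    refine Cfsg.Agent.S4082.cyc_central S hScyc (fun h s hs => ?_) hq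
    refine cyc2_central (S : Subgroup ↥H) hScyc S.isPGroup' h m hmodd (fun s' hs' => ?_) s hs
    haveI := hScyc
    have := (IsCyclic.commGroup (α := ↥(S : Subgroup ↥H))).mul_comm ⟨h ^ m, hpowS h⟩ ⟨s', hs'⟩
    exact congrArg Subtype.val this
  · right
    have hRnc : ¬ IsCyclic R := by
      intro hRc
      apply hScyc
      haveI := hRc
      exact isCyclic_of_surjective ((S : Subgroup ↥H).equivMapOfInjective H.subtype
        (Subgroup.subtype_injective H)).symm (MulEquiv.surjective _)
    rcases hRHS with hPc | ⟨⟨n, hn1, ⟨e⟩⟩, hK⟩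
    · exact absurd (Cfsg.Agent.S4082.cyc_of_sylow P hPc R hRp).1 hRnc
    · obtain ⟨g, hg⟩ := conj_into P R hRp
      obtain ⟨C, hCc, hC2, hC3⟩ := dih_struct e
      set C' : Subgroup G :=
        (C.map (P : Subgroup G).subtype).map (MulAut.conj g).toMonoidHom with hC'
      have hC'c : IsCyclic C' := by
        haveI := hCc
        haveI : IsCyclic (C.map (P : Subgroup G).subtype) :=
          isCyclic_of_surjective (C.equivMapOfInjective _ (Subgroup.subtype_injective _))
            (MulEquiv.surjective _)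
        exact isCyclic_of_surjective ((C.map (P : Subgroup G).subtype).equivMapOfInjective _
          (MulAut.conj g).injective) (MulEquiv.surjective _)
      have hC'mem : ∀ y : G, ∀ hy : g⁻¹ * y * g ∈ (P : Subgroup G),
          (y ∈ C' ↔ (⟨g⁻¹ * y * g, hy⟩ : (P : Subgroup G)) ∈ C) := by
        intro y hy
        constructor
        · rintro ⟨_, ⟨c, hc, rfl⟩, hcy⟩
          have : (⟨g⁻¹ * y * g, hy⟩ : (P : Subgroup G)) = c := by
            apply Subtype.ext
            show g⁻¹ * y * g = (c : G)
            rw [← hcy]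
            show g⁻¹ * (g * (c : G) * g⁻¹) * g = (c : G)
            group
          rw [this]; exact hc
        · intro h
          refine ⟨g⁻¹ * y * g, ⟨⟨g⁻¹ * y * g, hy⟩, h, rfl⟩, ?_⟩
          show g * (g⁻¹ * y * g) * g⁻¹ = y
          group
      set R₀ : Subgroup G := R ⊓ C' with hR₀
      have hR₀R : R₀ ≤ R := inf_le_left
      have hR₀c : IsCyclic R₀ := by
        haveI := hC'c
        exact Subgroup.isCyclic_of_le (inf_le_right : R₀ ≤ C')
      have hR₀p : IsPGroup 2 R₀ := hRp.to_le hR₀R
      have hR₀mem : ∀ t (ht : t ∈ R), t ∈ R₀ ↔ (⟨g⁻¹ * t * g, hg t ht⟩ : (P : Subgroup G)) ∈ C := by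
        intro t ht
        rw [hR₀, Subgroup.mem_inf]
        constructor
        · intro h; exact (hC'mem t (hg t ht)).mp h.2
        · intro h; exact ⟨ht, (hC'mem t (hg t ht)).mpr h⟩
      have r2 : ∀ t ∈ R, t ∉ R₀ → t * t = 1 ∧ ∀ r ∈ R₀, t * r * t⁻¹ = r⁻¹ := by
        intro t ht htR₀
        have h1 : (⟨g⁻¹ * t * g, hg t ht⟩ : (P : Subgroup G)) ∉ C :=
          fun h => htR₀ ((hR₀mem t ht).mpr h)
        obtain ⟨h2, h3⟩ := hC2 _ h1
        constructor
        · have h4 : (g⁻¹ * t * g) * (g⁻¹ * t * g) = 1 := congrArg Subtype.val h2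
          have h5 : (g⁻¹ * t * g) * (g⁻¹ * t * g) = g⁻¹ * (t * t) * g := by group
          rw [h5] at h4
          have := congrArg (fun x => g * x * g⁻¹) h4
          simpa [mul_assoc] using this
        · intro r hr
          have hrR : r ∈ R := hR₀R hr
          have h4 := h3 ⟨g⁻¹ * r * g, hg r hrR⟩ ((hR₀mem r hrR).mp hr)
          have h5 : (g⁻¹ * t * g) * (g⁻¹ * r * g) * (g⁻¹ * t * g)⁻¹ = (g⁻¹ * r * g)⁻¹ :=
            congrArg Subtype.val h4
          have e3 : (g⁻¹ * t * g) * (g⁻¹ * r * g) * (g⁻¹ * t * g)⁻¹ = g⁻¹ * (t * r * t⁻¹) * g := by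
            group
          have e4 : (g⁻¹ * r * g)⁻¹ = g⁻¹ * r⁻¹ * g := by group
          rw [e3, e4] at h5
          have := congrArg (fun x => g * x * g⁻¹) h5
          simpa [mul_assoc] using this
      have r3 : ∀ t ∈ R, ∀ t' ∈ R, t ∉ R₀ → t' ∉ R₀ → t * t' ∈ R₀ := by
        intro t ht t' ht' h1 h2
        have h3 := hC3 ⟨g⁻¹ * t * g, hg t ht⟩ ⟨g⁻¹ * t' * g, hg t' ht'⟩
          (fun h => h1 ((hR₀mem t ht).mpr h)) (fun h => h2 ((hR₀mem t' ht').mpr h))
        rw [hR₀mem (t * t') (R.mul_mem ht ht')]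
        have : (⟨g⁻¹ * (t * t') * g, hg _ (R.mul_mem ht ht')⟩ : (P : Subgroup G)) =
            ⟨g⁻¹ * t * g, hg t ht⟩ * ⟨g⁻¹ * t' * g, hg t' ht'⟩ := by
          apply Subtype.ext
          show g⁻¹ * (t * t') * g = (g⁻¹ * t * g) * (g⁻¹ * t' * g)
          group
        rw [this]; exact h3
      obtain ⟨t, htR, htR₀⟩ : ∃ t ∈ R, t ∉ R₀ := by
        by_contra hcon; push_neg at hcon
        apply hRnc
        have : R = R₀ := le_antisymm hcon hR₀R
        rw [this]; exact hR₀c
      obtain ⟨ht2, htinv⟩ := r2 t htR htR₀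
      have htinv' : t⁻¹ = t := inv_eq_of_mul_eq_one_left ht2
      have hR₀ne : R₀ ≠ ⊥ := by
        intro hbot
        apply hRnc
        have hle : R ≤ Subgroup.zpowers t := by
          intro r hr
          by_cases hr0 : r ∈ R₀
          · rw [hbot, Subgroup.mem_bot] at hr0; rw [hr0]; exact Subgroup.one_mem _
          · have h1 := r3 r hr t htR hr0 htR₀
            rw [hbot, Subgroup.mem_bot] at h1
            have h2 : r = t := by rw [← htinv']; exact eq_inv_of_mul_eq_one_left h1
            rw [h2]; exact Subgroup.mem_zpowers t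
        exact Subgroup.isCyclic_of_le hle
      have hRidx : R₀.relIndex R = 2 := by
        rw [Subgroup.relIndex_eq_two_iff]
        refine ⟨t, htR, fun b hb => ?_⟩
        by_cases hb0 : b ∈ R₀
        · right
          refine ⟨hb0, fun h => htR₀ ?_⟩
          have := R₀.mul_mem (R₀.inv_mem hb0) h
          rwa [inv_mul_cancel_left] at this
        · left; exact ⟨r3 b hb t htR hb0 htR₀, hb0⟩
      obtain ⟨a, ha⟩ := IsPGroup.iff_card.mp hR₀p
      have ha1 : 1 ≤ a := by
        by_contra h0
        have h0' : a = 0 := by omega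
        rw [h0', pow_zero] at ha
        exact hR₀ne (Subgroup.card_eq_one.mp ha)
      have hRcard : Nat.card R = 2 ^ (a + 1) := by
        have h1 := Subgroup.relIndex_mul_relIndex ⊥ R₀ R bot_le hR₀R
        rw [Subgroup.relIndex_bot_left, Subgroup.relIndex_bot_left, hRidx, ha] at h1
        rw [← h1, pow_succ]
      obtain ⟨Q', hQ'R₀, hQ'c, hQ'mem⟩ := Cfsg.Agent.S4082.omega_card R₀ hR₀p hR₀c hR₀ne
      have hQ'2 : ∀ u ∈ Q', u ^ 2 = 1 := fun u hu => ((hQ'mem u).mp hu).2
      have htQ' : t ∉ Q' := fun h => htR₀ (hQ'R₀ h)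
      have htC : ∀ u ∈ Q', u * t = t * u := by
        intro u hu
        have h1 := htinv u (hQ'R₀ hu)
        have h2 : u⁻¹ = u := by
          have := hQ'2 u hu; rw [pow_two] at this; exact inv_eq_of_mul_eq_one_left this
        rw [h2] at h1
        calc u * t = (t * u * t⁻¹) * t := by rw [h1]
          _ = t * u := by group
      obtain ⟨K', hK'4, hK'2, hK'dec⟩ := ea_ext Q' hQ'2 hQ'c t (by rw [pow_two]; exact ht2) htQ' htC
      have hK'R : K' ≤ R := by
        intro k hk
        rcases hK'dec k hk with h | h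
        · exact hR₀R (hQ'R₀ h)
        · have := R.mul_mem (hR₀R (hQ'R₀ h)) (R.inv_mem htR)
          rwa [mul_inv_cancel_right] at this
      have hCK' : ∀ c : G, (∀ k ∈ K', k * c = c * k) → c ∈ K' := by
        intro c hc
        set K : Subgroup G := K'.comap (MulAut.conj g).toMonoidHom with hKdef
        have hKmem : ∀ y : G, y ∈ K ↔ g * y * g⁻¹ ∈ K' := fun y => Iff.rfl
        have hKP : K ≤ (P : Subgroup G) := by
          intro y hy
          have h1 := hg _ (hK'R ((hKmem y).mp hy))
          have h2 : g⁻¹ * (g * y * g⁻¹) * g = y := by group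
          rwa [h2] at h1
        have hKcard : Nat.card K = 4 := by
          rw [hKdef, Subgroup.comap_equiv_eq_map_symm',
            Subgroup.card_map_of_injective (MulEquiv.injective _), hK'4]
        have hK2 : ∀ k ∈ K, k ^ 2 = 1 := by
          intro k hk
          have h1 := hK'2 _ ((hKmem k).mp hk)
          rw [conj_pow] at h1
          have := congrArg (fun x => g⁻¹ * x * g) h1
          simpa [mul_assoc] using this
        have hcen := hK K hKP hKcard hK2
        have h1 : g⁻¹ * c * g ∈ Subgroup.centralizer (K : Set G) := by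
          rw [Subgroup.mem_centralizer_iff]
          intro y hy
          have h1 := hc _ ((hKmem y).mp hy)
          calc y * (g⁻¹ * c * g) = g⁻¹ * (g * y * g⁻¹ * c) * g := by group
            _ = g⁻¹ * (c * (g * y * g⁻¹)) * g := by rw [h1]
            _ = g⁻¹ * c * g * y := by group
        rw [hcen] at h1
        have h2 := (hKmem _).mp h1
        have h3 : g * (g⁻¹ * c * g) * g⁻¹ = c := by group
        rwa [h3] at h2
      have claim1 : ∀ h ∈ H, Odd (orderOf h) → (∀ r ∈ R, h * r = r * h) → h = 1 := by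
        intro h hh hodd hcen
        have h1 : h ∈ K' := hCK' h (fun k hk => (hcen k (hK'R hk)).symm)
        have h2 := orderOf_dvd_of_pow_eq_one (hK'2 h h1)
        have h3 : orderOf h = 1 := by
          rcases (Nat.dvd_prime Nat.prime_two).mp h2 with h | h
          · exact h
          · rw [h] at hodd; exact absurd hodd (by decide)
        exact orderOf_eq_one_iff.mp h3
      have hR₀H : R₀ ≤ H := hR₀R.trans hRH
      have hS₀c : IsCyclic (R₀.subgroupOf H) := by
        haveI := hR₀c
        exact isCyclic_of_surjective (Subgroup.subgroupOfEquivOfLe hR₀H).symm (MulEquiv.surjective _)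
      have hdih : m = 1 → ∃ n : ℕ, Nonempty (H ≃* DihedralGroup (2 ^ n)) := by
        intro hm1
        have hStop : ∀ b : ↥H, (b : G) ∈ R := by
          intro b
          have h1 : (S : Subgroup ↥H) = ⊤ := Subgroup.index_eq_one.mp hm1
          exact (hmemR b).mp (h1 ▸ Subgroup.mem_top b)
        have hS₀card : Nat.card (R₀.subgroupOf H) = 2 ^ a := by
          rw [Nat.card_congr (Subgroup.subgroupOfEquivOfLe hR₀H).toEquiv, ha]
        have hidx : (R₀.subgroupOf H).index = 2 := by
          rw [Subgroup.index_eq_two_iff]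
          refine ⟨⟨t, hRH htR⟩, fun b => ?_⟩
          by_cases hb0 : (b : G) ∈ R₀
          · right
            refine ⟨Subgroup.mem_subgroupOf.mpr hb0, fun h => htR₀ ?_⟩
            have h' : (b : G) * t ∈ R₀ := Subgroup.mem_subgroupOf.mp h
            have := R₀.mul_mem (R₀.inv_mem hb0) h'
            rwa [inv_mul_cancel_left] at this
          · left
            exact ⟨Subgroup.mem_subgroupOf.mpr (r3 _ (hStop b) t htR hb0 htR₀),
              fun h => hb0 (Subgroup.mem_subgroupOf.mp h)⟩
        have := Cfsg.Agent.S4082.dih_build (R₀.subgroupOf H) hS₀c ⟨t, hRH htR⟩ (Subtype.ext ht2)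
          (fun h => htR₀ (Subgroup.mem_subgroupOf.mp h))
          (fun s hs => Subtype.ext (htinv s (Subgroup.mem_subgroupOf.mp hs))) hidx
        rw [hS₀card] at this
        exact ⟨a, this⟩
      by_cases ha2 : 2 ≤ a
      · left
        apply hdih
        obtain ⟨ρ', hρ'⟩ := @IsCyclic.exists_generator _ _ hR₀c
        have hoρ : orderOf (ρ' : G) = 2 ^ a := by
          rw [Subgroup.orderOf_coe, orderOf_eq_card_of_forall_mem_zpowers hρ', ha]
        have hρ2 : (ρ' : G) * (ρ' : G) ≠ 1 := by
          intro h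
          have h1 := orderOf_dvd_of_pow_eq_one (show (ρ' : G) ^ 2 = 1 by rw [pow_two]; exact h)
          rw [hoρ] at h1
          have h4 : 2 ^ 2 ≤ 2 ^ a := Nat.pow_le_pow_right (by norm_num) ha2
          have h5 := Nat.le_of_dvd (by norm_num) h1
          omega
        have hzρ : ∀ r ∈ R₀, ∃ k : ℤ, (ρ' : G) ^ k = r := by
          intro r hr
          obtain ⟨k, hk⟩ := Subgroup.mem_zpowers_iff.mp (hρ' ⟨r, hr⟩)
          exact ⟨k, by simpa using congrArg Subtype.val hk⟩
        have hρconj : ∀ h ∈ H, h * (ρ' : G) * h⁻¹ ∈ R₀ := by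
          intro h hh
          by_contra hnot
          have h1 := (r2 _ (hRnorm h hh _ (hR₀R ρ'.2)) hnot).1
          apply hρ2
          have h2 : h * (ρ' : G) * h⁻¹ * (h * (ρ' : G) * h⁻¹) = h * ((ρ' : G) * (ρ' : G)) * h⁻¹ := by
            group
          rw [h2] at h1
          have := congrArg (fun x => h⁻¹ * x * h) h1
          simpa [mul_assoc] using this
        have hR₀norm : ∀ h ∈ H, ∀ r ∈ R₀, h * r * h⁻¹ ∈ R₀ := by
          intro h hh r hr
          obtain ⟨k, rfl⟩ := hzρ r hr
          rw [← conj_zpow]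
          exact R₀.zpow_mem (hρconj h hh) k
        haveI hS₀n : (R₀.subgroupOf H).Normal := by
          constructor
          intro s hs h
          exact Subgroup.mem_subgroupOf.mpr (hR₀norm h.1 h.2 s.1 (Subgroup.mem_subgroupOf.mp hs))
        have hS₀p : IsPGroup 2 (R₀.subgroupOf H) := hR₀p.comap_subtype
        have claim2 : ∀ h ∈ H, Odd (orderOf h) → ∀ r ∈ R, h * r = r * h := by
          intro h hh hodd
          have hb : ∀ r ∈ R₀, h * r = r * h := by
            intro r hr
            have h1 := cyc2_central (R₀.subgroupOf H) hS₀c hS₀p ⟨h, hh⟩ (orderOf h) hodd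
              (fun s _ => by
                have h0 : (⟨h, hh⟩ : ↥H) ^ orderOf h = 1 := by
                  apply Subtype.ext; simp [pow_orderOf_eq_one]
                rw [h0, one_mul, mul_one]) ⟨r, hR₀H hr⟩ (Subgroup.mem_subgroupOf.mpr hr)
            exact congrArg Subtype.val h1
          have hht : h * t * h⁻¹ ∉ R₀ := by
            intro hin
            apply htR₀
            have h1 := hR₀norm h⁻¹ (H.inv_mem hh) _ hin
            have e1 : h⁻¹ * (h * t * h⁻¹) * h⁻¹⁻¹ = t := by group
            rwa [e1] at h1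
          have hcR₀ : h * t * h⁻¹ * t ∈ R₀ := r3 _ (hRnorm h hh t htR) t htR hht htR₀
          have hct : h * t * h⁻¹ = (h * t * h⁻¹ * t) * t := by
            rw [mul_assoc _ t t, ht2, mul_one]
          have hpow : ∀ j : ℕ, h ^ j * t * (h ^ j)⁻¹ = (h * t * h⁻¹ * t) ^ j * t := by
            intro j
            induction j with
            | zero => simp
            | succ j ih =>
              have hcj : h * (h * t * h⁻¹ * t) ^ j = (h * t * h⁻¹ * t) ^ j * h :=
                hb _ (R₀.pow_mem hcR₀ j)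
              calc h ^ (j + 1) * t * (h ^ (j + 1))⁻¹ = h * (h ^ j * t * (h ^ j)⁻¹) * h⁻¹ := by
                    rw [pow_succ']; group
                _ = h * ((h * t * h⁻¹ * t) ^ j * t) * h⁻¹ := by rw [ih]
                _ = (h * (h * t * h⁻¹ * t) ^ j) * (t * h⁻¹) := by group
                _ = (h * t * h⁻¹ * t) ^ j * h * (t * h⁻¹) := by rw [hcj]
                _ = (h * t * h⁻¹ * t) ^ j * (h * t * h⁻¹) := by group
                _ = (h * t * h⁻¹ * t) ^ j * ((h * t * h⁻¹ * t) * t) := by rw [← hct]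
                _ = (h * t * h⁻¹ * t) ^ (j + 1) * t := by rw [pow_succ]; group
          have h1 := hpow (orderOf h)
          rw [pow_orderOf_eq_one, one_mul, inv_one, mul_one] at h1
          have h2 : (h * t * h⁻¹ * t) ^ orderOf h = 1 := by
            have h2' := congrArg (fun x => x * t⁻¹) h1
            simpa using h2'.symm
          have h3 : h * t * h⁻¹ * t = 1 := by
            obtain ⟨j, hj⟩ := hR₀p ⟨h * t * h⁻¹ * t, hcR₀⟩
            have hj' : (h * t * h⁻¹ * t) ^ 2 ^ j = 1 := by simpa using congrArg Subtype.val hj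
            have d1 := orderOf_dvd_of_pow_eq_one h2
            have d2 := orderOf_dvd_of_pow_eq_one hj'
            have d3 : orderOf (h * t * h⁻¹ * t) ∣ Nat.gcd (orderOf h) (2 ^ j) := Nat.dvd_gcd d1 d2
            have d4 : Nat.gcd (orderOf h) (2 ^ j) = 1 :=
              Nat.Coprime.pow_right j (Nat.coprime_two_right.mpr hodd)
            rw [d4, Nat.dvd_one, orderOf_eq_one_iff] at d3
            exact d3
          have hth : h * t = t * h := by
            rw [h3, one_mul] at hct
            calc h * t = (h * t * h⁻¹) * h := by group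
              _ = t * h := by rw [hct]
          intro r hr
          by_cases hr0 : r ∈ R₀
          · exact hb r hr0
          · have h5 := hb _ (r3 r hr t htR hr0 htR₀)
            calc h * r = h * (r * t) * t⁻¹ := by group
              _ = r * t * h * t⁻¹ := by rw [h5]
              _ = r * (t * h) * t⁻¹ := by group
              _ = r * (h * t) * t⁻¹ := by rw [hth]
              _ = r * h := by group
        by_contra hm1
        obtain ⟨q, hq, hqm⟩ := Nat.exists_prime_and_dvd hm1
        have hqodd : Odd q := by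
          rcases hq.eq_two_or_odd' with h2 | hodd'
          · exfalso
            rw [h2] at hqm
            exact S.not_dvd_index hqm
          · exact hodd'
        have hqH : q ∣ Nat.card H := dvd_trans hqm (Subgroup.index_dvd_card _)
        haveI : Fact q.Prime := ⟨hq⟩
        obtain ⟨h, hh⟩ := exists_prime_orderOf_dvd_card' q hqH
        have hoh : orderOf (h : G) = q := by rw [Subgroup.orderOf_coe]; exact hh
        have h1 := claim1 h h.2 (by rw [hoh]; exact hqodd) (claim2 h h.2 (by rw [hoh]; exact hqodd))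
        rw [h1, orderOf_one] at hoh
        exact hq.one_lt.ne hoh
      · have ha' : a = 1 := by omega
        have hR4 : Nat.card R = 4 := by rw [hRcard, ha']; norm_num
        have hK'eq : K' = R := Subgroup.eq_of_le_of_card_ge hK'R (by rw [hR4, hK'4])
        have hCR : ∀ h : G, (∀ r ∈ R, h * r = r * h) → h ∈ R := by
          intro h hcen
          rw [← hK'eq]
          exact hCK' h (fun k hk => (hcen k (hK'R hk)).symm)
        have hRcomm : ∀ x ∈ R, ∀ y ∈ R, x * y = y * x := by
          rw [← hK'eq]; exact comm_of_sq K' hK'2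
        set φ : ↥H →* MulAut (S : Subgroup ↥H) := MulAut.conjNormal with hφ
        have hker : φ.ker = (S : Subgroup ↥H) := by
          ext x
          rw [MonoidHom.mem_ker]
          constructor
          · intro hx
            rw [hmemR]
            apply hCR
            intro r hr
            have h1 := congrArg (fun σ : MulAut (S : Subgroup ↥H) =>
              ((σ ⟨⟨r, hRH hr⟩, (hmemR _).mpr hr⟩ : (S : Subgroup ↥H)) : ↥H)) hx
            simp only [MulAut.one_apply] at h1
            rw [hφ, MulAut.conjNormal_apply] at h1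
            have h2 : (x : G) * r * (x : G)⁻¹ = r := congrArg Subtype.val h1
            calc (x : G) * r = ((x : G) * r * (x : G)⁻¹) * x := by group
              _ = r * x := by rw [h2]
          · intro hx
            ext s
            rw [MulAut.conjNormal_apply, MulAut.one_apply]
            have h1 := hRcomm x ((hmemR x).mp hx) s ((hmemR s).mp s.2)
            show (x : G) * (s : G) * (x : G)⁻¹ = (s : G)
            rw [h1]; group
        have hm24 : m ∣ 24 := by
          have h1 : m = Nat.card φ.range := by rw [← Subgroup.index_ker φ, hker]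
          have h2 : Nat.card φ.range ∣ Nat.card (MulAut (S : Subgroup ↥H)) :=
            Subgroup.card_subgroup_dvd_card _
          have h3 : Nat.card (MulAut (S : Subgroup ↥H)) ∣ Nat.card (Equiv.Perm (S : Subgroup ↥H)) :=
            Subgroup.card_dvd_of_injective (MulAut.toPerm (S : Subgroup ↥H))
              (fun σ τ h => MulEquiv.ext (fun x => Equiv.congr_fun h x))
          have h4 : Nat.card (Equiv.Perm (S : Subgroup ↥H)) = 24 := by
            rw [Nat.card_perm, hSR, hR4]; rfl
          rw [h1]; rw [h4] at h3; exact dvd_trans h2 h3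
        have hm13 : m = 1 ∨ m = 3 := by
          have hc : Nat.Coprime m (2 ^ 3) := Nat.Coprime.pow_right 3 (Nat.coprime_two_right.mpr hmodd)
          have h3 : m ∣ 3 := hc.dvd_of_dvd_mul_left (show m ∣ 2 ^ 3 * 3 by norm_num; exact hm24)
          rcases (Nat.dvd_prime Nat.prime_three).mp h3 with h | h
          · left; exact h
          · right; exact h
        rcases hm13 with hm1 | hm3
        · left; exact hdih hm1
        · right
          have hH12 : Nat.card H = 12 := by
            have h1 := (S : Subgroup ↥H).card_mul_index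
            rw [← hm, hm3, hSR, hR4] at h1
            omega
          haveI : Fact (Nat.Prime 3) := ⟨Nat.prime_three⟩
          obtain ⟨τ, hτ⟩ := exists_prime_orderOf_dvd_card' (G := ↥H) 3 (by rw [hH12]; norm_num)
          set T : Subgroup ↥H := Subgroup.zpowers τ with hT
          have hT3 : Nat.card T = 3 := by rw [hT, Nat.card_zpowers, hτ]
          have hTidx : T.index = 4 := by
            have h1 := T.card_mul_index
            rw [hT3, hH12] at h1
            omega
          have hTS : ∀ y : ↥H, y ∈ T → y ∈ (S : Subgroup ↥H) → y = 1 := by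
            intro y hyT hyS
            have h3 : y ^ 3 = 1 := by
              have h0 := pow_card_eq_one' (G := T) (x := ⟨y, hyT⟩)
              rw [hT3] at h0
              simpa using congrArg Subtype.val h0
            have h4 : y ^ 4 = 1 := by
              have h0 := pow_card_eq_one' (G := (S : Subgroup ↥H)) (x := ⟨y, hyS⟩)
              rw [hSR, hR4] at h0
              simpa using congrArg Subtype.val h0
            calc y = y ^ 4 * (y ^ 3)⁻¹ := by group
              _ = 1 := by rw [h3, h4]; simp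
          set ψ : ↥H →* Equiv.Perm (↥H ⧸ T) := MulAction.toPermHom ↥H (↥H ⧸ T) with hψ
          have hψker : ∀ x : ↥H, x ∈ ψ.ker → x = 1 := by
            intro x hx
            have hxT : x ∈ T := by
              have h0 : x ∈ T.normalCore := by rw [Subgroup.normalCore_eq_ker]; exact hx
              exact Subgroup.normalCore_le T h0
            have hcen : ∀ r ∈ R, (x : G) * r = r * (x : G) := by
              intro r hr
              have hsS : (⟨r, hRH hr⟩ : ↥H) ∈ (S : Subgroup ↥H) := (hmemR _).mpr hr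
              have h1 : x * ⟨r, hRH hr⟩ * x⁻¹ * (⟨r, hRH hr⟩ : ↥H)⁻¹ ∈ ψ.ker := by
                have h0 := (inferInstance : ψ.ker.Normal).conj_mem _ (ψ.ker.inv_mem hx) ⟨r, hRH hr⟩
                have h2 := ψ.ker.mul_mem hx h0
                have e1 : x * ((⟨r, hRH hr⟩ : ↥H) * x⁻¹ * (⟨r, hRH hr⟩ : ↥H)⁻¹) =
                    x * ⟨r, hRH hr⟩ * x⁻¹ * (⟨r, hRH hr⟩ : ↥H)⁻¹ := by group
                rwa [e1] at h2
              have h1T : x * ⟨r, hRH hr⟩ * x⁻¹ * (⟨r, hRH hr⟩ : ↥H)⁻¹ ∈ T := by
                have h0 : x * ⟨r, hRH hr⟩ * x⁻¹ * (⟨r, hRH hr⟩ : ↥H)⁻¹ ∈ T.normalCore := by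
                  rw [Subgroup.normalCore_eq_ker]; exact h1
                exact Subgroup.normalCore_le T h0
              have h1S : x * ⟨r, hRH hr⟩ * x⁻¹ * (⟨r, hRH hr⟩ : ↥H)⁻¹ ∈ (S : Subgroup ↥H) :=
                (S : Subgroup ↥H).mul_mem (hSnorm.conj_mem _ hsS x) ((S : Subgroup ↥H).inv_mem hsS)
              have h3 := hTS _ h1T h1S
              have h4 : x * (⟨r, hRH hr⟩ : ↥H) = ⟨r, hRH hr⟩ * x := by
                calc x * (⟨r, hRH hr⟩ : ↥H) =
                    (x * ⟨r, hRH hr⟩ * x⁻¹ * (⟨r, hRH hr⟩ : ↥H)⁻¹) * (⟨r, hRH hr⟩ * x) := by group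
                  _ = ⟨r, hRH hr⟩ * x := by rw [h3, one_mul]
              exact congrArg Subtype.val h4
            have hxS : x ∈ (S : Subgroup ↥H) := (hmemR x).mpr (hCR x hcen)
            exact hTS x hxT hxS
          have e4 : (↥H ⧸ T) ≃ Fin 4 :=
            Finite.equivFinOfCardEq (by rw [← Subgroup.index_eq_card]; exact hTidx)
          set χ : ↥H →* Equiv.Perm (Fin 4) := (e4.permCongrHom.toMonoidHom).comp ψ with hχ
          have hχinj : Function.Injective χ := by
            rw [injective_iff_map_eq_one]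
            intro x hx
            apply hψker
            rw [MonoidHom.mem_ker]
            have h0 : e4.permCongrHom (ψ x) = 1 := hx
            exact (map_eq_one_iff e4.permCongrHom e4.permCongrHom.injective).mp h0
          have hrcard : Nat.card χ.range = 12 := by
            rw [← hH12]; exact (Nat.card_congr (MonoidHom.ofInjective hχinj).toEquiv).symm
          have hridx : χ.range.index = 2 := by
            have h1 := χ.range.card_mul_index
            rw [hrcard, Nat.card_perm] at h1
            have h2 : (Nat.card (Fin 4)).factorial = 24 := by simp [Nat.factorial]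
            rw [h2] at h1
            omega
          have hrange : χ.range = alternatingGroup (Fin 4) :=
            Equiv.Perm.eq_alternatingGroup_of_index_eq_two hridx
          exact ⟨(MonoidHom.ofInjective hχinj).trans (MulEquiv.subgroupCongr hrange)⟩

/-- Let G be a finite group with Sylow 2-subgroup P. Every subgroup H of G whose Sylow 2-subgroup is normal in H with cyclic quotient is cyclic, dihedral of 2-power order, or isomorphic to the alternating group of degree 4, if and only if either P is cyclic, or P is dihedral (of order at least 4) and every elementary abelian subgroup K of order 4 of P satisfies C_G(K) = K. -/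
theorem result {G : Type*} [Group G] [Finite G] (P : Sylow 2 G) :
    (∀ H : Subgroup G, (∀ S : Sylow 2 ↥H, (S : Subgroup ↥H).Normal) →
        (∀ (S : Sylow 2 ↥H) [(S : Subgroup ↥H).Normal], IsCyclic (↥H ⧸ (S : Subgroup ↥H))) →
        IsCyclic H ∨ (∃ n : ℕ, Nonempty (H ≃* DihedralGroup (2 ^ n))) ∨ Nonempty (H ≃* alternatingGroup (Fin 4))) ↔
    (IsCyclic P ∨
      ((∃ n : ℕ, 1 ≤ n ∧ Nonempty ((P : Subgroup G) ≃* DihedralGroup (2 ^ n))) ∧
        ∀ K : Subgroup G, K ≤ P → Nat.card K = 4 → (∀ k ∈ K, k ^ 2 = 1) → Subgroup.centralizer (K : Set G) = K)) := by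
  constructor
  · intro hL
    exact forward2 P hL
  · intro hR H hSn hSq
    exact backward2 P hR H hSn hSq

end Cfsg.Agent.S4083
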