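import Cfsg.Statements.S4084
import Mathlib

set_option autoImplicit false
open Cfsg

namespace Cfsg.Agent.S4084

theorem aux {G H : Type*} [Group G] [Finite G] [Group H] [Finite H] (e : G ≃ H)
    (he : ∀ x y : G, Commute x y ↔ Commute (e x) (e y))
    {p q : ℕ} (hp : p.Prime) (hq : q.Prime) (hpq : p ≠ q) :
    (∃ g : G, orderOf g = p * q) → (∃ h : H, orderOf h = p * q) := by
  rintro ⟨g, hg⟩
  have : Fact p.Prime := ⟨hp⟩
  have : Fact q.Prime := ⟨hq⟩
  set S : Subgroup G := Subgroup.centralizer (Subgroup.centralizer ({g} : Set G) : Set G) with hS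
  set T : Subgroup H := Subgroup.centralizer (Subgroup.centralizer ({e g} : Set H) : Set H) with hT
  have hmem : ∀ a : G, a ∈ S ↔ e a ∈ T := by
    intro a
    rw [hS, hT, Subgroup.mem_centralizer_iff, Subgroup.mem_centralizer_iff]
    constructor
    · intro h z hz
      obtain ⟨y, rfl⟩ := e.surjective z
      rw [SetLike.mem_coe, Subgroup.mem_centralizer_iff] at hz
      have hz' : Commute g y := ((he g y).mpr (hz (e g) rfl))
      have hy : y ∈ (Subgroup.centralizer ({g} : Set G) : Set G) := by
        rw [SetLike.mem_coe, Subgroup.mem_centralizer_iff]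
        intro x hx
        rw [Set.mem_singleton_iff] at hx
        subst hx
        exact hz'
      exact (he y a).mp (h y hy)
    · intro h y hy
      rw [SetLike.mem_coe, Subgroup.mem_centralizer_iff] at hy
      have hy' : Commute g y := hy g rfl
      have hz : e y ∈ (Subgroup.centralizer ({e g} : Set H) : Set H) := by
        rw [SetLike.mem_coe, Subgroup.mem_centralizer_iff]
        intro x hx
        rw [Set.mem_singleton_iff] at hx
        subst hx
        exact (he g y).mp hy'
      exact (he y a).mpr (h (e y) hz)
  have hcard : Nat.card S = Nat.card T := Nat.card_congr (Equiv.subtypeEquiv e hmem)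
  have hgS : g ∈ S := by
    rw [hS, Subgroup.mem_centralizer_iff]
    intro y hy
    rw [SetLike.mem_coe, Subgroup.mem_centralizer_iff] at hy
    exact (hy g rfl).symm
  have hdvd : p * q ∣ Nat.card T := by
    rw [← hcard, ← hg, ← Subgroup.orderOf_mk g hgS]
    exact orderOf_dvd_natCard _
  have hTcomm : ∀ a b : T, Commute a b := by
    intro a b
    have ha : ∀ h ∈ (Subgroup.centralizer ({e g} : Set H) : Set H), h * (a : H) = (a : H) * h :=
      Subgroup.mem_centralizer_iff.mp a.2
    have hb : ∀ h ∈ (Subgroup.centralizer ({e g} : Set H) : Set H), h * (b : H) = (b : H) * h :=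
      Subgroup.mem_centralizer_iff.mp b.2
    have hb' : (b : H) ∈ (Subgroup.centralizer ({e g} : Set H) : Set H) := by
      rw [SetLike.mem_coe, Subgroup.mem_centralizer_iff]
      intro x hx
      rw [Set.mem_singleton_iff] at hx
      subst hx
      have hegg : e g ∈ (Subgroup.centralizer ({e g} : Set H) : Set H) := by
        rw [SetLike.mem_coe, Subgroup.mem_centralizer_iff]
        intro x hx
        rw [Set.mem_singleton_iff] at hx
        rw [hx]
      exact (hb (e g) hegg)
    have := ha (b : H) hb'
    exact Subtype.ext this.symm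
  obtain ⟨a, ha⟩ := exists_prime_orderOf_dvd_card' (G := T) p (Dvd.dvd.trans (Dvd.intro _ rfl) hdvd)
  obtain ⟨b, hb⟩ := exists_prime_orderOf_dvd_card' (G := T) q (Dvd.dvd.trans (Dvd.intro_left _ rfl) hdvd)
  refine ⟨((a * b : T) : H), ?_⟩
  rw [Subgroup.orderOf_coe]
  have hcop : (orderOf a).Coprime (orderOf b) := by
    rw [ha, hb]
    exact (Nat.coprime_primes hp hq).mpr hpq
  rw [(hTcomm a b).orderOf_mul_eq_mul_orderOf_of_coprime hcop, ha, hb]

/-- Let G and H be finite groups whose commuting graphs are isomorphic: there is a bijection e : G → H with x, y commuting exactly when e(x), e(y) commute. Then G and H have the same prime graph: for distinct primes p, q, G has an element of order pq if and only if H does (and #G = #H, so the prime divisors agree). -/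
theorem result {G H : Type*} [Group G] [Finite G] [Group H] [Finite H] (e : G ≃ H)
    (he : ∀ x y : G, Commute x y ↔ Commute (e x) (e y))
    {p q : ℕ} (hp : p.Prime) (hq : q.Prime) (hpq : p ≠ q) :
    (∃ g : G, orderOf g = p * q) ↔ (∃ h : H, orderOf h = p * q) := by
  refine ⟨aux e he hp hq hpq, aux e.symm ?_ hp hq hpq⟩
  intro x y
  have := he (e.symm x) (e.symm y)
  simp only [Equiv.apply_symm_apply] at this
  exact this.symm

end Cfsg.Agent.S4084
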