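import Cfsg.Statements.S4086
import Mathlib

set_option autoImplicit false
open Cfsg

namespace Cfsg.Agent.S4086

theorem mem_zpowers_of_orderOf_dvd {C : Type*} [Group C] [Finite C] [IsCyclic C] (x y : C)
    (h : orderOf x ∣ orderOf y) : x ∈ Subgroup.zpowers y := by
  classical
  haveI := Fintype.ofFinite C
  have hm : 0 < orderOf y := orderOf_pos y
  have h1 := IsCyclic.card_pow_eq_one_le (α := C) hm
  let T : Finset C := (Finset.range (orderOf y)).image (fun k => y ^ k)
  have hT : T.card = orderOf y := by
    rw [Finset.card_image_of_injOn, Finset.card_range]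
    intro a ha b hb hab
    exact pow_injOn_Iio_orderOf (by simpa using ha) (by simpa using hb) hab
  have hsub : T ⊆ Finset.univ.filter (fun a : C => a ^ orderOf y = 1) := by
    intro a ha
    obtain ⟨k, -, rfl⟩ := Finset.mem_image.mp ha
    rw [Finset.mem_filter]
    refine ⟨Finset.mem_univ _, ?_⟩
    rw [← pow_mul, mul_comm, pow_mul, pow_orderOf_eq_one, one_pow]
  have heq := Finset.eq_of_subset_of_card_le hsub (by rw [hT]; exact h1)
  have hx : x ∈ Finset.univ.filter (fun a : C => a ^ orderOf y = 1) := by
    rw [Finset.mem_filter]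
    exact ⟨Finset.mem_univ _, orderOf_dvd_iff_pow_eq_one.mp h⟩
  rw [← heq] at hx
  obtain ⟨k, -, rfl⟩ := Finset.mem_image.mp hx
  exact Subgroup.npow_mem_zpowers y k

/-- For a finite group G the following are equivalent: every non-identity element has prime-power order; whenever two elements generate a cyclic subgroup, one of them is a power of the other (the enhanced power graph of G coincides with its power graph). -/
theorem result {G : Type*} [Group G] [Finite G] :
    (∀ g : G, g ≠ 1 → IsPrimePow (orderOf g)) ↔
    (∀ x y : G, IsCyclic ↥(Subgroup.closure ({x, y} : Set G)) → (x ∈ Subgroup.zpowers y ∨ y ∈ Subgroup.zpowers x)) := by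
  constructor
  · intro hpp x y hC
    have hxC : x ∈ Subgroup.closure ({x, y} : Set G) := Subgroup.subset_closure (by simp)
    have hyC : y ∈ Subgroup.closure ({x, y} : Set G) := Subgroup.subset_closure (by simp)
    obtain ⟨c, hc⟩ := IsCyclic.exists_generator (α := Subgroup.closure ({x, y} : Set G))
    have hcard := orderOf_eq_card_of_forall_mem_zpowers hc
    have key : ∀ a b : Subgroup.closure ({x, y} : Set G), orderOf a ∣ orderOf b →
        (a : G) ∈ Subgroup.zpowers (b : G) := by
      intro a b hab
      have := mem_zpowers_of_orderOf_dvd a b hab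
      obtain ⟨j, hj⟩ := Subgroup.mem_zpowers_iff.mp this
      rw [Subgroup.mem_zpowers_iff]
      refine ⟨j, ?_⟩
      rw [← hj]; simp
    by_cases hc1 : (c : G) = 1
    · left
      have : orderOf c = 1 := by
        rw [orderOf_eq_one_iff]; exact Subtype.ext hc1
      rw [this] at hcard
      have hx1 : (⟨x, hxC⟩ : Subgroup.closure ({x, y} : Set G)) = 1 := by
        haveI : Subsingleton (Subgroup.closure ({x, y} : Set G)) :=
          (Nat.card_eq_one_iff_unique.mp hcard.symm).1
        exact Subsingleton.elim _ _
      have : x = 1 := congrArg Subtype.val hx1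
      rw [this]; exact Subgroup.one_mem _
    · have hpc := hpp (c : G) hc1
      rw [Subgroup.orderOf_coe, hcard] at hpc
      obtain ⟨p, k, hp, hk, hpk⟩ := (isPrimePow_nat_iff _).mp hpc
      have hx := orderOf_dvd_natCard (⟨x, hxC⟩ : Subgroup.closure ({x, y} : Set G))
      have hy := orderOf_dvd_natCard (⟨y, hyC⟩ : Subgroup.closure ({x, y} : Set G))
      rw [← hpk] at hx hy
      obtain ⟨a, ha, hxa⟩ := (Nat.dvd_prime_pow hp).mp hx
      obtain ⟨b, hb, hyb⟩ := (Nat.dvd_prime_pow hp).mp hy
      rcases le_total a b with hab | hab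
      · left
        exact key ⟨x, hxC⟩ ⟨y, hyC⟩ (by rw [hxa, hyb]; exact pow_dvd_pow p hab)
      · right
        exact key ⟨y, hyC⟩ ⟨x, hxC⟩ (by rw [hxa, hyb]; exact pow_dvd_pow p hab)
  · intro h g hg
    by_contra hnp
    have hn0 : orderOf g ≠ 0 := (orderOf_pos g).ne'
    have hn1 : orderOf g ≠ 1 := by
      rw [Ne, orderOf_eq_one_iff]; exact hg
    obtain ⟨p, hp, hpn⟩ := Nat.exists_prime_and_dvd hn1
    rw [isPrimePow_iff_unique_prime_dvd] at hnp
    have : ∃ q, q.Prime ∧ q ∣ orderOf g ∧ q ≠ p := by
      by_contra hcon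
      simp only [not_exists, not_and, not_not] at hcon
      exact hnp ⟨p, ⟨hp, hpn⟩, fun q hq => hcon q hq.1 hq.2⟩
    obtain ⟨q, hq, hqn, hqp⟩ := this
    have hox : orderOf (g ^ (orderOf g / p)) = p := orderOf_pow_orderOf_div hn0 hpn
    have hoy : orderOf (g ^ (orderOf g / q)) = q := orderOf_pow_orderOf_div hn0 hqn
    have hle : Subgroup.closure ({g ^ (orderOf g / p), g ^ (orderOf g / q)} : Set G) ≤
        Subgroup.zpowers g := by
      rw [Subgroup.closure_le]
      intro z hz
      rcases hz with rfl | rfl
      · exact Subgroup.npow_mem_zpowers g _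
      · exact Subgroup.npow_mem_zpowers g _
    have hcyc := Subgroup.isCyclic_of_le hle
    rcases h _ _ hcyc with h1 | h1
    · have := orderOf_dvd_of_mem_zpowers h1
      rw [hox, hoy] at this
      exact hqp ((Nat.prime_dvd_prime_iff_eq hp hq).mp this).symm
    · have := orderOf_dvd_of_mem_zpowers h1
      rw [hox, hoy] at this
      exact hqp ((Nat.prime_dvd_prime_iff_eq hq hp).mp this)

end Cfsg.Agent.S4086
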