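import Cfsg.Statements.S4089
import Cfsg.Agent.Lib.helper14.Subnormal

set_option autoImplicit false
open Cfsg

namespace Cfsg.Agent.S4089

open Subgroup Cfsg.Agent.Lib.helper14

theorem sn_mono {G : Type*} [Group G] {H K M : Subgroup G} (hKM : K ≤ M)
    (h : (H.subgroupOf M).IsSubnormal) : (H.subgroupOf K).IsSubnormal := by
  have := h.comap (Subgroup.inclusion hKM)
  convert this using 1
  ext x
  simp [mem_subgroupOf]

theorem sn_trans {G : Type*} [Group G] {H R M : Subgroup G} (hHR : H ≤ R) (hRM : R ≤ M)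
    (h1 : (H.subgroupOf R).IsSubnormal) (h2 : (R.subgroupOf M).IsSubnormal) :
    (H.subgroupOf M).IsSubnormal := by
  refine Subgroup.IsSubnormal.trans (K := R.subgroupOf M) ?_ ?_ h2
  · intro x hx
    exact hHR hx
  · have := h1.comap (Subgroup.subgroupOfEquivOfLe hRM).toMonoidHom
    convert this using 1
    ext x
    simp [mem_subgroupOf]

theorem rad_pgroup {G : Type*} [Group G] [Finite G] (p : ℕ) [Fact p.Prime]
    (R : Subgroup G) (hR : Cfsg.pCoreOf p (normalizer (R : Set G)) = R) : IsPGroup p R := by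
  have := isPGroup_pCoreOf p (normalizer (R : Set G))
  rwa [hR] at this

theorem part1 {G : Type*} [Group G] [Finite G] (p : ℕ) [Fact p.Prime]
    (H : Subgroup G) (hH : IsPGroup p H) (g : G) :
    (H.subgroupOf (H ⊔ zpowers g)).IsSubnormal ↔
      ∃ R : Subgroup G, H ≤ R ∧ (Cfsg.pCore p (normalizer (R : Set G))).map
        (normalizer (R : Set G)).subtype = R ∧ g ∈ normalizer (R : Set G) := by
  constructor
  · intro hsn
    set K := H ⊔ zpowers g with hK
    have hHK : H ≤ K := le_sup_left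
    have hgK : g ∈ K := (le_sup_right : zpowers g ≤ K) (mem_zpowers g)
    have h1 : H.subgroupOf K ≤ Cfsg.pCore p K :=
      subnormal_pgroup_le_pCore _ hsn hH.comap_subtype
    have hR0 : H ≤ Cfsg.pCoreOf p K := by
      intro x hx
      exact ⟨⟨x, hHK hx⟩, h1 (mem_subgroupOf.mpr hx), rfl⟩
    have key : ∀ R : Subgroup G, IsPGroup p R → H ≤ R → g ∈ normalizer (R : Set G) →
        ∃ R' : Subgroup G, H ≤ R' ∧ Cfsg.pCoreOf p (normalizer (R' : Set G)) = R' ∧
          g ∈ normalizer (R' : Set G) := by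
      intro R
      induction R using (wellFounded_gt (α := Subgroup G)).induction with
      | _ R ih =>
        intro hRp hHR hg
        have hle : R ≤ Cfsg.pCoreOf p (normalizer (R : Set G)) :=
          le_pCoreOf _ R le_normalizer hRp le_rfl
        by_cases heq : Cfsg.pCoreOf p (normalizer (R : Set G)) = R
        · exact ⟨R, hHR, heq, hg⟩
        · have hlt : R < Cfsg.pCoreOf p (normalizer (R : Set G)) :=
            lt_of_le_of_ne hle (Ne.symm heq)
          exact ih _ hlt (isPGroup_pCoreOf p _) (hHR.trans hle) (le_normalizer_pCoreOf p _ hg)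
    exact key _ (isPGroup_pCoreOf p K) hR0 (le_normalizer_pCoreOf p K hgK)
  · rintro ⟨R, hHR, hR, hg⟩
    have hRp : IsPGroup p R := rad_pgroup p R hR
    set M := R ⊔ zpowers g with hM
    have hRM : R ≤ M := le_sup_left
    have hKM : H ⊔ zpowers g ≤ M := sup_le_sup_right hHR _
    have hMN : M ≤ normalizer (R : Set G) :=
      sup_le le_normalizer (by rw [zpowers_le]; exact hg)
    have h2 : (R.subgroupOf M).Normal := (normal_subgroupOf_iff_le_normalizer hRM).mpr hMN
    have h1 : (H.subgroupOf R).IsSubnormal := by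
      haveI : Group.IsNilpotent R := hRp.isNilpotent
      exact subnormal_of_nilpotent' _
    exact sn_mono hKM (sn_trans hHR hRM h1 h2.isSubnormal)

theorem mem_smul_syl {G : Type*} [Group G] {p : ℕ} (Q : Sylow p G) (n x : G) :
    x ∈ ((n • Q : Sylow p G) : Subgroup G) ↔ n⁻¹ * x * n ∈ (Q : Subgroup G) := by
  rw [Sylow.coe_subgroup_smul, Subgroup.mem_pointwise_smul_iff_inv_smul_mem]
  simp [MulAut.smul_def]

theorem rad_inf {G : Type*} [Group G] [Finite G] (p : ℕ) [Fact p.Prime]
    (R : Subgroup G) (hR : Cfsg.pCoreOf p (normalizer (R : Set G)) = R) :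
    sInf {K : Subgroup G | ∃ Q : Sylow p G, R ≤ (Q : Subgroup G) ∧ K = (Q : Subgroup G)} ≤ R := by
  have hRp : IsPGroup p R := rad_pgroup p R hR
  obtain ⟨Q₀, hQ₀⟩ := hRp.exists_le_sylow
  set D := sInf {K : Subgroup G | ∃ Q : Sylow p G, R ≤ (Q : Subgroup G) ∧ K = (Q : Subgroup G)}
    with hD
  have hDQ : D ≤ Q₀ := sInf_le ⟨Q₀, hQ₀, rfl⟩
  have hDp : IsPGroup p D := Q₀.isPGroup'.to_le hDQ
  have hRD : R ≤ D := le_sInf (by rintro K ⟨Q, hQ, rfl⟩; exact hQ)
  have hND : normalizer (R : Set G) ≤ normalizer (D : Set G) := by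
    apply le_normalizer_of_conj_mem
    intro n hn x hx
    rw [hD, Subgroup.mem_sInf]
    rintro K ⟨Q, hQ, rfl⟩
    have hQ' : R ≤ ((n⁻¹ • Q : Sylow p G) : Subgroup G) := by
      intro r hr
      rw [mem_smul_syl, inv_inv]
      exact hQ ((Subgroup.mem_normalizer_iff.mp hn r).mp hr)
    have hx' : x ∈ ((n⁻¹ • Q : Sylow p G) : Subgroup G) := by
      have h3 : D ≤ ((n⁻¹ • Q : Sylow p G) : Subgroup G) := sInf_le ⟨_, hQ', rfl⟩
      exact h3 hx
    rw [mem_smul_syl, inv_inv] at hx'
    exact hx'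
  have hD' : D ⊓ normalizer (R : Set G) ≤ R := by
    have h1 : D ⊓ normalizer (R : Set G) ≤ Cfsg.pCoreOf p (normalizer (R : Set G)) := by
      apply le_pCoreOf _ _ inf_le_right (hDp.to_le inf_le_left)
      apply le_normalizer_of_conj_mem
      intro n hn x hx
      obtain ⟨hx1, hx2⟩ := Subgroup.mem_inf.mp hx
      refine Subgroup.mem_inf.mpr ⟨?_, ?_⟩
      · exact (Subgroup.mem_normalizer_iff.mp (hND hn) x).mp hx1
      · exact mul_mem (mul_mem hn hx2) (inv_mem hn)
    rwa [hR] at h1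
  by_contra hcon
  haveI : Group.IsNilpotent D := hDp.isNilpotent
  have h1 : R.subgroupOf D < ⊤ := by
    rw [lt_top_iff_ne_top, Ne, subgroupOf_eq_top]
    exact hcon
  have h2 := Group.normalizerCondition_of_isNilpotent (R.subgroupOf D) h1
  rw [← subgroupOf_normalizer_eq hRD] at h2
  obtain ⟨x, hx1, hx2⟩ := SetLike.exists_of_lt h2
  rw [mem_subgroupOf] at hx1 hx2
  exact hx2 (hD' (Subgroup.mem_inf.mpr ⟨x.2, hx1⟩))

/-- Let G be a finite group, p a prime and H a p-subgroup of G. Then the set of elements g of G such that H is subnormal in the subgroup generated by H and g is the union of the normalizers N_G(R) over the subgroups R of G containing H with R = O_p(N_G(R)); and this set does not change when H is replaced by the intersection of all Sylow p-subgroups of G containing H. -/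
theorem result {G : Type*} [Group G] [Finite G] (p : ℕ) [Fact p.Prime]
    (H : Subgroup G) (hH : IsPGroup p H) :
    {g : G | ((H).subgroupOf (H ⊔ Subgroup.zpowers g)).IsSubnormal} =
      {g : G | ∃ R : Subgroup G, H ≤ R ∧ (Cfsg.pCore p (Subgroup.normalizer (R : Set G))).map (Subgroup.normalizer (R : Set G)).subtype = R ∧ g ∈ Subgroup.normalizer (R : Set G)} ∧
    ∀ g : G, (((H).subgroupOf (H ⊔ Subgroup.zpowers g)).IsSubnormal ↔
      (((sInf {K : Subgroup G | ∃ Q : Sylow p G, H ≤ (Q : Subgroup G) ∧ K = (Q : Subgroup G)})).subgroupOf ((sInf {K : Subgroup G | ∃ Q : Sylow p G, H ≤ (Q : Subgroup G) ∧ K = (Q : Subgroup G)}) ⊔ Subgroup.zpowers g)).IsSubnormal) := by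
  refine ⟨?_, ?_⟩
  · ext g
    exact part1 p H hH g
  · intro g
    set Hs := sInf {K : Subgroup G | ∃ Q : Sylow p G, H ≤ (Q : Subgroup G) ∧ K = (Q : Subgroup G)}
      with hHs
    obtain ⟨Q₀, hQ₀⟩ := hH.exists_le_sylow
    have hHsp : IsPGroup p Hs := Q₀.isPGroup'.to_le (sInf_le ⟨Q₀, hQ₀, rfl⟩)
    have hHHs : H ≤ Hs := le_sInf (by rintro K ⟨Q, hQ, rfl⟩; exact hQ)
    rw [part1 p H hH g, part1 p Hs hHsp g]
    constructor
    · rintro ⟨R, hHR, hR, hg⟩
      refine ⟨R, ?_, hR, hg⟩
      refine le_trans ?_ (rad_inf p R hR)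
      apply le_sInf
      rintro K ⟨Q, hQ, rfl⟩
      exact sInf_le ⟨Q, hHR.trans hQ, rfl⟩
    · rintro ⟨R, hHR, hR, hg⟩
      exact ⟨R, hHHs.trans hHR, hR, hg⟩

end Cfsg.Agent.S4089
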