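import Cfsg.Statements.S4092
import Mathlib

set_option autoImplicit false
open Cfsg

namespace Cfsg.Agent.S4092

theorem union_bound {ι α : Type*} [DecidableEq α] (s : Finset ι) (A : ι → Finset α) (a b : ℕ)
    (ha : ∀ i ∈ s, a ≤ (A i).card)
    (hb : ∀ i ∈ s, ∀ j ∈ s, i ≠ j → ((A i) ∩ (A j)).card ≤ b) :
    2 * a * s.card + b * s.card ≤ 2 * (s.biUnion A).card + b * s.card * s.card := by
  classical
  induction s using Finset.induction_on with
  | empty => simp
  | insert x s hx ih =>
    have ih' := ih (fun i hi => ha i (Finset.mem_insert_of_mem hi))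
      (fun i hi j hj hij => hb i (Finset.mem_insert_of_mem hi) j (Finset.mem_insert_of_mem hj) hij)
    rw [Finset.biUnion_insert, Finset.card_insert_of_notMem hx]
    have h1 := Finset.card_union_add_card_inter (A x) (s.biUnion A)
    have h2 : ((A x) ∩ (s.biUnion A)).card ≤ s.card * b := by
      rw [Finset.inter_biUnion]
      refine (Finset.card_biUnion_le).trans ?_
      calc ∑ i ∈ s, (A x ∩ A i).card ≤ ∑ i ∈ s, b :=
            Finset.sum_le_sum (fun i hi => hb x (Finset.mem_insert_self x s) i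
              (Finset.mem_insert_of_mem hi) (by rintro rfl; exact hx hi))
        _ = s.card * b := by rw [Finset.sum_const, smul_eq_mul]
    have h3 := ha x (Finset.mem_insert_self x s)
    nlinarith [h1, h2, h3, ih']

theorem pow_order {G : Type*} [Group G] (p : ℕ) [Fact p.Prime] (Q : Sylow p G)
    (y : G) (hy : y ∈ (Q : Subgroup G)) : ∃ k, orderOf y = p ^ k := by
  have hpp : p.Prime := Fact.out
  obtain ⟨k, hk⟩ := Q.2 ⟨y, hy⟩
  have h1 : y ^ p ^ k = 1 := by simpa [Subtype.ext_iff] using hk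
  obtain ⟨m, _, hm⟩ := (Nat.dvd_prime_pow hpp).mp (orderOf_dvd_of_pow_eq_one h1)
  exact ⟨m, hm⟩

theorem ge_of_modEq_one (p n : ℕ) (h : n ≡ 1 [MOD p]) (h2 : 2 ≤ n) : p + 1 ≤ n := by
  have := (Nat.modEq_iff_dvd' (by omega : 1 ≤ n)).mp h.symm
  obtain ⟨t, ht⟩ := this
  have ht0 : t ≠ 0 := by rintro rfl; omega
  have : p ≤ p * t := Nat.le_mul_of_pos_right p (Nat.pos_of_ne_zero ht0)
  omega

/-- Let G be a finite group, p a prime and P a Sylow p-subgroup of G that is not normal in G. Then G has at least p·#P elements of p-power order (the identity included). -/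
theorem result {G : Type*} [Group G] [Finite G] (p : ℕ) [Fact p.Prime]
    (P : Sylow p G) (hP : ¬ (P : Subgroup G).Normal) :
    p * Nat.card (P : Subgroup G) ≤ Nat.card {g : G // ∃ k : ℕ, orderOf g = p ^ k} := by
  classical
  have hpp : p.Prime := Fact.out
  haveI : Fintype G := Fintype.ofFinite G
  haveI : Fintype (Sylow p G) := Fintype.ofFinite _
  obtain ⟨F, hFdef⟩ : ∃ F : Subgroup G → Finset G, F = fun H => Finset.univ.filter (· ∈ H) :=
    ⟨_, rfl⟩
  have hFmem : ∀ (H : Subgroup G) (x : G), x ∈ F H ↔ x ∈ H := by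
    intro H x; rw [hFdef]; simp
  have hF : ∀ H : Subgroup G, (F H).card = Nat.card H := by
    intro H
    rw [hFdef, Nat.card_eq_fintype_card, Fintype.card_subtype]
  have hFinter : ∀ H K : Subgroup G, F H ∩ F K = F (H ⊓ K) := by
    intro H K; ext x; simp [hFmem]
  have hcard : ∀ Q : Sylow p G, Nat.card (Q : Subgroup G) = Nat.card (P : Subgroup G) :=
    fun Q => by rw [Sylow.card_eq_multiplicity, Sylow.card_eq_multiplicity]
  have hkey : ∀ E : Finset G, (∀ x ∈ E, ∃ Q : Sylow p G, x ∈ (Q : Subgroup G)) →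
      E.card ≤ Nat.card {g : G // ∃ k : ℕ, orderOf g = p ^ k} := by
    intro E hE
    rw [Nat.card_eq_fintype_card, Fintype.card_subtype]
    apply Finset.card_le_card
    intro x hx
    rw [Finset.mem_filter]
    obtain ⟨Q, hQ⟩ := hE x hx
    exact ⟨Finset.mem_univ _, pow_order p Q x hQ⟩
  have hn1 : Nat.card (Sylow p G) ≠ 1 := by
    intro h
    apply hP
    rw [Sylow.card_eq_index_normalizer P, Subgroup.index_eq_one] at h
    exact Subgroup.normalizer_eq_top_iff.mp h
  have hmod := card_sylow_modEq_one p G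
  have hnp : p + 1 ≤ Nat.card (Sylow p G) := by
    apply ge_of_modEq_one p _ hmod
    have hpos : 0 < Nat.card (Sylow p G) := Nat.card_pos
    omega
  by_cases hA : ∃ Q R : Sylow p G, Q ≠ R ∧
      Nat.card ↥((Q : Subgroup G) ⊓ R) * p = Nat.card (P : Subgroup G)
  · obtain ⟨Q, R, hQR, hD⟩ := hA
    obtain ⟨D, hDdef⟩ : ∃ D : Subgroup G, D = (Q : Subgroup G) ⊓ R := ⟨_, rfl⟩
    rw [← hDdef] at hD
    obtain ⟨s, hsdef⟩ : ∃ s : Finset (Sylow p G),
        s = Finset.univ.filter (fun S : Sylow p G => D ≤ (S : Subgroup G)) := ⟨_, rfl⟩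
    have hsmem : ∀ S : Sylow p G, S ∈ s ↔ D ≤ (S : Subgroup G) := by
      intro S; rw [hsdef]; simp
    have hDp : IsPGroup p D := Q.2.to_le (hDdef ▸ inf_le_left)
    have hfix := hDp.card_modEq_card_fixedPoints (Sylow p G)
    have hfixcard : Nat.card (MulAction.fixedPoints D (Sylow p G)) = s.card := by
      rw [Nat.card_congr (Equiv.subtypeEquivRight
        (fun S : Sylow p G => hDp.sylow_mem_fixedPoints_iff (Q := S))),
        Nat.card_eq_fintype_card, Fintype.card_subtype, hsdef]
    have hs2 : 2 ≤ s.card := by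
      have : 1 < s.card := Finset.one_lt_card.mpr
        ⟨Q, (hsmem Q).mpr (hDdef ▸ inf_le_left), R, (hsmem R).mpr (hDdef ▸ inf_le_right), hQR⟩
      omega
    have hsp : p + 1 ≤ s.card := by
      apply ge_of_modEq_one p _ _ hs2
      rw [← hfixcard]
      exact hfix.symm.trans hmod
    obtain ⟨d, hd⟩ : ∃ d, d = Nat.card D := ⟨_, rfl⟩
    rw [← hd] at hD
    have hinter : ∀ S ∈ s, ∀ S' ∈ s, S ≠ S' → (S : Subgroup G) ⊓ S' = D := by
      intro S hS S' hS' hne
      have hle : D ≤ (S : Subgroup G) ⊓ S' := le_inf ((hsmem S).mp hS) ((hsmem S').mp hS')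
      symm
      apply Subgroup.eq_of_le_of_card_ge hle
      have h1 : Nat.card D ∣ Nat.card ↥((S : Subgroup G) ⊓ S') := Subgroup.card_dvd_of_le hle
      have h2 : Nat.card ↥((S : Subgroup G) ⊓ S') ∣ Nat.card (S : Subgroup G) :=
        Subgroup.card_dvd_of_le inf_le_left
      rw [hcard S, ← hD] at h2
      rw [← hd] at h1 ⊢
      obtain ⟨t, ht⟩ := h1
      rw [ht] at h2 ⊢
      have hd0 : 0 < d := by rw [hd]; exact Nat.card_pos
      have h3 : t ∣ p := (Nat.mul_dvd_mul_iff_left hd0).mp h2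
      rcases (Nat.dvd_prime hpp).mp h3 with h4 | h4
      · rw [h4, mul_one]
      · exfalso
        apply hne
        have h5 : (S : Subgroup G) ⊓ S' = S := by
          apply Subgroup.eq_of_le_of_card_ge inf_le_left
          rw [ht, h4, hcard S, hD]
        exact Sylow.ext (S.3 S'.2 (inf_eq_left.mp h5)).symm
    have hub := union_bound s (fun S => F (S : Subgroup G) \ F D) (d * p - d) 0
      (fun S hS => by
        have hsub : F D ⊆ F (S : Subgroup G) := by
          intro x hx
          rw [hFmem] at hx ⊢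
          exact (hsmem S).mp hS hx
        rw [Finset.card_sdiff_of_subset hsub, hF, hF, hcard S, ← hD, ← hd])
      (fun S hS S' hS' hne => by
        rw [Nat.le_zero, Finset.card_eq_zero, Finset.eq_empty_iff_forall_notMem]
        intro x hx
        rw [Finset.mem_inter, Finset.mem_sdiff, Finset.mem_sdiff, hFmem, hFmem, hFmem] at hx
        apply hx.1.2
        rw [← hinter S hS S' hS' hne]
        exact ⟨hx.1.1, hx.2.1⟩)
    have hE := hkey (F D ∪ s.biUnion (fun S => F (S : Subgroup G) \ F D)) (by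
      intro x hx
      rw [Finset.mem_union, Finset.mem_biUnion] at hx
      rcases hx with hx | ⟨S, hS, hx⟩
      · exact ⟨Q, by rw [hFmem, hDdef] at hx; exact hx.1⟩
      · rw [Finset.mem_sdiff, hFmem] at hx
        exact ⟨S, hx.1⟩)
    have hdisj : Disjoint (F D) (s.biUnion (fun S => F (S : Subgroup G) \ F D)) := by
      rw [Finset.disjoint_left]
      intro x hx hx'
      rw [Finset.mem_biUnion] at hx'
      obtain ⟨S, _, hx'⟩ := hx'
      rw [Finset.mem_sdiff] at hx'
      exact hx'.2 hx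
    rw [Finset.card_union_of_disjoint hdisj, hF, ← hd] at hE
    refine le_trans ?_ hE
    rw [← hD]
    have hd0 : 0 < d := by rw [hd]; exact Nat.card_pos
    have hdp : d ≤ d * p := Nat.le_mul_of_pos_right d hpp.pos
    obtain ⟨a, ha⟩ : ∃ a, a = d * p - d := ⟨_, rfl⟩
    rw [← ha] at hub
    have ha' : a + d = d * p := by omega
    have h6 : a * (p + 1) ≤ a * s.card := Nat.mul_le_mul_left a hsp
    nlinarith [hub, ha', h6]
  · have hA' : ∀ Q R : Sylow p G, Q ≠ R →
        Nat.card ↥((Q : Subgroup G) ⊓ R) * p ≠ Nat.card (P : Subgroup G) := by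
      intro Q R hQR h
      exact hA ⟨Q, R, hQR, h⟩
    have hB : ∀ Q R : Sylow p G, Q ≠ R →
        Nat.card ↥((Q : Subgroup G) ⊓ R) * p ^ 2 ≤ Nat.card (P : Subgroup G) := by
      intro Q R hQR
      obtain ⟨n, hn⟩ := IsPGroup.iff_card.mp P.2
      have hQn : Nat.card (Q : Subgroup G) = p ^ n := (hcard Q).trans hn
      have hdvd : Nat.card ↥((Q : Subgroup G) ⊓ R) ∣ p ^ n :=
        hQn ▸ Subgroup.card_dvd_of_le inf_le_left
      obtain ⟨j, hj, hj2⟩ := (Nat.dvd_prime_pow hpp).mp hdvd
      have hjn : j ≠ n := by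
        rintro rfl
        have h5 : (Q : Subgroup G) ⊓ R = Q :=
          Subgroup.eq_of_le_of_card_ge inf_le_left (by rw [hj2, hQn])
        exact hQR (Sylow.ext (Q.3 R.2 (inf_eq_left.mp h5)).symm)
      have hjn1 : j + 1 ≠ n := by
        intro h
        apply hA' Q R hQR
        rw [hj2, hn, ← h, pow_succ]
      have h7 : j + 2 ≤ n := by omega
      rw [hj2, hn, ← pow_add]
      exact Nat.pow_le_pow_right hpp.pos h7
    obtain ⟨s, -, hs⟩ := Finset.exists_subset_card_eq
      (s := (Finset.univ : Finset (Sylow p G))) (n := p + 1)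
      (by rw [Finset.card_univ, ← Nat.card_eq_fintype_card]; exact hnp)
    obtain ⟨c, hc⟩ : ∃ c, c = Nat.card (P : Subgroup G) := ⟨_, rfl⟩
    rw [← hc] at hB ⊢
    obtain ⟨b, hb⟩ : ∃ b, b = c / p ^ 2 := ⟨_, rfl⟩
    have hub := union_bound s (fun S => F (S : Subgroup G)) c b
      (fun S _ => by rw [hF, hcard, hc])
      (fun S hS S' hS' hne => by
        rw [hFinter, hF, hb]
        exact (Nat.le_div_iff_mul_le (pow_pos hpp.pos 2)).mpr (hB S S' hne))
    rw [hs] at hub
    have hbc : b * p ^ 2 ≤ c := by rw [hb]; exact Nat.div_mul_le_self c (p ^ 2)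
    have hE := hkey (s.biUnion (fun S => F (S : Subgroup G))) (by
      intro x hx
      rw [Finset.mem_biUnion] at hx
      obtain ⟨S, _, hx⟩ := hx
      exact ⟨S, (hFmem _ x).mp hx⟩)
    refine le_trans ?_ hE
    have h4 : b * p ≤ b * p ^ 2 := Nat.mul_le_mul_left b (Nat.le_self_pow two_ne_zero p)
    nlinarith [hub, hbc, h4]

end Cfsg.Agent.S4092
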