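import Cfsg.Statements.S4093
import Cfsg.Agent.Lib.helper20.ClassSize

set_option autoImplicit false
open Cfsg

namespace Cfsg.Agent.S4093

open Cfsg.Agent.Lib.helper20

/-- The number of `N`-conjugates of `x`. -/
theorem card_conj_orbit {G : Type*} [Group G] [Finite G] (N : Subgroup G) (x : G) :
    Nat.card {g : G // ∃ n ∈ N, n * x * n⁻¹ = g} =
      Nat.card N / Nat.card ↥(N ⊓ Subgroup.centralizer ({x} : Set G)) := by
  classical
  letI : MulAction N G := MulAction.compHom G ((MulAut.conj : G →* MulAut G).comp N.subtype)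
  have hsmul : ∀ (n : N) (g : G), n • g = (n : G) * g * (n : G)⁻¹ := fun n g => rfl
  have h1 : Nat.card (MulAction.orbit N x) * Nat.card (MulAction.stabilizer N x) = Nat.card N := by
    rw [← Nat.card_prod]
    exact Nat.card_congr (MulAction.orbitProdStabilizerEquivGroup N x)
  have h2 : Nat.card (MulAction.orbit N x) = Nat.card {g : G // ∃ n ∈ N, n * x * n⁻¹ = g} := by
    apply Nat.card_congr
    apply Equiv.subtypeEquivRight
    intro g
    rw [MulAction.mem_orbit_iff]
    constructor
    · rintro ⟨n, hn⟩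
      exact ⟨n, n.2, by rw [← hn, hsmul]⟩
    · rintro ⟨n, hn, hg⟩
      exact ⟨⟨n, hn⟩, by rw [hsmul]; exact hg⟩
  have h3 : Nat.card (MulAction.stabilizer N x) =
      Nat.card ↥(N ⊓ Subgroup.centralizer ({x} : Set G)) := by
    apply Nat.card_congr
    refine
      { toFun := fun n => ⟨((n : N) : G), ⟨(n : N).2, ?_⟩⟩
        invFun := fun c => ⟨⟨(c : G), c.2.1⟩, ?_⟩
        left_inv := fun _ => rfl
        right_inv := fun _ => rfl }
    · change ((n : N) : G) ∈ Subgroup.centralizer ({x} : Set G)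
      rw [Subgroup.mem_centralizer_iff]
      intro h hh
      rw [Set.mem_singleton_iff] at hh
      subst hh
      have := MulAction.mem_stabilizer_iff.mp n.2
      rw [hsmul] at this
      exact (mul_inv_eq_iff_eq_mul.mp this).symm
    · rw [MulAction.mem_stabilizer_iff, hsmul]
      have := Subgroup.mem_centralizer_iff.mp c.2.2 x rfl
      change (c : G) * x * (c : G)⁻¹ = x
      rw [← this, mul_inv_cancel_right]
  rw [← h2, ← h3, ← h1]
  exact (Nat.mul_div_cancel _ Nat.card_pos).symm

/-- Let G be a finite group with a normal subgroup N complementing a Sylow p-subgroup P (a normal p-complement). Then the number of elements of G of p-power order equals the sum over x ∈ P of the index of C_N(x) in N. -/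
theorem result {G : Type*} [Group G] [Finite G] (p : ℕ) [Fact p.Prime]
    (P : Sylow p G) (N : Subgroup G) [N.Normal] (hNP : N.IsComplement' (P : Subgroup G)) :
    Nat.card {g : G // ∃ k : ℕ, orderOf g = p ^ k} =
      ∑ᶠ x : (P : Subgroup G), Nat.card N / Nat.card ↥(N ⊓ Subgroup.centralizer ({(x : G)} : Set G)) := by
  classical
  haveI : Fintype (P : Subgroup G) := Fintype.ofFinite _
  have hNn : N.Normal := inferInstance
  rw [finsum_eq_sum_of_fintype]
  have hsum : ∑ x : (P : Subgroup G), Nat.card N /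
      Nat.card ↥(N ⊓ Subgroup.centralizer ({(x : G)} : Set G)) =
      ∑ x : (P : Subgroup G), Nat.card {g : G // ∃ n ∈ N, n * (x : G) * n⁻¹ = g} :=
    Finset.sum_congr rfl (fun x _ => (card_conj_orbit N (x : G)).symm)
  rw [hsum, ← Nat.card_sigma]
  symm
  have hdisj : ∀ a : G, a ∈ N → a ∈ (P : Subgroup G) → a = 1 := by
    intro a haN haP
    have := hNP.disjoint.le_bot (show a ∈ N ⊓ (P : Subgroup G) from ⟨haN, haP⟩)
    exact Subgroup.mem_bot.mp this
  let f : (Σ x : (P : Subgroup G), {g : G // ∃ n ∈ N, n * (x : G) * n⁻¹ = g}) →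
      {g : G // ∃ k : ℕ, orderOf g = p ^ k} := fun s => ⟨s.2.1, by
        obtain ⟨n, hn, hg⟩ := s.2.2
        obtain ⟨k, hk⟩ := (IsPGroup.iff_orderOf.mp P.2) s.1
        refine ⟨k, ?_⟩
        rw [← hk, ← Subgroup.orderOf_coe, ← hg]
        exact (MulAut.conj n).orderOf_eq _⟩
  have hf : Function.Bijective f := by
    constructor
    · rintro ⟨x, g, n, hn, hg⟩ ⟨x', g', n', hn', hg'⟩ h
      have hgg : g = g' := congrArg Subtype.val h
      subst hgg
      have hxx : x = x' := by
        apply Subtype.ext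
        have e1 : (x' : G) = (n'⁻¹ * n) * (x : G) * (n'⁻¹ * n)⁻¹ := by
          have : (x' : G) = n'⁻¹ * g * n' := by rw [← hg']; group
          rw [this, ← hg]; group
        have hmN : n'⁻¹ * n ∈ N := Subgroup.mul_mem _ (Subgroup.inv_mem _ hn') hn
        have h1 : (x' : G) * (x : G)⁻¹ = 1 := by
          apply hdisj
          · rw [e1]
            have e2 : (n'⁻¹ * n) * (x : G) * (n'⁻¹ * n)⁻¹ * (x : G)⁻¹ =
                (n'⁻¹ * n) * ((x : G) * (n'⁻¹ * n)⁻¹ * (x : G)⁻¹) := by group
            rw [e2]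
            exact Subgroup.mul_mem _ hmN (hNn.conj_mem _ (Subgroup.inv_mem _ hmN) _)
          · exact Subgroup.mul_mem _ x'.2 (Subgroup.inv_mem _ x.2)
        exact (mul_inv_eq_one.mp h1).symm
      subst hxx
      rfl
    · rintro ⟨g, k, hk⟩
      obtain ⟨d, hd⟩ := exists_conj_mem_sylow P g ⟨k, by rw [← hk]; exact pow_orderOf_eq_one g⟩
      have hdt : d⁻¹ ∈ N ⊔ (P : Subgroup G) := by rw [hNP.sup_eq_top]; trivial
      obtain ⟨n, hn, y, hy, hny⟩ := Subgroup.mem_sup_of_normal_left.mp hdt
      refine ⟨⟨⟨y * (d * g * d⁻¹) * y⁻¹, Subgroup.mul_mem _ (Subgroup.mul_mem _ hy hd)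
        (Subgroup.inv_mem _ hy)⟩, ⟨g, n, hn, ?_⟩⟩, rfl⟩
      have hd' : d = y⁻¹ * n⁻¹ := by
        rw [← inv_inv d, ← hny]; group
      change n * (y * (d * g * d⁻¹) * y⁻¹) * n⁻¹ = g
      rw [hd']; group
  exact Nat.card_congr (Equiv.ofBijective f hf)

end Cfsg.Agent.S4093
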