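import Cfsg.Statements.S4097
import Mathlib
import Cfsg.Agent.S0042
import Cfsg.Agent.Lib.helper7.Sup

set_option autoImplicit false
open Cfsg

namespace Cfsg.Agent.S4097

open scoped Pointwise

universe u

/-- The preimage of a solvable subgroup along a homomorphism with solvable kernel is solvable. -/
theorem comap_sol {G G' : Type*} [Group G] [Group G'] (f : G →* G') (S : Subgroup G')
    [hS : Group.IsSolvable S] [hk : Group.IsSolvable f.ker] : Group.IsSolvable (S.comap f) := by
  have hle : f.ker ≤ S.comap f := by
    intro x hx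
    rw [Subgroup.mem_comap, MonoidHom.mem_ker.mp hx]
    exact one_mem S
  refine Group.isSolvable_of_ker_le_range (Subgroup.inclusion hle) (f.subgroupComap S) ?_
  rintro ⟨x, hx⟩ hx'
  rw [MonoidHom.mem_ker] at hx'
  have h1 : f x = 1 := congrArg Subtype.val hx'
  exact ⟨⟨x, MonoidHom.mem_ker.mpr h1⟩, rfl⟩

theorem conj_inv_smul {G : Type*} [Group G] (g x : G) :
    (MulAut.conj g)⁻¹ • x = g⁻¹ * x * g := by
  simp [MulAut.smul_def]

theorem main : ∀ (n : ℕ) (G : Type u) [Group G] [Finite G], Nat.card G = n →
    ∀ (A : Subgroup G), Group.IsSolvable A →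
    (∀ S : Subgroup G, A ≤ S → Group.IsSolvable S → ∀ a ∈ A, ∀ s ∈ S, a * s = s * a) →
    A ≤ Subgroup.center G := by
  intro n
  induction n using Nat.strong_induction_on with
  | _ n ih =>
  intro G _ _ hn A hA hc
  -- induction hypothesis for proper subgroups
  have step1 : ∀ M : Subgroup G, M ≠ ⊤ → A ≤ M → ∀ a ∈ A, ∀ m ∈ M, a * m = m * a := by
    intro M hM hAM a ha m hm
    have hlt : Nat.card M < n := by
      rw [← hn]
      exact lt_of_le_of_ne (Subgroup.card_le_card_group M)
        (fun h => hM ((Subgroup.card_eq_iff_eq_top M).mp h))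
    have hA' : Group.IsSolvable (A.subgroupOf M) :=
      Group.isSolvable_of_isSolvable_injective
        (f := (Subgroup.subgroupOfEquivOfLe hAM).toMonoidHom)
        (Subgroup.subgroupOfEquivOfLe hAM).injective
    have key := ih (Nat.card M) hlt M rfl (A.subgroupOf M) hA' (by
      intro S' hAS' hS' a' ha' s' hs'
      have hsol : Group.IsSolvable (S'.map M.subtype) :=
        Group.isSolvable_of_surjective (f := M.subtype.subgroupMap S')
          (MonoidHom.subgroupMap_surjective _ _)
      have hle : A ≤ S'.map M.subtype := by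
        intro b hb
        exact ⟨⟨b, hAM hb⟩, hAS' ((Subgroup.mem_subgroupOf).mpr hb), rfl⟩
      have := hc _ hle hsol (a' : G) ((Subgroup.mem_subgroupOf).mp ha') (s' : G) ⟨s', hs', rfl⟩
      exact Subtype.ext this)
    have h1 := key (show (⟨a, hAM ha⟩ : M) ∈ A.subgroupOf M from (Subgroup.mem_subgroupOf).mpr ha)
    rw [Subgroup.mem_center_iff] at h1
    have h2 := h1 ⟨m, hm⟩
    exact (congrArg Subtype.val h2).symm
  by_cases hZ : Subgroup.center G = ⊥
  swap
  · -- the centre is nontrivial: pass to the quotient
    have hlt : Nat.card (G ⧸ Subgroup.center G) < n := by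
      rw [← hn, ← Subgroup.index_eq_card]
      have h1 := Subgroup.card_mul_index (Subgroup.center G)
      have h2 : 1 < Nat.card (Subgroup.center G) := (Subgroup.one_lt_card_iff_ne_bot _).mpr hZ
      have h3 : 0 < (Subgroup.center G).index := Nat.pos_of_ne_zero Subgroup.index_ne_zero_of_finite
      nlinarith
    obtain ⟨π, hπ⟩ : ∃ π : G →* G ⧸ Subgroup.center G, π = QuotientGroup.mk' (Subgroup.center G) :=
      ⟨_, rfl⟩
    have hπsurj : Function.Surjective π := by rw [hπ]; exact QuotientGroup.mk'_surjective _
    haveI hAbar : Group.IsSolvable (A.map π) :=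
      Group.isSolvable_of_surjective (f := π.subgroupMap A) (MonoidHom.subgroupMap_surjective _ _)
    have hker : π.ker = Subgroup.center G := by rw [hπ]; exact QuotientGroup.ker_mk' _
    haveI hksol : Group.IsSolvable π.ker := by
      rw [hker]
      exact Group.isSolvable_of_comm
        (fun a b => Subtype.ext (Subgroup.mem_center_iff.mp b.2 (a : G)))
    have hbar := ih _ hlt (G ⧸ Subgroup.center G) rfl (A.map π) hAbar (by
      intro S hAS hS a' ha' s' hs'
      obtain ⟨a, ha, rfl⟩ := ha'
      obtain ⟨s, rfl⟩ := hπsurj s'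
      haveI := hS
      have hsol : Group.IsSolvable (S.comap π) := comap_sol π S
      have hle : A ≤ S.comap π :=
        fun b hb => Subgroup.mem_comap.mpr (hAS (Subgroup.mem_map_of_mem π hb))
      have := hc _ hle hsol a ha s (Subgroup.mem_comap.mpr hs')
      rw [← map_mul, ← map_mul, this])
    obtain ⟨N, hN⟩ : ∃ N : Subgroup G, N = (A.map π).comap π := ⟨_, rfl⟩
    haveI hNn : N.Normal := by
      constructor
      intro x hx g
      rw [hN, Subgroup.mem_comap] at hx ⊢
      have hcen := hbar hx
      rw [Subgroup.mem_center_iff] at hcen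
      have : π (g * x * g⁻¹) = π x := by
        rw [map_mul, map_mul, hcen (π g), map_inv]
        group
      rw [this]
      exact hx
    haveI : Group.IsSolvable N := by
      rw [hN]
      exact comap_sol π (A.map π)
    have hAN : A ≤ N := by
      rw [hN]
      exact Subgroup.le_comap_map π A
    intro a ha
    rw [Subgroup.mem_center_iff]
    intro g
    have hnorm : Subgroup.zpowers g ≤ Subgroup.normalizer (N : Set G) := by
      rw [Subgroup.normalizer_eq_top]
      exact le_top
    have hT : Group.IsSolvable (N ⊔ Subgroup.zpowers g : Subgroup G) :=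
      Cfsg.Agent.Lib.helper7.isSolvable_sup_of_le_normalizer N (Subgroup.zpowers g) hnorm
    have := hc _ (hAN.trans le_sup_left) hT a ha g
      (Subgroup.mem_sup_right (Subgroup.mem_zpowers g))
    exact this.symm
  · -- the centre is trivial
    by_contra hAZ
    have hAab : ∀ a ∈ A, ∀ b ∈ A, a * b = b * a := fun a ha b hb => hc A le_rfl hA a ha b hb
    obtain ⟨C, hCdef⟩ : ∃ C : Subgroup G, C = Subgroup.centralizer (A : Set G) := ⟨_, rfl⟩
    have hCmem : ∀ g : G, g ∈ C ↔ ∀ a ∈ A, a * g = g * a := by
      intro g
      rw [hCdef, Subgroup.mem_centralizer_iff]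
      rfl
    have hAC : A ≤ C := fun b hb => (hCmem b).mpr (fun a ha => hAab a ha b hb)
    have hCtop : C ≠ ⊤ := by
      intro htop
      apply hAZ
      intro a ha
      rw [Subgroup.mem_center_iff]
      intro g
      have : g ∈ C := by rw [htop]; trivial
      exact ((hCmem g).mp this a ha).symm
    have hAbot : A ≠ ⊥ := by
      intro h
      apply hAZ
      rw [h]
      exact bot_le
    have hCbot : C ≠ ⊥ := fun h => hAbot (le_bot_iff.mp (h ▸ hAC))
    have step1' : ∀ M : Subgroup G, M ≠ ⊤ → A ≤ M → M ≤ C := by
      intro M hM hAM m hm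
      rw [hCmem]
      intro a ha
      exact step1 M hM hAM a ha m hm
    have hfrob : Cfsg.IsFrobeniusComplement C := by
      refine ⟨hCbot, hCtop, ?_⟩
      intro g hg
      rw [eq_bot_iff]
      intro x hx
      rw [Subgroup.mem_bot]
      by_contra hx1
      obtain ⟨hxC, hxCg⟩ := hx
      have hxCg' : g⁻¹ * x * g ∈ C := by
        have h1 : x ∈ MulAut.conj g • C := hxCg
        rw [Subgroup.mem_pointwise_smul_iff_inv_smul_mem, conj_inv_smul] at h1
        exact h1
      obtain ⟨D, hD⟩ : ∃ D : Subgroup G, D = Subgroup.centralizer ({x} : Set G) := ⟨_, rfl⟩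
      have hDtop : D ≠ ⊤ := by
        intro htop
        apply hx1
        have hxZ : x ∈ Subgroup.center G := by
          rw [Subgroup.mem_center_iff]
          intro y
          have : y ∈ D := by rw [htop]; trivial
          rw [hD, Subgroup.mem_centralizer_singleton_iff] at this
          exact this
        rw [hZ] at hxZ
        exact hxZ
      have hAD : A ≤ D := by
        intro a ha
        rw [hD, Subgroup.mem_centralizer_singleton_iff]
        exact (hCmem x).mp hxC a ha
      have hDC := step1' D hDtop hAD
      have hconjD : ∀ a ∈ A, g * a * g⁻¹ ∈ D := by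
        intro a ha
        rw [hD, Subgroup.mem_centralizer_singleton_iff]
        have h1 := (hCmem _).mp hxCg' a ha
        have e : g * a * g⁻¹ * x = g * (a * (g⁻¹ * x * g)) * g⁻¹ := by group
        rw [e, h1]
        group
      have hAconj : A ≤ MulAut.conj g • C := by
        intro b hb
        rw [Subgroup.mem_pointwise_smul_iff_inv_smul_mem, conj_inv_smul, hCmem]
        intro a ha
        have h1 := (hCmem _).mp (hDC (hconjD a ha)) b hb
        have e : a * (g⁻¹ * b * g) = g⁻¹ * ((g * a * g⁻¹) * b) * g := by group
        rw [e, ← h1]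
        group
      have hconjtop : MulAut.conj g • C ≠ ⊤ := by
        intro htop
        apply hCtop
        rw [eq_top_iff]
        intro y _
        have h1 : g * y * g⁻¹ ∈ MulAut.conj g • C := by rw [htop]; trivial
        rw [Subgroup.mem_pointwise_smul_iff_inv_smul_mem, conj_inv_smul] at h1
        have e : g⁻¹ * (g * y * g⁻¹) * g = y := by group
        rw [e] at h1
        exact h1
      have hle := step1' _ hconjtop hAconj
      have hgc : ∀ c ∈ C, g * c * g⁻¹ ∈ C := by
        intro c hcC
        apply hle
        rw [Subgroup.mem_pointwise_smul_iff_inv_smul_mem, conj_inv_smul]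
        have e : g⁻¹ * (g * c * g⁻¹) * g = c := by group
        rw [e]
        exact hcC
      have hpow : ∀ k : ℕ, ∀ c ∈ C, g ^ k * c * (g ^ k)⁻¹ ∈ C := by
        intro k
        induction k with
        | zero => intro c hcC; simpa using hcC
        | succ k ihk =>
          intro c hcC
          have := hgc _ (ihk c hcC)
          have e : g ^ (k + 1) * c * (g ^ (k + 1))⁻¹ = g * (g ^ k * c * (g ^ k)⁻¹) * g⁻¹ := by
            rw [pow_succ']
            group
          rw [e]
          exact this
      have hgc' : ∀ c ∈ C, g⁻¹ * c * g ∈ C := by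
        intro c hcC
        have h1 := hpow (orderOf g - 1) c hcC
        have h2 : g ^ (orderOf g - 1) = g⁻¹ := by
          apply eq_inv_of_mul_eq_one_left
          rw [← pow_succ, Nat.sub_add_cancel (orderOf_pos g), pow_orderOf_eq_one]
        rw [h2, inv_inv] at h1
        exact h1
      obtain ⟨Z, hZdef⟩ : ∃ Z : Subgroup G, Z = C ⊓ Subgroup.centralizer (C : Set G) := ⟨_, rfl⟩
      have hZmem : ∀ z : G, z ∈ Z ↔ z ∈ C ∧ ∀ c ∈ C, c * z = z * c := by
        intro z
        rw [hZdef, Subgroup.mem_inf, Subgroup.mem_centralizer_iff]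
        rfl
      have hAZ' : A ≤ Z := by
        intro a ha
        rw [hZmem]
        exact ⟨hAC ha, fun c hcC => ((hCmem c).mp hcC a ha).symm⟩
      haveI hZsol : Group.IsSolvable Z := by
        apply Group.isSolvable_of_comm
        intro a b
        apply Subtype.ext
        exact ((hZmem b).mp b.2).2 a ((hZmem a).mp a.2).1
      have hnorm : Subgroup.zpowers g ≤ Subgroup.normalizer (Z : Set G) := by
        apply Cfsg.Agent.Lib.helper7.zpowers_le_normalizer_of_conj
        · intro z hz
          rw [hZmem] at hz ⊢
          refine ⟨hgc z hz.1, ?_⟩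
          intro c hcC
          have h1 := hz.2 _ (hgc' c hcC)
          have e : c * (g * z * g⁻¹) = g * ((g⁻¹ * c * g) * z) * g⁻¹ := by group
          rw [e, h1]
          group
        · intro z hz
          rw [hZmem] at hz ⊢
          refine ⟨hgc' z hz.1, ?_⟩
          intro c hcC
          have h1 := hz.2 _ (hgc c hcC)
          have e : c * (g⁻¹ * z * g) = g⁻¹ * ((g * c * g⁻¹) * z) * g := by group
          rw [e, h1]
          group
      have hT : Group.IsSolvable (Z ⊔ Subgroup.zpowers g : Subgroup G) :=
        Cfsg.Agent.Lib.helper7.isSolvable_sup_of_le_normalizer Z (Subgroup.zpowers g) hnorm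
      apply hg
      rw [hCmem]
      intro a ha
      exact hc _ (hAZ'.trans le_sup_left) hT a ha g
        (Subgroup.mem_sup_right (Subgroup.mem_zpowers g))
    -- Frobenius' theorem and Thompson's theorem
    obtain ⟨N1, hN1set, hN1n, hN1c⟩ := Cfsg.Agent.S0035.result C hfrob
    obtain ⟨N2, hN2set, hN2n, hN2nil⟩ := Cfsg.Agent.S0042.result C hfrob
    have hN12 : N1 = N2 := SetLike.coe_injective (hN1set.trans hN2set.symm)
    subst hN12
    haveI := hN1n
    haveI := hN2nil
    haveI : Group.IsSolvable N1 := inferInstance
    haveI := hA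
    have hnorm : A ≤ Subgroup.normalizer (N1 : Set G) := by
      rw [Subgroup.normalizer_eq_top]
      exact le_top
    have hT : Group.IsSolvable (N1 ⊔ A : Subgroup G) :=
      Cfsg.Agent.Lib.helper7.isSolvable_sup_of_le_normalizer N1 A hnorm
    have hN1C : N1 ≤ C := by
      intro x hx
      rw [hCmem]
      intro a ha
      exact hc _ le_sup_right hT a ha x (Subgroup.mem_sup_left hx)
    have hdisj : N1 ⊓ C = ⊥ := hN1c.disjoint.eq_bot
    have hN1bot : N1 = ⊥ := by
      rw [← hdisj]
      exact (inf_eq_left.mpr hN1C).symm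
    have hsup : N1 ⊔ C = ⊤ := hN1c.sup_eq_top
    rw [hN1bot, bot_sup_eq] at hsup
    exact hCtop hsup

/-- Let A be a solvable subgroup of a finite group G such that A lies in the centre of every solvable subgroup of G containing A. Then A lies in the centre of G. -/
theorem result {G : Type*} [Group G] [Finite G]
    (A : Subgroup G) (hA : Group.IsSolvable A)
    (hc : ∀ S : Subgroup G, A ≤ S → Group.IsSolvable S → ∀ a ∈ A, ∀ s ∈ S, a * s = s * a) : A ≤ Subgroup.center G := by
  exact main _ G rfl A hA hc

end Cfsg.Agent.S4097
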