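import Cfsg.Statements.S4106
import Cfsg.Agent.Lib.helper20.PiClasses

set_option autoImplicit false
open Cfsg

namespace Cfsg.Agent.S4106

open Cfsg.Agent.Lib.helper20

/-- Let G be a finite group, π a set of primes and m the π-part of the order of G. Then the number of conjugacy classes of G consisting of π-elements (elements whose order is divisible only by primes in π) is at most m. -/
theorem result {G : Type*} [Group G] [Finite G]
    (π : Set ℕ) (hπ : ∀ q ∈ π, q.Prime)
    (m : ℕ) (hm : m ∣ Nat.card G) (hmπ : ∀ q : ℕ, q.Prime → q ∣ m → q ∈ π)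
    (hm' : ∀ q ∈ π, ¬ q ∣ Nat.card G / m) :
    Nat.card {C : ConjClasses G // ∀ q : ℕ, q.Prime → (∃ g : G, ConjClasses.mk g = C ∧ q ∣ orderOf g) → q ∈ π} ≤ m := by
  classical
  have hGpos : 0 < Nat.card G := Nat.card_pos
  have hm0 : m ≠ 0 := by
    rintro rfl
    rw [zero_dvd_iff] at hm
    omega
  set t := Nat.card G / m with ht
  have hmt : m * t = Nat.card G := Nat.mul_div_cancel' hm
  have ht0 : t ≠ 0 := by
    rintro h0
    rw [h0, mul_zero] at hmt
    omega
  set S : Finset ℕ := (Nat.card G).primeFactors.filter (fun q => q ∈ π) with hS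
  have hSprime : ∀ p ∈ S, p.Prime := by
    intro p hp
    rw [hS, Finset.mem_filter] at hp
    exact Nat.prime_of_mem_primeFactors hp.1
  let Ψ : {C : ConjClasses G // ∀ q : ℕ, q.Prime →
      (∃ g : G, ConjClasses.mk g = C ∧ q ∣ orderOf g) → q ∈ π} → PiClasses G S :=
    fun C => ⟨C.1, by
      obtain ⟨g, hg⟩ := ConjClasses.mk_surjective C.1
      refine ⟨g, hg, ?_⟩
      intro q hq hqd
      rw [hS, Finset.mem_filter]
      refine ⟨?_, C.2 q hq ⟨g, hg, hqd⟩⟩
      rw [Nat.mem_primeFactors]
      exact ⟨hq, hqd.trans (orderOf_dvd_natCard g), hGpos.ne'⟩⟩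
  have hΨ : Function.Injective Ψ := by
    intro C C' h
    apply Subtype.ext
    have h2 : (Ψ C).1 = (Ψ C').1 := congrArg Subtype.val h
    exact h2
  refine (Nat.card_le_card_of_injective Ψ hΨ).trans ?_
  refine (card_piClasses_le S hSprime G).trans ?_
  have hfac : ∀ p ∈ S, (Nat.card G).factorization p = m.factorization p := by
    intro p hp
    rw [hS, Finset.mem_filter] at hp
    have hpt : ¬ p ∣ t := hm' p hp.2
    rw [← hmt, Nat.factorization_mul hm0 ht0]
    simp only [Finsupp.coe_add, Pi.add_apply]
    rw [Nat.factorization_eq_zero_of_not_dvd hpt, add_zero]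
  have hsub : S ⊆ m.primeFactors := by
    intro p hp
    have hp' := hp
    rw [hS, Finset.mem_filter] at hp
    have hpp := Nat.prime_of_mem_primeFactors hp.1
    have hpt : ¬ p ∣ t := hm' p hp.2
    have hpG : p ∣ Nat.card G := Nat.dvd_of_mem_primeFactors hp.1
    rw [← hmt] at hpG
    rw [Nat.mem_primeFactors]
    exact ⟨hpp, (hpp.dvd_mul.mp hpG).resolve_right hpt, hm0⟩
  calc ∏ p ∈ S, p ^ (Nat.card G).factorization p = ∏ p ∈ S, p ^ m.factorization p :=
        Finset.prod_congr rfl (fun p hp => by rw [hfac p hp])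
    _ ≤ ∏ p ∈ m.primeFactors, p ^ m.factorization p := by
        apply Finset.prod_le_prod_of_subset_of_one_le' hsub
        intro p hp _
        exact Nat.one_le_pow _ _ (Nat.prime_of_mem_primeFactors hp).pos
    _ = m := by
        have := Nat.prod_factorization_pow_eq_self hm0
        rw [Finsupp.prod, Nat.support_factorization] at this
        exact this

end Cfsg.Agent.S4106
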