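import Cfsg.Statements.S4107
import Cfsg.Agent.Lib.helper1.Fitting

set_option autoImplicit false

open Cfsg

namespace Cfsg.Agent.S4107

universe u

/-- If some `p`-core is not contained in `N`, then `N` is a `p`-group. -/
theorem isPGroup_of_not_le {G : Type u} [Group G] [Finite G] (N : Subgroup G) [N.Normal]
    (heq : ∀ x : G, x ∉ N → ∀ n ∈ N, orderOf (x * n) = orderOf x)
    (p : ℕ) (hp : p.Prime) (hnot : ¬ Cfsg.pCore p G ≤ N) : IsPGroup p N := by
  haveI : Fact p.Prime := ⟨hp⟩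
  obtain ⟨x, hxO, hxN⟩ := SetLike.not_le_iff_exists.mp hnot
  have hO := Cfsg.Agent.Lib.helper1.pCore_isPGroup p G
  haveI := Cfsg.Agent.Lib.helper1.pCore_normal p G
  obtain ⟨k, hk⟩ := hO ⟨x, hxO⟩
  have hk' : x ^ p ^ k = 1 := by simpa using congrArg Subtype.val hk
  intro n
  have h1 : (x * (n : G)) ^ p ^ k = 1 := by
    have h2 : orderOf (x * (n : G)) ∣ p ^ k := by
      rw [heq x hxN n n.2]
      exact orderOf_dvd_of_pow_eq_one hk'
    exact orderOf_dvd_iff_pow_eq_one.mp h2
  have h3 : (n : G) ^ p ^ k ∈ Cfsg.pCore p G := by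
    rw [← QuotientGroup.eq_one_iff, QuotientGroup.mk_pow]
    have h4 : ((x * (n : G) : G) : G ⧸ Cfsg.pCore p G) = ((n : G) : G ⧸ Cfsg.pCore p G) := by
      rw [QuotientGroup.mk_mul, (QuotientGroup.eq_one_iff x).mpr hxO, one_mul]
    rw [← h4, ← QuotientGroup.mk_pow, h1]
    rfl
  obtain ⟨j, hj⟩ := hO ⟨_, h3⟩
  have hj' : ((n : G) ^ p ^ k) ^ p ^ j = 1 := by simpa using congrArg Subtype.val hj
  refine ⟨k + j, ?_⟩
  apply Subtype.ext
  rw [Subgroup.coe_pow, pow_add, pow_mul]
  exact hj'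

/-- A subgroup that is both a `p`-group and a `q`-group for distinct primes is trivial. -/
theorem eq_bot_of_two {G : Type u} [Group G] (N : Subgroup G) (p q : ℕ) (hp : p.Prime)
    (hq : q.Prime) (hpq : p ≠ q) (h1 : IsPGroup p N) (h2 : IsPGroup q N) : N = ⊥ := by
  rw [Subgroup.eq_bot_iff_forall]
  intro n hn
  obtain ⟨k, hk⟩ := h1 ⟨n, hn⟩
  obtain ⟨j, hj⟩ := h2 ⟨n, hn⟩
  have hk' : n ^ p ^ k = 1 := by simpa using congrArg Subtype.val hk
  have hj' : n ^ q ^ j = 1 := by simpa using congrArg Subtype.val hj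
  have hd1 := orderOf_dvd_of_pow_eq_one hk'
  have hd2 := orderOf_dvd_of_pow_eq_one hj'
  have hcop : Nat.Coprime (p ^ k) (q ^ j) :=
    Nat.Coprime.pow k j ((Nat.coprime_primes hp hq).mpr hpq)
  have h3 : orderOf n = 1 := Nat.eq_one_of_dvd_coprimes hcop hd1 hd2
  exact orderOf_eq_one_iff.mp h3

/-- Let G be a finite group and N a proper non-trivial normal subgroup such that for every x outside N all elements of the coset xN have the same order as x. Then N ≤ F(G) or F(G) ≤ N, where F(G) is the Fitting subgroup; and if N is properly contained in F(G) then F(G) has prime-power order. -/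
theorem result {G : Type*} [Group G] [Finite G] (N : Subgroup G) [N.Normal] (hN1 : N ≠ ⊥) (hN2 : N ≠ ⊤)
    (heq : ∀ x : G, x ∉ N → ∀ n ∈ N, orderOf (x * n) = orderOf x) :
    (N ≤ Cfsg.fittingSubgroup G ∨ Cfsg.fittingSubgroup G ≤ N) ∧
    (N < Cfsg.fittingSubgroup G → IsPrimePow (Nat.card (Cfsg.fittingSubgroup G))) := by
  classical
  have hF := Cfsg.Agent.Lib.helper1.fitting_eq_iSup_pCore G
  have key : ¬ Cfsg.fittingSubgroup G ≤ N → ∃ p : Nat.Primes, IsPGroup (p : ℕ) N := by
    intro hnot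
    by_contra hcon
    push Not at hcon
    apply hnot
    rw [hF]
    apply iSup_le
    intro p
    by_contra hp
    exact hcon p (isPGroup_of_not_le N heq p p.2 hp)
  constructor
  · by_cases hle : Cfsg.fittingSubgroup G ≤ N
    · exact Or.inr hle
    · left
      obtain ⟨p, hp⟩ := key hle
      haveI : Fact (p : ℕ).Prime := ⟨p.2⟩
      exact (Cfsg.Agent.Lib.helper1.le_pCore inferInstance hp).trans
        (Cfsg.Agent.Lib.helper1.pCore_le_fitting p G)
  · intro hlt
    have hnot : ¬ Cfsg.fittingSubgroup G ≤ N := fun h => (lt_irrefl _ (lt_of_lt_of_le hlt h))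
    obtain ⟨p, hp⟩ := key hnot
    haveI : Fact (p : ℕ).Prime := ⟨p.2⟩
    have hFle : Cfsg.fittingSubgroup G ≤ Cfsg.pCore (p : ℕ) G := by
      rw [hF]
      apply iSup_le
      intro q
      by_cases hqp : q = p
      · rw [hqp]
      · have hne : (p : ℕ) ≠ (q : ℕ) := fun h => hqp (Subtype.ext h.symm)
        have hqN : Cfsg.pCore (q : ℕ) G ≤ N := by
          by_contra hq
          exact hN1 (eq_bot_of_two N p q p.2 q.2 hne hp (isPGroup_of_not_le N heq q q.2 hq))
        have hbot : Cfsg.pCore (q : ℕ) G = ⊥ :=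
          eq_bot_of_two _ p q p.2 q.2 hne (hp.to_le hqN)
            (Cfsg.Agent.Lib.helper1.pCore_isPGroup q G)
        rw [hbot]
        exact bot_le
    have hFp : IsPGroup (p : ℕ) (Cfsg.fittingSubgroup G) :=
      (Cfsg.Agent.Lib.helper1.pCore_isPGroup p G).to_le hFle
    obtain ⟨k, hk⟩ := IsPGroup.iff_card.mp hFp
    have hk0 : k ≠ 0 := by
      rintro rfl
      rw [pow_zero] at hk
      have hFbot := Subgroup.card_eq_one.mp hk
      rw [hFbot] at hlt
      exact not_lt_bot hlt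
    rw [isPrimePow_nat_iff]
    exact ⟨p, k, p.2, Nat.pos_of_ne_zero hk0, hk.symm⟩

end Cfsg.Agent.S4107
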