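import Cfsg.Statements.S4108
import Mathlib

set_option autoImplicit false
open Cfsg

namespace Cfsg.Agent.S4108

open scoped Pointwise

theorem mem_conj_smul {G : Type*} [Group G] {S : Subgroup G} {g y : G} :
    y ∈ MulAut.conj g • S ↔ g⁻¹ * y * g ∈ S := by
  rw [Subgroup.mem_pointwise_smul_iff_inv_smul_mem]
  simp [MulAut.smul_def]

/-- Let G be a finite group, p a prime and N a proper non-trivial normal p-subgroup such that for every x outside N all elements of the coset xN have the same order as x. Then every non-trivial subgroup H of G of order prime to p acts fixed-point-freely on N: NH is a Frobenius group with complement H and kernel N. -/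
theorem result {G : Type*} [Group G] [Finite G] (N : Subgroup G) [N.Normal] (hN1 : N ≠ ⊥) (hN2 : N ≠ ⊤)
    (heq : ∀ x : G, x ∉ N → ∀ n ∈ N, orderOf (x * n) = orderOf x)
    (p : ℕ) [Fact p.Prime] (hNp : IsPGroup p N) :
    ∀ H : Subgroup G, H ≠ ⊥ → (Nat.card H).Coprime p →
      Cfsg.IsFrobeniusComplement (H.subgroupOf (N ⊔ H)) ∧ Cfsg.frobeniusKernel (H.subgroupOf (N ⊔ H)) = (N.subgroupOf (N ⊔ H) : Set ↥(N ⊔ H)) := by
  classical
  intro H hH hcop
  have hp : p.Prime := Fact.out
  have hNn : N.Normal := inferInstance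
  -- orders
  have hordN : ∀ n ∈ N, ∃ k : ℕ, orderOf n = p ^ k := by
    intro n hn
    obtain ⟨k, hk⟩ := (IsPGroup.iff_orderOf.mp hNp) ⟨n, hn⟩
    exact ⟨k, by rw [← hk, Subgroup.orderOf_mk]⟩
  have hordH : ∀ h ∈ H, (orderOf h).Coprime p := by
    intro h hh
    have hdvd : orderOf h ∣ Nat.card H := by
      have := orderOf_dvd_natCard (⟨h, hh⟩ : H)
      rwa [Subgroup.orderOf_mk] at this
    exact Nat.Coprime.coprime_dvd_left hdvd hcop
  have hdisj : ∀ a : G, a ∈ N → a ∈ H → a = 1 := by
    intro a haN haH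
    obtain ⟨k, hk⟩ := hordN a haN
    have h1 := hordH a haH
    rw [hk] at h1
    rcases Nat.eq_zero_or_pos k with h0 | h0
    · rw [h0, pow_zero] at hk
      exact orderOf_eq_one_iff.mp hk
    · exfalso
      have : p ∣ Nat.gcd (p ^ k) p := Nat.dvd_gcd (dvd_pow_self p h0.ne') dvd_rfl
      rw [h1] at this
      exact hp.one_lt.ne' (Nat.dvd_one.mp this)
  have key : ∀ h ∈ H, h ≠ 1 → ∀ n ∈ N, n * h = h * n → n = 1 := by
    intro h hh hh1 n hn hcomm
    have hhN : h ∉ N := fun hc => hh1 (hdisj h hc hh)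
    have h1 := heq h hhN n hn
    obtain ⟨k, hk⟩ := hordN n hn
    have hc : Commute h n := hcomm.symm
    have hcop2 : (orderOf h).Coprime (orderOf n) := by
      rw [hk]; exact Nat.Coprime.pow_right k (hordH h hh)
    rw [hc.orderOf_mul_eq_mul_orderOf_of_coprime hcop2] at h1
    have hpos : 0 < orderOf h := orderOf_pos h
    have : orderOf n = 1 := by
      have h2 : orderOf h * orderOf n = orderOf h * 1 := by rw [h1, mul_one]
      exact Nat.eq_of_mul_eq_mul_left hpos h2
    exact orderOf_eq_one_iff.mp this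
  have hdecomp : ∀ g : (N ⊔ H : Subgroup G), ∃ n ∈ N, ∃ h ∈ H, n * h = (g : G) := by
    intro g
    exact Subgroup.mem_sup_of_normal_left.mp g.2
  refine ⟨⟨?_, ?_, ?_⟩, ?_⟩
  · intro hbot
    obtain ⟨h, hh1⟩ := Subgroup.ne_bot_iff_exists_ne_one.mp hH
    have : (⟨h, Subgroup.mem_sup_right h.2⟩ : (N ⊔ H : Subgroup G)) ∈ H.subgroupOf (N ⊔ H) := by
      rw [Subgroup.mem_subgroupOf]; exact h.2
    rw [hbot, Subgroup.mem_bot] at this
    apply hh1
    apply Subtype.ext
    have h2 : (h : G) = ((1 : (N ⊔ H : Subgroup G)) : G) := congrArg Subtype.val this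
    exact h2
  · intro htop
    obtain ⟨n, hn1⟩ := Subgroup.ne_bot_iff_exists_ne_one.mp hN1
    have : (⟨n, Subgroup.mem_sup_left n.2⟩ : (N ⊔ H : Subgroup G)) ∈ H.subgroupOf (N ⊔ H) := by
      rw [htop]; trivial
    rw [Subgroup.mem_subgroupOf] at this
    apply hn1
    apply Subtype.ext
    exact hdisj n n.2 this
  · intro g hg
    rw [Subgroup.eq_bot_iff_forall]
    rintro a ⟨ha1, ha2⟩
    have ha1 : (a : G) ∈ H := Subgroup.mem_subgroupOf.mp ha1
    have ha2 : ((g⁻¹ * a * g : (N ⊔ H : Subgroup G)) : G) ∈ H :=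
      Subgroup.mem_subgroupOf.mp (mem_conj_smul.mp ha2)
    obtain ⟨n, hn, h₀, hh₀, hg'⟩ := hdecomp g
    have hn1 : n ≠ 1 := by
      intro h
      apply hg
      rw [Subgroup.mem_subgroupOf, ← hg', h, one_mul]
      exact hh₀
    by_contra ha
    have ha' : (a : G) ≠ 1 := fun h => ha (Subtype.ext h)
    apply hn1
    apply key (a : G) ha1 ha' n hn
    -- c = n⁻¹ a n ∈ H
    have hc : n⁻¹ * (a : G) * n ∈ H := by
      have e : n⁻¹ * (a : G) * n = h₀ * ((g : G)⁻¹ * (a : G) * (g : G)) * h₀⁻¹ := by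
        rw [← hg']; group
      rw [e]
      exact Subgroup.mul_mem _ (Subgroup.mul_mem _ hh₀ (by simpa using ha2)) (Subgroup.inv_mem _ hh₀)
    have h1 : (a : G)⁻¹ * (n⁻¹ * (a : G) * n) = 1 := by
      apply hdisj
      · have e : (a : G)⁻¹ * (n⁻¹ * (a : G) * n) = ((a : G)⁻¹ * n⁻¹ * (a : G)⁻¹⁻¹) * n := by group
        rw [e]
        exact Subgroup.mul_mem _ (hNn.conj_mem _ (Subgroup.inv_mem _ hn) _) hn
      · exact Subgroup.mul_mem _ (Subgroup.inv_mem _ ha1) hc
    have h2 : n⁻¹ * (a : G) * n = (a : G) := by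
      rw [inv_mul_eq_one] at h1
      exact h1.symm
    calc n * (a : G) = n * (n⁻¹ * (a : G) * n) := by rw [h2]
      _ = (a : G) * n := by group
  · ext x
    constructor
    · rintro (hx | hx)
      · rw [hx]; exact Subgroup.one_mem _
      · by_contra hxN
        have hxN' : (x : G) ∉ N := fun h => hxN (Subgroup.mem_subgroupOf.mpr h)
        obtain ⟨n, hn, h, hh, hx'⟩ := hdecomp x
        have hh1 : h ≠ 1 := by
          intro h1
          apply hxN'
          rw [← hx', h1, mul_one]; exact hn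
        let φ : N → N := fun m => ⟨(m : G) * h * (m : G)⁻¹ * h⁻¹, by
          have e : (m : G) * h * (m : G)⁻¹ * h⁻¹ = (m : G) * (h * (m : G)⁻¹ * h⁻¹) := by group
          rw [e]
          exact Subgroup.mul_mem _ m.2 (hNn.conj_mem _ (Subgroup.inv_mem _ m.2) h)⟩
        have hφ : Function.Injective φ := by
          intro m m' hmm
          have h1 : (m : G) * h * (m : G)⁻¹ * h⁻¹ = (m' : G) * h * (m' : G)⁻¹ * h⁻¹ :=
            congrArg Subtype.val hmm
          have h2 : (m : G) * h * (m : G)⁻¹ = (m' : G) * h * (m' : G)⁻¹ := mul_right_cancel h1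
          have h3 : ((m' : G)⁻¹ * (m : G)) * h = h * ((m' : G)⁻¹ * (m : G)) := by
            calc ((m' : G)⁻¹ * (m : G)) * h = (m' : G)⁻¹ * ((m : G) * h * (m : G)⁻¹) * (m : G) := by
                  group
              _ = (m' : G)⁻¹ * ((m' : G) * h * (m' : G)⁻¹) * (m : G) := by rw [h2]
              _ = h * ((m' : G)⁻¹ * (m : G)) := by group
          have h4 := key h hh hh1 _ (Subgroup.mul_mem _ (Subgroup.inv_mem _ m'.2) m.2) h3
          apply Subtype.ext
          rw [inv_mul_eq_one] at h4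
          exact h4.symm
        obtain ⟨m, hm⟩ := Finite.surjective_of_injective hφ ⟨n, hn⟩
        have hm' : (m : G) * h * (m : G)⁻¹ * h⁻¹ = n := congrArg Subtype.val hm
        apply hx ⟨(m : G), Subgroup.mem_sup_left m.2⟩
        rw [mem_conj_smul, Subgroup.mem_subgroupOf]
        have e : (((⟨(m : G), Subgroup.mem_sup_left m.2⟩ : (N ⊔ H : Subgroup G))⁻¹ * x *
            ⟨(m : G), Subgroup.mem_sup_left m.2⟩ : (N ⊔ H : Subgroup G)) : G) = h := by
          change (m : G)⁻¹ * (x : G) * (m : G) = h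
          rw [← hx', ← hm']
          group
        rw [e]
        exact hh
    · intro hx
      have hx' : (x : G) ∈ N := Subgroup.mem_subgroupOf.mp hx
      by_cases hx1 : x = 1
      · left; exact hx1
      · right
        intro g hg
        rw [mem_conj_smul, Subgroup.mem_subgroupOf] at hg
        have hg' : (g : G)⁻¹ * (x : G) * (g : G) ∈ H := by simpa using hg
        have h1 : (g : G)⁻¹ * (x : G) * (g : G) ∈ N := by
          have := hNn.conj_mem _ hx' (g : G)⁻¹
          rwa [inv_inv] at this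
        have h2 := hdisj _ h1 hg'
        apply hx1
        apply Subtype.ext
        have e : (x : G) = (g : G) * ((g : G)⁻¹ * (x : G) * (g : G)) * (g : G)⁻¹ := by group
        rw [e, h2]
        simp

end Cfsg.Agent.S4108
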