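import Cfsg.Statements.S4112
import Cfsg.Agent.Lib.helper20.ClassSize

set_option autoImplicit false
open Cfsg

namespace Cfsg.Agent.S4112

open Cfsg.Agent.Lib.helper20

/-- An element whose order is a power of `r` lies in every normal subgroup of index prime to
`r`. -/
theorem mem_of_pow_of_coprime_index {G : Type*} [Group G] [Finite G] (N : Subgroup G) [N.Normal]
    (r : ℕ) (hr : r.Prime) (hidx : ¬ r ∣ N.index) (u : G) (k : ℕ) (hu : u ^ (r ^ k) = 1) :
    u ∈ N := by
  rw [← QuotientGroup.eq_one_iff]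
  have h1 : (QuotientGroup.mk u : G ⧸ N) ^ (r ^ k) = 1 := by
    rw [← QuotientGroup.mk_pow, hu, QuotientGroup.mk_one]
  have h2 : (QuotientGroup.mk u : G ⧸ N) ^ N.index = 1 := by
    rw [Subgroup.index_eq_card]; exact pow_card_eq_one'
  have hcop : Nat.Coprime (r ^ k) N.index :=
    Nat.Coprime.pow_left k ((Nat.Prime.coprime_iff_not_dvd hr).mpr hidx)
  have := pow_gcd_eq_one.mpr ⟨h1, h2⟩
  rw [hcop, pow_one] at this
  exact this

theorem partA_mp {G : Type*} [Group G] [Finite G] (N M : Subgroup G) [N.Normal] [M.Normal]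
    (h : ∀ x ∈ M, x ≠ 1 → Subgroup.centralizer ({x} : Set G) ≤ N) :
    N.index.Coprime (Nat.card M) := by
  classical
  by_contra hcon
  obtain ⟨r, hr, hrN, hrM⟩ := Nat.Prime.not_coprime_iff_dvd.mp hcon
  haveI : Fact r.Prime := ⟨hr⟩
  rw [Subgroup.index_eq_card] at hrN
  obtain ⟨gb, hgb⟩ := exists_prime_orderOf_dvd_card' r hrN
  obtain ⟨g₀, rfl⟩ := QuotientGroup.mk_surjective gb
  obtain ⟨u, v, hguv, huv, ⟨k, hk⟩, hvcop, hu, hv⟩ := exists_p_decomp r g₀
  have huN : u ∉ N := by
    intro huN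
    have h1 : (QuotientGroup.mk g₀ : G ⧸ N) = QuotientGroup.mk v := by
      rw [hguv, QuotientGroup.mk_mul, (QuotientGroup.eq_one_iff u).mpr huN, one_mul]
    have h2 : orderOf (QuotientGroup.mk v : G ⧸ N) ∣ orderOf v :=
      orderOf_map_dvd (QuotientGroup.mk' N) v
    rw [← h1, hgb] at h2
    have : r ∣ Nat.gcd (orderOf v) r := Nat.dvd_gcd h2 dvd_rfl
    rw [hvcop] at this
    exact hr.one_lt.ne' (Nat.dvd_one.mp this)
  haveI : Fintype M := Fintype.ofFinite M
  let σ : Equiv.Perm M := MulAut.toPerm M (MulAut.conjNormal u)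
  have hσ : σ ^ r ^ k = 1 := by
    change (MulAut.toPerm M (MulAut.conjNormal u)) ^ r ^ k = 1
    rw [← map_pow, ← map_pow, hk, map_one, map_one]
  have hcard : r ∣ Fintype.card M := by rwa [← Nat.card_eq_fintype_card]
  obtain ⟨b, hb, hb1⟩ := Equiv.Perm.exists_fixed_point_of_prime' hcard hσ (a := (1 : M))
    (by change (MulAut.conjNormal u) (1 : M) = 1; exact map_one _)
  have hb' : u * (b : G) * u⁻¹ = b := by
    have : (MulAut.conjNormal u) b = b := hb
    have := congrArg Subtype.val this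
    rwa [MulAut.conjNormal_apply] at this
  have hb1' : (b : G) ≠ 1 := fun hc => hb1 (Subtype.ext hc)
  apply huN
  apply h (b : G) b.2 hb1'
  rw [Subgroup.mem_centralizer_iff]
  intro z hz
  rw [Set.mem_singleton_iff] at hz
  subst hz
  exact (mul_inv_eq_iff_eq_mul.mp hb').symm

theorem partA_mpr {G : Type*} [Group G] [Finite G] (N M : Subgroup G) [N.Normal] [M.Normal]
    (hcam : ∀ g : G, g ∉ N → ∀ m ∈ M, ∃ x : G, x * g * x⁻¹ = g * m)
    (hcop : N.index.Coprime (Nat.card M)) :
    ∀ x ∈ M, x ≠ 1 → Subgroup.centralizer ({x} : Set G) ≤ N := by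
  classical
  intro x hx hx1 g hg
  by_contra hgN
  have hgx : x * g = g * x := by
    rw [Subgroup.mem_centralizer_iff] at hg
    exact hg x rfl
  have hox : orderOf x ≠ 1 := by rwa [Ne, orderOf_eq_one_iff]
  set r := (orderOf x).minFac with hr
  have hrp : r.Prime := Nat.minFac_prime hox
  haveI : Fact r.Prime := ⟨hrp⟩
  have hrd : r ∣ orderOf x := Nat.minFac_dvd _
  set x' := x ^ (orderOf x / r) with hx'
  have hox' : orderOf x' = r := orderOf_pow_orderOf_div (orderOf_pos x).ne' hrd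
  have hx'M : x' ∈ M := Subgroup.pow_mem _ hx _
  have hrM : r ∣ Nat.card M := by
    have := orderOf_dvd_natCard (⟨x', hx'M⟩ : M)
    rwa [Subgroup.orderOf_mk, hox'] at this
  have hrN : ¬ r ∣ N.index := by
    intro hc
    have : r ∣ Nat.gcd N.index (Nat.card M) := Nat.dvd_gcd hc hrM
    rw [hcop] at this
    exact hrp.one_lt.ne' (Nat.dvd_one.mp this)
  obtain ⟨u, v, hguv, huv, ⟨k, hk⟩, hvcop, hu, hv⟩ := exists_p_decomp r g
  have huN : u ∈ N := mem_of_pow_of_coprime_index N r hrp hrN u k hk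
  have hvN : v ∉ N := by
    intro hvN
    apply hgN
    rw [hguv]
    exact Subgroup.mul_mem _ huN hvN
  have hvx' : Commute v x' := by
    have h1 : Commute g x := hgx.symm
    have h2 : Commute g x' := h1.pow_right _
    obtain ⟨i, hi⟩ := Subgroup.mem_zpowers_iff.mp hv
    rw [← hi]
    exact h2.zpow_left i
  obtain ⟨z, hz⟩ := hcam v hvN x' hx'M
  have h3 : orderOf (v * x') = orderOf v := by
    rw [← hz]
    exact (MulAut.conj z).orderOf_eq v
  rw [hvx'.orderOf_mul_eq_mul_orderOf_of_coprime (by rw [hox']; exact hvcop), hox'] at h3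
  have hpos : 0 < orderOf v := orderOf_pos v
  have : r = 1 := by
    have h4 : orderOf v * r = orderOf v * 1 := by rw [h3, mul_one]
    exact Nat.eq_of_mul_eq_mul_left hpos h4
  exact hrp.one_lt.ne' this

theorem partB {G : Type*} [Group G] [Finite G] (N M : Subgroup G) [N.Normal] [M.Normal]
    (hcop : N.index.Coprime (Nat.card M)) :
    ∃ H : Subgroup G, H ⊔ N = ⊤ ∧ H ⊓ M = ⊥ := by
  classical
  have hNn : N.Normal := inferInstance
  obtain ⟨H, hH, hmin⟩ := Set.exists_min_image {H : Subgroup G | H ⊔ N = ⊤}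
    (fun H => Nat.card H) (Set.toFinite _) ⟨⊤, by simp⟩
  have hH' : H ⊔ N = ⊤ := hH
  have hmin' : ∀ H' : Subgroup G, H' ⊔ N = ⊤ → H' ≤ H → H' = H := by
    intro H' h1 h2
    exact Subgroup.eq_of_le_of_card_ge h2 (hmin H' h1)
  refine ⟨H, hH', ?_⟩
  by_contra hne
  have hcard1 : Nat.card (H ⊓ M : Subgroup G) ≠ 1 := by
    intro h; exact hne (Subgroup.card_eq_one.mp h)
  obtain ⟨r, hr, hrd⟩ := Nat.exists_prime_and_dvd hcard1
  haveI : Fact r.Prime := ⟨hr⟩
  have hrM : r ∣ Nat.card M := hrd.trans (Subgroup.card_dvd_of_le inf_le_right)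
  have hrH : r ∣ Nat.card H := hrd.trans (Subgroup.card_dvd_of_le inf_le_left)
  have hrN : ¬ r ∣ N.index := by
    intro hc
    have : r ∣ Nat.gcd N.index (Nat.card M) := Nat.dvd_gcd hc hrM
    rw [hcop] at this
    exact hr.one_lt.ne' (Nat.dvd_one.mp this)
  -- inside H
  have hidx : (N.subgroupOf H).index = N.index := by
    have h1 : N.relIndex (H ⊔ N) = N.relIndex H := Subgroup.relIndex_sup_right H N
    rw [hH', Subgroup.relIndex_top_right] at h1
    exact h1.symm
  have hL : ∀ Y : Subgroup H, Y ⊔ N.subgroupOf H = ⊤ → Y = ⊤ := by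
    intro Y hY
    have h1 : Y.map H.subtype ⊔ N = ⊤ := by
      rw [eq_top_iff, ← hH']
      apply sup_le _ le_sup_right
      intro h hh
      have h2 : (⟨h, hh⟩ : H) ∈ Y ⊔ N.subgroupOf H := by rw [hY]; trivial
      obtain ⟨y, hy, n, hn, hyn⟩ := Subgroup.mem_sup_of_normal_right.mp h2
      have h3 : (y : G) * (n : G) = h := congrArg Subtype.val hyn
      rw [← h3]
      exact Subgroup.mul_mem _ (Subgroup.mem_sup_left ⟨y, hy, rfl⟩)
        (Subgroup.mem_sup_right (Subgroup.mem_subgroupOf.mp hn))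
    have h4 := hmin' _ h1 (Subgroup.map_subtype_le Y)
    rw [eq_top_iff]
    intro h _
    have h5 : (h : G) ∈ Y.map H.subtype := by rw [h4]; exact h.2
    obtain ⟨y, hy, hyh⟩ := h5
    have : y = h := Subtype.ext hyh
    rw [← this]; exact hy
  obtain ⟨S⟩ : Nonempty (Sylow r H) := inferInstance
  have hSle : (S : Subgroup H) ≤ N.subgroupOf H := by
    intro s hs
    obtain ⟨k, hk⟩ := S.2 ⟨s, hs⟩
    have hk' : s ^ (r ^ k) = 1 := by simpa using congrArg Subtype.val hk
    exact mem_of_pow_of_coprime_index (N.subgroupOf H) r hr (by rw [hidx]; exact hrN) s k hk'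
  have hSn : (S : Subgroup H).Normal := by
    rw [← Subgroup.normalizer_eq_top_iff]
    apply hL
    exact Sylow.normalizer_sup_eq_top' S hSle
  haveI := hSn
  have hcopS : Nat.Coprime (Nat.card (S : Subgroup H)) (S : Subgroup H).index := by
    obtain ⟨m, hm⟩ := IsPGroup.iff_card.mp S.2
    rw [hm]
    exact Nat.Coprime.pow_left m ((Nat.Prime.coprime_iff_not_dvd hr).mpr S.not_dvd_index)
  obtain ⟨T, hT⟩ := Subgroup.exists_right_complement'_of_coprime hcopS
  have hTtop : T = ⊤ := by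
    apply hL
    rw [eq_top_iff, ← hT.sup_eq_top, sup_comm]
    exact sup_le_sup_left hSle T
  have hSbot : (S : Subgroup H) = ⊥ := by
    have := hT.disjoint.eq_bot
    rwa [hTtop, inf_top_eq] at this
  exact S.ne_bot_of_dvd_card hrH hSbot

/-- Let G be a finite group and M ≤ N non-trivial proper normal subgroups such that for every g outside N the conjugacy class of g is a union of cosets of M (equivalently gm is conjugate to g for every m ∈ M). Then (1) and (2) below are equivalent, and they imply (3): (1) every g outside N acts fixed-point-freely on M, that is C_G(x) ≤ N for every x ∈ M, x ≠ 1; (2) the index of N in G is coprime to the order of M; (3) there is a subgroup H of G with HN = G and H ∩ M = 1. -/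
theorem result {G : Type*} [Group G] [Finite G] (N M : Subgroup G) [N.Normal] [M.Normal] (hMN : M ≤ N) (hM1 : M ≠ ⊥) (hN2 : N ≠ ⊤)
    (hcam : ∀ g : G, g ∉ N → ∀ m ∈ M, ∃ x : G, x * g * x⁻¹ = g * m) :
    ((∀ x ∈ M, x ≠ 1 → Subgroup.centralizer ({x} : Set G) ≤ N) ↔ N.index.Coprime (Nat.card M)) ∧
    ((∀ x ∈ M, x ≠ 1 → Subgroup.centralizer ({x} : Set G) ≤ N) → ∃ H : Subgroup G, H ⊔ N = ⊤ ∧ H ⊓ M = ⊥) :=
  ⟨⟨partA_mp N M, partA_mpr N M hcam⟩, fun h => partB N M (partA_mp N M h)⟩

end Cfsg.Agent.S4112
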