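import Cfsg.Statements.S4115
import Cfsg.Agent.Lib.helper1.TIHall4

set_option autoImplicit false
universe u
open Cfsg

namespace Cfsg.Agent.S4115

open Cfsg.Agent.Lib.helper1
open scoped Pointwise

/-- Normalizers grow in `p`-groups. -/
theorem norm_grow {G : Type*} [Group G] [Finite G] {p : ℕ} [Fact p.Prime] {S A : Subgroup G}
    (hS : IsPGroup p S) (hAS : A ≤ S) (hne : A ≠ S) :
    ∃ x ∈ S, x ∈ Subgroup.normalizer (A : Set G) ∧ x ∉ A := by
  have : Group.IsNilpotent S := hS.isNilpotent
  have hnc : NormalizerCondition S := Group.normalizerCondition_of_isNilpotent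
  have hlt : A.subgroupOf S < ⊤ := by
    rw [lt_top_iff_ne_top]
    intro h
    rw [Subgroup.subgroupOf_eq_top] at h
    exact hne (le_antisymm hAS h)
  have h2 := hnc _ hlt
  obtain ⟨x, hxN, hxA⟩ := SetLike.exists_of_lt h2
  refine ⟨x, x.2, ?_, fun h => hxA (by rw [Subgroup.mem_subgroupOf]; exact h)⟩
  rw [Subgroup.mem_normalizer_iff] at hxN ⊢
  intro a
  constructor
  · intro ha
    have := (hxN ⟨a, hAS ha⟩).1 (by rw [Subgroup.mem_subgroupOf]; exact ha)
    rw [Subgroup.mem_subgroupOf] at this
    exact this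
  · intro ha
    have haS : a ∈ S := by
      have h3 : (x : G)⁻¹ * ((x : G) * a * (x : G)⁻¹) * (x : G) = a := by group
      rw [← h3]
      exact S.mul_mem (S.mul_mem (S.inv_mem x.2) (hAS ha)) x.2
    have := (hxN ⟨a, haS⟩).2 (by rw [Subgroup.mem_subgroupOf]; exact ha)
    rw [Subgroup.mem_subgroupOf] at this
    exact this

/-- `G`-level data from a normal complement in the normalizer. -/
theorem glevel {G : Type u} [Group G] [Finite G] (H : Subgroup G)
    (hHall : (Nat.card H).Coprime (H.subgroupOf (Subgroup.normalizer (H : Set G))).index)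
    (Ks : Subgroup (Subgroup.normalizer (H : Set G))) (hKn : Ks.Normal)
    (hKc : Ks.IsComplement' (H.subgroupOf (Subgroup.normalizer (H : Set G)))) :
    ∃ K : Subgroup G, K ≤ Subgroup.normalizer (H : Set G) ∧
      Subgroup.normalizer (H : Set G) ≤ Subgroup.normalizer (K : Set G) ∧ K ⊓ H = ⊥ ∧
      Nat.card K * Nat.card H = Nat.card (Subgroup.normalizer (H : Set G)) ∧
      (Nat.card H).Coprime (Nat.card K) := by
  have hHM : H ≤ Subgroup.normalizer (H : Set G) := Subgroup.le_normalizer
  refine ⟨Ks.map (Subgroup.normalizer (H : Set G)).subtype, Subgroup.map_subtype_le _, ?_, ?_,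
    ?_, ?_⟩
  · intro m hm
    rw [Subgroup.mem_normalizer_iff]
    intro x
    constructor
    · intro hx
      obtain ⟨k, hk, rfl⟩ := Subgroup.mem_map.mp hx
      exact Subgroup.mem_map.mpr ⟨⟨m, hm⟩ * k * ⟨m, hm⟩⁻¹, hKn.conj_mem k hk _, rfl⟩
    · intro hx
      obtain ⟨k, hk, hkx⟩ := Subgroup.mem_map.mp hx
      refine Subgroup.mem_map.mpr ⟨⟨m, hm⟩⁻¹ * k * ⟨m, hm⟩, ?_, ?_⟩
      · have := hKn.conj_mem k hk ⟨m, hm⟩⁻¹
        simpa using this
      · change m⁻¹ * (k : G) * m = x
        have : (k : G) = m * x * m⁻¹ := hkx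
        rw [this]; group
  · rw [eq_bot_iff]
    intro x hx
    obtain ⟨hxK, hxH⟩ := Subgroup.mem_inf.mp hx
    obtain ⟨k, hk, rfl⟩ := Subgroup.mem_map.mp hxK
    have h1 : k ∈ H.subgroupOf (Subgroup.normalizer (H : Set G)) :=
      Subgroup.mem_subgroupOf.mpr hxH
    have h2 := Subgroup.disjoint_def.mp hKc.disjoint hk h1
    rw [Subgroup.mem_bot, h2]; rfl
  · have h1 := hKc.card_mul_card
    rw [Subgroup.card_map_of_injective (Subgroup.subtype_injective _)]
    rw [← h1, Nat.card_congr (Subgroup.subgroupOfEquivOfLe hHM).toEquiv]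
  · rw [Subgroup.card_map_of_injective (Subgroup.subtype_injective _)]
    have : (H.subgroupOf (Subgroup.normalizer (H : Set G))).index = Nat.card Ks :=
      hKc.index_eq_card
    rw [← this]
    exact hHall

/-- Let G be a finite group and H a subgroup that meets each of its conjugates by elements outside N_G(H) trivially and whose order is coprime to its index in N_G(H). Then H has a normal complement in N_G(H) if and only if H has a normal complement in G. Moreover, if H is not normal in G and has a normal complement in N_G(H), then H is isomorphic to a Frobenius complement of some finite Frobenius group. -/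
theorem result {G : Type u} [Group G] [Finite G] (H : Subgroup G)
    (hTI : Cfsg.IsTISubset (H : Set G)) (hHall : (Nat.card H).Coprime (H.subgroupOf (Subgroup.normalizer (H : Set G))).index) :
    ((∃ K : Subgroup (Subgroup.normalizer (H : Set G)), K.Normal ∧ K.IsComplement' (H.subgroupOf (Subgroup.normalizer (H : Set G)))) ↔
      (∃ N : Subgroup G, N.Normal ∧ N.IsComplement' H)) ∧
    (¬ H.Normal → (∃ K : Subgroup (Subgroup.normalizer (H : Set G)), K.Normal ∧ K.IsComplement' (H.subgroupOf (Subgroup.normalizer (H : Set G)))) →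
      ∃ (F : Type u) (_ : Group F) (_ : Finite F) (C : Subgroup F), Cfsg.IsFrobeniusComplement C ∧ Nonempty (H ≃* C)) := by
  have hTI' : ∀ g : G, g ∉ Subgroup.normalizer (H : Set G) → ∀ x ∈ H, g * x * g⁻¹ ∈ H → x = 1 :=
    hTI
  have hHM : H ≤ Subgroup.normalizer (H : Set G) := Subgroup.le_normalizer
  refine ⟨⟨?_, ?_⟩, ?_⟩
  · rintro ⟨Ks, hKn, hKc⟩
    by_cases hHne : H = ⊥
    · refine ⟨⊤, inferInstance, ?_⟩
      rw [hHne]
      exact Subgroup.isComplement'_top_bot
    · obtain ⟨K, hKM, hMK, hdisj, hcard, hcop⟩ := glevel H hHall Ks hKn hKc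
      obtain ⟨N, hNn, hNc, -, -⟩ :=
        ti_hall_complement H K hTI' hHne hKM hMK hdisj hcard hcop
      exact ⟨N, hNn, hNc⟩
  · rintro ⟨N, hNn, hNc⟩
    haveI := hNn
    refine ⟨N.subgroupOf (Subgroup.normalizer (H : Set G)), inferInstance, ?_⟩
    apply Subgroup.isComplement'_of_disjoint_and_mul_eq_univ
    · rw [Subgroup.disjoint_def]
      intro x hxN hxH
      have h1 := Subgroup.disjoint_def.mp hNc.disjoint (Subgroup.mem_subgroupOf.mp hxN)
        (Subgroup.mem_subgroupOf.mp hxH)
      exact Subtype.ext h1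
    · apply Set.eq_univ_of_forall
      intro m
      have h1 : (m : G) ∈ (N : Set G) * (H : Set G) := by
        have := hNc.mul_eq
        rw [this]; trivial
      obtain ⟨n, hn, h, hh, hnh⟩ := Set.mem_mul.mp h1
      have hnM : n ∈ Subgroup.normalizer (H : Set G) := by
        have e : n = (m : G) * h⁻¹ := by rw [← hnh]; group
        rw [e]
        exact Subgroup.mul_mem _ m.2 (Subgroup.inv_mem _ (hHM hh))
      refine Set.mem_mul.mpr ⟨⟨n, hnM⟩, Subgroup.mem_subgroupOf.mpr hn, ⟨h, hHM hh⟩,
        Subgroup.mem_subgroupOf.mpr hh, Subtype.ext hnh⟩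
  · intro hnn hK
    have hHne : H ≠ ⊥ := by
      intro h
      apply hnn
      rw [h]
      infer_instance
    obtain ⟨Ks, hKn, hKc⟩ := hK
    obtain ⟨K, hKM, hMK, hdisj, hcard, hcop⟩ := glevel H hHall Ks hKn hKc
    obtain ⟨N, hNn, hNc, hNMK, hconj⟩ :=
      ti_hall_complement H K hTI' hHne hKM hMK hdisj hcard hcop
    haveI := hNn
    have hcopG : (Nat.card H).Coprime H.index :=
      ti_hall_coprime H hTI' (Nat.card K) (by rw [mul_comm]; exact hcard) hcop
    have hNcard : H.index = Nat.card N := hNc.index_eq_card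
    have hcopN : (Nat.card H).Coprime (Nat.card N) := hNcard ▸ hcopG
    have hKN : K ≤ N := by rw [← hNMK]; exact inf_le_left
    have hKneN : K ≠ N := by
      intro h
      apply hnn
      have hNM : N ≤ Subgroup.normalizer (H : Set G) := h ▸ hKM
      have hMtop : Subgroup.normalizer (H : Set G) = ⊤ := by
        rw [eq_top_iff, ← hNc.sup_eq_top]
        exact sup_le hNM hHM
      exact Subgroup.normalizer_eq_top_iff.mp hMtop
    obtain ⟨m, hm⟩ := Subgroup.card_dvd_of_le hKN
    have hm1 : m ≠ 1 := by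
      intro h
      rw [h, mul_one] at hm
      exact hKneN (Subgroup.eq_of_le_of_card_ge hKN hm.le)
    obtain ⟨r, hr, hrm⟩ := Nat.exists_prime_and_dvd hm1
    haveI : Fact r.Prime := ⟨hr⟩
    obtain ⟨R, hRN, hRp, hHR, hRcard⟩ :=
      ti_hall_invariant_sylow H K N hTI' hcard hcop hcopN hconj hNc r
    have hRK : ¬ R ≤ K := by
      intro hle
      have h1 : r ^ (Nat.card N).factorization r ∣ Nat.card K :=
        hRcard ▸ Subgroup.card_dvd_of_le hle
      have h2 : r ^ ((Nat.card N).factorization r + 1) ∣ Nat.card N := by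
        have h3 : r ^ (Nat.card N).factorization r * r ∣ Nat.card K * m := Nat.mul_dvd_mul h1 hrm
        rw [← hm] at h3
        rw [pow_succ]
        exact h3
      exact Nat.pow_succ_factorization_not_dvd Nat.card_pos.ne' hr h2
    obtain ⟨D, hD⟩ : ∃ D : Subgroup G, D = R ⊓ K := ⟨_, rfl⟩
    obtain ⟨U, hU⟩ : ∃ U : Subgroup G, U = R ⊓ Subgroup.normalizer (D : Set G) := ⟨_, rfl⟩
    have hDR : D ≤ R := hD ▸ inf_le_left
    have hUR : U ≤ R := hU ▸ inf_le_left
    have hUD : U ≤ Subgroup.normalizer (D : Set G) := hU ▸ inf_le_right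
    have hDU : D ≤ U := hU ▸ le_inf hDR Subgroup.le_normalizer
    have hHK : H ≤ Subgroup.normalizer (K : Set G) := hHM.trans hMK
    have hHD : H ≤ Subgroup.normalizer (D : Set G) := by
      rw [hD]
      exact (le_inf hHR hHK).trans Subgroup.inf_normalizer_le_normalizer_inf
    have hHU : H ≤ Subgroup.normalizer (U : Set G) := by
      rw [hU]
      exact (le_inf hHR (hHD.trans Subgroup.le_normalizer)).trans
        Subgroup.inf_normalizer_le_normalizer_inf
    have hne : D ≠ U := by
      have hDneR : D ≠ R := by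
        intro h
        apply hRK
        rw [← h, hD]
        exact inf_le_right
      obtain ⟨x, hxR, hxN, hxD⟩ := norm_grow hRp hDR hDneR
      intro h
      apply hxD
      rw [h, hU]
      exact Subgroup.mem_inf.mpr ⟨hxR, hxN⟩
    have hcopU : (Nat.card H).Coprime (Nat.card U) :=
      Nat.Coprime.coprime_dvd_right (Subgroup.card_dvd_of_le (hUR.trans hRN)) hcopN
    have hfix : ∀ h ∈ H, h ≠ 1 → ∀ u ∈ U, h * u = u * h → u ∈ D := by
      intro h hh hh1 u hu hcomm
      have huR : u ∈ R := hUR hu
      have huM : u ∈ Subgroup.normalizer (H : Set G) := by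
        by_contra hcon
        apply hh1
        apply hTI' u hcon h hh
        rw [← hcomm, mul_inv_cancel_right]
        exact hh
      have huK : u ∈ K := by
        rw [← hNMK]
        exact Subgroup.mem_inf.mpr ⟨hRN huR, huM⟩
      rw [hD]
      exact Subgroup.mem_inf.mpr ⟨huR, huK⟩
    exact frob_compl_of_section H U D hHne hDU hne hUD hHU hHD hcopU hfix

end Cfsg.Agent.S4115
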