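import Cfsg.Statements.S4116
import Cfsg.Agent.Lib.helper20.FixedPoint

set_option autoImplicit false
open Cfsg

namespace Cfsg.Agent.S4116

open Cfsg.Agent.Lib.helper20

/-- Let G be a finite group with a subgroup H whose order is coprime to its index (a Hall subgroup) and which meets each of its conjugates by elements outside N_G(H) trivially. Then every subgroup of G whose order is divisible only by primes dividing the order of H lies in a conjugate of H. -/
theorem result {G : Type*} [Group G] [Finite G] (H : Subgroup G)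
    (hHall : (Nat.card H).Coprime H.index) (hTI : Cfsg.IsTISubset (H : Set G))
    (K : Subgroup G) (hK : ∀ q : ℕ, q.Prime → q ∣ Nat.card K → q ∣ Nat.card H) :
    ∃ g : G, K ≤ H.map (MulAut.conj g).toMonoidHom := by
  have hcopK : (Nat.card K).Coprime H.index := by
    by_contra hnc
    obtain ⟨r, hr, h1, h2⟩ := Nat.Prime.not_coprime_iff_dvd.mp hnc
    have h3 := hK r hr h1
    have h4 := Nat.dvd_gcd h3 h2
    rw [hHall] at h4
    exact hr.one_lt.ne' (Nat.dvd_one.mp h4)
  have hmem : ∀ y : G, y ∈ Subgroup.normalizer (H : Set G) → y ^ (Nat.card K) = 1 → y ∈ H := by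
    intro y hy hyK
    have hnorm : (H.subgroupOf (Subgroup.normalizer (H : Set G))).Normal :=
      Subgroup.normal_in_normalizer
    have h1 := Subgroup.pow_index_mem (H.subgroupOf (Subgroup.normalizer (H : Set G)))
      (⟨y, hy⟩ : Subgroup.normalizer (H : Set G))
    have h2 : y ^ (H.relIndex (Subgroup.normalizer (H : Set G))) ∈ H := by
      rw [Subgroup.mem_subgroupOf] at h1
      exact h1
    have h3 : (H.relIndex (Subgroup.normalizer (H : Set G))).Coprime (orderOf y) := by
      have hd1 : H.relIndex (Subgroup.normalizer (H : Set G)) ∣ H.index :=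
        Subgroup.relIndex_dvd_index_of_le Subgroup.le_normalizer
      have hd2 : orderOf y ∣ Nat.card K := orderOf_dvd_of_pow_eq_one hyK
      exact Nat.Coprime.coprime_dvd_left hd1 (Nat.Coprime.coprime_dvd_right hd2 hcopK.symm)
    obtain ⟨m, hm⟩ := exists_pow_eq_self_of_coprime h3
    rw [← hm]; exact H.pow_mem h2 m
  have hconj : ∀ k : G, k ∈ K → ∀ g : G,
      (QuotientGroup.mk (k * g) : G ⧸ Subgroup.normalizer (H : Set G)) = QuotientGroup.mk g →
      g⁻¹ * k * g ∈ H := by
    intro k hk g hkg
    have h1 : (k * g)⁻¹ * g ∈ Subgroup.normalizer (H : Set G) := QuotientGroup.eq.mp hkg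
    have hkK : k ^ (Nat.card K) = 1 := by
      have := pow_card_eq_one' (G := K) (x := ⟨k, hk⟩)
      exact congrArg Subtype.val this
    have h2 : ((k * g)⁻¹ * g) ^ (Nat.card K) = 1 := by
      have e : (k * g)⁻¹ * g = g⁻¹ * k⁻¹ * g⁻¹⁻¹ := by group
      rw [e, conj_pow, inv_pow, hkK]; group
    have h3 := hmem _ h1 h2
    have e : g⁻¹ * k * g = ((k * g)⁻¹ * g)⁻¹ := by group
    rw [e]; exact H.inv_mem h3
  have hcopΩ : (Nat.card K).Coprime (Nat.card (G ⧸ Subgroup.normalizer (H : Set G))) := by
    have e : Nat.card (G ⧸ Subgroup.normalizer (H : Set G)) =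
        (Subgroup.normalizer (H : Set G)).index := rfl
    rw [e]
    exact Nat.Coprime.coprime_dvd_right (Subgroup.index_dvd_of_le Subgroup.le_normalizer) hcopK
  have hfp := exists_fixed_point_of_coprime (K := K)
    (Ω := G ⧸ Subgroup.normalizer (H : Set G)) hcopΩ (by
    intro k hk a b ha hb
    induction a using QuotientGroup.induction_on with
    | H a =>
      induction b using QuotientGroup.induction_on with
      | H b =>
        have hxa := hconj k k.2 a ha
        have hxb := hconj k k.2 b hb
        have hne : a⁻¹ * (k : G) * a ≠ 1 := by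
          intro h1
          apply hk
          apply Subtype.ext
          have : (k : G) = a * (a⁻¹ * (k : G) * a) * a⁻¹ := by group
          rw [this, h1]; simp
        have hN : b⁻¹ * a ∈ Subgroup.normalizer (H : Set G) := by
          by_contra hnot
          apply hne
          apply hTI (b⁻¹ * a) hnot _ hxa
          have e : b⁻¹ * a * (a⁻¹ * (k : G) * a) * (b⁻¹ * a)⁻¹ = b⁻¹ * (k : G) * b := by group
          rw [e]; exact hxb
        exact (QuotientGroup.eq.mpr hN).symm)
  obtain ⟨ω, hω⟩ := hfp
  induction ω using QuotientGroup.induction_on with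
  | H g =>
    refine ⟨g, fun k hk => ?_⟩
    have h1 := hconj k hk g (hω ⟨k, hk⟩)
    refine Subgroup.mem_map.mpr ⟨g⁻¹ * k * g, h1, ?_⟩
    simp only [MulEquiv.coe_toMonoidHom, MulAut.conj_apply]
    group

end Cfsg.Agent.S4116
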