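import Cfsg.Statements.S4117
import Cfsg.Agent.Lib.helper20.ClassSize
import Cfsg.Agent.Lib.helper20.Wielandt

set_option autoImplicit false
open Cfsg

namespace Cfsg.Agent.S4117

open Cfsg.Agent.Lib.helper20
open scoped Pointwise

/-- Vanishing of the first cohomology for a coprime action on an abelian group. -/
theorem crossed_hom {K A : Type*} [CommGroup K] [Finite K] [Group A] [Fintype A]
    [MulDistribMulAction A K] (hcop : (Nat.card A).Coprime (Nat.card K))
    (κ : A → K) (hκ : ∀ a b : A, κ (a * b) = κ a * a • κ b) :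
    ∃ d : K, ∀ a : A, κ a = d * (a • d)⁻¹ := by
  classical
  have h1 : ∀ a : A, a • (∏ b : A, κ b) = (κ a)⁻¹ ^ (Nat.card A) * ∏ b : A, κ b := by
    intro a
    have h2 : a • (∏ b : A, κ b) = ∏ b : A, a • κ b :=
      map_prod (MulDistribMulAction.toMonoidHom K a) _ _
    rw [h2]
    have h3 : ∀ b : A, a • κ b = (κ a)⁻¹ * κ (a * b) := by
      intro b; rw [hκ a b, inv_mul_cancel_left]
    simp_rw [h3]
    rw [Finset.prod_mul_distrib, Finset.prod_const, Finset.card_univ, ← Nat.card_eq_fintype_card]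
    congr 1
    exact Fintype.prod_equiv (Equiv.mulLeft a) _ _ (fun b => rfl)
  obtain ⟨d, hd⟩ := (powCoprime hcop.symm).surjective (∏ b : A, κ b)
  have hd' : d ^ (Nat.card A) = ∏ b : A, κ b := hd
  refine ⟨d, fun a => ?_⟩
  have h4 : (a • d) ^ (Nat.card A) = ((κ a)⁻¹ * d) ^ (Nat.card A) := by
    rw [← smul_pow', hd', h1 a, mul_pow, hd']
  have h5 : a • d = (κ a)⁻¹ * d := (powCoprime hcop.symm).injective h4
  rw [h5, mul_inv_rev, inv_inv, mul_inv_cancel_left]

/-- A fixed element of an abelian group generated by norm-one elements is trivial. -/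
theorem fixed_eq_one {K A : Type*} [CommGroup K] [Finite K] [Group A] [Fintype A]
    [MulDistribMulAction A K] (hcop : (Nat.card A).Coprime (Nat.card K))
    (T : Set K) (hT : Subgroup.closure T = ⊤)
    (hprod : ∀ t ∈ T, ∏ a : A, a • t = 1)
    (x : K) (hx : ∀ a : A, a • x = x) : x = 1 := by
  classical
  have hν : ∀ k : K, (∏ a : A, MulDistribMulAction.toMonoidHom K a) k = ∏ a : A, a • k := by
    intro k
    rw [MonoidHom.finsetProd_apply]
    rfl
  have h1 : (∏ a : A, MulDistribMulAction.toMonoidHom K a) = 1 := by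
    apply MonoidHom.eq_of_eqOn_dense hT
    intro t ht
    rw [hν t, hprod t ht]; rfl
  have h2 : x ^ (Fintype.card A) = 1 := by
    have := hν x
    rw [h1] at this
    simp only [hx, Finset.prod_const, Finset.card_univ] at this
    exact this.symm
  have h3 : orderOf x ∣ Nat.card A := by
    rw [Nat.card_eq_fintype_card]; exact orderOf_dvd_of_pow_eq_one h2
  have h4 : orderOf x ∣ Nat.card K := orderOf_dvd_natCard x
  have := Nat.dvd_gcd h3 h4
  rw [hcop.gcd_eq_one] at this
  exact orderOf_eq_one_iff.mp (Nat.dvd_one.mp this)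

/-- Let A be a finite group acting on the finite group G by automorphisms with the orders of A and G coprime, and suppose every Sylow subgroup of G is cyclic. Then the fixed-point subgroup C_G(A) is a Hall subgroup of G (its order is coprime to its index), the subgroup [G, A] generated by the elements g⁻¹·a(g) is cyclic and normal with [G, A] ∩ C_G(A) = 1 and [G, A]·C_G(A) = G. -/
theorem result {G A : Type*} [Group G] [Finite G] [Group A] [Finite A]
    [MulDistribMulAction A G] (hcop : (Nat.card A).Coprime (Nat.card G))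
    (hcyc : ∀ (p : ℕ) [Fact p.Prime] (P : Sylow p G), IsCyclic (P : Subgroup G)) :
    (Nat.card (MulAction.fixedPoints A G : Set G)).Coprime (Nat.card G / Nat.card (MulAction.fixedPoints A G : Set G)) ∧
    IsCyclic (Subgroup.closure {y : G | ∃ (a : A) (g : G), y = g⁻¹ * a • g}) ∧
    (Subgroup.closure {y : G | ∃ (a : A) (g : G), y = g⁻¹ * a • g}).Normal ∧
    (Subgroup.closure {y : G | ∃ (a : A) (g : G), y = g⁻¹ * a • g} : Set G) ∩ MulAction.fixedPoints A G = {1} ∧
    Subgroup.closure {y : G | ∃ (a : A) (g : G), y = g⁻¹ * a • g} ⊔ Subgroup.closure (MulAction.fixedPoints A G) = ⊤ := by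
  classical
  haveI : Fintype A := Fintype.ofFinite A
  haveI hZ : IsZGroup G := ⟨fun p hp P => by haveI : Fact p.Prime := ⟨hp⟩; exact hcyc p P⟩
  set S : Set G := {y : G | ∃ (a : A) (g : G), y = g⁻¹ * a • g} with hS
  set K := Subgroup.closure S with hK
  have hNcyc : IsCyclic (commutator G) := IsZGroup.isCyclic_commutator G
  have hNinv : ∀ (a : A) (n : G), n ∈ commutator G → a • n ∈ commutator G := by
    intro a n hn
    have h1 : Subgroup.map (MulDistribMulAction.toMonoidHom G a) (commutator G) ≤ commutator G := by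
      rw [commutator_def, Subgroup.map_commutator]
      exact Subgroup.commutator_mono le_top le_top
    exact h1 ⟨n, hn, rfl⟩
  obtain ⟨z, hz⟩ := hNcyc.exists_generator
  have hzpow : ∀ n ∈ commutator G, ∃ k : ℤ, (z : G) ^ k = n := by
    intro n hn
    obtain ⟨k, hk⟩ := Subgroup.mem_zpowers_iff.mp (hz ⟨n, hn⟩)
    exact ⟨k, by have := congrArg Subtype.val hk; simpa using this⟩
  have hNnorm : (commutator G).Normal := inferInstance
  have hcomm_z : ∀ (a : A) (g : G), (g⁻¹ * a • g) * (z : G) = (z : G) * (g⁻¹ * a • g) := by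
    intro a g
    obtain ⟨i, hi⟩ := hzpow (a⁻¹ • (z : G)) (hNinv a⁻¹ _ z.2)
    obtain ⟨j, hj⟩ := hzpow (g * (z : G) * g⁻¹) (hNnorm.conj_mem _ z.2 g)
    have h1 : (a • g) * (z : G) * (a • g)⁻¹ = g * (z : G) * g⁻¹ := by
      have h2 : (a • g) * (z : G) * (a • g)⁻¹ = a • (g * (a⁻¹ • (z : G)) * g⁻¹) := by
        rw [smul_mul', smul_mul', smul_inv', smul_smul, mul_inv_cancel, one_smul]
      rw [h2, ← hi]
      have h3 : g * (z : G) ^ i * g⁻¹ = (g * (z : G) * g⁻¹) ^ i := by
        rw [conj_zpow]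
      rw [h3, ← hj, ← zpow_mul, mul_comm, zpow_mul, smul_zpow', hi, smul_smul, mul_inv_cancel,
        one_smul]
    calc g⁻¹ * a • g * (z : G) = g⁻¹ * ((a • g) * (z : G) * (a • g)⁻¹) * (a • g) := by group
      _ = g⁻¹ * (g * (z : G) * g⁻¹) * (a • g) := by rw [h1]
      _ = (z : G) * (g⁻¹ * a • g) := by group
  have hS_F : ∀ y ∈ S, y ∈ Subgroup.centralizer ((commutator G : Subgroup G) : Set G) := by
    rintro y ⟨a, g, rfl⟩
    rw [Subgroup.mem_centralizer_iff]
    intro n hn
    obtain ⟨k, hk⟩ := hzpow n hn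
    rw [← hk]
    exact ((Commute.zpow_left (show Commute (z : G) (g⁻¹ * a • g) from (hcomm_z a g).symm) k)).eq
  have hKF : K ≤ Subgroup.centralizer ((commutator G : Subgroup G) : Set G) := by
    rw [hK, Subgroup.closure_le]; exact hS_F
  have hFcomm : ∀ x ∈ Subgroup.centralizer ((commutator G : Subgroup G) : Set G),
      ∀ y ∈ Subgroup.centralizer ((commutator G : Subgroup G) : Set G), x * y = y * x := by
    haveI : IsCyclic (Abelianization G) := inferInstance
    obtain ⟨τ, hτ⟩ := IsCyclic.exists_generator (α := Abelianization G)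
    obtain ⟨t, rfl⟩ := QuotientGroup.mk_surjective τ
    have hdecomp : ∀ x : G, ∃ (i : ℤ) (n : G), n ∈ commutator G ∧ x = t ^ i * n := by
      intro x
      obtain ⟨i, hi⟩ := Subgroup.mem_zpowers_iff.mp (hτ (Abelianization.of x))
      refine ⟨i, (t ^ i)⁻¹ * x, ?_, by group⟩
      rw [← Abelianization.ker_of, MonoidHom.mem_ker, map_mul, map_inv, map_zpow]
      have hi' : (Abelianization.of t) ^ i = Abelianization.of x := hi
      rw [hi', inv_mul_cancel]
    have hNF : ∀ n ∈ commutator G,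
        n ∈ Subgroup.centralizer ((commutator G : Subgroup G) : Set G) := by
      intro n hn
      rw [Subgroup.mem_centralizer_iff]
      intro n' hn'
      obtain ⟨k, hk⟩ := hzpow n hn
      obtain ⟨k', hk'⟩ := hzpow n' hn'
      rw [← hk, ← hk', ← zpow_add, ← zpow_add, add_comm]
    intro x hx y hy
    obtain ⟨i, n₁, hn₁, rfl⟩ := hdecomp x
    obtain ⟨j, n₂, hn₂, rfl⟩ := hdecomp y
    have hti : t ^ i ∈ Subgroup.centralizer ((commutator G : Subgroup G) : Set G) := by
      have : t ^ i = (t ^ i * n₁) * n₁⁻¹ := by group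
      rw [this]; exact Subgroup.mul_mem _ hx (Subgroup.inv_mem _ (hNF n₁ hn₁))
    have htj : t ^ j ∈ Subgroup.centralizer ((commutator G : Subgroup G) : Set G) := by
      have : t ^ j = (t ^ j * n₂) * n₂⁻¹ := by group
      rw [this]; exact Subgroup.mul_mem _ hy (Subgroup.inv_mem _ (hNF n₂ hn₂))
    rw [Subgroup.mem_centralizer_iff] at hti htj
    have e1 := htj n₁ hn₁
    have e2 := hti n₂ hn₂
    have e3 : n₁ * n₂ = n₂ * n₁ := by
      have := hNF n₂ hn₂
      rw [Subgroup.mem_centralizer_iff] at this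
      exact this n₁ hn₁
    have e4 : t ^ i * t ^ j = t ^ j * t ^ i := by rw [← zpow_add, ← zpow_add, add_comm]
    calc t ^ i * n₁ * (t ^ j * n₂) = t ^ i * (n₁ * t ^ j) * n₂ := by group
      _ = t ^ i * (t ^ j * n₁) * n₂ := by rw [e1]
      _ = (t ^ i * t ^ j) * (n₁ * n₂) := by group
      _ = (t ^ j * t ^ i) * (n₂ * n₁) := by rw [e4, e3]
      _ = t ^ j * (t ^ i * n₂) * n₁ := by group
      _ = t ^ j * (n₂ * t ^ i) * n₁ := by rw [e2]
      _ = t ^ j * n₂ * (t ^ i * n₁) := by group
  have hKcomm : ∀ x ∈ K, ∀ y ∈ K, x * y = y * x :=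
    fun x hx y hy => hFcomm x (hKF hx) y (hKF hy)
  have hKn : K.Normal := by
    constructor
    intro k hk h
    have hle : K ≤ K.comap (MulAut.conj h).toMonoidHom := by
      rw [hK, Subgroup.closure_le]
      rintro y ⟨a, g, rfl⟩
      show h * (g⁻¹ * a • g) * h⁻¹ ∈ Subgroup.closure S
      have e : h * (g⁻¹ * a • g) * h⁻¹ =
          ((g * h⁻¹)⁻¹ * a • (g * h⁻¹)) * ((h⁻¹)⁻¹ * a • h⁻¹)⁻¹ := by
        rw [smul_mul', smul_inv']; group
      rw [e]
      exact Subgroup.mul_mem _ (Subgroup.subset_closure ⟨a, g * h⁻¹, rfl⟩)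
        (Subgroup.inv_mem _ (Subgroup.subset_closure ⟨a, h⁻¹, rfl⟩))
    exact hle hk
  have hKinv : ∀ (a : A), ∀ k ∈ K, a • k ∈ K := by
    intro a k hk
    have hle : K ≤ K.comap (MulDistribMulAction.toMonoidHom G a) := by
      rw [hK, Subgroup.closure_le]
      rintro y ⟨b, g, rfl⟩
      show a • (g⁻¹ * b • g) ∈ Subgroup.closure S
      have e : a • (g⁻¹ * b • g) = (g⁻¹ * a • g)⁻¹ * (g⁻¹ * (a * b) • g) := by
        rw [smul_mul', smul_inv', smul_smul]; group
      rw [e]
      exact Subgroup.mul_mem _ (Subgroup.inv_mem _ (Subgroup.subset_closure ⟨a, g, rfl⟩))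
        (Subgroup.subset_closure ⟨a * b, g, rfl⟩)
    exact hle hk
  letI instC : CommGroup ↥K :=
    { (inferInstance : Group ↥K) with
      mul_comm := fun x y => Subtype.ext (hKcomm x.1 x.2 y.1 y.2) }
  letI instA : MulDistribMulAction A ↥K :=
    { smul := fun a k => ⟨a • (k : G), hKinv a k k.2⟩
      one_smul := fun k => Subtype.ext (one_smul A (k : G))
      mul_smul := fun a b k => Subtype.ext (mul_smul a b (k : G))
      smul_mul := fun a k₁ k₂ => Subtype.ext (smul_mul' a (k₁ : G) (k₂ : G))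
      smul_one := fun a => Subtype.ext (smul_one a) }
  have hcopK : (Nat.card A).Coprime (Nat.card ↥K) :=
    Nat.Coprime.coprime_dvd_right (Subgroup.card_subgroup_dvd_card K) hcop
  have hKcyc : IsCyclic ↥K := by
    haveI : Group.IsNilpotent ↥K := CommGroup.isNilpotent
    infer_instance
  have hdec : ∀ g : G, ∃ d : ↥K, ∀ a : A, a • (g * (d : G)) = g * (d : G) := by
    intro g
    obtain ⟨d, hd⟩ := crossed_hom hcopK
      (fun a => (⟨g⁻¹ * a • g, Subgroup.subset_closure ⟨a, g, rfl⟩⟩ : ↥K)) (by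
      intro a b
      apply Subtype.ext
      show g⁻¹ * (a * b) • g = (g⁻¹ * a • g) * a • (g⁻¹ * b • g)
      rw [smul_mul', smul_inv', smul_smul]; group)
    refine ⟨d, fun a => ?_⟩
    have h1' : g⁻¹ * a • g = (d : G) * (a • (d : G))⁻¹ := congrArg Subtype.val (hd a)
    rw [smul_mul']
    calc a • g * a • (d : G) = g * (g⁻¹ * a • g) * a • (d : G) := by group
      _ = g * ((d : G) * (a • (d : G))⁻¹) * a • (d : G) := by rw [h1']
      _ = g * (d : G) := by group
  have hKC : ∀ x ∈ K, (∀ a : A, a • x = x) → x = 1 := by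
    intro x hx hfix
    have := fixed_eq_one hcopK (Subtype.val ⁻¹' S : Set ↥K)
      Subgroup.closure_closure_coe_preimage ?_ ⟨x, hx⟩ (fun a => Subtype.ext (hfix a))
    · exact congrArg Subtype.val this
    · rintro ⟨t, ht⟩ ⟨b, g, rfl⟩
      have e : ∀ a : A, a • (⟨g⁻¹ * b • g, ht⟩ : ↥K) =
          (⟨g⁻¹ * a • g, Subgroup.subset_closure ⟨a, g, rfl⟩⟩ : ↥K)⁻¹ *
            ⟨g⁻¹ * (a * b) • g, Subgroup.subset_closure ⟨a * b, g, rfl⟩⟩ := by
        intro a
        apply Subtype.ext
        show a • (g⁻¹ * b • g) = (g⁻¹ * a • g)⁻¹ * (g⁻¹ * (a * b) • g)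
        rw [smul_mul', smul_inv', smul_smul]; group
      simp_rw [e]
      rw [Finset.prod_mul_distrib, Finset.prod_inv_distrib]
      have e2 : ∏ a : A, (⟨g⁻¹ * (a * b) • g, Subgroup.subset_closure ⟨a * b, g, rfl⟩⟩ : ↥K) =
          ∏ a : A, (⟨g⁻¹ * a • g, Subgroup.subset_closure ⟨a, g, rfl⟩⟩ : ↥K) :=
        Fintype.prod_equiv (Equiv.mulRight b) _ _ (fun a => rfl)
      rw [e2, inv_mul_cancel]
  -- the fixed-point subgroup
  have hCmem : ∀ x : G, x ∈ FixedPoints.subgroup A G ↔ ∀ a : A, a • x = x :=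
    fun x => FixedPoints.mem_subgroup A G x
  have hcompl : K.IsComplement' (FixedPoints.subgroup A G) := by
    apply Subgroup.isComplement'_of_disjoint_and_mul_eq_univ
    · rw [Subgroup.disjoint_def]
      intro x hxK hxC
      exact hKC x hxK ((hCmem x).mp hxC)
    · rw [Set.eq_univ_iff_forall]
      intro g
      obtain ⟨d, hd⟩ := hdec g⁻¹
      refine Set.mem_mul.mpr ⟨(d : G), d.2, (g⁻¹ * (d : G))⁻¹, ?_, by group⟩
      exact Subgroup.inv_mem _ ((hCmem _).mpr hd)
  have hcard : Nat.card K * Nat.card (FixedPoints.subgroup A G) = Nat.card G :=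
    hcompl.card_mul_card
  have hCcard : Nat.card (MulAction.fixedPoints A G : Set G) =
      Nat.card (FixedPoints.subgroup A G) :=
    Nat.card_congr (Equiv.subtypeEquivRight (fun x => by
      rw [hCmem, MulAction.mem_fixedPoints]))
  refine ⟨?_, hKcyc, hKn, ?_, ?_⟩
  · rw [hCcard, ← hcard, Nat.mul_div_cancel _ Nat.card_pos]
    apply Nat.coprime_of_dvd
    intro p hp hpC hpK
    haveI : Fact p.Prime := ⟨hp⟩
    obtain ⟨c, hc⟩ := exists_prime_orderOf_dvd_card' p hpC
    obtain ⟨k, hk⟩ := exists_prime_orderOf_dvd_card' p hpK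
    have hkG : orderOf (k : G) = p := by rw [Subgroup.orderOf_coe]; exact hk
    have hcG : orderOf (c : G) = p := by rw [Subgroup.orderOf_coe]; exact hc
    have hkp : IsPGroup p (Subgroup.zpowers (k : G)) := by
      apply IsPGroup.of_card (n := 1)
      rw [Nat.card_zpowers, hkG, pow_one]
    obtain ⟨P, hP⟩ := hkp.exists_le_sylow
    have hkP : (k : G) ∈ (P : Subgroup G) := hP (Subgroup.mem_zpowers _)
    obtain ⟨d, hd⟩ := exists_conj_mem_sylow P (c : G)
      ⟨1, by rw [pow_one, ← hcG, pow_orderOf_eq_one]⟩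
    haveI : IsCyclic ↥(P : Subgroup G) := hcyc p P
    have hconj_ord : orderOf (d * (c : G) * d⁻¹) = p := by
      rw [← MulAut.conj_apply, MulEquiv.orderOf_eq (MulAut.conj d) (c : G)]; exact hcG
    have heq := eq_of_card_eq_of_isCyclic
      (Subgroup.zpowers (⟨(k : G), hkP⟩ : ↥(P : Subgroup G)))
      (Subgroup.zpowers (⟨d * (c : G) * d⁻¹, hd⟩ : ↥(P : Subgroup G)))
      (by rw [Nat.card_zpowers, Nat.card_zpowers, Subgroup.orderOf_mk, Subgroup.orderOf_mk, hkG,
        hconj_ord])
    have hmem : (⟨d * (c : G) * d⁻¹, hd⟩ : ↥(P : Subgroup G)) ∈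
        Subgroup.zpowers (⟨(k : G), hkP⟩ : ↥(P : Subgroup G)) := by
      rw [heq]; exact Subgroup.mem_zpowers _
    obtain ⟨i, hi⟩ := Subgroup.mem_zpowers_iff.mp hmem
    have hi' : (k : G) ^ i = d * (c : G) * d⁻¹ := by
      have := congrArg Subtype.val hi
      simpa using this
    have hdK : d * (c : G) * d⁻¹ ∈ K := by
      rw [← hi']; exact Subgroup.zpow_mem _ k.2 i
    have hcK : (c : G) ∈ K := by
      have := hKn.conj_mem _ hdK d⁻¹
      have e : d⁻¹ * (d * (c : G) * d⁻¹) * d⁻¹⁻¹ = (c : G) := by group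
      rwa [e] at this
    have hc1 : (c : G) = 1 := hKC _ hcK ((hCmem _).mp c.2)
    rw [hc1, orderOf_one] at hcG
    exact hp.one_lt.ne hcG
  · ext x
    constructor
    · rintro ⟨hxK, hxfix⟩
      rw [Set.mem_singleton_iff]
      exact hKC x hxK (MulAction.mem_fixedPoints.mp hxfix)
    · intro hx
      rw [Set.mem_singleton_iff] at hx
      rw [hx]
      exact ⟨K.one_mem, MulAction.mem_fixedPoints.mpr (fun a => smul_one a)⟩
  · rw [eq_top_iff]
    intro g _
    obtain ⟨d, hd⟩ := hdec g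
    have e : g = (g * (d : G)) * (d : G)⁻¹ := by group
    rw [e]
    exact Subgroup.mul_mem _
      (Subgroup.mem_sup_right (Subgroup.subset_closure (MulAction.mem_fixedPoints.mpr hd)))
      (Subgroup.mem_sup_left (K.inv_mem d.2))

end Cfsg.Agent.S4117
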