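import Cfsg.Statements.S4127
import Cfsg.Agent.S0028
import Cfsg.Agent.Lib.helper20.ClassSize

set_option autoImplicit false
open Cfsg

namespace Cfsg.Agent.S4127

open Cfsg.Agent.Lib.helper20
open scoped Pointwise

/-- If every `p'`-element has class size prime to `p`, the Sylow `p`-subgroup is a direct
factor. -/
theorem direct_factor {C : Type*} [Group C] [Finite C] (p : ℕ) [Fact p.Prime]
    (h : ∀ y : C, (orderOf y).Coprime p → ¬ p ∣ (Subgroup.centralizer ({y} : Set C)).index)
    (P₀ : Sylow p C) :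
    ∃ K₀ : Subgroup C, (∀ y : C, (orderOf y).Coprime p → y ∈ K₀) ∧
      (∀ k ∈ K₀, (orderOf k).Coprime p) ∧
      (∀ s : C, (∃ n : ℕ, s ^ (p ^ n) = 1) → ∀ k ∈ K₀, s * k = k * s) ∧
      (Nat.card K₀ = (P₀ : Subgroup C).index) := by
  classical
  have hp : p.Prime := Fact.out
  set Z := Subgroup.centralizer ((P₀ : Subgroup C) : Set C) with hZ
  have hH : (P₀ : Subgroup C) ⊔ Z = ⊤ := by
    by_contra hne
    obtain ⟨g, hg⟩ := exists_not_conj_mem _ hne
    obtain ⟨u, v, hguv, huv, hu, hv, -, -⟩ := exists_p_decomp p g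
    obtain ⟨c, hc⟩ := exists_conj_commute_sylow P₀ v (h v hv)
    have hv'Z : c * v * c⁻¹ ∈ Z := by
      rw [hZ, Subgroup.mem_centralizer_iff]
      intro s hs
      exact hc s hs
    have hPle : (P₀ : Subgroup C) ≤ Subgroup.centralizer ({c * v * c⁻¹} : Set C) := by
      intro s hs
      rw [Subgroup.mem_centralizer_iff]
      intro y hy
      rw [Set.mem_singleton_iff] at hy
      rw [hy]
      exact (hc s hs).symm
    have hu'mem : c * u * c⁻¹ ∈ Subgroup.centralizer ({c * v * c⁻¹} : Set C) := by
      rw [Subgroup.mem_centralizer_iff]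
      intro y hy
      rw [Set.mem_singleton_iff] at hy
      rw [hy]
      calc c * v * c⁻¹ * (c * u * c⁻¹) = c * (v * u) * c⁻¹ := by group
        _ = c * (u * v) * c⁻¹ := by rw [huv]
        _ = c * u * c⁻¹ * (c * v * c⁻¹) := by group
    obtain ⟨k, hk⟩ := hu
    have hu'pow : (⟨c * u * c⁻¹, hu'mem⟩ : Subgroup.centralizer ({c * v * c⁻¹} : Set C)) ^ (p ^ k)
        = 1 := by
      apply Subtype.ext
      show (c * u * c⁻¹) ^ (p ^ k) = 1
      rw [conj_pow, hk]; group
    obtain ⟨d, hd⟩ := exists_conj_mem_sylow (P₀.subtype hPle) ⟨c * u * c⁻¹, hu'mem⟩ ⟨k, hu'pow⟩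
    rw [Sylow.coe_subtype, Subgroup.mem_subgroupOf] at hd
    have hd' : (d : C) * (c * u * c⁻¹) * (d : C)⁻¹ ∈ (P₀ : Subgroup C) := hd
    have hdv : (d : C) * (c * v * c⁻¹) * (d : C)⁻¹ = c * v * c⁻¹ := by
      have := d.2
      rw [Subgroup.mem_centralizer_iff] at this
      have h2 := this (c * v * c⁻¹) (Set.mem_singleton _)
      rw [← h2]; group
    apply hg ((d : C) * c)
    have : (d : C) * c * g * ((d : C) * c)⁻¹ =
        ((d : C) * (c * u * c⁻¹) * (d : C)⁻¹) * ((d : C) * (c * v * c⁻¹) * (d : C)⁻¹) := by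
      rw [hguv]; group
    rw [this, hdv]
    exact Subgroup.mul_mem _ (Subgroup.mem_sup_left hd') (Subgroup.mem_sup_right hv'Z)
  have hPn : (P₀ : Subgroup C).Normal := by
    rw [← Subgroup.normalizer_eq_top_iff, eq_top_iff, ← hH]
    exact sup_le Subgroup.le_normalizer (Subgroup.centralizer_le_normalizer _)
  have hcent : ∀ y : C, (orderOf y).Coprime p → y ∈ Z := by
    intro y hy
    obtain ⟨c, hc⟩ := exists_conj_commute_sylow P₀ y (h y hy)
    rw [hZ, Subgroup.mem_centralizer_iff]
    intro s hs
    have hs' : c * s * c⁻¹ ∈ (P₀ : Subgroup C) := hPn.conj_mem s hs c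
    have h3 := hc _ hs'
    calc s * y = c⁻¹ * (c * s * c⁻¹ * (c * y * c⁻¹)) * c := by group
      _ = c⁻¹ * (c * y * c⁻¹ * (c * s * c⁻¹)) * c := by rw [h3]
      _ = y * s := by group
  obtain ⟨K₀, hK₀⟩ := Subgroup.exists_right_complement'_of_coprime P₀.card_coprime_index
  have hKcard : Nat.card K₀ = (P₀ : Subgroup C).index := by
    have h1 := hK₀.card_mul_card
    have h2 := (P₀ : Subgroup C).card_mul_index
    have hpos : 0 < Nat.card (P₀ : Subgroup C) := Nat.card_pos
    exact Nat.eq_of_mul_eq_mul_left hpos (h1.trans h2.symm)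
  have hKcop : (Nat.card K₀).Coprime p := by
    rw [hKcard]
    exact ((Nat.Prime.coprime_iff_not_dvd hp).mpr P₀.not_dvd_index).symm
  have hKord : ∀ k ∈ K₀, (orderOf k).Coprime p := by
    intro k hk
    have h1 : orderOf k ∣ Nat.card K₀ := by
      have := orderOf_dvd_natCard (⟨k, hk⟩ : K₀)
      rwa [Subgroup.orderOf_mk] at this
    exact Nat.Coprime.coprime_dvd_left h1 hKcop
  refine ⟨K₀, ?_, hKord, ?_, hKcard⟩
  · intro y hy
    have hy' : y ∈ ((P₀ : Subgroup C) : Set C) * (K₀ : Set C) := by
      rw [Subgroup.IsComplement.mul_eq hK₀]; exact Set.mem_univ _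
    obtain ⟨s, hs, k, hk, hsk⟩ := Set.mem_mul.mp hy'
    have hkZ := hcent k (hKord k hk)
    rw [hZ, Subgroup.mem_centralizer_iff] at hkZ
    have hcomm : s * k = k * s := hkZ s hs
    have hkn : k ^ (Nat.card K₀) = 1 := by
      have h1 : orderOf k ∣ Nat.card K₀ := by
        have := orderOf_dvd_natCard (⟨k, hk⟩ : K₀)
        rwa [Subgroup.orderOf_mk] at this
      exact orderOf_dvd_iff_pow_eq_one.mp h1
    have hyn : y ^ (Nat.card K₀) = s ^ (Nat.card K₀) := by
      rw [← hsk, Commute.mul_pow hcomm, hkn, mul_one]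
    obtain ⟨m, hm⟩ := P₀.isPGroup' ⟨s, hs⟩
    have hsm : s ^ (p ^ m) = 1 := congrArg Subtype.val hm
    have h1 : (s ^ (Nat.card K₀)) ^ (orderOf y) = 1 := by
      rw [← hyn, ← pow_mul, mul_comm, pow_mul, pow_orderOf_eq_one, one_pow]
    have h2 : (s ^ (Nat.card K₀)) ^ (p ^ m) = 1 := by
      rw [← pow_mul, mul_comm, pow_mul, hsm, one_pow]
    have h3 : orderOf (s ^ (Nat.card K₀)) ∣ 1 := by
      have ha := orderOf_dvd_of_pow_eq_one h1
      have hb := orderOf_dvd_of_pow_eq_one h2
      have hc : Nat.Coprime (orderOf y) (p ^ m) := Nat.Coprime.pow_right m hy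
      have := Nat.dvd_gcd ha hb
      rwa [hc.gcd_eq_one] at this
    have hsn : s ^ (Nat.card K₀) = 1 := by
      rw [← orderOf_eq_one_iff]; exact Nat.dvd_one.mp h3
    have h4 : orderOf s ∣ 1 := by
      have ha := orderOf_dvd_of_pow_eq_one hsn
      have hb := orderOf_dvd_of_pow_eq_one hsm
      have hc : Nat.Coprime (Nat.card K₀) (p ^ m) := Nat.Coprime.pow_right m hKcop
      have := Nat.dvd_gcd ha hb
      rwa [hc.gcd_eq_one] at this
    have hs1 : s = 1 := by
      rw [← orderOf_eq_one_iff]; exact Nat.dvd_one.mp h4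
    rw [← hsk, hs1, one_mul]; exact hk
  · intro s hs k hk
    obtain ⟨n, hn⟩ := hs
    obtain ⟨d, hd⟩ := exists_conj_mem_sylow P₀ s ⟨n, hn⟩
    have hsP : s ∈ (P₀ : Subgroup C) := by
      have := hPn.conj_mem _ hd d⁻¹
      have h2 : d⁻¹ * (d * s * d⁻¹) * d⁻¹⁻¹ = s := by group
      rwa [h2] at this
    have hkZ := hcent k (hKord k hk)
    rw [hZ, Subgroup.mem_centralizer_iff] at hkZ
    exact hkZ s hsP

/-- Let G be a finite group, p a prime and p^a the largest power of p dividing the size of any conjugacy class of G. If some element of p-power order has a conjugacy class of size exactly p^a, then G has a normal p-complement. -/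
theorem result {G : Type*} [Group G] [Finite G] (p : ℕ) [Fact p.Prime]
    (a : ℕ) (hmax : ∀ y : G, ¬ p ^ (a + 1) ∣ (Subgroup.centralizer ({y} : Set G)).index)
    (hx : ∃ x : G, (∃ k : ℕ, orderOf x = p ^ k) ∧ (Subgroup.centralizer ({x} : Set G)).index = p ^ a) :
    Cfsg.HasNormalPComplement p G := by
  classical
  have hp : p.Prime := Fact.out
  obtain ⟨x, ⟨kx, hkx⟩, hidx⟩ := hx
  set C := Subgroup.centralizer ({x} : Set G) with hC
  have hxC : x ∈ C := by
    rw [hC, Subgroup.mem_centralizer_iff]
    intro y hy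
    rw [Set.mem_singleton_iff] at hy
    rw [hy]
  have hyp : ∀ y : C, (orderOf y).Coprime p →
      ¬ p ∣ (Subgroup.centralizer ({y} : Set C)).index := by
    intro y hy hdvd
    have hyo : (orderOf (y : G)).Coprime p := by rwa [Subgroup.orderOf_coe]
    have hcomm : Commute x (y : G) := by
      have : (y : G) ∈ Subgroup.centralizer ({x} : Set G) := y.2
      rw [Subgroup.mem_centralizer_iff] at this
      exact this x (Set.mem_singleton _)
    have hxpow : ∃ n : ℕ, (x * (y : G)) ^ n = x := by
      have h1 : (x * (y : G)) ^ (orderOf (y : G)) = x ^ (orderOf (y : G)) := by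
        rw [hcomm.mul_pow, pow_orderOf_eq_one, mul_one]
      have hcop : Nat.Coprime (orderOf (y : G)) (orderOf x) := by
        rw [hkx]; exact Nat.Coprime.pow_right kx hyo
      obtain ⟨m, hm⟩ := exists_pow_eq_self_of_coprime hcop
      exact ⟨orderOf (y : G) * m, by rw [pow_mul, h1, hm]⟩
    obtain ⟨n, hn⟩ := hxpow
    have hle : Subgroup.centralizer ({x * (y : G)} : Set G) ≤ C := by
      intro g hg
      rw [Subgroup.mem_centralizer_iff] at hg
      have h1 := hg (x * (y : G)) (Set.mem_singleton _)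
      rw [hC, Subgroup.mem_centralizer_iff]
      intro z hz
      rw [Set.mem_singleton_iff] at hz
      rw [hz, ← hn]
      exact (Commute.pow_left (show Commute (x * (y : G)) g from h1) n)
    have hsub : (Subgroup.centralizer ({x * (y : G)} : Set G)).subgroupOf C =
        Subgroup.centralizer ({y} : Set C) := by
      ext g
      rw [Subgroup.mem_subgroupOf, Subgroup.mem_centralizer_iff, Subgroup.mem_centralizer_iff]
      have h2 : x * (g : G) = (g : G) * x := by
        have : (g : G) ∈ Subgroup.centralizer ({x} : Set G) := g.2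
        rw [Subgroup.mem_centralizer_iff] at this
        exact this x (Set.mem_singleton _)
      constructor
      · intro hg z hz
        rw [Set.mem_singleton_iff] at hz
        rw [hz]
        have h1 := hg (x * (y : G)) (Set.mem_singleton _)
        apply Subtype.ext
        show (y : G) * (g : G) = (g : G) * (y : G)
        have : x * ((y : G) * (g : G)) = x * ((g : G) * (y : G)) := by
          calc x * ((y : G) * (g : G)) = x * (y : G) * (g : G) := by group
            _ = (g : G) * (x * (y : G)) := h1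
            _ = ((g : G) * x) * (y : G) := by group
            _ = (x * (g : G)) * (y : G) := by rw [h2]
            _ = x * ((g : G) * (y : G)) := by group
        exact mul_left_cancel this
      · intro hg z hz
        rw [Set.mem_singleton_iff] at hz
        rw [hz]
        have h1 := hg y (Set.mem_singleton _)
        have h1' : (y : G) * (g : G) = (g : G) * (y : G) := congrArg Subtype.val h1
        calc x * (y : G) * (g : G) = x * ((y : G) * (g : G)) := by group
          _ = x * ((g : G) * (y : G)) := by rw [h1']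
          _ = (x * (g : G)) * (y : G) := by group
          _ = ((g : G) * x) * (y : G) := by rw [h2]
          _ = (g : G) * (x * (y : G)) := by group
    have hrel := Subgroup.relIndex_mul_index hle
    rw [Subgroup.relIndex, hsub, hidx] at hrel
    apply hmax (x * (y : G))
    rw [← hrel, pow_succ']
    exact mul_dvd_mul hdvd (dvd_refl _)
  obtain ⟨P₀⟩ : Nonempty (Sylow p C) := inferInstance
  obtain ⟨K₀, hK1, hK2, hK3, hK4⟩ := direct_factor p hyp P₀
  set K := K₀.map C.subtype with hK
  have hKC : K ≤ C := by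
    rw [hK]; exact Subgroup.map_subtype_le K₀
  have hKmem : ∀ g : G, g ∈ C → (orderOf g).Coprime p → g ∈ K := by
    intro g hg ho
    rw [hK, Subgroup.mem_map]
    refine ⟨⟨g, hg⟩, hK1 ⟨g, hg⟩ ?_, rfl⟩
    rwa [Subgroup.orderOf_mk]
  have hKord : ∀ k ∈ K, (orderOf k).Coprime p := by
    intro k hk
    rw [hK, Subgroup.mem_map] at hk
    obtain ⟨k₀, hk₀, rfl⟩ := hk
    have := hK2 k₀ hk₀
    rwa [← Subgroup.orderOf_coe] at this
  have hKcomm : ∀ s ∈ C, (∃ n : ℕ, s ^ (p ^ n) = 1) → ∀ k ∈ K, s * k = k * s := by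
    intro s hs ⟨n, hn⟩ k hk
    rw [hK, Subgroup.mem_map] at hk
    obtain ⟨k₀, hk₀, rfl⟩ := hk
    have := hK3 ⟨s, hs⟩ ⟨n, by apply Subtype.ext; exact hn⟩ k₀ hk₀
    exact congrArg Subtype.val this
  have hKcard : Nat.card K = Nat.card K₀ := by
    rw [hK]; exact Subgroup.card_map_of_injective (Subgroup.subtype_injective C)
  have hKcop : (Nat.card K).Coprime p := by
    rw [hKcard, hK4]
    exact ((Nat.Prime.coprime_iff_not_dvd hp).mpr P₀.not_dvd_index).symm
  have hxp : IsPGroup p (Subgroup.zpowers x) := by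
    apply IsPGroup.of_card (n := kx)
    rw [Nat.card_zpowers, hkx]
  obtain ⟨P, hP⟩ := hxp.exists_le_sylow
  have hxP : x ∈ (P : Subgroup G) := hP (Subgroup.mem_zpowers x)
  obtain ⟨b, hb⟩ := IsPGroup.iff_card.mp P₀.isPGroup'
  obtain ⟨c, hc⟩ := IsPGroup.iff_card.mp P.isPGroup'
  have hcardG : Nat.card K * Nat.card (P : Subgroup G) = Nat.card G := by
    have h1 : Nat.card G = p ^ (a + b) * Nat.card K := by
      rw [← C.card_mul_index, hidx, ← (P₀ : Subgroup C).card_mul_index, hb, hKcard, hK4, pow_add]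
      ring
    have h2 : Nat.card G = p ^ c * (P : Subgroup G).index := by
      rw [← hc]; exact ((P : Subgroup G).card_mul_index).symm
    have h3 : p ^ (a + b) ∣ p ^ c := by
      have : p ^ (a + b) ∣ p ^ c * (P : Subgroup G).index := by
        rw [← h2, h1]; exact dvd_mul_right _ _
      exact (Nat.Coprime.pow_left _
        ((Nat.Prime.coprime_iff_not_dvd hp).mpr P.not_dvd_index)).dvd_of_dvd_mul_right this
    have h4 : p ^ c ∣ p ^ (a + b) := by
      have : p ^ c ∣ p ^ (a + b) * Nat.card K := by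
        rw [← h1, h2]; exact dvd_mul_right _ _
      exact (Nat.Coprime.pow_left _ hKcop.symm).dvd_of_dvd_mul_right this
    have h5 : p ^ c = p ^ (a + b) := Nat.dvd_antisymm h4 h3
    rw [h1, hc, h5]; ring
  have hKP : K.IsComplement' (P : Subgroup G) := by
    apply Subgroup.isComplement'_of_coprime hcardG
    rw [hc]; exact Nat.Coprime.pow_right _ hKcop
  set X := Subgroup.normalClosure ({x} : Set G) with hX
  have hXP : X ≤ (P : Subgroup G) := by
    rw [hX, Subgroup.normalClosure, Subgroup.closure_le]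
    intro z hz
    rw [Group.mem_conjugatesOfSet_iff] at hz
    obtain ⟨w, hw, hwz⟩ := hz
    rw [Set.mem_singleton_iff] at hw
    rw [hw, isConj_iff] at hwz
    obtain ⟨g, hg⟩ := hwz
    have hg' : g ∈ ((P : Subgroup G) : Set G) * (K : Set G) := by
      rw [Subgroup.IsComplement.mul_eq hKP.symm]; exact Set.mem_univ _
    obtain ⟨u, hu, k, hk, huk⟩ := Set.mem_mul.mp hg'
    have hkx' : k * x * k⁻¹ = x := by
      have := hKC hk
      rw [hC, Subgroup.mem_centralizer_iff] at this
      have h2 := this x (Set.mem_singleton _)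
      rw [← h2]; group
    have hz' : z = u * x * u⁻¹ := by
      rw [← hg, ← huk]
      calc u * k * x * (u * k)⁻¹ = u * (k * x * k⁻¹) * u⁻¹ := by group
        _ = u * x * u⁻¹ := by rw [hkx']
    rw [hz']
    exact Subgroup.mul_mem _ (Subgroup.mul_mem _ hu hxP) (Subgroup.inv_mem _ hu)
  have hXn : X.Normal := Subgroup.normalClosure_normal
  have hXp : IsPGroup p X := P.isPGroup'.to_le hXP
  have hxX : x ∈ X := Subgroup.subset_normalClosure (Set.mem_singleton x)
  have hKX : K ≤ Subgroup.centralizer (X : Set G) := by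
    apply Cfsg.Agent.S0028.result p (Subgroup.zpowers x) K X hxp hKcop hXp
    · rw [Subgroup.zpowers_le, Subgroup.mem_centralizer_iff]
      intro k hk
      have := hKC hk
      rw [hC, Subgroup.mem_centralizer_iff] at this
      exact (this x (Set.mem_singleton _)).symm
    · intro g _
      rw [Subgroup.normalizer_eq_top_iff.mpr hXn]; exact Subgroup.mem_top g
    · intro g _
      rw [Subgroup.normalizer_eq_top_iff.mpr hXn]; exact Subgroup.mem_top g
    · intro s hs
      obtain ⟨hsX, hsc⟩ := hs
      rw [Subgroup.mem_centralizer_iff]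
      intro k hk
      have hsC : s ∈ C := by
        rw [hC, Subgroup.mem_centralizer_iff]
        intro z hz
        rw [Set.mem_singleton_iff] at hz
        rw [hz]
        have hsc' : s ∈ Subgroup.centralizer ((Subgroup.zpowers x : Subgroup G) : Set G) := hsc
        rw [Subgroup.mem_centralizer_iff] at hsc'
        exact hsc' x (Subgroup.mem_zpowers x)
      obtain ⟨n, hn⟩ := hXp ⟨s, hsX⟩
      have hsn : s ^ (p ^ n) = 1 := congrArg Subtype.val hn
      exact (hKcomm s hsC ⟨n, hsn⟩ k hk).symm
  have hKn : K.Normal := by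
    constructor
    intro k hk g
    have hcn : (Subgroup.centralizer (X : Set G)).Normal := inferInstance
    have h1 : g * k * g⁻¹ ∈ Subgroup.centralizer (X : Set G) := hcn.conj_mem k (hKX hk) g
    have h2 : g * k * g⁻¹ ∈ C := by
      rw [hC]
      exact Subgroup.centralizer_le (by rw [Set.singleton_subset_iff]; exact hxX) h1
    apply hKmem _ h2
    have : orderOf (g * k * g⁻¹) = orderOf k := by
      rw [← MulAut.conj_apply]; exact MulEquiv.orderOf_eq (MulAut.conj g) k
    rw [this]; exact hKord k hk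
  exact ⟨P, K, hKn, hKP⟩

end Cfsg.Agent.S4127
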