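import Cfsg.Statements.S4142
import Cfsg.Agent.Lib.helper20.ClassSize

set_option autoImplicit false
open Cfsg

namespace Cfsg.Agent.S4142

open Cfsg.Agent.Lib.helper20

theorem aux {G : Type*} [Group G] [Finite G] (N : Subgroup G) [N.Normal] (g : G) :
    (∀ n ∈ N, ∃ x : G, x * g * x⁻¹ = g * n) ↔
      Nat.card (Subgroup.centralizer ({g} : Set G)) =
        Nat.card (Subgroup.centralizer ({(QuotientGroup.mk g : G ⧸ N)} : Set (G ⧸ N))) := by
  classical
  set K : Set G := (ConjClasses.mk g).carrier with hK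
  set Kb : Set (G ⧸ N) := (ConjClasses.mk (QuotientGroup.mk g : G ⧸ N)).carrier with hKb
  have hKmem : ∀ h : G, h ∈ K ↔ ∃ x : G, x * g * x⁻¹ = h := by
    intro h
    rw [hK, ConjClasses.mem_carrier_iff_mk_eq, ConjClasses.mk_eq_mk_iff_isConj, isConj_comm,
      isConj_iff]
  have hKbmem : ∀ h : G ⧸ N, h ∈ Kb ↔ ∃ x : G ⧸ N, x * (QuotientGroup.mk g) * x⁻¹ = h := by
    intro h
    rw [hKb, ConjClasses.mem_carrier_iff_mk_eq, ConjClasses.mk_eq_mk_iff_isConj, isConj_comm,
      isConj_iff]
  have h1 : K.ncard = (Subgroup.centralizer ({g} : Set G)).index := ncard_carrier_eq_index g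
  have h1b : Kb.ncard = (Subgroup.centralizer ({(QuotientGroup.mk g : G ⧸ N)} :
      Set (G ⧸ N))).index := ncard_carrier_eq_index _
  have h2 : ((QuotientGroup.mk : G → G ⧸ N) ⁻¹' Kb).ncard = Nat.card N * Kb.ncard := by
    rw [← Nat.card_coe_set_eq, ← Nat.card_coe_set_eq]
    exact QuotientGroup.card_preimage_mk N Kb
  have h3 : K ⊆ (QuotientGroup.mk : G → G ⧸ N) ⁻¹' Kb := by
    intro h hh
    obtain ⟨x, rfl⟩ := (hKmem h).mp hh
    rw [Set.mem_preimage, hKbmem]
    exact ⟨QuotientGroup.mk x, rfl⟩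
  have h4 := Subgroup.card_mul_index (Subgroup.centralizer ({g} : Set G))
  have h4b := Subgroup.card_mul_index
    (Subgroup.centralizer ({(QuotientGroup.mk g : G ⧸ N)} : Set (G ⧸ N)))
  have h5 : Nat.card G = Nat.card N * Nat.card (G ⧸ N) := by
    rw [← Subgroup.index_eq_card, Subgroup.card_mul_index]
  have hNpos : 0 < Nat.card N := Nat.card_pos
  have hcpos : 0 < Nat.card (Subgroup.centralizer ({g} : Set G)) := Nat.card_pos
  have hcbpos : 0 < Nat.card (Subgroup.centralizer ({(QuotientGroup.mk g : G ⧸ N)} :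
      Set (G ⧸ N))) := Nat.card_pos
  have hipos : 0 < (Subgroup.centralizer ({(QuotientGroup.mk g : G ⧸ N)} :
      Set (G ⧸ N))).index := Nat.pos_of_ne_zero Subgroup.index_ne_zero_of_finite
  constructor
  · intro h
    have hsub : (QuotientGroup.mk : G → G ⧸ N) ⁻¹' Kb ⊆ K := by
      intro a ha
      rw [Set.mem_preimage, hKbmem] at ha
      obtain ⟨yb, hy⟩ := ha
      obtain ⟨y, rfl⟩ := QuotientGroup.mk_surjective yb
      have hn : y⁻¹ * ((y * g * y⁻¹)⁻¹ * a) * y ∈ N := by
        have h6 : (y * g * y⁻¹)⁻¹ * a ∈ N := by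
          rw [← QuotientGroup.eq]
          exact hy
        have := (inferInstance : N.Normal).conj_mem _ h6 y⁻¹
        rwa [inv_inv] at this
      obtain ⟨x, hx⟩ := h _ hn
      rw [hKmem]
      refine ⟨y * x, ?_⟩
      have e : y * x * g * (y * x)⁻¹ = y * (x * g * x⁻¹) * y⁻¹ := by group
      rw [e, hx]
      group
    have heq : K = (QuotientGroup.mk : G → G ⧸ N) ⁻¹' Kb := Set.Subset.antisymm h3 hsub
    have h7 : (Subgroup.centralizer ({g} : Set G)).index = Nat.card N *
        (Subgroup.centralizer ({(QuotientGroup.mk g : G ⧸ N)} : Set (G ⧸ N))).index := by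
      rw [← h1, ← h1b, ← h2, ← heq]
    rw [h7, h5, ← h4b] at h4
    have h8 : Nat.card N * (Subgroup.centralizer ({(QuotientGroup.mk g : G ⧸ N)} :
        Set (G ⧸ N))).index * Nat.card (Subgroup.centralizer ({g} : Set G)) =
        Nat.card N * (Subgroup.centralizer ({(QuotientGroup.mk g : G ⧸ N)} :
        Set (G ⧸ N))).index * Nat.card (Subgroup.centralizer ({(QuotientGroup.mk g : G ⧸ N)} :
        Set (G ⧸ N))) := by
      rw [mul_comm] ; rw [h4]; ring
    exact Nat.eq_of_mul_eq_mul_left (Nat.mul_pos hNpos hipos) h8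
  · intro h n hn
    have h7 : (Subgroup.centralizer ({g} : Set G)).index = Nat.card N *
        (Subgroup.centralizer ({(QuotientGroup.mk g : G ⧸ N)} : Set (G ⧸ N))).index := by
      rw [h5, ← h4b, ← h] at h4
      have h8 : Nat.card (Subgroup.centralizer ({g} : Set G)) *
          (Subgroup.centralizer ({g} : Set G)).index =
          Nat.card (Subgroup.centralizer ({g} : Set G)) * (Nat.card N *
          (Subgroup.centralizer ({(QuotientGroup.mk g : G ⧸ N)} : Set (G ⧸ N))).index) := by
        rw [h4]; ring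
      exact Nat.eq_of_mul_eq_mul_left hcpos h8
    have heq : K = (QuotientGroup.mk : G → G ⧸ N) ⁻¹' Kb := by
      apply Set.eq_of_subset_of_ncard_le h3 _ (Set.toFinite _)
      rw [h2, h1, h1b, h7]
    have hgn : g * n ∈ K := by
      rw [heq, Set.mem_preimage, hKbmem]
      refine ⟨1, ?_⟩
      rw [one_mul, inv_one, mul_one, QuotientGroup.mk_mul, (QuotientGroup.eq_one_iff n).mpr hn,
        mul_one]
    exact (hKmem _).mp hgn

/-- Let G be a finite group and N a normal subgroup. Then the conjugacy class of every element g outside N is a union of cosets of N (gn is conjugate to g for all n ∈ N) if and only if for every g outside N the centralizer of g in G has the same order as the centralizer of gN in G/N. -/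
theorem result {G : Type*} [Group G] [Finite G] (N : Subgroup G) [N.Normal] :
    (∀ g : G, g ∉ N → ∀ n ∈ N, ∃ x : G, x * g * x⁻¹ = g * n) ↔
      ∀ g : G, g ∉ N → Nat.card (Subgroup.centralizer ({g} : Set G)) =
        Nat.card (Subgroup.centralizer ({(QuotientGroup.mk g : G ⧸ N)} : Set (G ⧸ N))) := by
  constructor
  · intro h g hg
    exact (aux N g).mp (h g hg)
  · intro h g hg
    exact (aux N g).mpr (h g hg)

end Cfsg.Agent.S4142
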