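import Cfsg.Statements.S4143
-- import your own Cfsg.Agent.* helpers here
import Mathlib

set_option autoImplicit false
open Cfsg

namespace Cfsg.Agent.S4143

section S4143aux

universe u

theorem card_le_of_comm_mem {X : Type*} [Group X] [Finite X] (Z : Subgroup X)
    (hZ : Z ≤ Subgroup.center X) (a : X) (T : Subgroup X)
    (hT : ∀ g ∈ T, g * a * g⁻¹ * a⁻¹ ∈ Z) :
    Nat.card T ≤ Nat.card Z * Nat.card (T ⊓ Subgroup.centralizer {a} : Subgroup X) := by
  let f : T →* Z := MonoidHom.mk' (fun g => ⟨(g : X) * a * (g : X)⁻¹ * a⁻¹, hT g g.2⟩) (by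
    intro g h
    apply Subtype.ext
    show ((g * h : T) : X) * a * ((g * h : T) : X)⁻¹ * a⁻¹
      = ((g : X) * a * (g : X)⁻¹ * a⁻¹) * ((h : X) * a * (h : X)⁻¹ * a⁻¹)
    have hc : (h : X) * a * (h : X)⁻¹ * a⁻¹ ∈ Subgroup.center X := hZ (hT h h.2)
    have hcomm := Subgroup.mem_center_iff.mp hc
    rw [Subgroup.coe_mul]
    calc (g : X) * h * a * ((g : X) * h)⁻¹ * a⁻¹
        = (g : X) * ((h : X) * a * (h : X)⁻¹ * a⁻¹) * a * (g : X)⁻¹ * a⁻¹ := by group
      _ = ((h : X) * a * (h : X)⁻¹ * a⁻¹) * (g : X) * a * (g : X)⁻¹ * a⁻¹ := by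
          rw [hcomm (g : X)]
      _ = ((h : X) * a * (h : X)⁻¹ * a⁻¹) * ((g : X) * a * (g : X)⁻¹ * a⁻¹) := by group
      _ = ((g : X) * a * (g : X)⁻¹ * a⁻¹) * ((h : X) * a * (h : X)⁻¹ * a⁻¹) :=
          (hcomm _).symm)
  have hker : f.ker = (Subgroup.centralizer {a}).subgroupOf T := by
    ext g
    rw [MonoidHom.mem_ker, Subgroup.mem_subgroupOf, Subgroup.mem_centralizer_singleton_iff]
    constructor
    · intro h
      have h1 : (g : X) * a * (g : X)⁻¹ * a⁻¹ = 1 := congrArg Subtype.val h
      calc (g : X) * a = ((g : X) * a * (g : X)⁻¹ * a⁻¹) * a * g := by group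
        _ = a * g := by rw [h1, one_mul]
    · intro h
      apply Subtype.ext
      show (g : X) * a * (g : X)⁻¹ * a⁻¹ = 1
      rw [h]; group
  have h1 := Subgroup.index_mul_card f.ker
  have h2 : f.ker.index ≤ Nat.card Z := by
    rw [Subgroup.index_ker]; exact Subgroup.card_le_card_group _
  have h3 : Nat.card f.ker = Nat.card (T ⊓ Subgroup.centralizer {a} : Subgroup X) := by
    rw [hker, inf_comm, ← Subgroup.inf_subgroupOf_right]
    exact Nat.card_congr (Subgroup.subgroupOfEquivOfLe inf_le_right).toEquiv
  rw [← h1, h3]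
  exact Nat.mul_le_mul_right _ h2

theorem card_comap_mk {X : Type*} [Group X] [Finite X] (Z : Subgroup X) [Z.Normal]
    (K : Subgroup (X ⧸ Z)) :
    Nat.card (K.comap (QuotientGroup.mk' Z)) = Nat.card K * Nat.card Z := by
  have h1 := Subgroup.card_mul_index (K.comap (QuotientGroup.mk' Z))
  have h2 := Subgroup.card_mul_index K
  have h3 : (K.comap (QuotientGroup.mk' Z)).index = K.index :=
    Subgroup.index_comap_of_surjective K (QuotientGroup.mk'_surjective Z)
  have h4 : Nat.card X = Nat.card (X ⧸ Z) * Nat.card Z :=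
    Subgroup.card_eq_card_quotient_mul_card_subgroup Z
  rw [h3] at h1
  have hpos : 0 < K.index := Nat.pos_of_ne_zero (Subgroup.index_ne_zero_of_finite)
  have : Nat.card (K.comap (QuotientGroup.mk' Z)) * K.index
      = (Nat.card K * Nat.card Z) * K.index := by
    rw [h1, h4, ← h2]; ring
  exact Nat.eq_of_mul_eq_mul_right hpos this

theorem comm_of_card_le_sq {p : ℕ} [Fact p.Prime] {H : Type*} [Group H] (j : ℕ)
    (h : Nat.card H = p ^ j) (hj : j ≤ 2) (x y : H) : x * y = y * x := by
  rcases (by omega : j = 2 ∨ j ≤ 1) with rfl | hj1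
  · exact (IsPGroup.isMulCommutative_of_card_eq_prime_sq h).is_comm.comm x y
  · have hd : Nat.card H ∣ p := by
      rw [h]
      exact (pow_dvd_pow p hj1).trans (by rw [pow_one])
    have : IsCyclic H := isCyclic_of_card_dvd_prime hd
    exact (IsCyclic.commGroup (α := H)).mul_comm x y

theorem suzuki_elt {p : ℕ} [Fact p.Prime] : ∀ (n : ℕ) (X : Type u) [Group X] [Finite X],
    Nat.card X = p ^ n →
    (∃ a : X, Nat.card (Subgroup.centralizer ({a} : Set X)) = p ^ 2) →
    Group.nilpotencyClass X = n - 1 := by
  have hp : p.Prime := Fact.out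
  intro n
  induction n with
  | zero =>
    intro X _ _ hX ⟨a, ha⟩
    exfalso
    have h1 := Subgroup.card_le_card_group (Subgroup.centralizer ({a} : Set X))
    rw [ha, hX, pow_zero] at h1
    have : 1 < p ^ 2 := Nat.one_lt_pow (by norm_num) hp.one_lt
    omega
  | succ n ih =>
    intro X _ _ hX ⟨a, ha⟩
    have hpg : IsPGroup p X := IsPGroup.of_card hX
    have hnil : Group.IsNilpotent X := hpg.isNilpotent
    have hnt : Nontrivial X := by
      apply Finite.one_lt_card_iff_nontrivial.mp
      rw [hX]
      exact Nat.one_lt_pow (by omega) hp.one_lt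
    rw [Group.nilpotencyClass_eq_quotient_center_plus_one]
    have hn1 : 2 ≤ n + 1 := by
      have h1 := Subgroup.card_subgroup_dvd_card (Subgroup.centralizer ({a} : Set X))
      rw [ha, hX] at h1
      exact (Nat.pow_dvd_pow_iff_le_right hp.one_lt).mp h1
    have hcardq : Nat.card (X ⧸ Subgroup.center X) * Nat.card (Subgroup.center X) = p ^ (n + 1) := by
      rw [← hX]; exact (Subgroup.card_eq_card_quotient_mul_card_subgroup _).symm
    by_cases hn : n + 1 ≤ 2
    · have hn2 : n + 1 = 2 := by omega
      have hcomm : ∀ x y : X, x * y = y * x := fun x y => comm_of_card_le_sq (p := p) 2 (hn2 ▸ hX) le_rfl x y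
      have hcen : Subgroup.center X = ⊤ := by
        rw [eq_top_iff]
        intro x _
        rw [Subgroup.mem_center_iff]
        intro g
        exact hcomm g x
      have hsub : Subsingleton (X ⧸ Subgroup.center X) := by
        rw [hcen]
        exact QuotientGroup.subsingleton_quotient_top
      rw [Group.nilpotencyClass_zero_iff_subsingleton.mpr hsub]
      omega
    · push Not at hn
      obtain ⟨k, hk0, hk⟩ := IsPGroup.card_center_eq_prime_pow hX (by omega)
      have hZC : Subgroup.center X ≤ Subgroup.centralizer ({a} : Set X) :=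
        Subgroup.center_le_centralizer _
      have haZ : a ∉ Subgroup.center X := by
        intro h
        have h1 : Subgroup.centralizer ({a} : Set X) = ⊤ := by
          rw [eq_top_iff]
          intro x _
          rw [Subgroup.mem_centralizer_singleton_iff]
          exact Subgroup.mem_center_iff.mp h x
        rw [h1, Subgroup.card_top, hX] at ha
        have := Nat.pow_right_injective hp.two_le ha
        omega
      have hk1 : k = 1 := by
        have h1 := Subgroup.card_dvd_of_le hZC
        rw [hk, ha] at h1
        have h2 : k ≤ 2 := (Nat.pow_dvd_pow_iff_le_right hp.one_lt).mp h1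
        by_contra hne
        have hk2 : k = 2 := by omega
        have h3 : Subgroup.center X = Subgroup.centralizer ({a} : Set X) :=
          Subgroup.eq_of_le_of_card_ge hZC (by rw [hk, ha, hk2])
        apply haZ
        rw [h3, Subgroup.mem_centralizer_singleton_iff]
      rw [hk1, pow_one] at hk
      have hq : Nat.card (X ⧸ Subgroup.center X) = p ^ n := by
        rw [hk, pow_succ] at hcardq
        exact Nat.eq_of_mul_eq_mul_right hp.pos hcardq
      obtain ⟨Cb, hCb⟩ : ∃ Cb : Subgroup (X ⧸ Subgroup.center X),
          Cb = Subgroup.centralizer ({(QuotientGroup.mk a : X ⧸ Subgroup.center X)} : Set _) :=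
        ⟨_, rfl⟩
      obtain ⟨T, hT⟩ : ∃ T : Subgroup X, T = Cb.comap (QuotientGroup.mk' (Subgroup.center X)) :=
        ⟨_, rfl⟩
      have hTmem : ∀ g ∈ T, g * a * g⁻¹ * a⁻¹ ∈ Subgroup.center X := by
        intro g hg
        rw [hT, Subgroup.mem_comap, hCb, Subgroup.mem_centralizer_singleton_iff] at hg
        have h1 : (QuotientGroup.mk (g * a * g⁻¹ * a⁻¹) : X ⧸ Subgroup.center X) = 1 := by
          have h2 : (QuotientGroup.mk (g * a * g⁻¹ * a⁻¹) : X ⧸ Subgroup.center X)
              = (QuotientGroup.mk' (Subgroup.center X) g) * (QuotientGroup.mk a)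
                * (QuotientGroup.mk' (Subgroup.center X) g)⁻¹ * (QuotientGroup.mk a)⁻¹ := rfl
          rw [h2, hg]; group
        exact (QuotientGroup.eq_one_iff _).mp h1
      have hTle := card_le_of_comm_mem (Subgroup.center X) le_rfl a T hTmem
      have hTcard : Nat.card T = Nat.card Cb * Nat.card (Subgroup.center X) := by
        rw [hT]; exact card_comap_mk _ Cb
      have hle1 : Nat.card (T ⊓ Subgroup.centralizer {a} : Subgroup X) ≤ p ^ 2 := by
        rw [← ha]; exact Subgroup.card_le_of_le inf_le_right
      have hCble : Nat.card Cb ≤ p ^ 2 := by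
        rw [hTcard, hk] at hTle
        have : Nat.card Cb * p ≤ p * p ^ 2 := hTle.trans (Nat.mul_le_mul_left p hle1)
        rw [mul_comm p (p ^ 2)] at this
        exact Nat.le_of_mul_le_mul_right this hp.pos
      have hpgq : IsPGroup p (X ⧸ Subgroup.center X) := IsPGroup.of_card hq
      obtain ⟨j, hj⟩ := (hpgq.to_subgroup Cb).exists_card_eq
      have hj2 : j ≤ 2 := by
        rw [hj] at hCble
        exact (Nat.pow_le_pow_iff_right hp.one_lt).mp hCble
      have hjge : 2 ≤ j := by
        by_contra hlt
        push Not at hlt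
        obtain ⟨k', hk'0, hk'⟩ := IsPGroup.card_center_eq_prime_pow hq (by omega)
        have hZb : Subgroup.center (X ⧸ Subgroup.center X) ≤ Cb := by
          rw [hCb]; exact Subgroup.center_le_centralizer _
        have h1 := Subgroup.card_dvd_of_le hZb
        rw [hk', hj] at h1
        have h2 : k' ≤ j := (Nat.pow_dvd_pow_iff_le_right hp.one_lt).mp h1
        have h3 : Subgroup.center (X ⧸ Subgroup.center X) = Cb :=
          Subgroup.eq_of_le_of_card_ge hZb (by
            rw [hk', hj]; exact Nat.pow_le_pow_right hp.pos (by omega))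
        have h4 : (QuotientGroup.mk a : X ⧸ Subgroup.center X) ∈ Cb := by
          rw [hCb, Subgroup.mem_centralizer_singleton_iff]
        rw [← h3] at h4
        have h5 : Cb = ⊤ := by
          rw [eq_top_iff]
          intro x _
          rw [hCb, Subgroup.mem_centralizer_singleton_iff]
          exact Subgroup.mem_center_iff.mp h4 x
        rw [h5, Subgroup.card_top, hq] at hj
        have := Nat.pow_right_injective hp.two_le hj
        omega
      have hj' : j = 2 := le_antisymm hj2 hjge
      have key := ih (X ⧸ Subgroup.center X) hq ⟨QuotientGroup.mk a, by rw [← hCb, hj, hj']⟩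
      rw [key]
      omega

end S4143aux

/-- Let X be a finite p-group of order p^n containing a non-abelian subgroup B of order p³ with C_X(B) ≤ B. Then X has nilpotency class n − 1 (maximal class). -/
theorem result {X : Type*} [Group X] [Finite X] {p : ℕ} [Fact p.Prime] (n : ℕ) (hX : Nat.card X = p ^ n)
    (B : Subgroup X) (hB : Nat.card B = p ^ 3) (hBna : ¬ IsMulCommutative B) (hC : Subgroup.centralizer (B : Set X) ≤ B) :
    Group.nilpotencyClass X = n - 1 := by
  have hp : p.Prime := Fact.out
  have hpg : IsPGroup p X := IsPGroup.of_card hX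
  have hn3 : 3 ≤ n := by
    have := Subgroup.card_subgroup_dvd_card B
    rw [hB, hX] at this
    exact (Nat.pow_dvd_pow_iff_le_right hp.one_lt).mp this
  have hnt : Nontrivial X := by
    apply Finite.one_lt_card_iff_nontrivial.mp
    rw [hX]
    exact Nat.one_lt_pow (by omega) hp.one_lt
  have hnil : Group.IsNilpotent X := hpg.isNilpotent
  rw [Group.nilpotencyClass_eq_quotient_center_plus_one]
  -- non-commuting a, b
  obtain ⟨a, ha, b, hb, hab⟩ : ∃ a ∈ B, ∃ b ∈ B, a * b ≠ b * a := by
    by_contra hcon
    push Not at hcon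
    exact hBna ⟨⟨fun x y => Subtype.ext (hcon x x.2 y y.2)⟩⟩
  have hcl : Subgroup.closure ({a, b} : Set X) = B := by
    have hle : Subgroup.closure ({a, b} : Set X) ≤ B := by
      rw [Subgroup.closure_le]
      intro x hx
      rcases hx with rfl | rfl
      · exact ha
      · exact hb
    have hd := Subgroup.card_dvd_of_le hle
    rw [hB] at hd
    obtain ⟨j, hj, hj'⟩ := (Nat.dvd_prime_pow hp).mp hd
    have hj3 : j = 3 := by
      by_contra hne
      have hj2 : j ≤ 2 := by omega
      have ha' : a ∈ Subgroup.closure ({a, b} : Set X) := Subgroup.subset_closure (by simp)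
      have hb' : b ∈ Subgroup.closure ({a, b} : Set X) := Subgroup.subset_closure (by simp)
      have := comm_of_card_le_sq (p := p) j hj' hj2
        (⟨a, ha'⟩ : Subgroup.closure ({a, b} : Set X)) ⟨b, hb'⟩
      exact hab (congrArg Subtype.val this)
    exact Subgroup.eq_of_le_of_card_ge hle (by rw [hj', hj3, hB])
  -- the centralizer of B has order at most p
  have hCB : Nat.card (Subgroup.centralizer (B : Set X)) ≤ p := by
    have h1 : (Subgroup.centralizer (B : Set X)).subgroupOf B ≤ Subgroup.center B := by
      intro x hx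
      rw [Subgroup.mem_subgroupOf, Subgroup.mem_centralizer_iff] at hx
      rw [Subgroup.mem_center_iff]
      intro g
      apply Subtype.ext
      exact hx g g.2
    have h2 : Nat.card ((Subgroup.centralizer (B : Set X)).subgroupOf B)
        = Nat.card (Subgroup.centralizer (B : Set X)) := by
      have e : Subgroup.centralizer (B : Set X) ⊓ B = Subgroup.centralizer (B : Set X) :=
        inf_eq_left.mpr hC
      rw [← Subgroup.inf_subgroupOf_right, e]
      exact Nat.card_congr (Subgroup.subgroupOfEquivOfLe hC).toEquiv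
    have h3 : Nat.card (Subgroup.center B) ≤ p := by
      have hpgB : IsPGroup p B := IsPGroup.of_card hB
      obtain ⟨k, hk⟩ := (hpgB.to_subgroup (Subgroup.center B)).exists_card_eq
      have hk3 : k ≤ 3 := by
        have := Subgroup.card_subgroup_dvd_card (Subgroup.center B)
        rw [hk, hB] at this
        exact (Nat.pow_dvd_pow_iff_le_right hp.one_lt).mp this
      have hkne3 : k ≠ 3 := by
        intro h3
        have htop : Subgroup.center B = ⊤ :=
          Subgroup.eq_top_of_card_eq _ (by rw [hk, h3, hB])
        apply hab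
        have h4 : (⟨b, hb⟩ : B) ∈ Subgroup.center B := by rw [htop]; trivial
        have := Subgroup.mem_center_iff.mp h4 ⟨a, ha⟩
        exact congrArg Subtype.val this
      have hkne2 : k ≠ 2 := by
        intro h2
        have hq : Nat.card (B ⧸ Subgroup.center B) = p := by
          have h5 := Subgroup.card_eq_card_quotient_mul_card_subgroup (Subgroup.center B)
          rw [hB, hk, h2] at h5
          have h6 : p * p ^ 2 = Nat.card (B ⧸ Subgroup.center B) * p ^ 2 := by
            rw [← h5]; ring
          exact (Nat.eq_of_mul_eq_mul_right (pow_pos hp.pos 2) h6).symm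
        have : IsCyclic (B ⧸ Subgroup.center B) := isCyclic_of_prime_card hq
        have := commutative_of_cyclic_center_quotient (QuotientGroup.mk' (Subgroup.center B))
          (by rw [QuotientGroup.ker_mk']) (⟨a, ha⟩ : B) ⟨b, hb⟩
        exact hab (congrArg Subtype.val this)
      have hk1 : k ≤ 1 := by omega
      rw [hk]
      calc p ^ k ≤ p ^ 1 := Nat.pow_le_pow_right hp.pos hk1
        _ = p := pow_one p
    rw [← h2]
    exact (Subgroup.card_le_of_le h1).trans h3
  have hZC : Subgroup.center X ≤ Subgroup.centralizer (B : Set X) :=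
    Subgroup.center_le_centralizer _
  have hZB : Subgroup.center X ≤ B := hZC.trans hC
  have hZcard : Nat.card (Subgroup.center X) = p := by
    obtain ⟨k, hk0, hk⟩ := IsPGroup.card_center_eq_prime_pow hX (by omega)
    have h1 := (Subgroup.card_le_of_le hZC).trans hCB
    rw [hk] at h1 ⊢
    have hk1 : k ≤ 1 := by
      by_contra hlt
      push Not at hlt
      have : p ^ 2 ≤ p ^ k := Nat.pow_le_pow_right hp.pos hlt
      have : p < p ^ 2 := by
        calc p = p ^ 1 := (pow_one p).symm
          _ < p ^ 2 := Nat.pow_lt_pow_right hp.one_lt (by norm_num)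
      omega
    have : k = 1 := by omega
    rw [this, pow_one]
  have hq : Nat.card (X ⧸ Subgroup.center X) = p ^ (n - 1) := by
    have h1 := Subgroup.card_eq_card_quotient_mul_card_subgroup (Subgroup.center X)
    rw [hX, hZcard] at h1
    have h2 : p ^ (n - 1) * p = Nat.card (X ⧸ Subgroup.center X) * p := by
      rw [← h1, ← pow_succ]
      congr 1
      omega
    exact (Nat.eq_of_mul_eq_mul_right hp.pos h2).symm
  -- the image of B
  obtain ⟨Bb, hBb⟩ : ∃ Bb : Subgroup (X ⧸ Subgroup.center X),
      Bb = B.map (QuotientGroup.mk' (Subgroup.center X)) := ⟨_, rfl⟩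
  have hBcomap : Bb.comap (QuotientGroup.mk' (Subgroup.center X)) = B := by
    rw [hBb, Subgroup.comap_map_eq, QuotientGroup.ker_mk']
    exact sup_eq_left.mpr hZB
  have hBbcard : Nat.card Bb = p ^ 2 := by
    have h1 := card_comap_mk (Subgroup.center X) Bb
    rw [hBcomap, hB, hZcard] at h1
    have h2 : p ^ 2 * p = Nat.card Bb * p := by
      rw [← h1]; ring
    exact (Nat.eq_of_mul_eq_mul_right hp.pos h2).symm
  have hBbcomm : ∀ x ∈ Bb, ∀ y ∈ Bb, x * y = y * x := by
    intro x hx y hy
    have := comm_of_card_le_sq (p := p) 2 hBbcard le_rfl (⟨x, hx⟩ : Bb) ⟨y, hy⟩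
    exact congrArg Subtype.val this
  have hmkB : ∀ x ∈ B, (QuotientGroup.mk' (Subgroup.center X) x) ∈ Bb := by
    intro x hx
    rw [hBb]
    exact Subgroup.mem_map_of_mem _ hx
  obtain ⟨T, hT⟩ : ∃ T : Subgroup X,
      T = (Subgroup.centralizer (Bb : Set (X ⧸ Subgroup.center X))).comap
        (QuotientGroup.mk' (Subgroup.center X)) := ⟨_, rfl⟩
  have hBT : B ≤ T := by
    intro x hx
    rw [hT, Subgroup.mem_comap, Subgroup.mem_centralizer_iff]
    intro y hy
    exact hBbcomm y hy _ (hmkB x hx)
  have hTmem : ∀ c ∈ B, ∀ g ∈ T, g * c * g⁻¹ * c⁻¹ ∈ Subgroup.center X := by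
    intro c hc g hg
    rw [hT, Subgroup.mem_comap, Subgroup.mem_centralizer_iff] at hg
    have hg' := hg _ (hmkB c hc)
    have h1 : (QuotientGroup.mk (g * c * g⁻¹ * c⁻¹) : X ⧸ Subgroup.center X) = 1 := by
      have h2 : (QuotientGroup.mk (g * c * g⁻¹ * c⁻¹) : X ⧸ Subgroup.center X)
          = (QuotientGroup.mk' (Subgroup.center X) g) * (QuotientGroup.mk' (Subgroup.center X) c)
            * (QuotientGroup.mk' (Subgroup.center X) g)⁻¹
            * (QuotientGroup.mk' (Subgroup.center X) c)⁻¹ := rfl
      rw [h2, ← hg']; group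
    exact (QuotientGroup.eq_one_iff _).mp h1
  have hTB : T = B := by
    apply (Subgroup.eq_of_le_of_card_ge hBT _).symm
    have h1 := card_le_of_comm_mem (Subgroup.center X) le_rfl a T (hTmem a ha)
    have h2 := card_le_of_comm_mem (Subgroup.center X) le_rfl b
      (T ⊓ Subgroup.centralizer {a}) (fun g hg => hTmem b hb g (Subgroup.mem_inf.mp hg).1)
    have h3 : (T ⊓ Subgroup.centralizer {a}) ⊓ Subgroup.centralizer {b}
        ≤ Subgroup.centralizer (B : Set X) := by
      intro g hg
      have hga : g ∈ Subgroup.centralizer ({a} : Set X) :=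
        (Subgroup.mem_inf.mp (Subgroup.mem_inf.mp hg).1).2
      have hgb : g ∈ Subgroup.centralizer ({b} : Set X) := (Subgroup.mem_inf.mp hg).2
      rw [Subgroup.mem_centralizer_singleton_iff] at hga hgb
      rw [Subgroup.mem_centralizer_iff]
      have hle : Subgroup.closure ({a, b} : Set X) ≤ Subgroup.centralizer ({g} : Set X) := by
        rw [Subgroup.closure_le]
        intro x hx
        rcases hx with rfl | rfl
        · exact Subgroup.mem_centralizer_singleton_iff.mpr hga.symm
        · exact Subgroup.mem_centralizer_singleton_iff.mpr hgb.symm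
      intro h hh
      have hh' : h ∈ Subgroup.closure ({a, b} : Set X) := by rw [hcl]; exact hh
      exact Subgroup.mem_centralizer_singleton_iff.mp (hle hh')
    have h4 := (Subgroup.card_le_of_le h3).trans hCB
    rw [hZcard] at h1 h2
    rw [hB]
    calc Nat.card T ≤ p * Nat.card (T ⊓ Subgroup.centralizer {a} : Subgroup X) := h1
      _ ≤ p * (p * Nat.card ((T ⊓ Subgroup.centralizer {a}) ⊓ Subgroup.centralizer {b} : Subgroup X)) :=
          Nat.mul_le_mul_left p h2
      _ ≤ p * (p * p) := Nat.mul_le_mul_left p (Nat.mul_le_mul_left p h4)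
      _ = p ^ 3 := by ring
  have hCBb : Subgroup.centralizer (Bb : Set (X ⧸ Subgroup.center X)) = Bb := by
    have h1 : (Subgroup.centralizer (Bb : Set (X ⧸ Subgroup.center X))) = T.map
        (QuotientGroup.mk' (Subgroup.center X)) := by
      rw [hT, Subgroup.map_comap_eq_self_of_surjective (QuotientGroup.mk'_surjective _)]
    rw [h1, hTB, hBb]
  -- find an element whose centralizer has order p^2
  have key : ∃ x : X ⧸ Subgroup.center X,
      Nat.card (Subgroup.centralizer ({x} : Set (X ⧸ Subgroup.center X))) = p ^ 2 := by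
    have hZb : Subgroup.center (X ⧸ Subgroup.center X) ≤ Bb := by
      rw [← hCBb]; exact Subgroup.center_le_centralizer _
    by_cases hcase : Bb ≤ Subgroup.center (X ⧸ Subgroup.center X)
    · refine ⟨1, ?_⟩
      have h1 : Subgroup.centralizer ({(1 : X ⧸ Subgroup.center X)} : Set _) = ⊤ := by
        rw [eq_top_iff]
        intro x _
        rw [Subgroup.mem_centralizer_singleton_iff]; simp
      have h2 : Subgroup.centralizer (Bb : Set (X ⧸ Subgroup.center X)) = ⊤ := by
        rw [eq_top_iff]
        intro x _
        rw [Subgroup.mem_centralizer_iff]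
        intro y hy
        exact (Subgroup.mem_center_iff.mp (hcase hy) x).symm
      rw [h1, ← h2, hCBb, hBbcard]
    · obtain ⟨x, hxB, hxZ⟩ := SetLike.not_le_iff_exists.mp hcase
      refine ⟨x, ?_⟩
      have hpgq : IsPGroup p (X ⧸ Subgroup.center X) := IsPGroup.of_card hq
      obtain ⟨W, hW⟩ : ∃ W : Subgroup (X ⧸ Subgroup.center X),
          W = Subgroup.center (X ⧸ Subgroup.center X) ⊔ Subgroup.zpowers x := ⟨_, rfl⟩
      have hWB : W ≤ Bb := by
        rw [hW]; exact sup_le hZb (Subgroup.zpowers_le.mpr hxB)
      have hWeq : W = Bb := by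
        apply Subgroup.eq_of_le_of_card_ge hWB
        obtain ⟨k', hk'0, hk'⟩ := IsPGroup.card_center_eq_prime_pow hq (by omega)
        obtain ⟨j, hj⟩ := (hpgq.to_subgroup W).exists_card_eq
        have hZW : Subgroup.center (X ⧸ Subgroup.center X) ≤ W := by rw [hW]; exact le_sup_left
        have hne : Subgroup.center (X ⧸ Subgroup.center X) ≠ W := by
          intro h
          apply hxZ
          rw [h, hW]
          exact (le_sup_right : Subgroup.zpowers x ≤ _) (Subgroup.mem_zpowers x)
        have hlt : Nat.card (Subgroup.center (X ⧸ Subgroup.center X)) < Nat.card W := by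
          by_contra hge
          push Not at hge
          exact hne (Subgroup.eq_of_le_of_card_ge hZW hge)
        rw [hk', hj] at hlt
        have hkj : k' < j := (Nat.pow_lt_pow_iff_right hp.one_lt).mp hlt
        rw [hBbcard, hj]
        exact Nat.pow_le_pow_right hp.pos (by omega)
      have hcent : Subgroup.centralizer ({x} : Set (X ⧸ Subgroup.center X)) = Bb := by
        apply le_antisymm
        · intro g hg
          rw [Subgroup.mem_centralizer_singleton_iff] at hg
          rw [← hCBb, Subgroup.mem_centralizer_iff]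
          have hle : W ≤ Subgroup.centralizer ({g} : Set (X ⧸ Subgroup.center X)) := by
            rw [hW]
            apply sup_le (Subgroup.center_le_centralizer _)
            rw [Subgroup.zpowers_le]
            exact Subgroup.mem_centralizer_singleton_iff.mpr hg.symm
          intro y hy
          have hy' : y ∈ W := by rw [hWeq]; exact hy
          exact Subgroup.mem_centralizer_singleton_iff.mp (hle hy')
        · intro y hy
          rw [Subgroup.mem_centralizer_singleton_iff]
          exact hBbcomm y hy x hxB
      rw [hcent, hBbcard]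
  rw [suzuki_elt (n - 1) _ hq key]
  omega

end Cfsg.Agent.S4143
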