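import Cfsg.Statements.S4152
import Mathlib

set_option autoImplicit false
open Cfsg

namespace Cfsg.Agent.S4152

def IsPi (π : Set ℕ) {H : Type*} [Group H] (x : H) : Prop :=
  ∀ q : ℕ, q.Prime → q ∣ orderOf x → q ∈ π

lemma orderOf_conj_eq {H : Type*} [Group H] (g x : H) : orderOf (g * x * g⁻¹) = orderOf x :=
  orderOf_injective (MulAut.conj g).toMonoidHom (MulAut.conj g).injective x

lemma isPi_conj {π : Set ℕ} {H : Type*} [Group H] (g x : H) (hx : IsPi π x) :
    IsPi π (g * x * g⁻¹) := by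
  intro s hs hd
  rw [orderOf_conj_eq] at hd
  exact hx s hs hd

lemma isPi_of_isConj {π : Set ℕ} {H : Type*} [Group H] {x y : H} (h : IsConj x y)
    (hx : IsPi π x) : IsPi π y := by
  obtain ⟨c, rfl⟩ := isConj_iff.mp h
  exact isPi_conj c x hx

def piSub (π : Set ℕ) (H : Type*) [Group H] : SubMulAction (ConjAct H) H where
  carrier := {x | IsPi π x}
  smul_mem' := by
    intro c x hx
    have : c • x = ConjAct.ofConjAct c * x * (ConjAct.ofConjAct c)⁻¹ := ConjAct.smul_def c x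
    rw [Set.mem_setOf_eq, this]
    exact isPi_conj _ _ hx

/-- commuting pairs count: `#{(x,g) : x a π-element, [x,g]=1} = k_π(H) |H|`. -/
lemma cp_eq (π : Set ℕ) (H : Type*) [Group H] [Finite H] :
    Nat.card {q : H × H // IsPi π q.1 ∧ Commute q.1 q.2} =
      Nat.card {c : ConjClasses H // ∀ q : ℕ, q.Prime →
        (∃ g : H, ConjClasses.mk g = c ∧ q ∣ orderOf g) → q ∈ π} * Nat.card H := by
  classical
  haveI := Fintype.ofFinite H
  have hB := MulAction.sum_card_fixedBy_eq_card_orbits_mul_card_group (ConjAct H) (piSub π H)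
  have h1 : Nat.card {q : H × H // IsPi π q.1 ∧ Commute q.1 q.2} =
      ∑ a : ConjAct H, Fintype.card (MulAction.fixedBy (piSub π H) a) := by
    rw [← Fintype.card_sigma, ← Nat.card_eq_fintype_card]
    refine Nat.card_congr
      { toFun := fun q => ⟨ConjAct.toConjAct q.1.2, ⟨⟨q.1.1, q.2.1⟩, ?_⟩⟩
        invFun := fun s => ⟨(s.2.1.1, ConjAct.ofConjAct s.1), s.2.1.2, ?_⟩
        left_inv := ?_
        right_inv := ?_ }
    · apply Subtype.ext
      show q.1.2 * q.1.1 * q.1.2⁻¹ = q.1.1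
      rw [mul_inv_eq_iff_eq_mul]
      exact q.2.2.eq.symm
    · have h := s.2.2
      have h' : ConjAct.ofConjAct s.1 * s.2.1.1 * (ConjAct.ofConjAct s.1)⁻¹ = s.2.1.1 :=
        congrArg Subtype.val h
      rw [mul_inv_eq_iff_eq_mul] at h'
      exact h'.symm
    · rintro ⟨⟨x, g⟩, h1, h2⟩
      rfl
    · rintro ⟨a, ⟨⟨x, hx⟩, hfix⟩⟩
      rfl
  have h2 : Fintype.card (Quotient (MulAction.orbitRel (ConjAct H) (piSub π H))) =
      Nat.card {c : ConjClasses H // ∀ q : ℕ, q.Prime →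
        (∃ g : H, ConjClasses.mk g = c ∧ q ∣ orderOf g) → q ∈ π} := by
    rw [← Nat.card_eq_fintype_card]
    let f : Quotient (MulAction.orbitRel (ConjAct H) (piSub π H)) →
        {c : ConjClasses H // ∀ q : ℕ, q.Prime →
          (∃ g : H, ConjClasses.mk g = c ∧ q ∣ orderOf g) → q ∈ π} :=
      Quotient.lift (fun x => ⟨ConjClasses.mk x.1, fun q hq hy => by
        obtain ⟨y, hy1, hy2⟩ := hy
        exact isPi_of_isConj (ConjClasses.mk_eq_mk_iff_isConj.mp hy1).symm x.2 q hq hy2⟩)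
        (by
          intro x y hxy
          apply Subtype.ext
          show ConjClasses.mk x.1 = ConjClasses.mk y.1
          have hxy' : (MulAction.orbitRel (ConjAct H) (piSub π H)) x y := hxy
          rw [MulAction.orbitRel_apply, MulAction.mem_orbit_iff] at hxy'
          obtain ⟨a, ha⟩ := hxy'
          rw [ConjClasses.mk_eq_mk_iff_isConj]
          refine (isConj_iff.mpr ⟨ConjAct.ofConjAct a, ?_⟩).symm
          exact congrArg Subtype.val ha)
    refine Nat.card_eq_of_bijective f ⟨?_, ?_⟩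
    · intro a b hab
      induction a using Quotient.inductionOn with
      | _ x =>
        induction b using Quotient.inductionOn with
        | _ y =>
          have h1 : ConjClasses.mk x.1 = ConjClasses.mk y.1 := congrArg Subtype.val hab
          obtain ⟨c, hc⟩ := isConj_iff.mp (ConjClasses.mk_eq_mk_iff_isConj.mp h1)
          apply Quotient.sound
          show (MulAction.orbitRel (ConjAct H) (piSub π H)) x y
          rw [MulAction.orbitRel_apply, MulAction.mem_orbit_iff]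
          refine ⟨ConjAct.toConjAct c⁻¹, ?_⟩
          apply Subtype.ext
          show c⁻¹ * y.1 * c⁻¹⁻¹ = x.1
          rw [← hc]; group
    · rintro ⟨c, hc⟩
      obtain ⟨g, rfl⟩ := ConjClasses.exists_rep c
      have hg : IsPi π g := fun q hq hd => hc q hq ⟨g, rfl, hd⟩
      exact ⟨Quotient.mk _ ⟨g, hg⟩, rfl⟩
  rw [h1, hB, h2]
  congr 1
  rw [Nat.card_eq_fintype_card]
  rfl

lemma card_le_of_fibers {X Y : Type*} [Finite X] [Finite Y] (f : X → Y) (c : ℕ)
    (h : ∀ y, Nat.card {x // f x = y} ≤ c) : Nat.card X ≤ Nat.card Y * c := by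
  classical
  haveI := Fintype.ofFinite Y
  rw [Nat.card_congr (Equiv.sigmaFiberEquiv f).symm, Nat.card_sigma]
  calc ∑ y, Nat.card {x // f x = y} ≤ ∑ _y : Y, c := Finset.sum_le_sum (fun y _ => h y)
    _ = Nat.card Y * c := by simp [Nat.card_eq_fintype_card]

lemma exists_pi_split (π : Set ℕ) (e : ℕ) : e ≠ 0 → ∃ a b : ℕ, e = a * b ∧
    (∀ q : ℕ, q.Prime → q ∣ a → q ∈ π) ∧ (∀ q : ℕ, q.Prime → q ∣ b → q ∉ π) := by
  classical
  induction e using Nat.recOnMul with
  | zero => intro h; exact absurd rfl h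
  | one =>
    intro _
    exact ⟨1, 1, rfl, fun q hq h => absurd (Nat.dvd_one.mp h) hq.ne_one,
      fun q hq h => absurd (Nat.dvd_one.mp h) hq.ne_one⟩
  | prime p hp =>
    intro _
    by_cases hpπ : p ∈ π
    · refine ⟨p, 1, (mul_one p).symm, fun q hq h => ?_,
        fun q hq h => absurd (Nat.dvd_one.mp h) hq.ne_one⟩
      rw [(Nat.prime_dvd_prime_iff_eq hq hp).mp h]; exact hpπ
    · refine ⟨1, p, (one_mul p).symm, fun q hq h => absurd (Nat.dvd_one.mp h) hq.ne_one,
        fun q hq h => ?_⟩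
      rw [(Nat.prime_dvd_prime_iff_eq hq hp).mp h]; exact hpπ
  | mul m n ihm ihn =>
    intro hmn
    obtain ⟨a1, b1, h1, ha1, hb1⟩ := ihm (by rintro rfl; simp at hmn)
    obtain ⟨a2, b2, h2, ha2, hb2⟩ := ihn (by rintro rfl; simp at hmn)
    refine ⟨a1 * a2, b1 * b2, by rw [h1, h2]; ring, fun q hq h => ?_, fun q hq h => ?_⟩
    · rcases (Nat.Prime.dvd_mul hq).mp h with h | h
      · exact ha1 q hq h
      · exact ha2 q hq h
    · rcases (Nat.Prime.dvd_mul hq).mp h with h | h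
      · exact hb1 q hq h
      · exact hb2 q hq h

/-- global exponents for π-parts -/
lemma exists_exponents {G : Type*} [Group G] [Finite G] (π : Set ℕ) :
    ∃ u v : ℕ, (∀ g : G, IsPi π (g ^ u)) ∧ (∀ g : G, g ^ u * g ^ v = g) ∧
      (∀ y : G, IsPi π y → y ^ u = y) ∧ (∀ g : G, (g ^ v) ^ u = 1) := by
  obtain ⟨a, b, hab, ha, hb⟩ := exists_pi_split π (Nat.card G) Nat.card_pos.ne'
  have hcop : Nat.Coprime a b := by
    apply Nat.coprime_of_dvd
    intro k hk hka hkb
    exact hb k hk hkb (ha k hk hka)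
  obtain ⟨u, hu1, hu0⟩ := Nat.chineseRemainder hcop 1 0
  obtain ⟨v, hv0, hv1⟩ := Nat.chineseRemainder hcop 0 1
  have hbu : b ∣ u := (Nat.modEq_zero_iff_dvd).mp hu0
  have hav : a ∣ v := (Nat.modEq_zero_iff_dvd).mp hv0
  have hord : ∀ g : G, orderOf g ∣ a * b := fun g => hab ▸ orderOf_dvd_natCard g
  refine ⟨u, v, ?_, ?_, ?_, ?_⟩
  · intro g q hq hd
    apply ha q hq
    refine hd.trans (orderOf_dvd_of_pow_eq_one ?_)
    rw [← pow_mul]
    apply orderOf_dvd_iff_pow_eq_one.mp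
    refine (hord g).trans ?_
    rw [mul_comm u a]
    exact Nat.mul_dvd_mul_left a hbu
  · intro g
    rw [← pow_add]
    have h1 : u + v ≡ 1 [MOD a * b] := by
      rw [← Nat.modEq_and_modEq_iff_modEq_mul hcop]
      constructor
      · simpa using Nat.ModEq.add hu1 hv0
      · simpa using Nat.ModEq.add hu0 hv1
    have h2 : u + v ≡ 1 [MOD orderOf g] := h1.of_dvd (hord g)
    have := pow_eq_pow_iff_modEq.mpr h2
    rw [this, pow_one]
  · intro y hy
    have hya : orderOf y ∣ a := by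
      have hc : Nat.Coprime (orderOf y) b := by
        apply Nat.coprime_of_dvd
        intro k hk hky hkb
        exact hb k hk hkb (hy k hk hky)
      exact hc.dvd_of_dvd_mul_right (hord y)
    have h2 : u ≡ 1 [MOD orderOf y] := hu1.of_dvd hya
    have := pow_eq_pow_iff_modEq.mpr h2
    rw [this, pow_one]
  · intro g
    rw [← pow_mul]
    apply orderOf_dvd_iff_pow_eq_one.mp
    exact (hord g).trans (Nat.mul_dvd_mul hav hbu)


/-- Let G be a finite group, N a normal subgroup and π a set of primes. Then the number of conjugacy classes of π-elements of G (elements whose order is divisible only by primes in π) is at most the number of conjugacy classes of π-elements of N (under conjugation by N) times the number of conjugacy classes of π-elements of G/N. -/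
theorem result {G : Type*} [Group G] [Finite G] (N : Subgroup G) [N.Normal] (π : Set ℕ) :
    Nat.card {C : ConjClasses G // ∀ q : ℕ, q.Prime → (∃ g : G, ConjClasses.mk g = C ∧ q ∣ orderOf g) → q ∈ π} ≤ Nat.card {C : ConjClasses N // ∀ q : ℕ, q.Prime → (∃ g : N, ConjClasses.mk g = C ∧ q ∣ orderOf g) → q ∈ π} * Nat.card {C : ConjClasses (G ⧸ N) // ∀ q : ℕ, q.Prime → (∃ g : (G ⧸ N), ConjClasses.mk g = C ∧ q ∣ orderOf g) → q ∈ π} := by
  classical
  obtain ⟨u, v, hu_pi, huv, hyu, hvu⟩ := exists_exponents (G := G) π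
  -- the fiber bound
  have hfib : ∀ a b : G ⧸ N,
      ({q : G × G | (q.1 : G ⧸ N) = a ∧ (q.2 : G ⧸ N) = b ∧ IsPi π q.1 ∧ Commute q.1 q.2}).ncard ≤
        Nat.card {q : N × N // IsPi π q.1 ∧ Commute q.1 q.2} := by
    intro a b
    have hex1 : ∀ g : G, ∃ h0 : G, (∃ h' : G, (h' : G ⧸ N) = b ∧ Commute g h') →
        ((h0 : G ⧸ N) = b ∧ Commute g h0) := by
      intro g
      by_cases hh : ∃ h' : G, (h' : G ⧸ N) = b ∧ Commute g h'
      · exact ⟨hh.choose, fun _ => hh.choose_spec⟩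
      · exact ⟨1, fun h => absurd h hh⟩
    choose h₀ hh₀ using hex1
    have hex2 : ∀ n : G, ∃ y0 : G, (∃ y' : G, (y' : G ⧸ N) = a ∧ Commute y' n) →
        ((y0 : G ⧸ N) = a ∧ Commute y0 n) := by
      intro n
      by_cases hh : ∃ y' : G, (y' : G ⧸ N) = a ∧ Commute y' n
      · exact ⟨hh.choose, fun _ => hh.choose_spec⟩
      · exact ⟨1, fun h => absurd h hh⟩
    choose y₀ hy₀ using hex2
    have step1 : ({q : G × G | (q.1 : G ⧸ N) = a ∧ (q.2 : G ⧸ N) = b ∧ IsPi π q.1 ∧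
        Commute q.1 q.2}).ncard ≤
        ({q : G × G | (q.1 : G ⧸ N) = a ∧ q.2 ∈ N ∧ IsPi π q.1 ∧ Commute q.1 q.2}).ncard := by
      apply Set.ncard_le_ncard_of_injOn (fun q : G × G => (q.1, (h₀ q.1)⁻¹ * q.2))
      · rintro ⟨g, h⟩ ⟨h1, h2, h3, h4⟩
        obtain ⟨h5, h6⟩ := hh₀ g ⟨h, h2, h4⟩
        refine ⟨h1, ?_, h3, ?_⟩
        · exact QuotientGroup.eq.mp (h5.trans h2.symm)
        · exact Commute.mul_right h6.inv_right h4
      · rintro ⟨g, h⟩ _ ⟨g', h'⟩ _ heq
        simp only [Prod.mk.injEq] at heq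
        obtain ⟨rfl, h2⟩ := heq
        rw [mul_left_cancel h2]
    have step2 : ({q : G × G | (q.1 : G ⧸ N) = a ∧ q.2 ∈ N ∧ IsPi π q.1 ∧ Commute q.1 q.2}).ncard ≤
        ({q : G × G | (q.1 : G ⧸ N) = a ∧ q.2 ∈ N ∧ IsPi π q.2 ∧ Commute q.1 q.2}).ncard := by
      apply Set.ncard_le_ncard_of_injOn (fun q : G × G => (q.1 * q.2 ^ v, q.2 ^ u))
      · rintro ⟨g, n⟩ ⟨h1, h2, h3, h4⟩
        refine ⟨?_, Subgroup.pow_mem N h2 u, hu_pi n, ?_⟩
        · show ((g * n ^ v : G) : G ⧸ N) = a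
          rw [QuotientGroup.mk_mul, (QuotientGroup.eq_one_iff _).mpr (Subgroup.pow_mem N h2 v),
            mul_one]
          exact h1
        · exact Commute.mul_left (h4.pow_right u) ((Commute.refl n).pow_pow v u)
      · rintro ⟨g, n⟩ ⟨h1, h2, h3, h4⟩ ⟨g', n'⟩ ⟨h1', h2', h3', h4'⟩ heq
        simp only [Prod.mk.injEq] at heq
        obtain ⟨e1, e2⟩ := heq
        have k1 : (g * n ^ v) ^ u = g := by
          rw [(h4.pow_right v).mul_pow, hyu g h3, hvu n, mul_one]
        have k1' : (g' * n' ^ v) ^ u = g' := by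
          rw [(h4'.pow_right v).mul_pow, hyu g' h3', hvu n', mul_one]
        have hg : g = g' := by rw [← k1, ← k1', e1]
        subst hg
        have e3 : n ^ v = n' ^ v := mul_left_cancel e1
        have hn : n = n' := by rw [← huv n, ← huv n', e2, e3]
        rw [hn]
    have step3 : ({q : G × G | (q.1 : G ⧸ N) = a ∧ q.2 ∈ N ∧ IsPi π q.2 ∧ Commute q.1 q.2}).ncard ≤
        ({q : G × G | q.1 ∈ N ∧ q.2 ∈ N ∧ IsPi π q.1 ∧ Commute q.1 q.2}).ncard := by
      apply Set.ncard_le_ncard_of_injOn (fun q : G × G => (q.2, (y₀ q.2)⁻¹ * q.1))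
      · rintro ⟨g, n⟩ ⟨h1, h2, h3, h4⟩
        obtain ⟨h5, h6⟩ := hy₀ n ⟨g, h1, h4⟩
        refine ⟨h2, ?_, h3, ?_⟩
        · exact QuotientGroup.eq.mp (h5.trans h1.symm)
        · exact (Commute.mul_left h6.inv_left h4).symm
      · rintro ⟨g, n⟩ _ ⟨g', n'⟩ _ heq
        simp only [Prod.mk.injEq] at heq
        obtain ⟨rfl, h2⟩ := heq
        rw [mul_left_cancel h2]
    have step4 : ({q : G × G | q.1 ∈ N ∧ q.2 ∈ N ∧ IsPi π q.1 ∧ Commute q.1 q.2}).ncard ≤
        Nat.card {q : N × N // IsPi π q.1 ∧ Commute q.1 q.2} := by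
      rw [← Nat.card_coe_set_eq]
      apply Nat.card_le_card_of_injective
        (fun q : ↥{q : G × G | q.1 ∈ N ∧ q.2 ∈ N ∧ IsPi π q.1 ∧ Commute q.1 q.2} =>
          (⟨(⟨q.1.1, q.2.1⟩, ⟨q.1.2, q.2.2.1⟩), by
            refine ⟨?_, ?_⟩
            · intro s hs hd
              apply q.2.2.2.1 s hs
              rw [← Subgroup.orderOf_mk q.1.1 q.2.1]
              exact hd
            · exact Subtype.ext q.2.2.2.2.eq⟩ : {q : N × N // IsPi π q.1 ∧ Commute q.1 q.2}))
      rintro ⟨⟨g, n⟩, hq⟩ ⟨⟨g', n'⟩, hq'⟩ heq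
      simp only [Subtype.mk.injEq, Prod.mk.injEq] at heq
      obtain ⟨rfl, rfl⟩ := heq
      rfl
    exact step1.trans (step2.trans (step3.trans step4))
  -- fibration of commuting pairs
  have hmain : Nat.card {q : G × G // IsPi π q.1 ∧ Commute q.1 q.2} ≤
      Nat.card {q : (G ⧸ N) × (G ⧸ N) // IsPi π q.1 ∧ Commute q.1 q.2} *
        Nat.card {q : N × N // IsPi π q.1 ∧ Commute q.1 q.2} := by
    apply card_le_of_fibers
      (fun x : {q : G × G // IsPi π q.1 ∧ Commute q.1 q.2} =>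
        (⟨((x.1.1 : G ⧸ N), (x.1.2 : G ⧸ N)), by
          refine ⟨?_, ?_⟩
          · intro s hs hd
            exact x.2.1 s hs (hd.trans (orderOf_map_dvd (QuotientGroup.mk' N) x.1.1))
          · exact x.2.2.map (QuotientGroup.mk' N)⟩ :
          {q : (G ⧸ N) × (G ⧸ N) // IsPi π q.1 ∧ Commute q.1 q.2}))
    rintro ⟨⟨a, b⟩, hab⟩
    refine le_trans ?_ (hfib a b)
    rw [← Nat.card_coe_set_eq]
    apply Nat.card_le_card_of_injective
      (fun x : {x : {q : G × G // IsPi π q.1 ∧ Commute q.1 q.2} //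
          (⟨((x.1.1 : G ⧸ N), (x.1.2 : G ⧸ N)), _⟩ :
            {q : (G ⧸ N) × (G ⧸ N) // IsPi π q.1 ∧ Commute q.1 q.2}) = ⟨(a, b), hab⟩} =>
        (⟨x.1.1, by
          have h := x.2
          simp only [Subtype.mk.injEq, Prod.mk.injEq] at h
          exact ⟨h.1, h.2, x.1.2.1, x.1.2.2⟩⟩ :
          ↥{q : G × G | (q.1 : G ⧸ N) = a ∧ (q.2 : G ⧸ N) = b ∧ IsPi π q.1 ∧ Commute q.1 q.2}))
    rintro ⟨⟨x, hx⟩, hx'⟩ ⟨⟨y, hy⟩, hy'⟩ heq
    simp only [Subtype.mk.injEq] at heq
    subst heq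
    rfl
  rw [cp_eq π G, cp_eq π (G ⧸ N), cp_eq π N] at hmain
  have hcard : Nat.card G = Nat.card (G ⧸ N) * Nat.card N :=
    Subgroup.card_eq_card_quotient_mul_card_subgroup N
  have hpos : 0 < Nat.card G := Nat.card_pos
  rw [hcard] at hmain hpos
  have : Nat.card {C : ConjClasses G // ∀ q : ℕ, q.Prime → (∃ g : G, ConjClasses.mk g = C ∧ q ∣ orderOf g) → q ∈ π} * (Nat.card (G ⧸ N) * Nat.card N) ≤ (Nat.card {C : ConjClasses N // ∀ q : ℕ, q.Prime → (∃ g : N, ConjClasses.mk g = C ∧ q ∣ orderOf g) → q ∈ π} * Nat.card {C : ConjClasses (G ⧸ N) // ∀ q : ℕ, q.Prime → (∃ g : (G ⧸ N), ConjClasses.mk g = C ∧ q ∣ orderOf g) → q ∈ π}) * (Nat.card (G ⧸ N) * Nat.card N) := by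
    calc _ ≤ _ := hmain
      _ = _ := by ring
  exact Nat.le_of_mul_le_mul_right this hpos

end Cfsg.Agent.S4152
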