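import Cfsg.Statements.S4153
-- import your own Cfsg.Agent.* helpers here
import Mathlib

set_option autoImplicit false
open Cfsg

namespace Cfsg.Agent.S4153

open scoped Pointwise

theorem mem_conj_smul {G : Type*} [Group G] (g y : G) (M : Subgroup G) :
    y ∈ MulAut.conj g • M ↔ g⁻¹ * y * g ∈ M := by
  rw [Subgroup.mem_pointwise_smul_iff_inv_smul_mem]
  have e : (MulAut.conj g)⁻¹ • y = g⁻¹ * y * g := by simp [MulAut.smul_def]
  rw [e]

theorem orderOf_of_mem_sylow {G : Type*} [Group G] {p : ℕ} [Fact p.Prime] (P : Sylow p G) {g : G}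
    (hg : g ∈ P) : ∃ k : ℕ, orderOf g = p ^ k := by
  obtain ⟨k, hk⟩ := (IsPGroup.iff_orderOf.mp P.isPGroup') ⟨g, hg⟩
  exact ⟨k, by rw [← hk, Subgroup.orderOf_mk]⟩

theorem exists_conj_mem_sylow {G : Type*} [Group G] [Finite G] {p : ℕ} [Fact p.Prime]
    (P : Sylow p G) {g : G} (hg : ∃ k : ℕ, orderOf g = p ^ k) : ∃ t : G, t * g * t⁻¹ ∈ P := by
  obtain ⟨k, hk⟩ := hg
  have hz : IsPGroup p (Subgroup.zpowers g) :=
    IsPGroup.of_card (n := k) (by rw [Nat.card_zpowers, hk])
  obtain ⟨Q, hQ⟩ := hz.exists_le_sylow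
  obtain ⟨t, ht⟩ := MulAction.exists_smul_eq G Q P
  refine ⟨t, ?_⟩
  have h1 : t * g * t⁻¹ ∈ MulAut.conj t • (Q : Subgroup G) := by
    rw [mem_conj_smul]
    have : t⁻¹ * (t * g * t⁻¹) * t = g := by group
    rw [this]
    exact hQ (Subgroup.mem_zpowers g)
  have h2 : ((t • Q : Sylow p G) : Subgroup G) = MulAut.conj t • (Q : Subgroup G) := by
    rw [Sylow.smul_def]; rfl
  rw [← ht]
  show t * g * t⁻¹ ∈ ((t • Q : Sylow p G) : Subgroup G)
  rw [h2]; exact h1

theorem main_ineq {G : Type*} [Group G] [Finite G] (p : ℕ) [Fact p.Prime] (N : Subgroup G)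
    [N.Normal] (P : Sylow p G) :
    Nat.card {g : (G ⧸ N) // ∃ k : ℕ, orderOf g = p ^ k}
        * Nat.card (N.subgroupOf (P : Subgroup G))
      ≤ Nat.card {g : G // ∃ k : ℕ, orderOf g = p ^ k} ∧
    (N ≤ Subgroup.center G → Nat.card {g : (G ⧸ N) // ∃ k : ℕ, orderOf g = p ^ k}
        * Nat.card (N.subgroupOf (P : Subgroup G))
      = Nat.card {g : G // ∃ k : ℕ, orderOf g = p ^ k}) := by
  classical
  have hπs : Function.Surjective (QuotientGroup.mk' N) := QuotientGroup.mk'_surjective N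
  have hch : ∀ x : {g : G ⧸ N // ∃ k : ℕ, orderOf g = p ^ k},
      ∃ g₁ t : G, g₁ ∈ P ∧ QuotientGroup.mk' N (t⁻¹ * g₁ * t) = x.1 := by
    intro x
    obtain ⟨s, hs⟩ := exists_conj_mem_sylow (P.mapSurjective hπs) x.2
    obtain ⟨g₁, hg₁, hg₁x⟩ := hs
    obtain ⟨t, rfl⟩ := hπs s
    refine ⟨g₁, t, hg₁, ?_⟩
    rw [map_mul, map_mul, hg₁x, map_inv]; group
  choose g₁ t hg₁ hπ using hch
  let F : {g : G ⧸ N // ∃ k : ℕ, orderOf g = p ^ k} × (N.subgroupOf (P : Subgroup G)) →
      {g : G // ∃ k : ℕ, orderOf g = p ^ k} :=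
    fun xy => ⟨(t xy.1)⁻¹ * (g₁ xy.1 * ((xy.2 : (P : Subgroup G)) : G)) * t xy.1, by
      have h1 : g₁ xy.1 * ((xy.2 : (P : Subgroup G)) : G) ∈ P := mul_mem (hg₁ xy.1) xy.2.1.2
      obtain ⟨k, hk⟩ := orderOf_of_mem_sylow P h1
      refine ⟨k, ?_⟩
      rw [← hk]
      have := (MulAut.conj (t xy.1)⁻¹).orderOf_eq (g₁ xy.1 * ((xy.2 : (P : Subgroup G)) : G))
      simpa [MulAut.conj_apply] using this⟩
  have hFπ : ∀ xy, QuotientGroup.mk' N (F xy).1 = xy.1.1 := by
    intro xy
    show QuotientGroup.mk' N ((t xy.1)⁻¹ * (g₁ xy.1 * ((xy.2 : (P : Subgroup G)) : G)) * t xy.1)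
      = _
    rw [← hπ xy.1]
    have hy : QuotientGroup.mk' N ((xy.2 : (P : Subgroup G)) : G) = 1 :=
      (QuotientGroup.eq_one_iff _).mpr (Subgroup.mem_subgroupOf.mp xy.2.2)
    simp only [map_mul, hy, mul_one]
  have hFinj : Function.Injective F := by
    intro xy xy' h
    have h1 : xy.1 = xy'.1 := by
      apply Subtype.ext
      rw [← hFπ xy, ← hFπ xy', h]
    have h2 : (F xy).1 = (F xy').1 := congrArg Subtype.val h
    obtain ⟨x, y⟩ := xy
    obtain ⟨x', y'⟩ := xy'
    simp only at h1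
    subst h1
    have h3 : ((y : (P : Subgroup G)) : G) = ((y' : (P : Subgroup G)) : G) := by
      have : (t x)⁻¹ * (g₁ x * ((y : (P : Subgroup G)) : G)) * t x
          = (t x)⁻¹ * (g₁ x * ((y' : (P : Subgroup G)) : G)) * t x := h2
      simpa using this
    exact Prod.ext rfl (Subtype.ext (Subtype.ext h3))
  constructor
  · have := Nat.card_le_card_of_injective F hFinj
    rwa [Nat.card_prod] at this
  · intro hN
    have hFsurj : Function.Surjective F := by
      intro g
      obtain ⟨g, k, hk⟩ := g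
      have hx : ∃ j : ℕ, orderOf (QuotientGroup.mk' N g) = p ^ j := by
        have hdvd : orderOf (QuotientGroup.mk' N g) ∣ p ^ k := by
          rw [← hk]; exact orderOf_map_dvd _ g
        obtain ⟨j, _, hj⟩ := (Nat.dvd_prime_pow Fact.out).mp hdvd
        exact ⟨j, hj⟩
      obtain ⟨x, hxdef⟩ : ∃ x : {g : G ⧸ N // ∃ k : ℕ, orderOf g = p ^ k},
          x = ⟨QuotientGroup.mk' N g, hx⟩ := ⟨_, rfl⟩
      obtain ⟨h, hh⟩ : ∃ h : G, h = (t x)⁻¹ * g₁ x * t x := ⟨_, rfl⟩
      have hπh : QuotientGroup.mk' N h = QuotientGroup.mk' N g := by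
        rw [hh, hπ x, hxdef]
      obtain ⟨n, hn⟩ : ∃ n : G, n = h⁻¹ * g := ⟨_, rfl⟩
      have hnN : n ∈ N := by
        rw [← QuotientGroup.eq_one_iff, ← QuotientGroup.mk'_apply, hn, map_mul, map_inv, hπh,
          inv_mul_cancel]
      have hnZ : n ∈ Subgroup.center G := hN hnN
      rw [Subgroup.mem_center_iff] at hnZ
      have hg : g = h * n := by rw [hn]; group
      have hcomm : Commute h⁻¹ g := by
        apply Commute.inv_left
        show h * g = g * h
        rw [hg, mul_assoc, hnZ h]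
      have hhP : (t x) * h * (t x)⁻¹ ∈ P := by
        have : (t x) * h * (t x)⁻¹ = g₁ x := by rw [hh]; group
        rw [this]; exact hg₁ x
      obtain ⟨a, ha⟩ := orderOf_of_mem_sylow P hhP
      have ha' : orderOf h = p ^ a := by
        rw [← ha]
        have := (MulAut.conj (t x)).orderOf_eq h
        simpa [MulAut.conj_apply] using this.symm
      have hnpow : n ^ (p ^ a * p ^ k) = 1 := by
        rw [hn, hcomm.mul_pow, inv_pow, pow_mul, ← ha', pow_orderOf_eq_one, one_pow, inv_one,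
          one_mul, mul_comm, pow_mul, ← hk, pow_orderOf_eq_one, one_pow]
      have hnord : ∃ j : ℕ, orderOf n = p ^ j := by
        have hdvd : orderOf n ∣ p ^ (a + k) := by
          rw [pow_add]; exact orderOf_dvd_of_pow_eq_one hnpow
        obtain ⟨j, _, hj⟩ := (Nat.dvd_prime_pow Fact.out).mp hdvd
        exact ⟨j, hj⟩
      obtain ⟨s, hs⟩ := exists_conj_mem_sylow P hnord
      have hnP : n ∈ P := by
        have : s * n * s⁻¹ = n := by rw [hnZ s]; group
        rwa [this] at hs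
      refine ⟨(x, ⟨⟨n, hnP⟩, Subgroup.mem_subgroupOf.mpr hnN⟩), ?_⟩
      apply Subtype.ext
      show (t x)⁻¹ * (g₁ x * n) * t x = g
      rw [hg, hh, mul_assoc, mul_assoc, ← hnZ (t x)]
      group
    have := Nat.card_congr (Equiv.ofBijective F ⟨hFinj, hFsurj⟩)
    rwa [Nat.card_prod] at this

theorem card_sylow_decomp {G : Type*} [Group G] [Finite G] (p : ℕ) [Fact p.Prime] (N : Subgroup G)
    [N.Normal] (P : Sylow p G) (Pbar : Sylow p (G ⧸ N)) :
    Nat.card (P : Subgroup G)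
      = Nat.card (Pbar : Subgroup (G ⧸ N)) * Nat.card (N.subgroupOf (P : Subgroup G)) := by
  have hπs : Function.Surjective (QuotientGroup.mk' N) := QuotientGroup.mk'_surjective N
  have h1 : Nat.card (Pbar : Subgroup (G ⧸ N))
      = Nat.card ((P : Subgroup G).map (QuotientGroup.mk' N)) := by
    rw [Sylow.card_eq_multiplicity Pbar]
    exact (Sylow.card_eq_multiplicity (P.mapSurjective hπs)).symm
  obtain ⟨f, hf⟩ : ∃ f : (P : Subgroup G) →* G ⧸ N,
      f = (QuotientGroup.mk' N).comp (P : Subgroup G).subtype := ⟨_, rfl⟩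
  have hrange : f.range = (P : Subgroup G).map (QuotientGroup.mk' N) := by
    rw [hf, MonoidHom.range_comp, Subgroup.range_subtype]
  have hker : f.ker = N.subgroupOf (P : Subgroup G) := by
    rw [hf]
    ext y
    rw [MonoidHom.mem_ker, Subgroup.mem_subgroupOf]
    simp
  rw [h1, ← hrange, ← hker, Subgroup.card_eq_card_quotient_mul_card_subgroup f.ker]
  congr 1
  exact Nat.card_congr (QuotientGroup.quotientKerEquivRange f).toEquiv

/-- Let G be a finite group, p a prime, N a normal subgroup, P a Sylow p-subgroup of G and P̄ a Sylow p-subgroup of G/N. Count the elements of p-power order, the identity included. Then (number of such elements of G/N)/#P̄ ≤ (number of such elements of G)/#P, stated as a cross-multiplied inequality, with equality when N is central. -/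
theorem result {G : Type*} [Group G] [Finite G] (p : ℕ) [Fact p.Prime] (N : Subgroup G) [N.Normal]
    (P : Sylow p G) (Pbar : Sylow p (G ⧸ N)) :
    Nat.card {g : (G ⧸ N) // ∃ k : ℕ, orderOf g = p ^ k} * Nat.card (P : Subgroup G) ≤ Nat.card {g : G // ∃ k : ℕ, orderOf g = p ^ k} * Nat.card (Pbar : Subgroup (G ⧸ N)) ∧
    (N ≤ Subgroup.center G → Nat.card {g : (G ⧸ N) // ∃ k : ℕ, orderOf g = p ^ k} * Nat.card (P : Subgroup G) = Nat.card {g : G // ∃ k : ℕ, orderOf g = p ^ k} * Nat.card (Pbar : Subgroup (G ⧸ N))) := by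
  have h := main_ineq p N P
  have hc := card_sylow_decomp p N P Pbar
  rw [hc]
  constructor
  · calc Nat.card {g : (G ⧸ N) // ∃ k : ℕ, orderOf g = p ^ k}
          * (Nat.card (Pbar : Subgroup (G ⧸ N)) * Nat.card (N.subgroupOf (P : Subgroup G)))
        = (Nat.card {g : (G ⧸ N) // ∃ k : ℕ, orderOf g = p ^ k}
          * Nat.card (N.subgroupOf (P : Subgroup G))) * Nat.card (Pbar : Subgroup (G ⧸ N)) := by
          ring
      _ ≤ _ := Nat.mul_le_mul_right _ h.1
  · intro hN
    rw [← h.2 hN]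
    ring

end Cfsg.Agent.S4153
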