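import Cfsg.Statements.S4154
-- import your own Cfsg.Agent.* helpers here

set_option autoImplicit false
open Cfsg

namespace Cfsg.Agent.S4154

/-- Let G be a finite group and α an automorphism of G such that every element of G is the product of an element fixed by α and an element of the form g⁻¹α(g). If N is a normal α-invariant subgroup, then the automorphism ᾱ induced on G/N has the same property, and every coset fixed by ᾱ contains an element fixed by α (so the fixed points of ᾱ are the images of the fixed points of α). -/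
theorem result {G : Type*} [Group G] [Finite G] (α : MulAut G)
    (hccp : ∀ x : G, ∃ c g : G, α c = c ∧ x = c * (g⁻¹ * α g))
    (N : Subgroup G) [N.Normal] (hN : ∀ n ∈ N, α n ∈ N) :
    (∀ x : G, ∃ c g : G, c⁻¹ * α c ∈ N ∧ x⁻¹ * (c * (g⁻¹ * α g)) ∈ N) ∧
    (∀ x : G, x⁻¹ * α x ∈ N → ∃ c : G, α c = c ∧ c⁻¹ * x ∈ N) := by
  classical
  refine ⟨?_, ?_⟩
  · intro x
    obtain ⟨c, g, hc, hx⟩ := hccp x
    refine ⟨c, g, ?_, ?_⟩
    · rw [hc, inv_mul_cancel]; exact N.one_mem
    · rw [← hx, inv_mul_cancel]; exact N.one_mem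
  · have hNle : N ≤ N.comap α.toMonoidHom := fun n hn => hN n hn
    let ab : G ⧸ N →* G ⧸ N := QuotientGroup.map N N α.toMonoidHom hNle
    have hab : ∀ g : G, ab (g : G ⧸ N) = ((α g : G) : G ⧸ N) := fun g => rfl
    let F : Subgroup (G ⧸ N) := MonoidHom.eqLocus ab (MonoidHom.id _)
    let C : Subgroup G := MonoidHom.eqLocus α.toMonoidHom (MonoidHom.id G)
    have hCF : C.map (QuotientGroup.mk' N) ≤ F := by
      rintro _ ⟨c, hc, rfl⟩
      change ab (c : G ⧸ N) = (c : G ⧸ N)
      rw [hab]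
      have : α c = c := hc
      rw [this]
    let ψ : G ⧸ N → G ⧸ N := fun q => q⁻¹ * ab q
    -- the set of values of ψ has at most F.index elements
    have hK : Nat.card (Set.range ψ) ≤ F.index := by
      rw [Subgroup.index_eq_card]
      let f : (G ⧸ N) ⧸ F → Set.range ψ := fun t =>
        Quotient.liftOn' t (fun r => (⟨ψ r⁻¹, ⟨r⁻¹, rfl⟩⟩ : Set.range ψ)) (by
          intro a b hab'
          rw [QuotientGroup.leftRel_apply] at hab'
          have hfix : ab (a⁻¹ * b) = a⁻¹ * b := hab'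
          apply Subtype.ext
          change a⁻¹⁻¹ * ab a⁻¹ = b⁻¹⁻¹ * ab b⁻¹
          have h2 : ab b = ab a * (a⁻¹ * b) := by
            rw [← hfix, map_mul, map_inv]; group
          rw [map_inv, map_inv, h2]
          group)
      apply Nat.card_le_card_of_surjective f
      rintro ⟨_, ⟨q, rfl⟩⟩
      refine ⟨QuotientGroup.mk q⁻¹, ?_⟩
      apply Subtype.ext
      change (q⁻¹)⁻¹⁻¹ * ab (q⁻¹)⁻¹ = q⁻¹ * ab q
      rw [inv_inv, inv_inv]
    have hsurj : Function.Surjective
        (fun p : (C.map (QuotientGroup.mk' N)) × (Set.range ψ) => (p.1 : G ⧸ N) * (p.2 : G ⧸ N)) := by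
      intro q
      obtain ⟨x, rfl⟩ := QuotientGroup.mk_surjective q
      obtain ⟨c, g, hc, hx⟩ := hccp x
      refine ⟨(⟨(c : G ⧸ N), ⟨c, hc, rfl⟩⟩, ⟨ψ (g : G ⧸ N), ⟨_, rfl⟩⟩), ?_⟩
      change (c : G ⧸ N) * ((g : G ⧸ N)⁻¹ * ab (g : G ⧸ N)) = (x : G ⧸ N)
      rw [hab, hx]
      rfl
    have hcard1 : Nat.card (G ⧸ N) ≤ Nat.card (C.map (QuotientGroup.mk' N)) * F.index := by
      calc Nat.card (G ⧸ N) ≤ Nat.card ((C.map (QuotientGroup.mk' N)) × (Set.range ψ)) :=
            Nat.card_le_card_of_surjective _ hsurj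
        _ = Nat.card (C.map (QuotientGroup.mk' N)) * Nat.card (Set.range ψ) := Nat.card_prod _ _
        _ ≤ Nat.card (C.map (QuotientGroup.mk' N)) * F.index := Nat.mul_le_mul_left _ hK
    have hcard2 : Nat.card F ≤ Nat.card (C.map (QuotientGroup.mk' N)) := by
      have h1 := Subgroup.card_mul_index F
      rw [← h1] at hcard1
      exact Nat.le_of_mul_le_mul_right hcard1 (Nat.pos_of_ne_zero (Subgroup.index_ne_zero_of_finite))
    have hEq : C.map (QuotientGroup.mk' N) = F := Subgroup.eq_of_le_of_card_ge hCF hcard2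
    intro x hx
    have hxF : (x : G ⧸ N) ∈ F := by
      change ab (x : G ⧸ N) = (x : G ⧸ N)
      rw [hab]
      exact (QuotientGroup.eq.mpr hx).symm
    rw [← hEq] at hxF
    obtain ⟨c, hc, hcx⟩ := hxF
    refine ⟨c, hc, ?_⟩
    exact QuotientGroup.eq.mp hcx

end Cfsg.Agent.S4154
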