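import Cfsg.Statements.S4155
-- import your own Cfsg.Agent.* helpers here
import Cfsg.Agent.S0040
import Cfsg.Agent.S0065

set_option autoImplicit false
open Cfsg

namespace Cfsg.Agent.S4155

section S4155aux

theorem pow_central_aux {M : Type*} [Group M] (a c z : M) (hz : z * a = a * z)
    (h : a * c * a⁻¹ = z * c) : z ^ orderOf a = 1 := by
  have h2 : ∀ k : ℕ, a ^ k * c * (a ^ k)⁻¹ = z ^ k * c := by
    intro k
    induction k with
    | zero => simp
    | succ k ih =>
      have hzk : z ^ k * a = a * z ^ k := Commute.pow_left (show Commute z a from hz) k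
      calc a ^ (k + 1) * c * (a ^ (k + 1))⁻¹ = a * (a ^ k * c * (a ^ k)⁻¹) * a⁻¹ := by
            rw [pow_succ']; group
        _ = a * (z ^ k * c) * a⁻¹ := by rw [ih]
        _ = z ^ k * (a * c * a⁻¹) := by
            rw [← mul_assoc a, ← hzk]; group
        _ = z ^ (k + 1) * c := by rw [h, pow_succ]; group
  have h3 := h2 (orderOf a)
  rw [pow_orderOf_eq_one] at h3
  simpa using h3.symm

/-- elements of coprime order commute in a nilpotent group -/
theorem commute_of_coprime_nilp (M : Type*) [Group M] [Group.IsNilpotent M] :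
    ∀ a c : M, (orderOf a).Coprime (orderOf c) → a * c = c * a := by
  refine Group.nilpotent_center_quotient_ind
    (P := fun M _ _ => ∀ a c : M, (orderOf a).Coprime (orderOf c) → a * c = c * a) M ?_ ?_
  · intro M _ _ a c _
    exact Subsingleton.elim _ _
  · intro M _ _ ih a c hco
    have h1 := ih (QuotientGroup.mk' (Subgroup.center M) a) (QuotientGroup.mk' (Subgroup.center M) c)
      (Nat.Coprime.coprime_dvd_left (orderOf_map_dvd (QuotientGroup.mk' _) a)
        (Nat.Coprime.coprime_dvd_right (orderOf_map_dvd (QuotientGroup.mk' _) c) hco))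
    have hz : a * c * a⁻¹ * c⁻¹ ∈ Subgroup.center M := by
      rw [← QuotientGroup.eq_one_iff]
      show QuotientGroup.mk' (Subgroup.center M) (a * c * a⁻¹ * c⁻¹) = 1
      rw [map_mul, map_mul, map_mul, map_inv, map_inv, h1]
      group
    obtain ⟨z, hzdef⟩ : ∃ z, z = a * c * a⁻¹ * c⁻¹ := ⟨_, rfl⟩
    rw [← hzdef] at hz
    have hzc : ∀ g : M, z * g = g * z := fun g => (Subgroup.mem_center_iff.mp hz g).symm
    have hzc' : ∀ g : M, z⁻¹ * g = g * z⁻¹ := by
      intro g
      have := hzc g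
      calc z⁻¹ * g = z⁻¹ * (g * z) * z⁻¹ := by group
        _ = z⁻¹ * (z * g) * z⁻¹ := by rw [this]
        _ = g * z⁻¹ := by group
    have h3 : z ^ orderOf a = 1 := pow_central_aux a c z (hzc a) (by rw [hzdef]; group)
    have h5 : z⁻¹ ^ orderOf c = 1 := pow_central_aux c a z⁻¹ (hzc' c) (by rw [hzdef]; group)
    have h5' : z ^ orderOf c = 1 := by
      rw [inv_pow, inv_eq_one] at h5
      exact h5
    have h6 : orderOf z = 1 :=
      Nat.eq_one_of_dvd_coprimes hco (orderOf_dvd_of_pow_eq_one h3) (orderOf_dvd_of_pow_eq_one h5')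
    have h7 : z = 1 := orderOf_eq_one_iff.mp h6
    have : a * c = z * c * a := by rw [hzdef]; group
    rw [this, h7, one_mul]

theorem exV {G : Type*} [Group G] [Finite G] (N : Subgroup G) [N.Normal]
    (hnil : Group.IsNilpotent N) (hnpp : ¬ IsPrimePow (Nat.card N)) (hN1 : N ≠ ⊥)
    (q : ℕ) [Fact q.Prime] :
    ∃ V : Subgroup G, V.Normal ∧ V ≠ ⊥ ∧ V ≤ N ∧ (∀ v ∈ V, ∀ w ∈ V, v * w = w * v) ∧
      (∀ v ∈ V, (orderOf v).Coprime q) ∧ (∀ n ∈ N, ∀ v ∈ V, n * v = v * n) := by
  classical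
  have hq : q.Prime := Fact.out
  have hNn : ∀ n ∈ N, ∀ g : G, g * n * g⁻¹ ∈ N := fun n hn g => Subgroup.Normal.conj_mem inferInstance n hn g
  let V : Subgroup G :=
    { carrier := {z | z ∈ N ∧ (∀ n ∈ N, n * z = z * n) ∧ (orderOf z).Coprime q}
      mul_mem' := by
        rintro z w ⟨hz, hzc, hzo⟩ ⟨hw, hwc, hwo⟩
        refine ⟨N.mul_mem hz hw, ?_, ?_⟩
        · intro n hn
          rw [← mul_assoc, hzc n hn, mul_assoc, hwc n hn, mul_assoc]
        · have hcomm : Commute z w := (hzc w hw).symm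
          have h1 := hcomm.orderOf_mul_dvd_lcm
          rw [Nat.coprime_comm, Nat.Prime.coprime_iff_not_dvd hq]
          intro hd
          have h2 : q ∣ orderOf z * orderOf w := (hd.trans h1).trans (Nat.lcm_dvd_mul _ _)
          rcases (Nat.Prime.dvd_mul hq).mp h2 with h | h
          · exact (Nat.Prime.coprime_iff_not_dvd hq).mp hzo.symm h
          · exact (Nat.Prime.coprime_iff_not_dvd hq).mp hwo.symm h
      one_mem' := ⟨N.one_mem, fun n _ => by simp, by simp⟩
      inv_mem' := by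
        rintro z ⟨hz, hzc, hzo⟩
        refine ⟨N.inv_mem hz, ?_, by rw [orderOf_inv]; exact hzo⟩
        intro n hn
        have := hzc n hn
        calc n * z⁻¹ = z⁻¹ * (z * n) * z⁻¹ := by group
          _ = z⁻¹ * (n * z) * z⁻¹ := by rw [this]
          _ = z⁻¹ * n := by group }
  have hVmem : ∀ z, z ∈ V ↔ z ∈ N ∧ (∀ n ∈ N, n * z = z * n) ∧ (orderOf z).Coprime q := fun z => Iff.rfl
  refine ⟨V, ?_, ?_, fun v hv => ((hVmem v).mp hv).1, ?_, fun v hv => ((hVmem v).mp hv).2.2, ?_⟩
  · constructor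
    intro z hz g
    obtain ⟨hzN, hzc, hzo⟩ := (hVmem z).mp hz
    rw [hVmem]
    refine ⟨hNn z hzN g, ?_, ?_⟩
    · intro n hn
      have h1 : g⁻¹ * n * g ∈ N := by
        have := hNn n hn g⁻¹
        simpa using this
      have h2 := hzc _ h1
      calc n * (g * z * g⁻¹) = g * ((g⁻¹ * n * g) * z) * g⁻¹ := by group
        _ = g * (z * (g⁻¹ * n * g)) * g⁻¹ := by rw [h2]
        _ = g * z * g⁻¹ * n := by group
    · have : orderOf (g * z * g⁻¹) = orderOf z := by
        have hs : SemiconjBy g z (g * z * g⁻¹) := by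
          show g * z = g * z * g⁻¹ * g
          group
        exact (hs.orderOf_eq g).symm
      rw [this]; exact hzo
  · -- V ≠ ⊥
    have hcard1 : Nat.card N ≠ 1 := by
      intro h
      exact hN1 ((Subgroup.card_eq_one).mp h)
    have hcard0 : Nat.card N ≠ 0 := Nat.card_pos.ne'
    obtain ⟨r, hr, hrd, hrq⟩ : ∃ r : ℕ, r.Prime ∧ r ∣ Nat.card N ∧ r ≠ q := by
      by_contra hcon
      push Not at hcon
      have h1 := Nat.eq_prime_pow_of_unique_prime_dvd hcard0 (p := q)
        (fun {d} hd hdvd => hcon d hd hdvd)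
      apply hnpp
      rw [h1]
      apply IsPrimePow.pow hq.isPrimePow
      intro h0
      rw [h0, pow_zero] at h1
      exact hcard1 h1
    haveI : Fact r.Prime := ⟨hr⟩
    haveI := hnil
    obtain ⟨S⟩ : Nonempty (Sylow r ↥N) := inferInstance
    have hS1 : (S : Subgroup ↥N) ≠ ⊥ := Sylow.ne_bot_of_dvd_card S hrd
    have h2 := Cfsg.Agent.S0065.normal_inf_center_ne_bot (S : Subgroup ↥N) hS1
    obtain ⟨⟨z', hz'⟩, hz'1⟩ := Subgroup.ne_bot_iff_exists_ne_one.mp h2
    intro hVbot
    apply hz'1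
    apply Subtype.ext
    show z' = 1
    have hzV : (z' : G) ∈ V := by
      rw [hVmem]
      refine ⟨z'.2, ?_, ?_⟩
      · intro n hn
        have := Subgroup.mem_center_iff.mp hz'.2 ⟨n, hn⟩
        exact congrArg Subtype.val this
      · obtain ⟨k, hk⟩ := S.2 ⟨z', hz'.1⟩
        have hk' : z' ^ r ^ k = 1 := by
          have := congrArg Subtype.val hk
          simpa using this
        have h3 : orderOf (z' : G) ∣ r ^ k := by
          rw [Subgroup.orderOf_coe]
          exact orderOf_dvd_of_pow_eq_one hk'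
        exact Nat.Coprime.coprime_dvd_left h3
          (Nat.Coprime.pow_left k ((Nat.coprime_primes hr hq).mpr hrq))
    rw [hVbot, Subgroup.mem_bot] at hzV
    exact Subtype.ext hzV
  · intro v hv w hw
    exact (((hVmem w).mp hw).2.1 v ((hVmem v).mp hv).1)
  · intro n hn v hv
    exact ((hVmem v).mp hv).2.1 n hn

end S4155aux

/-- Let G be a finite group and N a proper non-trivial normal nilpotent subgroup whose order is not a prime power, such that for every x outside N all elements of the coset xN have the same order as x. Then N is the Fitting subgroup of G, and for every prime q every Sylow q-subgroup of G/N is cyclic or generalized quaternion. -/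
theorem result {G : Type*} [Group G] [Finite G] (N : Subgroup G) [N.Normal] (hN1 : N ≠ ⊥) (hN2 : N ≠ ⊤)
    (heq : ∀ x : G, x ∉ N → ∀ n ∈ N, orderOf (x * n) = orderOf x)
    (hnil : Group.IsNilpotent N) (hnpp : ¬ IsPrimePow (Nat.card N)) :
    N = Cfsg.fittingSubgroup G ∧
    ∀ (q : ℕ) [Fact q.Prime] (Q : Sylow q (G ⧸ N)), IsCyclic (Q : Subgroup (G ⧸ N)) ∨ ∃ n : ℕ, Nonempty ((Q : Subgroup (G ⧸ N)) ≃* QuaternionGroup (2 ^ n)) := by
  classical
  have hnil' := hnil
  -- key fixed-point-freeness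
  have key : ∀ (q : ℕ) [Fact q.Prime] (V : Subgroup G), V ≤ N → (∀ v ∈ V, (orderOf v).Coprime q) →
      ∀ (x : G) (b : ℕ), x ∉ N → x ^ q ^ b = 1 → ∀ v ∈ V, x * v = v * x → v = 1 := by
    intro q _ V hVN hVq x b hx hxb v hv hcomm
    have h1 : orderOf x ∣ q ^ b := orderOf_dvd_of_pow_eq_one hxb
    have hco : (orderOf x).Coprime (orderOf v) :=
      Nat.Coprime.coprime_dvd_left h1 (Nat.Coprime.pow_left b (hVq v hv).symm)
    have h2 := Commute.orderOf_mul_eq_mul_orderOf_of_coprime (show Commute x v from hcomm) hco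
    rw [heq x hx v (hVN hv)] at h2
    have hpos : 0 < orderOf x := orderOf_pos x
    have h3 : orderOf v = 1 := Nat.eq_of_mul_eq_mul_left hpos (by rw [mul_one]; exact h2.symm)
    exact orderOf_eq_one_iff.mp h3
  constructor
  · apply le_antisymm
    · exact le_sSup ⟨inferInstance, hnil⟩
    · apply sSup_le
      rintro M ⟨hMn, hMnil⟩
      by_contra hMN
      obtain ⟨y, hyM, hyN⟩ := SetLike.not_le_iff_exists.mp hMN
      have hy1 : (QuotientGroup.mk' N y) ≠ 1 := by
        intro h; exact hyN ((QuotientGroup.eq_one_iff y).mp h)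
      obtain ⟨q, hq, hqd⟩ := Nat.exists_prime_and_dvd
        (show orderOf (QuotientGroup.mk' N y) ≠ 1 from fun h => hy1 (orderOf_eq_one_iff.mp h))
      haveI : Fact q.Prime := ⟨hq⟩
      obtain ⟨b, m, hm, ho⟩ := Nat.exists_eq_pow_mul_and_not_dvd (orderOf_pos y).ne' q hq.ne_one
      have hxb : (y ^ m) ^ q ^ b = 1 := by
        rw [← pow_mul, mul_comm, ← ho, pow_orderOf_eq_one]
      have hxN : y ^ m ∉ N := by
        intro h
        have h1 : (QuotientGroup.mk' N y) ^ m = 1 := by
          rw [← map_pow]; exact (QuotientGroup.eq_one_iff _).mpr h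
        exact hm (hqd.trans (orderOf_dvd_of_pow_eq_one h1))
      have hxM : y ^ m ∈ M := Subgroup.pow_mem _ hyM m
      obtain ⟨V, hVn, hV1, hVN, hVc, hVq, hVcent⟩ := exV N hnil hnpp hN1 q
      obtain ⟨v, hv, hv1⟩ : ∃ v ∈ V, v ≠ 1 := by
        obtain ⟨⟨v, hv⟩, hv1⟩ := Subgroup.ne_bot_iff_exists_ne_one.mp hV1
        exact ⟨v, hv, fun h => hv1 (Subtype.ext h)⟩
      apply hv1
      apply key q V hVN hVq (y ^ m) b hxN hxb v hv
      obtain ⟨x, hx⟩ : ∃ x, x = y ^ m := ⟨_, rfl⟩
      rw [← hx] at hxb hxN hxM ⊢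
      have hcV : x * v * x⁻¹ * v⁻¹ ∈ V := V.mul_mem (hVn.conj_mem v hv x) (V.inv_mem hv)
      have hcM : x * v * x⁻¹ * v⁻¹ ∈ M := by
        have : x * v * x⁻¹ * v⁻¹ = x * (v * x⁻¹ * v⁻¹) := by group
        rw [this]; exact M.mul_mem hxM (hMn.conj_mem _ (M.inv_mem hxM) v)
      obtain ⟨c, hc⟩ : ∃ c, c = x * v * x⁻¹ * v⁻¹ := ⟨_, rfl⟩
      rw [← hc] at hcV hcM
      have hcop : (orderOf x).Coprime (orderOf c) :=
        Nat.Coprime.coprime_dvd_left (orderOf_dvd_of_pow_eq_one hxb)
          (Nat.Coprime.pow_left b (hVq c hcV).symm)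
      have hxc : x * c = c * x := by
        haveI := hMnil
        have h := commute_of_coprime_nilp ↥M ⟨x, hxM⟩ ⟨c, hcM⟩ (by
          rw [Subgroup.orderOf_mk, Subgroup.orderOf_mk]
          exact hcop)
        exact congrArg Subtype.val h
      have hcz : c ^ orderOf x = 1 := pow_central_aux x v c hxc.symm (by rw [hc]; group)
      have hc1 : orderOf c = 1 :=
        Nat.eq_one_of_dvd_coprimes hcop (orderOf_dvd_of_pow_eq_one hcz) dvd_rfl
      have hc1' : c = 1 := orderOf_eq_one_iff.mp hc1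
      rw [hc1'] at hc
      calc x * v = (x * v * x⁻¹ * v⁻¹) * v * x := by group
        _ = v * x := by rw [← hc, one_mul]
  · intro q _ Q
    have hq : q.Prime := Fact.out
    obtain ⟨V, hVn, hV1, hVN, hVc, hVq, hVcent⟩ := exV N hnil hnpp hN1 q
    haveI := hVn
    let ψ : G →* MulAut ↥V := MulAut.conjNormal
    have hψ : ∀ (g : G) (v : ↥V), ((ψ g v : ↥V) : G) = g * v * g⁻¹ := fun g v => rfl
    have hker : N ≤ ψ.ker := by
      intro n hn
      rw [MonoidHom.mem_ker]
      ext v
      rw [hψ, hVcent n hn v v.2]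
      simp
    let ψb : G ⧸ N →* MulAut ↥V := QuotientGroup.lift N ψ hker
    let φ : ↥(Q : Subgroup (G ⧸ N)) →* MulAut ↥V := ψb.comp (Q : Subgroup (G ⧸ N)).subtype
    have hφ : ∀ (y : G) (hy : (QuotientGroup.mk' N y) ∈ (Q : Subgroup (G ⧸ N))) (v : ↥V),
        ((φ ⟨_, hy⟩ v : ↥V) : G) = y * v * y⁻¹ := fun y hy v => rfl
    haveI : Finite (↥V ⋊[φ] ↥(Q : Subgroup (G ⧸ N))) :=
      Finite.of_equiv _ SemidirectProduct.equivProd.symm
    let K : Subgroup (↥V ⋊[φ] ↥(Q : Subgroup (G ⧸ N))) :=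
      (SemidirectProduct.inl : ↥V →* ↥V ⋊[φ] ↥(Q : Subgroup (G ⧸ N))).range
    let H : Subgroup (↥V ⋊[φ] ↥(Q : Subgroup (G ⧸ N))) :=
      (SemidirectProduct.inr : ↥(Q : Subgroup (G ⧸ N)) →* ↥V ⋊[φ] ↥(Q : Subgroup (G ⧸ N))).range
    haveI hKn : K.Normal := by
      show ((SemidirectProduct.inl : ↥V →* ↥V ⋊[φ] ↥(Q : Subgroup (G ⧸ N))).range).Normal
      rw [SemidirectProduct.range_inl_eq_ker_rightHom]; infer_instance
    have hcompl : K.IsComplement' H := by
      apply Subgroup.isComplement'_of_card_mul_and_disjoint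
      · rw [SemidirectProduct.card]
        congr 1
        · exact Nat.card_congr (Equiv.ofInjective _ SemidirectProduct.inl_injective).symm
        · exact Nat.card_congr (Equiv.ofInjective _ SemidirectProduct.inr_injective).symm
      · rw [Subgroup.disjoint_def]
        rintro g ⟨v, rfl⟩ ⟨h, hh⟩
        have h1 := congrArg SemidirectProduct.rightHom hh
        rw [SemidirectProduct.rightHom_inr, SemidirectProduct.rightHom_inl] at h1
        rw [← hh, h1, map_one]
    have hK : K ≠ ⊥ := by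
      obtain ⟨v, hv1⟩ := Subgroup.ne_bot_iff_exists_ne_one.mp hV1
      intro hKb
      apply hv1
      have h1 : (SemidirectProduct.inl v : ↥V ⋊[φ] ↥(Q : Subgroup (G ⧸ N))) ∈ K := ⟨v, rfl⟩
      rw [hKb, Subgroup.mem_bot] at h1
      exact SemidirectProduct.inl_injective (by rw [h1, map_one])
    have hfpf : ∀ h' ∈ H, h' ≠ 1 → K ⊓ Subgroup.centralizer {h'} = ⊥ := by
      rintro _ ⟨h, rfl⟩ hne
      rw [eq_bot_iff]
      rintro _ ⟨⟨v, rfl⟩, hcent⟩
      rw [Subgroup.mem_bot]
      have hc := Subgroup.mem_centralizer_iff.mp hcent (SemidirectProduct.inr h) rfl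
      have h3 : φ h v = v := by
        apply SemidirectProduct.inl_injective (φ := φ)
        rw [SemidirectProduct.inl_aut, hc, map_inv]; group
      have hh1 : h ≠ 1 := fun e => hne (by rw [e, map_one])
      obtain ⟨y, hy⟩ := QuotientGroup.mk'_surjective N (h : G ⧸ N)
      have hyQ : (QuotientGroup.mk' N y) ∈ (Q : Subgroup (G ⧸ N)) := by rw [hy]; exact h.2
      have hheq : h = ⟨_, hyQ⟩ := Subtype.ext hy.symm
      have h4 : y * (v : G) * y⁻¹ = v := by
        have := congrArg Subtype.val h3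
        rw [hheq, hφ] at this
        exact this
      obtain ⟨b, m, hm, ho⟩ := Nat.exists_eq_pow_mul_and_not_dvd (orderOf_pos y).ne' q hq.ne_one
      have hxb : (y ^ m) ^ q ^ b = 1 := by
        rw [← pow_mul, mul_comm, ← ho, pow_orderOf_eq_one]
      have hxN : y ^ m ∉ N := by
        intro hmem
        have h1 : (h : G ⧸ N) ^ m = 1 := by
          rw [← hy, ← map_pow]; exact (QuotientGroup.eq_one_iff _).mpr hmem
        obtain ⟨k, hk⟩ := Q.2 h
        have hk' : (h : G ⧸ N) ^ q ^ k = 1 := by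
          have := congrArg Subtype.val hk
          simpa using this
        have h5 : orderOf (h : G ⧸ N) ∣ m := orderOf_dvd_of_pow_eq_one h1
        have h6 : orderOf (h : G ⧸ N) ∣ q ^ k := orderOf_dvd_of_pow_eq_one hk'
        obtain ⟨i, -, hi⟩ := (Nat.dvd_prime_pow hq).mp h6
        rcases Nat.eq_zero_or_pos i with rfl | hipos
        · rw [pow_zero] at hi; exact hh1 (Subtype.ext (orderOf_eq_one_iff.mp hi))
        · exact hm ((dvd_pow_self q hipos.ne').trans (hi ▸ h5))
      have hcomm : y ^ m * (v : G) = v * y ^ m := by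
        have hyv : y * (v : G) = v * y := by
          calc y * (v : G) = y * v * y⁻¹ * y := by group
            _ = v * y := by rw [h4]
        exact (Commute.pow_left (show Commute y (v : G) from hyv) m)
      have hv1 := key q V hVN hVq (y ^ m) b hxN hxb v v.2 hcomm
      have : v = 1 := Subtype.ext hv1
      rw [this, map_one]
    obtain ⟨P⟩ : Nonempty (Sylow q ↥H) := inferInstance
    have hres := Cfsg.Agent.S0040.result K H hcompl hK hfpf q P
    let e1 : ↥(Q : Subgroup (G ⧸ N)) ≃* ↥H := MonoidHom.ofInjective SemidirectProduct.inr_injective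
    have hHq : IsPGroup q ↥H := Q.2.of_equiv e1
    have hPtop : (⊤ : Subgroup ↥H) = (P : Subgroup ↥H) :=
      P.is_maximal' (IsPGroup.to_subgroup hHq ⊤) le_top
    let e2 : ↥H ≃* ↥(P : Subgroup ↥H) :=
      (Subgroup.topEquiv.symm).trans (MulEquiv.subgroupCongr hPtop)
    let e : ↥(Q : Subgroup (G ⧸ N)) ≃* ↥(P : Subgroup ↥H) := e1.trans e2
    rcases hres with hcyc | ⟨n, ⟨f⟩⟩
    · left
      exact isCyclic_of_surjective e.symm e.symm.surjective
    · right
      exact ⟨n, ⟨e.trans f⟩⟩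

end Cfsg.Agent.S4155
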