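import Cfsg.Statements.S4156
-- import your own Cfsg.Agent.* helpers here

set_option autoImplicit false
open Cfsg

namespace Cfsg.Agent.S4156

open Matrix Equiv

/-- inclusion of the first `n` coordinates -/
def Rm (n : ℕ) (F : Type*) [Field F] : Matrix (Fin (n + 1)) (Fin n) F :=
  Matrix.of fun i j => if i = j.castSucc then 1 else 0

/-- the quotient map killing the all-ones vector -/
def Lm (n : ℕ) (F : Type*) [Field F] : Matrix (Fin n) (Fin (n + 1)) F :=
  Matrix.of fun i j => (if j = i.castSucc then (1 : F) else 0) - (if j = Fin.last n then 1 else 0)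

def Jm (n : ℕ) (F : Type*) [Field F] : Matrix (Fin (n + 1)) (Fin (n + 1)) F :=
  Matrix.of fun _ j => if j = Fin.last n then 1 else 0

theorem Lm_mul_Rm (n : ℕ) (F : Type*) [Field F] : Lm n F * Rm n F = 1 := by
  ext i k
  rw [Matrix.mul_apply]
  simp only [Lm, Rm, Matrix.of_apply, mul_ite, mul_one, mul_zero, Finset.sum_ite_eq', Finset.mem_univ,
    if_true]
  rw [if_neg (Fin.castSucc_ne_last k), sub_zero, Matrix.one_apply]
  by_cases h : i = k
  · subst h; simp
  · rw [if_neg h, if_neg]
    intro h'
    exact h (Fin.castSucc_injective _ h').symm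

theorem Rm_mul_Lm (n : ℕ) (F : Type*) [Field F] : Rm n F * Lm n F = 1 - Jm n F := by
  ext i j
  rw [Matrix.mul_apply, Matrix.sub_apply, Matrix.one_apply]
  induction i using Fin.lastCases with
  | last =>
    have : ∀ k : Fin n, Rm n F (Fin.last n) k = 0 := by
      intro k
      simp only [Rm, Matrix.of_apply]
      rw [if_neg (Fin.castSucc_ne_last k).symm]
    simp only [this, zero_mul, Finset.sum_const_zero, Jm, Matrix.of_apply]
    by_cases h : Fin.last n = j
    · rw [if_pos h, if_pos h.symm, sub_self]
    · rw [if_neg h, if_neg (fun h' => h h'.symm), sub_zero]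
  | cast k0 =>
    have : ∀ k : Fin n, Rm n F k0.castSucc k = if k = k0 then 1 else 0 := by
      intro k
      simp only [Rm, Matrix.of_apply]
      by_cases h : k = k0
      · subst h; simp
      · rw [if_neg h, if_neg]
        intro h'
        exact h (Fin.castSucc_injective _ h').symm
    simp only [this, ite_mul, one_mul, zero_mul, Finset.sum_ite_eq', Finset.mem_univ, if_true]
    simp only [Lm, Jm, Matrix.of_apply]
    congr 1
    by_cases h : j = k0.castSucc
    · rw [if_pos h, if_pos h.symm]
    · rw [if_neg h, if_neg (fun h' => h h'.symm)]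

theorem perm_mul_Jm (n : ℕ) (F : Type*) [Field F] (σ : Perm (Fin (n + 1))) :
    (Matrix.permMatrixHom (R := F) σ) * Jm n F = Jm n F := by
  ext i j
  rw [Matrix.mul_apply]
  simp only [Matrix.permMatrixHom_apply, Jm, Matrix.of_apply, PEquiv.toMatrix_apply, toPEquiv_apply,
    Option.mem_def, Option.some.injEq]
  simp

theorem Lm_mul_Jm (n : ℕ) (F : Type*) [Field F] : Lm n F * Jm n F = 0 := by
  ext i j
  rw [Matrix.mul_apply]
  simp only [Lm, Jm, Matrix.of_apply, Matrix.zero_apply]
  rw [← Finset.sum_mul]
  rw [Finset.sum_sub_distrib]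
  simp


/-- the deleted permutation representation -/
def Mh (n : ℕ) (F : Type*) [Field F] : Perm (Fin (n + 1)) →* Matrix (Fin n) (Fin n) F where
  toFun σ := Lm n F * Matrix.permMatrixHom (R := F) σ * Rm n F
  map_one' := by rw [map_one, Matrix.mul_one, Lm_mul_Rm]
  map_mul' σ τ := by
    have e : (Lm n F * Matrix.permMatrixHom (R := F) σ * Rm n F) *
        (Lm n F * Matrix.permMatrixHom (R := F) τ * Rm n F)
        = Lm n F * Matrix.permMatrixHom (R := F) σ * (Rm n F * Lm n F) *
          (Matrix.permMatrixHom (R := F) τ * Rm n F) := by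
      simp only [Matrix.mul_assoc]
    rw [e, Rm_mul_Lm, Matrix.mul_sub, Matrix.mul_one, Matrix.sub_mul,
      Matrix.mul_assoc (Lm n F) _ (Jm n F), perm_mul_Jm, Lm_mul_Jm, Matrix.zero_mul, sub_zero, map_mul]
    simp only [Matrix.mul_assoc]

theorem Mh_apply (n : ℕ) (F : Type*) [Field F] (σ : Perm (Fin (n + 1))) (i j : Fin n) :
    Mh n F σ i j = (if σ j.castSucc = i.castSucc then (1 : F) else 0)
      - (if σ j.castSucc = Fin.last n then 1 else 0) := by
  show (Lm n F * Matrix.permMatrixHom (R := F) σ * Rm n F) i j = _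
  rw [Matrix.mul_apply]
  have hR : ∀ k : Fin (n + 1), Rm n F k j = if k = j.castSucc then 1 else 0 := fun k => rfl
  simp only [hR, mul_ite, mul_one, mul_zero, Finset.sum_ite_eq', Finset.mem_univ, if_true]
  rw [Matrix.mul_apply]
  have hP : ∀ l : Fin (n + 1), Matrix.permMatrixHom (R := F) σ l j.castSucc
      = if l = σ j.castSucc then 1 else 0 := by
    intro l
    simp only [Matrix.permMatrixHom_apply, PEquiv.toMatrix_apply, toPEquiv_apply,
      Option.mem_def, Option.some.injEq]
    by_cases h : l = σ j.castSucc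
    · rw [if_pos h, if_pos]
      rw [h]; simp
    · rw [if_neg h, if_neg]
      intro h'
      apply h
      rw [← h']; simp
  simp only [hP, mul_ite, mul_one, mul_zero, Finset.sum_ite_eq', Finset.mem_univ, if_true]
  rfl

theorem Mh_injective (n : ℕ) (hn : 2 ≤ n) (F : Type*) [Field F] (σ : Perm (Fin (n + 1)))
    (h : Mh n F σ = 1) : σ = 1 := by
  have hfix : ∀ j : Fin n, σ j.castSucc = j.castSucc := by
    intro j
    obtain ⟨i, hij⟩ : ∃ i : Fin n, i ≠ j := by
      by_cases h0 : j = ⟨0, by omega⟩
      · exact ⟨⟨1, by omega⟩, by rw [h0]; intro h'; simpa using congrArg Fin.val h'⟩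
      · exact ⟨⟨0, by omega⟩, fun h' => h0 h'.symm⟩
    have h1 : σ j.castSucc ≠ Fin.last n := by
      intro hl
      have := congrFun (congrFun h i) j
      rw [Mh_apply, Matrix.one_apply, if_neg hij, if_pos hl, if_neg, zero_sub] at this
      · exact one_ne_zero (neg_eq_zero.mp this)
      · rw [hl]; exact (Fin.castSucc_ne_last i).symm
    have := congrFun (congrFun h j) j
    rw [Mh_apply, Matrix.one_apply, if_pos rfl, if_neg h1, sub_zero] at this
    by_contra hne
    rw [if_neg hne] at this
    exact zero_ne_one this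
  ext x
  induction x using Fin.lastCases with
  | last =>
    have : σ (Fin.last n) = Fin.last n := by
      induction hx : σ (Fin.last n) using Fin.lastCases with
      | last => rfl
      | cast k =>
        exfalso
        have h2 := hfix k
        have := σ.injective (h2.trans hx.symm)
        exact (Fin.castSucc_ne_last k) this
    rw [this]; rfl
  | cast k => rw [hfix k]; rfl


theorem alt_not_comm (n : ℕ) (hn : 5 ≤ n) :
    ¬ ∀ a b : alternatingGroup (Fin (n + 1)), a * b = b * a := by
  intro hcomm
  have hcard : 5 ≤ Nat.card (Fin (n + 1)) := by rw [Nat.card_fin]; omega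
  haveI := alternatingGroup.isSimpleGroup hcard
  have hc := alternatingGroup.center_eq_bot (α := Fin (n + 1)) (by rw [Nat.card_fin]; omega)
  obtain ⟨a, ha⟩ := exists_ne (1 : alternatingGroup (Fin (n + 1)))
  have : a ∈ Subgroup.center (alternatingGroup (Fin (n + 1))) := by
    rw [Subgroup.mem_center_iff]
    intro g
    exact hcomm g a
  rw [hc, Subgroup.mem_bot] at this
  exact ha this

theorem alt_hom_comm_trivial (n : ℕ) (hn : 5 ≤ n) {C : Type*} [CommGroup C]
    (ψ : alternatingGroup (Fin (n + 1)) →* C) (s : alternatingGroup (Fin (n + 1))) : ψ s = 1 := by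
  have hcard : 5 ≤ Nat.card (Fin (n + 1)) := by rw [Nat.card_fin]; omega
  haveI := alternatingGroup.isSimpleGroup hcard
  rcases (MonoidHom.normal_ker ψ).eq_bot_or_eq_top with h | h
  · exfalso
    apply alt_not_comm n hn
    intro a b
    apply (MonoidHom.ker_eq_bot_iff ψ).mp h
    rw [map_mul, map_mul, mul_comm]
  · have : s ∈ ψ.ker := by rw [h]; exact Subgroup.mem_top s
    exact MonoidHom.mem_ker.mp this

theorem Mh_det (n : ℕ) (hn : 5 ≤ n) (F : Type*) [Field F]
    (s : alternatingGroup (Fin (n + 1))) : (Mh n F s.1).det = 1 := by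
  obtain ⟨ψ, hψ⟩ : ∃ ψ : alternatingGroup (Fin (n + 1)) →* Fˣ,
      ∀ s, ((ψ s : Fˣ) : F) = (Mh n F s.1).det :=
    ⟨(Units.map (Matrix.detMonoidHom (n := Fin n) (R := F))).comp
      (((Mh n F).comp (Subgroup.subtype _)).toHomUnits), fun s => rfl⟩
  rw [← hψ, alt_hom_comm_trivial n hn ψ s, Units.val_one]


theorem main (n : ℕ) (hn : 5 ≤ n) (F : Type*) [Field F] :
    ∃ f : alternatingGroup (Fin (n + 1)) →* Matrix.ProjectiveSpecialLinearGroup (Fin n) F,
      Function.Injective f := by
  obtain ⟨g, hg⟩ : ∃ g : alternatingGroup (Fin (n + 1)) →* Matrix.SpecialLinearGroup (Fin n) F,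
      ∀ s, ((g s : Matrix.SpecialLinearGroup (Fin n) F) : Matrix (Fin n) (Fin n) F) = Mh n F s.1 :=
    ⟨{ toFun := fun s => ⟨Mh n F s.1, Mh_det n hn F s⟩
       map_one' := by
         apply Subtype.ext
         show Mh n F (1 : Perm (Fin (n + 1))) = 1
         exact map_one _
       map_mul' := fun s t => by
         apply Subtype.ext
         show Mh n F (s.1 * t.1) = Mh n F s.1 * Mh n F t.1
         exact map_mul _ _ _ }, fun s => rfl⟩
  have hginj : Function.Injective g := by
    rw [injective_iff_map_eq_one]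
    intro s hs
    have h1 : Mh n F s.1 = 1 := by
      rw [← hg, hs]; rfl
    exact Subtype.ext (Mh_injective n (by omega) F s.1 h1)
  refine ⟨(QuotientGroup.mk' (Subgroup.center (Matrix.SpecialLinearGroup (Fin n) F))).comp g, ?_⟩
  have hcard : 5 ≤ Nat.card (Fin (n + 1)) := by rw [Nat.card_fin]; omega
  haveI := alternatingGroup.isSimpleGroup hcard
  rw [← MonoidHom.ker_eq_bot_iff]
  rcases (MonoidHom.normal_ker ((QuotientGroup.mk'
      (Subgroup.center (Matrix.SpecialLinearGroup (Fin n) F))).comp g)).eq_bot_or_eq_top with h | h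
  · exact h
  · exfalso
    apply alt_not_comm n hn
    have hcen : ∀ s : alternatingGroup (Fin (n + 1)),
        g s ∈ Subgroup.center (Matrix.SpecialLinearGroup (Fin n) F) := by
      intro s
      have hs : s ∈ ((QuotientGroup.mk'
          (Subgroup.center (Matrix.SpecialLinearGroup (Fin n) F))).comp g).ker := by
        rw [h]; exact Subgroup.mem_top s
      rw [MonoidHom.mem_ker, MonoidHom.comp_apply] at hs
      exact (QuotientGroup.eq_one_iff _).mp hs
    intro a b
    apply hginj
    rw [map_mul, map_mul]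
    exact (Subgroup.mem_center_iff.mp (hcen a) (g b)).symm

/-- Let n ≥ 5 and F a finite field. Then the projective special linear group PSL_n(F) contains a subgroup isomorphic to the alternating group of degree n + 1. -/
theorem result (n : ℕ) (hn : 5 ≤ n) (F : Type*) [Field F] [Finite F] :
    ∃ f : alternatingGroup (Fin (n + 1)) →* Matrix.ProjectiveSpecialLinearGroup (Fin n) F, Function.Injective f := by
  exact main n hn F

end Cfsg.Agent.S4156
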