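import Cfsg.Statements.S4160

import Cfsg.Agent.Lib.helper8.ClassCount
import Cfsg.Agent.Lib.helper8.Transitivity
set_option autoImplicit false
open Cfsg

namespace Cfsg.Agent.S4160

open Cfsg.Agent.Lib.helper8

/-- Let G be a finite group and p ≠ q primes each dividing the size of some conjugacy class of G, such that no conjugacy class size is divisible by pq. Then G has a normal p-complement or a normal q-complement. -/
theorem result {G : Type*} [Group G] [Finite G] (p q : ℕ) (hp : p.Prime) (hq : q.Prime) (hpq : p ≠ q)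
    (hp' : ∃ x : G, p ∣ (Subgroup.centralizer ({x} : Set G)).index) (hq' : ∃ x : G, q ∣ (Subgroup.centralizer ({x} : Set G)).index) (h : ∀ x : G, ¬ p * q ∣ (Subgroup.centralizer ({x} : Set G)).index) :
    Cfsg.HasNormalPComplement p G ∨ Cfsg.HasNormalPComplement q G := by

  classical
  haveI : Fact p.Prime := ⟨hp⟩
  haveI : Fact q.Prime := ⟨hq⟩
  obtain ⟨P⟩ : Nonempty (Sylow p G) := inferInstance
  obtain ⟨Q⟩ : Nonempty (Sylow q G) := inferInstance
  obtain ⟨Cp, hCp⟩ : ∃ Cp : Subgroup G, Cp = Subgroup.centralizer ((P : Subgroup G) : Set G) :=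
    ⟨_, rfl⟩
  obtain ⟨Cq, hCq⟩ : ∃ Cq : Subgroup G, Cq = Subgroup.centralizer ((Q : Subgroup G) : Set G) :=
    ⟨_, rfl⟩
  have hcover : ∀ x : G, (∃ g : G, g⁻¹ * x * g ∈ Cp) ∨ (∃ g : G, g⁻¹ * x * g ∈ Cq) := by
    intro x
    by_cases hpx : p ∣ (Subgroup.centralizer ({x} : Set G)).index
    · right
      have hqx : ¬ q ∣ (Subgroup.centralizer ({x} : Set G)).index := by
        intro hqx
        exact h x (Nat.Coprime.mul_dvd_of_dvd_of_dvd ((Nat.coprime_primes hp hq).mpr hpq) hpx hqx)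
      rw [hCq]
      exact exists_conj_centralizer_of_not_dvd Q x hqx
    · left
      rw [hCp]
      exact exists_conj_centralizer_of_not_dvd P x hpx
  have burn : ∀ (r : ℕ) [Fact r.Prime] (R : Sylow r G),
      Subgroup.normalizer ((Subgroup.centralizer ((R : Subgroup G) : Set G) : Subgroup G) : Set G) =
        Subgroup.centralizer ((R : Subgroup G) : Set G) → Cfsg.HasNormalPComplement r G := by
    intro r _ R hNC
    have hP : Subgroup.normalizer ((R : Subgroup G) : Set G) ≤
        Subgroup.centralizer ((R : Subgroup G) : Set G) := by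
      rw [← hNC]
      apply le_normalizer_of_conj_mem
      intro a ha x hx
      rw [Subgroup.mem_centralizer_iff] at hx ⊢
      intro y hy
      have h1 : a⁻¹ * y * a ∈ (R : Subgroup G) := conj_mem_of_mem_normalizer' ha hy
      have h2 := hx _ h1
      calc y * (a * x * a⁻¹) = a * ((a⁻¹ * y * a) * x) * a⁻¹ := by group
        _ = a * (x * (a⁻¹ * y * a)) * a⁻¹ := by rw [h2]
        _ = (a * x * a⁻¹) * y := by group
    exact ⟨R, (MonoidHom.transferSylow R hP).ker, MonoidHom.normal_ker _,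
      MonoidHom.ker_transferSylow_isComplement' R hP⟩
  by_contra hcon
  push_neg at hcon
  have hNp : Subgroup.normalizer (Cp : Set G) ≠ Cp := by
    intro h'
    apply hcon.1
    apply burn p P
    rw [← hCp]
    exact h'
  have hNq : Subgroup.normalizer (Cq : Set G) ≠ Cq := by
    intro h'
    apply hcon.2
    apply burn q Q
    rw [← hCq]
    exact h'
  have key : ∀ C : Subgroup G, Subgroup.normalizer (C : Set G) ≠ C →
      2 * {x : G | x ≠ 1 ∧ ∃ g : G, g⁻¹ * x * g ∈ C}.ncard + 2 ≤ Nat.card G := by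
    intro C hne
    have h1 := conj_cover_count C
    have hCN : C ≤ Subgroup.normalizer (C : Set G) := Subgroup.le_normalizer
    have hlt : C < Subgroup.normalizer (C : Set G) := lt_of_le_of_ne hCN (Ne.symm hne)
    obtain ⟨s, hs⟩ := Subgroup.card_dvd_of_le hCN
    have hcardlt := card_lt_of_lt hlt
    have hCpos : 0 < Nat.card C := Nat.card_pos
    have hs2 : 2 ≤ s := by
      by_contra hs2
      have hs1 : s ≤ 1 := by omega
      have : Nat.card (Subgroup.normalizer (C : Set G)) ≤ Nat.card C := by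
        rw [hs]; nlinarith
      omega
    have hNle : Nat.card (Subgroup.normalizer (C : Set G)) ≤ Nat.card G :=
      Subgroup.card_le_card_group _
    rw [hs] at h1 hNle
    obtain ⟨a, ha⟩ : ∃ a, a = Nat.card C := ⟨_, rfl⟩
    obtain ⟨n, hn⟩ : ∃ n, n = Nat.card G := ⟨_, rfl⟩
    obtain ⟨u, hu⟩ : ∃ u, u = {x : G | x ≠ 1 ∧ ∃ g : G, g⁻¹ * x * g ∈ C}.ncard := ⟨_, rfl⟩
    rw [← ha, ← hn, ← hu] at h1
    rw [← ha, ← hn] at hNle
    rw [← ha] at hCpos
    rw [← hn, ← hu]
    have h2 : u * (a * s) + n ≤ n * a := by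
      have e : n * (a - 1) + n = n * a := by
        obtain ⟨k, rfl⟩ : ∃ k, a = k + 1 := ⟨a - 1, by omega⟩
        simp [Nat.mul_succ]
      omega
    have e1 : (u * a) * 2 ≤ (u * a) * s := Nat.mul_le_mul_left _ hs2
    have e2 : a * 2 ≤ a * s := Nat.mul_le_mul_left _ hs2
    have h3 : a * (2 * u + 2) ≤ a * n := by linarith
    exact Nat.le_of_mul_le_mul_left h3 hCpos
  have kp := key Cp hNp
  have kq := key Cq hNq
  have hsub : ({1}ᶜ : Set G) ⊆ {x : G | x ≠ 1 ∧ ∃ g : G, g⁻¹ * x * g ∈ Cp} ∪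
      {x : G | x ≠ 1 ∧ ∃ g : G, g⁻¹ * x * g ∈ Cq} := by
    intro x hx
    have hx1 : x ≠ 1 := hx
    rcases hcover x with h' | h'
    · left; exact ⟨hx1, h'⟩
    · right; exact ⟨hx1, h'⟩
  have h4 := Set.ncard_le_ncard hsub (Set.toFinite _)
  have h5 := Set.ncard_union_le {x : G | x ≠ 1 ∧ ∃ g : G, g⁻¹ * x * g ∈ Cp}
    {x : G | x ≠ 1 ∧ ∃ g : G, g⁻¹ * x * g ∈ Cq}
  have h6 : ({1}ᶜ : Set G).ncard = Nat.card G - 1 := by
    rw [Set.ncard_compl, Set.ncard_singleton]
  have h7 : 0 < Nat.card G := Nat.card_pos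
  omega

end Cfsg.Agent.S4160
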