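import Cfsg.Statements.S4163
-- import your own Cfsg.Agent.* helpers here
import Mathlib

set_option autoImplicit false
open Cfsg

namespace Cfsg.Agent.S4163

theorem card_eq_of_le {G : Type*} [Group G] [Finite G] {H K : Subgroup G} (h : H ≤ K) :
    Nat.card K = H.relIndex K * Nat.card H := by
  have h1 := Subgroup.card_mul_index (H.subgroupOf K)
  rw [Nat.card_congr (Subgroup.subgroupOfEquivOfLe h).toEquiv] at h1
  rw [Subgroup.relIndex, ← h1, mul_comm]

theorem relIndex_sup_of_normal {G : Type*} [Group G] [Finite G] (H Q : Subgroup G) [Q.Normal] :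
    H.relIndex (H ⊔ Q) = H.relIndex Q := by
  have h1 := card_eq_of_le (le_sup_left : H ≤ H ⊔ Q)
  have h2 := card_eq_of_le (le_sup_right : Q ≤ H ⊔ Q)
  have h3 := card_eq_of_le (inf_le_left : H ⊓ Q ≤ H)
  have h4 := card_eq_of_le (inf_le_right : H ⊓ Q ≤ Q)
  rw [Subgroup.relIndex_sup_right] at h2
  rw [Subgroup.inf_relIndex_left] at h3
  rw [Subgroup.inf_relIndex_right] at h4
  have hc : 0 < Nat.card (H ⊓ Q : Subgroup G) := Nat.card_pos
  have ha : 0 < Q.relIndex H := by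
    rcases Nat.eq_zero_or_pos (Q.relIndex H) with h0 | h0
    · rw [h0, zero_mul] at h3
      exact absurd h3 (Nat.card_pos).ne'
    · exact h0
  have e : H.relIndex (H ⊔ Q) * (Q.relIndex H * Nat.card (H ⊓ Q : Subgroup G)) =
      H.relIndex Q * (Q.relIndex H * Nat.card (H ⊓ Q : Subgroup G)) := by
    calc H.relIndex (H ⊔ Q) * (Q.relIndex H * Nat.card (H ⊓ Q : Subgroup G))
        = H.relIndex (H ⊔ Q) * Nat.card H := by rw [h3]
      _ = Nat.card (H ⊔ Q : Subgroup G) := h1.symm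
      _ = Q.relIndex H * Nat.card Q := h2
      _ = Q.relIndex H * (H.relIndex Q * Nat.card (H ⊓ Q : Subgroup G)) := by rw [← h4]
      _ = H.relIndex Q * (Q.relIndex H * Nat.card (H ⊓ Q : Subgroup G)) := by ring
  exact Nat.eq_of_mul_eq_mul_right (Nat.mul_pos ha hc) e

/-- the image of `K` under a map whose fibres on `K` are the left cosets of `H` has `|K : H ∩ K|`
elements -/
theorem ncard_image_eq_relIndex {G X : Type*} [Group G] (H K : Subgroup G) (f : G → X)
    (hf : ∀ k ∈ K, ∀ k' ∈ K, f k = f k' ↔ k⁻¹ * k' ∈ H) :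
    Set.ncard {y : X | ∃ k ∈ K, f k = y} = H.relIndex K := by
  obtain ⟨φ, hφ⟩ : ∃ φ : (K ⧸ H.subgroupOf K) → X, ∀ k : K, φ (QuotientGroup.mk k) = f k := by
    refine ⟨Quotient.lift (fun k : K => f k) ?_, fun k => rfl⟩
    intro a b hab
    have hab' : a⁻¹ * b ∈ H.subgroupOf K := QuotientGroup.leftRel_apply.mp hab
    exact (hf a a.2 b b.2).mpr (Subgroup.mem_subgroupOf.mp hab')
  have hinj : Function.Injective φ := by
    intro q q' h
    obtain ⟨a, rfl⟩ := QuotientGroup.mk_surjective q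
    obtain ⟨b, rfl⟩ := QuotientGroup.mk_surjective q'
    rw [hφ, hφ] at h
    rw [QuotientGroup.eq]
    exact Subgroup.mem_subgroupOf.mpr ((hf a a.2 b b.2).mp h)
  have hrange : {y : X | ∃ k ∈ K, f k = y} = Set.range φ := by
    ext y
    constructor
    · rintro ⟨k, hk, rfl⟩
      exact ⟨QuotientGroup.mk (⟨k, hk⟩ : K), hφ ⟨k, hk⟩⟩
    · rintro ⟨q, rfl⟩
      obtain ⟨a, rfl⟩ := QuotientGroup.mk_surjective q
      exact ⟨a, a.2, (hφ a).symm⟩
  rw [hrange, ← Nat.card_coe_set_eq, Nat.card_range_of_injective hinj]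
  rfl

/-- **Key lemma** (Mann, Isaacs): if `x` lies in a conjugacy class of minimal noncentral size and
`A` is an abelian normal subgroup, then `[x, A]` is central. -/
theorem small_comm_central {G : Type*} [Group G] [Finite G] (A : Subgroup G) [A.Normal]
    (hA : ∀ a ∈ A, ∀ b ∈ A, a * b = b * a) (m : ℕ)
    (hmin : ∀ x : G, 1 < (Subgroup.centralizer ({x} : Set G)).index →
      m ≤ (Subgroup.centralizer ({x} : Set G)).index)
    (x : G) (hx : (Subgroup.centralizer ({x} : Set G)).index = m) (a : G) (ha : a ∈ A) :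
    x * a * x⁻¹ * a⁻¹ ∈ Subgroup.center G := by
  classical
  by_contra hw
  obtain ⟨w, hwdef⟩ : ∃ w : G, w = x * a * x⁻¹ * a⁻¹ := ⟨_, rfl⟩
  rw [← hwdef] at hw
  have hwA : w ∈ A := by
    rw [hwdef]
    exact A.mul_mem (Subgroup.Normal.conj_mem inferInstance a ha x) (A.inv_mem ha)
  obtain ⟨T, hT⟩ : ∃ T : Subgroup G, T = Subgroup.centralizer ({x} : Set G) := ⟨_, rfl⟩
  obtain ⟨C, hC⟩ : ∃ C : Subgroup G, C = Subgroup.centralizer ({w} : Set G) := ⟨_, rfl⟩
  have hTmem : ∀ g : G, g ∈ T ↔ x * g = g * x := by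
    intro g; rw [hT, Subgroup.mem_centralizer_iff]; simp
  have hCmem : ∀ g : G, g ∈ C ↔ w * g = g * w := by
    intro g; rw [hC, Subgroup.mem_centralizer_iff]; simp
  have hAC : A ≤ C := by
    intro b hb
    rw [hCmem]
    exact hA w hwA b hb
  -- the index of `C` is at least `m`
  have hCidx : m ≤ C.index := by
    rw [hC]
    apply hmin
    have h0 : (Subgroup.centralizer ({w} : Set G)).index ≠ 0 := Subgroup.index_ne_zero_of_finite
    have h1 : (Subgroup.centralizer ({w} : Set G)).index ≠ 1 := by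
      intro h
      rw [Subgroup.index_eq_one, Subgroup.centralizer_eq_top_iff_subset] at h
      exact hw (h rfl)
    omega
  have hTidx : T.index = m := by rw [hT]; exact hx
  have hm0 : 0 < m := by
    rw [← hTidx]; exact Nat.pos_of_ne_zero Subgroup.index_ne_zero_of_finite
  -- index bookkeeping
  have e1 : C.index ≤ (T ⊓ C ⊔ A).index :=
    Nat.le_of_dvd (Nat.pos_of_ne_zero Subgroup.index_ne_zero_of_finite)
      (Subgroup.index_dvd_of_le (sup_le inf_le_right hAC))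
  have e2 : (T ⊓ C).relIndex (T ⊓ C ⊔ A) * (T ⊓ C ⊔ A).index = (T ⊓ C).index :=
    Subgroup.relIndex_mul_index le_sup_left
  have e3 : (T ⊓ C).relIndex T * T.index = (T ⊓ C).index :=
    Subgroup.relIndex_mul_index inf_le_left
  have e4 : (T ⊓ C).relIndex (T ⊓ C ⊔ A) = (A ⊓ T).relIndex A := by
    rw [relIndex_sup_of_normal, ← Subgroup.inf_relIndex_right (T ⊓ C) A,
      ← Subgroup.inf_relIndex_right (A ⊓ T) A]
    congr 1
    ext g
    simp only [Subgroup.mem_inf]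
    constructor
    · rintro ⟨⟨h1, _⟩, h3⟩; exact ⟨⟨h3, h1⟩, h3⟩
    · rintro ⟨⟨h1, h2⟩, _⟩; exact ⟨⟨h2, hAC h1⟩, h1⟩
  have e5 : (A ⊓ T).relIndex A ≤ (T ⊓ C).relIndex T := by
    have h1 : (A ⊓ T).relIndex A * m ≤ (T ⊓ C).relIndex T * m := by
      calc (A ⊓ T).relIndex A * m ≤ (A ⊓ T).relIndex A * (T ⊓ C ⊔ A).index :=
            Nat.mul_le_mul_left _ (hCidx.trans e1)
        _ = (T ⊓ C).index := by rw [← e4]; exact e2
        _ = (T ⊓ C).relIndex T * m := by rw [← e3, hTidx]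
    exact Nat.le_of_mul_le_mul_right h1 hm0
  -- the two counts
  have c1 : Set.ncard {y : G | ∃ t ∈ T, t * w * t⁻¹ = y} = (T ⊓ C).relIndex T := by
    apply ncard_image_eq_relIndex (T ⊓ C) T (fun t => t * w * t⁻¹)
    intro t ht s hs
    simp only [Subgroup.mem_inf]
    constructor
    · intro h
      refine ⟨T.mul_mem (T.inv_mem ht) hs, ?_⟩
      rw [hCmem]
      calc w * (t⁻¹ * s) = t⁻¹ * (t * w * t⁻¹) * s := by group
        _ = t⁻¹ * (s * w * s⁻¹) * s := by rw [h]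
        _ = t⁻¹ * s * w := by group
    · rintro ⟨_, h⟩
      rw [hCmem] at h
      calc t * w * t⁻¹ = t * (w * (t⁻¹ * s)) * s⁻¹ := by group
        _ = t * (t⁻¹ * s * w) * s⁻¹ := by rw [h]
        _ = s * w * s⁻¹ := by group
  have c2 : Set.ncard {y : G | ∃ b ∈ A, x * b * x⁻¹ * b⁻¹ = y} = (A ⊓ T).relIndex A := by
    apply ncard_image_eq_relIndex (A ⊓ T) A (fun b => x * b * x⁻¹ * b⁻¹)
    intro b hb b' hb'
    simp only [Subgroup.mem_inf]
    constructor
    · intro h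
      refine ⟨A.mul_mem (A.inv_mem hb) hb', ?_⟩
      rw [hTmem]
      have h1 : b * x⁻¹ * b⁻¹ = b' * x⁻¹ * b'⁻¹ := by
        have : x * (b * x⁻¹ * b⁻¹) = x * (b' * x⁻¹ * b'⁻¹) := by
          simpa [mul_assoc] using h
        exact mul_left_cancel this
      have h2 : Commute x⁻¹ (b⁻¹ * b') := by
        show x⁻¹ * (b⁻¹ * b') = b⁻¹ * b' * x⁻¹
        calc x⁻¹ * (b⁻¹ * b') = b⁻¹ * (b * x⁻¹ * b⁻¹) * b' := by group
          _ = b⁻¹ * (b' * x⁻¹ * b'⁻¹) * b' := by rw [h1]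
          _ = b⁻¹ * b' * x⁻¹ := by group
      have h3 := h2.inv_left
      rw [inv_inv] at h3
      exact h3.eq
    · rintro ⟨_, h⟩
      rw [hTmem] at h
      have h2 : Commute x (b⁻¹ * b') := h
      have h3 : b⁻¹ * b' * x⁻¹ = x⁻¹ * (b⁻¹ * b') := (h2.inv_left).eq.symm
      symm
      calc x * b' * x⁻¹ * b'⁻¹ = x * b * (b⁻¹ * b' * x⁻¹) * b'⁻¹ := by group
        _ = x * b * (x⁻¹ * (b⁻¹ * b')) * b'⁻¹ := by rw [h3]
        _ = x * b * x⁻¹ * b⁻¹ := by group
  have hsub : {y : G | ∃ t ∈ T, t * w * t⁻¹ = y} ⊂ {y : G | ∃ b ∈ A, x * b * x⁻¹ * b⁻¹ = y} := by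
    rw [Set.ssubset_iff_of_subset]
    · refine ⟨1, ⟨1, A.one_mem, by group⟩, ?_⟩
      rintro ⟨t, _, ht⟩
      apply hw
      have : w = 1 := by
        have h1 : t⁻¹ * (t * w * t⁻¹) * t = w := by group
        rw [← h1, ht]; group
      rw [this]; exact Subgroup.one_mem _
    · rintro y ⟨t, ht, rfl⟩
      refine ⟨t * a * t⁻¹, Subgroup.Normal.conj_mem inferInstance a ha t, ?_⟩
      have h1 : x * t = t * x := (hTmem t).mp ht
      have h2 : Commute x t := h1
      have h3 : x⁻¹ * t = t * x⁻¹ := h2.inv_left.eq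
      rw [hwdef]
      calc x * (t * a * t⁻¹) * x⁻¹ * (t * a * t⁻¹)⁻¹
          = (x * t) * a * t⁻¹ * x⁻¹ * t * a⁻¹ * t⁻¹ := by group
        _ = (t * x) * a * t⁻¹ * x⁻¹ * t * a⁻¹ * t⁻¹ := by rw [h1]
        _ = t * x * a * (t⁻¹ * (x⁻¹ * t)) * a⁻¹ * t⁻¹ := by group
        _ = t * x * a * (t⁻¹ * (t * x⁻¹)) * a⁻¹ * t⁻¹ := by rw [h3]
        _ = t * (x * a * x⁻¹ * a⁻¹) * t⁻¹ := by group
  have hlt := Set.ncard_lt_ncard hsub (Set.toFinite _)
  rw [c1, c2] at hlt
  omega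

/-- Let G be a finite group with a normal abelian subgroup A satisfying C_G(A) = A. Suppose some conjugacy class of G has size greater than 1, let m be the smallest such size, and let M be the subgroup generated by the elements whose class has size 1 or m. Then M is nilpotent of class at most 3. -/
theorem result {G : Type*} [Group G] [Finite G]
    (A : Subgroup G) [A.Normal] (hA : IsMulCommutative A) (hCA : Subgroup.centralizer (A : Set G) = A)
    (m : ℕ) (hm1 : 1 < m) (hm : ∃ x : G, (Subgroup.centralizer ({x} : Set G)).index = m) (hmin : ∀ x : G, 1 < (Subgroup.centralizer ({x} : Set G)).index → m ≤ (Subgroup.centralizer ({x} : Set G)).index) :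
    Subgroup.upperCentralSeries ↥(Subgroup.closure {x : G | (Subgroup.centralizer ({x} : Set G)).index = 1 ∨ (Subgroup.centralizer ({x} : Set G)).index = m}) 3 = ⊤ := by
  classical
  have hA' : ∀ a ∈ A, ∀ b ∈ A, a * b = b * a := by
    intro a ha b hb
    have h := mul_comm' (⟨a, ha⟩ : A) ⟨b, hb⟩
    exact congrArg Subtype.val h
  obtain ⟨S, hS⟩ : ∃ S : Set G, S = {x : G | (Subgroup.centralizer ({x} : Set G)).index = 1 ∨
      (Subgroup.centralizer ({x} : Set G)).index = m} := ⟨_, rfl⟩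
  rw [← hS]
  have key : ∀ g ∈ Subgroup.closure S, ∀ a ∈ A, g * a * g⁻¹ * a⁻¹ ∈ Subgroup.center G := by
    intro g hg
    induction hg using Subgroup.closure_induction with
    | mem x hx =>
      intro a ha
      rw [hS] at hx
      rcases hx with h1 | hm'
      · rw [Subgroup.index_eq_one, Subgroup.centralizer_eq_top_iff_subset] at h1
        have hxc : x ∈ Subgroup.center G := h1 rfl
        have h2 := Subgroup.mem_center_iff.mp hxc a
        have h3 : x * a * x⁻¹ * a⁻¹ = 1 := by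
          rw [← h2]; group
        rw [h3]; exact one_mem _
      · exact small_comm_central A hA' m hmin x hm' a ha
    | one =>
      intro a ha
      have h3 : (1 : G) * a * 1⁻¹ * a⁻¹ = 1 := by group
      rw [h3]; exact one_mem _
    | mul x y hx hy ihx ihy =>
      intro a ha
      have h1 := ihy a ha
      have h2 := ihx a ha
      have c := Subgroup.mem_center_iff.mp h1 x
      have h3 : x * y * a * (x * y)⁻¹ * a⁻¹ = (y * a * y⁻¹ * a⁻¹) * (x * a * x⁻¹ * a⁻¹) := by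
        calc x * y * a * (x * y)⁻¹ * a⁻¹ = (x * (y * a * y⁻¹ * a⁻¹)) * a * x⁻¹ * a⁻¹ := by group
          _ = ((y * a * y⁻¹ * a⁻¹) * x) * a * x⁻¹ * a⁻¹ := by rw [c]
          _ = _ := by group
      rw [h3]; exact mul_mem h1 h2
    | inv x hx ih =>
      intro a ha
      have h1 := ih a ha
      have c := Subgroup.mem_center_iff.mp (inv_mem h1) x⁻¹
      have h3 : x⁻¹ * a * x⁻¹⁻¹ * a⁻¹ = (x * a * x⁻¹ * a⁻¹)⁻¹ := by
        calc x⁻¹ * a * x⁻¹⁻¹ * a⁻¹ = x⁻¹ * (x * a * x⁻¹ * a⁻¹)⁻¹ * x := by group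
          _ = (x * a * x⁻¹ * a⁻¹)⁻¹ * x⁻¹ * x := by rw [c]
          _ = _ := by group
      rw [h3]; exact inv_mem h1
  obtain ⟨M, hM⟩ : ∃ M : Subgroup G, M = Subgroup.closure S := ⟨_, rfl⟩
  rw [← hM] at key ⊢
  have hMA : ⁅M, A⁆ ≤ Subgroup.center G := by
    rw [Subgroup.commutator_le]
    intro g hg a ha
    rw [commutatorElement_def]
    exact key g hg a ha
  have h1 : ⁅⁅M, A⁆, M⁆ = ⊥ := by
    rw [Subgroup.commutator_eq_bot_iff_le_centralizer]
    exact hMA.trans (Subgroup.center_le_centralizer _)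
  have h2 : ⁅⁅A, M⁆, M⁆ = ⊥ := by
    rw [Subgroup.commutator_comm A M]; exact h1
  have h3 : ⁅⁅M, M⁆, A⁆ = ⊥ := Subgroup.commutator_commutator_eq_bot_of_rotate h1 h2
  have hMM : ⁅M, M⁆ ≤ A := by
    rw [Subgroup.commutator_eq_bot_iff_le_centralizer, hCA] at h3
    exact h3
  rw [eq_top_iff]
  intro g _
  rw [Subgroup.mem_upperCentralSeries_succ_iff]
  intro y₁
  rw [Subgroup.mem_upperCentralSeries_succ_iff]
  intro y₂
  rw [Subgroup.mem_upperCentralSeries_succ_iff]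
  intro y₃
  rw [Subgroup.upperCentralSeries_zero, Subgroup.mem_bot]
  apply Subtype.ext
  have hc1 : (g : G) * y₁ * (g : G)⁻¹ * (y₁ : G)⁻¹ ∈ A := by
    apply hMM
    rw [← commutatorElement_def]
    exact Subgroup.commutator_mem_commutator g.2 y₁.2
  have hc2 := key y₂ y₂.2 _ hc1
  have hc3 : ((g : G) * y₁ * (g : G)⁻¹ * (y₁ : G)⁻¹) * y₂ * ((g : G) * y₁ * (g : G)⁻¹ * (y₁ : G)⁻¹)⁻¹ * (y₂ : G)⁻¹ ∈ Subgroup.center G := by
    have e : ((g : G) * y₁ * (g : G)⁻¹ * (y₁ : G)⁻¹) * y₂ * ((g : G) * y₁ * (g : G)⁻¹ * (y₁ : G)⁻¹)⁻¹ * (y₂ : G)⁻¹ =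
        ((y₂ : G) * ((g : G) * y₁ * (g : G)⁻¹ * (y₁ : G)⁻¹) * (y₂ : G)⁻¹ * ((g : G) * y₁ * (g : G)⁻¹ * (y₁ : G)⁻¹)⁻¹)⁻¹ := by
      group
    rw [e]; exact inv_mem hc2
  have hc4 := Subgroup.mem_center_iff.mp hc3 (y₃ : G)
  simp only [commutatorElement_def, Subgroup.coe_mul, Subgroup.coe_inv, Subgroup.coe_one]
  rw [← hc4]; group

end Cfsg.Agent.S4163
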