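import Cfsg.Statements.S4168
-- import your own Cfsg.Agent.* helpers here

set_option autoImplicit false
open Cfsg

namespace Cfsg.Agent.S4168

/-- Let L be a finite quasisimple group (perfect with L/Z(L) simple). Then every prime dividing the order of the centre Z(L) also divides the order of L/Z(L). -/
theorem result {L : Type*} [Group L] [Finite L] (hL : Cfsg.IsQuasisimple L)
    (p : ℕ) (hp : p.Prime) (hdiv : p ∣ Nat.card (Subgroup.center L)) : p ∣ (Subgroup.center L).index := by
  classical
  by_contra hnd
  have : Fact p.Prime := ⟨hp⟩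
  obtain ⟨hperf, -⟩ := hL
  let P : Sylow p L := default
  have hPZ : (P : Subgroup L) ≤ Subgroup.center L := by
    intro x hx
    rw [← QuotientGroup.eq_one_iff (N := Subgroup.center L) x, ← orderOf_eq_one_iff]
    by_contra hne
    obtain ⟨k, hk⟩ := P.isPGroup' ⟨x, hx⟩
    have hk' : x ^ p ^ k = 1 := by
      have := congrArg Subtype.val hk
      simpa using this
    have h1 : ((x : L ⧸ Subgroup.center L)) ^ p ^ k = 1 := by
      rw [← QuotientGroup.mk_pow, hk']
      rfl
    obtain ⟨j, hj, hj'⟩ := (Nat.dvd_prime_pow hp).mp (orderOf_dvd_of_pow_eq_one h1)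
    have hj0 : j ≠ 0 := by
      rintro rfl
      exact hne (by simpa using hj')
    have h2 : p ∣ orderOf (x : L ⧸ Subgroup.center L) := by
      rw [hj']
      exact dvd_pow_self p hj0
    have h3 : orderOf (x : L ⧸ Subgroup.center L) ∣ (Subgroup.center L).index := by
      rw [Subgroup.index_eq_card]
      exact orderOf_dvd_natCard _
    exact hnd (h2.trans h3)
  have hP : Subgroup.normalizer ((P : Subgroup L) : Set L) ≤ Subgroup.centralizer ((P : Subgroup L) : Set L) := by
    intro g _
    rw [Subgroup.mem_centralizer_iff]
    intro h hh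
    exact (Subgroup.mem_center_iff.mp (hPZ hh) g).symm
  have hcompl := MonoidHom.ker_transferSylow_isComplement' P hP
  have hker : (MonoidHom.transferSylow P hP).ker = ⊤ := by
    rw [eq_top_iff, ← hperf.commutator_eq_top, commutator_def, Subgroup.commutator_le]
    intro a _ b _
    rw [MonoidHom.mem_ker, map_commutatorElement, commutatorElement_eq_one_iff_commute]
    have hb := Subgroup.mem_center_iff.mp (hPZ ((MonoidHom.transferSylow P hP) b).2)
    have := hb ((MonoidHom.transferSylow P hP) a : L)
    exact Subtype.ext this
  rw [hker, Subgroup.isComplement'_top_left] at hcompl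
  exact P.ne_bot_of_dvd_card (hdiv.trans (Subgroup.card_subgroup_dvd_card _)) hcompl

end Cfsg.Agent.S4168
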