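import Cfsg.Statements.S4169
-- import your own Cfsg.Agent.* helpers here
import Mathlib
import Cfsg.Agent.S4163

set_option autoImplicit false
open Cfsg

namespace Cfsg.Agent.S4169

theorem exists_self_centralizing {P : Type*} [Group P] [Finite P] {p : ℕ} [Fact p.Prime]
    (hP : IsPGroup p P) :
    ∃ A : Subgroup P, A.Normal ∧ (∀ a ∈ A, ∀ b ∈ A, a * b = b * a) ∧
      Subgroup.centralizer (A : Set P) = A := by
  classical
  obtain ⟨A, -, hAmax⟩ := Finite.exists_le_maximal
    (p := fun A : Subgroup P => A.Normal ∧ ∀ a ∈ A, ∀ b ∈ A, a * b = b * a) (a := ⊥)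
    ⟨inferInstance, by
      intro a ha b hb
      rw [Subgroup.mem_bot] at ha hb
      rw [ha, hb]⟩
  obtain ⟨⟨hAn, hAab⟩, hmax⟩ := hAmax
  refine ⟨A, hAn, hAab, ?_⟩
  have hAC : A ≤ Subgroup.centralizer (A : Set P) := by
    intro a ha
    rw [Subgroup.mem_centralizer_iff]
    intro b hb
    exact hAab b hb a ha
  apply le_antisymm _ hAC
  by_contra hCA
  have hnil : Group.IsNilpotent P := hP.isNilpotent
  obtain ⟨n, hn⟩ := hnil.nilpotent
  have hex : ∃ i, ∃ x ∈ Subgroup.centralizer (A : Set P), x ∉ A ∧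
      x ∈ Subgroup.upperCentralSeries P i := by
    obtain ⟨x, hx, hxA⟩ := SetLike.not_le_iff_exists.mp hCA
    exact ⟨n, x, hx, hxA, by rw [hn]; trivial⟩
  obtain ⟨x, hxC, hxA, hxi⟩ := Nat.find_spec hex
  have hi0 : Nat.find hex ≠ 0 := by
    intro h0
    rw [h0, Subgroup.upperCentralSeries_zero, Subgroup.mem_bot] at hxi
    exact hxA (hxi ▸ A.one_mem)
  obtain ⟨j, hj⟩ := Nat.exists_eq_succ_of_ne_zero hi0
  rw [hj, Subgroup.mem_upperCentralSeries_succ_iff] at hxi
  have hCn : (Subgroup.centralizer (A : Set P)).Normal := Subgroup.normal_centralizer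
  have hcomm : ∀ y : P, x * y * x⁻¹ * y⁻¹ ∈ A := by
    intro y
    by_contra hny
    have h1 : x * y * x⁻¹ * y⁻¹ ∈ Subgroup.centralizer (A : Set P) := by
      have h2 : y * x⁻¹ * y⁻¹ ∈ Subgroup.centralizer (A : Set P) :=
        hCn.conj_mem _ (inv_mem hxC) y
      have h3 := mul_mem hxC h2
      have e : x * (y * x⁻¹ * y⁻¹) = x * y * x⁻¹ * y⁻¹ := by group
      rw [e] at h3; exact h3
    have h4 : Nat.find hex ≤ j := Nat.find_min' hex ⟨_, h1, hny, by
      have := hxi y
      rwa [commutatorElement_def] at this⟩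
    omega
  obtain ⟨S, hS⟩ : ∃ S : Set P, S = (A : Set P) ∪ {x} := ⟨_, rfl⟩
  have hScomm : ∀ s ∈ S, ∀ t ∈ S, s * t = t * s := by
    intro s hs t ht
    rw [hS] at hs ht
    rcases hs with hs | hs <;> rcases ht with ht | ht
    · exact hAab s hs t ht
    · rw [Set.mem_singleton_iff] at ht; rw [ht]
      exact ((Subgroup.mem_centralizer_iff.mp hxC) s hs)
    · rw [Set.mem_singleton_iff] at hs; rw [hs]
      exact ((Subgroup.mem_centralizer_iff.mp hxC) t ht).symm
    · rw [Set.mem_singleton_iff] at hs ht; rw [hs, ht]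
  have hB1 : Subgroup.closure S ≤ Subgroup.centralizer S := by
    rw [Subgroup.closure_le]
    intro s hs
    rw [SetLike.mem_coe, Subgroup.mem_centralizer_iff]
    intro t ht
    exact hScomm t ht s hs
  have hB2 : Subgroup.closure S ≤ Subgroup.centralizer (Subgroup.closure S : Set P) := by
    rw [Subgroup.closure_le]
    intro s hs
    rw [SetLike.mem_coe, Subgroup.mem_centralizer_iff]
    intro b hb
    exact ((Subgroup.mem_centralizer_iff.mp (hB1 hb)) s hs).symm
  have hBab : ∀ a ∈ Subgroup.closure S, ∀ b ∈ Subgroup.closure S, a * b = b * a := by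
    intro a ha b hb
    exact ((Subgroup.mem_centralizer_iff.mp (hB2 hb)) a ha)
  have hBn : (Subgroup.closure S).Normal := by
    constructor
    intro b hb g
    have hle : Subgroup.closure S ≤
        (Subgroup.closure S).comap (MulAut.conj g).toMonoidHom := by
      rw [Subgroup.closure_le]
      intro s hs
      rw [SetLike.mem_coe, Subgroup.mem_comap]
      show g * s * g⁻¹ ∈ Subgroup.closure S
      rw [hS] at hs
      rcases hs with hs | hs
      · exact Subgroup.subset_closure (by rw [hS]; exact Or.inl (hAn.conj_mem s hs g))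
      · rw [Set.mem_singleton_iff] at hs
        rw [hs]
        have h1 : g * x * g⁻¹ = (x * g * x⁻¹ * g⁻¹)⁻¹ * x := by group
        rw [h1]
        exact mul_mem (inv_mem (Subgroup.subset_closure (by rw [hS]; exact Or.inl (hcomm g))))
          (Subgroup.subset_closure (by rw [hS]; exact Or.inr rfl))
    exact hle hb
  have hAB : A ≤ Subgroup.closure S := by
    intro a ha
    exact Subgroup.subset_closure (by rw [hS]; exact Or.inl ha)
  have hBA := hmax ⟨hBn, hBab⟩ hAB
  exact hxA (hBA (Subgroup.subset_closure (by rw [hS]; exact Or.inr rfl)))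

/-- Let P be a finite p-group whose conjugacy classes have exactly two sizes (1 and one other value). Then P has nilpotency class at most 3. -/
theorem result {P : Type*} [Group P] [Finite P] {p : ℕ} [Fact p.Prime] (hP : IsPGroup p P)
    (m : ℕ) (hm : 1 < m) (h : ∀ x : P, (Subgroup.centralizer ({x} : Set P)).index = 1 ∨ (Subgroup.centralizer ({x} : Set P)).index = m) :
    upperCentralSeries P 3 = ⊤ := by
  classical
  obtain ⟨A, hAn, hAab, hCA⟩ := exists_self_centralizing hP
  have : A.Normal := hAn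
  have hmin : ∀ x : P, 1 < (Subgroup.centralizer ({x} : Set P)).index →
      m ≤ (Subgroup.centralizer ({x} : Set P)).index := by
    intro x hx
    rcases h x with h1 | h1
    · omega
    · omega
  have key : ∀ g : P, ∀ a ∈ A, g * a * g⁻¹ * a⁻¹ ∈ Subgroup.center P := by
    intro g a ha
    rcases h g with h1 | h1
    · rw [Subgroup.index_eq_one, Subgroup.centralizer_eq_top_iff_subset] at h1
      have hxc : g ∈ Subgroup.center P := h1 rfl
      have h2 := Subgroup.mem_center_iff.mp hxc a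
      have h3 : g * a * g⁻¹ * a⁻¹ = 1 := by rw [← h2]; group
      rw [h3]; exact one_mem _
    · exact Cfsg.Agent.S4163.small_comm_central A hAab m hmin g h1 a ha
  have hMA : ⁅(⊤ : Subgroup P), A⁆ ≤ Subgroup.center P := by
    rw [Subgroup.commutator_le]
    intro g _ a ha
    rw [commutatorElement_def]
    exact key g a ha
  have h1 : ⁅⁅(⊤ : Subgroup P), A⁆, (⊤ : Subgroup P)⁆ = ⊥ := by
    rw [Subgroup.commutator_eq_bot_iff_le_centralizer]
    exact hMA.trans (Subgroup.center_le_centralizer _)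
  have h2 : ⁅⁅A, (⊤ : Subgroup P)⁆, (⊤ : Subgroup P)⁆ = ⊥ := by
    rw [Subgroup.commutator_comm A ⊤]; exact h1
  have h3 : ⁅⁅(⊤ : Subgroup P), (⊤ : Subgroup P)⁆, A⁆ = ⊥ :=
    Subgroup.commutator_commutator_eq_bot_of_rotate h1 h2
  have hMM : ⁅(⊤ : Subgroup P), (⊤ : Subgroup P)⁆ ≤ A := by
    rw [Subgroup.commutator_eq_bot_iff_le_centralizer, hCA] at h3
    exact h3
  show Subgroup.upperCentralSeries P 3 = ⊤
  rw [eq_top_iff]
  intro g _
  rw [Subgroup.mem_upperCentralSeries_succ_iff]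
  intro y₁
  rw [Subgroup.mem_upperCentralSeries_succ_iff]
  intro y₂
  rw [Subgroup.mem_upperCentralSeries_succ_iff]
  intro y₃
  rw [Subgroup.upperCentralSeries_zero, Subgroup.mem_bot]
  have hc1 : g * y₁ * g⁻¹ * y₁⁻¹ ∈ A := by
    apply hMM
    rw [← commutatorElement_def]
    exact Subgroup.commutator_mem_commutator (Subgroup.mem_top _) (Subgroup.mem_top _)
  have hc2 := key y₂ _ hc1
  have hc3 : (g * y₁ * g⁻¹ * y₁⁻¹) * y₂ * (g * y₁ * g⁻¹ * y₁⁻¹)⁻¹ * y₂⁻¹ ∈
      Subgroup.center P := by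
    have e : (g * y₁ * g⁻¹ * y₁⁻¹) * y₂ * (g * y₁ * g⁻¹ * y₁⁻¹)⁻¹ * y₂⁻¹ =
        (y₂ * (g * y₁ * g⁻¹ * y₁⁻¹) * y₂⁻¹ * (g * y₁ * g⁻¹ * y₁⁻¹)⁻¹)⁻¹ := by group
    rw [e]; exact inv_mem hc2
  have hc4 := Subgroup.mem_center_iff.mp hc3 y₃
  simp only [commutatorElement_def]
  rw [← hc4]; group

end Cfsg.Agent.S4169
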