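import Cfsg.Statements.S4170
-- import your own Cfsg.Agent.* helpers here
import Mathlib

set_option autoImplicit false
open scoped Pointwise
open Cfsg

namespace Cfsg.Agent.S4170

theorem key {K Ω : Type*} [Group K] [Finite K] [MulAction K Ω] [Finite Ω] (p : ℕ) (hp : p.Prime)
    (hfaith : ∀ g : K, (∀ ω : Ω, g • ω = ω) → g = 1) (hpK : p ∣ Nat.card K)
    (hnt : ∀ β : Ω, ∃ γ : Ω, γ ≠ β) :
    ∃ Δ₁ Δ₂ : Set Ω, Δ₁.Nonempty ∧ Δ₂.Nonempty ∧ Disjoint Δ₁ Δ₂ ∧
      p ∣ (MulAction.stabilizer K Δ₁ ⊓ MulAction.stabilizer K Δ₂).index := by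
  classical
  have h0 : ¬ p ∣ (fixingSubgroup K (∅ : Set Ω)).index := by
    rw [fixingSubgroup_empty, Subgroup.index_top]
    exact fun h => hp.one_lt.ne' (Nat.dvd_one.mp h)
  obtain ⟨F, -, hF⟩ := Finite.exists_le_maximal
    (p := fun F : Set Ω => ¬ p ∣ (fixingSubgroup K F).index) h0
  have hFgood : ¬ p ∣ (fixingSubgroup K F).index := hF.prop
  have hFuniv : F ≠ Set.univ := by
    rintro rfl
    apply hFgood
    have : fixingSubgroup K (Set.univ : Set Ω) = ⊥ := by
      rw [eq_bot_iff]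
      intro g hg
      rw [mem_fixingSubgroup_iff] at hg
      exact Subgroup.mem_bot.mpr (hfaith g (fun ω => hg ω (Set.mem_univ ω)))
    rw [this, Subgroup.index_bot]
    exact hpK
  obtain ⟨β, hβ⟩ : ∃ β, β ∉ F := by
    by_contra h
    push Not at h
    exact hFuniv (Set.eq_univ_of_forall h)
  have hbad : p ∣ (fixingSubgroup K (insert β F)).index := by
    by_contra h
    have := hF.le_of_ge h (Set.subset_insert β F)
    exact hβ (this (Set.mem_insert β F))
  have hT : fixingSubgroup K (insert β F)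
      = fixingSubgroup K F ⊓ MulAction.stabilizer K ({β} : Set Ω) := by
    ext g
    rw [Subgroup.mem_inf, mem_fixingSubgroup_iff, mem_fixingSubgroup_iff,
      MulAction.mem_stabilizer_iff, Set.smul_set_singleton, Set.singleton_eq_singleton_iff]
    constructor
    · intro h
      exact ⟨fun y hy => h y (Set.mem_insert_of_mem β hy), h β (Set.mem_insert β F)⟩
    · rintro ⟨h1, h2⟩ y hy
      rcases Set.mem_insert_iff.mp hy with rfl | hy
      · exact h2
      · exact h1 y hy
  by_cases hFe : F.Nonempty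
  · refine ⟨F, {β}, hFe, Set.singleton_nonempty β, Set.disjoint_singleton_right.mpr hβ, ?_⟩
    obtain ⟨A, hA⟩ : ∃ A, A = fixingSubgroup K F := ⟨_, rfl⟩
    obtain ⟨B, hB⟩ : ∃ B, B = MulAction.stabilizer K F := ⟨_, rfl⟩
    obtain ⟨T, hTdef⟩ : ∃ T, T = MulAction.stabilizer K ({β} : Set Ω) := ⟨_, rfl⟩
    rw [← hA, ← hTdef] at hT
    rw [← hA] at hFgood
    rw [← hB, ← hTdef]
    have hAmem : ∀ g : K, g ∈ A ↔ ∀ y ∈ F, g • y = y := by
      intro g; rw [hA, mem_fixingSubgroup_iff]
    have hBmem : ∀ g : K, g ∈ B ↔ g • F = F := by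
      intro g; rw [hB, MulAction.mem_stabilizer_iff]
    have hAB : A ≤ B := by
      intro g hg
      rw [hBmem]
      rw [hAmem] at hg
      ext y
      constructor
      · rintro ⟨z, hz, rfl⟩
        show g • z ∈ F
        rw [hg z hz]; exact hz
      · intro hy
        exact ⟨y, hy, hg y hy⟩
    have hnorm : (A.subgroupOf B).Normal := by
      constructor
      intro a ha b
      rw [Subgroup.mem_subgroupOf] at ha ⊢
      rw [hAmem] at ha ⊢
      intro y hy
      have hb : (b : K)⁻¹ • y ∈ F := by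
        have h1 : (b : K)⁻¹ ∈ B := B.inv_mem b.2
        have h2 : (b : K)⁻¹ • F = F := (hBmem _).mp h1
        rw [← h2]
        exact Set.smul_mem_smul_set hy
      have e : ((b * a * b⁻¹ : B) : K) = (b : K) * (a : K) * (b : K)⁻¹ := by
        simp
      rw [e, mul_smul, mul_smul, ha _ hb, smul_inv_smul]
    have h1 : (A ⊓ T).index = (A ⊓ T).relIndex (B ⊓ T) * (B ⊓ T).index :=
      (Subgroup.relIndex_mul_index (inf_le_inf_right T hAB)).symm
    have h2 : (A ⊓ T).relIndex (B ⊓ T) = A.relIndex (B ⊓ T) := by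
      rw [← Subgroup.inf_relIndex_right (H := A ⊓ T), ← Subgroup.inf_relIndex_right (H := A)]
      congr 1
      rw [inf_assoc, ← inf_assoc T B T, inf_comm T B, inf_assoc B T T, inf_idem]
    have h3 : A.relIndex (B ⊓ T) ∣ A.relIndex B := by
      have := Subgroup.relIndex_dvd_index_of_normal (A.subgroupOf B) ((B ⊓ T).subgroupOf B)
      rw [Subgroup.relIndex_subgroupOf inf_le_left] at this
      exact this
    have h4 : A.relIndex B ∣ A.index := Subgroup.relIndex_dvd_index_of_le hAB
    have h5 : ¬ p ∣ A.relIndex (B ⊓ T) := fun h => hFgood (h.trans (h3.trans h4))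
    rw [hT, h1, h2] at hbad
    exact (hp.dvd_mul.mp hbad).resolve_left h5
  · rw [Set.not_nonempty_iff_eq_empty] at hFe
    subst hFe
    obtain ⟨γ, hγ⟩ := hnt β
    refine ⟨{γ}, {β}, Set.singleton_nonempty γ, Set.singleton_nonempty β,
      Set.disjoint_singleton.mpr hγ, ?_⟩
    rw [hT, fixingSubgroup_empty, top_inf_eq] at hbad
    exact hbad.trans (Subgroup.index_dvd_of_le inf_le_right)

/-- Let p be an odd prime and G a nontrivial group of permutations of a finite set Ω that is generated by its elements of p-power order. Then Ω has two disjoint nonempty subsets Δ₁ and Δ₂ such that the index in G of the subgroup of elements mapping Δ₁ onto Δ₁ and Δ₂ onto Δ₂ (and hence also the complement of their union onto itself) is divisible by p. -/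
theorem result {Ω : Type*} [Fintype Ω] (p : ℕ) [Fact p.Prime] (hp : p ≠ 2) (G : Subgroup (Equiv.Perm Ω)) (hG : G ≠ ⊥) (hgen : Subgroup.closure {g : G | ∃ k : ℕ, orderOf g = p ^ k} = ⊤) :
    ∃ Δ₁ Δ₂ : Set Ω, Δ₁.Nonempty ∧ Δ₂.Nonempty ∧ Disjoint Δ₁ Δ₂ ∧ p ∣ (MulAction.stabilizer G Δ₁ ⊓ MulAction.stabilizer G Δ₂).index := by
  classical
  have hpp : p.Prime := Fact.out
  have hfin : Finite G := inferInstance
  have hfaith : ∀ g : G, (∀ ω : Ω, g • ω = ω) → g = 1 := by
    intro g hg
    apply Subtype.ext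
    apply Equiv.ext
    intro ω
    exact hg ω
  have hpK : p ∣ Nat.card G := by
    by_contra hnd
    apply hG
    have hset : {g : G | ∃ k : ℕ, orderOf g = p ^ k} ⊆ ((⊥ : Subgroup G) : Set G) := by
      rintro g ⟨k, hk⟩
      have h1 : orderOf g ∣ Nat.card G := orderOf_dvd_natCard g
      have hk0 : k = 0 := by
        by_contra hk0
        apply hnd
        rw [hk] at h1
        exact (dvd_pow_self p hk0).trans h1
      rw [hk0, pow_zero] at hk
      exact Subgroup.mem_bot.mpr (orderOf_eq_one_iff.mp hk)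
    have hle : Subgroup.closure {g : G | ∃ k : ℕ, orderOf g = p ^ k} ≤ ⊥ :=
      (Subgroup.closure_le _).mpr hset
    rw [hgen] at hle
    rw [eq_bot_iff]
    intro x hx
    have : (⟨x, hx⟩ : G) ∈ (⊥ : Subgroup G) := hle (Subgroup.mem_top _)
    have h2 := Subgroup.mem_bot.mp this
    exact Subgroup.mem_bot.mpr (congrArg Subtype.val h2)
  have hnt : ∀ β : Ω, ∃ γ : Ω, γ ≠ β := by
    intro β
    obtain ⟨g, hgG, hg1⟩ : ∃ g ∈ G, g ≠ 1 := by
      by_contra hcon
      push Not at hcon
      exact hG ((Subgroup.eq_bot_iff_forall G).mpr hcon)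
    obtain ⟨δ, hδ⟩ : ∃ δ, g δ ≠ δ := by
      by_contra hcon
      push Not at hcon
      exact hg1 (Equiv.ext hcon)
    by_cases h : δ = β
    · exact ⟨g δ, h ▸ hδ⟩
    · exact ⟨δ, h⟩
  exact key p hpp hfaith hpK hnt

end Cfsg.Agent.S4170
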