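import Cfsg.Statements.S4172
import Mathlib
import Cfsg.Agent.Lib.helper20.Mono4
import Cfsg.Agent.Lib.helper7.FStar

set_option autoImplicit false
open Cfsg

namespace Cfsg.Agent.S4172

/-- Let p be a prime and G a finite group with a non-commutative Sylow p-subgroup P whose Frattini subgroup has index p² in P (P is generated by two elements). Suppose G has no nontrivial normal subgroup of order prime to p and the Frattini subgroup of P contains no nontrivial normal subgroup of G. Then the generalized Fitting subgroup F*(G) is the unique minimal normal subgroup of G, the image of P in G/F*(G) is cyclic, and if F*(G) is not commutative then P permutes the components of G transitively by conjugation. -/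
theorem result {G : Type*} [Group G] [Finite G] (p : ℕ) [Fact p.Prime] (P : Sylow p G) (hna : ¬ IsMulCommutative (P : Subgroup G)) (hgen : (frattini ↥(P : Subgroup G)).index = p ^ 2) (hcore : Cfsg.pPrimeCore p G = ⊥) (hfrat : ((frattini ↥(P : Subgroup G)).map (P : Subgroup G).subtype).normalCore = ⊥) [hFn : (Cfsg.generalizedFittingSubgroup G).Normal] :
    (Cfsg.generalizedFittingSubgroup G ≠ ⊥ ∧ ∀ K : Subgroup G, K.Normal → K ≠ ⊥ → Cfsg.generalizedFittingSubgroup G ≤ K) ∧
      IsCyclic ↥((P : Subgroup G).map (QuotientGroup.mk' (Cfsg.generalizedFittingSubgroup G))) ∧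
      (¬ IsMulCommutative (Cfsg.generalizedFittingSubgroup G) → ∀ K L : Subgroup G, Cfsg.IsComponent K → Cfsg.IsComponent L → ∃ x ∈ (P : Subgroup G), L = K.map (MulAut.conj x).toMonoidHom) := by
  obtain ⟨K₀, hKn, hK1, hKmin⟩ := Lib.helper20.Mono.exists_monolith P hna hgen hcore hfrat
  haveI := hKn
  have hF1 : Cfsg.generalizedFittingSubgroup G ≠ ⊥ := by
    intro h
    have h0 := Lib.helper7.centralizer_genFitting_le G
    rw [h] at h0
    have h1 : K₀ ≤ (⊥ : Subgroup G) := by
      refine le_trans ?_ h0
      intro a _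
      apply Subgroup.mem_centralizer_iff.mpr
      intro b hb
      have hb1 : b = 1 := by simpa using hb
      rw [hb1, one_mul, mul_one]
    exact hK1 (le_bot_iff.mp h1)
  have hcyc : IsCyclic
      ↥((P : Subgroup G).map (QuotientGroup.mk' (Cfsg.generalizedFittingSubgroup G))) := by
    obtain ⟨x, hxP, hPx⟩ := Lib.helper20.Mono.exists_gen_normal P hgen hcore hfrat
      (Cfsg.generalizedFittingSubgroup G) hF1
    have h1 : (P : Subgroup G).map (QuotientGroup.mk' (Cfsg.generalizedFittingSubgroup G)) ≤
        Subgroup.zpowers (QuotientGroup.mk' (Cfsg.generalizedFittingSubgroup G) x) := by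
      have h2 := Subgroup.map_mono (f := QuotientGroup.mk' (Cfsg.generalizedFittingSubgroup G)) hPx
      rw [Subgroup.map_sup, QuotientGroup.map_mk'_self, bot_sup_eq, MonoidHom.map_zpowers] at h2
      exact h2
    exact isCyclic_of_injective (Subgroup.inclusion h1) (Subgroup.inclusion_injective h1)
  by_cases hab : ∀ a ∈ K₀, ∀ b ∈ K₀, a * b = b * a
  · have hFK := Lib.helper20.Mono.ab_case P hna hgen hcore hfrat K₀ hK1 hKmin hab
    refine ⟨⟨hF1, fun K hK hK1' => le_trans hFK (hKmin K hK hK1')⟩, hcyc, ?_⟩
    intro hnc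
    exfalso; apply hnc
    exact ⟨⟨fun a b => Subtype.ext (hab a (hFK a.2) b (hFK b.2))⟩⟩
  · obtain ⟨hFK, hcomp⟩ := Lib.helper20.Mono.nonab_case P hna hgen hcore K₀ hK1 hKmin hab
    exact ⟨⟨hF1, fun K hK hK1' => le_trans hFK (hKmin K hK hK1')⟩, hcyc, fun _ => hcomp⟩

end Cfsg.Agent.S4172
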