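import Cfsg.Statements.S4176
import Cfsg.Agent.S3744
import Cfsg.Agent.Lib.helper3.PSolvQuad
import Mathlib

set_option autoImplicit false
open Cfsg

namespace Cfsg.Agent.S4176

section
variable {k V : Type*} [Field k] [AddCommGroup V] [Module k V]

/-- stabilizer of a vector -/
def stab {G : Type*} [Group G] (ρ : Representation k G V) (v : V) : Subgroup G where
  carrier := {g | ρ g v = v}
  mul_mem' := by
    intro x y hx hy
    show ρ (x * y) v = v
    rw [map_mul, Module.End.mul_apply, show ρ y v = v from hy, show ρ x v = v from hx]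
  one_mem' := by
    show ρ 1 v = v
    simp
  inv_mem' := by
    intro x hx
    show ρ x⁻¹ v = v
    have h1 : ρ x⁻¹ (ρ x v) = v := by
      rw [← Module.End.mul_apply, ← map_mul]; simp
    rw [show ρ x v = v from hx] at h1
    exact h1

theorem mem_stab {G : Type*} [Group G] (ρ : Representation k G V) (v : V) (g : G) :
    g ∈ stab ρ v ↔ ρ g v = v := Iff.rfl

theorem rho_inv_mul {G : Type*} [Group G] (ρ : Representation k G V) (v : V) (a b : G) :
    ρ a v = ρ b v ↔ a⁻¹ * b ∈ stab ρ v := by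
  rw [mem_stab, map_mul, Module.End.mul_apply]
  constructor
  · intro h
    rw [← h, ← Module.End.mul_apply, ← map_mul]; simp
  · intro h
    have : ρ a (ρ a⁻¹ (ρ b v)) = ρ a v := by rw [h]
    rw [← Module.End.mul_apply, ← map_mul] at this
    simpa using this.symm

theorem orbit_card {G : Type*} [Group G] (ρ : Representation k G V) (v : V) :
    Nat.card {u : V | ∃ g : G, ρ g v = u} = (stab ρ v).index := by
  rw [Subgroup.index_eq_card]
  symm
  let f : G ⧸ stab ρ v → {u : V | ∃ g : G, ρ g v = u} := fun q =>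
    Quotient.liftOn' q (fun g => (⟨ρ g v, g, rfl⟩ : {u : V | ∃ g : G, ρ g v = u})) (by
      intro x y hxy
      rw [QuotientGroup.leftRel_apply] at hxy
      exact Subtype.ext ((rho_inv_mul ρ v x y).mpr hxy))
  apply Nat.card_congr (Equiv.ofBijective f ⟨?_, ?_⟩)
  · intro q1 q2
    induction q1 using QuotientGroup.induction_on with
    | H x =>
      induction q2 using QuotientGroup.induction_on with
      | H y =>
        intro hf
        have h1 : ρ x v = ρ y v := congrArg Subtype.val hf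
        exact QuotientGroup.eq.mpr ((rho_inv_mul ρ v x y).mp h1)
  · rintro ⟨u, g, rfl⟩
    exact ⟨QuotientGroup.mk g, rfl⟩

theorem trans_of_coprime {H : Type*} [Group H] [Finite H] (ρ : Representation k H V) (v : V)
    (L : Subgroup H) (hcop : (L.index).Coprime (stab ρ v).index) :
    ∀ h : H, ∃ κ ∈ L, ρ κ v = ρ h v := by
  set A := stab ρ v with hA
  let ρL : Representation k L V := ρ.comp L.subtype
  have hstab : stab ρL v = A.subgroupOf L := by
    ext x
    rw [mem_stab, Subgroup.mem_subgroupOf, hA, mem_stab]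
    rfl
  have hc1 : Nat.card {u : V | ∃ g : L, ρL g v = u} = A.relIndex L := by
    rw [orbit_card, hstab]; rfl
  have hc2 : Nat.card {u : V | ∃ g : H, ρ g v = u} = A.index := orbit_card ρ v
  have hsub : {u : V | ∃ g : L, ρL g v = u} ⊆ {u : V | ∃ g : H, ρ g v = u} := by
    rintro u ⟨g, rfl⟩
    exact ⟨g.1, rfl⟩
  have hfin : ({u : V | ∃ g : H, ρ g v = u}).Finite := Set.finite_range (fun g : H => ρ g v)
  have hfinL : ({u : V | ∃ g : L, ρL g v = u}).Finite := hfin.subset hsub
  have hdvd : A.index ∣ A.relIndex L := by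
    have h1 : A.index ∣ (A ⊓ L).index := Subgroup.index_dvd_of_le inf_le_left
    have h2 : (A ⊓ L).relIndex L * L.index = (A ⊓ L).index := Subgroup.relIndex_mul_index inf_le_right
    rw [Subgroup.inf_relIndex_right] at h2
    rw [← h2] at h1
    exact (Nat.Coprime.dvd_of_dvd_mul_right hcop.symm h1)
  have hpos : 0 < A.relIndex L := by
    rw [← hc1, Nat.card_coe_set_eq]
    exact (Set.ncard_pos hfinL).mpr ⟨v, 1, by simp [ρL]⟩
  have hle : A.index ≤ A.relIndex L := Nat.le_of_dvd hpos hdvd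
  have heq : {u : V | ∃ g : L, ρL g v = u} = {u : V | ∃ g : H, ρ g v = u} := by
    apply Set.eq_of_subset_of_ncard_le hsub _ hfin
    rw [← Nat.card_coe_set_eq, ← Nat.card_coe_set_eq, hc1, hc2]
    exact hle
  intro h
  have : ρ h v ∈ {u : V | ∃ g : L, ρL g v = u} := by
    rw [heq]; exact ⟨h, rfl⟩
  obtain ⟨g, hg⟩ := this
  exact ⟨g.1, g.2, hg⟩

theorem avg {H : Type*} [Group H] [Finite H] (ρ : Representation k H V) (a : V)
    (hspan : Submodule.span k {u : V | ∃ h : H, ρ h a = u} = ⊤)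
    (hm : (((stab ρ a).index : ℕ) : k) ≠ 0)
    (L : Subgroup H) (hL : ((Nat.card L : ℕ) : k) ≠ 0)
    (htr : ∀ h : H, ∃ κ ∈ L, ρ κ a = ρ h a) :
    ∃ s : V, (∀ h : H, ρ h s = s) ∧ ∀ v : V, (∀ κ ∈ L, ρ κ v = v) → v ∈ Submodule.span k {s} := by
  classical
  haveI : Fintype H := Fintype.ofFinite H
  haveI : Fintype L := Fintype.ofFinite L
  set Δ : Finset V := Finset.univ.image (fun h : H => ρ h a) with hΔ
  have hmemΔ : ∀ u, u ∈ Δ ↔ ∃ h : H, ρ h a = u := by
    intro u; simp [hΔ]
  set s : V := ∑ w ∈ Δ, w with hs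
  have hsfix : ∀ h : H, ρ h s = s := by
    intro h
    rw [hs, map_sum]
    apply Finset.sum_nbij' (fun w => ρ h w) (fun w => ρ h⁻¹ w)
    · intro w hw
      obtain ⟨g, rfl⟩ := (hmemΔ w).mp hw
      rw [hmemΔ]; exact ⟨h * g, by rw [map_mul]; rfl⟩
    · intro w hw
      obtain ⟨g, rfl⟩ := (hmemΔ w).mp hw
      rw [hmemΔ]; exact ⟨h⁻¹ * g, by rw [map_mul]; rfl⟩
    · intro w _
      show ρ h⁻¹ (ρ h w) = w
      rw [← Module.End.mul_apply, ← map_mul]; simp
    · intro w _
      show ρ h (ρ h⁻¹ w) = w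
      rw [← Module.End.mul_apply, ← map_mul]; simp
    · intro w _; rfl
  refine ⟨s, hsfix, ?_⟩
  let T : V →ₗ[k] V := ∑ κ : L, ρ (κ : H)
  have hT : ∀ v, T v = ∑ κ : L, ρ (κ : H) v := by
    intro v; simp [T, LinearMap.sum_apply]
  have hTfix : ∀ v, (∀ κ ∈ L, ρ κ v = v) → T v = (Nat.card L : k) • v := by
    intro v hv
    rw [hT, Finset.sum_congr rfl (fun κ _ => hv κ.1 κ.2), Finset.sum_const, Finset.card_univ,
      Nat.card_eq_fintype_card, Nat.cast_smul_eq_nsmul]
  have hTκ : ∀ κ ∈ L, T (ρ κ a) = T a := by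
    intro κ hκ
    rw [hT, hT]
    apply Fintype.sum_equiv (Equiv.mulRight (⟨κ, hκ⟩ : L))
    intro x
    show ρ (x : H) (ρ κ a) = ρ ((x * ⟨κ, hκ⟩ : L) : H) a
    rw [Subgroup.coe_mul, map_mul]; rfl
  have hTΔ : ∀ w ∈ Δ, T w = T a := by
    intro w hw
    obtain ⟨g, rfl⟩ := (hmemΔ w).mp hw
    obtain ⟨κ, hκ, hκg⟩ := htr g
    rw [← hκg]; exact hTκ κ hκ
  have hcardΔ : Δ.card = (stab ρ a).index := by
    rw [← orbit_card ρ a, Nat.card_coe_set_eq, ← Set.ncard_coe_finset]
    congr 1
    ext u; simp [hΔ]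
  have hTs : T s = ((stab ρ a).index : k) • T a := by
    rw [hs, map_sum, Finset.sum_congr rfl hTΔ, Finset.sum_const, hcardΔ, Nat.cast_smul_eq_nsmul]
  have hTs' : T s = (Nat.card L : k) • s := hTfix s (fun κ _ => hsfix κ)
  have hTa : T a = (((stab ρ a).index : k)⁻¹ * (Nat.card L : k)) • s := by
    rw [mul_smul, ← hTs', hTs, smul_smul, inv_mul_cancel₀ hm, one_smul]
  have hTspan : ∀ v : V, T v ∈ Submodule.span k {s} := by
    intro v
    have hv : v ∈ Submodule.span k {u : V | ∃ h : H, ρ h a = u} := by rw [hspan]; trivial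
    induction hv using Submodule.span_induction with
    | mem u hu =>
      have : u ∈ Δ := (hmemΔ u).mpr hu
      rw [hTΔ u this, hTa]
      exact Submodule.smul_mem _ _ (Submodule.mem_span_singleton_self s)
    | zero => rw [map_zero]; exact Submodule.zero_mem _
    | add x y _ _ hx hy => rw [map_add]; exact Submodule.add_mem _ hx hy
    | smul c x _ hx => rw [map_smul]; exact Submodule.smul_mem _ _ hx
  intro v hv
  have h1 : (Nat.card L : k) • v ∈ Submodule.span k {s} := by
    rw [← hTfix v hv]; exact hTspan v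
  have h2 : v = (Nat.card L : k)⁻¹ • ((Nat.card L : k) • v) := by
    rw [smul_smul, inv_mul_cancel₀ hL, one_smul]
  rw [h2]
  exact Submodule.smul_mem _ _ h1

end

theorem result {k V H : Type*} [Field k] (p : ℕ) [Fact p.Prime] [CharP k p] [AddCommGroup V] [Module k V]
    [Group H] [Finite H] (hsol : Cfsg.IsPSolvable p H) (ρ : Representation k H V) (a : V)
    (hfix : ∃ P : Sylow p H, ∀ x : H, x ∈ (P : Subgroup H) → ρ x a = a)
    (hspan : Submodule.span k {u : V | ∃ h : H, ρ h a = u} = ⊤) :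
    Module.finrank k ρ.invariants ≤ 1 ∧
    ∀ b : V, (Nat.card {u : V | ∃ h : H, ρ h a = u}).Coprime (Nat.card {u : V | ∃ h : H, ρ h b = u}) → ∀ h : H, ρ h b = b := by
  have hpp : p.Prime := Fact.out
  obtain ⟨P, hP⟩ := hfix
  have hPA : (P : Subgroup H) ≤ stab ρ a := fun x hx => hP x hx
  have hmp : ¬ p ∣ (stab ρ a).index := by
    intro hd
    exact P.not_dvd_index (dvd_trans hd (Subgroup.index_dvd_of_le hPA))
  have hm : (((stab ρ a).index : ℕ) : k) ≠ 0 := by
    rw [Ne, CharP.cast_eq_zero_iff k p]; exact hmp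
  have hmcop : (stab ρ a).index.Coprime p := (Nat.Coprime.symm ((Nat.Prime.coprime_iff_not_dvd hpp).mpr hmp))
  constructor
  · obtain ⟨⟨K, hKc, n, hKn⟩, -, -⟩ := Cfsg.Agent.S3744.result hsol
    have htr := trans_of_coprime ρ a K (by rw [hKn]; exact Nat.Coprime.pow_left n hmcop.symm)
    have hK : ((Nat.card K : ℕ) : k) ≠ 0 := by
      rw [Ne, CharP.cast_eq_zero_iff k p]
      intro hd
      exact hpp.one_lt.ne' (Nat.eq_one_of_dvd_coprimes hKc hd (dvd_refl p))
    obtain ⟨s, hs, hsv⟩ := avg ρ a hspan hm K hK htr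
    have hle : ρ.invariants ≤ Submodule.span k {s} := by
      intro v hv
      rw [Representation.mem_invariants] at hv
      exact hsv v (fun κ _ => hv κ)
    calc Module.finrank k ρ.invariants ≤ Module.finrank k (Submodule.span k {s}) :=
          Submodule.finrank_mono hle
      _ ≤ 1 := by
          have := finrank_span_le_card (R := k) ({s} : Set V)
          simpa using this
  · intro b hcop h
    rw [orbit_card, orbit_card] at hcop
    have hBsol : Cfsg.IsPSolvable p ↥(stab ρ b) :=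
      Cfsg.Agent.Lib.helper3.isPSolvable_subgroup (stab ρ b) hsol
    obtain ⟨⟨K, hKc, n, hKn⟩, -, -⟩ := Cfsg.Agent.S3744.result hBsol
    set L : Subgroup H := K.map (stab ρ b).subtype with hLdef
    have hLidx : L.index = p ^ n * (stab ρ b).index := by
      rw [hLdef, Subgroup.index_map_subtype, hKn]
    have hLcard : Nat.card L = Nat.card K := by
      rw [hLdef]
      exact Subgroup.card_map_of_injective (Subgroup.subtype_injective _)
    have htr := trans_of_coprime ρ a L (by
      rw [hLidx]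
      exact Nat.Coprime.mul_left (Nat.Coprime.pow_left n hmcop.symm) hcop.symm)
    have hLk : ((Nat.card L : ℕ) : k) ≠ 0 := by
      rw [Ne, CharP.cast_eq_zero_iff k p, hLcard]
      intro hd
      exact hpp.one_lt.ne' (Nat.eq_one_of_dvd_coprimes hKc hd (dvd_refl p))
    obtain ⟨s, hs, hsv⟩ := avg ρ a hspan hm L hLk htr
    have hb : b ∈ Submodule.span k {s} := by
      apply hsv
      intro κ hκ
      rw [hLdef] at hκ
      obtain ⟨x, _, rfl⟩ := Subgroup.mem_map.mp hκ
      exact x.2
    obtain ⟨c, rfl⟩ := Submodule.mem_span_singleton.mp hb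
    rw [map_smul, hs h]

end Cfsg.Agent.S4176
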