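import Cfsg.Statements.S4177
-- import your own Cfsg.Agent.* helpers here
import Mathlib

set_option autoImplicit false
open Cfsg

namespace Cfsg.Agent.S4177

theorem exists_stab_of_coprime {H X Y : Type*} [Group H] [Finite H] [MulAction H X]
    [MulAction H Y] (a : X) (b : Y)
    (hcop : (Nat.card (MulAction.orbit H a)).Coprime (Nat.card (MulAction.orbit H b))) :
    ∀ h : H, ∃ h' : H, h' • a = h • a ∧ h' • b = b := by
  classical
  have hst : MulAction.stabilizer H (a, b)
      = MulAction.stabilizer H a ⊓ MulAction.stabilizer H b := by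
    ext h
    simp [MulAction.mem_stabilizer_iff, Prod.ext_iff]
  have hsub : MulAction.orbit H (a, b) ⊆ (MulAction.orbit H a) ×ˢ (MulAction.orbit H b) := by
    rintro _ ⟨h, rfl⟩
    exact ⟨⟨h, rfl⟩, ⟨h, rfl⟩⟩
  have hfin : ((MulAction.orbit H a) ×ˢ (MulAction.orbit H b)).Finite :=
    Set.Finite.prod (Set.finite_range _) (Set.finite_range _)
  have hcop' : ((MulAction.stabilizer H a).index).Coprime ((MulAction.stabilizer H b).index) := by
    rw [MulAction.index_stabilizer, MulAction.index_stabilizer]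
    rw [Nat.card_coe_set_eq, Nat.card_coe_set_eq] at hcop
    exact hcop
  have hcard : ((MulAction.orbit H a) ×ˢ (MulAction.orbit H b)).ncard
      ≤ (MulAction.orbit H (a, b)).ncard := by
    rw [Set.ncard_prod, ← MulAction.index_stabilizer, ← MulAction.index_stabilizer,
      ← MulAction.index_stabilizer, hst]
    apply Nat.le_of_dvd (Nat.pos_of_ne_zero Subgroup.index_ne_zero_of_finite)
    exact Nat.Coprime.mul_dvd_of_dvd_of_dvd hcop' (Subgroup.index_dvd_of_le inf_le_left)
      (Subgroup.index_dvd_of_le inf_le_right)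
  have heq := Set.eq_of_subset_of_ncard_le hsub hcard hfin
  intro h
  have hmem : (h • a, b) ∈ MulAction.orbit H (a, b) := by
    rw [heq]
    exact ⟨⟨h, rfl⟩, ⟨1, one_smul _ _⟩⟩
  obtain ⟨h', hh'⟩ := hmem
  exact ⟨h', (Prod.ext_iff.mp hh').1, (Prod.ext_iff.mp hh').2⟩

theorem fixed_in_span {k V H : Type*} [Field k] [AddCommGroup V] [Module k V] [Group H] [Finite H]
    (hchar : ¬ ringChar k ∣ Nat.card H) (ρ : Representation k H V) (a : V)
    (hspan : Submodule.span k {u : V | ∃ h : H, ρ h a = u} = ⊤) (B : Subgroup H)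
    (hB : ∀ h : H, ∃ b' ∈ B, ρ b' a = ρ h a) :
    ∃ s : V, (∀ h : H, ρ h s = s) ∧
      ∀ v : V, (∀ b' ∈ B, ρ b' v = v) → v ∈ Submodule.span k {s} := by
  classical
  let _ : Fintype H := Fintype.ofFinite H
  let _ : Fintype B := Fintype.ofFinite B
  have hinv : ∀ g : H, ρ g (∑ h : H, ρ h a) = ∑ h : H, ρ h a := by
    intro g
    rw [map_sum]
    have : ∀ h : H, ρ g (ρ h a) = ρ (g * h) a := by intro h; simp
    simp_rw [this]
    exact Fintype.sum_equiv (Equiv.mulLeft g) _ _ (fun h => rfl)
  refine ⟨∑ h : H, ρ h a, hinv, ?_⟩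
  intro v hv
  obtain ⟨σ, hσ⟩ : ∃ σ : V →ₗ[k] V, σ = ∑ b' : B, ρ (b' : H) := ⟨_, rfl⟩
  have hσa : ∀ x ∈ {u : V | ∃ h : H, ρ h a = u}, σ x = σ a := by
    rintro x ⟨h, rfl⟩
    obtain ⟨b₀, hb₀, hb₀a⟩ := hB h
    rw [← hb₀a, hσ]
    simp only [LinearMap.sum_apply]
    have : ∀ b' : B, ρ (b' : H) (ρ b₀ a) = ρ ((b' * ⟨b₀, hb₀⟩ : B) : H) a := by
      intro b'; simp
    simp_rw [this]
    exact Fintype.sum_equiv (Equiv.mulRight ⟨b₀, hb₀⟩) _ _ (fun h => rfl)
  have hs1 : σ (∑ h : H, ρ h a) = (Fintype.card H : k) • σ a := by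
    rw [map_sum, Finset.sum_congr rfl (fun h _ => hσa (ρ h a) ⟨h, rfl⟩)]
    rw [Finset.sum_const, Finset.card_univ, Nat.cast_smul_eq_nsmul]
  have hs2 : σ (∑ h : H, ρ h a) = (Fintype.card B : k) • (∑ h : H, ρ h a) := by
    rw [hσ, LinearMap.sum_apply, Finset.sum_congr rfl (fun (b' : B) _ => hinv (b' : H))]
    rw [Finset.sum_const, Finset.card_univ, Nat.cast_smul_eq_nsmul]
  have hv1 : σ v = (Fintype.card B : k) • v := by
    rw [hσ, LinearMap.sum_apply, Finset.sum_congr rfl (fun (b' : B) _ => hv b' b'.2)]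
    rw [Finset.sum_const, Finset.card_univ, Nat.cast_smul_eq_nsmul]
  have hv2 : σ v ∈ Submodule.span k {σ a} := by
    have hle : Submodule.span k {u : V | ∃ h : H, ρ h a = u}
        ≤ (Submodule.span k {σ a}).comap σ := by
      rw [Submodule.span_le]
      intro x hx
      show σ x ∈ Submodule.span k {σ a}
      rw [hσa x hx]
      exact Submodule.mem_span_singleton_self _
    have hvt : v ∈ Submodule.span k {u : V | ∃ h : H, ρ h a = u} := by rw [hspan]; trivial
    exact hle hvt
  obtain ⟨c, hc⟩ := Submodule.mem_span_singleton.mp hv2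
  have hH0 : ((Fintype.card H : ℕ) : k) ≠ 0 := by
    intro h0
    rw [ringChar.spec] at h0
    exact hchar (by rwa [Nat.card_eq_fintype_card])
  have hB0 : ((Fintype.card B : ℕ) : k) ≠ 0 := by
    intro h0
    rw [ringChar.spec] at h0
    apply hchar
    have h1 := Subgroup.card_subgroup_dvd_card B
    rw [Nat.card_eq_fintype_card] at h1
    exact dvd_trans h0 h1
  rw [Submodule.mem_span_singleton]
  refine ⟨((Fintype.card H : k) * (Fintype.card B : k))⁻¹ * (c * (Fintype.card B : k)), ?_⟩
  have e1 : (Fintype.card H : k) • (Fintype.card B : k) • v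
      = (c * (Fintype.card B : k)) • (∑ h : H, ρ h a) := by
    calc (Fintype.card H : k) • (Fintype.card B : k) • v
        = (Fintype.card H : k) • σ v := by rw [hv1]
      _ = (Fintype.card H : k) • c • σ a := by rw [hc]
      _ = c • ((Fintype.card H : k) • σ a) := smul_comm _ _ _
      _ = c • σ (∑ h : H, ρ h a) := by rw [hs1]
      _ = c • ((Fintype.card B : k) • (∑ h : H, ρ h a)) := by rw [hs2]
      _ = (c * (Fintype.card B : k)) • (∑ h : H, ρ h a) := by rw [mul_smul]
  rw [mul_smul, ← e1, smul_smul, smul_smul, mul_assoc, inv_mul_cancel₀ (mul_ne_zero hH0 hB0), one_smul]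

@[reducible] def repAction {k V H : Type*} [Field k] [AddCommGroup V] [Module k V] [Group H]
    (ρ : Representation k H V) : MulAction H V where
  smul h v := ρ h v
  one_smul v := by show ρ 1 v = v; simp
  mul_smul g h v := by show ρ (g * h) v = ρ g (ρ h v); simp

/-- Let k be a field whose characteristic does not divide the order of the finite group H (for instance a field of characteristic zero), and ρ a k-linear representation of H on V. Let a be a vector whose H-orbit spans V. Then the space of H-fixed vectors has dimension at most 1, and every vector b whose H-orbit has size coprime to the size of the orbit of a is fixed by H. -/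
theorem result {k V H : Type*} [Field k] [AddCommGroup V] [Module k V] [Group H] [Finite H]
    (hchar : ¬ ringChar k ∣ Nat.card H) (ρ : Representation k H V) (a : V)
    (hspan : Submodule.span k {u : V | ∃ h : H, ρ h a = u} = ⊤) :
    Module.finrank k ρ.invariants ≤ 1 ∧
    ∀ b : V, (Nat.card {u : V | ∃ h : H, ρ h a = u}).Coprime (Nat.card {u : V | ∃ h : H, ρ h b = u}) → ∀ h : H, ρ h b = b := by
  classical
  constructor
  · obtain ⟨s, hs, hfix⟩ := fixed_in_span hchar ρ a hspan ⊤
      (fun h => ⟨h, Subgroup.mem_top h, rfl⟩)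
    have hsinv : s ∈ ρ.invariants := fun h => hs h
    apply finrank_le_one (⟨s, hsinv⟩ : ρ.invariants)
    intro w
    have hw := hfix w.1 (fun b' _ => w.2 b')
    obtain ⟨c, hc⟩ := Submodule.mem_span_singleton.mp hw
    exact ⟨c, Subtype.ext hc⟩
  · intro b hcop h
    let _ : MulAction H V := repAction ρ
    have key := exists_stab_of_coprime (H := H) a b hcop
    obtain ⟨s, hs, hfix⟩ := fixed_in_span hchar ρ a hspan (MulAction.stabilizer H b) (fun h => by
      obtain ⟨h', h1, h2⟩ := key h
      exact ⟨h', h2, h1⟩)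
    have hb : b ∈ Submodule.span k {s} := hfix b (fun b' hb' => hb')
    obtain ⟨c, rfl⟩ := Submodule.mem_span_singleton.mp hb
    rw [map_smul, hs]

end Cfsg.Agent.S4177
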