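import Cfsg.Statements.S4178
-- import your own Cfsg.Agent.* helpers here

set_option autoImplicit false
open Cfsg

namespace Cfsg.Agent.S4178

theorem index_add_one_le {H X : Type*} [Group H] [Finite X] (R : Subgroup H) (f : H → X) (x0 : X)
    (hf : ∀ a b : H, f a = f b → a⁻¹ * b ∈ R) (h0 : ∀ a, f a ≠ x0) :
    R.index + 1 ≤ Nat.card X := by
  classical
  obtain ⟨F, hF⟩ : ∃ F : Option (H ⧸ R) → X,
      F = fun o => match o with | none => x0 | some q => f q.out := ⟨_, rfl⟩
  have hinj : Function.Injective F := by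
    intro a b hab
    rw [hF] at hab
    cases a with
    | none => cases b with
      | none => rfl
      | some q => exact absurd hab.symm (h0 _)
    | some q => cases b with
      | none => exact absurd hab (h0 _)
      | some q' =>
        have h1 : q.out⁻¹ * q'.out ∈ R := hf _ _ hab
        congr 1
        rw [← QuotientGroup.out_eq' q, ← QuotientGroup.out_eq' q']
        exact QuotientGroup.eq.mpr h1
  have hfin : Finite (Option (H ⧸ R)) := Finite.of_injective F hinj
  have hfin' : Finite (H ⧸ R) := Finite.of_injective some (Option.some_injective _)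
  have := Nat.card_le_card_of_injective F hinj
  rw [Finite.card_option] at this
  exact this

theorem exists_fixed_of_quot {F V : Type*} [Field F] [AddCommGroup V] [Module F V]
    [FiniteDimensional F V]
    (g : V ≃ₗ[F] V) (W : Submodule F V) (hW : ∀ w ∈ W, g w ∈ W) (v : V) (hv : v ∉ W)
    (hgv : g v - v ∈ W) : ∃ u : V, u ≠ 0 ∧ g u = u := by
  by_contra hcon
  push Not at hcon
  obtain ⟨T, hT⟩ : ∃ T : W →ₗ[F] W, ∀ w : W, ((T w : W) : V) = g w - w :=
    ⟨((g : V →ₗ[F] V) - LinearMap.id).restrict (fun w hw => W.sub_mem (hW w hw) hw),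
      fun w => rfl⟩
  have hinj : Function.Injective T := by
    rw [← LinearMap.ker_eq_bot, LinearMap.ker_eq_bot']
    intro w hw
    by_contra hne
    have h1 : g (w : V) - w = 0 := by rw [← hT, hw]; rfl
    exact hcon (w : V) (fun h => hne (Subtype.ext h)) (sub_eq_zero.mp h1)
  have hsurj : Function.Surjective T := LinearMap.injective_iff_surjective.mp hinj
  obtain ⟨w', hw'⟩ := hsurj ⟨g v - v, hgv⟩
  have h2 : g (w' : V) - w' = g v - v := by rw [← hT, hw']
  have h3 : g (v - w') = v - w' := by
    rw [map_sub]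
    exact sub_eq_sub_iff_sub_eq_sub.mp h2.symm
  refine hcon (v - w') ?_ h3
  intro h
  apply hv
  rw [sub_eq_zero.mp h]
  exact w'.2

theorem inv_mul_apply_eq {F V : Type*} [Field F] [AddCommGroup V] [Module F V]
    (a b : V ≃ₗ[F] V) (v : V) (h : a v = b v) : (a⁻¹ * b) v = v := by
  show a⁻¹ (b v) = v
  rw [← h]
  exact a.symm_apply_apply v

/-- Let F be a finite field with q elements, V a non-zero finite-dimensional F-space of dimension d, H a group of invertible linear maps of V, and R the subgroup of H generated by the elements of H that fix some non-zero vector (have eigenvalue 1). Then the index of R in H is at most q^d − 1; and if H leaves invariant some proper non-zero subspace, the index is at most q^(d/2) − 1. -/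
theorem result {F V : Type*} [Field F] [Fintype F] [AddCommGroup V] [Module F V] [FiniteDimensional F V] [Nontrivial V]
    (H : Subgroup (V ≃ₗ[F] V)) :
    (Subgroup.closure {h : ↥H | ∃ v : V, v ≠ 0 ∧ (h : V ≃ₗ[F] V) v = v}).index ≤ Fintype.card F ^ Module.finrank F V - 1 ∧
    ((∃ W : Submodule F V, W ≠ ⊥ ∧ W ≠ ⊤ ∧ ∀ h ∈ H, ∀ w ∈ W, h w ∈ W) →
      ((Subgroup.closure {h : ↥H | ∃ v : V, v ≠ 0 ∧ (h : V ≃ₗ[F] V) v = v}).index : ℝ) ≤ Real.sqrt ((Fintype.card F : ℝ) ^ Module.finrank F V) - 1) := by
  classical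
  have hq1 : 1 < Fintype.card F := Fintype.one_lt_card
  have : Finite V := Module.finite_of_finite F
  obtain ⟨R, hR⟩ : ∃ R : Subgroup ↥H,
      R = Subgroup.closure {h : ↥H | ∃ v : V, v ≠ 0 ∧ (h : V ≃ₗ[F] V) v = v} := ⟨_, rfl⟩
  rw [← hR]
  have hRmem : ∀ h : ↥H, (∃ v : V, v ≠ 0 ∧ (h : V ≃ₗ[F] V) v = v) → h ∈ R := fun h hh => by
    rw [hR]; exact Subgroup.subset_closure hh
  have hcardV : Nat.card V = Fintype.card F ^ Module.finrank F V := by
    rw [Module.natCard_eq_pow_finrank (K := F), Nat.card_eq_fintype_card]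
  constructor
  · obtain ⟨v, hv⟩ := exists_ne (0 : V)
    have hle := index_add_one_le R (fun h : ↥H => (h : V ≃ₗ[F] V) v) 0 (by
      intro a b hab
      apply hRmem
      exact ⟨v, hv, inv_mul_apply_eq _ _ v hab⟩) (by
      intro a h0
      exact hv ((a : V ≃ₗ[F] V).map_eq_zero_iff.mp h0))
    rw [hcardV] at hle
    omega
  · rintro ⟨W, hWbot, hWtop, hWinv⟩
    have hWinv' : ∀ h ∈ H, ∀ w : V, h w ∈ W → w ∈ W := by
      intro h hh w hw
      have := hWinv h⁻¹ (H.inv_mem hh) _ hw
      have e : h⁻¹ (h w) = w := h.symm_apply_apply w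
      rw [e] at this
      exact this
    have key : ∀ k : ℕ, 2 * k ≤ Module.finrank F V → R.index + 1 ≤ Fintype.card F ^ k →
        (R.index : ℝ) ≤ Real.sqrt ((Fintype.card F : ℝ) ^ Module.finrank F V) - 1 := by
      intro k hk hidx
      have h1 : ((R.index : ℝ) + 1) ≤ (Fintype.card F : ℝ) ^ k := by exact_mod_cast hidx
      have h2 : (Fintype.card F : ℝ) ^ k ≤
          Real.sqrt ((Fintype.card F : ℝ) ^ Module.finrank F V) := by
        apply Real.le_sqrt_of_sq_le
        rw [← pow_mul]
        exact pow_le_pow_right₀ (by exact_mod_cast hq1.le) (by omega)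
      linarith
    by_cases hcase : 2 * Module.finrank F W ≤ Module.finrank F V
    · obtain ⟨v, hvW, hv0⟩ := (Submodule.ne_bot_iff W).mp hWbot
      apply key _ hcase
      have hcardW : Nat.card W = Fintype.card F ^ Module.finrank F W := by
        rw [Module.natCard_eq_pow_finrank (K := F), Nat.card_eq_fintype_card]
      rw [← hcardW]
      apply index_add_one_le R
        (fun h : ↥H => (⟨(h : V ≃ₗ[F] V) v, hWinv _ h.2 v hvW⟩ : W)) 0
      · intro a b hab
        apply hRmem
        have hab' : (a : V ≃ₗ[F] V) v = (b : V ≃ₗ[F] V) v := congrArg Subtype.val hab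
        exact ⟨v, hv0, inv_mul_apply_eq _ _ v hab'⟩
      · intro a h0
        have : (a : V ≃ₗ[F] V) v = 0 := congrArg Subtype.val h0
        exact hv0 ((a : V ≃ₗ[F] V).map_eq_zero_iff.mp this)
    · obtain ⟨v, hvW⟩ : ∃ v : V, v ∉ W := by
        by_contra hcon
        push Not at hcon
        exact hWtop (eq_top_iff.mpr fun x _ => hcon x)
      have : Finite (V ⧸ W) :=
        Finite.of_surjective (Submodule.Quotient.mk) (Submodule.Quotient.mk_surjective W)
      have hfr : Module.finrank F (V ⧸ W) + Module.finrank F W = Module.finrank F V :=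
        W.finrank_quotient_add_finrank
      apply key (Module.finrank F (V ⧸ W)) (by omega)
      have hcardQ : Nat.card (V ⧸ W) = Fintype.card F ^ Module.finrank F (V ⧸ W) := by
        rw [Module.natCard_eq_pow_finrank (K := F), Nat.card_eq_fintype_card]
      rw [← hcardQ]
      apply index_add_one_le R
        (fun h : ↥H => (Submodule.Quotient.mk ((h : V ≃ₗ[F] V) v) : V ⧸ W)) 0
      · intro a b hab
        apply hRmem
        have h1 : (a : V ≃ₗ[F] V) v - (b : V ≃ₗ[F] V) v ∈ W := (Submodule.Quotient.eq W).mp hab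
        apply exists_fixed_of_quot ((a⁻¹ * b : ↥H) : V ≃ₗ[F] V) W
          (fun w hw => hWinv _ (a⁻¹ * b).2 w hw) v hvW
        have h2 : ((a⁻¹ * b : ↥H) : V ≃ₗ[F] V) v - v
            = ((a⁻¹ : ↥H) : V ≃ₗ[F] V) ((b : V ≃ₗ[F] V) v - (a : V ≃ₗ[F] V) v) := by
          rw [map_sub]
          have e : ((a⁻¹ : ↥H) : V ≃ₗ[F] V) ((a : V ≃ₗ[F] V) v) = v :=
            (a : V ≃ₗ[F] V).symm_apply_apply v
          rw [e]
          rfl
        rw [h2]
        apply hWinv _ (a⁻¹).2
        have : (b : V ≃ₗ[F] V) v - (a : V ≃ₗ[F] V) v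
            = -((a : V ≃ₗ[F] V) v - (b : V ≃ₗ[F] V) v) := by abel
        rw [this]; exact W.neg_mem h1
      · intro a h0
        have : (a : V ≃ₗ[F] V) v ∈ W := (Submodule.Quotient.mk_eq_zero W).mp h0
        exact hvW (hWinv' _ a.2 v this)

end Cfsg.Agent.S4178
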