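import Cfsg.Statements.S4182
import Mathlib

set_option autoImplicit false
open Cfsg

namespace Cfsg.Agent.S4182

universe u v
open scoped Pointwise

/-- `H` is generated by its `p`-elements -/
def PG (p : ℕ) {G : Type u} [Group G] (H : Subgroup G) : Prop :=
  H = Subgroup.closure {g : G | g ∈ H ∧ ∃ k : ℕ, orderOf g = p ^ k}

lemma pg_smul (p : ℕ) {G : Type u} [Group G] (φ : MulAut G) (H : Subgroup G) (hH : PG p H) :
    PG p (φ • H) := by
  unfold PG at hH ⊢
  apply le_antisymm
  · have h1 : φ • H = Subgroup.closure (φ • {g : G | g ∈ H ∧ ∃ k : ℕ, orderOf g = p ^ k}) := by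
      conv_lhs => rw [hH]
      exact Subgroup.smul_closure φ _
    refine h1.le.trans (Subgroup.closure_mono ?_)
    rintro y ⟨g, ⟨hg, k, hk⟩, rfl⟩
    refine ⟨Subgroup.smul_mem_pointwise_smul g φ H hg, k, ?_⟩
    rw [← hk]
    exact MulEquiv.orderOf_eq φ g
  · exact (Subgroup.closure_le _).mpr (fun y hy => hy.1)

lemma smul_ne_top {G : Type u} [Group G] (φ : MulAut G) (H : Subgroup G) (hH : H ≠ ⊤) :
    φ • H ≠ ⊤ := by
  intro h
  apply hH
  rw [eq_top_iff]
  intro g _
  have : φ • g ∈ φ • H := by rw [h]; trivial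
  exact (Subgroup.smul_mem_pointwise_smul_iff).mp this

lemma pg_zpowers (p : ℕ) {G : Type u} [Group G] (x : G) (hx : ∃ k : ℕ, orderOf x = p ^ k) :
    PG p (Subgroup.zpowers x) := by
  unfold PG
  apply le_antisymm
  · rw [Subgroup.zpowers_le]
    exact Subgroup.subset_closure ⟨Subgroup.mem_zpowers x, hx⟩
  · exact (Subgroup.closure_le _).mpr (fun y hy => hy.1)

/-- If the `p`-elements of a group generated by its `p`-elements are covered by at most `p`
subgroups, then one of them is the whole group. -/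
theorem cover_aux (p : ℕ) [Fact p.Prime] {ι : Type v} [Fintype ι] (hι : Fintype.card ι ≤ p) :
    ∀ (n : ℕ) (G : Type u) [Group G] [Finite G], Nat.card G ≤ n →
      Subgroup.closure {g : G | ∃ k : ℕ, orderOf g = p ^ k} = ⊤ →
      ∀ K : ι → Subgroup G, (∀ g : G, (∃ k : ℕ, orderOf g = p ^ k) → ∃ i, g ∈ K i) →
        ∃ i, K i = ⊤ := by
  classical
  have hp : p.Prime := Fact.out
  intro n
  induction n with
  | zero =>
    intro G _ _ hn
    exact absurd hn (by have := Nat.card_pos (α := G); omega)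
  | succ n ih =>
    intro G _ _ hn hgen K hcov
    by_contra hcon
    push Not at hcon
    have ha : ∀ H : Subgroup G, H ≠ ⊤ → PG p H → ∃ i, H ≤ K i := by
      intro H hH hPG
      have hcard : Nat.card H ≤ n := by
        by_contra hc
        apply hH
        apply Subgroup.eq_top_of_le_card
        omega
      have hgenH : Subgroup.closure {g : H | ∃ k : ℕ, orderOf g = p ^ k} = ⊤ := by
        apply Subgroup.map_injective H.subtype_injective
        rw [MonoidHom.map_closure, ← MonoidHom.range_eq_map, Subgroup.range_subtype]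
        have : (H.subtype '' {g : H | ∃ k : ℕ, orderOf g = p ^ k}) =
            {g : G | g ∈ H ∧ ∃ k : ℕ, orderOf g = p ^ k} := by
          ext y
          constructor
          · rintro ⟨g, ⟨k, hk⟩, rfl⟩
            exact ⟨g.2, k, by rw [← hk]; exact Subgroup.orderOf_coe g⟩
          · rintro ⟨hy, k, hk⟩
            exact ⟨⟨y, hy⟩, ⟨k, by rw [← hk]; exact (Subgroup.orderOf_mk y hy)⟩, rfl⟩
        rw [this]
        exact hPG.symm
      obtain ⟨i, hi⟩ := ih H hcard hgenH (fun i => (K i).subgroupOf H) (by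
        intro g hg
        obtain ⟨k, hk⟩ := hg
        obtain ⟨i, hi⟩ := hcov (g : G) ⟨k, by rw [← hk]; exact Subgroup.orderOf_coe g⟩
        exact ⟨i, Subgroup.mem_subgroupOf.mpr hi⟩)
      exact ⟨i, Subgroup.subgroupOf_eq_top.mp hi⟩
    obtain ⟨M, hM⟩ : ∃ M : ι → Subgroup G, ∀ i, M i =
        Subgroup.closure {g : G | g ∈ K i ∧ ∃ k : ℕ, orderOf g = p ^ k} := ⟨_, fun _ => rfl⟩
    have hMK : ∀ i, M i ≤ K i := fun i => by
      rw [hM i]; exact (Subgroup.closure_le _).mpr (fun y hy => hy.1)
    have hMPG : ∀ i, PG p (M i) := by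
      intro i
      unfold PG
      apply le_antisymm
      · conv_lhs => rw [hM i]
        apply Subgroup.closure_mono
        rintro y ⟨hy, hk⟩
        refine ⟨?_, hk⟩
        rw [hM i]
        exact Subgroup.subset_closure ⟨hy, hk⟩
      · exact (Subgroup.closure_le _).mpr (fun y hy => hy.1)
    have hMne : ∀ i, M i ≠ ⊤ := fun i h => hcon i (top_le_iff.mp (h ▸ hMK i))
    have hb : ∀ H : Subgroup G, H ≠ ⊤ → PG p H → ∃ i, H ≤ M i := by
      intro H hH hPG
      obtain ⟨i, hi⟩ := ha H hH hPG
      refine ⟨i, ?_⟩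
      have hPG' : H = Subgroup.closure {g : G | g ∈ H ∧ ∃ k : ℕ, orderOf g = p ^ k} := hPG
      calc H = Subgroup.closure {g : G | g ∈ H ∧ ∃ k : ℕ, orderOf g = p ^ k} := hPG'
        _ ≤ Subgroup.closure {g : G | g ∈ K i ∧ ∃ k : ℕ, orderOf g = p ^ k} :=
            Subgroup.closure_mono (fun y hy => ⟨hi hy.1, hy.2⟩)
        _ = M i := (hM i).symm
    obtain ⟨S, hS⟩ : ∃ S : Finset (Subgroup G), S = Finset.univ.image M := ⟨_, rfl⟩
    obtain ⟨𝓜, h𝓜⟩ : ∃ 𝓜 : Finset (Subgroup G), 𝓜 = S.filter (fun X => Maximal (· ∈ S) X) :=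
      ⟨_, rfl⟩
    have hcard𝓜 : 𝓜.card ≤ p := by
      rw [h𝓜, hS]
      exact (Finset.card_filter_le _ _).trans (Finset.card_image_le.trans (by simpa using hι))
    have hc1 : ∀ H : Subgroup G, H ≠ ⊤ → PG p H → ∃ X ∈ 𝓜, H ≤ X := by
      intro H hH hPG
      obtain ⟨i, hi⟩ := hb H hH hPG
      have hmem : M i ∈ S := by rw [hS]; exact Finset.mem_image_of_mem M (Finset.mem_univ i)
      obtain ⟨X, hX1, hX2⟩ := S.exists_le_maximal hmem
      exact ⟨X, by rw [h𝓜]; exact Finset.mem_filter.mpr ⟨hX2.1, hX2⟩, hi.trans hX1⟩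
    have hc2 : ∀ X ∈ 𝓜, X ≠ ⊤ ∧ PG p X := by
      intro X hX
      rw [h𝓜, hS] at hX
      obtain ⟨i, -, rfl⟩ := Finset.mem_image.mp (Finset.mem_filter.mp hX).1
      exact ⟨hMne i, hMPG i⟩
    have hc3 : ∀ X ∈ 𝓜, ∀ H : Subgroup G, H ≠ ⊤ → PG p H → X ≤ H → H = X := by
      intro X hX H hH hPG hXH
      obtain ⟨i, hi⟩ := hb H hH hPG
      rw [h𝓜] at hX
      have hmax := (Finset.mem_filter.mp hX).2
      have hmem : M i ∈ S := by rw [hS]; exact Finset.mem_image_of_mem M (Finset.mem_univ i)
      have h1 : M i ≤ X := hmax.2 hmem (hXH.trans hi)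
      exact le_antisymm (hi.trans h1) hXH
    have hd : ∀ (φ : MulAut G), ∀ X ∈ 𝓜, φ • X ∈ 𝓜 := by
      intro φ X hX
      obtain ⟨hXne, hXPG⟩ := hc2 X hX
      obtain ⟨X', hX', hle⟩ := hc1 (φ • X) (smul_ne_top φ X hXne) (pg_smul p φ X hXPG)
      obtain ⟨hX'ne, hX'PG⟩ := hc2 X' hX'
      have h1 : X ≤ φ⁻¹ • X' := by
        intro y hy
        rw [Subgroup.mem_pointwise_smul_iff_inv_smul_mem, inv_inv]
        exact hle (Subgroup.smul_mem_pointwise_smul y φ X hy)
      have h2 : φ⁻¹ • X' = X :=
        hc3 X hX _ (smul_ne_top φ⁻¹ X' hX'ne) (pg_smul p φ⁻¹ X' hX'PG) h1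
      have h3 : φ • X = X' := by rw [← h2, smul_inv_smul]
      rw [h3]; exact hX'
    have he0 : ∀ x : G, (∃ k : ℕ, orderOf x = p ^ k) → ∃ X ∈ 𝓜, x ∈ X := by
      intro x hx
      have hne : Subgroup.zpowers x ≠ ⊤ := by
        intro h
        obtain ⟨i, hi⟩ := hcov x hx
        apply hcon i
        rw [eq_top_iff, ← h, Subgroup.zpowers_le]
        exact hi
      obtain ⟨X, hX, hle⟩ := hc1 _ hne (pg_zpowers p x hx)
      exact ⟨X, hX, hle (Subgroup.mem_zpowers x)⟩
    have he : ∀ x : G, (∃ k : ℕ, orderOf x = p ^ k) → ∀ X ∈ 𝓜, MulAut.conj x • X = X := by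
      intro x hx X hX
      obtain ⟨M₀, hM₀, hxM₀⟩ := he0 x hx
      have hfix0 : MulAut.conj x • M₀ = M₀ := Subgroup.conj_smul_eq_self_of_mem hxM₀
      by_cases hXM : X = M₀
      · rw [hXM]; exact hfix0
      obtain ⟨Z, hZ⟩ : ∃ Z : Subgroup (MulAut G), Z = Subgroup.zpowers (MulAut.conj x) := ⟨_, rfl⟩
      have hZp : IsPGroup p Z := by
        obtain ⟨k, hk⟩ := hx
        have h1 : Nat.card Z ∣ p ^ k := by
          rw [hZ, Nat.card_zpowers, ← hk]
          exact orderOf_map_dvd (MulAut.conj : G →* MulAut G) x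
        obtain ⟨j, -, hj⟩ := (Nat.dvd_prime_pow hp).mp h1
        exact IsPGroup.of_card hj
      have hstab : ∀ z : Z, (z : MulAut G) • M₀ = M₀ := by
        intro z
        have : Z ≤ MulAction.stabilizer (MulAut G) M₀ := by
          rw [hZ, Subgroup.zpowers_le]
          exact hfix0
        exact this z.2
      have horb : MulAction.orbit Z X ⊆ (↑(𝓜.erase M₀) : Set (Subgroup G)) := by
        rintro Y ⟨z, rfl⟩
        rw [Finset.mem_coe, Finset.mem_erase]
        refine ⟨?_, hd (z : MulAut G) X hX⟩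
        intro h
        apply hXM
        have h' : (z : MulAut G) • X = M₀ := h
        have : X = (z : MulAut G)⁻¹ • M₀ := by rw [← h', inv_smul_smul]
        rw [this]
        exact hstab z⁻¹
      obtain ⟨j, hj⟩ := hZp.card_orbit X
      have hle : Nat.card (MulAction.orbit Z X) ≤ p - 1 := by
        rw [Nat.card_coe_set_eq]
        calc (MulAction.orbit Z X).ncard ≤ (↑(𝓜.erase M₀) : Set (Subgroup G)).ncard :=
              Set.ncard_le_ncard horb (Finset.finite_toSet _)
          _ = (𝓜.erase M₀).card := Set.ncard_coe_finset _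
          _ = 𝓜.card - 1 := Finset.card_erase_of_mem hM₀
          _ ≤ p - 1 := Nat.sub_le_sub_right hcard𝓜 1
      have hj0 : j = 0 := by
        by_contra hj0
        have : p ≤ p ^ j := Nat.le_self_pow hj0 p
        have := hp.two_le
        omega
      rw [hj0, pow_zero] at hj
      have hsub : Subsingleton (MulAction.orbit Z X) := (Nat.card_eq_one_iff_unique.mp hj).1
      have h1 : (⟨MulAut.conj x, by rw [hZ]; exact Subgroup.mem_zpowers _⟩ : Z) • X ∈
          MulAction.orbit Z X := MulAction.mem_orbit _ _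
      have h2 : X ∈ MulAction.orbit Z X := MulAction.mem_orbit_self X
      have := congrArg Subtype.val (hsub.elim ⟨_, h1⟩ ⟨_, h2⟩)
      exact this
    have hf : ∀ X ∈ 𝓜, X.Normal := by
      intro X hX
      have hN : Subgroup.normalizer (X : Set G) = ⊤ := by
        rw [eq_top_iff, ← hgen, Subgroup.closure_le]
        intro x hx
        have hfix := he x hx X hX
        rw [SetLike.mem_coe, Subgroup.mem_normalizer_iff]
        intro h
        constructor
        · intro hh
          have : MulAut.conj x • h ∈ MulAut.conj x • X :=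
            Subgroup.smul_mem_pointwise_smul h _ X hh
          rw [hfix] at this
          simpa [MulAut.smul_def] using this
        · intro hh
          have : MulAut.conj x • h ∈ MulAut.conj x • X := by
            rw [hfix]; simpa [MulAut.smul_def] using hh
          exact Subgroup.smul_mem_pointwise_smul_iff.mp this
      exact Subgroup.normalizer_eq_top_iff.mp hN
    obtain ⟨P⟩ : Nonempty (Sylow p G) := inferInstance
    have hPel : ∀ g ∈ (P : Subgroup G), ∃ k : ℕ, orderOf g = p ^ k := by
      intro g hg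
      obtain ⟨k, hk⟩ := P.2 ⟨g, hg⟩
      have h1 : g ^ p ^ k = 1 := by simpa using congrArg Subtype.val hk
      obtain ⟨j, -, hj⟩ := (Nat.dvd_prime_pow hp).mp (orderOf_dvd_of_pow_eq_one h1)
      exact ⟨j, hj⟩
    have hPPG : PG p (P : Subgroup G) := by
      unfold PG
      apply le_antisymm
      · intro g hg
        exact Subgroup.subset_closure ⟨hg, hPel g hg⟩
      · exact (Subgroup.closure_le _).mpr (fun y hy => hy.1)
    by_cases hPtop : (P : Subgroup G) = ⊤
    · have hall : ∀ g : G, ∃ X ∈ 𝓜, g ∈ X :=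
        fun g => he0 g (hPel g (hPtop ▸ Subgroup.mem_top g))
      haveI := Fintype.ofFinite G
      obtain ⟨a, hGa⟩ : ∃ a, Nat.card G = p ^ a := by
        have : IsPGroup p G := by
          intro g
          obtain ⟨k, hk⟩ := hPel g (hPtop ▸ Subgroup.mem_top g)
          exact ⟨k, by rw [← hk]; exact pow_orderOf_eq_one g⟩
        exact IsPGroup.iff_card.mp this
      have hXcard : ∀ X ∈ 𝓜, Nat.card X * p ≤ Nat.card G := by
        intro X hX
        have h1 : Nat.card X * X.index = Nat.card G := Subgroup.card_mul_index X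
        have h2 : X.index ∣ p ^ a := hGa ▸ Subgroup.index_dvd_card X
        obtain ⟨j, -, hj⟩ := (Nat.dvd_prime_pow hp).mp h2
        have hj0 : j ≠ 0 := by
          rintro rfl
          rw [pow_zero] at hj
          exact (hc2 X hX).1 (Subgroup.index_eq_one.mp hj)
        have : p ≤ X.index := by rw [hj]; exact Nat.le_self_pow hj0 p
        calc Nat.card X * p ≤ Nat.card X * X.index := Nat.mul_le_mul_left _ this
          _ = Nat.card G := h1
      have hcover : (Finset.univ.erase (1 : G)) ⊆
          𝓜.biUnion (fun X => (Finset.univ.filter (fun g : G => g ∈ X)).erase 1) := by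
        intro g hg
        rw [Finset.mem_erase] at hg
        obtain ⟨X, hX, hgX⟩ := hall g
        rw [Finset.mem_biUnion]
        exact ⟨X, hX, Finset.mem_erase.mpr ⟨hg.1, Finset.mem_filter.mpr ⟨Finset.mem_univ _, hgX⟩⟩⟩
      have h1 := Finset.card_le_card hcover
      have h2 := Finset.card_biUnion_le (s := 𝓜)
        (t := fun X => (Finset.univ.filter (fun g : G => g ∈ X)).erase 1)
      have h3 : ∀ X ∈ 𝓜, ((Finset.univ.filter (fun g : G => g ∈ X)).erase 1).card =
          Nat.card X - 1 := by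
        intro X hX
        rw [Finset.card_erase_of_mem (Finset.mem_filter.mpr ⟨Finset.mem_univ _, X.one_mem⟩)]
        congr 1
        rw [Nat.card_eq_fintype_card, Fintype.card_subtype]
      have h4 : (Finset.univ.erase (1 : G)).card = Nat.card G - 1 := by
        rw [Finset.card_erase_of_mem (Finset.mem_univ _), Finset.card_univ,
          Nat.card_eq_fintype_card]
      have h5 : ∑ X ∈ 𝓜, ((Finset.univ.filter (fun g : G => g ∈ X)).erase 1).card ≤
          𝓜.card * (Nat.card G / p - 1) := by
        rw [← smul_eq_mul, ← Finset.sum_const]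
        apply Finset.sum_le_sum
        intro X hX
        rw [h3 X hX]
        have := hXcard X hX
        have : Nat.card X ≤ Nat.card G / p := (Nat.le_div_iff_mul_le hp.pos).mpr this
        omega
      obtain ⟨X₀, hX₀, -⟩ := hall 1
      have h6 : Nat.card G / p * p ≤ Nat.card G := Nat.div_mul_le_self _ _
      have h7 : 1 ≤ Nat.card G / p := by
        have := hXcard X₀ hX₀
        have h8 : 1 ≤ Nat.card X₀ := Nat.card_pos
        apply (Nat.le_div_iff_mul_le hp.pos).mpr
        nlinarith
      have h9 : 𝓜.card * (Nat.card G / p - 1) ≤ p * (Nat.card G / p - 1) :=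
        Nat.mul_le_mul_right _ hcard𝓜
      have h10 : p * (Nat.card G / p - 1) + p = Nat.card G / p * p := by
        obtain ⟨q', hq'⟩ : ∃ q', Nat.card G / p = q' + 1 := ⟨Nat.card G / p - 1, by omega⟩
        rw [hq']
        simp
        ring
      have := hp.two_le
      have hpos : 0 < Nat.card G := Nat.card_pos
      omega
    · obtain ⟨X, hX, hPX⟩ := hc1 _ hPtop hPPG
      haveI := hf X hX
      apply (hc2 X hX).1
      rw [eq_top_iff, ← hgen, Subgroup.closure_le]
      intro y hy
      obtain ⟨k, hk⟩ := hy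
      have hpg : IsPGroup p (Subgroup.zpowers y) := by
        apply IsPGroup.of_card (n := k)
        rw [Nat.card_zpowers, hk]
      obtain ⟨Q, hQ⟩ := hpg.exists_le_sylow
      obtain ⟨a, ha⟩ := MulAction.exists_smul_eq G Q P
      have hmem : a * y * a⁻¹ ∈ (P : Subgroup G) := by
        rw [← ha, Sylow.smul_def]
        change _ ∈ MulAut.conj a • (Q : Subgroup G)
        rw [Subgroup.mem_pointwise_smul_iff_inv_smul_mem]
        have : (MulAut.conj a)⁻¹ • (a * y * a⁻¹) = y := by
          rw [MulAut.smul_def, ← map_inv, MulAut.conj_apply]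
          group
        rw [this]
        exact hQ (Subgroup.mem_zpowers y)
      have h2 := hPX hmem
      have h3 : a⁻¹ * (a * y * a⁻¹) * a⁻¹⁻¹ ∈ X := Subgroup.Normal.conj_mem inferInstance _ h2 a⁻¹
      have h4 : a⁻¹ * (a * y * a⁻¹) * a⁻¹⁻¹ = y := by group
      rw [h4] at h3
      exact h3


/-- Let p be a prime and G a finite group generated by its p-elements. If a finite family of proper subgroups of G covers the set of p-elements of G (every element of p-power order lies in one of them), then the family has at least p + 1 members. -/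
theorem result {G : Type*} [Group G] [Finite G] (p : ℕ) [Fact p.Prime] (hgen : Subgroup.closure {g : G | ∃ k : ℕ, orderOf g = p ^ k} = ⊤)
    {ι : Type*} [Fintype ι] (K : ι → Subgroup G) (hK : ∀ i, K i ≠ ⊤)
    (hcov : ∀ g : G, (∃ k : ℕ, orderOf g = p ^ k) → ∃ i, g ∈ K i) :
    p + 1 ≤ Fintype.card ι := by
  by_contra hcon
  have hι : Fintype.card ι ≤ p := by omega
  obtain ⟨i, hi⟩ := cover_aux p hι (Nat.card G) G le_rfl hgen K hcov
  exact hK i hi

end Cfsg.Agent.S4182
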