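import Cfsg.Statements.S4186
-- import your own Cfsg.Agent.* helpers here

set_option autoImplicit false
open Cfsg

namespace Cfsg.Agent.S4186

/-- Let T and X be subgroups of a group with T a finite 2-group normalizing X but not centralizing it. Then some element of T inverts some non-identity element of X under conjugation. -/
theorem result {G : Type*} [Group G] (T X : Subgroup G) [Finite ↥T] (hT : IsPGroup 2 ↥T) (hTN : T ≤ Subgroup.normalizer (X : Set G)) (hTC : ¬ T ≤ Subgroup.centralizer (X : Set G)) : ∃ t ∈ T, ∃ x ∈ X, x ≠ 1 ∧ t * x * t⁻¹ = x⁻¹ := by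
  classical
  have hex : ∃ n : ℕ, ∃ t ∈ T, t ∉ Subgroup.centralizer (X : Set G) ∧ orderOf t = n := by
    obtain ⟨t, ht, htC⟩ := SetLike.not_le_iff_exists.mp hTC
    exact ⟨orderOf t, t, ht, htC, rfl⟩
  obtain ⟨t, ht, htC, hord⟩ := Nat.find_spec hex
  have hmin : ∀ s ∈ T, s ∉ Subgroup.centralizer (X : Set G) → orderOf t ≤ orderOf s := by
    intro s hs hsC
    rw [hord]
    exact Nat.find_min' hex ⟨s, hs, hsC, rfl⟩
  obtain ⟨k, hk⟩ := hT ⟨t, ht⟩
  have hk' : t ^ 2 ^ k = 1 := by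
    have := congrArg Subtype.val hk
    simpa using this
  obtain ⟨j, hj, hj'⟩ := (Nat.dvd_prime_pow Nat.prime_two).mp (orderOf_dvd_of_pow_eq_one hk')
  have hj0 : j ≠ 0 := by
    rintro rfl
    rw [pow_zero, orderOf_eq_one_iff] at hj'
    exact htC (hj' ▸ Subgroup.one_mem _)
  have ht2 : t ^ 2 ∈ Subgroup.centralizer (X : Set G) := by
    by_contra hcon
    have h1 := hmin (t ^ 2) (T.pow_mem ht 2) hcon
    have h2 : orderOf (t ^ 2) = orderOf t / 2 := by
      apply orderOf_pow_of_dvd (by norm_num)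
      rw [hj']
      exact dvd_pow_self 2 hj0
    rw [h2, hj'] at h1
    have h3 : 2 ^ j / 2 < 2 ^ j := Nat.div_lt_self (pow_pos (by norm_num) j) (by norm_num)
    omega
  obtain ⟨y, hy, hyt⟩ : ∃ y ∈ X, y * t ≠ t * y := by
    by_contra hcon
    push Not at hcon
    exact htC (Subgroup.mem_centralizer_iff.mpr (fun y hy => hcon y hy))
  have hc : t * t * y = y * t * t := by
    have := Subgroup.mem_centralizer_iff.mp ht2 y hy
    rw [pow_two] at this
    rw [mul_assoc y t t, this]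
  have htN := hTN ht
  rw [Subgroup.mem_normalizer_iff] at htN
  refine ⟨t, ht, t * y * t⁻¹ * y⁻¹, X.mul_mem ((htN y).mp hy) (X.inv_mem hy), ?_, ?_⟩
  · intro h1
    apply hyt
    have : t * y * t⁻¹ = y := by
      rw [mul_inv_eq_one] at h1
      exact h1
    exact (mul_inv_eq_iff_eq_mul.mp this).symm
  · calc t * (t * y * t⁻¹ * y⁻¹) * t⁻¹ = (t * t * y) * t⁻¹ * y⁻¹ * t⁻¹ := by group
      _ = (y * t * t) * t⁻¹ * y⁻¹ * t⁻¹ := by rw [hc]
      _ = (t * y * t⁻¹ * y⁻¹)⁻¹ := by group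

end Cfsg.Agent.S4186
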