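import Cfsg.Statements.S4188
import Mathlib
import Cfsg.Agent.Lib.helper1.PGroup
import Cfsg.Agent.Lib.helper1.NormAb
import Cfsg.Agent.Lib.helper3.QuadPairSylow2

set_option autoImplicit false
open Cfsg
open scoped commutatorElement

namespace Cfsg.Agent.S4188

universe u

section frat
variable {P : Type*} [Group P] [Finite P]

theorem frattini_sub (hP : IsPGroup 2 P) (H : Subgroup P) :
    frattini ↥H ≤ (frattini P).subgroupOf H := by
  have : Fact (Nat.Prime 2) := ⟨Nat.prime_two⟩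
  apply Cfsg.Agent.Lib.helper1.frattini_le_of_elementary_quotient 2
  · rw [commutator_def, Subgroup.commutator_le]
    intro a _ b _
    rw [Subgroup.mem_subgroupOf]
    have h : ⁅(a : P), (b : P)⁆ ∈ frattini P :=
      Cfsg.Agent.Lib.helper1.commutator_le_frattini 2 hP
        (Subgroup.commutator_mem_commutator (Subgroup.mem_top _) (Subgroup.mem_top _))
    simpa [commutatorElement_def] using h
  · intro x
    rw [Subgroup.mem_subgroupOf]
    simpa using Cfsg.Agent.Lib.helper1.pow_mem_frattini 2 hP (x : P)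

theorem frat_le_sub (hP : IsPGroup 2 P) (H : Subgroup P) :
    (frattini P).index ≤ H.index * (frattini ↥H).index := by
  have h1 := frattini_sub hP H
  have h2 : ((frattini P).subgroupOf H).index ≤ (frattini ↥H).index := Subgroup.index_antitone h1
  have h3 : (frattini P).index ≤ (frattini P ⊓ H).index := Subgroup.index_antitone inf_le_left
  have h4 : (frattini P ⊓ H).index = ((frattini P).subgroupOf H).index * H.index := by
    have := Subgroup.relIndex_mul_index (inf_le_right : frattini P ⊓ H ≤ H)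
    rw [Subgroup.inf_relIndex_right] at this
    exact this.symm
  calc (frattini P).index ≤ (frattini P ⊓ H).index := h3
    _ = ((frattini P).subgroupOf H).index * H.index := h4
    _ ≤ (frattini ↥H).index * H.index := Nat.mul_le_mul_right _ h2
    _ = H.index * (frattini ↥H).index := Nat.mul_comm _ _

theorem frat_le_sup (hP : IsPGroup 2 P) (H K : Subgroup P) [K.Normal] (hHK : H ⊔ K = ⊤) :
    (frattini P).index ≤ (frattini ↥H).index * (frattini ↥K).index := by
  have e1 := Subgroup.relIndex_mul_index (le_sup_left : frattini P ≤ frattini P ⊔ K)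
  have e2 : (frattini P).relIndex (frattini P ⊔ K) = (frattini P).relIndex K :=
    Subgroup.relIndex_sup_left (K := frattini P) (H := K)
  have e3 : (frattini P ⊔ K).index = (frattini P ⊔ K).relIndex H := by
    have h := Subgroup.relIndex_sup_right (H := H) (K := frattini P ⊔ K)
    have h' : H ⊔ (frattini P ⊔ K) = ⊤ := by
      apply top_unique
      rw [← hHK]
      exact sup_le le_sup_left (le_trans le_sup_right le_sup_right)
    rw [h', Subgroup.relIndex_top_right] at h
    exact h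
  have b1 : (frattini P).relIndex K ≤ (frattini ↥K).index := Subgroup.index_antitone (frattini_sub hP K)
  have b2 : (frattini P ⊔ K).relIndex H ≤ (frattini ↥H).index := by
    have hle : (frattini P).subgroupOf H ≤ (frattini P ⊔ K).subgroupOf H :=
      Subgroup.comap_mono le_sup_left
    exact le_trans (Subgroup.index_antitone hle) (Subgroup.index_antitone (frattini_sub hP H))
  rw [← e1, e2, e3]
  calc (frattini P).relIndex K * (frattini P ⊔ K).relIndex H
      ≤ (frattini ↥K).index * (frattini ↥H).index := Nat.mul_le_mul b1 b2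
    _ = (frattini ↥H).index * (frattini ↥K).index := Nat.mul_comm _ _

theorem frat_le_quot (hP : IsPGroup 2 P) (K : Subgroup P) [K.Normal] :
    (frattini P).index ≤ (frattini (P ⧸ K)).index * (frattini ↥K).index := by
  have : Fact (Nat.Prime 2) := ⟨Nat.prime_two⟩
  have e1 := Subgroup.relIndex_mul_index (le_sup_left : frattini P ≤ frattini P ⊔ K)
  have e2 : (frattini P).relIndex (frattini P ⊔ K) = (frattini P).relIndex K :=
    Subgroup.relIndex_sup_left (K := frattini P) (H := K)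
  have b1 : (frattini P).relIndex K ≤ (frattini ↥K).index := Subgroup.index_antitone (frattini_sub hP K)
  have hsurj : Function.Surjective (QuotientGroup.mk' K) := QuotientGroup.mk'_surjective K
  haveI hnorm : ((frattini P).map (QuotientGroup.mk' K)).Normal :=
    Subgroup.Normal.map inferInstance _ hsurj
  have hfr : frattini (P ⧸ K) ≤ (frattini P).map (QuotientGroup.mk' K) := by
    apply Cfsg.Agent.Lib.helper1.frattini_le_of_elementary_quotient 2
    · rw [commutator_def, Subgroup.commutator_le]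
      intro a _ b _
      obtain ⟨a, rfl⟩ := hsurj a
      obtain ⟨b, rfl⟩ := hsurj b
      rw [← map_commutatorElement]
      exact Subgroup.mem_map_of_mem _ (Cfsg.Agent.Lib.helper1.commutator_le_frattini 2 hP
        (Subgroup.commutator_mem_commutator (Subgroup.mem_top _) (Subgroup.mem_top _)))
    · intro x
      obtain ⟨x, rfl⟩ := hsurj x
      rw [← map_pow]
      exact Subgroup.mem_map_of_mem _ (Cfsg.Agent.Lib.helper1.pow_mem_frattini 2 hP x)
  have e3 : ((frattini P).map (QuotientGroup.mk' K)).index = (frattini P ⊔ K).index := by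
    rw [Subgroup.index_map, QuotientGroup.ker_mk', MonoidHom.range_eq_top.mpr hsurj,
      Subgroup.index_top, mul_one]
  have b2 : (frattini P ⊔ K).index ≤ (frattini (P ⧸ K)).index := by
    rw [← e3]; exact Subgroup.index_antitone hfr
  rw [← e1, e2]
  calc (frattini P).relIndex K * (frattini P ⊔ K).index
      ≤ (frattini ↥K).index * (frattini (P ⧸ K)).index := Nat.mul_le_mul b1 b2
    _ = (frattini (P ⧸ K)).index * (frattini ↥K).index := Nat.mul_comm _ _

theorem frat_le_card : (frattini P).index ≤ Nat.card P :=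
  Nat.le_of_dvd Nat.card_pos (Subgroup.index_dvd_card _)

theorem frat_nonab (hP : IsPGroup 2 P) (x y : P) (hxy : x * y ≠ y * x) :
    2 * (frattini P).index ≤ Nat.card P := by
  have : Fact (Nat.Prime 2) := ⟨Nat.prime_two⟩
  have h1 : ⁅x, y⁆ ∈ frattini P := Cfsg.Agent.Lib.helper1.commutator_le_frattini 2 hP
    (Subgroup.commutator_mem_commutator (Subgroup.mem_top _) (Subgroup.mem_top _))
  have h2 : ⁅x, y⁆ ≠ 1 := by
    rw [Ne, commutatorElement_eq_one_iff_mul_comm]; exact hxy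
  have h3 : 1 < Nat.card (frattini P) := by
    rw [Subgroup.one_lt_card_iff_ne_bot]
    intro hb
    rw [hb, Subgroup.mem_bot] at h1
    exact h2 h1
  have h4 := Subgroup.card_mul_index (frattini P)
  nlinarith

theorem frat_cyclic (hP : IsPGroup 2 P) [hc : IsCyclic P] : (frattini P).index ≤ 2 := by
  have : Fact (Nat.Prime 2) := ⟨Nat.prime_two⟩
  obtain ⟨g, hg⟩ := hc.exists_generator
  have h1 : Subgroup.zpowers (g ^ 2) ≤ frattini P := by
    rw [Subgroup.zpowers_le]; exact Cfsg.Agent.Lib.helper1.pow_mem_frattini 2 hP g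
  have h2 : (frattini P).index ≤ (Subgroup.zpowers (g ^ 2)).index := Subgroup.index_antitone h1
  have h3 : orderOf g = Nat.card P := orderOf_eq_card_of_forall_mem_zpowers hg
  have h4 : Nat.card (Subgroup.zpowers (g ^ 2)) = orderOf g / Nat.gcd (orderOf g) 2 := by
    rw [Nat.card_zpowers, orderOf_pow]
  have h5 := Subgroup.card_mul_index (Subgroup.zpowers (g ^ 2))
  rw [h4, ← h3] at h5
  have hpos : 0 < orderOf g := orderOf_pos g
  have h6 : Nat.gcd (orderOf g) 2 ∣ orderOf g := Nat.gcd_dvd_left _ _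
  have h7 : Nat.gcd (orderOf g) 2 ∣ 2 := Nat.gcd_dvd_right _ _
  have h8 : Nat.gcd (orderOf g) 2 ≤ 2 := Nat.le_of_dvd (by norm_num) h7
  obtain ⟨c, hc⟩ := h6
  have hgpos : 0 < Nat.gcd (orderOf g) 2 := Nat.gcd_pos_of_pos_right _ (by norm_num)
  have h9 : orderOf g / Nat.gcd (orderOf g) 2 = c := Nat.div_eq_of_eq_mul_right hgpos hc
  rw [h9] at h5
  have hcpos : 0 < c := by
    rcases Nat.eq_zero_or_pos c with h0 | h0
    · rw [h0, mul_zero] at hc; omega
    · exact h0
  have h10 : (Subgroup.zpowers (g ^ 2)).index = Nat.gcd (orderOf g) 2 := by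
    have : c * (Subgroup.zpowers (g ^ 2)).index = c * Nat.gcd (orderOf g) 2 := by
      rw [h5]; conv_lhs => rw [hc]
      exact Nat.mul_comm _ _
    exact Nat.eq_of_mul_eq_mul_left hcpos this
  omega

end frat

section act

/-- fixed points of an automorphism. -/
def Fx {V : Type*} [CommGroup V] (α : MulAut V) : Subgroup V where
  carrier := {v | α v = v}
  mul_mem' := by
    intro a b ha hb
    simp only [Set.mem_ofPred_eq] at *
    rw [map_mul, ha, hb]
  one_mem' := map_one α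
  inv_mem' := by
    intro a ha
    simp only [Set.mem_ofPred_eq] at *
    rw [map_inv, ha]

theorem mem_Fx {V : Type*} [CommGroup V] (α : MulAut V) (v : V) : v ∈ Fx α ↔ α v = v := Iff.rfl

theorem pow_fix {V : Type*} [CommGroup V] (α : MulAut V) (v : V) (h : α v = v) (k : ℕ) :
    (α ^ k) v = v := by
  induction k with
  | zero => simp
  | succ k ih => rw [pow_succ', MulAut.mul_apply, ih, h]

theorem sq_one_odd {V : Type*} [Group V] [Finite V] (hodd : Odd (Nat.card V)) (v : V)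
    (h : v * v = 1) : v = 1 := by
  have h1 : orderOf v ∣ 2 := orderOf_dvd_of_pow_eq_one (by rw [pow_two]; exact h)
  have h2 : orderOf v ∣ Nat.card V := orderOf_dvd_natCard v
  have h3 : Nat.Coprime 2 (Nat.card V) := Nat.coprime_two_left.mpr hodd
  have h4 : orderOf v = 1 := Nat.eq_one_of_dvd_coprimes h3 h1 h2
  exact orderOf_eq_one_iff.mp h4

theorem coprime_triv {V : Type*} [CommGroup V] [Finite V] (hodd : Odd (Nat.card V))
    (α : MulAut V) (m : ℕ) (hα : α ^ (2 ^ m) = 1) (V₁ : Subgroup V)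
    (h1 : ∀ v ∈ V₁, α v = v) (h2 : ∀ v, α v * v⁻¹ ∈ V₁) : α = 1 := by
  have key : ∀ (k : ℕ) (v : V), (α ^ k) v = (α v * v⁻¹) ^ k * v := by
    intro k
    induction k with
    | zero => intro v; simp
    | succ k ih =>
      intro v
      rw [pow_succ', MulAut.mul_apply, ih, map_mul, map_pow, h1 _ (h2 v), pow_succ, mul_assoc,
        inv_mul_cancel_right]
  ext v
  have h3 := key (2 ^ m) v
  rw [hα, MulAut.one_apply] at h3
  have h4 : (α v * v⁻¹) ^ (2 ^ m) = 1 := by
    have h5 : (α v * v⁻¹) ^ (2 ^ m) * v = 1 * v := by rw [one_mul]; exact h3.symm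
    exact mul_right_cancel h5
  have hd1 := orderOf_dvd_of_pow_eq_one h4
  have hd2 := orderOf_dvd_natCard (α v * v⁻¹)
  have hcop : Nat.Coprime (2 ^ m) (Nat.card V) :=
    Nat.Coprime.pow_left m (Nat.coprime_two_left.mpr hodd)
  have h6 : orderOf (α v * v⁻¹) = 1 := Nat.eq_one_of_dvd_coprimes hcop hd1 hd2
  rw [MulAut.one_apply]
  exact mul_inv_eq_one.mp (orderOf_eq_one_iff.mp h6)

theorem inv_of_fix_bot {V : Type*} [CommGroup V] (α : MulAut V) (h2 : α * α = 1)
    (hfix : ∀ v, α v = v → v = 1) (v : V) : α v = v⁻¹ := by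
  have h : α (v * α v) = v * α v := by
    rw [map_mul, ← MulAut.mul_apply, h2, MulAut.one_apply, mul_comm]
  exact eq_inv_of_mul_eq_one_right (hfix _ h)

variable {V P : Type u} [CommGroup V] [Finite V] [Group P] [Finite P]

theorem quot_faithful (hodd : Odd (Nat.card V)) (hP : IsPGroup 2 P) (ψ : P →* MulAut V)
    (hψ : Function.Injective ψ) (V₁ : Subgroup V) (hfix : ∀ g, ∀ v ∈ V₁, ψ g v = v) :
    ∃ f : P →* MulAut (V ⧸ V₁), Function.Injective f := by
  have hmap : ∀ g : P, V₁.map ((ψ g : V ≃* V) : V →* V) = V₁ := by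
    intro g
    ext v
    constructor
    · rintro ⟨a, ha, rfl⟩
      have : ψ g a = a := hfix g a ha
      simpa [this] using ha
    · intro hv
      exact ⟨v, hv, hfix g v hv⟩
  have hmk : ∀ g (v : V), QuotientGroup.congr V₁ V₁ (ψ g) (hmap g) (QuotientGroup.mk v) =
      QuotientGroup.mk (ψ g v) := fun g v => QuotientGroup.congr_mk V₁ V₁ (ψ g) (hmap g) v
  let f : P →* MulAut (V ⧸ V₁) :=
    { toFun := fun g => QuotientGroup.congr V₁ V₁ (ψ g) (hmap g)
      map_one' := by
        ext x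
        induction x using QuotientGroup.induction_on with
        | H v => rw [hmk]; simp
      map_mul' := by
        intro g h
        ext x
        induction x using QuotientGroup.induction_on with
        | H v => rw [MulAut.mul_apply, hmk, hmk, hmk, map_mul, MulAut.mul_apply] }
  refine ⟨f, ?_⟩
  rw [injective_iff_map_eq_one]
  intro g hg
  obtain ⟨m, hm⟩ := hP g
  have h1 : (ψ g) ^ (2 ^ m) = 1 := by rw [← map_pow, hm, map_one]
  have h2 : ∀ v, ψ g v * v⁻¹ ∈ V₁ := by
    intro v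
    have h3 : f g (QuotientGroup.mk v) = QuotientGroup.mk v := by rw [hg]; rfl
    have h4 : (QuotientGroup.mk (ψ g v) : V ⧸ V₁) = QuotientGroup.mk v := by
      rw [← h3]; exact (hmk g v).symm
    have h5 := QuotientGroup.eq.mp h4
    have h6 : ψ g v * v⁻¹ = ((ψ g v)⁻¹ * v)⁻¹ := by rw [mul_inv_rev, inv_inv, mul_comm]
    rw [h6]
    exact inv_mem h5
  have h7 := coprime_triv hodd (ψ g) m h1 V₁ (hfix g) h2
  apply hψ
  rw [h7, map_one]

theorem red_data (hodd : Odd (Nat.card V)) (hP : IsPGroup 2 P) (ψ : P →* MulAut V)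
    (hψ : Function.Injective ψ) (V₁ : Subgroup V) (hinv : ∀ g, ∀ v ∈ V₁, ψ g v ∈ V₁) :
    ∃ (K : Subgroup P) (_ : K.Normal), (∃ f : P ⧸ K →* MulAut ↥V₁, Function.Injective f) ∧
      (∃ f : ↥K →* MulAut (V ⧸ V₁), Function.Injective f) := by
  let ρ : P →* MulAut ↥V₁ :=
    { toFun := fun g =>
        { toFun := fun v => ⟨ψ g v, hinv g v v.2⟩
          invFun := fun v => ⟨ψ g⁻¹ v, hinv g⁻¹ v v.2⟩
          left_inv := fun v => by
            apply Subtype.ext
            show ψ g⁻¹ (ψ g v) = v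
            rw [← MulAut.mul_apply, ← map_mul, inv_mul_cancel, map_one, MulAut.one_apply]
          right_inv := fun v => by
            apply Subtype.ext
            show ψ g (ψ g⁻¹ v) = v
            rw [← MulAut.mul_apply, ← map_mul, mul_inv_cancel, map_one, MulAut.one_apply]
          map_mul' := fun a b => by
            apply Subtype.ext
            show ψ g ((a : V) * (b : V)) = ψ g a * ψ g b
            rw [map_mul] }
      map_one' := by
        ext v
        show ψ 1 (v : V) = v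
        rw [map_one, MulAut.one_apply]
      map_mul' := fun g h => by
        ext v
        show ψ (g * h) (v : V) = ψ g (ψ h v)
        rw [map_mul, MulAut.mul_apply] }
  refine ⟨ρ.ker, inferInstance, ⟨QuotientGroup.kerLift ρ, QuotientGroup.kerLift_injective ρ⟩, ?_⟩
  apply quot_faithful hodd (hP.to_subgroup ρ.ker) (ψ.comp ρ.ker.subtype)
    (hψ.comp ρ.ker.subtype_injective) V₁
  intro k v hv
  have h1 : ρ k = 1 := MonoidHom.mem_ker.mp k.2
  have h2 : (ρ k ⟨v, hv⟩ : ↥V₁) = ⟨v, hv⟩ := by rw [h1]; rfl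
  exact congrArg Subtype.val h2

theorem card_le_two_of_three (ψ : P →* MulAut V) (hψ : Function.Injective ψ)
    (h3 : Nat.card V = 3) : Nat.card P ≤ 2 := by
  have : Fact (Nat.Prime 3) := ⟨Nat.prime_three⟩
  haveI : IsCyclic V := isCyclic_of_prime_card h3
  have h1 := IsCyclic.card_mulAut V
  rw [h3, Nat.totient_prime Nat.prime_three] at h1
  have h2 := Nat.card_le_card_of_injective ψ hψ
  omega

theorem card_eq_one_of_one (ψ : P →* MulAut V) (hψ : Function.Injective ψ)
    (h1 : Nat.card V = 1) : Nat.card P = 1 := by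
  haveI : Subsingleton V := (Nat.card_eq_one_iff_unique.mp h1).1
  rw [Nat.card_eq_one_iff_unique]
  refine ⟨⟨fun a b => ?_⟩, ⟨1⟩⟩
  apply hψ
  ext v
  exact Subsingleton.elim _ _

end act

section main

/-- conclusion of the induction. -/
def Concl (m : ℕ) (P : Type u) [Group P] : Prop :=
  (m = 3 → Nat.card P ≤ 2) ∧ (m ≠ 3 → m ≠ 1 → 2 * (frattini P).index + 1 ≤ m)

/-- induction hypothesis. -/
def IHt (n : ℕ) : Prop :=
  ∀ m < n, ∀ (V : Type u) [CommGroup V] [Finite V] (P : Type u) [Group P] [Finite P],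
    Nat.card V = m → Odd m → IsPGroup 2 P → ∀ ψ : P →* MulAut V, Function.Injective ψ →
    Concl m P

variable {V P : Type u} [CommGroup V] [Finite V] [Group P] [Finite P]

/-- stabilizer of a point. -/
def Stab (ψ : P →* MulAut V) (v : V) : Subgroup P where
  carrier := {g | ψ g v = v}
  mul_mem' := by
    intro a b ha hb
    simp only [Set.mem_ofPred_eq] at *
    rw [map_mul, MulAut.mul_apply, hb, ha]
  one_mem' := by
    simp only [Set.mem_ofPred_eq]
    rw [map_one, MulAut.one_apply]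
  inv_mem' := by
    intro a ha
    simp only [Set.mem_ofPred_eq] at *
    calc ψ a⁻¹ v = ψ a⁻¹ (ψ a v) := by rw [ha]
      _ = v := by rw [← MulAut.mul_apply, ← map_mul, inv_mul_cancel, map_one, MulAut.one_apply]

omit [Finite V] [Finite P] in
theorem mem_Stab (ψ : P →* MulAut V) (v : V) (g : P) : g ∈ Stab ψ v ↔ ψ g v = v := Iff.rfl

theorem weak_bound (ψ : P →* MulAut V) (hψ : Function.Injective ψ) (m : ℕ)
    (hm : Nat.card V = m) (hC : Concl m P) : 2 * (frattini P).index ≤ m + 1 := by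
  have hle : (frattini P).index ≤ Nat.card P := frat_le_card
  by_cases h1 : m = 1
  · have := card_eq_one_of_one ψ hψ (hm.trans h1)
    omega
  · by_cases h3 : m = 3
    · have := hC.1 h3
      omega
    · have := hC.2 h3 h1
      omega

theorem red_step (n : ℕ) (ih : IHt.{u} n) (hn : Nat.card V = n) (hodd : Odd n)
    (hP : IsPGroup 2 P) (ψ : P →* MulAut V) (hψ : Function.Injective ψ)
    (W : Subgroup V) (hWinv : ∀ g, ∀ v ∈ W, ψ g v ∈ W) (hWbot : W ≠ ⊥) (hWtop : W ≠ ⊤) :
    ∃ (K : Subgroup P) (_ : K.Normal) (x y : ℕ), x * y = n ∧ 3 ≤ x ∧ 3 ≤ y ∧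
      Nat.card W = x ∧
      (frattini P).index ≤ (frattini (P ⧸ K)).index * (frattini ↥K).index ∧
      Concl x (P ⧸ K) ∧ Concl y ↥K ∧
      2 * (frattini (P ⧸ K)).index ≤ x + 1 ∧ 2 * (frattini ↥K).index ≤ y + 1 := by
  obtain ⟨K, hK, ⟨f₁, hf₁⟩, ⟨f₂, hf₂⟩⟩ := red_data (hn ▸ hodd) hP ψ hψ W hWinv
  have hxy : Nat.card W * W.index = n := hn ▸ Subgroup.card_mul_index W
  have hx1 : Nat.card W ≠ 1 := fun h => hWbot (Subgroup.card_eq_one.mp h)
  have hy1 : W.index ≠ 1 := fun h => hWtop (Subgroup.index_eq_one.mp h)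
  have hxodd : Odd (Nat.card W) := Odd.of_dvd_nat hodd (Dvd.intro _ hxy)
  have hyodd : Odd W.index := Odd.of_dvd_nat hodd (Dvd.intro_left _ hxy)
  have hx3 : 3 ≤ Nat.card W := by
    obtain ⟨k, hk⟩ := hxodd
    omega
  have hy3 : 3 ≤ W.index := by
    obtain ⟨k, hk⟩ := hyodd
    omega
  have hxlt : Nat.card W < n := by nlinarith
  have hylt : W.index < n := by nlinarith
  have hyc : Nat.card (V ⧸ W) = W.index := (Subgroup.index_eq_card W).symm
  have C1 := ih (Nat.card W) hxlt (↥W) (P ⧸ K) rfl hxodd (hP.to_quotient K) f₁ hf₁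
  have C2 := ih W.index hylt (V ⧸ W) (↥K) hyc hyodd (hP.to_subgroup K) f₂ hf₂
  exact ⟨K, hK, Nat.card W, W.index, hxy, hx3, hy3, rfl, frat_le_quot hP K, C1, C2,
    weak_bound f₁ hf₁ _ rfl C1, weak_bound f₂ hf₂ _ hyc C2⟩

omit [Finite V] [Finite P] in
theorem central_inv (ψ : P →* MulAut V) (hψ : Function.Injective ψ)
    (hirr : ∀ W : Subgroup V, (∀ g, ∀ v ∈ W, ψ g v ∈ W) → W = ⊥ ∨ W = ⊤)
    (z : P) (hzc : ∀ g, g * z = z * g) (hz2 : z * z = 1) (hz1 : z ≠ 1) (v : V) :
    ψ z v = v⁻¹ := by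
  apply inv_of_fix_bot (ψ z) (by rw [← map_mul, hz2, map_one])
  intro w hw
  have hinv : ∀ g, ∀ v ∈ Fx (ψ z), ψ g v ∈ Fx (ψ z) := by
    intro g v hv
    rw [mem_Fx] at hv ⊢
    rw [← MulAut.mul_apply, ← map_mul, ← hzc g, map_mul, MulAut.mul_apply, hv]
  rcases hirr _ hinv with h | h
  · have h1 : w ∈ Fx (ψ z) := hw
    rw [h, Subgroup.mem_bot] at h1
    exact h1
  · exfalso
    apply hz1
    apply hψ
    rw [map_one]
    ext u
    have h1 : u ∈ Fx (ψ z) := by rw [h]; exact Subgroup.mem_top u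
    rw [MulAut.one_apply]; exact h1

theorem beta_step (n : ℕ) (ih : IHt.{u} n) (hn : Nat.card V = n) (hodd : Odd n) (hn5 : 5 ≤ n)
    (hP : IsPGroup 2 P) (ψ : P →* MulAut V) (hψ : Function.Injective ψ)
    (z : P) (hz1 : z ≠ 1) (hzinv : ∀ v, ψ z v = v⁻¹)
    (A : Subgroup P) (hAn : A.Normal) (hAab : ∀ a ∈ A, ∀ b ∈ A, a * b = b * a)
    (hAC : Subgroup.centralizer (A : Set P) = A) (hzA : z ∈ A)
    (hnoinv : ∀ t ∈ A, t * t = 1 → t ≠ 1 → t = z) :
    2 * (frattini P).index + 1 ≤ n := by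
  have hp2 : Fact (Nat.Prime 2) := ⟨Nat.prime_two⟩
  have hoddV : Odd (Nat.card V) := hn ▸ hodd
  have hfree : ∀ a ∈ A, a ≠ 1 → ∀ v, ψ a v = v → v = 1 := by
    intro a ha ha1 v hv
    obtain ⟨m, hm⟩ := (IsPGroup.iff_orderOf.mp hP) a
    have hm0 : m ≠ 0 := by
      rintro rfl
      rw [pow_zero, orderOf_eq_one_iff] at hm
      exact ha1 hm
    obtain ⟨s, hs⟩ : ∃ s, s = a ^ (2 ^ (m - 1)) := ⟨_, rfl⟩
    have hs2 : s * s = 1 := by
      rw [hs, ← pow_add, ← two_mul, ← pow_succ', Nat.sub_add_cancel (Nat.pos_of_ne_zero hm0), ← hm,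
        pow_orderOf_eq_one]
    have hs1 : s ≠ 1 := by
      rw [hs]
      apply pow_ne_one_of_lt_orderOf (by positivity)
      rw [hm]
      exact Nat.pow_lt_pow_right (by norm_num) (by omega)
    have hsz : s = z := hnoinv s (hs ▸ A.pow_mem ha _) hs2 hs1
    have h1 : ψ z v = v := by
      rw [← hsz, hs, map_pow]
      exact pow_fix _ v hv _
    rw [hzinv] at h1
    apply sq_one_odd hoddV
    nth_rewrite 1 [← h1]
    exact inv_mul_cancel v
  have hAcyc : IsCyclic ↥A := by
    apply Cfsg.Agent.Lib.helper3.isCyclic_of_comm_unique_involution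
    · intro x y
      exact Subtype.ext (hAab x x.2 y y.2)
    · exact hP.to_subgroup A
    · intro x y hx hy hx1 hy1
      have hx' : (x : P) = z := hnoinv x x.2
        (by have := congrArg Subtype.val hx; rw [pow_two] at this; simpa using this)
        (fun h => hx1 (Subtype.ext h))
      have hy' : (y : P) = z := hnoinv y y.2
        (by have := congrArg Subtype.val hy; rw [pow_two] at this; simpa using this)
        (fun h => hy1 (Subtype.ext h))
      exact Subtype.ext (hx'.trans hy'.symm)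
  obtain ⟨v₀, hv₀⟩ : ∃ v₀ : V, v₀ ≠ 1 := by
    haveI : Nontrivial V := Finite.one_lt_card_iff_nontrivial.mp (by omega)
    exact exists_ne 1
  have hfA : (frattini ↥A).index ≤ 2 := frat_cyclic (hP.to_subgroup A)
  by_cases htr : ∀ w : V, w ≠ 1 → ∃ a ∈ A, ψ a v₀ = w
  · have hsup : Stab ψ v₀ ⊔ A = ⊤ := by
      rw [sup_comm, eq_top_iff]
      intro g _
      have hg1 : ψ g v₀ ≠ 1 := by
        intro h
        exact hv₀ ((ψ g).injective (h.trans (map_one (ψ g)).symm))
      obtain ⟨a, ha, hav⟩ := htr _ hg1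
      have h1 : a⁻¹ * g ∈ Stab ψ v₀ := by
        rw [mem_Stab, map_mul, MulAut.mul_apply, ← hav, ← MulAut.mul_apply, ← map_mul,
          inv_mul_cancel, map_one, MulAut.one_apply]
      have h2 : g = a * (a⁻¹ * g) := by group
      rw [h2]
      exact Subgroup.mul_mem_sup ha h1
    haveI := hAn
    have h1 := frat_le_sup hP (Stab ψ v₀) A hsup
    obtain ⟨f, hf⟩ := quot_faithful hoddV (hP.to_subgroup (Stab ψ v₀))
      (ψ.comp (Stab ψ v₀).subtype) (hψ.comp (Subgroup.subtype_injective _))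
      (Subgroup.zpowers v₀) (by
        intro g v hv
        obtain ⟨k, rfl⟩ := Subgroup.mem_zpowers_iff.mp hv
        show ψ (g : P) (v₀ ^ k) = v₀ ^ k
        rw [map_zpow, (mem_Stab ψ v₀ g).mp g.2])
    have hw := Subgroup.card_mul_index (Subgroup.zpowers v₀)
    rw [Nat.card_zpowers, hn] at hw
    have ho1 : orderOf v₀ ≠ 1 := by
      rw [Ne, orderOf_eq_one_iff]; exact hv₀
    have hoodd : Odd (orderOf v₀) := Odd.of_dvd_nat hodd (Dvd.intro _ hw)
    have ho3 : 3 ≤ orderOf v₀ := by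
      obtain ⟨k, hk⟩ := hoodd
      omega
    have hwodd : Odd (Subgroup.zpowers v₀).index := Odd.of_dvd_nat hodd (Dvd.intro_left _ hw)
    have hwpos : 0 < (Subgroup.zpowers v₀).index := hwodd.pos
    have hwlt : (Subgroup.zpowers v₀).index < n := by nlinarith
    have hyc : Nat.card (V ⧸ Subgroup.zpowers v₀) = (Subgroup.zpowers v₀).index :=
      (Subgroup.index_eq_card _).symm
    have hC := ih _ hwlt (V ⧸ Subgroup.zpowers v₀) ↥(Stab ψ v₀) hyc hwodd
      (hP.to_subgroup _) f hf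
    have hwk := weak_bound f hf _ hyc hC
    have h2 : (frattini P).index ≤ (frattini ↥(Stab ψ v₀)).index * 2 :=
      le_trans h1 (Nat.mul_le_mul_left _ hfA)
    have h3w : 3 * (Subgroup.zpowers v₀).index ≤ n := by nlinarith
    obtain ⟨k, hk⟩ := hwodd
    omega
  · push_neg at htr
    obtain ⟨w₀, hw₀, hw₀A⟩ := htr
    have hfreeV : ∀ (a b : ↥A) (u : V), u ≠ 1 → ψ (a : P) u = ψ (b : P) u → a = b := by
      intro a b u hu h
      by_contra hab
      have h1 : (b : P)⁻¹ * a ∈ A := A.mul_mem (A.inv_mem b.2) a.2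
      have h2 : (b : P)⁻¹ * a ≠ 1 := by
        intro h3
        apply hab
        apply Subtype.ext
        exact (inv_mul_eq_one.mp h3).symm
      have h4 : ψ ((b : P)⁻¹ * a) u = u := by
        rw [map_mul, MulAut.mul_apply, h, ← MulAut.mul_apply, ← map_mul, inv_mul_cancel, map_one,
          MulAut.one_apply]
      exact hu (hfree _ h1 h2 u h4)
    have hcross : ∀ (a b : ↥A), ψ (a : P) v₀ ≠ ψ (b : P) w₀ := by
      intro a b h
      apply hw₀A ((b : P)⁻¹ * a) (A.mul_mem (A.inv_mem b.2) a.2)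
      rw [map_mul, MulAut.mul_apply, h, ← MulAut.mul_apply, ← map_mul, inv_mul_cancel, map_one,
        MulAut.one_apply]
    have hne1 : ∀ (g : P) (u : V), u ≠ 1 → ψ g u ≠ 1 := by
      intro g u hu h
      exact hu ((ψ g).injective (h.trans (map_one (ψ g)).symm))
    obtain ⟨F, hF⟩ : ∃ F : Option (↥A ⊕ ↥A) → V, F = fun x => match x with
        | none => (1 : V)
        | some (Sum.inl a) => ψ (a : P) v₀
        | some (Sum.inr a) => ψ (a : P) w₀ := ⟨_, rfl⟩
    have hinj : Function.Injective F := by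
      intro x y hxy
      rw [hF] at hxy
      rcases x with _ | (a | a) <;> rcases y with _ | (b | b) <;> simp only at hxy
      · rfl
      · exact absurd hxy.symm (hne1 _ _ hv₀)
      · exact absurd hxy.symm (hne1 _ _ hw₀)
      · exact absurd hxy (hne1 _ _ hv₀)
      · rw [hfreeV a b v₀ hv₀ hxy]
      · exact absurd hxy (hcross a b)
      · exact absurd hxy (hne1 _ _ hw₀)
      · exact absurd hxy.symm (hcross b a)
      · rw [hfreeV a b w₀ hw₀ hxy]
    have hcard := Nat.card_le_card_of_injective F hinj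
    rw [Finite.card_option, Nat.card_sum, hn] at hcard
    haveI := hAn
    have hker : (MulAut.conjNormal : P →* MulAut ↥A).ker ≤ A := by
      intro g hg
      rw [← hAC, Subgroup.mem_centralizer_iff]
      intro a ha
      have h1 : (MulAut.conjNormal g : MulAut ↥A) ⟨a, ha⟩ = ⟨a, ha⟩ := by
        rw [MonoidHom.mem_ker.mp hg]; rfl
      have h2 := congrArg Subtype.val h1
      rw [MulAut.conjNormal_apply] at h2
      calc a * g = (g * a * g⁻¹) * g := by rw [h2]
        _ = g * a := by group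
    have hidx : A.index ≤ Nat.card (MulAut ↥A) :=
      calc A.index ≤ (MulAut.conjNormal : P →* MulAut ↥A).ker.index :=
            Subgroup.index_antitone hker
        _ = Nat.card (MulAut.conjNormal : P →* MulAut ↥A).range := Subgroup.index_ker _
        _ ≤ Nat.card (MulAut ↥A) := Subgroup.card_le_card_group _
    rw [IsCyclic.card_mulAut] at hidx
    obtain ⟨k, hk⟩ := IsPGroup.iff_card.mp (hP.to_subgroup A)
    have hk0 : k ≠ 0 := by
      rintro rfl
      rw [pow_zero, Subgroup.card_eq_one] at hk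
      rw [hk, Subgroup.mem_bot] at hzA
      exact hz1 hzA
    rw [hk, Nat.totient_prime_pow Nat.prime_two (Nat.pos_of_ne_zero hk0)] at hidx
    obtain ⟨j, rfl⟩ := Nat.exists_eq_succ_of_ne_zero hk0
    have hα : 2 * A.index ≤ Nat.card ↥A := by
      rw [hk, pow_succ]
      simp at hidx
      omega
    have h1 := frat_le_sub hP A
    have h2 : (frattini P).index ≤ A.index * 2 := le_trans h1 (Nat.mul_le_mul_left _ hfA)
    omega

theorem alpha_step (n : ℕ) (ih : IHt.{u} n) (hn : Nat.card V = n) (hodd : Odd n)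
    (hP : IsPGroup 2 P) (ψ : P →* MulAut V) (hψ : Function.Injective ψ)
    (hirr : ∀ W : Subgroup V, (∀ g, ∀ v ∈ W, ψ g v ∈ W) → W = ⊥ ∨ W = ⊤)
    (z : P) (hzc : ∀ g, g * z = z * g) (hz2 : z * z = 1) (hz1 : z ≠ 1)
    (hzinv : ∀ v, ψ z v = v⁻¹)
    (A : Subgroup P) (hAn : A.Normal) (hAab : ∀ a ∈ A, ∀ b ∈ A, a * b = b * a)
    (t : P) (htA : t ∈ A) (ht2 : t * t = 1) (ht1 : t ≠ 1) (htz : t ≠ z) :
    2 * (frattini P).index + 1 ≤ n := by
  have hp2 : Fact (Nat.Prime 2) := ⟨Nat.prime_two⟩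
  have hcz : ∀ c : P, (∀ g, g * c = c * g) → c * c = 1 → c ≠ 1 → c = z := by
    intro c hcc hc2 hc1
    apply hψ
    ext v
    rw [central_inv ψ hψ hirr c hcc hc2 hc1 v, hzinv]
  have hmemc : ∀ c : P, c ∈ Subgroup.center P ↔ ∀ g, g * c = c * g :=
    fun c => Subgroup.mem_center_iff
  have htc : t ∉ Subgroup.center P := by
    intro h
    exact htz (hcz t ((hmemc t).mp h) ht2 ht1)
  have hnil : Group.IsNilpotent P := hP.isNilpotent
  obtain ⟨c, hc⟩ := hnil.nilpotent
  have hex : ∃ i, ∃ x ∈ A, x * x = 1 ∧ x ∉ Subgroup.center P ∧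
      x ∈ Subgroup.upperCentralSeries P i :=
    ⟨c, t, htA, ht2, htc, by rw [hc]; trivial⟩
  classical
  obtain ⟨x, hxA, hx2, hxc, hxi⟩ := Nat.find_spec hex
  have hi0 : Nat.find hex ≠ 0 := by
    intro h0
    rw [h0, Subgroup.upperCentralSeries_zero, Subgroup.mem_bot] at hxi
    exact hxc (hxi ▸ Subgroup.one_mem _)
  obtain ⟨j, hj⟩ := Nat.exists_eq_succ_of_ne_zero hi0
  rw [hj, Subgroup.mem_upperCentralSeries_succ_iff] at hxi
  have hxinv : x⁻¹ = x := inv_eq_of_mul_eq_one_right hx2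
  have hcomA : ∀ y : P, ⁅x, y⁆ ∈ A := by
    intro y
    rw [commutatorElement_def]
    have h1 : y * x⁻¹ * y⁻¹ ∈ A := hAn.conj_mem _ (A.inv_mem hxA) y
    have e : x * y * x⁻¹ * y⁻¹ = x * (y * x⁻¹ * y⁻¹) := by group
    rw [e]
    exact A.mul_mem hxA h1
  have hcom2 : ∀ y : P, ⁅x, y⁆ * ⁅x, y⁆ = 1 := by
    intro y
    rw [commutatorElement_def]
    have h1 : y * x⁻¹ * y⁻¹ ∈ A := hAn.conj_mem _ (A.inv_mem hxA) y
    have e : x * y * x⁻¹ * y⁻¹ = x * (y * x⁻¹ * y⁻¹) := by group
    rw [e]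
    have hc' := hAab x hxA _ h1
    have hw2 : (y * x⁻¹ * y⁻¹) * (y * x⁻¹ * y⁻¹) = 1 := by
      have e2 : (y * x⁻¹ * y⁻¹) * (y * x⁻¹ * y⁻¹) = y * (x⁻¹ * x⁻¹) * y⁻¹ := by group
      rw [e2, hxinv, hx2]
      group
    calc x * (y * x⁻¹ * y⁻¹) * (x * (y * x⁻¹ * y⁻¹))
        = x * ((y * x⁻¹ * y⁻¹) * x) * (y * x⁻¹ * y⁻¹) := by group
      _ = x * (x * (y * x⁻¹ * y⁻¹)) * (y * x⁻¹ * y⁻¹) := by rw [← hc']
      _ = (x * x) * ((y * x⁻¹ * y⁻¹) * (y * x⁻¹ * y⁻¹)) := by group
      _ = 1 := by rw [hx2, hw2, one_mul]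
  have hcomc : ∀ y : P, ⁅x, y⁆ ∈ Subgroup.center P := by
    intro y
    by_contra hny
    have h4 : Nat.find hex ≤ j := Nat.find_min' hex ⟨_, hcomA y, hcom2 y, hny, hxi y⟩
    omega
  have hcom : ∀ y : P, ⁅x, y⁆ = 1 ∨ ⁅x, y⁆ = z := by
    intro y
    by_cases h1 : ⁅x, y⁆ = 1
    · exact Or.inl h1
    · exact Or.inr (hcz _ ((hmemc _).mp (hcomc y)) (hcom2 y) h1)
  have hsw : ∀ y : P, y * x * y⁻¹ = x ∨ y * x * y⁻¹ = x * z := by
    intro y
    have e : y * x * y⁻¹ = x * ⁅x, y⁆ := by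
      rw [commutatorElement_def]
      calc y * x * y⁻¹ = (x * x) * (y * x * y⁻¹) := by rw [hx2, one_mul]
        _ = x * (x * y * x * y⁻¹) := by group
        _ = x * (x * y * x⁻¹ * y⁻¹) := by rw [hxinv]
    rcases hcom y with h | h
    · left; rw [e, h, mul_one]
    · right; rw [e, h]
  obtain ⟨g₀, hg₀⟩ : ∃ g₀ : P, g₀ * x ≠ x * g₀ := by
    by_contra hno
    push_neg at hno
    exact hxc ((hmemc x).mpr hno)
  have hxxz : x * z ≠ x := fun h => hz1 (mul_left_cancel (h.trans (mul_one x).symm))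
  have hg₀sw : g₀ * x * g₀⁻¹ = x * z := by
    rcases hsw g₀ with h | h
    · exfalso
      apply hg₀
      calc g₀ * x = (g₀ * x * g₀⁻¹) * g₀ := by group
        _ = x * g₀ := by rw [h]
    · exact h
  obtain ⟨x', hx'⟩ : ∃ x' : P, x' = x * z := ⟨_, rfl⟩
  have hconjz : ∀ y : P, y * (x * z) * y⁻¹ = (y * x * y⁻¹) * z := by
    intro y
    calc y * (x * z) * y⁻¹ = y * x * (z * y⁻¹) := by group
      _ = y * x * (y⁻¹ * z) := by rw [hzc y⁻¹]
      _ = (y * x * y⁻¹) * z := by group
  have hsw' : ∀ y : P, (y * x * y⁻¹ = x ∧ y * x' * y⁻¹ = x') ∨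
      (y * x * y⁻¹ = x' ∧ y * x' * y⁻¹ = x) := by
    intro y
    have e : y * x' * y⁻¹ = (y * x * y⁻¹) * z := by rw [hx']; exact hconjz y
    rcases hsw y with h | h
    · left
      exact ⟨h, by rw [e, h, hx']⟩
    · right
      refine ⟨by rw [h, hx'], ?_⟩
      rw [e, h, mul_assoc, hz2, mul_one]
  have hFx : ∀ (s y : P) (v : V), v ∈ Fx (ψ s) → ψ y v ∈ Fx (ψ (y * s * y⁻¹)) := by
    intro s y v hv
    rw [mem_Fx] at hv ⊢
    rw [← MulAut.mul_apply, ← map_mul, inv_mul_cancel_right, map_mul, MulAut.mul_apply, hv]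
  have hswV : ∀ y : P,
      ((∀ v ∈ Fx (ψ x), ψ y v ∈ Fx (ψ x)) ∧ (∀ v ∈ Fx (ψ x'), ψ y v ∈ Fx (ψ x'))) ∨
      ((∀ v ∈ Fx (ψ x), ψ y v ∈ Fx (ψ x')) ∧ (∀ v ∈ Fx (ψ x'), ψ y v ∈ Fx (ψ x))) := by
    intro y
    rcases hsw' y with ⟨h1, h2⟩ | ⟨h1, h2⟩
    · left
      exact ⟨fun v hv => by rw [← h1]; exact hFx x y v hv,
        fun v hv => by rw [← h2]; exact hFx x' y v hv⟩
    · right
      exact ⟨fun v hv => by rw [← h1]; exact hFx x y v hv,
        fun v hv => by rw [← h2]; exact hFx x' y v hv⟩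
  have hinfinv : ∀ g, ∀ v ∈ Fx (ψ x) ⊓ Fx (ψ x'), ψ g v ∈ Fx (ψ x) ⊓ Fx (ψ x') := by
    intro g v hv
    rw [Subgroup.mem_inf] at hv ⊢
    rcases hswV g with ⟨h1, h2⟩ | ⟨h1, h2⟩
    · exact ⟨h1 v hv.1, h2 v hv.2⟩
    · exact ⟨h2 v hv.2, h1 v hv.1⟩
  have hsupinv : ∀ g, ∀ v ∈ Fx (ψ x) ⊔ Fx (ψ x'), ψ g v ∈ Fx (ψ x) ⊔ Fx (ψ x') := by
    intro g v hv
    obtain ⟨a, ha, b, hb, rfl⟩ := Subgroup.mem_sup.mp hv
    rw [map_mul]
    rcases hswV g with ⟨h1, h2⟩ | ⟨h1, h2⟩
    · exact Subgroup.mul_mem_sup (h1 a ha) (h2 b hb)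
    · rw [mul_comm]
      exact Subgroup.mul_mem_sup (h2 b hb) (h1 a ha)
  have hV1top : Fx (ψ x) ≠ ⊤ := by
    intro h
    apply hxc
    have hx1 : x = 1 := by
      apply hψ
      rw [map_one]
      ext u
      have h1 : u ∈ Fx (ψ x) := by rw [h]; exact Subgroup.mem_top u
      rw [MulAut.one_apply]; exact h1
    rw [hx1]; exact Subgroup.one_mem _
  have hV1bot : Fx (ψ x) ≠ ⊥ := by
    intro h
    apply hxc
    have hxz : x = z := by
      apply hψ
      ext v
      rw [hzinv]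
      apply inv_of_fix_bot (ψ x) (by rw [← map_mul, hx2, map_one])
      intro w hw
      have h1 : w ∈ Fx (ψ x) := hw
      rw [h, Subgroup.mem_bot] at h1
      exact h1
    rw [hxz, hmemc]; exact hzc
  have hinf : Fx (ψ x) ⊓ Fx (ψ x') = ⊥ := by
    rcases hirr _ hinfinv with h | h
    · exact h
    · exfalso
      apply hV1top
      rw [eq_top_iff, ← h]; exact inf_le_left
  have hsup : Fx (ψ x) ⊔ Fx (ψ x') = ⊤ := by
    rcases hirr _ hsupinv with h | h
    · exfalso
      apply hV1bot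
      rw [eq_bot_iff, ← h]; exact le_sup_left
    · exact h
  have hcompl : Subgroup.IsComplement' (Fx (ψ x)) (Fx (ψ x')) := by
    apply Subgroup.isComplement'_of_disjoint_and_mul_eq_univ (disjoint_iff.mpr hinf)
    rw [← Subgroup.normal_mul, hsup, Subgroup.coe_top]
  have hcm := hcompl.card_mul_card
  have hg₀V : (∀ v ∈ Fx (ψ x), ψ g₀ v ∈ Fx (ψ x')) ∧ (∀ v ∈ Fx (ψ x'), ψ g₀ v ∈ Fx (ψ x)) := by
    rcases hsw' g₀ with ⟨h1, h2⟩ | ⟨h1, h2⟩
    · exfalso
      rw [hg₀sw] at h1
      exact hxxz h1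
    · exact ⟨fun v hv => by rw [← h1]; exact hFx x g₀ v hv,
        fun v hv => by rw [← h2]; exact hFx x' g₀ v hv⟩
  have hc12 : Nat.card (Fx (ψ x)) = Nat.card (Fx (ψ x')) := by
    apply le_antisymm
    · apply Nat.card_le_card_of_injective
        (fun v : Fx (ψ x) => (⟨ψ g₀ v, hg₀V.1 v v.2⟩ : Fx (ψ x')))
      intro a b hab
      apply Subtype.ext
      exact (ψ g₀).injective (congrArg Subtype.val hab)
    · apply Nat.card_le_card_of_injective
        (fun v : Fx (ψ x') => (⟨ψ g₀ v, hg₀V.2 v v.2⟩ : Fx (ψ x)))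
      intro a b hab
      apply Subtype.ext
      exact (ψ g₀).injective (congrArg Subtype.val hab)
  obtain ⟨M, hM⟩ : ∃ M : Subgroup P, M = Subgroup.centralizer {x} := ⟨_, rfl⟩
  have hmemM : ∀ g : P, g ∈ M ↔ g * x * g⁻¹ = x := by
    intro g
    rw [hM, Subgroup.mem_centralizer_iff]
    constructor
    · intro h
      have h1 := h x (Set.mem_singleton x)
      rw [← h1]; group
    · intro h y hy
      rw [Set.mem_singleton_iff] at hy
      rw [hy]
      calc x * g = (g * x * g⁻¹) * g := by rw [h]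
        _ = g * x := by group
  have hg₀M : g₀ ∉ M := by rw [hmemM, hg₀sw]; exact hxxz
  have hMidx : M.index = 2 := by
    rw [Subgroup.index_eq_two_iff]
    refine ⟨g₀, fun b => ?_⟩
    by_cases hb : b ∈ M
    · refine Or.inr ⟨hb, fun h => hg₀M ?_⟩
      have h1 := M.mul_mem (M.inv_mem hb) h
      rwa [inv_mul_cancel_left] at h1
    · refine Or.inl ⟨?_, hb⟩
      have hbx : b * x * b⁻¹ = x * z := by
        rcases hsw b with h | h
        · exact absurd ((hmemM b).mpr h) hb
        · exact h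
      rw [hmemM]
      calc b * g₀ * x * (b * g₀)⁻¹ = b * (g₀ * x * g₀⁻¹) * b⁻¹ := by group
        _ = b * (x * z) * b⁻¹ := by rw [hg₀sw]
        _ = (b * x * b⁻¹) * z := hconjz b
        _ = x := by rw [hbx, mul_assoc, hz2, mul_one]
  have hMinv : ∀ (g : ↥M), ∀ v ∈ Fx (ψ x), (ψ.comp M.subtype) g v ∈ Fx (ψ x) := by
    intro g v hv
    have h := hFx x (g : P) v hv
    rw [(hmemM g).mp g.2] at h
    exact h
  have hPM : IsPGroup 2 ↥M := hP.to_subgroup M
  obtain ⟨K, hK, a, b, hab, ha3, hb3, hcardW, hfr, C1, C2, -, -⟩ :=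
    red_step n ih hn hodd hPM (ψ.comp M.subtype) (hψ.comp (Subgroup.subtype_injective M))
      (Fx (ψ x)) hMinv hV1bot hV1top
  have hba : b = a := by
    rw [← hc12, hcardW, hn] at hcm
    have h1 : a * b = a * a := by rw [hab, hcm]
    exact Nat.eq_of_mul_eq_mul_left (by omega) h1
  have h1 := frat_le_sub hP M
  rw [hMidx] at h1
  by_cases ha3' : a = 3
  · have c1 := C1.1 ha3'
    have c2 := C2.1 (hba.trans ha3')
    have hcM := Subgroup.card_eq_card_quotient_mul_card_subgroup K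
    have hcP := Subgroup.card_mul_index M
    rw [hMidx] at hcP
    have hnab := frat_nonab hP g₀ x hg₀
    have hM4 : Nat.card ↥M ≤ 4 := by
      rw [hcM]
      exact le_trans (Nat.mul_le_mul c1 c2) (by norm_num)
    have hn9 : n = 9 := by rw [← hab, hba, ha3']
    omega
  · have c1 := C1.2 ha3' (by omega)
    have c2 := C2.2 (by omega) (by omega)
    have h5 := Nat.mul_le_mul c1 c2
    rw [hab] at h5
    nlinarith

theorem irr_step (n : ℕ) (ih : IHt.{u} n) (hn : Nat.card V = n) (hodd : Odd n) (hn5 : 5 ≤ n)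
    (hP : IsPGroup 2 P) (ψ : P →* MulAut V) (hψ : Function.Injective ψ)
    (hirr : ∀ W : Subgroup V, (∀ g, ∀ v ∈ W, ψ g v ∈ W) → W = ⊥ ∨ W = ⊤) :
    2 * (frattini P).index + 1 ≤ n := by
  have hp2 : Fact (Nat.Prime 2) := ⟨Nat.prime_two⟩
  by_cases hP1 : Nat.card P = 1
  · have := frat_le_card (P := P)
    omega
  haveI : Nontrivial P := Finite.one_lt_card_iff_nontrivial.mp (by
    have := Nat.card_pos (α := P)
    omega)
  obtain ⟨z, hzc, hz2, hz1⟩ : ∃ z : P, (∀ g, g * z = z * g) ∧ z * z = 1 ∧ z ≠ 1 := by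
    have hc : Subgroup.center P ≠ ⊥ := (hP.bot_lt_center).ne'
    have hcard : 1 < Nat.card (Subgroup.center P) :=
      (Subgroup.one_lt_card_iff_ne_bot (H := Subgroup.center P)).mpr hc
    obtain ⟨k, hk⟩ := IsPGroup.iff_card.mp (hP.to_subgroup (Subgroup.center P))
    have h2 : 2 ∣ Nat.card (Subgroup.center P) := by
      rw [hk] at hcard ⊢
      cases k with
      | zero => simp at hcard
      | succ k => exact Dvd.intro_left _ (pow_succ 2 k).symm
    obtain ⟨x, hx⟩ := exists_prime_orderOf_dvd_card' 2 h2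
    refine ⟨x, fun g => Subgroup.mem_center_iff.mp x.2 g, ?_, ?_⟩
    · have h3 : x ^ 2 = 1 := by rw [← hx]; exact pow_orderOf_eq_one x
      have h4 := congrArg Subtype.val h3
      rw [pow_two] at h4
      simpa using h4
    · intro h
      have h5 : x = 1 := Subtype.ext h
      rw [h5, orderOf_one] at hx
      omega
  have hzinv : ∀ v, ψ z v = v⁻¹ := central_inv ψ hψ hirr z hzc hz2 hz1
  obtain ⟨A, hAn, hAab, hAC⟩ := Cfsg.Agent.Lib.helper1.exists_self_centralizing_normal hP
  have hzA : z ∈ A := by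
    rw [← hAC, Subgroup.mem_centralizer_iff]
    intro a _
    exact hzc a
  by_cases hinv2 : ∃ t ∈ A, t * t = 1 ∧ t ≠ 1 ∧ t ≠ z
  · obtain ⟨t, htA, ht2, ht1, htz⟩ := hinv2
    exact alpha_step n ih hn hodd hP ψ hψ hirr z hzc hz2 hz1 hzinv A hAn hAab t htA ht2 ht1 htz
  · push_neg at hinv2
    exact beta_step n ih hn hodd hn5 hP ψ hψ z hz1 hzinv A hAn hAab hAC hzA
      (fun t htA ht2 ht1 => hinv2 t htA ht2 ht1)

end main

theorem key : ∀ n : ℕ, ∀ (V : Type u) [CommGroup V] [Finite V] (P : Type u) [Group P] [Finite P],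
    Nat.card V = n → Odd n → IsPGroup 2 P → ∀ ψ : P →* MulAut V, Function.Injective ψ →
    Concl n P := by
  intro n
  induction n using Nat.strong_induction_on with
  | _ n ih =>
    intro V _ _ P _ _ hn hodd hP ψ hψ
    refine ⟨fun h3 => card_le_two_of_three ψ hψ (hn.trans h3), fun h3 h1 => ?_⟩
    have hn5 : 5 ≤ n := by
      obtain ⟨k, hk⟩ := hodd
      omega
    by_cases hred : ∃ W : Subgroup V, (∀ g, ∀ v ∈ W, ψ g v ∈ W) ∧ W ≠ ⊥ ∧ W ≠ ⊤
    · obtain ⟨W, hWinv, hWbot, hWtop⟩ := hred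
      obtain ⟨K, hK, a, b, hab, ha3, hb3, -, hfr, -, -, w1, w2⟩ :=
        red_step n ih hn hodd hP ψ hψ W hWinv hWbot hWtop
      have h5 := Nat.mul_le_mul w1 w2
      have h6 : 3 * b ≤ a * b := Nat.mul_le_mul_right b ha3
      have h7 : a * 3 ≤ a * b := Nat.mul_le_mul_left a hb3
      nlinarith
    · have hirr : ∀ W : Subgroup V, (∀ g, ∀ v ∈ W, ψ g v ∈ W) → W = ⊥ ∨ W = ⊤ := by
        intro W hW
        by_contra hcon
        push_neg at hcon
        exact hred ⟨W, hW, hcon.1, hcon.2⟩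
      exact irr_step n ih hn hodd hn5 hP ψ hψ hirr

/-- Let G be a finite group that is the semidirect product of a normal abelian subgroup N of odd order by a 2-subgroup P, and suppose N is the unique minimal normal subgroup of G. Then the index of the Frattini subgroup of P in P is at most #N − 1. -/
theorem result {G : Type*} [Group G] [Finite G] (N P : Subgroup G) (hN : N.Normal) (hNab : IsMulCommutative ↥N) (hNodd : Odd (Nat.card ↥N)) (hP : IsPGroup 2 ↥P) (hdisj : N ⊓ P = ⊥) (hprod : N ⊔ P = ⊤) (hmin : N ≠ ⊥ ∧ ∀ M : Subgroup G, M.Normal → M ≠ ⊥ → N ≤ M) : (frattini ↥P).index ≤ Nat.card ↥N - 1 := by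
  haveI := hN
  letI cg : CommGroup ↥N :=
    { (inferInstance : Group ↥N) with mul_comm := fun a b => hNab.is_comm.comm a b }
  obtain ⟨D, hD⟩ : ∃ D : Subgroup G, D = P ⊓ Subgroup.centralizer (N : Set G) := ⟨_, rfl⟩
  have hCn : (Subgroup.centralizer (N : Set G)).Normal := Subgroup.normal_centralizer
  have hDn : D.Normal := by
    constructor
    intro d hd x
    rw [hD, Subgroup.mem_inf] at hd
    have hx : x ∈ ((N ⊔ P : Subgroup G) : Set G) := by rw [hprod]; trivial
    rw [Subgroup.normal_mul] at hx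
    obtain ⟨m, hm, p, hp, rfl⟩ := Set.mem_mul.mp hx
    have he1 : p * d * p⁻¹ ∈ P := P.mul_mem (P.mul_mem hp hd.1) (P.inv_mem hp)
    have he2 : p * d * p⁻¹ ∈ Subgroup.centralizer (N : Set G) := hCn.conj_mem _ hd.2 p
    have he3 : m * (p * d * p⁻¹) = (p * d * p⁻¹) * m :=
      (Subgroup.mem_centralizer_iff.mp he2) m hm
    have e : m * p * d * (m * p)⁻¹ = p * d * p⁻¹ := by
      calc m * p * d * (m * p)⁻¹ = (m * (p * d * p⁻¹)) * m⁻¹ := by group
        _ = (p * d * p⁻¹) * m * m⁻¹ := by rw [he3]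
        _ = p * d * p⁻¹ := by group
    rw [e, hD, Subgroup.mem_inf]
    exact ⟨he1, he2⟩
  have hDbot : D = ⊥ := by
    by_contra hne
    have h1 := hmin.2 D hDn hne
    have h2 : N ≤ N ⊓ P := le_inf le_rfl (le_trans h1 (by rw [hD]; exact inf_le_left))
    rw [hdisj] at h2
    exact hmin.1 (le_bot_iff.mp h2)
  obtain ⟨ψ, hψdef⟩ : ∃ ψ : ↥P →* MulAut ↥N,
      ψ = (MulAut.conjNormal : G →* MulAut ↥N).comp P.subtype := ⟨_, rfl⟩
  have hψ : Function.Injective ψ := by
    rw [injective_iff_map_eq_one]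
    intro g hg
    have hgD : (g : G) ∈ D := by
      rw [hD, Subgroup.mem_inf]
      refine ⟨g.2, ?_⟩
      rw [Subgroup.mem_centralizer_iff]
      intro m hm
      have h1 : ψ g ⟨m, hm⟩ = ⟨m, hm⟩ := by rw [hg]; rfl
      have h2 := congrArg Subtype.val h1
      rw [hψdef] at h2
      have h3 : (g : G) * m * (g : G)⁻¹ = m := h2
      calc m * (g : G) = ((g : G) * m * (g : G)⁻¹) * g := by rw [h3]
        _ = (g : G) * m := by group
    rw [hDbot, Subgroup.mem_bot] at hgD
    exact Subtype.ext hgD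
  have hcard : Nat.card ↥N ≠ 1 := fun h => hmin.1 (Subgroup.card_eq_one.mp h)
  obtain ⟨k1, k2⟩ := key (Nat.card ↥N) ↥N ↥P rfl hNodd hP ψ hψ
  have hle : (frattini ↥P).index ≤ Nat.card ↥P := frat_le_card
  by_cases h3 : Nat.card ↥N = 3
  · have := k1 h3
    omega
  · have := k2 h3 hcard
    omega

end Cfsg.Agent.S4188
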