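import Cfsg.Statements.S4207
-- import your own Cfsg.Agent.* helpers here

set_option autoImplicit false
open Cfsg

namespace Cfsg.Agent.S4207

universe u

theorem exists_gens {p : ℕ} [hp : Fact p.Prime] : ∀ (r : ℕ) (Q : Type u) [Group Q] [Finite Q],
    Nat.card Q = p ^ r → ∃ q : Fin r → Q, Subgroup.closure (Set.range q) = ⊤ := by
  intro r
  induction r with
  | zero =>
    intro Q _ _ hQ
    rw [pow_zero] at hQ
    have : Subsingleton Q := (Nat.card_eq_one_iff_unique.mp hQ).1
    exact ⟨fun i => 1, Subsingleton.elim _ _⟩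
  | succ r ih =>
    intro Q _ _ hQ
    obtain ⟨M, hM⟩ := Sylow.exists_subgroup_card_pow_prime p (n := r) (G := Q)
      (by rw [hQ]; exact pow_dvd_pow p (Nat.le_succ r))
    obtain ⟨f, hf⟩ := ih M hM
    have hlt : p ^ r < p ^ (r + 1) := Nat.pow_lt_pow_right hp.out.one_lt (Nat.lt_succ_self r)
    have hMne : M ≠ ⊤ := by
      intro h
      rw [h, Subgroup.card_top, hQ] at hM
      omega
    obtain ⟨x, hx⟩ : ∃ x : Q, x ∉ M := by
      by_contra hcon
      push Not at hcon
      exact hMne (eq_top_iff.mpr fun y _ => hcon y)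
    refine ⟨Fin.cons x (fun i => (f i : Q)), ?_⟩
    obtain ⟨S, hS⟩ : ∃ S : Subgroup Q, S = Subgroup.closure
        (Set.range (Fin.cons x (fun i => (f i : Q)) : Fin (r + 1) → Q)) := ⟨_, rfl⟩
    rw [← hS]
    have hxS : x ∈ S := by rw [hS]; exact Subgroup.subset_closure ⟨0, by simp⟩
    have hMS : M ≤ S := by
      have h1 : M = (Subgroup.closure (Set.range f)).map M.subtype := by
        rw [hf, ← MonoidHom.range_eq_map, Subgroup.range_subtype]
      rw [h1, MonoidHom.map_closure, Subgroup.closure_le]
      rintro _ ⟨_, ⟨i, rfl⟩, rfl⟩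
      rw [hS]
      exact Subgroup.subset_closure ⟨i.succ, by simp⟩
    obtain ⟨k, hk, hSk⟩ := (Nat.dvd_prime_pow hp.out).mp (hQ ▸ Subgroup.card_subgroup_dvd_card S)
    have hk' : k = r + 1 := by
      by_contra hne
      have hkr : k ≤ r := by omega
      have : M = S := Subgroup.eq_of_le_of_card_ge hMS
        (by rw [hM, hSk]; exact Nat.pow_le_pow_right hp.out.pos hkr)
      exact hx (this ▸ hxS)
    exact Subgroup.eq_top_of_card_eq S (by rw [hSk, hk', hQ])

theorem card_dvd_of_free {A X : Type*} [Group A] [MulAction A X]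
    (h : ∀ b : X, MulAction.stabilizer A b = ⊥) : Nat.card A ∣ Nat.card X := by
  rw [Nat.card_congr (MulAction.selfEquivOrbitsQuotientProd h), Nat.card_prod]
  exact dvd_mul_left _ _

/-- tuples lifting a fixed tuple of cosets -/
def Lifts {P : Type*} [Group P] (N : Subgroup P) {r : ℕ} (x : Fin r → P) : Type _ :=
  {y : Fin r → P // ∀ i, (x i)⁻¹ * y i ∈ N}

/-- automorphisms acting trivially mod `N` act on the lifts -/
@[reducible] def liftsAction {P : Type*} [Group P] (N : Subgroup P) [hN : N.Normal] (A : Subgroup (MulAut P))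
    (hA : ∀ α ∈ A, ∀ x : P, α x * x⁻¹ ∈ N) {r : ℕ} (x : Fin r → P) :
    MulAction A (Lifts N x) where
  smul α y := ⟨fun i => (α : MulAut P) (y.1 i), fun i => by
    have h1 := y.2 i
    have h2 := hA α α.2 (y.1 i)
    have h3 : (y.1 i)⁻¹ * ((α : MulAut P) (y.1 i) * (y.1 i)⁻¹) * (y.1 i)⁻¹⁻¹ ∈ N :=
      hN.conj_mem _ h2 _
    have : (x i)⁻¹ * (α : MulAut P) (y.1 i) = ((x i)⁻¹ * y.1 i) *
        ((y.1 i)⁻¹ * ((α : MulAut P) (y.1 i) * (y.1 i)⁻¹) * (y.1 i)⁻¹⁻¹) := by group
    rw [this]
    exact N.mul_mem h1 h3⟩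
  one_smul y := by apply Subtype.ext; funext i; rfl
  mul_smul α β y := by apply Subtype.ext; funext i; rfl

theorem liftsAction_apply {P : Type*} [Group P] (N : Subgroup P) [hN : N.Normal]
    (A : Subgroup (MulAut P))
    (hA : ∀ α ∈ A, ∀ x : P, α x * x⁻¹ ∈ N) {r : ℕ} (x : Fin r → P) (α : A) (y : Lifts N x)
    (i : Fin r) :
    ((liftsAction N A hA x).smul α y).1 i = (α : MulAut P) (y.1 i) := rfl

/-- Let `P` be a group of order `p^n` whose Frattini subgroup has index `p^r`. Then any group of automorphisms of `P` each of which induces the identity on the Frattini quotient has order dividing `p^(r(n-r))`; in particular it is a `p`-group. -/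
theorem result {P : Type*} [Group P] [Finite P] {p n r : ℕ} [Fact p.Prime] (hP : Nat.card P = p ^ n) (hr : (frattini P).index = p ^ r) (A : Subgroup (MulAut P)) (hA : ∀ α ∈ A, ∀ x : P, α x * x⁻¹ ∈ frattini P) : Nat.card A ∣ p ^ (r * (n - r)) := by
  classical
  have hp := (Fact.out : p.Prime)
  have hmul : Nat.card (frattini P) * p ^ r = p ^ n := by
    rw [← hr, Subgroup.card_mul_index, hP]
  have hrn : r ≤ n :=
    (Nat.pow_dvd_pow_iff_le_right hp.one_lt).mp ⟨_, by rw [← hmul, mul_comm]⟩
  have hΦcard : Nat.card (frattini P) = p ^ (n - r) := by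
    have : p ^ n = p ^ (n - r) * p ^ r := by rw [← pow_add, Nat.sub_add_cancel hrn]
    rw [this] at hmul
    exact Nat.eq_of_mul_eq_mul_right (pow_pos hp.pos r) hmul
  have hQ : Nat.card (P ⧸ frattini P) = p ^ r := by
    rw [← Subgroup.index_eq_card]; exact hr
  obtain ⟨q, hq⟩ := exists_gens r (P ⧸ frattini P) hQ
  choose x hx using fun i => QuotientGroup.mk_surjective (q i)
  letI : MulAction A (Lifts (frattini P) x) := liftsAction (frattini P) A hA x
  have hfree : ∀ y : Lifts (frattini P) x, MulAction.stabilizer A y = ⊥ := by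
    intro y
    rw [eq_bot_iff]
    intro α hα
    rw [MulAction.mem_stabilizer_iff] at hα
    have hfix : ∀ i, (α : MulAut P) (y.1 i) = y.1 i := fun i =>
      congrFun (congrArg Subtype.val hα) i
    have key : ∀ K : Subgroup P, K.map (QuotientGroup.mk' (frattini P)) = ⊤ → K = ⊤ := by
      intro K hK
      apply frattini_nongenerating
      have := Subgroup.comap_map_eq (QuotientGroup.mk' (frattini P)) K
      rw [hK, Subgroup.comap_top, QuotientGroup.ker_mk'] at this
      exact this.symm
    have hgen : Subgroup.closure (Set.range y.1) = ⊤ := by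
      apply key
      rw [MonoidHom.map_closure]
      have : (QuotientGroup.mk' (frattini P)) '' Set.range y.1 = Set.range q := by
        rw [← Set.range_comp]
        congr 1
        funext i
        show (QuotientGroup.mk (y.1 i) : P ⧸ frattini P) = q i
        rw [← hx i]
        exact (QuotientGroup.eq.mpr (y.2 i)).symm
      rw [this, hq]
    have hall : ∀ z : P, (α : MulAut P) z = z := by
      intro z
      have hz : z ∈ Subgroup.closure (Set.range y.1) := hgen ▸ Subgroup.mem_top z
      have hle : Subgroup.closure (Set.range y.1) ≤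
          MonoidHom.eqLocus ((α : MulAut P) : P →* P) (MonoidHom.id P) := by
        rw [Subgroup.closure_le]
        rintro _ ⟨i, rfl⟩
        exact hfix i
      exact hle hz
    rw [Subgroup.mem_bot]
    apply Subtype.ext
    apply MulEquiv.ext
    exact hall
  have hdvd := card_dvd_of_free hfree
  have hcardX : Nat.card (Lifts (frattini P) x) = p ^ (r * (n - r)) := by
    have e : Lifts (frattini P) x ≃ (Fin r → frattini P) :=
      { toFun := fun y i => ⟨(x i)⁻¹ * y.1 i, y.2 i⟩
        invFun := fun φ => ⟨fun i => x i * (φ i : P), fun i => by simp⟩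
        left_inv := fun y => by apply Subtype.ext; funext i; simp
        right_inv := fun φ => by funext i; apply Subtype.ext; simp }
    rw [Nat.card_congr e, Nat.card_fun, Nat.card_fin, hΦcard, ← pow_mul, mul_comm]
  rw [← hcardX]; exact hdvd

end Cfsg.Agent.S4207
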