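import Cfsg.Statements.S4208
-- import your own Cfsg.Agent.* helpers here
import Mathlib
import Cfsg.Agent.S4207

set_option autoImplicit false
open Cfsg

namespace Cfsg.Agent.S4208

open scoped commutatorElement

/-- A maximal subgroup of a finite `p`-group is normal of index `p`. -/
theorem coatom_normal_index {G : Type*} [Group G] [Finite G] (p : ℕ) [Fact p.Prime]
    (hG : IsPGroup p G) (M : Subgroup G) (hM : IsCoatom M) : M.Normal ∧ M.index = p := by
  have hp : p.Prime := Fact.out
  have : Group.IsNilpotent G := hG.isNilpotent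
  have hn : M.Normal :=
    Subgroup.NormalizerCondition.normal_of_coatom M Group.normalizerCondition_of_isNilpotent hM
  refine ⟨hn, ?_⟩
  obtain ⟨k, hk⟩ := hG.index M
  have hk0 : k ≠ 0 := by
    rintro rfl
    rw [pow_zero] at hk
    exact hM.1 (Subgroup.index_eq_one.mp hk)
  have hdvd : p ^ 1 ∣ Nat.card (G ⧸ M) := by
    rw [← Subgroup.index_eq_card, hk, pow_one]
    exact dvd_pow_self p hk0
  obtain ⟨C, hC⟩ := Sylow.exists_subgroup_card_pow_prime p hdvd
  have h1 : M ≤ C.comap (QuotientGroup.mk' M) := by
    intro x hx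
    rw [Subgroup.mem_comap]
    have : QuotientGroup.mk' M x = 1 := (QuotientGroup.eq_one_iff x).mpr hx
    rw [this]
    exact C.one_mem
  have hsurj : Function.Surjective (QuotientGroup.mk' M) := QuotientGroup.mk'_surjective M
  rcases eq_or_lt_of_le h1 with h2 | h2
  · exfalso
    have h3 : C = ⊥ := by
      rw [← Subgroup.map_comap_eq_self_of_surjective hsurj C, ← h2]
      rw [Subgroup.map_eq_bot_iff, QuotientGroup.ker_mk']
    rw [h3, Subgroup.card_bot, pow_one] at hC
    exact hp.one_lt.ne hC
  · have h3 := hM.2 _ h2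
    have h4 : C = ⊤ := by
      rw [← Subgroup.map_comap_eq_self_of_surjective hsurj C, h3]
      exact Subgroup.map_top_of_surjective _ hsurj
    rw [h4, Subgroup.card_top, pow_one] at hC
    rw [Subgroup.index_eq_card]
    exact hC

theorem coatom_commutator_le_and_pow_mem {G : Type*} [Group G] [Finite G] (p : ℕ)
    [Fact p.Prime]
    (hG : IsPGroup p G) (M : Subgroup G) (hM : IsCoatom M) :
    commutator G ≤ M ∧ ∀ x : G, x ^ p ∈ M := by
  obtain ⟨hn, hidx⟩ := coatom_normal_index p hG M hM
  have := hn
  have hcard : Nat.card (G ⧸ M) = p := by rw [← Subgroup.index_eq_card]; exact hidx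
  constructor
  · have : IsCyclic (G ⧸ M) := isCyclic_of_prime_card hcard
    letI : CommGroup (G ⧸ M) := IsCyclic.commGroup
    have := Abelianization.commutator_subset_ker (QuotientGroup.mk' M)
    rwa [QuotientGroup.ker_mk'] at this
  · intro x
    have h1 : (QuotientGroup.mk' M x) ^ p = 1 := by
      rw [← hcard]; exact pow_card_eq_one'
    rw [← map_pow] at h1
    exact (QuotientGroup.eq_one_iff _).mp h1

theorem commutator_le_frattini {G : Type*} [Group G] [Finite G] (p : ℕ) [Fact p.Prime]
    (hG : IsPGroup p G) : commutator G ≤ frattini G := by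
  simp only [frattini, Order.radical, le_iInf_iff]
  intro M hM
  exact (coatom_commutator_le_and_pow_mem p hG M hM).1

theorem pow_mem_frattini {G : Type*} [Group G] [Finite G] (p : ℕ) [Fact p.Prime]
    (hG : IsPGroup p G) (x : G) : x ^ p ∈ frattini G := by
  simp only [frattini, Order.radical, Subgroup.mem_iInf]
  intro M hM
  exact (coatom_commutator_le_and_pow_mem p hG M hM).2 x

/-- a group acting faithfully by additive maps on an `F_p`-space of order `p ^ r` acts freely on
linearly independent `r`-tuples -/
theorem card_dvd_of_linear_action {p : ℕ} [Fact p.Prime] {V : Type*} [AddCommGroup V]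
    [Module (ZMod p) V] [Finite V] (r : ℕ) (hcard : Nat.card V = p ^ r) {A : Type*} [Group A]
    (φ : A → V → V) (hadd : ∀ a v w, φ a (v + w) = φ a v + φ a w) (h1 : ∀ v, φ 1 v = v)
    (hmul : ∀ a b v, φ (a * b) v = φ a (φ b v)) (hfaith : ∀ a, (∀ v, φ a v = v) → a = 1) :
    Nat.card A ∣ ∏ i : Fin r, (p ^ r - p ^ (i : ℕ)) := by
  classical
  have hp := (Fact.out : p.Prime)
  have hr : Module.finrank (ZMod p) V = r := by
    have h1 := Module.natCard_eq_pow_finrank (K := ZMod p) (V := V)
    rw [Nat.card_zmod, hcard] at h1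
    exact (Nat.pow_right_injective hp.two_le h1).symm
  have hinj : ∀ a, Function.Injective (φ a) := by
    intro a v w hvw
    have := congrArg (φ a⁻¹) hvw
    rw [← hmul, ← hmul, inv_mul_cancel, h1, h1] at this
    exact this
  obtain ⟨L, hL⟩ : ∃ L : A → (V →ₗ[ZMod p] V), ∀ a v, L a v = φ a v :=
    ⟨fun a => (AddMonoidHom.mk' (φ a) (hadd a)).toZModLinearMap p, fun a v => rfl⟩
  letI act : MulAction A {s : Fin r → V // LinearIndependent (ZMod p) s} :=
    { smul := fun a s => ⟨fun i => φ a (s.1 i), by
        have := s.2.map' (L a) (by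
          rw [LinearMap.ker_eq_bot]
          intro v w hvw
          rw [hL, hL] at hvw
          exact hinj a hvw)
        have e : (fun i => φ a (s.1 i)) = (L a) ∘ s.1 := by
          funext i; exact (hL a _).symm
        rw [e]; exact this⟩
      one_smul := fun s => by apply Subtype.ext; funext i; exact h1 _
      mul_smul := fun a b s => by apply Subtype.ext; funext i; exact hmul a b _ }
  have hfree : ∀ s : {s : Fin r → V // LinearIndependent (ZMod p) s},
      MulAction.stabilizer A s = ⊥ := by
    intro s
    rw [eq_bot_iff]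
    intro a ha
    rw [MulAction.mem_stabilizer_iff] at ha
    have hfix : ∀ i, φ a (s.1 i) = s.1 i := fun i =>
      congrFun (congrArg Subtype.val ha) i
    have hspan : Submodule.span (ZMod p) (Set.range s.1) = ⊤ :=
      s.2.span_eq_top_of_card_eq_finrank' (by rw [Fintype.card_fin, hr])
    have hLa : L a = LinearMap.id := by
      apply LinearMap.ext_on hspan
      rintro _ ⟨i, rfl⟩
      rw [hL]
      exact hfix i
    rw [Subgroup.mem_bot]
    apply hfaith
    intro v
    rw [← hL, hLa]
    rfl
  have h1 := Cfsg.Agent.S4207.card_dvd_of_free hfree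
  have h2 : Nat.card {s : Fin r → V // LinearIndependent (ZMod p) s} =
      ∏ i : Fin r, (p ^ r - p ^ (i : ℕ)) := by
    have := card_linearIndependent (K := ZMod p) (V := V) (k := r) (by rw [hr])
    rw [hr, ZMod.card] at this
    exact this
  rw [← h2]; exact h1

/-- the additive commutative group structure on `Additive Q` for commutative `Q` -/
@[reducible] def eaAddCommGroup (Q : Type*) [Group Q] (hQcomm : ∀ a b : Q, a * b = b * a) :
    AddCommGroup (Additive Q) :=
  { (inferInstance : AddGroup (Additive Q)) with
    add_comm := fun a b => congrArg Additive.ofMul (hQcomm a.toMul b.toMul) }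

/-- the `F_p`-module structure on `Additive Q` for elementary abelian `Q` -/
@[reducible] def eaModule (p : ℕ) (Q : Type*) [Group Q] (hQcomm : ∀ a b : Q, a * b = b * a)
    (hQexp : ∀ a : Q, a ^ p = 1) :
    @Module (ZMod p) (Additive Q) _ (eaAddCommGroup Q hQcomm).toAddCommMonoid :=
  @AddCommGroup.zmodModule p (Additive Q) (eaAddCommGroup Q hQcomm) (fun x => by
    show Additive.ofMul (x.toMul ^ p) = 0
    rw [hQexp]; rfl)

theorem card_mulAut_dvd {p : ℕ} [Fact p.Prime] {Q : Type*} [Group Q] [Finite Q]
    (hQcomm : ∀ a b : Q, a * b = b * a) (hQexp : ∀ a : Q, a ^ p = 1) (r : ℕ)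
    (hQcard : Nat.card Q = p ^ r) :
    Nat.card (MulAut Q) ∣ ∏ i : Fin r, (p ^ r - p ^ (i : ℕ)) := by
  have hfin : Finite (Additive Q) := inferInstanceAs (Finite Q)
  exact @card_dvd_of_linear_action p _ (Additive Q) (eaAddCommGroup Q hQcomm)
    (eaModule p Q hQcomm hQexp) hfin r hQcard (MulAut Q) _
    (fun β v => Additive.ofMul (β v.toMul))
    (fun β v w => congrArg Additive.ofMul (map_mul β v.toMul w.toMul))
    (fun v => rfl) (fun a b v => rfl)
    (fun a ha => by
      ext v
      exact congrArg Additive.toMul (ha (Additive.ofMul v)))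

/-- Let `P` be a group of order `p^n` whose Frattini subgroup has index `p^r`. Then the order of the automorphism group of `P` divides `p^(r(n-r)) · (p^r - 1)(p^r - p) ⋯ (p^r - p^(r-1))`. -/
theorem result {P : Type*} [Group P] [Finite P] {p n r : ℕ} [Fact p.Prime] (hP : Nat.card P = p ^ n) (hr : (frattini P).index = p ^ r) : Nat.card (MulAut P) ∣ p ^ (r * (n - r)) * ∏ i ∈ Finset.range r, (p ^ r - p ^ i) := by
  classical
  have hp := (Fact.out : p.Prime)
  have hPp : IsPGroup p P := IsPGroup.of_card hP
  have hQcard : Nat.card (P ⧸ frattini P) = p ^ r := by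
    rw [← Subgroup.index_eq_card]; exact hr
  have hQcomm : ∀ a b : P ⧸ frattini P, a * b = b * a := by
    intro a b
    induction a using QuotientGroup.induction_on with
    | H u =>
      induction b using QuotientGroup.induction_on with
      | H v =>
        rw [← QuotientGroup.mk_mul, ← QuotientGroup.mk_mul, QuotientGroup.eq]
        apply commutator_le_frattini p hPp
        have : (u * v)⁻¹ * (v * u) = ⁅v⁻¹, u⁻¹⁆ := by
          rw [commutatorElement_def]; group
        rw [this]
        exact Subgroup.commutator_mem_commutator (Subgroup.mem_top _) (Subgroup.mem_top _)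
  have hQexp : ∀ a : P ⧸ frattini P, a ^ p = 1 := by
    intro a
    induction a using QuotientGroup.induction_on with
    | H u =>
      rw [← QuotientGroup.mk_pow, QuotientGroup.eq_one_iff]
      exact pow_mem_frattini p hPp u
  have hAutQ : Nat.card (MulAut (P ⧸ frattini P)) ∣ ∏ i : Fin r, (p ^ r - p ^ (i : ℕ)) :=
    card_mulAut_dvd hQcomm hQexp r hQcard
  obtain ⟨Ψ, hΨ⟩ : ∃ Ψ : MulAut P →* MulAut (P ⧸ frattini P),
      ∀ α u, Ψ α (QuotientGroup.mk u) = QuotientGroup.mk (α u) :=
    ⟨{ toFun := fun α => QuotientGroup.congr (frattini P) (frattini P) α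
          (Subgroup.characteristic_iff_map_eq.mp inferInstance α)
       map_one' := by
         ext x
         induction x using QuotientGroup.induction_on with
         | H u => rfl
       map_mul' := fun α β => by
         ext x
         induction x using QuotientGroup.induction_on with
         | H u => rfl }, fun α u => rfl⟩
  have hker : ∀ α ∈ Ψ.ker, ∀ x : P, α x * x⁻¹ ∈ frattini P := by
    intro α hα x
    have h1 : Ψ α (QuotientGroup.mk x) = QuotientGroup.mk x := by
      rw [MonoidHom.mem_ker.mp hα]; rfl
    rw [hΨ, QuotientGroup.eq] at h1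
    have h2 := Subgroup.inv_mem _ h1
    have h3 := (inferInstance : (frattini P).Normal).conj_mem _ h2 x
    have e : x * ((α x)⁻¹ * x)⁻¹ * x⁻¹ = α x * x⁻¹ := by group
    rw [← e]; exact h3
  have hkerdvd := Cfsg.Agent.S4207.result hP hr Ψ.ker hker
  have hrange : Nat.card Ψ.range ∣ Nat.card (MulAut (P ⧸ frattini P)) :=
    Subgroup.card_subgroup_dvd_card _
  have hmul : Nat.card (MulAut P) = Nat.card Ψ.ker * Nat.card Ψ.range := by
    rw [← Subgroup.index_ker, Subgroup.card_mul_index]
  rw [hmul, Finset.prod_range]
  exact Nat.mul_dvd_mul hkerdvd (dvd_trans hrange hAutQ)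

end Cfsg.Agent.S4208
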