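import Cfsg.Statements.S4189
-- import your own Cfsg.Agent.* helpers here
import Mathlib
import Cfsg.Agent.S0016
import Cfsg.Agent.S4207
import Cfsg.Agent.S4208

set_option autoImplicit false
open Cfsg

namespace Cfsg.Agent.S4189

theorem four_cover {Q : Type*} (hQ : Nat.card Q = 4) (a b c d : Q)
    (hab : a ≠ b) (hac : a ≠ c) (had : a ≠ d) (hbc : b ≠ c) (hbd : b ≠ d) (hcd : c ≠ d) (u : Q) :
    u = a ∨ u = b ∨ u = c ∨ u = d := by
  classical
  have : Finite Q := Nat.finite_of_card_ne_zero (by rw [hQ]; norm_num)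
  let _ : Fintype Q := Fintype.ofFinite Q
  have hs : ({a, b, c, d} : Finset Q) = Finset.univ := by
    apply Finset.eq_univ_of_card
    rw [← Nat.card_eq_fintype_card, hQ]
    rw [Finset.card_insert_of_notMem, Finset.card_insert_of_notMem,
      Finset.card_insert_of_notMem, Finset.card_singleton]
    · simpa using hcd
    · simp [hbc, hbd]
    · simp [hab, hac, had]
  have hu : u ∈ ({a, b, c, d} : Finset Q) := by rw [hs]; exact Finset.mem_univ u
  simpa using hu

theorem q4 {Q : Type*} [Group Q] (hQ : Nat.card Q = 4) (b : Q →* Q) (hb : Function.Injective b)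
    (q : Q) (hq : b q ≠ q) (hb2 : ¬ ∀ u, b (b u) = u) :
    (∀ u : Q, u * u = 1) ∧ q ≠ 1 ∧ b q ≠ 1 ∧
      (∀ u : Q, u = 1 ∨ u = q ∨ u = b q ∨ u = q * b q) ∧ b (b q) = q * b q := by
  classical
  have : Finite Q := Nat.finite_of_card_ne_zero (by rw [hQ]; norm_num)
  have hsq : ∀ u : Q, u * u = 1 := by
    by_contra hne
    push Not at hne
    obtain ⟨g, hg⟩ := hne
    have hg4 : g * g * g * g = 1 := by
      have h := pow_card_eq_one' (G := Q) (x := g)
      rw [hQ] at h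
      rw [← h, pow_succ, pow_succ, pow_succ, pow_one]
    have h1 : g ≠ 1 := by
      rintro rfl; exact hg (one_mul 1)
    have h3 : g * g * g ≠ 1 := by
      intro h
      apply h1
      rw [h, one_mul] at hg4; exact hg4
    have hcov := four_cover hQ 1 g (g * g) (g * g * g) (Ne.symm h1) (Ne.symm hg) (Ne.symm h3)
      (fun h => h1 (left_eq_mul.mp h))
      (fun h => hg (by rw [mul_assoc] at h; exact left_eq_mul.mp h))
      (fun h => h1 (left_eq_mul.mp h))
    have hb1 : b g ≠ 1 := fun h => h1 (hb (by rw [h, map_one]))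
    rcases hcov (b g) with h | h | h | h
    · exact hb1 h
    · -- b fixes everything
      apply hq
      rcases hcov q with h' | h' | h' | h'
      · rw [h', map_one]
      · rw [h', h]
      · rw [h', map_mul, h]
      · rw [h', map_mul, map_mul, h]
    · apply hg
      apply hb
      rw [map_mul, h, map_one]
      calc g * g * (g * g) = g * g * g * g := by group
        _ = 1 := hg4
    · apply hb2
      have hbb : b (b g) = g := by
        rw [h, map_mul, map_mul, h]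
        calc g * g * g * (g * g * g) * (g * g * g)
            = (g * g * g * g) * (g * g * g * g) * g := by group
          _ = g := by rw [hg4, one_mul, one_mul]
      intro u
      rcases hcov u with h' | h' | h' | h'
      · rw [h', map_one, map_one]
      · rw [h', hbb]
      · rw [h', map_mul, map_mul, hbb]
      · rw [h', map_mul, map_mul, map_mul, map_mul, hbb]
  have hq1 : q ≠ 1 := by
    rintro rfl; exact hq (map_one b)
  have hbq1 : b q ≠ 1 := fun h => hq1 (hb (by rw [h, map_one]))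
  have hqinv : q⁻¹ = q := inv_eq_of_mul_eq_one_left (hsq q)
  have hcov := four_cover hQ 1 q (b q) (q * b q) (Ne.symm hq1) (Ne.symm hbq1)
    (fun h => hq (by
      have h2 : b q = q⁻¹ := (inv_eq_of_mul_eq_one_right h.symm).symm
      rw [h2, hqinv]))
    (Ne.symm hq)
    (fun h => hbq1 (left_eq_mul.mp h))
    (fun h => hq1 (right_eq_mul.mp h))
  refine ⟨hsq, hq1, hbq1, hcov, ?_⟩
  rcases hcov (b (b q)) with h | h | h | h
  · exact absurd (hb (by rw [h, map_one])) hbq1
  · exfalso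
    apply hb2
    intro u
    rcases hcov u with h' | h' | h' | h'
    · rw [h', map_one, map_one]
    · rw [h', h]
    · rw [h', h]
    · rw [h', map_mul, map_mul, h]
  · exact absurd (hb h) hq
  · exact h

theorem aut_trivial_of_odd {P : Type*} [Group P] [Finite P] (hP : IsPGroup 2 P) (γ : MulAut P)
    (m : ℕ) (hm : Odd m) (hγ : γ ^ m = 1)
    (h : ∀ x : P, γ x * x⁻¹ ∈ commutator P) : γ = 1 := by
  classical
  have : Fact (Nat.Prime 2) := ⟨Nat.prime_two⟩
  obtain ⟨n, hn⟩ := IsPGroup.iff_card.mp hP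
  obtain ⟨r, hr⟩ : ∃ r, (frattini P).index = 2 ^ r := by
    have h1 : (frattini P).index ∣ 2 ^ n := hn ▸ Subgroup.index_dvd_card _
    obtain ⟨r, -, hr⟩ := (Nat.dvd_prime_pow Nat.prime_two).mp h1
    exact ⟨r, hr⟩
  let B : Subgroup (MulAut P) :=
    { carrier := {α | ∀ x : P, α x * x⁻¹ ∈ frattini P}
      one_mem' := fun x => by
        show (1 : MulAut P) x * x⁻¹ ∈ frattini P
        rw [MulAut.one_apply, mul_inv_cancel]; exact Subgroup.one_mem _
      mul_mem' := by
        intro α β hα hβ x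
        have h1 := hα (β x)
        have h2 := hβ x
        have e : (α * β) x * x⁻¹ = (α (β x) * (β x)⁻¹) * (β x * x⁻¹) := by
          rw [MulAut.mul_apply]; group
        rw [e]; exact mul_mem h1 h2
      inv_mem' := by
        intro α hα x
        have h1 := hα (α⁻¹ x)
        rw [MulAut.apply_inv_self] at h1
        have e : α⁻¹ x * x⁻¹ = (x * (α⁻¹ x)⁻¹)⁻¹ := by group
        rw [e]; exact inv_mem h1 }
  have hB : ∀ α ∈ B, ∀ x : P, α x * x⁻¹ ∈ frattini P := fun α hα => hα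
  have hdvd := Cfsg.Agent.S4207.result hn hr B hB
  have hγB : γ ∈ B := fun x => Cfsg.Agent.S4208.commutator_le_frattini 2 hP (h x)
  have ho1 : orderOf γ ∣ 2 ^ (r * (n - r)) := by
    have h1 : orderOf (⟨γ, hγB⟩ : B) ∣ Nat.card B := orderOf_dvd_natCard _
    rw [← Subgroup.orderOf_coe] at h1
    exact h1.trans hdvd
  have ho2 : orderOf γ ∣ m := orderOf_dvd_of_pow_eq_one hγ
  have hc : Nat.Coprime (2 ^ (r * (n - r))) m :=
    Nat.Coprime.pow_left _ (Nat.coprime_two_left.mpr hm)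
  exact orderOf_eq_one_iff.mp (Nat.eq_one_of_dvd_coprimes hc ho1 ho2)

/-- the set of `u` commuting with `g` modulo the normal subgroup `T` is a subgroup -/
theorem exists_centralizer_mod {P : Type*} [Group P] (T : Subgroup P) [T.Normal] (g : P) :
    ∃ C : Subgroup P, ∀ u : P, u ∈ C ↔ (g * u)⁻¹ * (u * g) ∈ T := by
  refine ⟨(Subgroup.centralizer {(QuotientGroup.mk g : P ⧸ T)}).comap (QuotientGroup.mk' T),
    fun u => ?_⟩
  rw [Subgroup.mem_comap, Subgroup.mem_centralizer_iff]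
  constructor
  · intro h
    have h1 := h _ (Set.mem_singleton _)
    have h2 : (QuotientGroup.mk (g * u) : P ⧸ T) = QuotientGroup.mk (u * g) := h1
    exact QuotientGroup.eq.mp h2
  · intro h z hz
    rw [Set.mem_singleton_iff] at hz
    rw [hz]
    have h2 : (QuotientGroup.mk (g * u) : P ⧸ T) = QuotientGroup.mk (u * g) :=
      QuotientGroup.eq.mpr h
    exact h2

theorem exists_center_mod {P : Type*} [Group P] (T : Subgroup P) [T.Normal] :
    ∃ Z : Subgroup P, ∀ g : P, g ∈ Z ↔ ∀ u : P, (g * u)⁻¹ * (u * g) ∈ T := by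
  refine ⟨(Subgroup.center (P ⧸ T)).comap (QuotientGroup.mk' T), fun g => ?_⟩
  rw [Subgroup.mem_comap, Subgroup.mem_center_iff]
  constructor
  · intro h u
    have h1 := h (QuotientGroup.mk u)
    have h2 : (QuotientGroup.mk (g * u) : P ⧸ T) = QuotientGroup.mk (u * g) := h1.symm
    exact QuotientGroup.eq.mp h2
  · intro h q
    obtain ⟨u, rfl⟩ := QuotientGroup.mk_surjective q
    have h2 : (QuotientGroup.mk (g * u) : P ⧸ T) = QuotientGroup.mk (u * g) :=
      QuotientGroup.eq.mpr (h u)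
    exact h2.symm

theorem eq_bot_of_le_commutator_top {P : Type*} [Group P] [hnil : Group.IsNilpotent P]
    (H : Subgroup P) (h : H ≤ ⁅H, (⊤ : Subgroup P)⁆) : H = ⊥ := by
  obtain ⟨n, hn⟩ := Subgroup.nilpotent_iff_lowerCentralSeries.mp hnil
  have hle : ∀ k, H ≤ (⊤ : Subgroup P).lowerCentralSeries k := by
    intro k
    induction k with
    | zero => exact le_top
    | succ k ih =>
      rw [Subgroup.lowerCentralSeries_succ]
      exact h.trans (Subgroup.commutator_mono ih le_rfl)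
  exact le_bot_iff.mp (hn ▸ hle n)

theorem lemmaA {P : Type*} [Group P] (D N : Subgroup P) [hNn : N.Normal]
    (hDeq : D = commutator P) (hDN : ∀ d ∈ D, ∀ u : P, d * u * d⁻¹ * u⁻¹ ∈ N)
    (x y : P) (hsqD : ∀ u : P, u * u ∈ D)
    (hcov : ∀ u : P, u ∈ D ∨ x⁻¹ * u ∈ D ∨ y⁻¹ * u ∈ D ∨ (x * y)⁻¹ * u ∈ D) :
    (x * y * x⁻¹ * y⁻¹) * (x * y * x⁻¹ * y⁻¹) ∈ N ∧
    ∀ d ∈ D, d ∈ N ∨ (x * y * x⁻¹ * y⁻¹)⁻¹ * d ∈ N := by
  obtain ⟨c, hc⟩ : ∃ c : P, c = x * y * x⁻¹ * y⁻¹ := ⟨_, rfl⟩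
  rw [← hc]
  have hcD : c ∈ D := by
    rw [hc, hDeq, commutator_def, ← commutatorElement_def]
    exact Subgroup.commutator_mem_commutator (Subgroup.mem_top x) (Subgroup.mem_top y)
  have hDN' : ∀ d ∈ D, ∀ u : P, u * d * u⁻¹ * d⁻¹ ∈ N := by
    intro d hd u
    have := N.inv_mem (hDN d hd u)
    have e : (d * u * d⁻¹ * u⁻¹)⁻¹ = u * d * u⁻¹ * d⁻¹ := by group
    rwa [e] at this
  have hcc : c * c ∈ N := by
    have h1 := hDN' c hcD x
    have h2 := hDN (x * x) (hsqD x) y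
    have e : c * c = (x * c * x⁻¹ * c⁻¹)⁻¹ * ((x * x) * y * (x * x)⁻¹ * y⁻¹) := by
      rw [hc]; group
    rw [e]; exact N.mul_mem (N.inv_mem h1) h2
  refine ⟨hcc, ?_⟩
  obtain ⟨T, hT⟩ : ∃ T : Subgroup P, T = N ⊔ Subgroup.zpowers c := ⟨_, rfl⟩
  have hNT : N ≤ T := by rw [hT]; exact le_sup_left
  have hcT : c ∈ T := by rw [hT]; exact Subgroup.mem_sup_right (Subgroup.mem_zpowers c)
  have hTn : T.Normal := by
    constructor
    intro t ht u
    have hle : T ≤ T.comap (MulAut.conj u).toMonoidHom := by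
      rw [hT]
      apply sup_le
      · intro n hn
        rw [Subgroup.mem_comap]
        exact Subgroup.mem_sup_left (hNn.conj_mem n hn u)
      · rw [Subgroup.zpowers_le, Subgroup.mem_comap]
        show u * c * u⁻¹ ∈ N ⊔ Subgroup.zpowers c
        have e : u * c * u⁻¹ = (u * c * u⁻¹ * c⁻¹) * c := by group
        rw [e]
        exact mul_mem (Subgroup.mem_sup_left (hDN' c hcD u))
          (Subgroup.mem_sup_right (Subgroup.mem_zpowers c))
    exact hle ht
  have hTchar : ∀ t ∈ T, t ∈ N ∨ c⁻¹ * t ∈ N := by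
    intro t ht
    rw [hT, ← SetLike.mem_coe, Subgroup.normal_mul, Set.mem_mul] at ht
    obtain ⟨n, hn, z, hz, rfl⟩ := ht
    obtain ⟨k, rfl⟩ := Subgroup.mem_zpowers_iff.mp hz
    have hn' : n ∈ N := hn
    rcases Int.even_or_odd' k with ⟨j, hj | hj⟩
    · left
      have : c ^ k = (c * c) ^ j := by rw [hj, zpow_mul, zpow_two]
      rw [this]; exact N.mul_mem hn' (N.zpow_mem hcc j)
    · right
      have : c ^ k = (c * c) ^ j * c := by rw [hj, zpow_add, zpow_mul, zpow_two, zpow_one]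
      rw [this]
      have e : c⁻¹ * (n * ((c * c) ^ j * c)) = c⁻¹ * (n * (c * c) ^ j) * c⁻¹⁻¹ := by group
      rw [e]
      exact hNn.conj_mem _ (N.mul_mem hn' (N.zpow_mem hcc j)) c⁻¹
  have hall : ∀ C : Subgroup P, D ≤ C → x ∈ C → y ∈ C → ∀ u, u ∈ C := by
    intro C hDC hxC hyC u
    rcases hcov u with h | h | h | h
    · exact hDC h
    · have := C.mul_mem hxC (hDC h); rwa [mul_inv_cancel_left] at this
    · have := C.mul_mem hyC (hDC h); rwa [mul_inv_cancel_left] at this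
    · have := C.mul_mem (C.mul_mem hxC hyC) (hDC h); rwa [mul_inv_cancel_left] at this
  obtain ⟨Cx, hCx⟩ := exists_centralizer_mod T x
  obtain ⟨Cy, hCy⟩ := exists_centralizer_mod T y
  obtain ⟨Z, hZ⟩ := exists_center_mod T
  have hDcomm : ∀ d ∈ D, ∀ u : P, (u * d)⁻¹ * (d * u) ∈ N := by
    intro d hd u
    have := hDN d⁻¹ (D.inv_mem hd) u⁻¹
    have e : d⁻¹ * u⁻¹ * d⁻¹⁻¹ * u⁻¹⁻¹ = (u * d)⁻¹ * (d * u) := by group
    rwa [e] at this
  have hDcomm' : ∀ d ∈ D, ∀ u : P, (d * u)⁻¹ * (u * d) ∈ N := by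
    intro d hd u
    have := N.inv_mem (hDcomm d hd u)
    have e : ((u * d)⁻¹ * (d * u))⁻¹ = (d * u)⁻¹ * (u * d) := by group
    rwa [e] at this
  have hxall : ∀ u, u ∈ Cx := by
    apply hall Cx
    · intro d hd; rw [hCx]; exact hNT (hDcomm d hd x)
    · rw [hCx]
      have e : (x * x)⁻¹ * (x * x) = 1 := by group
      rw [e]; exact T.one_mem
    · rw [hCx]
      have e : (x * y)⁻¹ * (y * x) = (x * y)⁻¹ * c⁻¹ * (x * y)⁻¹⁻¹ := by rw [hc]; group
      rw [e]; exact hTn.conj_mem _ (T.inv_mem hcT) _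
  have hyall : ∀ u, u ∈ Cy := by
    apply hall Cy
    · intro d hd; rw [hCy]; exact hNT (hDcomm d hd y)
    · rw [hCy]
      have e : (y * x)⁻¹ * (x * y) = (y * x)⁻¹ * c * (y * x)⁻¹⁻¹ := by rw [hc]; group
      rw [e]; exact hTn.conj_mem _ hcT _
    · rw [hCy]
      have e : (y * y)⁻¹ * (y * y) = 1 := by group
      rw [e]; exact T.one_mem
  have hZall : ∀ g, g ∈ Z := by
    apply hall Z
    · intro d hd; rw [hZ]; intro u; exact hNT (hDcomm' d hd u)
    · rw [hZ]; intro u; exact (hCx u).mp (hxall u)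
    · rw [hZ]; intro u; exact (hCy u).mp (hyall u)
  have hDT : D ≤ T := by
    rw [hDeq, commutator_def, Subgroup.commutator_le]
    intro g _ u _
    rw [commutatorElement_def]
    have h1 := (hZ u).mp (hZall u) g
    have h2 := hTn.conj_mem _ h1 (u * g)
    have e : u * g * ((u * g)⁻¹ * (g * u)) * (u * g)⁻¹ = g * u * g⁻¹ * u⁻¹ := by group
    rwa [e] at h2
  intro d hd
  exact hTchar d (hDT hd)

theorem lemmaA2 {P : Type*} [Group P] (D N : Subgroup P) [hNn : N.Normal]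
    (hDN : ∀ d ∈ D, ∀ u : P, d * u * d⁻¹ * u⁻¹ ∈ N)
    (x y : P) (hsqD : ∀ u : P, u * u ∈ D)
    (c : P) (hc : c = x * y * x⁻¹ * y⁻¹) (hcN : c ∉ N) (hcc : c * c ∈ N)
    (hA1 : ∀ d ∈ D, d ∈ N ∨ c⁻¹ * d ∈ N)
    (β : MulAut P) (hy : y = β x) (hβN : ∀ n : P, β n ∈ N ↔ n ∈ N)
    (hwD : (x * y)⁻¹ * β y ∈ D) :
    c⁻¹ * (x * x) ∈ N ∧ c⁻¹ * (y * y) ∈ N := by
  have hDN' : ∀ d ∈ D, ∀ u : P, u * d * u⁻¹ * d⁻¹ ∈ N := by
    intro d hd u
    have := N.inv_mem (hDN d hd u)
    have e : (d * u * d⁻¹ * u⁻¹)⁻¹ = u * d * u⁻¹ * d⁻¹ := by group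
    rwa [e] at this
  have hxy : (x * x ∈ N ↔ y * y ∈ N) := by
    rw [hy, ← map_mul, hβN]
  have hyw : (y * y ∈ N ↔ β y * β y ∈ N) := by
    rw [← map_mul, hβN]
  have hxx : x * x ∉ N := by
    intro hx2
    have hy2 := hxy.mp hx2
    have hw2 := hyw.mp hy2
    apply hcN
    obtain ⟨d, hd⟩ : ∃ d : P, d = (x * y)⁻¹ * β y := ⟨_, rfl⟩
    have hdD : d ∈ D := by rw [hd]; exact hwD
    have hw : β y = x * y * d := by rw [hd]; group
    rw [hw] at hw2
    have hdd : d * d ∈ N := by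
      rcases hA1 d hdD with h | h
      · exact N.mul_mem h h
      · obtain ⟨n, hn⟩ : ∃ n : P, n = c⁻¹ * d := ⟨_, rfl⟩
        have hnN : n ∈ N := by rw [hn]; exact h
        have e : d * d = (c * c) * (c⁻¹ * n * c⁻¹⁻¹) * n := by rw [hn]; group
        rw [e]
        exact N.mul_mem (N.mul_mem hcc (hNn.conj_mem n hnN c⁻¹)) hnN
    have h1 : (x * y)⁻¹ * d * (x * y)⁻¹⁻¹ * d⁻¹ ∈ N := hDN' d hdD (x * y)⁻¹
    have e1 : (x * y) * (x * y) = (x * y * d) * (x * y * d) * (d * d)⁻¹ *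
        ((x * y)⁻¹ * d * (x * y)⁻¹⁻¹ * d⁻¹)⁻¹ := by group
    have h2 : (x * y) * (x * y) ∈ N := by
      rw [e1]
      exact N.mul_mem (N.mul_mem hw2 (N.inv_mem hdd)) (N.inv_mem h1)
    have e2 : x * c⁻¹ * x⁻¹ = (x * y) * (x * y) * (y * y)⁻¹ * (x * x)⁻¹ := by rw [hc]; group
    have h3 : x * c⁻¹ * x⁻¹ ∈ N := by
      rw [e2]; exact N.mul_mem (N.mul_mem h2 (N.inv_mem hy2)) (N.inv_mem hx2)
    have h4 := hNn.conj_mem _ h3 x⁻¹
    have e3 : x⁻¹ * (x * c⁻¹ * x⁻¹) * x⁻¹⁻¹ = c⁻¹ := by group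
    rw [e3] at h4
    have := N.inv_mem h4
    rwa [inv_inv] at this
  have hyy : y * y ∉ N := fun h => hxx (hxy.mpr h)
  exact ⟨(hA1 _ (hsqD x)).resolve_left hxx, (hA1 _ (hsqD y)).resolve_left hyy⟩

/-- Let P be a finite non-abelian 2-group whose commutator subgroup has index 4 and whose automorphism group is not a 2-group (some automorphism has order that is not a power of 2). Then P is isomorphic to the quaternion group of order 8. -/
theorem result {P : Type*} [Group P] [Finite P] (hP : IsPGroup 2 P) (hna : ¬ IsMulCommutative P) (h4 : (commutator P).index = 4) (haut : ¬ IsPGroup 2 (MulAut P)) : Nonempty (P ≃* QuaternionGroup 2) := by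
  classical
  have hex : ∃ α : MulAut P, ∀ k : ℕ, α ^ 2 ^ k ≠ 1 := by
    by_contra hno
    push Not at hno
    exact haut hno
  obtain ⟨α, hα⟩ := hex
  have hα0 : orderOf α ≠ 0 := (orderOf_pos α).ne'
  obtain ⟨a, m, hmodd, hord⟩ := Nat.exists_eq_two_pow_mul_odd hα0
  obtain ⟨β, hβdef⟩ : ∃ β : MulAut P, β = α ^ 2 ^ a := ⟨_, rfl⟩
  have hβm : β ^ m = 1 := by
    rw [hβdef, ← pow_mul, ← hord]; exact pow_orderOf_eq_one α
  have hβ1 : β ≠ 1 := by rw [hβdef]; exact hα a
  obtain ⟨D, hD⟩ : ∃ D : Subgroup P, D = commutator P := ⟨_, rfl⟩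
  have hDn : D.Normal := by rw [hD]; infer_instance
  have hDchar : ∀ (γ : MulAut P) (u : P), γ u ∈ D ↔ u ∈ D := by
    intro γ u
    have h1 : D.map γ.toMonoidHom = D := by
      rw [hD]; exact Subgroup.characteristic_iff_map_eq.mp inferInstance γ
    constructor
    · intro h
      rw [← h1] at h
      obtain ⟨v, hv, hvu⟩ := h
      have : v = u := γ.injective hvu
      rw [← this]; exact hv
    · intro h
      rw [← h1]; exact ⟨u, h, rfl⟩
  have hK : ∀ k : ℕ, (∀ u : P, (β ^ k) u * u⁻¹ ∈ D) → β ^ k = 1 := by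
    intro k hk
    apply aut_trivial_of_odd hP (β ^ k) m hmodd
    · rw [← pow_mul, mul_comm, pow_mul, hβm, one_pow]
    · rw [← hD]; exact hk
  have hx : ∃ x : P, β x * x⁻¹ ∉ D := by
    by_contra hno
    push Not at hno
    apply hβ1
    have := hK 1 (by rw [pow_one]; exact hno)
    rwa [pow_one] at this
  obtain ⟨x, hx⟩ := hx
  obtain ⟨y, hy⟩ : ∃ y : P, y = β x := ⟨_, rfl⟩
  have hQcard : Nat.card (P ⧸ D) = 4 := by
    have : D.index = 4 := by rw [hD]; exact h4
    exact this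
  have hle : D ≤ D.comap β.toMonoidHom := fun u hu => (hDchar β u).mpr hu
  obtain ⟨b, hb⟩ : ∃ b : P ⧸ D →* P ⧸ D, b = QuotientGroup.map D D β.toMonoidHom hle := ⟨_, rfl⟩
  have hbmk : ∀ u : P, b (QuotientGroup.mk u) = QuotientGroup.mk (β u) := by
    intro u; rw [hb]; rfl
  have hbinj : Function.Injective b := by
    rw [injective_iff_map_eq_one]
    intro q hq
    obtain ⟨u, rfl⟩ := QuotientGroup.mk_surjective q
    rw [hbmk, QuotientGroup.eq_one_iff] at hq
    rw [QuotientGroup.eq_one_iff]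
    exact (hDchar β u).mp hq
  have hq : b (QuotientGroup.mk x) ≠ (QuotientGroup.mk x : P ⧸ D) := by
    rw [hbmk]
    intro h
    rw [QuotientGroup.eq] at h
    apply hx
    have := hDn.conj_mem _ (inv_mem h) (β x)
    have e : β x * ((β x)⁻¹ * x)⁻¹ * (β x)⁻¹ = β x * x⁻¹ := by group
    rwa [e] at this
  have hb2 : ¬ ∀ q : P ⧸ D, b (b q) = q := by
    intro hall
    have h2 : β ^ 2 = 1 := by
      apply hK 2
      intro u
      have h3 := hall (QuotientGroup.mk u)
      rw [hbmk, hbmk, QuotientGroup.eq] at h3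
      have h4 : (β ^ 2) u = β (β u) := by rw [pow_two]; rfl
      rw [h4]
      have := hDn.conj_mem _ (inv_mem h3) (β (β u))
      have e : β (β u) * ((β (β u))⁻¹ * u)⁻¹ * (β (β u))⁻¹ = β (β u) * u⁻¹ := by group
      rwa [e] at this
    apply hβ1
    obtain ⟨t, ht⟩ := hmodd
    have : β ^ m = β := by rw [ht, pow_add, pow_mul, h2, one_pow, one_mul, pow_one]
    rw [← this]; exact hβm
  obtain ⟨hsq, hq1, hbq1, hcovQ, hbb⟩ := q4 hQcard b hbinj (QuotientGroup.mk x) hq hb2
  have hxD : x ∉ D := fun h => hq1 ((QuotientGroup.eq_one_iff x).mpr h)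
  have hsqD : ∀ u : P, u * u ∈ D := by
    intro u
    have := hsq (QuotientGroup.mk u)
    rw [← QuotientGroup.mk_mul, QuotientGroup.eq_one_iff] at this
    exact this
  have hcov : ∀ u : P, u ∈ D ∨ x⁻¹ * u ∈ D ∨ y⁻¹ * u ∈ D ∨ (x * y)⁻¹ * u ∈ D := by
    intro u
    rcases hcovQ (QuotientGroup.mk u) with h | h | h | h
    · left; exact (QuotientGroup.eq_one_iff u).mp h
    · right; left; exact QuotientGroup.eq.mp h.symm
    · right; right; left
      rw [hbmk, ← hy] at h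
      exact QuotientGroup.eq.mp h.symm
    · right; right; right
      rw [hbmk, ← hy, ← QuotientGroup.mk_mul] at h
      exact QuotientGroup.eq.mp h.symm
  have hwD : (x * y)⁻¹ * β y ∈ D := by
    have h := hbb
    rw [hbmk, ← hy, hbmk, ← QuotientGroup.mk_mul] at h
    exact QuotientGroup.eq.mp h.symm
  -- the third term of the lower central series
  obtain ⟨c, hc⟩ : ∃ c : P, c = x * y * x⁻¹ * y⁻¹ := ⟨_, rfl⟩
  obtain ⟨Γ₃, hΓ₃⟩ : ∃ N : Subgroup P, N = ⁅D, (⊤ : Subgroup P)⁆ := ⟨_, rfl⟩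
  have hΓ₃n : Γ₃.Normal := by rw [hΓ₃]; infer_instance
  have hDΓ₃ : ∀ d ∈ D, ∀ u : P, d * u * d⁻¹ * u⁻¹ ∈ Γ₃ := by
    intro d hd u
    rw [hΓ₃, ← commutatorElement_def]
    exact Subgroup.commutator_mem_commutator hd (Subgroup.mem_top u)
  have hnil : Group.IsNilpotent P := hP.isNilpotent
  obtain ⟨hcc, hA1⟩ := lemmaA D Γ₃ hD hDΓ₃ x y hsqD hcov
  rw [← hc] at hcc hA1
  have hcD : c ∈ D := by
    rw [hc, hD, commutator_def, ← commutatorElement_def]
    exact Subgroup.commutator_mem_commutator (Subgroup.mem_top x) (Subgroup.mem_top y)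
  have hcΓ₃ : c ∉ Γ₃ := by
    intro hcin
    have hDle : D ≤ Γ₃ := by
      intro d hd
      rcases hA1 d hd with h | h
      · exact h
      · have := Γ₃.mul_mem hcin h; rwa [mul_inv_cancel_left] at this
    have hDbot : D = ⊥ := eq_bot_of_le_commutator_top D (by rw [← hΓ₃]; exact hDle)
    apply hna
    refine ⟨⟨fun a b => ?_⟩⟩
    have : a * b * a⁻¹ * b⁻¹ ∈ D := by
      rw [hD, commutator_def, ← commutatorElement_def]
      exact Subgroup.commutator_mem_commutator (Subgroup.mem_top a) (Subgroup.mem_top b)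
    rw [hDbot, Subgroup.mem_bot] at this
    calc a * b = (a * b * a⁻¹ * b⁻¹) * (b * a) := by group
      _ = b * a := by rw [this, one_mul]
  have hβΓ₃ : ∀ n : P, β n ∈ Γ₃ ↔ n ∈ Γ₃ := by
    intro n
    have h1 : Γ₃.map β.toMonoidHom = Γ₃ := by
      rw [hΓ₃, Subgroup.map_commutator]
      congr 1
      · rw [hD]; exact Subgroup.characteristic_iff_map_eq.mp inferInstance β
      · rw [← MonoidHom.range_eq_map]; exact MonoidHom.range_eq_top.mpr β.surjective
    constructor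
    · intro h
      rw [← h1] at h
      obtain ⟨v, hv, hvu⟩ := h
      have : v = n := β.injective hvu
      rw [← this]; exact hv
    · intro h
      rw [← h1]; exact ⟨n, h, rfl⟩
  obtain ⟨hx2, hy2⟩ := lemmaA2 D Γ₃ hDΓ₃ x y hsqD c hc hcΓ₃ hcc hA1 β hy hβΓ₃ hwD
  -- the fourth term
  obtain ⟨Γ₄, hΓ₄⟩ : ∃ N : Subgroup P, N = ⁅Γ₃, (⊤ : Subgroup P)⁆ := ⟨_, rfl⟩
  have hΓ₄n : Γ₄.Normal := by rw [hΓ₄]; infer_instance
  have h34 : ∀ z ∈ Γ₃, ∀ u : P, z * u * z⁻¹ * u⁻¹ ∈ Γ₄ := by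
    intro z hz u
    rw [hΓ₄, ← commutatorElement_def]
    exact Subgroup.commutator_mem_commutator hz (Subgroup.mem_top u)
  obtain ⟨C, hC⟩ := exists_centralizer_mod Γ₄ c
  have hcomm_of_sq : ∀ v : P, c⁻¹ * (v * v) ∈ Γ₃ → v ∈ C := by
    intro v hv
    rw [hC]
    obtain ⟨z, hz⟩ : ∃ z : P, z = c⁻¹ * (v * v) := ⟨_, rfl⟩
    have hzΓ : z ∈ Γ₃ := by rw [hz]; exact hv
    have h1 := h34 z hzΓ v
    have h2 := hΓ₄n.conj_mem _ h1 v⁻¹
    have hcz : c = v * v * z⁻¹ := by rw [hz]; group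
    have e : v⁻¹ * (z * v * z⁻¹ * v⁻¹) * v⁻¹⁻¹ = (v * v * z⁻¹ * v)⁻¹ * (v * (v * v * z⁻¹)) := by
      group
    rw [e, ← hcz] at h2; exact h2
  have hcC : c ∈ C := by
    rw [hC]
    have e : (c * c)⁻¹ * (c * c) = 1 := by group
    rw [e]; exact Γ₄.one_mem
  have hΓ₃C : Γ₃ ≤ C := by
    intro z hz
    rw [hC]
    have := h34 z⁻¹ (Γ₃.inv_mem hz) c⁻¹
    have e : z⁻¹ * c⁻¹ * z⁻¹⁻¹ * c⁻¹⁻¹ = (c * z)⁻¹ * (z * c) := by group
    rwa [e] at this
  have hDC : D ≤ C := by
    intro d hd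
    rcases hA1 d hd with h | h
    · exact hΓ₃C h
    · have := C.mul_mem hcC (hΓ₃C h); rwa [mul_inv_cancel_left] at this
  have hCall : ∀ u, u ∈ C := by
    intro u
    rcases hcov u with h | h | h | h
    · exact hDC h
    · have := C.mul_mem (hcomm_of_sq x hx2) (hDC h); rwa [mul_inv_cancel_left] at this
    · have := C.mul_mem (hcomm_of_sq y hy2) (hDC h); rwa [mul_inv_cancel_left] at this
    · have := C.mul_mem (C.mul_mem (hcomm_of_sq x hx2) (hcomm_of_sq y hy2)) (hDC h)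
      rwa [mul_inv_cancel_left] at this
  have hΓ₃le : Γ₃ ≤ ⁅Γ₃, (⊤ : Subgroup P)⁆ := by
    rw [← hΓ₄]
    conv_lhs => rw [hΓ₃]
    rw [Subgroup.commutator_le]
    intro d hd u _
    rw [commutatorElement_def]
    rcases hA1 d hd with h | h
    · exact h34 d h u
    · obtain ⟨z, hz⟩ : ∃ z : P, z = c⁻¹ * d := ⟨_, rfl⟩
      have hzΓ : z ∈ Γ₃ := by rw [hz]; exact h
      have hd' : d = c * z := by rw [hz]; group
      have h1 := hΓ₄n.conj_mem _ (h34 z hzΓ u) c
      have h2 : c * u * c⁻¹ * u⁻¹ ∈ Γ₄ := by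
        have h3 := (hC u⁻¹).mp (hCall u⁻¹)
        have h4 := hΓ₄n.conj_mem _ h3 c
        have e : c * ((c * u⁻¹)⁻¹ * (u⁻¹ * c)) * c⁻¹ = c * u * c⁻¹ * u⁻¹ := by group
        rwa [e] at h4
      have e : d * u * d⁻¹ * u⁻¹ = (c * (z * u * z⁻¹ * u⁻¹) * c⁻¹) * (c * u * c⁻¹ * u⁻¹) := by
        rw [hd']; group
      rw [e]; exact Γ₄.mul_mem h1 h2
  have hΓ₃bot : Γ₃ = ⊥ := eq_bot_of_le_commutator_top Γ₃ hΓ₃le
  -- now `P` has order 8
  have hDc : ∀ d ∈ D, d = 1 ∨ d = c := by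
    intro d hd
    rcases hA1 d hd with h | h
    · left; rw [hΓ₃bot, Subgroup.mem_bot] at h; exact h
    · right; rw [hΓ₃bot, Subgroup.mem_bot] at h
      exact (inv_mul_eq_one.mp h).symm
  have hc1 : c ≠ 1 := by
    intro h; apply hcΓ₃; rw [h]; exact Γ₃.one_mem
  have hcc1 : c * c = 1 := by
    rw [hΓ₃bot, Subgroup.mem_bot] at hcc; exact hcc
  have hxx : x * x = c := by
    rw [hΓ₃bot, Subgroup.mem_bot] at hx2; exact (inv_mul_eq_one.mp hx2).symm
  have hyy : y * y = c := by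
    rw [hΓ₃bot, Subgroup.mem_bot] at hy2; exact (inv_mul_eq_one.mp hy2).symm
  have hDcent : ∀ d ∈ D, ∀ u : P, d * u = u * d := by
    intro d hd u
    have := hDΓ₃ d hd u
    rw [hΓ₃bot, Subgroup.mem_bot] at this
    calc d * u = (d * u * d⁻¹ * u⁻¹) * (u * d) := by group
      _ = u * d := by rw [this, one_mul]
  have hdd : ∀ d ∈ D, d * d = 1 := by
    intro d hd
    rcases hDc d hd with h | h
    · rw [h, one_mul]
    · rw [h]; exact hcc1
  have hcoset : ∀ (v u : P), v * v = c → v⁻¹ * u ∈ D → u * u = c := by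
    intro v u hv h
    obtain ⟨d, hd⟩ : ∃ d : P, d = v⁻¹ * u := ⟨_, rfl⟩
    have hdD : d ∈ D := by rw [hd]; exact h
    have hu' : u = v * d := by rw [hd]; group
    rw [hu']
    calc v * d * (v * d) = v * (d * v) * d := by group
      _ = v * (v * d) * d := by rw [hDcent d hdD v]
      _ = (v * v) * (d * d) := by group
      _ = c := by rw [hv, hdd d hdD, mul_one]
  have hxyxy : (x * y) * (x * y) = c := by
    have e1 : x * c⁻¹ * x⁻¹ = c⁻¹ := by
      have := hDcent c⁻¹ (D.inv_mem hcD) x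
      rw [← this]; group
    calc (x * y) * (x * y) = (x * (y * x * y⁻¹ * x⁻¹) * x⁻¹) * (x * x) * (y * y) := by group
      _ = (x * c⁻¹ * x⁻¹) * (x * x) * (y * y) := by rw [hc]; group
      _ = c⁻¹ * c * c := by rw [e1, hxx, hyy]
      _ = c := by group
  have hinv : ∀ u : P, u * u = 1 → u = 1 ∨ u = c := by
    intro u hu
    rcases hcov u with h | h | h | h
    · exact hDc u h
    · exfalso
      have := hcoset x u hxx h
      rw [hu] at this; exact hc1 this.symm
    · exfalso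
      have := hcoset y u hyy h
      rw [hu] at this; exact hc1 this.symm
    · exfalso
      have := hcoset (x * y) u hxyxy h
      rw [hu] at this; exact hc1 this.symm
  have hcord : Nat.card (Subgroup.zpowers c) = 2 := by
    rw [Nat.card_zpowers]
    exact orderOf_eq_prime (by rw [pow_two]; exact hcc1) hc1
  have huniq : ∀ H K : Subgroup P, Nat.card H = 2 → Nat.card K = 2 → H = K := by
    have hsub : ∀ H : Subgroup P, Nat.card H = 2 → H = Subgroup.zpowers c := by
      intro H hH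
      have hcH : c ∈ H := by
        have hne : H ≠ ⊥ := by
          intro h; rw [h] at hH; simp at hH
        obtain ⟨u, hu1⟩ := (Subgroup.ne_bot_iff_exists_ne_one).mp hne
        have hu2 : (u : P) * (u : P) = 1 := by
          have h1 := pow_card_eq_one' (G := H) (x := u)
          rw [hH] at h1
          have h2 := congrArg Subtype.val h1
          simpa [pow_two] using h2
        rcases hinv u hu2 with h | h
        · exact absurd (Subtype.ext h) hu1
        · rw [← h]; exact u.2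
      have hle : Subgroup.zpowers c ≤ H := (Subgroup.zpowers_le).mpr hcH
      exact (Subgroup.eq_of_le_of_card_ge hle (by rw [hH, hcord])).symm
    intro H K hH hK
    rw [hsub H hH, hsub K hK]
  have : Fact (Nat.Prime 2) := ⟨Nat.prime_two⟩
  rcases Cfsg.Agent.S0016.result 2 hP huniq with hcyc | ⟨-, n, ⟨e⟩⟩
  · exfalso
    apply hna
    obtain ⟨g, hg⟩ := hcyc.exists_generator
    refine ⟨⟨fun a b => ?_⟩⟩
    obtain ⟨i, rfl⟩ := Subgroup.mem_zpowers_iff.mp (hg a)
    obtain ⟨j, rfl⟩ := Subgroup.mem_zpowers_iff.mp (hg b)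
    rw [← zpow_add, ← zpow_add, add_comm]
  · have hDz : D = Subgroup.zpowers c := by
      apply le_antisymm
      · intro d hd
        rcases hDc d hd with h | h
        · rw [h]; exact Subgroup.one_mem _
        · rw [h]; exact Subgroup.mem_zpowers c
      · exact (Subgroup.zpowers_le).mpr hcD
    have hcardP : Nat.card P = 8 := by
      have h1 := Subgroup.card_mul_index D
      have h2 : D.index = 4 := by rw [hD]; exact h4
      rw [h2, hDz, hcord] at h1
      omega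
    have hn : n = 1 := by
      have h1 : Nat.card (QuaternionGroup (2 ^ n)) = 4 * 2 ^ n := by
        rw [Nat.card_eq_fintype_card, QuaternionGroup.card]
      have h2 := Nat.card_congr e.toEquiv
      rw [hcardP, h1] at h2
      have h3 : 2 ^ n = 2 ^ 1 := by omega
      exact Nat.pow_right_injective (le_refl 2) h3
    subst hn
    exact ⟨e⟩

end Cfsg.Agent.S4189
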