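import Cfsg.Statements.S4195
-- import your own Cfsg.Agent.* helpers here

set_option autoImplicit false
open Cfsg

namespace Cfsg.Agent.S4195

def invNormalizer {G : Type*} [Group G] (x : G) : Subgroup G where
  carrier := {g | g * x * g⁻¹ = x ∨ g * x * g⁻¹ = x⁻¹}
  one_mem' := by simp
  mul_mem' := by
    intro a b ha hb
    have e : a * b * x * (a * b)⁻¹ = a * (b * x * b⁻¹) * a⁻¹ := by group
    have e2 : a * x⁻¹ * a⁻¹ = (a * x * a⁻¹)⁻¹ := by group
    simp only [Set.mem_ofPred_eq] at ha hb ⊢
    rw [e]
    rcases hb with hb | hb <;> rcases ha with ha | ha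
    · left; rw [hb, ha]
    · right; rw [hb, ha]
    · right; rw [hb, e2, ha]
    · left; rw [hb, e2, ha, inv_inv]
  inv_mem' := by
    intro a ha
    simp only [Set.mem_ofPred_eq] at ha ⊢
    rcases ha with ha | ha
    · left
      have : a⁻¹ * (a * x * a⁻¹) * a⁻¹⁻¹ = x := by group
      rw [ha] at this
      exact this
    · right
      have : a⁻¹ * (a * x * a⁻¹)⁻¹ * a⁻¹⁻¹ = x⁻¹ := by group
      rw [ha, inv_inv] at this
      exact this

theorem mem_invNormalizer {G : Type*} [Group G] (x g : G) :
    g ∈ invNormalizer x ↔ g * x * g⁻¹ = x ∨ g * x * g⁻¹ = x⁻¹ := Iff.rfl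

theorem mem_centralizer_singleton {G : Type*} [Group G] (x g : G) :
    g ∈ Subgroup.centralizer ({x} : Set G) ↔ g * x * g⁻¹ = x := by
  rw [Subgroup.mem_centralizer_iff]
  constructor
  · intro h
    have := h x (Set.mem_singleton x)
    rw [← this]
    group
  · intro h y hy
    rw [Set.mem_singleton_iff] at hy
    subst hy
    have := mul_inv_eq_iff_eq_mul.mp h
    exact this.symm

theorem real_two_central {G : Type*} [Group G] [Finite G] (x : G) (P : Sylow 2 G)
    (hP : (P : Subgroup G) ≤ Subgroup.centralizer ({x} : Set G)) (hreal : IsConj x x⁻¹) :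
    x = x⁻¹ := by
  by_contra hne
  obtain ⟨g, hg⟩ := isConj_iff.mp hreal
  have hCN : Subgroup.centralizer ({x} : Set G) ≤ invNormalizer x := by
    intro c hc
    exact Or.inl ((mem_centralizer_singleton x c).mp hc)
  have h2 : (Subgroup.centralizer ({x} : Set G)).relIndex (invNormalizer x) = 2 := by
    rw [Subgroup.relIndex_eq_two_iff]
    refine ⟨g, Or.inr hg, ?_⟩
    intro b hb
    rw [mem_centralizer_singleton, mem_centralizer_singleton]
    have e : b * g * x * (b * g)⁻¹ = b * (g * x * g⁻¹) * b⁻¹ := by group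
    have e2 : b * x⁻¹ * b⁻¹ = (b * x * b⁻¹)⁻¹ := by group
    rw [e, hg, e2]
    rcases hb with hb | hb
    · right
      refine ⟨hb, ?_⟩
      rw [hb]
      exact fun h => hne h.symm
    · left
      refine ⟨by rw [hb, inv_inv], ?_⟩
      rw [hb]
      exact fun h => hne h.symm
  have h3 : (Subgroup.centralizer ({x} : Set G)).relIndex (invNormalizer x) ∣
      (P : Subgroup G).index :=
    (Subgroup.relIndex_dvd_of_le_left (invNormalizer x) hP).trans
      (Subgroup.relIndex_dvd_index_of_le (hP.trans hCN))
  rw [h2] at h3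
  exact P.not_dvd_index h3

/-- Let x be a non-identity element of a finite group G whose centralizer contains a Sylow 2-subgroup of G. If x is conjugate to its inverse, then x has order 2. -/
theorem result {G : Type*} [Group G] [Finite G] (x : G) (hx : x ≠ 1) (P : Sylow 2 G) (hP : (P : Subgroup G) ≤ Subgroup.centralizer ({x} : Set G)) (hreal : IsConj x x⁻¹) : orderOf x = 2 := by
  have h := real_two_central x P hP hreal
  have h2 : x ^ 2 = 1 := by
    rw [pow_two]
    nth_rewrite 2 [h]
    exact mul_inv_cancel x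
  exact orderOf_eq_prime h2 hx

end Cfsg.Agent.S4195
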