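import Cfsg.Statements.S4196
-- import your own Cfsg.Agent.* helpers here

set_option autoImplicit false
open Cfsg

namespace Cfsg.Agent.S4196

def invNormalizer {G : Type*} [Group G] (x : G) : Subgroup G where
  carrier := {g | g * x * g⁻¹ = x ∨ g * x * g⁻¹ = x⁻¹}
  one_mem' := by simp
  mul_mem' := by
    intro a b ha hb
    have e : a * b * x * (a * b)⁻¹ = a * (b * x * b⁻¹) * a⁻¹ := by group
    have e2 : a * x⁻¹ * a⁻¹ = (a * x * a⁻¹)⁻¹ := by group
    simp only [Set.mem_ofPred_eq] at ha hb ⊢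
    rw [e]
    rcases hb with hb | hb <;> rcases ha with ha | ha
    · left; rw [hb, ha]
    · right; rw [hb, ha]
    · right; rw [hb, e2, ha]
    · left; rw [hb, e2, ha, inv_inv]
  inv_mem' := by
    intro a ha
    simp only [Set.mem_ofPred_eq] at ha ⊢
    rcases ha with ha | ha
    · left
      have : a⁻¹ * (a * x * a⁻¹) * a⁻¹⁻¹ = x := by group
      rw [ha] at this
      exact this
    · right
      have : a⁻¹ * (a * x * a⁻¹)⁻¹ * a⁻¹⁻¹ = x⁻¹ := by group
      rw [ha, inv_inv] at this
      exact this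

theorem mem_invNormalizer {G : Type*} [Group G] (x g : G) :
    g ∈ invNormalizer x ↔ g * x * g⁻¹ = x ∨ g * x * g⁻¹ = x⁻¹ := Iff.rfl

theorem mem_centralizer_singleton {G : Type*} [Group G] (x g : G) :
    g ∈ Subgroup.centralizer ({x} : Set G) ↔ g * x * g⁻¹ = x := by
  rw [Subgroup.mem_centralizer_iff]
  constructor
  · intro h
    have := h x (Set.mem_singleton x)
    rw [← this]
    group
  · intro h y hy
    rw [Set.mem_singleton_iff] at hy
    subst hy
    have := mul_inv_eq_iff_eq_mul.mp h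
    exact this.symm

theorem real_two_central {G : Type*} [Group G] [Finite G] (x : G) (P : Sylow 2 G)
    (hP : (P : Subgroup G) ≤ Subgroup.centralizer ({x} : Set G)) (hreal : IsConj x x⁻¹) :
    x = x⁻¹ := by
  by_contra hne
  obtain ⟨g, hg⟩ := isConj_iff.mp hreal
  have hCN : Subgroup.centralizer ({x} : Set G) ≤ invNormalizer x := by
    intro c hc
    exact Or.inl ((mem_centralizer_singleton x c).mp hc)
  have h2 : (Subgroup.centralizer ({x} : Set G)).relIndex (invNormalizer x) = 2 := by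
    rw [Subgroup.relIndex_eq_two_iff]
    refine ⟨g, Or.inr hg, ?_⟩
    intro b hb
    rw [mem_centralizer_singleton, mem_centralizer_singleton]
    have e : b * g * x * (b * g)⁻¹ = b * (g * x * g⁻¹) * b⁻¹ := by group
    have e2 : b * x⁻¹ * b⁻¹ = (b * x * b⁻¹)⁻¹ := by group
    rw [e, hg, e2]
    rcases hb with hb | hb
    · right
      refine ⟨hb, ?_⟩
      rw [hb]
      exact fun h => hne h.symm
    · left
      refine ⟨by rw [hb, inv_inv], ?_⟩
      rw [hb]
      exact fun h => hne h.symm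
  have h3 : (Subgroup.centralizer ({x} : Set G)).relIndex (invNormalizer x) ∣
      (P : Subgroup G).index :=
    (Subgroup.relIndex_dvd_of_le_left (invNormalizer x) hP).trans
      (Subgroup.relIndex_dvd_index_of_le (hP.trans hCN))
  rw [h2] at h3
  exact P.not_dvd_index h3

open scoped Pointwise

theorem mem_smul_sylow {G : Type*} [Group G] {p : ℕ} (g x : G) (P : Sylow p G) :
    x ∈ (g • P : Sylow p G) ↔ g⁻¹ * x * g ∈ P := by
  change x ∈ ((g • P : Sylow p G) : Subgroup G) ↔ g⁻¹ * x * g ∈ (P : Subgroup G)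
  rw [Sylow.coe_subgroup_smul, Subgroup.mem_pointwise_smul_iff_inv_smul_mem]
  have e : (MulAut.conj g)⁻¹ • x = g⁻¹ * x * g := by
    simp [MulAut.smul_def]
  rw [e]

theorem exists_sylow_mem {G : Type*} [Group G] [Finite G] {p : ℕ} [Fact p.Prime] (x : G)
    (hx : ∃ k : ℕ, orderOf x = p ^ k) : ∃ P : Sylow p G, x ∈ P := by
  obtain ⟨k, hk⟩ := hx
  have hpg : IsPGroup p (Subgroup.zpowers x) := by
    apply IsPGroup.of_card (n := k)
    rw [Nat.card_zpowers, hk]
  obtain ⟨P, hP⟩ := hpg.exists_le_sylow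
  exact ⟨P, hP (Subgroup.mem_zpowers x)⟩

/-- A finite group G has elementary abelian Sylow 2-subgroups (commutative with every element squaring to the identity) if and only if every 2-element of G has a Sylow 2-subgroup in its centralizer and is conjugate to its inverse. -/
theorem result {G : Type*} [Group G] [Finite G] (P : Sylow 2 G) :
    (IsMulCommutative (P : Subgroup G) ∧ ∀ x ∈ (P : Subgroup G), x ^ 2 = 1) ↔
      ∀ x : G, (∃ k : ℕ, orderOf x = 2 ^ k) → (∃ Q : Sylow 2 G, (Q : Subgroup G) ≤ Subgroup.centralizer ({x} : Set G)) ∧ IsConj x x⁻¹ := by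
  constructor
  · rintro ⟨hcomm, hsq⟩ x hx
    obtain ⟨Q, hxQ⟩ := exists_sylow_mem x hx
    obtain ⟨g, hg⟩ := MulAction.exists_smul_eq G P Q
    subst hg
    rw [mem_smul_sylow] at hxQ
    have hx2 : x ^ 2 = 1 := by
      have h1 := hsq _ hxQ
      have e : (g⁻¹ * x * g) ^ 2 = g⁻¹ * x ^ 2 * g := by
        rw [pow_two, pow_two]; group
      rw [e] at h1
      have : x ^ 2 = g * (g⁻¹ * x ^ 2 * g) * g⁻¹ := by group
      rw [this, h1]; group
    refine ⟨⟨g • P, ?_⟩, ?_⟩
    · intro y hy
      change y ∈ (g • P : Sylow 2 G) at hy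
      rw [mem_smul_sylow] at hy
      rw [mem_centralizer_singleton]
      have h1 := hcomm.is_comm.comm (⟨g⁻¹ * y * g, hy⟩ : (P : Subgroup G)) ⟨g⁻¹ * x * g, hxQ⟩
      have h2 : (g⁻¹ * y * g) * (g⁻¹ * x * g) = (g⁻¹ * x * g) * (g⁻¹ * y * g) :=
        congrArg Subtype.val h1
      have h3 : y * x = x * y := by
        have e1 : y * x = g * ((g⁻¹ * y * g) * (g⁻¹ * x * g)) * g⁻¹ := by group
        rw [e1, h2]; group
      rw [h3]; group
    · have : x⁻¹ = x := by
        rw [inv_eq_iff_mul_eq_one, ← pow_two]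
        exact hx2
      rw [this]
  · intro h
    have hsq : ∀ x ∈ (P : Subgroup G), x ^ 2 = 1 := by
      intro x hx
      have hx2 : ∃ k : ℕ, orderOf x = 2 ^ k := by
        obtain ⟨k, hk⟩ := P.isPGroup' ⟨x, hx⟩
        have hk' : x ^ 2 ^ k = 1 := by
          have := congrArg Subtype.val hk
          simpa using this
        obtain ⟨j, -, hj⟩ := (Nat.dvd_prime_pow Nat.prime_two).mp (orderOf_dvd_of_pow_eq_one hk')
        exact ⟨j, hj⟩
      obtain ⟨⟨Q, hQ⟩, hreal⟩ := h x hx2
      have h1 := real_two_central x Q hQ hreal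
      rw [pow_two]
      nth_rewrite 2 [h1]
      exact mul_inv_cancel x
    refine ⟨⟨⟨fun a b => ?_⟩⟩, hsq⟩
    apply Subtype.ext
    have ha := hsq a a.2
    have hb := hsq b b.2
    have hab := hsq (a * b : G) (Subgroup.mul_mem _ a.2 b.2)
    change (a : G) * (b : G) = (b : G) * (a : G)
    rw [pow_two] at ha hb hab
    have h1 : ((b : G) * a) * ((a : G) * b) = 1 := by
      calc ((b : G) * a) * ((a : G) * b) = (b : G) * ((a : G) * a) * b := by group
        _ = 1 := by rw [ha, mul_one, hb]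
    rw [eq_inv_of_mul_eq_one_left h1, ← eq_inv_of_mul_eq_one_left hab]

end Cfsg.Agent.S4196
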