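import Cfsg.Statements.S4230
-- import your own Cfsg.Agent.* helpers here

set_option autoImplicit false
open Cfsg

namespace Cfsg.Agent.S4230

/-- Let p be an odd prime, q a natural number not divisible by p, and e the multiplicative order of q modulo p. For a natural number f, p divides the value at q of the f-th cyclotomic polynomial if and only if f = e·p^j for some j ≥ 0. -/
theorem result (p q f : ℕ) (hp : p.Prime) (hp2 : p ≠ 2) (hpq : ¬ p ∣ q) :
    ((p : ℤ) ∣ (Polynomial.cyclotomic f ℤ).eval (q : ℤ)) ↔ ∃ j : ℕ, f = orderOf (q : ZMod p) * p ^ j := by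
  haveI : Fact p.Prime := ⟨hp⟩
  have hq0 : (q : ZMod p) ≠ 0 := by
    rw [Ne, ZMod.natCast_eq_zero_iff]
    exact hpq
  have hord_dvd : orderOf (q : ZMod p) ∣ p - 1 :=
    orderOf_dvd_of_pow_eq_one (ZMod.pow_card_sub_one_eq_one hq0)
  have hord_pos : 0 < orderOf (q : ZMod p) := by
    rcases Nat.eq_zero_or_pos (orderOf (q : ZMod p)) with h | h
    · rw [h, zero_dvd_iff] at hord_dvd
      have := hp.two_le
      omega
    · exact h
  have hord_ndvd : ¬ p ∣ orderOf (q : ZMod p) := by
    intro h
    have h1 := Nat.le_of_dvd (by have := hp.two_le; omega) (h.trans hord_dvd)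
    have := hp.two_le
    omega
  -- reformulate the left side
  have hL : ((p : ℤ) ∣ (Polynomial.cyclotomic f ℤ).eval (q : ℤ)) ↔
      (Polynomial.cyclotomic f (ZMod p)).eval (q : ZMod p) = 0 := by
    rw [← ZMod.intCast_zmod_eq_zero_iff_dvd]
    have h1 := Polynomial.eval_intCast_map (Int.castRingHom (ZMod p)) (Polynomial.cyclotomic f ℤ) (q : ℤ)
    rw [Polynomial.map_cyclotomic] at h1
    simp only [Int.cast_natCast, eq_intCast] at h1
    rw [h1]
  rw [hL]
  rcases Nat.eq_zero_or_pos f with hf | hf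
  · subst hf
    rw [Polynomial.cyclotomic_zero]
    simp only [Polynomial.eval_one, one_ne_zero, false_iff]
    rintro ⟨j, hj⟩
    have : 0 < orderOf (q : ZMod p) * p ^ j := Nat.mul_pos hord_pos (pow_pos hp.pos j)
    omega
  · obtain ⟨j, m, hm, hfm⟩ := Nat.exists_eq_pow_mul_and_not_dvd hf.ne' p hp.ne_one
    have hm0 : NeZero ((m : ℕ) : ZMod p) := ⟨by rw [Ne, ZMod.natCast_eq_zero_iff]; exact hm⟩
    have hroot : (Polynomial.cyclotomic f (ZMod p)).eval (q : ZMod p) = 0 ↔ orderOf (q : ZMod p) = m := by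
      have hbase : (Polynomial.cyclotomic m (ZMod p)).eval (q : ZMod p) = 0 ↔ orderOf (q : ZMod p) = m := by
        have h1 := Polynomial.isRoot_cyclotomic_iff (R := ZMod p) (n := m) (μ := (q : ZMod p))
        rw [Polynomial.IsRoot.def] at h1
        rw [h1]
        constructor
        · intro h; exact h.eq_orderOf.symm
        · intro h; rw [← h]; exact IsPrimitiveRoot.orderOf _
      rcases Nat.eq_zero_or_pos j with hj | hj
      · subst hj
        rw [hfm, pow_zero, one_mul]
        exact hbase
      · rw [hfm, Polynomial.cyclotomic_mul_prime_pow_eq (ZMod p) hm hj, Polynomial.eval_pow,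
          pow_eq_zero_iff]
        · exact hbase
        · have : p ^ (j - 1) < p ^ j := Nat.pow_lt_pow_right hp.one_lt (by omega)
          omega
    rw [hroot]
    constructor
    · intro h
      exact ⟨j, by rw [h, hfm, mul_comm]⟩
    · rintro ⟨j', hj'⟩
      rw [hfm] at hj'
      -- p^j * m = e * p^j'
      have hcop1 : Nat.Coprime (p ^ j) (orderOf (q : ZMod p)) :=
        Nat.Coprime.pow_left j ((Nat.Prime.coprime_iff_not_dvd hp).mpr hord_ndvd)
      have hcop2 : Nat.Coprime (p ^ j') m :=
        Nat.Coprime.pow_left j' ((Nat.Prime.coprime_iff_not_dvd hp).mpr hm)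
      have d1 : p ^ j ∣ p ^ j' := by
        have : p ^ j ∣ orderOf (q : ZMod p) * p ^ j' := ⟨m, hj'.symm⟩
        exact hcop1.dvd_of_dvd_mul_left this
      have d2 : p ^ j' ∣ p ^ j := by
        have : p ^ j' ∣ p ^ j * m := ⟨orderOf (q : ZMod p), by rw [hj', mul_comm]⟩
        exact hcop2.dvd_of_dvd_mul_right this
      have e : p ^ j = p ^ j' := Nat.dvd_antisymm d1 d2
      rw [e, mul_comm] at hj'
      exact (Nat.eq_of_mul_eq_mul_right (pow_pos hp.pos j') hj').symm

end Cfsg.Agent.S4230
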