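import Cfsg.Statements.S4234
import Cfsg.Agent.Lib.helper12.PSL213
-- import your own Cfsg.Agent.* helpers here

set_option autoImplicit false
open Cfsg

namespace Cfsg.Agent.S4234

open Cfsg.Agent.Lib.helper12
open scoped MatrixGroups

/-- Let K be isomorphic to PSL(2, 13) or to SL(2, 13) and let S be a finite abelian group of order coprime to the order of K. Then in the direct product K × S every subgroup that is not normal has a normalizer that is a maximal subgroup. -/
theorem result {K S : Type*} [Group K] [CommGroup S] [Finite K] [Finite S]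
    (hK : Nonempty (K ≃* Matrix.ProjectiveSpecialLinearGroup (Fin 2) (ZMod 13)) ∨
      Nonempty (K ≃* Matrix.SpecialLinearGroup (Fin 2) (ZMod 13)))
    (hKS : (Nat.card K).Coprime (Nat.card S)) (H : Subgroup (K × S)) (hH : ¬ H.Normal) :
    IsCoatom (Subgroup.normalizer (H : Set (K × S))) := by
  haveI : Fact (Nat.Prime 13) := ⟨by norm_num⟩
  have hF : Fintype.card (ZMod 13) = 13 := ZMod.card 13
  have hP : ∀ H : Subgroup (Matrix.ProjectiveSpecialLinearGroup (Fin 2) (ZMod 13)),
      ¬ H.Normal → IsCoatom (Subgroup.normalizer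
        (H : Set (Matrix.ProjectiveSpecialLinearGroup (Fin 2) (ZMod 13)))) :=
    fun H hH => p13_main hF H hH
  rcases hK with ⟨⟨e⟩⟩ | ⟨⟨e⟩⟩
  · exact prod_coatomNorm hKS (coatomNorm_of_equiv e hP) H hH
  · exact prod_coatomNorm hKS (coatomNorm_of_equiv e (sl2_coatomNorm p13_two hP)) H hH

end Cfsg.Agent.S4234
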