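import Mathlib
import Cfsg.Statements.S4237
import Cfsg.Agent.Lib.helper17.K4237
import Cfsg.Agent.Lib.lead.K4237a
import Cfsg.Agent.Lib.helper5.K4237c

set_option autoImplicit false
open Cfsg

namespace Cfsg.Agent.S4237

/-- Let G be a finite group, p a prime and a a natural number such that p^(a+1) divides the order of G. Then the number of subgroups of G of order p^a is congruent to 1 or to 1 + p modulo p². -/
theorem result {G : Type*} [Group G] [Finite G] (p a : ℕ) (hp : p.Prime) (hdvd : p ^ (a + 1) ∣ Nat.card G) :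
    Nat.card {H : Subgroup G // Nat.card H = p ^ a} ≡ 1 [MOD p ^ 2] ∨
      Nat.card {H : Subgroup G // Nat.card H = p ^ a} ≡ 1 + p [MOD p ^ 2] := by
  by_cases hp2 : p = 2
  · subst hp2
    have hfrob : Nat.card {H : Subgroup G // Nat.card H = 2 ^ a} ≡ 1 [MOD 2] :=
      Cfsg.Agent.Lib.helper20.card_subgroups_modEq_one 2 a hp
        ((pow_dvd_pow 2 (Nat.le_succ a)).trans hdvd)
    have h1 : Nat.card {H : Subgroup G // Nat.card H = 2 ^ a} % 2 = 1 := hfrob
    unfold Nat.ModEq
    norm_num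
    omega
  · obtain ⟨L, hL⟩ := hdvd
    have : NeZero (p ^ (a + 1) * L) := ⟨by rw [← hL]; exact (Nat.card_pos (α := G)).ne'⟩
    exact Cfsg.Agent.Lib.helper17.K4237.main_of p a hp L hL
      (Cfsg.Agent.Lib.lead.K4237a.card_pairs_modEq (G := G) p a hp)
      (Cfsg.Agent.Lib.lead.K4237a.card_pairs_modEq
        (G := Multiplicative (ZMod (p ^ (a + 1) * L))) p a hp)
      (Cfsg.Agent.Lib.helper5.card_noncyclic_mod_p (G := G) p (a + 1) hp hp2 ⟨L, hL⟩)

end Cfsg.Agent.S4237
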