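import Cfsg.Statements.S4238
-- import your own Cfsg.Agent.* helpers here
import Mathlib
import Cfsg.Agent.S0071

set_option autoImplicit false
open Cfsg

namespace Cfsg.Agent.S4238

open Subgroup
open scoped Pointwise

section abstract
variable {K : Type*} [Group K] [Finite K]

theorem fpf_of_min (p : ℕ) [Fact p.Prime] (B : Subgroup K) [B.Normal] (hB : IsPGroup p B) (y : K)
    (hgen : B ⊔ zpowers y = ⊤) (hy : (orderOf y).Coprime p)
    (hnt : ∃ b ∈ B, y * b ≠ b * y)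
    (hmin : ∀ W : Subgroup K, W ≤ B → W ≠ ⊥ → W.Normal → ∀ b ∈ B, y * b * y⁻¹ * b⁻¹ ∈ W) :
    ∀ b ∈ B, y * b = b * y → b = 1 := by
  classical
  have hpp : p.Prime := Fact.out
  have hBne : B ≠ ⊥ := by
    rintro rfl
    obtain ⟨b, hb, hne⟩ := hnt
    rw [mem_bot] at hb; subst hb; simp at hne
  -- the centre of B
  set Z : Subgroup K := B ⊓ centralizer (B : Set K) with hZ
  have hZn : Z.Normal := inferInstance
  have hZne : Z ≠ ⊥ := by
    have : Nontrivial B := (Subgroup.nontrivial_iff_ne_bot B).mpr hBne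
    have h1 := hB.bot_lt_center
    obtain ⟨z, hz1⟩ := (Subgroup.ne_bot_iff_exists_ne_one).mp h1.ne'
    intro hbot
    have hzZ : (z.1.1 : K) ∈ Z := by
      refine Subgroup.mem_inf.mpr ⟨z.1.2, ?_⟩
      rw [mem_centralizer_iff]
      intro b hb
      have := (Subgroup.mem_center_iff.mp z.2) ⟨b, hb⟩
      exact congrArg Subtype.val this
    rw [hbot, mem_bot] at hzZ
    apply hz1
    ext; exact hzZ
  have hcomZ := hmin Z inf_le_left hZne hZn
  -- the fixed points
  set C : Subgroup K := B ⊓ centralizer ({y} : Set K) with hC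
  have hCy : ∀ c ∈ C, y * c = c * y := by
    intro c hc
    have := mem_centralizer_singleton_iff.mp hc.2
    exact this.symm
  have hCn : C.Normal := by
    rw [← normalizer_eq_top_iff, eq_top_iff, ← hgen, sup_le_iff]
    have hBconj : ∀ b ∈ B, ∀ c ∈ C, b * c * b⁻¹ ∈ C := by
      intro b hb c hc
      refine ⟨B.mul_mem (B.mul_mem hb hc.1) (B.inv_mem hb), ?_⟩
      show b * c * b⁻¹ ∈ centralizer {y}
      rw [mem_centralizer_singleton_iff]
      have hz := hcomZ b hb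
      have hzc : ∀ d ∈ B, d * (y * b * y⁻¹ * b⁻¹) = (y * b * y⁻¹ * b⁻¹) * d := by
        intro d hd
        exact (mem_centralizer_iff.mp hz.2) d hd
      have h1 := hCy c hc
      have h2 := hzc (b * c * b⁻¹) (B.mul_mem (B.mul_mem hb hc.1) (B.inv_mem hb))
      -- y (b c b⁻¹) y⁻¹ = (z b) c (z b)⁻¹ = b c b⁻¹
      have h3 : y * (b * c * b⁻¹) * y⁻¹ = (y * b * y⁻¹ * b⁻¹) * (b * c * b⁻¹) * (y * b * y⁻¹ * b⁻¹)⁻¹ := by
        have : y * c * y⁻¹ = c := by rw [h1]; group
        calc y * (b * c * b⁻¹) * y⁻¹ = (y * b * y⁻¹) * (y * c * y⁻¹) * (y * b * y⁻¹)⁻¹ := by group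
          _ = (y * b * y⁻¹) * c * (y * b * y⁻¹)⁻¹ := by rw [this]
          _ = _ := by group
      rw [← h2] at h3
      have h4 : y * (b * c * b⁻¹) * y⁻¹ = b * c * b⁻¹ := by rw [h3]; group
      calc b * c * b⁻¹ * y = (y * (b * c * b⁻¹) * y⁻¹) * y := by rw [h4]
        _ = y * (b * c * b⁻¹) := by group
    constructor
    · intro b hb
      rw [mem_normalizer_iff]
      intro c
      constructor
      · exact hBconj b hb c
      · intro h
        have := hBconj b⁻¹ (B.inv_mem hb) _ h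
        have e : b⁻¹ * (b * c * b⁻¹) * b⁻¹⁻¹ = c := by group
        rwa [e] at this
    · rw [zpowers_le, mem_normalizer_iff]
      intro c
      constructor
      · intro hc
        have : y * c * y⁻¹ = c := by rw [hCy c hc]; group
        rw [this]; exact hc
      · intro hc
        have h1 := hCy _ hc
        have : c = y * c * y⁻¹ := by
          have e1 : y⁻¹ * (y * c * y⁻¹) * y = y * c * y⁻¹ := by
            calc y⁻¹ * (y * c * y⁻¹) * y = y⁻¹ * ((y * c * y⁻¹) * y) := by group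
              _ = y⁻¹ * (y * (y * c * y⁻¹)) := by rw [h1]
              _ = y * c * y⁻¹ := by group
          have e2 : y⁻¹ * (y * c * y⁻¹) * y = c := by group
          rw [← e1, e2]
        rw [this]; exact hc
  by_cases hCbot : C = ⊥
  · intro b hb hyb
    have : b ∈ C := ⟨hb, mem_centralizer_singleton_iff.mpr hyb.symm⟩
    rw [hCbot, mem_bot] at this
    exact this
  · exfalso
    have hcomC := hmin C inf_le_left hCbot hCn
    obtain ⟨b, hb, hne⟩ := hnt
    apply hne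
    set c := y * b * y⁻¹ * b⁻¹ with hc
    have hcC : c ∈ C := hcomC b hb
    have hyc := hCy c hcC
    have hpow : ∀ j : ℕ, y ^ j * b * (y ^ j)⁻¹ = c ^ j * b := by
      intro j
      induction j with
      | zero => simp
      | succ j ih =>
        have hcj : y * c ^ j = c ^ j * y := (Commute.pow_right (show Commute y c from hyc) j).eq
        calc y ^ (j + 1) * b * (y ^ (j + 1))⁻¹ = y * (y ^ j * b * (y ^ j)⁻¹) * y⁻¹ := by
              rw [pow_succ']; group
          _ = y * (c ^ j * b) * y⁻¹ := by rw [ih]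
          _ = (y * c ^ j) * b * y⁻¹ := by group
          _ = c ^ j * (y * b * y⁻¹ * b⁻¹) * b := by rw [hcj]; group
          _ = c ^ (j + 1) * b := by rw [← hc, pow_succ]
    have h1 := hpow (orderOf y)
    rw [pow_orderOf_eq_one] at h1
    have h2 : c ^ orderOf y = 1 := by
      have : c ^ orderOf y * b = 1 * b := by rw [← h1]; group
      exact mul_right_cancel this
    obtain ⟨e, he⟩ := hB ⟨c, hcC.1⟩
    have he' : c ^ p ^ e = 1 := by
      have := congrArg Subtype.val he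
      simpa using this
    have h3 : orderOf c ∣ (orderOf y).gcd (p ^ e) :=
      Nat.dvd_gcd (orderOf_dvd_of_pow_eq_one h2) (orderOf_dvd_of_pow_eq_one he')
    have h4 : (orderOf y).gcd (p ^ e) = 1 := Nat.Coprime.pow_right e hy
    rw [h4, Nat.dvd_one, orderOf_eq_one_iff] at h3
    have : y * b * y⁻¹ * b⁻¹ = 1 := h3
    calc y * b = (y * b * y⁻¹ * b⁻¹) * b * y := by group
      _ = b * y := by rw [this, one_mul]

theorem core_bot (p : ℕ) [Fact p.Prime] (B : Subgroup K) [B.Normal] (hB : IsPGroup p B) (y : K)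
    (hgen : B ⊔ zpowers y = ⊤) (hy : (orderOf y).Coprime p)
    (hfaith : ∀ c ∈ zpowers y, (∀ b ∈ B, c * b = b * c) → c = 1) :
    Cfsg.pPrimeCore p K = ⊥ := by
  classical
  have hpp : p.Prime := Fact.out
  unfold Cfsg.pPrimeCore
  rw [eq_bot_iff]
  apply sSup_le
  rintro N ⟨hNn, hNc⟩
  intro n hn
  rw [mem_bot]
  obtain ⟨e, he⟩ := IsPGroup.iff_card.mp hB
  have hNB : N ⊓ B = ⊥ := by
    apply Disjoint.eq_bot
    apply Subgroup.disjoint_of_coprime_natCard
    rw [he]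
    exact Nat.Coprime.pow_right e hNc
  have hcent : ∀ m ∈ N, ∀ b ∈ B, m * b = b * m := by
    intro m hm b hb
    have h1 : m * b * m⁻¹ * b⁻¹ ∈ N ⊓ B := by
      refine Subgroup.mem_inf.mpr ⟨?_, ?_⟩
      · have := hNn.conj_mem m⁻¹ (N.inv_mem hm) b
        have e : m * b * m⁻¹ * b⁻¹ = m * (b * m⁻¹ * b⁻¹) := by group
        rw [e]; exact N.mul_mem hm this
      · have : m * b * m⁻¹ ∈ B := Subgroup.Normal.conj_mem inferInstance b hb m
        exact B.mul_mem this (B.inv_mem hb)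
    rw [hNB, mem_bot] at h1
    calc m * b = (m * b * m⁻¹ * b⁻¹) * b * m := by group
      _ = b * m := by rw [h1, one_mul]
  have hmem : n ∈ (B : Set K) * (zpowers y : Set K) := by
    rw [← Subgroup.normal_mul, hgen]; trivial
  obtain ⟨b₀, hb₀, c, hc, rfl⟩ := Set.mem_mul.mp hmem
  rw [SetLike.mem_coe] at hb₀ hc
  -- c = b₀⁻¹ * n where n = b₀ * c
  have hcomm : Commute b₀⁻¹ (b₀ * c) := by
    have := hcent _ hn b₀⁻¹ (B.inv_mem hb₀)
    exact this.symm
  obtain ⟨j, hj⟩ := hB ⟨b₀, hb₀⟩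
  have hj' : b₀ ^ p ^ j = 1 := by
    have := congrArg Subtype.val hj
    simpa using this
  have hcpow : c ^ p ^ j = (b₀ * c) ^ p ^ j := by
    have e : c = b₀⁻¹ * (b₀ * c) := by group
    conv_lhs => rw [e]
    rw [hcomm.mul_pow, inv_pow, hj', inv_one, one_mul]
  have hc1 : c ^ p ^ j = 1 := by
    apply hfaith _ (Subgroup.pow_mem _ hc _)
    intro b hb
    rw [hcpow]
    have h1 : Commute (b₀ * c) b := hcent _ hn b hb
    exact (h1.pow_left _).eq
  have h3 : orderOf c ∣ (orderOf y).gcd (p ^ j) :=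
    Nat.dvd_gcd (orderOf_dvd_of_mem_zpowers hc) (orderOf_dvd_of_pow_eq_one hc1)
  have h4 : (orderOf y).gcd (p ^ j) = 1 := Nat.Coprime.pow_right j hy
  rw [h4, Nat.dvd_one, orderOf_eq_one_iff] at h3
  subst h3
  rw [mul_one] at hn ⊢
  have : b₀ ∈ N ⊓ B := Subgroup.mem_inf.mpr ⟨hn, hb₀⟩
  rwa [hNB, mem_bot] at this

theorem no_exp (p : ℕ) [Fact p.Prime] (B : Subgroup K) [B.Normal] (hB : IsPGroup p B) (y : K)
    (hgen : B ⊔ zpowers y = ⊤) (hy : (orderOf y).Coprime p) (hBne : B ≠ ⊥)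
    (hfpf : ∀ b ∈ B, y * b = b * y → b = 1) :
    ¬ ∃ k : K, orderOf k = Monoid.exponent K := by
  classical
  have hpp : p.Prime := Fact.out
  rintro ⟨k, hk⟩
  set E := Monoid.exponent K with hE
  set n := orderOf y with hn
  have hnE : n ∣ E := Monoid.order_dvd_exponent y
  have hpE : p ∣ E := by
    obtain ⟨b, hb1⟩ := (Subgroup.ne_bot_iff_exists_ne_one).mp hBne
    obtain ⟨j, hj⟩ := hB b
    have hj' : (b : K) ^ p ^ j = 1 := by
      have := congrArg Subtype.val hj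
      simpa using this
    have h1 : orderOf (b : K) ∣ p ^ j := orderOf_dvd_of_pow_eq_one hj'
    obtain ⟨i, -, hi⟩ := (Nat.dvd_prime_pow hpp).mp h1
    have hi0 : i ≠ 0 := by
      rintro rfl
      rw [pow_zero, orderOf_eq_one_iff] at hi
      apply hb1; ext; exact hi
    have h2 : p ∣ orderOf (b : K) := by rw [hi]; exact dvd_pow_self p hi0
    exact h2.trans (Monoid.order_dvd_exponent (b : K))
  have hnpE : n * p ∣ E := Nat.Coprime.mul_dvd_of_dvd_of_dvd hy hnE hpE
  obtain ⟨t, ht⟩ := hnpE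
  have hE0 : E ≠ 0 := by
    rw [← hk]; exact (orderOf_pos k).ne'
  -- v of order p
  set v := k ^ (n * t) with hv
  have hvord : orderOf v = p := by
    have h1 : orderOf k / p = n * t := by
      rw [hk, ht]
      have : n * p * t = p * (n * t) := by ring
      rw [this, Nat.mul_div_cancel_left _ hpp.pos]
    have := orderOf_pow_orderOf_div (x := k) (n := p) (by rw [hk]; exact hE0) (by rw [hk]; exact hpE)
    rwa [h1] at this
  -- decomposition of k
  have hmem : k ∈ (B : Set K) * (zpowers y : Set K) := by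
    rw [← Subgroup.normal_mul, hgen]; trivial
  obtain ⟨b₀, hb₀, c, hc, hkc⟩ := Set.mem_mul.mp hmem
  rw [SetLike.mem_coe] at hb₀ hc
  have hπ : ∀ j : ℤ, (c ^ j)⁻¹ * k ^ j ∈ B := by
    intro j
    have h1 : (QuotientGroup.mk' B) k = (QuotientGroup.mk' B) c := by
      rw [← hkc, map_mul]
      have : (QuotientGroup.mk' B) b₀ = 1 := (QuotientGroup.eq_one_iff _).mpr hb₀
      rw [this, one_mul]
    have h2 : (QuotientGroup.mk' B) (c ^ j) = (QuotientGroup.mk' B) (k ^ j) := by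
      rw [map_zpow, map_zpow, h1]
    exact QuotientGroup.eq.mp h2
  have hcn : c ^ n = 1 := orderOf_dvd_iff_pow_eq_one.mp (orderOf_dvd_of_mem_zpowers hc)
  have hknB : k ^ n ∈ B := by
    have := hπ (n : ℤ)
    rw [zpow_natCast, zpow_natCast, hcn, inv_one, one_mul] at this
    exact this
  have hvB : v ∈ B := by
    rw [hv, pow_mul]; exact B.pow_mem hknB t
  -- c has order n
  have hcord : orderOf c = n := by
    apply Nat.dvd_antisymm (orderOf_dvd_of_pow_eq_one hcn)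
    have h1 : k ^ orderOf c ∈ B := by
      have := hπ (orderOf c : ℤ)
      rw [zpow_natCast, zpow_natCast, pow_orderOf_eq_one, inv_one, one_mul] at this
      exact this
    obtain ⟨j, hj⟩ := hB ⟨_, h1⟩
    have hj' : (k ^ orderOf c) ^ p ^ j = 1 := by
      have := congrArg Subtype.val hj
      simpa using this
    rw [← pow_mul] at hj'
    have h2 : E ∣ orderOf c * p ^ j := by rw [← hk]; exact orderOf_dvd_of_pow_eq_one hj'
    have h3 : n ∣ orderOf c * p ^ j := hnE.trans h2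
    exact (Nat.Coprime.dvd_mul_right (Nat.Coprime.pow_right j hy)).mp h3
  have hzp : zpowers c = zpowers y := by
    apply Subgroup.eq_of_le_of_card_ge
    · rw [zpowers_le]; exact hc
    · rw [Nat.card_zpowers, Nat.card_zpowers, hcord]
  have hyc : y ∈ zpowers c := by rw [hzp]; exact mem_zpowers y
  obtain ⟨i, hi⟩ := mem_zpowers_iff.mp hyc
  set g := k ^ i with hg
  have hgB : y⁻¹ * g ∈ B := by
    have := hπ i
    rwa [hi] at this
  have hgv : g * v = v * g := by
    have h1 : Commute k k := Commute.refl k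
    exact ((h1.zpow_left i).pow_right (n * t)).eq
  -- conjugate
  have hinj : Function.Injective (fun d : B => (⟨y⁻¹ * d * y * (d : K)⁻¹,
      B.mul_mem (by
        have := Subgroup.Normal.conj_mem (inferInstance : B.Normal) d d.2 y⁻¹
        rwa [inv_inv] at this) (B.inv_mem d.2)⟩ : B)) := by
    intro d e hde
    have h1 : y⁻¹ * (d : K) * y * (d : K)⁻¹ = y⁻¹ * (e : K) * y * (e : K)⁻¹ := congrArg Subtype.val hde
    have h2 : y * ((e : K)⁻¹ * d) = ((e : K)⁻¹ * d) * y := by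
      have h3 : (d : K) * y * (d : K)⁻¹ = (e : K) * y * (e : K)⁻¹ := by
        have := congrArg (fun z => y * z) h1
        simpa [mul_assoc] using this
      calc y * ((e : K)⁻¹ * d) = (e : K)⁻¹ * ((e : K) * y * (e : K)⁻¹) * d := by group
        _ = (e : K)⁻¹ * ((d : K) * y * (d : K)⁻¹) * d := by rw [h3]
        _ = ((e : K)⁻¹ * d) * y := by group
    have h4 := hfpf _ (B.mul_mem (B.inv_mem e.2) d.2) h2
    ext
    have : (d : K) = e := by
      calc (d : K) = e * ((e : K)⁻¹ * d) := by group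
        _ = e := by rw [h4, mul_one]
    exact this
  have hsurj := Finite.injective_iff_surjective.mp hinj
  obtain ⟨d, hd⟩ := hsurj ⟨y⁻¹ * g, hgB⟩
  have hd' : y⁻¹ * (d : K) * y * (d : K)⁻¹ = y⁻¹ * g := congrArg Subtype.val hd
  have hdg : (d : K) * y * (d : K)⁻¹ = g := by
    have := congrArg (fun z => y * z) hd'
    simpa [mul_assoc] using this
  have hfix : y * ((d : K)⁻¹ * v * d) = ((d : K)⁻¹ * v * d) * y := by
    calc y * ((d : K)⁻¹ * v * d) = (d : K)⁻¹ * (((d : K) * y * (d : K)⁻¹) * v) * d := by group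
      _ = (d : K)⁻¹ * (v * ((d : K) * y * (d : K)⁻¹)) * d := by rw [hdg, hgv]
      _ = ((d : K)⁻¹ * v * d) * y := by group
  have hv1 := hfpf _ (B.mul_mem (B.mul_mem (B.inv_mem d.2) hvB) d.2) hfix
  have hv1' : v = 1 := by
    calc v = d * ((d : K)⁻¹ * v * d) * (d : K)⁻¹ := by group
      _ = 1 := by rw [hv1]; group
  rw [hv1', orderOf_one] at hvord
  exact hpp.one_lt.ne hvord

end abstract
section main
variable {G : Type*} [Group G] [Finite G]

omit [Finite G] in
theorem card_subgroupOf' (H K : Subgroup G) :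
    Nat.card (H.subgroupOf K) = Nat.card (H ⊓ K : Subgroup G) := by
  rw [← Subgroup.inf_subgroupOf_right]
  exact Nat.card_congr (Subgroup.subgroupOfEquivOfLe inf_le_right).toEquiv

omit [Finite G] in
theorem mem_sup_of_le_normalizer {N A : Subgroup G}
    (hA : A ≤ Subgroup.normalizer (N : Set G)) {x : G} (hx : x ∈ N ⊔ A) :
    ∃ n ∈ N, ∃ a ∈ A, x = n * a := by
  rw [← SetLike.mem_coe, Subgroup.coe_mul_of_right_le_normalizer_left N A hA, Set.mem_mul] at hx
  obtain ⟨n, hn, d, hd, rfl⟩ := hx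
  exact ⟨n, hn, d, hd, rfl⟩

theorem key (p : ℕ) [Fact p.Prime] (Q : Subgroup G) (hQ : IsPGroup p Q) (x : G)
    (hxN : x ∈ normalizer (Q : Set G))
    (hxc : (orderOf x).Coprime p) (hnc : ∃ h ∈ Q, x * h ≠ h * x) :
    ∃ (H : Subgroup G) (N : Subgroup H) (_ : N.Normal), Cfsg.pPrimeCore p (H ⧸ N) = ⊥ ∧
      ¬ ∃ k : H ⧸ N, orderOf k = Monoid.exponent (H ⧸ N) := by
  classical
  have hpp : p.Prime := Fact.out
  have hzN : zpowers x ≤ normalizer (Q : Set G) := by rw [zpowers_le]; exact hxN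
  have hcQ : ∀ c ∈ zpowers x, ∀ h ∈ Q, c * h * c⁻¹ ∈ Q :=
    fun c hc h hh => (mem_normalizer_iff.mp (hzN hc) h).mp hh
  let Pr : Subgroup G → Prop := fun M => M ≤ Q ∧ (∀ h ∈ Q, ∀ m ∈ M, h * m * h⁻¹ ∈ M) ∧
    (∀ m ∈ M, x * m * x⁻¹ ∈ M) ∧ (∀ m ∈ M, x⁻¹ * m * x ∈ M) ∧ (∃ h ∈ Q, x * h * x⁻¹ * h⁻¹ ∉ M)
  have hPr0 : Pr ⊥ := by
    refine ⟨bot_le, ?_, ?_, ?_, ?_⟩
    · intro h hh m hm; rw [mem_bot] at hm ⊢; subst hm; group
    · intro m hm; rw [mem_bot] at hm ⊢; subst hm; group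
    · intro m hm; rw [mem_bot] at hm ⊢; subst hm; group
    · obtain ⟨h, hh, hne⟩ := hnc
      refine ⟨h, hh, ?_⟩
      rw [mem_bot]
      intro h1
      apply hne
      calc x * h = (x * h * x⁻¹ * h⁻¹) * h * x := by group
        _ = h * x := by rw [h1, one_mul]
  obtain ⟨M, -, hmax⟩ := Finite.exists_le_maximal (p := Pr) hPr0
  obtain ⟨hMQ, hMh, hMx, hMx', hMnt⟩ := hmax.prop
  have hcM' : ∀ i : ℤ, ∀ m ∈ M, x ^ i * m * (x ^ i)⁻¹ ∈ M := by
    intro i
    induction i with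
    | zero => intro m hm; simpa using hm
    | succ i ih =>
      intro m hm
      have e : x ^ ((i : ℤ) + 1) * m * (x ^ ((i : ℤ) + 1))⁻¹
          = x ^ (i : ℤ) * (x * m * x⁻¹) * (x ^ (i : ℤ))⁻¹ := by
        rw [zpow_add_one]; group
      rw [e]; exact ih _ (hMx m hm)
    | pred i ih =>
      intro m hm
      have e : x ^ (-(i : ℤ) - 1) * m * (x ^ (-(i : ℤ) - 1))⁻¹
          = x ^ (-(i : ℤ)) * (x⁻¹ * m * x) * (x ^ (-(i : ℤ)))⁻¹ := by
        rw [zpow_sub_one]; group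
      rw [e]; exact ih _ (hMx' m hm)
  have hcM : ∀ c ∈ zpowers x, ∀ m ∈ M, c * m * c⁻¹ ∈ M := by
    intro c hc
    obtain ⟨i, rfl⟩ := mem_zpowers_iff.mp hc
    exact hcM' i
  let C : Subgroup G :=
    { carrier := {c | c ∈ zpowers x ∧ ∀ h ∈ Q, c * h * c⁻¹ * h⁻¹ ∈ M}
      one_mem' := ⟨one_mem _, fun h hh => by simp⟩
      mul_mem' := by
        rintro c d ⟨hc, hc'⟩ ⟨hd, hd'⟩
        refine ⟨mul_mem hc hd, fun h hh => ?_⟩
        have e : c * d * h * (c * d)⁻¹ * h⁻¹ = c * (d * h * d⁻¹ * h⁻¹) * c⁻¹ * (c * h * c⁻¹ * h⁻¹) := by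
          group
        rw [e]
        exact M.mul_mem (hcM c hc _ (hd' h hh)) (hc' h hh)
      inv_mem' := by
        rintro c ⟨hc, hc'⟩
        refine ⟨inv_mem hc, fun h hh => ?_⟩
        have e : c⁻¹ * h * c⁻¹⁻¹ * h⁻¹ = c⁻¹ * (c * h * c⁻¹ * h⁻¹)⁻¹ * c⁻¹⁻¹ := by group
        rw [e]
        exact hcM c⁻¹ (inv_mem hc) _ (M.inv_mem (hc' h hh)) }
  have hCmem : ∀ c, c ∈ C ↔ c ∈ zpowers x ∧ ∀ h ∈ Q, c * h * c⁻¹ * h⁻¹ ∈ M := fun c => Iff.rfl
  set H : Subgroup G := Q ⊔ zpowers x with hH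
  have hQH : Q ≤ H := le_sup_left
  have hzH : zpowers x ≤ H := le_sup_right
  have hxH : x ∈ H := hzH (mem_zpowers x)
  have hdec : ∀ g ∈ H, ∃ h ∈ Q, ∃ c ∈ zpowers x, g = h * c := fun g hg =>
    mem_sup_of_le_normalizer hzN hg
  let N : Subgroup H :=
    { carrier := {g | ∃ m ∈ M, ∃ c ∈ C, (g : G) = m * c}
      one_mem' := ⟨1, one_mem _, 1, one_mem _, by simp⟩
      mul_mem' := by
        rintro g g' ⟨m, hm, c, hc, e⟩ ⟨m', hm', c', hc', e'⟩
        refine ⟨m * (c * m' * c⁻¹), M.mul_mem hm (hcM c hc.1 m' hm'), c * c', mul_mem hc hc', ?_⟩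
        rw [Subgroup.coe_mul, e, e']; group
      inv_mem' := by
        rintro g ⟨m, hm, c, hc, e⟩
        refine ⟨c⁻¹ * m⁻¹ * c⁻¹⁻¹, hcM c⁻¹ (inv_mem hc.1) _ (M.inv_mem hm), c⁻¹, inv_mem hc, ?_⟩
        rw [Subgroup.coe_inv, e]; group }
  have hNmem : ∀ g : H, g ∈ N ↔ ∃ m ∈ M, ∃ c ∈ C, (g : G) = m * c := fun g => Iff.rfl
  have hNn : N.Normal := by
    constructor
    intro n hn g
    obtain ⟨m, hm, c, hc, e⟩ := (hNmem n).mp hn
    obtain ⟨h, hh, d, hd, eg⟩ := hdec g.1 g.2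
    rw [hNmem]
    have hcd : d * c = c * d := by
      obtain ⟨i, rfl⟩ := mem_zpowers_iff.mp hd
      obtain ⟨j, rfl⟩ := mem_zpowers_iff.mp hc.1
      exact (Commute.zpow_zpow_self x i j).eq
    refine ⟨h * (d * m * d⁻¹) * h⁻¹ * (c * h * c⁻¹ * h⁻¹)⁻¹, ?_, c, hc, ?_⟩
    · exact M.mul_mem (hMh h hh _ (hcM d hd m hm)) (M.inv_mem (hc.2 h hh))
    · rw [Subgroup.coe_mul, Subgroup.coe_mul, Subgroup.coe_inv, e, eg]
      have e1 : h * d * (m * c) * (h * d)⁻¹ = h * (d * m * d⁻¹) * (d * c) * d⁻¹ * h⁻¹ := by group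
      rw [e1, hcd]; group
  have hstar : ∀ g : H, g ∈ N → (g : G) ∈ Q → (g : G) ∈ M := by
    intro g hg hgQ
    obtain ⟨m, hm, c, hc, e⟩ := (hNmem g).mp hg
    have hcQ' : c ∈ Q := by
      have : c = m⁻¹ * (g : G) := by rw [e]; group
      rw [this]; exact Q.mul_mem (Q.inv_mem (hMQ hm)) hgQ
    obtain ⟨j, hj⟩ := hQ ⟨c, hcQ'⟩
    have hj' : c ^ p ^ j = 1 := by
      have := congrArg Subtype.val hj
      simpa using this
    have h3 : orderOf c ∣ (orderOf x).gcd (p ^ j) :=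
      Nat.dvd_gcd (orderOf_dvd_of_mem_zpowers hc.1) (orderOf_dvd_of_pow_eq_one hj')
    have h4 : (orderOf x).gcd (p ^ j) = 1 := Nat.Coprime.pow_right j hxc
    rw [h4, Nat.dvd_one, orderOf_eq_one_iff] at h3
    rw [e, h3, mul_one]; exact hm
  have hMN : ∀ m (hm : m ∈ M), (⟨m, hQH (hMQ hm)⟩ : H) ∈ N := fun m hm =>
    (hNmem _).mpr ⟨m, hm, 1, one_mem _, by simp⟩
  have hCN : ∀ c (hc : c ∈ C), (⟨c, hzH hc.1⟩ : H) ∈ N := fun c hc =>
    (hNmem _).mpr ⟨1, one_mem _, c, hc, by simp⟩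
  have := hNn
  let π : H →* H ⧸ N := QuotientGroup.mk' N
  have hπs : Function.Surjective π := QuotientGroup.mk'_surjective N
  have hπ1 : ∀ g : H, π g = 1 ↔ g ∈ N := fun g => QuotientGroup.eq_one_iff g
  let x' : H := ⟨x, hxH⟩
  set y : H ⧸ N := π x' with hy
  have hHN : H ≤ normalizer (Q : Set G) := sup_le le_normalizer hzN
  have hQHn : (Q.subgroupOf H).Normal := normal_subgroupOf_of_le_normalizer hHN
  set B : Subgroup (H ⧸ N) := (Q.subgroupOf H).map π with hB
  have hBn : B.Normal := Subgroup.Normal.map hQHn π hπs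
  have hBp : IsPGroup p B := by
    have h1 : IsPGroup p (Q.subgroupOf H) := by
      rw [← Subgroup.comap_subtype]; exact hQ.comap_subtype
    exact h1.map π
  have hBmem : ∀ b, b ∈ B ↔ ∃ h, ∃ hh : h ∈ Q, b = π ⟨h, hQH hh⟩ := by
    intro b
    rw [hB, Subgroup.mem_map]
    constructor
    · rintro ⟨g, hg, rfl⟩
      exact ⟨g.1, mem_subgroupOf.mp hg, rfl⟩
    · rintro ⟨h, hh, rfl⟩
      exact ⟨⟨h, hQH hh⟩, mem_subgroupOf.mpr hh, rfl⟩
  have hymem : ∀ c, c ∈ zpowers y ↔ ∃ i : ℤ, c = π (x' ^ i) := by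
    intro c
    rw [mem_zpowers_iff]
    constructor
    · rintro ⟨i, rfl⟩; exact ⟨i, by rw [hy, map_zpow]⟩
    · rintro ⟨i, rfl⟩; exact ⟨i, by rw [hy, map_zpow]⟩
  have hgen : B ⊔ zpowers y = ⊤ := by
    rw [eq_top_iff]
    intro k _
    obtain ⟨g, rfl⟩ := hπs k
    obtain ⟨h, hh, d, hd, eg⟩ := hdec g.1 g.2
    obtain ⟨i, rfl⟩ := mem_zpowers_iff.mp hd
    have e : g = ⟨h, hQH hh⟩ * x' ^ i := by
      ext; rw [Subgroup.coe_mul, Subgroup.coe_zpow]; exact eg
    rw [e, map_mul]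
    exact Subgroup.mul_mem _ (le_sup_left (a := B) ((hBmem _).mpr ⟨h, hh, rfl⟩))
      (le_sup_right (a := B) ((hymem _).mpr ⟨i, rfl⟩))
  have hyc : (orderOf y).Coprime p := by
    have h1 : orderOf y ∣ orderOf x' := orderOf_map_dvd π x'
    have h2 : orderOf x' = orderOf x := Subgroup.orderOf_mk x hxH
    rw [h2] at h1
    exact Nat.Coprime.coprime_dvd_left h1 hxc
  -- commuting in the quotient
  have hdia : ∀ (i : ℤ) (h : G) (hh : h ∈ Q), π (x' ^ i) * π ⟨h, hQH hh⟩ = π ⟨h, hQH hh⟩ * π (x' ^ i) →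
      x ^ i * h * (x ^ i)⁻¹ * h⁻¹ ∈ M := by
    intro i h hh hcomm
    have h1 : π (x' ^ i * ⟨h, hQH hh⟩ * (x' ^ i)⁻¹ * (⟨h, hQH hh⟩ : H)⁻¹) = 1 := by
      rw [map_mul, map_mul, map_mul, hcomm, map_inv, map_inv]; group
    rw [hπ1] at h1
    have h2 := hstar _ h1 (by
      simp only [Subgroup.coe_mul, Subgroup.coe_inv, Subgroup.coe_zpow]
      exact Q.mul_mem (hcQ _ (zpow_mem (mem_zpowers x) i) h hh) (Q.inv_mem hh))
    simpa only [Subgroup.coe_mul, Subgroup.coe_inv, Subgroup.coe_zpow] using h2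
  have hnt : ∃ b ∈ B, y * b ≠ b * y := by
    obtain ⟨h, hh, hne⟩ := hMnt
    refine ⟨π ⟨h, hQH hh⟩, (hBmem _).mpr ⟨h, hh, rfl⟩, ?_⟩
    intro hcomm
    have := hdia 1 h hh (by simpa using hcomm)
    rw [zpow_one] at this
    exact hne this
  have hfaith : ∀ c ∈ zpowers y, (∀ b ∈ B, c * b = b * c) → c = 1 := by
    intro c hc hcb
    obtain ⟨i, rfl⟩ := (hymem c).mp hc
    rw [hπ1]
    have hC : x ^ i ∈ C := by
      rw [hCmem]
      refine ⟨zpow_mem (mem_zpowers x) i, fun h hh => ?_⟩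
      exact hdia i h hh (hcb _ ((hBmem _).mpr ⟨h, hh, rfl⟩))
    have := hCN _ hC
    have e : (⟨x ^ i, hzH hC.1⟩ : H) = x' ^ i := by
      ext; rw [Subgroup.coe_zpow]
    rwa [e] at this
  have hmin : ∀ W : Subgroup (H ⧸ N), W ≤ B → W ≠ ⊥ → W.Normal →
      ∀ b ∈ B, y * b * y⁻¹ * b⁻¹ ∈ W := by
    intro W hWB hWne hWn
    by_contra hcon
    push Not at hcon
    obtain ⟨b, hb, hbW⟩ := hcon
    obtain ⟨h, hh, rfl⟩ := (hBmem b).mp hb
    let M' : Subgroup G := ((W.comap π) ⊓ Q.subgroupOf H).map H.subtype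
    have hM'mem : ∀ g, g ∈ M' ↔ ∃ hg : g ∈ Q, π ⟨g, hQH hg⟩ ∈ W := by
      intro g
      constructor
      · rintro ⟨g', hg', rfl⟩
        obtain ⟨h1, h2⟩ := Subgroup.mem_inf.mp hg'
        exact ⟨mem_subgroupOf.mp h2, Subgroup.mem_comap.mp h1⟩
      · rintro ⟨hg, hgW⟩
        exact ⟨⟨g, hQH hg⟩, Subgroup.mem_inf.mpr ⟨Subgroup.mem_comap.mpr hgW, mem_subgroupOf.mpr hg⟩, rfl⟩
    have hconj : ∀ (a : H) (m : G), m ∈ M' → (a : G) * m * (a : G)⁻¹ ∈ M' := by
      intro a m hm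
      obtain ⟨hmQ, hmW⟩ := (hM'mem m).mp hm
      have haN := hHN a.2
      have h1 : (a : G) * m * (a : G)⁻¹ ∈ Q := (mem_normalizer_iff.mp haN m).mp hmQ
      refine (hM'mem _).mpr ⟨h1, ?_⟩
      have e : (⟨(a : G) * m * (a : G)⁻¹, hQH h1⟩ : H) = a * ⟨m, hQH hmQ⟩ * a⁻¹ := by
        ext; simp
      rw [e, map_mul, map_mul, map_inv]
      exact hWn.conj_mem _ hmW _
    have hPr : Pr M' := by
      refine ⟨?_, ?_, ?_, ?_, ?_⟩
      · intro g hg; exact ((hM'mem g).mp hg).1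
      · intro k hk m hm; exact hconj ⟨k, hQH hk⟩ m hm
      · intro m hm; exact hconj x' m hm
      · intro m hm
        have := hconj x'⁻¹ m hm
        simpa using this
      · refine ⟨h, hh, ?_⟩
        intro hmem
        obtain ⟨h1, h2⟩ := (hM'mem _).mp hmem
        apply hbW
        have e : (⟨x * h * x⁻¹ * h⁻¹, hQH h1⟩ : H) = x' * ⟨h, hQH hh⟩ * x'⁻¹ * (⟨h, hQH hh⟩ : H)⁻¹ := by
          ext; simp [x']
        rw [e, map_mul, map_mul, map_mul, map_inv, map_inv] at h2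
        exact h2
    have hMM' : M ≤ M' := by
      intro m hm
      refine (hM'mem m).mpr ⟨hMQ hm, ?_⟩
      have : π ⟨m, hQH (hMQ hm)⟩ = 1 := (hπ1 _).mpr (hMN m hm)
      rw [this]; exact W.one_mem
    have hM'M : M' ≤ M := hmax.le_of_ge hPr hMM'
    apply hWne
    rw [eq_bot_iff]
    intro w hw
    rw [mem_bot]
    obtain ⟨g, hg, rfl⟩ := (hBmem w).mp (hWB hw)
    have h1 : g ∈ M' := (hM'mem g).mpr ⟨hg, hw⟩
    exact (hπ1 _).mpr (hMN g (hM'M h1))
  have hBne : B ≠ ⊥ := by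
    rintro hbot
    obtain ⟨b, hb, hne⟩ := hnt
    rw [hbot, mem_bot] at hb; subst hb; simp at hne
  have hfpf := fpf_of_min p B hBp y hgen hyc hnt hmin
  exact ⟨H, N, hNn, core_bot p B hBp y hgen hyc hfaith, no_exp p B hBp y hgen hyc hBne hfpf⟩

theorem forward (p : ℕ) [Fact p.Prime] (hc : Cfsg.HasNormalPComplement p G) (H : Subgroup G)
    (N : Subgroup H) [N.Normal] (hcore : Cfsg.pPrimeCore p (H ⧸ N) = ⊥) :
    ∃ k : H ⧸ N, orderOf k = Monoid.exponent (H ⧸ N) := by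
  classical
  have hpp : p.Prime := Fact.out
  obtain ⟨P, N₀, hN₀n, hcompl⟩ := hc
  have hcard : Nat.card N₀ * Nat.card P = Nat.card G := hcompl.card_mul_card
  have hP : Nat.card P = p ^ (Nat.card G).factorization p := P.card_eq_multiplicity
  have hcop : (Nat.card N₀).Coprime p := by
    rw [Nat.coprime_comm, Nat.Prime.coprime_iff_not_dvd hpp]
    intro hdvd
    have h1 : p * Nat.card P ∣ Nat.card N₀ * Nat.card P := Nat.mul_dvd_mul_right hdvd _
    rw [hcard, hP, ← pow_succ'] at h1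
    exact Nat.pow_succ_factorization_not_dvd (Nat.card_pos.ne') hpp h1
  have hidx : N₀.index = p ^ (Nat.card G).factorization p := by
    have h1 := N₀.card_mul_index
    rw [← hcard] at h1
    have h0 : 0 < Nat.card N₀ := Nat.card_pos
    rw [← hP]; exact Nat.eq_of_mul_eq_mul_left h0 h1
  set v := (Nat.card G).factorization p with hv
  let π : H →* H ⧸ N := QuotientGroup.mk' N
  have hπs : Function.Surjective π := QuotientGroup.mk'_surjective N
  have hR : (N₀.subgroupOf H).map π ≤ Cfsg.pPrimeCore p (H ⧸ N) := by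
    unfold Cfsg.pPrimeCore
    apply le_sSup
    refine ⟨Subgroup.Normal.map inferInstance π hπs, ?_⟩
    have h1 : Nat.card ((N₀.subgroupOf H).map π) ∣ Nat.card (N₀.subgroupOf H) :=
      Subgroup.card_map_dvd _ π
    have h2 : Nat.card (N₀.subgroupOf H) ∣ Nat.card N₀ := by
      rw [card_subgroupOf']; exact Subgroup.card_dvd_of_le inf_le_left
    exact Nat.Coprime.coprime_dvd_left (h1.trans h2) hcop
  rw [hcore, le_bot_iff] at hR
  have hpow : ∀ k : H ⧸ N, k ^ p ^ v = 1 := by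
    intro k
    obtain ⟨g, rfl⟩ := hπs k
    have h1 : (g : G) ^ p ^ v ∈ N₀ := by rw [← hidx]; exact N₀.pow_index_mem g
    have h2 : g ^ p ^ v ∈ N₀.subgroupOf H := by rw [mem_subgroupOf]; simpa using h1
    have h3 : π (g ^ p ^ v) ∈ (N₀.subgroupOf H).map π := mem_map_of_mem _ h2
    rw [hR, mem_bot, map_pow] at h3
    exact h3
  have hexp : Monoid.exponent (H ⧸ N) ∣ p ^ v := Monoid.exponent_dvd_of_forall_pow_eq_one hpow
  obtain ⟨e, -, he⟩ := (Nat.dvd_prime_pow hpp).mp hexp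
  by_contra hcon
  push Not at hcon
  rcases Nat.eq_zero_or_pos e with rfl | hepos
  · exact hcon 1 (by rw [orderOf_one, he, pow_zero])
  · have h5 : Monoid.exponent (H ⧸ N) ∣ p ^ (e - 1) := by
      apply Monoid.exponent_dvd_of_forall_pow_eq_one
      intro k
      have h1 : orderOf k ∣ p ^ e := by rw [← he]; exact Monoid.order_dvd_exponent k
      obtain ⟨j, hj, hj'⟩ := (Nat.dvd_prime_pow hpp).mp h1
      have hjne : j ≠ e := by rintro rfl; exact hcon k (by rw [hj', he])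
      have : orderOf k ∣ p ^ (e - 1) := by rw [hj']; exact pow_dvd_pow p (by omega)
      exact orderOf_dvd_iff_pow_eq_one.mp this
    rw [he] at h5
    have := (Nat.pow_dvd_pow_iff_le_right hpp.one_lt).mp h5
    omega

end main

/-- Let G be a finite group and p a prime. Then G has a normal p-complement if and only if every section K = H/N of G (N a normal subgroup of a subgroup H) whose largest normal subgroup of order prime to p is trivial contains an element whose order equals the exponent of K. -/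
theorem result {G : Type*} [Group G] [Finite G] (p : ℕ) [Fact p.Prime] :
    Cfsg.HasNormalPComplement p G ↔
      ∀ (H : Subgroup G) (N : Subgroup H) [N.Normal], Cfsg.pPrimeCore p (H ⧸ N) = ⊥ →
        ∃ k : H ⧸ N, orderOf k = Monoid.exponent (H ⧸ N) := by
  constructor
  · intro hc H N _ hcore
    exact forward p hc H N hcore
  · intro h
    by_contra hno
    have P : Sylow p G := default
    have h1 : ¬ ∃ N : Subgroup G, N.Normal ∧ N.IsComplement' (P : Subgroup G) :=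
      fun ⟨N, hN⟩ => hno ⟨P, N, hN⟩
    rw [Cfsg.Agent.S0071.result P] at h1
    push Not at h1
    obtain ⟨Q, hQP, g, hgN, hgc, hgC⟩ := h1
    have hnc : ∃ h ∈ Q, g * h ≠ h * g := by
      by_contra hcon
      push Not at hcon
      apply hgC
      rw [Subgroup.mem_centralizer_iff]
      intro h hh
      exact (hcon h hh).symm
    obtain ⟨H, N, hNn, hcore, hne⟩ := key p Q (P.isPGroup'.to_le hQP) g hgN hgc hnc
    exact hne (@h H N hNn hcore)

end Cfsg.Agent.S4238
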