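import Cfsg.Statements.S4249
import Mathlib
import Cfsg.Agent.Lib.helper29.HTK

set_option autoImplicit false
open Cfsg

namespace Cfsg.Agent.S4249

/-- Let G be a finite group and p a prime such that G is not a p-group, and suppose the Hughes subgroup H_p(G), generated by all elements g with g^p ≠ 1, is a proper subgroup. Then H_p(G) is nilpotent and has index p in G. -/
theorem result {G : Type*} [Group G] [Finite G] (p : ℕ) (hp : p.Prime) (hG : ¬ IsPGroup p G)
    (hH : Subgroup.closure {g : G | g ^ p ≠ 1} ≠ ⊤) :
    Group.IsNilpotent (Subgroup.closure {g : G | g ^ p ≠ 1}) ∧ (Subgroup.closure {g : G | g ^ p ≠ 1}).index = p := by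
  have hHT : Cfsg.Agent.Lib.helper29.HT p G (Subgroup.closure {g : G | g ^ p ≠ 1}) := by
    refine ⟨?_, hH, ?_⟩
    · constructor
      intro n hn g
      have hS : ∀ x ∈ {g : G | g ^ p ≠ 1}, g * x * g⁻¹ ∈ {g : G | g ^ p ≠ 1} := by
        intro x hx
        simp only [Set.mem_setOf_eq] at hx ⊢
        rw [conj_pow]
        intro h1
        apply hx
        have h2 := congrArg (fun t => g⁻¹ * t * g) h1
        simp only [mul_one, inv_mul_cancel] at h2
        rw [← h2]; group
      have hle : Subgroup.closure {g : G | g ^ p ≠ 1} ≤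
          (Subgroup.closure {g : G | g ^ p ≠ 1}).comap (MulAut.conj g).toMonoidHom :=
        (Subgroup.closure_le _).mpr (fun x hx => Subgroup.subset_closure (hS x hx))
      exact hle hn
    · intro g hg
      by_contra hne
      exact hg (Subgroup.subset_closure hne)
  exact ⟨Cfsg.Agent.Lib.helper29.htk_nilp hp hHT, Cfsg.Agent.Lib.helper29.htk_index hp hHT hG⟩

end Cfsg.Agent.S4249
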