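import Cfsg.Statements.S4261
-- import your own Cfsg.Agent.* helpers here
import Mathlib

set_option autoImplicit false
open Cfsg

namespace Cfsg.Agent.S4261

theorem coprime_bezout_mem {G : Type*} [Group G] (S : Subgroup G) (y : G) (a b : ℕ)
    (hab : Nat.Coprime a b) (ha : y ^ a ∈ S) (hb : y ^ b ∈ S) : y ∈ S := by
  have h := (Nat.isCoprime_iff_coprime (m := a) (n := b)).mpr hab
  obtain ⟨u, v, huv⟩ := h
  have : y = (y ^ a) ^ u * (y ^ b) ^ v := by
    rw [← zpow_natCast y a, ← zpow_natCast y b, ← zpow_mul, ← zpow_mul, ← zpow_add]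
    have : (a:ℤ) * u + (b:ℤ) * v = 1 := by linarith
    rw [this, zpow_one]
  rw [this]
  exact S.mul_mem (S.zpow_mem ha u) (S.zpow_mem hb v)

theorem core_free_case {Q : Type*} [Group Q] [Finite Q] (hQ : Group.IsSolvable Q)
    (M : Subgroup Q) (hM : IsCoatom M)
    (hcore : M.normalCore = ⊥) (hexp : ∀ x : Q, x ^ M.index ∈ M) : M.Normal := by
  classical
  have hnt : Nontrivial Q := by
    by_contra h
    rw [not_nontrivial_iff_subsingleton] at h
    exact hM.1 (Subsingleton.elim _ _)
  have hex : ∃ n, derivedSeries Q n = ⊥ := hQ.solvable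
  have hn0spec : derivedSeries Q (Nat.find hex) = ⊥ := Nat.find_spec hex
  have hn0ne : Nat.find hex ≠ 0 := by
    intro h0
    rw [h0, derivedSeries_zero] at hn0spec
    exact top_ne_bot hn0spec
  obtain ⟨k, hk⟩ : ∃ k, Nat.find hex = k + 1 := Nat.exists_eq_succ_of_ne_zero hn0ne
  obtain ⟨D, hD⟩ : ∃ D : Subgroup Q, D = derivedSeries Q k := ⟨_, rfl⟩
  have hDne : D ≠ ⊥ := by
    rw [hD]
    exact Nat.find_min hex (by omega : k < Nat.find hex)
  have hDn : D.Normal := by rw [hD]; exact derivedSeries_normal Q k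
  have hDcomm : ∀ a ∈ D, ∀ b ∈ D, a * b = b * a := by
    have h1 : ⁅D, D⁆ = ⊥ := by rw [hD, ← derivedSeries_succ, ← hk]; exact hn0spec
    rw [Subgroup.commutator_eq_bot_iff_le_centralizer] at h1
    intro a ha b hb
    exact (Subgroup.mem_centralizer_iff.mp (h1 ha) b hb).symm
  have hDcard : Nat.card D ≠ 1 := by
    intro h; exact hDne (Subgroup.card_eq_one.mp h)
  obtain ⟨p, hp, hpd⟩ := Nat.exists_prime_and_dvd hDcard
  have : Fact p.Prime := ⟨hp⟩
  obtain ⟨P, hPmem⟩ : ∃ P : Subgroup Q, ∀ d : Q, d ∈ P ↔ (d ∈ D ∧ ∃ k : ℕ, d ^ p ^ k = 1) :=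
    ⟨{ carrier := {d | d ∈ D ∧ ∃ k : ℕ, d ^ p ^ k = 1}
       one_mem' := ⟨D.one_mem, 0, one_pow _⟩
       mul_mem' := by
         rintro a b ⟨ha, ka, hka⟩ ⟨hb, kb, hkb⟩
         refine ⟨D.mul_mem ha hb, ka + kb, ?_⟩
         rw [(show Commute a b from hDcomm a ha b hb).mul_pow, pow_add, pow_mul, hka, one_pow,
           one_mul, mul_comm (p ^ ka), pow_mul, hkb, one_pow]
       inv_mem' := by
         rintro a ⟨ha, ka, hka⟩
         exact ⟨D.inv_mem ha, ka, by rw [inv_pow, hka, inv_one]⟩ }, fun d => Iff.rfl⟩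
  have hPn : P.Normal := ⟨by
    intro a ha g
    rw [hPmem] at ha ⊢
    obtain ⟨ha, ka, hka⟩ := ha
    exact ⟨hDn.conj_mem a ha g, ka, by rw [conj_pow, hka]; simp⟩⟩
  have hPD : P ≤ D := fun a ha => ((hPmem a).mp ha).1
  have hPne : P ≠ ⊥ := by
    obtain ⟨d, hd⟩ := exists_prime_orderOf_dvd_card' (G := D) p hpd
    intro hbot
    have hmem : (d : Q) ∈ P := by
      rw [hPmem]
      refine ⟨d.2, 1, ?_⟩
      rw [pow_one, ← hd, ← Subgroup.orderOf_coe, pow_orderOf_eq_one]
    rw [hbot, Subgroup.mem_bot] at hmem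
    have : d = 1 := Subtype.ext hmem
    rw [this, orderOf_one] at hd
    exact hp.one_lt.ne hd
  have hPM : ¬ P ≤ M := by
    intro h
    have := Subgroup.normal_le_normalCore.mpr h
    rw [hcore] at this
    exact hPne (le_bot_iff.mp this)
  have hsup : P ⊔ M = ⊤ := by
    apply hM.2
    exact lt_of_le_of_ne le_sup_right (fun h => hPM (h ▸ le_sup_left))
  have hinf : P ⊓ M = ⊥ := by
    have hn : (P ⊓ M).Normal := by
      have hle : P ⊔ M ≤ Subgroup.normalizer ((P ⊓ M : Subgroup Q) : Set Q) := by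
        apply sup_le
        · intro a ha
          apply Subgroup.mem_normalizer_fintype
          intro y hy
          have : a * y * a⁻¹ = y := by
            rw [hDcomm a (hPD ha) y (hPD hy.1)]; group
          rw [this]; exact hy
        · intro a ha
          apply Subgroup.mem_normalizer_fintype
          intro y hy
          exact ⟨hPn.conj_mem y hy.1 a, M.mul_mem (M.mul_mem ha hy.2) (M.inv_mem ha)⟩
      rw [hsup] at hle
      exact Subgroup.normalizer_eq_top_iff.mp (top_le_iff.mp hle)
    have := Subgroup.normal_le_normalCore.mpr (inf_le_right : P ⊓ M ≤ M)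
    rw [hcore] at this
    exact le_bot_iff.mp this
  have hcompl : Subgroup.IsComplement' P M := by
    apply Subgroup.isComplement'_of_disjoint_and_mul_eq_univ (disjoint_iff.mpr hinf)
    rw [← Subgroup.normal_mul, hsup]; rfl
  have hidx : M.index = Nat.card P := hcompl.index_eq_card
  have hPp : IsPGroup p P := by
    rintro ⟨a, ha⟩
    obtain ⟨-, ka, hka⟩ := (hPmem a).mp ha
    exact ⟨ka, Subtype.ext hka⟩
  obtain ⟨a, ha⟩ := hPp.exists_card_eq
  have hpprime : ∀ y : Q, ∀ t : ℕ, t.Coprime p → y ^ t = 1 → y = 1 := by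
    intro y t ht hyt
    have hmem : ∀ g : Q, g * y * g⁻¹ ∈ M := by
      intro g
      apply coprime_bezout_mem M _ t (p ^ a) (ht.pow_right a)
      · rw [conj_pow, hyt]; simp
      · rw [← ha, ← hidx]; exact hexp _
    have : y ∈ M.normalCore := hmem
    rw [hcore] at this
    exact Subgroup.mem_bot.mp this
  have hQp : IsPGroup p Q := by
    intro x
    refine ⟨(orderOf x).factorization p, ?_⟩
    apply hpprime _ (ordCompl[p] (orderOf x))
      ((Nat.coprime_ordCompl hp (orderOf_pos x).ne').symm)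
    rw [← pow_mul, Nat.ordProj_mul_ordCompl_eq_self, pow_orderOf_eq_one]
  have : Group.IsNilpotent Q := hQp.isNilpotent
  exact Subgroup.NormalizerCondition.normal_of_coatom M Group.normalizerCondition_of_isNilpotent hM

/-- Let M be a maximal subgroup of a finite solvable group G such that x^[G : M] lies in M for every x in G. Then M is normal in G. -/
theorem result {G : Type*} [Group G] [Finite G] (hG : Group.IsSolvable G) (M : Subgroup G) (hM : IsCoatom M)
    (hexp : ∀ x : G, x ^ M.index ∈ M) : M.Normal := by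
  classical
  obtain ⟨N, hN⟩ : ∃ N : Subgroup G, N = M.normalCore := ⟨_, rfl⟩
  have hNn : N.Normal := by rw [hN]; infer_instance
  have hπs : Function.Surjective (QuotientGroup.mk' N) := QuotientGroup.mk'_surjective N
  have hcm : (M.map (QuotientGroup.mk' N)).comap (QuotientGroup.mk' N) = M := by
    rw [Subgroup.comap_map_eq, QuotientGroup.ker_mk', hN]
    exact sup_eq_left.mpr M.normalCore_le
  have hcoatom : IsCoatom (M.map (QuotientGroup.mk' N)) := by
    constructor
    · intro h
      apply hM.1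
      rw [← hcm, h, Subgroup.comap_top]
    · intro K hK
      have h1 : M ≤ K.comap (QuotientGroup.mk' N) := by
        rw [← hcm]; exact Subgroup.comap_mono hK.le
      have h2 : M ≠ K.comap (QuotientGroup.mk' N) := by
        intro h
        apply hK.ne
        rw [← Subgroup.map_comap_eq_self_of_surjective hπs K, ← h]
      have h3 := hM.2 _ (lt_of_le_of_ne h1 h2)
      rw [← Subgroup.map_comap_eq_self_of_surjective hπs K, h3]
      exact Subgroup.map_top_of_surjective _ hπs
  have hidx : (M.map (QuotientGroup.mk' N)).index = M.index := by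
    rw [← Subgroup.index_comap_of_surjective (M.map (QuotientGroup.mk' N)) hπs, hcm]
  have hcore : (M.map (QuotientGroup.mk' N)).normalCore = ⊥ := by
    rw [eq_bot_iff]
    intro y hy
    obtain ⟨y, rfl⟩ := hπs y
    have : y ∈ N := by
      rw [hN]
      intro g
      have h1 : (QuotientGroup.mk' N) g * (QuotientGroup.mk' N) y * ((QuotientGroup.mk' N) g)⁻¹
          ∈ M.map (QuotientGroup.mk' N) := hy _
      rw [← map_inv, ← map_mul, ← map_mul] at h1
      have h2 : g * y * g⁻¹ ∈ (M.map (QuotientGroup.mk' N)).comap (QuotientGroup.mk' N) := h1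
      rw [hcm] at h2; exact h2
    rw [Subgroup.mem_bot]
    exact (QuotientGroup.eq_one_iff y).mpr this
  have hexp' : ∀ x : G ⧸ N, x ^ (M.map (QuotientGroup.mk' N)).index ∈
      M.map (QuotientGroup.mk' N) := by
    intro x
    obtain ⟨x, rfl⟩ := hπs x
    rw [hidx, ← map_pow]
    exact Subgroup.mem_map_of_mem _ (hexp x)
  have hsolv : Group.IsSolvable (G ⧸ N) := inferInstance
  have hn := core_free_case hsolv (M.map (QuotientGroup.mk' N)) hcoatom hcore hexp'
  rw [← hcm]
  exact hn.comap _

end Cfsg.Agent.S4261
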