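import Cfsg.Statements.S4263
-- import your own Cfsg.Agent.* helpers here

set_option autoImplicit false
open Cfsg

namespace Cfsg.Agent.S4263

theorem card_eq_of_le {G : Type*} [Group G] [Finite G] {H K : Subgroup G} (h : H ≤ K) :
    Nat.card K = H.relIndex K * Nat.card H := by
  have h1 := Subgroup.card_mul_index (H.subgroupOf K)
  rw [Nat.card_congr (Subgroup.subgroupOfEquivOfLe h).toEquiv] at h1
  rw [Subgroup.relIndex, ← h1, mul_comm]

theorem relIndex_sup_of_normal {G : Type*} [Group G] [Finite G] (H Q : Subgroup G) [Q.Normal] :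
    H.relIndex (H ⊔ Q) = H.relIndex Q := by
  have h1 := card_eq_of_le (le_sup_left : H ≤ H ⊔ Q)
  have h2 := card_eq_of_le (le_sup_right : Q ≤ H ⊔ Q)
  have h3 := card_eq_of_le (inf_le_left : H ⊓ Q ≤ H)
  have h4 := card_eq_of_le (inf_le_right : H ⊓ Q ≤ Q)
  rw [Subgroup.relIndex_sup_right] at h2
  rw [Subgroup.inf_relIndex_left] at h3
  rw [Subgroup.inf_relIndex_right] at h4
  have hc : 0 < Nat.card (H ⊓ Q : Subgroup G) := Nat.card_pos
  have ha : 0 < Q.relIndex H := by
    rcases Nat.eq_zero_or_pos (Q.relIndex H) with h0 | h0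
    · rw [h0, zero_mul] at h3
      exact absurd h3 (Nat.card_pos).ne'
    · exact h0
  have e : H.relIndex (H ⊔ Q) * (Q.relIndex H * Nat.card (H ⊓ Q : Subgroup G)) =
      H.relIndex Q * (Q.relIndex H * Nat.card (H ⊓ Q : Subgroup G)) := by
    calc H.relIndex (H ⊔ Q) * (Q.relIndex H * Nat.card (H ⊓ Q : Subgroup G))
        = H.relIndex (H ⊔ Q) * Nat.card H := by rw [h3]
      _ = Nat.card (H ⊔ Q : Subgroup G) := h1.symm
      _ = Q.relIndex H * Nat.card Q := h2
      _ = Q.relIndex H * (H.relIndex Q * Nat.card (H ⊓ Q : Subgroup G)) := by rw [← h4]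
      _ = H.relIndex Q * (Q.relIndex H * Nat.card (H ⊓ Q : Subgroup G)) := by ring
  exact Nat.eq_of_mul_eq_mul_right (Nat.mul_pos ha hc) e

theorem pow_index_mem_of_normal_pgroup {G : Type*} [Group G] [Finite G] {p : ℕ} [Fact p.Prime]
    (Q : Subgroup G) [Q.Normal] (hQ : IsPGroup p Q) (y : G) (hy : y ∈ Q) (H : Subgroup G) :
    y ^ H.index ∈ H := by
  have hp : p.Prime := Fact.out
  have hZQ : Subgroup.zpowers y ≤ Q := (Subgroup.zpowers_le).mpr hy
  have hyd : y ^ H.relIndex (Subgroup.zpowers y) ∈ H := by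
    have := Subgroup.pow_index_mem (H.subgroupOf (Subgroup.zpowers y))
      (⟨y, Subgroup.mem_zpowers y⟩ : Subgroup.zpowers y)
    simpa [Subgroup.mem_subgroupOf, Subgroup.relIndex] using this
  have hd1 : H.relIndex (Subgroup.zpowers y) ∣ H.relIndex Q := by
    obtain ⟨n, hn⟩ := IsPGroup.iff_card.mp hQ
    have e1 : H.relIndex Q ∣ p ^ n := hn ▸ Subgroup.relIndex_dvd_card H Q
    have e2 : H.relIndex (Subgroup.zpowers y) ∣ p ^ n :=
      (Subgroup.relIndex_dvd_card H (Subgroup.zpowers y)).trans (hn ▸ Subgroup.card_dvd_of_le hZQ)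
    obtain ⟨a, ha, ha'⟩ := (Nat.dvd_prime_pow hp).mp e1
    obtain ⟨b, hb, hb'⟩ := (Nat.dvd_prime_pow hp).mp e2
    have hle : H.relIndex (Subgroup.zpowers y) ≤ H.relIndex Q :=
      Subgroup.relIndex_le_of_le_right hZQ (by rw [ha']; exact (pow_pos hp.pos a).ne')
    rw [ha', hb'] at hle ⊢
    exact pow_dvd_pow p ((Nat.pow_le_pow_iff_right hp.one_lt).mp hle)
  have hd2 : H.relIndex Q ∣ H.index := by
    rw [← relIndex_sup_of_normal]
    exact Subgroup.relIndex_dvd_index_of_le le_sup_left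
  obtain ⟨k, hk⟩ := hd1.trans hd2
  rw [hk, pow_mul]
  exact H.pow_mem hyd k

theorem normal_pgroup_le_normalCore {G : Type*} [Group G] [Finite G] {p : ℕ} [Fact p.Prime]
    (N : Subgroup G) [N.Normal] (hN : IsPGroup p N) (P : Sylow p G) :
    N ≤ (P : Subgroup G).normalCore := by
  rw [Subgroup.normal_le_normalCore]
  obtain ⟨P₂, hP₂⟩ := hN.exists_le_sylow
  obtain ⟨g, hg⟩ := MulAction.exists_smul_eq G P₂ P
  intro n hn
  have h1 : g⁻¹ * n * g⁻¹⁻¹ ∈ N := ‹N.Normal›.conj_mem n hn g⁻¹
  have h2 : g⁻¹ * n * g⁻¹⁻¹ ∈ (P₂ : Subgroup G) := hP₂ h1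
  have h3 : g * (g⁻¹ * n * g⁻¹⁻¹) * g⁻¹ ∈ ((g • P₂ : Sylow p G) : Subgroup G) := by
    rw [Sylow.coe_subgroup_smul]
    exact Subgroup.smul_mem_pointwise_smul _ (MulAut.conj g) _ h2
  rw [hg] at h3
  simpa [mul_assoc] using h3

theorem backward {G : Type*} [Group G] [Finite G] (x : G) (h : ∀ H : Subgroup G, x ^ H.index ∈ H) :
    x ∈ Cfsg.fittingSubgroup G := by
  have hFn : (Cfsg.fittingSubgroup G).Normal := Subgroup.sSup_normal _ (fun _ h => h.1)
  rw [← QuotientGroup.eq_one_iff (N := Cfsg.fittingSubgroup G) x]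
  rw [← orderOf_eq_one_iff, Nat.eq_one_iff_not_exists_prime_dvd]
  intro p hp hdvd
  have : Fact p.Prime := ⟨hp⟩
  let P : Sylow p G := default
  have hcore : x ^ (P : Subgroup G).index ∈ (P : Subgroup G).normalCore := by
    intro g
    have := h ((P : Subgroup G).comap (MulAut.conj g).toMonoidHom)
    rw [Subgroup.index_comap_of_surjective _ (MulAut.conj g).surjective] at this
    simpa using this
  have hle : (P : Subgroup G).normalCore ≤ Cfsg.fittingSubgroup G := by
    apply le_sSup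
    refine ⟨inferInstance, ?_⟩
    exact IsPGroup.isNilpotent (P.isPGroup'.to_le (Subgroup.normalCore_le _))
  have h1 : ((x : G ⧸ Cfsg.fittingSubgroup G)) ^ (P : Subgroup G).index = 1 := by
    rw [← QuotientGroup.mk_pow, QuotientGroup.eq_one_iff]
    exact hle hcore
  have h2 := orderOf_dvd_of_pow_eq_one h1
  exact P.not_dvd_index (hdvd.trans h2)

theorem forward {G : Type*} [Group G] [Finite G] (x : G) (hx : x ∈ Cfsg.fittingSubgroup G)
    (H : Subgroup G) : x ^ H.index ∈ H := by
  classical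
  let ι := {p : ℕ // p ∈ (Nat.card G).primeFactors}
  have hpr : ∀ i : ι, Fact (i.1.Prime) := fun i => ⟨Nat.prime_of_mem_primeFactors i.2⟩
  let O : ι → Subgroup G := fun i =>
    ((@default (Sylow i.1 G) (@Sylow.inhabited _ _ _) : Sylow i.1 G) : Subgroup G).normalCore
  have hOn : ∀ i, (O i).Normal := fun i => Subgroup.normalCore_normal _
  have hOp : ∀ i, IsPGroup i.1 (O i) := fun i =>
    (Sylow.isPGroup' _).to_le (Subgroup.normalCore_le _)
  have hcomm : Pairwise fun i j => ∀ x y : G, x ∈ O i → y ∈ O j → Commute x y := by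
    intro i j hij a b ha hb
    have := hpr i
    have := hpr j
    have hne : i.1 ≠ j.1 := fun h => hij (Subtype.ext h)
    exact Subgroup.commute_of_normal_of_disjoint _ _ (hOn i) (hOn j)
      (IsPGroup.disjoint_of_ne i.1 j.1 hne _ _ (hOp i) (hOp j)) a b ha hb
  have hFn : (⨆ i, O i).Normal := Subgroup.iSup_normal O
  have hle : Cfsg.fittingSubgroup G ≤ ⨆ i, O i := by
    apply sSup_le
    rintro N ⟨hNn, hNnil⟩ y hy
    have := hNn
    have := hNnil
    rw [← QuotientGroup.eq_one_iff (N := ⨆ i, O i) y]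
    rw [← orderOf_eq_one_iff, Nat.eq_one_iff_not_exists_prime_dvd]
    intro q hq hdvd
    have : Fact q.Prime := ⟨hq⟩
    have hqG : q ∣ Nat.card G :=
      (hdvd.trans (orderOf_dvd_natCard _)).trans (Subgroup.card_quotient_dvd_card _)
    let i : ι := ⟨q, Nat.mem_primeFactors.mpr ⟨hq, hqG, Nat.card_pos.ne'⟩⟩
    let P : Sylow q N := default
    have hPn : (P : Subgroup N).Normal := inferInstance
    have hPc : (P : Subgroup N).Characteristic := Sylow.characteristic_of_normal P hPn
    have hPG : ((P : Subgroup N).map N.subtype).Normal :=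
      ConjAct.normal_of_characteristic_of_normal
    have hPp : IsPGroup q ((P : Subgroup N).map N.subtype) := P.isPGroup'.map N.subtype
    have hPO : (P : Subgroup N).map N.subtype ≤ O i :=
      normal_pgroup_le_normalCore _ hPp _
    have h1 : (⟨y, hy⟩ : N) ^ (P : Subgroup N).index ∈ (P : Subgroup N) :=
      Subgroup.pow_index_mem _ _
    have h2 : y ^ (P : Subgroup N).index ∈ (P : Subgroup N).map N.subtype := by
      refine ⟨_, h1, ?_⟩
      simp
    have h3 : y ^ (P : Subgroup N).index ∈ ⨆ i, O i := (le_iSup O i) (hPO h2)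
    have h4 : ((y : G ⧸ ⨆ i, O i)) ^ (P : Subgroup N).index = 1 := by
      rw [← QuotientGroup.mk_pow, QuotientGroup.eq_one_iff]
      exact h3
    exact P.not_dvd_index (hdvd.trans (orderOf_dvd_of_pow_eq_one h4))
  have hx' : x ∈ (Subgroup.noncommPiCoprod hcomm).range := by
    rw [Subgroup.noncommPiCoprod_range]
    exact hle hx
  obtain ⟨f, rfl⟩ := hx'
  rw [← map_pow, Subgroup.noncommPiCoprod_apply]
  apply Subgroup.noncommProd_mem
  intro i _
  have := hpr i
  have := hOn i
  have := pow_index_mem_of_normal_pgroup (O i) (hOp i) (f i : G) (f i).2 H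
  simpa using this

/-- Let G be a finite group. An element x lies in the Fitting subgroup F(G) if and only if, for every subgroup H of G, the power x^[G : H] lies in H. -/
theorem result {G : Type*} [Group G] [Finite G] (x : G) :
    x ∈ Cfsg.fittingSubgroup G ↔ ∀ H : Subgroup G, x ^ H.index ∈ H := by
  exact ⟨fun hx H => forward x hx H, backward x⟩

end Cfsg.Agent.S4263
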