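import Cfsg.Statements.S4269
-- import your own Cfsg.Agent.* helpers here
import Mathlib

set_option autoImplicit false
open Cfsg

namespace Cfsg.Agent.S4269

theorem mem_map_conj {G : Type*} [Group G] (H : Subgroup G) (g x : G) :
    x ∈ H.map (MulAut.conj g).toMonoidHom ↔ g⁻¹ * x * g ∈ H := by
  constructor
  · rintro ⟨y, hy, rfl⟩
    show g⁻¹ * (g * y * g⁻¹) * g ∈ H
    have e : g⁻¹ * (g * y * g⁻¹) * g = y := by group
    rw [e]; exact hy
  · intro h
    refine ⟨g⁻¹ * x * g, h, ?_⟩
    show g * (g⁻¹ * x * g) * g⁻¹ = x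
    group

theorem mem_sup_of_le_normalizer {G : Type*} [Group G] {N A : Subgroup G}
    (hA : A ≤ Subgroup.normalizer (N : Set G)) {x : G} (hx : x ∈ N ⊔ A) :
    ∃ n ∈ N, ∃ a ∈ A, x = n * a := by
  rw [← SetLike.mem_coe, Subgroup.coe_mul_of_right_le_normalizer_left N A hA, Set.mem_mul] at hx
  obtain ⟨n, hn, d, hd, rfl⟩ := hx
  exact ⟨n, hn, d, hd, rfl⟩

/-- Let G be a finite group, V an abelian normal subgroup and H a subgroup with HV = G. Then H is pronormal in G (H and gHg⁻¹ are conjugate inside the subgroup they generate, for every g) if and only if every H-invariant subgroup U of V satisfies U = N_U(H)·[H, U], that is, U is the join of U ∩ N_G(H) and the commutator subgroup [H, U]. -/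
theorem result {G : Type*} [Group G] [Finite G]
    (V : Subgroup G) [V.Normal] (hV : IsMulCommutative ↥V) (H : Subgroup G) (hHV : H ⊔ V = ⊤) :
    Cfsg.IsPronormal H ↔
      ∀ U : Subgroup G, U ≤ V → (∀ h ∈ H, U.map (MulAut.conj h).toMonoidHom = U) →
        U = (U ⊓ Subgroup.normalizer (H : Set G)) ⊔ ⁅H, U⁆ := by
  classical
  have hVn : V.Normal := inferInstance
  have hVc : ∀ a ∈ V, ∀ b ∈ V, a * b = b * a := by
    intro a ha b hb
    exact congrArg Subtype.val (mul_comm' (⟨a, ha⟩ : V) ⟨b, hb⟩)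
  constructor
  · intro hpro U hUV hUH
    have hconjU : ∀ h ∈ H, ∀ u ∈ U, h * u * h⁻¹ ∈ U := by
      intro h hh u hu
      have h1 : h * u * h⁻¹ ∈ U.map (MulAut.conj h).toMonoidHom := ⟨u, hu, rfl⟩
      rw [hUH h hh] at h1; exact h1
    have hWU : ⁅H, U⁆ ≤ U := by
      rw [Subgroup.commutator_le]
      intro h hh u hu
      rw [commutatorElement_def]
      exact mul_mem (hconjU h hh u hu) (inv_mem hu)
    apply le_antisymm
    · intro u hu
      obtain ⟨x, hx, hxe⟩ := hpro u
      have hHW : H ≤ Subgroup.normalizer ((⁅H, U⁆ : Subgroup G) : Set G) := by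
        intro h hh
        have h1 : (⁅H, U⁆ : Subgroup G).map (MulAut.conj h).toMonoidHom = ⁅H, U⁆ := by
          rw [Subgroup.map_commutator, hUH h hh]
          congr 1
          ext y
          rw [mem_map_conj]
          constructor
          · intro hy
            have := mul_mem (mul_mem hh hy) (inv_mem hh)
            have e : h * (h⁻¹ * y * h) * h⁻¹ = y := by group
            rwa [e] at this
          · intro hy
            exact mul_mem (mul_mem (inv_mem hh) hy) hh
        rw [Subgroup.mem_normalizer_iff]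
        intro y
        constructor
        · intro hy
          rw [← h1]; exact ⟨y, hy, rfl⟩
        · intro hy
          rw [← h1, mem_map_conj] at hy
          have e : h⁻¹ * (h * y * h⁻¹) * h = y := by group
          rwa [e] at hy
      have hle : H ⊔ H.map (MulAut.conj u).toMonoidHom ≤ ⁅H, U⁆ ⊔ H := by
        apply sup_le le_sup_right
        intro y hy
        rw [mem_map_conj] at hy
        have h1 : ((u⁻¹ * y * u) * u * (u⁻¹ * y * u)⁻¹ * u⁻¹)⁻¹ ∈ ⁅H, U⁆ := by
          have h0 := inv_mem (Subgroup.commutator_mem_commutator hy hu)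
          rwa [commutatorElement_def] at h0
        have e : y = ((u⁻¹ * y * u) * u * (u⁻¹ * y * u)⁻¹ * u⁻¹)⁻¹ * (u⁻¹ * y * u) := by
          group
        rw [e]
        exact mul_mem (Subgroup.mem_sup_left h1) (Subgroup.mem_sup_right hy)
      obtain ⟨w, hw, h₀, hh₀, rfl⟩ := mem_sup_of_le_normalizer hHW (hle hx)
      have hkey : ∀ z : G, u⁻¹ * z * u ∈ H ↔ w⁻¹ * z * w ∈ H := by
        intro z
        rw [← mem_map_conj, hxe, mem_map_conj]
        constructor
        · intro hz
          have := mul_mem (mul_mem hh₀ hz) (inv_mem hh₀)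
          have e : h₀ * ((w * h₀)⁻¹ * z * (w * h₀)) * h₀⁻¹ = w⁻¹ * z * w := by group
          rwa [e] at this
        · intro hz
          have := mul_mem (mul_mem (inv_mem hh₀) hz) hh₀
          have e : h₀⁻¹ * (w⁻¹ * z * w) * h₀ = (w * h₀)⁻¹ * z * (w * h₀) := by group
          rwa [e] at this
      have hn : w⁻¹ * u ∈ Subgroup.normalizer (H : Set G) := by
        rw [Subgroup.mem_normalizer_iff]
        intro y
        have := hkey (u * y * u⁻¹)
        have e1 : u⁻¹ * (u * y * u⁻¹) * u = y := by group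
        have e2 : w⁻¹ * (u * y * u⁻¹) * w = w⁻¹ * u * y * (w⁻¹ * u)⁻¹ := by group
        rw [e1, e2] at this
        exact this
      have e : u = w * (w⁻¹ * u) := by group
      rw [e]
      exact mul_mem (Subgroup.mem_sup_right hw)
        (Subgroup.mem_sup_left (Subgroup.mem_inf.mpr ⟨mul_mem (inv_mem (hWU hw)) hu, hn⟩))
    · exact sup_le inf_le_left hWU
  · intro hcond g
    have hg : g ∈ V ⊔ H := by rw [sup_comm, hHV]; trivial
    rw [← SetLike.mem_coe, Subgroup.normal_mul, Set.mem_mul] at hg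
    obtain ⟨v, hv, h, hh, rfl⟩ := hg
    have hv' : v ∈ V := hv
    have hh' : h ∈ H := hh
    have hgv : H.map (MulAut.conj (v * h)).toMonoidHom = H.map (MulAut.conj v).toMonoidHom := by
      ext y
      rw [mem_map_conj, mem_map_conj]
      constructor
      · intro hy
        have := mul_mem (mul_mem hh' hy) (inv_mem hh')
        have e : h * ((v * h)⁻¹ * y * (v * h)) * h⁻¹ = v⁻¹ * y * v := by group
        rwa [e] at this
      · intro hy
        have := mul_mem (mul_mem (inv_mem hh') hy) hh'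
        have e : h⁻¹ * (v⁻¹ * y * v) * h = (v * h)⁻¹ * y * (v * h) := by group
        rwa [e] at this
    rw [hgv]
    obtain ⟨L, hL⟩ : ∃ L : Subgroup G, L = H ⊔ H.map (MulAut.conj v).toMonoidHom := ⟨_, rfl⟩
    rw [← hL]
    have hHL : H ≤ L := by rw [hL]; exact le_sup_left
    let U : Subgroup G :=
      { carrier := {u | u ∈ V ∧ ∀ h ∈ H, h * u * h⁻¹ * u⁻¹ ∈ L}
        one_mem' := ⟨V.one_mem, fun h _ => by
          have e : h * 1 * h⁻¹ * (1 : G)⁻¹ = 1 := by group
          rw [e]; exact L.one_mem⟩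
        mul_mem' := by
          rintro a b ⟨haV, ha⟩ ⟨hbV, hb⟩
          refine ⟨V.mul_mem haV hbV, fun h hh => ?_⟩
          have hc : h * b * h⁻¹ * b⁻¹ ∈ V :=
            V.mul_mem (hVn.conj_mem b hbV h) (V.inv_mem hbV)
          have e1 := hVc a haV _ hc
          have e : h * (a * b) * h⁻¹ * (a * b)⁻¹ =
              (h * a * h⁻¹ * a⁻¹) * (a * (h * b * h⁻¹ * b⁻¹)) * a⁻¹ := by group
          rw [e, e1]
          have e' : (h * a * h⁻¹ * a⁻¹) * ((h * b * h⁻¹ * b⁻¹) * a) * a⁻¹ =
              (h * a * h⁻¹ * a⁻¹) * (h * b * h⁻¹ * b⁻¹) := by group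
          rw [e']
          exact L.mul_mem (ha h hh) (hb h hh)
        inv_mem' := by
          rintro a ⟨haV, ha⟩
          refine ⟨V.inv_mem haV, fun h hh => ?_⟩
          have hc : (h * a * h⁻¹ * a⁻¹)⁻¹ ∈ V :=
            V.inv_mem (V.mul_mem (hVn.conj_mem a haV h) (V.inv_mem haV))
          have e1 := hVc _ hc a haV
          have e : h * a⁻¹ * h⁻¹ * a⁻¹⁻¹ = a⁻¹ * ((h * a * h⁻¹ * a⁻¹)⁻¹ * a) := by group
          rw [e, e1]
          have e' : a⁻¹ * (a * (h * a * h⁻¹ * a⁻¹)⁻¹) = (h * a * h⁻¹ * a⁻¹)⁻¹ := by group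
          rw [e']
          exact L.inv_mem (ha h hh) }
    have hUmem : ∀ u, u ∈ U ↔ u ∈ V ∧ ∀ h ∈ H, h * u * h⁻¹ * u⁻¹ ∈ L := fun u => Iff.rfl
    have hUV : U ≤ V := fun u hu => ((hUmem u).mp hu).1
    have hc : ∀ h ∈ H, ∀ u ∈ U, h * u * h⁻¹ ∈ U := by
      intro h hh u hu
      rw [hUmem] at hu ⊢
      refine ⟨hVn.conj_mem u hu.1 h, fun k hk => ?_⟩
      have h1 := hu.2 (h⁻¹ * k * h) (H.mul_mem (H.mul_mem (H.inv_mem hh) hk) hh)
      have h2 := L.mul_mem (L.mul_mem (hHL hh) h1) (L.inv_mem (hHL hh))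
      have e : h * ((h⁻¹ * k * h) * u * (h⁻¹ * k * h)⁻¹ * u⁻¹) * h⁻¹ =
          k * (h * u * h⁻¹) * k⁻¹ * (h * u * h⁻¹)⁻¹ := by group
      rwa [e] at h2
    have hUH : ∀ h ∈ H, U.map (MulAut.conj h).toMonoidHom = U := by
      intro h hh
      ext y
      rw [mem_map_conj]
      constructor
      · intro hy
        have := hc h hh _ hy
        have e : h * (h⁻¹ * y * h) * h⁻¹ = y := by group
        rwa [e] at this
      · intro hy
        have := hc h⁻¹ (H.inv_mem hh) y hy
        rwa [inv_inv] at this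
    have hvU : v ∈ U := by
      rw [hUmem]
      refine ⟨hv', fun k hk => ?_⟩
      have h1 : v * k⁻¹ * v⁻¹ ∈ H.map (MulAut.conj v).toMonoidHom := ⟨k⁻¹, H.inv_mem hk, rfl⟩
      have h2 : v * k⁻¹ * v⁻¹ ∈ L := by rw [hL]; exact Subgroup.mem_sup_right h1
      have h3 := L.mul_mem (hHL hk) h2
      have e : k * (v * k⁻¹ * v⁻¹) = k * v * k⁻¹ * v⁻¹ := by group
      rwa [e] at h3
    have hWL : ⁅H, U⁆ ≤ L := by
      rw [Subgroup.commutator_le]
      intro k hk u hu
      rw [commutatorElement_def]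
      exact ((hUmem u).mp hu).2 k hk
    have hWU : ⁅H, U⁆ ≤ U := by
      rw [Subgroup.commutator_le]
      intro k hk u hu
      rw [commutatorElement_def]
      exact mul_mem (hc k hk u hu) (inv_mem hu)
    have hdec := hcond U hUV hUH
    have hv2 : v ∈ (U ⊓ Subgroup.normalizer (H : Set G)) ⊔ ⁅H, U⁆ := by
      rw [← hdec]; exact hvU
    have hnorm : ⁅H, U⁆ ≤ Subgroup.normalizer
        ((U ⊓ Subgroup.normalizer (H : Set G) : Subgroup G) : Set G) := by
      intro w hw
      rw [Subgroup.mem_normalizer_iff]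
      intro y
      have hwV : w ∈ V := hUV (hWU hw)
      constructor
      · intro hy
        have hyV : y ∈ V := hUV (Subgroup.mem_inf.mp hy).1
        have e : w * y * w⁻¹ = y := by rw [hVc w hwV y hyV]; group
        rw [e]; exact hy
      · intro hy
        have hyV : w * y * w⁻¹ ∈ V := hUV (Subgroup.mem_inf.mp hy).1
        have hyV' : y ∈ V := by
          have := V.mul_mem (V.mul_mem (V.inv_mem hwV) hyV) hwV
          have e : w⁻¹ * (w * y * w⁻¹) * w = y := by group
          rwa [e] at this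
        have e : w * y * w⁻¹ = y := by rw [hVc w hwV y hyV']; group
        rwa [e] at hy
    obtain ⟨n, hn, w, hw, hvnw⟩ := mem_sup_of_le_normalizer hnorm hv2
    refine ⟨w, hWL hw, ?_⟩
    have hnN : n ∈ Subgroup.normalizer (H : Set G) := (Subgroup.mem_inf.mp hn).2
    have hnV : n ∈ V := hUV (Subgroup.mem_inf.mp hn).1
    have hwV : w ∈ V := hUV (hWU hw)
    ext y
    rw [mem_map_conj, mem_map_conj, hvnw]
    have e : (n * w)⁻¹ * y * (n * w) = n⁻¹ * (w⁻¹ * y * w) * n := by
      rw [hVc n hnV w hwV]; group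
    rw [e]
    exact ((Subgroup.mem_normalizer_iff''.mp hnN) (w⁻¹ * y * w)).symm

end Cfsg.Agent.S4269
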