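import Cfsg.Statements.S4270
import Cfsg.Agent.Lib.helper5.Pronormal

set_option autoImplicit false
open Cfsg

namespace Cfsg.Agent.S4270

open Cfsg.Agent.Lib.helper5

/-- Let p be a prime and G a finite group with a normal subgroup A such that, both in A and in G/A, every subgroup containing a Sylow p-subgroup of that group is pronormal in that group. Let T be a Sylow p-subgroup of A. Then every subgroup of G containing a Sylow p-subgroup of G is pronormal in G if and only if (i) every subgroup of N_G(T)/T containing a Sylow p-subgroup of N_G(T)/T is pronormal there, and (ii) for every subgroup H of G containing a Sylow p-subgroup of G, the image of N_G(H) in G/A is the full normalizer of the image of H. (Pronormal: H and gHg⁻¹ are conjugate inside the subgroup they generate, for every g.) -/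
theorem result {G : Type*} [Group G] [Finite G] {p : ℕ} [Fact p.Prime]
    (A : Subgroup G) [A.Normal] (hA : (∀ K : Subgroup ↥A, (∃ P : Sylow p ↥A, (P : Subgroup ↥A) ≤ K) → Cfsg.IsPronormal K)) (hQ : (∀ K : Subgroup (G ⧸ A), (∃ P : Sylow p (G ⧸ A), (P : Subgroup (G ⧸ A)) ≤ K) → Cfsg.IsPronormal K))
    (T : Subgroup G) (hT : ∃ P : Sylow p ↥A, (P : Subgroup ↥A).map A.subtype = T) [(T.subgroupOf (Subgroup.normalizer (T : Set G))).Normal] :
    (∀ K : Subgroup G, (∃ P : Sylow p G, (P : Subgroup G) ≤ K) → Cfsg.IsPronormal K) ↔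
      ((∀ K : Subgroup (↥(Subgroup.normalizer (T : Set G)) ⧸ T.subgroupOf (Subgroup.normalizer (T : Set G))), (∃ P : Sylow p (↥(Subgroup.normalizer (T : Set G)) ⧸ T.subgroupOf (Subgroup.normalizer (T : Set G))), (P : Subgroup (↥(Subgroup.normalizer (T : Set G)) ⧸ T.subgroupOf (Subgroup.normalizer (T : Set G)))) ≤ K) → Cfsg.IsPronormal K) ∧
        ∀ K : Subgroup G, (∃ P : Sylow p G, (P : Subgroup G) ≤ K) →
          (Subgroup.normalizer (K : Set G)).map (QuotientGroup.mk' A) = Subgroup.normalizer ((K.map (QuotientGroup.mk' A) : Subgroup (G ⧸ A)) : Set (G ⧸ A))) := by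
  have hTmax : PrnMax p A T := by
    obtain ⟨P, hPT⟩ := hT
    exact hPT ▸ prn_max_of_sylow_sub A P
  constructor
  · intro hall
    refine ⟨fun K hK => prn_quot_of_all A T hT hall K hK, ?_⟩
    intro K hK
    exact prn_normalizer_map A K (hall K hK)
  · rintro ⟨hi, hii⟩ K ⟨P', hP'K⟩
    obtain ⟨S0, hTS0⟩ := hTmax.2.1.exists_le_sylow
    obtain ⟨g0, hg0⟩ := MulAction.exists_smul_eq G P' S0
    apply prn_of_conj K g0
    have hS0H0 : (S0 : Subgroup G) ≤ cjs g0 K := by
      rw [← hg0]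
      exact prn_conj_mono hP'K g0
    generalize cjs g0 K = H at hS0H0 ⊢
    intro g
    have hbar : Cfsg.IsPronormal (H.map (QuotientGroup.mk' A)) := by
      apply hQ
      refine ⟨S0.mapSurjective (QuotientGroup.mk'_surjective A), ?_⟩
      rw [Sylow.coe_mapSurjective]
      exact Subgroup.map_mono hS0H0
    obtain ⟨ybar, hybar0, hyebar0⟩ := hbar (QuotientGroup.mk' A g)
    have hybar : ybar ∈ (H ⊔ cjs g H).map (QuotientGroup.mk' A) := by
      rw [Subgroup.map_sup, prn_map]; exact hybar0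
    obtain ⟨u, hu, rfl⟩ := hybar
    have hyebar : cjs (QuotientGroup.mk' A g) (H.map (QuotientGroup.mk' A)) =
        cjs (QuotientGroup.mk' A u) (H.map (QuotientGroup.mk' A)) := hyebar0
    have hnorm : QuotientGroup.mk' A (u⁻¹ * g) ∈ Subgroup.normalizer
        (((H.map (QuotientGroup.mk' A)) : Subgroup (G ⧸ A)) : Set (G ⧸ A)) := by
      rw [prn_mem_normalizer_iff, map_mul, prn_conj_mul, hyebar, map_inv, prn_conj_inv_cancel]
    rw [← hii H ⟨S0, hS0H0⟩] at hnorm
    obtain ⟨m, hm, hme⟩ := hnorm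
    have ha1 : m⁻¹ * (u⁻¹ * g) ∈ A := QuotientGroup.eq.mp hme
    have ha2A : m * (m⁻¹ * (u⁻¹ * g)) * m⁻¹ ∈ A := Subgroup.Normal.conj_mem inferInstance _ ha1 m
    have hg : g = (u * (m * (m⁻¹ * (u⁻¹ * g)) * m⁻¹)) * m := by group
    have hcm : cjs m H = H := (prn_mem_normalizer_iff H m).mp hm
    have hgg : cjs g H = cjs (u * (m * (m⁻¹ * (u⁻¹ * g)) * m⁻¹)) H := by
      conv_lhs => rw [hg, prn_conj_mul, hcm]
    show ∃ x ∈ H ⊔ cjs g H, cjs g H = cjs x H
    rw [hgg]
    refine prn_step H (u * (m * (m⁻¹ * (u⁻¹ * g)) * m⁻¹)) u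
      (m * (m⁻¹ * (u⁻¹ * g)) * m⁻¹) rfl ?_
      (prn_core A hA T hT hi H S0 hTS0 hS0H0 _ ha2A)
    rw [← hgg]; exact hu

end Cfsg.Agent.S4270
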