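import Cfsg.Statements.S4271
import Cfsg.Agent.Lib.helper5.Pronormal

set_option autoImplicit false
open Cfsg

namespace Cfsg.Agent.S4271

open Cfsg.Agent.Lib.helper5

/-- Let p be a prime and G a finite group with a normal subgroup A such that every subgroup of A containing a Sylow p-subgroup of A is pronormal in A, and the Sylow p-subgroups of G/A are self-normalizing. Let T be a Sylow p-subgroup of A. Then every subgroup of G containing a Sylow p-subgroup of G is pronormal in G if and only if every subgroup of N_G(T)/T containing a Sylow p-subgroup of N_G(T)/T is pronormal in N_G(T)/T. (Pronormal: H and gHg⁻¹ are conjugate inside the subgroup they generate, for every g.) -/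
theorem result {G : Type*} [Group G] [Finite G] {p : ℕ} [Fact p.Prime]
    (A : Subgroup G) [A.Normal] (hA : (∀ K : Subgroup ↥A, (∃ P : Sylow p ↥A, (P : Subgroup ↥A) ≤ K) → Cfsg.IsPronormal K))
    (hQ : ∀ P : Sylow p (G ⧸ A), Subgroup.normalizer ((P : Subgroup (G ⧸ A)) : Set (G ⧸ A)) = P)
    (T : Subgroup G) (hT : ∃ P : Sylow p ↥A, (P : Subgroup ↥A).map A.subtype = T) [(T.subgroupOf (Subgroup.normalizer (T : Set G))).Normal] :
    (∀ K : Subgroup G, (∃ P : Sylow p G, (P : Subgroup G) ≤ K) → Cfsg.IsPronormal K) ↔ (∀ K : Subgroup (↥(Subgroup.normalizer (T : Set G)) ⧸ T.subgroupOf (Subgroup.normalizer (T : Set G))), (∃ P : Sylow p (↥(Subgroup.normalizer (T : Set G)) ⧸ T.subgroupOf (Subgroup.normalizer (T : Set G))), (P : Subgroup (↥(Subgroup.normalizer (T : Set G)) ⧸ T.subgroupOf (Subgroup.normalizer (T : Set G)))) ≤ K) → Cfsg.IsPronormal K) := by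
  have hTmax : PrnMax p A T := by
    obtain ⟨P, hPT⟩ := hT
    exact hPT ▸ prn_max_of_sylow_sub A P
  constructor
  · intro hall K hK
    exact prn_quot_of_all A T hT hall K hK
  · rintro hi K ⟨P', hP'K⟩
    obtain ⟨S0, hTS0⟩ := hTmax.2.1.exists_le_sylow
    obtain ⟨g0, hg0⟩ := MulAction.exists_smul_eq G P' S0
    apply prn_of_conj K g0
    have hS0H0 : (S0 : Subgroup G) ≤ cjs g0 K := by
      rw [← hg0]
      exact prn_conj_mono hP'K g0
    generalize cjs g0 K = H at hS0H0 ⊢
    intro g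
    have hm1 : PrnMax p (H ⊔ cjs g H) (S0 : Subgroup G) :=
      ⟨hS0H0.trans le_sup_left, S0.2, fun Q hQ hle _ => S0.is_maximal' hQ hle⟩
    have hm2 : PrnMax p (H ⊔ cjs g H) (cjs g (S0 : Subgroup G)) := by
      refine ⟨(prn_conj_mono hS0H0 g).trans le_sup_right, S0.2.map _, ?_⟩
      intro Q hQ hle _
      have h1 : (S0 : Subgroup G) ≤ cjs g⁻¹ Q := by
        have h0 := prn_conj_mono hle g⁻¹
        rwa [prn_conj_inv_cancel] at h0
      have h2 := S0.is_maximal' (hQ.map _) h1
      rw [← h2, prn_conj_cancel_inv]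
    obtain ⟨u, huL, hue⟩ := prn_max_conj_in (H ⊔ cjs g H) _ _ hm1 hm2
    have hn : u⁻¹ * g ∈ Subgroup.normalizer ((S0 : Subgroup G) : Set G) := by
      rw [prn_mem_normalizer_iff, prn_conj_mul, hue, prn_conj_inv_cancel]
    have hnbar : QuotientGroup.mk' A (u⁻¹ * g) ∈ Subgroup.normalizer
        ((((S0 : Subgroup G).map (QuotientGroup.mk' A)) : Subgroup (G ⧸ A)) : Set (G ⧸ A)) := by
      rw [prn_mem_normalizer_iff, ← prn_map, (prn_mem_normalizer_iff _ _).mp hn]
    have hself := hQ (S0.mapSurjective (QuotientGroup.mk'_surjective A))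
    rw [Sylow.coe_mapSurjective] at hself
    rw [hself] at hnbar
    obtain ⟨s, hs, hse⟩ := hnbar
    have ha1 : s⁻¹ * (u⁻¹ * g) ∈ A := QuotientGroup.eq.mp hse
    have hg : g = (u * s) * (s⁻¹ * (u⁻¹ * g)) := by group
    show ∃ x ∈ H ⊔ cjs g H, cjs g H = cjs x H
    exact prn_step H g (u * s) (s⁻¹ * (u⁻¹ * g)) hg
      (mul_mem huL ((le_sup_left : H ≤ H ⊔ cjs g H) (hS0H0 hs)))
      (prn_core A hA T hT hi H S0 hTS0 hS0H0 _ ha1)

end Cfsg.Agent.S4271
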