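import Cfsg.Statements.S4331
-- import your own Cfsg.Agent.* helpers here
import Mathlib
import Cfsg.Agent.Lib.helper20.Zipper

set_option autoImplicit false
open Cfsg

namespace Cfsg.Agent.S4331

abbrev F9 : Type := GaloisField 3 2

theorem F9_card : Nat.card F9 = 9 := by
  rw [GaloisField.card 3 2 (by norm_num)]; norm_num

theorem pow9 (x : F9) : x ^ 9 = x := by
  have _ : Fintype F9 := Fintype.ofFinite F9
  have h := FiniteField.pow_card x
  rwa [Fintype.card_eq_nat_card, F9_card] at h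

theorem cube_add (x y : F9) : (x + y) ^ 3 = x ^ 3 + y ^ 3 := add_pow_char x y 3

theorem cube_sub (x y : F9) : (x - y) ^ 3 = x ^ 3 - y ^ 3 := sub_pow_char x y

theorem cube_cube (x : F9) : (x ^ 3) ^ 3 = x := by rw [← pow_mul]; exact pow9 x

theorem three_zero : (3 : F9) = 0 := CharP.cast_eq_zero F9 3

theorem pow8 (u : F9) (hu : u ≠ 0) : u ^ 8 = 1 := by
  have h := pow9 u
  have h2 : u * u ^ 8 = u * 1 := by rw [mul_one, ← pow_succ']; exact h
  exact mul_left_cancel₀ hu h2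

theorem exists_cube_ne : ∃ x : F9, x ^ 3 ≠ x := by
  by_contra hcon
  push Not at hcon
  obtain ⟨g, hg⟩ := IsCyclic.exists_generator (α := F9ˣ)
  have h1 : orderOf g = Nat.card F9ˣ := orderOf_eq_card_of_forall_mem_zpowers hg
  rw [Nat.card_units, F9_card] at h1
  have h2 : (g : F9) ^ 3 = g := hcon g
  have h3 : g ^ 2 = 1 := by
    apply Units.ext
    have : (g : F9) * (g : F9) ^ 2 = (g : F9) * 1 := by rw [mul_one, ← pow_succ']; exact h2
    simpa using mul_left_cancel₀ g.ne_zero this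
  have h4 := orderOf_dvd_of_pow_eq_one h3
  rw [h1] at h4
  omega

/-- translation -/
noncomputable def tr (b : F9) : Equiv.Perm F9 where
  toFun x := x + b
  invFun x := x - b
  left_inv x := by ring
  right_inv x := by ring

/-- scaling -/
noncomputable def sc (u : F9) (hu : u ≠ 0) : Equiv.Perm F9 where
  toFun x := u * x
  invFun x := u⁻¹ * x
  left_inv x := by field_simp
  right_inv x := by field_simp

/-- Frobenius -/
noncomputable def fr : Equiv.Perm F9 where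
  toFun x := x ^ 3
  invFun x := x ^ 3
  left_inv x := cube_cube x
  right_inv x := cube_cube x

theorem tr_apply (b x : F9) : tr b x = x + b := rfl
theorem tr_inv_apply (b x : F9) : (tr b)⁻¹ x = x - b := rfl
theorem sc_apply (u : F9) (hu : u ≠ 0) (x : F9) : sc u hu x = u * x := rfl
theorem sc_inv_apply (u : F9) (hu : u ≠ 0) (x : F9) : (sc u hu)⁻¹ x = u⁻¹ * x := rfl
theorem fr_apply (x : F9) : fr x = x ^ 3 := rfl

/-- the group AΓL(1,9) as a permutation group on F9 -/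
def GG : Subgroup (Equiv.Perm F9) where
  carrier := {f | ∃ u b : F9, u ≠ 0 ∧ ((∀ x, f x = u * x + b) ∨ (∀ x, f x = u * x ^ 3 + b))}
  mul_mem' := by
    rintro f g ⟨u, b, hu, hf⟩ ⟨u', b', hu', hg⟩
    rcases hf with hf | hf <;> rcases hg with hg | hg
    · exact ⟨u * u', u * b' + b, mul_ne_zero hu hu', Or.inl fun x => by
        rw [Equiv.Perm.mul_apply, hg, hf]; ring⟩
    · exact ⟨u * u', u * b' + b, mul_ne_zero hu hu', Or.inr fun x => by
        rw [Equiv.Perm.mul_apply, hg, hf]; ring⟩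
    · exact ⟨u * u' ^ 3, u * b' ^ 3 + b, mul_ne_zero hu (pow_ne_zero 3 hu'), Or.inr fun x => by
        rw [Equiv.Perm.mul_apply, hg, hf, cube_add, mul_pow]; ring⟩
    · exact ⟨u * u' ^ 3, u * b' ^ 3 + b, mul_ne_zero hu (pow_ne_zero 3 hu'), Or.inl fun x => by
        rw [Equiv.Perm.mul_apply, hg, hf, cube_add, mul_pow, cube_cube]; ring⟩
  one_mem' := ⟨1, 0, one_ne_zero, Or.inl fun x => by simp⟩
  inv_mem' := by
    rintro f ⟨u, b, hu, hf⟩
    rcases hf with hf | hf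
    · refine ⟨u⁻¹, -(u⁻¹ * b), inv_ne_zero hu, Or.inl fun x => ?_⟩
      apply f.injective
      have e0 : f (f⁻¹ x) = x := f.apply_symm_apply x
      rw [e0, hf]
      field_simp
      ring
    · refine ⟨(u⁻¹) ^ 3, -(u⁻¹ * b) ^ 3, pow_ne_zero 3 (inv_ne_zero hu), Or.inr fun x => ?_⟩
      apply f.injective
      have e0 : f (f⁻¹ x) = x := f.apply_symm_apply x
      rw [e0, hf]
      have e : (u⁻¹) ^ 3 * x ^ 3 + -(u⁻¹ * b) ^ 3 = (u⁻¹ * x - u⁻¹ * b) ^ 3 := by
        rw [cube_sub, mul_pow]; ring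
      rw [e, cube_cube]
      field_simp
      ring

abbrev Gt : Type := ↥GG

theorem mem_GG_tr (b : F9) : tr b ∈ GG :=
  ⟨1, b, one_ne_zero, Or.inl fun x => by rw [tr_apply]; ring⟩

theorem mem_GG_sc (u : F9) (hu : u ≠ 0) : sc u hu ∈ GG :=
  ⟨u, 0, hu, Or.inl fun x => by rw [sc_apply]; ring⟩

theorem mem_GG_fr : fr ∈ GG :=
  ⟨1, 0, one_ne_zero, Or.inr fun x => by rw [fr_apply]; ring⟩

noncomputable def aG : Gt := ⟨fr, mem_GG_fr⟩

/-- translation subgroup -/
def TT : Subgroup Gt where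
  carrier := {g | ∃ b : F9, ∀ x, g.1 x = x + b}
  mul_mem' := by
    rintro f g ⟨b, hf⟩ ⟨b', hg⟩
    exact ⟨b' + b, fun x => by
      show f.1 (g.1 x) = _
      rw [hg, hf]; ring⟩
  one_mem' := ⟨0, fun x => by simp⟩
  inv_mem' := by
    rintro f ⟨b, hf⟩
    refine ⟨-b, fun x => ?_⟩
    apply f.1.injective
    have e0 : f.1 ((f⁻¹).1 x) = x := f.1.apply_symm_apply x
    rw [e0, hf]; ring

theorem TT_normal : TT.Normal := by
  constructor
  rintro t ⟨b, ht⟩ g
  obtain ⟨u, b₀, hu, hg⟩ := g.2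
  rcases hg with hg | hg
  · refine ⟨u * b, fun x => ?_⟩
    show g.1 (t.1 (g.1⁻¹ x)) = _
    rw [ht, hg]
    have e0 : g.1 (g.1⁻¹ x) = x := g.1.apply_symm_apply x
    rw [hg] at e0
    linear_combination e0
  · refine ⟨u * b ^ 3, fun x => ?_⟩
    show g.1 (t.1 (g.1⁻¹ x)) = _
    rw [ht, hg, cube_add]
    have e0 : g.1 (g.1⁻¹ x) = x := g.1.apply_symm_apply x
    rw [hg] at e0
    linear_combination e0

theorem TT_comm (s t : Gt) (hs : s ∈ TT) (ht : t ∈ TT) : s * t = t * s := by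
  obtain ⟨b, hb⟩ := hs
  obtain ⟨b', hb'⟩ := ht
  apply Subtype.ext
  apply Equiv.ext
  intro x
  show s.1 (t.1 x) = t.1 (s.1 x)
  rw [hb, hb', hb, hb']; ring

theorem TT_cube (t : Gt) (ht : t ∈ TT) : t ^ 3 = 1 := by
  obtain ⟨b, hb⟩ := ht
  apply Subtype.ext
  apply Equiv.ext
  intro x
  show (t.1 ^ 3) x = x
  have e : t.1 ^ 3 = t.1 * t.1 * t.1 := by rw [pow_succ, pow_two]
  rw [e]
  show t.1 (t.1 (t.1 x)) = x
  rw [hb, hb, hb]
  linear_combination b * three_zero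

theorem sq_form (g : Equiv.Perm F9) (hg : g ∈ GG) :
    ∃ u b : F9, u ≠ 0 ∧ ∀ x, (g * g) x = u * x + b := by
  obtain ⟨u, b, hu, h⟩ := hg
  rcases h with h | h
  · exact ⟨u * u, u * b + b, mul_ne_zero hu hu, fun x => by
      rw [Equiv.Perm.mul_apply, h, h]; ring⟩
  · exact ⟨u * u ^ 3, u * b ^ 3 + b, mul_ne_zero hu (pow_ne_zero 3 hu), fun x => by
      rw [Equiv.Perm.mul_apply, h, h, cube_add, mul_pow, cube_cube]; ring⟩

theorem pow_form (g : Equiv.Perm F9) (u b : F9) (h : ∀ x, g x = u * x + b) (n : ℕ) :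
    ∃ b' : F9, ∀ x, (g ^ n) x = u ^ n * x + b' := by
  induction n with
  | zero => exact ⟨0, fun x => by simp⟩
  | succ n ih =>
    obtain ⟨b', hb'⟩ := ih
    exact ⟨u ^ n * b + b', fun x => by
      rw [pow_succ, Equiv.Perm.mul_apply, h, hb']; ring⟩

theorem pow16_form (g : Equiv.Perm F9) (hg : g ∈ GG) : ∃ b : F9, ∀ x, (g ^ 16) x = x + b := by
  obtain ⟨u, b, hu, h⟩ := sq_form g hg
  obtain ⟨b', hb'⟩ := pow_form (g * g) u b h 8
  refine ⟨b', fun x => ?_⟩
  have e : g ^ 16 = (g * g) ^ 8 := by rw [← pow_two, ← pow_mul]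
  rw [e, hb', pow8 u hu, one_mul]

/-- the stabilizer of 0 -/
def H0 : Subgroup Gt where
  carrier := {g | g.1 0 = 0}
  mul_mem' := by
    intro f g hf hg
    change f.1 0 = 0 at hf
    change g.1 0 = 0 at hg
    show f.1 (g.1 0) = 0
    rw [hg, hf]
  one_mem' := rfl
  inv_mem' := by
    intro f hf
    change f.1 0 = 0 at hf
    show f.1⁻¹ 0 = 0
    rw [Equiv.Perm.inv_eq_iff_eq]; exact hf.symm

theorem aG_mem_H0 : aG ∈ H0 := by
  show fr 0 = 0
  rw [fr_apply]; ring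

theorem H0_pgroup : IsPGroup 2 H0 := by
  intro g
  refine ⟨4, ?_⟩
  obtain ⟨b, hb⟩ := pow16_form g.1.1 g.1.2
  have hg0 : g.1.1 0 = 0 := g.2
  have h0 : (g.1.1 ^ 16) 0 = 0 := Equiv.Perm.pow_apply_eq_self_of_apply_eq_self hg0 16
  have hb0 : b = 0 := by rw [hb, zero_add] at h0; exact h0
  apply Subtype.ext
  apply Subtype.ext
  apply Equiv.ext
  intro x
  show (g.1.1 ^ 2 ^ 4) x = x
  have e : (2 : ℕ) ^ 4 = 16 := by norm_num
  rw [e, hb, hb0, add_zero]

theorem quot_pgroup [TT.Normal] : IsPGroup 2 (Gt ⧸ TT) := by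
  intro q
  obtain ⟨g, rfl⟩ := QuotientGroup.mk_surjective q
  refine ⟨4, ?_⟩
  rw [← QuotientGroup.mk_pow, QuotientGroup.eq_one_iff]
  obtain ⟨b, hb⟩ := pow16_form g.1 g.2
  exact ⟨b, fun x => hb x⟩

theorem Gt_solvable : Group.IsSolvable Gt := by
  have := TT_normal
  have : Group.IsSolvable TT :=
    Group.isSolvable_of_comm (fun s t => Subtype.ext (TT_comm s.1 t.1 s.2 t.2))
  have : Group.IsNilpotent (Gt ⧸ TT) := quot_pgroup.isNilpotent
  exact Group.isSolvable_of_ker_le_range TT.subtype (QuotientGroup.mk' TT)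
    (by rw [QuotientGroup.ker_mk', Subgroup.range_subtype])

theorem card_A : Nat.card (Subgroup.zpowers aG) = 2 := by
  rw [Nat.card_zpowers]
  apply orderOf_eq_prime
  · apply Subtype.ext
    apply Equiv.ext
    intro x
    show fr (fr x) = x
    rw [fr_apply, fr_apply, cube_cube]
  · intro h
    obtain ⟨x, hx⟩ := exists_cube_ne
    apply hx
    have := congrArg (fun g : Gt => g.1 x) h
    exact this

theorem not_le_pCore : ¬ Subgroup.zpowers aG ≤ Cfsg.pCore 2 Gt := by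
  intro hle
  have hcent : Cfsg.pCore 2 Gt ≤ Subgroup.centralizer (TT : Set Gt) := by
    unfold Cfsg.pCore
    apply sSup_le
    rintro K ⟨hKn, hKp⟩ k hk
    rw [Subgroup.mem_centralizer_iff]
    intro t ht
    obtain ⟨w, hw⟩ : ∃ w : Gt, w = k * t * k⁻¹ * t⁻¹ := ⟨_, rfl⟩
    have hwK : w ∈ K := by
      have : w = k * (t * k⁻¹ * t⁻¹) := by rw [hw]; group
      rw [this]; exact K.mul_mem hk (hKn.conj_mem _ (K.inv_mem hk) t)
    have hwT : w ∈ TT := by
      rw [hw]; exact TT.mul_mem (TT_normal.conj_mem _ ht k) (TT.inv_mem ht)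
    have h3 : w ^ 3 = 1 := TT_cube w hwT
    obtain ⟨n, hn⟩ := hKp ⟨w, hwK⟩
    have hn' : w ^ 2 ^ n = 1 := by simpa using congrArg Subtype.val hn
    have h1 : orderOf w ∣ 3 := orderOf_dvd_of_pow_eq_one h3
    have h2 : orderOf w ∣ 2 ^ n := orderOf_dvd_of_pow_eq_one hn'
    have h4 : orderOf w ∣ Nat.gcd 3 (2 ^ n) := Nat.dvd_gcd h1 h2
    have h5 : Nat.gcd 3 (2 ^ n) = 1 := Nat.Coprime.pow_right n (by decide)
    rw [h5, Nat.dvd_one, orderOf_eq_one_iff] at h4
    rw [hw] at h4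
    calc t * k = (k * t * k⁻¹ * t⁻¹) * (t * k) := by rw [h4, one_mul]
      _ = k * t := by group
  obtain ⟨b, hb⟩ := exists_cube_ne
  have ha : aG ∈ Subgroup.centralizer (TT : Set Gt) := hcent (hle (Subgroup.mem_zpowers aG))
  rw [Subgroup.mem_centralizer_iff] at ha
  have h := ha ⟨tr b, mem_GG_tr b⟩ ⟨b, fun x => rfl⟩
  have h' := congrArg (fun g : Gt => g.1 0) h
  change tr b (fr 0) = fr (tr b 0) at h'
  rw [fr_apply, tr_apply, tr_apply, fr_apply] at h'
  apply hb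
  have e : (0 : F9) ^ 3 + b = b := by ring
  rw [e, zero_add] at h'
  exact h'.symm

theorem sub_of_commute {G : Type} [Group G] (a g : G) (h : Commute g a) :
    ((Subgroup.zpowers a).subgroupOf (Subgroup.zpowers a ⊔ Subgroup.zpowers g)).IsSubnormal := by
  apply Subgroup.Normal.isSubnormal
  rw [Subgroup.normal_subgroupOf_iff_le_normalizer le_sup_left]
  apply sup_le Subgroup.le_normalizer
  refine le_trans ?_ (Subgroup.centralizer_le_normalizer _)
  rw [Subgroup.zpowers_le, Subgroup.mem_centralizer_iff]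
  intro z hz
  obtain ⟨j, rfl⟩ := Subgroup.mem_zpowers_iff.mp hz
  exact (h.zpow_right j).eq.symm

theorem sub_of_H0 (g : Gt) (hg : g ∈ H0) :
    ((Subgroup.zpowers aG).subgroupOf
      (Subgroup.zpowers aG ⊔ Subgroup.zpowers g)).IsSubnormal := by
  have hJ : Subgroup.zpowers aG ⊔ Subgroup.zpowers g ≤ H0 :=
    sup_le (Subgroup.zpowers_le.mpr aG_mem_H0) (Subgroup.zpowers_le.mpr hg)
  have hp : IsPGroup 2 (Subgroup.zpowers aG ⊔ Subgroup.zpowers g : Subgroup Gt) :=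
    H0_pgroup.to_le hJ
  have : Group.IsNilpotent (Subgroup.zpowers aG ⊔ Subgroup.zpowers g : Subgroup Gt) :=
    hp.isNilpotent
  exact Cfsg.Agent.Lib.helper20.subnormal_of_isNilpotent _

theorem comm_a_of_form (g : Gt) (b : F9) (hb : b ^ 3 = b) (h : ∀ x, g.1 x = x + b) :
    Commute g aG := by
  apply Subtype.ext
  apply Equiv.ext
  intro x
  show g.1 (fr x) = fr (g.1 x)
  rw [h, h, fr_apply, fr_apply, cube_add, hb]

theorem comm_a_of_form' (g : Gt) (b : F9) (hb : b ^ 3 = b) (h : ∀ x, g.1 x = x ^ 3 + b) :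
    Commute g aG := by
  apply Subtype.ext
  apply Equiv.ext
  intro x
  show g.1 (fr x) = fr (g.1 x)
  rw [h, h, fr_apply, fr_apply, cube_add, hb]

theorem class_prop (c : Gt) : ∃ g : Gt, IsConj c g ∧
    ((Subgroup.zpowers aG).subgroupOf
      (Subgroup.zpowers aG ⊔ Subgroup.zpowers g)).IsSubnormal := by
  obtain ⟨u, b, hu, hc⟩ := c.2
  rcases hc with hc | hc
  · by_cases hu1 : u = 1
    · subst hu1
      by_cases hb : b = 0
      · subst hb
        exact ⟨c, IsConj.refl c, sub_of_commute aG c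
          (comm_a_of_form c 0 (by ring) (fun x => by rw [hc]; ring))⟩
      · obtain ⟨k, hk⟩ : ∃ k : Gt, k = ⟨sc b⁻¹ (inv_ne_zero hb), mem_GG_sc _ _⟩ := ⟨_, rfl⟩
        refine ⟨k * c * k⁻¹, isConj_iff.mpr ⟨k, rfl⟩, sub_of_commute aG _
          (comm_a_of_form _ 1 (by ring) (fun x => ?_))⟩
        show k.1 (c.1 (k.1⁻¹ x)) = x + 1
        rw [hk]
        show sc b⁻¹ (inv_ne_zero hb) (c.1 ((sc b⁻¹ (inv_ne_zero hb))⁻¹ x)) = x + 1
        rw [sc_inv_apply, hc, sc_apply]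
        field_simp
    · have hu1' : (1 : F9) - u ≠ 0 := sub_ne_zero.mpr (Ne.symm hu1)
      obtain ⟨x₀, hx₀⟩ : ∃ x₀ : F9, x₀ * (1 - u) = b := ⟨b / (1 - u), by field_simp⟩
      obtain ⟨k, hk⟩ : ∃ k : Gt, k = ⟨tr (-x₀), mem_GG_tr _⟩ := ⟨_, rfl⟩
      refine ⟨k * c * k⁻¹, isConj_iff.mpr ⟨k, rfl⟩, sub_of_H0 _ ?_⟩
      show k.1 (c.1 (k.1⁻¹ 0)) = 0
      rw [hk]
      show tr (-x₀) (c.1 ((tr (-x₀))⁻¹ 0)) = 0
      rw [tr_inv_apply, hc, tr_apply]
      linear_combination (-1 : F9) * hx₀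
  · by_cases hsq : ∃ w : F9, w ^ 2 = u
    · obtain ⟨w, hw⟩ := hsq
      have hw0 : w ≠ 0 := by
        rintro rfl
        apply hu; rw [← hw]; ring
      obtain ⟨b', hb'⟩ : ∃ b' : F9, b' = w * b := ⟨_, rfl⟩
      obtain ⟨d, hd⟩ : ∃ d : F9, d = b' ^ 3 - b' := ⟨_, rfl⟩
      obtain ⟨k, hk⟩ : ∃ k : Gt, k = ⟨tr d, mem_GG_tr _⟩ * ⟨sc w hw0, mem_GG_sc _ _⟩ :=
        ⟨_, rfl⟩
      have hb3 : (-(b' ^ 3 + b')) ^ 3 = -(b' ^ 3 + b') := by
        have e : (-(b' ^ 3 + b')) ^ 3 = -((b' ^ 3 + b') ^ 3) := by ring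
        rw [e, cube_add, cube_cube]; ring
      refine ⟨k * c * k⁻¹, isConj_iff.mpr ⟨k, rfl⟩, sub_of_commute aG _
        (comm_a_of_form' _ (-(b' ^ 3 + b')) hb3 (fun x => ?_))⟩
      show k.1 (c.1 (k.1⁻¹ x)) = _
      rw [hk]
      show tr d (sc w hw0 (c.1 ((sc w hw0)⁻¹ ((tr d)⁻¹ x)))) = _
      rw [tr_inv_apply, sc_inv_apply, hc, sc_apply, tr_apply, mul_pow, cube_sub, ← hw]
      have hd3 : d ^ 3 = b' - b' ^ 3 := by rw [hd, cube_sub, cube_cube]
      rw [hd3]
      have e1 : w * (w ^ 2 * (w⁻¹ ^ 3 * (x ^ 3 - (b' - b' ^ 3))) + b)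
          = (x ^ 3 - (b' - b' ^ 3)) + b' := by
        rw [hb']; field_simp
      rw [e1, hd]
      linear_combination (b' ^ 3) * three_zero
    · have hinj : Function.Injective (fun x : F9 => x - u * x ^ 3) := by
        intro x y hxy
        simp only at hxy
        by_contra hne
        have hz : x - y ≠ 0 := sub_ne_zero.mpr hne
        have e : x - y = u * (x - y) ^ 3 := by
          rw [cube_sub]; linear_combination hxy
        apply hsq
        refine ⟨(x - y)⁻¹, ?_⟩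
        field_simp
        have e2 : (x - y) * 1 = (x - y) * ((x - y) ^ 2 * u) := by
          rw [mul_one]; nth_rewrite 1 [e]; ring
        exact mul_left_cancel₀ hz e2
      obtain ⟨x₀, hx₀⟩ := (Finite.injective_iff_surjective.mp hinj) b
      simp only at hx₀
      obtain ⟨k, hk⟩ : ∃ k : Gt, k = ⟨tr (-x₀), mem_GG_tr _⟩ := ⟨_, rfl⟩
      refine ⟨k * c * k⁻¹, isConj_iff.mpr ⟨k, rfl⟩, sub_of_H0 _ ?_⟩
      show k.1 (c.1 (k.1⁻¹ 0)) = 0
      rw [hk]
      show tr (-x₀) (c.1 ((tr (-x₀))⁻¹ 0)) = 0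
      rw [tr_inv_apply, hc, tr_apply]
      linear_combination (-1 : F9) * hx₀

/-- There is a finite solvable group G with a subgroup A of order 2 such that every conjugacy class of G contains an element g for which A is subnormal in the subgroup generated by A and g, and yet A is not contained in O_2(G). (So the corresponding criteria for odd primes fail at the prime 2, even for solvable groups.) -/
theorem result :
    ∃ (G : Type) (_ : Group G) (_ : Finite G) (A : Subgroup G), Group.IsSolvable G ∧ Nat.card A = 2 ∧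
      (∀ c : G, ∃ g : G, IsConj c g ∧ (A.subgroupOf (A ⊔ Subgroup.zpowers g)).IsSubnormal) ∧
      ¬ A ≤ Cfsg.pCore 2 G := by
  exact ⟨Gt, inferInstance, inferInstance, Subgroup.zpowers aG, Gt_solvable, card_A,
    class_prop, not_le_pCore⟩

end Cfsg.Agent.S4331
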