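import Cfsg.Statements.S4332
-- import your own Cfsg.Agent.* helpers here
import Mathlib

set_option autoImplicit false
open Pointwise
open Cfsg

namespace Cfsg.Agent.S4332

open scoped Pointwise

theorem mem_conj_smul {G : Type*} [Group G] (g y : G) (M : Subgroup G) :
    y ∈ MulAut.conj g • M ↔ g⁻¹ * y * g ∈ M := by
  rw [Subgroup.mem_pointwise_smul_iff_inv_smul_mem]
  have e : (MulAut.conj g)⁻¹ • y = g⁻¹ * y * g := by simp [MulAut.smul_def]
  rw [e]

theorem conj_swap_mul_swap {α : Type*} [DecidableEq α] (c : Equiv.Perm α) (a b d : α) :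
    c * (Equiv.swap a b * Equiv.swap a d) * c⁻¹
      = Equiv.swap (c a) (c b) * Equiv.swap (c a) (c d) := by
  rw [Equiv.swap_apply_apply, Equiv.swap_apply_apply]; group

theorem swap_rot {α : Type*} [DecidableEq α] {a b d : α} (hab : a ≠ b) (had : a ≠ d)
    (hbd : b ≠ d) :
    Equiv.swap b d * Equiv.swap b a = Equiv.swap a b * Equiv.swap a d := by
  ext z
  simp only [Equiv.Perm.mul_apply, Equiv.swap_apply_def]
  grind

theorem disjoint_aux {α : Type*} [DecidableEq α] {a b d a' b' d' : α}
    (h : [a, b, d, a', b', d'].Nodup) :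
    Equiv.Perm.Disjoint (Equiv.swap a' b' * Equiv.swap a' d') (Equiv.swap a b * Equiv.swap a d) := by
  intro z
  simp only [Equiv.Perm.mul_apply, Equiv.swap_apply_def]
  simp only [List.nodup_cons, List.mem_cons, List.not_mem_nil, or_false, not_or, not_false_eq_true,
    List.nodup_nil, and_true] at h
  grind

theorem exists_threeCycle_commute (c : Equiv.Perm (Fin 8)) :
    ∃ τ : Equiv.Perm (Fin 8), τ.IsThreeCycle ∧ Commute (c * τ * c⁻¹) τ := by
  classical
  have build_fix : ∀ a b d : Fin 8, a ≠ b → a ≠ d → b ≠ d → c a = a → c b = b → c d = d →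
      ∃ τ : Equiv.Perm (Fin 8), τ.IsThreeCycle ∧ Commute (c * τ * c⁻¹) τ := by
    intro a b d hab had hbd ha hb hd
    refine ⟨Equiv.swap a b * Equiv.swap a d,
      Equiv.Perm.isThreeCycle_swap_mul_swap_same hab had hbd, ?_⟩
    rw [conj_swap_mul_swap, ha, hb, hd]
  have build_cyc : ∀ a b d : Fin 8, a ≠ b → a ≠ d → b ≠ d → c a = b → c b = d → c d = a →
      ∃ τ : Equiv.Perm (Fin 8), τ.IsThreeCycle ∧ Commute (c * τ * c⁻¹) τ := by
    intro a b d hab had hbd ha hb hd
    refine ⟨Equiv.swap a b * Equiv.swap a d,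
      Equiv.Perm.isThreeCycle_swap_mul_swap_same hab had hbd, ?_⟩
    rw [conj_swap_mul_swap, ha, hb, hd, swap_rot hab had hbd]
  have build_disj : ∀ a b d : Fin 8, [a, b, d, c a, c b, c d].Nodup →
      ∃ τ : Equiv.Perm (Fin 8), τ.IsThreeCycle ∧ Commute (c * τ * c⁻¹) τ := by
    intro a b d h
    have h' := h
    simp only [List.nodup_cons, List.mem_cons, List.not_mem_nil, or_false, not_or,
      not_false_eq_true, List.nodup_nil, and_true] at h'
    refine ⟨Equiv.swap a b * Equiv.swap a d,
      Equiv.Perm.isThreeCycle_swap_mul_swap_same h'.1.1 h'.1.2.1 h'.2.1.1, ?_⟩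
    rw [conj_swap_mul_swap]
    exact (disjoint_aux h).commute
  have inj : ∀ a b, c a = c b → a = b := fun a b h => c.injective h
  by_cases hF : 2 < (Finset.univ.filter (fun x => c x = x)).card
  · obtain ⟨a, b, d, ha, hb, hd, hab, had, hbd⟩ := Finset.two_lt_card_iff.mp hF
    simp only [Finset.mem_filter, Finset.mem_univ, true_and] at ha hb hd
    exact build_fix a b d hab had hbd ha hb hd
  · obtain ⟨M, hMdef⟩ : ∃ M : Finset (Fin 8), M = Finset.univ.filter (fun x => ¬ c x = x) :=
      ⟨_, rfl⟩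
    have hmem : ∀ x, x ∈ M ↔ c x ≠ x := by
      intro x; rw [hMdef]; simp
    have hM : 6 ≤ M.card := by
      have := Finset.card_filter_add_card_filter_not
        (s := (Finset.univ : Finset (Fin 8))) (fun x => c x = x)
      rw [Finset.card_univ, Fintype.card_fin, ← hMdef] at this
      omega
    by_cases h2 : ∀ x, c (c x) = x
    · obtain ⟨x₁, hx₁M, _⟩ := Finset.exists_mem_notMem_of_card_lt_card
        (s := (∅ : Finset (Fin 8))) (t := M) (by rw [Finset.card_empty]; omega)
      obtain ⟨x₂, hx₂M, hx₂⟩ := Finset.exists_mem_notMem_of_card_lt_card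
        (s := {x₁, c x₁}) (t := M) (lt_of_le_of_lt Finset.card_le_two (by omega))
      obtain ⟨x₃, hx₃M, hx₃⟩ := Finset.exists_mem_notMem_of_card_lt_card
        (s := {x₁, c x₁, x₂, c x₂}) (t := M) (lt_of_le_of_lt Finset.card_le_four (by omega))
      apply build_disj x₁ x₂ x₃
      rw [hmem] at hx₁M hx₂M hx₃M
      simp only [Finset.mem_insert, Finset.mem_singleton, not_or] at hx₂ hx₃
      have e1 := h2 x₁
      have e2 := h2 x₂
      have e3 := h2 x₃
      simp only [List.nodup_cons, List.mem_cons, List.not_mem_nil, or_false, not_or,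
        not_false_eq_true, List.nodup_nil, and_true]
      grind
    · push Not at h2
      obtain ⟨x, hx⟩ := h2
      have hx1 : c x ≠ x := by intro h; rw [h, h] at hx; exact hx rfl
      by_cases h3 : c (c (c x)) = x
      · exact build_cyc x (c x) (c (c x)) hx1.symm (Ne.symm hx) (by grind) rfl rfl h3
      · obtain ⟨z, hz⟩ : ∃ z, c z = x := ⟨c⁻¹ x, by simp⟩
        obtain ⟨y, hyM, hy⟩ := Finset.exists_mem_notMem_of_card_lt_card
          (s := {x, c x, c (c x), c (c (c x)), z}) (t := M)
          (lt_of_le_of_lt Finset.card_le_five (by omega))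
        apply build_disj x (c (c x)) y
        rw [hmem] at hyM
        simp only [Finset.mem_insert, Finset.mem_singleton, not_or] at hy
        simp only [List.nodup_cons, List.mem_cons, List.not_mem_nil, or_false, not_or,
          not_false_eq_true, List.nodup_nil, and_true]
        grind

/-- In the symmetric group of degree 8, let A be the subgroup generated by a 3-cycle. Then every conjugacy class contains an element g for which A is subnormal in the subgroup generated by A and its conjugate by g, although O_3 of the symmetric group of degree 8 is trivial. -/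
theorem result
    (σ : Equiv.Perm (Fin 8)) (hσ : σ.IsThreeCycle) :
    (∀ c : Equiv.Perm (Fin 8), ∃ g : Equiv.Perm (Fin 8), IsConj c g ∧
      ((Subgroup.zpowers σ).subgroupOf (Subgroup.zpowers σ ⊔ MulAut.conj g • Subgroup.zpowers σ)).IsSubnormal) ∧
    Cfsg.pCore 3 (Equiv.Perm (Fin 8)) = ⊥ := by
  classical
  constructor
  · intro c
    obtain ⟨τ, hτ, hcomm⟩ := exists_threeCycle_commute c
    have hconj : IsConj σ τ := Equiv.Perm.isConj_iff_cycleType_eq.mpr (hσ.trans hτ.symm)
    obtain ⟨h, hh⟩ := isConj_iff.mp hconj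
    obtain ⟨g, hg⟩ : ∃ g : Equiv.Perm (Fin 8), g = h⁻¹ * c * h := ⟨_, rfl⟩
    refine ⟨g, isConj_iff.mpr ⟨h⁻¹, by rw [hg, inv_inv]⟩, ?_⟩
    have hc2 : Commute (g * σ * g⁻¹) σ := by
      have e1 : g * σ * g⁻¹ = h⁻¹ * (c * τ * c⁻¹) * h⁻¹⁻¹ := by rw [hg, ← hh]; group
      have e2 : σ = h⁻¹ * τ * h⁻¹⁻¹ := by rw [← hh]; group
      rw [e1]
      have e3 := (Commute.conj_iff (h := h⁻¹)).mpr hcomm
      rw [← e2] at e3
      exact e3
    apply Subgroup.Normal.isSubnormal
    rw [Subgroup.normal_subgroupOf_iff_le_normalizer le_sup_left]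
    apply sup_le Subgroup.le_normalizer
    intro y hy
    rw [mem_conj_smul] at hy
    obtain ⟨k, hk⟩ := Subgroup.mem_zpowers_iff.mp hy
    have hy' : y = (g * σ * g⁻¹) ^ k := by
      rw [conj_zpow, hk]; group
    apply Subgroup.centralizer_le_normalizer
    rw [Subgroup.mem_centralizer_iff]
    intro z hz
    obtain ⟨j, rfl⟩ := Subgroup.mem_zpowers_iff.mp hz
    rw [hy']
    exact ((hc2.zpow_left k).zpow_right j).eq.symm
  · unfold Cfsg.pCore
    rw [sSup_eq_bot]
    rintro N ⟨hNn, hNp⟩
    have hodd : ∀ k : ℕ, Odd (3 ^ k) := fun k => Odd.pow (by decide)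
    have hle : N ≤ alternatingGroup (Fin 8) := by
      intro x hx
      rw [Equiv.Perm.mem_alternatingGroup]
      obtain ⟨k, hk⟩ := hNp ⟨x, hx⟩
      have hk' : x ^ 3 ^ k = 1 := by simpa using congrArg Subtype.val hk
      have hs : (Equiv.Perm.sign x) ^ 3 ^ k = 1 := by rw [← map_pow, hk', map_one]
      rcases Int.units_eq_one_or (Equiv.Perm.sign x) with h | h
      · exact h
      · rw [h, Odd.neg_one_pow (hodd k)] at hs
        exact absurd hs (by decide)
    have hsimple : IsSimpleGroup (alternatingGroup (Fin 8)) :=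
      alternatingGroup.isSimpleGroup (by simp)
    have hnorm : (N.subgroupOf (alternatingGroup (Fin 8))).Normal := hNn.subgroupOf _
    rcases hnorm.eq_bot_or_eq_top with h | h
    · rw [Subgroup.subgroupOf_eq_bot] at h
      exact h.eq_bot_of_le hle
    · rw [Subgroup.subgroupOf_eq_top] at h
      exfalso
      have hx : (Equiv.swap (0 : Fin 8) 1 * Equiv.swap 2 3) ∈ alternatingGroup (Fin 8) := by
        rw [Equiv.Perm.mem_alternatingGroup]; decide
      obtain ⟨k, hk⟩ := hNp ⟨_, h hx⟩
      have hk' : (Equiv.swap (0 : Fin 8) 1 * Equiv.swap 2 3) ^ 3 ^ k = 1 := by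
        simpa using congrArg Subtype.val hk
      have hx2 : (Equiv.swap (0 : Fin 8) 1 * Equiv.swap 2 3) ^ 2 = 1 := by decide
      obtain ⟨m, hm⟩ := hodd k
      rw [hm, pow_succ, pow_mul, hx2, one_pow, one_mul] at hk'
      exact absurd hk' (by decide)

end Cfsg.Agent.S4332
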