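import Cfsg.Statements.S4333
-- import your own Cfsg.Agent.* helpers here
import Mathlib
import Cfsg.Agent.Lib.helper20.Zipper

set_option autoImplicit false
open Pointwise
open Cfsg

namespace Cfsg.Agent.S4333

universe u

open Pointwise
open Cfsg.Agent.Lib.helper20

theorem isCoatom_conj_smul {G : Type*} [Group G] (M : Subgroup G) (hM : IsCoatom M) (g : G) :
    IsCoatom (MulAut.conj g • M) := by
  let e : Subgroup G ≃o Subgroup G :=
    { toFun := fun H => MulAut.conj g • H
      invFun := fun H => (MulAut.conj g)⁻¹ • H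
      left_inv := fun H => inv_smul_smul _ _
      right_inv := fun H => smul_inv_smul _ _
      map_rel_iff' := Subgroup.pointwise_smul_le_pointwise_smul_iff }
  exact (OrderIso.isCoatom_iff e M).mpr hM

theorem sharp_aux : ∀ (n : ℕ) (G : Type u) [Group G] [Finite G], Nat.card G = n →
    ∀ A : Subgroup G,
      (∀ a ∈ A, ∀ g : G, (A.subgroupOf (A ⊔ MulAut.conj (g⁻¹ * a * g) • A)).IsSubnormal) →
      A.IsSubnormal := by
  intro n
  induction n using Nat.strong_induction_on with
  | _ n ih =>
    intro G _ _ hn A h
    by_contra hA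
    have step1 : ∀ K : Subgroup G, A ≤ K → K ≠ ⊤ → (A.subgroupOf K).IsSubnormal := by
      intro K hAK hK
      have hKcard : Nat.card K < n := by
        rw [← hn]; exact Cfsg.Agent.Lib.helper3.card_lt_of_lt_top (lt_top_iff_ne_top.mpr hK)
      apply ih _ hKcard K rfl (A.subgroupOf K)
      intro a' ha' k'
      obtain ⟨k, hk⟩ : ∃ k : K, k = k'⁻¹ * a' * k' := ⟨_, rfl⟩
      rw [← hk]
      have hkG : (k : G) = (k' : G)⁻¹ * (a' : G) * (k' : G) := by rw [hk]; rfl
      have hJK : A ⊔ MulAut.conj (k : G) • A ≤ K := by
        refine sup_le hAK ?_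
        rw [conj_smul_le_iff]
        intro s hs
        exact K.mul_mem (K.mul_mem k.2 (hAK hs)) (K.inv_mem k.2)
      have e1 : MulAut.conj k • A.subgroupOf K = (MulAut.conj (k : G) • A).subgroupOf K := by
        ext y
        rw [mem_conj_smul_iff, Subgroup.mem_subgroupOf, Subgroup.mem_subgroupOf,
          mem_conj_smul_iff]
        rfl
      have e2 : A.subgroupOf K ⊔ MulAut.conj k • A.subgroupOf K =
          (A ⊔ MulAut.conj (k : G) • A).subgroupOf K := by
        rw [e1, Subgroup.subgroupOf_sup hAK (le_sup_right.trans hJK)]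
      rw [e2]
      have h3 := h (a' : G) (Subgroup.mem_subgroupOf.mp ha') (k' : G)
      rw [← hkG] at h3
      exact subn_subgroupOf_subgroupOf hJK h3
    obtain ⟨M, hM, hAM, huniq⟩ := zipper A hA step1
    have step3 : ∀ a ∈ A, ∀ x : G, MulAut.conj (x⁻¹ * a * x) • A ≤ M := by
      intro a ha x
      have hne : A ⊔ MulAut.conj (x⁻¹ * a * x) • A ≠ ⊤ := by
        intro htop
        have := h a ha x
        rw [htop] at this
        exact hA (subn_top this)
      obtain ⟨M', hM', hle⟩ := (eq_top_or_exists_le_coatom _).resolve_left hne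
      have := huniq M' hM' (le_sup_left.trans hle)
      rw [← this]
      exact le_sup_right.trans hle
    -- every element of a conjugate of A normalizes M
    have step4 : ∀ a ∈ A, ∀ x : G, MulAut.conj (x⁻¹ * a * x)⁻¹ • M = M := by
      intro a ha x
      apply huniq _ (isCoatom_conj_smul M hM _)
      have h5 := step3 a ha x
      intro y hy
      rw [mem_conj_smul_iff]
      apply h5
      rw [mem_conj_smul_iff]
      have e3 : (x⁻¹ * a * x)⁻¹ * ((x⁻¹ * a * x)⁻¹⁻¹ * y * (x⁻¹ * a * x)⁻¹) * (x⁻¹ * a * x) = y := by
        group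
      rw [e3]; exact hy
    have step5 : ∀ g : G, MulAut.conj g • A ≤ M := by
      intro g
      by_cases hMn : M.Normal
      · rw [conj_smul_le_iff]
        intro s hs
        exact hMn.conj_mem s (hAM hs) g
      · have hNM : Subgroup.normalizer (M : Set G) = M := by
          have hle : M ≤ Subgroup.normalizer (M : Set G) := Subgroup.le_normalizer
          rcases lt_or_eq_of_le hle with h7 | h7
          · exact absurd (Subgroup.normalizer_eq_top_iff.mp (hM.2 _ h7)) hMn
          · exact h7.symm
        rw [conj_smul_le_iff]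
        intro s hs
        have h8 := step4 s hs g⁻¹
        have e4 : (g⁻¹⁻¹ * s * g⁻¹)⁻¹ = g * s⁻¹ * g⁻¹ := by group
        rw [e4] at h8
        have h9 : g * s⁻¹ * g⁻¹ ∈ Subgroup.normalizer (M : Set G) := by
          apply mem_normalizer_of_conj_smul_le
          rw [h8]
        rw [hNM] at h9
        have e5 : g * s * g⁻¹ = (g * s⁻¹ * g⁻¹)⁻¹ := by group
        rw [e5]; exact M.inv_mem h9
    have hNC : Subgroup.normalClosure (A : Set G) ≤ M := by
      rw [Subgroup.normalClosure, Subgroup.closure_le]
      intro y hy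
      rw [Group.mem_conjugatesOfSet_iff] at hy
      obtain ⟨a, ha, hconj⟩ := hy
      obtain ⟨g, hg⟩ := isConj_iff.mp hconj
      rw [← hg]
      exact step5 g (conj_mem_conj_smul ha)
    have hNCne : Subgroup.normalClosure (A : Set G) ≠ ⊤ := by
      intro htop
      rw [htop] at hNC
      exact hM.1 (top_le_iff.mp hNC)
    have hA_NC : A ≤ Subgroup.normalClosure (A : Set G) := Subgroup.le_normalClosure
    exact hA (Subgroup.IsSubnormal.trans hA_NC (step1 _ hA_NC hNCne)
      (Subgroup.normalClosure_normal).isSubnormal)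

/-- Let A be a subgroup of a finite group G. If A is subnormal in the subgroup generated by A and its conjugate by g⁻¹ a g, for every a ∈ A and every g ∈ G, then A is subnormal in G. (A sharpening of Wielandt's subnormality criterion: only conjugates of A by conjugates of elements of A are needed.) -/
theorem result {G : Type*} [Group G] [Finite G]
    (A : Subgroup G)
    (h : ∀ a ∈ A, ∀ g : G, (A.subgroupOf (A ⊔ MulAut.conj (g⁻¹ * a * g) • A)).IsSubnormal) :
    A.IsSubnormal := by
  exact sharp_aux _ G rfl A h

end Cfsg.Agent.S4333
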