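import Cfsg.Statements.S4334
import Mathlib
import Cfsg.Agent.Lib.helper1.HallProd

open Cfsg.Agent.Lib.helper1 Pointwise
-- import your own Cfsg.Agent.* helpers here

set_option autoImplicit false
open Cfsg

namespace Cfsg.Agent.S4334

/-- Let σ and τ be disjoint sets of primes with union π. Suppose a finite group G has a Hall π-subgroup H which is the direct product of a nilpotent σ-subgroup and a τ-subgroup (two elementwise-commuting subgroups generating H), and that the maximal τ-subgroups of G are pairwise conjugate. Then the maximal π-subgroups of G are pairwise conjugate. -/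
theorem result {G : Type*} [Group G] [Finite G]
    (σ τ π : Set ℕ) (hπ : π = σ ∪ τ) (hd : Disjoint σ τ) (H Hs Ht : Subgroup G) (hH : Cfsg.IsPiHall π H)
    (hs : Cfsg.IsPiSubgroup σ Hs) (ht : Cfsg.IsPiSubgroup τ Ht) (hsn : Group.IsNilpotent Hs)
    (hjoin : Hs ⊔ Ht = H) (hcomm : ∀ a ∈ Hs, ∀ b ∈ Ht, a * b = b * a) (hD : Cfsg.IsDPiGroup τ G) :
    Cfsg.IsDPiGroup π G := by
  subst hπ
  subst hjoin
  have hdisj : ∀ p : ℕ, p ∈ σ → p ∈ τ → False := fun p h1 h2 => Set.disjoint_left.mp hd h1 h2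
  have hsi : ∀ p : ℕ, p.Prime → p ∈ σ → ¬ p ∣ Hs.index :=
    hall_factor_index_hp σ τ hdisj Hs Ht ht hcomm (fun p hp hpσ => hH.2 p hp (Or.inl hpσ))
  have hti : ∀ p : ℕ, p.Prime → p ∈ τ → ¬ p ∣ Ht.index :=
    hall_factor_index_hp τ σ (fun p h1 h2 => hdisj p h2 h1) Ht Hs hs
      (fun a ha b hb => (hcomm b hb a ha).symm)
      (fun p hp hpτ => by rw [sup_comm]; exact hH.2 p hp (Or.inr hpτ))
  have hHtmax : Maximal (Cfsg.IsPiSubgroup τ) Ht := by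
    refine ⟨ht, ?_⟩
    intro M hM hle
    rw [← Subgroup.relIndex_eq_one]
    by_contra hne
    obtain ⟨q, hq, hqd⟩ := Nat.exists_prime_and_dvd hne
    have h1 : q ∣ Nat.card M := hqd.trans (Subgroup.relIndex_dvd_card _ _)
    have h2 : q ∣ Ht.index := hqd.trans (Dvd.intro _ (Subgroup.relIndex_mul_index hle))
    exact hti q hq (hM q hq h1) h2
  have hdτ : ∀ T : Subgroup G, (∀ p : ℕ, p.Prime → p ∣ Nat.card T → p ∈ τ) →
      ∃ g : G, T ≤ MulAut.conj g • Ht := by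
    intro T hT
    haveI : Nonempty {M : Subgroup G // Cfsg.IsPiSubgroup τ M ∧ T ≤ M} := ⟨⟨T, hT, le_rfl⟩⟩
    obtain ⟨M, hM⟩ := Finite.exists_max
      (fun M : {M : Subgroup G // Cfsg.IsPiSubgroup τ M ∧ T ≤ M} => Nat.card M.1)
    have hMmax : Maximal (Cfsg.IsPiSubgroup τ) M.1 := by
      refine ⟨M.2.1, ?_⟩
      intro M' hM' hle
      have h1 := hM ⟨M', hM', M.2.2.trans hle⟩
      exact (Subgroup.eq_of_le_of_card_ge hle h1).ge
    obtain ⟨g, hg⟩ := hD Ht M.1 hHtmax hMmax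
    refine ⟨g, ?_⟩
    have h2 : (MulAut.conj g • Ht : Subgroup G) = M.1 := hg.symm
    rw [h2]
    exact M.2.2
  have D : HPData σ τ Hs Ht := ⟨hdisj, hs, ht, hsi, hti, hsn, hcomm, hdτ⟩
  intro M₁ M₂ hM₁ hM₂
  obtain ⟨g₁, hg₁⟩ := D.conj_le M₁ hM₁.1
  obtain ⟨g₂, hg₂⟩ := D.conj_le M₂ hM₂.1
  have hconjπ : ∀ g : G, Cfsg.IsPiSubgroup (σ ∪ τ) (MulAut.conj g • (Hs ⊔ Ht) : Subgroup G) := by
    intro g p hp hpd
    rw [card_conj_smul] at hpd
    exact hH.1 p hp hpd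
  have e₁ : M₁ = MulAut.conj g₁ • (Hs ⊔ Ht) := le_antisymm hg₁ (hM₁.2 (hconjπ g₁) hg₁)
  have e₂ : M₂ = MulAut.conj g₂ • (Hs ⊔ Ht) := le_antisymm hg₂ (hM₂.2 (hconjπ g₂) hg₂)
  refine ⟨g₂ * g₁⁻¹, ?_⟩
  show M₂ = MulAut.conj (g₂ * g₁⁻¹) • M₁
  rw [e₁, e₂, smul_smul, ← map_mul, inv_mul_cancel_right]

end Cfsg.Agent.S4334
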