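import Cfsg.Statements.S4337
-- import your own Cfsg.Agent.* helpers here
import Mathlib

set_option autoImplicit false
open Cfsg

namespace Cfsg.Agent.S4337

theorem perm_fin4_solvable : Group.IsSolvable (Equiv.Perm (Fin 4)) := by
  have hcard : Nat.card (Fin 4) = 4 := by simp
  have hA : Group.IsSolvable (alternatingGroup (Fin 4)) := by
    refine ⟨⟨2, ?_⟩⟩
    have h1 : derivedSeries (alternatingGroup (Fin 4)) 1 = alternatingGroup.kleinFour (Fin 4) := by
      rw [alternatingGroup.kleinFour_eq_commutator hcard]
      simp [commutator_def]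
    rw [derivedSeries_succ, h1]
    rw [Subgroup.commutator_eq_bot_iff_le_centralizer]
    intro x hx
    rw [Subgroup.mem_centralizer_iff]
    intro y hy
    have hexp := alternatingGroup.exponent_kleinFour_of_card_eq_four hcard
    have := mul_comm_of_exponent_two hexp ⟨y, hy⟩ ⟨x, hx⟩
    exact congrArg Subtype.val this
  exact Group.isSolvable_of_ker_le_range (alternatingGroup (Fin 4)).subtype Equiv.Perm.sign (by
    intro x hx
    exact ⟨⟨x, hx⟩, rfl⟩)

theorem small_supp_solvable {n : ℕ} (T : Finset (Fin n)) (hT : T.card ≤ 4)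
    (S : Set (Equiv.Perm (Fin n))) (hS : ∀ s ∈ S, s.support ⊆ T) :
    Group.IsSolvable (Subgroup.closure S) := by
  classical
  have hle : Subgroup.closure S ≤
      (Equiv.Perm.ofSubtype : Equiv.Perm {x // x ∈ T} →* Equiv.Perm (Fin n)).range := by
    rw [Subgroup.closure_le]
    intro s hs
    have h1 : ∀ x, s x ∈ T ↔ x ∈ T := by
      intro x
      by_cases hx : x ∈ s.support
      · constructor
        · intro _; exact hS s hs hx
        · intro _; exact hS s hs (Equiv.Perm.apply_mem_support.mpr hx)
      · rw [Equiv.Perm.notMem_support] at hx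
        rw [hx]
    have h2 : ∀ x, s x ≠ x → x ∈ T := by
      intro x hx
      exact hS s hs (Equiv.Perm.mem_support.mpr hx)
    exact ⟨s.subtypePerm h1, Equiv.Perm.ofSubtype_subtypePerm h1 h2⟩
  have hPT : Group.IsSolvable (Equiv.Perm {x // x ∈ T}) := by
    have hc : Fintype.card {x // x ∈ T} ≤ Fintype.card (Fin 4) := by
      simpa using hT
    obtain ⟨ι⟩ := Function.Embedding.nonempty_of_card_le hc
    have := perm_fin4_solvable
    exact Group.isSolvable_of_isSolvable_injective (Equiv.Perm.viaEmbeddingHom_injective ι)
  have hR : Group.IsSolvable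
      (Equiv.Perm.ofSubtype : Equiv.Perm {x // x ∈ T} →* Equiv.Perm (Fin n)).range :=
    Group.isSolvable_of_surjective (MonoidHom.rangeRestrict_surjective _)
  exact Group.isSolvable_of_isSolvable_injective (Subgroup.inclusion_injective hle)

theorem closure_insert_commuting_solvable {G : Type*} [Group G] (S : Set G) (c : G)
    (hc : ∀ s ∈ S, Commute s c) (hS : Group.IsSolvable (Subgroup.closure S)) :
    Group.IsSolvable (Subgroup.closure (insert c S)) := by
  have hcomm : ∀ (m : Subgroup.closure S) (k : Subgroup.zpowers c),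
      Commute ((Subgroup.closure S).subtype m) ((Subgroup.zpowers c).subtype k) := by
    intro m k
    obtain ⟨k, hk⟩ := k
    obtain ⟨j, rfl⟩ := Subgroup.mem_zpowers_iff.mp hk
    have hm : (m : G) ∈ Subgroup.centralizer {c} := by
      have : Subgroup.closure S ≤ Subgroup.centralizer {c} := by
        rw [Subgroup.closure_le]
        intro s hs
        rw [SetLike.mem_coe, Subgroup.mem_centralizer_iff]
        intro x hx
        rw [Set.mem_singleton_iff] at hx
        subst hx
        exact (hc s hs).eq.symm
      exact this m.2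
    rw [Subgroup.mem_centralizer_iff] at hm
    have h1 : Commute (m : G) c := (hm c rfl).symm
    exact h1.zpow_right j
  let f : Subgroup.closure S × Subgroup.zpowers c →* G :=
    MonoidHom.noncommCoprod (Subgroup.closure S).subtype (Subgroup.zpowers c).subtype hcomm
  have hle : Subgroup.closure (insert c S) ≤ f.range := by
    rw [Subgroup.closure_le]
    intro s hs
    rcases hs with rfl | hs
    · exact ⟨(1, ⟨s, Subgroup.mem_zpowers s⟩), by simp [f]⟩
    · exact ⟨(⟨s, Subgroup.subset_closure hs⟩, 1), by simp [f]⟩
  have hZ : Group.IsSolvable (Subgroup.zpowers c) := by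
    apply Group.isSolvable_of_comm
    intro x y
    obtain ⟨x, hx⟩ := x
    obtain ⟨y, hy⟩ := y
    obtain ⟨i, rfl⟩ := Subgroup.mem_zpowers_iff.mp hx
    obtain ⟨j, rfl⟩ := Subgroup.mem_zpowers_iff.mp hy
    apply Subtype.ext
    show c ^ i * c ^ j = c ^ j * c ^ i
    rw [← zpow_add, ← zpow_add, add_comm]
  have hR : Group.IsSolvable f.range :=
    Group.isSolvable_of_surjective (MonoidHom.rangeRestrict_surjective _)
  exact Group.isSolvable_of_isSolvable_injective (Subgroup.inclusion_injective hle)

theorem card_three_union {α : Type*} [DecidableEq α] (A B C : Finset α)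
    (hA : A.card = 2) (hB : B.card = 2) (hC : C.card = 2)
    (hAB : ¬ Disjoint A B) (hBC : ¬ Disjoint B C) : (A ∪ B ∪ C).card ≤ 4 := by
  rw [Finset.not_disjoint_iff_nonempty_inter] at hAB hBC
  have h1 := Finset.card_union_add_card_inter A B
  have h2 := Finset.card_union_add_card_inter (A ∪ B) C
  have h3 : 1 ≤ (A ∩ B).card := Finset.card_pos.mpr hAB
  have h4 : 1 ≤ ((A ∪ B) ∩ C).card := by
    apply Finset.card_pos.mpr
    obtain ⟨x, hx⟩ := hBC
    rw [Finset.mem_inter] at hx
    exact ⟨x, Finset.mem_inter.mpr ⟨Finset.mem_union_right _ hx.1, hx.2⟩⟩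
  omega

theorem key_nd {n : ℕ} (a b c : Equiv.Perm (Fin n))
    (ha : a.IsSwap) (hb : b.IsSwap) (hc : c.IsSwap)
    (hab : ¬ a.Disjoint b) (hbc : ¬ b.Disjoint c) :
    Group.IsSolvable (Subgroup.closure ({a, b, c} : Set (Equiv.Perm (Fin n)))) := by
  rw [Equiv.Perm.disjoint_iff_disjoint_support] at hab hbc
  have h := card_three_union a.support b.support c.support
    (Equiv.Perm.card_support_eq_two.mpr ha) (Equiv.Perm.card_support_eq_two.mpr hb)
    (Equiv.Perm.card_support_eq_two.mpr hc) hab hbc
  apply small_supp_solvable _ h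
  intro s hs
  rcases hs with rfl | rfl | rfl
  · intro x hx; simp [hx]
  · intro x hx; simp [hx]
  · intro x hx; simp [hx]

theorem key_d {n : ℕ} (a b c : Equiv.Perm (Fin n))
    (_ha : a.IsSwap) (hb : b.IsSwap) (hc : c.IsSwap)
    (hab : a.Disjoint b) (hac : a.Disjoint c) :
    Group.IsSolvable (Subgroup.closure ({a, b, c} : Set (Equiv.Perm (Fin n)))) := by
  apply closure_insert_commuting_solvable
  · intro s hs
    rcases hs with rfl | rfl
    · exact hab.commute.symm
    · exact hac.commute.symm
  · have h : (b.support ∪ c.support).card ≤ 4 := by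
      have := Finset.card_union_le b.support c.support
      rw [Equiv.Perm.card_support_eq_two.mpr hb, Equiv.Perm.card_support_eq_two.mpr hc] at this
      exact this
    apply small_supp_solvable _ h
    intro s hs
    rcases hs with rfl | rfl
    · intro x hx; simp [hx]
    · intro x hx; simp [hx]

/-- In a finite symmetric group, any three transpositions generate a solvable subgroup. -/
theorem result (n : ℕ) (a b c : Equiv.Perm (Fin n))
    (ha : a.IsSwap) (hb : b.IsSwap) (hc : c.IsSwap) :
    Group.IsSolvable (Subgroup.closure ({a, b, c} : Set (Equiv.Perm (Fin n)))) := by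
  by_cases hab : a.Disjoint b
  · by_cases hac : a.Disjoint c
    · exact key_d a b c ha hb hc hab hac
    · by_cases hbc : b.Disjoint c
      · have h := key_d b a c hb ha hc hab.symm hbc
        have e : ({a, b, c} : Set (Equiv.Perm (Fin n))) = {b, a, c} := by
          ext x; simp only [Set.mem_insert_iff, Set.mem_singleton_iff]; tauto
        rw [e]; exact h
      · have h := key_nd a c b ha hc hb hac (fun h => hbc h.symm)
        have e : ({a, b, c} : Set (Equiv.Perm (Fin n))) = {a, c, b} := by
          ext x; simp only [Set.mem_insert_iff, Set.mem_singleton_iff]; tauto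
        rw [e]; exact h
  · by_cases hbc : b.Disjoint c
    · by_cases hac : a.Disjoint c
      · have h := key_d c a b hc ha hb hac.symm hbc.symm
        have e : ({a, b, c} : Set (Equiv.Perm (Fin n))) = {c, a, b} := by
          ext x; simp only [Set.mem_insert_iff, Set.mem_singleton_iff]; tauto
        rw [e]; exact h
      · have h := key_nd b a c hb ha hc (fun h => hab h.symm) hac
        have e : ({a, b, c} : Set (Equiv.Perm (Fin n))) = {b, a, c} := by
          ext x; simp only [Set.mem_insert_iff, Set.mem_singleton_iff]; tauto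
        rw [e]; exact h
    · exact key_nd a b c ha hb hc hab hbc

end Cfsg.Agent.S4337
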