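import Cfsg.Statements.S4342
-- import your own Cfsg.Agent.* helpers here
import Mathlib

set_option autoImplicit false
open Cfsg

namespace Cfsg.Agent.S4342

theorem coprime_bezout_mem {G : Type*} [Group G] (S : Subgroup G) (y : G) (a b : ℕ)
    (hab : Nat.Coprime a b) (ha : y ^ a ∈ S) (hb : y ^ b ∈ S) : y ∈ S := by
  have h := (Nat.isCoprime_iff_coprime (m := a) (n := b)).mpr hab
  obtain ⟨u, v, huv⟩ := h
  have : y = (y ^ a) ^ u * (y ^ b) ^ v := by
    rw [← zpow_natCast y a, ← zpow_natCast y b, ← zpow_mul, ← zpow_mul, ← zpow_add]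
    have : (a:ℤ) * u + (b:ℤ) * v = 1 := by linarith
    rw [this, zpow_one]
  rw [this]
  exact S.mul_mem (S.zpow_mem ha u) (S.zpow_mem hb v)

theorem sylow_le_of_not_dvd_index {G : Type*} [Group G] [Finite G] {p : ℕ} [Fact p.Prime]
    (H : Subgroup G) [H.Normal] (hp : ¬ p ∣ H.index) (P : Sylow p G) :
    (P : Subgroup G) ≤ H := by
  intro y hy
  obtain ⟨k, hk⟩ := P.isPGroup' ⟨y, hy⟩
  have hk' : y ^ p ^ k = 1 := by
    have h := congrArg Subtype.val hk
    simpa only [Subgroup.coe_pow, Subgroup.coe_one] using h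
  apply coprime_bezout_mem H y (p ^ k) H.index
  · exact Nat.Coprime.pow_left k ((Nat.Prime.coprime_iff_not_dvd Fact.out).mpr hp)
  · rw [hk']; exact H.one_mem
  · exact H.pow_index_mem y

theorem card_sylow_eq_of_normal {G : Type*} [Group G] [Finite G] {p : ℕ} [Fact p.Prime]
    (H : Subgroup G) [H.Normal] (hp : ¬ p ∣ H.index) :
    Nat.card (Sylow p H) = Nat.card (Sylow p G) := by
  have hle := sylow_le_of_not_dvd_index H hp
  have hinj : Function.Injective (fun P : Sylow p G => P.subtype (hle P)) :=
    fun P Q h => Sylow.subtype_injective h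
  have hsurj : Function.Surjective (fun P : Sylow p G => P.subtype (hle P)) := by
    intro Q
    obtain ⟨P, hP⟩ := Sylow.exists_comap_subtype_eq Q
    exact ⟨P, Sylow.ext (by rw [Sylow.coe_subtype]; exact hP)⟩
  exact (Nat.card_congr (Equiv.ofBijective _ ⟨hinj, hsurj⟩)).symm

theorem card_sylow_quot_center {H : Type*} [Group H] [Finite H] {p : ℕ} [Fact p.Prime] :
    Nat.card (Sylow p (H ⧸ Subgroup.center H)) = Nat.card (Sylow p H) := by
  have hs : Function.Surjective (QuotientGroup.mk' (Subgroup.center H)) :=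
    QuotientGroup.mk'_surjective _
  have hsurj := Sylow.mapSurjective_surjective hs p
  have hinj : Function.Injective
      (Sylow.mapSurjective hs : Sylow p H → Sylow p (H ⧸ Subgroup.center H)) := by
    intro P P' h
    have hmap : (P : Subgroup H).map (QuotientGroup.mk' (Subgroup.center H)) =
        (P' : Subgroup H).map (QuotientGroup.mk' (Subgroup.center H)) := by
      have := congrArg
        (fun S : Sylow p (H ⧸ Subgroup.center H) => (S : Subgroup (H ⧸ Subgroup.center H))) h
      simpa using this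
    have hle : (P' : Subgroup H) ≤ P := by
      intro y hy
      have h1 : QuotientGroup.mk' (Subgroup.center H) y ∈
          (P : Subgroup H).map (QuotientGroup.mk' (Subgroup.center H)) := by
        rw [hmap]; exact Subgroup.mem_map_of_mem _ hy
      obtain ⟨a, ha, hay⟩ := h1
      have hz : a⁻¹ * y ∈ Subgroup.center H := QuotientGroup.eq.mp hay
      have hzc : ∀ g : H, g * (a⁻¹ * y) = (a⁻¹ * y) * g := fun g =>
        Subgroup.mem_center_iff.mp hz g
      obtain ⟨k, hk⟩ := P.isPGroup' ⟨a, ha⟩
      have hk' : a ^ p ^ k = 1 := by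
        have h := congrArg Subtype.val hk
        simpa only [Subgroup.coe_pow, Subgroup.coe_one] using h
      obtain ⟨l, hl⟩ := P'.isPGroup' ⟨y, hy⟩
      have hl' : y ^ p ^ l = 1 := by
        have h := congrArg Subtype.val hl
        simpa only [Subgroup.coe_pow, Subgroup.coe_one] using h
      have hcomm : Commute a⁻¹ y := by
        show a⁻¹ * y = y * a⁻¹
        have h2 := hzc a
        -- a * (a⁻¹ * y) = a⁻¹ * y * a
        have h3 : y = a⁻¹ * y * a := by
          calc y = a * (a⁻¹ * y) := by group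
            _ = a⁻¹ * y * a := h2
        calc a⁻¹ * y = a⁻¹ * y * a * a⁻¹ := by group
          _ = y * a⁻¹ := by rw [← h3]
      have hzp : (a⁻¹ * y) ^ p ^ (k + l) = 1 := by
        rw [hcomm.mul_pow, inv_pow, pow_add, pow_mul, hk', one_pow, inv_one, one_mul,
          mul_comm (p ^ k), pow_mul, hl', one_pow]
      have hzn : (Subgroup.zpowers (a⁻¹ * y)).Normal := ⟨by
        intro n hn g
        obtain ⟨i, rfl⟩ := Subgroup.mem_zpowers_iff.mp hn
        have hc : (a⁻¹ * y) ^ i ∈ Subgroup.center H := Subgroup.zpow_mem _ hz i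
        have : g * (a⁻¹ * y) ^ i * g⁻¹ = (a⁻¹ * y) ^ i := by
          rw [Subgroup.mem_center_iff.mp hc g]; group
        rw [this]; exact hn⟩
      have hzpg : IsPGroup p (Subgroup.zpowers (a⁻¹ * y)) := by
        rintro ⟨x, hx⟩
        obtain ⟨i, rfl⟩ := Subgroup.mem_zpowers_iff.mp hx
        refine ⟨k + l, Subtype.ext ?_⟩
        show ((a⁻¹ * y) ^ i) ^ p ^ (k + l) = 1
        rw [← zpow_natCast, ← zpow_mul, mul_comm, zpow_mul, zpow_natCast, hzp, one_zpow]
      have hzP : a⁻¹ * y ∈ (P : Subgroup H) :=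
        hzpg.le_sylow_of_normal P (Subgroup.mem_zpowers _)
      have : y = a * (a⁻¹ * y) := by group
      rw [this]
      exact Subgroup.mul_mem _ ha hzP
    exact Sylow.ext (P'.is_maximal' P.isPGroup' hle)
  exact (Nat.card_congr (Equiv.ofBijective _ ⟨hinj, hsurj⟩)).symm

/-- Let H be a normal subgroup of a finite group G and p a prime not dividing the index of H. Then the number of Sylow p-subgroups of H/Z(H) equals the number of Sylow p-subgroups of G. -/
theorem result {G : Type*} [Group G] [Finite G]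
    (p : ℕ) [Fact p.Prime] (H : Subgroup G) [H.Normal] (hp : ¬ p ∣ H.index) :
    Nat.card (Sylow p (H ⧸ Subgroup.center H)) = Nat.card (Sylow p G) := by
  rw [card_sylow_quot_center (H := H), card_sylow_eq_of_normal H hp]

end Cfsg.Agent.S4342
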