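import Cfsg.Statements.S4343
import Cfsg.Agent.Lib.lead.Frobenius
import Cfsg.Agent.Lib.lead.Tate
import Cfsg.Agent.S0130
import Mathlib

set_option autoImplicit false
open Cfsg

namespace Cfsg.Agent.S4343

open scoped Pointwise

/-- distinct Sylow subgroups meet in a subgroup of index `p` when there are fewer than `p^2` -/
theorem stepA {S : Type*} [Group S] [Finite S] (p : ℕ) [Fact p.Prime]
    (hn : Nat.card (Sylow p S) < p ^ 2) (P Q : Sylow p S) (hPQ : P ≠ Q) :
    (Q : Subgroup S).relIndex P = p := by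
  have hpp : p.Prime := Fact.out
  have hstab : MulAction.stabilizer (↥(P : Subgroup S)) Q = (Q : Subgroup S).subgroupOf P := by
    ext g
    rw [MulAction.mem_stabilizer_iff, Subgroup.mem_subgroupOf]
    have h1 : g • Q = (g : S) • Q := rfl
    rw [h1, Sylow.smul_eq_iff_mem_normalizer]
    have h2 := IsPGroup.inf_normalizer_sylow P.2 Q
    constructor
    · intro h
      exact (h2.le ⟨g.2, h⟩).2
    · intro h
      exact Subgroup.le_normalizer h
  have hidx : (Q : Subgroup S).relIndex P = (MulAction.orbit (↥(P : Subgroup S)) Q).ncard := by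
    rw [← MulAction.index_stabilizer, hstab]; rfl
  have hle : (MulAction.orbit (↥(P : Subgroup S)) Q).ncard ≤ Nat.card (Sylow p S) := by
    rw [← Nat.card_coe_set_eq]
    exact Nat.card_le_card_of_injective _ Subtype.val_injective
  have hlt : (Q : Subgroup S).relIndex P < p ^ 2 := by rw [hidx]; exact lt_of_le_of_lt hle hn
  obtain ⟨k, hk⟩ := IsPGroup.iff_card.mp P.2
  have hdvd : (Q : Subgroup S).relIndex P ∣ p ^ k := by
    rw [← hk]; exact Subgroup.relIndex_dvd_card _ _
  obtain ⟨j, hj, hj2⟩ := (Nat.dvd_prime_pow hpp).mp hdvd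
  rw [hj2] at hlt
  have hj1 : j < 2 := (Nat.pow_lt_pow_iff_right hpp.one_lt).mp hlt
  rcases Nat.lt_or_ge j 1 with h0 | h1
  · exfalso
    have : j = 0 := by omega
    rw [this, pow_zero] at hj2
    rw [Subgroup.relIndex_eq_one] at hj2
    apply hPQ
    have := P.3 Q.2 hj2
    exact Sylow.ext this.symm
  · have : j = 1 := by omega
    rw [hj2, this, pow_one]

theorem result {S : Type*} [Group S] [Finite S]
    [IsSimpleGroup S] (hS : ¬ IsMulCommutative S) (p : ℕ) [Fact p.Prime] (hp : p ∣ Nat.card S)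
    (hn : Nat.card (Sylow p S) < p ^ 2) (P : Sylow p S) : Nat.card P = p := by
  have hpp : p.Prime := Fact.out
  -- minimal pair
  obtain ⟨⟨P₁, P₂⟩, hmin⟩ := Finite.exists_min
    (fun (pq : Sylow p S × Sylow p S) => Nat.card ↥((pq.1 : Subgroup S) ⊓ pq.2))
  simp only [Prod.forall] at hmin
  obtain ⟨D, hD⟩ : ∃ D : Subgroup S, D = (P₁ : Subgroup S) ⊓ P₂ := ⟨_, rfl⟩
  rw [← hD] at hmin
  -- D is normalized by P₁ and P₂
  have hnorm : ∀ (A B : Sylow p S), ∀ g ∈ (A : Subgroup S),
      ∀ d ∈ (A : Subgroup S) ⊓ B, g * d * g⁻¹ ∈ (A : Subgroup S) ⊓ B := by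
    intro A B g hg d hd
    by_cases hAB : A = B
    · subst hAB
      rw [inf_idem] at hd ⊢
      exact mul_mem (mul_mem hg hd) (inv_mem hg)
    · have hidx := stepA p hn A B hAB
      have hidx' : (((A : Subgroup S) ⊓ B).subgroupOf A).index = p := by
        rw [← Subgroup.relIndex, Subgroup.inf_relIndex_left]; exact hidx
      obtain ⟨k, hk⟩ := IsPGroup.iff_card.mp A.2
      have hk0 : k ≠ 0 := by
        rintro rfl
        rw [pow_zero] at hk
        have h1 : (B : Subgroup S).relIndex A ∣ Nat.card (A : Subgroup S) :=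
          Subgroup.relIndex_dvd_card _ _
        rw [hk, hidx] at h1
        exact hpp.one_lt.ne' (Nat.dvd_one.mp h1)
      have hmf : (Nat.card ↥(A : Subgroup S)).minFac = p := by
        rw [hk]; exact hpp.pow_minFac hk0
      have hN : (((A : Subgroup S) ⊓ B).subgroupOf A).Normal :=
        Subgroup.normal_of_index_eq_minFac_card (by rw [hidx', hmf])
      have := hN.conj_mem ⟨d, hd.1⟩ (by rw [Subgroup.mem_subgroupOf]; exact hd) ⟨g, hg⟩
      rw [Subgroup.mem_subgroupOf] at this
      exact this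
  have hP₁N : (P₁ : Subgroup S) ≤ Subgroup.normalizer (D : Set S) := by
    intro g hg
    apply Cfsg.Agent.S0130.mem_normalizer_of_conj_mem
    intro d hd
    rw [hD] at hd ⊢
    exact hnorm P₁ P₂ g hg d hd
  have hP₂N : (P₂ : Subgroup S) ≤ Subgroup.normalizer (D : Set S) := by
    intro g hg
    apply Cfsg.Agent.S0130.mem_normalizer_of_conj_mem
    intro d hd
    rw [hD, inf_comm] at hd ⊢
    exact hnorm P₂ P₁ g hg d hd
  -- D lies in every Sylow subgroup
  have hDT : ∀ T : Sylow p S, D ≤ (T : Subgroup S) := by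
    intro T
    obtain ⟨N, hN⟩ : ∃ N : Subgroup S, N = Subgroup.normalizer (D : Set S) := ⟨_, rfl⟩
    rw [← hN] at hP₁N hP₂N
    have hTp : IsPGroup p (((T : Subgroup S) ⊓ N).subgroupOf N) :=
      (T.2.to_le inf_le_left).comap_subtype
    obtain ⟨R, hR⟩ := hTp.exists_le_sylow
    obtain ⟨k, hk⟩ := MulAction.exists_smul_eq (↥N) R (P₁.subtype hP₁N)
    have hkey : ∀ x ∈ (T : Subgroup S), x ∈ N → (k : S) * x * (k : S)⁻¹ ∈ (P₁ : Subgroup S) := by
      intro x hxT hxN
      have h1 : (⟨x, hxN⟩ : ↥N) ∈ (R : Subgroup ↥N) := hR (by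
        rw [Subgroup.mem_subgroupOf]; exact ⟨hxT, hxN⟩)
      have h2 : k * ⟨x, hxN⟩ * k⁻¹ ∈ ((k • R : Sylow p ↥N) : Subgroup ↥N) := by
        rw [Cfsg.Agent.Lib.lead.mem_smul_sylow]
        have : k⁻¹ * (k * ⟨x, hxN⟩ * k⁻¹) * k = ⟨x, hxN⟩ := by group
        rw [this]; exact h1
      rw [hk, Sylow.coe_subtype, Subgroup.mem_subgroupOf] at h2
      exact h2
    -- the conjugate Sylow
    have hT' : ((((k : S) • T : Sylow p S) : Subgroup S) ⊓ P₂) ≤ D := by
      intro x hx
      have hx1 := (Cfsg.Agent.Lib.lead.mem_smul_sylow (k : S) x T).mp hx.1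
      have hxN : x ∈ N := hP₂N hx.2
      have hx2 : (k : S)⁻¹ * x * (k : S) ∈ N := mul_mem (mul_mem (inv_mem k.2) hxN) k.2
      have := hkey _ hx1 hx2
      have e : (k : S) * ((k : S)⁻¹ * x * (k : S)) * (k : S)⁻¹ = x := by group
      rw [e] at this
      rw [hD]; exact ⟨this, hx.2⟩
    have hcard := hmin ((k : S) • T) P₂
    have heq : ((((k : S) • T : Sylow p S) : Subgroup S) ⊓ P₂) = D :=
      Subgroup.eq_of_le_of_card_ge hT' hcard
    intro d hd
    have hkN : (k : S) ∈ Subgroup.normalizer (D : Set S) := by rw [← hN]; exact k.2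
    have hd' : (k : S) * d * (k : S)⁻¹ ∈ D := (Subgroup.mem_normalizer_iff.mp hkN d).mp hd
    rw [← heq] at hd'
    have := (Cfsg.Agent.Lib.lead.mem_smul_sylow (k : S) _ T).mp hd'.1
    have e : (k : S)⁻¹ * ((k : S) * d * (k : S)⁻¹) * (k : S) = d := by group
    rw [e] at this
    exact this
  -- the p-core
  obtain ⟨O, hO⟩ : ∃ O : Subgroup S, O = ⨅ T : Sylow p S, (T : Subgroup S) := ⟨_, rfl⟩
  have hON : O.Normal := by
    constructor
    intro x hx g
    rw [hO, Subgroup.mem_iInf] at hx ⊢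
    intro T
    have := hx (g⁻¹ • T)
    rw [Cfsg.Agent.Lib.lead.mem_smul_sylow] at this
    simpa using this
  have hOP : O ≤ (P : Subgroup S) := by rw [hO]; exact iInf_le _ P
  have hObot : O = ⊥ := by
    rcases hON.eq_bot_or_eq_top with h | h
    · exact h
    · exfalso
      have hPtop : (P : Subgroup S) = ⊤ := top_le_iff.mp (h ▸ hOP)
      have hSp : IsPGroup p S := by
        intro g
        obtain ⟨k, hk⟩ := P.2 ⟨g, by rw [hPtop]; trivial⟩
        exact ⟨k, by simpa [Subtype.ext_iff] using hk⟩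
      haveI : Nontrivial S := IsSimpleGroup.toNontrivial
      have hZ : Nontrivial (Subgroup.center S) := hSp.center_nontrivial
      have hZtop : Subgroup.center S = ⊤ := by
        rcases (inferInstance : (Subgroup.center S).Normal).eq_bot_or_eq_top with h0 | h0
        · exfalso
          rw [h0] at hZ
          exact not_nontrivial _ hZ
        · exact h0
      apply hS
      constructor
      constructor
      intro a b
      have : a ∈ Subgroup.center S := by rw [hZtop]; trivial
      exact (Subgroup.mem_center_iff.mp this b).symm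
  have hDbot : D = ⊥ := by
    rw [eq_bot_iff, ← hObot, hO]
    exact le_iInf hDT
  -- P₁ ≠ P₂
  have hne : P₁ ≠ P₂ := by
    intro h
    rw [h, inf_idem] at hD
    have hc : Nat.card ↥(P₂ : Subgroup S) = 1 := by rw [← hD, hDbot]; exact Subgroup.card_bot
    have hdv : p ∣ Nat.card ↥(P₂ : Subgroup S) := by
      rw [Sylow.card_eq_multiplicity]
      exact dvd_pow_self p (hpp.factorization_pos_of_dvd Nat.card_pos.ne' hp).ne'
    rw [hc] at hdv
    exact hpp.one_lt.ne' (Nat.dvd_one.mp hdv)
  have hidx := stepA p hn P₁ P₂ hne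
  have h1 := Cfsg.Agent.Lib.lead.card_eq_card_inf_mul_relIndex (P₂ : Subgroup S) (P₁ : Subgroup S)
  rw [inf_comm, ← hD, hDbot, Subgroup.card_bot, one_mul, hidx] at h1
  rw [Sylow.card_eq_multiplicity] at h1 ⊢
  exact h1

end Cfsg.Agent.S4343
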