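import Cfsg.Statements.S4344
-- import your own Cfsg.Agent.* helpers here

set_option autoImplicit false
open Cfsg

namespace Cfsg.Agent.S4344

open scoped Pointwise

theorem mem_smul_sylow {G : Type*} [Group G] {p : ℕ} (g x : G) (P : Sylow p G) :
    x ∈ (g • P : Sylow p G) ↔ g⁻¹ * x * g ∈ P := by
  change x ∈ ((g • P : Sylow p G) : Subgroup G) ↔ g⁻¹ * x * g ∈ (P : Subgroup G)
  rw [Sylow.coe_subgroup_smul, Subgroup.mem_pointwise_smul_iff_inv_smul_mem]
  have e : (MulAut.conj g)⁻¹ • x = g⁻¹ * x * g := by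
    simp [MulAut.smul_def]
  rw [e]

theorem sylow_eq_of_le_comm {G : Type*} [Group G] {p : ℕ} (P P₂ : Sylow p G) (C : Subgroup G)
    (hcomm : ∀ a ∈ C, ∀ b ∈ C, a * b = b * a) (hP : (P : Subgroup G) ≤ C)
    (hP₂ : (P₂ : Subgroup G) ≤ C) : P₂ = P := by
  have hnorm : (P₂ : Subgroup G) ≤ Subgroup.normalizer (P : Set G) := by
    refine le_trans ?_ (Subgroup.centralizer_le_normalizer _)
    intro a ha
    rw [Subgroup.mem_centralizer_iff]
    intro b hb
    exact hcomm b (hP hb) a (hP₂ ha)
  have hsup : IsPGroup p ((P₂ : Subgroup G) ⊔ (P : Subgroup G) : Subgroup G) :=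
    IsPGroup.to_sup_of_normal_right' P₂.isPGroup' P.isPGroup' hnorm
  have h1 : ((P₂ : Subgroup G) ⊔ (P : Subgroup G) : Subgroup G) = P := P.3 hsup le_sup_right
  have h2 : (P₂ : Subgroup G) ≤ (P : Subgroup G) := by
    rw [← h1]
    exact le_sup_left
  exact Sylow.ext (P₂.3 P.isPGroup' h2).symm

/-- Let S be a finite non-abelian simple group, M a maximal subgroup of S and C a cyclic normal subgroup of M. If a Sylow p-subgroup P of S (for a prime p dividing the order of S) is contained in C, then the number of Sylow p-subgroups of S equals the index of M. -/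
theorem result {S : Type*} [Group S] [Finite S]
    [IsSimpleGroup S] (hS : ¬ IsMulCommutative S) (p : ℕ) [Fact p.Prime] (hp : p ∣ Nat.card S)
    (M : Subgroup S) (hM : IsCoatom M) (C : Subgroup S) (hCM : C ≤ M) (hCn : (C.subgroupOf M).Normal)
    (hC : IsCyclic C) (P : Sylow p S) (hP : (P : Subgroup S) ≤ C) :
    Nat.card (Sylow p S) = M.index := by
  have hcomm : ∀ a ∈ C, ∀ b ∈ C, a * b = b * a := by
    intro a ha b hb
    have hc := hC
    have h := (IsCyclic.isMulCommutative (α := C)).is_comm.comm (⟨a, ha⟩ : C) ⟨b, hb⟩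
    exact congrArg Subtype.val h
  have hMN : M ≤ Subgroup.normalizer (P : Set S) := by
    intro m hm
    rw [← Sylow.smul_eq_iff_mem_normalizer]
    apply sylow_eq_of_le_comm P (m • P) C hcomm hP
    intro x hx
    change x ∈ (m • P : Sylow p S) at hx
    rw [mem_smul_sylow] at hx
    have hxC : m⁻¹ * x * m ∈ C := hP hx
    have h1 : (⟨m⁻¹ * x * m, hCM hxC⟩ : M) ∈ C.subgroupOf M := by
      rw [Subgroup.mem_subgroupOf]
      exact hxC
    have h2 := hCn.conj_mem _ h1 ⟨m, hm⟩
    rw [Subgroup.mem_subgroupOf] at h2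
    simpa [mul_assoc] using h2
  have hNtop : Subgroup.normalizer (P : Set S) ≠ ⊤ := by
    intro htop
    change Subgroup.normalizer ((P : Subgroup S) : Set S) = ⊤ at htop
    rw [Subgroup.normalizer_eq_top_iff] at htop
    rcases htop.eq_bot_or_eq_top with h | h
    · exact P.ne_bot_of_dvd_card hp h
    · apply hM.1
      rw [eq_top_iff, ← h]
      exact hP.trans hCM
  have hNM : Subgroup.normalizer (P : Set S) = M := by
    by_contra hne
    exact hNtop (hM.2 _ (lt_of_le_of_ne hMN (Ne.symm hne)))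
  rw [Sylow.card_eq_index_normalizer P, hNM]

end Cfsg.Agent.S4344
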