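import Cfsg.Statements.S4345
-- import your own Cfsg.Agent.* helpers here
import Mathlib
import Cfsg.Agent.S4341
import Cfsg.Agent.Lib.helper3.Solvable

set_option autoImplicit false
open Cfsg

namespace Cfsg.Agent.S4345

universe u

theorem card_sylow_eq_one_of_pgroup {K : Type*} [Group K] [Finite K] (p r : ℕ) [Fact p.Prime]
    [Fact r.Prime] (hK : IsPGroup r K) : Nat.card (Sylow p K) = 1 := by
  have hnil : Group.IsNilpotent K := hK.isNilpotent
  obtain ⟨Q⟩ : Nonempty (Sylow p K) := inferInstance
  have hQn : (Q : Subgroup K).Normal := by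
    have := (Group.isNilpotent_of_finite_tfae (G := K)).out 0 3
    exact this.mp hnil p inferInstance Q
  rw [Sylow.card_eq_index_normalizer Q]
  have h1 : Subgroup.normalizer ((Q : Subgroup K) : Set K) = ⊤ := Subgroup.normalizer_eq_top _
  exact h1 ▸ Subgroup.index_top

theorem aux (p : ℕ) [Fact p.Prime] : ∀ (n : ℕ) (G : Type u) [Group G] [Finite G],
    Group.IsSolvable G → Nat.card G ≤ n → ∀ ℓ : ℕ, ℓ.Prime →
    ℓ ^ (Nat.card (Sylow p G)).factorization ℓ ≡ 1 [MOD p] := by
  intro n
  induction n with
  | zero =>
    intro G _ _ _ hc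
    have := Nat.card_pos (α := G)
    omega
  | succ n ih =>
    intro G _ _ hG hc ℓ hℓ
    have := hG
    by_cases htriv : Subsingleton G
    · have h1 : Nat.card (Sylow p G) = 1 := by
        obtain ⟨Q⟩ : Nonempty (Sylow p G) := inferInstance
        rw [Sylow.card_eq_index_normalizer Q]
        have : Subgroup.normalizer ((Q : Subgroup G) : Set G) = ⊤ := Subsingleton.elim _ _
        exact this ▸ Subgroup.index_top
      rw [h1]; simp [Nat.ModEq]
    · have hnt : Nontrivial G := not_subsingleton_iff_nontrivial.mp htriv
      obtain ⟨r, hr, K, hKn, hKr, hKne⟩ := Cfsg.Agent.Lib.helper3.exists_normal_pgroup_ne_bot' G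
      have : Fact r.Prime := ⟨hr⟩
      have := hKn
      obtain ⟨P⟩ : Nonempty (Sylow p G) := inferInstance
      obtain ⟨N, hN⟩ : ∃ N : Subgroup G, N = ((P : Subgroup G) ⊔ K) ⊓
          Subgroup.normalizer (((P : Subgroup G) ⊓ K : Subgroup G) : Set G) := ⟨_, rfl⟩
      have hle : (P : Subgroup G) ⊓ K ≤ N := by
        rw [hN]; exact le_inf (inf_le_left.trans le_sup_left) Subgroup.le_normalizer
      have hn : (((P : Subgroup G) ⊓ K).subgroupOf N).Normal := by
        rw [Subgroup.normal_subgroupOf_iff_le_normalizer hle]
        rw [hN]; exact inf_le_right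
      have hformula := Cfsg.Agent.S4341.result p K P N hN
      have hK1 : Nat.card (Sylow p K) = 1 := card_sylow_eq_one_of_pgroup p r hKr
      rw [hK1, mul_one] at hformula
      have hcK : 2 ≤ Nat.card K := by
        have := (Subgroup.one_lt_card_iff_ne_bot K).mpr hKne
        omega
      have hcq : Nat.card (G ⧸ K) ≤ n := by
        have h2 : Nat.card G = Nat.card (G ⧸ K) * Nat.card K :=
          Subgroup.card_eq_card_quotient_mul_card_subgroup K
        have h3 : 0 < Nat.card (G ⧸ K) := Nat.card_pos
        nlinarith
      have hq := ih (G ⧸ K) inferInstance hcq ℓ hℓ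
      by_cases hcase : (P : Subgroup G) ⊓ K = ⊥ ∧ (P : Subgroup G) ⊔ K = ⊤
      · obtain ⟨hinf, hsup⟩ := hcase
        have hidx : (P : Subgroup G).index = Nat.card K := by
          rw [Cfsg.Agent.S4341.idx_of_sup (P : Subgroup G) K hsup, ← Subgroup.inf_relIndex_right,
            hinf, Subgroup.relIndex_bot_left]
        obtain ⟨e, he⟩ := IsPGroup.iff_card.mp hKr
        have hdvd : Nat.card (Sylow p G) ∣ r ^ e := by
          rw [← he, ← hidx]; exact Sylow.card_dvd_index P
        obtain ⟨t, -, ht⟩ := (Nat.dvd_prime_pow hr).mp hdvd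
        have hmod := card_sylow_modEq_one p G
        rw [ht, Nat.Prime.factorization_pow hr]
        by_cases hlr : ℓ = r
        · subst hlr
          rw [Finsupp.single_eq_same, ← ht]; exact hmod
        · rw [Finsupp.single_eq_of_ne hlr]
          rfl
      · have hcX : Nat.card (N ⧸ ((P : Subgroup G) ⊓ K).subgroupOf N) ≤ n := by
          have h1 : Nat.card N = Nat.card (N ⧸ ((P : Subgroup G) ⊓ K).subgroupOf N) *
              Nat.card (((P : Subgroup G) ⊓ K).subgroupOf N) :=
            Subgroup.card_eq_card_quotient_mul_card_subgroup _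
          have h2 : Nat.card (((P : Subgroup G) ⊓ K).subgroupOf N) =
              Nat.card ((P : Subgroup G) ⊓ K : Subgroup G) := by
            rw [Cfsg.Agent.S4341.card_subgroupOf', inf_eq_left.mpr hle]
          have h3 : Nat.card N ≤ Nat.card G := Subgroup.card_le_card_group N
          have h4 : 0 < Nat.card (N ⧸ ((P : Subgroup G) ⊓ K).subgroupOf N) := Nat.card_pos
          by_cases hinf : (P : Subgroup G) ⊓ K = ⊥
          · have hsup : (P : Subgroup G) ⊔ K ≠ ⊤ := fun h => hcase ⟨hinf, h⟩
            have h5 : Nat.card N ≤ Nat.card ((P : Subgroup G) ⊔ K : Subgroup G) :=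
              Subgroup.card_le_of_le (by rw [hN]; exact inf_le_left)
            have h6 : Nat.card ((P : Subgroup G) ⊔ K : Subgroup G) < Nat.card G := by
              by_contra h7
              exact hsup (Subgroup.eq_top_of_card_eq _
                (le_antisymm (Subgroup.card_le_card_group _) (not_lt.mp h7)))
            have h8 : 0 < Nat.card (((P : Subgroup G) ⊓ K).subgroupOf N) := Nat.card_pos
            nlinarith
          · have h5 : 2 ≤ Nat.card ((P : Subgroup G) ⊓ K : Subgroup G) := by
              have := (Subgroup.one_lt_card_iff_ne_bot _).mpr hinf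
              omega
            rw [h2] at h1
            nlinarith
        have hsolvN : Group.IsSolvable N := inferInstance
        have hX := ih (N ⧸ ((P : Subgroup G) ⊓ K).subgroupOf N) inferInstance hcX ℓ hℓ
        rw [hformula, Nat.factorization_mul Nat.card_pos.ne' Nat.card_pos.ne', Finsupp.add_apply,
          pow_add]
        have := Nat.ModEq.mul hq hX
        simpa using this

/-- Let G be a finite solvable group and p, ℓ primes. Then the largest power of ℓ dividing the number of Sylow p-subgroups of G is congruent to 1 modulo p. -/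
theorem result {G : Type*} [Group G] [Finite G]
    (hG : Group.IsSolvable G) (p ℓ : ℕ) [Fact p.Prime] (hℓ : ℓ.Prime) :
    ℓ ^ (Nat.card (Sylow p G)).factorization ℓ ≡ 1 [MOD p] := by
  exact aux p (Nat.card G) G hG le_rfl ℓ hℓ

end Cfsg.Agent.S4345
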