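import Cfsg.Statements.S4346
-- import your own Cfsg.Agent.* helpers here
import Mathlib
import Cfsg.Agent.S4303
import Cfsg.Agent.S4304
import Cfsg.Agent.S4341
import Cfsg.Agent.S1010

set_option autoImplicit false
open Cfsg

namespace Cfsg.Agent.S4346

section S4346aux

open Cfsg.Agent.S4304 (faithful smul_eq_iff mem_of_smul_eq burnside_simple index_normalizer inf_eq_bot_of_card_prime pow_smul_eq zpow_smul_eq exists_ne_sylow le_centralizer_of_card_prime relIndex_dvd)
open Cfsg.Agent.S1010 (sign_trivial)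
open scoped Pointwise

variable {G : Type*} [Group G] [Finite G]

omit [Finite G] in
theorem mem_smul_sylow {p : ℕ} (g : G) (Q : Sylow p G) (z : G) :
    z ∈ ((g • Q : Sylow p G) : Subgroup G) ↔ g⁻¹ * z * g ∈ (Q : Subgroup G) := by
  rw [Sylow.smul_def, Sylow.pointwise_smul_def]
  show z ∈ MulAut.conj g • (Q : Subgroup G) ↔ _
  rw [Subgroup.mem_pointwise_smul_iff_inv_smul_mem, MulAut.smul_def, MulAut.conj_inv_apply]

theorem dvd22 (n : ℕ) (hd : n ∣ 22) (hm : n % 3 = 1) : n = 1 ∨ n = 22 := by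
  have : n ≤ 22 := Nat.le_of_dvd (by norm_num) hd
  interval_cases n <;> first | omega | (norm_num at hd) | (norm_num at hm)

/-- normalizer of a Sylow 3 is maximal when there are 22 of them -/
theorem isCoatom_normalizer [Fact (Nat.Prime 3)] (h22 : Nat.card (Sylow 3 G) = 22) (P : Sylow 3 G) :
    IsCoatom (Subgroup.normalizer ((P : Subgroup G) : Set G)) := by
  have hidx : (Subgroup.normalizer ((P : Subgroup G) : Set G)).index = 22 := by
    rw [index_normalizer, h22]
  constructor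
  · intro h
    rw [h, Subgroup.index_top] at hidx
    omega
  · intro H hH
    have hPH : (P : Subgroup G) ≤ H := le_trans Subgroup.le_normalizer hH.le
    have h1 := Cfsg.Agent.S4341.card_sylow_of_le P H hPH
    have h2 : Nat.card (Sylow 3 H) ≡ 1 [MOD 3] := card_sylow_modEq_one 3 H
    have h3 := Subgroup.relIndex_mul_index hH.le
    rw [hidx, ← h1] at h3
    have h4 : Nat.card (Sylow 3 H) ∣ 22 := Dvd.intro _ h3
    rcases dvd22 _ h4 h2 with h6 | h6
    · exfalso
      rw [h6] at h1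
      have := Subgroup.relIndex_eq_one.mp h1.symm
      exact absurd (le_antisymm hH.le this) hH.ne
    · rw [h6] at h3
      have : H.index = 1 := by omega
      exact Subgroup.index_eq_one.mp this

omit [Finite G] in
/-- if all orbits have cardinality divisible by `m`, so does the set -/
theorem dvd_card_of_orbits {H X : Type*} [Group H] [MulAction H X] [Finite X] (m : ℕ)
    (h : ∀ x : X, m ∣ Nat.card (MulAction.orbit H x)) : m ∣ Nat.card X := by
  classical
  have : Fintype (MulAction.orbitRel.Quotient H X) := Fintype.ofFinite _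
  rw [Nat.card_congr (MulAction.selfEquivSigmaOrbits H X), Nat.card_sigma]
  exact Finset.dvd_sum (fun ω _ => h _)

theorem card_eq_card {p : ℕ} [Fact p.Prime] (P Q : Sylow p G) :
    Nat.card (P : Subgroup G) = Nat.card (Q : Subgroup G) := by
  rw [P.card_eq_multiplicity, Q.card_eq_multiplicity]

/-- a proper intersection of Sylow 3-subgroups has index at least 3 -/
theorem card_inf_le [Fact (Nat.Prime 3)] (P Q : Sylow 3 G) (hne : Q ≠ P) :
    3 * Nat.card ((P : Subgroup G) ⊓ Q : Subgroup G) ≤ Nat.card (P : Subgroup G) := by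
  have h1 := Cfsg.Agent.S4341.card_eq_of_le (inf_le_left : (P : Subgroup G) ⊓ Q ≤ P)
  obtain ⟨j, hj⟩ := P.2.index (((P : Subgroup G) ⊓ Q : Subgroup G).subgroupOf P)
  have hj' : ((P : Subgroup G) ⊓ Q : Subgroup G).relIndex P = 3 ^ j := hj
  have hj0 : j ≠ 0 := by
    rintro rfl
    rw [pow_zero] at hj'
    have h7 : (P : Subgroup G) ≤ (P : Subgroup G) ⊓ Q := Subgroup.relIndex_eq_one.mp hj'
    exact hne (Sylow.ext (P.3 Q.2 (h7.trans inf_le_right)))
  rw [h1, hj']
  have h3 : 3 ^ 1 ≤ 3 ^ j := Nat.pow_le_pow_right (by norm_num) (by omega)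
  have hpos : 0 < Nat.card ((P : Subgroup G) ⊓ Q : Subgroup G) := Nat.card_pos
  nlinarith

/-- adjacency of Sylow 3-subgroups: the intersection has index 3 -/
def Adj (P Q : Sylow 3 G) : Prop :=
  Q ≠ P ∧ Nat.card (P : Subgroup G) = 3 * Nat.card ((P : Subgroup G) ⊓ Q : Subgroup G)

theorem adj_symm [Fact (Nat.Prime 3)] {P Q : Sylow 3 G} (h : Adj P Q) : Adj Q P := by
  refine ⟨Ne.symm h.1, ?_⟩
  rw [inf_comm, ← h.2]; exact card_eq_card Q P

omit [Finite G] in
theorem card_smul_inf {p : ℕ} (g : G) (P Q : Sylow p G) :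
    Nat.card (((g • P : Sylow p G) : Subgroup G) ⊓ (g • Q : Sylow p G) : Subgroup G)
      = Nat.card ((P : Subgroup G) ⊓ Q : Subgroup G) := by
  have h : (((g • P : Sylow p G) : Subgroup G) ⊓ (g • Q : Sylow p G) : Subgroup G)
      = MulAut.conj g • ((P : Subgroup G) ⊓ Q) := by
    rw [Subgroup.smul_inf]; rfl
  rw [h]
  exact (Nat.card_congr (Subgroup.equivSMul (MulAut.conj g) ((P : Subgroup G) ⊓ Q)).toEquiv).symm

theorem adj_smul [Fact (Nat.Prime 3)] (g : G) {P Q : Sylow 3 G} (h : Adj P Q) :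
    Adj (g • P) (g • Q) := by
  refine ⟨fun h' => h.1 (smul_left_cancel g h'), ?_⟩
  rw [card_smul_inf, ← h.2]; exact card_eq_card _ _

/-- the intersection of adjacent Sylow subgroups is normal in each -/
theorem adj_conj_mem [Fact (Nat.Prime 3)] {X Y : Sylow 3 G} (h : Adj X Y) (d z : G)
    (hd : d ∈ (X : Subgroup G)) (hz : z ∈ ((X : Subgroup G) ⊓ Y : Subgroup G)) :
    d * z * d⁻¹ ∈ ((X : Subgroup G) ⊓ Y : Subgroup G) := by
  have hidx : (((X : Subgroup G) ⊓ Y : Subgroup G).subgroupOf X).index = 3 := by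
    have h1 := Cfsg.Agent.S4341.card_eq_of_le (inf_le_left : (X : Subgroup G) ⊓ Y ≤ X)
    have h2 := h.2
    have hpos : 0 < Nat.card ((X : Subgroup G) ⊓ Y : Subgroup G) := Nat.card_pos
    have : ((X : Subgroup G) ⊓ Y : Subgroup G).relIndex X = 3 := by nlinarith
    exact this
  have hmin : (Nat.card (X : Subgroup G)).minFac = 3 := by
    obtain ⟨n, hn⟩ := (IsPGroup.iff_card.mp X.2)
    have hn0 : n ≠ 0 := by
      rintro rfl
      rw [pow_zero] at hn
      have := h.2
      omega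
    rw [hn]
    exact Nat.Prime.pow_minFac (by norm_num) hn0
  have hN : (((X : Subgroup G) ⊓ Y : Subgroup G).subgroupOf X).Normal :=
    Subgroup.normal_of_index_eq_minFac_card (by rw [hidx, hmin])
  have h3 := hN.conj_mem ⟨z, (Subgroup.mem_inf.mp hz).1⟩ (Subgroup.mem_subgroupOf.mpr hz) ⟨d, hd⟩
  exact Subgroup.mem_subgroupOf.mp h3

/-- a point off a line is adjacent to at most one point of the line -/
theorem key [Fact (Nat.Prime 3)] {X X' Y : Sylow 3 G} (hXX' : Adj X X') (hXY : Adj X Y)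
    (hX'Y : Adj X' Y) (hD : ¬ ((X : Subgroup G) ⊓ X' : Subgroup G) ≤ Y) : False := by
  have hcX : Nat.card (X : Subgroup G) = Nat.card (X' : Subgroup G) := card_eq_card X X'
  have hcY : Nat.card (X : Subgroup G) = Nat.card (Y : Subgroup G) := card_eq_card X Y
  obtain ⟨d, hdD, hdY⟩ := SetLike.not_le_iff_exists.mp hD
  have hdX : d ∈ (X : Subgroup G) := (Subgroup.mem_inf.mp hdD).1
  have hdX' : d ∈ (X' : Subgroup G) := (Subgroup.mem_inf.mp hdD).2
  have hY' : d • Y ≠ Y := by
    intro h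
    exact hdY (mem_of_smul_eq d (X.2.to_le (Subgroup.zpowers_le.mpr hdX)) Y h)
  have hE1 : ((X : Subgroup G) ⊓ Y : Subgroup G) ≤ (Y : Subgroup G) ⊓ (d • Y : Sylow 3 G) := by
    intro z hz
    refine Subgroup.mem_inf.mpr ⟨(Subgroup.mem_inf.mp hz).2, ?_⟩
    rw [mem_smul_sylow]
    have h1 := adj_conj_mem hXY d⁻¹ z (inv_mem hdX) hz
    rw [inv_inv] at h1
    exact (Subgroup.mem_inf.mp h1).2
  have hE2 : ((X' : Subgroup G) ⊓ Y : Subgroup G) ≤ (Y : Subgroup G) ⊓ (d • Y : Sylow 3 G) := by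
    intro z hz
    refine Subgroup.mem_inf.mpr ⟨(Subgroup.mem_inf.mp hz).2, ?_⟩
    rw [mem_smul_sylow]
    have h1 := adj_conj_mem hX'Y d⁻¹ z (inv_mem hdX') hz
    rw [inv_inv] at h1
    exact (Subgroup.mem_inf.mp h1).2
  have hle := card_inf_le Y (d • Y) hY'
  have e1 : ((X : Subgroup G) ⊓ Y : Subgroup G) = (Y : Subgroup G) ⊓ (d • Y : Sylow 3 G) :=
    Subgroup.eq_of_le_of_card_ge hE1 (by have := hXY.2; omega)
  have e2 : ((X' : Subgroup G) ⊓ Y : Subgroup G) = (Y : Subgroup G) ⊓ (d • Y : Sylow 3 G) :=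
    Subgroup.eq_of_le_of_card_ge hE2 (by have := hX'Y.2; omega)
  have hE1D : ((X : Subgroup G) ⊓ Y : Subgroup G) ≤ (X : Subgroup G) ⊓ X' := by
    apply le_inf inf_le_left
    rw [e1, ← e2]; exact inf_le_left
  have e3 : ((X : Subgroup G) ⊓ Y : Subgroup G) = (X : Subgroup G) ⊓ X' :=
    Subgroup.eq_of_le_of_card_ge hE1D (by have := hXY.2; have := hXX'.2; omega)
  apply hD
  rw [← e3]; exact inf_le_right

/-- the number of Sylow subgroups far from `P` is divisible by 9 -/
theorem far_dvd [Fact (Nat.Prime 3)] (P : Sylow 3 G) :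
    9 ∣ {R : Sylow 3 G | R ≠ P ∧ ¬ Adj P R}.ncard := by
  let T : SubMulAction (↥(P : Subgroup G)) (Sylow 3 G) :=
    { carrier := {R : Sylow 3 G | R ≠ P ∧ ¬ Adj P R}
      smul_mem' := by
        intro y R hR
        have hyP : (y : G) • P = P := (smul_eq_iff _ P).mpr (Subgroup.le_normalizer y.2)
        refine ⟨?_, ?_⟩
        · intro h
          apply hR.1
          have h' : (y : G) • R = (y : G) • P := by rw [hyP]; exact h
          exact smul_left_cancel _ h'
        · intro h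
          apply hR.2
          have h1 := adj_smul (y : G)⁻¹ h
          have hyP' : (y : G)⁻¹ • P = P := by rw [inv_smul_eq_iff, hyP]
          have h2 : (y : G)⁻¹ • ((y : G) • R) = R := inv_smul_smul _ _
          have h3 : (y : G)⁻¹ • (y • R) = R := h2
          rw [hyP', h3] at h1
          exact h1 }
  have hT : Nat.card T = {R : Sylow 3 G | R ≠ P ∧ ¬ Adj P R}.ncard := Nat.card_coe_set_eq _
  rw [← hT]
  apply dvd_card_of_orbits (H := ↥(P : Subgroup G))
  rintro ⟨R, hR⟩
  have h2 : (MulAction.stabilizer (P : Subgroup G) (⟨R, hR⟩ : T)).index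
      = (MulAction.orbit (P : Subgroup G) (⟨R, hR⟩ : T)).ncard := MulAction.index_stabilizer _ _
  rw [Nat.card_coe_set_eq, ← h2, SubMulAction.stabilizer_of_subMul]
  have h3 : MulAction.stabilizer (P : Subgroup G) R
      = ((P : Subgroup G) ⊓ R : Subgroup G).subgroupOf P := by
    ext y
    rw [MulAction.mem_stabilizer_iff, Subgroup.mem_subgroupOf, Subgroup.mem_inf]
    constructor
    · intro h
      have h' : (y : G) • R = R := h
      exact ⟨y.2, mem_of_smul_eq (y : G) (P.2.to_le (Subgroup.zpowers_le.mpr y.2)) R h'⟩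
    · rintro ⟨-, h⟩
      show (y : G) • R = R
      exact (smul_eq_iff _ R).mpr (Subgroup.le_normalizer h)
  have h3' : MulAction.stabilizer (P : Subgroup G) ((⟨R, hR⟩ : T) : Sylow 3 G)
      = ((P : Subgroup G) ⊓ R : Subgroup G).subgroupOf P := h3
  rw [h3']
  obtain ⟨j, hj⟩ := P.2.index (((P : Subgroup G) ⊓ R : Subgroup G).subgroupOf P)
  rw [hj]
  have h1 := Cfsg.Agent.S4341.card_eq_of_le (inf_le_left : (P : Subgroup G) ⊓ R ≤ P)
  have hj' : ((P : Subgroup G) ⊓ R : Subgroup G).relIndex P = 3 ^ j := hj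
  rw [hj'] at h1
  have hj0 : j ≠ 0 := by
    rintro rfl
    rw [pow_zero] at hj'
    have h7 : (P : Subgroup G) ≤ (P : Subgroup G) ⊓ R := Subgroup.relIndex_eq_one.mp hj'
    exact hR.1 (Sylow.ext (P.3 R.2 (h7.trans inf_le_right)))
  have hj1 : j ≠ 1 := by
    rintro rfl
    apply hR.2
    exact ⟨hR.1, by rw [h1, pow_one]⟩
  have h9 : 3 ^ 2 ∣ 3 ^ j := pow_dvd_pow 3 (by omega)
  simpa using h9

theorem adj_count [Fact (Nat.Prime 3)] (h22 : Nat.card (Sylow 3 G) = 22) (X : Sylow 3 G) :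
    {R : Sylow 3 G | Adj X R}.ncard = 3 ∨ {R : Sylow 3 G | Adj X R}.ncard = 12 ∨
      {R : Sylow 3 G | Adj X R}.ncard = 21 := by
  have h9 := far_dvd X
  have hu : ({X} : Set (Sylow 3 G)) ∪ {R | Adj X R} ∪ {R | R ≠ X ∧ ¬ Adj X R} = Set.univ := by
    ext R
    simp only [Set.mem_union, Set.mem_singleton_iff, Set.mem_ofPred_eq, Set.mem_univ, iff_true]
    by_cases h : R = X
    · left; left; exact h
    · by_cases h' : Adj X R
      · left; right; exact h'
      · right; exact ⟨h, h'⟩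
  have hd1 : Disjoint ({X} : Set (Sylow 3 G)) {R | Adj X R} := by
    rw [Set.disjoint_singleton_left]; intro h; exact h.1 rfl
  have hd2 : Disjoint (({X} : Set (Sylow 3 G)) ∪ {R | Adj X R}) {R | R ≠ X ∧ ¬ Adj X R} := by
    rw [Set.disjoint_left]
    rintro R (h | h) ⟨h1, h2⟩
    · exact h1 h
    · exact h2 h
  have hc := Set.ncard_union_eq hd2 (Set.toFinite _) (Set.toFinite _)
  rw [Set.ncard_union_eq hd1 (Set.toFinite _) (Set.toFinite _), hu, Set.ncard_univ, h22,
    Set.ncard_singleton] at hc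
  obtain ⟨c, hc'⟩ := h9
  omega

/-- a line cannot consist of a point together with all its neighbours -/
theorem no_full_line [IsSimpleGroup G] [Fact (Nat.Prime 3)] (h22 : Nat.card (Sylow 3 G) = 22)
    {X Q : Sylow 3 G} (hXQ : Adj X Q) (hD : ((X : Subgroup G) ⊓ Q : Subgroup G) ≠ ⊥)
    (hall : ∀ R : Sylow 3 G, Adj X R → ((X : Subgroup G) ⊓ Q : Subgroup G) ≤ R) : False := by
  have hco := isCoatom_normalizer h22 X
  have hconj : ∀ n ∈ Subgroup.normalizer ((X : Subgroup G) : Set G),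
      ∀ z ∈ ((X : Subgroup G) ⊓ Q : Subgroup G), n * z * n⁻¹ ∈ ((X : Subgroup G) ⊓ Q : Subgroup G) := by
    intro n hn z hz
    have hnX : n⁻¹ • X = X := (smul_eq_iff _ X).mpr (inv_mem hn)
    have hadj : Adj X (n⁻¹ • Q) := by
      have h1 := adj_smul n⁻¹ hXQ
      rw [hnX] at h1; exact h1
    have h1 : z ∈ ((n⁻¹ • Q : Sylow 3 G) : Subgroup G) := hall _ hadj hz
    rw [mem_smul_sylow, inv_inv] at h1
    refine Subgroup.mem_inf.mpr ⟨?_, h1⟩
    exact (Subgroup.mem_normalizer_iff.mp hn z).mp (Subgroup.mem_inf.mp hz).1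
  have hNle : Subgroup.normalizer ((X : Subgroup G) : Set G)
      ≤ Subgroup.normalizer ((((X : Subgroup G) ⊓ Q : Subgroup G)) : Set G) := by
    intro n hn
    rw [Subgroup.mem_normalizer_iff]
    intro z
    constructor
    · exact hconj n hn z
    · intro h
      have h1 := hconj n⁻¹ (inv_mem hn) _ h
      simpa [mul_assoc] using h1
  have hQle : (Q : Subgroup G) ≤ Subgroup.normalizer ((((X : Subgroup G) ⊓ Q : Subgroup G)) : Set G) := by
    intro q hq
    rw [Subgroup.mem_normalizer_iff]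
    have hQX := adj_symm hXQ
    have hD' : ((X : Subgroup G) ⊓ Q : Subgroup G) = (Q : Subgroup G) ⊓ X := inf_comm _ _
    intro z
    constructor
    · intro hz
      rw [hD'] at hz ⊢
      exact adj_conj_mem hQX q z hq hz
    · intro hz
      rw [hD'] at hz ⊢
      have h1 := adj_conj_mem hQX q⁻¹ _ (inv_mem hq) hz
      simpa [mul_assoc] using h1
  have hQN : ¬ (Q : Subgroup G) ≤ Subgroup.normalizer ((X : Subgroup G) : Set G) := by
    intro h
    apply hXQ.1
    have h1 : (Q : Subgroup G) ≤ X := by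
      intro q hq
      exact mem_of_smul_eq q (Q.2.to_le (Subgroup.zpowers_le.mpr hq)) X ((smul_eq_iff q X).mpr (h hq))
    exact (Sylow.ext (Q.3 X.2 h1)).symm
  have hlt : Subgroup.normalizer ((X : Subgroup G) : Set G)
      < Subgroup.normalizer ((((X : Subgroup G) ⊓ Q : Subgroup G)) : Set G) :=
    lt_of_le_of_ne hNle (fun h => hQN (h ▸ hQle))
  have htop := hco.2 _ hlt
  have hDn : ((X : Subgroup G) ⊓ Q : Subgroup G).Normal := Subgroup.normalizer_eq_top_iff.mp htop
  rcases hDn.eq_bot_or_eq_top with h | h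
  · exact hD h
  · have hXtop : (X : Subgroup G) = ⊤ := top_le_iff.mp (h ▸ inf_le_left)
    have h1 := index_normalizer X
    rw [h22] at h1
    have h2 : Subgroup.normalizer ((X : Subgroup G) : Set G) = ⊤ :=
      top_le_iff.mp (hXtop ▸ Subgroup.le_normalizer)
    rw [h2, Subgroup.index_top] at h1
    omega


/-- Case of Sylow 3-subgroups of order at least 9. -/
theorem caseBig [IsSimpleGroup G] [Fact (Nat.Prime 3)] (h22 : Nat.card (Sylow 3 G) = 22)
    (hbig : ∀ P : Sylow 3 G, 9 ≤ Nat.card (P : Subgroup G)) : False := by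
  classical
  have : Fintype (Sylow 3 G) := Fintype.ofFinite _
  have hF : Fintype.card (Sylow 3 G) = 22 := by rw [← Nat.card_eq_fintype_card]; exact h22
  obtain ⟨P⟩ : Nonempty (Sylow 3 G) := inferInstance
  obtain ⟨Q, hPQ⟩ : ∃ Q, Adj P Q := by
    have hne : {R : Sylow 3 G | Adj P R}.Nonempty := by
      rw [← Set.ncard_pos (Set.toFinite _)]
      rcases adj_count h22 P with h | h | h <;> omega
    exact hne
  obtain ⟨D, hDdef⟩ : ∃ D : Subgroup G, D = (P : Subgroup G) ⊓ Q := ⟨_, rfl⟩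
  have hDcard : Nat.card (P : Subgroup G) = 3 * Nat.card D := by rw [hDdef]; exact hPQ.2
  have hDbot : D ≠ ⊥ := by
    intro h
    rw [h, Subgroup.card_bot] at hDcard
    have := hbig P; omega
  let L : Finset (Sylow 3 G) := Finset.univ.filter (fun R => D ≤ R)
  have hmem : ∀ R, R ∈ L ↔ D ≤ R := by intro R; simp [L]
  have hPL : P ∈ L := (hmem P).mpr (by rw [hDdef]; exact inf_le_left)
  have hQL : Q ∈ L := (hmem Q).mpr (by rw [hDdef]; exact inf_le_right)
  have hLD : ∀ R R' : Sylow 3 G, R ∈ L → R' ∈ L → R' ≠ R →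
      ((R : Subgroup G) ⊓ R' : Subgroup G) = D ∧ Adj R R' := by
    intro R R' hR hR' hne
    have h1 : D ≤ (R : Subgroup G) ⊓ R' := le_inf ((hmem R).mp hR) ((hmem R').mp hR')
    have h2 := card_inf_le R R' hne
    have h3 : Nat.card (R : Subgroup G) = Nat.card (P : Subgroup G) := card_eq_card R P
    have h4 : D = (R : Subgroup G) ⊓ R' := Subgroup.eq_of_le_of_card_ge h1 (by omega)
    exact ⟨h4.symm, hne, by rw [← h4]; omega⟩
  have hk3 : L.card % 3 = 1 := by
    have hDp : IsPGroup 3 D := P.2.to_le (by rw [hDdef]; exact inf_le_left)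
    have h2 := hDp.card_modEq_card_fixedPoints (Sylow 3 G)
    have h3 : MulAction.fixedPoints D (Sylow 3 G) = ((L : Finset (Sylow 3 G)) : Set (Sylow 3 G)) := by
      ext R
      rw [hDp.sylow_mem_fixedPoints_iff, Finset.mem_coe, hmem]
    rw [h3, h22, Nat.card_coe_set_eq, Set.ncard_coe_finset] at h2
    unfold Nat.ModEq at h2
    omega
  let Γ : Sylow 3 G → Finset (Sylow 3 G) := fun X => Finset.univ.filter (fun R => Adj X R)
  have hΓ : ∀ X R, R ∈ Γ X ↔ Adj X R := by intro X R; simp [Γ]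
  have hΓcard : ∀ X, (Γ X).card = 3 ∨ (Γ X).card = 12 ∨ (Γ X).card = 21 := by
    intro X
    have h1 := adj_count h22 X
    have e : (Γ X).card = {R : Sylow 3 G | Adj X R}.ncard := by
      rw [← Set.ncard_coe_finset]
      congr 1
      ext R
      simp [hΓ]
    rw [e]; exact h1
  have hsub : ∀ X ∈ L, L.erase X ⊆ Γ X := by
    intro X hX R hR
    obtain ⟨hne, hRL⟩ := Finset.mem_erase.mp hR
    exact (hΓ X R).mpr (hLD X R hX hRL hne).2
  have hfull : ∀ X ∈ L, (Γ X).card ≠ L.card - 1 := by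
    intro X hX hcard
    have heq : L.erase X = Γ X :=
      Finset.eq_of_subset_of_card_le (hsub X hX) (by rw [Finset.card_erase_of_mem hX, hcard])
    obtain ⟨X', hX'L, hX'ne⟩ : ∃ X' ∈ L, X' ≠ X := by
      by_cases h : X = P
      · exact ⟨Q, hQL, by rw [h]; exact hPQ.1⟩
      · exact ⟨P, hPL, fun h' => h h'.symm⟩
    obtain ⟨hDeq, hAdj⟩ := hLD X X' hX hX'L hX'ne
    apply no_full_line h22 hAdj
    · rw [hDeq]; exact hDbot
    · intro R hR
      rw [hDeq]
      have h1 : R ∈ L.erase X := by rw [heq]; exact (hΓ X R).mpr hR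
      exact (hmem R).mp (Finset.mem_erase.mp h1).2
  have hdisj : ∀ X ∈ L, ∀ X' ∈ L, X ≠ X' → Disjoint (Γ X \ L) (Γ X' \ L) := by
    intro X hX X' hX' hne
    rw [Finset.disjoint_left]
    intro Y hY hY'
    obtain ⟨hY1, hYL⟩ := Finset.mem_sdiff.mp hY
    obtain ⟨hY2, -⟩ := Finset.mem_sdiff.mp hY'
    obtain ⟨hDeq, hAdj⟩ := hLD X X' hX hX' (Ne.symm hne)
    apply key hAdj ((hΓ X Y).mp hY1) ((hΓ X' Y).mp hY2)
    rw [hDeq]
    exact fun h => hYL ((hmem Y).mpr h)
  have hcardU : (L.biUnion (fun X => Γ X \ L)).card = ∑ X ∈ L, (Γ X \ L).card :=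
    Finset.card_biUnion (fun X hX X' hX' hne => hdisj X hX X' hX' hne)
  have hsubU : L.biUnion (fun X => Γ X \ L) ⊆ Finset.univ \ L := by
    intro Y hY
    obtain ⟨X, hX, hY'⟩ := Finset.mem_biUnion.mp hY
    exact Finset.mem_sdiff.mpr ⟨Finset.mem_univ _, (Finset.mem_sdiff.mp hY').2⟩
  have hbound : (L.biUnion (fun X => Γ X \ L)).card ≤ 22 - L.card := by
    have h1 := Finset.card_le_card hsubU
    rw [Finset.card_sdiff_of_subset (Finset.subset_univ _), Finset.card_univ, hF] at h1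
    exact h1
  have hterm : ∀ X ∈ L, (Γ X \ L).card = (Γ X).card - (L.card - 1) := by
    intro X hX
    have h1 : Γ X \ L = Γ X \ L.erase X := by
      ext R
      simp only [Finset.mem_sdiff, Finset.mem_erase]
      constructor
      · rintro ⟨h1, h2⟩; exact ⟨h1, fun h => h2 h.2⟩
      · rintro ⟨h1, h2⟩
        exact ⟨h1, fun h => h2 ⟨((hΓ X R).mp h1).1, h⟩⟩
    rw [h1, Finset.card_sdiff_of_subset (hsub X hX), Finset.card_erase_of_mem hX]
  have hk2 : 2 ≤ L.card := by
    have h1 : ({P, Q} : Finset (Sylow 3 G)) ⊆ L := by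
      intro R hR
      rcases Finset.mem_insert.mp hR with rfl | hR
      · exact hPL
      · rw [Finset.mem_singleton] at hR; subst hR; exact hQL
    have h5 := Finset.card_le_card h1
    rw [Finset.card_pair (Ne.symm hPQ.1)] at h5
    exact h5
  have hkle : L.card ≤ 22 := by rw [← hF]; exact Finset.card_le_univ L
  rw [hcardU] at hbound
  by_cases hk : L.card ≤ 12
  · have hb : ∀ X ∈ L, 13 - L.card ≤ (Γ X \ L).card := by
      intro X hX
      rw [hterm X hX]
      have h1 := hΓcard X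
      have h2 := hfull X hX
      have h3 := Finset.card_le_card (hsub X hX)
      rw [Finset.card_erase_of_mem hX] at h3
      omega
    have h2 := Finset.card_nsmul_le_sum L _ _ hb
    rw [smul_eq_mul] at h2
    have h3 : L.card = 4 ∨ L.card = 7 ∨ L.card = 10 := by omega
    rcases h3 with h | h | h <;> rw [h] at h2 hbound <;> omega
  · have hb : ∀ X ∈ L, 22 - L.card ≤ (Γ X \ L).card := by
      intro X hX
      rw [hterm X hX]
      have h1 := hΓcard X
      have h2 := hfull X hX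
      have h3 := Finset.card_le_card (hsub X hX)
      rw [Finset.card_erase_of_mem hX] at h3
      omega
    have h2 := Finset.card_nsmul_le_sum L _ _ hb
    rw [smul_eq_mul] at h2
    have h3 : L.card = 22 := by
      by_contra hne
      have h4 : 1 ≤ 22 - L.card := by omega
      nlinarith
    have h5 := hΓcard P
    have h6 := hfull P hPL
    have h7 := Finset.card_le_card (hsub P hPL)
    rw [Finset.card_erase_of_mem hPL] at h7
    omega


/-- number of Sylow `p`-subgroups normalized by `g` -/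
noncomputable def fixc (p : ℕ) (g : G) : ℕ := Set.ncard {Q : Sylow p G | g • Q = Q}

theorem fixc_lt [IsSimpleGroup G] {p : ℕ} [Fact p.Prime] (h1 : 1 < Nat.card (Sylow p G)) (g : G)
    (hg : g ≠ 1) : fixc p g < Nat.card (Sylow p G) := by
  have hne' : {Q : Sylow p G | g • Q = Q} ≠ Set.univ := by
    intro h
    apply hg
    apply faithful (p := p) h1
    intro Q'
    have h2 : Q' ∈ {Q : Sylow p G | g • Q = Q} := h ▸ Set.mem_univ Q'
    exact h2
  have h2 := Set.ncard_lt_ncard (Set.ssubset_univ_iff.mpr hne') (Set.toFinite _)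
  rw [Set.ncard_univ] at h2
  exact h2

theorem fixc_modEq {p : ℕ} [Fact p.Prime] (r : ℕ) [Fact r.Prime] (g : G) (j : ℕ)
    (hg : g ^ r ^ j = 1) : Nat.card (Sylow p G) ≡ fixc p g [MOD r] := by
  have hzp : IsPGroup r (Subgroup.zpowers g) := by
    have h1 : orderOf g ∣ r ^ j := orderOf_dvd_of_pow_eq_one hg
    obtain ⟨i, -, hi⟩ := (Nat.dvd_prime_pow Fact.out).mp h1
    apply IsPGroup.of_card (n := i)
    rw [Nat.card_zpowers, hi]
  have h2 := hzp.card_modEq_card_fixedPoints (Sylow p G)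
  have h3 : MulAction.fixedPoints (Subgroup.zpowers g) (Sylow p G)
      = {Q : Sylow p G | g • Q = Q} := by
    ext Q'
    rw [MulAction.mem_fixedPoints]
    constructor
    · intro h; exact h ⟨g, Subgroup.mem_zpowers g⟩
    · intro h z
      have h1 : g ∈ MulAction.stabilizer G Q' := MulAction.mem_stabilizer_iff.mpr h
      have h2 : (z : G) ∈ MulAction.stabilizer G Q' := (Subgroup.zpowers_le.mpr h1) z.2
      exact MulAction.mem_stabilizer_iff.mp h2
  rw [h3, Nat.card_coe_set_eq] at h2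
  exact h2

theorem fixc_comm {p : ℕ} [Fact p.Prime] (q : ℕ) [Fact q.Prime] (U : Subgroup G)
    (hU : IsPGroup q U) (g : G) (hcomm : ∀ u ∈ U, u * g = g * u) :
    fixc p g ≡ {Q : Sylow p G | g • Q = Q ∧ ∀ u ∈ U, u • Q = Q}.ncard [MOD q] := by
  let T : SubMulAction (↥U) (Sylow p G) :=
    { carrier := {Q : Sylow p G | g • Q = Q}
      smul_mem' := by
        intro y Q' hQ'
        have hQ'' : g • Q' = Q' := hQ'
        show g • ((y : G) • Q') = (y : G) • Q'
        rw [smul_smul, ← hcomm y y.2, ← smul_smul, hQ''] }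
  have hcount : Nat.card T ≡ Nat.card (MulAction.fixedPoints (↥U) T) [MOD q] :=
    hU.card_modEq_card_fixedPoints T
  have hT : Nat.card T = fixc p g := Nat.card_coe_set_eq _
  have hfix : Nat.card (MulAction.fixedPoints (↥U) T)
      = {Q : Sylow p G | g • Q = Q ∧ ∀ u ∈ U, u • Q = Q}.ncard := by
    rw [Nat.card_coe_set_eq]
    have himg : (Subtype.val : T → Sylow p G) '' (MulAction.fixedPoints (↥U) T)
        = {Q : Sylow p G | g • Q = Q ∧ ∀ u ∈ U, u • Q = Q} := by
      ext Q'
      constructor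
      · rintro ⟨⟨Q'', hQ''⟩, hfx, rfl⟩
        refine ⟨hQ'', ?_⟩
        intro u hu
        have h1 := congrArg (fun t : T => (t : Sylow p G)) (hfx ⟨u, hu⟩)
        exact h1
      · rintro ⟨h1, h2⟩
        refine ⟨⟨Q', h1⟩, ?_, rfl⟩
        intro y
        apply Subtype.ext
        exact h2 y y.2
    rw [← himg, Set.ncard_image_of_injective _ Subtype.val_injective]
  rw [hT, hfix] at hcount
  exact hcount

theorem fixc_invol [IsSimpleGroup G] {p : ℕ} [Fact p.Prime] (hG : 2 < Nat.card G) (g : G)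
    (hg : g ^ 2 = 1) : Even ((Nat.card (Sylow p G) - fixc p g) / 2) := by
  classical
  have : Fintype (Sylow p G) := Fintype.ofFinite _
  obtain ⟨σ, hσ⟩ : ∃ σ : Equiv.Perm (Sylow p G), σ = MulAction.toPermHom G (Sylow p G) g :=
    ⟨_, rfl⟩
  have hσ2 : σ ^ 2 = 1 := by rw [hσ, ← map_pow, hg, map_one]
  have hsign := Equiv.Perm.sign_of_pow_two_eq_one hσ2
  have hfs : Function.fixedPoints σ = {Q : Sylow p G | g • Q = Q} := by
    ext Q'
    rw [hσ]
    rfl
  have hfp : Fintype.card (Function.fixedPoints σ) = fixc p g := by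
    rw [← Nat.card_eq_fintype_card, Nat.card_coe_set_eq, hfs]; rfl
  have hF : Fintype.card (Sylow p G) = Nat.card (Sylow p G) := (Nat.card_eq_fintype_card).symm
  rw [hfp, hF] at hsign
  have h1 := sign_trivial (X := Sylow p G) hG g
  rw [← hσ, hsign] at h1
  exact (neg_one_pow_eq_one_iff_even (by decide)).mp h1

/-- a Sylow subgroup fixes only itself -/
theorem fix_sylow {p : ℕ} [Fact p.Prime] (P Q : Sylow p G)
    (h : ∀ u ∈ (P : Subgroup G), u • Q = Q) : Q = P := by
  have h1 : (P : Subgroup G) ≤ Q := by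
    intro u hu
    exact mem_of_smul_eq u (P.2.to_le (Subgroup.zpowers_le.mpr hu)) Q (h u hu)
  exact Sylow.ext (P.3 Q.2 h1)

theorem card_normalizer_eq {p : ℕ} [Fact p.Prime] (Q : Sylow p G) :
    Nat.card (Sylow p G) * Nat.card (Subgroup.normalizer ((Q : Subgroup G) : Set G))
      = Nat.card G := by
  rw [← index_normalizer Q]
  exact Subgroup.index_mul_card _

theorem ord_dvd_normalizer {p : ℕ} (y : G) (Q : Sylow p G) (hy : y • Q = Q) :
    orderOf y ∣ Nat.card (Subgroup.normalizer ((Q : Subgroup G) : Set G)) := by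
  have h1 : y ∈ Subgroup.normalizer ((Q : Subgroup G) : Set G) := (smul_eq_iff y Q).mp hy
  have h2 := orderOf_dvd_natCard (⟨y, h1⟩ : Subgroup.normalizer ((Q : Subgroup G) : Set G))
  rw [Subgroup.orderOf_mk] at h2
  exact h2

theorem card_sylow_of_val (q : ℕ) [Fact q.Prime] (hq : q ∣ Nat.card G) (hq2 : ¬ q ^ 2 ∣ Nat.card G)
    (Y : Sylow q G) : Nat.card (Y : Subgroup G) = q := by
  have h1 := Y.card_eq_multiplicity
  have hqp : q.Prime := Fact.out
  have h2 : 1 ≤ (Nat.card G).factorization q :=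
    (Nat.Prime.dvd_iff_one_le_factorization hqp Nat.card_pos.ne').mp hq
  have h3 : ¬ 2 ≤ (Nat.card G).factorization q := by
    intro h
    exact hq2 ((Nat.Prime.pow_dvd_iff_le_factorization hqp Nat.card_pos.ne').mpr h)
  have h4 : (Nat.card G).factorization q = 1 := by omega
  rw [h1, h4, pow_one]

omit [Finite G] in
/-- elements of a subgroup of prime order: nontrivial element and its order -/
theorem exists_gen {q : ℕ} [Fact q.Prime] (Y : Subgroup G) (hY : Nat.card Y = q) :
    ∃ y ∈ Y, y ≠ 1 ∧ orderOf y = q := by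
  have hqp : q.Prime := Fact.out
  obtain ⟨y, hyY, hy1⟩ : ∃ y ∈ Y, y ≠ 1 := by
    by_contra hcon
    push Not at hcon
    have h1 : Y = ⊥ := (Subgroup.eq_bot_iff_forall _).mpr hcon
    rw [h1, Subgroup.card_bot] at hY
    exact hqp.one_lt.ne hY
  refine ⟨y, hyY, hy1, ?_⟩
  have h2 : orderOf (⟨y, hyY⟩ : Y) ∣ q := by rw [← hY]; exact orderOf_dvd_natCard _
  rw [Subgroup.orderOf_mk] at h2
  rcases (Nat.dvd_prime hqp).mp h2 with h | h
  · exact absurd (orderOf_eq_one_iff.mp h) hy1
  · exact h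

theorem fixc_central [Fact (Nat.Prime 3)] (P : Sylow 3 G) (g : G)
    (hg : g ∈ Subgroup.centralizer ((P : Subgroup G) : Set G)) : fixc 3 g % 3 = 1 := by
  have h1 := fixc_comm (p := 3) 3 (P : Subgroup G) P.2 g
    (fun u hu => (Subgroup.mem_centralizer_iff.mp hg u hu))
  have h2 : {Q : Sylow 3 G | g • Q = Q ∧ ∀ u ∈ (P : Subgroup G), u • Q = Q} = {P} := by
    ext Q
    constructor
    · rintro ⟨-, h⟩
      exact fix_sylow P Q h
    · intro hQ
      rw [Set.mem_singleton_iff] at hQ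
      subst hQ
      exact ⟨(smul_eq_iff g _).mpr (Subgroup.centralizer_le_normalizer _ hg),
        fun u hu => (smul_eq_iff u _).mpr (Subgroup.le_normalizer hu)⟩
  rw [h2, Set.ncard_singleton] at h1
  unfold Nat.ModEq at h1
  omega


theorem card_centralizer [IsSimpleGroup G] [Fact (Nat.Prime 3)] (h22 : Nat.card (Sylow 3 G) = 22)
    (P : Sylow 3 G) (hc : Nat.card (P : Subgroup G) = 3) :
    ∃ k, k ∣ 560 ∧ Nat.card (Subgroup.centralizer ((P : Subgroup G) : Set G)) = 3 * k := by
  classical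
  have : Fintype (Sylow 3 G) := Fintype.ofFinite _
  have hF : Fintype.card (Sylow 3 G) = 22 := by rw [← Nat.card_eq_fintype_card]; exact h22
  obtain ⟨x, hxP, hx1, hxo⟩ := exists_gen (P : Subgroup G) hc
  have hx3 : x ^ 3 = 1 := by rw [← hxo]; exact pow_orderOf_eq_one x
  obtain ⟨σ, hσ⟩ : ∃ σ : Equiv.Perm (Sylow 3 G), σ = MulAction.toPermHom G (Sylow 3 G) x :=
    ⟨_, rfl⟩
  have hσ3 : σ ^ 3 = 1 := by rw [hσ, ← map_pow, hx3, map_one]
  have hσ1 : σ ≠ 1 := by
    intro h
    apply hx1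
    apply faithful (p := 3) (by omega)
    intro Q
    have h1 := congrArg (fun τ : Equiv.Perm (Sylow 3 G) => τ Q) h
    rw [hσ] at h1
    simpa using h1
  have hord : orderOf σ = 3 := orderOf_eq_prime hσ3 hσ1
  obtain ⟨n, hn⟩ := Equiv.Perm.cycleType_prime_order (σ := σ) (by rw [hord]; norm_num)
  rw [hord] at hn
  have hfp : Fintype.card (Function.fixedPoints σ) = 1 := by
    rw [Fintype.card_eq_one_iff]
    refine ⟨⟨P, ?_⟩, ?_⟩
    · show σ P = P
      rw [hσ]
      exact (smul_eq_iff x P).mpr (Subgroup.le_normalizer hxP)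
    · rintro ⟨Q, hQ⟩
      apply Subtype.ext
      show Q = P
      have hQ' : x • Q = Q := by
        have h1 : σ Q = Q := hQ
        rw [hσ] at h1; exact h1
      have hxQ : x ∈ (Q : Subgroup G) :=
        mem_of_smul_eq x (P.2.to_le (Subgroup.zpowers_le.mpr hxP)) Q hQ'
      by_contra hne
      have hbot := inf_eq_bot_of_card_prime P Q hc hne
      have h2 : x ∈ (P : Subgroup G) ⊓ Q := Subgroup.mem_inf.mpr ⟨hxP, hxQ⟩
      rw [hbot] at h2
      exact hx1 (Subgroup.mem_bot.mp h2)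
  have hsum : σ.cycleType.sum = 21 := by
    have h1 := σ.card_fixedPoints
    have h2 := σ.sum_cycleType_le
    rw [hfp, hF] at h1
    rw [hF] at h2
    omega
  have hn6 : n = 6 := by
    rw [hn, Multiset.sum_replicate, smul_eq_mul] at hsum
    omega
  subst hn6
  have hcard := Equiv.Perm.nat_card_centralizer σ
  rw [hn, hF] at hcard
  have hcard' : Nat.card (Subgroup.centralizer ({σ} : Set (Equiv.Perm (Sylow 3 G))))
      = 3 ^ 7 * 5040 := by
    rw [hcard]
    decide
  let f : ↥(Subgroup.centralizer ((P : Subgroup G) : Set G)) →*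
      ↥(Subgroup.centralizer ({σ} : Set (Equiv.Perm (Sylow 3 G)))) :=
    ((MulAction.toPermHom G (Sylow 3 G)).comp (Subgroup.subtype _)).codRestrict _ (by
      intro c
      rw [Subgroup.mem_centralizer_iff]
      intro τ hτ
      rw [Set.mem_singleton_iff] at hτ
      rw [hτ, hσ]
      show MulAction.toPermHom G (Sylow 3 G) x * MulAction.toPermHom G (Sylow 3 G) (c : G)
        = MulAction.toPermHom G (Sylow 3 G) (c : G) * MulAction.toPermHom G (Sylow 3 G) x
      rw [← map_mul, ← map_mul, Subgroup.mem_centralizer_iff.mp c.2 x hxP])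
  have hinj : Function.Injective f := by
    rw [injective_iff_map_eq_one]
    intro c hc1
    apply Subtype.ext
    apply faithful (p := 3) (by omega)
    intro Q
    have h1 := congrArg (fun τ : ↥(Subgroup.centralizer ({σ} : Set (Equiv.Perm (Sylow 3 G)))) =>
      (τ : Equiv.Perm (Sylow 3 G)) Q) hc1
    simpa [f] using h1
  have hdvd := Subgroup.card_dvd_of_injective f hinj
  rw [hcard'] at hdvd
  have hPC : (P : Subgroup G) ≤ Subgroup.centralizer ((P : Subgroup G) : Set G) :=
    le_centralizer_of_card_prime _ hc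
  have h3 : 3 ∣ Nat.card (Subgroup.centralizer ((P : Subgroup G) : Set G)) := by
    have h1 := Subgroup.card_dvd_of_le hPC
    rw [hc] at h1; exact h1
  obtain ⟨k, hk⟩ := h3
  refine ⟨k, ?_, hk⟩
  have h3k : ¬ 3 ∣ k := by
    intro h
    have h9 : 3 ^ 2 ∣ Nat.card G := by
      have h1 : 3 ^ 2 ∣ Nat.card (Subgroup.centralizer ((P : Subgroup G) : Set G)) := by
        rw [hk]; obtain ⟨m, rfl⟩ := h; exact ⟨m, by ring⟩
      exact h1.trans (Subgroup.card_subgroup_dvd_card _)
    have h2 := P.card_eq_multiplicity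
    rw [hc] at h2
    have h4 : 2 ≤ (Nat.card G).factorization 3 :=
      (Nat.Prime.pow_dvd_iff_le_factorization (by norm_num) Nat.card_pos.ne').mp h9
    have h5 : 3 ^ 2 ≤ 3 ^ (Nat.card G).factorization 3 := Nat.pow_le_pow_right (by norm_num) h4
    omega
  rw [hk] at hdvd
  have h5 : k ∣ 560 * 3 ^ 8 := by
    have h6 : 3 * k ∣ 3 * (560 * 3 ^ 8) := by
      have h7 : (3 : ℕ) ^ 7 * 5040 = 3 * (560 * 3 ^ 8) := by norm_num
      rw [← h7]; exact hdvd
    exact (Nat.mul_dvd_mul_iff_left (by norm_num)).mp h6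
  have hcop : Nat.Coprime k (3 ^ 8) :=
    Nat.Coprime.pow_right 8 ((Nat.coprime_comm).mp
      ((Nat.Prime.coprime_iff_not_dvd (by norm_num)).mpr h3k))
  exact hcop.dvd_of_dvd_mul_right h5

theorem card_group [IsSimpleGroup G] [Fact (Nat.Prime 3)] (h22 : Nat.card (Sylow 3 G) = 22)
    (P : Sylow 3 G) (hc : Nat.card (P : Subgroup G) = 3) (k : ℕ)
    (hk : Nat.card (Subgroup.centralizer ((P : Subgroup G) : Set G)) = 3 * k) :
    Nat.card (Subgroup.normalizer ((P : Subgroup G) : Set G)) = 6 * k ∧ Nat.card G = 132 * k := by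
  have he := relIndex_dvd P hc
  have hPb : (P : Subgroup G) ≠ ⊥ := by
    intro h
    rw [h, Subgroup.card_bot] at hc; omega
  have hPt : (P : Subgroup G) ≠ ⊤ := by
    intro h
    have h1 := index_normalizer P
    rw [h22] at h1
    have h2 : Subgroup.normalizer ((P : Subgroup G) : Set G) = ⊤ :=
      top_le_iff.mp (h ▸ Subgroup.le_normalizer)
    rw [h2, Subgroup.index_top] at h1
    omega
  have hPB := burnside_simple P hPb hPt
  have hne1 : (Subgroup.centralizer ((P : Subgroup G) : Set G)).relIndex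
      (Subgroup.normalizer ((P : Subgroup G) : Set G)) ≠ 1 :=
    fun h => hPB (Subgroup.relIndex_eq_one.mp h)
  have h3 := Cfsg.Agent.S4341.card_eq_of_le
    (Subgroup.centralizer_le_normalizer ((P : Subgroup G) : Set G))
  have h4 := card_normalizer_eq P
  rw [h22] at h4
  obtain ⟨a, ha⟩ : ∃ a, a = (Subgroup.centralizer ((P : Subgroup G) : Set G)).relIndex
      (Subgroup.normalizer ((P : Subgroup G) : Set G)) := ⟨_, rfl⟩
  rw [← ha] at he hne1 h3
  have ha2 : a = 2 := by
    have h5 : a ≤ 2 := Nat.le_of_dvd (by norm_num) he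
    have h6 : a ≠ 0 := by rintro rfl; simp at he
    omega
  rw [ha2, hk] at h3
  constructor
  · omega
  · omega


omit [Finite G] in
theorem coe_props {H : Subgroup G} (g : ↥H) (r : ℕ) (hr : r.Prime) (hg : orderOf g = r) :
    orderOf (g : G) = r ∧ (g : G) ≠ 1 ∧ (g : G) ^ r = 1 := by
  have h1 : orderOf (g : G) = r := by rw [Subgroup.orderOf_coe]; exact hg
  refine ⟨h1, ?_, ?_⟩
  · intro h
    rw [h, orderOf_one] at h1
    exact hr.one_lt.ne h1
  · rw [← h1]; exact pow_orderOf_eq_one _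

/-- no nontrivial element of order 2, 3, 5, 7 commutes with an element of order 11 -/
theorem no_comm11 [IsSimpleGroup G] [Fact (Nat.Prime 3)] (h22 : Nat.card (Sylow 3 G) = 22)
    (k : ℕ) (hk : k ∣ 560) (hG : Nat.card G = 132 * k)
    (y : G) (hy : orderOf y = 11) (g : G) (hg1 : g ≠ 1) (r : ℕ)
    (hr : r = 2 ∨ r = 3 ∨ r = 5 ∨ r = 7) (hgr : g ^ r = 1) (hcomm : y * g = g * y) : False := by
  have h11 : Fact (Nat.Prime 11) := ⟨by norm_num⟩
  have hkpos : 0 < k := Nat.pos_of_dvd_of_pos hk (by norm_num)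
  have hU : IsPGroup 11 (Subgroup.zpowers y) :=
    IsPGroup.of_card (n := 1) (by rw [Nat.card_zpowers, hy, pow_one])
  have h1 := fixc_comm (p := 3) 11 (Subgroup.zpowers y) hU g (by
    intro u hu
    obtain ⟨i, rfl⟩ := Subgroup.mem_zpowers_iff.mp hu
    exact (Commute.zpow_left (show Commute y g from hcomm) i))
  have h2 : {Q : Sylow 3 G | g • Q = Q ∧ ∀ u ∈ Subgroup.zpowers y, u • Q = Q} = ∅ := by
    rw [Set.eq_empty_iff_forall_notMem]
    rintro Q ⟨-, h⟩
    have hyQ := h y (Subgroup.mem_zpowers y)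
    have hd := ord_dvd_normalizer y Q hyQ
    have hN := card_normalizer_eq Q
    rw [h22, hG] at hN
    rw [hy] at hd
    have h3 : Nat.card (Subgroup.normalizer ((Q : Subgroup G) : Set G)) = 6 * k := by omega
    rw [h3] at hd
    have h4 : 6 * k ∣ 6 * 560 := Nat.mul_dvd_mul_left 6 hk
    have h5 := hd.trans h4
    norm_num at h5
  rw [h2, Set.ncard_empty] at h1
  have hlt := fixc_lt (p := 3) (by omega) g hg1
  rw [h22] at hlt
  have h0 : fixc 3 g % 11 = 0 := by unfold Nat.ModEq at h1; omega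
  rcases hr with rfl | rfl | rfl | rfl
  · have hp : Fact (Nat.Prime 2) := ⟨by norm_num⟩
    have h3 := fixc_modEq (p := 3) 2 g 1 (by rw [pow_one]; exact hgr)
    have h4 := fixc_invol (p := 3) (by rw [hG]; omega) g hgr
    rw [h22] at h3 h4
    unfold Nat.ModEq at h3
    have h5 : fixc 3 g = 0 := by omega
    rw [h5] at h4
    exact absurd h4 (by decide)
  · have hp : Fact (Nat.Prime 3) := ⟨by norm_num⟩
    have h3 := fixc_modEq (p := 3) 3 g 1 (by rw [pow_one]; exact hgr)
    rw [h22] at h3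
    unfold Nat.ModEq at h3
    omega
  · have hp : Fact (Nat.Prime 5) := ⟨by norm_num⟩
    have h3 := fixc_modEq (p := 3) 5 g 1 (by rw [pow_one]; exact hgr)
    rw [h22] at h3
    unfold Nat.ModEq at h3
    omega
  · have hp : Fact (Nat.Prime 7) := ⟨by norm_num⟩
    have h3 := fixc_modEq (p := 3) 7 g 1 (by rw [pow_one]; exact hgr)
    rw [h22] at h3
    unfold Nat.ModEq at h3
    omega

theorem card_cent11 [IsSimpleGroup G] [Fact (Nat.Prime 3)] [Fact (Nat.Prime 11)]
    (h22 : Nat.card (Sylow 3 G) = 22) (k : ℕ) (hk : k ∣ 560) (hG : Nat.card G = 132 * k)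
    (Y : Sylow 11 G) (hY : Nat.card (Y : Subgroup G) = 11) :
    Nat.card (Subgroup.centralizer ((Y : Subgroup G) : Set G)) = 11 := by
  obtain ⟨y, hyY, hy1, hy⟩ := exists_gen (Y : Subgroup G) hY
  have hnot : ∀ r, (r = 2 ∨ r = 3 ∨ r = 5 ∨ r = 7) →
      ¬ r ∣ Nat.card (Subgroup.centralizer ((Y : Subgroup G) : Set G)) := by
    intro r hr hdvd
    have hrp : r.Prime := by rcases hr with rfl | rfl | rfl | rfl <;> norm_num
    have hrf : Fact r.Prime := ⟨hrp⟩
    obtain ⟨g, hg⟩ := exists_prime_orderOf_dvd_card' r hdvd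
    obtain ⟨-, hg1, hgr⟩ := coe_props g r hrp hg
    exact no_comm11 h22 k hk hG y hy (g : G) hg1 r hr hgr
      (Subgroup.mem_centralizer_iff.mp g.2 y hyY)
  have hd : Nat.card (Subgroup.centralizer ((Y : Subgroup G) : Set G)) ∣ 11 * 6720 := by
    have h1 : Nat.card G ∣ 11 * 6720 := by
      rw [hG]
      have h2 : (11 : ℕ) * 6720 = 132 * 560 := by norm_num
      rw [h2]; exact Nat.mul_dvd_mul_left 132 hk
    exact (Subgroup.card_subgroup_dvd_card _).trans h1
  have hcop : Nat.Coprime (Nat.card (Subgroup.centralizer ((Y : Subgroup G) : Set G))) 6720 := by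
    have c2 := (Nat.coprime_comm).mp
      ((Nat.Prime.coprime_iff_not_dvd Nat.prime_two).mpr (hnot 2 (Or.inl rfl)))
    have c3 := (Nat.coprime_comm).mp
      ((Nat.Prime.coprime_iff_not_dvd Nat.prime_three).mpr (hnot 3 (Or.inr (Or.inl rfl))))
    have c5 := (Nat.coprime_comm).mp
      ((Nat.Prime.coprime_iff_not_dvd Nat.prime_five).mpr (hnot 5 (Or.inr (Or.inr (Or.inl rfl)))))
    have c7 := (Nat.coprime_comm).mp
      ((Nat.Prime.coprime_iff_not_dvd (by norm_num : Nat.Prime 7)).mpr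
        (hnot 7 (Or.inr (Or.inr (Or.inr rfl)))))
    have h1 : (6720 : ℕ) = 2 ^ 6 * 3 * 5 * 7 := by norm_num
    rw [h1]
    exact Nat.Coprime.mul_right (Nat.Coprime.mul_right (Nat.Coprime.mul_right
      (Nat.Coprime.pow_right 6 c2) c3) c5) c7
  have h11 : Nat.card (Subgroup.centralizer ((Y : Subgroup G) : Set G)) ∣ 11 :=
    hcop.dvd_of_dvd_mul_right hd
  have hle : 11 ∣ Nat.card (Subgroup.centralizer ((Y : Subgroup G) : Set G)) := by
    have h1 := Subgroup.card_dvd_of_le (le_centralizer_of_card_prime (Y : Subgroup G) hY)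
    rw [hY] at h1; exact h1
  exact Nat.dvd_antisymm h11 hle

theorem card_norm11 [IsSimpleGroup G] [Fact (Nat.Prime 11)]
    (Y : Sylow 11 G) (hY : Nat.card (Y : Subgroup G) = 11)
    (hYt : (Y : Subgroup G) ≠ ⊤)
    (hC : Nat.card (Subgroup.centralizer ((Y : Subgroup G) : Set G)) = 11) :
    ∃ e, (e = 2 ∨ e = 5 ∨ e = 10) ∧
      Nat.card (Subgroup.normalizer ((Y : Subgroup G) : Set G)) = 11 * e := by
  have he := relIndex_dvd Y hY
  have hYb : (Y : Subgroup G) ≠ ⊥ := by
    intro h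
    rw [h, Subgroup.card_bot] at hY; omega
  have hB := burnside_simple Y hYb hYt
  have hne1 : (Subgroup.centralizer ((Y : Subgroup G) : Set G)).relIndex
      (Subgroup.normalizer ((Y : Subgroup G) : Set G)) ≠ 1 :=
    fun h => hB (Subgroup.relIndex_eq_one.mp h)
  have h3 := Cfsg.Agent.S4341.card_eq_of_le
    (Subgroup.centralizer_le_normalizer ((Y : Subgroup G) : Set G))
  obtain ⟨a, ha⟩ : ∃ a, a = (Subgroup.centralizer ((Y : Subgroup G) : Set G)).relIndex
      (Subgroup.normalizer ((Y : Subgroup G) : Set G)) := ⟨_, rfl⟩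
  rw [← ha] at he hne1 h3
  refine ⟨a, ?_, by rw [h3, hC]; ring⟩
  have h5 : a ≤ 10 := Nat.le_of_dvd (by norm_num) he
  have h6 : a ∣ 10 := he
  interval_cases a <;> first | omega | (norm_num at h6)

theorem arith (k e n : ℕ) (hk : k ∣ 560) (he : e = 2 ∨ e = 5 ∨ e = 10)
    (h : n * (11 * e) = 132 * k) (hn : n % 11 = 1) :
    (n = 12 ∧ ((k = 2 ∧ e = 2) ∨ (k = 5 ∧ e = 5) ∨ (k = 10 ∧ e = 10))) ∨
      (k = 35 ∨ k = 112 ∨ k = 280 ∨ k = 560) := by
  have hk' : k ∈ Nat.divisors 560 := Nat.mem_divisors.mpr ⟨hk, by norm_num⟩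
  have hdiv : Nat.divisors 560
      = {1, 2, 4, 5, 7, 8, 10, 14, 16, 20, 28, 35, 40, 56, 70, 80, 112, 140, 280, 560} := by
    decide
  rw [hdiv] at hk'
  simp only [Finset.mem_insert, Finset.mem_singleton] at hk'
  rcases hk' with rfl | rfl | rfl | rfl | rfl | rfl | rfl | rfl | rfl | rfl | rfl | rfl | rfl |
    rfl | rfl | rfl | rfl | rfl | rfl | rfl <;> rcases he with rfl | rfl | rfl <;> omega


/-- the case where 7 divides the order of the centralizer of `P` -/
theorem no_seven [IsSimpleGroup G] [Fact (Nat.Prime 3)] (h22 : Nat.card (Sylow 3 G) = 22)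
    (P : Sylow 3 G) (hc : Nat.card (P : Subgroup G) = 3) (k : ℕ)
    (hk7 : k = 35 ∨ k = 112 ∨ k = 280 ∨ k = 560)
    (hC : Nat.card (Subgroup.centralizer ((P : Subgroup G) : Set G)) = 3 * k)
    (hN : Nat.card (Subgroup.normalizer ((P : Subgroup G) : Set G)) = 6 * k)
    (hG : Nat.card G = 132 * k) : False := by
  have h7 : Fact (Nat.Prime 7) := ⟨by norm_num⟩
  obtain ⟨w, hw⟩ := exists_prime_orderOf_dvd_card'
    (G := ↥(Subgroup.centralizer ((P : Subgroup G) : Set G))) 7
    (by rw [hC]; rcases hk7 with rfl | rfl | rfl | rfl <;> norm_num)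
  obtain ⟨hwo, hw1, hw7⟩ := coe_props w 7 (by norm_num) hw
  have hwP : (w : G) • P = P := (smul_eq_iff _ P).mpr (Subgroup.centralizer_le_normalizer _ w.2)
  have hf1 := fixc_central P (w : G) w.2
  have hf2 := fixc_modEq (p := 3) 7 (w : G) 1 (by rw [pow_one]; exact hw7)
  have hf3 := fixc_lt (p := 3) (by omega) (w : G) hw1
  rw [h22] at hf2 hf3
  have hfw : fixc 3 (w : G) = 1 := by unfold Nat.ModEq at hf2; omega
  have hfixw : ∀ Q : Sylow 3 G, (w : G) • Q = Q → Q = P := by
    intro Q hQ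
    obtain ⟨a, ha⟩ := Set.ncard_eq_one.mp hfw
    have h1 : Q ∈ ({a} : Set (Sylow 3 G)) := ha ▸ hQ
    have h2 : P ∈ ({a} : Set (Sylow 3 G)) := ha ▸ hwP
    rw [Set.mem_singleton_iff] at h1 h2
    rw [h1, h2]
  have hzw : IsPGroup 7 (Subgroup.zpowers (w : G)) :=
    IsPGroup.of_card (n := 1) (by rw [Nat.card_zpowers, hwo, pow_one])
  obtain ⟨W, hW⟩ := hzw.exists_le_sylow
  have hWc : Nat.card (W : Subgroup G) = 7 := by
    apply card_sylow_of_val 7
    · rw [hG]; rcases hk7 with rfl | rfl | rfl | rfl <;> norm_num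
    · rw [hG]; rcases hk7 with rfl | rfl | rfl | rfl <;> norm_num
  have hWeq : Subgroup.zpowers (w : G) = W :=
    Subgroup.eq_of_le_of_card_ge hW (by rw [hWc, Nat.card_zpowers, hwo])
  have hzfix : ∀ u ∈ Subgroup.zpowers (w : G), u • P = P := by
    intro u hu
    obtain ⟨i, rfl⟩ := Subgroup.mem_zpowers_iff.mp hu
    exact zpow_smul_eq (w : G) P hwP i
  have hNW : Subgroup.normalizer ((W : Subgroup G) : Set G)
      ≤ Subgroup.normalizer ((P : Subgroup G) : Set G) := by
    intro g hg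
    rw [← smul_eq_iff]
    apply hfixw
    have hwW : (w : G) ∈ (W : Subgroup G) := hW (Subgroup.mem_zpowers _)
    have h1 : g⁻¹ * (w : G) * g ∈ (W : Subgroup G) :=
      (Subgroup.mem_normalizer_iff''.mp hg (w : G)).mp hwW
    rw [← hWeq] at h1
    have h2 : (g⁻¹ * (w : G) * g) • P = P := hzfix _ h1
    calc (w : G) • (g • P) = g • ((g⁻¹ * (w : G) * g) • P) := by
          rw [smul_smul, smul_smul]; congr 1; group
      _ = g • P := by rw [h2]
  have hCW_le : Subgroup.centralizer ((W : Subgroup G) : Set G)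
      ≤ Subgroup.normalizer ((P : Subgroup G) : Set G) :=
    (Subgroup.centralizer_le_normalizer ((W : Subgroup G) : Set G)).trans hNW
  have hkpos : 0 < k := by rcases hk7 with rfl | rfl | rfl | rfl <;> norm_num
  have hnot : ∀ r, (r = 2 ∨ r = 5) →
      ¬ r ∣ Nat.card (Subgroup.centralizer ((W : Subgroup G) : Set G)) := by
    intro r hr hdvd
    have hrp : r.Prime := by rcases hr with rfl | rfl <;> norm_num
    have hrf : Fact r.Prime := ⟨hrp⟩
    obtain ⟨g, hg⟩ := exists_prime_orderOf_dvd_card' r hdvd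
    obtain ⟨-, hg1, hgr⟩ := coe_props g r hrp hg
    have hgP : (g : G) • P = P := (smul_eq_iff _ P).mpr (hCW_le g.2)
    have hcomm : ∀ u ∈ Subgroup.zpowers (w : G), u * (g : G) = (g : G) * u := by
      intro u hu
      rw [hWeq] at hu
      exact Subgroup.mem_centralizer_iff.mp g.2 u hu
    have h1 := fixc_comm (p := 3) 7 (Subgroup.zpowers (w : G)) hzw (g : G) hcomm
    have h2 : {Q : Sylow 3 G | (g : G) • Q = Q ∧ ∀ u ∈ Subgroup.zpowers (w : G), u • Q = Q}
        = {P} := by
      ext Q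
      constructor
      · rintro ⟨-, h⟩; exact hfixw Q (h _ (Subgroup.mem_zpowers _))
      · intro hQ
        rw [Set.mem_singleton_iff] at hQ
        subst hQ
        exact ⟨hgP, hzfix⟩
    rw [h2, Set.ncard_singleton] at h1
    have hlt := fixc_lt (p := 3) (by omega) (g : G) hg1
    have h3 := fixc_modEq (p := 3) r (g : G) 1 (by rw [pow_one]; exact hgr)
    rw [h22] at hlt h3
    unfold Nat.ModEq at h1 h3
    rcases hr with rfl | rfl
    · have h4 := fixc_invol (p := 3) (by rw [hG]; omega) (g : G) hgr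
      rw [h22] at h4
      have h5 : fixc 3 (g : G) = 8 := by omega
      rw [h5] at h4
      exact absurd h4 (by decide)
    · omega
  have hCW : Nat.card (Subgroup.centralizer ((W : Subgroup G) : Set G)) = 21 := by
    have hd : Nat.card (Subgroup.centralizer ((W : Subgroup G) : Set G)) ∣ 21 * 160 := by
      have h1 := Subgroup.card_dvd_of_le hCW_le
      rw [hN] at h1
      refine h1.trans ?_
      rcases hk7 with rfl | rfl | rfl | rfl <;> norm_num
    have hcop : Nat.Coprime (Nat.card (Subgroup.centralizer ((W : Subgroup G) : Set G))) 160 := by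
      have c2 := (Nat.coprime_comm).mp
        ((Nat.Prime.coprime_iff_not_dvd Nat.prime_two).mpr (hnot 2 (Or.inl rfl)))
      have c5 := (Nat.coprime_comm).mp
        ((Nat.Prime.coprime_iff_not_dvd Nat.prime_five).mpr (hnot 5 (Or.inr rfl)))
      have h1 : (160 : ℕ) = 2 ^ 5 * 5 := by norm_num
      rw [h1]
      exact Nat.Coprime.mul_right (Nat.Coprime.pow_right 5 c2) c5
    have h21 : Nat.card (Subgroup.centralizer ((W : Subgroup G) : Set G)) ∣ 21 :=
      hcop.dvd_of_dvd_mul_right hd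
    have hPle : (P : Subgroup G) ≤ Subgroup.centralizer ((W : Subgroup G) : Set G) := by
      intro u hu
      rw [Subgroup.mem_centralizer_iff]
      intro z hz
      have hz' : z ∈ Subgroup.zpowers (w : G) := by rw [hWeq]; exact hz
      obtain ⟨i, rfl⟩ := Subgroup.mem_zpowers_iff.mp hz'
      have h1 : Commute (w : G) u := (Subgroup.mem_centralizer_iff.mp w.2 u hu).symm
      exact (Commute.zpow_left h1 i)
    have h3 : 3 ∣ Nat.card (Subgroup.centralizer ((W : Subgroup G) : Set G)) := by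
      have h1 := Subgroup.card_dvd_of_le hPle
      rw [hc] at h1; exact h1
    have h7' : 7 ∣ Nat.card (Subgroup.centralizer ((W : Subgroup G) : Set G)) := by
      have h1 := Subgroup.card_dvd_of_le (le_centralizer_of_card_prime (W : Subgroup G) hWc)
      rw [hWc] at h1; exact h1
    have h21' : 21 ∣ Nat.card (Subgroup.centralizer ((W : Subgroup G) : Set G)) :=
      Nat.Coprime.mul_dvd_of_dvd_of_dvd (by norm_num) h3 h7'
    exact Nat.dvd_antisymm h21 h21'
  have he := relIndex_dvd W hWc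
  have h3 := Cfsg.Agent.S4341.card_eq_of_le
    (Subgroup.centralizer_le_normalizer ((W : Subgroup G) : Set G))
  have hd : Nat.card (Subgroup.normalizer ((W : Subgroup G) : Set G)) ∣ 6 * k := by
    rw [← hN]; exact Subgroup.card_dvd_of_le hNW
  have hn7 := card_normalizer_eq W
  have hmod : Nat.card (Sylow 7 G) % 7 = 1 := by
    have h1 := card_sylow_modEq_one 7 G
    unfold Nat.ModEq at h1
    omega
  obtain ⟨a, ha⟩ : ∃ a, a = (Subgroup.centralizer ((W : Subgroup G) : Set G)).relIndex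
      (Subgroup.normalizer ((W : Subgroup G) : Set G)) := ⟨_, rfl⟩
  rw [← ha] at he h3
  have ha' : a = 1 ∨ a = 2 ∨ a = 3 ∨ a = 6 := by
    have h5 : a ≤ 6 := Nat.le_of_dvd (by norm_num) he
    have h6 : a ∣ 6 := he
    interval_cases a <;> first | omega | (norm_num at h6)
  rw [h3, hCW] at hd hn7
  rw [hG] at hn7
  obtain ⟨n7, hn7def⟩ : ∃ n7, n7 = Nat.card (Sylow 7 G) := ⟨_, rfl⟩
  rw [← hn7def] at hn7 hmod
  rcases hk7 with rfl | rfl | rfl | rfl <;> rcases ha' with rfl | rfl | rfl | rfl <;> omega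


/-- a Sylow `p`-subgroup of order `p` is transitive on the other Sylow subgroups when there are
`p + 1` of them -/
theorem exists_smul_of_card {p : ℕ} [Fact p.Prime] (hn : Nat.card (Sylow p G) = p + 1)
    (Y Y1 Y2 : Sylow p G) (hY : Nat.card (Y : Subgroup G) = p) (h1 : Y1 ≠ Y) (h2 : Y2 ≠ Y) :
    ∃ y ∈ (Y : Subgroup G), y • Y1 = Y2 := by
  have hbot := inf_eq_bot_of_card_prime Y Y1 hY h1
  have e1 := Cfsg.Agent.S4341.card_eq_of_le (inf_le_left : (Y : Subgroup G) ⊓ Y1 ≤ Y)
  rw [hbot, Subgroup.card_bot, mul_one, hY] at e1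
  have e2 : (MulAction.stabilizer (Y : Subgroup G) Y1).index
      = (MulAction.orbit (Y : Subgroup G) Y1).ncard := MulAction.index_stabilizer _ Y1
  have e3 : MulAction.stabilizer (Y : Subgroup G) Y1
      = ((Y : Subgroup G) ⊓ Y1 : Subgroup G).subgroupOf Y := by
    ext y
    rw [MulAction.mem_stabilizer_iff, Subgroup.mem_subgroupOf, Subgroup.mem_inf]
    constructor
    · intro h
      have h' : (y : G) • Y1 = Y1 := h
      exact ⟨y.2, mem_of_smul_eq (y : G) (Y.2.to_le (Subgroup.zpowers_le.mpr y.2)) Y1 h'⟩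
    · rintro ⟨-, h⟩
      show (y : G) • Y1 = Y1
      exact (smul_eq_iff _ Y1).mpr (Subgroup.le_normalizer h)
  rw [e3] at e2
  have e4 : ((Y : Subgroup G) ⊓ Y1 : Subgroup G).relIndex Y
      = (MulAction.orbit (Y : Subgroup G) Y1).ncard := e2
  rw [hbot, ← e1] at e4
  have e5 : MulAction.orbit (Y : Subgroup G) Y1 ⊆ ({Y} : Set (Sylow p G))ᶜ := by
    rintro _ ⟨y, rfl⟩ h
    have h' : (y : G) • Y1 = Y := h
    have hyY : (y : G) • Y = Y := (smul_eq_iff _ Y).mpr (Subgroup.le_normalizer y.2)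
    apply h1
    have h3 : (y : G) • Y1 = (y : G) • Y := by rw [h', hyY]
    exact smul_left_cancel _ h3
  have e6 : (({Y} : Set (Sylow p G))ᶜ).ncard = p := by
    rw [Set.ncard_compl, Set.ncard_singleton, hn]; omega
  have e7 : MulAction.orbit (Y : Subgroup G) Y1 = ({Y} : Set (Sylow p G))ᶜ :=
    Set.eq_of_subset_of_ncard_le e5 (by rw [e6, ← e4]) (Set.toFinite _)
  have e8 : Y2 ∈ MulAction.orbit (Y : Subgroup G) Y1 := by
    rw [e7]; exact h2
  obtain ⟨y, hy⟩ := e8
  exact ⟨(y : G), y.2, hy⟩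

/-- the cases where the normalizer of a Sylow 11-subgroup has even order -/
theorem final_even [IsSimpleGroup G] [Fact (Nat.Prime 3)] [Fact (Nat.Prime 11)]
    (h22 : Nat.card (Sylow 3 G) = 22) (k : ℕ) (hk : k ∣ 560) (hG : Nat.card G = 132 * k)
    (h12 : Nat.card (Sylow 11 G) = 12) (Y : Sylow 11 G) (hY : Nat.card (Y : Subgroup G) = 11)
    (hNY : 2 ∣ Nat.card (Subgroup.normalizer ((Y : Subgroup G) : Set G))) : False := by
  have hp2 : Fact (Nat.Prime 2) := ⟨Nat.prime_two⟩
  have hkpos : 0 < k := Nat.pos_of_dvd_of_pos hk (by norm_num)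
  obtain ⟨s, hs⟩ := exists_prime_orderOf_dvd_card'
    (G := ↥(Subgroup.normalizer ((Y : Subgroup G) : Set G))) 2 hNY
  obtain ⟨hso, hs1, hs2⟩ := coe_props s 2 Nat.prime_two hs
  have hsY : (s : G) • Y = Y := (smul_eq_iff _ Y).mpr s.2
  have hle : fixc 11 (s : G) ≤ 2 := by
    by_cases hex : ∃ Y1 : Sylow 11 G, (s : G) • Y1 = Y1 ∧ Y1 ≠ Y
    · obtain ⟨Y1, hY1, hne1⟩ := hex
      have hsub : {Q : Sylow 11 G | (s : G) • Q = Q} ⊆ {Y, Y1} := by
        intro Y2 hY2
        have hY2' : (s : G) • Y2 = Y2 := hY2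
        by_contra hcon
        simp only [Set.mem_insert_iff, Set.mem_singleton_iff, not_or] at hcon
        obtain ⟨hne2, hne12⟩ := hcon
        obtain ⟨y, hyY, hy⟩ := exists_smul_of_card (p := 11) (by rw [h12]) Y Y1 Y2 hY hne1 hne2
        have hy1 : y ≠ 1 := by
          rintro rfl
          rw [one_smul] at hy
          exact hne12 hy.symm
        have hyo : orderOf y = 11 := by
          have h2 : orderOf (⟨y, hyY⟩ : (Y : Subgroup G)) ∣ Nat.card (Y : Subgroup G) :=
            orderOf_dvd_natCard _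
          rw [hY, Subgroup.orderOf_mk] at h2
          rcases (Nat.dvd_prime (by norm_num)).mp h2 with h | h
          · exact absurd (orderOf_eq_one_iff.mp h) hy1
          · exact h
        have hcY : y⁻¹ * ((s : G) * y * (s : G)⁻¹) ∈ (Y : Subgroup G) := by
          apply mul_mem (inv_mem hyY)
          exact (Subgroup.mem_normalizer_iff.mp s.2 y).mp hyY
        have hcfix : (y⁻¹ * ((s : G) * y * (s : G)⁻¹)) • Y1 = Y1 := by
          have hs' : (s : G)⁻¹ • Y1 = Y1 := by rw [inv_smul_eq_iff, hY1]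
          rw [mul_smul, mul_smul, mul_smul, hs', hy, hY2', inv_smul_eq_iff, hy]
        have hcY1 : y⁻¹ * ((s : G) * y * (s : G)⁻¹) ∈ (Y1 : Subgroup G) :=
          mem_of_smul_eq _ (Y.2.to_le (Subgroup.zpowers_le.mpr hcY)) Y1 hcfix
        have hbot := inf_eq_bot_of_card_prime Y Y1 hY hne1
        have hc1 : y⁻¹ * ((s : G) * y * (s : G)⁻¹) ∈ (Y : Subgroup G) ⊓ Y1 :=
          Subgroup.mem_inf.mpr ⟨hcY, hcY1⟩
        rw [hbot, Subgroup.mem_bot] at hc1
        have hcomm : y * (s : G) = (s : G) * y := by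
          have h3 : (s : G) * y * (s : G)⁻¹ = y := by
            have h4 := congrArg (fun t => y * t) hc1
            simpa using h4
          have h5 := congrArg (fun t => t * (s : G)) h3
          simpa using h5.symm
        exact no_comm11 h22 k hk hG y hyo (s : G) hs1 2 (Or.inl rfl) hs2 hcomm
      calc fixc 11 (s : G) ≤ ({Y, Y1} : Set (Sylow 11 G)).ncard :=
            Set.ncard_le_ncard hsub (Set.toFinite _)
        _ = 2 := Set.ncard_pair (Ne.symm hne1)
    · push Not at hex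
      have hsub : {Q : Sylow 11 G | (s : G) • Q = Q} ⊆ {Y} := by
        intro Y2 hY2
        rw [Set.mem_singleton_iff]
        exact hex Y2 hY2
      calc fixc 11 (s : G) ≤ ({Y} : Set (Sylow 11 G)).ncard :=
            Set.ncard_le_ncard hsub (Set.toFinite _)
        _ = 1 := Set.ncard_singleton _
        _ ≤ 2 := by norm_num
  have hpos : 0 < fixc 11 (s : G) := by
    rw [fixc, Set.ncard_pos (Set.toFinite _)]
    exact ⟨Y, hsY⟩
  have h3 := fixc_modEq (p := 11) 2 (s : G) 1 (by rw [pow_one]; exact hs2)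
  have h4 := fixc_invol (p := 11) (by rw [hG]; omega) (s : G) hs2
  rw [h12] at h3 h4
  unfold Nat.ModEq at h3
  have h5 : fixc 11 (s : G) = 2 := by omega
  rw [h5] at h4
  exact absurd h4 (by decide)

/-- the case `|G| = 660` -/
theorem final_five [IsSimpleGroup G] [Fact (Nat.Prime 3)] [Fact (Nat.Prime 11)]
    (P : Sylow 3 G) (hc : Nat.card (P : Subgroup G) = 3)
    (hC : Nat.card (Subgroup.centralizer ((P : Subgroup G) : Set G)) = 15)
    (hG : Nat.card G = 660) (h12 : Nat.card (Sylow 11 G) = 12) : False := by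
  have hp5 : Fact (Nat.Prime 5) := ⟨by norm_num⟩
  obtain ⟨v, hv⟩ := exists_prime_orderOf_dvd_card'
    (G := ↥(Subgroup.centralizer ((P : Subgroup G) : Set G))) 5 (by rw [hC]; norm_num)
  obtain ⟨hvo, hv1, hv5⟩ := coe_props v 5 (by norm_num) hv
  have h1 := fixc_modEq (p := 11) 5 (v : G) 1 (by rw [pow_one]; exact hv5)
  have h2 := fixc_comm (p := 11) 3 (P : Subgroup G) P.2 (v : G)
    (fun u hu => Subgroup.mem_centralizer_iff.mp v.2 u hu)
  have h3 : {Q : Sylow 11 G | (v : G) • Q = Q ∧ ∀ u ∈ (P : Subgroup G), u • Q = Q} = ∅ := by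
    rw [Set.eq_empty_iff_forall_notMem]
    rintro Q ⟨-, h⟩
    obtain ⟨x, hxP, hx1, hxo⟩ := exists_gen (P : Subgroup G) hc
    have hd := ord_dvd_normalizer x Q (h x hxP)
    have hN := card_normalizer_eq Q
    rw [h12, hG] at hN
    rw [hxo] at hd
    have h4 : Nat.card (Subgroup.normalizer ((Q : Subgroup G) : Set G)) = 55 := by omega
    rw [h4] at hd
    norm_num at hd
  rw [h3, Set.ncard_empty] at h2
  have hlt := fixc_lt (p := 11) (by omega) (v : G) hv1
  rw [h12] at h1 hlt
  unfold Nat.ModEq at h1 h2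
  omega

/-- Case of Sylow 3-subgroups of order 3. -/
theorem case3 [IsSimpleGroup G] [Fact (Nat.Prime 3)] (h22 : Nat.card (Sylow 3 G) = 22)
    (hc3 : ∀ P : Sylow 3 G, Nat.card (P : Subgroup G) = 3) : False := by
  have h11 : Fact (Nat.Prime 11) := ⟨by norm_num⟩
  obtain ⟨P⟩ : Nonempty (Sylow 3 G) := inferInstance
  obtain ⟨k, hk, hC⟩ := card_centralizer h22 P (hc3 P)
  obtain ⟨hN, hG⟩ := card_group h22 P (hc3 P) k hC
  have hkpos : 0 < k := Nat.pos_of_dvd_of_pos hk (by norm_num)
  obtain ⟨Y⟩ : Nonempty (Sylow 11 G) := inferInstance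
  have hY : Nat.card (Y : Subgroup G) = 11 := by
    apply card_sylow_of_val 11
    · rw [hG]; exact Dvd.intro (12 * k) (by ring)
    · rw [hG]
      intro h
      have h4 : 132 * k ∣ 132 * 560 := Nat.mul_dvd_mul_left 132 hk
      have h5 := h.trans h4
      norm_num at h5
  have hYt : (Y : Subgroup G) ≠ ⊤ := by
    intro h
    have h1 := congrArg (fun H : Subgroup G => Nat.card H) h
    simp only [Subgroup.card_top] at h1
    rw [hY, hG] at h1
    omega
  have hCY := card_cent11 h22 k hk hG Y hY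
  obtain ⟨e, he, hNY⟩ := card_norm11 Y hY hYt hCY
  have hn := card_normalizer_eq Y
  rw [hNY, hG] at hn
  have hmod : Nat.card (Sylow 11 G) % 11 = 1 := by
    have h1 := card_sylow_modEq_one 11 G
    unfold Nat.ModEq at h1
    omega
  rcases arith k e _ hk he hn hmod with ⟨h12, hcase⟩ | h7
  · rcases hcase with ⟨rfl, rfl⟩ | ⟨rfl, rfl⟩ | ⟨rfl, rfl⟩
    · exact final_even h22 2 hk hG h12 Y hY (by rw [hNY]; norm_num)
    · exact final_five P (hc3 P) (by rw [hC]) (by rw [hG]) h12
    · exact final_even h22 10 hk hG h12 Y hY (by rw [hNY]; norm_num)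
  · exact no_seven h22 P (hc3 P) k h7 hC hN hG

theorem simple_ne [IsSimpleGroup G] : Nat.card (Sylow 3 G) ≠ 22 := by
  intro h22
  have : Fact (Nat.Prime 3) := ⟨by norm_num⟩
  obtain ⟨P⟩ : Nonempty (Sylow 3 G) := inferInstance
  have hk := P.card_eq_multiplicity
  obtain ⟨k, hkdef⟩ : ∃ k, k = (Nat.card G).factorization 3 := ⟨_, rfl⟩
  rw [← hkdef] at hk
  have hk1 : k ≠ 0 := by
    rintro rfl
    have hsub : Subsingleton (Sylow 3 G) := by
      constructor
      intro A B
      apply Sylow.ext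
      have hA := A.card_eq_multiplicity
      have hB := B.card_eq_multiplicity
      rw [← hkdef, pow_zero] at hA hB
      rw [Subgroup.card_eq_one.mp hA, Subgroup.card_eq_one.mp hB]
    have := Finite.card_le_one_iff_subsingleton.mpr hsub
    omega
  by_cases hk2 : k = 1
  · apply case3 h22
    intro P'
    rw [P'.card_eq_multiplicity, ← hkdef, hk2, pow_one]
  · apply caseBig h22
    intro P'
    rw [P'.card_eq_multiplicity, ← hkdef]
    have h2 : 3 ^ 2 ≤ 3 ^ k := Nat.pow_le_pow_right (by norm_num) (by omega)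
    omega

theorem result' {G : Type*} [Group G] [Finite G] : Nat.card (Sylow 3 G) ≠ 22 := by
  intro h22
  have : Fact (Nat.Prime 3) := ⟨by norm_num⟩
  obtain ⟨l, hl, hl'⟩ := Cfsg.Agent.S4303.result (G := G) 3
  have hall : ∀ m ∈ l, m = 1 := by
    intro m hm
    have hd : m ∣ 22 := by rw [← h22, ← hl]; exact List.dvd_prod hm
    have hmod : m % 3 = 1 := by
      rcases hl' m hm with ⟨_, h⟩ | ⟨S, _, _, hS, h⟩
      · exact h
      · rw [h]; exact card_sylow_modEq_one 3 S
    rcases dvd22 m hd hmod with h | h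
    · exact h
    · exfalso
      rcases hl' m hm with ⟨hpp, _⟩ | ⟨S, _, _, hS, h'⟩
      · rw [h] at hpp
        rw [isPrimePow_nat_iff] at hpp
        obtain ⟨p, k, hp, hk, hpk⟩ := hpp
        have h2 : (2 : ℕ) ∣ p ^ k := by rw [hpk]; norm_num
        have h11 : (11 : ℕ) ∣ p ^ k := by rw [hpk]; norm_num
        have e2 := (Nat.prime_dvd_prime_iff_eq (by norm_num) hp).mp
          (Nat.Prime.dvd_of_dvd_pow (by norm_num) h2)
        have e11 := (Nat.prime_dvd_prime_iff_eq (by norm_num) hp).mp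
          (Nat.Prime.dvd_of_dvd_pow (by norm_num) h11)
        omega
      · exact simple_ne (G := S) (h' ▸ h)
  have : l.prod = 1 := List.prod_eq_one hall
  omega

end S4346aux

/-- No finite group has exactly 22 Sylow 3-subgroups. -/
theorem result {G : Type*} [Group G] [Finite G] : Nat.card (Sylow 3 G) ≠ 22 := by
  exact result'

end Cfsg.Agent.S4346
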