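import Cfsg.Statements.S4354
-- import your own Cfsg.Agent.* helpers here

set_option autoImplicit false
set_option linter.unusedSectionVars false
open Cfsg

namespace Cfsg.Agent.S4354

open Subgroup
open scoped Pointwise

section
variable {G : Type*} [Group G] [Finite G]

theorem relIndex_dvd_index_of_normal_right (C N : Subgroup G) [N.Normal] :
    C.relIndex N ∣ C.index := by
  have h1 : (C ⊓ N).relIndex N * N.index = (C ⊓ N).index := relIndex_mul_index inf_le_right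
  have h2 : (C ⊓ N).relIndex C * C.index = (C ⊓ N).index := relIndex_mul_index inf_le_left
  rw [inf_relIndex_right] at h1
  rw [inf_relIndex_left] at h2
  obtain ⟨t, ht⟩ := relIndex_dvd_index_of_normal N C
  have h3 : N.relIndex C ≠ 0 := by
    intro h0
    have := Subgroup.relIndex_dvd_card N C
    rw [h0] at this
    have hpos : 0 < Nat.card C := Nat.card_pos
    omega
  refine ⟨t, ?_⟩
  have h4 : N.relIndex C * C.index = N.relIndex C * (C.relIndex N * t) := by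
    rw [h2, ← h1, ht]; ring
  exact Nat.eq_of_mul_eq_mul_left (Nat.pos_of_ne_zero h3) h4

theorem cs_normal (p : ℕ) (N : Subgroup G) [N.Normal]
    (hG : ∀ x : G, (∃ k : ℕ, orderOf x = p ^ k) →
      ¬ p ∣ (Subgroup.centralizer ({x} : Set G)).index) :
    ∀ x : N, (∃ k : ℕ, orderOf x = p ^ k) →
      ¬ p ∣ (Subgroup.centralizer ({x} : Set N)).index := by
  rintro x ⟨k, hk⟩ hdvd
  apply hG (x : G) ⟨k, by rw [← hk, Subgroup.orderOf_coe]⟩
  have h1 : Subgroup.centralizer ({x} : Set N) =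
      (Subgroup.centralizer ({(x : G)} : Set G)).subgroupOf N := by
    ext y
    rw [Subgroup.mem_subgroupOf, Subgroup.mem_centralizer_singleton_iff,
      Subgroup.mem_centralizer_singleton_iff, Subtype.ext_iff]
    rfl
  rw [h1] at hdvd
  exact hdvd.trans (relIndex_dvd_index_of_normal_right _ N)

theorem cs_quotient (p : ℕ) [Fact p.Prime] (N : Subgroup G) [N.Normal]
    (hG : ∀ x : G, (∃ k : ℕ, orderOf x = p ^ k) →
      ¬ p ∣ (Subgroup.centralizer ({x} : Set G)).index) :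
    ∀ x : G ⧸ N, (∃ k : ℕ, orderOf x = p ^ k) →
      ¬ p ∣ (Subgroup.centralizer ({x} : Set (G ⧸ N))).index := by
  rintro x ⟨k, hk⟩ hdvd
  obtain ⟨g, rfl⟩ := QuotientGroup.mk_surjective x
  have ho : orderOf g ≠ 0 := (orderOf_pos g).ne'
  obtain ⟨a, m, hm, hom⟩ := Nat.exists_eq_pow_mul_and_not_dvd ho p (Fact.out : p.Prime).ne_one
  have hm0 : m ≠ 0 := by
    rintro rfl
    rw [mul_zero] at hom
    exact ho hom
  have hy : orderOf (g ^ m) = p ^ a := by
    rw [orderOf_pow_of_dvd hm0 ⟨p ^ a, by rw [hom]; ring⟩, hom]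
    exact Nat.mul_div_cancel _ (Nat.pos_of_ne_zero hm0)
  apply hG (g ^ m) ⟨a, hy⟩
  refine hdvd.trans ?_
  have hcop : m.Coprime (orderOf (QuotientGroup.mk g : G ⧸ N)) := by
    rw [hk]
    exact Nat.Coprime.pow_right _ ((Nat.Prime.coprime_iff_not_dvd Fact.out).mpr hm).symm
  obtain ⟨c, hc⟩ := exists_pow_eq_self_of_coprime hcop
  have hle : (Subgroup.centralizer ({g ^ m} : Set G)).map (QuotientGroup.mk' N) ≤
      Subgroup.centralizer ({(QuotientGroup.mk g : G ⧸ N)} : Set (G ⧸ N)) := by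
    rintro _ ⟨z, hz, rfl⟩
    rw [SetLike.mem_coe, Subgroup.mem_centralizer_singleton_iff] at hz
    rw [Subgroup.mem_centralizer_singleton_iff]
    have h1 : (QuotientGroup.mk' N z) * (QuotientGroup.mk g : G ⧸ N) ^ m =
        (QuotientGroup.mk g : G ⧸ N) ^ m * (QuotientGroup.mk' N z) := by
      have := congrArg (QuotientGroup.mk' N) hz
      simpa using this
    have h2 : Commute (QuotientGroup.mk' N z) ((QuotientGroup.mk g : G ⧸ N) ^ m) := h1
    have h3 := h2.pow_right c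
    rw [hc] at h3
    exact h3.eq
  exact (Subgroup.index_dvd_of_le hle).trans
    (Subgroup.index_map_dvd _ (QuotientGroup.mk'_surjective N))

theorem mem_sylow_of_commute (p : ℕ) [Fact p.Prime] (P : Sylow p G) (u : G)
    (hu : ∃ k : ℕ, orderOf u = p ^ k) (hc : ∀ a ∈ P, u * a = a * u) : u ∈ P := by
  obtain ⟨k, hk⟩ := hu
  have hz : IsPGroup p (zpowers u) := IsPGroup.of_card (n := k) (by rw [Nat.card_zpowers, hk])
  have hnorm : zpowers u ≤ normalizer ((P : Subgroup G) : Set G) := by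
    rw [zpowers_le]
    rw [Subgroup.mem_normalizer_iff]
    intro h
    constructor
    · intro hh
      have := hc h hh
      rw [this, mul_inv_cancel_right]
      exact hh
    · intro hh
      have h2 : u⁻¹ * (u * h * u⁻¹) * u = h := by group
      have h3 := hc _ hh
      rw [← h2, mul_assoc, ← h3, inv_mul_cancel_left]
      exact hh
  have hsup : IsPGroup p ↥(zpowers u ⊔ (P : Subgroup G)) :=
    IsPGroup.to_sup_of_normal_right' hz P.isPGroup' hnorm
  have heq := P.is_maximal' hsup le_sup_right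
  have : u ∈ zpowers u ⊔ (P : Subgroup G) := mem_sup_left (mem_zpowers u)
  rw [heq] at this
  exact this

theorem exists_sylow_le_of_not_dvd_index (p : ℕ) [Fact p.Prime] (C : Subgroup G)
    (hC : ¬ p ∣ C.index) : ∃ Q : Sylow p G, (Q : Subgroup G) ≤ C := by
  obtain ⟨Q₀⟩ : Nonempty (Sylow p C) := inferInstance
  have hp : IsPGroup p ↥((Q₀ : Subgroup C).map C.subtype) := Q₀.isPGroup'.map C.subtype
  have hidx : ¬ p ∣ ((Q₀ : Subgroup C).map C.subtype).index := by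
    rw [Subgroup.index_map_subtype]
    exact Nat.Prime.not_dvd_mul Fact.out Q₀.not_dvd_index hC
  refine ⟨hp.toSylow hidx, ?_⟩
  rw [IsPGroup.toSylow_coe]
  exact Subgroup.map_subtype_le _

theorem orderOf_of_mem_sylow (p : ℕ) [Fact p.Prime] (P : Sylow p G) (y : G) (hy : y ∈ P) :
    ∃ k : ℕ, orderOf y = p ^ k := by
  obtain ⟨k, hk⟩ := (IsPGroup.iff_orderOf.mp P.isPGroup') ⟨y, hy⟩
  exact ⟨k, by rw [← hk, Subgroup.orderOf_mk]⟩

theorem step1 (p : ℕ) [Fact p.Prime] (N : Subgroup G) [N.Normal]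
    (hQ : ∀ S : Sylow p (G ⧸ N), IsMulCommutative S) (P : Sylow p G)
    (a b : G) (ha : a ∈ P) (hb : b ∈ P) :
    (QuotientGroup.mk (a * b) : G ⧸ N) = QuotientGroup.mk (b * a) := by
  have hs := QuotientGroup.mk'_surjective N
  have := hQ (P.mapSurjective hs)
  have ha' : QuotientGroup.mk' N a ∈ P.mapSurjective hs := by
    rw [← SetLike.mem_coe, ← Sylow.coe_coe, Sylow.coe_mapSurjective]
    exact Subgroup.mem_map_of_mem _ ha
  have hb' : QuotientGroup.mk' N b ∈ P.mapSurjective hs := by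
    rw [← SetLike.mem_coe, ← Sylow.coe_coe, Sylow.coe_mapSurjective]
    exact Subgroup.mem_map_of_mem _ hb
  have h := mul_comm' (⟨_, ha'⟩ : P.mapSurjective hs) ⟨_, hb'⟩
  have h2 := congrArg Subtype.val h
  simpa using h2

theorem step2 (p : ℕ) [Fact p.Prime] (N : Subgroup G) [N.Normal]
    (hN : ∀ R : Sylow p N, IsMulCommutative R) (P : Sylow p G)
    (y : G) (hy : y ∈ P) (hCy : ¬ p ∣ (Subgroup.centralizer ({y} : Set G)).index)
    (d : G) (hdP : d ∈ P) (hdN : d ∈ N) : y * d = d * y := by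
  set C := centralizer ({y} : Set G) with hC
  set K := N ⊔ C with hK
  set E := (P : Subgroup G) ⊓ K with hE
  have hEp : IsPGroup p E := P.isPGroup'.to_le inf_le_left
  have hEK : IsPGroup p (E.subgroupOf K) := hEp.comap_subtype
  have hcard : ¬ p ∣ Nat.card (K ⧸ C.subgroupOf K) := by
    intro h
    apply hCy
    have h1 : Nat.card (K ⧸ C.subgroupOf K) = C.relIndex K := rfl
    rw [h1] at h
    exact h.trans (relIndex_dvd_index_of_le le_sup_right)
  obtain ⟨q, hq⟩ := hEK.nonempty_fixed_point_of_prime_not_dvd_card (K ⧸ C.subgroupOf K) hcard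
  obtain ⟨k, rfl⟩ := QuotientGroup.mk_surjective q
  have hfix : ∀ e ∈ E, (k : G)⁻¹ * e * k ∈ C := by
    intro e he
    have heK : e ∈ K := he.2
    have h1 := hq ⟨⟨e, heK⟩, he⟩
    have h2 : ((⟨e, heK⟩ * k : K) : K ⧸ C.subgroupOf K) = (k : K ⧸ C.subgroupOf K) := h1
    rw [QuotientGroup.eq, Subgroup.mem_subgroupOf] at h2
    have h3 : (((⟨e, heK⟩ * k : K)⁻¹ * k : K) : G) = ((k : G)⁻¹ * e * k)⁻¹ := by
      push_cast
      group
    rw [h3] at h2
    exact (Subgroup.inv_mem_iff _).mp h2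
  obtain ⟨n, hn, c, hc, hnc⟩ := Subgroup.mem_sup_of_normal_left.mp k.2
  have hyC : y ∈ C := Subgroup.mem_centralizer_singleton_iff.mpr rfl
  have hyE : y ∈ E := ⟨hy, mem_sup_right hyC⟩
  have hdE : d ∈ E := ⟨hdP, mem_sup_left hdN⟩
  have hy'E : ∀ e ∈ E, (n * y * n⁻¹) * e = e * (n * y * n⁻¹) := by
    intro e he
    have h1 := hfix e he
    rw [← hnc] at h1
    have h2 : c * ((n * c)⁻¹ * e * (n * c)) * c⁻¹ ∈ C := C.mul_mem (C.mul_mem hc h1) (C.inv_mem hc)
    have h3 : c * ((n * c)⁻¹ * e * (n * c)) * c⁻¹ = n⁻¹ * e * n := by group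
    rw [h3, Subgroup.mem_centralizer_singleton_iff] at h2
    calc n * y * n⁻¹ * e = n * (y * (n⁻¹ * e * n)) * n⁻¹ := by group
      _ = n * ((n⁻¹ * e * n) * y) * n⁻¹ := by rw [← h2]
      _ = e * (n * y * n⁻¹) := by group
  obtain ⟨j, hj⟩ := orderOf_of_mem_sylow p P y hy
  have hz : IsPGroup p (zpowers (n * y * n⁻¹)) := by
    refine IsPGroup.of_card (n := j) ?_
    rw [Nat.card_zpowers, ← hj]
    exact (MulAut.conj n).orderOf_eq y
  have hnorm : zpowers (n * y * n⁻¹) ≤ normalizer (E : Set G) := by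
    rw [zpowers_le, Subgroup.mem_normalizer_iff]
    intro h
    constructor
    · intro hh
      rw [hy'E h hh, mul_inv_cancel_right]
      exact hh
    · intro hh
      have h2 : (n * y * n⁻¹)⁻¹ * ((n * y * n⁻¹) * h * (n * y * n⁻¹)⁻¹) * (n * y * n⁻¹) = h := by
        group
      have h3 := hy'E _ hh
      rw [← h2, mul_assoc, ← h3, inv_mul_cancel_left]
      exact hh
  have hF : IsPGroup p ↥(zpowers (n * y * n⁻¹) ⊔ E) :=
    IsPGroup.to_sup_of_normal_right' hz hEp hnorm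
  have hFN : IsPGroup p ((zpowers (n * y * n⁻¹) ⊔ E).subgroupOf N) := hF.comap_subtype
  obtain ⟨R, hR⟩ := hFN.exists_le_sylow
  have hRc := hN R
  have hc₀N : y⁻¹ * (n * y * n⁻¹) ∈ N := by
    have h1 : y⁻¹ * n * y⁻¹⁻¹ ∈ N := (inferInstance : N.Normal).conj_mem n hn y⁻¹
    have h2 : y⁻¹ * (n * y * n⁻¹) = (y⁻¹ * n * y⁻¹⁻¹) * n⁻¹ := by group
    rw [h2]
    exact N.mul_mem h1 (N.inv_mem hn)
  have hc₀F : y⁻¹ * (n * y * n⁻¹) ∈ zpowers (n * y * n⁻¹) ⊔ E :=
    Subgroup.mul_mem _ (Subgroup.inv_mem _ (mem_sup_right hyE)) (mem_sup_left (mem_zpowers _))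
  have hdF : d ∈ zpowers (n * y * n⁻¹) ⊔ E := mem_sup_right hdE
  have hc₀R : (⟨y⁻¹ * (n * y * n⁻¹), hc₀N⟩ : N) ∈ R := hR (Subgroup.mem_subgroupOf.mpr hc₀F)
  have hdR : (⟨d, hdN⟩ : N) ∈ R := hR (Subgroup.mem_subgroupOf.mpr hdF)
  have hcomm := mul_comm' (⟨_, hc₀R⟩ : R) ⟨_, hdR⟩
  have hcomm2 : y⁻¹ * (n * y * n⁻¹) * d = d * (y⁻¹ * (n * y * n⁻¹)) := by
    have := congrArg (fun t : R => ((t : N) : G)) hcomm
    simpa using this
  have h5 := hy'E d hdE
  have h6 : y * (y⁻¹ * (n * y * n⁻¹) * d) = y * (d * (y⁻¹ * (n * y * n⁻¹))) := by rw [hcomm2]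
  have h7 : y * (y⁻¹ * (n * y * n⁻¹) * d) = (n * y * n⁻¹) * d := by group
  rw [h7, h5] at h6
  have h8 : d * (n * y * n⁻¹) = y * d * (y⁻¹ * (n * y * n⁻¹)) := by rw [h6]; group
  have h9 : d * (n * y * n⁻¹) = d * y * (y⁻¹ * (n * y * n⁻¹)) := by group
  rw [h9] at h8
  exact (mul_right_cancel h8).symm

theorem mem_smul_sylow (p : ℕ) (P : Sylow p G) (g x : G) :
    x ∈ (g • P : Sylow p G) ↔ g⁻¹ * x * g ∈ P := by
  change x ∈ MulAut.conj g • (P : Subgroup G) ↔ _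
  rw [Subgroup.mem_pointwise_smul_iff_inv_smul_mem]
  simp [MulAut.smul_def]
  rfl

theorem step3 (p : ℕ) [Fact p.Prime] (N : Subgroup G) [N.Normal]
    (hG : ∀ x : G, (∃ k : ℕ, orderOf x = p ^ k) →
      ¬ p ∣ (Subgroup.centralizer ({x} : Set G)).index)
    (hN : ∀ R : Sylow p N, IsMulCommutative R)
    (hQ : ∀ S : Sylow p (G ⧸ N), IsMulCommutative S) (P : Sylow p G)
    (y a : G) (hy : y ∈ P) (ha : a ∈ P) : y * a = a * y := by
  have hyo := orderOf_of_mem_sylow p P y hy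
  obtain ⟨Q, hQC⟩ := exists_sylow_le_of_not_dvd_index p _ (hG y hyo)
  obtain ⟨g, hg⟩ := MulAction.exists_smul_eq G P Q
  have hu : ∀ b ∈ P, (g⁻¹ * y * g) * b = b * (g⁻¹ * y * g) := by
    intro b hb
    have hb' : g * b * g⁻¹ ∈ Q := by
      rw [← hg, mem_smul_sylow]
      have : g⁻¹ * (g * b * g⁻¹) * g = b := by group
      rw [this]
      exact hb
    have h1 := hQC hb'
    rw [Subgroup.mem_centralizer_singleton_iff] at h1
    calc g⁻¹ * y * g * b = g⁻¹ * (y * (g * b * g⁻¹)) * g := by group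
      _ = g⁻¹ * ((g * b * g⁻¹) * y) * g := by rw [h1]
      _ = b * (g⁻¹ * y * g) := by group
  have huo : ∃ k : ℕ, orderOf (g⁻¹ * y * g) = p ^ k := by
    obtain ⟨k, hk⟩ := hyo
    refine ⟨k, ?_⟩
    rw [← hk]
    have := (MulAut.conj g⁻¹).orderOf_eq y
    simpa using this
  have huP : g⁻¹ * y * g ∈ P := mem_sylow_of_commute p P _ huo hu
  let L : Subgroup G :=
    (centralizer ({(QuotientGroup.mk (g⁻¹ * y * g) : G ⧸ N)} : Set (G ⧸ N))).comap
      (QuotientGroup.mk' N)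
  have hL : ∀ b : G, b ∈ L ↔
      (QuotientGroup.mk (b * (g⁻¹ * y * g)) : G ⧸ N) = QuotientGroup.mk ((g⁻¹ * y * g) * b) := by
    intro b
    change (QuotientGroup.mk' N b) ∈ centralizer _ ↔ _
    rw [Subgroup.mem_centralizer_singleton_iff]
    rfl
  have h1 : (P : Subgroup G) ≤ L := by
    intro b hb
    rw [hL, hu b hb]
  have h2 : ((g⁻¹ • P : Sylow p G) : Subgroup G) ≤ L := by
    intro b hb
    have hb' : g * b * g⁻¹ ∈ P := by
      have := (mem_smul_sylow p P g⁻¹ b).mp hb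
      simpa using this
    rw [hL]
    have h3 := step1 p N hQ P _ _ hb' hy
    have e1 : b * (g⁻¹ * y * g) = g⁻¹ * ((g * b * g⁻¹) * y) * g := by group
    have e2 : (g⁻¹ * y * g) * b = g⁻¹ * (y * (g * b * g⁻¹)) * g := by group
    rw [e1, e2, QuotientGroup.mk_mul, QuotientGroup.mk_mul, h3, ← QuotientGroup.mk_mul,
      ← QuotientGroup.mk_mul]
  obtain ⟨h, hh⟩ := MulAction.exists_smul_eq L ((g⁻¹ • P).subtype h2) (P.subtype h1)
  simp_rw [Sylow.smul_subtype, Subgroup.smul_def, smul_smul] at hh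
  have hk : (h : G) * g⁻¹ ∈ normalizer ((P : Subgroup G) : Set G) :=
    Sylow.smul_eq_iff_mem_normalizer.mp (Sylow.subtype_injective hh)
  have hzN : (g⁻¹ * y * g)⁻¹ * ((h : G) * (g⁻¹ * y * g) * (h : G)⁻¹) ∈ N := by
    have h3 := (hL (h : G)).mp h.2
    have h4 : (QuotientGroup.mk ((g⁻¹ * y * g)⁻¹ * ((h : G) * (g⁻¹ * y * g) * (h : G)⁻¹)) : G ⧸ N)
        = 1 := by
      have e : (g⁻¹ * y * g)⁻¹ * ((h : G) * (g⁻¹ * y * g) * (h : G)⁻¹) =
          (g⁻¹ * y * g)⁻¹ * ((h : G) * (g⁻¹ * y * g)) * (h : G)⁻¹ := by group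
      rw [e, QuotientGroup.mk_mul, QuotientGroup.mk_mul, h3, ← QuotientGroup.mk_mul,
        ← QuotientGroup.mk_mul]
      have e2 : (g⁻¹ * y * g)⁻¹ * ((g⁻¹ * y * g) * (h : G)) * (h : G)⁻¹ = 1 := by group
      rw [e2]
      rfl
    exact (QuotientGroup.eq_one_iff _).mp h4
  have hconjP : (h : G) * (g⁻¹ * y * g) * (h : G)⁻¹ ∈ P := by
    have h3 := (Subgroup.mem_normalizer_iff.mp hk y).mp hy
    have e : (h : G) * g⁻¹ * y * ((h : G) * g⁻¹)⁻¹ = (h : G) * (g⁻¹ * y * g) * (h : G)⁻¹ := by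
      group
    rw [e] at h3
    exact h3
  have hzP : (g⁻¹ * y * g)⁻¹ * ((h : G) * (g⁻¹ * y * g) * (h : G)⁻¹) ∈ P :=
    mul_mem (inv_mem huP) hconjP
  have ha' : ((h : G) * g⁻¹) * a * ((h : G) * g⁻¹)⁻¹ ∈ P :=
    (Subgroup.mem_normalizer_iff.mp hk a).mp ha
  have hz_comm := step2 p N hN P _ ha'
    (hG _ (orderOf_of_mem_sylow p P _ ha')) _ hzP hzN
  have hu_comm := hu _ ha'
  have key : ((h : G) * (g⁻¹ * y * g) * (h : G)⁻¹) * (((h : G) * g⁻¹) * a * ((h : G) * g⁻¹)⁻¹) =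
      (((h : G) * g⁻¹) * a * ((h : G) * g⁻¹)⁻¹) * ((h : G) * (g⁻¹ * y * g) * (h : G)⁻¹) := by
    have e : (h : G) * (g⁻¹ * y * g) * (h : G)⁻¹ =
        (g⁻¹ * y * g) * ((g⁻¹ * y * g)⁻¹ * ((h : G) * (g⁻¹ * y * g) * (h : G)⁻¹)) := by group
    rw [e, mul_assoc, ← hz_comm, ← mul_assoc, hu_comm, mul_assoc]
  have e1 : ((h : G) * (g⁻¹ * y * g) * (h : G)⁻¹) * (((h : G) * g⁻¹) * a * ((h : G) * g⁻¹)⁻¹) =
      ((h : G) * g⁻¹) * (y * a) * ((h : G) * g⁻¹)⁻¹ := by group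
  have e2 : (((h : G) * g⁻¹) * a * ((h : G) * g⁻¹)⁻¹) * ((h : G) * (g⁻¹ * y * g) * (h : G)⁻¹) =
      ((h : G) * g⁻¹) * (a * y) * ((h : G) * g⁻¹)⁻¹ := by group
  rw [e1, e2] at key
  exact mul_left_cancel (mul_right_cancel key)

theorem sylow_comm (p : ℕ) [Fact p.Prime] (N : Subgroup G) [N.Normal]
    (hG : ∀ x : G, (∃ k : ℕ, orderOf x = p ^ k) →
      ¬ p ∣ (Subgroup.centralizer ({x} : Set G)).index)
    (hN : ∀ R : Sylow p N, IsMulCommutative R)
    (hQ : ∀ S : Sylow p (G ⧸ N), IsMulCommutative S) (P : Sylow p G) :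
    IsMulCommutative P :=
  ⟨⟨fun a b => Subtype.ext (step3 p N hG hN hQ P a b a.2 b.2)⟩⟩

end


/-- Let G be a finite group and p a prime such that the Sylow p-subgroups of G are non-abelian while every element of p-power order has conjugacy class size prime to p, and suppose no nontrivial proper normal subgroup N of G has this property and no quotient G/N by such an N has it. Then G is simple. -/
theorem result {G : Type*} [Group G] [Finite G]
    (p : ℕ) [Fact p.Prime] (h : ((∃ P : Sylow p G, ¬ IsMulCommutative P) ∧ ∀ x : G, (∃ k : ℕ, orderOf x = p ^ k) → ¬ p ∣ (Subgroup.centralizer ({x} : Set G)).index))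
    (hmin : ∀ (N : Subgroup G) [N.Normal], N ≠ ⊥ → N ≠ ⊤ →
      ¬ ((∃ P : Sylow p N, ¬ IsMulCommutative P) ∧ ∀ x : N, (∃ k : ℕ, orderOf x = p ^ k) → ¬ p ∣ (Subgroup.centralizer ({x} : Set N)).index) ∧
      ¬ ((∃ P : Sylow p (G ⧸ N), ¬ IsMulCommutative P) ∧ ∀ x : (G ⧸ N), (∃ k : ℕ, orderOf x = p ^ k) → ¬ p ∣ (Subgroup.centralizer ({x} : Set (G ⧸ N))).index)) :
    IsSimpleGroup G := by
  obtain ⟨⟨P₀, hP₀⟩, hCS⟩ := h
  have hnt : Nontrivial G := by
    by_contra hnt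
    rw [not_nontrivial_iff_subsingleton] at hnt
    exact hP₀ ⟨⟨fun a b => Subsingleton.elim _ _⟩⟩
  refine IsSimpleGroup.mk (fun N hN => ?_)
  by_contra hcon
  rw [not_or] at hcon
  obtain ⟨hb, ht⟩ := hcon
  obtain ⟨h1, h2⟩ := hmin N hb ht
  have hN' : ∀ R : Sylow p N, IsMulCommutative R := by
    intro R
    by_contra hR
    exact h1 ⟨⟨R, hR⟩, cs_normal p N hCS⟩
  have hQ' : ∀ S : Sylow p (G ⧸ N), IsMulCommutative S := by
    intro S
    by_contra hS
    exact h2 ⟨⟨S, hS⟩, cs_quotient p N hCS⟩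
  exact hP₀ (sylow_comm p N hCS hN' hQ' P₀)

end Cfsg.Agent.S4354
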