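import Cfsg.Statements.S4370
import Mathlib
import Cfsg.Agent.S0016
import Cfsg.Agent.Lib.helper3.SchmidtC
import Cfsg.Agent.Lib.helper8.CN

set_option autoImplicit false
open Cfsg

namespace Cfsg.Agent.S4370

universe u

lemma zmod_two_mul {n : ℕ} [NeZero n] (j : ZMod (2 * n)) (h : j + j = 0) :
    j = 0 ∨ j = (n : ZMod (2 * n)) := by
  have h1 : ((j.val + j.val : ℕ) : ZMod (2 * n)) = 0 := by
    rw [Nat.cast_add, ZMod.natCast_zmod_val]; exact h
  rw [ZMod.natCast_eq_zero_iff] at h1
  have h2 : n ∣ j.val := by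
    have h3 : 2 * n ∣ 2 * j.val := by rw [two_mul j.val]; exact h1
    exact Nat.dvd_of_mul_dvd_mul_left (by norm_num) h3
  have h4 : j.val < 2 * n := ZMod.val_lt j
  obtain ⟨c, hc⟩ := h2
  have hn : 0 < n := Nat.pos_of_ne_zero (NeZero.ne n)
  have hc2 : c < 2 := by
    by_contra hcon
    push_neg at hcon
    have : n * 2 ≤ n * c := Nat.mul_le_mul_left n hcon
    omega
  have hj : j = ((j.val : ℕ) : ZMod (2 * n)) := (ZMod.natCast_zmod_val j).symm
  interval_cases c
  · left; rw [hj, hc]; simp
  · right; rw [hj, hc]; simp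

lemma quat_centralizer {n : ℕ} [NeZero n] (q : QuaternionGroup n)
    (hq : ∃ q' : QuaternionGroup n, q * q' ≠ q' * q) :
    ∃ g₀ : QuaternionGroup n, ∀ q' : QuaternionGroup n, q * q' = q' * q →
      q' ∈ Subgroup.zpowers g₀ := by
  cases q with
  | a i =>
    refine ⟨QuaternionGroup.a 1, ?_⟩
    intro q' hc
    cases q' with
    | a j =>
      rw [Subgroup.mem_zpowers_iff]
      refine ⟨(j.val : ℤ), ?_⟩
      rw [zpow_natCast, QuaternionGroup.a_one_pow, ZMod.natCast_zmod_val]
    | xa j =>
      exfalso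
      rw [QuaternionGroup.a_mul_xa, QuaternionGroup.xa_mul_a] at hc
      have h1 : j - i = j + i := QuaternionGroup.xa.inj hc
      have h2 : i + i = 0 := by linear_combination -h1
      obtain ⟨q'', hq''⟩ := hq
      apply hq''
      cases q'' with
      | a l => rw [QuaternionGroup.a_mul_a, QuaternionGroup.a_mul_a, add_comm]
      | xa l =>
        rw [QuaternionGroup.a_mul_xa, QuaternionGroup.xa_mul_a]
        congr 1
        linear_combination -h2
  | xa i =>
    refine ⟨QuaternionGroup.xa i, ?_⟩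
    intro q' hc
    cases q' with
    | a j =>
      rw [QuaternionGroup.xa_mul_a, QuaternionGroup.a_mul_xa] at hc
      have h1 : i + j = i - j := QuaternionGroup.xa.inj hc
      have h2 : j + j = 0 := by linear_combination h1
      rcases zmod_two_mul j h2 with h3 | h3
      · rw [h3, QuaternionGroup.a_zero]; exact Subgroup.one_mem _
      · rw [h3, ← QuaternionGroup.xa_sq i]
        exact Subgroup.pow_mem _ (Subgroup.mem_zpowers _) 2
    | xa j =>
      rw [QuaternionGroup.xa_mul_xa, QuaternionGroup.xa_mul_xa] at hc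
      have h1 : (n : ZMod (2 * n)) + j - i = n + i - j := QuaternionGroup.a.inj hc
      have h2 : (j - i) + (j - i) = 0 := by linear_combination h1
      rcases zmod_two_mul (j - i) h2 with h3 | h3
      · have h4 : j = i := sub_eq_zero.mp h3
        rw [h4]; exact Subgroup.mem_zpowers _
      · have h4 : j = i + n := by linear_combination h3
        rw [h4, ← QuaternionGroup.xa_mul_a, ← QuaternionGroup.xa_sq i]
        exact Subgroup.mul_mem _ (Subgroup.mem_zpowers _)
          (Subgroup.pow_mem _ (Subgroup.mem_zpowers _) 2)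

lemma backward {G : Type*} [Group G] [Finite G] (k m : ℕ) (hm : Odd m)
    (e : G ≃* QuaternionGroup (2 ^ k) × Multiplicative (ZMod m)) (x : G)
    (hx : x ∉ Subgroup.center G) :
    IsCyclic (Subgroup.centralizer ({x} : Set G)) := by
  haveI : NeZero (2 ^ k) := ⟨by positivity⟩
  haveI : NeZero m := ⟨by rintro rfl; exact absurd hm (by decide)⟩
  have hq : ∃ q' : QuaternionGroup (2 ^ k), (e x).1 * q' ≠ q' * (e x).1 := by
    by_contra hcon
    push_neg at hcon
    apply hx
    rw [Subgroup.mem_center_iff]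
    intro g
    apply e.injective
    rw [map_mul, map_mul]
    refine Prod.ext ?_ ?_
    · exact (hcon (e g).1).symm
    · exact mul_comm _ _
  obtain ⟨g₀, hg₀⟩ := quat_centralizer (e x).1 hq
  have hA : IsCyclic ((Subgroup.zpowers g₀).prod (⊤ : Subgroup (Multiplicative (ZMod m)))) := by
    have h1 : IsCyclic (Subgroup.zpowers g₀ × (⊤ : Subgroup (Multiplicative (ZMod m)))) := by
      rw [Group.isCyclic_prod_iff]
      refine ⟨inferInstance, inferInstance, ?_⟩
      have h2 : Nat.card (Subgroup.zpowers g₀) ∣ 2 ^ (k + 2) := by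
        have h3 : Nat.card (QuaternionGroup (2 ^ k)) = 2 ^ (k + 2) := by
          rw [Nat.card_eq_fintype_card, QuaternionGroup.card]; ring
        rw [← h3]
        exact Subgroup.card_subgroup_dvd_card _
      have h4 : Nat.card (⊤ : Subgroup (Multiplicative (ZMod m))) = m := by
        rw [Subgroup.card_top]
        exact Nat.card_zmod m
      rw [h4]
      exact Nat.Coprime.coprime_dvd_left h2 (Nat.Coprime.pow_left _ (Nat.coprime_two_left.mpr hm))
    exact isCyclic_of_surjective (Subgroup.prodEquiv _ _).symm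
      (Subgroup.prodEquiv _ _).symm.surjective
  let ψ : Subgroup.centralizer ({x} : Set G) →*
      ((Subgroup.zpowers g₀).prod (⊤ : Subgroup (Multiplicative (ZMod m)))) :=
    { toFun := fun c => ⟨e c.1, by
        rw [Subgroup.mem_prod]
        refine ⟨hg₀ _ ?_, Subgroup.mem_top _⟩
        have h1 := Subgroup.mem_centralizer_iff.mp c.2 x (Set.mem_singleton x)
        have h2 := congrArg (fun t => (e t).1) h1
        simpa using h2⟩
      map_one' := Subtype.ext (map_one e)
      map_mul' := fun a b => Subtype.ext (map_mul e a.1 b.1) }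
  have hψ : Function.Injective ψ := by
    intro a b hab
    have h1 : e a.1 = e b.1 := congrArg Subtype.val hab
    exact Subtype.ext (e.injective h1)
  exact isCyclic_of_injective ψ hψ

lemma cyc_mem_zpowers {C : Type*} [Group C] [Finite C] [IsCyclic C] (p : ℕ) (hp : 0 < p)
    (u v : C) (hou : orderOf u = p) (hov : v ^ p = 1) : v ∈ Subgroup.zpowers u := by
  classical
  haveI := Fintype.ofFinite C
  have h1 := IsCyclic.card_pow_eq_one_le (α := C) (n := p) hp
  by_contra hv'
  have hUcard : (Finset.univ.filter (fun a : C => a ∈ Subgroup.zpowers u)).card = p := by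
    rw [← Fintype.card_subtype, ← Nat.card_eq_fintype_card]
    have h2 := Nat.card_zpowers u
    rw [← hou, ← h2]
  have hsub : insert v (Finset.univ.filter (fun a : C => a ∈ Subgroup.zpowers u)) ⊆
      Finset.univ.filter (fun a : C => a ^ p = 1) := by
    intro a ha
    rw [Finset.mem_insert] at ha
    rw [Finset.mem_filter]
    refine ⟨Finset.mem_univ _, ?_⟩
    rcases ha with rfl | ha
    · exact hov
    · obtain ⟨j, hj⟩ := Subgroup.mem_zpowers_iff.mp (Finset.mem_filter.mp ha).2
      rw [← hj, ← zpow_natCast, ← zpow_mul, mul_comm, zpow_mul, zpow_natCast, ← hou,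
        pow_orderOf_eq_one, one_zpow]
  have hcard : (insert v (Finset.univ.filter (fun a : C => a ∈ Subgroup.zpowers u))).card
      = p + 1 := by
    rw [Finset.card_insert_of_notMem, hUcard]
    intro h; exact hv' (Finset.mem_filter.mp h).2
  have h3 := Finset.card_le_card hsub
  omega

lemma mem_zpowers_of_cyclic {G : Type*} [Group G] [Finite G] (p : ℕ) (hp : 0 < p)
    (C : Subgroup G) (hC : IsCyclic C) (u v : G) (hu : u ∈ C) (hv : v ∈ C)
    (hou : orderOf u = p) (hov : v ^ p = 1) : v ∈ Subgroup.zpowers u := by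
  have h := cyc_mem_zpowers (C := C) p hp ⟨u, hu⟩ ⟨v, hv⟩
    (by rw [Subgroup.orderOf_mk]; exact hou) (Subtype.ext hov)
  obtain ⟨j, hj⟩ := Subgroup.mem_zpowers_iff.mp h
  exact Subgroup.mem_zpowers_iff.mpr ⟨j, by have := congrArg Subtype.val hj; simpa using this⟩

lemma cyclic_comm {C : Type*} [Group C] [IsCyclic C] (a b : C) : a * b = b * a := by
  obtain ⟨g, hg⟩ := IsCyclic.exists_generator (α := C)
  obtain ⟨i, rfl⟩ := Subgroup.mem_zpowers_iff.mp (hg a)
  obtain ⟨j, rfl⟩ := Subgroup.mem_zpowers_iff.mp (hg b)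
  exact zpow_mul_comm g i j

lemma forward {G : Type u} [Group G] [Finite G] (hG : Group.IsNilpotent G)
    (hna : ¬ IsMulCommutative G)
    (hcyc : ∀ x : G, x ∉ Subgroup.center G → IsCyclic (Subgroup.centralizer ({x} : Set G))) :
    ∃ (k m : ℕ), 1 ≤ k ∧ Odd m ∧
      Nonempty (G ≃* QuaternionGroup (2 ^ k) × Multiplicative (ZMod m)) := by
  classical
  haveI := hG
  have h1 : ∃ (p : ℕ) (_ : Fact p.Prime) (P : Sylow p G), ∃ x ∈ (P : Subgroup G),
      ∃ y ∈ (P : Subgroup G), x * y ≠ y * x := by
    by_contra hcon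
    push_neg at hcon
    apply hna
    have h2 := Cfsg.Agent.Lib.helper3.comm_of_nilpotent_of_sylow_comm (G := G)
      (fun p _ P x hx y hy => hcon p inferInstance P x hx y hy)
    exact ⟨⟨h2⟩⟩
  obtain ⟨p, hp, P, x₀, hx₀P, y₀, hy₀P, hxy⟩ := h1
  have hppos : 0 < p := hp.out.pos
  have hx₀nc : x₀ ∉ Subgroup.center G := fun h =>
    hxy ((Subgroup.mem_center_iff.mp h y₀).symm)
  have hC₀ := hcyc x₀ hx₀nc
  haveI hPnt : Nontrivial (P : Subgroup G) :=
    ⟨⟨⟨x₀, hx₀P⟩, ⟨y₀, hy₀P⟩, fun h => hxy (by
      have h' : x₀ = y₀ := congrArg Subtype.val h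
      rw [h'])⟩⟩
  haveI hZnt := P.isPGroup'.center_nontrivial
  have hZdvd : p ∣ Nat.card (Subgroup.center (P : Subgroup G)) := by
    rcases (P.isPGroup'.to_subgroup (Subgroup.center (P : Subgroup G))).card_eq_or_dvd with h | h
    · exact absurd h (Finite.one_lt_card).ne'
    · exact h
  obtain ⟨u', hu'⟩ := exists_prime_orderOf_dvd_card' p hZdvd
  obtain ⟨u, hu⟩ : ∃ u : G, u = (u'.1 : G) := ⟨_, rfl⟩
  have huP : u ∈ (P : Subgroup G) := hu ▸ u'.1.2
  have huo : orderOf u = p := by
    rw [hu, Subgroup.orderOf_coe, Subgroup.orderOf_coe]; exact hu'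
  have hucomm : ∀ y ∈ (P : Subgroup G), y * u = u * y := by
    intro y hy
    have h2 := Subgroup.mem_center_iff.mp u'.2 ⟨y, hy⟩
    have h3 := congrArg Subtype.val h2
    rw [hu]; exact h3
  have key : ∀ v ∈ (P : Subgroup G), v ^ p = 1 → v ∈ Subgroup.zpowers u := by
    intro v hvP hvo
    by_cases hv : v ∈ Subgroup.center G
    · refine mem_zpowers_of_cyclic p hppos _ hC₀ u v ?_ ?_ huo hvo
      · rw [Subgroup.mem_centralizer_iff]
        intro h hh
        rw [Set.mem_singleton_iff] at hh
        rw [hh]; exact hucomm x₀ hx₀P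
      · rw [Subgroup.mem_centralizer_iff]
        intro h hh
        rw [Set.mem_singleton_iff] at hh
        rw [hh]; exact Subgroup.mem_center_iff.mp hv x₀
    · refine mem_zpowers_of_cyclic p hppos _ (hcyc v hv) u v ?_ ?_ huo hvo
      · rw [Subgroup.mem_centralizer_iff]
        intro h hh
        rw [Set.mem_singleton_iff] at hh
        rw [hh]; exact hucomm v hvP
      · rw [Subgroup.mem_centralizer_iff]
        intro h hh
        rw [Set.mem_singleton_iff] at hh
        rw [hh]
  have hsub : ∀ H : Subgroup (P : Subgroup G), Nat.card H = p →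
      H = Subgroup.zpowers (⟨u, huP⟩ : (P : Subgroup G)) := by
    intro H hH
    apply Subgroup.eq_of_le_of_card_ge
    · intro h hh
      have h2 : (h : G) ^ p = 1 := by
        have h3 : (⟨h, hh⟩ : H) ^ Nat.card H = 1 := pow_card_eq_one'
        rw [hH] at h3
        have h4 := congrArg (fun t : H => ((t : (P : Subgroup G)) : G)) h3
        simpa using h4
      obtain ⟨j, hj⟩ := Subgroup.mem_zpowers_iff.mp (key h.1 h.2 h2)
      exact Subgroup.mem_zpowers_iff.mpr ⟨j, Subtype.ext (by simpa using hj)⟩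
    · rw [hH, Nat.card_zpowers, Subgroup.orderOf_mk, huo]
  have huniq : ∀ H K : Subgroup (P : Subgroup G), Nat.card H = p → Nat.card K = p → H = K :=
    fun H K hH hK => (hsub H hH).trans (hsub K hK).symm
  have hnc : ¬ IsCyclic (P : Subgroup G) := by
    intro hc
    have h2 := cyclic_comm (⟨x₀, hx₀P⟩ : (P : Subgroup G)) ⟨y₀, hy₀P⟩
    exact hxy (congrArg Subtype.val h2)
  rcases Cfsg.Agent.S0016.result p P.isPGroup' huniq with hc | ⟨hp2, n, ⟨eP⟩⟩
  · exact absurd hc hnc
  subst hp2
  have hn1 : 1 ≤ n := by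
    by_contra hcon
    have hn0 : n = 0 := by omega
    subst hn0
    haveI : IsCyclic (QuaternionGroup (2 ^ 0)) := QuaternionGroup.quaternionGroup_one_isCyclic
    have h2 := cyclic_comm (eP ⟨x₀, hx₀P⟩) (eP ⟨y₀, hy₀P⟩)
    rw [← map_mul, ← map_mul] at h2
    exact hxy (congrArg Subtype.val (eP.injective h2))
  haveI hPn : (P : Subgroup G).Normal :=
    Sylow.normal_of_normalizerCondition normalizerCondition_of_isNilpotent P
  obtain ⟨K, hK⟩ := Subgroup.exists_right_complement'_of_coprime (N := (P : Subgroup G))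
    P.card_coprime_index
  have hKcard : Nat.card K = (P : Subgroup G).index := by
    have h2 := hK.card_mul
    have h3 := (P : Subgroup G).index_mul_card
    have h4 : 0 < Nat.card (P : Subgroup G) := Nat.card_pos
    nlinarith [h2, h3, h4]
  have hKodd : Odd (Nat.card K) := by
    rw [hKcard, ← Nat.not_even_iff_odd, even_iff_two_dvd]
    exact P.not_dvd_index
  have hcomm : ∀ y ∈ (P : Subgroup G), ∀ k ∈ K, y * k = k * y := by
    intro y hy k hk
    apply Cfsg.Agent.Lib.helper8.commute_of_coprime_of_nilpotent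
    obtain ⟨j, hj⟩ := (IsPGroup.iff_orderOf.mp P.isPGroup') ⟨y, hy⟩
    rw [Subgroup.orderOf_mk] at hj
    rw [hj]
    apply Nat.Coprime.pow_left
    have h2 : orderOf k ∣ Nat.card K := by
      have h3 : orderOf (⟨k, hk⟩ : K) ∣ Nat.card K := orderOf_dvd_natCard _
      rwa [Subgroup.orderOf_mk] at h3
    exact Nat.Coprime.coprime_dvd_right h2 (Nat.coprime_two_left.mpr hKodd)
  have hKle : K ≤ Subgroup.centralizer ({x₀} : Set G) := by
    intro k hk
    rw [Subgroup.mem_centralizer_iff]
    intro h hh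
    rw [Set.mem_singleton_iff] at hh
    rw [hh]; exact hcomm x₀ hx₀P k hk
  haveI hKc : IsCyclic K :=
    isCyclic_of_injective (Subgroup.inclusion hKle) (Subgroup.inclusion_injective hKle)
  let φ : ↥(P : Subgroup G) × ↥K →* G :=
    { toFun := fun yk => yk.1.1 * yk.2.1
      map_one' := by simp
      map_mul' := by
        rintro ⟨y, k⟩ ⟨y', k'⟩
        show (y.1 * y'.1) * (k.1 * k'.1) = (y.1 * k.1) * (y'.1 * k'.1)
        have h2 := hcomm y'.1 y'.2 k.1 k.2
        calc (y.1 * y'.1) * (k.1 * k'.1) = y.1 * (y'.1 * k.1) * k'.1 := by group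
          _ = y.1 * (k.1 * y'.1) * k'.1 := by rw [h2]
          _ = (y.1 * k.1) * (y'.1 * k'.1) := by group }
  have hφ : Function.Bijective φ := hK
  refine ⟨n, Nat.card K, hn1, hKodd, ⟨?_⟩⟩
  exact (MulEquiv.ofBijective φ hφ).symm.trans
    (MulEquiv.prodCongr eP (zmodCyclicMulEquiv hKc).symm)


/-- Let G be a finite non-abelian nilpotent group. Then the centralizer of every non-central element of G is cyclic if and only if G is isomorphic to the direct product of a generalized quaternion group and a cyclic group of odd order. -/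
theorem result {G : Type*} [Group G] [Finite G] (hG : Group.IsNilpotent G)
    (hna : ¬ IsMulCommutative G) :
    (∀ x : G, x ∉ Subgroup.center G → IsCyclic (Subgroup.centralizer ({x} : Set G))) ↔
      ∃ (k m : ℕ), 1 ≤ k ∧ Odd m ∧ Nonempty (G ≃* QuaternionGroup (2 ^ k) × Multiplicative (ZMod m)) := by
  constructor
  · intro hcyc
    exact forward hG hna hcyc
  · rintro ⟨k, m, -, hm, ⟨e⟩⟩ x hx
    exact backward k m hm e x hx

end Cfsg.Agent.S4370
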