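import Cfsg.Statements.S4377
-- import your own Cfsg.Agent.* helpers here

set_option autoImplicit false
open Cfsg

namespace Cfsg.Agent.S4377

theorem pow_count {G : Type*} [Group G] [Finite G] (n : ℕ) (hn : n ≠ 0) :
    Nat.card {g : G // g ^ n = 1} = ∑ d ∈ n.divisors, Nat.card {g : G // orderOf g = d} := by
  classical
  have := Fintype.ofFinite G
  simp only [Nat.card_eq_fintype_card, Fintype.card_subtype]
  rw [Finset.card_eq_sum_card_fiberwise (f := orderOf) (t := n.divisors)]
  · apply Finset.sum_congr rfl
    intro d hd
    congr 1
    ext g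
    simp only [Finset.mem_filter, Finset.mem_univ, true_and]
    constructor
    · rintro ⟨_, h⟩
      exact h
    · intro h
      refine ⟨?_, h⟩
      rw [← h] at hd
      exact orderOf_dvd_iff_pow_eq_one.mp (Nat.dvd_of_mem_divisors hd)
  · intro g hg
    simp only [Finset.coe_filter, Finset.mem_univ, true_and, Set.mem_ofPred_eq] at hg
    exact Nat.mem_divisors.mpr ⟨orderOf_dvd_of_pow_eq_one hg, hn⟩

theorem pow_count_zero {G : Type*} [Group G] [Finite G] (N : ℕ) (hN : Nat.card G ∣ N) :
    Nat.card {g : G // g ^ 0 = 1} = Nat.card {g : G // g ^ N = 1} := by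
  apply Nat.card_congr
  apply Equiv.subtypeEquivRight
  intro g
  constructor
  · intro _
    obtain ⟨k, rfl⟩ := hN
    rw [pow_mul, pow_card_eq_one', one_pow]
  · intro _
    exact pow_zero g


/-- Two finite groups have the same number of elements of each order if and only if, for every n, they have the same number of elements g with gⁿ = 1. -/
theorem result {G H : Type*} [Group G] [Finite G] [Group H] [Finite H] :
    (∀ n : ℕ, Nat.card {g : G // orderOf g = n} = Nat.card {h : H // orderOf h = n}) ↔
      ∀ n : ℕ, Nat.card {g : G // g ^ n = 1} = Nat.card {h : H // h ^ n = 1} := by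
  constructor
  · intro h n
    by_cases hn : n = 0
    · subst hn
      have hN : Nat.card G * Nat.card H ≠ 0 :=
        Nat.mul_ne_zero Nat.card_pos.ne' Nat.card_pos.ne'
      rw [pow_count_zero (G := G) (Nat.card G * Nat.card H) (dvd_mul_right _ _),
        pow_count_zero (G := H) (Nat.card G * Nat.card H) (dvd_mul_left _ _),
        pow_count _ hN, pow_count _ hN]
      exact Finset.sum_congr rfl (fun d _ => h d)
    · rw [pow_count n hn, pow_count n hn]
      exact Finset.sum_congr rfl (fun d _ => h d)
  · intro h n
    induction n using Nat.strong_induction_on with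
    | _ n ih =>
      by_cases hn : n = 0
      · subst hn
        have h1 : IsEmpty {g : G // orderOf g = 0} := ⟨fun ⟨g, hg⟩ => (orderOf_pos g).ne' hg⟩
        have h2 : IsEmpty {g : H // orderOf g = 0} := ⟨fun ⟨g, hg⟩ => (orderOf_pos g).ne' hg⟩
        rw [Nat.card_of_isEmpty, Nat.card_of_isEmpty]
      · have hG := pow_count (G := G) n hn
        have hH := pow_count (G := H) n hn
        rw [← Nat.insert_self_properDivisors hn, Finset.sum_insert Nat.self_notMem_properDivisors] at hG hH
        have hsum : ∑ d ∈ n.properDivisors, Nat.card {g : G // orderOf g = d} =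
            ∑ d ∈ n.properDivisors, Nat.card {g : H // orderOf g = d} :=
          Finset.sum_congr rfl (fun d hd => ih d (Nat.mem_properDivisors.mp hd).2)
        have := h n
        omega

end Cfsg.Agent.S4377
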