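import Cfsg.Statements.S4381
import Cfsg.Agent.Lib.helper14.MaxInv

set_option autoImplicit false
open Pointwise
open Cfsg
open Cfsg.Agent.Lib.helper14

namespace Cfsg.Agent.S4381

/-- Let the finite group A act by automorphisms on the finite group G with the orders of A and G coprime, and assume that A or G is solvable. Call a proper A-invariant subgroup of G maximal A-invariant when no A-invariant subgroup lies strictly between it and G. Then all maximal A-invariant subgroups of G are conjugate under elements of the fixed-point subgroup C_G(A) if and only if G is a p-group for some prime p and A leaves invariant no subgroup strictly between the Frattini subgroup of G and G. In that case, if G is nontrivial, the Frattini subgroup is the only maximal A-invariant subgroup (a trivial G has none). -/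
theorem result {A G : Type*} [Group A] [Finite A]
    [Group G] [Finite G] [MulDistribMulAction A G] (hcop : (Nat.card A).Coprime (Nat.card G)) (hsol : Group.IsSolvable A ∨ Group.IsSolvable G) :
    ((∀ M N : Subgroup G, (M ≠ ⊤ ∧ (∀ a : A, ∀ x ∈ M, a • x ∈ M) ∧ ∀ L : Subgroup G, M < L → (∀ a : A, ∀ x ∈ L, a • x ∈ L) → L = ⊤) → (N ≠ ⊤ ∧ (∀ a : A, ∀ x ∈ N, a • x ∈ N) ∧ ∀ L : Subgroup G, N < L → (∀ a : A, ∀ x ∈ L, a • x ∈ L) → L = ⊤) →
        ∃ c : G, (∀ a : A, a • c = c) ∧ N = MulAut.conj c • M) ↔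
      ((∃ p : ℕ, p.Prime ∧ IsPGroup p G) ∧ ∀ L : Subgroup G, frattini G < L → (∀ a : A, ∀ x ∈ L, a • x ∈ L) → L = ⊤)) ∧
    (((∃ p : ℕ, p.Prime ∧ IsPGroup p G) ∧ ∀ L : Subgroup G, frattini G < L → (∀ a : A, ∀ x ∈ L, a • x ∈ L) → L = ⊤) →
      ∀ M : Subgroup G, (M ≠ ⊤ ∧ (∀ a : A, ∀ x ∈ M, a • x ∈ M) ∧ ∀ L : Subgroup G, M < L → (∀ a : A, ∀ x ∈ L, a • x ∈ L) → L = ⊤) ↔ (M = frattini G ∧ M ≠ ⊤)) := by
  have hB : ((∃ p : ℕ, p.Prime ∧ IsPGroup p G) ∧ ∀ L : Subgroup G, frattini G < L → (∀ a : A, ∀ x ∈ L, a • x ∈ L) → L = ⊤) →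
      ∀ M : Subgroup G, (M ≠ ⊤ ∧ (∀ a : A, ∀ x ∈ M, a • x ∈ M) ∧ ∀ L : Subgroup G, M < L → (∀ a : A, ∀ x ∈ L, a • x ∈ L) → L = ⊤) ↔ (M = frattini G ∧ M ≠ ⊤) := by
    rintro ⟨-, hirr⟩ M
    constructor
    · intro hM
      have hle := frattini_le_maxInv M hM
      refine ⟨?_, hM.1⟩
      by_contra hne
      have hlt : frattini G < M := lt_of_le_of_ne hle (Ne.symm hne)
      exact hM.1 (hirr M hlt hM.2.1)
    · rintro ⟨rfl, hne⟩
      exact ⟨hne, inv_frattini, fun L hL hLinv => hirr L hL hLinv⟩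
  refine ⟨⟨?_, ?_⟩, hB⟩
  · intro hconj
    obtain ⟨p, hp, hG⟩ := pgroup_of_maxInv_conj hcop hsol hconj
    haveI := Fact.mk hp
    exact ⟨⟨p, hp, hG⟩, fun L hL hLinv => irr_of_maxInv_conj hcop hG hconj L hL hLinv⟩
  · intro h M N hM hN
    have h1 := ((hB h M).mp hM).1
    have h2 := ((hB h N).mp hN).1
    refine ⟨1, fun a => smul_one a, ?_⟩
    rw [h1, h2, map_one, one_smul]

end Cfsg.Agent.S4381
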