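import Cfsg.Statements.S4387
-- import your own Cfsg.Agent.* helpers here

set_option autoImplicit false
open Pointwise
open Cfsg

namespace Cfsg.Agent.S4387

theorem exists_not_mem_conj {G : Type*} [Group G] [Finite G] (M : Subgroup G) (hM : M ≠ ⊤) :
    ∃ g : G, ∀ x : G, x⁻¹ * g * x ∉ M := by
  classical
  have := Fintype.ofFinite G
  have : Fintype (G ⧸ M) := Fintype.ofFinite _
  by_contra hcon
  push Not at hcon
  have hfix : ∀ g : G, 1 ≤ Fintype.card (MulAction.fixedBy (G ⧸ M) g) := by
    intro g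
    obtain ⟨x, hx⟩ := hcon g
    refine Fintype.card_pos_iff.mpr ⟨⟨(x : G ⧸ M), ?_⟩⟩
    rw [MulAction.mem_fixedBy]
    change ((g * x : G) : G ⧸ M) = (x : G ⧸ M)
    rw [QuotientGroup.eq]
    have h2 : (g * x)⁻¹ * x = (x⁻¹ * g * x)⁻¹ := by group
    rw [h2]
    exact M.inv_mem hx
  have hone : 2 ≤ Fintype.card (MulAction.fixedBy (G ⧸ M) (1 : G)) := by
    have h1 : MulAction.fixedBy (G ⧸ M) (1 : G) = Set.univ := by
      ext q
      simp
    have h2 : Fintype.card (MulAction.fixedBy (G ⧸ M) (1 : G)) = Fintype.card (G ⧸ M) := by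
      rw [Fintype.card_congr (Equiv.setCongr h1)]
      exact Fintype.card_congr (Equiv.Set.univ _)
    rw [h2, ← Nat.card_eq_fintype_card, ← Subgroup.index_eq_card]
    have h3 : M.index ≠ 1 := fun h => hM (Subgroup.index_eq_one.mp h)
    have h4 : M.index ≠ 0 := Subgroup.index_ne_zero_of_finite
    omega
  have hB := MulAction.sum_card_fixedBy_eq_card_orbits_mul_card_group G (G ⧸ M)
  have hsub : Subsingleton (MulAction.orbitRel.Quotient G (G ⧸ M)) :=
    (MulAction.pretransitive_iff_subsingleton_quotient G (G ⧸ M)).mp inferInstance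
  have horb : Fintype.card (Quotient (MulAction.orbitRel G (G ⧸ M))) ≤ 1 :=
    Fintype.card_le_one_iff_subsingleton.mpr hsub
  have hsum : Fintype.card G + 1 ≤ ∑ g : G, Fintype.card (MulAction.fixedBy (G ⧸ M) g) := by
    have h1 : ∑ g : G, (1 + if g = 1 then 1 else 0) ≤
        ∑ g : G, Fintype.card (MulAction.fixedBy (G ⧸ M) g) := by
      apply Finset.sum_le_sum
      intro g _
      by_cases hg : g = 1
      · subst hg
        simpa using hone
      · simpa [hg] using hfix g
    have h2 : ∑ g : G, (1 + if g = 1 then 1 else 0) = Fintype.card G + 1 := by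
      rw [Finset.sum_add_distrib]
      simp
    omega
  rw [hB] at hsum
  have hpos : 0 < Fintype.card G := Fintype.card_pos
  nlinarith


/-- Let G be a non-trivial finite group in which any two maximal subgroups are conjugate. Then G is cyclic of prime-power order. -/
theorem result {G : Type*} [Group G] [Finite G] [Nontrivial G]
    (h : ∀ M N : Subgroup G, IsCoatom M → IsCoatom N → ∃ g : G, N = MulAut.conj g • M) :
    IsCyclic G ∧ IsPrimePow (Nat.card G) := by
  obtain ⟨M, hM⟩ := IsCoatomic.exists_coatom (Subgroup G)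
  obtain ⟨g, hg⟩ := exists_not_mem_conj M hM.1
  have hgen : Subgroup.zpowers g = ⊤ := by
    rcases eq_top_or_exists_le_coatom (Subgroup.zpowers g) with h1 | ⟨N, hN, hle⟩
    · exact h1
    · exfalso
      obtain ⟨k, hk⟩ := h M N hM hN
      have hgN : g ∈ N := hle (Subgroup.mem_zpowers g)
      rw [hk, Subgroup.mem_pointwise_smul_iff_inv_smul_mem] at hgN
      apply hg k
      simpa [MulAut.smul_def] using hgN
  refine ⟨isCyclic_iff_exists_zpowers_eq_top.mpr ⟨g, hgen⟩, ?_⟩
  have hcardM : ∀ N : Subgroup G, IsCoatom N → Nat.card N = Nat.card M := by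
    intro N hN
    obtain ⟨k, hk⟩ := h M N hM hN
    rw [hk]
    exact (Nat.card_congr (Subgroup.equivSMul (MulAut.conj k) M).toEquiv).symm
  by_cases hex : ∃ (p : ℕ) (hp : p.Prime), ∃ P : @Sylow p G _, (P : Subgroup G) = ⊤
  · obtain ⟨p, hp, P, hP⟩ := hex
    have : Fact p.Prime := ⟨hp⟩
    have hpg : IsPGroup p G := by
      have h1 := P.isPGroup'
      rw [hP] at h1
      exact IsPGroup.of_equiv h1 Subgroup.topEquiv
    obtain ⟨n, hn⟩ := IsPGroup.iff_card.mp hpg
    rw [hn]
    refine ⟨p, n, hp.prime, ?_, rfl⟩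
    rcases Nat.eq_zero_or_pos n with h0 | h0
    · exfalso
      rw [h0, pow_zero] at hn
      have : 1 < Nat.card G := Finite.one_lt_card
      omega
    · exact h0
  · exfalso
    push Not at hex
    have hG0 : Nat.card G ≠ 0 := Nat.card_pos.ne'
    have hM0 : Nat.card M ≠ 0 := Nat.card_pos.ne'
    have hdvd : Nat.card G ∣ Nat.card M := by
      rw [← Nat.factorization_prime_le_iff_dvd hG0 hM0]
      intro p hp
      have : Fact p.Prime := ⟨hp⟩
      obtain ⟨P⟩ : Nonempty (Sylow p G) := inferInstance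
      rcases eq_top_or_exists_le_coatom (P : Subgroup G) with h1 | ⟨N, hN, hle⟩
      · exact absurd h1 (hex p hp P)
      · have h2 := Subgroup.card_dvd_of_le hle
        rw [P.card_eq_multiplicity, hcardM N hN] at h2
        exact (hp.pow_dvd_iff_le_factorization hM0).mp h2
    have hle : Nat.card M ∣ Nat.card G := Subgroup.card_subgroup_dvd_card M
    exact hM.1 (Subgroup.eq_top_of_card_eq M (Nat.dvd_antisymm hle hdvd))

end Cfsg.Agent.S4387
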