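import Cfsg.Statements.S4400

import Cfsg.Agent.S4398
import Cfsg.Agent.S0065
set_option autoImplicit false
open Cfsg

namespace Cfsg.Agent.S4400

theorem card_step {G : Type*} [Group G] [Finite G] (T : Set G) (g : G)
    (hg : g ∉ Subgroup.closure T) :
    2 * Nat.card (Subgroup.closure T) ≤ Nat.card (Subgroup.closure (insert g T)) := by
  have hle : Subgroup.closure T ≤ Subgroup.closure (insert g T) :=
    Subgroup.closure_mono (Set.subset_insert g T)
  obtain ⟨m, hm⟩ := Subgroup.card_dvd_of_le hle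
  have hpos : 0 < Nat.card (Subgroup.closure (insert g T)) := Nat.card_pos
  have hm1 : m ≠ 1 := by
    intro h
    rw [h, mul_one] at hm
    have heq := Subgroup.eq_of_le_of_card_ge hle hm.le
    apply hg
    rw [heq]
    exact Subgroup.subset_closure (Set.mem_insert g T)
  have hm0 : m ≠ 0 := by
    intro h; rw [h, mul_zero] at hm; omega
  rw [hm]
  have h2 : 2 ≤ m := by omega
  calc 2 * Nat.card (Subgroup.closure T) ≤ m * Nat.card (Subgroup.closure T) :=
        Nat.mul_le_mul_right _ h2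
    _ = Nat.card (Subgroup.closure T) * m := mul_comm _ _

theorem ea_closure {G : Type*} [Group G] (T : Set G) (h2 : ∀ s ∈ T, s ^ 2 = 1)
    (hc : ∀ s ∈ T, ∀ t ∈ T, Commute s t) :
    IsMulCommutative (Subgroup.closure T) ∧ ∀ a ∈ Subgroup.closure T, a ^ 2 = 1 := by
  have hgen : ∀ x ∈ Subgroup.closure T, ∀ t ∈ T, Commute x t := by
    intro x hx t ht
    induction hx using Subgroup.closure_induction with
    | mem y hy => exact hc y hy t ht
    | one => exact Commute.one_left _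
    | mul u w _ _ hu hw => exact hu.mul_left hw
    | inv u _ hu => exact hu.inv_left
  have hcomm : ∀ x ∈ Subgroup.closure T, ∀ y ∈ Subgroup.closure T, Commute x y := by
    intro x hx y hy
    induction hy using Subgroup.closure_induction with
    | mem w hw => exact hgen x hx w hw
    | one => exact Commute.one_right _
    | mul u w _ _ hu hw => exact hu.mul_right hw
    | inv u _ hu => exact hu.inv_right
  refine ⟨⟨⟨fun x y => Subtype.ext (hcomm x x.2 y y.2)⟩⟩, ?_⟩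
  intro a ha
  induction ha using Subgroup.closure_induction with
  | mem w hw => exact h2 w hw
  | one => exact one_pow 2
  | mul u w hu hw ihu ihw => rw [(hcomm u hu w hw).mul_pow, ihu, ihw, one_mul]
  | inv u _ ihu => rw [inv_pow, ihu, inv_one]

theorem exists_pair {T : Type*} [Group T] [Finite T] (h2 : IsPGroup 2 T) (z : T) (hz2 : z ^ 2 = 1)
    (hzc : ∀ g : T, Commute z g) (huniq : ∀ x : T, (∀ y : T, Commute x y) → x = 1 ∨ x = z)
    (hna : ¬ ∀ a b : T, Commute a b) :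
    ∃ x y : T, x * y * x⁻¹ * y⁻¹ = z ∧ (x ^ 2 = 1 ∨ x ^ 2 = z) := by
  have hbig : ∃ g : T, g ≠ 1 ∧ g ≠ z := by
    by_contra hcon
    push Not at hcon
    apply hna
    intro a b
    by_cases ha : a = 1
    · rw [ha]; exact Commute.one_left b
    · rw [hcon a ha]; exact hzc b
  obtain ⟨x, hx1, hx2, hx3⟩ := S4398.exists_central_mod h2 z hzc hz2 hbig
  have hnc : ¬ ∀ y : T, Commute x y := fun h => hx1 (huniq x h)
  push Not at hnc
  obtain ⟨y, hy⟩ := hnc
  refine ⟨x, y, ?_, hx2⟩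
  rcases hx3 y with h | h
  · exfalso; apply hy
    exact mul_inv_eq_iff_eq_mul.mp (mul_inv_eq_one.mp h)
  · exact h

section
variable {S : Type*} [Group S]

open scoped Pointwise in
theorem mem_sup_normal (P Q : Subgroup S) [Q.Normal] (x : S) (hx : x ∈ P ⊔ Q) :
    ∃ a ∈ P, ∃ b ∈ Q, a * b = x := by
  have h : x ∈ ((P : Set S) * (Q : Set S)) := by
    rw [← Subgroup.mul_normal]; exact hx
  exact Set.mem_mul.mp h

theorem center_elt (P : Subgroup S) (hZP : Nat.card ↥(Subgroup.center ↥P) = 2) :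
    ∃ z ∈ P, z ≠ 1 ∧ z ^ 2 = 1 ∧ (∀ y ∈ P, Commute z y) ∧
      (∀ x ∈ P, (∀ y ∈ P, Commute x y) → x = 1 ∨ x = z) ∧
      (∀ x : S, x ∈ (Subgroup.center ↥P).map P.subtype ↔ x = 1 ∨ x = z) := by
  obtain ⟨ζ, hζ1, hζu⟩ := (Nat.card_eq_two_iff' (1 : Subgroup.center ↥P)).mp hZP
  have hζ2 : ζ ^ 2 = 1 := by rw [← hZP]; exact pow_card_eq_one'
  have hcent : ∀ w : ↥P, w ∈ Subgroup.center ↥P → ∀ y ∈ P, Commute (w : S) y := by
    intro w hw y hy
    have h := Subgroup.mem_center_iff.mp hw ⟨y, hy⟩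
    have h' := congrArg Subtype.val h
    simp only [Subgroup.coe_mul] at h'
    exact h'.symm
  have huniq : ∀ x ∈ P, (∀ y ∈ P, Commute x y) → x = 1 ∨ x = ((ζ : ↥P) : S) := by
    intro x hx hxc
    have hmem : (⟨x, hx⟩ : ↥P) ∈ Subgroup.center ↥P := by
      rw [Subgroup.mem_center_iff]
      intro g
      exact Subtype.ext (hxc g g.2).eq.symm
    by_cases h1 : (⟨⟨x, hx⟩, hmem⟩ : Subgroup.center ↥P) = 1
    · left
      have h' := congrArg (fun w : Subgroup.center ↥P => ((w : ↥P) : S)) h1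
      simpa using h'
    · right
      have h2 := hζu _ h1
      have h' := congrArg (fun w : Subgroup.center ↥P => ((w : ↥P) : S)) h2
      simpa using h'
  refine ⟨((ζ : ↥P) : S), (ζ : ↥P).2, ?_, ?_, hcent _ ζ.2, huniq, ?_⟩
  · intro h
    apply hζ1
    apply Subtype.ext; apply Subtype.ext
    simpa using h
  · have h' := congrArg (fun w : Subgroup.center ↥P => ((w : ↥P) : S)) hζ2
    simpa using h'
  · intro x
    constructor
    · rintro ⟨w, hw, rfl⟩
      exact huniq _ w.2 (hcent w hw)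
    · rintro (h | h)
      · rw [h]; exact Subgroup.one_mem _
      · rw [h]; exact ⟨(ζ : ↥P), ζ.2, rfl⟩

theorem central_of_normal (P : Subgroup S) [hPn : P.Normal] (z : S) (hzP : z ∈ P) (hz1 : z ≠ 1)
    (hzc : ∀ y ∈ P, Commute z y) (huniq : ∀ x ∈ P, (∀ y ∈ P, Commute x y) → x = 1 ∨ x = z) :
    ∀ g : S, Commute z g := by
  intro g
  have h1 : ∀ y ∈ P, Commute (g * z * g⁻¹) y := by
    intro y hy
    have hy' : g⁻¹ * y * g ∈ P := by
      have h := hPn.conj_mem y hy g⁻¹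
      rwa [inv_inv] at h
    have h2 := (Commute.conj_iff g).mpr (hzc _ hy')
    have h3 : g * (g⁻¹ * y * g) * g⁻¹ = y := by group
    rwa [h3] at h2
  rcases huniq _ (hPn.conj_mem z hzP g) h1 with h | h
  · exfalso; apply hz1
    have h4 : z = g⁻¹ * (g * z * g⁻¹) * g := by group
    rw [h4, h]; group
  · have h4 : g * z = z * g := by
      have h5 : g * z = (g * z * g⁻¹) * g := by group
      rw [h5, h]
    exact h4.symm

theorem center_mem_of_inf_ne_bot [Finite S] (h2 : IsPGroup 2 S) (P Q : Subgroup S) [P.Normal]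
    [Q.Normal] (zP : S)
    (huniq : ∀ x ∈ P, (∀ y ∈ P, Commute x y) → x = 1 ∨ x = zP) (hne : P ⊓ Q ≠ ⊥) : zP ∈ Q := by
  have hnil : Group.IsNilpotent ↥P := (h2.to_subgroup P).isNilpotent
  have hN : (P ⊓ Q).subgroupOf P ≠ ⊥ := by
    intro h
    rw [Subgroup.subgroupOf_eq_bot] at h
    apply hne
    have h' := h.eq_bot
    rwa [inf_assoc, inf_comm Q P, ← inf_assoc, inf_idem] at h'
  have h3 := S0065.normal_inf_center_ne_bot ((P ⊓ Q).subgroupOf P) hN
  obtain ⟨⟨ξ, hξ⟩, hξ1⟩ := Subgroup.ne_bot_iff_exists_ne_one.mp h3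
  have hξQ : (ξ : S) ∈ Q := (Subgroup.mem_subgroupOf.mp hξ.1).2
  have hξc : ∀ y ∈ P, Commute (ξ : S) y := by
    intro y hy
    have h := Subgroup.mem_center_iff.mp hξ.2 ⟨y, hy⟩
    have h' := congrArg Subtype.val h
    simp only [Subgroup.coe_mul] at h'
    exact h'.symm
  rcases huniq _ ξ.2 hξc with h | h
  · exfalso; apply hξ1
    apply Subtype.ext; apply Subtype.ext
    exact h
  · rw [← h]; exact hξQ

theorem not_mem_closure_mk (K N₀ M : Subgroup S) [hN : (N₀.subgroupOf K).Normal] (hNM : N₀ ≤ M)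
    (T : Set (↥K ⧸ N₀.subgroupOf K))
    (hT : ∀ t ∈ T, ∃ k : ↥K, (k : S) ∈ M ∧ t = QuotientGroup.mk k) (g : ↥K) (hg : (g : S) ∉ M) :
    (QuotientGroup.mk g : ↥K ⧸ N₀.subgroupOf K) ∉ Subgroup.closure T := by
  intro hmem
  have hle : Subgroup.closure T ≤
      (M.subgroupOf K).map (QuotientGroup.mk' (N₀.subgroupOf K)) := by
    rw [Subgroup.closure_le]
    intro t ht
    obtain ⟨k, hk, rfl⟩ := hT t ht
    exact ⟨k, Subgroup.mem_subgroupOf.mpr hk, rfl⟩
  obtain ⟨m, hm, hmg⟩ := hle hmem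
  have h1 : (QuotientGroup.mk m : ↥K ⧸ N₀.subgroupOf K) = QuotientGroup.mk g := hmg
  rw [QuotientGroup.eq, Subgroup.mem_subgroupOf] at h1
  have h2 : ((m⁻¹ * g : ↥K) : S) ∈ M := hNM h1
  have h3 : (m : S) ∈ M := Subgroup.mem_subgroupOf.mp hm
  apply hg
  have h4 : (g : S) = (m : S) * ((m⁻¹ * g : ↥K) : S) := by
    simp only [Subgroup.coe_mul, Subgroup.coe_inv]; group
  rw [h4]; exact M.mul_mem h3 h2

end

/-- Let S be a finite 2-group of sectional 2-rank at most 4, and let P and Q be normal non-abelian subgroups of S whose centres have order 2 and are different. Then P and Q commute elementwise and intersect trivially, and PQ contains its own centralizer in S. -/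
theorem result {S : Type*} [Group S] [Finite S] (h2 : IsPGroup 2 S) (hr : Cfsg.SectionalPRankLE 2 4 S)
    (P Q : Subgroup S) [P.Normal] [Q.Normal] (hP : ¬ IsMulCommutative ↥P) (hQ : ¬ IsMulCommutative ↥Q)
    (hZP : Nat.card ↥(Subgroup.center ↥P) = 2) (hZQ : Nat.card ↥(Subgroup.center ↥Q) = 2)
    (hne : (Subgroup.center ↥P).map P.subtype ≠ (Subgroup.center ↥Q).map Q.subtype) :
    ⁅P, Q⁆ = ⊥ ∧ P ⊓ Q = ⊥ ∧ Subgroup.centralizer ((P ⊔ Q : Subgroup S) : Set S) ≤ P ⊔ Q := by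

  classical
  obtain ⟨zP, hzPP, hzP1, hzP2, hzPc, hzPu, hmapP⟩ := center_elt P hZP
  obtain ⟨zQ, hzQQ, hzQ1, hzQ2, hzQc, hzQu, hmapQ⟩ := center_elt Q hZQ
  have hzPS := central_of_normal P zP hzPP hzP1 hzPc hzPu
  have hzQS := central_of_normal Q zQ hzQQ hzQ1 hzQc hzQu
  have hzne : zP ≠ zQ := by
    intro h
    apply hne
    ext x
    rw [hmapP, hmapQ, h]
  have hPQ : P ⊓ Q = ⊥ := by
    by_contra hcon
    have h2' : zQ ∈ P := center_mem_of_inf_ne_bot h2 Q P zQ hzQu (by rwa [inf_comm])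
    rcases hzPu zQ h2' (fun y _ => hzQS y) with h | h
    · exact hzQ1 h
    · exact hzne h.symm
  have hcomm : ⁅P, Q⁆ = ⊥ := by
    rw [eq_bot_iff, ← hPQ]; exact Subgroup.commutator_le_inf P Q
  have hcPQ : ∀ a ∈ P, ∀ b ∈ Q, Commute a b := by
    intro a ha b hb
    have h1 : a * b * a⁻¹ * b⁻¹ ∈ ⁅P, Q⁆ := Subgroup.commutator_mem_commutator ha hb
    rw [hcomm, Subgroup.mem_bot] at h1
    exact mul_inv_eq_iff_eq_mul.mp (mul_inv_eq_one.mp h1)
  refine ⟨hcomm, hPQ, ?_⟩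
  intro c hc
  by_contra hcn
  obtain ⟨j, hj1, hj2⟩ := S4398.pow_two_trick h2 (fun g => g ∈ P ⊔ Q) (Subgroup.one_mem _) c hcn
  obtain ⟨c₀, hc₀⟩ : ∃ c₀ : S, c₀ = c ^ 2 ^ j := ⟨_, rfl⟩
  rw [← hc₀] at hj1 hj2
  have hc₀C : c₀ ∈ Subgroup.centralizer ((P ⊔ Q : Subgroup S) : Set S) := by
    rw [hc₀]; exact Subgroup.pow_mem _ hc _
  have hc₀P : ∀ a ∈ P, Commute c₀ a := by
    intro a ha
    exact (Subgroup.mem_centralizer_iff.mp hc₀C a (Subgroup.mem_sup_left ha)).symm
  have hc₀Q : ∀ b ∈ Q, Commute c₀ b := by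
    intro b hb
    exact (Subgroup.mem_centralizer_iff.mp hc₀C b (Subgroup.mem_sup_right hb)).symm
  obtain ⟨a, ha, b, hb, hab⟩ := mem_sup_normal P Q (c₀ ^ 2) hj2
  have ha' : a = 1 ∨ a = zP := by
    apply hzPu a ha
    intro y hy
    have h1 : a = c₀ ^ 2 * b⁻¹ := by rw [← hab]; group
    rw [h1]
    exact ((hc₀P y hy).pow_left 2).mul_left ((hcPQ y hy b hb).symm.inv_left)
  have hb' : b = 1 ∨ b = zQ := by
    apply hzQu b hb
    intro y hy
    have h1 : b = a⁻¹ * c₀ ^ 2 := by rw [← hab]; group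
    rw [h1]
    exact ((hcPQ a ha y hy).inv_left).mul_left ((hc₀Q y hy).pow_left 2)
  have hPna : ¬ ∀ a b : ↥P, Commute a b := by
    intro h; apply hP; exact ⟨⟨fun a b => (h a b).eq⟩⟩
  have hQna : ¬ ∀ a b : ↥Q, Commute a b := by
    intro h; apply hQ; exact ⟨⟨fun a b => (h a b).eq⟩⟩
  obtain ⟨x0, y0, hxy0, hx0sq⟩ := exists_pair (h2.to_subgroup P) (⟨zP, hzPP⟩ : ↥P)
    (Subtype.ext (by simpa using hzP2))
    (fun g => Subtype.ext (hzPc g g.2).eq)
    (fun x hx => by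
      rcases hzPu (x : S) x.2 (fun y hy => by
        have h' := congrArg Subtype.val (hx ⟨y, hy⟩).eq
        simp only [Subgroup.coe_mul] at h'
        exact h') with h | h
      · left; exact Subtype.ext h
      · right; exact Subtype.ext h) hPna
  obtain ⟨x0', y0', hxy0', hx0sq'⟩ := exists_pair (h2.to_subgroup Q) (⟨zQ, hzQQ⟩ : ↥Q)
    (Subtype.ext (by simpa using hzQ2))
    (fun g => Subtype.ext (hzQc g g.2).eq)
    (fun x hx => by
      rcases hzQu (x : S) x.2 (fun y hy => by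
        have h' := congrArg Subtype.val (hx ⟨y, hy⟩).eq
        simp only [Subgroup.coe_mul] at h'
        exact h') with h | h
      · left; exact Subtype.ext h
      · right; exact Subtype.ext h) hQna
  obtain ⟨x, hxdef⟩ : ∃ x : S, x = (x0 : S) := ⟨_, rfl⟩
  obtain ⟨y, hydef⟩ : ∃ y : S, y = (y0 : S) := ⟨_, rfl⟩
  obtain ⟨x', hxdef'⟩ : ∃ x' : S, x' = (x0' : S) := ⟨_, rfl⟩
  obtain ⟨y', hydef'⟩ : ∃ y' : S, y' = (y0' : S) := ⟨_, rfl⟩
  have hxP : x ∈ P := by rw [hxdef]; exact x0.2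
  have hyP : y ∈ P := by rw [hydef]; exact y0.2
  have hx'Q : x' ∈ Q := by rw [hxdef']; exact x0'.2
  have hy'Q : y' ∈ Q := by rw [hydef']; exact y0'.2
  have hxy : x * y * x⁻¹ * y⁻¹ = zP := by
    have h' := congrArg Subtype.val hxy0
    rw [hxdef, hydef]
    simpa using h'
  have hxy' : x' * y' * x'⁻¹ * y'⁻¹ = zQ := by
    have h' := congrArg Subtype.val hxy0'
    rw [hxdef', hydef']
    simpa using h'
  have hxsq : x ^ 2 = 1 ∨ x ^ 2 = zP := by
    rw [hxdef]
    rcases hx0sq with h | h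
    · left
      have h' := congrArg Subtype.val h
      simpa using h'
    · right
      have h' := congrArg Subtype.val h
      simpa using h'
  have hxsq' : x' ^ 2 = 1 ∨ x' ^ 2 = zQ := by
    rw [hxdef']
    rcases hx0sq' with h | h
    · left
      have h' := congrArg Subtype.val h
      simpa using h'
    · right
      have h' := congrArg Subtype.val h
      simpa using h'
  have hnc : ¬ Commute x y := by
    intro h
    rw [S4398.comm_one h] at hxy
    exact hzP1 hxy.symm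
  have hnc' : ¬ Commute x' y' := by
    intro h
    rw [S4398.comm_one h] at hxy'
    exact hzQ1 hxy'.symm
  obtain ⟨K, hK⟩ : ∃ K : Subgroup S, K = Subgroup.closure {x, y, x', y', c₀} := ⟨_, rfl⟩
  obtain ⟨N₀, hN₀⟩ : ∃ N₀ : Subgroup S, N₀ = Subgroup.closure {y ^ 2, y' ^ 2, zP, zQ} := ⟨_, rfl⟩
  have hxK : x ∈ K := by rw [hK]; exact Subgroup.subset_closure (by simp)
  have hyK : y ∈ K := by rw [hK]; exact Subgroup.subset_closure (by simp)
  have hx'K : x' ∈ K := by rw [hK]; exact Subgroup.subset_closure (by simp)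
  have hy'K : y' ∈ K := by rw [hK]; exact Subgroup.subset_closure (by simp)
  have hc₀K : c₀ ∈ K := by rw [hK]; exact Subgroup.subset_closure (by simp)
  have hy2N : y ^ 2 ∈ N₀ := by rw [hN₀]; exact Subgroup.subset_closure (by simp)
  have hy2N' : y' ^ 2 ∈ N₀ := by rw [hN₀]; exact Subgroup.subset_closure (by simp)
  have hzPN : zP ∈ N₀ := by rw [hN₀]; exact Subgroup.subset_closure (by simp)
  have hzQN : zQ ∈ N₀ := by rw [hN₀]; exact Subgroup.subset_closure (by simp)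
  have hx_y2 : Commute x (y ^ 2) := by
    have h1 : x * y ^ 2 * x⁻¹ = y ^ 2 := by
      have h2' : x * y * x⁻¹ = zP * y := by rw [← hxy]; group
      rw [← conj_pow, h2', (hzPS y).mul_pow, hzP2, one_mul]
    exact mul_inv_eq_iff_eq_mul.mp h1
  have hx_y2' : Commute x' (y' ^ 2) := by
    have h1 : x' * y' ^ 2 * x'⁻¹ = y' ^ 2 := by
      have h2' : x' * y' * x'⁻¹ = zQ * y' := by rw [← hxy']; group
      rw [← conj_pow, h2', (hzQS y').mul_pow, hzQ2, one_mul]
    exact mul_inv_eq_iff_eq_mul.mp h1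
  have hN₀cent : ∀ n ∈ N₀, ∀ g ∈ ({x, y, x', y', c₀} : Set S), Commute n g := by
    intro n hn
    rw [hN₀] at hn
    induction hn using Subgroup.closure_induction with
    | mem w hw =>
      intro g hg
      simp only [Set.mem_insert_iff, Set.mem_singleton_iff] at hw hg
      rcases hw with h | h | h | h
      · rw [h]
        rcases hg with h' | h' | h' | h' | h' <;> rw [h']
        · exact hx_y2.symm
        · exact (Commute.refl y).pow_left 2
        · exact (hcPQ y hyP x' hx'Q).pow_left 2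
        · exact (hcPQ y hyP y' hy'Q).pow_left 2
        · exact ((hc₀P y hyP).symm).pow_left 2
      · rw [h]
        rcases hg with h' | h' | h' | h' | h' <;> rw [h']
        · exact ((hcPQ x hxP y' hy'Q).symm).pow_left 2
        · exact ((hcPQ y hyP y' hy'Q).symm).pow_left 2
        · exact hx_y2'.symm
        · exact (Commute.refl y').pow_left 2
        · exact ((hc₀Q y' hy'Q).symm).pow_left 2
      · rw [h]; exact hzPS g
      · rw [h]; exact hzQS g
    | one => intro g _; exact Commute.one_left g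
    | mul u w _ _ hu hw => intro g hg; exact (hu g hg).mul_left (hw g hg)
    | inv u _ hu => intro g hg; exact (hu g hg).inv_left
  have hN₀K : ∀ n ∈ N₀, ∀ k ∈ K, Commute n k := by
    intro n hn k hk
    rw [hK] at hk
    induction hk using Subgroup.closure_induction with
    | mem w hw => exact hN₀cent n hn w hw
    | one => exact Commute.one_right n
    | mul u w _ _ hu hw => exact hu.mul_right hw
    | inv u _ hu => exact hu.inv_right
  have hNn : (N₀.subgroupOf K).Normal := by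
    constructor
    intro n hn g
    rw [Subgroup.mem_subgroupOf] at hn ⊢
    have hcm := hN₀K (n : S) hn (g : S) g.2
    have h1 : ((g * n * g⁻¹ : ↥K) : S) = (n : S) := by
      simp only [Subgroup.coe_mul, Subgroup.coe_inv]
      rw [← hcm.eq, mul_inv_cancel_right]
    rw [h1]; exact hn
  have hone : ∀ k : ↥K, (QuotientGroup.mk k : ↥K ⧸ N₀.subgroupOf K) = 1 ↔ (k : S) ∈ N₀ := by
    intro k; rw [QuotientGroup.eq_one_iff, Subgroup.mem_subgroupOf]
  have hsq : ∀ k : ↥K, (k : S) ^ 2 ∈ N₀ →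
      (QuotientGroup.mk k : ↥K ⧸ N₀.subgroupOf K) ^ 2 = 1 := by
    intro k hk
    rw [← QuotientGroup.mk_pow, hone]
    simpa using hk
  have hcm : ∀ k₁ k₂ : ↥K, (k₁ : S) * k₂ * (k₁ : S)⁻¹ * (k₂ : S)⁻¹ ∈ N₀ →
      Commute (QuotientGroup.mk k₁ : ↥K ⧸ N₀.subgroupOf K) (QuotientGroup.mk k₂) := by
    intro k₁ k₂ h
    show (QuotientGroup.mk k₁ : ↥K ⧸ N₀.subgroupOf K) * QuotientGroup.mk k₂
      = QuotientGroup.mk k₂ * QuotientGroup.mk k₁
    rw [← QuotientGroup.mk_mul, ← QuotientGroup.mk_mul, QuotientGroup.eq_iff_div_mem,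
      Subgroup.mem_subgroupOf]
    have e : ((k₁ * k₂ / (k₂ * k₁) : ↥K) : S) = (k₁ : S) * k₂ * (k₁ : S)⁻¹ * (k₂ : S)⁻¹ := by
      simp only [div_eq_mul_inv, Subgroup.coe_mul, Subgroup.coe_inv, mul_inv_rev, mul_assoc]
    rw [e]; exact h
  have hcomm5 : ∀ g₁ ∈ ({x, y, x', y', c₀} : Set S), ∀ g₂ ∈ ({x, y, x', y', c₀} : Set S),
      g₁ * g₂ * g₁⁻¹ * g₂⁻¹ ∈ N₀ := by
    have h1 : ∀ g₁ g₂ : S, Commute g₁ g₂ → g₁ * g₂ * g₁⁻¹ * g₂⁻¹ ∈ N₀ := by
      intro g₁ g₂ h
      rw [S4398.comm_one h]; exact N₀.one_mem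
    have hyx : y * x * y⁻¹ * x⁻¹ ∈ N₀ := by
      have e : y * x * y⁻¹ * x⁻¹ = (x * y * x⁻¹ * y⁻¹)⁻¹ := by group
      rw [e, hxy]; exact N₀.inv_mem hzPN
    have hyx' : y' * x' * y'⁻¹ * x'⁻¹ ∈ N₀ := by
      have e : y' * x' * y'⁻¹ * x'⁻¹ = (x' * y' * x'⁻¹ * y'⁻¹)⁻¹ := by group
      rw [e, hxy']; exact N₀.inv_mem hzQN
    intro g₁ hg₁ g₂ hg₂
    simp only [Set.mem_insert_iff, Set.mem_singleton_iff] at hg₁ hg₂
    rcases hg₁ with h | h | h | h | h <;> rcases hg₂ with h' | h' | h' | h' | h' <;> rw [h, h']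
    · exact h1 _ _ (Commute.refl x)
    · rw [hxy]; exact hzPN
    · exact h1 _ _ (hcPQ x hxP x' hx'Q)
    · exact h1 _ _ (hcPQ x hxP y' hy'Q)
    · exact h1 _ _ (hc₀P x hxP).symm
    · exact hyx
    · exact h1 _ _ (Commute.refl y)
    · exact h1 _ _ (hcPQ y hyP x' hx'Q)
    · exact h1 _ _ (hcPQ y hyP y' hy'Q)
    · exact h1 _ _ (hc₀P y hyP).symm
    · exact h1 _ _ (hcPQ x hxP x' hx'Q).symm
    · exact h1 _ _ (hcPQ y hyP x' hx'Q).symm
    · exact h1 _ _ (Commute.refl x')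
    · rw [hxy']; exact hzQN
    · exact h1 _ _ (hc₀Q x' hx'Q).symm
    · exact h1 _ _ (hcPQ x hxP y' hy'Q).symm
    · exact h1 _ _ (hcPQ y hyP y' hy'Q).symm
    · exact hyx'
    · exact h1 _ _ (Commute.refl y')
    · exact h1 _ _ (hc₀Q y' hy'Q).symm
    · exact h1 _ _ (hc₀P x hxP)
    · exact h1 _ _ (hc₀P y hyP)
    · exact h1 _ _ (hc₀Q x' hx'Q)
    · exact h1 _ _ (hc₀Q y' hy'Q)
    · exact h1 _ _ (Commute.refl c₀)
  have hsq5 : ∀ g ∈ ({x, y, x', y', c₀} : Set S), g ^ 2 ∈ N₀ := by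
    intro g hg
    simp only [Set.mem_insert_iff, Set.mem_singleton_iff] at hg
    rcases hg with h | h | h | h | h <;> rw [h]
    · rcases hxsq with h' | h'
      · rw [h']; exact N₀.one_mem
      · rw [h']; exact hzPN
    · exact hy2N
    · rcases hxsq' with h' | h'
      · rw [h']; exact N₀.one_mem
      · rw [h']; exact hzQN
    · exact hy2N'
    · rw [← hab]
      refine N₀.mul_mem ?_ ?_
      · rcases ha' with h' | h'
        · rw [h']; exact N₀.one_mem
        · rw [h']; exact hzPN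
      · rcases hb' with h' | h'
        · rw [h']; exact N₀.one_mem
        · rw [h']; exact hzQN
  obtain ⟨α₁, hα₁⟩ : ∃ α : ↥K ⧸ N₀.subgroupOf K, α = QuotientGroup.mk (⟨x, hxK⟩ : ↥K) := ⟨_, rfl⟩
  obtain ⟨α₂, hα₂⟩ : ∃ α : ↥K ⧸ N₀.subgroupOf K, α = QuotientGroup.mk (⟨y, hyK⟩ : ↥K) := ⟨_, rfl⟩
  obtain ⟨α₃, hα₃⟩ : ∃ α : ↥K ⧸ N₀.subgroupOf K, α = QuotientGroup.mk (⟨x', hx'K⟩ : ↥K) := ⟨_, rfl⟩
  obtain ⟨α₄, hα₄⟩ : ∃ α : ↥K ⧸ N₀.subgroupOf K, α = QuotientGroup.mk (⟨y', hy'K⟩ : ↥K) := ⟨_, rfl⟩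
  obtain ⟨α₅, hα₅⟩ : ∃ α : ↥K ⧸ N₀.subgroupOf K, α = QuotientGroup.mk (⟨c₀, hc₀K⟩ : ↥K) := ⟨_, rfl⟩
  have hlift : ∀ t ∈ (insert α₅ (insert α₄ (insert α₃ (insert α₂ (insert α₁ ∅)))) :
      Set (↥K ⧸ N₀.subgroupOf K)),
      ∃ k : ↥K, (k : S) ∈ ({x, y, x', y', c₀} : Set S) ∧ t = QuotientGroup.mk k := by
    intro t ht
    simp only [Set.mem_insert_iff, Set.mem_empty_iff_false, or_false] at ht
    rcases ht with h | h | h | h | h
    · exact ⟨⟨c₀, hc₀K⟩, by simp, by rw [h, hα₅]⟩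
    · exact ⟨⟨y', hy'K⟩, by simp, by rw [h, hα₄]⟩
    · exact ⟨⟨x', hx'K⟩, by simp, by rw [h, hα₃]⟩
    · exact ⟨⟨y, hyK⟩, by simp, by rw [h, hα₂]⟩
    · exact ⟨⟨x, hxK⟩, by simp, by rw [h, hα₁]⟩
  have hea := ea_closure (insert α₅ (insert α₄ (insert α₃ (insert α₂ (insert α₁ ∅)))) :
      Set (↥K ⧸ N₀.subgroupOf K))
    (by
      intro t ht
      obtain ⟨k, hk, rfl⟩ := hlift t ht
      exact hsq k (hsq5 _ hk))
    (by
      intro s hs t ht
      obtain ⟨k₁, hk₁, rfl⟩ := hlift s hs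
      obtain ⟨k₂, hk₂, rfl⟩ := hlift t ht
      exact hcm k₁ k₂ (hcomm5 _ hk₁ _ hk₂))
  have h01 : α₁ ∉ Subgroup.closure (∅ : Set (↥K ⧸ N₀.subgroupOf K)) := by
    rw [hα₁]
    refine not_mem_closure_mk K N₀ N₀ le_rfl ∅ (by simp) ⟨x, hxK⟩ ?_
    intro h
    exact hnc (hN₀K x h y hyK)
  have h12 : α₂ ∉ Subgroup.closure (insert α₁ ∅ : Set (↥K ⧸ N₀.subgroupOf K)) := by
    rw [hα₂]
    refine not_mem_closure_mk K N₀ (Subgroup.centralizer ({x} : Set S)) ?_ _ ?_ ⟨y, hyK⟩ ?_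
    · intro n hn
      rw [Subgroup.mem_centralizer_iff]
      intro h hh
      rw [Set.mem_singleton_iff] at hh
      rw [hh]; exact (hN₀K n hn x hxK).eq.symm
    · intro t ht
      simp only [Set.mem_insert_iff, Set.mem_empty_iff_false, or_false] at ht
      refine ⟨⟨x, hxK⟩, ?_, by rw [ht, hα₁]⟩
      rw [Subgroup.mem_centralizer_iff]
      intro h hh
      rw [Set.mem_singleton_iff] at hh
      rw [hh]
    · intro h
      rw [Subgroup.mem_centralizer_iff] at h
      exact hnc (h x (Set.mem_singleton x))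
  have h23 : α₃ ∉ Subgroup.closure (insert α₂ (insert α₁ ∅) : Set (↥K ⧸ N₀.subgroupOf K)) := by
    rw [hα₃]
    refine not_mem_closure_mk K N₀ (Subgroup.centralizer ({y'} : Set S)) ?_ _ ?_ ⟨x', hx'K⟩ ?_
    · intro n hn
      rw [Subgroup.mem_centralizer_iff]
      intro h hh
      rw [Set.mem_singleton_iff] at hh
      rw [hh]; exact (hN₀K n hn y' hy'K).eq.symm
    · intro t ht
      simp only [Set.mem_insert_iff, Set.mem_empty_iff_false, or_false] at ht
      rcases ht with ht | ht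
      · refine ⟨⟨y, hyK⟩, ?_, by rw [ht, hα₂]⟩
        rw [Subgroup.mem_centralizer_iff]
        intro h hh
        rw [Set.mem_singleton_iff] at hh
        rw [hh]; exact (hcPQ y hyP y' hy'Q).eq.symm
      · refine ⟨⟨x, hxK⟩, ?_, by rw [ht, hα₁]⟩
        rw [Subgroup.mem_centralizer_iff]
        intro h hh
        rw [Set.mem_singleton_iff] at hh
        rw [hh]; exact (hcPQ x hxP y' hy'Q).eq.symm
    · intro h
      rw [Subgroup.mem_centralizer_iff] at h
      exact hnc' (h y' (Set.mem_singleton y')).symm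
  have h34 : α₄ ∉ Subgroup.closure (insert α₃ (insert α₂ (insert α₁ ∅)) :
      Set (↥K ⧸ N₀.subgroupOf K)) := by
    rw [hα₄]
    refine not_mem_closure_mk K N₀ (Subgroup.centralizer ({x'} : Set S)) ?_ _ ?_ ⟨y', hy'K⟩ ?_
    · intro n hn
      rw [Subgroup.mem_centralizer_iff]
      intro h hh
      rw [Set.mem_singleton_iff] at hh
      rw [hh]; exact (hN₀K n hn x' hx'K).eq.symm
    · intro t ht
      simp only [Set.mem_insert_iff, Set.mem_empty_iff_false, or_false] at ht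
      rcases ht with ht | ht | ht
      · refine ⟨⟨x', hx'K⟩, ?_, by rw [ht, hα₃]⟩
        rw [Subgroup.mem_centralizer_iff]
        intro h hh
        rw [Set.mem_singleton_iff] at hh
        rw [hh]
      · refine ⟨⟨y, hyK⟩, ?_, by rw [ht, hα₂]⟩
        rw [Subgroup.mem_centralizer_iff]
        intro h hh
        rw [Set.mem_singleton_iff] at hh
        rw [hh]; exact (hcPQ y hyP x' hx'Q).eq.symm
      · refine ⟨⟨x, hxK⟩, ?_, by rw [ht, hα₁]⟩
        rw [Subgroup.mem_centralizer_iff]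
        intro h hh
        rw [Set.mem_singleton_iff] at hh
        rw [hh]; exact (hcPQ x hxP x' hx'Q).eq.symm
    · intro h
      rw [Subgroup.mem_centralizer_iff] at h
      exact hnc' (h x' (Set.mem_singleton x'))
  have h45 : α₅ ∉ Subgroup.closure (insert α₄ (insert α₃ (insert α₂ (insert α₁ ∅))) :
      Set (↥K ⧸ N₀.subgroupOf K)) := by
    rw [hα₅]
    refine not_mem_closure_mk K N₀ (P ⊔ Q) ?_ _ ?_ ⟨c₀, hc₀K⟩ hj1
    · rw [hN₀, Subgroup.closure_le]
      intro n hn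
      simp only [Set.mem_insert_iff, Set.mem_singleton_iff] at hn
      rcases hn with h | h | h | h <;> rw [h]
      · exact Subgroup.mem_sup_left (P.pow_mem hyP 2)
      · exact Subgroup.mem_sup_right (Q.pow_mem hy'Q 2)
      · exact Subgroup.mem_sup_left hzPP
      · exact Subgroup.mem_sup_right hzQQ
    · intro t ht
      simp only [Set.mem_insert_iff, Set.mem_empty_iff_false, or_false] at ht
      rcases ht with ht | ht | ht | ht
      · exact ⟨⟨y', hy'K⟩, Subgroup.mem_sup_right hy'Q, by rw [ht, hα₄]⟩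
      · exact ⟨⟨x', hx'K⟩, Subgroup.mem_sup_right hx'Q, by rw [ht, hα₃]⟩
      · exact ⟨⟨y, hyK⟩, Subgroup.mem_sup_left hyP, by rw [ht, hα₂]⟩
      · exact ⟨⟨x, hxK⟩, Subgroup.mem_sup_left hxP, by rw [ht, hα₁]⟩
  have c0 : Nat.card (Subgroup.closure (∅ : Set (↥K ⧸ N₀.subgroupOf K))) = 1 := by
    rw [Subgroup.closure_empty]; exact Subgroup.card_bot
  have s1 := card_step _ _ h01
  have s2 := card_step _ _ h12
  have s3 := card_step _ _ h23
  have s4 := card_step _ _ h34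
  have s5 := card_step _ _ h45
  have hfin := hr K (N₀.subgroupOf K) _ hea.1 hea.2
  have h16 : (2 : ℕ) ^ 4 = 16 := by norm_num
  rw [h16] at hfin
  omega

end Cfsg.Agent.S4400
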