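import Cfsg.Statements.S4405
import Cfsg.Agent.Lib.helper14.Ord320
import Cfsg.Agent.Lib.helper23.BurnsidePQ
import Cfsg.Agent.Lib.helper1.Solv
import Cfsg.Agent.Lib.helper1.PGroup
import Cfsg.Agent.Lib.helper1.Fitting
import Cfsg.Agent.Lib.helper3.Thompson

set_option autoImplicit false
open Cfsg
open Cfsg.Agent.Lib.helper14

namespace Cfsg.Agent.S4405

open scoped commutatorElement


/-- Let G be a finite group of order 320 = 64·5 whose largest normal 2-subgroup H = O₂(G) equals the Fitting subgroup F(G) and is extraspecial of order 32 containing no elementary abelian subgroup of order 8 (so H is the central product of a quaternion group and a dihedral group of order 8). If T is an involution of G outside H whose centralizer in H contains an elementary abelian subgroup of order 4, then C_H(T) itself is elementary abelian of order 4. -/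
theorem result {G : Type*} [Group G] [Finite G]
    (hG : Nat.card G = 320) (hHF : Cfsg.pCore 2 G = Cfsg.fittingSubgroup G)
    (hex : Cfsg.IsExtraspecial 2 ↥(Cfsg.pCore 2 G)) (h32 : Nat.card ↥(Cfsg.pCore 2 G) = 32)
    (hminus : ∀ A : Subgroup G, A ≤ Cfsg.pCore 2 G → Cfsg.IsElementaryAbelian 2 A → Nat.card ↥A ≤ 4)
    (T : G) (hT : orderOf T = 2) (hTH : T ∉ Cfsg.pCore 2 G)
    (V : Subgroup G) (hV : V ≤ Cfsg.pCore 2 G ⊓ Subgroup.centralizer ({T} : Set G)) (hV4 : Nat.card ↥V = 4) (hVe : Cfsg.IsElementaryAbelian 2 V) :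
    Nat.card ↥(Cfsg.pCore 2 G ⊓ Subgroup.centralizer ({T} : Set G)) = 4 ∧
      Cfsg.IsElementaryAbelian 2 (Cfsg.pCore 2 G ⊓ Subgroup.centralizer ({T} : Set G)) := by
  haveI : Fact (Nat.Prime 2) := ⟨Nat.prime_two⟩
  haveI hHn : (Cfsg.pCore 2 G).Normal := Cfsg.Agent.Lib.helper1.pCore_normal 2 G
  haveI : Group.IsSolvable G := Cfsg.Agent.Lib.helper23.burnside_paqb 2 5 6 1 Nat.prime_two
    (by norm_num) (by rw [hG]; norm_num)
  have hCH : Subgroup.centralizer ((Cfsg.pCore 2 G : Subgroup G) : Set G) ≤ Cfsg.pCore 2 G := by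
    have := Cfsg.Agent.Lib.helper1.centralizer_fitting_le G
    rw [← hHF] at this
    exact this
  obtain ⟨⟨hPG, hfrat, hcomm⟩, hZ2⟩ := hex
  obtain ⟨Z, hZdef⟩ : ∃ Z : Subgroup G,
    Z = (Subgroup.center ↥(Cfsg.pCore 2 G)).map (Cfsg.pCore 2 G).subtype := ⟨_, rfl⟩
  have hZn : Z.Normal := by
    rw [hZdef]; exact ConjAct.normal_of_characteristic_of_normal
  have hZcard : Nat.card ↥Z = 2 := by
    rw [hZdef, Subgroup.card_map_of_injective (Subgroup.subtype_injective _)]; exact hZ2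
  have hZH : Z ≤ Cfsg.pCore 2 G := by rw [hZdef]; exact Subgroup.map_subtype_le _
  have hZc : ∀ z ∈ Z, ∀ g : G, g * z = z * g := by
    intro z hz g
    by_cases hz1 : z = 1
    · rw [hz1]; simp
    · have h1 : g * z * g⁻¹ ∈ Z := hZn.conj_mem z hz g
      have h2 : g * z * g⁻¹ = z := by
        have h3 : g * z * g⁻¹ ≠ 1 := by
          intro h; apply hz1
          have : z = g⁻¹ * (g * z * g⁻¹) * g := by group
          rw [this, h]; group
        obtain ⟨w, -, hw⟩ := (Nat.card_eq_two_iff' (1 : ↥Z)).mp hZcard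
        have e1 := hw ⟨z, hz⟩ (fun h => hz1 (congrArg Subtype.val h))
        have e2 := hw ⟨g * z * g⁻¹, h1⟩ (fun h => h3 (congrArg Subtype.val h))
        exact congrArg Subtype.val (e2.trans e1.symm)
      calc g * z = (g * z * g⁻¹) * g := by group
        _ = z * g := by rw [h2]
  have hcomm' : ∀ x ∈ Cfsg.pCore 2 G, ∀ y ∈ Cfsg.pCore 2 G, x * y * x⁻¹ * y⁻¹ ∈ Z := by
    intro x hx y hy
    have h1 : ⁅(⟨x, hx⟩ : ↥(Cfsg.pCore 2 G)), ⟨y, hy⟩⁆ ∈ commutator ↥(Cfsg.pCore 2 G) := by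
      rw [commutator_def]
      exact Subgroup.commutator_mem_commutator (Subgroup.mem_top _) (Subgroup.mem_top _)
    rw [hcomm] at h1
    rw [hZdef]
    exact Subgroup.mem_map.mpr ⟨_, h1, rfl⟩
  have hsq' : ∀ x ∈ Cfsg.pCore 2 G, x * x ∈ Z := by
    intro x hx
    have h1 := Cfsg.Agent.Lib.helper1.pow_mem_frattini 2 hPG (⟨x, hx⟩ : ↥(Cfsg.pCore 2 G))
    rw [hfrat] at h1
    rw [hZdef]
    refine Subgroup.mem_map.mpr ⟨_, h1, ?_⟩
    rw [Subgroup.subtype_apply, Subgroup.coe_pow, pow_two]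
  have hminus' : ∀ A : Subgroup G, A ≤ Cfsg.pCore 2 G → (∀ a ∈ A, a * a = 1) →
      Nat.card A ≤ 4 := by
    intro A hA hexp
    apply hminus A hA
    rw [Cfsg.Agent.Lib.helper3.isEA_iff]
    refine ⟨?_, fun a ha => by rw [pow_two]; exact hexp a ha⟩
    intro a ha b hb
    have h2 := hexp a ha
    have h3 := hexp b hb
    calc a * b = (b * b) * (a * b) * (a * a) := by rw [h2, h3]; group
      _ = b * ((b * a) * (b * a)) * a := by group
      _ = b * a := by rw [hexp (b * a) (A.mul_mem hb ha)]; group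
  have hTT : T * T = 1 := by rw [← pow_two, ← hT]; exact pow_orderOf_eq_one T
  have hle := order320_internal (Cfsg.pCore 2 G) Z hG h32 hZcard hZH hZc hcomm' hsq' hCH
    (fun N hN hp => Cfsg.Agent.Lib.helper1.le_pCore hN hp) hminus' T hTT hTH
  have hVC : V = Cfsg.pCore 2 G ⊓ Subgroup.centralizer ({T} : Set G) :=
    Subgroup.eq_of_le_of_card_ge hV (by rw [hV4]; exact hle)
  rw [← hVC]
  exact ⟨hV4, hVe⟩

end Cfsg.Agent.S4405
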