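import Mathlib
import Cfsg.Statements.S4406

set_option autoImplicit false
open Cfsg

namespace Cfsg.Agent.S4406

/-- the alternating group of degree four -/
abbrev A4 : Type := ↥(alternatingGroup (Fin 4))

theorem D1 : ∀ a : A4, a ^ 4 = 1 → a ^ 2 = 1 := by decide

set_option synthInstance.maxSize 4096 in
set_option maxRecDepth 100000 in
theorem D3 : ∀ a : A4, a ≠ 1 → a ^ 3 = 1 → ∀ c : A4, c * a = a * c → c = 1 ∨ c = a ∨ c = a⁻¹ := by
  decide +kernel

/-- conjugation by `(a, b)` maps `(w1, w2)` into `{(u1, u2), (v1, v2), (u1 v1, u2 v2)}` -/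
def Nrm (a b u1 u2 v1 v2 w1 w2 : A4) : Prop :=
  (a * w1 * a⁻¹ = u1 ∧ b * w2 * b⁻¹ = u2) ∨ (a * w1 * a⁻¹ = v1 ∧ b * w2 * b⁻¹ = v2) ∨
    (a * w1 * a⁻¹ = u1 * v1 ∧ b * w2 * b⁻¹ = u2 * v2)

instance (a b u1 u2 v1 v2 w1 w2 : A4) : Decidable (Nrm a b u1 u2 v1 v2 w1 w2) := by
  unfold Nrm; infer_instance

set_option synthInstance.maxSize 100000 in
set_option synthInstance.maxHeartbeats 4000000 in
set_option maxRecDepth 100000 in
theorem D4 : ∀ a : A4, a ≠ 1 → a ^ 3 = 1 → ∀ b : A4, b ≠ 1 → b ^ 3 = 1 →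
    ∀ u1 : A4, u1 ≠ 1 → u1 ^ 2 = 1 → ∀ v1 : A4, v1 ≠ 1 → v1 ^ 2 = 1 → v1 ≠ u1 →
    ∀ u2 : A4, u2 ≠ 1 → u2 ^ 2 = 1 → ∀ v2 : A4, v2 ≠ 1 → v2 ^ 2 = 1 → v2 ≠ u2 →
    (Nrm a b u1 u2 v1 v2 u1 u2 ∧ Nrm a b u1 u2 v1 v2 v1 v2) ∨
      (Nrm a b⁻¹ u1 u2 v1 v2 u1 u2 ∧ Nrm a b⁻¹ u1 u2 v1 v2 v1 v2) := by
  decide +kernel

theorem card_A4 : Nat.card A4 = 12 := by
  rw [nat_card_alternatingGroup, Nat.card_eq_fintype_card, Fintype.card_fin]
  decide

theorem two_elt (a : A4) (k : ℕ) (h : a ^ 2 ^ k = 1) : a ^ 2 = 1 := by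
  have h1 : orderOf a ∣ 2 ^ k := orderOf_dvd_of_pow_eq_one h
  have h2 : orderOf a ∣ 4 * 3 := by
    have := orderOf_dvd_natCard a
    rwa [card_A4] at this
  have hc : Nat.Coprime (orderOf a) 3 :=
    Nat.Coprime.coprime_dvd_left h1 (Nat.Coprime.pow_left k (by decide))
  have h3 : orderOf a ∣ 4 := hc.dvd_of_dvd_mul_right h2
  exact D1 a (orderOf_dvd_iff_pow_eq_one.mp h3)

theorem three_elt (a : A4) (k : ℕ) (h : a ^ 3 ^ k = 1) : a ^ 3 = 1 := by
  have h1 : orderOf a ∣ 3 ^ k := orderOf_dvd_of_pow_eq_one h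
  have h2 : orderOf a ∣ 3 * 4 := by
    have := orderOf_dvd_natCard a
    rwa [card_A4] at this
  have hc : Nat.Coprime (orderOf a) 4 :=
    Nat.Coprime.coprime_dvd_left h1 (Nat.Coprime.pow_left k (by decide))
  have h3 : orderOf a ∣ 3 := hc.dvd_of_dvd_mul_right h2
  exact orderOf_dvd_iff_pow_eq_one.mp h3

instance : Fact (Nat.Prime 3) := ⟨Nat.prime_three⟩

theorem fact3 : (Nat.card (A4 × A4)).factorization 3 = 2 := by
  rw [Nat.card_prod, card_A4, show (12 * 12 : ℕ) = 3 ^ 2 * 16 by norm_num,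
    Nat.factorization_mul (by norm_num) (by norm_num), Nat.factorization_pow]
  simp [Nat.Prime.factorization_self Nat.prime_three,
    Nat.factorization_eq_zero_of_not_dvd (show ¬ 3 ∣ 16 by norm_num)]

theorem conj_back {G : Type*} [Group G] (B : Subgroup G) (z : G) (hz : z ^ 3 = 1)
    (h : ∀ w ∈ B, z * w * z⁻¹ ∈ B) : z ∈ Subgroup.normalizer (B : Set G) := by
  rw [Subgroup.mem_normalizer_iff]
  intro w
  refine ⟨h w, fun hw => ?_⟩
  have h2 := h _ (h _ hw)
  have hzz : z * z * z = 1 := by rw [← hz, pow_succ, pow_succ, pow_one]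
  have e : z * (z * (z * w * z⁻¹) * z⁻¹) * z⁻¹ = (z * z * z) * w * (z * z * z)⁻¹ := by group
  rw [e, hzz] at h2
  simpa using h2

/-- In the direct product P = A₄ × A₄, let X be the Sylow 2-subgroup, X₁ and X₂ its intersections with the two direct factors, Q a Sylow 3-subgroup and Q₁, Q₂ its intersections with the two factors. Then every subgroup B of X of order 4 either meets X₁ or X₂ nontrivially, or is normalized by one of the two subgroups of Q of order 3 other than Q₁ and Q₂. -/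
theorem result
    (X : Sylow 2 (↥(alternatingGroup (Fin 4)) × ↥(alternatingGroup (Fin 4))))
    (Q : Sylow 3 (↥(alternatingGroup (Fin 4)) × ↥(alternatingGroup (Fin 4))))
    (B : Subgroup (↥(alternatingGroup (Fin 4)) × ↥(alternatingGroup (Fin 4)))) (hBX : B ≤ (X : Subgroup _)) (hB4 : Nat.card ↥B = 4) :
    B ⊓ ((X : Subgroup _) ⊓ Subgroup.prod ⊤ ⊥) ≠ ⊥ ∨ B ⊓ ((X : Subgroup _) ⊓ Subgroup.prod ⊥ ⊤) ≠ ⊥ ∨
      ∃ R : Subgroup (↥(alternatingGroup (Fin 4)) × ↥(alternatingGroup (Fin 4))), R ≤ (Q : Subgroup _) ∧ Nat.card ↥R = 3 ∧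
        R ≠ (Q : Subgroup _) ⊓ Subgroup.prod ⊤ ⊥ ∧ R ≠ (Q : Subgroup _) ⊓ Subgroup.prod ⊥ ⊤ ∧ R ≤ Subgroup.normalizer (B : Set _) := by
  by_cases h1 : B ⊓ ((X : Subgroup _) ⊓ Subgroup.prod ⊤ ⊥) ≠ ⊥
  · exact Or.inl h1
  by_cases h2 : B ⊓ ((X : Subgroup _) ⊓ Subgroup.prod ⊥ ⊤) ≠ ⊥
  · exact Or.inr (Or.inl h2)
  refine Or.inr (Or.inr ?_)
  rw [not_not] at h1 h2
  -- elements of `B` are involutions in both coordinates
  have hsq : ∀ w ∈ B, w.1 ^ 2 = 1 ∧ w.2 ^ 2 = 1 := by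
    intro w hw
    obtain ⟨k, hk⟩ := X.2 ⟨w, hBX hw⟩
    have hk' : w ^ 2 ^ k = 1 := congrArg Subtype.val hk
    exact ⟨two_elt w.1 k (congrArg Prod.fst hk'), two_elt w.2 k (congrArg Prod.snd hk')⟩
  -- non-identity elements of `B` have both coordinates non-trivial
  have hB1 : ∀ w ∈ B, w.2 = 1 → w = 1 := by
    intro w hw hw2
    have : w ∈ B ⊓ ((X : Subgroup _) ⊓ Subgroup.prod ⊤ ⊥) :=
      Subgroup.mem_inf.mpr ⟨hw, Subgroup.mem_inf.mpr ⟨hBX hw, Subgroup.mem_prod.mpr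
        ⟨Subgroup.mem_top _, Subgroup.mem_bot.mpr hw2⟩⟩⟩
    rw [h1, Subgroup.mem_bot] at this
    exact this
  have hB2 : ∀ w ∈ B, w.1 = 1 → w = 1 := by
    intro w hw hw1
    have : w ∈ B ⊓ ((X : Subgroup _) ⊓ Subgroup.prod ⊥ ⊤) :=
      Subgroup.mem_inf.mpr ⟨hw, Subgroup.mem_inf.mpr ⟨hBX hw, Subgroup.mem_prod.mpr
        ⟨Subgroup.mem_bot.mpr hw1, Subgroup.mem_top _⟩⟩⟩
    rw [h2, Subgroup.mem_bot] at this
    exact this
  -- two generators of `B`
  have hBfin : Finite B := Nat.finite_of_card_ne_zero (by rw [hB4]; norm_num)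
  obtain ⟨u, huB, hu1⟩ : ∃ u ∈ B, u ≠ 1 := by
    by_contra hcon
    push Not at hcon
    have : B = ⊥ := (Subgroup.eq_bot_iff_forall B).mpr hcon
    rw [this] at hB4
    simp at hB4
  have hu2 : u * u = 1 := by
    have := hsq u huB
    apply Prod.ext
    · rw [← pow_two]; exact this.1
    · rw [← pow_two]; exact this.2
  obtain ⟨v, hvB, hvu⟩ : ∃ v ∈ B, v ∉ Subgroup.zpowers u := by
    by_contra hcon
    push Not at hcon
    have hle : B ≤ Subgroup.zpowers u := hcon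
    have h3 := Subgroup.card_le_of_le hle
    rw [hB4, Nat.card_zpowers] at h3
    have h4 : orderOf u ≤ 2 := by
      apply orderOf_le_of_pow_eq_one (by norm_num)
      rw [pow_two]; exact hu2
    omega
  have hv1 : v ≠ 1 := fun h => hvu (h ▸ Subgroup.one_mem _)
  have hvu' : v ≠ u := fun h => hvu (h ▸ Subgroup.mem_zpowers u)
  -- the four elements of `B`
  have hBelts : ∀ w ∈ B, w = 1 ∨ w = u ∨ w = v ∨ w = u * v := by
    classical
    let S : Finset (A4 × A4) := {1, u, v, u * v}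
    have hScard : S.card = 4 := by
      have e1 : u * v ≠ v := fun h => hu1 (by simpa using h)
      have e2 : u * v ≠ u := fun h => hv1 (by simpa using h)
      have e3 : u * v ≠ 1 := fun h => hvu' (by
        have : u * v = u * u := by rw [h, hu2]
        exact mul_left_cancel this)
      rw [Finset.card_insert_of_notMem, Finset.card_insert_of_notMem,
        Finset.card_insert_of_notMem, Finset.card_singleton]
      · simpa using Ne.symm e1
      · simp only [Finset.mem_insert, Finset.mem_singleton, not_or]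
        exact ⟨Ne.symm hvu', Ne.symm e2⟩
      · simp only [Finset.mem_insert, Finset.mem_singleton, not_or]
        exact ⟨Ne.symm hu1, Ne.symm hv1, Ne.symm e3⟩
    have hsub : (S : Set (A4 × A4)) ⊆ (B : Set (A4 × A4)) := by
      intro w hw
      simp only [S, Finset.coe_insert, Finset.coe_singleton, Set.mem_insert_iff,
        Set.mem_singleton_iff] at hw
      rcases hw with rfl | rfl | rfl | rfl
      · exact B.one_mem
      · exact huB
      · exact hvB
      · exact B.mul_mem huB hvB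
    have heq : (S : Set (A4 × A4)) = (B : Set (A4 × A4)) := by
      apply Set.eq_of_subset_of_ncard_le hsub _ (Set.toFinite _)
      have hBn : (B : Set (A4 × A4)).ncard = 4 := by
        rw [← Nat.card_coe_set_eq]
        exact hB4
      rw [Set.ncard_coe_finset, hScard, hBn]
    intro w hw
    have hw' : w ∈ (S : Set (A4 × A4)) := by rw [heq]; exact hw
    simpa [S] using hw'
  -- an element of `Q` with both coordinates non-trivial
  have hQcard : Nat.card (Q : Subgroup (A4 × A4)) = 9 := by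
    have := Q.card_eq_multiplicity
    rw [fact3] at this
    exact this
  have hQ3 : ∀ t ∈ (Q : Subgroup (A4 × A4)), t.1 ^ 3 = 1 ∧ t.2 ^ 3 = 1 := by
    intro t ht
    obtain ⟨k, hk⟩ := Q.2 ⟨t, ht⟩
    have hk' : t ^ 3 ^ k = 1 := congrArg Subtype.val hk
    exact ⟨three_elt t.1 k (congrArg Prod.fst hk'), three_elt t.2 k (congrArg Prod.snd hk')⟩
  have hx : ∃ x ∈ (Q : Subgroup (A4 × A4)), x.1 ≠ 1 := by
    by_contra hcon
    push Not at hcon
    have hinj : Function.Injective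
        ((MonoidHom.snd A4 A4).comp (Q : Subgroup (A4 × A4)).subtype) := by
      intro s t hst
      apply Subtype.ext
      apply Prod.ext
      · rw [hcon s.1 s.2, hcon t.1 t.2]
      · exact hst
    have := Subgroup.card_dvd_of_injective _ hinj
    rw [hQcard, card_A4] at this
    omega
  have hy : ∃ y ∈ (Q : Subgroup (A4 × A4)), y.2 ≠ 1 := by
    by_contra hcon
    push Not at hcon
    have hinj : Function.Injective
        ((MonoidHom.fst A4 A4).comp (Q : Subgroup (A4 × A4)).subtype) := by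
      intro s t hst
      apply Subtype.ext
      apply Prod.ext
      · exact hst
      · rw [hcon s.1 s.2, hcon t.1 t.2]
    have := Subgroup.card_dvd_of_injective _ hinj
    rw [hQcard, card_A4] at this
    omega
  obtain ⟨z, hzQ, hz1, hz2⟩ : ∃ z ∈ (Q : Subgroup (A4 × A4)), z.1 ≠ 1 ∧ z.2 ≠ 1 := by
    obtain ⟨x, hxQ, hx1⟩ := hx
    obtain ⟨y, hyQ, hy2⟩ := hy
    by_cases hx2 : x.2 = 1
    · by_cases hy1 : y.1 = 1
      · refine ⟨x * y, Subgroup.mul_mem _ hxQ hyQ, ?_, ?_⟩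
        · show x.1 * y.1 ≠ 1
          rw [hy1, mul_one]; exact hx1
        · show x.2 * y.2 ≠ 1
          rw [hx2, one_mul]; exact hy2
      · exact ⟨y, hyQ, hy1, hy2⟩
    · exact ⟨x, hxQ, hx1, hx2⟩
  obtain ⟨a, b⟩ := z
  have ha1 : a ≠ 1 := hz1
  have hb1 : b ≠ 1 := hz2
  have ha3 : a ^ 3 = 1 := (hQ3 _ hzQ).1
  have hb3 : b ^ 3 = 1 := (hQ3 _ hzQ).2
  -- `(a, b⁻¹)` also lies in `Q`
  have hz'Q : ((a, b⁻¹) : A4 × A4) ∈ (Q : Subgroup (A4 × A4)) := by
    have hcomm := IsPGroup.commutative_of_card_eq_prime_sq (p := 3) (G := (Q : Subgroup (A4 × A4)))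
      (by rw [hQcard]; norm_num)
    have hle : (Q : Subgroup (A4 × A4)) ≤ Subgroup.prod (Subgroup.zpowers a) (Subgroup.zpowers b) := by
      intro t ht
      have hc := congrArg Subtype.val (hcomm ⟨t, ht⟩ ⟨(a, b), hzQ⟩)
      have hc1 : t.1 * a = a * t.1 := congrArg Prod.fst hc
      have hc2 : t.2 * b = b * t.2 := congrArg Prod.snd hc
      rw [Subgroup.mem_prod]
      constructor
      · rcases D3 a ha1 ha3 t.1 hc1 with h | h | h
        · rw [h]; exact Subgroup.one_mem _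
        · rw [h]; exact Subgroup.mem_zpowers a
        · rw [h]; exact Subgroup.inv_mem _ (Subgroup.mem_zpowers a)
      · rcases D3 b hb1 hb3 t.2 hc2 with h | h | h
        · rw [h]; exact Subgroup.one_mem _
        · rw [h]; exact Subgroup.mem_zpowers b
        · rw [h]; exact Subgroup.inv_mem _ (Subgroup.mem_zpowers b)
    have hcardT : Nat.card (Subgroup.prod (Subgroup.zpowers a) (Subgroup.zpowers b)) = 9 := by
      rw [Nat.card_congr (Subgroup.prodEquiv _ _).toEquiv, Nat.card_prod, Nat.card_zpowers,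
        Nat.card_zpowers, orderOf_eq_prime ha3 ha1, orderOf_eq_prime hb3 hb1]
    have heq : (Q : Subgroup (A4 × A4)) = Subgroup.prod (Subgroup.zpowers a) (Subgroup.zpowers b) := by
      have : Finite (Subgroup.prod (Subgroup.zpowers a) (Subgroup.zpowers b)) :=
        Nat.finite_of_card_ne_zero (by rw [hcardT]; norm_num)
      exact Subgroup.eq_of_le_of_card_ge hle (by rw [hcardT, hQcard])
    rw [heq, Subgroup.mem_prod]
    exact ⟨Subgroup.mem_zpowers a, Subgroup.inv_mem _ (Subgroup.mem_zpowers b)⟩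
  have hb1' : b⁻¹ ≠ 1 := fun h => hb1 (inv_eq_one.mp h)
  have hb3' : b⁻¹ ^ 3 = 1 := by rw [inv_pow, hb3, inv_one]
  -- the subgroup generated by a suitable element
  have final : ∀ b' : A4, b' ≠ 1 → b' ^ 3 = 1 → ((a, b') : A4 × A4) ∈ (Q : Subgroup (A4 × A4)) →
      (Nrm a b' u.1 u.2 v.1 v.2 u.1 u.2 ∧ Nrm a b' u.1 u.2 v.1 v.2 v.1 v.2) →
      ∃ R : Subgroup (A4 × A4), R ≤ (Q : Subgroup _) ∧ Nat.card ↥R = 3 ∧
        R ≠ (Q : Subgroup _) ⊓ Subgroup.prod ⊤ ⊥ ∧ R ≠ (Q : Subgroup _) ⊓ Subgroup.prod ⊥ ⊤ ∧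
        R ≤ Subgroup.normalizer (B : Set _) := by
    intro b' hb'1 hb'3 hmem hN
    have hz3 : ((a, b') : A4 × A4) ^ 3 = 1 := Prod.ext ha3 hb'3
    have hzne : ((a, b') : A4 × A4) ≠ 1 := fun h => ha1 (congrArg Prod.fst h)
    refine ⟨Subgroup.zpowers (a, b'), (Subgroup.zpowers_le).mpr hmem, ?_, ?_, ?_, ?_⟩
    · rw [Nat.card_zpowers]
      exact orderOf_eq_prime hz3 hzne
    · intro h
      have hm : ((a, b') : A4 × A4) ∈ (Q : Subgroup (A4 × A4)) ⊓ Subgroup.prod ⊤ ⊥ := by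
        rw [← h]; exact Subgroup.mem_zpowers _
      exact hb'1 (Subgroup.mem_bot.mp (Subgroup.mem_prod.mp (Subgroup.mem_inf.mp hm).2).2)
    · intro h
      have hm : ((a, b') : A4 × A4) ∈ (Q : Subgroup (A4 × A4)) ⊓ Subgroup.prod ⊥ ⊤ := by
        rw [← h]; exact Subgroup.mem_zpowers _
      exact ha1 (Subgroup.mem_bot.mp (Subgroup.mem_prod.mp (Subgroup.mem_inf.mp hm).2).1)
    · rw [Subgroup.zpowers_le]
      apply conj_back B _ hz3
      have hcu : (a, b') * u * (a, b')⁻¹ ∈ B := by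
        rcases hN.1 with ⟨e1, e2⟩ | ⟨e1, e2⟩ | ⟨e1, e2⟩
        · have : (a, b') * u * (a, b')⁻¹ = u := Prod.ext e1 e2
          rw [this]; exact huB
        · have : (a, b') * u * (a, b')⁻¹ = v := Prod.ext e1 e2
          rw [this]; exact hvB
        · have : (a, b') * u * (a, b')⁻¹ = u * v := Prod.ext e1 e2
          rw [this]; exact B.mul_mem huB hvB
      have hcv : (a, b') * v * (a, b')⁻¹ ∈ B := by
        rcases hN.2 with ⟨e1, e2⟩ | ⟨e1, e2⟩ | ⟨e1, e2⟩
        · have : (a, b') * v * (a, b')⁻¹ = u := Prod.ext e1 e2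
          rw [this]; exact huB
        · have : (a, b') * v * (a, b')⁻¹ = v := Prod.ext e1 e2
          rw [this]; exact hvB
        · have : (a, b') * v * (a, b')⁻¹ = u * v := Prod.ext e1 e2
          rw [this]; exact B.mul_mem huB hvB
      intro w hw
      rcases hBelts w hw with rfl | rfl | rfl | rfl
      · have e1 : (a, b') * (1 : A4 × A4) * (a, b')⁻¹ = 1 := by group
        rw [e1]; exact B.one_mem
      · exact hcu
      · exact hcv
      · have : (a, b') * (u * v) * (a, b')⁻¹ =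
            ((a, b') * u * (a, b')⁻¹) * ((a, b') * v * (a, b')⁻¹) := by group
        rw [this]; exact B.mul_mem hcu hcv
  -- apply the computation
  have hu1' : u.1 ≠ 1 := fun h => hu1 (hB2 u huB h)
  have hu2' : u.2 ≠ 1 := fun h => hu1 (hB1 u huB h)
  have hv1' : v.1 ≠ 1 := fun h => hv1 (hB2 v hvB h)
  have hv2' : v.2 ≠ 1 := fun h => hv1 (hB1 v hvB h)
  have huv : ∀ w : A4 × A4, w = u⁻¹ * v → w ∈ B := fun w hw => hw ▸ B.mul_mem (B.inv_mem huB) hvB
  have hne1 : v.1 ≠ u.1 := by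
    intro h
    have hw : (u⁻¹ * v).1 = 1 := by
      show u.1⁻¹ * v.1 = 1
      rw [h, inv_mul_cancel]
    have := hB2 _ (huv _ rfl) hw
    exact hvu' (by
      have h5 : u * (u⁻¹ * v) = u * 1 := by rw [this]
      simpa using h5)
  have hne2 : v.2 ≠ u.2 := by
    intro h
    have hw : (u⁻¹ * v).2 = 1 := by
      show u.2⁻¹ * v.2 = 1
      rw [h, inv_mul_cancel]
    have := hB1 _ (huv _ rfl) hw
    exact hvu' (by
      have h5 : u * (u⁻¹ * v) = u * 1 := by rw [this]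
      simpa using h5)
  rcases D4 a ha1 ha3 b hb1 hb3 u.1 hu1' (hsq u huB).1 v.1 hv1' (hsq v hvB).1 hne1
      u.2 hu2' (hsq u huB).2 v.2 hv2' (hsq v hvB).2 hne2 with hN | hN
  · exact final b hb1 hb3 hzQ hN
  · exact final b⁻¹ hb1' hb3' hz'Q hN

end Cfsg.Agent.S4406
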