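import Cfsg.Statements.S4408
import Cfsg.Agent.Lib.helper14.EigenInv

set_option autoImplicit false
open Cfsg
open Cfsg.Agent.Lib.helper14

namespace Cfsg.Agent.S4408

/-- Let S be a finite solvable group whose Fitting subgroup F(S) has odd order, and let I be an elementary abelian 2-subgroup of S of order 2ⁿ with n ≥ 1. Then F(S) contains subgroups A₁, …, Aₙ of prime order, each normalized by I, pairwise commuting and generating a subgroup A of order |A₁|⋯|Aₙ| (their internal direct product), such that no non-identity element of I centralizes A. -/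
theorem result {S : Type*} [Group S] [Finite S]
    [Group.IsSolvable S] (hF : Odd (Nat.card ↥(Cfsg.fittingSubgroup S)))
    (I : Subgroup S) (hI : Cfsg.IsElementaryAbelian 2 I) (n : ℕ) (hn : 1 ≤ n) (hIn : Nat.card ↥I = 2 ^ n) :
    ∃ f : Fin n → Subgroup S, (∀ i, (Nat.card ↥(f i)).Prime) ∧ (∀ i, f i ≤ Cfsg.fittingSubgroup S) ∧
      (∀ i, I ≤ Subgroup.normalizer ((f i) : Set S)) ∧ (∀ i j, i ≠ j → ∀ a ∈ f i, ∀ b ∈ f j, a * b = b * a) ∧
      Nat.card ↥(⨆ i, f i) = ∏ i, Nat.card ↥(f i) ∧ I ⊓ Subgroup.centralizer ((⨆ i, f i : Subgroup S) : Set S) = ⊥ := by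
  obtain ⟨hIc, hI2'⟩ := (Cfsg.Agent.Lib.helper3.isEA_iff 2 I).mp hI
  have hI2 : ∀ s ∈ I, s * s = 1 := fun s hs => by rw [← pow_two]; exact hI2' s hs
  obtain ⟨A, hAF, hAc, hIA, hfaith⟩ := exists_faithful_abelian hF I hI2 hIc
  have hoddA : Odd (Nat.card A) := hF.of_dvd_nat (Subgroup.card_dvd_of_le hAF)
  obtain ⟨f, hfp, hfA, hfI, hfcard, hfJ⟩ :=
    eigen_chain I A hI2 hIc hAc hIA hfaith hoddA n hIn n le_rfl
  refine ⟨f, hfp, fun i => (hfA i).trans hAF, hfI, ?_, hfcard, ?_⟩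
  · intro i j _ a ha b hb
    exact hAc a (hfA i ha) b (hfA j hb)
  · have h1 : Nat.card ↥(I ⊓ Subgroup.centralizer ((⨆ i, f i : Subgroup S) : Set S)) = 1 := by
      have h2 : 0 < 2 ^ n := by positivity
      have h3 : Nat.card ↥(I ⊓ Subgroup.centralizer ((⨆ i, f i : Subgroup S) : Set S)) * 2 ^ n
          = 1 * 2 ^ n := by rw [one_mul]; exact hfJ
      exact Nat.eq_of_mul_eq_mul_right h2 h3
    exact Subgroup.card_eq_one.mp h1

end Cfsg.Agent.S4408
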