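import Cfsg.Statements.S4410
import Cfsg.Agent.Lib.helper14.LinSD
import Cfsg.Agent.Lib.helper14.FFCoprime
import Cfsg.Agent.Lib.helper1.Solv
import Cfsg.Agent.Lib.helper1.Fitting

set_option autoImplicit false
open Cfsg
open Cfsg.Agent.Lib.helper14

namespace Cfsg.Agent.S4410

/-- nilpotent normal subgroups are `p'`-groups when `O_p = 1`. -/
theorem card_coprime_of_nilpotent_normal_aux {X : Type*} [Group X] [Finite X] {p : ℕ} [Fact p.Prime]
    (hO : Cfsg.pCore p X = ⊥) (N : Subgroup X) [hN : N.Normal]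
    (hnil : Group.IsNilpotent ↥N) : (Nat.card ↥N).Coprime p := by
  have hp : p.Prime := Fact.out
  obtain ⟨S⟩ : Nonempty (Sylow p ↥N) := inferInstance
  have hSn : (S : Subgroup ↥N).Normal := inferInstance
  haveI hSc : (S : Subgroup ↥N).Characteristic := Sylow.characteristic_of_normal S hSn
  have hn : ((S : Subgroup ↥N).map N.subtype).Normal := ConjAct.normal_of_characteristic_of_normal
  have hp' : IsPGroup p ((S : Subgroup ↥N).map N.subtype) := S.isPGroup'.map _
  have hle := Cfsg.Agent.Lib.helper1.le_pCore hn hp'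
  rw [hO, le_bot_iff, Subgroup.map_eq_bot_iff_of_injective _ N.subtype_injective] at hle
  have hcard : ¬ p ∣ Nat.card ↥N := by
    intro hdvd
    have h3 := S.card_eq_multiplicity
    have h4 : Nat.card (S : Subgroup ↥N) = 1 := by rw [hle]; exact Subgroup.card_bot
    rw [h4] at h3
    have h5 : (Nat.card ↥N).factorization p = 0 := by
      by_contra hne
      have : 1 < p ^ (Nat.card ↥N).factorization p := Nat.one_lt_pow hne hp.one_lt
      omega
    have := (Nat.Prime.dvd_iff_one_le_factorization hp Nat.card_pos.ne').1 hdvd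
    omega
  exact ((Nat.Prime.coprime_iff_not_dvd hp).2 hcard).symm


/-- Let V be a finite-dimensional vector space over the field with two elements and S a solvable group of linear automorphisms of V with O₂(S) = 1. If P ∈ S has order 4 and (P − 1)³ = 0 on V, then the image of (P − 1)² has at least 4 elements; equivalently, in the decomposition of V into indecomposable modules for the cyclic group generated by P, at least two summands have dimension 3. -/
theorem result
    {V : Type*} [AddCommGroup V] [Module (ZMod 2) V] [Finite V]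
    (S : Subgroup (V ≃ₗ[ZMod 2] V)) (hS : Group.IsSolvable ↥S) (hO2 : Cfsg.pCore 2 ↥S = ⊥)
    (P : V ≃ₗ[ZMod 2] V) (hPS : P ∈ S) (hP4 : orderOf P = 4)
    (hcub : ((P : V →ₗ[ZMod 2] V) - LinearMap.id) ^ 3 = 0) :
    4 ≤ Nat.card ↥(LinearMap.range (((P : V →ₗ[ZMod 2] V) - LinearMap.id) ^ 2)) := by
  classical
  by_contra hlt
  push Not at hlt
  haveI : Fact (Nat.Prime 2) := ⟨Nat.prime_two⟩
  haveI hfinGL : Finite (V ≃ₗ[ZMod 2] V) :=
    Finite.of_injective (fun e : V ≃ₗ[ZMod 2] V => (e : V → V))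
      (fun a b h => LinearEquiv.ext (congrFun h))
  haveI : Group.IsSolvable ↥S := hS
  set ρ : ↥S →* (V ≃ₗ[ZMod 2] V) := S.subtype with hρ
  have hρinj : Function.Injective ρ := Subtype.val_injective
  set P' : ↥S := ⟨P, hPS⟩ with hP'
  have hP'4 : orderOf P' = 4 := by rw [hP', Subgroup.orderOf_mk]; exact hP4
  set t : ↥S := P' ^ 2 with ht
  have ht2 : orderOf t = 2 := by rw [ht, orderOf_pow, hP'4]; rfl
  have hlin : (((ρ t : V ≃ₗ[ZMod 2] V) : V →ₗ[ZMod 2] V) - LinearMap.id)
      = ((P : V →ₗ[ZMod 2] V) - LinearMap.id) ^ 2 := by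
    ext v
    have e1 : ρ t v = P (P v) := rfl
    rw [pow_two, LinearMap.sub_apply, LinearMap.id_apply, LinearEquiv.coe_coe, e1,
      Module.End.mul_apply, LinearMap.sub_apply, LinearMap.sub_apply, LinearMap.id_apply,
      LinearMap.id_apply, LinearEquiv.coe_coe, map_sub]
    have h1 := ZModModule.add_self (P v)
    have e2 : P (P v) - P v - (P v - v) = P (P v) - v - (P v + P v) + (v + v) := by abel
    rw [e2, h1, ZModModule.add_self v, sub_zero, add_zero]
  set R := LinearMap.range (((P : V →ₗ[ZMod 2] V) - LinearMap.id) ^ 2) with hR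
  have hRcard : Nat.card R = 2 := by
    have hne : ∃ w : R, w ≠ 0 := by
      by_contra hall
      push Not at hall
      have h0 : ((P : V →ₗ[ZMod 2] V) - LinearMap.id) ^ 2 = 0 := by
        ext v
        have := hall ⟨_, LinearMap.mem_range_self _ v⟩
        exact congrArg Subtype.val this
      rw [← hlin] at h0
      have h1 : ρ t = 1 := by
        ext v
        have := congrArg (fun f : V →ₗ[ZMod 2] V => f v) h0
        simp only [LinearMap.sub_apply, LinearMap.id_apply, LinearEquiv.coe_coe,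
          LinearMap.zero_apply] at this
        rw [sub_eq_zero] at this
        exact this
      have h2 : t = 1 := hρinj (by rw [h1, map_one])
      rw [h2, orderOf_one] at ht2
      omega
    obtain ⟨w, hw⟩ := hne
    have h2 : addOrderOf w = 2 := by
      apply addOrderOf_eq_prime
      · rw [two_nsmul]; exact ZModModule.add_self w
      · exact hw
    have h3 : 2 ∣ Nat.card R := by
      have h3' := addOrderOf_dvd_natCard w
      rw [h2] at h3'
      exact h3'
    have h4 : Nat.card R ≠ 0 := Nat.card_pos.ne'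
    omega
  set Q : Subgroup ↥S := Cfsg.fittingSubgroup ↥S with hQ
  haveI hQn : Q.Normal := Cfsg.Agent.Lib.helper1.fitting_normal ↥S
  have hQcop : (Nat.card Q).Coprime 2 :=
    card_coprime_of_nilpotent_normal_aux hO2 Q (Cfsg.Agent.Lib.helper1.fitting_isNilpotent ↥S)
  have hQsc : Subgroup.centralizer (Q : Set ↥S) ≤ Q :=
    Cfsg.Agent.Lib.helper1.centralizer_fitting_le ↥S
  have hSetup := LinSD.ffSetup ρ hρinj Q hQcop hQsc
  set a := LinSD.elt ρ t with ha
  have haT : IsTransv 2 (LinSD.sdV ρ) (LinSD.sdH ρ) a := by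
    refine ⟨LinSD.elt_mem ρ t, ?_, ?_⟩
    · rw [ha]
      unfold LinSD.elt
      rw [orderOf_injective _ SemidirectProduct.inr_injective, ht2]
    · rw [LinSD.commutator_eq_rangeSub, LinSD.card_rangeSub, hlin]
      exact hRcard
  obtain ⟨-, hcard, hfE, -, -⟩ := ffE_main hSetup haT
  set g := LinSD.elt ρ P' with hg
  have hg2 : g ^ 2 = a := by rw [hg, ha, ht, LinSD.elt_pow]
  have hg4 : g ^ 4 = 1 := by
    rw [hg, ← LinSD.elt_pow, ← hP'4, pow_orderOf_eq_one, LinSD.elt_one]
  have hgQ : g ∈ Subgroup.normalizer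
      ((Q.map (SemidirectProduct.inr : ↥S →* LinSD.SD ρ) : Subgroup (LinSD.SD ρ)) : Set (LinSD.SD ρ)) :=
    hSetup.2.2.2.2.1 (LinSD.elt_mem ρ P')
  have hga : g * a * g⁻¹ = a := by rw [← hg2]; group
  have hE := ffE_conj (Q.map (SemidirectProduct.inr : ↥S →* LinSD.SD ρ)) a hgQ
  rw [hga] at hE
  have hgN : g ∈ Subgroup.normalizer
      ((⁅LinSD.sdV ρ, ffE (Q.map (SemidirectProduct.inr : ↥S →* LinSD.SD ρ)) a⁆ :
        Subgroup (LinSD.SD ρ)) : Set (LinSD.SD ρ)) := by
    apply mem_normalizer_of_map_conj_eq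
    rw [Subgroup.map_commutator, ← hE, map_conj_eq_of_mem_normalizer]
    rw [Subgroup.normalizer_eq_top]; exact Subgroup.mem_top g
  have h1 := sq_centralizes_of_card_four _ (by rw [hcard]; norm_num) g hgN hg4
  rw [hg2] at h1
  have h2 : a ∈ ffE (Q.map (SemidirectProduct.inr : ↥S →* LinSD.SD ρ)) a ⊓
      Subgroup.centralizer ((⁅LinSD.sdV ρ, ffE (Q.map (SemidirectProduct.inr : ↥S →* LinSD.SD ρ)) a⁆ :
        Subgroup (LinSD.SD ρ)) : Set (LinSD.SD ρ)) :=
    Subgroup.mem_inf.mpr ⟨mem_ffE_self _ a, h1⟩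
  rw [hfE, Subgroup.mem_bot] at h2
  have h3 : orderOf a = 2 := haT.2.1
  rw [h2, orderOf_one] at h3
  omega

end Cfsg.Agent.S4410
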