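import Cfsg.Statements.S4412
import Cfsg.Agent.Lib.helper14.EigenInv2

set_option autoImplicit false
open Cfsg
open Cfsg.Agent.Lib.helper14

namespace Cfsg.Agent.S4412

/-- Let p be an odd prime, P a finite p-group and I an elementary abelian subgroup of order 8 of Aut(P). Call T ∈ I, T ≠ 1, broad when its fixed-point subgroup C_P(T) is not cyclic. Suppose I has a proper subgroup I₀ containing no broad element such that the product of any two broad elements lies in I₀. Then P is abelian of rank exactly 3 (generated by three elements but not by two), there are exactly three broad elements and they generate I, and I₀ is exactly the set of products of two broad elements. -/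
theorem result
    {P : Type*} [Group P] [Finite P] (p : ℕ) (hp : p.Prime) (hp2 : p ≠ 2) (hP : IsPGroup p P)
    (I : Subgroup (MulAut P)) (hI : Cfsg.IsElementaryAbelian 2 I) (hI8 : Nat.card ↥I = 8)
    (I₀ : Subgroup (MulAut P)) (hI₀ : I₀ < I)
    (hdisj : ∀ T ∈ I₀, T ≠ 1 → ∃ g : P, ∀ x : P, (T x = x ↔ x ∈ Subgroup.zpowers g))
    (hprod : ∀ T ∈ I, ∀ T' ∈ I, T ≠ 1 → T' ≠ 1 → (¬ ∃ g : P, ∀ x : P, (T x = x ↔ x ∈ Subgroup.zpowers g)) →
      (¬ ∃ g : P, ∀ x : P, (T' x = x ↔ x ∈ Subgroup.zpowers g)) → T * T' ∈ I₀) :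
    IsMulCommutative P ∧ (∃ a b c : P, Subgroup.closure {a, b, c} = ⊤) ∧ (¬ ∃ a b : P, Subgroup.closure {a, b} = ⊤) ∧
      Nat.card {T : MulAut P // T ∈ I ∧ T ≠ 1 ∧ ¬ ∃ g : P, ∀ x : P, (T x = x ↔ x ∈ Subgroup.zpowers g)} = 3 ∧
      Subgroup.closure {T : MulAut P | T ∈ I ∧ T ≠ 1 ∧ ¬ ∃ g : P, ∀ x : P, (T x = x ↔ x ∈ Subgroup.zpowers g)} = I ∧
      (I₀ : Set (MulAut P)) = {S : MulAut P | ∃ T T' : MulAut P, T ∈ I ∧ T' ∈ I ∧ T ≠ 1 ∧ T' ≠ 1 ∧
        (¬ ∃ g : P, ∀ x : P, (T x = x ↔ x ∈ Subgroup.zpowers g)) ∧ (¬ ∃ g : P, ∀ x : P, (T' x = x ↔ x ∈ Subgroup.zpowers g)) ∧ S = T * T'} := by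
  haveI := Fact.mk hp
  obtain ⟨hIc, hI2'⟩ := (Cfsg.Agent.Lib.helper3.isEA_iff 2 I).mp hI
  have hI2 : ∀ s ∈ I, s * s = 1 := fun s hs => by rw [← pow_two]; exact hI2' s hs
  haveI : Finite (P ⋊[MonoidHom.id (MulAut P)] MulAut P) :=
    Finite.of_equiv _ (SemidirectProduct.equivProd).symm
  obtain ⟨ι, hι⟩ : ∃ ι : P →* P ⋊[MonoidHom.id (MulAut P)] MulAut P, ι = SemidirectProduct.inl :=
    ⟨_, rfl⟩
  obtain ⟨j, hj⟩ : ∃ j : MulAut P →* P ⋊[MonoidHom.id (MulAut P)] MulAut P,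
    j = SemidirectProduct.inr := ⟨_, rfl⟩
  have hιinj : Function.Injective ι := by rw [hι]; exact SemidirectProduct.inl_injective
  have hjinj : Function.Injective j := by rw [hj]; exact SemidirectProduct.inr_injective
  have hconj : ∀ (T : MulAut P) (x : P), j T * ι x * (j T)⁻¹ = ι (T x) := by
    intro T x
    rw [hι, hj, ← map_inv, ← SemidirectProduct.inl_aut]
    rfl
  have hcyc : ∀ T : MulAut P, (∃ g : P, ∀ x : P, (T x = x ↔ x ∈ Subgroup.zpowers g)) ↔
      cycC ι.range (j T) := by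
    intro T
    have hmem : ∀ x : P, ι x ∈ ι.range ⊓ Subgroup.centralizer ({j T} : Set _) ↔ T x = x := by
      intro x
      rw [Subgroup.mem_inf, mem_centralizer_singleton_iff', hconj]
      constructor
      · rintro ⟨-, h⟩; exact hιinj h
      · intro h; exact ⟨⟨x, rfl⟩, by rw [h]⟩
    constructor
    · rintro ⟨g, hg⟩
      refine ⟨ι g, ?_⟩
      ext y
      constructor
      · intro hy
        obtain ⟨x, rfl⟩ := hy.1
        have := (hg x).mp ((hmem x).mp hy)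
        rw [← MonoidHom.map_zpowers]; exact Subgroup.mem_map_of_mem _ this
      · intro hy
        rw [← MonoidHom.map_zpowers] at hy
        obtain ⟨x, hx, rfl⟩ := Subgroup.mem_map.mp hy
        exact (hmem x).mpr ((hg x).mpr hx)
    · rintro ⟨g', hg'⟩
      have hg'mem : g' ∈ ι.range ⊓ Subgroup.centralizer ({j T} : Set _) := by
        rw [hg']; exact Subgroup.mem_zpowers g'
      obtain ⟨g, rfl⟩ := hg'mem.1
      refine ⟨g, fun x => ?_⟩
      rw [← hmem x, hg', ← MonoidHom.map_zpowers]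
      constructor
      · intro h
        obtain ⟨y, hy, hxy⟩ := Subgroup.mem_map.mp h
        rw [← hιinj hxy]; exact hy
      · intro h; exact Subgroup.mem_map_of_mem _ h
  have hPgn : (ι.range).Normal := by
    rw [hι, SemidirectProduct.range_inl_eq_ker_rightHom]; infer_instance
  have hPg : IsPGroup p ↥ι.range := by
    rintro ⟨_, ⟨x, rfl⟩⟩
    obtain ⟨k, hk⟩ := hP x
    refine ⟨k, Subtype.ext ?_⟩
    rw [Subgroup.coe_pow, Subgroup.coe_one]
    show ι x ^ p ^ k = 1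
    rw [← map_pow, hk, map_one]
  have hIg2 : ∀ s ∈ I.map j, s * s = 1 := by
    rintro _ ⟨T, hT, rfl⟩
    rw [← map_mul, hI2 T hT, map_one]
  have hIgc : ∀ s ∈ I.map j, ∀ u ∈ I.map j, s * u = u * s := by
    rintro _ ⟨T, hT, rfl⟩ _ ⟨U, hU, rfl⟩
    rw [← map_mul, ← map_mul, hIc T hT U hU]
  have hIg8 : Nat.card ↥(I.map j) = 8 := by
    rw [Subgroup.card_map_of_injective hjinj]; exact hI8
  have hfaith : I.map j ⊓ Subgroup.centralizer ((ι.range : Subgroup _) : Set _) = ⊥ := by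
    rw [eq_bot_iff]
    rintro _ ⟨⟨T, hT, rfl⟩, hc⟩
    rw [Subgroup.mem_bot]
    have : T = 1 := by
      ext x
      have h1 := (Subgroup.mem_centralizer_iff.mp hc) (ι x) ⟨x, rfl⟩
      have h2 := hconj T x
      rw [← h1, mul_inv_cancel_right] at h2
      exact (hιinj h2).symm
    rw [this, map_one]
  have hI0g : I₀.map j < I.map j := (Subgroup.map_lt_map_iff_of_injective hjinj).mpr hI₀
  have hdisj' : ∀ t ∈ I₀.map j, t ≠ 1 → cycC ι.range t := by
    rintro _ ⟨T, hT, rfl⟩ ht1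
    exact (hcyc T).mp (hdisj T hT (by rintro rfl; exact ht1 (map_one j)))
  have hprod' : ∀ t ∈ I.map j, ∀ t' ∈ I.map j, t ≠ 1 → t' ≠ 1 → ¬ cycC ι.range t →
      ¬ cycC ι.range t' → t * t' ∈ I₀.map j := by
    rintro _ ⟨T, hT, rfl⟩ _ ⟨T', hT', rfl⟩ h1 h1' hc hc'
    rw [← map_mul]
    exact Subgroup.mem_map_of_mem _ (hprod T hT T' hT' (by rintro rfl; exact h1 (map_one j))
      (by rintro rfl; exact h1' (map_one j)) (fun h => hc ((hcyc T).mp h))
      (fun h => hc' ((hcyc T').mp h)))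
  obtain ⟨hPc, ⟨c1, c2, c3, hcl⟩, hnot2, t1, t2, t3, h12, h13, h23, hbr, hgen, hI0d⟩ :=
    el8_internal hp2 ι.range hPg (I.map j) hIg2 hIgc hIg8 hfaith (I₀.map j) hI0g hdisj' hprod'
  obtain ⟨T1, hT1, rfl⟩ := ((hbr t1).mpr (Or.inl rfl)).1
  obtain ⟨T2, hT2, rfl⟩ := ((hbr t2).mpr (Or.inr (Or.inl rfl))).1
  obtain ⟨T3, hT3, rfl⟩ := ((hbr t3).mpr (Or.inr (Or.inr rfl))).1
  have broad' : ∀ T : MulAut P, (T ∈ I ∧ T ≠ 1 ∧
      ¬ ∃ g : P, ∀ x : P, (T x = x ↔ x ∈ Subgroup.zpowers g)) ↔ (T = T1 ∨ T = T2 ∨ T = T3) := by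
    intro T
    rw [hcyc T]
    constructor
    · rintro ⟨hT, hT1', hc⟩
      have := (hbr (j T)).mp ⟨Subgroup.mem_map_of_mem _ hT,
        fun h => hT1' (hjinj (h.trans (map_one j).symm)), hc⟩
      rcases this with h | h | h
      exacts [Or.inl (hjinj h), Or.inr (Or.inl (hjinj h)), Or.inr (Or.inr (hjinj h))]
    · intro h
      have h' : j T = j T1 ∨ j T = j T2 ∨ j T = j T3 := by
        rcases h with h | h | h <;> simp [h]
      obtain ⟨hm, hne, hc⟩ := (hbr (j T)).mpr h'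
      obtain ⟨T', hT', hTT'⟩ := hm
      rw [hjinj hTT'] at hT'
      exact ⟨hT', fun h1 => hne (by rw [h1, map_one]), hc⟩
  have hset : {T : MulAut P | T ∈ I ∧ T ≠ 1 ∧
      ¬ ∃ g : P, ∀ x : P, (T x = x ↔ x ∈ Subgroup.zpowers g)} = {T1, T2, T3} := by
    ext T
    rw [Set.mem_setOf_eq, broad' T]
    simp
  refine ⟨⟨⟨fun a b => hιinj (by rw [map_mul, map_mul]; exact hPc _ ⟨a, rfl⟩ _ ⟨b, rfl⟩)⟩⟩,
    ?_, ?_, ?_, ?_, ?_⟩
  · have hc1 : c1 ∈ ι.range := by rw [← hcl]; exact Subgroup.subset_closure (by simp)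
    have hc2 : c2 ∈ ι.range := by rw [← hcl]; exact Subgroup.subset_closure (by simp)
    have hc3 : c3 ∈ ι.range := by rw [← hcl]; exact Subgroup.subset_closure (by simp)
    obtain ⟨x1, rfl⟩ := hc1
    obtain ⟨x2, rfl⟩ := hc2
    obtain ⟨x3, rfl⟩ := hc3
    refine ⟨x1, x2, x3, ?_⟩
    apply Subgroup.map_injective hιinj
    rw [MonoidHom.map_closure, Set.image_insert_eq, Set.image_pair, ← MonoidHom.range_eq_map]
    exact hcl
  · rintro ⟨a, b, hab⟩
    apply hnot2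
    refine ⟨ι a, ι b, ?_⟩
    rw [← Set.image_pair, ← MonoidHom.map_closure, hab, ← MonoidHom.range_eq_map]
  · have h4 : Nat.card ↥({T : MulAut P | T ∈ I ∧ T ≠ 1 ∧
        ¬ ∃ g : P, ∀ x : P, (T x = x ↔ x ∈ Subgroup.zpowers g)} : Set (MulAut P)) = 3 := by
      rw [hset, Nat.card_coe_set_eq]
      exact Set.ncard_eq_three.mpr ⟨T1, T2, T3, fun h => h12 (by rw [h]), fun h => h13 (by rw [h]),
        fun h => h23 (by rw [h]), rfl⟩
    exact h4
  · rw [hset]
    apply le_antisymm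
    · rw [Subgroup.closure_le]
      intro x hx
      rcases hx with h | h | h
      · rw [h]; exact hT1
      · rw [h]; exact hT2
      · rw [Set.mem_singleton_iff] at h; rw [h]; exact hT3
    · intro T hT
      have e : Subgroup.closure ({j T1, j T2, j T3} : Set _) =
          (Subgroup.closure {T1, T2, T3}).map j := by
        rw [MonoidHom.map_closure, Set.image_insert_eq, Set.image_pair]
      have h1 := hgen (Subgroup.mem_map_of_mem j hT)
      rw [e] at h1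
      obtain ⟨T', hT', h⟩ := h1
      rw [← hjinj h]; exact hT'
  · ext S
    constructor
    · intro hS
      obtain ⟨u, v, hu, hv, huv⟩ := hI0d (j S) (Subgroup.mem_map_of_mem j hS)
      have hu' : ∃ U, (U = T1 ∨ U = T2 ∨ U = T3) ∧ u = j U := by
        rcases hu with h | h | h
        exacts [⟨T1, Or.inl rfl, h⟩, ⟨T2, Or.inr (Or.inl rfl), h⟩, ⟨T3, Or.inr (Or.inr rfl), h⟩]
      have hv' : ∃ U, (U = T1 ∨ U = T2 ∨ U = T3) ∧ v = j U := by
        rcases hv with h | h | h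
        exacts [⟨T1, Or.inl rfl, h⟩, ⟨T2, Or.inr (Or.inl rfl), h⟩, ⟨T3, Or.inr (Or.inr rfl), h⟩]
      obtain ⟨U, hU, rfl⟩ := hu'
      obtain ⟨V, hV, rfl⟩ := hv'
      have hUb := (broad' U).mpr hU
      have hVb := (broad' V).mpr hV
      refine ⟨U, V, hUb.1, hVb.1, hUb.2.1, hVb.2.1, hUb.2.2, hVb.2.2, ?_⟩
      apply hjinj
      rw [map_mul]; exact huv
    · rintro ⟨T, T', hT, hT', h1, h1', hc, hc', rfl⟩
      exact hprod T hT T' hT' h1 h1' hc hc'

end Cfsg.Agent.S4412
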