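import Cfsg.Statements.S4420
-- import your own Cfsg.Agent.* helpers here

set_option autoImplicit false
open Cfsg

namespace Cfsg.Agent.S4420

/-- Structure of groups in which every element outside some proper subgroup has square 1. Let H be a finite group with a proper subgroup A such that every element outside A has square 1. Then H has an abelian normal subgroup B of index 2 such that every element outside B is an involution inverting every element of B; and if H is not an elementary abelian 2-group, B is the only abelian normal subgroup of index 2 with this property. -/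
theorem result {H : Type*} [Group H] [Finite H] (A : Subgroup H) (hA : A ≠ ⊤) (hD : ∀ x : H, x ∉ A → x ^ 2 = 1) :
    ∃ B : Subgroup H, B.Normal ∧ IsMulCommutative ↥B ∧ B.index = 2 ∧
      (∀ x : H, x ∉ B → x ^ 2 = 1 ∧ ∀ b ∈ B, x * b * x⁻¹ = b⁻¹) ∧
      (¬ (IsMulCommutative H ∧ ∀ x : H, x ^ 2 = 1) →
        ∀ B' : Subgroup H, B'.Normal → IsMulCommutative ↥B' → B'.index = 2 →
          (∀ x : H, x ∉ B' → x ^ 2 = 1 ∧ ∀ b ∈ B', x * b * x⁻¹ = b⁻¹) → B' = B) := by
  by_cases hall : ∀ x : H, x ^ 2 = 1
  · have hcomm : ∀ a b : H, a * b = b * a := by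
      intro a b
      have h1 := hall (a * b)
      have h2 := hall a
      have h3 := hall b
      rw [pow_two] at h1 h2 h3
      have ha : a⁻¹ = a := inv_eq_of_mul_eq_one_left h2
      have hb : b⁻¹ = b := inv_eq_of_mul_eq_one_left h3
      have hab : (a * b)⁻¹ = a * b := inv_eq_of_mul_eq_one_left h1
      rw [mul_inv_rev, ha, hb] at hab
      exact hab.symm
    have hp : IsPGroup 2 H := fun g => ⟨1, by rw [pow_one]; exact hall g⟩
    obtain ⟨n, hn⟩ := IsPGroup.iff_card.mp hp
    have hnt : Nontrivial H := by
      by_contra hnt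
      rw [not_nontrivial_iff_subsingleton] at hnt
      exact hA (Subsingleton.elim _ _)
    have hn1 : n ≠ 0 := by
      rintro rfl
      rw [pow_zero] at hn
      have : 1 < Nat.card H := Finite.one_lt_card
      omega
    obtain ⟨m, rfl⟩ := Nat.exists_eq_succ_of_ne_zero hn1
    haveI : Fact (Nat.Prime 2) := ⟨Nat.prime_two⟩
    obtain ⟨B, hB⟩ := Sylow.exists_subgroup_card_pow_prime (G := H) 2 (n := m)
      (by rw [hn]; exact pow_dvd_pow 2 (Nat.le_succ m))
    have hidx : B.index = 2 := by
      have h1 := B.card_mul_index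
      rw [hB, hn, pow_succ] at h1
      exact Nat.eq_of_mul_eq_mul_left (pow_pos (by norm_num) m) h1
    refine ⟨B, Subgroup.normal_of_index_eq_two hidx, ⟨⟨fun a b => Subtype.ext (hcomm a b)⟩⟩, hidx,
      ?_, ?_⟩
    · intro x _
      refine ⟨hall x, fun b _ => ?_⟩
      have h3 := hall b
      rw [pow_two] at h3
      rw [hcomm x b, mul_inv_cancel_right]
      exact (inv_eq_of_mul_eq_one_left h3).symm
    · intro hnot
      exact absurd ⟨⟨⟨hcomm⟩⟩, hall⟩ hnot
  · push Not at hall
    obtain ⟨w, hw⟩ := hall
    have hwA : w ∈ A := by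
      by_contra hwA
      exact hw (hD w hwA)
    obtain ⟨x₀, hx₀⟩ : ∃ x : H, x ∉ A := by
      by_contra hcon
      push Not at hcon
      exact hA (top_le_iff.mp fun x _ => hcon x)
    have hinv : ∀ x : H, x ∉ A → ∀ a ∈ A, x * a * x⁻¹ = a⁻¹ := by
      intro x hx a ha
      have hxa : x * a ∉ A := by
        intro h
        apply hx
        have := A.mul_mem h (A.inv_mem ha)
        rwa [mul_inv_cancel_right] at this
      have h1 := hD x hx
      have h2 := hD (x * a) hxa
      rw [pow_two] at h1 h2
      have hxi : x⁻¹ = x := inv_eq_of_mul_eq_one_left h1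
      rw [hxi]
      have h3 : x * a * x * a = 1 := by rw [← h2]; group
      exact eq_inv_of_mul_eq_one_left h3
    have hAcomm : ∀ a ∈ A, ∀ b ∈ A, a * b = b * a := by
      intro a ha b hb
      have h1 := hinv x₀ hx₀ (a * b) (A.mul_mem ha hb)
      have h2 := hinv x₀ hx₀ a ha
      have h3 := hinv x₀ hx₀ b hb
      have h4 : x₀ * (a * b) * x₀⁻¹ = (x₀ * a * x₀⁻¹) * (x₀ * b * x₀⁻¹) := by group
      rw [h4, h2, h3, mul_inv_rev] at h1
      have h5 := congrArg (fun t => t⁻¹) h1
      simp only [mul_inv_rev, inv_inv] at h5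
      exact h5.symm
    have hprod : ∀ x y : H, x ∉ A → y ∉ A → x * y ∈ A := by
      intro x y hx hy
      by_contra hxy
      apply hw
      have h1 := hinv (x * y) hxy w hwA
      have h2 := hinv y hy w hwA
      have h3 := hinv x hx w⁻¹ (A.inv_mem hwA)
      have h4 : x * y * w * (x * y)⁻¹ = x * (y * w * y⁻¹) * x⁻¹ := by group
      rw [h4, h2, h3, inv_inv] at h1
      rw [pow_two]
      exact mul_eq_one_iff_eq_inv.mpr h1
    have hidx : A.index = 2 := by
      rw [Subgroup.index_eq_two_iff]
      refine ⟨x₀, fun b => ?_⟩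
      by_cases hb : b ∈ A
      · refine Or.inr ⟨hb, ?_⟩
        intro h
        apply hx₀
        have := A.mul_mem (A.inv_mem hb) h
        rwa [inv_mul_cancel_left] at this
      · exact Or.inl ⟨hprod b x₀ hb hx₀, hb⟩
    refine ⟨A, Subgroup.normal_of_index_eq_two hidx,
      ⟨⟨fun a b => Subtype.ext (hAcomm a a.2 b b.2)⟩⟩, hidx,
      fun x hx => ⟨hD x hx, hinv x hx⟩, ?_⟩
    intro _ B' _ hB'c _ hB'
    have hwB' : w ∈ B' := by
      by_contra hwB'
      exact hw (hB' w hwB').1
    apply le_antisymm
    · intro b hb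
      by_contra hbA
      apply hw
      have h1 := hinv b hbA w hwA
      have h2 : b * w = w * b := by
        have := mul_comm' (⟨b, hb⟩ : B') ⟨w, hwB'⟩
        exact congrArg Subtype.val this
      rw [h2, mul_inv_cancel_right] at h1
      rw [pow_two]
      exact mul_eq_one_iff_eq_inv.mpr h1
    · intro a ha
      by_contra haB
      apply hw
      have h1 := (hB' a haB).2 w hwB'
      rw [hAcomm a ha w hwA, mul_inv_cancel_right] at h1
      rw [pow_two]
      exact mul_eq_one_iff_eq_inv.mpr h1

end Cfsg.Agent.S4420
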