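import Cfsg.Statements.S4428
import Cfsg.Agent.Lib.helper23.InducedHeight
import Cfsg.Agent.Lib.helper23.BPMaxChar
import Cfsg.Agent.Lib.helper5.ProjVanish
import Cfsg.Agent.Lib.helper22.SubsecNorm

set_option autoImplicit false
open Cfsg

namespace Cfsg.Agent.S4428

open Cfsg.Agent.Lib.helper23 Cfsg.Agent.Lib.helper24 Cfsg.Agent.Lib.helper5 Cfsg.Agent.Lib.helper22
open scoped ComplexConjugate

universe u

theorem central_root {K : Type u} [Group K] [Fintype K] (ψ : IrrCharacter K) (t : K)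
    (hcen : ∀ x : K, x * t = t * x) (n : ℕ) (ht : t ^ n = 1) :
    ((ψ.1 1)⁻¹ * ψ.1 t) ^ n = 1 := by
  have key : ∀ j : ℕ, ∀ g : K, ψ.1 (t ^ j * g) = ((ψ.1 1)⁻¹ * ψ.1 t) ^ j * ψ.1 g := by
    intro j
    induction j with
    | zero => intro g; simp
    | succ j ih =>
      intro g
      rw [pow_succ, mul_assoc, ih, irr_central_mul' ψ hcen, pow_succ]
      ring
  have h := key n 1
  rw [ht, one_mul] at h
  have h1 := irr_one_ne_zero ψ
  have h2 : ψ.1 1 * 1 = ψ.1 1 * ((ψ.1 1)⁻¹ * ψ.1 t) ^ n := by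
    rw [mul_one, mul_comm]
    exact h
  exact (mul_left_cancel₀ h1 h2).symm

theorem coord_regConj_expand {K : Type u} [Group K] [Fintype K] [Fintype (IrrCharacter K)]
    (p : ℕ) (F : K → ℂ) (a : IrrCharacter K → ℂ)
    (hF : ∀ y : K, ¬ p ∣ orderOf y → F y = ∑ ψ : IrrCharacter K, a ψ * ψ.1 y)
    (ξ : IrrCharacter K) :
    coord (regConj p F) ξ = ∑ ψ : IrrCharacter K, conj (a ψ) * coord (regConj p ψ.1) ξ := by
  unfold coord
  have h1 : ∀ y : K, regConj p F y = ∑ ψ : IrrCharacter K, conj (a ψ) * regConj p ψ.1 y := by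
    intro y
    unfold regConj
    by_cases hy : p ∣ orderOf y
    · simp [hy]
    · simp only [hy, if_false]
      rw [hF y hy, map_sum]
      apply Finset.sum_congr rfl
      intro ψ _
      rw [map_mul]
  have h2 : (∑ ψ : IrrCharacter K, conj (a ψ) * ((∑ y : K, regConj p ψ.1 y * ξ.1 y) / ξ.1 1))
      = (∑ ψ : IrrCharacter K, conj (a ψ) * (∑ y : K, regConj p ψ.1 y * ξ.1 y)) / ξ.1 1 := by
    rw [Finset.sum_div]
    apply Finset.sum_congr rfl
    intro ψ _
    ring
  rw [h2]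
  congr 1
  simp only [h1, Finset.sum_mul, Finset.mul_sum]
  rw [Finset.sum_comm]
  apply Finset.sum_congr rfl
  intro ψ _
  apply Finset.sum_congr rfl
  intro y _
  ring

theorem main {G : Type u} [Group G] [Fintype G] [Fintype (IrrCharacter G)]
    (H : Subgroup G) [Fintype H] [Fintype (IrrCharacter H)]
    (p : ℕ) [hp : Fact p.Prime] (M : Ideal AlgInt) (hM : IsPModular p M)
    (B : Set (IrrCharacter G)) (hB : IsPBlock M B) (χ : IrrCharacter G) (hχ : χ ∈ B)
    (h0 : blockHeight p B χ.1 = 0) (x : G) (hxH : x ∈ H)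
    (hcen : ∀ h : H, (h : G) * x = x * (h : G))
    (hx : ∃ k : ℕ, orderOf x = p ^ k)
    (b : Set (IrrCharacter H)) (hb : IsInducedBlock M H b B) :
    ∃ y : H, ¬ p ∣ orderOf y ∧ blockPart b (fun c : H => χ.1 (x * (c : G))) y ≠ 0 := by
  classical
  have hMp := isPModular_isPrime hM
  obtain ⟨k, hk⟩ := hx
  have hb' := hb
  obtain ⟨hbb, -, -⟩ := hb
  obtain ⟨ξ₁, rfl⟩ := hbb
  have hξb : ξ₁ ∈ blockOf M ξ₁.1 := mem_blockOf_self hMp.ne_top ξ₁
  have hQ : HtPair p χ χ := ((height_zero_iff hM B hB χ hχ).2.mp h0) χ hχ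
  have hW : ¬ MemLocalIdeal M (coord (regConj p (fun h : H => χ.1 h)) ξ₁) := by
    intro hmem
    have h1 := induced_coord_congr H hM hb' hξb hχ χ
    have h2 := memLocalIdeal_sub hMp hmem h1
    rw [sub_sub_cancel] at h2
    exact (htPair_iff hM χ χ).mp hQ h2
  by_contra hcon
  push Not at hcon
  apply hW
  have hχH : IsCharacter H (fun h : H => χ.1 h) :=
    Cfsg.Agent.Lib.helper24.isCharacter_restrict H (isCharacter_irr χ)
  have hclass : IsClassFunction H (fun h : H => χ.1 h) := by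
    intro g h
    exact isClassFunction_irr χ (g : G) (h : G)
  choose m hm using fun ψ : IrrCharacter H => isCharacter_inner_irr_nat hχH ψ
  have hexp : ∀ c : H, χ.1 (c : G) = ∑ ψ : IrrCharacter H, (m ψ : ℂ) * ψ.1 c := by
    intro c
    have h := classFunction_expansion_apply hclass c
    simp only [hm] at h
    exact h
  obtain ⟨t, ht⟩ : ∃ t : H, t = ⟨x, hxH⟩ := ⟨_, rfl⟩
  have htc : ∀ c : H, c * t = t * c := by
    intro c
    apply Subtype.ext
    rw [ht]
    exact hcen c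
  have htn : t ^ (p ^ k) = 1 := by
    apply Subtype.ext
    rw [ht]
    show x ^ (p ^ k) = 1
    rw [← hk]
    exact pow_orderOf_eq_one x
  obtain ⟨ε, hε⟩ : ∃ ε : IrrCharacter H → ℂ, ε = fun ψ => (ψ.1 1)⁻¹ * ψ.1 t := ⟨_, rfl⟩
  have hεpow : ∀ ψ, ε ψ ^ (p ^ k) = 1 := by
    intro ψ
    rw [hε]
    exact central_root ψ t htc _ htn
  have hϑ : ∀ c : H, χ.1 (x * (c : G)) = ∑ ψ : IrrCharacter H, ((m ψ : ℂ) * ε ψ) * ψ.1 c := by
    intro c
    have h := hexp (t * c)
    have e : ((t * c : H) : G) = x * (c : G) := by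
      rw [ht]
      rfl
    rw [e] at h
    rw [h]
    apply Finset.sum_congr rfl
    intro ψ _
    rw [irr_central_mul' ψ htc, hε]
    ring
  have hbp : ∀ y : H, blockPart (blockOf M ξ₁.1) (fun c : H => χ.1 (x * (c : G))) y
      = ∑ ψ : IrrCharacter H, (blockOf M ξ₁.1).indicator (fun _ => (1 : ℂ)) ψ
          * (((m ψ : ℂ) * ε ψ) * ψ.1 y) := by
    intro y
    have e : (fun c : H => χ.1 (x * (c : G)))
        = ∑ ψ : IrrCharacter H, ((m ψ : ℂ) * ε ψ) • ψ.1 := by
      funext c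
      rw [hϑ c, Finset.sum_apply]
      rfl
    rw [blockPart_eq_ind]
    apply Finset.sum_congr rfl
    intro ψ _
    congr 2
    rw [e, classInner_sum_left]
    simp only [classInner_smul_left, irr_orthonormal]
    simp
  obtain ⟨W, hWdef⟩ : ∃ W : IrrCharacter H → ℂ, W = fun ψ => coord (regConj p ψ.1) ξ₁ :=
    ⟨_, rfl⟩
  have hWR : ∀ ψ, MemLocalRing M (W ψ) := by
    intro ψ
    rw [hWdef]
    exact memLocalRing_coord_of_classFunction hMp
      (regConj_isClassFunction p (isClassFunction_irr ψ))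
      (regConj_memLocalRing hMp.ne_top p (isCharacter_irr ψ)) ξ₁
  have hW0 : ∀ ψ, ψ ∉ blockOf M ξ₁.1 → W ψ = 0 := by
    intro ψ hψ
    have h1 := inner_ptrunc_eq_zero_of_not_mem hM ξ₁ ξ₁ ψ hξb hψ
    have h2 := coord_regConj_fun p ξ₁ ψ.1
    rw [h1, mul_zero] at h2
    have hpa : ((p ^ (Nat.card H).factorization p : ℕ) : ℂ) ≠ 0 := by
      exact_mod_cast (pow_pos hp.out.pos _).ne'
    rw [hWdef]
    rcases mul_eq_zero.mp h2 with h3 | h3
    · rcases mul_eq_zero.mp h3 with h4 | h4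
      · exact h4
      · exact absurd h4 (irr_one_ne_zero ξ₁)
    · exact absurd h3 hpa
  have hE1 : coord (regConj p (fun h : H => χ.1 h)) ξ₁
      = ∑ ψ : IrrCharacter H, (m ψ : ℂ) * W ψ := by
    have h := coord_regConj_expand p (fun h : H => χ.1 h) (fun ψ => (m ψ : ℂ))
      (fun y _ => hexp y) ξ₁
    rw [h, hWdef]
    apply Finset.sum_congr rfl
    intro ψ _
    rw [Complex.conj_natCast]
  have hE2 : (0 : ℂ) = ∑ ψ : IrrCharacter H,
      (blockOf M ξ₁.1).indicator (fun _ => (1 : ℂ)) ψ * ((m ψ : ℂ) * conj (ε ψ)) * W ψ := by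
    have h := coord_regConj_expand p
      (blockPart (blockOf M ξ₁.1) (fun c : H => χ.1 (x * (c : G))))
      (fun ψ => (blockOf M ξ₁.1).indicator (fun _ => (1 : ℂ)) ψ * ((m ψ : ℂ) * ε ψ))
      (fun y _ => by
        rw [hbp y]
        apply Finset.sum_congr rfl
        intro ψ _
        ring) ξ₁
    have hz : regConj p (blockPart (blockOf M ξ₁.1) (fun c : H => χ.1 (x * (c : G))))
        = fun _ => 0 := by
      funext y
      unfold regConj
      by_cases hy : p ∣ orderOf y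
      · simp [hy]
      · simp only [hy, if_false]
        rw [hcon y hy, map_zero]
    rw [hz] at h
    have hc0 : coord (fun _ : H => (0 : ℂ)) ξ₁ = 0 := by
      unfold coord
      simp
    rw [hc0] at h
    rw [h, hWdef]
    apply Finset.sum_congr rfl
    intro ψ _
    by_cases hψ : ψ ∈ blockOf M ξ₁.1
    · rw [Set.indicator_of_mem hψ]
      simp
    · rw [Set.indicator_of_notMem hψ]
      simp
  have hfinal : coord (regConj p (fun h : H => χ.1 h)) ξ₁
      = ∑ ψ : IrrCharacter H, (blockOf M ξ₁.1).indicator (fun _ => (1 : ℂ)) ψ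
          * ((m ψ : ℂ) * (1 - conj (ε ψ))) * W ψ := by
    have h3 : ∑ ψ : IrrCharacter H, (m ψ : ℂ) * W ψ
        = ∑ ψ : IrrCharacter H,
          (blockOf M ξ₁.1).indicator (fun _ => (1 : ℂ)) ψ * (m ψ : ℂ) * W ψ := by
      apply Finset.sum_congr rfl
      intro ψ _
      by_cases hψ : ψ ∈ blockOf M ξ₁.1
      · rw [Set.indicator_of_mem hψ, one_mul]
      · rw [hW0 ψ hψ]
        simp
    calc coord (regConj p (fun h : H => χ.1 h)) ξ₁
        = (∑ ψ : IrrCharacter H,
            (blockOf M ξ₁.1).indicator (fun _ => (1 : ℂ)) ψ * (m ψ : ℂ) * W ψ)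
          - ∑ ψ : IrrCharacter H,
            (blockOf M ξ₁.1).indicator (fun _ => (1 : ℂ)) ψ * ((m ψ : ℂ) * conj (ε ψ)) * W ψ := by
          rw [← hE2, sub_zero, hE1, h3]
      _ = _ := by
          rw [← Finset.sum_sub_distrib]
          apply Finset.sum_congr rfl
          intro ψ _
          ring
  rw [hfinal]
  apply memLocalIdeal_sum hMp
  intro ψ _
  have h1 : MemLocalIdeal M (1 - conj (ε ψ)) := by
    have hc : (conj (ε ψ)) ^ (p ^ k) = 1 := by
      rw [← map_pow, hεpow, map_one]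
    have h2 := memLocalIdeal_neg (memLocalIdeal_root_sub_one hM (conj (ε ψ)) k hc)
    rwa [neg_sub] at h2
  have h2 : MemLocalRing M ((blockOf M ξ₁.1).indicator (fun _ => (1 : ℂ)) ψ) := by
    by_cases hψ : ψ ∈ blockOf M ξ₁.1
    · rw [Set.indicator_of_mem hψ]
      exact memLocalRing_one hMp.ne_top
    · rw [Set.indicator_of_notMem hψ]
      exact memLocalRing_zero hMp.ne_top
  exact memLocalIdeal_mul_right hMp
    (memLocalIdeal_mul_left hMp h2
      (memLocalIdeal_mul_left hMp (memLocalRing_natCast hMp.ne_top (m ψ)) h1)) (hWR ψ)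

theorem result {G : Type*} [Group G] [Finite G] (p : ℕ) [Fact p.Prime] (M : Ideal Cfsg.AlgInt) (hM : Cfsg.IsPModular p M) (B : Set (Cfsg.IrrCharacter G)) (hB : Cfsg.IsPBlock M B) (χ : Cfsg.IrrCharacter G) (hχ : χ ∈ B) (h0 : Cfsg.blockHeight p B (χ : G → ℂ) = 0) (x : G) (hx : ∃ k : ℕ, orderOf x = p ^ k) (b : Set (Cfsg.IrrCharacter (Subgroup.centralizer ({x} : Set G)))) (hb : Cfsg.IsInducedBlock M (Subgroup.centralizer ({x} : Set G)) b B) : ∃ y : Subgroup.centralizer ({x} : Set G), ¬ p ∣ orderOf y ∧ Cfsg.blockPart b (fun c : Subgroup.centralizer ({x} : Set G) => (χ : G → ℂ) (x * (c : G))) y ≠ 0 := by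
  classical
  have : Fintype G := Fintype.ofFinite G
  have : Fintype (IrrCharacter G) := Fintype.ofFinite _
  have : Fintype (Subgroup.centralizer ({x} : Set G)) := Fintype.ofFinite _
  have : Fintype (IrrCharacter (Subgroup.centralizer ({x} : Set G))) := Fintype.ofFinite _
  refine main (Subgroup.centralizer ({x} : Set G)) p M hM B hB χ hχ h0 x ?_ ?_ hx b hb
  · rw [Subgroup.mem_centralizer_iff]
    intro g hg
    rw [Set.mem_singleton_iff] at hg
    rw [hg]
  · intro h
    have := h.2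
    rw [Subgroup.mem_centralizer_iff] at this
    exact (this x (Set.mem_singleton x)).symm

end Cfsg.Agent.S4428
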