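import Cfsg.Statements.S4430
import Cfsg.Agent.Lib.helper22.IndBlock

set_option autoImplicit false
open Cfsg

namespace Cfsg.Agent.S4430

open Cfsg.Agent.Lib.helper5 Cfsg.Agent.Lib.helper23 Cfsg.Agent.Lib.helper24 Cfsg.Agent.Lib.helper22

theorem charDegree_of_eq {G : Type*} [Group G] (f : G → ℂ) (k : ℕ) (h : f 1 = (k : ℂ)) :
    Cfsg.charDegree f = k := by
  unfold Cfsg.charDegree
  rw [h]
  simp

theorem exists_nat_blockPart {G : Type*} [Group G] [Fintype G] (B : Set (Cfsg.IrrCharacter G))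
    {θ : G → ℂ} (hθ : Cfsg.IsCharacter G θ) :
    ∃ n : ℕ, Cfsg.blockPart B θ 1 = (n : ℂ) := by
  classical
  have : Fintype (Cfsg.IrrCharacter G) := Fintype.ofFinite _
  choose m hm using fun χ : Cfsg.IrrCharacter G => isCharacter_inner_irr_nat hθ χ
  refine ⟨∑ χ : Cfsg.IrrCharacter G, if χ ∈ B then m χ * Cfsg.charDegree χ.1 else 0, ?_⟩
  rw [blockPart_apply, finsum_mem_def, finsum_eq_sum_of_fintype, Nat.cast_sum]
  apply Finset.sum_congr rfl
  intro χ _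
  by_cases hχ : χ ∈ B
  · rw [Set.indicator_of_mem hχ, if_pos hχ, hm, Nat.cast_mul, charDegree_cast]
  · rw [Set.indicator_of_notMem hχ, if_neg hχ, Nat.cast_zero]

theorem result {G : Type*} [Group G] [Fintype G] (p : ℕ) [Fact p.Prime] (M : Ideal Cfsg.AlgInt) (hM : Cfsg.IsPModular p M) (H : Subgroup G) [Fintype H] (b : Set (Cfsg.IrrCharacter H)) (B₀ : Set (Cfsg.IrrCharacter G)) (hind : Cfsg.IsInducedBlock M H b B₀) (ξ : Cfsg.IrrCharacter H) (hξ : ξ ∈ b) : (∃ n : ℕ, Cfsg.blockPart B₀ (Cfsg.indFun H (ξ : H → ℂ)) 1 = (n : ℂ) ∧ n ≠ 0 ∧ n.factorization p = (Cfsg.charDegree (Cfsg.indFun H (ξ : H → ℂ))).factorization p) ∧ ∀ B : Set (Cfsg.IrrCharacter G), Cfsg.IsPBlock M B → B ≠ B₀ → ∃ n : ℕ, Cfsg.blockPart B (Cfsg.indFun H (ξ : H → ℂ)) 1 = (n : ℂ) ∧ (n = 0 ∨ (Cfsg.charDegree (Cfsg.indFun H (ξ : H → ℂ))).factorization p < n.factorization p) := by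
  classical
  have : Fintype (Cfsg.IrrCharacter G) := Fintype.ofFinite _
  have : Fintype (Cfsg.IrrCharacter H) := Fintype.ofFinite _
  have hMp := isPModular_isPrime hM
  have hθ : Cfsg.IsCharacter G (Cfsg.indFun H ξ.1) := isCharacter_indFun H (isCharacter_irr ξ)
  set m : ℕ := H.index * Cfsg.charDegree ξ.1 with hm
  have hθ1 : Cfsg.indFun H ξ.1 1 = (m : ℂ) := by
    rw [indFun_one, hm, Nat.cast_mul, charDegree_cast]
  have hm0 : m ≠ 0 := by
    have h1 : H.index ≠ 0 := Subgroup.index_ne_zero_of_finite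
    have h2 := charDegree_pos ξ
    exact Nat.mul_ne_zero h1 (by omega)
  have hmC : (m : ℂ) ≠ 0 := by exact_mod_cast hm0
  have hdeg : Cfsg.charDegree (Cfsg.indFun H ξ.1) = m := charDegree_of_eq _ _ hθ1
  rw [hdeg]
  obtain ⟨χ₀, hχ₀⟩ := hind.2.1
  have hχ₀mem : χ₀ ∈ B₀ := by
    rw [hχ₀]
    exact mem_blockOf_self hMp.ne_top χ₀
  have key : ∀ B : Set (Cfsg.IrrCharacter G), Cfsg.IsPBlock M B → ∀ n : ℕ,
      Cfsg.blockPart B (Cfsg.indFun H ξ.1) 1 = (n : ℂ) →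
      Cfsg.MemLocalIdeal M ((n : ℂ) / (m : ℂ) - B.indicator (fun _ => (1 : ℂ)) χ₀) := by
    intro B hB n hn
    obtain ⟨χ₁, rfl⟩ := hB
    have h1 := brFun_top_of_induced H hMp hind hξ hχ₀mem (indicator_mem_osimaRing hMp χ₁)
    have h2 := blockPart_ind_one H (Cfsg.blockOf M χ₁.1) ξ
    rw [hn, hθ1] at h2
    have h3 : brFun H ⊤ ξ ((Cfsg.blockOf M χ₁.1).indicator (fun _ => (1 : ℂ)))
        = (n : ℂ) / (m : ℂ) := by
      rw [h2]
      field_simp
    rwa [h3] at h1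
  constructor
  · obtain ⟨n, hn⟩ := exists_nat_blockPart B₀ hθ
    have h1 := key B₀ hind.2.1 n hn
    rw [Set.indicator_of_mem hχ₀mem] at h1
    obtain ⟨h2, h3⟩ := ratio_unit hM hm0 h1
    exact ⟨n, hn, h2, h3⟩
  · intro B hB hne
    obtain ⟨n, hn⟩ := exists_nat_blockPart B hθ
    have h1 := key B hB n hn
    have hnot : χ₀ ∉ B := by
      intro hmem
      apply hne
      obtain ⟨χ₁, rfl⟩ := hB
      rw [hχ₀]
      exact (blockOf_eq_of_mem hMp hmem).symm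
    rw [Set.indicator_of_notMem hnot, sub_zero] at h1
    exact ⟨n, hn, ratio_ideal hM hm0 h1⟩

end Cfsg.Agent.S4430
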