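import Cfsg.Statements.S4431
import Cfsg.Agent.Lib.helper22.IndBlock

set_option autoImplicit false
open Cfsg

namespace Cfsg.Agent.S4431

open Cfsg.Agent.Lib.helper5 Cfsg.Agent.Lib.helper23 Cfsg.Agent.Lib.helper24 Cfsg.Agent.Lib.helper22

theorem result {G : Type*} [Group G] [Fintype G] (p : ℕ) [Fact p.Prime] (M : Ideal Cfsg.AlgInt) (hM : Cfsg.IsPModular p M) (H : Subgroup G) [Fintype H] (b : Set (Cfsg.IrrCharacter H)) (B₀ : Set (Cfsg.IrrCharacter G)) (hind : Cfsg.IsInducedBlock M H b B₀) (χ : Cfsg.IrrCharacter G) (ψ : Cfsg.IrrCharacter H) (hψ : ψ ∈ b) : (χ ∉ B₀ → Cfsg.MemLocalIdeal M (Cfsg.classInner (fun h : H => if p ∣ orderOf h then (0 : ℂ) else ((p ^ (Nat.card H).factorization p : ℕ) : ℂ) * (χ : G → ℂ) h) (ψ : H → ℂ) / (ψ : H → ℂ) 1)) ∧ (χ ∈ B₀ → Cfsg.blockHeight p B₀ (χ : G → ℂ) = 0 → ¬ Cfsg.MemLocalIdeal M (Cfsg.classInner (fun h : H => if p ∣ orderOf h then (0 : ℂ) else ((p ^ (Nat.card H).factorization p : ℕ) : ℂ) * (χ : G → ℂ)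 h) (ψ : H → ℂ) / (ψ : H → ℂ) 1)) := by
  classical
  have : Fintype (Cfsg.IrrCharacter G) := Fintype.ofFinite _
  have : Fintype (Cfsg.IrrCharacter H) := Fintype.ofFinite _
  have hMp := isPModular_isPrime hM
  have hp : p.Prime := hM.1
  obtain ⟨χ₀, hχ₀⟩ := hind.2.1
  have hχ₀mem : χ₀ ∈ B₀ := by
    rw [hχ₀]
    exact mem_blockOf_self hMp.ne_top χ₀
  rw [inner_regTrunc H p _ χ ψ]
  have hosima : coord (regConj p χ.1) ∈ osimaRing G M hMp :=
    coord_mem_osimaRing hMp (regConj_isClassFunction p (isClassFunction_irr χ))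
      (fun g => regConj_memLocalRing hMp.ne_top p (isCharacter_irr χ) g)
  have hcard : (Nat.card H : ℕ) ≠ 0 := Nat.card_pos.ne'
  have e1 := Nat.ordProj_mul_ordCompl_eq_self (Nat.card H) p
  have hnd := Nat.not_dvd_ordCompl hp hcard
  set a := (Nat.card H).factorization p
  set h' := Nat.card H / p ^ a
  have hp0 : (p : ℂ) ≠ 0 := by exact_mod_cast hp.ne_zero
  have hh'0 : (h' : ℂ) ≠ 0 := by
    intro h0
    have : h' = 0 := by exact_mod_cast h0
    rw [this, mul_zero] at e1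
    exact hcard e1.symm
  have hc : ((p ^ a : ℕ) : ℂ) / (Nat.card H : ℂ) = 1 / (h' : ℂ) := by
    rw [← e1]
    push_cast
    field_simp
  rw [hc]
  have hcR : Cfsg.MemLocalRing M (1 / (h' : ℂ)) := by
    have h1 : ¬ Cfsg.MemLocalIdeal M (h' : ℂ) := fun h => hnd ((memLocalIdeal_natCast_iff hM h').mp h)
    have := memLocalRing_inv (memLocalRing_natCast hMp.ne_top h') h1
    rwa [one_div]
  constructor
  · intro hχ
    have h1 := brFun_top_of_induced H hMp hind hψ hχ₀mem hosima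
    have h2 : coord (regConj p χ.1) χ₀ = 0 := by
      have h3 := coord_regConj p χ₀ χ
      rw [inner_ptrunc_eq_zero_of_not_mem hM χ₀ χ₀ χ (mem_blockOf_self hMp.ne_top χ₀)
        (by rw [← hχ₀]; exact hχ), mul_zero] at h3
      have h4 : ((p ^ (Nat.card G).factorization p : ℕ) : ℂ) ≠ 0 := by
        exact_mod_cast (pow_pos hp.pos _).ne'
      have h5 := irr_one_ne_zero χ₀
      rcases mul_eq_zero.mp h3 with h6 | h6
      · rcases mul_eq_zero.mp h6 with h7 | h7
        · exact h7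
        · exact absurd h7 h5
      · exact absurd h6 h4
    rw [h2, sub_zero] at h1
    exact memLocalIdeal_mul_left hMp hcR h1
  · intro hχ h0 hcon
    have h1 := brFun_top_of_induced H hMp hind hψ hχ hosima
    have h2 : HtPair p χ χ := (height_zero_iff hM B₀ hind.2.1 χ hχ).2.mp h0 χ hχ
    have h3 := (htPair_iff hM χ χ).mp h2
    apply h3
    have h4 : Cfsg.MemLocalIdeal M (brFun H ⊤ ψ (coord (regConj p χ.1))) := by
      have h5 := memLocalIdeal_mul_left hMp (memLocalRing_natCast hMp.ne_top h') hcon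
      have e : (h' : ℂ) * (1 / (h' : ℂ) * brFun H ⊤ ψ (coord (regConj p χ.1)))
          = brFun H ⊤ ψ (coord (regConj p χ.1)) := by
        field_simp
      rwa [e] at h5
    have h6 := memLocalIdeal_sub hMp h4 h1
    rwa [sub_sub_cancel] at h6

end Cfsg.Agent.S4431
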