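import Cfsg.Statements.S4457
import Cfsg.Agent.Lib.helper22.TwoDeg

set_option autoImplicit false
open Cfsg

namespace Cfsg.Agent.S4457

theorem result {G : Type*} [Group G] [Finite G] (m : ℕ) (hcd : ∀ χ : Cfsg.IrrCharacter G, Cfsg.charDegree (χ : G → ℂ) = 1 ∨ Cfsg.charDegree (χ : G → ℂ) = m) (hm : ∃ χ : Cfsg.IrrCharacter G, Cfsg.charDegree (χ : G → ℂ) = m) (hm1 : m ≠ 1) : (∃ A : Subgroup G, A.Normal ∧ (∀ a ∈ A, ∀ b ∈ A, a * b = b * a) ∧ A.index = m) ∨ ∃ p e : ℕ, p.Prime ∧ m = p ^ e ∧ ∃ P A : Subgroup G, P.Normal ∧ A.Normal ∧ IsPGroup p P ∧ (∀ a ∈ A, ∀ b ∈ A, a * b = b * a) ∧ P ⊓ A = ⊥ ∧ P ⊔ A = ⊤ := by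
  rcases Cfsg.Agent.Lib.helper22.two_deg_structure m hm1 hcd hm with
    ⟨A, hAn, hAab, hAidx, -⟩ | ⟨p, e, hp, hme, P, A, hPn, hAn, hP, hAZ, hinf, hsup⟩
  · exact Or.inl ⟨A, hAn, hAab, hAidx⟩
  · refine Or.inr ⟨p, e, hp, hme, P, A, hPn, hAn, hP, ?_, hinf, hsup⟩
    intro a ha b _
    exact ((Subgroup.mem_center_iff.mp (hAZ ha)) b).symm

end Cfsg.Agent.S4457
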