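import Cfsg.Statements.S4458
import Cfsg.Agent.Lib.helper22.TwoDeg

set_option autoImplicit false
open Cfsg

namespace Cfsg.Agent.S4458

theorem result {G : Type*} [Group G] [Finite G] (m : ℕ) (hcd : ∀ χ : Cfsg.IrrCharacter G, Cfsg.charDegree (χ : G → ℂ) = 1 ∨ Cfsg.charDegree (χ : G → ℂ) = m) (hm : ∃ χ : Cfsg.IrrCharacter G, Cfsg.charDegree (χ : G → ℂ) = m) (hm1 : m ≠ 1) : ∀ a ∈ commutator G, ∀ b ∈ commutator G, a * b = b * a := by
  rcases Cfsg.Agent.Lib.helper22.two_deg_structure m hm1 hcd hm with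
    ⟨A, hAn, hAab, hAidx, hGA⟩ | ⟨p, e, hp, hme, P, A, hPn, hAn, hP, hAZ, hinf, hsup⟩
  · intro a ha b hb
    exact hAab a (hGA ha) b (hGA hb)
  · exact Cfsg.Agent.Lib.helper22.derived_comm_of_central_pgroup m hcd p hp P A hAn hP hAZ hsup

end Cfsg.Agent.S4458
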