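import Cfsg.Statements.S4459
import Cfsg.Agent.Lib.helper22.DegP

set_option autoImplicit false
open Cfsg

namespace Cfsg.Agent.S4459

open Cfsg.Agent.Lib.helper22 Cfsg.Agent.Lib.helper24 in
theorem forward {G : Type*} [Group G] [Finite G] (hG : ∃ a b : G, a * b ≠ b * a) (p : ℕ)
    (hp : p.Prime)
    (hcd : ∀ χ : Cfsg.IrrCharacter G, Cfsg.charDegree (χ : G → ℂ) = 1 ∨
      Cfsg.charDegree (χ : G → ℂ) = p)
    (hex : ∃ χ : Cfsg.IrrCharacter G, Cfsg.charDegree (χ : G → ℂ) = p) :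
    (∃ A : Subgroup G, A.Normal ∧ (∀ a ∈ A, ∀ b ∈ A, a * b = b * a) ∧ A.index = p) ∨
      (Subgroup.center G).index = p ^ 3 := by
  rcases two_deg_structure p hp.ne_one hcd hex with
    ⟨A, hAn, hAab, hAidx, -⟩ | ⟨p', e, hp', hpe, P, A, hPn, hAn, hP, hAZ, hinf, hsup⟩
  · exact Or.inl ⟨A, hAn, hAab, hAidx⟩
  · have hpp : p' = p := by
      have he : e ≠ 0 := by
        rintro rfl
        rw [pow_zero] at hpe
        exact hp.ne_one hpe
      have h1 : p' ∣ p := by
        rw [hpe]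
        exact dvd_pow_self p' he
      exact (Nat.prime_dvd_prime_iff_eq hp' hp).mp h1
    rw [hpp] at hP
    have hfp : Fact p.Prime := ⟨hp⟩
    have hsurj : Function.Surjective
        ((QuotientGroup.mk' (Subgroup.center G)).comp P.subtype) := by
      intro x
      obtain ⟨g, rfl⟩ := QuotientGroup.mk'_surjective (Subgroup.center G) x
      have hg : g ∈ (((P ⊔ A : Subgroup G)) : Set G) := by
        rw [hsup]
        exact Subgroup.mem_top g
      rw [Subgroup.mul_normal] at hg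
      obtain ⟨u, hu, a, ha, rfl⟩ := Set.mem_mul.mp hg
      refine ⟨⟨u, hu⟩, ?_⟩
      show (QuotientGroup.mk' (Subgroup.center G)) u
        = (QuotientGroup.mk' (Subgroup.center G)) (u * a)
      rw [map_mul]
      have h2 : (QuotientGroup.mk' (Subgroup.center G)) a = 1 :=
        (QuotientGroup.eq_one_iff a).mpr (hAZ ha)
      rw [h2, mul_one]
    have hQp : IsPGroup p (G ⧸ Subgroup.center G) := hP.of_surjective _ hsurj
    obtain ⟨k, hk⟩ := IsPGroup.iff_card.mp hQp
    exact degp_pgroup_case p hp hcd hG ⟨k, hk⟩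

open Cfsg.Agent.Lib.helper22 Cfsg.Agent.Lib.helper24 in
theorem backward {G : Type*} [Group G] [Finite G] (hG : ∃ a b : G, a * b ≠ b * a) (p : ℕ)
    (hp : p.Prime)
    (h : (∃ A : Subgroup G, A.Normal ∧ (∀ a ∈ A, ∀ b ∈ A, a * b = b * a) ∧ A.index = p) ∨
      (Subgroup.center G).index = p ^ 3) :
    (∀ χ : Cfsg.IrrCharacter G, Cfsg.charDegree (χ : G → ℂ) = 1 ∨
      Cfsg.charDegree (χ : G → ℂ) = p) ∧
    ∃ χ : Cfsg.IrrCharacter G, Cfsg.charDegree (χ : G → ℂ) = p := by
  have hdeg : ∀ χ : IrrCharacter G, charDegree χ.1 = 1 ∨ charDegree χ.1 = p := by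
    intro χ
    rcases h with ⟨A, hAn, hAab, hAidx⟩ | hZ
    · have h1 := charDegree_dvd_index_abelian_normal χ A hAab
      rw [hAidx] at h1
      exact (Nat.dvd_prime hp).mp h1
    · have h1 := charDegree_dvd_index_center χ
      have h2 := charDegree_sq_le_index_center χ
      rw [hZ] at h1 h2
      obtain ⟨i, hi, hi2⟩ := (Nat.dvd_prime_pow hp).mp h1
      rw [hi2] at h2 ⊢
      have hi1 : i ≤ 1 := by
        by_contra hgt
        push Not at hgt
        have h3 : p ^ 4 ≤ (p ^ i) ^ 2 := by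
          rw [← pow_mul]
          exact Nat.pow_le_pow_right hp.pos (by omega)
        have h4 : p ^ 3 < p ^ 4 := Nat.pow_lt_pow_right hp.one_lt (by norm_num)
        omega
      interval_cases i
      · left
        simp
      · right
        simp
  refine ⟨hdeg, ?_⟩
  by_contra hno
  push Not at hno
  have hlin : ∀ χ : IrrCharacter G, charDegree χ.1 = 1 :=
    fun χ => (hdeg χ).resolve_right (hno χ)
  obtain ⟨a, b, hab⟩ := hG
  exact hab (comm_of_all_linear hlin a b)

theorem result {G : Type*} [Group G] [Finite G] (hG : ∃ a b : G, a * b ≠ b * a) (p : ℕ) (hp : p.Prime) : ((∀ χ : Cfsg.IrrCharacter G, Cfsg.charDegree (χ : G → ℂ) = 1 ∨ Cfsg.charDegree (χ : G → ℂ) = p) ∧ ∃ χ : Cfsg.IrrCharacter G, Cfsg.charDegree (χ : G → ℂ) = p) ↔ ((∃ A : Subgroup G, A.Normal ∧ (∀ a ∈ A, ∀ b ∈ A, a * b = b * a) ∧ A.index = p) ∨ (Subgroup.center G).index = p ^ 3) := by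
  constructor
  · rintro ⟨hcd, hex⟩
    exact forward hG p hp hcd hex
  · intro h
    exact backward hG p hp h

end Cfsg.Agent.S4459
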