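import Cfsg.Statements.S4477
import Cfsg.Agent.S4058
import Cfsg.Agent.S4476

set_option autoImplicit false
open Cfsg

namespace Cfsg.Agent.S4477

open Cfsg.Agent.Lib.helper24 Cfsg.Agent.S4058
open scoped ComplexConjugate

universe u

section

variable {G : Type u} [Group G] [Fintype G]

theorem eta_norm (η : G →* ℂˣ) (g : G) : (η g : ℂ) * conj (η g : ℂ) = 1 := by
  have h1 : (η g : ℂ) ^ Nat.card G = 1 := by
    rw [← Units.val_pow_eq_pow_val, ← map_pow, pow_card_eq_one', map_one, Units.val_one]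
  have h2 : ‖(η g : ℂ)‖ = 1 := Complex.norm_eq_one_of_pow_eq_one h1 (Nat.card_pos.ne')
  rw [Complex.mul_conj, Complex.normSq_eq_norm_sq, h2]
  simp

theorem etw_irr (η : G →* ℂˣ) (χ : IrrCharacter G) :
    IsIrrCharacter G (fun g => (η g : ℂ) * χ.1 g) := by
  apply isIrrCharacter_of_inner_self_eq_one
  · exact isCharacter_mul (isCharacter_hom ((Units.coeHom ℂ).comp η)) (isCharacter_irr χ)
  · have h := irr_orthonormal χ χ
    rw [if_pos rfl] at h
    rw [← h]
    unfold classInner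
    congr 1
    apply Finset.sum_congr rfl
    intro g _
    rw [map_mul]
    have := eta_norm η g
    linear_combination (χ.1 g * conj (χ.1 g)) * this

noncomputable def etw (η : G →* ℂˣ) (χ : IrrCharacter G) : IrrCharacter G :=
  ⟨fun g => (η g : ℂ) * χ.1 g, etw_irr η χ⟩

theorem etw_apply (η : G →* ℂˣ) (χ : IrrCharacter G) (g : G) :
    (etw η χ).1 g = (η g : ℂ) * χ.1 g := rfl

theorem fixed_nonvanish (h2 : ∀ x : G, x ^ 2 ∈ frattini G) (χ : IrrCharacter G) (d : ℕ)
    (hd : χ.1 1 = d) [Finite ((G ⧸ frattini G) →* ℂˣ)]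
    (hS : ∀ (l : (G ⧸ frattini G) →* ℂˣ) (g : G), lc l g * χ.1 g = χ.1 g)
    (hcard : d ^ 2 ≤ Nat.card ((G ⧸ frattini G) →* ℂˣ)) (g₀ : G) :
    χ.1 g₀ ≠ 0 ↔ ∀ l : (G ⧸ frattini G) →* ℂˣ, lc l g₀ = 1 := by
  classical
  have : Fintype ((G ⧸ frattini G) →* ℂˣ) := Fintype.ofFinite _
  set K : Finset G := Finset.univ.filter (fun g => ∀ l : (G ⧸ frattini G) →* ℂˣ, lc l g = 1)
    with hK
  have hf : Finset.univ.filter (fun g => g ∈ K) = K := by
    ext g
    simp
  have hK1 : ∀ g : G, χ.1 g ≠ 0 → g ∈ K := by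
    intro g hg
    rw [hK, Finset.mem_filter]
    refine ⟨Finset.mem_univ _, fun l => ?_⟩
    have h1 := hS l g
    have h3 : (lc l g - 1) * χ.1 g = 0 := by linear_combination h1
    rcases mul_eq_zero.mp h3 with h4 | h4
    · exact sub_eq_zero.mp h4
    · exact absurd h4 hg
  have hin : ∀ g ∈ K, ∑ l : (G ⧸ frattini G) →* ℂˣ, lc l g
      = (Nat.card ((G ⧸ frattini G) →* ℂˣ) : ℂ) := by
    intro g hg
    rw [hK, Finset.mem_filter] at hg
    rw [Finset.sum_congr rfl (fun l _ => hg.2 l), Finset.sum_const, Finset.card_univ,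
      Nat.card_eq_fintype_card]
    simp
  have hout : ∀ g ∉ K, ∑ l : (G ⧸ frattini G) →* ℂˣ, lc l g = 0 := by
    intro g hg
    rw [hK, Finset.mem_filter] at hg
    push Not at hg
    obtain ⟨l₀, hl₀⟩ := hg (Finset.mem_univ _)
    have h3 : lc l₀ g = -1 := (lc_pm h2 _ g).resolve_left hl₀
    have h4 : ∑ l : (G ⧸ frattini G) →* ℂˣ, lc l g
        = ∑ l : (G ⧸ frattini G) →* ℂˣ, lc (l₀ * l) g :=
      (Fintype.sum_equiv (Equiv.mulLeft l₀)
        (fun l : (G ⧸ frattini G) →* ℂˣ => lc (l₀ * l) g)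
        (fun l : (G ⧸ frattini G) →* ℂˣ => lc l g) (fun l => rfl)).symm
    have h5 : ∑ l : (G ⧸ frattini G) →* ℂˣ, lc (l₀ * l) g
        = - ∑ l : (G ⧸ frattini G) →* ℂˣ, lc l g := by
      rw [← Finset.sum_neg_distrib]
      apply Finset.sum_congr rfl
      intro l _
      rw [lc_mul, h3]
      ring
    rw [h5] at h4
    have h6 : (2 : ℂ) * ∑ l : (G ⧸ frattini G) →* ℂˣ, lc l g = 0 := by
      linear_combination h4
    exact (mul_eq_zero.mp h6).resolve_left two_ne_zero
  have hA : ∑ g : G, ∑ l : (G ⧸ frattini G) →* ℂˣ, lc l g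
      = (K.card : ℂ) * (Nat.card ((G ⧸ frattini G) →* ℂˣ) : ℂ) := by
    rw [← Finset.sum_filter_add_sum_filter_not Finset.univ (fun g => g ∈ K)]
    have e1 : ∑ g ∈ Finset.univ.filter (fun g => g ∈ K),
        ∑ l : (G ⧸ frattini G) →* ℂˣ, lc l g
        = ∑ g ∈ Finset.univ.filter (fun g => g ∈ K),
          (Nat.card ((G ⧸ frattini G) →* ℂˣ) : ℂ) :=
      Finset.sum_congr rfl (fun g hg => hin g (Finset.mem_filter.mp hg).2)
    have e2 : ∑ g ∈ Finset.univ.filter (fun g => g ∉ K),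
        ∑ l : (G ⧸ frattini G) →* ℂˣ, lc l g = 0 :=
      Finset.sum_eq_zero (fun g hg => hout g (Finset.mem_filter.mp hg).2)
    rw [e1, e2, add_zero, Finset.sum_const, nsmul_eq_mul, hf]
  have hB : ∑ g : G, ∑ l : (G ⧸ frattini G) →* ℂˣ, lc l g = (Nat.card G : ℂ) := by
    rw [Finset.sum_comm]
    have e1 : ∀ l : (G ⧸ frattini G) →* ℂˣ, ∑ g : G, lc l g
        = if l = 1 then (Nat.card G : ℂ) else 0 := by
      intro l
      split_ifs with hl
      · rw [hl]
        simp [lc_one, Nat.card_eq_fintype_card]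
      · exact sum_lc_of_ne_one h2 l hl
    rw [Finset.sum_congr rfl (fun l _ => e1 l)]
    simp
  have hKS : K.card * Nat.card ((G ⧸ frattini G) →* ℂˣ) = Nat.card G := by
    have h := hA.symm.trans hB
    exact_mod_cast h
  have h3 : ∑ g : G, ‖χ.1 g‖ ^ 2 = (Nat.card G : ℝ) := by
    have h := irr_orthonormal χ χ
    rw [if_pos rfl] at h
    unfold classInner at h
    have hne : (Nat.card G : ℂ) ≠ 0 := NeZero.ne _
    have h1 : ∑ g : G, χ.1 g * conj (χ.1 g) = (Nat.card G : ℂ) := by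
      field_simp at h
      exact h
    have h4 : ((∑ g : G, ‖χ.1 g‖ ^ 2 : ℝ) : ℂ) = ((Nat.card G : ℝ) : ℂ) := by
      push_cast
      rw [← h1]
      apply Finset.sum_congr rfl
      intro g _
      rw [Complex.mul_conj, Complex.normSq_eq_norm_sq]
      push_cast
      ring
    exact Complex.ofReal_injective h4
  constructor
  · intro hne
    have := hK1 g₀ hne
    rw [hK, Finset.mem_filter] at this
    exact this.2
  · intro hg₀ hzero
    have hg₀K : g₀ ∈ K := by
      rw [hK, Finset.mem_filter]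
      exact ⟨Finset.mem_univ _, hg₀⟩
    have hd0 : d ≠ 0 := by
      intro h0
      rw [h0] at hd
      exact irr_one_ne_zero χ (by rw [hd]; simp)
    have hnorm : (Nat.card G : ℝ) ≤ ((K.card : ℝ) - 1) * (d : ℝ) ^ 2 := by
      rw [← h3, ← Finset.sum_filter_add_sum_filter_not Finset.univ (fun g => g ∈ K)]
      have e2 : ∑ g ∈ Finset.univ.filter (fun g => g ∉ K), ‖χ.1 g‖ ^ 2 = 0 := by
        apply Finset.sum_eq_zero
        intro g hg
        have hgK := (Finset.mem_filter.mp hg).2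
        have h5 : χ.1 g = 0 := by
          by_contra hne0
          exact hgK (hK1 g hne0)
        rw [h5]
        simp
      rw [e2, add_zero, hf, ← Finset.add_sum_erase K _ hg₀K, hzero]
      have e1 : ∑ g ∈ K.erase g₀, ‖χ.1 g‖ ^ 2 ≤ ∑ g ∈ K.erase g₀, (d : ℝ) ^ 2 := by
        apply Finset.sum_le_sum
        intro g _
        have h6 := irr_norm_le χ g
        rw [hd] at h6
        have h7 : ‖(d : ℂ)‖ = (d : ℝ) := by simp
        rw [h7] at h6
        exact pow_le_pow_left₀ (norm_nonneg _) h6 2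
      rw [Finset.sum_const, nsmul_eq_mul, Finset.card_erase_of_mem hg₀K] at e1
      have hKpos : 1 ≤ K.card := Finset.card_pos.mpr ⟨g₀, hg₀K⟩
      rw [Nat.cast_sub hKpos] at e1
      simp only [norm_zero, ne_eq, OfNat.ofNat_ne_zero, not_false_eq_true, zero_pow, zero_add]
      push_cast at e1
      exact e1
    have hle : ((K.card : ℝ)) * (d : ℝ) ^ 2 ≤ (Nat.card G : ℝ) := by
      have h8 : K.card * d ^ 2 ≤ Nat.card G := by
        rw [← hKS]
        exact Nat.mul_le_mul_left _ hcard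
      exact_mod_cast h8
    have hdpos : (0 : ℝ) < (d : ℝ) ^ 2 := by positivity
    nlinarith

theorem core (hG : IsPGroup 2 G) (hidx : Nat.card (G ⧸ frattini G) = 4)
    (η : G →* ℂˣ) (g₀ : G) (hg₀ : ∀ l : (G ⧸ frattini G) →* ℂˣ, lc l g₀ = 1) (hη1 : η g₀ ≠ 1)
    (hη2 : ∀ g : G, (∀ l : (G ⧸ frattini G) →* ℂˣ, lc l g = 1) → η g * η g = 1) :
    4 ∣ Nat.card {s : G // s * s = 1} := by
  classical
  have := Fintype.ofFinite (IrrCharacter G)
  obtain ⟨hc, h2⟩ := Cfsg.Agent.S0012.result 2 hG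
  let _ := twAction h2
  have hΛ : Nat.card ((G ⧸ frattini G) →* ℂˣ) = 4 := by rw [card_dual hc, hidx]
  obtain ⟨n, hn⟩ := IsPGroup.iff_card.mp hG
  have hfin : Finite ((G ⧸ frattini G) →* ℂˣ) :=
    Nat.finite_of_card_ne_zero (by rw [hΛ]; norm_num)
  have hν : ∀ χ : IrrCharacter G, ∃ z : ℤ,
      (Nat.card G : ℂ)⁻¹ * ∑ s : G, χ.1 (s * s) = z ∧
      ((z = 0 ∧ irrConj χ ≠ χ) ∨ ((z = 1 ∨ z = -1) ∧ irrConj χ = χ)) := by
    intro χ
    rcases frobenius_schur χ with ⟨h, hc'⟩ | ⟨h | h, hc'⟩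
    · exact ⟨0, by rw [h]; simp, Or.inl ⟨rfl, hc'⟩⟩
    · exact ⟨1, by rw [h]; simp, Or.inr ⟨Or.inl rfl, hc'⟩⟩
    · exact ⟨-1, by rw [h]; simp, Or.inr ⟨Or.inr rfl, hc'⟩⟩
  have hdeg : ∀ χ : IrrCharacter G, ∃ d : ℕ, χ.1 1 = d ∧ d ∣ Nat.card G :=
    fun χ => irr_degree_dvd_card χ
  choose z hz hz3 using hν
  choose d hd hdd using hdeg
  have hzinv : ∀ (l : (G ⧸ frattini G) →* ℂˣ) (χ : IrrCharacter G), z (l • χ) = z χ := by
    intro l χ
    have h1 : (z (l • χ) : ℂ) = z χ := by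
      rw [← hz, ← hz]
      congr 1
      apply Finset.sum_congr rfl
      intro s _
      show lc l (s * s) * χ.1 (s * s) = χ.1 (s * s)
      rw [map_mul, lc_sq h2, one_mul]
    exact_mod_cast h1
  have hdinv : ∀ (l : (G ⧸ frattini G) →* ℂˣ) (χ : IrrCharacter G), d (l • χ) = d χ := by
    intro l χ
    have h1 : (d (l • χ) : ℂ) = d χ := by
      rw [← hd, ← hd]
      show lc l 1 * χ.1 1 = χ.1 1
      rw [map_one, one_mul]
    exact_mod_cast h1
  have hcount := Cfsg.Agent.S0159.result (G := G)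
  rw [finsum_eq_sum_of_fintype] at hcount
  have hI : (Nat.card {s : G // s * s = 1} : ℤ) = ∑ χ : IrrCharacter G, z χ * (d χ : ℤ) := by
    have h1 : ((Nat.card {s : G // s * s = 1} : ℤ) : ℂ)
        = ((∑ χ : IrrCharacter G, z χ * (d χ : ℤ) : ℤ) : ℂ) := by
      push_cast
      rw [hcount]
      apply Finset.sum_congr rfl
      intro χ _
      rw [hz, hd]
    exact_mod_cast h1
  obtain ⟨F₀, hF₀⟩ : ∃ F₀ : IrrCharacter G → Prop, ∀ χ, F₀ χ ↔
      (d χ = 2 ∧ ∀ l : (G ⧸ frattini G) →* ℂˣ, l • χ = χ) := ⟨_, fun χ => Iff.rfl⟩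
  have hF₀inv : ∀ (l : (G ⧸ frattini G) →* ℂˣ) (χ : IrrCharacter G), F₀ (l • χ) ↔ F₀ χ := by
    intro l χ
    constructor
    · intro h
      have h1 := ((hF₀ _).mp h).2 l⁻¹
      have h1' : l⁻¹ • (l • χ) = χ := inv_smul_smul l χ
      rw [h1'] at h1
      rw [← h1] at h
      exact h
    · intro h
      rw [((hF₀ _).mp h).2 l]
      exact h
  have horb : ∀ χ : IrrCharacter G, (4 : ℤ) ∣
      (Nat.card (MulAction.orbit ((G ⧸ frattini G) →* ℂˣ) χ) : ℤ)
        * (if F₀ χ then 0 else z χ * (d χ : ℤ)) := by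
    intro χ
    by_cases hχ : F₀ χ
    · rw [if_pos hχ, mul_zero]
      exact dvd_zero _
    · rw [if_neg hχ]
      have h1 : 4 ∣ Nat.card (MulAction.orbit ((G ⧸ frattini G) →* ℂˣ) χ) * d χ := by
        have hidx' : Nat.card (MulAction.orbit ((G ⧸ frattini G) →* ℂˣ) χ)
            = (MulAction.stabilizer ((G ⧸ frattini G) →* ℂˣ) χ).index :=
          Nat.card_congr (MulAction.orbitEquivQuotientStabilizer _ χ)
        have hmul := Subgroup.index_mul_card (MulAction.stabilizer ((G ⧸ frattini G) →* ℂˣ) χ)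
        rw [hΛ] at hmul
        have hSb : Nat.card (MulAction.stabilizer ((G ⧸ frattini G) →* ℂˣ) χ) ≤ d χ ^ 2 := by
          apply stab_bound h2 χ (d χ) (hd χ)
          intro l hl g
          have h3 : l • χ = χ := MulAction.mem_stabilizer_iff.mp hl
          exact congrFun (congrArg Subtype.val h3) g
        have hSdvd : Nat.card (MulAction.stabilizer ((G ⧸ frattini G) →* ℂˣ) χ) ∣ 2 ^ 2 :=
          Dvd.intro_left _ hmul
        obtain ⟨s, hsD, hs⟩ := (Nat.dvd_prime_pow Nat.prime_two).mp hSdvd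
        have hddv := hdd χ
        rw [hn] at hddv
        obtain ⟨a, _, ha⟩ := (Nat.dvd_prime_pow Nat.prime_two).mp hddv
        rw [hs, ha, ← pow_mul] at hSb
        have hsa : s ≤ a * 2 := (Nat.pow_le_pow_iff_right (by norm_num)).mp hSb
        have hmul' := hmul
        rw [hs] at hmul
        have hix : (MulAction.stabilizer ((G ⧸ frattini G) →* ℂˣ) χ).index = 2 ^ (2 - s) := by
          have h4 : 4 = 2 ^ (2 - s) * 2 ^ s := by
            rw [← pow_add, Nat.sub_add_cancel hsD]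
            norm_num
          rw [h4] at hmul
          exact Nat.eq_of_mul_eq_mul_right (by positivity) hmul
        have hsa2 : s ≤ a := by
          by_contra hcon
          push Not at hcon
          have ha1 : a = 1 := by omega
          have hs2 : s = 2 := by omega
          apply hχ
          rw [hF₀]
          refine ⟨by rw [ha, ha1]; rfl, ?_⟩
          have htop : MulAction.stabilizer ((G ⧸ frattini G) →* ℂˣ) χ = ⊤ := by
            apply Subgroup.eq_top_of_card_eq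
            rw [hs, hs2, hΛ]
            rfl
          intro l
          have : l ∈ MulAction.stabilizer ((G ⧸ frattini G) →* ℂˣ) χ := by
            rw [htop]
            exact Subgroup.mem_top l
          exact MulAction.mem_stabilizer_iff.mp this
        rw [hidx', hix, ha, ← pow_add]
        have h22 : (4 : ℕ) = 2 ^ 2 := by norm_num
        rw [h22]
        exact pow_dvd_pow 2 (by omega)
      obtain ⟨c, hc'⟩ := h1
      refine ⟨z χ * c, ?_⟩
      have h5 : ((Nat.card (MulAction.orbit ((G ⧸ frattini G) →* ℂˣ) χ) : ℤ) * (d χ : ℤ))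
          = (4 : ℤ) * c := by exact_mod_cast hc'
      linear_combination (z χ) * h5
  have hfinal := orbit_dvd (L := (G ⧸ frattini G) →* ℂˣ)
    (fun χ : IrrCharacter G => if F₀ χ then 0 else z χ * (d χ : ℤ))
    (fun l χ => by
      show (if F₀ (l • χ) then 0 else z (l • χ) * (d (l • χ) : ℤ)) = _
      rw [hzinv, hdinv]
      by_cases hχ : F₀ χ
      · rw [if_pos hχ, if_pos ((hF₀inv l χ).mpr hχ)]
      · rw [if_neg hχ, if_neg (fun h => hχ ((hF₀inv l χ).mp h))]) (4 : ℤ) horb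
  have hS : ∀ χ : IrrCharacter G, F₀ χ → ∀ g : G,
      (χ.1 g ≠ 0 ↔ ∀ l : (G ⧸ frattini G) →* ℂˣ, lc l g = 1) := by
    intro χ hχ g
    obtain ⟨hd2, hfix⟩ := (hF₀ χ).mp hχ
    apply fixed_nonvanish h2 χ (d χ) (hd χ)
    · intro l g
      exact congrFun (congrArg Subtype.val (hfix l)) g
    · rw [hd2, hΛ]
      norm_num
  have hηsq : ∀ χ : IrrCharacter G, F₀ χ → ∀ g : G, (η g : ℂ) * ((η g : ℂ) * χ.1 g) = χ.1 g := by
    intro χ hχ g
    by_cases h0 : χ.1 g = 0
    · rw [h0, mul_zero, mul_zero]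
    · have h1 := hη2 g ((hS χ hχ g).mp h0)
      have h2' : (η g : ℂ) * (η g : ℂ) = 1 := by
        rw [← Units.val_mul, h1, Units.val_one]
      rw [← mul_assoc, h2', one_mul]
  have hσF : ∀ χ : IrrCharacter G, F₀ χ → F₀ (etw η χ) := by
    intro χ hχ
    obtain ⟨hd2, hfix⟩ := (hF₀ χ).mp hχ
    rw [hF₀]
    constructor
    · have h1 : (d (etw η χ) : ℂ) = d χ := by
        rw [← hd, ← hd, etw_apply, map_one, Units.val_one, one_mul]
      have h2' : d (etw η χ) = d χ := by exact_mod_cast h1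
      rw [h2', hd2]
    · intro l
      apply Subtype.ext
      funext g
      show lc l g * ((η g : ℂ) * χ.1 g) = (η g : ℂ) * χ.1 g
      have h1 : lc l g * χ.1 g = χ.1 g := congrFun (congrArg Subtype.val (hfix l)) g
      linear_combination (η g : ℂ) * h1
  have hσσ : ∀ χ : IrrCharacter G, F₀ χ → etw η (etw η χ) = χ := by
    intro χ hχ
    apply Subtype.ext
    funext g
    exact hηsq χ hχ g
  have hσne : ∀ χ : IrrCharacter G, F₀ χ → etw η χ ≠ χ := by
    intro χ hχ heq
    have h1 : (η g₀ : ℂ) * χ.1 g₀ = χ.1 g₀ := congrFun (congrArg Subtype.val heq) g₀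
    have h0 : χ.1 g₀ ≠ 0 := (hS χ hχ g₀).mpr hg₀
    have h3 : ((η g₀ : ℂ) - 1) * χ.1 g₀ = 0 := by linear_combination h1
    rcases mul_eq_zero.mp h3 with h4 | h4
    · apply hη1
      apply Units.ext
      rw [Units.val_one]
      exact sub_eq_zero.mp h4
    · exact h0 h4
  have hσreal : ∀ χ : IrrCharacter G, F₀ χ → irrConj χ = χ → irrConj (etw η χ) = etw η χ := by
    intro χ hχ hreal
    apply Subtype.ext
    funext g
    rw [irrConj_apply, etw_apply, map_mul]
    have h1 : conj (χ.1 g) = χ.1 g := by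
      have := congrFun (congrArg Subtype.val hreal) g
      rw [irrConj_apply] at this
      exact this
    rw [h1]
    by_cases h0 : χ.1 g = 0
    · rw [h0, mul_zero, mul_zero]
    · have h2' := hη2 g ((hS χ hχ g).mp h0)
      have h3 : (η g : ℂ) * (η g : ℂ) = 1 := by
        rw [← Units.val_mul, h2', Units.val_one]
      have h4 := eta_norm η g
      have h5 : conj (η g : ℂ) = (η g : ℂ) := by
        have h6 : (η g : ℂ) * (conj (η g : ℂ) - (η g : ℂ)) = 0 := by
          linear_combination h4 - h3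
        rcases mul_eq_zero.mp h6 with h7 | h7
        · exact absurd h7 (Units.ne_zero _)
        · exact sub_eq_zero.mp h7
      rw [h5]
  have hpair : ∀ χ : IrrCharacter G, F₀ χ → (4 : ℤ) ∣ 2 * z χ + 2 * z (etw η χ) := by
    intro χ hχ
    have hχ' := hσF χ hχ
    rcases hz3 χ with ⟨h0, hnr⟩ | ⟨h1, hr⟩
    · rcases hz3 (etw η χ) with ⟨h0', _⟩ | ⟨_, hr'⟩
      · rw [h0, h0']
        exact dvd_zero _
      · exfalso
        apply hnr
        have := hσreal (etw η χ) hχ' hr'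
        rw [hσσ χ hχ] at this
        exact this
    · rcases hz3 (etw η χ) with ⟨_, hnr'⟩ | ⟨h1', _⟩
      · exact absurd (hσreal χ hχ hr) hnr'
      · rcases h1 with h1 | h1 <;> rcases h1' with h1' | h1' <;> rw [h1, h1'] <;> norm_num
  have hsum0 : (∑ χ ∈ Finset.univ.filter (fun χ : IrrCharacter G => F₀ χ),
      (((2 * z χ : ℤ)) : ZMod 4)) = 0 := by
    apply Finset.sum_involution (fun χ _ => etw η χ)
    · intro χ hχ
      have hχ' := (Finset.mem_filter.mp hχ).2
      rw [← Int.cast_add]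
      exact (ZMod.intCast_zmod_eq_zero_iff_dvd _ 4).mpr (hpair χ hχ')
    · intro χ hχ _
      exact hσne χ (Finset.mem_filter.mp hχ).2
    · intro χ hχ
      exact Finset.mem_filter.mpr ⟨Finset.mem_univ _, hσF χ (Finset.mem_filter.mp hχ).2⟩
    · intro χ hχ
      exact hσσ χ (Finset.mem_filter.mp hχ).2
  have hsum1 : (4 : ℤ) ∣ ∑ χ ∈ Finset.univ.filter (fun χ : IrrCharacter G => F₀ χ), 2 * z χ := by
    have h1 : (((∑ χ ∈ Finset.univ.filter (fun χ : IrrCharacter G => F₀ χ), 2 * z χ : ℤ)) : ZMod 4)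
        = 0 := by
      rw [Int.cast_sum]
      exact hsum0
    exact (ZMod.intCast_zmod_eq_zero_iff_dvd _ 4).mp h1
  have hsplit : ∑ χ : IrrCharacter G, z χ * (d χ : ℤ)
      = ∑ χ : IrrCharacter G, (if F₀ χ then 0 else z χ * (d χ : ℤ))
        + ∑ χ ∈ Finset.univ.filter (fun χ : IrrCharacter G => F₀ χ), 2 * z χ := by
    rw [Finset.sum_filter, ← Finset.sum_add_distrib]
    apply Finset.sum_congr rfl
    intro χ _
    by_cases hχ : F₀ χ
    · rw [if_pos hχ, if_pos hχ, ((hF₀ χ).mp hχ).1]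
      push_cast
      ring
    · rw [if_neg hχ, if_neg hχ, add_zero]
  have hdv : (4 : ℤ) ∣ (Nat.card {s : G // s * s = 1} : ℤ) := by
    rw [hI, hsplit]
    exact dvd_add hfinal hsum1
  exact_mod_cast hdv

end

theorem cyclic_of_quot {G : Type*} [Group G] [Finite G] (h : IsCyclic (G ⧸ frattini G)) :
    IsCyclic G := by
  obtain ⟨q, hq⟩ := h.exists_generator
  induction q using QuotientGroup.induction_on with
  | H g =>
  have htop : Subgroup.zpowers g ⊔ frattini G = ⊤ := by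
    rw [eq_top_iff]
    intro x _
    obtain ⟨k, hk⟩ := hq (QuotientGroup.mk x)
    have hk' : (QuotientGroup.mk g : G ⧸ frattini G) ^ k = QuotientGroup.mk x := hk
    rw [← QuotientGroup.mk_zpow] at hk'
    have h1 : (g ^ k)⁻¹ * x ∈ frattini G := QuotientGroup.eq.mp hk'
    have h2 : x = g ^ k * ((g ^ k)⁻¹ * x) := by group
    rw [h2]
    exact Subgroup.mul_mem _ (Subgroup.mem_sup_left (Subgroup.zpow_mem _ (Subgroup.mem_zpowers g) k))
      (Subgroup.mem_sup_right h1)
  have h3 : Subgroup.zpowers g = ⊤ := frattini_nongenerating htop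
  exact isCyclic_iff_exists_zpowers_eq_top.mpr ⟨g, h3⟩

theorem result {G : Type*} [Group G] [Finite G] (hG : IsPGroup 2 G) (ht : Nat.card {x : G // orderOf x = 2} % 4 = 1) : IsCyclic G ∨ (commutator G).index = 4 := by
  classical
  have := Fintype.ofFinite G
  obtain ⟨hc, h2⟩ := Cfsg.Agent.S0012.result 2 hG
  have hI : Nat.card {s : G // s * s = 1} % 4 = 2 := by
    rw [Cfsg.Agent.S4476.card_sq_one]
    omega
  obtain ⟨n, hn⟩ := IsPGroup.iff_card.mp hG
  obtain ⟨D, hD⟩ : ∃ D, Nat.card (G ⧸ frattini G) = 2 ^ D := by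
    have hdvd : Nat.card (G ⧸ frattini G) ∣ Nat.card G := Subgroup.card_quotient_dvd_card _
    rw [hn] at hdvd
    obtain ⟨D, _, hD⟩ := (Nat.dvd_prime_pow Nat.prime_two).mp hdvd
    exact ⟨D, hD⟩
  have hD3 : D < 3 := by
    by_contra h
    push Not at h
    have h8 : 2 ^ (2 * 1 + 1) ≤ Nat.card (G ⧸ frattini G) := by
      rw [hD]
      exact Nat.pow_le_pow_right (by norm_num) h
    have h4 := Cfsg.Agent.S4058.result hG 1 h8
    have hcongr : Nat.card {x : G // x ^ 2 = 1} = Nat.card {s : G // s * s = 1} :=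
      Nat.card_congr (Equiv.subtypeEquivRight (fun x => by rw [sq]))
    rw [hcongr] at h4
    have h44 : (2 : ℕ) ^ (1 + 1) = 4 := by norm_num
    rw [h44] at h4
    omega
  by_cases hD2 : D = 2
  · right
    have hidx4 : Nat.card (G ⧸ frattini G) = 4 := by
      rw [hD, hD2]
      norm_num
    by_contra hne
    have hlt : commutator G < frattini G := by
      refine lt_of_le_of_ne hc (fun h => hne ?_)
      rw [h, Subgroup.index_eq_card, hidx4]
    obtain ⟨g₀, hg₀Φ, hg₀⟩ := SetLike.exists_of_lt hlt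
    have ha : (Abelianization.of g₀ : Abelianization G) ≠ 1 := by
      intro h
      apply hg₀
      exact (QuotientGroup.eq_one_iff g₀).mp h
    obtain ⟨φ, hφ⟩ := CommGroup.exists_apply_ne_one_of_hasEnoughRootsOfUnity
      (Abelianization G) ℂ ha
    obtain ⟨η₀, hη₀⟩ : ∃ η₀ : G →* ℂˣ, η₀ g₀ ≠ 1 := ⟨φ.comp Abelianization.of, hφ⟩
    have hlcΦ : ∀ (l : (G ⧸ frattini G) →* ℂˣ), lc l g₀ = 1 := by
      intro l
      rw [lc_apply, (QuotientGroup.eq_one_iff g₀).mpr hg₀Φ, map_one, Units.val_one]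
    have hex : ∃ m : ℕ, ∀ g : G, (∀ l : (G ⧸ frattini G) →* ℂˣ, lc l g = 1) →
        η₀ g ^ (2 ^ m) = 1 := by
      refine ⟨n, fun g _ => ?_⟩
      rw [← map_pow, ← hn, pow_card_eq_one', map_one]
    have hm0 : Nat.find hex ≠ 0 := by
      intro h0
      have h1 := Nat.find_spec hex
      rw [h0] at h1
      have h3 := h1 g₀ hlcΦ
      rw [pow_zero, pow_one] at h3
      exact hη₀ h3
    obtain ⟨m', hm'⟩ := Nat.exists_eq_succ_of_ne_zero hm0
    have hmin : ¬ ∀ g : G, (∀ l : (G ⧸ frattini G) →* ℂˣ, lc l g = 1) → η₀ g ^ (2 ^ m') = 1 :=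
      Nat.find_min hex (by rw [hm']; exact Nat.lt_succ_self m')
    push Not at hmin
    obtain ⟨g₁, hg₁K, hg₁⟩ := hmin
    have hspec := Nat.find_spec hex
    rw [hm'] at hspec
    have h4 := core hG hidx4 (η₀ ^ (2 ^ m')) g₁ hg₁K
      (by rw [MonoidHom.pow_apply]; exact hg₁)
      (by
        intro g hg
        rw [MonoidHom.pow_apply, ← pow_add, ← two_mul, ← pow_succ']
        exact hspec g hg)
    omega
  · left
    apply cyclic_of_quot
    have hD1 : D = 0 ∨ D = 1 := by omega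
    rcases hD1 with h0 | h1
    · rw [h0, pow_zero] at hD
      have : Subsingleton (G ⧸ frattini G) := (Nat.card_eq_one_iff_unique.mp hD).1
      exact isCyclic_of_subsingleton
    · rw [h1, pow_one] at hD
      have hf : Fact (Nat.Prime 2) := ⟨Nat.prime_two⟩
      exact isCyclic_of_prime_card (p := 2) hD

end Cfsg.Agent.S4477
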