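import Cfsg.Statements.S4490
import Cfsg.Agent.Lib.helper22.Gow
import Cfsg.Agent.Lib.helper24.CharOps
import Cfsg.Agent.Lib.helper5.BlockHeight
import Cfsg.Agent.Lib.helper5.BlockDefect

set_option autoImplicit false
open Cfsg

namespace Cfsg.Agent.S4490

open Cfsg.Agent.Lib.helper24 Cfsg.Agent.Lib.helper23 Cfsg.Agent.Lib.helper22 Cfsg.Agent.Lib.helper5
open scoped ComplexConjugate

theorem result {G : Type*} [Group G] [Finite G] (M : Ideal Cfsg.AlgInt) (hM : Cfsg.IsPModular 2 M) (B : Set (Cfsg.IrrCharacter G)) (hB : Cfsg.IsPBlock M B) (P : Sylow 2 G) (hfull : Cfsg.IsDefectGroup 2 M B (P : Subgroup G)) (hnp : B ≠ Cfsg.principalBlock M G) : {ψ : Cfsg.IrrCharacter G | ∃ χ ∈ B, (ψ : G → ℂ) = fun g => (starRingEnd ℂ) ((χ : G → ℂ) g)} ≠ B := by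
  have := Fintype.ofFinite G
  have := Fintype.ofFinite (IrrCharacter G)
  have : Fact (Nat.Prime 2) := ⟨Nat.prime_two⟩
  intro hEq
  apply hnp
  have hdef : blockDefect 2 B = (Nat.card G).factorization 2 := by
    obtain ⟨χ₀, rfl⟩ := hB
    obtain ⟨g, hg, P', hP'⟩ := hfull
    have h1 := defect_class_factorization hM χ₀ g hg
    have h2 := Cfsg.Agent.Lib.helper5.card_sylow_map (Subgroup.centralizer ({g} : Set G)) P'
    rw [← hP'] at h2
    have h3 : Nat.card (P : Subgroup G) = 2 ^ (Nat.card G).factorization 2 :=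
      Sylow.card_eq_multiplicity P
    rw [h3] at h2
    have h4 := Nat.pow_right_injective (le_refl 2) h2
    rw [← h1, ← h4]
  apply gow_principal M hM B hB hdef
  intro ψ hψ
  refine ⟨irrConj ψ, ?_, ?_, ?_⟩
  · rw [← hEq]
    exact ⟨ψ, hψ, rfl⟩
  · rw [irrConj_apply, ← charDegree_cast, Complex.conj_natCast]
  · intro g _
    rw [irrConj_apply]

end Cfsg.Agent.S4490
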