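import Cfsg.Statements.S4493
import Cfsg.Agent.Lib.helper22.CliffDeg
import Cfsg.Agent.Lib.helper23.Ito
import Cfsg.Agent.Lib.helper24.CharKer
import Cfsg.Agent.Lib.helper24.CharMGroup
import Cfsg.Agent.Lib.helper8.CoprimeSZ

set_option autoImplicit false
open Cfsg

namespace Cfsg.Agent.S4493

open Cfsg.Agent.Lib.helper24 Cfsg.Agent.Lib.helper22

universe u

theorem forward {G : Type u} [Group G] [Finite G] (p : ℕ) (P : Subgroup G) [P.Normal]
    (hab : ∀ x ∈ P, ∀ y ∈ P, x * y = y * x) (hidx : ¬ p ∣ P.index) (χ : IrrCharacter G) :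
    ¬ p ∣ charDegree χ.1 := by
  obtain ⟨n, ρ, hirr, hρ⟩ := χ.2
  have h1 := Cfsg.Agent.Lib.helper23.ito_degree_dvd_index ρ P hab
  have h2 : charDegree χ.1 = Module.finrank ℂ (Fin n → ℂ) := by
    have h3 := charDegree_cast χ
    have h4 : χ.1 1 = (Module.finrank ℂ (Fin n → ℂ) : ℂ) := by
      rw [← hρ, Representation.char_one]
    rw [h4] at h3
    exact_mod_cast h3
  rw [h2]
  exact fun h => hidx (dvd_trans h h1)

theorem exists_normal_abelian_qgroup (G : Type u) [Group G] [Finite G] [Group.IsSolvable G]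
    [Nontrivial G] : ∃ (q : ℕ) (M : Subgroup G), q.Prime ∧ M.Normal ∧ M ≠ ⊥ ∧ IsPGroup q M ∧
      ∀ x ∈ M, ∀ y ∈ M, x * y = y * x := by
  obtain ⟨q, Q, hq, hQn, hQne, hQ⟩ := Cfsg.Agent.Lib.helper8.exists_normal_pgroup G
  have : Fact q.Prime := ⟨hq⟩
  have hnt : Nontrivial Q := by
    rw [Subgroup.nontrivial_iff_ne_bot]
    exact hQne
  have hcn : Nontrivial (Subgroup.center Q) := hQ.center_nontrivial
  refine ⟨q, (Subgroup.center Q).map Q.subtype, hq, inferInstance, ?_, ?_, ?_⟩
  · intro h
    rw [Subgroup.map_eq_bot_iff_of_injective _ Q.subtype_injective] at h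
    rw [Subgroup.nontrivial_iff_ne_bot] at hcn
    exact hcn h
  · exact (hQ.to_subgroup (Subgroup.center Q)).map Q.subtype
  · rintro x ⟨a, ha, rfl⟩ y ⟨b, hb, rfl⟩
    have := Subgroup.mem_center_iff.mp ha b
    have h2 := congrArg Q.subtype this
    simp only [map_mul] at h2
    exact h2.symm

theorem degrees_of_normal {G : Type u} [Group G] [Finite G] (p : ℕ) (K : Subgroup G) [K.Normal]
    (hdeg : ∀ χ : IrrCharacter G, ¬ p ∣ charDegree χ.1) (ψ : IrrCharacter K) :
    ¬ p ∣ charDegree ψ.1 := by
  obtain ⟨χ, hχ⟩ := exists_irr_over K ψ.2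
  obtain ⟨e, -, he⟩ := clifford_degree K χ ψ.2 hχ
  intro h
  apply hdeg χ
  rw [he]
  exact Dvd.dvd.mul_left h _

theorem central_of_invariant {G : Type u} [Group G] [Finite G] (M : Subgroup G) [hM : M.Normal]
    (hab : ∀ x ∈ M, ∀ y ∈ M, x * y = y * x)
    (hinv : ∀ lam : IrrCharacter M, Lib.helper24.conjStab M lam.1 = ⊤) :
    M ≤ Subgroup.center G := by
  intro x hx
  rw [Subgroup.mem_center_iff]
  intro g
  have h1 : IsConj (⟨g * x * g⁻¹, hM.conj_mem x hx g⟩ : M) ⟨x, hx⟩ := by
    rw [isConj_iff_irr_eq]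
    intro lam
    have h2 : g ∈ Lib.helper24.conjStab M lam.1 := by rw [hinv lam]; trivial
    rw [mem_conjStab] at h2
    exact congrFun h2 ⟨x, hx⟩
  obtain ⟨c, hc⟩ := isConj_iff.mp h1
  have h3 := congrArg Subtype.val hc
  simp only [Subgroup.coe_mul, Subgroup.coe_inv] at h3
  have h4 : (c : G) * (g * x * g⁻¹) = (g * x * g⁻¹) * c :=
    hab c c.2 (g * x * g⁻¹) (hM.conj_mem x hx g)
  rw [h4, mul_inv_cancel_right] at h3
  calc g * x = (g * x * g⁻¹) * g := by group
    _ = x * g := by rw [h3]

theorem backward (p : ℕ) (hp : p.Prime) (n : ℕ) : ∀ (G : Type u) [Group G] [Finite G],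
    Nat.card G = n → Group.IsSolvable G → (∀ χ : IrrCharacter G, ¬ p ∣ charDegree χ.1) →
    ∃ P : Subgroup G, P.Normal ∧ IsPGroup p P ∧ ¬ p ∣ P.index := by
  induction n using Nat.strong_induction_on with
  | _ n ih =>
    intro G _ _ hn hsolv hdeg
    have : Fact p.Prime := ⟨hp⟩
    by_cases htriv : Subsingleton G
    · refine ⟨⊥, inferInstance, IsPGroup.of_bot, ?_⟩
      rw [Subgroup.index_bot, Nat.card_unique]
      exact fun h => hp.one_lt.ne' (Nat.dvd_one.mp h)
    rw [not_subsingleton_iff_nontrivial] at htriv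
    obtain ⟨q, M, hq, hMn, hMne, hMq, hMab⟩ := exists_normal_abelian_qgroup G
    have hQcard : Nat.card (G ⧸ M) < n := by
      rw [← hn, ← Subgroup.card_mul_index M]
      have h1 : 1 < Nat.card M := by
        rw [Subgroup.one_lt_card_iff_ne_bot]
        exact hMne
      have h2 : 0 < M.index := Nat.pos_of_ne_zero Subgroup.index_ne_zero_of_finite
      have h3 : Nat.card (G ⧸ M) = M.index := rfl
      rw [h3]
      nlinarith
    obtain ⟨Qb, hQbn, hQbp, hQbi⟩ := ih _ hQcard (G ⧸ M) rfl inferInstance (by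
      intro ψ
      rw [← charDegree_irrInfl M ψ]
      exact hdeg _)
    let K : Subgroup G := Qb.comap (QuotientGroup.mk' M)
    have hKn : K.Normal := Subgroup.Normal.comap hQbn _
    have hKidx : K.index = Qb.index :=
      Subgroup.index_comap_of_surjective _ (QuotientGroup.mk'_surjective M)
    by_cases hqp : q = p
    · subst hqp
      refine ⟨K, hKn, ?_, ?_⟩
      · apply IsPGroup.comap_of_ker_isPGroup hQbp
        rw [QuotientGroup.ker_mk']
        exact hMq
      · rw [hKidx]; exact hQbi
    by_cases hKtop : K = ⊤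
    · have hMidx : ∃ k, M.index = p ^ k := by
        have h1 : Qb = ⊤ := by
          rw [eq_top_iff]
          intro x _
          obtain ⟨g, rfl⟩ := QuotientGroup.mk'_surjective M x
          have : g ∈ K := by rw [hKtop]; trivial
          exact this
        have h2 : IsPGroup p (G ⧸ M) := by
          have h3 : IsPGroup p (⊤ : Subgroup (G ⧸ M)) := h1 ▸ hQbp
          exact h3.of_equiv Subgroup.topEquiv
        exact IsPGroup.iff_card.mp h2
      obtain ⟨k, hk⟩ := hMidx
      have hinv : ∀ lam : IrrCharacter M, Lib.helper24.conjStab M lam.1 = ⊤ := by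
        intro lam
        obtain ⟨χ, hχ⟩ := exists_irr_over M lam.2
        obtain ⟨e, -, he⟩ := clifford_degree M χ lam.2 hχ
        have h1 : ¬ p ∣ (Lib.helper24.conjStab M lam.1).index := by
          intro h
          apply hdeg χ
          rw [he]
          exact Dvd.dvd.mul_right (Dvd.dvd.mul_left h _) _
        have h2 : M ≤ Lib.helper24.conjStab M lam.1 := by
          intro x hx
          rw [mem_conjStab]
          exact conjFun_of_mem M (isClassFunction_irr lam) hx
        have h3 : (Lib.helper24.conjStab M lam.1).index ∣ p ^ k := by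
          rw [← hk]
          exact Subgroup.index_dvd_of_le h2
        obtain ⟨j, -, hj⟩ := (Nat.dvd_prime_pow hp).mp h3
        have hj0 : j = 0 := by
          by_contra hne
          apply h1
          rw [hj]
          exact dvd_pow_self p hne
        rw [hj0, pow_zero] at hj
        exact Subgroup.index_eq_one.mp hj
      have hcent := central_of_invariant M hMab hinv
      obtain ⟨P⟩ : Nonempty (Sylow p G) := inferInstance
      have hnorm : Subgroup.normalizer ((P : Subgroup G) : Set G) = ⊤ := by
        have h1 : M ≤ Subgroup.normalizer ((P : Subgroup G) : Set G) := by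
          intro x hx
          rw [Subgroup.mem_normalizer_iff]
          intro y
          have hxc := Subgroup.mem_center_iff.mp (hcent hx)
          have : x * y * x⁻¹ = y := by
            rw [← hxc y, mul_inv_cancel_right]
          rw [this]
        have h2 : (P : Subgroup G) ≤ Subgroup.normalizer ((P : Subgroup G) : Set G) :=
          Subgroup.le_normalizer
        have h3 : (Subgroup.normalizer ((P : Subgroup G) : Set G)).index ∣ p ^ k := by
          rw [← hk]
          exact Subgroup.index_dvd_of_le h1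
        have h4 : (Subgroup.normalizer ((P : Subgroup G) : Set G)).index ∣ (P : Subgroup G).index :=
          Subgroup.index_dvd_of_le h2
        obtain ⟨j, -, hj⟩ := (Nat.dvd_prime_pow hp).mp h3
        have hj0 : j = 0 := by
          by_contra hne
          apply P.not_dvd_index
          refine dvd_trans ?_ h4
          rw [hj]
          exact dvd_pow_self p hne
        rw [hj0, pow_zero] at hj
        exact Subgroup.index_eq_one.mp hj
      refine ⟨P, Subgroup.normalizer_eq_top_iff.mp hnorm, P.isPGroup', P.not_dvd_index⟩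
    · have hKcard : Nat.card K < n := by
        rw [← hn]
        exact card_lt_of_ne_top K hKtop
      obtain ⟨P₀, hP₀n, hP₀p, hP₀i⟩ := ih _ hKcard K rfl inferInstance
        (degrees_of_normal p K hdeg)
      let S : Sylow p K := hP₀p.toSylow hP₀i
      have hS : (S : Subgroup K) = P₀ := rfl
      have hSn : (S : Subgroup K).Normal := hS ▸ hP₀n
      have hchar : (S : Subgroup K).Characteristic := Sylow.characteristic_of_normal S hSn
      have hchar' : P₀.Characteristic := hS ▸ hchar
      refine ⟨P₀.map K.subtype, inferInstance, hP₀p.map K.subtype, ?_⟩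
      rw [Subgroup.index_map_subtype, hKidx]
      exact fun h => (hp.dvd_mul.mp h).elim hP₀i hQbi

theorem result {G : Type*} [Group G] [Finite G] (hsolv : Group.IsSolvable G) (p : ℕ) (hp : p.Prime) : (∃ P : Subgroup G, P.Normal ∧ (∀ x ∈ P, ∀ y ∈ P, x * y = y * x) ∧ IsPGroup p P ∧ ¬ p ∣ P.index) ↔ ∀ χ : Cfsg.IrrCharacter G, ¬ p ∣ Cfsg.charDegree (χ : G → ℂ) := by
  constructor
  · rintro ⟨P, hPn, hab, -, hidx⟩ χ
    exact forward p P hab hidx χ
  · intro hdeg
    obtain ⟨P, hPn, hPp, hPi⟩ := backward p hp _ G rfl hsolv hdeg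
    refine ⟨P, hPn, ?_, hPp, hPi⟩
    have : Fact p.Prime := ⟨hp⟩
    have hlin : ∀ θ : IrrCharacter P, charDegree θ.1 = 1 := by
      intro θ
      have h1 := degrees_of_normal p P hdeg θ
      have h2 := charDegree_dvd_card θ
      obtain ⟨k, hk⟩ := IsPGroup.iff_card.mp hPp
      rw [hk] at h2
      obtain ⟨j, -, hj⟩ := (Nat.dvd_prime_pow hp).mp h2
      have hj0 : j = 0 := by
        by_contra hne
        apply h1
        rw [hj]
        exact dvd_pow_self p hne
      rw [hj, hj0, pow_zero]
    have hc := comm_of_all_linear hlin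
    intro x hx y hy
    have := hc ⟨x, hx⟩ ⟨y, hy⟩
    exact congrArg Subtype.val this

end Cfsg.Agent.S4493
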