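import Cfsg.Statements.S4496
import Cfsg.Agent.Lib.helper22.SelfCent
import Cfsg.Agent.S4354

set_option autoImplicit false
open Cfsg

namespace Cfsg.Agent.S4496

open Cfsg.Agent.Lib.helper22
open scoped commutatorElement

theorem part_a {G : Type*} [Group G] [Finite G] (p : ℕ) [hp : Fact p.Prime] (x : G)
    (hx : orderOf x = p) (hC : Subgroup.centralizer ({x} : Set G) = Subgroup.zpowers x)
    (S : Subgroup G) [S.Normal] (hdvd : p ∣ Nat.card S) : commutator G ≤ S := by
  have hxS := sc_mem_of_dvd hx hC S hdvd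
  have hfr := sc_frattini hx hC S hxS
  rw [commutator_def, Subgroup.commutator_le]
  intro a _ b _
  have ha : a ∈ (↑(Subgroup.normalizer (Subgroup.zpowers x : Set G) ⊔ S) : Set G) := by
    rw [hfr]
    trivial
  have hb : b ∈ (↑(Subgroup.normalizer (Subgroup.zpowers x : Set G) ⊔ S) : Set G) := by
    rw [hfr]
    trivial
  rw [Subgroup.mul_normal] at ha hb
  obtain ⟨n, hn, s, hs, rfl⟩ := ha
  obtain ⟨n', hn', s', hs', rfl⟩ := hb
  have hcomm : ⁅n, n'⁆ ∈ S :=
    (Subgroup.zpowers_le.mpr hxS) (sc_normalizer_comm hx hC hn hn')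
  rw [← QuotientGroup.eq_one_iff]
  have h1 : ((n * s : G) : G ⧸ S) = (n : G ⧸ S) := by
    rw [QuotientGroup.mk_mul, (QuotientGroup.eq_one_iff s).mpr hs, mul_one]
  have h2 : ((n' * s' : G) : G ⧸ S) = (n' : G ⧸ S) := by
    rw [QuotientGroup.mk_mul, (QuotientGroup.eq_one_iff s').mpr hs', mul_one]
  have h3 : ((⁅n * s, n' * s'⁆ : G) : G ⧸ S) = ⁅((n * s : G) : G ⧸ S), ((n' * s' : G) : G ⧸ S)⁆ :=
    map_commutatorElement (QuotientGroup.mk' S) _ _
  have h4 : ((⁅n, n'⁆ : G) : G ⧸ S) = ⁅((n : G) : G ⧸ S), ((n' : G) : G ⧸ S)⁆ :=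
    map_commutatorElement (QuotientGroup.mk' S) _ _
  rw [h3, h1, h2, ← h4]
  exact (QuotientGroup.eq_one_iff _).mpr hcomm

theorem part_b1 {G : Type*} [Group G] [Finite G] (p : ℕ) [hp : Fact p.Prime] (x : G)
    (hx : orderOf x = p) (hC : Subgroup.centralizer ({x} : Set G) = Subgroup.zpowers x)
    (S : Subgroup G) [S.Normal] (hS : ¬ p ∣ Nat.card S) :
    Nat.card S ∣ Nat.card {H : Subgroup G // Nat.card H = p} := by
  rw [sc_card_subgroups hx hC]
  have hinf : Subgroup.normalizer (Subgroup.zpowers x : Set G) ⊓ S = ⊥ := by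
    rw [eq_bot_iff]
    intro s hs
    rw [Subgroup.mem_bot]
    exact sc_inf_normalizer hx hC S hS s hs.2 hs.1
  have h := Cfsg.Agent.S4354.relIndex_dvd_index_of_normal_right
    (Subgroup.normalizer (Subgroup.zpowers x : Set G)) S
  rw [← Subgroup.inf_relIndex_right, hinf, Subgroup.relIndex_bot_left] at h
  exact h

theorem part_b2 {G : Type*} [Group G] [Finite G] (p : ℕ) [hp : Fact p.Prime] (x : G)
    (hx : orderOf x = p) (hC : Subgroup.centralizer ({x} : Set G) = Subgroup.zpowers x)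
    (S : Subgroup G) [S.Normal] (hS : ¬ p ∣ Nat.card S) :
    Nat.card S % p = 1 := by
  have hPp : IsPGroup p (Subgroup.zpowers x) :=
    IsPGroup.of_card (n := 1) (by rw [Nat.card_zpowers, hx, pow_one])
  let act : MulAction (Subgroup.zpowers x) S :=
    MulAction.compHom S ((MulAut.conjNormal (H := S)).comp (Subgroup.zpowers x).subtype)
  have hsmul : ∀ (g : Subgroup.zpowers x) (s : S), ((g • s : S) : G) = (g : G) * s * (g : G)⁻¹ := by
    intro g s
    rfl
  have hfix : MulAction.fixedPoints (Subgroup.zpowers x) S = {1} := by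
    ext s
    rw [MulAction.mem_fixedPoints, Set.mem_singleton_iff]
    constructor
    · intro h
      have h1 := congrArg Subtype.val (h ⟨x, Subgroup.mem_zpowers x⟩)
      rw [hsmul] at h1
      have h2 : (s : G) * x = x * (s : G) := by
        have h3 : x * (s : G) * x⁻¹ = (s : G) := h1
        calc (s : G) * x = (x * (s : G) * x⁻¹) * x := by rw [h3]
          _ = x * (s : G) := by group
      exact Subtype.ext (sc_coprime_comm hx hC S hS s s.2 h2)
    · rintro rfl g
      apply Subtype.ext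
      rw [hsmul]
      simp
  have h := hPp.card_modEq_card_fixedPoints S
  rw [hfix] at h
  have h1 : Nat.card (({1} : Set S) : Type _) = 1 := by simp
  rw [h1] at h
  have hp1 : 1 % p = 1 := Nat.mod_eq_of_lt hp.out.one_lt
  rw [← hp1]
  exact h

theorem part_b3 {G : Type*} [Group G] [Finite G] (p : ℕ) [hp : Fact p.Prime] (x : G)
    (hx : orderOf x = p)
    (S : Subgroup G) [S.Normal] (hS : ¬ p ∣ Nat.card S) :
    orderOf (QuotientGroup.mk x : G ⧸ S) = p := by
  apply orderOf_eq_prime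
  · rw [← QuotientGroup.mk_pow, ← hx, pow_orderOf_eq_one]
    rfl
  · intro h
    have hxS : x ∈ S := (QuotientGroup.eq_one_iff x).mp h
    apply hS
    rw [← hx]
    exact Subgroup.orderOf_dvd_natCard S hxS

theorem part_b4 {G : Type*} [Group G] [Finite G] (p : ℕ) [hp : Fact p.Prime] (x : G)
    (hx : orderOf x = p) (hC : Subgroup.centralizer ({x} : Set G) = Subgroup.zpowers x)
    (S : Subgroup G) [S.Normal] (hS : ¬ p ∣ Nat.card S) :
    Subgroup.centralizer ({(QuotientGroup.mk x : G ⧸ S)} : Set (G ⧸ S))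
      = Subgroup.zpowers (QuotientGroup.mk x : G ⧸ S) := by
  ext q
  induction q using QuotientGroup.induction_on with
  | H g =>
  rw [Subgroup.mem_centralizer_iff]
  constructor
  · intro h
    have h1 := h _ (Set.mem_singleton _)
    have h2 : g * x * g⁻¹ * x⁻¹ ∈ S := by
      rw [← QuotientGroup.eq_one_iff]
      rw [QuotientGroup.mk_mul, QuotientGroup.mk_mul, QuotientGroup.mk_mul, ← h1]
      rw [QuotientGroup.mk_inv, QuotientGroup.mk_inv]
      group
    obtain ⟨s, hs, hsP⟩ := sc_mem_sup S hC (sc_coprime_comm hx hC S hS) h2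
    obtain ⟨k, hk⟩ := hsP
    have hk' : x ^ k = s⁻¹ * g := hk
    refine ⟨k, ?_⟩
    show (QuotientGroup.mk x : G ⧸ S) ^ k = QuotientGroup.mk g
    rw [← QuotientGroup.mk_zpow, hk', QuotientGroup.mk_mul, QuotientGroup.mk_inv,
      (QuotientGroup.eq_one_iff s).mpr hs, inv_one, one_mul]
  · rintro ⟨k, hk⟩ h hh
    rw [Set.mem_singleton_iff] at hh
    have hk' : (QuotientGroup.mk x : G ⧸ S) ^ k = QuotientGroup.mk g := hk
    rw [hh, ← hk']
    exact ((Commute.refl _).zpow_right k).eq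

theorem result {G : Type*} [Group G] [Finite G] (p : ℕ) (hp : p.Prime) (x : G) (hx : orderOf x = p) (hC : Subgroup.centralizer ({x} : Set G) = Subgroup.zpowers x) (S : Subgroup G) [S.Normal] : (p ∣ Nat.card S → commutator G ≤ S) ∧ (¬ p ∣ Nat.card S → Nat.card S ∣ Nat.card {H : Subgroup G // Nat.card H = p} ∧ Nat.card S % p = 1 ∧ orderOf (QuotientGroup.mk x : G ⧸ S) = p ∧ Subgroup.centralizer ({(QuotientGroup.mk x : G ⧸ S)} : Set (G ⧸ S)) = Subgroup.zpowers (QuotientGroup.mk x : G ⧸ S)) := by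
  have hfact : Fact p.Prime := ⟨hp⟩
  exact ⟨part_a p x hx hC S, fun hS => ⟨part_b1 p x hx hC S hS, part_b2 p x hx hC S hS,
    part_b3 p x hx S hS, part_b4 p x hx hC S hS⟩⟩

end Cfsg.Agent.S4496
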