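import Cfsg.Statements.S4497
import Cfsg.Agent.Lib.helper22.SelfCentSub
import Cfsg.Agent.Lib.helper9.PPrimeCore
import Cfsg.Agent.S4496

set_option autoImplicit false
open Cfsg

namespace Cfsg.Agent.S4497

open Cfsg.Agent.Lib.helper22 Cfsg.Agent.Lib.helper9
open scoped commutatorElement

theorem rel_comm {G : Type*} [Group G] [Finite G] {p : ℕ} [hp : Fact p.Prime] {x : G}
    (hx : orderOf x = p) (hC : Subgroup.centralizer ({x} : Set G) = Subgroup.zpowers x)
    (D M : Subgroup G) (hxD : x ∈ D) (hMD : M ≤ D)
    (hnorm : ∀ d ∈ D, ∀ m ∈ M, d * m * d⁻¹ ∈ M) (hxM : x ∈ M) : ⁅D, D⁆ ≤ M := by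
  obtain ⟨hx', hC'⟩ := sc_subgroup hx hC D hxD
  have hN : (M.subgroupOf D).Normal := by
    constructor
    intro n hn g
    rw [Subgroup.mem_subgroupOf] at hn ⊢
    exact hnorm g g.2 n hn
  have hcard : Nat.card (M.subgroupOf D) = Nat.card M :=
    Nat.card_congr (Subgroup.subgroupOfEquivOfLe hMD).toEquiv
  have hdvd : p ∣ Nat.card (M.subgroupOf D) := by
    rw [hcard, ← hx]
    exact Subgroup.orderOf_dvd_natCard M hxM
  have h := Cfsg.Agent.S4496.part_a p ⟨x, hxD⟩ hx' hC' (M.subgroupOf D) hdvd
  rw [← Subgroup.map_subtype_commutator]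
  calc (commutator D).map D.subtype ≤ (M.subgroupOf D).map D.subtype := Subgroup.map_mono h
    _ = M ⊓ D := Subgroup.subgroupOf_map_subtype M D
    _ ≤ M := inf_le_left

theorem result {G : Type*} [Group G] [Finite G] (p : ℕ) (hp : p.Prime) (x : G) (hx : orderOf x = p) (hC : Subgroup.centralizer ({x} : Set G) = Subgroup.zpowers x) (t : ℕ) (ht : Nat.card {C : ConjClasses G // ∃ g ∈ C.carrier, orderOf g = p} = t) : Cfsg.pPrimeCore p G ≤ commutator G ∧ (t ≠ p - 1 → ∀ h : ((Cfsg.pPrimeCore p G).subgroupOf (commutator G)).Normal, IsSimpleGroup (↥(commutator G) ⧸ (Cfsg.pPrimeCore p G).subgroupOf (commutator G))) ∧ (t = p - 1 → commutator G = Cfsg.pPrimeCore p G) := by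
  have hfact : Fact p.Prime := ⟨hp⟩
  have hcount := sc_count hx hC
  rw [ht] at hcount
  have hp2 : 0 < p - 1 := by
    have := hp.two_le
    omega
  have hSn : (pPrimeCore p G).Normal := ppc_normal p G
  have hScop : ¬ p ∣ Nat.card (pPrimeCore p G) :=
    (Nat.Prime.coprime_iff_not_dvd hp).mp (pPrimeCore_coprime p G).symm
  have hSle : pPrimeCore p G ≤ commutator G :=
    sc_le_commutator _ (sc_coprime_comm hx hC _ hScop)
  refine ⟨hSle, ?_, ?_⟩
  · intro htne h
    have hN : ¬ Subgroup.normalizer (Subgroup.zpowers x : Set G) ≤ Subgroup.zpowers x := by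
      intro hN
      have he := Subgroup.relIndex_eq_one.mpr hN
      rw [he, one_mul] at hcount
      exact htne hcount
    have hxD := sc_x_mem_commutator hx hC hN
    have hxS : x ∉ pPrimeCore p G := by
      intro hxS
      have h1 := Subgroup.orderOf_dvd_natCard _ hxS
      rw [hx] at h1
      exact hScop h1
    apply isSimple_quot (pPrimeCore p G) (commutator G) hSle (fun hle => hxS (hle hxD))
    intro M hSM hMD hnorm
    by_cases hpM : p ∣ Nat.card M
    · right
      have hxM := sc_mem_of_dvd_rel hx hC (commutator G) M hxD hMD hnorm hpM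
      have hDD := rel_comm hx hC (commutator G) M hxD hMD hnorm hxM
      apply le_antisymm hMD
      have hLn : (⁅commutator G, commutator G⁆ ⊔ pPrimeCore p G).Normal := inferInstance
      by_cases hpL : p ∣ Nat.card ↥(⁅commutator G, commutator G⁆ ⊔ pPrimeCore p G)
      · have := Cfsg.Agent.S4496.part_a p x hx hC _ hpL
        exact this.trans (sup_le hDD hSM)
      · have hLS : ⁅commutator G, commutator G⁆ ⊔ pPrimeCore p G ≤ pPrimeCore p G :=
          le_pPrimeCore hLn ((Nat.Prime.coprime_iff_not_dvd hp).mpr hpL).symm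
        intro d hd
        have hcomm : d * x * d⁻¹ * x⁻¹ ∈ pPrimeCore p G := by
          apply hLS
          apply (le_sup_left : ⁅commutator G, commutator G⁆ ≤ _)
          have := Subgroup.commutator_mem_commutator hd hxD
          rwa [commutatorElement_def] at this
        obtain ⟨s, hs, hsP⟩ := sc_mem_sup (pPrimeCore p G) hC (sc_coprime_comm hx hC _ hScop) hcomm
        obtain ⟨k, hk⟩ := hsP
        have hk' : x ^ k = s⁻¹ * d := hk
        have : d = s * x ^ k := by
          rw [hk']
          group
        rw [this]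
        exact M.mul_mem (hSM hs) (M.zpow_mem hxM k)
    · left
      apply le_antisymm _ hSM
      have hMn : (M.subgroupOf (commutator G)).Normal := by
        constructor
        intro n hn g
        rw [Subgroup.mem_subgroupOf] at hn ⊢
        exact hnorm g g.2 n hn
      have hDn : (commutator G).Normal := inferInstance
      have hsub : M.IsSubnormal :=
        Subgroup.IsSubnormal.step M (commutator G) hMD hDn.isSubnormal hMn
      exact subnormal_le_pPrimeCore hsub ((Nat.Prime.coprime_iff_not_dvd hp).mpr hpM).symm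
  · intro htp
    rw [htp] at hcount
    have he : (Subgroup.zpowers x).relIndex (Subgroup.normalizer (Subgroup.zpowers x : Set G)) = 1 :=
      Nat.eq_of_mul_eq_mul_right hp2 (by rw [hcount, one_mul])
    have hN := Subgroup.relIndex_eq_one.mp he
    obtain ⟨-, hcop⟩ := sc_transfer hx hC hN
    have hDn : (commutator G).Normal := inferInstance
    exact le_antisymm (le_pPrimeCore hDn ((Nat.Prime.coprime_iff_not_dvd hp).mpr hcop).symm) hSle

end Cfsg.Agent.S4497
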