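import Cfsg.Statements.S4509
import Cfsg.Agent.Lib.helper22.SelfCentSub
import Cfsg.Agent.S4496

set_option autoImplicit false
open Cfsg

namespace Cfsg.Agent.S4509

open Cfsg.Agent.Lib.helper22
open scoped commutatorElement

theorem caseB {G : Type*} [Group G] [Finite G] {p : ℕ} [hp : Fact p.Prime] {x : G}
    (hx : orderOf x = p) (hC : Subgroup.centralizer ({x} : Set G) = Subgroup.zpowers x)
    (hN : Subgroup.normalizer (Subgroup.zpowers x : Set G) ≤ Subgroup.zpowers x) :
    Nat.card (commutator G) = (Subgroup.normalizer (Subgroup.zpowers x : Set G)).index ∧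
      IsCyclic (G ⧸ commutator G) ∧ (commutator G).index = p := by
  obtain ⟨hidx, -⟩ := sc_transfer hx hC hN
  have hNP : Subgroup.normalizer (Subgroup.zpowers x : Set G) = Subgroup.zpowers x :=
    le_antisymm hN Subgroup.le_normalizer
  refine ⟨?_, ?_, hidx⟩
  · have h1 := Subgroup.card_mul_index (commutator G)
    have h2 := Subgroup.index_mul_card (Subgroup.zpowers x)
    rw [Nat.card_zpowers, hx] at h2
    rw [hidx, ← h2] at h1
    rw [hNP]
    exact Nat.eq_of_mul_eq_mul_right hp.out.pos h1
  · apply isCyclic_of_prime_card (p := p)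
    rw [← Subgroup.index_eq_card, hidx]

theorem caseC {G : Type*} [Group G] [Finite G] {p : ℕ} [hp : Fact p.Prime] {x : G}
    (hx : orderOf x = p) (hC : Subgroup.centralizer ({x} : Set G) = Subgroup.zpowers x)
    (hN : ¬ Subgroup.normalizer (Subgroup.zpowers x : Set G) ≤ Subgroup.zpowers x)
    (hne : ⁅commutator G, commutator G⁆ ≠ commutator G) :
    Nat.card ↥⁅commutator G, commutator G⁆
        = (Subgroup.normalizer (Subgroup.zpowers x : Set G)).index ∧
      Nat.card (commutator G)
        = p * (Subgroup.normalizer (Subgroup.zpowers x : Set G)).index := by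
  have hxD := sc_x_mem_commutator hx hC hN
  have hD2n : (⁅commutator G, commutator G⁆).Normal := inferInstance
  have hD2le : ⁅commutator G, commutator G⁆ ≤ commutator G :=
    Subgroup.commutator_le_left _ _
  have hp' : ¬ p ∣ Nat.card ↥⁅commutator G, commutator G⁆ := by
    intro hdvd
    exact hne (le_antisymm hD2le (Cfsg.Agent.S4496.part_a p x hx hC _ hdvd))
  have hdisj := sc_coprime_comm hx hC ⁅commutator G, commutator G⁆ hp'
  have hDle : ∀ d ∈ commutator G, ∃ s ∈ ⁅commutator G, commutator G⁆, ∃ k : ℤ, d = s * x ^ k := by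
    intro d hd
    have hcomm : d * x * d⁻¹ * x⁻¹ ∈ ⁅commutator G, commutator G⁆ := by
      have := Subgroup.commutator_mem_commutator hd hxD
      rwa [commutatorElement_def] at this
    obtain ⟨s, hs, k, hk⟩ := sc_mem_sup ⁅commutator G, commutator G⁆ hC hdisj hcomm
    have hk' : x ^ k = s⁻¹ * d := hk
    refine ⟨s, hs, k, ?_⟩
    rw [hk']
    group
  have hsup : Subgroup.normalizer (Subgroup.zpowers x : Set G) ⊔ ⁅commutator G, commutator G⁆
      = ⊤ := by
    rw [eq_top_iff]
    intro g _
    have hfr := sc_frattini hx hC (commutator G) hxD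
    have hg : g ∈ (↑(Subgroup.normalizer (Subgroup.zpowers x : Set G) ⊔ commutator G) : Set G) := by
      rw [hfr]
      trivial
    rw [Subgroup.mul_normal] at hg
    obtain ⟨n, hn, d, hd, rfl⟩ := hg
    obtain ⟨s, hs, k, rfl⟩ := hDle d hd
    have h1 : n * (s * x ^ k) = n * s * x ^ k := by group
    show n * (s * x ^ k) ∈ _
    rw [h1]
    exact Subgroup.mul_mem _ (Subgroup.mul_mem _ (Subgroup.mem_sup_left hn)
      (Subgroup.mem_sup_right hs))
      (Subgroup.mem_sup_left (Subgroup.le_normalizer (Subgroup.zpow_mem _ (Subgroup.mem_zpowers x) k)))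
  have hcompl : (Subgroup.normalizer (Subgroup.zpowers x : Set G)).IsComplement'
      ⁅commutator G, commutator G⁆ := by
    apply Subgroup.isComplement'_of_disjoint_and_mul_eq_univ
    · rw [Subgroup.disjoint_def]
      intro s hsN hs
      exact sc_inf_normalizer hx hC _ hp' s hs hsN
    · rw [← Subgroup.mul_normal, hsup]
      rfl
  have hcard2 : Nat.card ↥⁅commutator G, commutator G⁆
      = (Subgroup.normalizer (Subgroup.zpowers x : Set G)).index := by
    have h1 := hcompl.card_mul_card
    have h2 := Subgroup.card_mul_index (Subgroup.normalizer (Subgroup.zpowers x : Set G))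
    rw [← h2] at h1
    exact Nat.eq_of_mul_eq_mul_left Nat.card_pos h1
  refine ⟨hcard2, ?_⟩
  have hDeq : commutator G = Subgroup.zpowers x ⊔ ⁅commutator G, commutator G⁆ := by
    apply le_antisymm
    · intro d hd
      obtain ⟨s, hs, k, rfl⟩ := hDle d hd
      exact Subgroup.mul_mem _ (Subgroup.mem_sup_right hs)
        (Subgroup.mem_sup_left (Subgroup.zpow_mem _ (Subgroup.mem_zpowers x) k))
    · exact sup_le (Subgroup.zpowers_le.mpr hxD) hD2le
  have hrel : (⁅commutator G, commutator G⁆).relIndex (commutator G) = p := by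
    have hinf : ⁅commutator G, commutator G⁆ ⊓ Subgroup.zpowers x = ⊥ := by
      rw [eq_bot_iff]
      intro s hs
      rw [Subgroup.mem_bot]
      obtain ⟨i, hi⟩ := hs.2
      have hi' : x ^ i = s := hi
      apply hdisj s hs.1
      rw [← hi']
      exact ((Commute.refl x).zpow_left i).eq
    have h1 : (⁅commutator G, commutator G⁆).relIndex
        (Subgroup.zpowers x ⊔ ⁅commutator G, commutator G⁆)
        = (⁅commutator G, commutator G⁆).relIndex (Subgroup.zpowers x) :=
      Subgroup.relIndex_sup_right _ _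
    rw [← hDeq] at h1
    rw [h1, ← Subgroup.inf_relIndex_right, hinf, Subgroup.relIndex_bot_left, Nat.card_zpowers, hx]
  have h3 := Subgroup.relIndex_mul_index hD2le
  have h4 := Subgroup.card_mul_index ⁅commutator G, commutator G⁆
  have h5 := Subgroup.card_mul_index (commutator G)
  rw [hrel] at h3
  rw [← h3, ← h5, hcard2] at h4
  have hpos : 0 < (commutator G).index := Nat.pos_of_ne_zero Subgroup.index_ne_zero_of_finite
  have h6 : (p * (Subgroup.normalizer (Subgroup.zpowers x : Set G)).index) * (commutator G).index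
      = Nat.card (commutator G) * (commutator G).index := by
    rw [← h4]
    ring
  exact (Nat.eq_of_mul_eq_mul_right hpos h6).symm

theorem caseA {G : Type*} [Group G] [Finite G] {p : ℕ} [hp : Fact p.Prime] {x : G}
    (hx : orderOf x = p) (hC : Subgroup.centralizer ({x} : Set G) = Subgroup.zpowers x)
    (hN : ¬ Subgroup.normalizer (Subgroup.zpowers x : Set G) ≤ Subgroup.zpowers x)
    (S : Subgroup G) [S.Normal] (hSp : ¬ p ∣ Nat.card S)
    (hS : Nat.card S = (Subgroup.normalizer (Subgroup.zpowers x : Set G)).index) :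
    ⁅commutator G, commutator G⁆ ≠ commutator G := by
  have hxD := sc_x_mem_commutator hx hC hN
  have hcompl : S.IsComplement' (Subgroup.normalizer (Subgroup.zpowers x : Set G)) := by
    apply Subgroup.isComplement'_of_card_mul_and_disjoint
    · rw [hS]
      exact Subgroup.index_mul_card _
    · rw [Subgroup.disjoint_def]
      intro s hs hsN
      exact sc_inf_normalizer hx hC S hSp s hs hsN
  have hsup := hcompl.sup_eq_top
  have hZ : commutator G ≤ (Subgroup.zpowers (QuotientGroup.mk x : G ⧸ S)).comap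
      (QuotientGroup.mk' S) := by
    rw [commutator_def, Subgroup.commutator_le]
    intro a _ b _
    have ha : a ∈ (↑(S ⊔ Subgroup.normalizer (Subgroup.zpowers x : Set G)) : Set G) := by
      rw [hsup]
      trivial
    have hb : b ∈ (↑(S ⊔ Subgroup.normalizer (Subgroup.zpowers x : Set G)) : Set G) := by
      rw [hsup]
      trivial
    rw [Subgroup.normal_mul] at ha hb
    obtain ⟨s, hs, n, hn, rfl⟩ := ha
    obtain ⟨s', hs', n', hn', rfl⟩ := hb
    obtain ⟨k, hk⟩ := sc_normalizer_comm hx hC hn hn'
    have hk' : x ^ k = ⁅n, n'⁆ := hk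
    rw [Subgroup.mem_comap]
    have h1 : ((s * n : G) : G ⧸ S) = (n : G ⧸ S) := by
      rw [QuotientGroup.mk_mul, (QuotientGroup.eq_one_iff s).mpr hs, one_mul]
    have h2 : ((s' * n' : G) : G ⧸ S) = (n' : G ⧸ S) := by
      rw [QuotientGroup.mk_mul, (QuotientGroup.eq_one_iff s').mpr hs', one_mul]
    have h3 : ((⁅s * n, s' * n'⁆ : G) : G ⧸ S) = ⁅((s * n : G) : G ⧸ S), ((s' * n' : G) : G ⧸ S)⁆ :=
      map_commutatorElement (QuotientGroup.mk' S) _ _
    have h4 : ((⁅n, n'⁆ : G) : G ⧸ S) = ⁅((n : G) : G ⧸ S), ((n' : G) : G ⧸ S)⁆ :=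
      map_commutatorElement (QuotientGroup.mk' S) _ _
    show ((⁅s * n, s' * n'⁆ : G) : G ⧸ S) ∈ Subgroup.zpowers (QuotientGroup.mk x : G ⧸ S)
    rw [h3, h1, h2, ← h4, ← hk', QuotientGroup.mk_zpow]
    exact Subgroup.zpow_mem _ (Subgroup.mem_zpowers _) k
  have hDD : ⁅commutator G, commutator G⁆ ≤ S := by
    rw [Subgroup.commutator_le]
    intro d hd d' hd'
    obtain ⟨i, hi⟩ := hZ hd
    obtain ⟨j, hj⟩ := hZ hd'
    have hi' : (QuotientGroup.mk x : G ⧸ S) ^ i = (d : G ⧸ S) := hi
    have hj' : (QuotientGroup.mk x : G ⧸ S) ^ j = (d' : G ⧸ S) := hj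
    rw [← QuotientGroup.eq_one_iff]
    have h3 : ((⁅d, d'⁆ : G) : G ⧸ S) = ⁅((d : G) : G ⧸ S), ((d' : G) : G ⧸ S)⁆ :=
      map_commutatorElement (QuotientGroup.mk' S) _ _
    rw [h3, ← hi', ← hj', commutatorElement_eq_one_iff_commute]
    exact ((Commute.refl _).zpow_zpow i j)
  intro heq
  rw [heq] at hDD
  have hxS := hDD hxD
  apply hSp
  have h1 := Subgroup.orderOf_dvd_natCard _ hxS
  rw [hx] at h1
  exact h1

theorem result {G : Type*} [Group G] [Finite G] (p : ℕ) (hp : p.Prime) (x : G) (hx : orderOf x = p) (hC : Subgroup.centralizer ({x} : Set G) = Subgroup.zpowers x) (t : ℕ) (ht : Nat.card {C : ConjClasses G // ∃ g ∈ C.carrier, orderOf g = p} = t) (n : ℕ) (hn : Nat.card {H : Subgroup G // Nat.card H = p} = 1 + n * p) : ((∃ S : Subgroup G, S.Normal ∧ Nat.card S = 1 + n * p) ↔ (t = p - 1 ∨ (t < p - 1 ∧ derivedSeries G 2 ≠ derivedSeries G 1))) ∧ (t = p - 1 → Nat.card (commutator G) = 1 + n * p ∧ IsCyclic (G ⧸ commutator G) ∧ (commutator G).index = p) ∧ (t < p - 1 → derivedSeries G 2 ≠ derivedSeries G 1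 → Nat.card (derivedSeries G 2) = 1 + n * p ∧ Nat.card (commutator G) = p * (1 + n * p)) := by
  have hfact : Fact p.Prime := ⟨hp⟩
  have hcount := sc_count hx hC
  rw [ht] at hcount
  have hp2 : 0 < p - 1 := by
    have := hp.two_le
    omega
  have hidx : (Subgroup.normalizer (Subgroup.zpowers x : Set G)).index = 1 + n * p := by
    rw [← sc_card_subgroups hx hC, hn]
  have hd1 : derivedSeries G 1 = commutator G := derivedSeries_one G
  have hd2 : derivedSeries G 2 = ⁅commutator G, commutator G⁆ := by
    rw [derivedSeries_succ, hd1]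
  have hNiff : Subgroup.normalizer (Subgroup.zpowers x : Set G) ≤ Subgroup.zpowers x ↔ t = p - 1 := by
    constructor
    · intro hN
      have he := Subgroup.relIndex_eq_one.mpr hN
      rw [he, one_mul] at hcount
      exact hcount
    · intro htp
      rw [htp] at hcount
      exact Subgroup.relIndex_eq_one.mp (Nat.eq_of_mul_eq_mul_right hp2 (by rw [hcount, one_mul]))
  have hB : t = p - 1 → Nat.card (commutator G) = 1 + n * p ∧ IsCyclic (G ⧸ commutator G) ∧
      (commutator G).index = p := by
    intro htp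
    have h := caseB hx hC (hNiff.mpr htp)
    rw [hidx] at h
    exact h
  have hCC : t < p - 1 → derivedSeries G 2 ≠ derivedSeries G 1 →
      Nat.card (derivedSeries G 2) = 1 + n * p ∧ Nat.card (commutator G) = p * (1 + n * p) := by
    intro htp hne
    rw [hd1, hd2] at hne
    have h := caseC hx hC (fun hN => absurd (hNiff.mp hN) (Nat.ne_of_lt htp)) hne
    rw [hidx] at h
    rw [hd2]
    exact h
  refine ⟨⟨?_, ?_⟩, hB, hCC⟩
  · rintro ⟨S, hSn, hS⟩
    by_cases htp : t = p - 1
    · exact Or.inl htp
    · right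
      have hN : ¬ Subgroup.normalizer (Subgroup.zpowers x : Set G) ≤ Subgroup.zpowers x :=
        fun hN => htp (hNiff.mp hN)
      have hlt : t < p - 1 := by
        have he1 : (Subgroup.zpowers x).relIndex (Subgroup.normalizer (Subgroup.zpowers x : Set G)) ≠ 1 :=
          fun h => hN (Subgroup.relIndex_eq_one.mp h)
        have he0 : (Subgroup.zpowers x).relIndex (Subgroup.normalizer (Subgroup.zpowers x : Set G)) ≠ 0 := by
          intro h0
          rw [h0, zero_mul] at hcount
          omega
        have ht0 : t ≠ 0 := by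
          intro h0
          rw [h0, mul_zero] at hcount
          omega
        have he2 : 2 ≤ (Subgroup.zpowers x).relIndex
            (Subgroup.normalizer (Subgroup.zpowers x : Set G)) := by omega
        calc t < 2 * t := by omega
          _ ≤ (Subgroup.zpowers x).relIndex (Subgroup.normalizer (Subgroup.zpowers x : Set G)) * t :=
            Nat.mul_le_mul_right t he2
          _ = p - 1 := hcount
      refine ⟨hlt, ?_⟩
      rw [hd1, hd2]
      have hSp : ¬ p ∣ Nat.card S := by
        rw [hS]
        intro hdvd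
        have : p ∣ 1 := (Nat.dvd_add_left (Dvd.intro_left n rfl)).mp hdvd
        exact hp.one_lt.ne' (Nat.dvd_one.mp this)
      exact caseA hx hC hN S hSp (by rw [hS, hidx])
  · rintro (htp | ⟨htp, hne⟩)
    · exact ⟨commutator G, inferInstance, (hB htp).1⟩
    · exact ⟨derivedSeries G 2, derivedSeries_normal G 2, (hCC htp hne).1⟩

end Cfsg.Agent.S4509
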