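import Cfsg.Statements.S4512
import Mathlib
import Cfsg.Agent.Lib.helper5.BlockRankAux
import Cfsg.Agent.Lib.helper5.KleinFour
import Cfsg.Agent.Lib.helper9.PPrimeCore
import Cfsg.Agent.S0948

set_option autoImplicit false
open Cfsg

namespace Cfsg.Agent.S4512

open Cfsg.Agent.Lib.helper5 Cfsg.Agent.Lib.helper23 Cfsg.Agent.Lib.helper24

/-- If G is a finite group with a Sylow 2-subgroup that is a Klein four-group and a single conjugacy class of involutions, then its principal 2-block (relative to a maximal ideal M of the algebraic integers containing 2) has 2-regular rank 3: the restrictions of its irreducible characters to the elements of odd order span a space of dimension 3 (it has three irreducible Brauer characters). -/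
theorem result {G : Type*} [Group G] [Finite G] (M : Ideal Cfsg.AlgInt) (hM : Cfsg.IsPModular 2 M) (P : Sylow 2 G)
    (hP : Nat.card P = 4) (hexp : ∀ x : P, x * x = 1)
    (hone : ∀ s t : G, orderOf s = 2 → orderOf t = 2 → IsConj s t) :
    Cfsg.blockRank 2 (Cfsg.principalBlock M G) = 3 := by
  classical
  haveI := Fintype.ofFinite G
  haveI := Fintype.ofFinite (Cfsg.IrrCharacter G)
  haveI : Fact (Nat.Prime 2) := ⟨Nat.prime_two⟩
  have hMp := isPModular_isPrime hM
  have hMt := hMp.ne_top
  -- the Sylow subgroup is a Klein four-group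
  haveI hnt : Nontrivial (P : Subgroup G) :=
    Finite.one_lt_card_iff_nontrivial.mp (by rw [hP]; norm_num)
  have hK : IsKleinFour (P : Subgroup G) :=
    { card_four := hP
      exponent_two := by
        have h1 : Monoid.exponent (P : Subgroup G) ∣ 2 :=
          Monoid.exponent_dvd_of_forall_pow_eq_one (fun x => by rw [pow_two]; exact hexp x)
        rcases (Nat.dvd_prime Nat.prime_two).mp h1 with h | h
        · exfalso
          have hs : Subsingleton (P : Subgroup G) := Monoid.exp_eq_one_iff.mp h
          exact not_subsingleton _ hs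
        · exact h }
  obtain ⟨ζ₂, ζ₃, ζ₄, ε, hε, h2t, h3t, h23, h24, h34, hBeq, hval, -, -, -, -⟩ :=
    Cfsg.Agent.S0948.result M hM P hK hone
  obtain ⟨⟨u, huP⟩, hu1'⟩ := exists_ne (1 : (P : Subgroup G))
  have hu1 : u ≠ 1 := fun h => hu1' (Subtype.ext h)
  have huu : u * u = 1 := congrArg Subtype.val (hexp ⟨u, huP⟩)
  have hu2 : orderOf u = 2 := orderOf_eq_prime (by rw [pow_two]; exact huu) hu1
  have hupow : ∃ k : ℕ, orderOf u = 2 ^ k := ⟨1, by rw [hu2]; norm_num⟩
  -- the principal block has four members
  have h4t : ζ₄ ≠ trivIrr G := by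
    intro h
    have h5 := (hval u hu2).2.2
    rw [h, trivIrr_apply] at h5
    norm_num at h5
  have hcard : Nat.card (Cfsg.principalBlock M G) = 4 := by
    have hfs : Cfsg.principalBlock M G
        = ((({trivIrr G, ζ₂, ζ₃, ζ₄} : Finset (Cfsg.IrrCharacter G)) :
            Set (Cfsg.IrrCharacter G))) := by
      rw [hBeq]
      ext χ
      simp only [Set.mem_ofPred_eq, Finset.coe_insert, Finset.coe_singleton, Set.mem_insert_iff,
        Set.mem_singleton_iff]
      constructor
      · rintro (h | h | h | h)
        · left; exact Subtype.ext h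
        · right; left; exact h
        · right; right; left; exact h
        · right; right; right; exact h
      · rintro (h | h | h | h)
        · left; rw [h]; rfl
        · right; left; exact h
        · right; right; left; exact h
        · right; right; right; exact h
    rw [hfs, _root_.Nat.card_coe_set_eq, Set.ncard_coe_finset]
    have h2t' : trivIrr G ≠ ζ₂ := fun h => h2t (by rw [← h]; rfl)
    have h3t' : trivIrr G ≠ ζ₃ := fun h => h3t (by rw [← h]; rfl)
    rw [Finset.card_insert_of_notMem, Finset.card_insert_of_notMem, Finset.card_pair h34]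
    · simp [h23, h24]
    · simp [h2t', h3t', Ne.symm h4t]
  -- representatives of the classes of 2-elements
  obtain ⟨X, hXdef⟩ : ∃ X : Finset G, X = {1, u} := ⟨_, rfl⟩
  have hX : ∀ x ∈ X, ∃ k : ℕ, orderOf x = 2 ^ k := by
    intro x hx
    rw [hXdef, Finset.mem_insert, Finset.mem_singleton] at hx
    rcases hx with rfl | rfl
    · exact ⟨0, by simp⟩
    · exact hupow
  have hXrep : ∀ g : G, (∃ k : ℕ, orderOf g = 2 ^ k) → ∃! x, x ∈ X ∧ IsConj g x := by
    intro g hg
    by_cases hg1 : g = 1
    · refine ⟨1, ⟨by rw [hXdef]; simp, by rw [hg1]⟩, ?_⟩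
      rintro x ⟨-, hx⟩
      rw [hg1] at hx
      exact isConj_one_right.mp hx
    · obtain ⟨c, hc⟩ := exists_conj_mem_sylow P g hg
      have hcc : (c * g * c⁻¹) * (c * g * c⁻¹) = 1 := congrArg Subtype.val (hexp ⟨_, hc⟩)
      have hgg : g * g = 1 := by
        have h1 : c * (g * g) * c⁻¹ = 1 := by rw [← hcc]; group
        have h2 : g * g = c⁻¹ * (c * (g * g) * c⁻¹) * c := by group
        rw [h2, h1]; group
      have hg2 : orderOf g = 2 := orderOf_eq_prime (by rw [pow_two]; exact hgg) hg1
      refine ⟨u, ⟨by rw [hXdef]; simp, hone g u hg2 hu2⟩, ?_⟩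
      rintro x ⟨hxX, hx⟩
      rw [hXdef, Finset.mem_insert, Finset.mem_singleton] at hxX
      rcases hxX with rfl | rfl
      · exact absurd (isConj_one_left.mp hx) hg1
      · rfl
  have hcount := card_block_eq_sum_sections hM (Cfsg.principalBlock M G) ⟨trivIrr G, rfl⟩ X hX
    hXrep
  rw [hcard, hXdef, Finset.sum_pair (Ne.symm hu1),
    finsum_induced_principal hM 1 ⟨0, by simp⟩ (Cfsg.blockRank 2),
    finsum_induced_principal hM u hupow (Cfsg.blockRank 2)] at hcount
  -- the centralizer of 1
  have hC1 : Subgroup.centralizer ({1} : Set G) = ⊤ := by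
    ext g
    simp [Subgroup.mem_centralizer_singleton_iff]
  have e1 : Cfsg.blockRank 2 (Cfsg.principalBlock M (Subgroup.centralizer ({1} : Set G)))
      = Cfsg.blockRank 2 (Cfsg.principalBlock M G) :=
    blockRank_principal_equiv 2 M ((MulEquiv.subgroupCongr hC1).trans Subgroup.topEquiv)
  -- the centralizer of u has a normal 2-complement
  haveI := hK
  have hPH : (P : Subgroup G) ≤ Subgroup.centralizer ({u} : Set G) := by
    intro x hx
    rw [Subgroup.mem_centralizer_iff]
    intro h hh
    rw [Set.mem_singleton_iff.mp hh]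
    have := mul_comm_of_exponent_two (IsKleinFour.exponent_two (G := (P : Subgroup G)))
      ⟨u, huP⟩ ⟨x, hx⟩
    exact congrArg Subtype.val this
  obtain ⟨Q, hQ⟩ : ∃ Q : Sylow 2 (Subgroup.centralizer ({u} : Set G)),
      (Q : Subgroup (Subgroup.centralizer ({u} : Set G)))
        = (P : Subgroup G).subgroupOf (Subgroup.centralizer ({u} : Set G)) :=
    ⟨P.subtype hPH, rfl⟩
  have hQK : IsKleinFour (Q : Subgroup (Subgroup.centralizer ({u} : Set G))) := by
    rw [hQ]
    exact
      { card_four := by
          rw [Nat.card_congr (Subgroup.subgroupOfEquivOfLe hPH).toEquiv]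
          exact IsKleinFour.card_four
        exponent_two := by
          rw [Monoid.exponent_eq_of_mulEquiv (Subgroup.subgroupOfEquivOfLe hPH)]
          exact IsKleinFour.exponent_two }
  have huH : u ∈ Subgroup.centralizer ({u} : Set G) := by
    rw [Subgroup.mem_centralizer_iff]
    intro h hh
    rw [Set.mem_singleton_iff.mp hh]
  have huQ : (⟨u, huH⟩ : Subgroup.centralizer ({u} : Set G)) ∈ Q := by
    show _ ∈ (Q : Subgroup (Subgroup.centralizer ({u} : Set G)))
    rw [hQ, Subgroup.mem_subgroupOf]
    exact huP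
  have hune : (⟨u, huH⟩ : Subgroup.centralizer ({u} : Set G)) ≠ 1 :=
    fun h => hu1 (congrArg Subtype.val h)
  have huc : ∀ h : Subgroup.centralizer ({u} : Set G), h * ⟨u, huH⟩ = ⟨u, huH⟩ * h := by
    intro h
    apply Subtype.ext
    have := Subgroup.mem_centralizer_iff.mp h.2 u (Set.mem_singleton u)
    exact this.symm
  haveI := hQK
  have hidx := exists_index_pow_of_klein Q ⟨u, huH⟩ huQ hune huc
  obtain ⟨hnorm, hcop⟩ := Cfsg.Agent.Lib.helper9.pPrimeCore_mem 2
    (Subgroup.centralizer ({u} : Set G))
  haveI := hnorm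
  have hpK : ¬ 2 ∣ Nat.card (Cfsg.pPrimeCore 2 (Subgroup.centralizer ({u} : Set G))) :=
    (Nat.Prime.coprime_iff_not_dvd Nat.prime_two).mp hcop.symm
  have e2 : Cfsg.blockRank 2 (Cfsg.principalBlock M (Subgroup.centralizer ({u} : Set G))) = 1 :=
    blockRank_principal_eq_one hM (Cfsg.pPrimeCore 2 (Subgroup.centralizer ({u} : Set G))) hpK
      (fun y hy => mem_of_index_pow _ hidx y hy)
  rw [e1, e2] at hcount
  omega

end Cfsg.Agent.S4512
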