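import Cfsg.Statements.S4513
import Cfsg.Agent.Lib.helper22.DefectOne
import Cfsg.Agent.Lib.helper23.Deficiency
import Cfsg.Agent.Lib.helper5.BlockHeight

set_option autoImplicit false
open Cfsg

namespace Cfsg.Agent.S4513

open Cfsg.Agent.Lib.helper24 Cfsg.Agent.Lib.helper23 Cfsg.Agent.Lib.helper22 Cfsg.Agent.Lib.helper5
open scoped ComplexConjugate

universe u

theorem sum_ind_pair {ι : Type*} [Fintype ι] [DecidableEq ι] (S : Set ι) (a c : ι) (hac : a ≠ c)
    (hS : S = {a, c}) (f : ι → ℂ) :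
    ∑ i, S.indicator (fun _ => (1 : ℂ)) i * f i = f a + f c := by
  classical
  have ha : a ∈ S := by rw [hS]; exact Set.mem_insert _ _
  have hc : c ∈ S := by rw [hS]; exact Set.mem_insert_of_mem _ rfl
  rw [Finset.sum_eq_add a c hac]
  · rw [Set.indicator_of_mem ha, Set.indicator_of_mem hc, one_mul, one_mul]
  · intro i _ hi
    have : i ∉ S := by
      rw [hS]
      intro h
      rcases h with h | h
      · exact hi.1 h
      · exact hi.2 h
    rw [Set.indicator_of_notMem this, zero_mul]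
  · intro h
    exact absurd (Finset.mem_univ a) h
  · intro h
    exact absurd (Finset.mem_univ c) h

theorem sum_pair_of_zero {ι : Type*} [Fintype ι] [DecidableEq ι] (a c : ι) (hac : a ≠ c)
    (f : ι → ℂ) (hf : ∀ i, i ≠ a → i ≠ c → f i = 0) :
    ∑ i, f i = f a + f c := by
  classical
  rw [Finset.sum_eq_add a c hac]
  · intro i _ hi
    exact hf i hi.1 hi.2
  · intro h
    exact absurd (Finset.mem_univ a) h
  · intro h
    exact absurd (Finset.mem_univ c) h

theorem int_sq_ne_two (m : ℤ) : m ^ 2 ≠ 2 := by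
  intro h
  have h1 : m ≤ 1 := by nlinarith
  have h2 : -1 ≤ m := by nlinarith
  interval_cases m <;> simp at h

theorem int_sq_sum_two (m n : ℤ) (h : m ^ 2 + n ^ 2 = 2) :
    (m = 1 ∨ m = -1) ∧ (n = 1 ∨ n = -1) := by
  have h1 : m ≤ 1 := by nlinarith [sq_nonneg n]
  have h2 : -1 ≤ m := by nlinarith [sq_nonneg n]
  have h3 : n ≤ 1 := by nlinarith [sq_nonneg m]
  have h4 : -1 ≤ n := by nlinarith [sq_nonneg m]
  interval_cases m <;> interval_cases n <;> simp at h ⊢

theorem core {G : Type u} [Group G] [Fintype G] [Fintype (IrrCharacter G)]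
    (M : Ideal AlgInt) (hM : IsPModular 2 M) (x : G) (hx : orderOf x = 2)
    [Fintype (Subgroup.centralizer ({x} : Set G))]
    [Fintype (IrrCharacter (Subgroup.centralizer ({x} : Set G)))]
    (B : Set (IrrCharacter G)) (hB : IsPBlock M B)
    (hBD : IsDefectGroup 2 M B (Subgroup.zpowers x))
    (b : Set (IrrCharacter (Subgroup.centralizer ({x} : Set G))))
    (hb : IsInducedBlock M (Subgroup.centralizer ({x} : Set G)) b B)
    (θ : IrrCharacter (Subgroup.centralizer ({x} : Set G))) (hθ : θ ∈ b)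
    (hθx : ∀ z : Subgroup.centralizer ({x} : Set G), (z : G) = x → θ.1 z = θ.1 1) :
    ∃ χ₁ χ₂ : IrrCharacter G, χ₁ ≠ χ₂ ∧ B = {χ₁, χ₂} ∧ ∃ ε₁ ε₂ : ℤ,
      (ε₁ = 1 ∨ ε₁ = -1) ∧ (ε₂ = 1 ∨ ε₂ = -1) ∧ ε₁ * ε₂ = -1 ∧
      ∀ y : Subgroup.centralizer ({x} : Set G), ¬ 2 ∣ orderOf y →
        χ₁.1 (x * (y : G)) = (ε₁ : ℂ) * θ.1 y ∧ χ₂.1 (x * (y : G)) = (ε₂ : ℂ) * θ.1 y := by
  classical
  have hF2 : Fact (Nat.Prime 2) := ⟨Nat.prime_two⟩
  have hMp := isPModular_isPrime hM
  have hxx : x * x = 1 := by rw [← pow_two, ← hx, pow_orderOf_eq_one]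
  have hxinv : x⁻¹ = x := inv_eq_of_mul_eq_one_left hxx
  have hx1 : x ≠ 1 := by
    intro h
    rw [h, orderOf_one] at hx
    omega
  have hxp : ∃ k : ℕ, orderOf x = 2 ^ k := ⟨1, by rw [hx, pow_one]⟩
  have hH1 : ∀ h : Subgroup.centralizer ({x} : Set G), (h : G) * x = x * (h : G) :=
    fun h => Subgroup.mem_centralizer_singleton_iff.mp h.2
  have hxC : x ∈ Subgroup.centralizer ({x} : Set G) := self_mem_centralizer_singleton x
  have hreg1 : ¬ 2 ∣ orderOf (1 : Subgroup.centralizer ({x} : Set G)) := by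
    rw [orderOf_one]; norm_num
  obtain ⟨χ₀, rfl⟩ := hB
  have hB : IsPBlock M (blockOf M χ₀.1) := ⟨χ₀, rfl⟩
  have hχ₀ : χ₀ ∈ blockOf M χ₀.1 := mem_blockOf_self hMp.ne_top χ₀
  obtain ⟨ξ₀, hbξ⟩ := id hb.1
  have hbθ : blockOf M θ.1 = b := by
    rw [hbξ] at hθ ⊢
    exact blockOf_eq_of_mem hMp hθ
  have hdB : blockDefect 2 (blockOf M χ₀.1) = 1 := by
    obtain ⟨g, hg, P, hP⟩ := hBD
    have h1 := defect_class_factorization hM χ₀ g hg
    have h2 := Cfsg.Agent.Lib.helper5.card_sylow_map (Subgroup.centralizer ({g} : Set G)) P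
    rw [← hP, Nat.card_zpowers, hx] at h2
    have h3 : (2 : ℕ) ^ 1 = 2 ^ (Nat.card (Subgroup.centralizer ({g} : Set G))).factorization 2 := by
      rw [pow_one]; exact h2
    have h4 := Nat.pow_right_injective (le_refl 2) h3
    rw [← h1, ← h4]
  have hdb : blockDefect 2 b ≤ 1 := by
    rw [← hdB, ← hbθ]
    apply blockDefect_le_of_brFun (Subgroup.centralizer ({x} : Set G)) hM ⊤
      (fun _ _ _ _ => Subgroup.mem_top _) θ χ₀
    have ha := indicator_mem_osimaRing (G := G) hMp χ₀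
    have h1 := brFun_top_of_induced (Subgroup.centralizer ({x} : Set G)) hMp hb hθ hχ₀ ha
    rw [Set.indicator_of_mem hχ₀] at h1
    exact h1
  have hzc : (⟨x, hxC⟩ : Subgroup.centralizer ({x} : Set G))
      ∈ Subgroup.center (Subgroup.centralizer ({x} : Set G)) := by
    rw [Subgroup.mem_center_iff]
    intro g
    apply Subtype.ext
    exact hH1 g
  have hz2 : orderOf (⟨x, hxC⟩ : Subgroup.centralizer ({x} : Set G)) = 2 := by
    rw [← hx]
    exact Subgroup.orderOf_mk x hxC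
  obtain ⟨θ', hθ', hne, hall, hdeg, hθ'x, hθ'reg⟩ := two_block_central M hM ⟨x, hxC⟩ hzc hz2 b
    hb.1 hdb θ hθ (hθx ⟨x, hxC⟩ rfl)
  have hb2 : b = {θ, θ'} := by
    ext ψ
    constructor
    · intro hψ
      rcases hall ψ hψ with h | h
      · rw [h]; exact Set.mem_insert _ _
      · rw [h]; exact Set.mem_insert_of_mem _ rfl
    · intro hψ
      rcases hψ with rfl | rfl
      · exact hθ
      · exact hθ'
  have hθ1 : θ.1 1 ≠ 0 := irr_one_ne_zero θ
  have hθreal : conj (θ.1 1) = θ.1 1 := by rw [← charDegree_cast, Complex.conj_natCast]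
  have hDex : ∀ χ : IrrCharacter G, ∃ d : ℤ, ∀ y : Subgroup.centralizer ({x} : Set G),
      ¬ 2 ∣ orderOf y →
      blockPart b (fun c : Subgroup.centralizer ({x} : Set G) => χ.1 (x * (c : G))) y
        = (d : ℂ) * θ.1 y := by
    intro χ
    obtain ⟨m, hm⟩ := subsec_inner_int (Subgroup.centralizer ({x} : Set G)) x hxx hH1 hxC χ θ
    obtain ⟨m', hm'⟩ := subsec_inner_int (Subgroup.centralizer ({x} : Set G)) x hxx hH1 hxC χ θ'
    refine ⟨m + m', fun y hy => ?_⟩
    rw [blockPart_eq_ind, sum_ind_pair b θ θ' hne.symm hb2, hm, hm', hθ'reg y hy]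
    push_cast
    ring
  choose D hD using hDex
  have hDout : ∀ χ, χ ∉ blockOf M χ₀.1 → D χ = 0 := by
    intro χ hχ
    have h1 := subsec_second_main (Subgroup.centralizer ({x} : Set G)) hM x hxp hH1 le_rfl b _ hb
      χ hχ 1 hreg1
    rw [hD χ 1 hreg1] at h1
    rcases mul_eq_zero.mp h1 with h | h
    · exact_mod_cast h
    · exact absurd h hθ1
  have hG := subsec_gram (Subgroup.centralizer ({x} : Set G)) hM x hxp hH1 le_rfl b hb.1 1 1
    hreg1 hreg1
  rw [sum_ind_pair b θ θ' hne.symm hb2] at hG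
  have hG2 : ∑ χ : IrrCharacter G, (D χ) ^ 2 = 2 := by
    have h1 : ((∑ χ : IrrCharacter G, (D χ) ^ 2 : ℤ) : ℂ) * (θ.1 1 * θ.1 1)
        = 2 * (θ.1 1 * θ.1 1) := by
      rw [hdeg, hθreal] at hG
      rw [two_mul, ← hG]
      push_cast
      rw [Finset.sum_mul]
      apply Finset.sum_congr rfl
      intro χ _
      rw [hD χ 1 hreg1, map_mul, hθreal, map_intCast]
      ring
    have h2 := mul_right_cancel₀ (mul_ne_zero hθ1 hθ1) h1
    exact_mod_cast h2
  obtain ⟨χ₁, χ₂, hne12, hBset, hD1, hD2⟩ : ∃ χ₁ χ₂ : IrrCharacter G, χ₁ ≠ χ₂ ∧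
      blockOf M χ₀.1 = {χ₁, χ₂} ∧ (D χ₁ = 1 ∨ D χ₁ = -1) ∧ (D χ₂ = 1 ∨ D χ₂ = -1) := by
    obtain ⟨Bf, hBf⟩ : ∃ Bf : Finset (IrrCharacter G),
        Bf = Finset.univ.filter (fun χ => χ ∈ blockOf M χ₀.1) := ⟨_, rfl⟩
    have hmemBf : ∀ χ, χ ∈ Bf ↔ χ ∈ blockOf M χ₀.1 := by
      intro χ
      rw [hBf, Finset.mem_filter]
      simp
    have hsumBf : ∑ χ ∈ Bf, (D χ) ^ 2 = 2 := by
      rw [← hG2]
      apply Finset.sum_subset (Finset.subset_univ _)
      intro χ _ hχ
      rw [hDout χ (fun h => hχ ((hmemBf χ).mpr h))]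
      norm_num
    have hcardBf : Bf.card ≤ 2 := by
      have h1 := Cfsg.Agent.S4494.result 2 M hM _ hB
      rw [hdB] at h1
      have h2 : Nat.card (blockOf M χ₀.1) = Bf.card := by
        rw [Nat.card_eq_fintype_card, hBf]
        exact Fintype.card_subtype _
      rw [h2] at h1
      omega
    have hcases : Bf.card = 0 ∨ Bf.card = 1 ∨ Bf.card = 2 := by omega
    rcases hcases with h0 | h1 | h2
    · rw [Finset.card_eq_zero] at h0
      rw [h0, Finset.sum_empty] at hsumBf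
      omega
    · obtain ⟨a, ha⟩ := Finset.card_eq_one.mp h1
      rw [ha, Finset.sum_singleton] at hsumBf
      exact absurd hsumBf (int_sq_ne_two _)
    · obtain ⟨χ₁, χ₂, hne12, hBf2⟩ := Finset.card_eq_two.mp h2
      rw [hBf2, Finset.sum_pair hne12] at hsumBf
      obtain ⟨hD1, hD2⟩ := int_sq_sum_two _ _ hsumBf
      refine ⟨χ₁, χ₂, hne12, ?_, hD1, hD2⟩
      ext χ
      rw [← hmemBf, hBf2]
      simp
  have hχ₁B : χ₁ ∈ blockOf M χ₀.1 := by rw [hBset]; exact Set.mem_insert _ _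
  have hχ₂B : χ₂ ∈ blockOf M χ₀.1 := by rw [hBset]; exact Set.mem_insert_of_mem _ rfl
  have hnotB : ∀ χ, χ ≠ χ₁ → χ ≠ χ₂ → χ ∉ blockOf M χ₀.1 := by
    intro χ h1 h2 hχ
    rw [hBset] at hχ
    rcases hχ with h | h
    · exact h1 h
    · exact h2 h
  obtain ⟨w, hwdef⟩ : ∃ w : IrrCharacter G → ℂ,
      w = fun χ => (blockOf M χ₀.1).indicator (fun _ => (1 : ℂ)) χ * χ.1 1 := ⟨_, rfl⟩
  have hw : ∀ c : Subgroup.centralizer ({x} : Set G), ¬ 2 ∣ orderOf c →
      ∑ χ : IrrCharacter G, w χ * χ.1 (x * (c : G)) = 0 := by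
    intro c hc
    have hcG : ¬ 2 ∣ orderOf (c : G) := by rw [Subgroup.orderOf_coe]; exact hc
    have h := block_orth hM (x * (c : G)) 1 x 1 (isPPart_mul (hH1 c).symm hxp hcG)
      (isPPart_one_of_regular 1 (by rw [orderOf_one]; norm_num))
      (fun h => hx1 (isConj_one_left.mp h)) _ hB
    rw [finsum_mem_def, finsum_eq_sum_of_fintype] at h
    rw [← h]
    apply Finset.sum_congr rfl
    intro χ _
    rw [hwdef]
    by_cases hχ : χ ∈ blockOf M χ₀.1
    · simp only [Set.indicator_of_mem hχ, one_mul, inv_one]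
      ring
    · simp only [Set.indicator_of_notMem hχ, zero_mul]
  have hprop : ∀ e : Set (IrrCharacter (Subgroup.centralizer ({x} : Set G))), IsPBlock M e →
      ∀ s : Subgroup.centralizer ({x} : Set G), ¬ 2 ∣ orderOf s →
      χ₁.1 1 * blockPart e (fun c : Subgroup.centralizer ({x} : Set G) => χ₁.1 (x * (c : G))) s
        + χ₂.1 1 * blockPart e
          (fun c : Subgroup.centralizer ({x} : Set G) => χ₂.1 (x * (c : G))) s = 0 := by
    intro e he s hs
    have h := subsec_weighted_vanish (Subgroup.centralizer ({x} : Set G)) hM x hH1 w hw e he s hs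
    rw [sum_pair_of_zero χ₁ χ₂ hne12 _ (fun χ h1 h2 => by
      rw [hwdef]
      simp only [Set.indicator_of_notMem (hnotB χ h1 h2), zero_mul])] at h
    rw [hwdef] at h
    simp only [Set.indicator_of_mem hχ₁B, Set.indicator_of_mem hχ₂B, one_mul] at h
    exact h
  have hd1 : (charDegree χ₁.1 : ℂ) = χ₁.1 1 := charDegree_cast χ₁
  have hd2 : (charDegree χ₂.1 : ℂ) = χ₂.1 1 := charDegree_cast χ₂
  have hpos1 : 0 < charDegree χ₁.1 := charDegree_pos χ₁
  have hpos2 : 0 < charDegree χ₂.1 := charDegree_pos χ₂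
  have hint : (charDegree χ₁.1 : ℤ) * D χ₁ + (charDegree χ₂.1 : ℤ) * D χ₂ = 0 := by
    have h0 := hprop b hb.1 1 hreg1
    rw [hD χ₁ 1 hreg1, hD χ₂ 1 hreg1, ← hd1, ← hd2] at h0
    have h1 : (((charDegree χ₁.1 : ℤ) * D χ₁ + (charDegree χ₂.1 : ℤ) * D χ₂ : ℤ) : ℂ) * θ.1 1
        = 0 := by
      push_cast
      linear_combination h0
    rcases mul_eq_zero.mp h1 with h | h
    · exact_mod_cast h
    · exact absurd h hθ1
  have hDD : D χ₂ = - D χ₁ ∧ charDegree χ₂.1 = charDegree χ₁.1 := by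
    rcases hD1 with h1 | h1 <;> rcases hD2 with h2 | h2 <;> rw [h1, h2] at hint ⊢ <;>
      constructor <;> omega
  have hdd : χ₂.1 1 = χ₁.1 1 := by rw [← hd1, ← hd2, hDD.2]
  have hS : secSet M x (blockOf M χ₀.1) = b := by
    ext ψ'
    constructor
    · intro hψ'
      by_contra hnb
      have he : IsPBlock M (blockOf M ψ'.1) := ⟨ψ', rfl⟩
      have hdisj : ∀ ψ, ψ ∈ b → ψ ∉ blockOf M ψ'.1 := by
        intro ψ hψb hψe
        have h1 : blockOf M ψ.1 = blockOf M ψ'.1 := blockOf_eq_of_mem hMp hψe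
        have h2 : blockOf M ψ.1 = b := by
          rw [hbξ] at hψb ⊢
          exact blockOf_eq_of_mem hMp hψb
        apply hnb
        rw [← h2, h1]
        exact mem_blockOf_self hMp.ne_top ψ'
      have hp1 := hprop _ he 1 hreg1
      have he2 : blockPart (blockOf M ψ'.1)
            (fun c : Subgroup.centralizer ({x} : Set G) => χ₂.1 (x * (c : G))) 1
          = - blockPart (blockOf M ψ'.1)
            (fun c : Subgroup.centralizer ({x} : Set G) => χ₁.1 (x * (c : G))) 1 := by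
        rw [hdd] at hp1
        have h3 : χ₁.1 1 * (blockPart (blockOf M ψ'.1)
            (fun c : Subgroup.centralizer ({x} : Set G) => χ₁.1 (x * (c : G))) 1
          + blockPart (blockOf M ψ'.1)
            (fun c : Subgroup.centralizer ({x} : Set G) => χ₂.1 (x * (c : G))) 1) = 0 := by
          linear_combination hp1
        rcases mul_eq_zero.mp h3 with h | h
        · exact absurd h (irr_one_ne_zero χ₁)
        · linear_combination h
      have hcross := subsec_gram2 (Subgroup.centralizer ({x} : Set G)) hM x hxp hH1 le_rfl b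
        (blockOf M ψ'.1) hb.1 he 1 1 hreg1 hreg1
      have hR : ∑ ψ : IrrCharacter (Subgroup.centralizer ({x} : Set G)),
          b.indicator (fun _ => (1 : ℂ)) ψ * ((blockOf M ψ'.1).indicator (fun _ => (1 : ℂ)) ψ
            * (ψ.1 1 * conj (ψ.1 1))) = 0 := by
        apply Finset.sum_eq_zero
        intro ψ _
        by_cases hψ : ψ ∈ b
        · rw [Set.indicator_of_notMem (hdisj ψ hψ), zero_mul, mul_zero]
        · rw [Set.indicator_of_notMem hψ, zero_mul]
      rw [hR, sum_pair_of_zero χ₁ χ₂ hne12 _ (fun χ h1 h2 => by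
        rw [hD χ 1 hreg1, hDout χ (hnotB χ h1 h2)]
        simp)] at hcross
      rw [hD χ₁ 1 hreg1, hD χ₂ 1 hreg1, he2, hDD.1] at hcross
      have hE : blockPart (blockOf M ψ'.1)
          (fun c : Subgroup.centralizer ({x} : Set G) => χ₁.1 (x * (c : G))) 1 = 0 := by
        have h4 : (2 * (D χ₁ : ℂ) * θ.1 1) * conj (blockPart (blockOf M ψ'.1)
            (fun c : Subgroup.centralizer ({x} : Set G) => χ₁.1 (x * (c : G))) 1) = 0 := by
          rw [map_neg] at hcross
          push_cast at hcross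
          linear_combination hcross
        have hDne : (D χ₁ : ℂ) ≠ 0 := by
          rcases hD1 with h | h <;> rw [h] <;> norm_num
        rcases mul_eq_zero.mp h4 with h | h
        · exact absurd h (mul_ne_zero (mul_ne_zero two_ne_zero hDne) hθ1)
        · simpa using h
      have hE2 : blockPart (blockOf M ψ'.1)
          (fun c : Subgroup.centralizer ({x} : Set G) => χ₂.1 (x * (c : G))) 1 = 0 := by
        rw [he2, hE, neg_zero]
      have hgr := subsec_gram (Subgroup.centralizer ({x} : Set G)) hM x hxp hH1 le_rfl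
        (blockOf M ψ'.1) he 1 1 hreg1 hreg1
      have hL : ∑ χ : IrrCharacter G, blockPart (blockOf M ψ'.1)
            (fun c : Subgroup.centralizer ({x} : Set G) => χ.1 (x * (c : G))) 1
          * conj (blockPart (blockOf M ψ'.1)
            (fun c : Subgroup.centralizer ({x} : Set G) => χ.1 (x * (c : G))) 1) = 0 := by
        apply Finset.sum_eq_zero
        intro χ _
        by_cases hχ : χ ∈ blockOf M χ₀.1
        · rw [hBset] at hχ
          rcases hχ with rfl | rfl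
          · rw [hE, zero_mul]
          · rw [hE2, zero_mul]
        · rw [subsec_second_main (Subgroup.centralizer ({x} : Set G)) hM x hxp hH1 le_rfl _ _ hψ'
            χ hχ 1 hreg1, zero_mul]
      rw [hL] at hgr
      have hnat : ∑ ψ : IrrCharacter (Subgroup.centralizer ({x} : Set G)),
          (blockOf M ψ'.1).indicator (fun _ => (1 : ℂ)) ψ * (ψ.1 1 * conj (ψ.1 1))
          = ((∑ ψ : IrrCharacter (Subgroup.centralizer ({x} : Set G)),
              (if ψ ∈ blockOf M ψ'.1 then charDegree ψ.1 * charDegree ψ.1 else 0) : ℕ) : ℂ) := by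
        push_cast
        apply Finset.sum_congr rfl
        intro ψ _
        by_cases hψ : ψ ∈ blockOf M ψ'.1
        · rw [Set.indicator_of_mem hψ, if_pos hψ, ← charDegree_cast, Complex.conj_natCast, one_mul]
        · rw [Set.indicator_of_notMem hψ, if_neg hψ, zero_mul]
      rw [hnat] at hgr
      have h0 : ∑ ψ : IrrCharacter (Subgroup.centralizer ({x} : Set G)),
          (if ψ ∈ blockOf M ψ'.1 then charDegree ψ.1 * charDegree ψ.1 else 0) = 0 := by
        exact_mod_cast hgr.symm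
      have h5 := (Finset.sum_eq_zero_iff.mp h0) ψ' (Finset.mem_univ _)
      rw [if_pos (mem_blockOf_self hMp.ne_top ψ')] at h5
      have h6 := charDegree_pos ψ'
      have h7 : 0 < charDegree ψ'.1 * charDegree ψ'.1 := Nat.mul_pos h6 h6
      omega
    · intro hψ'b
      show IsInducedBlock M _ (blockOf M ψ'.1) _
      have h1 : blockOf M ψ'.1 = b := by
        rw [hbξ] at hψ'b ⊢
        exact blockOf_eq_of_mem hMp hψ'b
      rw [h1]
      exact hb
  have hval : ∀ χ ∈ blockOf M χ₀.1, ∀ y : Subgroup.centralizer ({x} : Set G),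
      ¬ 2 ∣ orderOf y → χ.1 (x * (y : G)) = (D χ : ℂ) * θ.1 y := by
    intro χ hχ y hy
    rw [section_value hM x hxp _ hB hχ y hy, hS, ← blockPart_eq_ind, hD χ y hy]
  refine ⟨χ₁, χ₂, hne12, hBset, D χ₁, D χ₂, hD1, hD2, ?_,
    fun y hy => ⟨hval χ₁ hχ₁B y hy, hval χ₂ hχ₂B y hy⟩⟩
  rw [hDD.1]
  rcases hD1 with h | h <;> rw [h] <;> norm_num

theorem result {G : Type*} [Group G] [Finite G] (M : Ideal Cfsg.AlgInt) (hM : Cfsg.IsPModular 2 M) (x : G) (hx : orderOf x = 2)
    (B : Set (Cfsg.IrrCharacter G)) (hB : Cfsg.IsPBlock M B) (hBD : Cfsg.IsDefectGroup 2 M B (Subgroup.zpowers x))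
    (b : Set (Cfsg.IrrCharacter ↥(Subgroup.centralizer ({x} : Set G)))) (hb : Cfsg.IsInducedBlock M (Subgroup.centralizer ({x} : Set G)) b B)
    (θ : Cfsg.IrrCharacter ↥(Subgroup.centralizer ({x} : Set G))) (hθ : θ ∈ b)
    (hθx : ∀ z : ↥(Subgroup.centralizer ({x} : Set G)), (z : G) = x → (θ : ↥(Subgroup.centralizer ({x} : Set G)) → ℂ) z = (θ : ↥(Subgroup.centralizer ({x} : Set G)) → ℂ) 1) :
    Nat.card B = 2 ∧ (∀ χ ∈ B, ∀ ψ ∈ B, ∀ g : G, ¬ 2 ∣ orderOf g → (χ : G → ℂ) g = (ψ : G → ℂ) g) ∧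
      ∃ χ₁ ∈ B, ∃ χ₂ ∈ B, χ₁ ≠ χ₂ ∧ ∃ ε₁ ε₂ : ℤ, (ε₁ = 1 ∨ ε₁ = -1) ∧ (ε₂ = 1 ∨ ε₂ = -1) ∧ ε₁ * ε₂ = -1 ∧
        ∀ y : ↥(Subgroup.centralizer ({x} : Set G)), ¬ 2 ∣ orderOf y →
          (χ₁ : G → ℂ) (x * y) = (ε₁ : ℂ) * (θ : ↥(Subgroup.centralizer ({x} : Set G)) → ℂ) y ∧ (χ₂ : G → ℂ) (x * y) = (ε₂ : ℂ) * (θ : ↥(Subgroup.centralizer ({x} : Set G)) → ℂ) y := by
  classical
  have := Fintype.ofFinite G
  have := Fintype.ofFinite (IrrCharacter G)
  have := Fintype.ofFinite (Subgroup.centralizer ({x} : Set G))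
  have := Fintype.ofFinite (IrrCharacter (Subgroup.centralizer ({x} : Set G)))
  have hF2 : Fact (Nat.Prime 2) := ⟨Nat.prime_two⟩
  obtain ⟨χ₁, χ₂, hne, hBset, ε₁, ε₂, h1, h2, h12, hv⟩ :=
    core M hM x hx B hB hBD b hb θ hθ hθx
  have hχ₁B : χ₁ ∈ B := by rw [hBset]; exact Set.mem_insert _ _
  have hχ₂B : χ₂ ∈ B := by rw [hBset]; exact Set.mem_insert_of_mem _ rfl
  refine ⟨?_, ?_, χ₁, hχ₁B, χ₂, hχ₂B, hne, ε₁, ε₂, h1, h2, h12, hv⟩
  · rw [hBset, Nat.card_coe_set_eq, Set.ncard_pair hne]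
  · have key : ∀ g : G, ¬ 2 ∣ orderOf g → χ₁.1 g = χ₂.1 g := by
      intro g hg
      have hxx : x * x = 1 := by rw [← pow_two, ← hx, pow_orderOf_eq_one]
      have hxinv : x⁻¹ = x := inv_eq_of_mul_eq_one_left hxx
      have hx1 : x ≠ 1 := by
        intro h
        rw [h, orderOf_one] at hx
        omega
      have hPx : IsPPart 2 x x := ⟨1, mul_one x, Commute.one_right x, ⟨1, by rw [hx, pow_one]⟩,
        by rw [orderOf_one]; norm_num⟩
      have h := block_orth hM g x 1 x (isPPart_one_of_regular g hg) hPx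
        (fun h => hx1 (isConj_one_right.mp h)) B hB
      rw [hxinv, hBset, finsum_mem_pair hne] at h
      have hreg1 : ¬ 2 ∣ orderOf (1 : Subgroup.centralizer ({x} : Set G)) := by
        rw [orderOf_one]; norm_num
      have hv1 := hv 1 hreg1
      simp only [OneMemClass.coe_one, mul_one] at hv1
      rw [hv1.1, hv1.2] at h
      have hθ1 : θ.1 1 ≠ 0 := irr_one_ne_zero θ
      rcases h1 with e1 | e1 <;> rcases h2 with e2 | e2 <;> rw [e1, e2] at h h12
      · norm_num at h12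
      · push_cast at h
        have h3 : θ.1 1 * (χ₁.1 g - χ₂.1 g) = 0 := by linear_combination h
        exact sub_eq_zero.mp ((mul_eq_zero.mp h3).resolve_left hθ1)
      · push_cast at h
        have h3 : θ.1 1 * (χ₂.1 g - χ₁.1 g) = 0 := by linear_combination h
        exact (sub_eq_zero.mp ((mul_eq_zero.mp h3).resolve_left hθ1)).symm
      · norm_num at h12
    intro χ hχ ψ hψ g hg
    rw [hBset] at hχ hψ
    rcases hχ with rfl | rfl <;> rcases hψ with rfl | rfl
    · rfl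
    · exact key g hg
    · exact (key g hg).symm
    · rfl

end Cfsg.Agent.S4513
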