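import Cfsg.Statements.S4558
import Cfsg.Agent.Lib.helper23.CharMod

set_option autoImplicit false
open Cfsg

namespace Cfsg.Agent.S4558

/-- Let χ be a character of the finite group G and g an element of p-power order for the prime p. If χ g = 0, then p divides the degree of χ. -/
theorem result {G : Type*} [Group G] [Finite G] (p : ℕ) [Fact p.Prime] (χ : G → ℂ) (hχ : Cfsg.IsCharacter G χ) (g : G) (hg : ∃ j : ℕ, orderOf g = p ^ j) (h0 : χ g = 0) : p ∣ Cfsg.charDegree χ := by
  obtain ⟨n, ρ, rfl⟩ := hχ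
  obtain ⟨j, hj⟩ := hg
  obtain ⟨M, hM⟩ := Cfsg.Agent.Lib.helper23.exists_isPModular p Fact.out
  have hgp : g ^ (p ^ j) = 1 := by
    rw [← hj]
    exact pow_orderOf_eq_one g
  obtain ⟨a, ha, haM⟩ := Cfsg.Agent.Lib.helper23.rep_char_modEq_degree hM n ρ g j hgp
  rw [h0, zero_sub] at ha
  have h1 : a = -((n : ℕ) : Cfsg.AlgInt) := Subtype.ext (by simpa using ha)
  rw [h1] at haM
  have h2 : ((n : ℕ) : Cfsg.AlgInt) ∈ M := by simpa using M.neg_mem haM
  rw [Cfsg.Agent.Lib.helper23.charDegree_rep]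
  exact (Cfsg.Agent.Lib.helper23.natCast_mem_iff hM n).mp h2

end Cfsg.Agent.S4558
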