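import Cfsg.Statements.S4566
import Cfsg.Agent.Lib.helper23.CharSchur

set_option autoImplicit false
open Cfsg

namespace Cfsg.Agent.S4566

/-- Let N be a central subgroup of the finite group G, ψ a faithful irreducible (hence degree-one) character of N, and χ an irreducible character of G whose restriction to N contains ψ. If g ∈ G and some x ∈ G has commutator x⁻¹ g⁻¹ x g in N but different from 1, then χ g = 0. -/
theorem result {G : Type*} [Group G] [Fintype G] (N : Subgroup G) [Fintype N] (hN : N ≤ Subgroup.center G) (ψ : Cfsg.IrrCharacter ↥N) (hfaith : ∀ n : ↥N, (ψ : ↥N → ℂ) n = (ψ : ↥N → ℂ) 1 → n = 1) (χ : Cfsg.IrrCharacter G) (hover : Cfsg.classInner (fun n : ↥N => (χ : G → ℂ) n) (ψ : ↥N → ℂ) ≠ 0) (g x : G) (hcomm : x⁻¹ * g⁻¹ * x * g ∈ N) (hne : x⁻¹ * g⁻¹ * x * g ≠ 1) : (χ : G → ℂ) g = 0 := by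
  classical
  have hcenN : ∀ m : ↥N, m ∈ Subgroup.center ↥N := by
    intro m
    rw [Subgroup.mem_center_iff]
    intro k
    apply Subtype.ext
    have := Subgroup.mem_center_iff.mp (hN m.2) (k : G)
    simpa using this
  have hlam : ∀ m : ↥N, ∃ c : ℂ, (∀ g, (χ : G → ℂ) ((m : G) * g) = c * (χ : G → ℂ) g) ∧
      (∀ k : ℕ, (m : G) ^ k = 1 → c ^ k = 1) := fun m =>
    Cfsg.Agent.Lib.helper23.isIrrCharacter_central χ.2 (m : G) (hN m.2)
  have hc : ∀ m : ↥N, ∃ c : ℂ, (∀ k, (ψ : ↥N → ℂ) (m * k) = c * (ψ : ↥N → ℂ) k) ∧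
      (∀ k : ℕ, m ^ k = 1 → c ^ k = 1) := fun m =>
    Cfsg.Agent.Lib.helper23.isIrrCharacter_central ψ.2 m (hcenN m)
  choose lam hlam1 hlam2 using hlam
  choose c hc1 hc2 using hc
  set S : ℂ := ∑ n : ↥N, (χ : G → ℂ) n * (starRingEnd ℂ) ((ψ : ↥N → ℂ) n) with hS
  have hS0 : S ≠ 0 := by
    intro h
    apply hover
    unfold Cfsg.classInner
    rw [← hS, h, mul_zero]
  have hkey : ∀ m : ↥N, lam m = c m := by
    intro m
    have h1 : S = lam m * (starRingEnd ℂ) (c m) * S := by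
      have h2 : S = ∑ n : ↥N, (χ : G → ℂ) ((m * n : ↥N) : G) *
          (starRingEnd ℂ) ((ψ : ↥N → ℂ) (m * n)) := by
        rw [hS]
        exact (Fintype.sum_equiv (Equiv.mulLeft m) _ _ (fun n => rfl)).symm
      conv_lhs => rw [h2]
      rw [hS, Finset.mul_sum]
      refine Finset.sum_congr rfl ?_
      intro n _
      rw [hc1 m n]
      have : ((m * n : ↥N) : G) = (m : G) * (n : G) := rfl
      rw [this, hlam1 m (n : G), map_mul]
      ring
    have h3 : lam m * (starRingEnd ℂ) (c m) = 1 := by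
      have h4 : (lam m * (starRingEnd ℂ) (c m) - 1) * S = 0 := by
        rw [sub_mul, one_mul, ← h1, sub_self]
      rcases mul_eq_zero.mp h4 with h5 | h5
      · exact sub_eq_zero.mp h5
      · exact absurd h5 hS0
    have hnorm : ‖c m‖ = 1 := by
      have hpos : 0 < orderOf m := orderOf_pos m
      exact Complex.norm_eq_one_of_pow_eq_one (hc2 m (orderOf m) (pow_orderOf_eq_one m)) hpos.ne'
    have hinv : (starRingEnd ℂ) (c m) = (c m)⁻¹ := (Complex.inv_eq_conj hnorm).symm
    rw [hinv] at h3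
    have hc0 : c m ≠ 0 := by
      intro h0
      rw [h0] at hnorm
      simp at hnorm
    field_simp at h3
    exact h3
  set z : ↥N := ⟨x⁻¹ * g⁻¹ * x * g, hcomm⟩ with hz
  have hz1 : z ≠ 1 := by
    intro h
    apply hne
    have h' : (z : G) = 1 := by rw [h]; rfl
    exact h'
  have hlamz : lam z ≠ 1 := by
    intro h
    apply hz1
    apply hfaith
    have := hc1 z 1
    rw [mul_one, ← hkey z, h, one_mul] at this
    exact this
  have hg : g = (z : G) * (x⁻¹ * g * x) := by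
    have hzc : (z : G) * (x⁻¹ * g * x) = (x⁻¹ * g * x) * (z : G) :=
      (Subgroup.mem_center_iff.mp (hN z.2) (x⁻¹ * g * x)).symm
    rw [hzc, hz]
    simp only []
    group
  have h5 : (χ : G → ℂ) g = lam z * (χ : G → ℂ) g := by
    conv_lhs => rw [hg]
    rw [hlam1 z (x⁻¹ * g * x)]
    have h6 := Cfsg.Agent.Lib.helper23.isCharacter_conj_invariant
      (Cfsg.Agent.Lib.helper23.isIrrCharacter_isCharacter χ.2) g x⁻¹
    rw [inv_inv] at h6
    rw [h6]
  have h7 : (1 - lam z) * (χ : G → ℂ) g = 0 := by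
    rw [sub_mul, one_mul, ← h5, sub_self]
  rcases mul_eq_zero.mp h7 with h8 | h8
  · exact absurd (sub_eq_zero.mp h8).symm hlamz
  · exact h8

end Cfsg.Agent.S4566
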