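import Cfsg.Statements.S4582
-- import your own Cfsg.Agent.* helpers here
import Mathlib

set_option autoImplicit false
open Cfsg

namespace Cfsg.Agent.S4582

theorem transfer_comp_subtype {G : Type*} [Group G] (H : Subgroup G) [H.FiniteIndex]
    {A : Type*} [CommGroup A] (ρ : G →* A) (g : G) :
    MonoidHom.transfer (ρ.comp H.subtype) g = ρ g ^ H.index := by
  have : Fintype (Quotient (MulAction.orbitRel (Subgroup.zpowers g) (G ⧸ H))) :=
    Fintype.ofFinite _
  rw [Subgroup.index_eq_sum_minimalPeriod H g, ← Finset.prod_pow_eq_pow_sum,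
    MonoidHom.transfer_eq_prod_quotient_orbitRel_zpowers_quot]
  apply Finset.prod_congr rfl
  intro q _
  simp only [MonoidHom.comp_apply, Subgroup.subtype_apply, map_mul, map_inv, map_pow]
  rw [mul_comm, mul_inv_cancel_left]

theorem transfer_comp_hom {G : Type*} [Group G] (H : Subgroup G) [H.FiniteIndex]
    {A B : Type*} [CommGroup A] [CommGroup B] (φ : H →* A) (ψ : A →* B) (g : G) :
    MonoidHom.transfer (ψ.comp φ) g = ψ (MonoidHom.transfer φ g) := by
  have : Fintype (Quotient (MulAction.orbitRel (Subgroup.zpowers g) (G ⧸ H))) :=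
    Fintype.ofFinite _
  rw [MonoidHom.transfer_eq_prod_quotient_orbitRel_zpowers_quot,
    MonoidHom.transfer_eq_prod_quotient_orbitRel_zpowers_quot, map_prod]
  rfl

theorem core {H : Type*} [Group H] [Finite H] (N P : Subgroup H) [N.Normal]
    (hPN : P ⊔ N = ⊤) (h2 : IsPGroup 2 P) (hidx : Odd P.index)
    (hP : ∀ x ∈ P, x ^ 2 ∈ (P ⊓ N) ⊔ ⁅P, P⁆)
    (hQ : ∀ x ∈ P ⊓ N, x ^ 2 ∈ ⁅P, P⁆)
    (hodd : Odd (Nat.card (Abelianization N))) :
    ∀ x ∈ P, x ^ 2 ∈ ⁅P, P⁆ := by
  classical
  have ha : ∀ y : P, Abelianization.of y = 1 ↔ (y : H) ∈ ⁅P, P⁆ := by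
    intro y
    rw [← MonoidHom.mem_ker, Abelianization.ker_of, ← Subgroup.map_subtype_commutator]
    constructor
    · intro h; exact ⟨y, h, rfl⟩
    · rintro ⟨z, hz, hzy⟩
      have : z = y := Subtype.ext hzy
      exact this ▸ hz
  set lam : P →* Abelianization P := Abelianization.of with hlam
  set V : H →* Abelianization P := MonoidHom.transfer lam with hV
  have hcardA : ∃ k, Nat.card (Abelianization P) = 2 ^ k := by
    obtain ⟨k, hk⟩ := h2.exists_card_eq
    have hdvd : Nat.card (Abelianization P) ∣ Nat.card P :=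
      Subgroup.card_quotient_dvd_card (commutator P)
    rw [hk] at hdvd
    obtain ⟨j, -, hj⟩ := (Nat.dvd_prime_pow Nat.prime_two).1 hdvd
    exact ⟨j, hj⟩
  have hb : ∀ n ∈ N, V n = 1 := by
    intro n hn
    set f : N →* Abelianization P := V.comp N.subtype with hf
    have h1 : V n = Abelianization.lift f (Abelianization.of ⟨n, hn⟩) := by
      rw [Abelianization.lift_apply_of]; rfl
    rw [h1]
    set a := Abelianization.of (⟨n, hn⟩ : N)
    have ho1 : orderOf (Abelianization.lift f a) ∣ Nat.card (Abelianization N) :=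
      (orderOf_map_dvd _ a).trans (orderOf_dvd_natCard a)
    have ho2 : orderOf (Abelianization.lift f a) ∣ Nat.card (Abelianization P) :=
      orderOf_dvd_natCard _
    obtain ⟨k, hk⟩ := hcardA
    rw [hk] at ho2
    obtain ⟨j, -, hj⟩ := (Nat.dvd_prime_pow Nat.prime_two).1 ho2
    rcases Nat.eq_zero_or_pos j with rfl | hjpos
    · simpa using hj
    · exfalso
      have : 2 ∣ Nat.card (Abelianization N) := (dvd_pow_self 2 hjpos.ne').trans (hj ▸ ho1)
      exact (Nat.not_even_iff_odd.2 hodd) (even_iff_two_dvd.2 this)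
  have hc : ∀ y : H, y ∈ (P ⊓ N) ⊔ ⁅P, P⁆ → V y = 1 := by
    intro y hy
    have hle : (P ⊓ N) ⊔ ⁅P, P⁆ ≤ V.ker := by
      refine sup_le ?_ ?_
      · intro z hz; exact MonoidHom.mem_ker.2 (hb z hz.2)
      · refine le_trans ?_ (Abelianization.commutator_subset_ker V)
        rw [commutator_def]
        exact Subgroup.commutator_mono le_top le_top
    exact MonoidHom.mem_ker.1 (hle hy)
  have hd : ∀ y : P, (y : H) ∈ (P ⊓ N) ⊔ ⁅P, P⁆ → lam y ^ 2 = 1 := by
    intro y hy
    have hle : (P ⊓ N) ⊔ ⁅P, P⁆ ≤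
        (((powMonoidHom 2 : Abelianization P →* Abelianization P).ker).comap lam).map P.subtype := by
      refine sup_le ?_ ?_
      · intro z hz
        rw [Subgroup.mem_map]
        refine ⟨⟨z, (Subgroup.mem_inf.1 hz).1⟩, ?_, rfl⟩
        rw [Subgroup.mem_comap, MonoidHom.mem_ker, powMonoidHom_apply, ← map_pow]
        exact (ha _).2 (by simpa using hQ z hz)
      · intro z hz
        rw [Subgroup.mem_map]
        refine ⟨⟨z, Subgroup.commutator_le_self P hz⟩, ?_, rfl⟩
        rw [Subgroup.mem_comap, MonoidHom.mem_ker, powMonoidHom_apply, (ha _).2 (by simpa using hz),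
          one_pow]
    obtain ⟨z, hz, hzy⟩ := hle hy
    have : z = y := Subtype.ext hzy
    subst this
    simpa using hz
  set rho : H →* Abelianization (H ⧸ N) := Abelianization.of.comp (QuotientGroup.mk' N) with hrho
  have he : ∀ y : P, rho y = 1 → (y : H) ∈ (P ⊓ N) ⊔ ⁅P, P⁆ := by
    intro y hy
    have h1 : (QuotientGroup.mk' N (y : H)) ∈ commutator (H ⧸ N) := by
      rw [← Abelianization.ker_of]; exact hy
    have h2' : commutator (H ⧸ N) = (⁅P, P⁆).map (QuotientGroup.mk' N) := by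
      rw [Subgroup.map_commutator, commutator_def]
      have : P.map (QuotientGroup.mk' N) = ⊤ := by
        have := Subgroup.map_top_of_surjective (QuotientGroup.mk' N) (QuotientGroup.mk'_surjective N)
        rw [← hPN, Subgroup.map_sup, QuotientGroup.map_mk'_self, sup_bot_eq] at this
        exact this
      rw [this]
    rw [h2'] at h1
    obtain ⟨c, hc', hcy⟩ := h1
    have h3 : c⁻¹ * (y : H) ∈ N := by
      rw [← QuotientGroup.eq]
      exact hcy
    have hcP : c ∈ P := Subgroup.commutator_le_self P hc'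
    have h4 : c⁻¹ * (y : H) ∈ P ⊓ N := ⟨P.mul_mem (P.inv_mem hcP) y.2, h3⟩
    have : (y : H) = c * (c⁻¹ * (y : H)) := by group
    rw [this]
    exact Subgroup.mul_mem _ (Subgroup.mem_sup_right hc') (Subgroup.mem_sup_left h4)
  set rbar : Abelianization P →* Abelianization (H ⧸ N) :=
    Abelianization.lift (rho.comp P.subtype) with hrbar
  have hrbar_of : ∀ y : P, rbar (lam y) = rho y := fun y => Abelianization.lift_apply_of _ y
  have hcomp : rbar.comp lam = rho.comp P.subtype := by ext y; exact hrbar_of y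
  have hf : ∀ y : P, ∃ k : P, V y = lam y ^ P.index * lam k ∧ lam k ^ 2 = 1 := by
    intro y
    have h1 : rbar (V y) = rho y ^ P.index := by
      rw [hV, ← transfer_comp_hom, hcomp, transfer_comp_subtype]
    obtain ⟨k, hk⟩ : ∃ k : P, lam k = V y * (lam y ^ P.index)⁻¹ :=
      QuotientGroup.mk_surjective _
    refine ⟨k, ?_, ?_⟩
    · rw [hk]; simp
    · apply hd
      apply he
      rw [← hrbar_of, hk, map_mul, map_inv, map_pow, h1, hrbar_of]
      simp
  intro x hx
  obtain ⟨k, hk1, hk2⟩ := hf ⟨x, hx⟩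
  have hx2 : ((⟨x, hx⟩ : P) ^ 2 : P) = ⟨x ^ 2, P.pow_mem hx 2⟩ := rfl
  have hxs : (((⟨x, hx⟩ : P) ^ 2 : P) : H) ∈ (P ⊓ N) ⊔ ⁅P, P⁆ := by
    simpa using hP x hx
  have hV2 : V x ^ 2 = 1 := by
    rw [← map_pow]
    exact hc _ (hP x hx)
  have ha2 : (lam ⟨x, hx⟩ ^ 2) ^ 2 = 1 := by
    rw [← map_pow lam]
    exact hd _ hxs
  have ham : (lam ⟨x, hx⟩ ^ 2) ^ P.index = 1 := by
    have : V x ^ 2 = (lam ⟨x, hx⟩ ^ 2) ^ P.index * lam k ^ 2 := by
      have hVx : V x = V ((⟨x, hx⟩ : P) : H) := rfl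
      rw [hVx, hk1, mul_pow, ← pow_mul, ← pow_mul, Nat.mul_comm 2 P.index]
    rw [hV2, hk2, mul_one] at this
    exact this.symm
  have hfin : lam ⟨x, hx⟩ ^ 2 = 1 := by
    obtain ⟨j, hj⟩ := hidx
    rw [hj, pow_add, pow_mul, ha2, one_pow, one_mul, pow_one] at ham
    exact ham
  rw [← map_pow] at hfin
  have := (ha _).1 hfin
  simpa using this

theorem aux {G : Type*} [Group G] [Finite G] (N : Subgroup G) [N.Normal] (P : Sylow 2 G)
    (hP : ∀ x ∈ (P : Subgroup G), x ^ 2 ∈ ((P : Subgroup G) ⊓ N) ⊔ ⁅(P : Subgroup G), (P : Subgroup G)⁆)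
    (hQ : ∀ x ∈ (P : Subgroup G) ⊓ N, x ^ 2 ∈ ⁅(P : Subgroup G) ⊓ N, (P : Subgroup G) ⊓ N⁆)
    (hodd : Odd (Nat.card (Abelianization N))) :
    ∀ x ∈ (P : Subgroup G), x ^ 2 ∈ ⁅(P : Subgroup G), (P : Subgroup G)⁆ := by
  set K : Subgroup G := (P : Subgroup G) ⊔ N with hK
  have hPK : (P : Subgroup G) ≤ K := le_sup_left
  have hNK : N ≤ K := le_sup_right
  set P1 : Subgroup K := (P : Subgroup G).subgroupOf K with hP1
  set N1 : Subgroup K := N.subgroupOf K with hN1
  have hN1n : N1.Normal := Subgroup.Normal.subgroupOf inferInstance K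
  have hsup : P1 ⊔ N1 = ⊤ := by
    rw [hP1, hN1, ← Subgroup.subgroupOf_sup hPK hNK, Subgroup.subgroupOf_self]
  have hcomm : ⁅P1, P1⁆ = (⁅(P : Subgroup G), (P : Subgroup G)⁆).subgroupOf K := by
    apply Subgroup.map_injective K.subtype_injective
    rw [Subgroup.map_commutator, Subgroup.subgroupOf_map_subtype, Subgroup.subgroupOf_map_subtype,
      inf_eq_left.2 hPK, inf_eq_left.2 ((Subgroup.commutator_le_self _).trans hPK)]
  have h2 : IsPGroup 2 P1 := P.2.comap_subtype
  have hidx : Odd P1.index := by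
    have h1 : P1.index ∣ (P : Subgroup G).index := Subgroup.relIndex_dvd_index_of_le hPK
    have h2 : ¬ 2 ∣ (P : Subgroup G).index := P.not_dvd_index
    rw [← Nat.not_even_iff_odd, even_iff_two_dvd]
    exact fun h => h2 (h.trans h1)
  have hodd1 : Odd (Nat.card (Abelianization N1)) := by
    have e : N1 ≃* N := Subgroup.subgroupOfEquivOfLe hNK
    rw [Nat.card_congr (MulEquiv.abelianizationCongr e).toEquiv]
    exact hodd
  have key := core N1 P1 hsup h2 hidx ?_ ?_ hodd1
  · intro x hx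
    have := key ⟨x, hPK hx⟩ (by exact hx)
    rw [hcomm, Subgroup.mem_subgroupOf] at this
    simpa using this
  · intro x hx
    have h1 := hP (x : G) (Subgroup.mem_subgroupOf.1 hx)
    rw [hcomm]
    have h3 : P1 ⊓ N1 = ((P : Subgroup G) ⊓ N).subgroupOf K := rfl
    rw [h3, ← Subgroup.subgroupOf_sup (inf_le_left.trans hPK)
      ((Subgroup.commutator_le_self _).trans hPK), Subgroup.mem_subgroupOf]
    simpa using h1
  · intro x hx
    rw [hcomm, Subgroup.mem_subgroupOf]
    have h1 := hQ (x : G) ⟨hx.1, hx.2⟩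
    have h2 : ⁅(P : Subgroup G) ⊓ N, (P : Subgroup G) ⊓ N⁆ ≤ ⁅(P : Subgroup G), (P : Subgroup G)⁆ :=
      Subgroup.commutator_mono inf_le_left inf_le_left
    simpa using h2 h1


/-- Let N be a normal subgroup of the finite group G, P a Sylow 2-subgroup of G and Q = P ∩ N. Suppose that P/QP' and Q/Q' are elementary abelian (every square of an element of P lies in the subgroup generated by Q and the derived subgroup of P, and every square of an element of Q lies in the derived subgroup of Q), and that the commutator factor group N/N' has odd order. Then P/P' is elementary abelian. -/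
theorem result {G : Type*} [Group G] [Finite G] (N : Subgroup G) [N.Normal] (P : Sylow 2 G)
    (hP : ∀ x ∈ (P : Subgroup G), x ^ 2 ∈ ((P : Subgroup G) ⊓ N) ⊔ ⁅(P : Subgroup G), (P : Subgroup G)⁆)
    (hQ : ∀ x ∈ (P : Subgroup G) ⊓ N, x ^ 2 ∈ ⁅(P : Subgroup G) ⊓ N, (P : Subgroup G) ⊓ N⁆)
    (hodd : Odd (Nat.card (Abelianization N))) :
    ∀ x ∈ (P : Subgroup G), x ^ 2 ∈ ⁅(P : Subgroup G), (P : Subgroup G)⁆ := by
  exact aux N P hP hQ hodd

end Cfsg.Agent.S4582
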