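import Cfsg.Statements.S4584
import Mathlib
import Cfsg.Agent.S0065

set_option autoImplicit false
open Cfsg

namespace Cfsg.Agent.S4584

open Subgroup

/-- A normal subgroup of order `p` of a `p`-group is central. -/
theorem le_center_of_card_prime {R : Type*} [Group R] [Finite R] {p : ℕ} [Fact p.Prime]
    (hR : IsPGroup p R) (X : Subgroup R) [X.Normal] (hXc : Nat.card X = p) : X ≤ center R := by
  have hpp : p.Prime := Fact.out
  haveI : Group.IsNilpotent R := hR.isNilpotent
  have hne : X ≠ ⊥ := by
    intro h; rw [h, Subgroup.card_bot] at hXc; exact hpp.one_lt.ne hXc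
  have h1 := Cfsg.Agent.S0065.normal_inf_center_ne_bot X hne
  have h2 : 1 < Nat.card (X ⊓ center R : Subgroup R) := (Subgroup.one_lt_card_iff_ne_bot _).mpr h1
  have h3 : Nat.card (X ⊓ center R : Subgroup R) ∣ p := by
    rw [← hXc]; exact Subgroup.card_dvd_of_le inf_le_left
  have h4 : Nat.card (X ⊓ center R : Subgroup R) = p := by
    rcases (Nat.dvd_prime hpp).mp h3 with h | h
    · omega
    · exact h
  have h5 : (X ⊓ center R : Subgroup R) = X :=
    Subgroup.eq_of_le_of_card_ge inf_le_left (by rw [h4, hXc])
  rw [← h5]; exact inf_le_right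

/-- If all commutators are central, `g ↦ x g x⁻¹ g⁻¹` is a homomorphism. -/
def commHom {R : Type*} [Group R] (hc : ∀ a b : R, a * b * a⁻¹ * b⁻¹ ∈ center R) (x : R) :
    R →* R :=
  MonoidHom.mk' (fun g => x * g * x⁻¹ * g⁻¹) (by
    intro g h
    have h1 := hc x h
    rw [Subgroup.mem_center_iff] at h1
    have h2 := h1 g⁻¹
    calc x * (g * h) * x⁻¹ * (g * h)⁻¹ = x * g * x⁻¹ * ((x * h * x⁻¹ * h⁻¹) * g⁻¹) := by group
      _ = x * g * x⁻¹ * (g⁻¹ * (x * h * x⁻¹ * h⁻¹)) := by rw [h2]
      _ = _ := by group)

theorem commHom_apply {R : Type*} [Group R] (hc : ∀ a b : R, a * b * a⁻¹ * b⁻¹ ∈ center R)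
    (x g : R) : commHom hc x g = x * g * x⁻¹ * g⁻¹ := rfl

theorem ker_iff {R : Type*} [Group R] (hc : ∀ a b : R, a * b * a⁻¹ * b⁻¹ ∈ center R)
    (x g : R) : g ∈ (commHom hc x).ker ↔ x * g = g * x := by
  rw [MonoidHom.mem_ker, commHom_apply]
  constructor
  · intro h
    have : x * g = (x * g * x⁻¹ * g⁻¹) * (g * x) := by group
    rw [this, h, one_mul]
  · intro h
    rw [h]; group

/-- A group is not the union of two proper subgroups. -/
theorem exists_not_mem_two {R : Type*} [Group R] (H K : Subgroup R) (hH : H ≠ ⊤) (hK : K ≠ ⊤) :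
    ∃ w, w ∉ H ∧ w ∉ K := by
  have h1 : ∃ u, u ∉ H := by
    by_contra hcon; push Not at hcon
    exact hH ((Subgroup.eq_top_iff' H).mpr hcon)
  have h2 : ∃ v, v ∉ K := by
    by_contra hcon; push Not at hcon
    exact hK ((Subgroup.eq_top_iff' K).mpr hcon)
  obtain ⟨u, hu⟩ := h1
  obtain ⟨v, hv⟩ := h2
  by_cases huK : u ∈ K
  · by_cases hvH : v ∈ H
    · refine ⟨u * v, ?_, ?_⟩
      · intro h
        exact hu ((Subgroup.mul_mem_cancel_right H hvH).mp h)
      · intro h
        exact hv ((Subgroup.mul_mem_cancel_left K huK).mp h)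
    · exact ⟨v, hvH, hv⟩
  · exact ⟨u, hu, huK⟩

/-- Two subgroups of prime order sharing a nonidentity element are equal. -/
theorem eq_of_card_prime {R : Type*} [Group R] [Finite R] {p : ℕ} (hpp : p.Prime)
    (H K : Subgroup R) (hH : Nat.card H = p) (hK : Nat.card K = p) (c : R) (hc1 : c ≠ 1)
    (hcH : c ∈ H) (hcK : c ∈ K) : H = K := by
  have hne : H ⊓ K ≠ ⊥ := by
    intro h
    have : c ∈ H ⊓ K := ⟨hcH, hcK⟩
    rw [h, Subgroup.mem_bot] at this
    exact hc1 this
  have h2 : 1 < Nat.card (H ⊓ K : Subgroup R) := (Subgroup.one_lt_card_iff_ne_bot _).mpr hne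
  have h3 : Nat.card (H ⊓ K : Subgroup R) ∣ p := by
    rw [← hH]; exact Subgroup.card_dvd_of_le inf_le_left
  have h4 : Nat.card (H ⊓ K : Subgroup R) = p := by
    rcases (Nat.dvd_prime hpp).mp h3 with h | h
    · omega
    · exact h
  have h5 : (H ⊓ K : Subgroup R) = H :=
    Subgroup.eq_of_le_of_card_ge inf_le_left (by rw [h4, hH])
  have h6 : (H ⊓ K : Subgroup R) = K :=
    Subgroup.eq_of_le_of_card_ge inf_le_right (by rw [h4, hK])
  exact h5.symm.trans h6

/-- Orders and indices of subgroups of a group of order `p ^ n`. -/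
theorem card_sub {R : Type*} [Group R] [Finite R] {p : ℕ} (hpp : p.Prime) {n : ℕ}
    (hR : Nat.card R = p ^ n) (H : Subgroup R) :
    ∃ k, k ≤ n ∧ Nat.card H = p ^ k ∧ H.index = p ^ (n - k) := by
  have h1 : Nat.card H ∣ p ^ n := hR ▸ Subgroup.card_subgroup_dvd_card H
  obtain ⟨k, hk, hk2⟩ := (Nat.dvd_prime_pow hpp).mp h1
  refine ⟨k, hk, hk2, ?_⟩
  have h2 := Subgroup.index_mul_card H
  rw [hR, hk2] at h2
  have h3 : p ^ n = p ^ (n - k) * p ^ k := by
    rw [← pow_add]; congr 1; omega
  rw [h3] at h2
  exact Nat.eq_of_mul_eq_mul_right (pow_pos hpp.pos k) h2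

theorem card_lt_of_lt' {R : Type*} [Group R] [Finite R] {H K : Subgroup R} (h : H < K) :
    Nat.card H < Nat.card K := by
  by_contra hcon
  push Not at hcon
  exact h.ne (Subgroup.eq_of_le_of_card_ge h.le hcon)

theorem pow_lt_iff {p : ℕ} (hpp : p.Prime) {a b : ℕ} : p ^ a < p ^ b ↔ a < b :=
  Nat.pow_lt_pow_iff_right hpp.one_lt

theorem pow_le_iff {p : ℕ} (hpp : p.Prime) {a b : ℕ} : p ^ a ≤ p ^ b ↔ a ≤ b :=
  Nat.pow_le_pow_iff_right hpp.one_lt

theorem pow_inj {p : ℕ} (hpp : p.Prime) {a b : ℕ} (h : p ^ a = p ^ b) : a = b :=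
  Nat.pow_right_injective hpp.two_le h

/-- For noncentral `x`, the centralizer (kernel of the commutator map) lies strictly between
the centre and the whole group. -/
theorem ker_facts {R : Type*} [Group R] (hc : ∀ a b : R, a * b * a⁻¹ * b⁻¹ ∈ center R)
    (x : R) (hx : x ∉ center R) :
    center R < (commHom hc x).ker ∧ (commHom hc x).ker ≠ ⊤ ∧ x ∈ (commHom hc x).ker := by
  have hxk : x ∈ (commHom hc x).ker := (ker_iff hc x x).mpr rfl
  refine ⟨?_, ?_, hxk⟩
  · refine lt_of_le_of_ne ?_ ?_
    · intro z hz
      rw [ker_iff]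
      rw [Subgroup.mem_center_iff] at hz
      exact hz x
    · intro h
      exact hx (h ▸ hxk)
  · intro h
    apply hx
    rw [Subgroup.mem_center_iff]
    intro g
    have : g ∈ (commHom hc x).ker := h ▸ Subgroup.mem_top g
    exact ((ker_iff hc x g).mp this).symm

theorem commutator_le_of {R : Type*} [Group R] (H : Subgroup R)
    (h : ∀ a b : R, a * b * a⁻¹ * b⁻¹ ∈ H) : commutator R ≤ H := by
  rw [commutator_def, Subgroup.commutator_le]
  intro a _ b _
  rw [commutatorElement_def]
  exact h a b

theorem comm_mem_commutator {R : Type*} [Group R] (a b : R) :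
    a * b * a⁻¹ * b⁻¹ ∈ commutator R := by
  rw [commutator_def, ← commutatorElement_def]
  exact Subgroup.commutator_mem_commutator (Subgroup.mem_top a) (Subgroup.mem_top b)

/-- `(⇐)` direction. -/
theorem dir1 {P : Type*} [Group P] [Finite P] (p : ℕ) [Fact p.Prime] (hP : Nat.card P = p ^ 4)
    (hZ : (Subgroup.center P).index = p ^ 2) : Nat.card (commutator P) = p := by
  have hpp : p.Prime := Fact.out
  obtain ⟨kZ, hkZ4, hkZ, hiZ⟩ := card_sub hpp hP (center P)
  have hkZ2 : kZ = 2 := by
    have := pow_inj hpp (hiZ.symm.trans hZ)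
    omega
  subst hkZ2
  have hquot : Nat.card (P ⧸ center P) = p ^ 2 := hZ
  have hcc : ∀ a b : P, a * b * a⁻¹ * b⁻¹ ∈ center P := by
    intro a b
    have h1 := IsPGroup.commutative_of_card_eq_prime_sq (p := p) (G := P ⧸ center P) hquot
      (QuotientGroup.mk a) (QuotientGroup.mk b)
    rw [← QuotientGroup.eq_one_iff]
    rw [QuotientGroup.mk_mul, QuotientGroup.mk_mul, QuotientGroup.mk_mul, QuotientGroup.mk_inv,
      QuotientGroup.mk_inv, h1]
    group
  -- ranges have order p
  have hrange : ∀ x : P, x ∉ center P → Nat.card (commHom hcc x).range = p := by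
    intro x hx
    obtain ⟨h1, h2, h3⟩ := ker_facts hcc x hx
    obtain ⟨k, hk4, hk, hik⟩ := card_sub hpp hP (commHom hcc x).ker
    have hk3 : k = 3 := by
      have ha := card_lt_of_lt' h1
      rw [hkZ, hk, pow_lt_iff hpp] at ha
      have hb : k ≠ 4 := by
        intro h4
        apply h2
        rw [← Subgroup.card_eq_iff_eq_top, hk, hP, h4]
      omega
    subst hk3
    rw [← Subgroup.index_ker, hik]
    simp
  have hsame : ∀ x y : P, x ∉ center P → y ∉ center P →
      (commHom hcc x).range = (commHom hcc y).range := by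
    intro x y hx hy
    obtain ⟨hx1, hx2, hx3⟩ := ker_facts hcc x hx
    obtain ⟨hy1, hy2, hy3⟩ := ker_facts hcc y hy
    obtain ⟨w, hwx, hwy⟩ := exists_not_mem_two _ _ hx2 hy2
    have hw : w ∉ center P := fun h => hwx (hx1.le h)
    have key : ∀ x : P, x ∉ center P → w ∉ (commHom hcc x).ker →
        (commHom hcc x).range = (commHom hcc w).range := by
      intro x hx hwx
      refine eq_of_card_prime hpp _ _ (hrange x hx) (hrange w hw) (x * w * x⁻¹ * w⁻¹) ?_ ?_ ?_
      · intro h
        exact hwx ((MonoidHom.mem_ker).mpr h)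
      · exact ⟨w, rfl⟩
      · have : (w * x * w⁻¹ * x⁻¹)⁻¹ ∈ (commHom hcc w).range := inv_mem ⟨x, rfl⟩
        have h2 : (w * x * w⁻¹ * x⁻¹)⁻¹ = x * w * x⁻¹ * w⁻¹ := by group
        rw [h2] at this
        exact this
    rw [key x hx hwx, key y hy hwy]
  have hZtop : ∃ x0 : P, x0 ∉ center P := by
    by_contra hcon
    push Not at hcon
    have h1 : center P = ⊤ := (Subgroup.eq_top_iff' _).mpr hcon
    have h2 : Nat.card (center P) = Nat.card P := (Subgroup.card_eq_iff_eq_top _).mpr h1
    rw [hkZ, hP] at h2
    have := pow_inj hpp h2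
    omega
  obtain ⟨x0, hx0⟩ := hZtop
  have heq : commutator P = (commHom hcc x0).range := by
    apply le_antisymm
    · apply commutator_le_of
      intro a b
      by_cases ha : a ∈ center P
      · rw [Subgroup.mem_center_iff] at ha
        have : a * b * a⁻¹ * b⁻¹ = 1 := by
          rw [← ha b]; group
        rw [this]; exact one_mem _
      · rw [← hsame a x0 ha hx0]
        exact ⟨b, rfl⟩
    · rintro _ ⟨g, rfl⟩
      exact comm_mem_commutator x0 g
  rw [heq]
  exact hrange x0 hx0


/-- Let p be a prime and P a group of order p^4. Then the derived subgroup P' has order p if and only if the centre Z(P) has index p^2 in P. -/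
theorem result {P : Type*} [Group P] [Finite P] (p : ℕ) [Fact p.Prime] (hP : Nat.card P = p ^ 4) :
    Nat.card (commutator P) = p ↔ (Subgroup.center P).index = p ^ 2 := by
  have hpp : p.Prime := Fact.out
  have hPG : IsPGroup p P := IsPGroup.of_card hP
  constructor
  · intro hc
    haveI : (commutator P).Normal := by
      rw [commutator_def]; infer_instance
    have hle : commutator P ≤ center P := le_center_of_card_prime hPG _ hc
    have hcc : ∀ a b : P, a * b * a⁻¹ * b⁻¹ ∈ center P := fun a b => hle (comm_mem_commutator a b)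
    have hZtop : center P ≠ ⊤ := by
      intro h
      have h1 : commutator P ≤ ⊥ := by
        apply commutator_le_of
        intro a b
        have ha : a ∈ center P := h ▸ Subgroup.mem_top a
        rw [Subgroup.mem_center_iff] at ha
        rw [Subgroup.mem_bot, ← ha b]; group
      have h2 : commutator P = ⊥ := le_bot_iff.mp h1
      rw [h2, Subgroup.card_bot] at hc
      exact hpp.one_lt.ne hc
    obtain ⟨kZ, hkZ4, hkZ, hiZ⟩ := card_sub hpp hP (center P)
    have hk4 : kZ ≠ 4 := by
      intro h4
      apply hZtop
      rw [← Subgroup.card_eq_iff_eq_top, hkZ, hP, h4]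
    have hk0 : kZ ≠ 0 := by
      intro h0
      have := Subgroup.card_le_of_le hle
      rw [hc, hkZ, h0, pow_zero] at this
      have := hpp.one_lt
      omega
    have hk3 : kZ ≠ 3 := by
      intro h3
      rw [h3] at hiZ
      have hq : Nat.card (P ⧸ center P) = p := by
        have : (center P).index = p := by rw [hiZ]; simp
        exact this
      haveI : IsCyclic (P ⧸ center P) := isCyclic_of_prime_card hq
      have hcomm := commutative_of_cyclic_center_quotient (QuotientGroup.mk' (center P))
        (by rw [QuotientGroup.ker_mk'])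
      apply hZtop
      rw [Subgroup.eq_top_iff']
      intro g
      rw [Subgroup.mem_center_iff]
      intro h
      exact hcomm h g
    have hk1 : kZ ≠ 1 := by
      intro h1
      rw [h1, pow_one] at hkZ
      -- centralizers of noncentral elements have order p^3
      have hker : ∀ x : P, x ∉ center P → Nat.card (commHom hcc x).ker = p ^ 3 := by
        intro x hx
        obtain ⟨hx1, hx2, hx3⟩ := ker_facts hcc x hx
        obtain ⟨k, hk4', hk, hik⟩ := card_sub hpp hP (commHom hcc x).ker
        have hrle : (commHom hcc x).range ≤ commutator P := by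
          rintro _ ⟨g, rfl⟩
          exact comm_mem_commutator x g
        have h5 := Subgroup.card_le_of_le hrle
        rw [← Subgroup.index_ker, hik, hc] at h5
        have h6 : p ^ (4 - k) ≤ p ^ 1 := by rw [pow_one]; exact h5
        rw [pow_le_iff hpp] at h6
        have hb : k ≠ 4 := by
          intro h4
          apply hx2
          rw [← Subgroup.card_eq_iff_eq_top, hk, hP, h4]
        have : k = 3 := by omega
        rw [hk, this]
      have hex : ∃ x : P, x ∉ center P := by
        by_contra hcon
        push Not at hcon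
        exact hZtop ((Subgroup.eq_top_iff' _).mpr hcon)
      obtain ⟨x, hx⟩ := hex
      obtain ⟨hx1, hx2, hx3⟩ := ker_facts hcc x hx
      have hKc := hker x hx
      -- K is abelian
      have hKab : ∀ a b : (commHom hcc x).ker, a * b = b * a := by
        obtain ⟨j, hj3, hj, hij⟩ := card_sub hpp hKc (center (commHom hcc x).ker)
        have hB : Nat.card ((center (commHom hcc x).ker).map (commHom hcc x).ker.subtype) =
            p ^ j := by
          rw [Subgroup.card_map_of_injective (Subgroup.subtype_injective _), hj]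
        have hlt : center P < (center (commHom hcc x).ker).map (commHom hcc x).ker.subtype := by
          refine lt_of_le_of_ne ?_ ?_
          · intro z hz
            refine ⟨⟨z, hx1.le hz⟩, ?_, rfl⟩
            rw [SetLike.mem_coe, Subgroup.mem_center_iff]
            intro g
            rw [Subgroup.mem_center_iff] at hz
            exact Subtype.ext (hz g.1)
          · intro h
            apply hx
            rw [h]
            refine ⟨⟨x, hx3⟩, ?_, rfl⟩
            rw [SetLike.mem_coe, Subgroup.mem_center_iff]
            intro g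
            exact Subtype.ext ((ker_iff hcc x g.1).mp g.2).symm
        have h7 := card_lt_of_lt' hlt
        rw [hkZ, hB] at h7
        have h8 : p ^ 1 < p ^ j := by rw [pow_one]; exact h7
        rw [pow_lt_iff hpp] at h8
        have hq : Nat.card ((commHom hcc x).ker ⧸ center (commHom hcc x).ker) ∣ p := by
          have : (center (commHom hcc x).ker).index = p ^ (3 - j) := hij
          have h9 : Nat.card ((commHom hcc x).ker ⧸ center (commHom hcc x).ker) = p ^ (3 - j) :=
            this
          rw [h9]
          have : 3 - j ≤ 1 := by omega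
          calc p ^ (3 - j) ∣ p ^ 1 := pow_dvd_pow p this
            _ = p := pow_one p
        haveI : IsCyclic ((commHom hcc x).ker ⧸ center (commHom hcc x).ker) :=
          isCyclic_of_card_dvd_prime hq
        exact commutative_of_cyclic_center_quotient
          (QuotientGroup.mk' (center (commHom hcc x).ker)) (by rw [QuotientGroup.ker_mk'])
      have hex2 : ∃ g : P, g ∉ (commHom hcc x).ker := by
        by_contra hcon
        push Not at hcon
        exact hx2 ((Subgroup.eq_top_iff' _).mpr hcon)
      obtain ⟨g, hg⟩ := hex2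
      have hgZ : g ∉ center P := fun h => hg (hx1.le h)
      have hDc := hker g hgZ
      obtain ⟨m, hm4, hm, him⟩ := card_sub hpp hP ((commHom hcc x).ker ⊓ (commHom hcc g).ker)
      have hidx : ∀ y : P, y ∉ center P → (commHom hcc y).ker.index = p := by
        intro y hy
        have h1 := Subgroup.index_mul_card (commHom hcc y).ker
        rw [hker y hy, hP] at h1
        have h2 : p ^ 4 = p * p ^ 3 := by ring
        rw [h2] at h1
        exact Nat.eq_of_mul_eq_mul_right (pow_pos hpp.pos 3) h1
      have h10 := Subgroup.index_inf_le (H := (commHom hcc x).ker) (K := (commHom hcc g).ker)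
      rw [him, hidx x hx, hidx g hgZ] at h10
      have h11 : p ^ (4 - m) ≤ p ^ 2 := by rw [pow_two]; exact h10
      rw [pow_le_iff hpp] at h11
      have hle2 : (commHom hcc x).ker ⊓ (commHom hcc g).ker ≤ center P := by
        intro y hy
        obtain ⟨hy1, hy2⟩ := hy
        have hlt : (commHom hcc x).ker < Subgroup.centralizer ({y} : Set P) := by
          refine lt_of_le_of_ne ?_ ?_
          · intro a ha
            rw [Subgroup.mem_centralizer_iff]
            intro h hh
            rw [Set.mem_singleton_iff] at hh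
            subst hh
            have := hKab ⟨h, hy1⟩ ⟨a, ha⟩
            exact congrArg Subtype.val this
          · intro h
            apply hg
            rw [h, Subgroup.mem_centralizer_iff]
            intro h' hh
            rw [Set.mem_singleton_iff] at hh
            subst hh
            exact ((ker_iff hcc g h').mp hy2).symm
        obtain ⟨e, he4, he, hie⟩ := card_sub hpp hP (Subgroup.centralizer ({y} : Set P))
        have h12 := card_lt_of_lt' hlt
        rw [hKc, he, pow_lt_iff hpp] at h12
        have he4' : e = 4 := by omega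
        have htop : Subgroup.centralizer ({y} : Set P) = ⊤ := by
          rw [← Subgroup.card_eq_iff_eq_top, he, hP, he4']
        rw [Subgroup.mem_center_iff]
        intro h
        have : h ∈ Subgroup.centralizer ({y} : Set P) := htop ▸ Subgroup.mem_top h
        rw [Subgroup.mem_centralizer_iff] at this
        exact (this y rfl).symm
      have h13 := Subgroup.card_le_of_le hle2
      rw [hm, hkZ] at h13
      have h14 : p ^ m ≤ p ^ 1 := by rw [pow_one]; exact h13
      rw [pow_le_iff hpp] at h14
      omega
    have : kZ = 2 := by omega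
    rw [hiZ, this]
  · intro hZ
    exact dir1 p hP hZ

end Cfsg.Agent.S4584
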