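import Cfsg.Statements.S4585
import Mathlib
import Cfsg.Agent.S4584

set_option autoImplicit false
open Cfsg

namespace Cfsg.Agent.S4585

open Subgroup Cfsg.Agent.S4584
open scoped commutatorElement

theorem eq_bot_of_comm_eq {R : Type*} [Group R] [Group.IsNilpotent R] (H : Subgroup R)
    (h : ⁅H, (⊤ : Subgroup R)⁆ = H) : H = ⊥ := by
  have key : ∀ n, H ≤ (⊤ : Subgroup R).lowerCentralSeries n := by
    intro n
    induction n with
    | zero => exact le_top
    | succ n ih =>
      rw [Subgroup.lowerCentralSeries_succ]
      calc H = ⁅H, (⊤ : Subgroup R)⁆ := h.symm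
        _ ≤ _ := Subgroup.commutator_mono ih le_rfl
  have := key (Group.nilpotencyClass R)
  rw [Subgroup.lowerCentralSeries_nilpotencyClass] at this
  exact le_bot_iff.mp this

theorem comm_le_of_cyclic {R : Type*} [Group R] (hcyc : IsCyclic (R ⧸ commutator R)) :
    commutator R ≤ ⁅commutator R, (⊤ : Subgroup R)⁆ := by
  haveI hDn : (commutator R).Normal := by rw [commutator_def]; infer_instance
  set N : Subgroup R := ⁅commutator R, (⊤ : Subgroup R)⁆ with hN
  haveI : N.Normal := by rw [hN]; infer_instance
  have hle : N ≤ commutator R := by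
    rw [hN, Subgroup.commutator_le]
    intro a _ b _
    rw [commutatorElement_def]
    exact comm_mem_commutator a b
  let f : R ⧸ N →* R ⧸ commutator R :=
    QuotientGroup.map N (commutator R) (MonoidHom.id R) (by rw [Subgroup.comap_id]; exact hle)
  have hf : f.ker ≤ Subgroup.center (R ⧸ N) := by
    intro q hq
    induction q using QuotientGroup.induction_on with
    | H a =>
      rw [MonoidHom.mem_ker] at hq
      have ha : a ∈ commutator R := by
        have : f (QuotientGroup.mk a) = QuotientGroup.mk a := rfl
        rw [this, QuotientGroup.eq_one_iff] at hq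
        exact hq
      rw [Subgroup.mem_center_iff]
      intro g
      induction g using QuotientGroup.induction_on with
      | H g =>
        rw [← QuotientGroup.mk_mul, ← QuotientGroup.mk_mul, QuotientGroup.eq]
        have h1 : (g * a)⁻¹ * (a * g) = ⁅a⁻¹, g⁻¹⁆ := by
          rw [commutatorElement_def]; group
        rw [h1, hN]
        exact Subgroup.commutator_mem_commutator (inv_mem ha) (Subgroup.mem_top _)
  have hcomm := commutative_of_cyclic_center_quotient f hf
  apply commutator_le_of
  intro a b
  have h1 := hcomm (QuotientGroup.mk a) (QuotientGroup.mk b)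
  rw [← QuotientGroup.eq_one_iff (N := N)]
  rw [QuotientGroup.mk_mul, QuotientGroup.mk_mul, QuotientGroup.mk_mul, QuotientGroup.mk_inv,
    QuotientGroup.mk_inv, h1]
  group


/-- Let p be a prime and P a group of order p^4. Then P' has index p^2 in P if and only if P has maximal nilpotency class, that is, nilpotency class exactly 3. -/
theorem result {P : Type*} [Group P] [Finite P] (p : ℕ) [Fact p.Prime] (hP : Nat.card P = p ^ 4) :
    (commutator P).index = p ^ 2 ↔ Group.nilpotencyClass P = 3 := by
  have hpp : p.Prime := Fact.out
  have hPG : IsPGroup p P := IsPGroup.of_card hP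
  haveI : Group.IsNilpotent P := hPG.isNilpotent
  haveI hDn : (commutator P).Normal := by rw [commutator_def]; infer_instance
  set N : Subgroup P := ⁅commutator P, (⊤ : Subgroup P)⁆ with hN
  haveI hNn : N.Normal := by rw [hN]; infer_instance
  have hN2 : (⊤ : Subgroup P).lowerCentralSeries 2 = N := rfl
  have hN3 : (⊤ : Subgroup P).lowerCentralSeries 3 = ⁅N, (⊤ : Subgroup P)⁆ := rfl
  have hcl : Group.nilpotencyClass P = 3 ↔ ⁅N, (⊤ : Subgroup P)⁆ = ⊥ ∧ N ≠ ⊥ := by
    rw [← hN3, ← hN2, Subgroup.lowerCentralSeries_eq_bot_iff_nilpotencyClass_le, Ne,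
      Subgroup.lowerCentralSeries_eq_bot_iff_nilpotencyClass_le]
    omega
  have hNle : N ≤ commutator P := by
    rw [hN, Subgroup.commutator_le]
    intro a _ b _
    rw [commutatorElement_def]
    exact comm_mem_commutator a b
  obtain ⟨k, hk4, hk, hik⟩ := card_sub hpp hP (commutator P)
  obtain ⟨j, hj4, hj, hij⟩ := card_sub hpp hP N
  have hlt : commutator P ≠ ⊥ → j < k := by
    intro hne
    have h1 : N < commutator P :=
      lt_of_le_of_ne hNle (fun h => hne (eq_bot_of_comm_eq _ h))
    have h2 := card_lt_of_lt' h1
    rw [hj, hk, pow_lt_iff hpp] at h2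
    exact h2
  rw [hcl]
  constructor
  · intro hidx
    have hk2 : k = 2 := by
      have := pow_inj hpp (hik.symm.trans hidx)
      omega
    subst hk2
    have hDne : commutator P ≠ ⊥ := by
      intro h
      rw [h, Subgroup.card_bot] at hk
      have := hpp.one_lt
      nlinarith
    have hj1 := hlt hDne
    constructor
    · have hNc : N ≤ Subgroup.center P := by
        rcases Nat.lt_or_ge j 1 with h0 | h1
        · have hj0 : j = 0 := by omega
          rw [hj0, pow_zero] at hj
          have : N = ⊥ := Subgroup.eq_bot_of_card_eq N hj
          rw [this]; exact bot_le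
        · have hj1' : j = 1 := by omega
          rw [hj1', pow_one] at hj
          exact le_center_of_card_prime hPG N hj
      rw [← hN3]
      exact Subgroup.lowerCentralSeries_succ_eq_bot _ (by rw [hN2]; exact hNc)
    · intro hNbot
      have hDc : commutator P ≤ Subgroup.center P := by
        intro a ha
        rw [Subgroup.mem_center_iff]
        intro g
        have h1 : ⁅a, g⁆ ∈ N := Subgroup.commutator_mem_commutator ha (Subgroup.mem_top g)
        rw [hNbot, Subgroup.mem_bot, commutatorElement_def] at h1
        have h2 : a * g = (a * g * a⁻¹ * g⁻¹) * (g * a) := by group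
        rw [h2, h1, one_mul]
      obtain ⟨kZ, hkZ4, hkZ, hiZ⟩ := card_sub hpp hP (Subgroup.center P)
      have hZtop : Subgroup.center P ≠ ⊤ := by
        intro h
        have h1 : commutator P ≤ ⊥ := by
          apply commutator_le_of
          intro a b
          have ha : a ∈ Subgroup.center P := h ▸ Subgroup.mem_top a
          rw [Subgroup.mem_center_iff] at ha
          rw [Subgroup.mem_bot, ← ha b]; group
        exact hDne (le_bot_iff.mp h1)
      have hk4' : kZ ≠ 4 := by
        intro h4
        apply hZtop
        rw [← Subgroup.card_eq_iff_eq_top, hkZ, hP, h4]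
      have hk3 : kZ ≠ 3 := by
        intro h3
        rw [h3] at hiZ
        have hq : Nat.card (P ⧸ Subgroup.center P) = p := by
          have : (Subgroup.center P).index = p := by rw [hiZ]; simp
          exact this
        haveI : IsCyclic (P ⧸ Subgroup.center P) := isCyclic_of_prime_card hq
        have hcomm := commutative_of_cyclic_center_quotient (QuotientGroup.mk' (Subgroup.center P))
          (by rw [QuotientGroup.ker_mk'])
        apply hZtop
        rw [Subgroup.eq_top_iff']
        intro g
        rw [Subgroup.mem_center_iff]
        intro h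
        exact hcomm h g
      have hge : 2 ≤ kZ := by
        have := Subgroup.card_le_of_le hDc
        rw [hk, hkZ, pow_le_iff hpp] at this
        exact this
      have hkZ2 : kZ = 2 := by omega
      have hidxZ : (Subgroup.center P).index = p ^ 2 := by rw [hiZ, hkZ2]
      have h5 := dir1 p hP hidxZ
      rw [hk] at h5
      have := hpp.one_lt
      nlinarith
  · rintro ⟨h3, hNne⟩
    have hDne : commutator P ≠ ⊥ := by
      intro h
      apply hNne
      exact le_bot_iff.mp (h ▸ hNle)
    have hjk := hlt hDne
    have hj0 : j ≠ 0 := by
      intro h0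
      rw [h0, pow_zero] at hj
      exact hNne (Subgroup.eq_bot_of_card_eq N hj)
    have hk3 : k < 3 := by
      by_contra hcon
      push Not at hcon
      have hq : Nat.card (P ⧸ commutator P) ∣ p := by
        have h9 : Nat.card (P ⧸ commutator P) = p ^ (4 - k) := hik
        rw [h9]
        calc p ^ (4 - k) ∣ p ^ 1 := pow_dvd_pow p (by omega)
          _ = p := pow_one p
      have hcyc : IsCyclic (P ⧸ commutator P) := isCyclic_of_card_dvd_prime hq
      have h10 := comm_le_of_cyclic hcyc
      exact hDne (eq_bot_of_comm_eq _ (le_antisymm hNle h10))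
    have hk2 : k = 2 := by omega
    rw [hik, hk2]

end Cfsg.Agent.S4585
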