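import Cfsg.Statements.S4586
import Mathlib
import Cfsg.Agent.S4584

set_option autoImplicit false
open Cfsg

namespace Cfsg.Agent.S4586

open Subgroup Cfsg.Agent.S4584

theorem of_surj (A : Type*) [Group A] :
    Function.Surjective (Abelianization.of : A →* Abelianization A) :=
  fun q => QuotientGroup.mk_surjective q

theorem map_comm_le {A B : Type*} [Group A] [Group B] (f : A →* B) :
    (commutator A).map f ≤ commutator B := by
  rw [commutator_def, commutator_def, Subgroup.map_commutator]
  exact Subgroup.commutator_mono le_top le_top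

/-- the commutator hom `n ↦ [x, n]` into the abelianization of `N` -/
noncomputable def psi {P : Type*} [Group P] (N : Subgroup P) [N.Normal] (x : P) :
    N →* Abelianization N :=
  (Abelianization.of.comp (MulAut.conjNormal x : MulAut N).toMonoidHom) / Abelianization.of

theorem psi_apply {P : Type*} [Group P] (N : Subgroup P) [N.Normal] (x : P) (n : N) :
    psi N x n = Abelianization.of ((MulAut.conjNormal x : MulAut N) n * n⁻¹) := by
  rw [map_mul, map_inv]
  unfold psi
  rw [MonoidHom.div_apply, div_eq_mul_inv]
  rfl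

theorem mem_comm_iff {P : Type*} [Group P] (N : Subgroup P) (a b : N) :
    Abelianization.of a = Abelianization.of b ↔ a⁻¹ * b ∈ commutator N := by
  rw [← Abelianization.ker_of, MonoidHom.mem_ker, map_mul, map_inv]
  constructor
  · intro h; rw [h, inv_mul_cancel]
  · intro h
    have : Abelianization.of b = Abelianization.of a * ((Abelianization.of a)⁻¹ * Abelianization.of b) := by
      group
    rw [this, h, mul_one]

theorem mem_normalizer_of {G : Type*} [Group G] (H : Subgroup G) (g : G)
    (h1 : ∀ h ∈ H, g * h * g⁻¹ ∈ H) (h2 : ∀ h ∈ H, g⁻¹ * h * g ∈ H) :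
    g ∈ Subgroup.normalizer (H : Set G) := by
  rw [Subgroup.mem_normalizer_iff]
  intro h
  constructor
  · exact h1 h
  · intro hh
    have := h2 _ hh
    have e : g⁻¹ * (g * h * g⁻¹) * g = h := by group
    rwa [e] at this

theorem eq_top_of_prime_index {G : Type*} [Group G] {p : ℕ} (hpp : p.Prime) (N C : Subgroup G)
    (hN : N.index = p) (hle : N ≤ C) (x : G) (hxC : x ∈ C) (hxN : x ∉ N) : C = ⊤ := by
  have h1 : C.index ∣ p := hN ▸ Subgroup.index_dvd_of_le hle
  rcases (Nat.dvd_prime hpp).mp h1 with h | h
  · exact Subgroup.index_eq_one.mp h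
  · exfalso
    have h2 := Subgroup.relIndex_mul_index hle
    rw [h, hN] at h2
    have h3 : N.relIndex C = 1 := by
      have : N.relIndex C * p = 1 * p := by rw [h2, one_mul]
      exact Nat.eq_of_mul_eq_mul_right hpp.pos this
    rw [Subgroup.relIndex_eq_one] at h3
    exact hxN (h3 hxC)

theorem key {P : Type*} [Group P] [Finite P] (p : ℕ) [Fact p.Prime] (N : Subgroup P) [hNn : N.Normal]
    (hN : N.index = p) (x : P) (hx : x ∉ N) :
    (commutator P).index * Nat.card (commutator N) =
      p * Nat.card {n : N // x * n * x⁻¹ * (n : P)⁻¹ ∈ (commutator N).map N.subtype} := by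
  classical
  have hpp : p.Prime := Fact.out
  set R : Subgroup N := (psi N x).range.comap Abelianization.of with hR
  have hcard : Nat.card {n : N // x * n * x⁻¹ * (n : P)⁻¹ ∈ (commutator N).map N.subtype} =
      Nat.card (psi N x).ker := by
    refine Nat.card_congr (Equiv.subtypeEquivRight ?_)
    intro n
    rw [MonoidHom.mem_ker, psi_apply]
    have e : Abelianization.of ((MulAut.conjNormal x : MulAut N) n * n⁻¹) = 1 ↔
        (MulAut.conjNormal x : MulAut N) n * n⁻¹ ∈ commutator N := by
      rw [← Abelianization.ker_of, MonoidHom.mem_ker]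
    rw [e]
    constructor
    · rintro ⟨y, hy, hyx⟩
      have : y = (MulAut.conjNormal x : MulAut N) n * n⁻¹ := by
        apply Subtype.ext
        rw [Subgroup.coe_subtype] at hyx
        rw [hyx, Subgroup.coe_mul, MulAut.conjNormal_apply, Subgroup.coe_inv]
      rw [← this]; exact hy
    · intro h
      refine ⟨_, h, ?_⟩
      rw [Subgroup.coe_subtype, Subgroup.coe_mul, MulAut.conjNormal_apply, Subgroup.coe_inv]
  have h1 : R.index * Nat.card (commutator N) = Nat.card (psi N x).ker := by
    have e1 : R.index = (psi N x).range.index :=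
      Subgroup.index_comap_of_surjective _ (of_surj N)
    have e2 := Subgroup.index_mul_card (psi N x).range
    have e3 : Nat.card (Abelianization N) = (commutator N).index := rfl
    have e4 := Subgroup.index_mul_card (commutator N)
    have e5 := Subgroup.index_mul_card (psi N x).ker
    rw [Subgroup.index_ker] at e5
    have hpos : 0 < Nat.card (psi N x).range := Nat.card_pos
    apply Nat.eq_of_mul_eq_mul_left hpos
    rw [e5, ← e4, ← e3, ← e2, e1]
    ring
  -- basic facts on R₁
  have hRN : R.map N.subtype ≤ N := by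
    rintro _ ⟨r, _, rfl⟩
    exact r.2
  have hxR : ∀ m : N, x * m * x⁻¹ * (m : P)⁻¹ ∈ R.map N.subtype := by
    intro m
    refine ⟨(MulAut.conjNormal x : MulAut N) m * m⁻¹, ?_, ?_⟩
    · exact ⟨m, psi_apply N x m⟩
    · rw [Subgroup.coe_subtype, Subgroup.coe_mul, MulAut.conjNormal_apply, Subgroup.coe_inv]
  have hNR : ∀ a n : N, (a : P) * n * (a : P)⁻¹ * (n : P)⁻¹ ∈ R.map N.subtype := by
    intro a n
    refine ⟨a * n * a⁻¹ * n⁻¹, ?_, ?_⟩
    · refine ⟨1, ?_⟩
      rw [map_one]
      symm
      rw [map_mul, map_mul, map_mul, map_inv, map_inv]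
      rw [mul_comm (Abelianization.of a) (Abelianization.of n)]
      group
    · simp
  have hdecomp : ∀ r ∈ R, ∃ m : N,
      ((MulAut.conjNormal x : MulAut N) m * m⁻¹)⁻¹ * r ∈ commutator N := by
    intro r hr
    obtain ⟨m, hm⟩ := hr
    refine ⟨m, ?_⟩
    rw [← mem_comm_iff, ← psi_apply]
    exact hm
  have h2 : commutator P = R.map N.subtype := by
    apply le_antisymm
    · -- normality of R₁
      haveI hRn : R.Normal := by rw [hR]; infer_instance
      have hconj : ∀ y : P, y * x = x * y → ∀ r ∈ R.map N.subtype, y * r * y⁻¹ ∈ R.map N.subtype := by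
        rintro y hyx _ ⟨r, hr, rfl⟩
        obtain ⟨m, hm⟩ := hdecomp r hr
        refine ⟨(MulAut.conjNormal y : MulAut N) r, ?_, ?_⟩
        · refine ⟨(MulAut.conjNormal y : MulAut N) m, ?_⟩
          rw [psi_apply, mem_comm_iff]
          have hd' : (MulAut.conjNormal y : MulAut N) (((MulAut.conjNormal x : MulAut N) m * m⁻¹)⁻¹ * r) ∈
              commutator N :=
            map_comm_le (MulAut.conjNormal y : MulAut N).toMonoidHom ⟨_, hm, rfl⟩
          have e : ((MulAut.conjNormal x : MulAut N) ((MulAut.conjNormal y : MulAut N) m) *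
              ((MulAut.conjNormal y : MulAut N) m)⁻¹)⁻¹ * (MulAut.conjNormal y : MulAut N) r =
              (MulAut.conjNormal y : MulAut N) (((MulAut.conjNormal x : MulAut N) m * m⁻¹)⁻¹ * r) := by
            apply Subtype.ext
            simp only [Subgroup.coe_mul, Subgroup.coe_inv, MulAut.conjNormal_apply]
            have h : y * x * y⁻¹ = x := by rw [hyx]; group
            have h' : (x * (y * (m : P) * y⁻¹) * x⁻¹ * (y * (m : P) * y⁻¹)⁻¹)⁻¹ * (y * (r : P) * y⁻¹) =
                ((y * x * y⁻¹) * (y * (m : P) * y⁻¹) * (y * x * y⁻¹)⁻¹ * (y * (m : P) * y⁻¹)⁻¹)⁻¹ *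
                  (y * (r : P) * y⁻¹) := by rw [h]
            rw [h']
            group
          rw [e]
          exact hd'
        · rw [Subgroup.coe_subtype, MulAut.conjNormal_apply]
      have hnorm : Subgroup.normalizer ((R.map N.subtype : Subgroup P) : Set P) = ⊤ := by
        refine eq_top_of_prime_index hpp N _ hN ?_ x ?_ hx
        · intro n hn
          refine mem_normalizer_of _ n ?_ ?_
          · rintro _ ⟨r, hr, rfl⟩
            refine ⟨⟨n, hn⟩ * r * ⟨n, hn⟩⁻¹, hRn.conj_mem r hr ⟨n, hn⟩, ?_⟩
            simp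
          · rintro _ ⟨r, hr, rfl⟩
            refine ⟨⟨n, hn⟩⁻¹ * r * ⟨n, hn⟩⁻¹⁻¹, hRn.conj_mem r hr ⟨n, hn⟩⁻¹, ?_⟩
            simp
        · refine mem_normalizer_of _ x ?_ ?_
          · exact hconj x rfl
          · intro r hr
            have := hconj x⁻¹ (by group) r hr
            rw [inv_inv] at this
            exact this
      haveI hR1n : (R.map N.subtype).Normal := Subgroup.normalizer_eq_top_iff.mp hnorm
      have hcomm_x : ∀ a : N, (QuotientGroup.mk x : P ⧸ R.map N.subtype) * QuotientGroup.mk (a : P) =
          QuotientGroup.mk (a : P) * QuotientGroup.mk x := by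
        intro a
        have e : x * (a : P) = (x * a * x⁻¹ * (a : P)⁻¹) * (a * x) := by group
        rw [← QuotientGroup.mk_mul, e, QuotientGroup.mk_mul,
          (QuotientGroup.eq_one_iff _).mpr (hxR a), one_mul, QuotientGroup.mk_mul]
      have hcomm_N : ∀ n a : N, (QuotientGroup.mk (n : P) : P ⧸ R.map N.subtype) *
          QuotientGroup.mk (a : P) = QuotientGroup.mk (a : P) * QuotientGroup.mk (n : P) := by
        intro n a
        have e : (n : P) * (a : P) = ((n : P) * a * (n : P)⁻¹ * (a : P)⁻¹) * (a * n) := by group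
        rw [← QuotientGroup.mk_mul, e, QuotientGroup.mk_mul,
          (QuotientGroup.eq_one_iff _).mpr (hNR n a), one_mul, QuotientGroup.mk_mul]
      have hC : (Subgroup.centralizer ((N.map (QuotientGroup.mk' (R.map N.subtype)) :
          Subgroup (P ⧸ R.map N.subtype)) : Set (P ⧸ R.map N.subtype))).comap
            (QuotientGroup.mk' (R.map N.subtype)) = ⊤ := by
        refine eq_top_of_prime_index hpp N _ hN ?_ x ?_ hx
        · intro n hn
          rw [Subgroup.mem_comap, Subgroup.mem_centralizer_iff]
          rintro _ ⟨a, ha, rfl⟩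
          exact (hcomm_N ⟨n, hn⟩ ⟨a, ha⟩).symm
        · rw [Subgroup.mem_comap, Subgroup.mem_centralizer_iff]
          rintro _ ⟨a, ha, rfl⟩
          exact (hcomm_x ⟨a, ha⟩).symm
      let f : P ⧸ R.map N.subtype →* P ⧸ N :=
        QuotientGroup.map (R.map N.subtype) N (MonoidHom.id P) (by rw [Subgroup.comap_id]; exact hRN)
      have hf : f.ker ≤ Subgroup.center (P ⧸ R.map N.subtype) := by
        intro q hq
        induction q using QuotientGroup.induction_on with
        | H a =>
          rw [MonoidHom.mem_ker] at hq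
          have ha : a ∈ N := by
            have : f (QuotientGroup.mk a) = QuotientGroup.mk a := rfl
            rw [this, QuotientGroup.eq_one_iff] at hq
            exact hq
          rw [Subgroup.mem_center_iff]
          intro g
          induction g using QuotientGroup.induction_on with
          | H g =>
            have hg : g ∈ (Subgroup.centralizer ((N.map (QuotientGroup.mk' (R.map N.subtype)) :
                Subgroup (P ⧸ R.map N.subtype)) : Set (P ⧸ R.map N.subtype))).comap
                  (QuotientGroup.mk' (R.map N.subtype)) := hC ▸ Subgroup.mem_top g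
            rw [Subgroup.mem_comap, Subgroup.mem_centralizer_iff] at hg
            exact (hg _ ⟨a, ha, rfl⟩).symm
      haveI : IsCyclic (P ⧸ N) := isCyclic_of_prime_card (p := p) hN
      have hcomm := commutative_of_cyclic_center_quotient f hf
      apply commutator_le_of
      intro a b
      have h1 := hcomm (QuotientGroup.mk a) (QuotientGroup.mk b)
      rw [← QuotientGroup.eq_one_iff (N := R.map N.subtype)]
      rw [QuotientGroup.mk_mul, QuotientGroup.mk_mul, QuotientGroup.mk_mul, QuotientGroup.mk_inv,
        QuotientGroup.mk_inv, h1]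
      group
    · rintro _ ⟨r, hr, rfl⟩
      obtain ⟨m, hm⟩ := hdecomp r hr
      have h3 : (r : P) = (x * m * x⁻¹ * (m : P)⁻¹) *
          ((((MulAut.conjNormal x : MulAut N) m * m⁻¹)⁻¹ * r : N) : P) := by
        simp only [Subgroup.coe_mul, Subgroup.coe_inv, MulAut.conjNormal_apply]
        group
      rw [Subgroup.coe_subtype, h3]
      refine mul_mem (comm_mem_commutator x m) ?_
      exact map_comm_le N.subtype ⟨_, hm, rfl⟩
  rw [h2, Subgroup.index_map_subtype, hN, hcard, ← h1]
  ring


/-- Let p be a prime, P a finite p-group and N a normal subgroup of P of index p. For x ∈ P write c(x) for the number of elements n of N whose commutator x n x⁻¹ n⁻¹ lies in the derived subgroup N' (so c(x)/#N' is the order of the centralizer of x acting on N/N'). Then [P : P'] = p² if and only if c(x) = p·#N' for every x ∈ P outside N, and also if and only if c(x) = p·#N' for some x ∈ P outside N. -/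
theorem result {P : Type*} [Group P] [Finite P] (p : ℕ) [Fact p.Prime] (hP : IsPGroup p P) (N : Subgroup P) [N.Normal] (hN : N.index = p) :
    ((commutator P).index = p ^ 2 ↔ ∀ x : P, x ∉ N →
        Nat.card {n : N // x * n * x⁻¹ * (n : P)⁻¹ ∈ (commutator N).map N.subtype} = p * Nat.card (commutator N)) ∧
    ((commutator P).index = p ^ 2 ↔ ∃ x : P, x ∉ N ∧
        Nat.card {n : N // x * n * x⁻¹ * (n : P)⁻¹ ∈ (commutator N).map N.subtype} = p * Nat.card (commutator N)) := by
  have hpp : p.Prime := Fact.out
  have hpos : 0 < Nat.card (commutator N) := Nat.card_pos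
  have hiff : ∀ x : P, x ∉ N → ((commutator P).index = p ^ 2 ↔
      Nat.card {n : N // x * n * x⁻¹ * (n : P)⁻¹ ∈ (commutator N).map N.subtype} =
        p * Nat.card (commutator N)) := by
    intro x hx
    have h := key p N hN x hx
    constructor
    · intro h1
      rw [h1] at h
      have h2 : p * (p * Nat.card (commutator N)) =
          p * Nat.card {n : N // x * n * x⁻¹ * (n : P)⁻¹ ∈ (commutator N).map N.subtype} := by
        rw [← h]; ring
      exact (Nat.eq_of_mul_eq_mul_left hpp.pos h2).symm
    · intro h1
      rw [h1] at h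
      have h2 : (commutator P).index * Nat.card (commutator N) =
          p ^ 2 * Nat.card (commutator N) := by
        rw [h]; ring
      exact Nat.eq_of_mul_eq_mul_right hpos h2
  have hex : ∃ x : P, x ∉ N := by
    by_contra hcon
    push Not at hcon
    have h1 : N = ⊤ := (Subgroup.eq_top_iff' N).mpr hcon
    rw [h1, Subgroup.index_top] at hN
    exact hpp.one_lt.ne hN
  obtain ⟨x0, hx0⟩ := hex
  exact ⟨⟨fun h x hx => (hiff x hx).mp h, fun h => (hiff x0 hx0).mpr (h x0 hx0)⟩,
    ⟨fun h => ⟨x0, hx0, (hiff x0 hx0).mp h⟩, fun ⟨x, hx, h⟩ => (hiff x hx).mpr h⟩⟩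

end Cfsg.Agent.S4586
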