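import Cfsg.Statements.S4593
import Mathlib
import Cfsg.Agent.Lib.helper16.ZStar
import Cfsg.Agent.Lib.helper9.PPrimeCore

set_option autoImplicit false
open Cfsg

namespace Cfsg.Agent.S4593

open Cfsg.Agent.Lib.helper16.ZStar

/-- an element of an abelian Sylow 2-subgroup centralized by its normalizer is trivial, when
`O(Γ) = 1` and `Z(Γ) = 1` -/
theorem iso_triv {Γ : Type*} [Group Γ] [Finite Γ] (hO : Cfsg.pPrimeCore 2 Γ = ⊥)
    (hZ : ∀ u : Γ, (∀ g : Γ, u * g = g * u) → u = 1)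
    (S : Sylow 2 Γ) (hab : ∀ x ∈ S, ∀ y ∈ S, x * y = y * x)
    (u : Γ) (huS : u ∈ S) (hu : ∀ n ∈ Subgroup.normalizer (S : Set Γ), n * u * n⁻¹ = u) :
    u = 1 := by
  classical
  have : Fact (Nat.Prime 2) := ⟨Nat.prime_two⟩
  by_contra hne
  have hab' : IsMulCommutative (S : Subgroup Γ) := ⟨⟨fun a b => Subtype.ext (hab a a.2 b b.2)⟩⟩
  obtain ⟨e, he⟩ : ∃ e, orderOf u = 2 ^ e := by
    obtain ⟨k, hk⟩ := S.isPGroup' ⟨u, huS⟩
    have : u ^ 2 ^ k = 1 := by simpa using congrArg Subtype.val hk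
    have hd := orderOf_dvd_of_pow_eq_one this
    obtain ⟨e, -, he⟩ := (Nat.dvd_prime_pow Nat.prime_two).mp hd
    exact ⟨e, he⟩
  have he1 : 1 ≤ e := by
    rcases Nat.eq_zero_or_pos e with h | h
    · rw [h, pow_zero, orderOf_eq_one_iff] at he; exact absurd he hne
    · exact h
  obtain ⟨v, hv⟩ : ∃ v, v = u ^ 2 ^ (e - 1) := ⟨_, rfl⟩
  have hv2 : orderOf v = 2 := by
    refine orderOf_eq_prime ?_ ?_
    · rw [hv, ← pow_mul, ← pow_succ, Nat.sub_add_cancel he1, ← he, pow_orderOf_eq_one]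
    · rw [hv]
      refine pow_ne_one_of_lt_orderOf (by positivity) ?_
      rw [he]; exact Nat.pow_lt_pow_right (by norm_num) (by omega)
  have hvS : v ∈ S := by rw [hv]; exact Subgroup.pow_mem _ huS _
  have hvn : ∀ n ∈ Subgroup.normalizer (S : Set Γ), n * v * n⁻¹ = v := by
    intro n hn
    rw [hv, ← conj_pow, hu n hn]
  have hiso : ∀ g : Γ, g * v * g⁻¹ ∈ S → g * v * g⁻¹ = v := by
    intro g hg
    obtain ⟨n, hn, hn'⟩ := Sylow.conj_eq_normalizer_conj_of_mem S v g⁻¹ hvS (by simpa using hg)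
    have h1 := hvn n⁻¹ (Subgroup.inv_mem _ hn)
    rw [inv_inv] at hn' h1
    rw [hn', h1]
  have hc : ∀ g : Γ, v * g = g * v := by
    intro g
    have h := zstar_sylow S v hv2 hvS hiso g
    rw [hO, Subgroup.mem_bot] at h
    have : v * g = (v * g * v⁻¹ * g⁻¹) * (g * v) := by group
    rw [this, h, one_mul]
  have := hZ v hc
  rw [this, orderOf_one] at hv2
  omega


/-- Lemma A: abelian Sylow 2-subgroup lies in every normal subgroup with abelian quotient,
when `O(Γ) = 1` and `Z(Γ) = 1`. -/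
theorem sylow_le {Γ : Type*} [Group Γ] [Finite Γ] (hO : Cfsg.pPrimeCore 2 Γ = ⊥)
    (hZ : ∀ u : Γ, (∀ g : Γ, u * g = g * u) → u = 1)
    (S : Sylow 2 Γ) (hab : ∀ x ∈ S, ∀ y ∈ S, x * y = y * x)
    (N₀ : Subgroup Γ) [N₀.Normal] (hcomm : ∀ x y : Γ, x * y * x⁻¹ * y⁻¹ ∈ N₀) :
    (S : Subgroup Γ) ≤ N₀ := by
  classical
  have : Fact (Nat.Prime 2) := ⟨Nat.prime_two⟩
  intro a haS
  obtain ⟨N, hN⟩ : ∃ N, N = Subgroup.normalizer (S : Set Γ) := ⟨_, rfl⟩
  have hSN : (S : Subgroup Γ) ≤ N := hN ▸ Subgroup.le_normalizer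
  obtain ⟨S', hS'⟩ : ∃ S' : Sylow 2 N, S' = S.subtype hSN := ⟨_, rfl⟩
  have hS'c : (S' : Subgroup N) = (S : Subgroup Γ).subgroupOf N := by rw [hS']; rfl
  have hnorm : (S' : Subgroup N).Normal := by
    rw [hS'c]; subst hN; exact Subgroup.normal_in_normalizer
  obtain ⟨K, hK⟩ := Subgroup.exists_right_complement'_of_coprime S'.card_coprime_index
  have hKodd : Odd (Nat.card K) := by
    have h1 : Nat.card K = (S' : Subgroup N).index := hK.symm.index_eq_card.symm
    rw [h1]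
    have := S'.not_dvd_index
    exact Nat.odd_iff.mpr (by omega)
  have : Fintype K := Fintype.ofFinite K
  letI : CommGroup (S : Subgroup Γ) :=
    { (inferInstance : Group (S : Subgroup Γ)) with
      mul_comm := fun a b => Subtype.ext (hab a a.2 b b.2) }
  letI : CommGroup (Γ ⧸ N₀) :=
    { (inferInstance : Group (Γ ⧸ N₀)) with
      mul_comm := fun x y => by
        induction x using QuotientGroup.induction_on with
        | _ x =>
        induction y using QuotientGroup.induction_on with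
        | _ y =>
        rw [← QuotientGroup.mk_mul, ← QuotientGroup.mk_mul, QuotientGroup.eq]
        have := hcomm y⁻¹ x⁻¹
        have e : (x * y)⁻¹ * (y * x) = y⁻¹ * x⁻¹ * y⁻¹⁻¹ * x⁻¹⁻¹ := by group
        rw [e]
        exact this }
  -- conjugation by elements of the normalizer on S
  have hcj : ∀ n : N, ∀ s : (S : Subgroup Γ), (n : Γ) * s * (n : Γ)⁻¹ ∈ (S : Subgroup Γ) := by
    intro n s
    have : (n : Γ) ∈ Subgroup.normalizer ((S : Subgroup Γ) : Set Γ) := hN ▸ n.2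
    rw [Subgroup.mem_normalizer_iff] at this
    exact (this s).mp s.2
  obtain ⟨f, hf⟩ : ∃ f : K → (S : Subgroup Γ), f = fun k => ⟨(k : N) * a * ((k : N) : Γ)⁻¹, hcj k ⟨a, haS⟩⟩ :=
    ⟨_, rfl⟩
  obtain ⟨β, hβ⟩ : ∃ β : (S : Subgroup Γ), β = ∏ k : K, f k := ⟨_, rfl⟩
  -- β is fixed by K
  have hβK : ∀ k₀ : K, ((k₀ : N) : Γ) * β * ((k₀ : N) : Γ)⁻¹ = β := by
    intro k₀
    let cj : (S : Subgroup Γ) →* (S : Subgroup Γ) :=
      { toFun := fun s => ⟨((k₀ : N) : Γ) * s * ((k₀ : N) : Γ)⁻¹, hcj k₀ s⟩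
        map_one' := by ext; simp
        map_mul' := fun x y => by ext; simp }
    have h1 : cj β = β := by
      rw [hβ, map_prod]
      refine Fintype.prod_equiv (Equiv.mulLeft k₀) _ _ ?_
      intro k
      rw [hf]
      ext
      simp [cj, mul_assoc]
    exact congrArg Subtype.val h1
  -- β is fixed by N
  have hβN : ∀ n ∈ Subgroup.normalizer (S : Set Γ), n * (β : Γ) * n⁻¹ = β := by
    intro n hn
    rw [← hN] at hn
    obtain ⟨⟨s, k⟩, hsk⟩ := hK.2 ⟨n, hn⟩
    have hs : ((s : N) : Γ) ∈ (S : Subgroup Γ) := by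
      have : (s : N) ∈ (S : Subgroup Γ).subgroupOf N := hS'c ▸ s.2
      rw [Subgroup.mem_subgroupOf] at this
      exact this
    have hn' : n = ((s : N) : Γ) * ((k : N) : Γ) := by
      have := congrArg Subtype.val hsk
      simpa using this.symm
    rw [hn', mul_inv_rev]
    have e : ((s : N) : Γ) * ((k : N) : Γ) * (β : Γ) * (((k : N) : Γ)⁻¹ * ((s : N) : Γ)⁻¹)
        = ((s : N) : Γ) * (((k : N) : Γ) * (β : Γ) * ((k : N) : Γ)⁻¹) * ((s : N) : Γ)⁻¹ := by group
    rw [e, hβK k, hab _ hs _ β.2, mul_inv_cancel_right]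
  have hβ1 : (β : Γ) = 1 := iso_triv hO hZ S hab β β.2 hβN
  -- image of β in the quotient
  have hq : (QuotientGroup.mk' N₀) (β : Γ) = (QuotientGroup.mk' N₀ a) ^ Nat.card K := by
    have h1 : ((QuotientGroup.mk' N₀).comp (S : Subgroup Γ).subtype) β
        = ∏ k : K, ((QuotientGroup.mk' N₀).comp (S : Subgroup Γ).subtype) (f k) := by
      rw [hβ, map_prod]
    have h2 : ∀ k : K, ((QuotientGroup.mk' N₀).comp (S : Subgroup Γ).subtype) (f k)
        = QuotientGroup.mk' N₀ a := by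
      intro k
      rw [hf]
      simp only [MonoidHom.comp_apply, Subgroup.subtype_apply, map_mul, map_inv]
      rw [mul_comm, inv_mul_cancel_left]
    rw [Finset.prod_congr rfl (fun k _ => h2 k), Finset.prod_const, Finset.card_univ,
      ← Nat.card_eq_fintype_card] at h1
    exact h1
  rw [hβ1, map_one] at hq
  -- a has 2-power order
  obtain ⟨k, hk⟩ := S.isPGroup' ⟨a, haS⟩
  have hak : a ^ 2 ^ k = 1 := by simpa using congrArg Subtype.val hk
  have hqk : (QuotientGroup.mk' N₀ a) ^ 2 ^ k = 1 := by rw [← map_pow, hak, map_one]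
  have hd1 := orderOf_dvd_of_pow_eq_one hq.symm
  have hd2 := orderOf_dvd_of_pow_eq_one hqk
  have hcop : (Nat.card K).Coprime (2 ^ k) :=
    Nat.Coprime.pow_right _ (Nat.Coprime.symm (Nat.coprime_two_left.mpr hKodd))
  have h1 : orderOf (QuotientGroup.mk' N₀ a) = 1 := Nat.eq_one_of_dvd_coprimes hcop hd1 hd2
  rw [orderOf_eq_one_iff] at h1
  exact (QuotientGroup.eq_one_iff a).mp h1


open Cfsg.Agent.Lib.helper9 in
/-- Let G be a finite group with trivial centre and no nontrivial normal subgroup of odd order, whose Sylow 2-subgroups are abelian, and let P be a Sylow 2-subgroup. Every automorphism of G of 2-power order that fixes P elementwise is inner. -/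
theorem result {G : Type*} [Group G] [Finite G] (hZ : Subgroup.center G = ⊥) (hcore : Cfsg.pPrimeCore 2 G = ⊥) (P : Sylow 2 G) (hab : IsMulCommutative (P : Subgroup G))
    (α : MulAut G) (h2 : ∃ j : ℕ, orderOf α = 2 ^ j) (hfix : ∀ x ∈ (P : Subgroup G), α x = x) :
    ∃ g : G, ∀ x : G, α x = g * x * g⁻¹ := by
  classical
  have : Fact (Nat.Prime 2) := ⟨Nat.prime_two⟩
  have hfin : Finite (MulAut G) := inferInstance
  obtain ⟨j, hj⟩ := h2
  obtain ⟨c, hc⟩ : ∃ c : G →* MulAut G, c = MulAut.conj := ⟨_, rfl⟩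
  have hcap : ∀ g x : G, c g x = g * x * g⁻¹ := by intro g x; rw [hc]; rfl
  have hcinj : Function.Injective c := by
    rw [injective_iff_map_eq_one]
    intro g hg
    have : g ∈ Subgroup.center G := by
      rw [Subgroup.mem_center_iff]
      intro x
      have h1 := hcap g x
      rw [hg] at h1
      have h2 : x = g * x * g⁻¹ := h1
      calc x * g = (g * x * g⁻¹) * g := by rw [← h2]
        _ = g * x := by group
    rw [hZ] at this
    simpa using this
  obtain ⟨I, hI⟩ : ∃ I : Subgroup (MulAut G), I = c.range := ⟨_, rfl⟩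
  have hconj : ∀ (β : MulAut G) (g : G), β * c g * β⁻¹ = c (β g) := by
    intro β g
    ext x
    simp only [MulAut.mul_apply, hcap, map_mul, map_inv, MulAut.apply_inv_self]
  have hIn : I.Normal := by
    constructor
    intro x hx β
    rw [hI] at hx ⊢
    obtain ⟨g, rfl⟩ := hx
    exact ⟨β g, (hconj β g).symm⟩
  obtain ⟨H, hH⟩ : ∃ H : Subgroup (MulAut G), H = I ⊔ Subgroup.zpowers α := ⟨_, rfl⟩
  have hIH : I ≤ H := hH ▸ le_sup_left
  have hαH : α ∈ H := hH ▸ Subgroup.mem_sup_right (Subgroup.mem_zpowers α)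
  have hdec : ∀ x ∈ H, ∃ ι ∈ I, ∃ i : ℤ, x = ι * α ^ i := by
    intro x hx
    rw [hH, ← SetLike.mem_coe, Subgroup.normal_mul, Set.mem_mul] at hx
    obtain ⟨ι, hι, z, hz, rfl⟩ := hx
    obtain ⟨i, rfl⟩ := Subgroup.mem_zpowers_iff.mp hz
    exact ⟨ι, hι, i, rfl⟩
  have hqI : ∀ x ∈ H, ∃ i : ℤ, QuotientGroup.mk' I x = (QuotientGroup.mk' I α) ^ i := by
    intro x hx
    obtain ⟨ι, hι, i, rfl⟩ := hdec x hx
    refine ⟨i, ?_⟩
    rw [map_mul, map_zpow, QuotientGroup.mk'_apply, (QuotientGroup.eq_one_iff ι).mpr hι, one_mul]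
  have hpow : ∀ x ∈ H, ∀ y ∈ H, x * y * x⁻¹ * y⁻¹ ∈ I := by
    intro x hx y hy
    obtain ⟨i, hi⟩ := hqI x hx
    obtain ⟨k, hk⟩ := hqI y hy
    rw [← QuotientGroup.eq_one_iff, ← QuotientGroup.mk'_apply, map_mul, map_mul, map_mul, map_inv,
      map_inv, hi, hk, ← zpow_add, ← zpow_neg, ← zpow_add, ← zpow_neg, ← zpow_add]
    have : i + k + -i + -k = 0 := by ring
    rw [this, zpow_zero]
  have hα2 : α ^ 2 ^ j = 1 := by rw [← hj]; exact pow_orderOf_eq_one α
  have hpow2 : ∀ x ∈ H, x ^ 2 ^ j ∈ I := by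
    intro x hx
    obtain ⟨i, hi⟩ := hqI x hx
    rw [← QuotientGroup.eq_one_iff, ← QuotientGroup.mk'_apply, map_pow, hi, ← zpow_natCast,
      ← zpow_mul, mul_comm, zpow_mul, zpow_natCast, ← map_pow, hα2, map_one, one_zpow]
  -- O(H) = 1
  have hO : Cfsg.pPrimeCore 2 H = ⊥ := by
    obtain ⟨K, hK⟩ : ∃ K, K = Cfsg.pPrimeCore 2 H := ⟨_, rfl⟩
    have hKn : K.Normal := hK ▸ ppc_normal 2 H
    have hKc : (Nat.card K).Coprime 2 := hK ▸ pPrimeCore_coprime 2 H
    obtain ⟨K₀, hK₀⟩ : ∃ K₀ : Subgroup G, K₀ = (K.map H.subtype).comap c := ⟨_, rfl⟩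
    have hK₀n : K₀.Normal := by
      constructor
      intro x hx g
      rw [hK₀, Subgroup.mem_comap] at hx ⊢
      obtain ⟨k, hk, hkx⟩ := hx
      refine ⟨⟨c g, hIH (hI ▸ ⟨g, rfl⟩)⟩ * k * ⟨c g, hIH (hI ▸ ⟨g, rfl⟩)⟩⁻¹,
        hKn.conj_mem k hk _, ?_⟩
      simp only [map_mul, map_inv, Subgroup.subtype_apply]
      rw [← hkx]
      rfl
    have hK₀c : (Nat.card K₀).Coprime 2 := by
      have h1 : K₀.map c ≤ K.map H.subtype := by rw [hK₀]; exact Subgroup.map_comap_le _ _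
      have h2 := Subgroup.card_dvd_of_le h1
      rw [Subgroup.card_map_of_injective hcinj,
        Subgroup.card_map_of_injective (Subgroup.subtype_injective H)] at h2
      exact Nat.Coprime.coprime_dvd_left h2 hKc
    have hK₀b : K₀ = ⊥ := by
      have := le_pPrimeCore hK₀n hK₀c
      rw [hcore] at this
      exact le_bot_iff.mp this
    rw [← hK, Subgroup.eq_bot_iff_forall]
    intro x hx
    have h1 : (x : MulAut G) ^ 2 ^ j ∈ I := hpow2 x x.2
    rw [hI] at h1
    obtain ⟨g, hg⟩ := h1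
    have hgK : g ∈ K₀ := by
      rw [hK₀, Subgroup.mem_comap]
      exact ⟨x ^ 2 ^ j, K.pow_mem hx _, by simp [hg]⟩
    rw [hK₀b, Subgroup.mem_bot] at hgK
    have h2 : x ^ 2 ^ j = 1 := by
      apply Subtype.ext
      simp only [Subgroup.coe_pow, Subgroup.coe_one]
      rw [← hg, hgK, map_one]
    have hd1 : orderOf x ∣ Nat.card K := by
      have := orderOf_dvd_natCard (⟨x, hx⟩ : K)
      rwa [Subgroup.orderOf_mk] at this
    have hd2 := orderOf_dvd_of_pow_eq_one h2
    exact orderOf_eq_one_iff.mp (Nat.eq_one_of_dvd_coprimes (hKc.pow_right j) hd1 hd2)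
  -- Z(H) = 1
  have hZ' : ∀ u : H, (∀ g : H, u * g = g * u) → u = 1 := by
    intro u hu
    apply Subtype.ext
    apply MulEquiv.ext
    intro x
    have h1 := congrArg Subtype.val (hu ⟨c x, hIH (hI ▸ ⟨x, rfl⟩)⟩)
    simp only [Subgroup.coe_mul] at h1
    have h2 : (u : MulAut G) * c x * (u : MulAut G)⁻¹ = c x := by rw [h1]; group
    rw [hconj] at h2
    exact hcinj h2
  -- the abelian 2-subgroup S₀
  obtain ⟨S₀, hS₀⟩ : ∃ S₀ : Subgroup (MulAut G),
      S₀ = (P : Subgroup G).map c ⊔ Subgroup.zpowers α := ⟨_, rfl⟩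
  have hαc : ∀ g ∈ (P : Subgroup G), Commute α (c g) := by
    intro g hg
    have := hconj α g
    rw [hfix g hg] at this
    show α * c g = c g * α
    calc α * c g = (α * c g * α⁻¹) * α := by group
      _ = c g * α := by rw [this]
  have hgen : ∀ x, (x ∈ (P : Subgroup G).map c ∨ x ∈ Subgroup.zpowers α) →
      ∀ y, (y ∈ (P : Subgroup G).map c ∨ y ∈ Subgroup.zpowers α) → x * y = y * x := by
    rintro x (⟨g, hg, rfl⟩ | hx) y (⟨g', hg', rfl⟩ | hy)
    · rw [← map_mul, ← map_mul]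
      congr 1
      exact congrArg Subtype.val (hab.is_comm.comm (⟨g, hg⟩ : (P : Subgroup G)) ⟨g', hg'⟩)
    · obtain ⟨i, rfl⟩ := Subgroup.mem_zpowers_iff.mp hy
      exact ((hαc g hg).zpow_left i).symm.eq
    · obtain ⟨i, rfl⟩ := Subgroup.mem_zpowers_iff.mp hx
      exact ((hαc g' hg').zpow_left i).eq
    · obtain ⟨i, rfl⟩ := Subgroup.mem_zpowers_iff.mp hx
      obtain ⟨k, rfl⟩ := Subgroup.mem_zpowers_iff.mp hy
      exact (Commute.zpow_zpow_self α i k).eq
  have hgen2 : ∀ y, (y ∈ (P : Subgroup G).map c ∨ y ∈ Subgroup.zpowers α) →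
      ∀ x ∈ S₀, x * y = y * x := by
    intro y hy
    have : S₀ ≤ Subgroup.centralizer {y} := by
      rw [hS₀]
      refine sup_le ?_ ?_
      · intro x hx
        rw [Subgroup.mem_centralizer_singleton_iff]
        exact hgen x (Or.inl hx) y hy
      · intro x hx
        rw [Subgroup.mem_centralizer_singleton_iff]
        exact hgen x (Or.inr hx) y hy
    intro x hx
    exact Subgroup.mem_centralizer_singleton_iff.mp (this hx)
  have hS₀ab : ∀ x ∈ S₀, ∀ y ∈ S₀, x * y = y * x := by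
    intro x hx
    have : S₀ ≤ Subgroup.centralizer {x} := by
      conv_lhs => rw [hS₀]
      refine sup_le ?_ ?_
      · intro y hy
        rw [Subgroup.mem_centralizer_singleton_iff]
        exact (hgen2 y (Or.inl hy) x hx).symm
      · intro y hy
        rw [Subgroup.mem_centralizer_singleton_iff]
        exact (hgen2 y (Or.inr hy) x hx).symm
    intro y hy
    exact (Subgroup.mem_centralizer_singleton_iff.mp (this hy)).symm
  have hS₀p : IsPGroup 2 S₀ := by
    rw [hS₀]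
    refine IsPGroup.to_sup_of_normal_right' (P.isPGroup'.map c) ?_ ?_
    · exact IsPGroup.of_card (n := j) (by rw [Nat.card_zpowers, hj])
    · refine le_trans ?_ (Subgroup.centralizer_le_normalizer _)
      intro x hx
      rw [Subgroup.mem_centralizer_iff]
      intro h hh
      exact hgen h (Or.inr hh) x (Or.inl hx)
  have hS₀H : S₀ ≤ H := by
    rw [hS₀, hH]
    refine sup_le_sup_right ?_ _
    rw [hI]
    exact Subgroup.map_le_range c _
  obtain ⟨T, hT⟩ := (hS₀p.comap_subtype (K := H)).exists_le_sylow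
  have hαT : (⟨α, hαH⟩ : H) ∈ T := by
    apply hT
    rw [Subgroup.mem_comap]
    rw [hS₀]
    exact Subgroup.mem_sup_right (Subgroup.mem_zpowers α)
  have hTS : ∀ t ∈ T, (t : MulAut G) ∈ S₀ := by
    intro t ht
    obtain ⟨ι, hι, i, hti⟩ := hdec t t.2
    have hιT : (⟨ι, hIH hι⟩ : H) ∈ T := by
      have : (⟨ι, hIH hι⟩ : H) = t * (⟨α, hαH⟩ : H) ^ (-i) := by
        apply Subtype.ext
        simp only [Subgroup.coe_mul, Subgroup.coe_zpow]
        rw [hti]; group
      rw [this]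
      exact T.mul_mem ht (T.zpow_mem hαT _)
    have hι' := hι
    rw [hI] at hι'
    obtain ⟨g, hg⟩ := hι'
    obtain ⟨D, hD⟩ : ∃ D : Subgroup G, D = ((T : Subgroup H).map H.subtype).comap c := ⟨_, rfl⟩
    have hDp : IsPGroup 2 D := by
      rw [hD]
      exact (T.isPGroup'.map H.subtype).comap_of_injective c hcinj
    have hPD : (P : Subgroup G) ≤ D := by
      intro x hx
      rw [hD, Subgroup.mem_comap]
      have hcx : c x ∈ S₀ := by
        rw [hS₀]; exact Subgroup.mem_sup_left ⟨x, hx, rfl⟩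
      exact ⟨⟨c x, hS₀H hcx⟩, hT (by rw [Subgroup.mem_comap]; exact hcx), rfl⟩
    have hDP : D = P := P.is_maximal' hDp hPD
    have hgP : g ∈ (P : Subgroup G) := by
      rw [← hDP, hD, Subgroup.mem_comap]
      exact ⟨⟨ι, hIH hι⟩, hιT, hg.symm⟩
    rw [hti, hS₀]
    exact Subgroup.mul_mem _ (Subgroup.mem_sup_left ⟨g, hgP, hg⟩)
      (Subgroup.mem_sup_right (Subgroup.zpow_mem _ (Subgroup.mem_zpowers α) i))
  have habT : ∀ x ∈ T, ∀ y ∈ T, x * y = y * x := by
    intro x hx y hy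
    apply Subtype.ext
    exact hS₀ab _ (hTS x hx) _ (hTS y hy)
  have hN₀ : (I.subgroupOf H).Normal := inferInstance
  have hcomm' : ∀ x y : H, x * y * x⁻¹ * y⁻¹ ∈ I.subgroupOf H := by
    intro x y
    rw [Subgroup.mem_subgroupOf]
    exact hpow x x.2 y y.2
  have hfinal := sylow_le hO hZ' T habT (I.subgroupOf H) hcomm' hαT
  rw [Subgroup.mem_subgroupOf, hI] at hfinal
  obtain ⟨g, hg⟩ := hfinal
  refine ⟨g, fun x => ?_⟩
  have : α = c g := hg.symm
  rw [this, hcap]

end Cfsg.Agent.S4593
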