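import Cfsg.Statements.S4602
import Mathlib
import Cfsg.Agent.Lib.helper16.PSolv
import Cfsg.Agent.Lib.helper9.PPrimeCore
import Cfsg.Agent.Lib.helper15.PCore

set_option autoImplicit false
open Cfsg

namespace Cfsg.Agent.S4602

open Cfsg.Agent.Lib.helper16 Cfsg.Agent.Lib.helper9 Cfsg.Agent.Lib.helper15

theorem eq_one_of_pq {H : Type*} [Group H] {p q : ℕ} (hp : p.Prime) (hq : q.Prime) (hpq : p ≠ q)
    (y : H) (k m : ℕ) (h1 : y ^ p ^ k = 1) (h2 : y ^ q ^ m = 1) : y = 1 := by
  have d1 := orderOf_dvd_of_pow_eq_one h1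
  have d2 := orderOf_dvd_of_pow_eq_one h2
  have hc : (p ^ k).Coprime (q ^ m) := Nat.Coprime.pow _ _ ((Nat.coprime_primes hp hq).mpr hpq)
  have h3 : orderOf y ∣ 1 := by
    have := Nat.dvd_gcd d1 d2
    rwa [hc] at this
  exact orderOf_eq_one_iff.mp (Nat.dvd_one.mp h3)

theorem index_dvd_card_of_sup_eq_top {G : Type*} [Group G] [Finite G] (M N : Subgroup G) [N.Normal]
    (h : M ⊔ N = ⊤) : M.index ∣ Nat.card N := by
  have h1 : Nat.card N * N.index = Nat.card G := Subgroup.card_mul_index N
  have h2 : N.index = N.relIndex M := by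
    rw [← Subgroup.relIndex_top_right, ← h, Subgroup.relIndex_sup_right]
  have h3 : Nat.card (N.subgroupOf M) * N.relIndex M = Nat.card M :=
    Subgroup.card_mul_index (N.subgroupOf M)
  have h4 : Nat.card M * M.index = Nat.card G := Subgroup.card_mul_index M
  have h5 : N.index ≠ 0 := Subgroup.index_ne_zero_of_finite
  refine ⟨Nat.card (N.subgroupOf M), ?_⟩
  have h6 : Nat.card N * N.index = (M.index * Nat.card (N.subgroupOf M)) * N.index := by
    rw [h1, ← h4, ← h3, h2]; ring
  exact Nat.eq_of_mul_eq_mul_right (Nat.pos_of_ne_zero h5) h6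

/-- Let G be a finite p-solvable group and q a prime different from p. Some Sylow p-subgroup of G normalizes some Sylow q-subgroup of G if and only if q does not divide the order of G/O_{p'}(G), the quotient by the largest normal subgroup of order prime to p. -/
theorem result {G : Type*} [Group G] [Finite G] (p q : ℕ) [Fact p.Prime] [Fact q.Prime] (hpq : p ≠ q) (hsolv : Cfsg.IsPSolvable p G) :
    (∃ (P : Sylow p G) (Q : Sylow q G), (P : Subgroup G) ≤ Subgroup.normalizer ((Q : Subgroup G) : Set G)) ↔ ¬ q ∣ (Cfsg.pPrimeCore p G).index := by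
  classical
  have hp : p.Prime := Fact.out
  have hq : q.Prime := Fact.out
  haveI hNn : (pPrimeCore p G).Normal := ppc_normal p G
  constructor
  · rintro ⟨P, Q, hPQ⟩
    have hQN : (Q : Subgroup G) ≤ pPrimeCore p G := by
      have hsurj : Function.Surjective (QuotientGroup.mk' (pPrimeCore p G)) :=
        QuotientGroup.mk'_surjective _
      have hsol' : IsPSolvable p (G ⧸ pPrimeCore p G) :=
        isPSolvable_of_surjective _ hsurj hsolv
      have hbot : pPrimeCore p (G ⧸ pPrimeCore p G) = ⊥ := pPrimeCore_quotient_eq_bot p G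
      have hC := centralizer_pCore_le_of_pSolvable hsol' hbot
      have hRn : (pCore p (G ⧸ pPrimeCore p G)).Normal := Cfsg.Agent.Lib.helper15.pCore_normal p _
      have hRp : IsPGroup p (pCore p (G ⧸ pPrimeCore p G)) := pCore_isPGroup p _
      have hRP : pCore p (G ⧸ pPrimeCore p G) ≤
          (P : Subgroup G).map (QuotientGroup.mk' (pPrimeCore p G)) := by
        have := pCore_le_sylow (P.mapSurjective hsurj)
        rwa [Sylow.coe_mapSurjective] at this
      intro b hb
      obtain ⟨m, hm⟩ := (IsPGroup.iff_orderOf.mp Q.isPGroup') ⟨b, hb⟩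
      have hbm : b ^ q ^ m = 1 := by
        have h1 : (⟨b, hb⟩ : (Q : Subgroup G)) ^ q ^ m = 1 := by rw [← hm]; exact pow_orderOf_eq_one _
        have := congrArg Subtype.val h1
        simpa using this
      have hx : (QuotientGroup.mk' (pPrimeCore p G)) b ∈ pCore p (G ⧸ pPrimeCore p G) := by
        apply hC
        rw [Subgroup.mem_centralizer_iff]
        intro r hr
        obtain ⟨a, ha, rfl⟩ := hRP hr
        have hc1 : a * b * a⁻¹ ∈ (Q : Subgroup G) :=
          (Subgroup.mem_normalizer_iff.mp (hPQ ha) b).mp hb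
        have hc2 : a * b * a⁻¹ * b⁻¹ ∈ (Q : Subgroup G) := Q.mul_mem hc1 (inv_mem hb)
        obtain ⟨m2, hm2⟩ := (IsPGroup.iff_orderOf.mp Q.isPGroup') ⟨a * b * a⁻¹ * b⁻¹, hc2⟩
        have hcm : (a * b * a⁻¹ * b⁻¹) ^ q ^ m2 = 1 := by
          have h1 : (⟨a * b * a⁻¹ * b⁻¹, hc2⟩ : (Q : Subgroup G)) ^ q ^ m2 = 1 := by
            rw [← hm2]; exact pow_orderOf_eq_one _
          have := congrArg Subtype.val h1
          simpa using this
        have hc3 : (QuotientGroup.mk' (pPrimeCore p G)) (a * b * a⁻¹ * b⁻¹) ∈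
            pCore p (G ⧸ pPrimeCore p G) := by
          have e : (QuotientGroup.mk' (pPrimeCore p G)) (a * b * a⁻¹ * b⁻¹) =
              (QuotientGroup.mk' (pPrimeCore p G)) a *
                ((QuotientGroup.mk' (pPrimeCore p G)) b *
                  ((QuotientGroup.mk' (pPrimeCore p G)) a)⁻¹ *
                  ((QuotientGroup.mk' (pPrimeCore p G)) b)⁻¹) := by
            simp only [map_mul, map_inv, mul_assoc]
          rw [e]
          exact mul_mem hr (hRn.conj_mem _ (inv_mem hr) _)
        obtain ⟨k, hk⟩ := hRp ⟨_, hc3⟩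
        have hk' : ((QuotientGroup.mk' (pPrimeCore p G)) (a * b * a⁻¹ * b⁻¹)) ^ p ^ k = 1 := by
          have := congrArg Subtype.val hk
          simpa using this
        have h1 : (QuotientGroup.mk' (pPrimeCore p G)) (a * b * a⁻¹ * b⁻¹) = 1 := by
          refine eq_one_of_pq hp hq hpq _ k m2 hk' ?_
          rw [← map_pow, hcm, map_one]
        have h2 : (QuotientGroup.mk' (pPrimeCore p G)) a * (QuotientGroup.mk' (pPrimeCore p G)) b =
            (QuotientGroup.mk' (pPrimeCore p G)) b * (QuotientGroup.mk' (pPrimeCore p G)) a := by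
          rw [← map_mul, ← map_mul]
          have e : a * b = (a * b * a⁻¹ * b⁻¹) * (b * a) := by group
          rw [e, map_mul, h1, one_mul]
        exact h2
      obtain ⟨k, hk⟩ := hRp ⟨_, hx⟩
      have hk' : ((QuotientGroup.mk' (pPrimeCore p G)) b) ^ p ^ k = 1 := by
        have := congrArg Subtype.val hk
        simpa using this
      have h1 : (QuotientGroup.mk' (pPrimeCore p G)) b = 1 := by
        refine eq_one_of_pq hp hq hpq _ k m hk' ?_
        rw [← map_pow, hbm, map_one]
      exact (QuotientGroup.eq_one_iff b).mp h1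
    intro hdvd
    exact Q.not_dvd_index (hdvd.trans (Subgroup.index_dvd_of_le hQN))
  · intro hqn
    obtain ⟨Q⟩ : Nonempty (Sylow q G) := inferInstance
    have hQN : (Q : Subgroup G) ≤ pPrimeCore p G := by
      intro b hb
      obtain ⟨m, hm⟩ := (IsPGroup.iff_orderOf.mp Q.isPGroup') ⟨b, hb⟩
      have hbm : orderOf b = q ^ m := by rw [← hm]; exact (Subgroup.orderOf_mk b hb).symm
      have d1 : orderOf ((QuotientGroup.mk' (pPrimeCore p G)) b) ∣ q ^ m := by
        rw [← hbm]; exact orderOf_map_dvd _ b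
      have d2 : orderOf ((QuotientGroup.mk' (pPrimeCore p G)) b) ∣ (pPrimeCore p G).index := by
        rw [Subgroup.index_eq_card]; exact orderOf_dvd_natCard _
      have hc : (q ^ m).Coprime (pPrimeCore p G).index :=
        Nat.Coprime.pow_left _ ((Nat.Prime.coprime_iff_not_dvd hq).mpr hqn)
      have h3 : orderOf ((QuotientGroup.mk' (pPrimeCore p G)) b) ∣ 1 := by
        have := Nat.dvd_gcd d1 d2
        rwa [hc] at this
      exact (QuotientGroup.eq_one_iff b).mp (orderOf_eq_one_iff.mp (Nat.dvd_one.mp h3))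
    have hfr : Subgroup.normalizer ((Q : Subgroup G) : Set G) ⊔ pPrimeCore p G = ⊤ :=
      Sylow.normalizer_sup_eq_top' Q hQN
    have hidx := index_dvd_card_of_sup_eq_top _ _ hfr
    have hMp : ¬ p ∣ (Subgroup.normalizer ((Q : Subgroup G) : Set G)).index := by
      intro hd
      have := (pPrimeCore_coprime p G)
      exact (Nat.Prime.coprime_iff_not_dvd hp).mp this.symm (hd.trans hidx)
    obtain ⟨P₀⟩ : Nonempty (Sylow p ↥(Subgroup.normalizer ((Q : Subgroup G) : Set G))) := inferInstance
    have hP1 : IsPGroup p ((P₀ : Subgroup ↥(Subgroup.normalizer ((Q : Subgroup G) : Set G))).map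
        (Subgroup.normalizer ((Q : Subgroup G) : Set G)).subtype) := P₀.isPGroup'.map _
    have hP2 : ¬ p ∣ ((P₀ : Subgroup ↥(Subgroup.normalizer ((Q : Subgroup G) : Set G))).map
        (Subgroup.normalizer ((Q : Subgroup G) : Set G)).subtype).index := by
      rw [Subgroup.index_map_subtype]
      intro hd
      rcases (Nat.Prime.dvd_mul hp).mp hd with h | h
      · exact P₀.not_dvd_index h
      · exact hMp h
    refine ⟨hP1.toSylow hP2, Q, ?_⟩
    intro x hx
    have hx' : x ∈ ((P₀ : Subgroup ↥(Subgroup.normalizer ((Q : Subgroup G) : Set G))).map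
        (Subgroup.normalizer ((Q : Subgroup G) : Set G)).subtype) := hx
    exact Subgroup.map_subtype_le _ hx'

end Cfsg.Agent.S4602
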