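import Cfsg.Statements.S4601
import Mathlib
import Cfsg.Agent.S4602
import Cfsg.Agent.Lib.helper8.CoprimeAction
import Cfsg.Agent.Lib.helper14.SylIn

set_option autoImplicit false
open Cfsg

namespace Cfsg.Agent.S4601

open Cfsg.Agent.Lib.helper16 Cfsg.Agent.Lib.helper9 Cfsg.Agent.Lib.helper15 Cfsg.Agent.Lib.helper8
  Cfsg.Agent.Lib.helper14

universe u

/-- A `q`-group acting on a `q'`-group `N`, each of whose elements centralizes a Sylow
`p`-subgroup of `N`, centralizes a Sylow `p`-subgroup of `N`. -/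
theorem star {G : Type u} [Group G] [Finite G] {p q : ℕ} [Fact p.Prime] [Fact q.Prime]
    (N Q : Subgroup G) (hQN : Q ≤ Subgroup.normalizer (N : Set G)) (hQ : IsPGroup q Q)
    (hcop : (Nat.card Q).Coprime (Nat.card N))
    (hy : ∀ y ∈ Q, ∃ S₁ : Subgroup G, SylIn p N S₁ ∧ S₁ ≤ Subgroup.centralizer ({y} : Set G)) :
    ∃ S : Subgroup G, SylIn p N S ∧ Q ≤ Subgroup.centralizer (S : Set G) := by
  haveI : Group.IsNilpotent ↥Q := hQ.isNilpotent
  obtain ⟨S, hS⟩ := exists_invariant_sylow (p := p) Q N hQN hcop (Or.inl inferInstance)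
  refine ⟨(S : Subgroup N).map N.subtype, sylIn_of_sylow_subtype N S, ?_⟩
  intro y hyQ
  obtain ⟨S₁, hS₁syl, hS₁⟩ := hy y hyQ
  obtain ⟨R, hR⟩ := (sylIn_iff_exists_sylow hS₁syl.1).mpr hS₁syl
  have hRmap : (R : Subgroup N).map N.subtype = S₁ := by
    rw [hR]; exact Subgroup.map_subgroupOf_eq_of_le hS₁syl.1
  have hA'Q : Subgroup.zpowers y ≤ Q := (Subgroup.zpowers_le).mpr hyQ
  have hA'N := hA'Q.trans hQN
  have hcop' : (Nat.card (Subgroup.zpowers y)).Coprime (Nat.card N) :=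
    Nat.Coprime.coprime_dvd_left (Subgroup.card_dvd_of_le hA'Q) hcop
  haveI : Group.IsNilpotent ↥(Subgroup.zpowers y) := (hQ.to_le hA'Q).isNilpotent
  have hS₁' : Subgroup.zpowers y ≤
      Subgroup.normalizer (((R : Subgroup N).map N.subtype : Subgroup G) : Set G) := by
    rw [hRmap]
    apply Cfsg.Agent.Lib.helper8.le_normalizer_of_conj_mem
    intro a ha x hx
    obtain ⟨k, rfl⟩ := Subgroup.mem_zpowers_iff.mp ha
    have h1 := Subgroup.mem_centralizer_iff.mp (hS₁ hx) y rfl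
    have h2 : Commute (y ^ k) x := (show Commute y x from h1).zpow_left k
    rw [h2.eq, mul_inv_cancel_right]; exact hx
  obtain ⟨c, hc, hcx⟩ := invariant_sylow_conj (p := p) (Subgroup.zpowers y) N hA'N hcop'
    (Or.inl inferInstance) R S hS₁' (hA'Q.trans hS)
  rw [Subgroup.mem_centralizer_iff]
  intro x hx
  have h1 := (hcx x).mp hx
  rw [hRmap] at h1
  have h2 : y * (c⁻¹ * x * c) = (c⁻¹ * x * c) * y := Subgroup.mem_centralizer_iff.mp (hS₁ h1) y rfl
  have h3 : y * c = c * y := Subgroup.mem_centralizer_iff.mp hc.2 y (Subgroup.mem_zpowers y)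
  have h4 : c⁻¹ * y = y * c⁻¹ := by
    calc c⁻¹ * y = c⁻¹ * (y * c) * c⁻¹ := by group
      _ = c⁻¹ * (c * y) * c⁻¹ := by rw [h3]
      _ = y * c⁻¹ := by group
  calc x * y = c * (c⁻¹ * x * c) * (c⁻¹ * y) := by group
    _ = c * (c⁻¹ * x * c) * (y * c⁻¹) := by rw [h4]
    _ = c * ((c⁻¹ * x * c) * y) * c⁻¹ := by group
    _ = c * (y * (c⁻¹ * x * c)) * c⁻¹ := by rw [h2]
    _ = (c * y) * (c⁻¹ * x) := by group
    _ = (y * c) * (c⁻¹ * x) := by rw [h3]
    _ = y * x := by group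

theorem hyp_quot {G : Type u} [Group G] [Finite G] {p q : ℕ} [Fact p.Prime] [Fact q.Prime]
    (N : Subgroup G) [N.Normal]
    (h : ∀ (Q : Sylow q G), ∀ y ∈ (Q : Subgroup G), ∃ P : Sylow p G,
      (P : Subgroup G) ≤ Subgroup.centralizer ({y} : Set G)) :
    ∀ (Q : Sylow q (G ⧸ N)), ∀ y ∈ (Q : Subgroup (G ⧸ N)), ∃ P : Sylow p (G ⧸ N),
      (P : Subgroup (G ⧸ N)) ≤ Subgroup.centralizer ({y} : Set (G ⧸ N)) := by
  intro Q' y' hy'
  have hsurj := QuotientGroup.mk'_surjective N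
  obtain ⟨Q, rfl⟩ := Sylow.mapSurjective_surjective hsurj q Q'
  rw [Sylow.coe_mapSurjective] at hy'
  obtain ⟨y, hy, rfl⟩ := hy'
  obtain ⟨P, hP⟩ := h Q y hy
  refine ⟨P.mapSurjective hsurj, ?_⟩
  rw [Sylow.coe_mapSurjective]
  rintro _ ⟨x, hx, rfl⟩
  rw [Subgroup.mem_centralizer_iff]
  intro z hz
  rw [Set.mem_singleton_iff] at hz; subst hz
  have := Subgroup.mem_centralizer_iff.mp (hP hx) y rfl
  rw [← map_mul, ← map_mul, this]

theorem card_quot_lt {G : Type u} [Group G] [Finite G] (U : Subgroup G) [U.Normal] (hU : U ≠ ⊥) :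
    Nat.card (G ⧸ U) < Nat.card G := by
  rw [← Subgroup.index_eq_card]
  have h1 := Subgroup.card_mul_index U
  have h2 : 1 < Nat.card U := U.one_lt_card_iff_ne_bot.mpr hU
  have h3 : 0 < U.index := Nat.pos_of_ne_zero Subgroup.index_ne_zero_of_finite
  nlinarith

/-- lifting: if the image of `P` normalizes the image of `Q` then `P` conjugates `Q` into `Q ⊔ N` -/
theorem lift_conj {G : Type u} [Group G] (N P Q : Subgroup G) [N.Normal]
    (h : P.map (QuotientGroup.mk' N) ≤
      Subgroup.normalizer ((Q.map (QuotientGroup.mk' N) : Subgroup (G ⧸ N)) : Set (G ⧸ N))) :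
    ∀ x ∈ P, ∀ u ∈ Q, ∃ u' ∈ Q, u'⁻¹ * (x * u * x⁻¹) ∈ N := by
  intro x hx u hu
  have h1 : (QuotientGroup.mk' N) x ∈ Subgroup.normalizer
      ((Q.map (QuotientGroup.mk' N) : Subgroup (G ⧸ N)) : Set (G ⧸ N)) := h ⟨x, hx, rfl⟩
  have h2 := (Subgroup.mem_normalizer_iff.mp h1 ((QuotientGroup.mk' N) u)).mp ⟨u, hu, rfl⟩
  obtain ⟨u', hu', he⟩ := h2
  refine ⟨u', hu', ?_⟩
  have h3 : (QuotientGroup.mk' N) u' = (QuotientGroup.mk' N) (x * u * x⁻¹) := by
    rw [he, map_mul, map_mul, map_inv]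
  exact QuotientGroup.eq.mp h3

theorem card_mul_eq {G : Type u} [Group G] [Finite G] (M N : Subgroup G) [N.Normal] :
    Nat.card M * Nat.card N = Nat.card ↥(M ⊔ N) * Nat.card ↥(M ⊓ N) := by
  have h1 : Nat.card (N.subgroupOf M) * N.relIndex M = Nat.card M :=
    Subgroup.card_mul_index (N.subgroupOf M)
  have h2 : Nat.card (N.subgroupOf (M ⊔ N)) * N.relIndex (M ⊔ N) = Nat.card ↥(M ⊔ N) :=
    Subgroup.card_mul_index (N.subgroupOf (M ⊔ N))
  have h3 : N.relIndex (M ⊔ N) = N.relIndex M := Subgroup.relIndex_sup_right M N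
  have h4 : Nat.card (N.subgroupOf (M ⊔ N)) = Nat.card N :=
    Nat.card_congr (Subgroup.subgroupOfEquivOfLe le_sup_right).toEquiv
  have h5 : Nat.card (N.subgroupOf M) = Nat.card ↥(M ⊓ N) := by
    rw [← Subgroup.inf_subgroupOf_right N M, inf_comm]
    exact Nat.card_congr (Subgroup.subgroupOfEquivOfLe inf_le_left).toEquiv
  rw [← h1, ← h2, h3, h4, h5]; ring

/-- the Frattini step -/
theorem frat_step {G : Type u} [Group G] [Finite G] (p q : ℕ) [Fact p.Prime] [Fact q.Prime]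
    (N : Subgroup G) [hNn : N.Normal] (hNcop : (Nat.card N).Coprime q) (P : Sylow p G) (Q : Sylow q G)
    (hPQ' : (P : Subgroup G).map (QuotientGroup.mk' N) ≤
      Subgroup.normalizer ((((Q : Subgroup G).map (QuotientGroup.mk' N) : Subgroup (G ⧸ N))) : Set (G ⧸ N)))
    (hH : ∀ y ∈ (Q : Subgroup G), ∃ P₁ : Sylow p G,
        (P₁ : Subgroup G) ≤ Subgroup.centralizer ({y} : Set G)) :
    ∃ P₂ : Sylow p G, (P₂ : Subgroup G) ≤ Subgroup.normalizer ((Q : Subgroup G) : Set G) := by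
  classical
  have hp : p.Prime := Fact.out
  have hconj : ∀ x ∈ (P : Subgroup G), ∀ u ∈ (Q : Subgroup G), x * u * x⁻¹ ∈ (Q : Subgroup G) ⊔ N := by
    intro x hx u hu
    obtain ⟨u', hu', h3⟩ := lift_conj _ _ _ hPQ' x hx u hu
    have : x * u * x⁻¹ = u' * (u'⁻¹ * (x * u * x⁻¹)) := by group
    rw [this]
    exact Subgroup.mul_mem _ (Subgroup.mem_sup_left hu') (Subgroup.mem_sup_right h3)
  have hcopQN : (Nat.card (Q : Subgroup G)).Coprime (Nat.card N) := by
    obtain ⟨k, hk⟩ := (IsPGroup.iff_card.mp Q.isPGroup')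
    rw [hk]
    exact Nat.Coprime.pow_left k hNcop.symm
  have hNtop : ∀ X : Subgroup G, X ≤ Subgroup.normalizer (N : Set G) := by
    intro X x _
    rw [Subgroup.normalizer_eq_top]; exact Subgroup.mem_top x
  obtain ⟨S, hSsyl, hS⟩ := star (p := p) N (Q : Subgroup G) (hNtop _) Q.isPGroup' hcopQN (by
      intro y hy
      obtain ⟨P₁, hP₁⟩ := hH y hy
      exact ⟨(P₁ : Subgroup G) ⊓ N, (sylIn_top P₁).inf N le_top (hNtop _), inf_le_left.trans hP₁⟩)
  obtain ⟨T, hT⟩ : ∃ T : Subgroup G, T = (Q : Subgroup G) ⊔ N := ⟨_, rfl⟩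
  have hQT : (Q : Subgroup G) ≤ T := by rw [hT]; exact le_sup_left
  have hNT : N ≤ T := by rw [hT]; exact le_sup_right
  have hTmem : ∀ c ∈ T, ∃ u ∈ (Q : Subgroup G), ∃ m ∈ N, u * m = c := by
    intro c hc'
    rw [hT] at hc'
    exact Subgroup.mem_sup_of_normal_right.mp hc'
  have hPT : (P : Subgroup G) ≤ Subgroup.normalizer (T : Set G) := by
    apply Cfsg.Agent.Lib.helper8.le_normalizer_of_conj_mem
    intro x hx c hc'
    obtain ⟨u, hu, m, hm, rfl⟩ := hTmem c hc'
    have : x * (u * m) * x⁻¹ = (x * u * x⁻¹) * (x * m * x⁻¹) := by group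
    rw [this]
    refine T.mul_mem ?_ (hNT (hNn.conj_mem m hm x))
    rw [hT]; exact hconj x hx u hu
  have hfr := (sylIn_of_sylow Q T hQT).frattini (Subgroup.normalizer (T : Set G))
    Subgroup.le_normalizer le_rfl
  obtain ⟨M, hM⟩ : ∃ M : Subgroup G, M = Subgroup.normalizer ((Q : Subgroup G) : Set G) := ⟨_, rfl⟩
  rw [← hM]
  have hPMN : (P : Subgroup G) ≤ M ⊔ N := by
    intro g hg
    obtain ⟨a, ha, c, hc', rfl⟩ := hfr g (hPT hg)
    obtain ⟨u, hu, m, hm, rfl⟩ := hTmem c hc'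
    have : a * (u * m) = (a * u) * m := by group
    rw [this]
    refine Subgroup.mul_mem _ (Subgroup.mem_sup_left ?_) (Subgroup.mem_sup_right hm)
    rw [hM]
    exact Subgroup.mul_mem _ ha.2 (Subgroup.le_normalizer hu)
  have hSMN : S ≤ M ⊓ N := by
    refine le_inf ?_ hSsyl.1
    rw [hM]
    exact (Subgroup.le_centralizer_iff.mp hS).trans (Subgroup.centralizer_le_normalizer _)
  have e1 := card_mul_eq M N
  have d1 : p ^ (Nat.card G).factorization p ∣ Nat.card ↥(M ⊔ N) := by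
    rw [← P.card_eq_multiplicity]; exact Subgroup.card_dvd_of_le hPMN
  have d2 : p ^ (Nat.card N).factorization p ∣ Nat.card ↥(M ⊓ N) := by
    rw [← hSsyl.2]; exact Subgroup.card_dvd_of_le hSMN
  have d3 : p ^ (Nat.card G).factorization p * p ^ (Nat.card N).factorization p ∣
      Nat.card M * Nat.card N := by rw [e1]; exact mul_dvd_mul d1 d2
  obtain ⟨m, hm, hmp⟩ : ∃ m, Nat.card N = p ^ (Nat.card N).factorization p * m ∧ ¬ p ∣ m :=
    ⟨Nat.card N / p ^ (Nat.card N).factorization p,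
      (Nat.ordProj_mul_ordCompl_eq_self _ p).symm, Nat.not_dvd_ordCompl hp Nat.card_pos.ne'⟩
  obtain ⟨b, hb⟩ : ∃ b, b = (Nat.card N).factorization p := ⟨_, rfl⟩
  rw [← hb] at d3 hm
  rw [hm] at d3
  have d4 : p ^ (Nat.card G).factorization p * p ^ b ∣ (Nat.card M * m) * p ^ b := by
    have : Nat.card M * m * p ^ b = Nat.card M * (p ^ b * m) := by ring
    rw [this]; exact d3
  have d5 : p ^ (Nat.card G).factorization p ∣ Nat.card M * m :=
    Nat.dvd_of_mul_dvd_mul_right (pow_pos hp.pos b) d4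
  have d6 : p ^ (Nat.card G).factorization p ∣ Nat.card M :=
    (Nat.Coprime.pow_left _ ((Nat.Prime.coprime_iff_not_dvd hp).mpr hmp)).dvd_of_dvd_mul_right d5
  obtain ⟨K₀, hK₀⟩ := Sylow.exists_subgroup_card_pow_prime p d6
  refine ⟨Sylow.ofCard (K₀.map M.subtype) (by
    rw [Subgroup.card_map_of_injective M.subtype_injective, hK₀]), ?_⟩
  rw [Sylow.coe_ofCard]
  exact Subgroup.map_subtype_le _

theorem qcase (p q : ℕ) [Fact p.Prime] [Fact q.Prime] (hpq : p ≠ q) :
    ∀ (n : ℕ) (G : Type u) [Group G] [Finite G], Nat.card G = n → IsPSolvable q G →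
      (∀ (Q : Sylow q G), ∀ y ∈ (Q : Subgroup G), ∃ P : Sylow p G,
        (P : Subgroup G) ≤ Subgroup.centralizer ({y} : Set G)) →
      ∃ (P : Sylow p G) (Q : Sylow q G),
        (P : Subgroup G) ≤ Subgroup.normalizer ((Q : Subgroup G) : Set G) := by
  intro n
  induction n using Nat.strong_induction_on with
  | _ n ih =>
  intro G _ _ hn hsol hH
  classical
  have hp : p.Prime := Fact.out
  have hq : q.Prime := Fact.out
  haveI hNn : (pPrimeCore q G).Normal := ppc_normal q G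
  by_cases hN : pPrimeCore q G = ⊥
  · haveI hUn : (pCore q G).Normal := Cfsg.Agent.Lib.helper15.pCore_normal q G
    by_cases hU : pCore q G = ⊥
    · have hC := centralizer_pCore_le_of_pSolvable hsol hN
      rw [hU] at hC
      have htriv : ∀ g : G, g = 1 := by
        intro g
        have : g ∈ Subgroup.centralizer (((⊥ : Subgroup G) : Subgroup G) : Set G) := by
          rw [Subgroup.mem_centralizer_iff]
          intro h hh
          rw [SetLike.mem_coe, Subgroup.mem_bot] at hh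
          rw [hh, one_mul, mul_one]
        exact Subgroup.mem_bot.mp (hC this)
      obtain ⟨P⟩ : Nonempty (Sylow p G) := inferInstance
      obtain ⟨Q⟩ : Nonempty (Sylow q G) := inferInstance
      refine ⟨P, Q, fun x _ => ?_⟩
      rw [htriv x]; exact Subgroup.one_mem _
    · have hsurj := QuotientGroup.mk'_surjective (pCore q G)
      have hlt : Nat.card (G ⧸ pCore q G) < n := by rw [← hn]; exact card_quot_lt _ hU
      obtain ⟨P', Q', hPQ'⟩ := ih _ hlt (G ⧸ pCore q G) rfl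
        (isPSolvable_of_surjective _ hsurj hsol) (hyp_quot _ hH)
      obtain ⟨P, rfl⟩ := Sylow.mapSurjective_surjective hsurj p P'
      obtain ⟨Q, rfl⟩ := Sylow.mapSurjective_surjective hsurj q Q'
      rw [Sylow.coe_mapSurjective, Sylow.coe_mapSurjective] at hPQ'
      refine ⟨P, Q, ?_⟩
      have hUQ : pCore q G ≤ Q := Cfsg.Agent.Lib.helper15.pCore_le_sylow Q
      apply Cfsg.Agent.Lib.helper8.le_normalizer_of_conj_mem
      intro x hx u hu
      obtain ⟨u', hu', h3⟩ := lift_conj _ _ _ hPQ' x hx u hu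
      have : x * u * x⁻¹ = u' * (u'⁻¹ * (x * u * x⁻¹)) := by group
      rw [this]; exact Q.mul_mem hu' (hUQ h3)
  · have hsurj := QuotientGroup.mk'_surjective (pPrimeCore q G)
    have hlt : Nat.card (G ⧸ pPrimeCore q G) < n := by rw [← hn]; exact card_quot_lt _ hN
    obtain ⟨P', Q', hPQ'⟩ := ih _ hlt (G ⧸ pPrimeCore q G) rfl
      (isPSolvable_of_surjective _ hsurj hsol) (hyp_quot _ hH)
    obtain ⟨P, rfl⟩ := Sylow.mapSurjective_surjective hsurj p P'
    obtain ⟨Q, rfl⟩ := Sylow.mapSurjective_surjective hsurj q Q'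
    rw [Sylow.coe_mapSurjective, Sylow.coe_mapSurjective] at hPQ'
    obtain ⟨P₂, hP₂⟩ := frat_step p q (pPrimeCore q G) (pPrimeCore_coprime q G) P Q hPQ' (hH Q)
    exact ⟨P₂, Q, hP₂⟩


/-- Let p and q be primes and G a finite group that is p-solvable or q-solvable, in which no q-element has conjugacy class size divisible by p. Then some Sylow p-subgroup of G normalizes some Sylow q-subgroup of G. -/
theorem result {G : Type*} [Group G] [Finite G] (p q : ℕ) [Fact p.Prime] [Fact q.Prime] (hsolv : Cfsg.IsPSolvable p G ∨ Cfsg.IsPSolvable q G)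
    (h : ∀ y : G, (∃ k : ℕ, orderOf y = q ^ k) → ¬ p ∣ (Subgroup.centralizer ({y} : Set G)).index) :
    ∃ (P : Sylow p G) (Q : Sylow q G), (P : Subgroup G) ≤ Subgroup.normalizer ((Q : Subgroup G) : Set G) := by
  classical
  have hp : p.Prime := Fact.out
  have hq : q.Prime := Fact.out
  by_cases hpq : p = q
  · subst hpq
    obtain ⟨P⟩ : Nonempty (Sylow p G) := inferInstance
    exact ⟨P, P, Subgroup.le_normalizer⟩
  have hcent : ∀ (Q : Sylow q G), ∀ y ∈ (Q : Subgroup G), ∃ P : Sylow p G,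
      (P : Subgroup G) ≤ Subgroup.centralizer ({y} : Set G) := by
    intro Q y hy
    have hyq : ∃ k : ℕ, orderOf y = q ^ k := by
      obtain ⟨m, hm⟩ := (IsPGroup.iff_orderOf.mp Q.isPGroup') ⟨y, hy⟩
      exact ⟨m, by rw [← hm]; exact (Subgroup.orderOf_mk y hy).symm⟩
    have hnd := h y hyq
    obtain ⟨P₀⟩ : Nonempty (Sylow p ↥(Subgroup.centralizer ({y} : Set G))) := inferInstance
    have hP1 : IsPGroup p ((P₀ : Subgroup ↥(Subgroup.centralizer ({y} : Set G))).map
        (Subgroup.centralizer ({y} : Set G)).subtype) := P₀.isPGroup'.map _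
    have hP2 : ¬ p ∣ ((P₀ : Subgroup ↥(Subgroup.centralizer ({y} : Set G))).map
        (Subgroup.centralizer ({y} : Set G)).subtype).index := by
      rw [Subgroup.index_map_subtype]
      intro hd
      rcases (Nat.Prime.dvd_mul hp).mp hd with h' | h'
      · exact P₀.not_dvd_index h'
      · exact hnd h'
    refine ⟨hP1.toSylow hP2, ?_⟩
    intro x hx
    have hx' : x ∈ ((P₀ : Subgroup ↥(Subgroup.centralizer ({y} : Set G))).map
        (Subgroup.centralizer ({y} : Set G)).subtype) := hx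
    exact Subgroup.map_subtype_le _ hx'
  rcases hsolv with hsolv | hsolv
  · -- p-solvable
    apply (Cfsg.Agent.S4602.result p q hpq hsolv).mpr
    intro hdvd
    haveI hNn : (pPrimeCore p G).Normal := ppc_normal p G
    obtain ⟨Q⟩ : Nonempty (Sylow q G) := inferInstance
    have hnot : ¬ (Q : Subgroup G) ≤ pPrimeCore p G := by
      intro hQN
      exact Q.not_dvd_index (hdvd.trans (Subgroup.index_dvd_of_le hQN))
    obtain ⟨y, hyQ, hyN⟩ := SetLike.not_le_iff_exists.mp hnot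
    obtain ⟨P, hP⟩ := hcent Q y hyQ
    have hsurj : Function.Surjective (QuotientGroup.mk' (pPrimeCore p G)) :=
      QuotientGroup.mk'_surjective _
    have hsol' : IsPSolvable p (G ⧸ pPrimeCore p G) := isPSolvable_of_surjective _ hsurj hsolv
    have hbot : pPrimeCore p (G ⧸ pPrimeCore p G) = ⊥ := pPrimeCore_quotient_eq_bot p G
    have hC := centralizer_pCore_le_of_pSolvable hsol' hbot
    have hRp : IsPGroup p (pCore p (G ⧸ pPrimeCore p G)) := pCore_isPGroup p _
    have hRP : pCore p (G ⧸ pPrimeCore p G) ≤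
        (P : Subgroup G).map (QuotientGroup.mk' (pPrimeCore p G)) := by
      have := Cfsg.Agent.Lib.helper15.pCore_le_sylow (P.mapSurjective hsurj)
      rwa [Sylow.coe_mapSurjective] at this
    have hx : (QuotientGroup.mk' (pPrimeCore p G)) y ∈ pCore p (G ⧸ pPrimeCore p G) := by
      apply hC
      rw [Subgroup.mem_centralizer_iff]
      intro r hr
      obtain ⟨a, ha, rfl⟩ := hRP hr
      have := Subgroup.mem_centralizer_iff.mp (hP ha) y rfl
      rw [← map_mul, ← map_mul, this]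
    obtain ⟨k, hk⟩ := hRp ⟨_, hx⟩
    have hk' : ((QuotientGroup.mk' (pPrimeCore p G)) y) ^ p ^ k = 1 := by
      have := congrArg Subtype.val hk
      simpa using this
    obtain ⟨m, hm⟩ := (IsPGroup.iff_orderOf.mp Q.isPGroup') ⟨y, hyQ⟩
    have hym : y ^ q ^ m = 1 := by
      have h1 : (⟨y, hyQ⟩ : (Q : Subgroup G)) ^ q ^ m = 1 := by rw [← hm]; exact pow_orderOf_eq_one _
      have := congrArg Subtype.val h1
      simpa using this
    have h1 : (QuotientGroup.mk' (pPrimeCore p G)) y = 1 := by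
      refine Cfsg.Agent.S4602.eq_one_of_pq hp hq hpq _ k m hk' ?_
      rw [← map_pow, hym, map_one]
    exact hyN ((QuotientGroup.eq_one_iff y).mp h1)
  · exact qcase p q hpq _ G rfl hsolv hcent

end Cfsg.Agent.S4601
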