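import Cfsg.Statements.S4620
-- import your own Cfsg.Agent.* helpers here
import Mathlib
import Cfsg.Agent.Lib.helper16.PSolv

set_option autoImplicit false
open scoped Pointwise
open Cfsg

namespace Cfsg.Agent.S4620

open scoped Pointwise

theorem ti_elem {X : Type*} [Group X] (P : Subgroup X)
    (hTI : ∀ g : X, g ∉ Subgroup.normalizer (P : Set X) → P ⊓ (MulAut.conj g • P) = ⊥)
    (g x : X) (hx : x ∈ P) (hgx : g⁻¹ * x * g ∈ P) (hx1 : x ≠ 1) :
    g ∈ Subgroup.normalizer (P : Set X) := by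
  by_contra hg
  have h := hTI g hg
  have : x ∈ P ⊓ (MulAut.conj g • P) := by
    refine Subgroup.mem_inf.2 ⟨hx, ?_⟩
    rw [Subgroup.mem_pointwise_smul_iff_inv_smul_mem]
    simpa [MulAut.smul_def, MulAut.conj_inv_apply] using hgx
  rw [h] at this
  exact hx1 (Subgroup.mem_bot.1 this)

theorem ti_of_elem {X : Type*} [Group X] (P : Subgroup X)
    (hTI : ∀ g x : X, x ∈ P → g⁻¹ * x * g ∈ P → x ≠ 1 → g ∈ Subgroup.normalizer (P : Set X))
    (g : X) (hg : g ∉ Subgroup.normalizer (P : Set X)) : P ⊓ (MulAut.conj g • P) = ⊥ := by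
  rw [eq_bot_iff]
  intro x hx
  rw [Subgroup.mem_bot]
  by_contra hx1
  apply hg
  refine hTI g x (Subgroup.mem_inf.1 hx).1 ?_ hx1
  have := (Subgroup.mem_inf.1 hx).2
  rw [Subgroup.mem_pointwise_smul_iff_inv_smul_mem] at this
  simpa [MulAut.smul_def, MulAut.conj_inv_apply] using this

theorem mem_smul_sylow {X : Type*} [Group X] {p : ℕ} (P : Sylow p X) (g x : X) :
    x ∈ ((g • P : Sylow p X) : Subgroup X) ↔ g⁻¹ * x * g ∈ (P : Subgroup X) := by
  rw [Sylow.coe_subgroup_smul, Subgroup.mem_pointwise_smul_iff_inv_smul_mem]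
  simp [MulAut.smul_def, MulAut.conj_inv_apply]

theorem lemA {X : Type*} [Group X] [Finite X] (p : ℕ) [Fact p.Prime]
    (hOp : Cfsg.pCore p X = ⊥) (hOp' : Cfsg.pPrimeCore p X = ⊥) (P : Sylow p X)
    (hP1 : (P : Subgroup X) ≠ ⊥)
    (hTI : ∀ g x : X, x ∈ (P : Subgroup X) → g⁻¹ * x * g ∈ (P : Subgroup X) → x ≠ 1 →
      g ∈ Subgroup.normalizer ((P : Subgroup X) : Set X)) :
    (∀ K : Subgroup X, K.Normal → K ≠ ⊥ → Subgroup.centralizer (K : Set X) = ⊥) ∧
    ∃ N : Subgroup X, N.Normal ∧ N ≠ ⊥ ∧ (∀ K : Subgroup X, K.Normal → K ≠ ⊥ → N ≤ K) := by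
  have hp := (Fact.out : p.Prime)
  have h_i : ∀ K : Subgroup X, K.Normal → IsPGroup p K → K = ⊥ := by
    intro K hK hKp
    have : K ≤ Cfsg.pCore p X := le_sSup ⟨hK, hKp⟩
    rw [hOp] at this
    exact le_bot_iff.1 this
  have h_ii : ∀ K : Subgroup X, K.Normal → (Nat.card K).Coprime p → K = ⊥ := by
    intro K hK hKp
    have : K ≤ Cfsg.pPrimeCore p X := le_sSup ⟨hK, hKp⟩
    rw [hOp'] at this
    exact le_bot_iff.1 this
  have hpel : ∀ c : X, c ∈ Subgroup.normalizer ((P : Subgroup X) : Set X) →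
      (∃ k, orderOf c = p ^ k) → c ∈ (P : Subgroup X) := by
    rintro c hc ⟨k, hk⟩
    have hz : IsPGroup p (Subgroup.zpowers c) := by
      apply IsPGroup.of_card (n := k)
      rw [Nat.card_zpowers, hk]
    have := hz.inf_normalizer_sylow P
    have hc' : c ∈ Subgroup.zpowers c ⊓ (P : Subgroup X) :=
      this.le (Subgroup.mem_inf.2 ⟨Subgroup.mem_zpowers c, hc⟩)
    exact (Subgroup.mem_inf.1 hc').2
  have hcent : ∀ K : Subgroup X, K.Normal → K ≠ ⊥ → Subgroup.centralizer (K : Set X) = ⊥ := by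
    intro K hK hK1
    have hdvd : p ∣ Nat.card K := by
      by_contra h
      exact hK1 (h_ii K hK ((Nat.coprime_comm).1 ((Nat.Prime.coprime_iff_not_dvd hp).2 h)))
    obtain ⟨x, hxP, hxK, hx1⟩ : ∃ x, x ∈ (P : Subgroup X) ∧ x ∈ K ∧ x ≠ 1 := by
      obtain ⟨y, hy⟩ := exists_prime_orderOf_dvd_card' p hdvd
      have hyo : orderOf (y : X) = p := by rw [Subgroup.orderOf_coe]; exact hy
      have hz : IsPGroup p (Subgroup.zpowers (y : X)) := by
        apply IsPGroup.of_card (n := 1)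
        rw [Nat.card_zpowers, hyo, pow_one]
      obtain ⟨P', hP'⟩ := hz.exists_le_sylow
      obtain ⟨g, hg⟩ := MulAction.exists_smul_eq X P P'
      refine ⟨g⁻¹ * y * g, ?_, ?_, ?_⟩
      · rw [← mem_smul_sylow, hg]
        exact hP' (Subgroup.mem_zpowers _)
      · have := hK.conj_mem _ y.2 g⁻¹
        simpa using this
      · intro h
        have h1 : (y : X) = 1 := by
          have := congrArg (fun t => g * t * g⁻¹) h
          simpa [mul_assoc] using this
        rw [h1, orderOf_one] at hyo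
        exact hp.one_lt.ne hyo
    set C := Subgroup.centralizer (K : Set X) with hC
    have hCn : C.Normal := by
      have := hK
      exact Subgroup.normal_centralizer
    have hCN : C ≤ Subgroup.normalizer ((P : Subgroup X) : Set X) := by
      intro c hc
      apply hTI c x hxP _ hx1
      have h1 : c⁻¹ * x * c = x := by
        have := hc x hxK
        rw [mul_assoc, this, inv_mul_cancel_left]
      rw [h1]; exact hxP
    set D := C ⊓ (P : Subgroup X) with hD
    have hDn : D.Normal := by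
      constructor
      intro d hd g
      have hdC : g * d * g⁻¹ ∈ C := hCn.conj_mem d hd.1 g
      refine ⟨hdC, hpel _ (hCN hdC) ?_⟩
      obtain ⟨k, hk⟩ := (IsPGroup.iff_orderOf.1 P.2) ⟨d, hd.2⟩
      refine ⟨k, ?_⟩
      rw [← hk, Subgroup.orderOf_mk]
      exact MulEquiv.orderOf_eq (MulAut.conj g) d
    have hD1 : D = ⊥ := h_i D hDn (P.2.to_le inf_le_right)
    apply h_ii C hCn
    rw [Nat.coprime_comm, Nat.Prime.coprime_iff_not_dvd hp]
    intro hdvdC
    obtain ⟨c, hc⟩ := exists_prime_orderOf_dvd_card' p hdvdC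
    have hco : orderOf (c : X) = p := by rw [Subgroup.orderOf_coe]; exact hc
    have hcP : (c : X) ∈ (P : Subgroup X) := hpel _ (hCN c.2) ⟨1, by rw [hco, pow_one]⟩
    have hcD : (c : X) ∈ D := ⟨c.2, hcP⟩
    rw [hD1, Subgroup.mem_bot] at hcD
    rw [hcD, orderOf_one] at hco
    exact hp.one_lt.ne hco
  refine ⟨hcent, ?_⟩
  obtain ⟨N, hN⟩ := exists_minimal_of_wellFoundedLT
    (fun K : Subgroup X => K.Normal ∧ K ≠ ⊥) ⟨⊤, inferInstance, by
      intro h
      apply hP1
      rw [eq_bot_iff, ← h]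
      exact le_top⟩
  refine ⟨N, hN.1.1, hN.1.2, ?_⟩
  intro K hK hK1
  have hNK : (N ⊓ K).Normal := by
    have := hN.1.1
    have := hK
    infer_instance
  have hNK1 : N ⊓ K ≠ ⊥ := by
    intro h
    apply hK1
    have hle : K ≤ Subgroup.centralizer (N : Set X) := by
      intro k hk n hn
      exact (Subgroup.commute_of_normal_of_disjoint N K hN.1.1 hK (disjoint_iff.2 h) n k hn hk).eq
    rw [hcent N hN.1.1 hN.1.2] at hle
    exact le_bot_iff.1 hle
  have := hN.2 ⟨hNK, hNK1⟩ inf_le_left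
  exact le_trans this inf_le_right

theorem aux {H : Type*} [Group H] [Finite H] (p : ℕ) [Fact p.Prime] (hOp : Cfsg.pCore p H = ⊥) (hOp' : Cfsg.pPrimeCore p H = ⊥) (P : Sylow p H) (hP1 : (P : Subgroup H) ≠ ⊥)
    (hTI : ∀ g : H, g ∉ Subgroup.normalizer ((P : Subgroup H) : Set H) → (P : Subgroup H) ⊓ (MulAut.conj g • (P : Subgroup H)) = ⊥) :
    ∃ N : Subgroup H, N.Normal ∧ N ≠ ⊥ ∧ (∀ K : Subgroup H, K.Normal → K ≠ ⊥ → N ≤ K) ∧
      IsSimpleGroup N ∧ ¬ IsMulCommutative N ∧ Subgroup.centralizer (N : Set H) = ⊥ ∧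
      ∀ Q : Sylow p N, (Q : Subgroup N) ≠ ⊥ ∧
        ∀ n : N, n ∉ Subgroup.normalizer ((Q : Subgroup N) : Set N) → (Q : Subgroup N) ⊓ (MulAut.conj n • (Q : Subgroup N)) = ⊥ := by
  have hp := (Fact.out : p.Prime)
  have hTIe := ti_elem (P : Subgroup H) hTI
  obtain ⟨hcent, N, hNn, hN1, hNmin⟩ := lemA p hOp hOp' P hP1 hTIe
  have := hNn
  have hOpN : Cfsg.pCore p N = ⊥ := by
    have := Cfsg.Agent.Lib.helper16.map_pCore_le_of_normal (p := p) N
    rw [hOp, le_bot_iff, Subgroup.map_eq_bot_iff_of_injective _ N.subtype_injective] at this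
    exact this
  have hOpN' : Cfsg.pPrimeCore p N = ⊥ := by
    have := Cfsg.Agent.Lib.helper16.map_pPrimeCore_le_of_normal (p := p) N
    rw [hOp', le_bot_iff, Subgroup.map_eq_bot_iff_of_injective _ N.subtype_injective] at this
    exact this
  have hdvd : p ∣ Nat.card N := by
    by_contra h
    have : N ≤ Cfsg.pPrimeCore p H :=
      le_sSup ⟨hNn, (Nat.coprime_comm).1 ((Nat.Prime.coprime_iff_not_dvd hp).2 h)⟩
    rw [hOp'] at this
    exact hN1 (le_bot_iff.1 this)
  have hTIall : ∀ (P' : Sylow p H) (h x : H), x ∈ (P' : Subgroup H) →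
      h⁻¹ * x * h ∈ (P' : Subgroup H) → x ≠ 1 →
      h ∈ Subgroup.normalizer ((P' : Subgroup H) : Set H) := by
    intro P' h x hx hhx hx1
    obtain ⟨g, hg⟩ := MulAction.exists_smul_eq H P P'
    subst hg
    rw [mem_smul_sylow] at hx hhx
    have h1 : g⁻¹ * h * g ∈ Subgroup.normalizer ((P : Subgroup H) : Set H) := by
      apply hTIe (g⁻¹ * h * g) (g⁻¹ * x * g) hx _
      · intro h0
        apply hx1
        have := congrArg (fun t => g * t * g⁻¹) h0
        simpa [mul_assoc] using this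
      · have : (g⁻¹ * h * g)⁻¹ * (g⁻¹ * x * g) * (g⁻¹ * h * g) = g⁻¹ * (h⁻¹ * x * h) * g := by
          group
        rw [this]; exact hhx
    have h1' : (g⁻¹ * h * g) • P = P := Sylow.smul_eq_iff_mem_normalizer.2 h1
    refine Sylow.smul_eq_iff_mem_normalizer.1 ?_
    have h2 : h * g = g * (g⁻¹ * h * g) := by group
    rw [← mul_smul, h2, mul_smul, h1']
  have hQ : ∀ Q : Sylow p N, (Q : Subgroup N) ≠ ⊥ ∧ ∀ n x : N, x ∈ (Q : Subgroup N) →
      n⁻¹ * x * n ∈ (Q : Subgroup N) → x ≠ 1 →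
      n ∈ Subgroup.normalizer ((Q : Subgroup N) : Set N) := by
    intro Q
    refine ⟨Q.ne_bot_of_dvd_card hdvd, ?_⟩
    intro n x hx hnx hx1
    obtain ⟨P', hP'⟩ := (Q.2.map N.subtype).exists_le_sylow
    have hQeq : (P' : Subgroup H).subgroupOf N = (Q : Subgroup N) := by
      apply Q.3 (P'.2.comap_subtype)
      intro y hy
      rw [Subgroup.mem_comap]
      exact hP' ⟨y, hy, rfl⟩
    have h1 : (n : H) ∈ Subgroup.normalizer ((P' : Subgroup H) : Set H) := by
      apply hTIall P' (n : H) (x : H)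
      · exact hP' ⟨x, hx, rfl⟩
      · exact hP' ⟨n⁻¹ * x * n, hnx, by simp⟩
      · intro h0
        exact hx1 (Subtype.ext h0)
    rw [Subgroup.mem_normalizer_iff] at h1 ⊢
    intro y
    rw [← hQeq, Subgroup.mem_subgroupOf, Subgroup.mem_subgroupOf]
    simpa using h1 (y : H)
  obtain ⟨Q₀⟩ : Nonempty (Sylow p N) := inferInstance
  obtain ⟨-, S, hSn, hS1, hSmin⟩ := lemA p hOpN hOpN' Q₀ (hQ Q₀).1 (hQ Q₀).2
  have hSchar : S.Characteristic := by
    rw [Subgroup.characteristic_iff_le_map]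
    intro φ
    apply hSmin
    · exact hSn.map φ.toMonoidHom φ.surjective
    · rw [Ne, Subgroup.map_eq_bot_iff_of_injective _ φ.injective]; exact hS1
  have hS'n : (S.map N.subtype).Normal := ConjAct.normal_of_characteristic_of_normal
  have hS'1 : S.map N.subtype ≠ ⊥ := by
    rw [Ne, Subgroup.map_eq_bot_iff_of_injective _ N.subtype_injective]; exact hS1
  have hNS := hNmin _ hS'n hS'1
  have hStop : S = ⊤ := by
    rw [eq_top_iff]
    intro n _
    obtain ⟨s, hs, hsn⟩ := hNS n.2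
    have : s = n := Subtype.ext hsn
    exact this ▸ hs
  have hsimple : IsSimpleGroup N := by
    have hnt : Nontrivial N := (Subgroup.nontrivial_iff_ne_bot N).2 hN1
    refine { toNontrivial := hnt, eq_bot_or_eq_top_of_normal := ?_ }
    intro K hK
    by_cases hK1 : K = ⊥
    · exact Or.inl hK1
    · right
      exact top_le_iff.1 (hStop ▸ hSmin K hK hK1)
  refine ⟨N, hNn, hN1, hNmin, hsimple, ?_, hcent N hNn hN1, ?_⟩
  · intro hcomm
    have : N ≤ Subgroup.centralizer (N : Set H) := by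
      intro a ha b hb
      have := hcomm.is_comm.comm (⟨b, hb⟩ : N) ⟨a, ha⟩
      exact congrArg Subtype.val this
    rw [hcent N hNn hN1] at this
    exact hN1 (le_bot_iff.1 this)
  · intro Q
    exact ⟨(hQ Q).1, ti_of_elem _ (hQ Q).2⟩


/-- Let H be a finite group with no nontrivial normal p-subgroup and no nontrivial normal subgroup of order prime to p, whose Sylow p-subgroup P is nontrivial and a trivial-intersection set (P meets its conjugates by elements outside N_H(P) trivially). Then H has a unique minimal normal subgroup N; N is non-abelian simple with trivial centralizer in H (so H embeds in Aut(N)), and a Sylow p-subgroup of N is again a nontrivial trivial-intersection set in N. -/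
theorem result {H : Type*} [Group H] [Finite H] (p : ℕ) [Fact p.Prime] (hOp : Cfsg.pCore p H = ⊥) (hOp' : Cfsg.pPrimeCore p H = ⊥) (P : Sylow p H) (hP1 : (P : Subgroup H) ≠ ⊥)
    (hTI : ∀ g : H, g ∉ Subgroup.normalizer ((P : Subgroup H) : Set H) → (P : Subgroup H) ⊓ (MulAut.conj g • (P : Subgroup H)) = ⊥) :
    ∃ N : Subgroup H, N.Normal ∧ N ≠ ⊥ ∧ (∀ K : Subgroup H, K.Normal → K ≠ ⊥ → N ≤ K) ∧
      IsSimpleGroup N ∧ ¬ IsMulCommutative N ∧ Subgroup.centralizer (N : Set H) = ⊥ ∧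
      ∀ Q : Sylow p N, (Q : Subgroup N) ≠ ⊥ ∧
        ∀ n : N, n ∉ Subgroup.normalizer ((Q : Subgroup N) : Set N) → (Q : Subgroup N) ⊓ (MulAut.conj n • (Q : Subgroup N)) = ⊥ := by
  exact aux p hOp hOp' P hP1 hTI

end Cfsg.Agent.S4620
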