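import Cfsg.Statements.S4670
import Mathlib
import Cfsg.Agent.Lib.helper5.BrauerCorr
import Cfsg.Agent.S0920

set_option autoImplicit false
open Cfsg

namespace Cfsg.Agent.S4670

open Cfsg.Agent.Lib.helper5 Cfsg.Agent.Lib.helper23 Cfsg.Agent.Lib.helper24
open scoped ComplexConjugate

theorem isPBlock_image_irrMap.{v} {K K' : Type v} [Group K] [Group K'] {M : Ideal Cfsg.AlgInt}
    (ψ : K' ≃* K) {b : Set (Cfsg.IrrCharacter K)} (hb : Cfsg.IsPBlock M b) :
    Cfsg.IsPBlock M (irrMap ψ '' b) := by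
  obtain ⟨θ₀, rfl⟩ := hb
  exact ⟨irrMap ψ θ₀, irrMap_image_blockOf M ψ θ₀⟩

theorem mli_comb {M : Ideal Cfsg.AlgInt} (hMp : M.IsPrime) {a b c d x : ℂ}
    (ha : Cfsg.MemLocalIdeal M a) (hb : Cfsg.MemLocalIdeal M b) (hc : Cfsg.MemLocalIdeal M c)
    (hd : Cfsg.MemLocalIdeal M d) (hx : x = b - a + (c - d)) : Cfsg.MemLocalIdeal M x := by
  rw [hx]
  exact memLocalIdeal_add hMp (memLocalIdeal_sub hMp hb ha) (memLocalIdeal_sub hMp hc hd)


/-- Fix a prime p and a maximal ideal M of the algebraic integers containing p. Let P be a p-subgroup of the finite group G and H a subgroup containing N_G(P). For every p-block B of G with defect group P there is exactly one p-block c of H with defect group P whose idempotent agrees with that of B, modulo the local ideal at M, at every element of C_G(P) (their Brauer-map images at P coincide); and every p-block c of H with defect group P arises in this way from exactly one such B. This is the Brauer correspondence over H. -/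
theorem result {G : Type*} [Group G] [Fintype G] (p : ℕ) [Fact p.Prime] (M : Ideal Cfsg.AlgInt) (hM : Cfsg.IsPModular p M) (P H : Subgroup G) (hP : IsPGroup p P) (hH : Subgroup.normalizer (P : Set G) ≤ H) : (∀ B : Set (Cfsg.IrrCharacter G), Cfsg.IsPBlock M B → Cfsg.IsDefectGroup p M B P → ∃! c : Set (Cfsg.IrrCharacter H), Cfsg.IsPBlock M c ∧ Cfsg.IsDefectGroup p M c (P.subgroupOf H) ∧ ∀ x : G, x ∈ Subgroup.centralizer (P : Set G) → Cfsg.MemLocalIdeal M (Cfsg.blockCoeff B x - Cfsg.subgroupBlockCoeff H c x)) ∧ (∀ c : Set (Cfsg.IrrCharacter H), Cfsg.IsPBlock M c → Cfsg.IsDefectGroup p M c (P.subgroupOf H) → ∃! B : Set (Cfsg.IrrCharacter G), Cfsg.IsPBlock M B ∧ Cfsg.IsDefectGroup p M B P ∧ ∀ x : G, x ∈ Subgroup.centralizer (P : Set G) → Cfsg.MemLocalIdeal M (Cfsg.blockCoeff B x - Cfsg.subgroupBlockCoeff H c x)) := by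
  classical
  haveI := Fintype.ofFinite (Cfsg.IrrCharacter G)
  haveI : Fintype H := Fintype.ofFinite H
  haveI := Fintype.ofFinite (Cfsg.IrrCharacter H)
  have hMp := isPModular_isPrime hM
  have hPN : P ≤ Subgroup.normalizer (P : Set G) := Subgroup.le_normalizer
  have hPH : P ≤ H := hPN.trans hH
  have hPHp : IsPGroup p (P.subgroupOf H) := hP.comap_subtype
  have hmemN : ∀ h : H, h ∈ Subgroup.normalizer ((P.subgroupOf H : Subgroup H) : Set H)
      ↔ (h : G) ∈ Subgroup.normalizer (P : Set G) := by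
    intro h
    rw [Subgroup.mem_normalizer_iff, Subgroup.mem_normalizer_iff]
    constructor
    · intro hh g
      by_cases hg : g ∈ H
      · have := hh ⟨g, hg⟩
        rw [Subgroup.mem_subgroupOf, Subgroup.mem_subgroupOf] at this
        exact this
      · constructor
        · intro hgP
          exact absurd (hPH hgP) hg
        · intro hgP
          exfalso
          apply hg
          have h1 : (h : G) * g * (h : G)⁻¹ ∈ H := hPH hgP
          have h2 := H.mul_mem (H.mul_mem (H.inv_mem h.2) h1) h.2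
          have e : (h : G)⁻¹ * ((h : G) * g * (h : G)⁻¹) * (h : G) = g := by group
          rwa [e] at h2
    · intro hh x
      rw [Subgroup.mem_subgroupOf, Subgroup.mem_subgroupOf]
      exact hh (x : G)
  let e : ↥(Subgroup.normalizer ((P.subgroupOf H : Subgroup H) : Set H))
      ≃* ↥(Subgroup.normalizer (P : Set G)) :=
    { toFun := fun x => ⟨((x : H) : G), (hmemN x.1).mp x.2⟩
      invFun := fun y => ⟨⟨(y : G), hH y.2⟩, (hmemN _).mpr y.2⟩
      left_inv := fun x => rfl
      right_inv := fun y => rfl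
      map_mul' := fun x y => rfl }
  have hcomap1 : ((P.subgroupOf (Subgroup.normalizer (P : Set G))).comap e.toMonoidHom)
      = (P.subgroupOf H).subgroupOf (Subgroup.normalizer ((P.subgroupOf H : Subgroup H) : Set H)) := by
    ext x
    rfl
  have hcomap2 : (((P.subgroupOf H).subgroupOf
      (Subgroup.normalizer ((P.subgroupOf H : Subgroup H) : Set H))).comap e.symm.toMonoidHom)
      = P.subgroupOf (Subgroup.normalizer (P : Set G)) := by
    ext x
    rfl
  have hcentH : ∀ (x : G) (hx : x ∈ H), x ∈ Subgroup.centralizer (P : Set G) →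
      (⟨x, hx⟩ : H) ∈ Subgroup.centralizer ((P.subgroupOf H : Subgroup H) : Set H) := by
    intro x hx hxC
    rw [Subgroup.mem_centralizer_iff]
    intro y hy
    apply Subtype.ext
    exact Subgroup.mem_centralizer_iff.mp hxC (y : G) hy
  have hcentG : ∀ h : H, h ∈ Subgroup.centralizer ((P.subgroupOf H : Subgroup H) : Set H) →
      (h : G) ∈ Subgroup.centralizer (P : Set G) := by
    intro h hh
    rw [Subgroup.mem_centralizer_iff]
    intro y hy
    have := Subgroup.mem_centralizer_iff.mp hh ⟨y, hPH hy⟩ hy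
    exact congrArg Subtype.val this
  obtain ⟨fmtG1, fmtG2⟩ := Cfsg.Agent.S0920.result p M hM P hP
  obtain ⟨fmtH1, fmtH2⟩ := Cfsg.Agent.S0920.result p M hM (P.subgroupOf H) hPHp
  -- the basic congruence between corresponding blocks
  have hrelAll : ∀ (B : Set (Cfsg.IrrCharacter G))
      (b : Set (Cfsg.IrrCharacter (Subgroup.normalizer (P : Set G))))
      (b' : Set (Cfsg.IrrCharacter (Subgroup.normalizer ((P.subgroupOf H : Subgroup H) : Set H))))
      (c : Set (Cfsg.IrrCharacter H)),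
      Cfsg.IsPBlock M b → Cfsg.IsDefectGroup p M b (P.subgroupOf (Subgroup.normalizer (P : Set G))) →
      Cfsg.IsInducedBlock M (Subgroup.normalizer (P : Set G)) b B →
      Cfsg.IsPBlock M b' → Cfsg.IsDefectGroup p M b' ((P.subgroupOf H).subgroupOf
        (Subgroup.normalizer ((P.subgroupOf H : Subgroup H) : Set H))) →
      Cfsg.IsInducedBlock M (Subgroup.normalizer ((P.subgroupOf H : Subgroup H) : Set H)) b' c →
      (∀ n, Cfsg.blockCoeff b' n = Cfsg.blockCoeff b (e n)) →
      ∀ x : G, x ∈ Subgroup.centralizer (P : Set G) →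
        Cfsg.MemLocalIdeal M (Cfsg.blockCoeff B x - Cfsg.subgroupBlockCoeff H c x) := by
    intro B b b' c hb hbP hbB hb' hb'P hb'c hbb x hx
    have hxN : x ∈ Subgroup.normalizer (P : Set G) := Subgroup.centralizer_le_normalizer _ hx
    have hxH : x ∈ H := hH hxN
    rw [subgroupBlockCoeff_of_mem H c hxH]
    have h1 := (corr_coeff hM P hP B b hb hbP hbB).1 x hx
    have h2 := (corr_coeff hM (P.subgroupOf H) hPHp c b' hb' hb'P hb'c).1 ⟨x, hxH⟩
      (hcentH x hxH hx)
    rw [hbb] at h2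
    have h2' : Cfsg.MemLocalIdeal M (Cfsg.blockCoeff c ⟨x, hxH⟩
        - Cfsg.blockCoeff b ⟨x, Subgroup.centralizer_le_normalizer _ hx⟩) := h2
    have := memLocalIdeal_sub hMp h1 h2'
    rw [sub_sub_sub_cancel_right] at this
    exact this
  constructor
  · intro B hB hBP
    obtain ⟨b, ⟨hb, hbP, hbB⟩, -⟩ := fmtG2 B hB hBP
    have hb' : Cfsg.IsPBlock M (irrMap e '' b) := isPBlock_image_irrMap e hb
    have hb'P : Cfsg.IsDefectGroup p M (irrMap e '' b) ((P.subgroupOf H).subgroupOf
        (Subgroup.normalizer ((P.subgroupOf H : Subgroup H) : Set H))) := by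
      have := isDefectGroup_irrMap (p := p) (M := M) e b _ hbP
      rwa [hcomap1] at this
    obtain ⟨c, hc, hcP, hb'c⟩ := fmtH1 _ hb' hb'P
    have hrel := hrelAll B b _ c hb hbP hbB hb' hb'P hb'c (fun n => blockCoeff_image_irrMap e b n)
    refine ⟨c, ⟨hc, hcP, hrel⟩, ?_⟩
    rintro c₁ ⟨hc₁, hc₁P, hrel₁⟩
    obtain ⟨b₁', ⟨hb₁', hb₁'P, hb₁'c₁⟩, -⟩ := fmtH2 c₁ hc₁ hc₁P
    have hbb : b₁' = irrMap e '' b := by
      apply block_eq_of_congr hMp hb₁' hb'
      intro n
      by_cases hn : (n : H) ∈ Subgroup.centralizer ((P.subgroupOf H : Subgroup H) : Set H)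
      · have hxC := hcentG _ hn
        have t1 := (corr_coeff hM (P.subgroupOf H) hPHp c₁ b₁' hb₁' hb₁'P hb₁'c₁).1 n.1 hn
        have t2 := (corr_coeff hM (P.subgroupOf H) hPHp c _ hb' hb'P hb'c).1 n.1 hn
        have r1 := hrel₁ _ hxC
        have r2 := hrel _ hxC
        rw [subgroupBlockCoeff_of_mem H _ (n : H).2] at r1 r2
        exact mli_comb hMp t1 t2 r2 r1 (by ring)
      · exact memLocalIdeal_sub hMp
          ((corr_coeff hM (P.subgroupOf H) hPHp c₁ b₁' hb₁' hb₁'P hb₁'c₁).2 n hn)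
          ((corr_coeff hM (P.subgroupOf H) hPHp c _ hb' hb'P hb'c).2 n hn)
    rw [hbb] at hb₁'c₁
    exact induced_unique hMp hb₁'c₁ hb'c
  · intro c hc hcP
    obtain ⟨b', ⟨hb', hb'P, hb'c⟩, -⟩ := fmtH2 c hc hcP
    have hb : Cfsg.IsPBlock M (irrMap e.symm '' b') := isPBlock_image_irrMap e.symm hb'
    have hbP : Cfsg.IsDefectGroup p M (irrMap e.symm '' b')
        (P.subgroupOf (Subgroup.normalizer (P : Set G))) := by
      have := isDefectGroup_irrMap (p := p) (M := M) e.symm b' _ hb'P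
      rwa [hcomap2] at this
    obtain ⟨B, hB, hBP, hbB⟩ := fmtG1 _ hb hbP
    have hbb : ∀ n, Cfsg.blockCoeff b' n = Cfsg.blockCoeff (irrMap e.symm '' b') (e n) := by
      intro n
      rw [blockCoeff_image_irrMap e.symm b' (e n), MulEquiv.symm_apply_apply]
    have hrel := hrelAll B _ b' c hb hbP hbB hb' hb'P hb'c hbb
    refine ⟨B, ⟨hB, hBP, hrel⟩, ?_⟩
    rintro B₁ ⟨hB₁, hB₁P, hrel₁⟩
    obtain ⟨b₁, ⟨hb₁, hb₁P, hb₁B₁⟩, -⟩ := fmtG2 B₁ hB₁ hB₁P
    have hbb1 : b₁ = irrMap e.symm '' b' := by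
      apply block_eq_of_congr hMp hb₁ hb
      intro n
      by_cases hn : (n : G) ∈ Subgroup.centralizer (P : Set G)
      · have s1 := (corr_coeff hM P hP B₁ b₁ hb₁ hb₁P hb₁B₁).1 n.1 hn
        have s2 := (corr_coeff hM P hP B _ hb hbP hbB).1 n.1 hn
        have r1 := hrel₁ _ hn
        have r2 := hrel _ hn
        exact mli_comb hMp s1 s2 r1 r2 (by ring)
      · exact memLocalIdeal_sub hMp
          ((corr_coeff hM P hP B₁ b₁ hb₁ hb₁P hb₁B₁).2 n hn)
          ((corr_coeff hM P hP B _ hb hbP hbB).2 n hn)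
    rw [hbb1] at hb₁B₁
    exact induced_unique hMp hb₁B₁ hbB

end Cfsg.Agent.S4670
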