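import Cfsg.Statements.S4671
import Mathlib
import Cfsg.Agent.Lib.helper5.Knorr4

set_option autoImplicit false
open Cfsg

namespace Cfsg.Agent.S4671

open Cfsg.Agent.Lib.helper5 Cfsg.Agent.Lib.helper23 Cfsg.Agent.Lib.helper24
open scoped ComplexConjugate

/-- Fix a prime p and a maximal ideal M of the algebraic integers containing p. Let N be a normal subgroup of the finite group G, B a p-block of G and P a defect group of B. Then there is a p-block c of N, stable under conjugation by P and covered by B (some member of B has a constituent in c on restriction to N), such that P ∩ N is a defect group of c. -/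
theorem result {G : Type*} [Group G] [Fintype G] (p : ℕ) [Fact p.Prime] (M : Ideal Cfsg.AlgInt) (hM : Cfsg.IsPModular p M) (N : Subgroup G) [N.Normal] [Fintype N] (B : Set (Cfsg.IrrCharacter G)) (hB : Cfsg.IsPBlock M B) (P : Subgroup G) (hP : Cfsg.IsDefectGroup p M B P) : ∃ c : Set (Cfsg.IrrCharacter N), Cfsg.IsPBlock M c ∧ (∀ x ∈ P, Cfsg.StabilizesBlock N c x) ∧ (∃ χ ∈ B, ∃ θ ∈ c, Cfsg.classInner (fun n : N => (χ : G → ℂ) n) (θ : N → ℂ) ≠ 0) ∧ Cfsg.IsDefectGroup p M c ((P ⊓ N).subgroupOf N) := by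
  classical
  haveI := Fintype.ofFinite (Cfsg.IrrCharacter G)
  haveI := Fintype.ofFinite (Cfsg.IrrCharacter N)
  have hMp := isPModular_isPrime hM
  obtain ⟨χ₀, rfl⟩ := hB
  obtain ⟨θ, hθ⟩ := exists_constituent_restrict N χ₀
  have hcov : ∃ χ ∈ Cfsg.blockOf M χ₀.1, ∃ θ' ∈ Cfsg.blockOf M θ.1,
      Cfsg.classInner (fun n : N => χ.1 n) θ'.1 ≠ 0 :=
    ⟨χ₀, mem_blockOf_self hMp.ne_top χ₀, θ, mem_blockOf_self hMp.ne_top θ, hθ⟩
  obtain ⟨P₁, hP₁, hP₁T, hdef⟩ := knorr_exists hM N (Cfsg.blockOf M θ.1) ⟨θ, rfl⟩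
    (Cfsg.blockOf M χ₀.1) ⟨χ₀, rfl⟩ hcov
  obtain ⟨g, hg⟩ := Cfsg.Agent.Lib.helper22.defectGroup_conj_of hM χ₀ hP₁ hP
  refine ⟨irrMap (MulAut.conjNormal g⁻¹ : N ≃* N) '' Cfsg.blockOf M θ.1,
    isPBlock_image_irrMap _ ⟨θ, rfl⟩, ?_, ?_, ?_⟩
  · intro x hx
    rw [Cfsg.Agent.Lib.helper5.stabilizesBlock_iff]
    rintro _ ⟨θ₁, hθ₁, rfl⟩
    rw [hg, mem_map_conj] at hx
    have hu : (g⁻¹ * x * g)⁻¹ ∈ stabSub N (isPModular_isPrime hM) (Cfsg.blockOf M θ.1) ⟨θ, rfl⟩ :=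
      Subgroup.inv_mem _ (hP₁T hx)
    have h1 := hu θ₁ hθ₁
    refine ⟨Cfsg.Agent.Lib.helper5.conjIrr N (g⁻¹ * x * g)⁻¹ θ₁, h1, ?_⟩
    apply Subtype.ext
    funext n
    show θ₁.1 ⟨(g⁻¹ * x * g)⁻¹ * (((MulAut.conjNormal g⁻¹ : N ≃* N) n : N) : G)
        * (g⁻¹ * x * g)⁻¹⁻¹, _⟩
      = θ₁.1 ((MulAut.conjNormal g⁻¹ : N ≃* N) ⟨x⁻¹ * n * x⁻¹⁻¹, _⟩)
    refine congrArg θ₁.1 (Subtype.ext ?_)
    show (g⁻¹ * x * g)⁻¹ * (g⁻¹ * (n : G) * g⁻¹⁻¹) * (g⁻¹ * x * g)⁻¹⁻¹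
      = g⁻¹ * (x⁻¹ * (n : G) * x⁻¹⁻¹) * g⁻¹⁻¹
    group
  · refine ⟨χ₀, mem_blockOf_self hMp.ne_top χ₀, irrMap (MulAut.conjNormal g⁻¹ : N ≃* N) θ,
      ⟨θ, mem_blockOf_self hMp.ne_top θ, rfl⟩, ?_⟩
    have h := constituent_conjIrr N χ₀ θ g⁻¹
    have e : irrMap (MulAut.conjNormal g⁻¹ : N ≃* N) θ = Cfsg.Agent.Lib.helper5.conjIrr N g⁻¹ θ := rfl
    rw [e, h]
    exact hθ
  · have h := isDefectGroup_irrMap (p := p) (M := M) (MulAut.conjNormal g⁻¹ : N ≃* N)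
      (Cfsg.blockOf M θ.1) _ hdef
    have heq : ((P₁ ⊓ N).subgroupOf N).comap (MulAut.conjNormal g⁻¹ : N ≃* N).toMonoidHom
        = (P ⊓ N).subgroupOf N := by
      ext n
      rw [Subgroup.mem_comap, Subgroup.mem_subgroupOf, Subgroup.mem_subgroupOf, Subgroup.mem_inf,
        Subgroup.mem_inf, hg, mem_map_conj]
      have hc : (((MulAut.conjNormal g⁻¹ : N ≃* N).toMonoidHom n : N) : G)
          = g⁻¹ * (n : G) * g := by
        show g⁻¹ * (n : G) * g⁻¹⁻¹ = g⁻¹ * (n : G) * g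
        rw [inv_inv]
      rw [hc]
      constructor
      · rintro ⟨h1, -⟩
        exact ⟨h1, n.2⟩
      · rintro ⟨h1, -⟩
        refine ⟨h1, ?_⟩
        rw [← hc]
        exact SetLike.coe_mem _
    rw [heq] at h
    exact h

end Cfsg.Agent.S4671
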