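import Cfsg.Statements.S4672
import Mathlib
import Cfsg.Agent.Lib.helper5.FongReynolds
import Cfsg.Agent.S0966
import Cfsg.Agent.S0970

set_option autoImplicit false
open Cfsg

namespace Cfsg.Agent.S4672

open Cfsg.Agent.Lib.helper5 Cfsg.Agent.Lib.helper23 Cfsg.Agent.Lib.helper24
open scoped ComplexConjugate

/-- Fix a prime p and a maximal ideal M of the algebraic integers containing p. Let N be a normal subgroup of the finite group G of p-power index and c a p-block of N stable under conjugation by G. Then the idempotent of c is a block idempotent of G: there is a p-block B of G whose idempotent coefficients agree with those of c on N and vanish off N; and for every defect group P of such a block B, G = NP and P ∩ N is a defect group of c. -/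
theorem result {G : Type*} [Group G] [Fintype G] (p : ℕ) [Fact p.Prime] (M : Ideal Cfsg.AlgInt) (hM : Cfsg.IsPModular p M) (N : Subgroup G) [N.Normal] (hN : ∃ k : ℕ, N.index = p ^ k) (c : Set (Cfsg.IrrCharacter N)) (hc : Cfsg.IsPBlock M c) (hst : ∀ x : G, Cfsg.StabilizesBlock N c x) : (∃ B : Set (Cfsg.IrrCharacter G), Cfsg.IsPBlock M B ∧ ∀ g : G, Cfsg.blockCoeff B g = Cfsg.subgroupBlockCoeff N c g) ∧ ∀ B : Set (Cfsg.IrrCharacter G), Cfsg.IsPBlock M B → (∀ g : G, Cfsg.blockCoeff B g = Cfsg.subgroupBlockCoeff N c g) → ∀ P : Subgroup G, Cfsg.IsDefectGroup p M B P → N ⊔ P = ⊤ ∧ Cfsg.IsDefectGroup p M c ((P ⊓ N).subgroupOf N) := by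
  classical
  haveI := Fintype.ofFinite (Cfsg.IrrCharacter G)
  haveI : Fintype N := Fintype.ofFinite N
  haveI := Fintype.ofFinite (Cfsg.IrrCharacter N)
  have hMp := isPModular_isPrime hM
  have hp : p.Prime := Fact.out
  have hNn : N.Normal := inferInstance
  have hfwd : ∀ (g : G) (ψ : Cfsg.IrrCharacter N), ψ ∈ c → conjIrr N g ψ ∈ c := by
    intro g ψ hψ
    obtain ⟨-, h⟩ := hst g⁻¹
    obtain ⟨χ', hχ', hconj⟩ := h ψ hψ
    have : conjIrr N g ψ = χ' := by
      apply Subtype.ext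
      funext n
      rw [conjIrr_val]
      symm
      exact hconj ⟨g * n * g⁻¹, hNn.conj_mem n n.2 g⟩ n (by simp [mul_assoc])
    rw [this]
    exact hχ'
  have hinv' : ∀ (g : G) (ψ : Cfsg.IrrCharacter N), conjIrr N g ψ ∈ c ↔ ψ ∈ c := by
    intro g ψ
    refine ⟨fun h => ?_, hfwd g ψ⟩
    have h2 := hfwd g⁻¹ _ h
    rw [← conjIrr_mul, mul_inv_cancel, conjIrr_one] at h2
    exact h2
  have hw : ∀ (g : G) (ψ : Cfsg.IrrCharacter N),
      c.indicator (fun _ => (1 : ℂ)) (conjIrr N g ψ) = c.indicator (fun _ => (1 : ℂ)) ψ := by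
    intro g ψ
    by_cases hψ : ψ ∈ c
    · rw [Set.indicator_of_mem hψ, Set.indicator_of_mem ((hinv' g ψ).mpr hψ)]
    · rw [Set.indicator_of_notMem hψ, Set.indicator_of_notMem (fun h => hψ ((hinv' g ψ).mp h))]
  -- the unique block covering c
  obtain ⟨B₀, ⟨hB₀, hcov₀⟩, huniq⟩ := Cfsg.Agent.S0966.result p M hM N hN c hc
  have hB₀eq : B₀ = cov N c := by
    ext χ
    constructor
    · intro hχ
      exact cover_all_G N hMp hc B₀ hB₀ hcov₀ χ hχ
    · rintro ⟨θ, hθ, hne⟩
      have h1 : Cfsg.blockOf M χ.1 = B₀ :=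
        huniq _ ⟨⟨χ, rfl⟩, χ, mem_blockOf_self hMp.ne_top χ, θ, hθ, hne⟩
      rw [← h1]
      exact mem_blockOf_self hMp.ne_top χ
  have hcoef : ∀ g : G, Cfsg.blockCoeff (cov N c) g = Cfsg.subgroupBlockCoeff N c g := by
    intro g
    unfold Cfsg.subgroupBlockCoeff
    by_cases hg : g ∈ N
    · rw [dif_pos hg]
      exact blockCoeff_cov N c hinv' ⟨g, hg⟩
    · rw [dif_neg hg, ← coef_indicator, ← coord_extend_indicator N c hinv',
        coef_coord _ (isClassFunction_extend_coef N _ hw), extendByZero_apply_not_mem N _ hg]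
  refine ⟨⟨cov N c, hB₀eq ▸ hB₀, hcoef⟩, ?_⟩
  intro B hB hBc P hP
  have hBeq : B = cov N c := by
    have h1 : coef (B.indicator (fun _ => (1 : ℂ))) = coef ((cov N c).indicator (fun _ => (1 : ℂ))) := by
      funext g
      rw [coef_indicator, coef_indicator, hBc g, hcoef g]
    have h2 := coef_injective h1
    ext χ
    have h3 := congrFun h2 χ
    by_cases hχ : χ ∈ B
    · rw [Set.indicator_of_mem hχ] at h3
      by_cases hχ' : χ ∈ cov N c
      · exact ⟨fun _ => hχ', fun _ => hχ⟩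
      · rw [Set.indicator_of_notMem hχ'] at h3
        exact absurd h3 one_ne_zero
    · rw [Set.indicator_of_notMem hχ] at h3
      by_cases hχ' : χ ∈ cov N c
      · rw [Set.indicator_of_mem hχ'] at h3
        exact absurd h3 zero_ne_one
      · exact ⟨fun h => absurd h hχ, fun h => absurd h hχ'⟩
  have hBB₀ : B = B₀ := hBeq.trans hB₀eq.symm
  have hinv : ∀ g : G, ∀ θ ∈ c, ∀ θ' : Cfsg.IrrCharacter N,
      (∀ n : N, (θ' : N → ℂ) n = (θ : N → ℂ) ⟨g * n * g⁻¹, hNn.conj_mem n n.2 g⟩) → θ' ∈ c := by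
    intro g θ hθ θ' h
    have : θ' = conjIrr N g θ := Subtype.ext (funext h)
    rw [this]
    exact hfwd g θ hθ
  have hcov : ∃ χ ∈ B, ∃ θ ∈ c, Cfsg.classInner (fun n : N => (χ : G → ℂ) n) (θ : N → ℂ) ≠ 0 := by
    rw [hBB₀]
    exact hcov₀
  have hmax : ∀ B' : Set (Cfsg.IrrCharacter G), Cfsg.IsPBlock M B' →
      (∃ χ ∈ B', ∃ θ ∈ c, Cfsg.classInner (fun n : N => (χ : G → ℂ) n) (θ : N → ℂ) ≠ 0) →
      Cfsg.blockDefect p B' ≤ Cfsg.blockDefect p B := by
    intro B' hB' hcov'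
    have : B' = B₀ := huniq B' ⟨hB', hcov'⟩
    rw [this, hBB₀]
  obtain ⟨h1, h2, -⟩ := Cfsg.Agent.S0970.result p M hM N c hc hinv B hB hcov hmax P hP
  refine ⟨?_, h2⟩
  obtain ⟨k, hk⟩ := hN
  have hdvd : (P ⊔ N).index ∣ p ^ k := by
    rw [← hk]
    exact Subgroup.index_dvd_of_le le_sup_right
  obtain ⟨j, -, hj⟩ := (Nat.dvd_prime_pow hp).mp hdvd
  have hj0 : j = 0 := by
    by_contra hj0
    apply h1
    rw [hj]
    exact dvd_pow_self p hj0
  rw [hj0, pow_zero] at hj
  rw [sup_comm]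
  exact Subgroup.index_eq_one.mp hj

end Cfsg.Agent.S4672
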