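import Cfsg.Statements.S4673
import Mathlib
import Cfsg.Agent.Lib.helper5.Knorr4

set_option autoImplicit false
open Cfsg

namespace Cfsg.Agent.S4673

open Cfsg.Agent.Lib.helper5 Cfsg.Agent.Lib.helper23 Cfsg.Agent.Lib.helper24
open scoped ComplexConjugate

/-- Fix a prime p and a maximal ideal M of the algebraic integers containing p. Let N ≤ L be normal subgroups of the finite group G with L/N a p-group, let B be a p-block of G covering the p-block c of N (some member of B has a constituent in c on restriction to N), and suppose that N contains a defect group of B. Then the stabilizer T of c in G satisfies T ∩ L = N. -/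
theorem result {G : Type*} [Group G] [Fintype G] (p : ℕ) [Fact p.Prime] (M : Ideal Cfsg.AlgInt) (hM : Cfsg.IsPModular p M) (N L : Subgroup G) [N.Normal] [L.Normal] [Fintype N] (hNL : N ≤ L) (hLN : ∃ k : ℕ, (N.subgroupOf L).index = p ^ k) (B : Set (Cfsg.IrrCharacter G)) (hB : Cfsg.IsPBlock M B) (c : Set (Cfsg.IrrCharacter N)) (hc : Cfsg.IsPBlock M c) (hcov : (∃ χ ∈ B, ∃ θ ∈ c, Cfsg.classInner (fun n : N => (χ : G → ℂ) n) (θ : N → ℂ) ≠ 0)) (hD : ∃ D : Subgroup G, Cfsg.IsDefectGroup p M B D ∧ D ≤ N) (T : Subgroup G) (hT : ∀ x : G, x ∈ T ↔ Cfsg.StabilizesBlock N c x) : T ⊓ L = N := by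
  classical
  haveI := Fintype.ofFinite (Cfsg.IrrCharacter G)
  haveI := Fintype.ofFinite (Cfsg.IrrCharacter N)
  have hMp := isPModular_isPrime hM
  have hp : p.Prime := Fact.out
  have hTs : ∀ x : G, x ∈ T ↔ x ∈ stabSub N hMp c hc := by
    intro x
    rw [hT, Cfsg.Agent.Lib.helper5.stabilizesBlock_iff]
    constructor
    · intro h
      have h1 : x⁻¹ ∈ stabSub N hMp c hc := h
      have h2 := Subgroup.inv_mem _ h1
      rwa [inv_inv] at h2
    · intro h
      exact Subgroup.inv_mem _ h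
  apply le_antisymm
  · intro x hx
    obtain ⟨hxT, hxL⟩ := Subgroup.mem_inf.mp hx
    have hxS := (hTs x).mp hxT
    haveI : Fintype (stabSub N hMp c hc) := Fintype.ofFinite _
    have hStab : IsStabOf N (stabSub N hMp c hc) c := isStabOf_stabSub N hMp c hc
    have hNS : N ≤ stabSub N hMp c hc := le_stabSub N hMp c hc
    have FR := Cfsg.Agent.S4435.result p M hM N c hc (stabSub N hMp c hc) hStab hNS
    obtain ⟨B', hB', hcovB', hindB'⟩ := FR.2.2 B hB hcov
    have defmap := (Cfsg.Agent.S4436.result p M hM N c hc (stabSub N hMp c hc) hStab hNS B' hB'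
      hcovB' B hindB').1
    obtain ⟨D', hD'⟩ := exists_defectGroup_of_isPBlock (p := p) hMp hB'
    obtain ⟨D, hDdef, hDN⟩ := hD
    obtain ⟨χ₀, rfl⟩ := hB
    obtain ⟨y, hy⟩ := Cfsg.Agent.Lib.helper22.defectGroup_conj_of hM χ₀ hDdef (defmap D' hD')
    have hD'N : D'.map (stabSub N hMp c hc).subtype ≤ N := by
      rw [hy]
      intro a ha
      rw [mem_map_conj] at ha
      have h2 := hDN ha
      have : a = y * (y⁻¹ * a * y) * y⁻¹ := by group
      rw [this]
      exact ‹N.Normal›.conj_mem _ h2 y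
    haveI hN₁ : (N.subgroupOf (stabSub N hMp c hc)).Normal := ‹N.Normal›.subgroupOf _
    haveI hL₁ : (L.subgroupOf (stabSub N hMp c hc)).Normal := ‹L.Normal›.subgroupOf _
    haveI : Fintype (N.subgroupOf (stabSub N hMp c hc)) := Fintype.ofFinite _
    have hNL₁ : N.subgroupOf (stabSub N hMp c hc) ≤ L.subgroupOf (stabSub N hMp c hc) :=
      fun t ht => hNL ht
    have hidx₁ : ∃ k : ℕ, (N.subgroupOf (stabSub N hMp c hc)).relIndex
        (L.subgroupOf (stabSub N hMp c hc)) = p ^ k := by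
      rw [← Subgroup.inf_subgroupOf_right L (stabSub N hMp c hc),
        Subgroup.relIndex_subgroupOf inf_le_right]
      obtain ⟨k, hk⟩ := hLN
      have h1 : N.relIndex (L ⊓ stabSub N hMp c hc) * (L ⊓ stabSub N hMp c hc).relIndex L
          = N.relIndex L :=
        Subgroup.relIndex_mul_relIndex N (L ⊓ stabSub N hMp c hc) L (le_inf hNL hNS) inf_le_left
      have h2 : N.relIndex (L ⊓ stabSub N hMp c hc) ∣ p ^ k := by
        rw [← hk]
        exact Dvd.intro _ h1
      obtain ⟨j, -, hj⟩ := (Nat.dvd_prime_pow hp).mp h2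
      exact ⟨j, hj⟩
    have hc₁ : Cfsg.IsPBlock M (irrMap (Subgroup.subgroupOfEquivOfLe hNS) '' c) :=
      isPBlock_image_irrMap _ hc
    have hinv₁ := rel_hinv N (stabSub N hMp c hc) hNS c (fun t ht => ht)
    have hcovr := (rel_cov N (stabSub N hMp c hc) hNS c B').mp hcovB'
    have hD'N₁ : D' ≤ N.subgroupOf (stabSub N hMp c hc) := fun d hd => hD'N ⟨d, hd, rfl⟩
    have key := knorr_index hM (N.subgroupOf (stabSub N hMp c hc))
      (L.subgroupOf (stabSub N hMp c hc)) hNL₁ hidx₁ _ hc₁ hinv₁ B' hB' hcovr D' hD' hD'N₁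
    exact key (show (⟨x, hxS⟩ : stabSub N hMp c hc) ∈ L.subgroupOf (stabSub N hMp c hc) from hxL)
  · intro n hn
    exact Subgroup.mem_inf.mpr ⟨(hTs n).mpr (le_stabSub N hMp c hc hn), hNL hn⟩

end Cfsg.Agent.S4673
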