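import Cfsg.Statements.S4675
import Cfsg.Agent.Lib.helper23.PTruncComb
import Cfsg.Agent.Lib.helper23.BlockSquares
import Cfsg.Agent.Lib.helper23.BlockRankTrace
import Cfsg.Agent.Lib.helper23.BrauerFeit

set_option autoImplicit false
open Cfsg

namespace Cfsg.Agent.S4675

open Cfsg.Agent.Lib.helper5 Cfsg.Agent.Lib.helper23 Cfsg.Agent.Lib.helper24
open scoped ComplexConjugate

theorem finsum_mem_filter {α : Type*} [Fintype α] {R : Type*} [AddCommMonoid R] (B : Set α)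
    [DecidablePred (· ∈ B)] (h : α → R) :
    ∑ᶠ a ∈ B, h a = ∑ a ∈ Finset.univ.filter (· ∈ B), h a := by
  rw [finsum_mem_def, finsum_eq_sum_of_fintype, Finset.sum_filter]
  apply Finset.sum_congr rfl
  intro a _
  rw [Set.indicator_apply]

theorem result {G : Type*} [Group G] [Fintype G] (p : ℕ) [Fact p.Prime] (M : Ideal Cfsg.AlgInt) (hM : Cfsg.IsPModular p M) (B : Set (Cfsg.IrrCharacter G)) (hB : Cfsg.IsPBlock M B) (P : Subgroup G) (hP : Cfsg.IsDefectGroup p M B P) (hl : Cfsg.blockRank p B = 1) : ∃ φ : G → ℂ, ∃ d : Cfsg.IrrCharacter G → ℕ, (∃ n : Cfsg.IrrCharacter G → ℤ, ∀ x : G, Cfsg.IsPRegular p x → φ x = ∑ᶠ ψ ∈ B, (n ψ : ℂ) * (ψ : G → ℂ) x) ∧ (∀ χ ∈ B, ∀ x : G, Cfsg.IsPRegular p x → (χ : G → ℂ) x = (d χ : ℂ) * φ x) ∧ ∑ᶠ χ ∈ B, d χ ^ 2 = Nat.card P := by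
  classical
  have : Fintype (Cfsg.IrrCharacter G) := Fintype.ofFinite _
  have hMp := isPModular_isPrime hM
  have hp : p.Prime := hM.1
  have hcardP := card_defectGroup p hM B hB P hP
  have htrace := blockRank_trace_formula p M hM B hB
  have hsq := factorization_sum_sq hM B hB
  obtain ⟨χ₀, hBeq⟩ := hB
  have hχ₀ : χ₀ ∈ B := by
    rw [hBeq]
    exact mem_blockOf_self hMp.ne_top χ₀
  have hz₀ : χ₀.1 1 ≠ 0 := irr_one_ne_zero χ₀
  have hreg1 : Cfsg.IsPRegular p (1 : G) := by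
    unfold Cfsg.IsPRegular
    rw [orderOf_one]
    exact hp.not_dvd_one
  obtain ⟨F, hF⟩ : ∃ F : G → ℂ, F = Cfsg.pRegularPart p χ₀.1 := ⟨_, rfl⟩
  have hF1 : F 1 = χ₀.1 1 := by
    rw [hF, pRegularPart_apply, if_pos hreg1]
  have hlin : ∀ χ ∈ B, ∀ x : G, Cfsg.pRegularPart p χ.1 x = χ.1 1 / χ₀.1 1 * F x := by
    intro χ hχ x
    unfold Cfsg.blockRank at hl
    have hmem₀ : F ∈ Submodule.span ℂ ((fun χ : Cfsg.IrrCharacter G =>
        Cfsg.pRegularPart p (χ : G → ℂ)) '' B) :=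
      Submodule.subset_span ⟨χ₀, hχ₀, hF.symm⟩
    have hmem : Cfsg.pRegularPart p χ.1 ∈ Submodule.span ℂ ((fun χ : Cfsg.IrrCharacter G =>
        Cfsg.pRegularPart p (χ : G → ℂ)) '' B) :=
      Submodule.subset_span ⟨χ, hχ, rfl⟩
    have hv₀ : (⟨F, hmem₀⟩ : Submodule.span ℂ ((fun χ : Cfsg.IrrCharacter G =>
        Cfsg.pRegularPart p (χ : G → ℂ)) '' B)) ≠ 0 := by
      intro h0
      have h1 := congrArg Subtype.val h0
      have h2 := congrFun h1 1
      simp only [Submodule.coe_zero, Pi.zero_apply] at h2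
      rw [hF1] at h2
      exact hz₀ h2
    obtain ⟨c, hc⟩ := (finrank_eq_one_iff_of_nonzero' _ hv₀).mp hl ⟨_, hmem⟩
    have hc' : c • F = Cfsg.pRegularPart p χ.1 := congrArg Subtype.val hc
    have h1 := congrFun hc' 1
    rw [Pi.smul_apply, smul_eq_mul, hF1, pRegularPart_apply, if_pos hreg1] at h1
    have hcval : c = χ.1 1 / χ₀.1 1 := by
      rw [← h1]
      field_simp
    rw [← hc', Pi.smul_apply, smul_eq_mul, hcval]
  obtain ⟨Bf, hBf⟩ : ∃ Bf : Finset (Cfsg.IrrCharacter G), Bf = Finset.univ.filter (· ∈ B) :=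
    ⟨_, rfl⟩
  have hmemBf : ∀ χ, χ ∈ Bf ↔ χ ∈ B := by
    intro χ
    rw [hBf, Finset.mem_filter]
    simp
  obtain ⟨f, hf⟩ : ∃ f : Cfsg.IrrCharacter G → ℤ, f = fun χ => (Cfsg.charDegree χ.1 : ℤ) :=
    ⟨_, rfl⟩
  obtain ⟨n, hn⟩ := Finset.gcd_eq_sum_mul Bf f
  have hgz : 0 ≤ Bf.gcd f := by
    have h1 := Finset.normalize_gcd (s := Bf) (f := f)
    rw [← h1]
    exact Int.nonneg_of_normalize_eq_self (normalize_idem _)
  obtain ⟨g, hg⟩ : ∃ g : ℕ, (g : ℤ) = Bf.gcd f := ⟨(Bf.gcd f).toNat, Int.toNat_of_nonneg hgz⟩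
  have hgdvd : ∀ χ ∈ B, g ∣ Cfsg.charDegree χ.1 := by
    intro χ hχ
    have h1 : Bf.gcd f ∣ f χ := Finset.gcd_dvd ((hmemBf χ).mpr hχ)
    rw [← hg, hf] at h1
    exact Int.natCast_dvd_natCast.mp h1
  have hg0 : g ≠ 0 := by
    intro h0
    have h1 := hgdvd χ₀ hχ₀
    rw [h0, zero_dvd_iff] at h1
    have := charDegree_pos χ₀
    omega
  have hgC : (g : ℂ) ≠ 0 := by exact_mod_cast hg0
  obtain ⟨d, hd⟩ : ∃ d : Cfsg.IrrCharacter G → ℕ, d = fun χ => Cfsg.charDegree χ.1 / g :=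
    ⟨_, rfl⟩
  have hdg : ∀ χ ∈ B, d χ * g = Cfsg.charDegree χ.1 := by
    intro χ hχ
    rw [hd]
    exact Nat.div_mul_cancel (hgdvd χ hχ)
  have hdgC : ∀ χ ∈ B, (d χ : ℂ) * (g : ℂ) = χ.1 1 := by
    intro χ hχ
    rw [← charDegree_cast, ← hdg χ hχ]
    push_cast
    rfl
  obtain ⟨φ, hφ⟩ : ∃ φ : G → ℂ, φ = fun x => (g : ℂ) / χ₀.1 1 * F x := ⟨_, rfl⟩
  have hval : ∀ χ ∈ B, ∀ x : G, Cfsg.pRegularPart p χ.1 x = (d χ : ℂ) * φ x := by
    intro χ hχ x
    rw [hlin χ hχ x, hφ, ← hdgC χ hχ]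
    field_simp
  have hvalreg : ∀ χ ∈ B, ∀ x : G, Cfsg.IsPRegular p x → χ.1 x = (d χ : ℂ) * φ x := by
    intro χ hχ x hx
    rw [← hval χ hχ x, pRegularPart_apply, if_pos hx]
  have hbez : (g : ℂ) = ∑ a ∈ Bf, χ₀.1 1 * 0 + ∑ a ∈ Bf, (n a : ℂ) * a.1 1 := by
    have h1 : ((g : ℤ) : ℂ) = ((∑ a ∈ Bf, f a * n a : ℤ) : ℂ) := by rw [hg, hn]
    rw [Int.cast_natCast] at h1
    rw [h1]
    simp only [mul_zero, Finset.sum_const_zero, zero_add]
    push_cast
    apply Finset.sum_congr rfl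
    intro a _
    rw [hf]
    simp only [Int.cast_natCast]
    rw [charDegree_cast, mul_comm]
  have hbez1 : (1 : ℤ) = ∑ a ∈ Bf, (d a : ℤ) * n a := by
    have h1 : (g : ℤ) * 1 = (g : ℤ) * ∑ a ∈ Bf, (d a : ℤ) * n a := by
      rw [mul_one, Finset.mul_sum]
      conv_lhs => rw [hg, hn]
      apply Finset.sum_congr rfl
      intro a ha
      rw [hf]
      simp only
      rw [← hdg a ((hmemBf a).mp ha)]
      push_cast
      ring
    have hgz0 : (g : ℤ) ≠ 0 := by exact_mod_cast hg0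
    exact mul_left_cancel₀ hgz0 h1
  obtain ⟨c, hc⟩ : ∃ c : ℕ, c = ∑ χ ∈ Bf, d χ ^ 2 := ⟨_, rfl⟩
  obtain ⟨J, hJ⟩ : ∃ J : ℂ, J = ∑ x : G, if Cfsg.IsPRegular p x then φ x * conj (φ x) else 0 :=
    ⟨_, rfl⟩
  have hcJ : (Nat.card G : ℂ) = (c : ℂ) * J := by
    rw [hl, Nat.cast_one, mul_one] at htrace
    rw [htrace, hJ, Finset.mul_sum]
    apply Finset.sum_congr rfl
    intro x _
    rw [finsum_mem_filter, ← hBf]
    by_cases hx : Cfsg.IsPRegular p x
    · rw [if_pos hx, hc]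
      push_cast
      rw [Finset.sum_mul]
      apply Finset.sum_congr rfl
      intro χ hχ
      rw [hval χ ((hmemBf χ).mp hχ) x, irr_inv χ x, hvalreg χ ((hmemBf χ).mp hχ) x hx, map_mul,
        Complex.conj_natCast]
      ring
    · rw [if_neg hx, mul_zero]
      apply Finset.sum_eq_zero
      intro χ _
      rw [pRegularPart_apply, if_neg hx, zero_mul]
  have hGne : (Nat.card G : ℂ) ≠ 0 := NeZero.ne _
  obtain ⟨D, hD⟩ : ∃ D : ℕ, D = Cfsg.blockDefect p B := ⟨_, rfl⟩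
  have hkey : ∀ ψ ∈ B, ∀ χ ∈ B, ∃ N : ℤ, ((p ^ D * d ψ * d χ : ℕ) : ℤ) = (c : ℤ) * N := by
    intro ψ hψ χ hχ
    have hcomb : ∃ n : Cfsg.IrrCharacter G → ℤ, ∀ g : G,
        ψ.1 g = ∑ᶠ ξ ∈ B, (n ξ : ℂ) * ξ.1 g := by
      refine ⟨fun ξ => if ξ = ψ then 1 else 0, ?_⟩
      intro g
      rw [finsum_mem_filter, ← hBf, Finset.sum_eq_single ψ]
      · simp
      · intro ξ _ hξ
        simp [hξ]
      · intro hnot
        exact absurd ((hmemBf ψ).mpr hψ) hnot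
    obtain ⟨N, hN⟩ := pow_defect_pRegularPart_comb hM B ⟨χ₀, hBeq⟩ ψ.1 hcomb
    refine ⟨N χ, ?_⟩
    have h1 : Cfsg.classInner (fun g : G => (p ^ Cfsg.blockDefect p B : ℂ)
        * Cfsg.pRegularPart p ψ.1 g) χ.1 = (N χ : ℂ) := by
      have h2 : (fun g : G => (p ^ Cfsg.blockDefect p B : ℂ) * Cfsg.pRegularPart p ψ.1 g)
          = ∑ ξ ∈ Bf, (N ξ : ℂ) • ξ.1 := by
        funext g
        rw [hN g, finsum_mem_filter, ← hBf, Finset.sum_apply]
        apply Finset.sum_congr rfl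
        intro ξ _
        rfl
      rw [h2, classInner_sum_left]
      have h3 : ∀ ξ ∈ Bf, Cfsg.classInner ((N ξ : ℂ) • ξ.1) χ.1
          = if ξ = χ then (N ξ : ℂ) else 0 := by
        intro ξ _
        rw [classInner_smul_left, irr_orthonormal]
        split_ifs <;> simp
      rw [Finset.sum_congr rfl h3, Finset.sum_ite_eq' Bf χ, if_pos ((hmemBf χ).mpr hχ)]
    have h4 : Cfsg.classInner (fun g : G => (p ^ Cfsg.blockDefect p B : ℂ)
        * Cfsg.pRegularPart p ψ.1 g) χ.1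
        = (Nat.card G : ℂ)⁻¹ * ((p ^ D : ℕ) : ℂ) * (d ψ : ℂ) * (d χ : ℂ) * J := by
      unfold Cfsg.classInner
      rw [hJ]
      have e : ∀ x : G, (fun g : G => (p ^ Cfsg.blockDefect p B : ℂ)
          * Cfsg.pRegularPart p ψ.1 g) x * conj (χ.1 x)
          = ((p ^ D : ℕ) : ℂ) * (d ψ : ℂ) * (d χ : ℂ)
            * (if Cfsg.IsPRegular p x then φ x * conj (φ x) else 0) := by
        intro x
        by_cases hx : Cfsg.IsPRegular p x
        · rw [if_pos hx]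
          simp only
          rw [hval ψ hψ x, hvalreg χ hχ x hx, map_mul, Complex.conj_natCast, hD]
          push_cast
          ring
        · rw [if_neg hx]
          simp only
          rw [pRegularPart_apply, if_neg hx]
          ring
      rw [Finset.sum_congr rfl (fun x _ => e x), ← Finset.mul_sum]
      ring
    rw [h1] at h4
    have hc0 : (c : ℂ) ≠ 0 := by
      intro h0
      rw [h0, zero_mul] at hcJ
      exact hGne hcJ
    have h5 : (((p ^ D * d ψ * d χ : ℕ) : ℤ) : ℂ) = (((c : ℤ) * N χ : ℤ) : ℂ) := by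
      push_cast at h4 ⊢
      rw [h4]
      have e2 : (c : ℂ) * ((Nat.card G : ℂ)⁻¹ * (p : ℂ) ^ D * (d ψ : ℂ) * (d χ : ℂ) * J)
          = ((c : ℂ) * J) * (Nat.card G : ℂ)⁻¹ * ((p : ℂ) ^ D * (d ψ : ℂ) * (d χ : ℂ)) := by ring
      rw [e2, ← hcJ, mul_inv_cancel₀ hGne, one_mul]
    exact_mod_cast h5
  have hcdvd : c ∣ p ^ D := by
    choose! Nf hNf using hkey
    have h1 : ((p ^ D : ℕ) : ℤ) = (c : ℤ) * ∑ ψ ∈ Bf, ∑ χ ∈ Bf, Nf ψ χ * (n ψ * n χ) := by
      have h2 : ((p ^ D : ℕ) : ℤ) = ((p ^ D : ℕ) : ℤ) * ((∑ a ∈ Bf, (d a : ℤ) * n a)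
          * (∑ a ∈ Bf, (d a : ℤ) * n a)) := by
        rw [← hbez1, mul_one, mul_one]
      rw [h2, Finset.sum_mul_sum, Finset.mul_sum, Finset.mul_sum]
      apply Finset.sum_congr rfl
      intro ψ hψ
      rw [Finset.mul_sum, Finset.mul_sum]
      apply Finset.sum_congr rfl
      intro χ hχ
      have h3 := hNf ψ ((hmemBf ψ).mp hψ) χ ((hmemBf χ).mp hχ)
      have h4 : ((p ^ D : ℕ) : ℤ) * ((d ψ : ℤ) * n ψ * ((d χ : ℤ) * n χ))
          = ((p ^ D * d ψ * d χ : ℕ) : ℤ) * (n ψ * n χ) := by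
        push_cast
        ring
      rw [h4, h3]
      ring
    have h5 : (c : ℤ) ∣ ((p ^ D : ℕ) : ℤ) := ⟨_, h1⟩
    exact Int.natCast_dvd_natCast.mp h5
  obtain ⟨j, hjD, hj⟩ := (Nat.dvd_prime_pow hp).mp hcdvd
  have hsum : (∑ χ : Cfsg.IrrCharacter G, if χ ∈ B then Cfsg.charDegree χ.1 ^ 2 else 0)
      = g ^ 2 * p ^ j := by
    rw [← hj, hc, Finset.mul_sum, ← Finset.sum_filter, ← hBf]
    apply Finset.sum_congr rfl
    intro χ hχ
    rw [← hdg χ ((hmemBf χ).mp hχ)]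
    ring
  rw [hsum] at hsq
  obtain ⟨m₀, hm₀⟩ : ∃ m₀ : ℕ, m₀ = sInf ((fun χ : Cfsg.IrrCharacter G =>
      (Cfsg.charDegree χ.1).factorization p) '' B) := ⟨_, rfl⟩
  have hne : ((fun χ : Cfsg.IrrCharacter G => (Cfsg.charDegree χ.1).factorization p) '' B).Nonempty :=
    ⟨_, ⟨χ₀, hχ₀, rfl⟩⟩
  obtain ⟨χm, hχmB, hχm⟩ := Nat.sInf_mem hne
  rw [← hm₀] at hχm
  have hχm' : (Cfsg.charDegree χm.1).factorization p = m₀ := hχm
  have hm₀le : ∀ χ ∈ B, m₀ ≤ (Cfsg.charDegree χ.1).factorization p := by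
    intro χ hχ
    rw [hm₀]
    exact Nat.sInf_le ⟨χ, hχ, rfl⟩
  have ha : m₀ ≤ (Nat.card G).factorization p := by
    obtain ⟨dd, hdd, hdvd⟩ := irr_degree_dvd_card χ₀
    have h1 : Cfsg.charDegree χ₀.1 = dd := by
      have := charDegree_cast χ₀
      rw [hdd] at this
      exact_mod_cast this
    have h2 := hm₀le χ₀ hχ₀
    rw [h1] at h2
    have h3 : dd.factorization p ≤ (Nat.card G).factorization p :=
      (Nat.factorization_le_iff_dvd (by
        intro h0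
        have := charDegree_pos χ₀
        omega) Nat.card_pos.ne').mpr hdvd p
    omega
  have hDdef : D = (Nat.card G).factorization p - m₀ := by
    rw [hD, hm₀]
    rfl
  have hgfac : g.factorization p = m₀ := by
    apply le_antisymm
    · have h1 := hgdvd χm hχmB
      have h2 : g.factorization p ≤ (Cfsg.charDegree χm.1).factorization p :=
        (Nat.factorization_le_iff_dvd hg0 (by
          have := charDegree_pos χm
          omega)).mpr h1 p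
      omega
    · have h1 : ((p ^ m₀ : ℕ) : ℤ) ∣ Bf.gcd f := by
        apply Finset.dvd_gcd
        intro χ hχ
        rw [hf]
        simp only
        apply Int.natCast_dvd_natCast.mpr
        have h2 := hm₀le χ ((hmemBf χ).mp hχ)
        exact (Nat.Prime.pow_dvd_iff_le_factorization hp (by
          have := charDegree_pos χ
          omega)).mpr h2
      rw [← hg] at h1
      have h3 : p ^ m₀ ∣ g := Int.natCast_dvd_natCast.mp h1
      exact (Nat.Prime.pow_dvd_iff_le_factorization hp hg0).mp h3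
  have hfacprod : (g ^ 2 * p ^ j).factorization p = 2 * m₀ + j := by
    rw [Nat.factorization_mul (pow_ne_zero _ hg0) (pow_ne_zero _ hp.ne_zero),
      Nat.factorization_pow, Nat.Prime.factorization_pow hp]
    simp [hgfac]
  rw [hfacprod, ← hD] at hsq
  have hjeq : j = D := by omega
  refine ⟨φ, d, ⟨n, ?_⟩, hvalreg, ?_⟩
  · intro x hx
    rw [finsum_mem_filter, ← hBf]
    have h1 : ∀ ψ ∈ Bf, (n ψ : ℂ) * ψ.1 x = (n ψ : ℂ) * ψ.1 1 * (F x / χ₀.1 1) := by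
      intro ψ hψ
      have h2 := hlin ψ ((hmemBf ψ).mp hψ) x
      rw [pRegularPart_apply, if_pos hx] at h2
      rw [h2]
      field_simp
    rw [Finset.sum_congr rfl h1, ← Finset.sum_mul, hφ]
    simp only
    have h3 := hbez
    simp only [mul_zero, Finset.sum_const_zero, zero_add] at h3
    rw [h3]
    field_simp
  · rw [finsum_mem_filter, ← hBf, ← hc, hj, hjeq, hcardP, hD]

end Cfsg.Agent.S4675
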