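import Cfsg.Statements.S4714
import Cfsg.Agent.Lib.helper5.CentralReg
import Cfsg.Agent.S0968
import Cfsg.Agent.Lib.helper5.BlockSecond3

set_option autoImplicit false
open Cfsg

namespace Cfsg.Agent.S4714

open Cfsg.Agent.Lib.helper5 Cfsg.Agent.Lib.helper23 Cfsg.Agent.Lib.helper24
open scoped ComplexConjugate

/-- Let p be a prime, M a maximal ideal of the algebraic integers containing p, D a p-subgroup of the finite group G with G = D·C_G(D), and B a p-block with defect group D. Let χ be a member of B having D in its kernel (there is exactly one, the canonical character of B). Then the irreducible characters in B are exactly the functions θ on G for which there is an irreducible character ζ of D such that θ(yx) = ζ(y)χ(x) whenever y ∈ D, x has order prime to p and x commutes with y, and θ(z) = 0 whenever the p-part of z does not lie in D. -/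
theorem result {G : Type*} [Group G] [Finite G] (p : ℕ) [Fact p.Prime] (M : Ideal Cfsg.AlgInt) (hM : Cfsg.IsPModular p M) (D : Subgroup G) (hD : IsPGroup p D) (hG : D ⊔ Subgroup.centralizer (D : Set G) = ⊤) (B : Set (Cfsg.IrrCharacter G)) (hB : Cfsg.IsPBlock M B) (hBD : Cfsg.IsDefectGroup p M B D) (χ : Cfsg.IrrCharacter G) (hχ : χ ∈ B) (hχD : ∀ y ∈ D, (χ : G → ℂ) y = (χ : G → ℂ) 1) : (∀ θ : Cfsg.IrrCharacter G, θ ∈ B ↔ ∃ ζ : Cfsg.IrrCharacter D, (∀ (y : D) (x : G), ¬ p ∣ orderOf x → Commute (y : G) x → (θ : G → ℂ) ((y : G) * x) = (ζ : D → ℂ) y * (χ : G → ℂ) x) ∧ (∀ z : G, (∀ y : G, Cfsg.IsPPart p z y → y ∉ D) → (θ : G → ℂ) z = 0)) ∧ ∀ ζ : Cfsg.IrrCharacter D, ∃ θ ∈ B, (∀ (y : D) (x : G), ¬ p ∣ orderOf x → Commute (y : G) x → (θ : G → ℂ) ((y : G) * x) = (ζ : D → ℂ) y * (χ : G → ℂ) x) ∧ (∀ z : G, (∀ y : G, Cfsg.IsPPart p z y → y ∉ D) → (θ : G → ℂ) z = 0) := by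
  classical
  haveI := Fintype.ofFinite G
  haveI := Fintype.ofFinite (Cfsg.IrrCharacter G)
  haveI := Fintype.ofFinite D
  haveI := Fintype.ofFinite (Cfsg.IrrCharacter D)
  haveI := Fintype.ofFinite (Subgroup.centralizer (D : Set G))
  haveI := Fintype.ofFinite (Cfsg.IrrCharacter (Subgroup.centralizer (D : Set G)))
  have hMp := isPModular_isPrime hM
  have hMtop := hMp.ne_top
  have hp : p.Prime := Fact.out
  have h968 := (Cfsg.Agent.S0968.result p M hM D hD hG B hB hBD).2.2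
  obtain ⟨χ₀, rfl⟩ := hB
  haveI hPn : D.Normal := normal_of_sup_centralizer D hG
  have hdegχ := factorization_degree_of_kernel hM D χ₀ hBD χ hχ hχD
  choose η ψ hηψ using exists_prod_decomp D hG
  have hθ1 : ∀ a : D, χ.1 (a : G) = (η χ).1 a * (ψ χ).1 1 := by
    intro a
    have := hηψ χ a 1
    simpa using this
  have hconst : ∀ a : D, (η χ).1 a = (η χ).1 1 := by
    intro a
    have h3 := hχD a a.2
    have h2 := hθ1 1
    rw [Subgroup.coe_one] at h2
    rw [hθ1 a, h2] at h3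
    exact mul_right_cancel₀ (irr_one_ne_zero (ψ χ)) h3
  have hηθ : Cfsg.charDegree (η χ).1 = 1 := by
    have h4 := Cfsg.Agent.Lib.helper22.sum_normSq_irr (η χ)
    have h4' : ∑ a : D, Complex.normSq ((η χ).1 a)
        = ∑ a : D, (Cfsg.charDegree (η χ).1 : ℝ) ^ 2 :=
      Finset.sum_congr rfl (fun a _ => by
        rw [hconst a, Cfsg.Agent.Lib.helper22.normSq_irr_one])
    rw [h4', Finset.sum_const, Finset.card_univ, nsmul_eq_mul, ← Nat.card_eq_fintype_card] at h4
    have hP0 : (0 : ℝ) < (Nat.card D : ℝ) := by exact_mod_cast Nat.card_pos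
    have h5 : (Cfsg.charDegree (η χ).1 : ℝ) ^ 2 = 1 := by
      have : (Nat.card D : ℝ) * (Cfsg.charDegree (η χ).1 : ℝ) ^ 2 = (Nat.card D : ℝ) * 1 := by
        rw [mul_one]; exact h4
      exact mul_left_cancel₀ hP0.ne' this
    have h6 : (Cfsg.charDegree (η χ).1) ^ 2 = 1 := by exact_mod_cast h5
    exact (Nat.pow_eq_one.mp h6).resolve_right two_ne_zero
  have hη1 : ∀ a : D, (η χ).1 a = 1 := by
    intro a
    rw [hconst a, ← charDegree_cast, hηθ]
    simp
  have hχψ : ∀ v : Subgroup.centralizer (D : Set G), χ.1 (v : G) = (ψ χ).1 v := by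
    intro v
    have := hηψ χ 1 v
    rw [hη1 1, one_mul, Subgroup.coe_one, one_mul] at this
    exact this
  have hDZ : D.subgroupOf (Subgroup.centralizer (D : Set G))
      ≤ Subgroup.center (Subgroup.centralizer (D : Set G)) := by
    intro z hz
    rw [Subgroup.mem_center_iff]
    intro c
    apply Subtype.ext
    exact (Subgroup.mem_centralizer_iff.mp c.2 (z : G) (Subgroup.mem_subgroupOf.mp hz)).symm
  have hZp : IsPGroup p (D.subgroupOf (Subgroup.centralizer (D : Set G))) := hD.comap_subtype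
  have hdegψ : (Cfsg.charDegree (ψ χ).1).factorization p
      = (D.subgroupOf (Subgroup.centralizer (D : Set G))).index.factorization p := by
    rw [index_subgroupOf_centralizer D hG, ← hdegχ]
    unfold Cfsg.charDegree
    rw [← hχψ 1, Subgroup.coe_one]
  have hblock : ∀ θ ∈ Cfsg.blockOf M χ₀.1, ψ θ ∈ Cfsg.blockOf M (ψ χ).1 := by
    intro θ hθ c
    rw [centralChar_prod D hG χ (η χ) (ψ χ) (hηψ χ) c,
      centralChar_prod D hG θ (η θ) (ψ θ) (hηψ θ) c]
    exact (sameBlock_trans hMp (sameBlock_symm hχ) hθ) (c : G)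
  have hcentral : ∀ (θ : Cfsg.IrrCharacter G)
      (z : Subgroup.centralizer (D : Set G)) (hz : (z : G) ∈ D)
      (g : Subgroup.centralizer (D : Set G)),
      (ψ θ).1 (z * g) = (η θ).1 ⟨(z : G), hz⟩ / (η θ).1 1 * (ψ θ).1 g := by
    intro θ z hz g
    have h1 : θ.1 ((z : G) * (g : G)) = (η θ).1 ⟨(z : G), hz⟩ * (ψ θ).1 g :=
      hηψ θ ⟨(z : G), hz⟩ g
    have h2 : θ.1 ((z : G) * (g : G)) = (η θ).1 1 * (ψ θ).1 (z * g) := by
      have := hηψ θ 1 (z * g)
      simpa using this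
    rw [h1] at h2
    have hη1' : (η θ).1 1 ≠ 0 := irr_one_ne_zero (η θ)
    field_simp
    rw [h2]
    ring
  have hinj : ∀ θ ∈ Cfsg.blockOf M χ₀.1, ∀ θ' ∈ Cfsg.blockOf M χ₀.1, η θ = η θ' → θ = θ' := by
    intro θ hθ θ' hθ' hηeq
    have hψeq : ψ θ = ψ θ' := by
      apply eq_of_central_char_eq hM (D.subgroupOf (Subgroup.centralizer (D : Set G)))
        hZp hDZ (ψ χ) hdegψ (ψ θ) (ψ θ') (hblock θ hθ) (hblock θ' hθ')
      intro z hz
      refine ⟨(η θ).1 ⟨(z : G), Subgroup.mem_subgroupOf.mp hz⟩ / (η θ).1 1,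
        fun g => hcentral θ z _ g, fun g => ?_⟩
      rw [hcentral θ' z (Subgroup.mem_subgroupOf.mp hz) g, hηeq]
    apply Subtype.ext
    funext g
    obtain ⟨⟨a, c⟩, rfl⟩ := mulHomPC_surjective D hG g
    rw [mulHomPC_apply, hηψ θ a c, hηψ θ' a c, hηeq, hψeq]
  -- surjectivity of η on the block
  have hsurj : ∀ ζ : Cfsg.IrrCharacter D, ∃ θ ∈ Cfsg.blockOf M χ₀.1, η θ = ζ := by
    have hinj' : Function.Injective
        (fun θ : (Cfsg.blockOf M χ₀.1 : Set (Cfsg.IrrCharacter G)) => η θ.1) := by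
      intro θ θ' h
      exact Subtype.ext (hinj θ.1 θ.2 θ'.1 θ'.2 h)
    have hcard : Nat.card (Cfsg.IrrCharacter D)
        ≤ Nat.card (Cfsg.blockOf M χ₀.1 : Set (Cfsg.IrrCharacter G)) := by
      rw [h968, card_irr_eq_card_conjClasses]
    have hbij := hinj'.bijective_of_nat_card_le hcard
    intro ζ
    obtain ⟨θ, hθ⟩ := hbij.2 ζ
    exact ⟨θ.1, θ.2, hθ⟩
  -- the two properties for members of the block
  have hP1 : ∀ θ ∈ Cfsg.blockOf M χ₀.1, ∀ (y : D) (x : G), ¬ p ∣ orderOf x →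
      θ.1 ((y : G) * x) = (η θ).1 y * χ.1 x := by
    intro θ hθ y x hx
    have hxC : x ∈ Subgroup.centralizer (D : Set G) := pRegular_mem_centralizer D hD hG hx
    have h1 : θ.1 ((y : G) * x) = (η θ).1 y * (ψ θ).1 ⟨x, hxC⟩ := hηψ θ y ⟨x, hxC⟩
    have h2 : (ψ θ).1 ⟨x, hxC⟩ = (ψ χ).1 ⟨x, hxC⟩ :=
      central_defect_reg_eq hM (D.subgroupOf (Subgroup.centralizer (D : Set G)))
        hZp hDZ (ψ χ) hdegψ (ψ θ) (ψ χ) (hblock θ hθ) (mem_blockOf_self hMtop (ψ χ))
        ⟨x, hxC⟩ (by rw [Subgroup.orderOf_mk]; exact hx)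
    rw [h1, h2, ← hχψ ⟨x, hxC⟩]
  have hP2 : ∀ θ ∈ Cfsg.blockOf M χ₀.1, ∀ z : G,
      (∀ y : G, Cfsg.IsPPart p z y → y ∉ D) → θ.1 z = 0 := by
    intro θ hθ z hz
    obtain ⟨⟨a, c⟩, rfl⟩ := mulHomPC_surjective D hG z
    rw [mulHomPC_apply] at hz ⊢
    rw [hηψ θ a c]
    obtain ⟨cp, hcp⟩ := exists_isPPart p c
    have hdegθ := central_defect_deg hM (D.subgroupOf (Subgroup.centralizer (D : Set G)))
      hZp hDZ (ψ χ) hdegψ (ψ θ) (hblock θ hθ)
    have hvan := (laradji_central p M hM (D.subgroupOf (Subgroup.centralizer (D : Set G)))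
      hZp hDZ (ψ θ) hdegθ).2 c cp hcp
    rw [hvan, mul_zero]
    intro hcpZ
    have hcpD : (cp : G) ∈ D := Subgroup.mem_subgroupOf.mp hcpZ
    obtain ⟨y, hy1, hy2, -, hy4⟩ := hcp
    refine hz ((a : G) * (cp : G)) ⟨(y : G), ?_, ?_, ?_, ?_⟩ (D.mul_mem a.2 hcpD)
    · rw [mul_assoc, ← Subgroup.coe_mul, hy1]
    · have h1 : Commute (a : G) (y : G) :=
        Subgroup.mem_centralizer_iff.mp y.2 (a : G) a.2
      have h2 : Commute (cp : G) (y : G) := by
        have := congrArg Subtype.val hy2.eq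
        exact this
      exact h1.mul_left h2
    · obtain ⟨k, hk⟩ := hD ⟨(a : G) * (cp : G), D.mul_mem a.2 hcpD⟩
      have h3 : ((a : G) * (cp : G)) ^ p ^ k = 1 := by
        have := congrArg Subtype.val hk
        exact this
      obtain ⟨j, -, hj⟩ := (Nat.dvd_prime_pow hp).mp (orderOf_dvd_of_pow_eq_one h3)
      exact ⟨j, hj⟩
    · rw [Subgroup.orderOf_coe]
      exact hy4
  constructor
  · intro θ
    constructor
    · intro hθ
      exact ⟨η θ, fun y x hx _ => hP1 θ hθ y x hx, hP2 θ hθ⟩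
    · rintro ⟨ζ, h1, h2⟩
      obtain ⟨θ', hθ', hη'⟩ := hsurj ζ
      have heq : θ = θ' := by
        apply Subtype.ext
        funext z
        obtain ⟨zp, hzp⟩ := exists_isPPart p z
        by_cases hzD : zp ∈ D
        · obtain ⟨y, hy1, hy2, -, hy4⟩ := hzp
          rw [← hy1]
          have e1 := h1 ⟨zp, hzD⟩ y hy4 hy2
          have e2 := hP1 θ' hθ' ⟨zp, hzD⟩ y hy4
          rw [hη'] at e2
          exact e1.trans e2.symm
        · have hall : ∀ y : G, Cfsg.IsPPart p z y → y ∉ D := by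
            intro y hy
            rw [isPPart_unique hy hzp]
            exact hzD
          rw [h2 z hall, hP2 θ' hθ' z hall]
      rw [heq]
      exact hθ'
  · intro ζ
    obtain ⟨θ', hθ', hη'⟩ := hsurj ζ
    refine ⟨θ', hθ', fun y x hx _ => ?_, hP2 θ' hθ'⟩
    rw [← hη']
    exact hP1 θ' hθ' y x hx

end Cfsg.Agent.S4714
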