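import Cfsg.Statements.S4716
import Cfsg.Agent.Lib.helper22.Contrib
import Cfsg.Agent.Lib.helper22.PPowAvg

set_option autoImplicit false
open Cfsg

namespace Cfsg.Agent.S4716

open Cfsg.Agent.Lib.helper23 Cfsg.Agent.Lib.helper24 Cfsg.Agent.Lib.helper5 Cfsg.Agent.Lib.helper22
open scoped ComplexConjugate

universe u

theorem main {G : Type u} [Group G] [Fintype G] [Fintype (IrrCharacter G)]
    (H : Subgroup G) [Fintype H] [Fintype (IrrCharacter H)]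
    (p : ℕ) [hp : Fact p.Prime] (M : Ideal AlgInt) (hM : IsPModular p M)
    (B : Set (IrrCharacter G)) (hh : ∀ χ ∈ B, blockHeight p B χ.1 = 0)
    (u : G) (huH : u ∈ H) (hcen : ∀ h : H, (h : G) * u = u * (h : G))
    (hH2 : Subgroup.centralizer ({u} : Set G) ≤ H)
    (n : ℕ) (hn : orderOf u = p ^ n)
    (b : Set (IrrCharacter H)) (hb : IsInducedBlock M H b B)
    (Bf : Finset (IrrCharacter G)) (hBf : ∀ χ, χ ∈ Bf ↔ χ ∈ B) :
    Bf.card ^ 2 ≤ p ^ (2 * blockDefect p b) * blockRank p b := by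
  classical
  have hMp := isPModular_isPrime hM
  have hbb : IsPBlock M b := hb.1
  obtain ⟨ν₀, hν, hht, ξ₀, hξ₀, hξ₀0⟩ := block_nu p hM b hbb
  obtain ⟨q, hq⟩ : ∃ q : ℕ, q = blockDefect p b := ⟨_, rfl⟩
  obtain ⟨l, hl⟩ : ∃ l : ℕ, l = blockRank p b := ⟨_, rfl⟩
  rw [← hq] at hν ⊢
  rw [← hl]
  obtain ⟨t, ht⟩ : ∃ t : H, t = ⟨u, huH⟩ := ⟨_, rfl⟩
  have htc : ∀ c : H, c * t = t * c := by
    intro c
    apply Subtype.ext
    rw [ht]
    exact hcen c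
  have htjc : ∀ j : ℕ, ∀ c : H, c * t ^ j = t ^ j * c := by
    intro j c
    have h1 : Commute c t := htc c
    exact (h1.pow_right j).eq
  have htn : t ^ (p ^ n) = 1 := by
    apply Subtype.ext
    rw [ht]
    show u ^ (p ^ n) = 1
    rw [← hn]
    exact pow_orderOf_eq_one u
  have htN : t ^ (p ^ (n + 1)) = 1 := by
    rw [pow_succ, pow_mul, htn, one_pow]
  have htpow : ∀ j : ℕ, ((t ^ j : H) : G) = u ^ j := by
    intro j
    rw [ht]
    rfl
  obtain ⟨ε, hε⟩ : ∃ ε : IrrCharacter H → ℂ, ε = fun ξ => (ξ.1 1)⁻¹ * ξ.1 t := ⟨_, rfl⟩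
  have hεroot : ∀ ξ, ε ξ ^ (p ^ (n + 1)) = 1 := by
    intro ξ
    rw [hε]
    exact eps_root ξ t htc _ htN
  obtain ⟨ω, hω⟩ : ∃ ω : IrrCharacter H × IrrCharacter H → ℂ,
      ω = fun P => ε P.1 * conj (ε P.2) := ⟨_, rfl⟩
  have hωroot : ∀ P, ω P ^ (p ^ (n + 1)) = 1 := by
    intro P
    rw [hω]
    simp only []
    rw [mul_pow, ← map_pow, hεroot, hεroot, map_one, one_mul]
  obtain ⟨c, hc⟩ : ∃ c : ℕ → IrrCharacter G → IrrCharacter G → ℂ,
      c = fun j χ ψ => (p : ℂ) ^ q * contribC H b p (t ^ j) χ ψ := ⟨_, rfl⟩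
  have hcK : ∀ j χ ψ, c j χ ψ = ∑ P : IrrCharacter H × IrrCharacter H,
      (kInt H b p ν₀ χ ψ P : ℂ) * ω P ^ j := by
    intro j χ ψ
    rw [hc]
    have h := contrib_formula H b q ν₀ hν hht (t ^ j) (htjc j) χ ψ
    simp only []
    rw [h]
    apply Finset.sum_congr rfl
    intro P _
    rw [eps_pow P.1 t htc j, eps_pow P.2 t htc j, hω, hε]
    simp only []
    rw [map_pow, ← mul_pow]
  have hJ_order : ∀ j : ℕ, ∃ k : ℕ, orderOf ((t ^ j : H) : G) = p ^ k := by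
    intro j
    have hd : orderOf ((t ^ j : H) : G) ∣ p ^ n := by
      apply orderOf_dvd_of_pow_eq_one
      rw [htpow, ← pow_mul, mul_comm, pow_mul, ← hn, pow_orderOf_eq_one, one_pow]
    obtain ⟨k, -, hk⟩ := (Nat.dvd_prime_pow hp.out).mp hd
    exact ⟨k, hk⟩
  have hJ_cent : ∀ j : ℕ, ¬ p ∣ j →
      Subgroup.centralizer ({((t ^ j : H) : G)} : Set G) ≤ H := by
    intro j hj g hg
    apply hH2
    rw [Subgroup.mem_centralizer_iff] at hg ⊢
    intro x hx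
    rw [Set.mem_singleton_iff] at hx
    rw [hx]
    have hcop : Nat.Coprime j (orderOf u) := by
      rw [hn]
      apply Nat.Coprime.pow_right
      rw [Nat.coprime_comm]
      exact (Nat.Prime.coprime_iff_not_dvd hp.out).mpr hj
    obtain ⟨m, hm⟩ := exists_pow_eq_self_of_coprime hcop
    have h2 := hg _ (Set.mem_singleton _)
    rw [htpow] at h2
    have h3 : Commute (u ^ j) g := h2
    have h4 : Commute ((u ^ j) ^ m) g := h3.pow_left m
    rw [hm] at h4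
    exact h4.eq
  have hbr : ∀ χ ∈ Bf, ∀ ψ ∈ Bf, ¬ MemLocalIdeal M
      ((∑ P : IrrCharacter H × IrrCharacter H, kInt H b p ν₀ χ ψ P : ℤ) : ℂ) := by
    intro χ hχ ψ hψ
    rw [hBf] at hχ hψ
    have h := broue_odd H hM hb q ν₀ hν hht ξ₀ hξ₀ hξ₀0 χ ψ hχ hψ (hh χ hχ) (hh ψ hψ)
    intro hmem
    apply h
    have e : ((∑ P : IrrCharacter H × IrrCharacter H, kInt H b p ν₀ χ ψ P : ℤ) : ℂ)
        = ∑ ξ : IrrCharacter H, ∑ ξ' : IrrCharacter H,
          b.indicator (fun _ => (1 : ℂ)) ξ * b.indicator (fun _ => (1 : ℂ)) ξ'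
            * (resMult H χ ξ : ℂ) * (resMult H ψ ξ' : ℂ) * (nRed p ν₀ ξ ξ' : ℂ) := by
      rw [Fintype.sum_prod_type]
      push_cast
      apply Finset.sum_congr rfl
      intro ξ _
      apply Finset.sum_congr rfl
      intro ξ' _
      unfold kInt
      push_cast
      rw [ind_cast, ind_cast]
    rw [← e]
    exact hmem
  have h5 : ∀ χ ∈ Bf, ∀ ψ ∈ Bf, c 1 χ ψ ≠ 0 := by
    intro χ hχ ψ hψ h0
    apply hbr χ hχ ψ hψ
    rw [hcK] at h0
    have e : ((∑ P : IrrCharacter H × IrrCharacter H, kInt H b p ν₀ χ ψ P : ℤ) : ℂ)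
        = -∑ P : IrrCharacter H × IrrCharacter H, (kInt H b p ν₀ χ ψ P : ℂ) * (ω P - 1) := by
      push_cast
      simp only [mul_sub, mul_one, Finset.sum_sub_distrib]
      have h0' : ∑ P : IrrCharacter H × IrrCharacter H, (kInt H b p ν₀ χ ψ P : ℂ) * ω P = 0 := by
        rw [← h0]
        apply Finset.sum_congr rfl
        intro P _
        rw [pow_one]
      rw [h0']
      ring
    rw [e]
    apply memLocalIdeal_neg
    apply memLocalIdeal_sum hMp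
    intro P _
    exact memLocalIdeal_mul_left hMp (memLocalRing_intCast hMp.ne_top _)
      (memLocalIdeal_root_sub_one hM (ω P) (n + 1) (hωroot P))
  obtain ⟨J, hJ⟩ : ∃ J : Finset ℕ,
      J = (Finset.range (p ^ (n + 1))).filter (fun j => ¬ p ∣ j) := ⟨_, rfl⟩
  have hJmem : ∀ j ∈ J, ¬ p ∣ j := by
    intro j hj
    rw [hJ, Finset.mem_filter] at hj
    exact hj.2
  have hp1 : 1 ≤ p := hp.out.pos
  have hJcard : (J.card : ℝ) = (p : ℝ) ^ n * ((p : ℝ) - 1) := by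
    have h := ram_sum p (n + 1) hp.out (by omega) 1 (one_pow _)
    rw [← hJ] at h
    simp only [one_pow, Finset.sum_const, nsmul_eq_mul, mul_one, if_true,
      Nat.add_sub_cancel] at h
    exact_mod_cast h
  have hφ : (0 : ℝ) < (p : ℝ) ^ n * ((p : ℝ) - 1) := by
    have h1 : (1 : ℝ) < (p : ℝ) := by exact_mod_cast hp.out.one_lt
    have h2 : (0 : ℝ) < (p : ℝ) ^ n := by positivity
    have h3 : (0 : ℝ) < (p : ℝ) - 1 := by linarith
    positivity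
  have h1 : ∀ χ ∈ Bf, ∀ ψ ∈ Bf,
      (p : ℝ) ^ n * ((p : ℝ) - 1) ≤ ∑ j ∈ J, Complex.normSq (c j χ ψ) := by
    intro χ hχ ψ hψ
    have h := avg_norm_sq_p p (n + 1) hp.out (by omega) (kInt H b p ν₀ χ ψ) ω hωroot (by
      rw [← hcK]
      exact h5 χ hχ ψ hψ)
    simp only [Nat.add_sub_cancel] at h
    rw [hJ]
    simp only [hcK]
    refine le_trans ?_ h
    push_cast [Nat.cast_sub hp1]
    exact le_rfl
  have hrow : ∀ j ∈ J, ∑ χ ∈ Bf, ∑ ψ, Complex.normSq (c j χ ψ)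
      = (p : ℝ) ^ q * ((p : ℝ) ^ q * (l : ℝ)) := by
    intro j hj
    have hjp := hJmem j hj
    have h3 : ∀ χ, ∑ ψ, (Complex.normSq (c j χ ψ) : ℂ) = (p : ℂ) ^ q * c j χ χ := by
      intro χ
      have h := contrib_idem H hM b hbb (t ^ j) (htjc _) (hJ_order j) (hJ_cent j hjp) χ
      rw [hc]
      simp only []
      rw [← h, Finset.mul_sum, Finset.mul_sum]
      apply Finset.sum_congr rfl
      intro ψ _
      rw [← Complex.mul_conj, map_mul, map_pow, Complex.conj_natCast]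
      ring
    have h4 : ∑ χ ∈ Bf, c j χ χ = (p : ℂ) ^ q * (l : ℂ) := by
      have h := contrib_trace H hM b hbb B hb (t ^ j) (htjc _) (hJ_order j) (hJ_cent j hjp)
      rw [hl, ← h, Finset.mul_sum, hc]
      have hBf' : Bf = Finset.univ.filter (fun χ => χ ∈ B) := by
        ext χ
        rw [hBf, Finset.mem_filter]
        simp
      rw [hBf', Finset.sum_filter]
      apply Finset.sum_congr rfl
      intro χ _
      simp only []
      by_cases hχ : χ ∈ B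
      · rw [if_pos hχ, Set.indicator_of_mem hχ, one_mul]
      · rw [if_neg hχ, Set.indicator_of_notMem hχ]
        simp
    have hC : ((∑ χ ∈ Bf, ∑ ψ, Complex.normSq (c j χ ψ) : ℝ) : ℂ)
        = (((p : ℝ) ^ q * ((p : ℝ) ^ q * (l : ℝ)) : ℝ) : ℂ) := by
      push_cast
      simp only [h3]
      rw [← Finset.mul_sum, h4]
    exact_mod_cast hC
  have e1 : (p : ℝ) ^ n * ((p : ℝ) - 1) * (Bf.card : ℝ) ^ 2
      ≤ ∑ χ ∈ Bf, ∑ ψ ∈ Bf, ∑ j ∈ J, Complex.normSq (c j χ ψ) := by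
    have e0 : (p : ℝ) ^ n * ((p : ℝ) - 1) * (Bf.card : ℝ) ^ 2
        = ∑ χ ∈ Bf, ∑ ψ ∈ Bf, (p : ℝ) ^ n * ((p : ℝ) - 1) := by
      simp only [Finset.sum_const, nsmul_eq_mul]
      ring
    rw [e0]
    exact Finset.sum_le_sum (fun χ hχ => Finset.sum_le_sum (fun ψ hψ => h1 χ hχ ψ hψ))
  have e2 : ∑ χ ∈ Bf, ∑ ψ ∈ Bf, ∑ j ∈ J, Complex.normSq (c j χ ψ)
      ≤ ∑ χ ∈ Bf, ∑ ψ, ∑ j ∈ J, Complex.normSq (c j χ ψ) := by
    apply Finset.sum_le_sum
    intro χ _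
    apply Finset.sum_le_sum_of_subset_of_nonneg (Finset.subset_univ _)
    intro ψ _ _
    exact Finset.sum_nonneg (fun _ _ => Complex.normSq_nonneg _)
  have e3 : ∑ χ ∈ Bf, ∑ ψ, ∑ j ∈ J, Complex.normSq (c j χ ψ)
      = ∑ j ∈ J, ∑ χ ∈ Bf, ∑ ψ, Complex.normSq (c j χ ψ) := by
    have hsw : ∀ χ ∈ Bf, ∑ ψ, ∑ j ∈ J, Complex.normSq (c j χ ψ)
        = ∑ j ∈ J, ∑ ψ, Complex.normSq (c j χ ψ) := fun χ _ => Finset.sum_comm
    rw [Finset.sum_congr rfl hsw, Finset.sum_comm]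
  have e4 : ∑ j ∈ J, ∑ χ ∈ Bf, ∑ ψ, Complex.normSq (c j χ ψ)
      = (p : ℝ) ^ n * ((p : ℝ) - 1) * ((p : ℝ) ^ q * ((p : ℝ) ^ q * (l : ℝ))) := by
    rw [Finset.sum_congr rfl hrow, Finset.sum_const, nsmul_eq_mul, hJcard]
  have e5 : (p : ℝ) ^ n * ((p : ℝ) - 1) * (Bf.card : ℝ) ^ 2
      ≤ (p : ℝ) ^ n * ((p : ℝ) - 1) * ((p : ℝ) ^ q * ((p : ℝ) ^ q * (l : ℝ))) := by
    calc (p : ℝ) ^ n * ((p : ℝ) - 1) * (Bf.card : ℝ) ^ 2
        ≤ ∑ χ ∈ Bf, ∑ ψ ∈ Bf, ∑ j ∈ J, Complex.normSq (c j χ ψ) := e1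
      _ ≤ ∑ χ ∈ Bf, ∑ ψ, ∑ j ∈ J, Complex.normSq (c j χ ψ) := e2
      _ = ∑ j ∈ J, ∑ χ ∈ Bf, ∑ ψ, Complex.normSq (c j χ ψ) := e3
      _ = _ := e4
  have e6 : (Bf.card : ℝ) ^ 2 ≤ (p : ℝ) ^ q * ((p : ℝ) ^ q * (l : ℝ)) :=
    le_of_mul_le_mul_left e5 hφ
  have e7 : ((Bf.card ^ 2 : ℕ) : ℝ) ≤ ((p ^ (2 * q) * l : ℕ) : ℝ) := by
    push_cast
    rw [two_mul, pow_add, mul_assoc]
    exact e6
  exact_mod_cast e7

theorem result {G : Type*} [Group G] [Finite G] (p : ℕ) [Fact p.Prime] (M : Ideal Cfsg.AlgInt) (hM : Cfsg.IsPModular p M) (B : Set (Cfsg.IrrCharacter G)) (hB : Cfsg.IsPBlock M B) (d : ℕ) (hd : Cfsg.blockDefect p B = d) (hh : ∀ χ ∈ B, Cfsg.blockHeight p B (χ : G → ℂ) = 0) (y : G) (hy : ∃ k : ℕ, orderOf y = p ^ k) (b : Set (Cfsg.IrrCharacter ↥(Subgroup.centralizer ({y} : Set G)))) (hind : Cfsg.IsInducedBlock M (Subgroup.centralizer ({y} : Set G)) b B) (hbd : Cfsg.blockDefect p b = d) : Nat.card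 B ^ 2 ≤ p ^ (2 * d) * Cfsg.blockRank p b := by
  classical
  have : Fintype G := Fintype.ofFinite G
  have : Fintype (IrrCharacter G) := Fintype.ofFinite _
  have : Fintype (Subgroup.centralizer ({y} : Set G)) := Fintype.ofFinite _
  have : Fintype (IrrCharacter (Subgroup.centralizer ({y} : Set G))) := Fintype.ofFinite _
  obtain ⟨n, hn⟩ := hy
  have hcard : Nat.card B = (Finset.univ.filter (fun χ : IrrCharacter G => χ ∈ B)).card := by
    rw [Nat.card_eq_fintype_card]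
    exact Fintype.card_subtype _
  rw [hcard, ← hbd]
  refine main (Subgroup.centralizer ({y} : Set G)) p M hM B hh y ?_ ?_ le_rfl n hn b hind _ ?_
  · rw [Subgroup.mem_centralizer_iff]
    intro g hg
    rw [Set.mem_singleton_iff] at hg
    rw [hg]
  · intro h
    have := h.2
    rw [Subgroup.mem_centralizer_iff] at this
    exact (this y (Set.mem_singleton y)).symm
  · intro χ
    rw [Finset.mem_filter]
    simp

end Cfsg.Agent.S4716
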