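import Cfsg.Statements.S4718
import Cfsg.Agent.Lib.helper23.BrauerFeit
import Cfsg.Agent.Lib.helper23.DefectSylow
import Cfsg.Agent.Lib.helper23.PrincipalP
import Cfsg.Agent.Lib.helper24.CharComplete

set_option autoImplicit false
universe u
open Cfsg

namespace Cfsg.Agent.S4718

open Cfsg.Agent.Lib.helper23 Cfsg.Agent.Lib.helper24 Cfsg.Agent.Lib.helper5
open scoped ComplexConjugate

theorem landau_aux (K : ℕ) : ∀ D : ℕ, ∃ N : ℕ, ∀ (ι : Type u) (s : Finset ι) (n : ι → ℕ),
    s.card ≤ K → (∀ i ∈ s, 0 < n i) → ∀ D' c : ℕ, 0 < D' → D' ≤ D → 0 < c →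
    (∑ i ∈ s, (1 : ℚ) / (n i : ℚ)) = (c : ℚ) / (D' : ℚ) → ∀ i ∈ s, n i ≤ N := by
  induction K with
  | zero =>
    intro D
    refine ⟨0, ?_⟩
    intro ι s n hs _ D' c _ _ _ _ i hi
    have h0 : s = ∅ := Finset.card_eq_zero.mp (Nat.le_zero.mp hs)
    rw [h0] at hi
    exact absurd hi (Finset.notMem_empty i)
  | succ K ih =>
    intro D
    obtain ⟨N', hN'⟩ := ih (D * ((K + 1) * D))
    refine ⟨max ((K + 1) * D) N', ?_⟩
    intro ι s n hs hn D' c hD' hD'D hc hsum i hi
    classical
    obtain ⟨i₀, hi₀, hmin⟩ := Finset.exists_min_image s n ⟨i, hi⟩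
    have hm0 : 0 < n i₀ := hn i₀ hi₀
    have hD'q : (0 : ℚ) < D' := by exact_mod_cast hD'
    have hmq : (0 : ℚ) < n i₀ := by exact_mod_cast hm0
    have hm : n i₀ ≤ (K + 1) * D := by
      have h1 : (c : ℚ) / D' ≤ (s.card : ℚ) / (n i₀ : ℚ) := by
        rw [← hsum]
        calc ∑ j ∈ s, (1 : ℚ) / (n j : ℚ) ≤ ∑ j ∈ s, (1 : ℚ) / (n i₀ : ℚ) := by
              apply Finset.sum_le_sum
              intro j hj
              apply one_div_le_one_div_of_le hmq
              exact_mod_cast hmin j hj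
          _ = (s.card : ℚ) / (n i₀ : ℚ) := by
              rw [Finset.sum_const, nsmul_eq_mul]
              ring
      have h2 : (c : ℚ) * (n i₀ : ℚ) ≤ (s.card : ℚ) * (D' : ℚ) := by
        rw [div_le_div_iff₀ hD'q hmq] at h1
        exact h1
      have h3 : c * n i₀ ≤ s.card * D' := by exact_mod_cast h2
      calc n i₀ = 1 * n i₀ := (one_mul _).symm
        _ ≤ c * n i₀ := Nat.mul_le_mul_right _ hc
        _ ≤ s.card * D' := h3
        _ ≤ (K + 1) * D := Nat.mul_le_mul hs hD'D
    by_cases hii : i = i₀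
    · rw [hii]
      exact le_trans hm (le_max_left _ _)
    · have hi' : i ∈ s.erase i₀ := Finset.mem_erase.mpr ⟨hii, hi⟩
      have hsum' : ∑ j ∈ s.erase i₀, (1 : ℚ) / (n j : ℚ) = (c : ℚ) / D' - 1 / (n i₀ : ℚ) := by
        rw [← hsum, ← Finset.add_sum_erase s _ hi₀]
        ring
      have hpos : 0 < ∑ j ∈ s.erase i₀, (1 : ℚ) / (n j : ℚ) := by
        apply Finset.sum_pos
        · intro j hj
          have h6 : (0 : ℚ) < n j := by exact_mod_cast hn j (Finset.mem_of_mem_erase hj)
          positivity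
        · exact ⟨i, hi'⟩
      have hcm : D' < c * n i₀ := by
        rw [hsum'] at hpos
        have h4 : (1 : ℚ) / (n i₀ : ℚ) < (c : ℚ) / D' := by linarith
        rw [div_lt_div_iff₀ hmq hD'q] at h4
        have h5 : (D' : ℚ) < (c : ℚ) * (n i₀ : ℚ) := by linarith
        exact_mod_cast h5
      have hle := hN' ι (s.erase i₀) n (by rw [Finset.card_erase_of_mem hi₀]; omega)
        (fun j hj => hn j (Finset.mem_of_mem_erase hj)) (D' * n i₀) (c * n i₀ - D')
        (Nat.mul_pos hD' hm0) (Nat.mul_le_mul hD'D hm) (by omega) (by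
          rw [hsum', Nat.cast_sub hcm.le]
          push_cast
          field_simp) i hi'
      exact le_trans hle (le_max_right _ _)

theorem landau_group (K : ℕ) : ∃ N : ℕ, ∀ (G : Type u) [Group G] [Finite G],
    Nat.card (ConjClasses G) ≤ K → Nat.card G ≤ N := by
  obtain ⟨N, hN⟩ := landau_aux.{u} K 1
  refine ⟨N, ?_⟩
  intro G _ _ hK
  classical
  have : Fintype G := Fintype.ofFinite G
  have : Fintype (ConjClasses G) := Fintype.ofFinite _
  have hcard0 : 0 < Nat.card G := Nat.card_pos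
  have hdvd : ∀ x : ConjClasses G, x.carrier.ncard ∣ Nat.card G := by
    intro x
    obtain ⟨g, rfl⟩ := ConjClasses.mk_surjective x
    rw [← ConjAct.orbit_eq_carrier_conjClasses, ← MulAction.index_stabilizer]
    exact Subgroup.index_dvd_card (MulAction.stabilizer (ConjAct G) g)
  have hpos : ∀ x : ConjClasses G, 0 < x.carrier.ncard := by
    intro x
    obtain ⟨g, rfl⟩ := ConjClasses.mk_surjective x
    rw [Set.ncard_pos (Set.toFinite _)]
    exact ⟨g, ConjClasses.mem_carrier_mk⟩
  have hsum : ∑ x : ConjClasses G, x.carrier.ncard = Nat.card G := by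
    rw [← Group.sum_card_conj_classes_eq_card, finsum_eq_sum_of_fintype]
  have h := hN (ConjClasses G) Finset.univ (fun x => Nat.card G / x.carrier.ncard)
    (by rw [Finset.card_univ, ← Nat.card_eq_fintype_card]; exact hK)
    (fun x _ => Nat.div_pos (Nat.le_of_dvd hcard0 (hdvd x)) (hpos x)) 1 1 one_pos le_rfl one_pos
    (by
      have hG : (Nat.card G : ℚ) ≠ 0 := by exact_mod_cast hcard0.ne'
      have e : ∀ x : ConjClasses G, (1 : ℚ) / ((Nat.card G / x.carrier.ncard : ℕ) : ℚ)
          = (x.carrier.ncard : ℚ) / (Nat.card G : ℚ) := by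
        intro x
        have hx : ((x.carrier.ncard : ℕ) : ℚ) ≠ 0 := by exact_mod_cast (hpos x).ne'
        rw [Nat.cast_div (hdvd x) hx, one_div_div]
      rw [Finset.sum_congr rfl (fun x _ => e x), ← Finset.sum_div, ← Nat.cast_sum, hsum]
      simp)
    (ConjClasses.mk 1) (Finset.mem_univ _)
  have h1 : (ConjClasses.mk (1 : G)).carrier = {1} := by
    ext y
    rw [ConjClasses.mem_carrier_iff_mk_eq, ConjClasses.mk_eq_mk_iff_isConj, Set.mem_singleton_iff]
    constructor
    · intro hy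
      exact isConj_one_left.mp hy
    · rintro rfl
      exact IsConj.refl 1
  simp only [h1, Set.ncard_singleton, Nat.div_one] at h
  exact h

theorem result (p : ℕ) [Fact p.Prime] (a : ℕ) : ∃ N : ℕ, ∀ (G : Type u) [Group G] [Finite G] (M : Ideal Cfsg.AlgInt), Cfsg.IsPModular p M → (Nat.card G).factorization p = a → (∀ B : Set (Cfsg.IrrCharacter G), Cfsg.IsPBlock M B → B = Cfsg.principalBlock M G) → Nat.card G ≤ N := by
  have hp : p.Prime := Fact.out
  obtain ⟨N, hN⟩ := landau_group.{u} (p ^ (2 * a) + 1)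
  refine ⟨N, ?_⟩
  intro G _ _ M hM ha hB
  classical
  have : Fintype G := Fintype.ofFinite G
  have : Fintype (IrrCharacter G) := Fintype.ofFinite _
  have hMp := isPModular_isPrime hM
  apply hN G
  rw [← card_irr_eq_card_conjClasses]
  have hall : ∀ χ : IrrCharacter G, χ ∈ principalBlock M G := by
    intro χ
    rw [← hB (blockOf M χ.1) ⟨χ, rfl⟩]
    exact mem_blockOf_self hMp.ne_top χ
  have hB0 : IsPBlock M (principalBlock M G) := ⟨trivIrr G, rfl⟩
  obtain ⟨P⟩ : Nonempty (Sylow p G) := inferInstance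
  have hPD : IsDefectGroup p M (principalBlock M G) (P : Subgroup G) :=
    (defectGroup_principal_iff p M hM _).mpr ⟨P, rfl⟩
  have hbf := brauer_feit_sum p M hM (principalBlock M G) hB0 (P : Subgroup G) hPD
  have huniv : principalBlock M G = Set.univ := Set.eq_univ_of_forall hall
  rw [huniv, finsum_mem_univ, finsum_eq_sum_of_fintype] at hbf
  have h1 : Nat.card (IrrCharacter G) ≤
      ∑ χ : IrrCharacter G, p ^ (2 * blockHeight p (Set.univ : Set (IrrCharacter G)) χ.1) := by
    rw [Nat.card_eq_fintype_card, ← Finset.card_univ, Finset.card_eq_sum_ones]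
    apply Finset.sum_le_sum
    intro χ _
    exact Nat.one_le_pow _ _ hp.pos
  have h2 : Nat.card (P : Subgroup G) = p ^ a := by
    rw [← ha]
    exact P.card_eq_multiplicity
  have h3 : Nat.card (P : Subgroup G) ^ 2 / 4 + 1 ≤ p ^ (2 * a) + 1 := by
    rw [h2, ← pow_mul, mul_comm a 2]
    exact Nat.add_le_add_right (Nat.div_le_self _ _) 1
  exact le_trans h1 (le_trans hbf h3)

end Cfsg.Agent.S4718
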