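import Cfsg.Statements.S4720
import Cfsg.Agent.Lib.helper5.BlockSecond4
import Cfsg.Agent.Lib.helper23.PrincipalP
import Cfsg.Agent.Lib.helper23.PTrunc2

set_option autoImplicit false
open Cfsg

namespace Cfsg.Agent.S4720

open Cfsg.Agent.Lib.helper23 Cfsg.Agent.Lib.helper24 Cfsg.Agent.Lib.helper5
open scoped ComplexConjugate

theorem card_conj_fiber {G : Type*} [Group G] (N : Subgroup G) (u v : G) (n₀ : G)
    (hn₀ : n₀ ∈ N) (h : n₀ * u * n₀⁻¹ = v) :
    Nat.card {x : N // (x : G) * u * (x : G)⁻¹ = v}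
      = Nat.card ↥(N ⊓ Subgroup.centralizer ({u} : Set G)) := by
  apply Nat.card_congr
  refine ⟨fun x => ⟨n₀⁻¹ * (x.1 : G), ?_⟩, fun c => ⟨⟨n₀ * (c : G), ?_⟩, ?_⟩, ?_, ?_⟩
  · refine Subgroup.mem_inf.mpr ⟨N.mul_mem (N.inv_mem hn₀) x.1.2, ?_⟩
    rw [Subgroup.mem_centralizer_singleton_iff]
    have h1 : (x.1 : G) * u * (x.1 : G)⁻¹ = n₀ * u * n₀⁻¹ := x.2.trans h.symm
    calc n₀⁻¹ * (x.1 : G) * u = n₀⁻¹ * ((x.1 : G) * u * (x.1 : G)⁻¹) * (x.1 : G) := by group
      _ = n₀⁻¹ * (n₀ * u * n₀⁻¹) * (x.1 : G) := by rw [h1]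
      _ = u * (n₀⁻¹ * (x.1 : G)) := by group
  · exact N.mul_mem hn₀ (Subgroup.mem_inf.mp c.2).1
  · have hc := Subgroup.mem_centralizer_singleton_iff.mp (Subgroup.mem_inf.mp c.2).2
    show n₀ * (c : G) * u * (n₀ * (c : G))⁻¹ = v
    rw [← h]
    calc n₀ * (c : G) * u * (n₀ * (c : G))⁻¹ = n₀ * ((c : G) * u) * (c : G)⁻¹ * n₀⁻¹ := by group
      _ = n₀ * (u * (c : G)) * (c : G)⁻¹ * n₀⁻¹ := by rw [hc]
      _ = n₀ * u * n₀⁻¹ := by group
  · intro x
    apply Subtype.ext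
    apply Subtype.ext
    show n₀ * (n₀⁻¹ * (x.1 : G)) = (x.1 : G)
    group
  · intro c
    apply Subtype.ext
    show n₀⁻¹ * (n₀ * (c : G)) = (c : G)
    group

theorem result {G : Type*} [Group G] [Finite G] (p : ℕ) [Fact p.Prime] (M : Ideal Cfsg.AlgInt) (hM : Cfsg.IsPModular p M) (P : Subgroup G) (hP : IsPGroup p P) (N : Subgroup G) (hPN : P ≤ N) (hNN : N ≤ Subgroup.normalizer (P : Set G)) (U : Set G) (hUne : U.Nonempty) (hUP : U ⊆ (P : Set G)) (hUN : ∀ n ∈ N, ∀ u ∈ U, n * u * n⁻¹ ∈ U) (hfus : ∀ u ∈ U, ∀ g : G, g * u * g⁻¹ ∈ (P : Set G) → ∃ n ∈ N, n * u * n⁻¹ = g * u * g⁻¹) (w : ℚ) (hw : ∀ y ∈ U, ((∑ᶠ ψ ∈ Cfsg.principalBlock M ↥(Subgroup.centralizer ({y} : Set G)), Cfsg.charDegree (ψ : ↥(Subgroup.centralizer ({y} : Set G)) → ℂ) ^ 2) : ℚ) = w * Nat.card ↥(N ⊓ Subgroup.centralizer ({y} : Set G))) (θ η : ↥P → ℂ) (hθ : Cfsg.IsGeneralizedCharacter ↥P θ) (hη : Cfsg.IsGeneralizedCharacter ↥P η) (hθU : ∀ y : ↥P, (y : G) ∉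 U → θ y = 0) : ∑ᶠ χ ∈ Cfsg.principalBlock M G, ((Nat.card ↥P : ℂ)⁻¹ * ∑ᶠ y : ↥P, (χ : G → ℂ) (y : G) * θ y⁻¹) * (starRingEnd ℂ) ((Nat.card ↥P : ℂ)⁻¹ * ∑ᶠ y : ↥P, (χ : G → ℂ) (y : G) * η y⁻¹) = ((w : ℂ) / ((Nat.card ↥P : ℂ) ^ 2)) * ∑ᶠ y : ↥P, θ y * (starRingEnd ℂ) (∑ᶠ x : ↥N, Cfsg.extendByZero P η ((x : G) * (y : G) * (x : G)⁻¹)) := by
  classical
  have hp : p.Prime := Fact.out
  have : Fintype G := Fintype.ofFinite G
  have : Fintype P := Fintype.ofFinite P
  have : Fintype N := Fintype.ofFinite N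
  have : Fintype (IrrCharacter G) := Fintype.ofFinite _
  have hMp := isPModular_isPrime hM
  have hB0 : IsPBlock M (principalBlock M G) := ⟨trivIrr G, rfl⟩
  obtain ⟨c, hc⟩ : ∃ c : ℂ, c = (Nat.card ↥P : ℂ)⁻¹ := ⟨_, rfl⟩
  obtain ⟨S, hS⟩ : ∃ S : P → P → ℂ, ∀ u v : P, S u v = ∑ χ : IrrCharacter G,
      (if χ ∈ principalBlock M G then χ.1 ((u : G)⁻¹) * χ.1 (v : G) else 0) :=
    ⟨_, fun u v => rfl⟩
  obtain ⟨cnt, hcnt⟩ : ∃ cnt : P → P → ℕ, ∀ u v : P, cnt u v =
      Nat.card {x : N // (x : G) * (u : G) * (x : G)⁻¹ = (v : G)} := ⟨_, fun u v => rfl⟩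
  have hNP : ∀ (x : N) (u : P), (x : G) * (u : G) * (x : G)⁻¹ ∈ P := by
    intro x u
    exact (Subgroup.mem_normalizer_iff.mp (hNN x.2) (u : G)).mp u.2
  have hL : ∑ᶠ χ ∈ principalBlock M G,
      ((Nat.card ↥P : ℂ)⁻¹ * ∑ᶠ y : ↥P, (χ : G → ℂ) (y : G) * θ y⁻¹) *
      (starRingEnd ℂ) ((Nat.card ↥P : ℂ)⁻¹ * ∑ᶠ y : ↥P, (χ : G → ℂ) (y : G) * η y⁻¹)
      = c * c * ∑ u : P, θ u * ∑ v : P, conj (η v) * S u v := by
    rw [finsum_mem_def, finsum_eq_sum_of_fintype]
    have e1 : ∀ χ : IrrCharacter G, ∑ᶠ y : ↥P, χ.1 (y : G) * θ y⁻¹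
        = ∑ u : P, χ.1 ((u : G)⁻¹) * θ u := by
      intro χ
      rw [finsum_eq_sum_of_fintype, ← Equiv.sum_comp (Equiv.inv P)]
      apply Finset.sum_congr rfl
      intro u _
      rw [Equiv.inv_apply, inv_inv, Subgroup.coe_inv]
    have e2 : ∀ χ : IrrCharacter G, (starRingEnd ℂ) (∑ᶠ y : ↥P, χ.1 (y : G) * η y⁻¹)
        = ∑ v : P, χ.1 (v : G) * conj (η v) := by
      intro χ
      rw [finsum_eq_sum_of_fintype, map_sum, ← Equiv.sum_comp (Equiv.inv P)]
      apply Finset.sum_congr rfl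
      intro v _
      rw [Equiv.inv_apply, inv_inv, Subgroup.coe_inv, map_mul, irr_inv, Complex.conj_conj]
    have e3 : ∀ χ : IrrCharacter G, (principalBlock M G).indicator
        (fun χ : IrrCharacter G =>
          ((Nat.card ↥P : ℂ)⁻¹ * ∑ᶠ y : ↥P, (χ : G → ℂ) (y : G) * θ y⁻¹) *
          (starRingEnd ℂ) ((Nat.card ↥P : ℂ)⁻¹ * ∑ᶠ y : ↥P, (χ : G → ℂ) (y : G) * η y⁻¹)) χ
        = c * c * ∑ u : P, ∑ v : P, (if χ ∈ principalBlock M G
            then θ u * conj (η v) * (χ.1 ((u : G)⁻¹) * χ.1 (v : G)) else 0) := by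
      intro χ
      by_cases hχ : χ ∈ principalBlock M G
      · simp only [Set.indicator_of_mem hχ, if_pos hχ]
        rw [map_mul, e1, e2, map_inv₀, Complex.conj_natCast, ← hc]
        have e4 : c * (∑ u : P, χ.1 ((u : G)⁻¹) * θ u) * (c * ∑ v : P, χ.1 (v : G) * conj (η v))
            = c * c * ((∑ u : P, χ.1 ((u : G)⁻¹) * θ u)
              * ∑ v : P, χ.1 (v : G) * conj (η v)) := by ring
        rw [e4, Finset.sum_mul_sum]
        congr 1
        apply Finset.sum_congr rfl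
        intro u _
        apply Finset.sum_congr rfl
        intro v _
        ring
      · simp only [Set.indicator_of_notMem hχ, if_neg hχ, Finset.sum_const_zero, mul_zero]
    rw [Finset.sum_congr rfl (fun χ _ => e3 χ), ← Finset.mul_sum]
    congr 1
    refine Finset.sum_comm.trans ?_
    apply Finset.sum_congr rfl
    intro u _
    refine Finset.sum_comm.trans ?_
    rw [Finset.mul_sum]
    apply Finset.sum_congr rfl
    intro v _
    rw [hS, Finset.mul_sum, Finset.mul_sum]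
    apply Finset.sum_congr rfl
    intro χ _
    split_ifs
    · ring
    · ring
  have hR : ((w : ℂ) / ((Nat.card ↥P : ℂ) ^ 2)) * ∑ᶠ y : ↥P, θ y * (starRingEnd ℂ)
      (∑ᶠ x : ↥N, Cfsg.extendByZero P η ((x : G) * (y : G) * (x : G)⁻¹))
      = c * c * ∑ u : P, θ u * ∑ v : P, conj (η v) * ((w : ℂ) * (cnt u v : ℂ)) := by
    rw [finsum_eq_sum_of_fintype]
    have e5 : ∀ u : P, (starRingEnd ℂ)
        (∑ᶠ x : ↥N, Cfsg.extendByZero P η ((x : G) * (u : G) * (x : G)⁻¹))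
        = ∑ v : P, conj (η v) * (cnt u v : ℂ) := by
      intro u
      rw [finsum_eq_sum_of_fintype, map_sum]
      have e6 : ∀ x : N, conj (Cfsg.extendByZero P η ((x : G) * (u : G) * (x : G)⁻¹))
          = ∑ v : P, if (x : G) * (u : G) * (x : G)⁻¹ = (v : G) then conj (η v) else 0 := by
        intro x
        rw [extendByZero_apply_mem P η (hNP x u)]
        rw [Finset.sum_eq_single (⟨(x : G) * (u : G) * (x : G)⁻¹, hNP x u⟩ : P)]
        · rw [if_pos rfl]
        · intro v _ hv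
          rw [if_neg]
          intro h
          exact hv (Subtype.ext h.symm)
        · intro h
          exact absurd (Finset.mem_univ _) h
      rw [Finset.sum_congr rfl (fun x _ => e6 x)]
      refine Finset.sum_comm.trans ?_
      apply Finset.sum_congr rfl
      intro v _
      rw [Finset.sum_ite, Finset.sum_const_zero, add_zero, Finset.sum_const, nsmul_eq_mul, hcnt,
        Nat.card_eq_fintype_card, Fintype.card_subtype, mul_comm]
    have e7 : ∀ u : P, θ u * (starRingEnd ℂ)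
        (∑ᶠ x : ↥N, Cfsg.extendByZero P η ((x : G) * (u : G) * (x : G)⁻¹))
        = (w : ℂ)⁻¹ * 0 + θ u * ∑ v : P, conj (η v) * (cnt u v : ℂ) := by
      intro u
      rw [e5 u, mul_zero, zero_add]
    rw [Finset.sum_congr rfl (fun u _ => e7 u)]
    have e8 : ∀ u : P, θ u * ∑ v : P, conj (η v) * ((w : ℂ) * (cnt u v : ℂ))
        = (w : ℂ) * ((w : ℂ)⁻¹ * 0 + θ u * ∑ v : P, conj (η v) * (cnt u v : ℂ)) := by
      intro u
      rw [mul_zero, zero_add, Finset.mul_sum, Finset.mul_sum, Finset.mul_sum]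
      apply Finset.sum_congr rfl
      intro v _
      ring
    rw [Finset.sum_congr rfl (fun u _ => e8 u), ← Finset.mul_sum, hc]
    ring
  have hpu : ∀ z : P, ∃ k : ℕ, orderOf (z : G) = p ^ k := by
    intro z
    obtain ⟨k, hk⟩ := (IsPGroup.iff_orderOf.mp hP) z
    exact ⟨k, by rw [← hk]; exact Subgroup.orderOf_coe z⟩
  have hp1 : ¬ p ∣ 1 := fun h => hp.one_lt.ne' (Nat.dvd_one.mp h)
  have hkey : ∀ u v : P, (u : G) ∈ U → S u v = (w : ℂ) * (cnt u v : ℂ) := by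
    intro u v hu
    by_cases hconj : IsConj (u : G) (v : G)
    · obtain ⟨g, hg⟩ := isConj_iff.mp hconj
      obtain ⟨n₀, hn₀, hn₀'⟩ := hfus (u : G) hu g (by rw [hg]; exact v.2)
      rw [hg] at hn₀'
      rw [hcnt, card_conj_fiber N (u : G) (v : G) n₀ hn₀ hn₀']
      have : Fintype (Subgroup.centralizer ({(u : G)} : Set G)) := Fintype.ofFinite _
      have : Fintype (IrrCharacter (Subgroup.centralizer ({(u : G)} : Set G))) :=
        Fintype.ofFinite _
      have hsec := section_norm_sum hM (u : G) (hpu u) (principalBlock M G) hB0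
        (1 : Subgroup.centralizer ({(u : G)} : Set G)) (by rw [orderOf_one]; exact hp1)
      rw [secSet_principal hM (u : G) (hpu u)] at hsec
      have hwu := congrArg (fun q : ℚ => (q : ℂ)) (hw (u : G) hu)
      have e8 : S u v = ∑ χ : IrrCharacter G,
          (principalBlock M G).indicator (fun _ => (1 : ℂ)) χ
          * (χ.1 ((u : G) * ((1 : Subgroup.centralizer ({(u : G)} : Set G)) : G))
          * conj (χ.1 ((u : G) * ((1 : Subgroup.centralizer ({(u : G)} : Set G)) : G)))) := by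
        rw [hS]
        apply Finset.sum_congr rfl
        intro χ _
        rw [Set.indicator_apply, Subgroup.coe_one, mul_one]
        split_ifs
        · rw [← hg, isClassFunction_irr χ (u : G) g, irr_inv, one_mul, mul_comm]
        · rw [zero_mul]
      rw [e8, hsec]
      rw [finsum_mem_def, finsum_eq_sum_of_fintype] at hwu
      push_cast at hwu
      rw [← hwu]
      apply Finset.sum_congr rfl
      intro ψ _
      rw [Set.indicator_apply, Set.indicator_apply, ← charDegree_cast ψ, Complex.conj_natCast]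
      split_ifs
      · push_cast
        ring
      · simp
    · have h0 : cnt u v = 0 := by
        rw [hcnt]
        have : IsEmpty {x : N // (x : G) * (u : G) * (x : G)⁻¹ = (v : G)} :=
          ⟨fun x => hconj (isConj_iff.mpr ⟨x.1, x.2⟩)⟩
        exact Nat.card_of_isEmpty
      rw [h0, Nat.cast_zero, mul_zero, hS]
      have hxx : ∀ z : P, IsPPart p ((z : G)⁻¹) ((z : G)⁻¹) := by
        intro z
        obtain ⟨k, hk⟩ := hpu z
        exact ⟨1, mul_one _, Commute.one_right _, ⟨k, by rw [orderOf_inv]; exact hk⟩,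
          by rw [orderOf_one]; exact hp1⟩
      have hnc : ¬ IsConj ((u : G)⁻¹) ((v : G)⁻¹) := by
        intro h
        obtain ⟨g, hg⟩ := isConj_iff.mp h
        apply hconj
        rw [isConj_iff]
        refine ⟨g, ?_⟩
        have h1 : g * (u : G) * g⁻¹ = (g * (u : G)⁻¹ * g⁻¹)⁻¹ := by group
        rw [h1, hg, inv_inv]
      have hbo := block_orth hM ((u : G)⁻¹) ((v : G)⁻¹) ((u : G)⁻¹) ((v : G)⁻¹) (hxx u) (hxx v)
        hnc (principalBlock M G) hB0
      rw [finsum_mem_def, finsum_eq_sum_of_fintype] at hbo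
      refine Eq.trans ?_ hbo
      apply Finset.sum_congr rfl
      intro χ _
      rw [Set.indicator_apply, inv_inv]
  rw [hL, hR]
  congr 1
  apply Finset.sum_congr rfl
  intro u _
  by_cases hθu : θ u = 0
  · rw [hθu, zero_mul, zero_mul]
  · have huU : (u : G) ∈ U := by
      by_contra hn
      exact hθu (hθU u hn)
    congr 1
    apply Finset.sum_congr rfl
    intro v _
    rw [hkey u v huU]

end Cfsg.Agent.S4720
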