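import Cfsg.Statements.S4723
import Cfsg.Agent.Lib.helper5.Knorr4
import Cfsg.Agent.S0966
import Cfsg.Agent.S0970
import Cfsg.Agent.Lib.helper22.Gagola2
import Cfsg.Agent.Lib.helper23.CliffordOrbit
import Cfsg.Agent.Lib.helper23.PTrunc2

set_option autoImplicit false
open Cfsg

namespace Cfsg.Agent.S4723

open Cfsg.Agent.Lib.helper5 Cfsg.Agent.Lib.helper23 Cfsg.Agent.Lib.helper24
open scoped ComplexConjugate

/-- Let p be a prime, M a maximal ideal of the algebraic integers containing p, H a normal subgroup of the finite group G and b a p-block of H. Let T be the stabilizer of b in G. Then b contains a character θ of height zero whose own stabilizer in G (the elements g with θ(g h g⁻¹) = θ(h) for all h ∈ H) has index prime to p in T, i.e. contains a Sylow p-subgroup of T. -/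
theorem result {G : Type*} [Group G] [Finite G] (p : ℕ) [Fact p.Prime] (M : Ideal Cfsg.AlgInt) (hM : Cfsg.IsPModular p M) (H : Subgroup G) [H.Normal] (b : Set (Cfsg.IrrCharacter ↥H)) (hb : Cfsg.IsPBlock M b) (T : Subgroup G) (hT : (∀ g : G, g ∈ T ↔ ∀ θ ∈ b, ∀ θ' : Cfsg.IrrCharacter ↥H, (∀ h h' : ↥H, (h' : G) = g * h * g⁻¹ → (θ' : ↥H → ℂ) h' = (θ : ↥H → ℂ) h) → θ' ∈ b)) : ∃ θ ∈ b, Cfsg.blockHeight p b (θ : ↥H → ℂ) = 0 ∧ ∃ S : Subgroup G, S ≤ T ∧ (∀ g : G, g ∈ S ↔ (g ∈ T ∧ ∀ h h' : ↥H, (h' : G) = g * h * g⁻¹ → (θ : ↥H → ℂ) h' = (θ : ↥H → ℂ) h)) ∧ ¬ p ∣ S.relIndex T := by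
  classical
  haveI := Fintype.ofFinite G
  haveI := Fintype.ofFinite (Cfsg.IrrCharacter G)
  haveI : Fintype H := Fintype.ofFinite H
  haveI := Fintype.ofFinite (Cfsg.IrrCharacter H)
  have hMp := isPModular_isPrime hM
  have hp : p.Prime := Fact.out
  have hHn : H.Normal := inferInstance
  have hTs : ∀ g : G, g ∈ T ↔ g ∈ stabSub H hMp b hb := by
    intro g
    rw [hT g]
    constructor
    · intro h
      have h1 : g⁻¹ ∈ stabSub H hMp b hb := by
        refine (mem_stabSub H hMp b hb g⁻¹).mpr ?_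
        intro θ hθ
        apply h θ hθ (Cfsg.Agent.Lib.helper5.conjIrr H g⁻¹ θ)
        intro k k' hkk'
        show θ.1 ⟨g⁻¹ * (k' : G) * g⁻¹⁻¹, _⟩ = θ.1 k
        refine congrArg θ.1 (Subtype.ext ?_)
        show g⁻¹ * (k' : G) * g⁻¹⁻¹ = k
        rw [hkk']
        group
      have h2 := Subgroup.inv_mem _ h1
      rwa [inv_inv] at h2
    · intro h θ hθ θ' hθ'
      have h1 : g⁻¹ ∈ stabSub H hMp b hb := Subgroup.inv_mem _ h
      have h2 : θ' = Cfsg.Agent.Lib.helper5.conjIrr H g⁻¹ θ := by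
        apply Subtype.ext
        funext k'
        rw [conjIrr_val]
        exact hθ' ⟨g⁻¹ * k' * g⁻¹⁻¹, hHn.conj_mem k' k'.2 g⁻¹⟩ k' (by simp [mul_assoc])
      rw [h2]
      exact (mem_stabSub H hMp b hb g⁻¹).mp h1 θ hθ
  have hHT : H ≤ T := fun h hh => (hTs h).mpr (le_stabSub H hMp b hb hh)
  haveI : Fintype T := Fintype.ofFinite T
  obtain ⟨P⟩ : Nonempty (Sylow p T) := inferInstance
  obtain ⟨P', hP'⟩ : ∃ P' : Subgroup G, P' = (P : Subgroup T).map T.subtype := ⟨_, rfl⟩
  have hP'T : P' ≤ T := by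
    rw [hP']
    exact Subgroup.map_subtype_le _
  have hP'p : IsPGroup p P' := by
    rw [hP']
    exact P.isPGroup'.map _
  have hP'idx : ¬ p ∣ P'.relIndex T := by
    have h1 : P'.subgroupOf T = (P : Subgroup T) := by
      rw [hP']
      exact Subgroup.comap_map_eq_self_of_injective T.subtype_injective _
    show ¬ p ∣ (P'.subgroupOf T).index
    rw [h1]
    exact P.not_dvd_index
  obtain ⟨K, hK⟩ : ∃ K : Subgroup G, K = H ⊔ P' := ⟨_, rfl⟩
  have hHK : H ≤ K := by
    rw [hK]
    exact le_sup_left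
  have hP'K : P' ≤ K := by
    rw [hK]
    exact le_sup_right
  have hKT : K ≤ T := by
    rw [hK]
    exact sup_le hHT hP'T
  haveI : Fintype K := Fintype.ofFinite K
  haveI hN' : (H.subgroupOf K).Normal := hHn.subgroupOf K
  haveI : Fintype (H.subgroupOf K) := Fintype.ofFinite _
  haveI := Fintype.ofFinite (Cfsg.IrrCharacter K)
  haveI := Fintype.ofFinite (Cfsg.IrrCharacter (H.subgroupOf K))
  have hidx : ∃ k : ℕ, (H.subgroupOf K).index = p ^ k := by
    have h1 : (H.subgroupOf K).index = H.relIndex P' := by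
      show H.relIndex K = H.relIndex P'
      rw [hK, Subgroup.relIndex_sup_left]
    rw [h1]
    exact IsPGroup.index hP'p (H.subgroupOf P')
  obtain ⟨k, hk⟩ := hidx
  have hb' : Cfsg.IsPBlock M (irrMap (Subgroup.subgroupOfEquivOfLe hHK) '' b) :=
    isPBlock_image_irrMap _ hb
  have hinv' := rel_hinv H K hHK b
    (fun t ht => (mem_stabSub H hMp b hb t).mp ((hTs t).mp (hKT ht)))
  obtain ⟨B', ⟨hB', hcov'⟩, huniq⟩ :=
    Cfsg.Agent.S0966.result p M hM (H.subgroupOf K) ⟨k, hk⟩ _ hb'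
  obtain ⟨D', hD'⟩ := exists_defectGroup_of_isPBlock (p := p) hMp hB'
  have hF := (Cfsg.Agent.S0970.result p M hM (H.subgroupOf K) _ hb'
    (fun g θ hθ θ' h => by
      have h2 : θ' = Cfsg.Agent.Lib.helper5.conjIrr (H.subgroupOf K) g θ :=
        Subtype.ext (funext h)
      rw [h2]
      exact hinv' g θ hθ)
    B' hB' hcov'
    (fun B'' hB'' hcov'' => le_of_eq (by rw [huniq B'' ⟨hB'', hcov''⟩]))
    D' hD').2.2
  have hB'ne : B'.Nonempty := by
    obtain ⟨χ₁, hχ₁, -⟩ := hcov'
    exact ⟨χ₁, hχ₁⟩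
  obtain ⟨χ, hχB', hχmin⟩ : ∃ χ ∈ B', (Cfsg.charDegree χ.1).factorization p
      = sInf ((fun χ : Cfsg.IrrCharacter K => (Cfsg.charDegree χ.1).factorization p) '' B') := by
    obtain ⟨χ, hχ, h⟩ := Nat.sInf_mem
      (hB'ne.image (fun χ : Cfsg.IrrCharacter K => (Cfsg.charDegree χ.1).factorization p))
    exact ⟨χ, hχ, h⟩
  obtain ⟨θ', hθ'con⟩ := exists_constituent_restrict (H.subgroupOf K) χ
  have hθ'b' : θ' ∈ irrMap (Subgroup.subgroupOfEquivOfLe hHK) '' b := by
    obtain ⟨χ₁, hχ₁, θ₁, hθ₁, hcon₁⟩ := hcov'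
    have hsb : Cfsg.SameBlock M χ.1 χ₁.1 := by
      have h0 := isPBlock_eq_blockOf hMp hB' hχB'
      rw [h0] at hχ₁
      exact hχ₁
    obtain ⟨g, hg⟩ := cover_conj (H.subgroupOf K) hMp hsb hθ'con hcon₁
    have h1 := hinv' g θ₁ hθ₁
    rw [isPBlock_eq_blockOf hMp hb' h1]
    exact sameBlock_symm hg
  obtain ⟨e, he0, -, hdeg⟩ :=
    Cfsg.Agent.Lib.helper22.clifford_degree_mult (H.subgroupOf K) χ θ'.2 hθ'con
  obtain ⟨mB, hmB⟩ : ∃ m, m = sInf ((fun χ : Cfsg.IrrCharacter K =>
      (Cfsg.charDegree χ.1).factorization p) '' B') := ⟨_, rfl⟩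
  obtain ⟨mb, hmb⟩ : ∃ m, m = sInf ((fun θ : Cfsg.IrrCharacter (H.subgroupOf K) =>
      (Cfsg.charDegree θ.1).factorization p) ''
        (irrMap (Subgroup.subgroupOfEquivOfLe hHK) '' b)) := ⟨_, rfl⟩
  have hdB : Cfsg.blockDefect p B' = (Nat.card K).factorization p - mB := by
    rw [hmB]
    rfl
  have hdb : Cfsg.blockDefect p (irrMap (Subgroup.subgroupOfEquivOfLe hHK) '' b)
      = (Nat.card (H.subgroupOf K)).factorization p - mb := by
    rw [hmb]
    rfl
  have hcard : (Nat.card K).factorization p = (Nat.card (H.subgroupOf K)).factorization p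
      + (H.subgroupOf K).index.factorization p := by
    rw [← Subgroup.card_mul_index (H.subgroupOf K),
      Nat.factorization_mul Nat.card_pos.ne' Subgroup.index_ne_zero_of_finite,
      Finsupp.add_apply]
  have h1 : mB ≤ (Nat.card K).factorization p := by
    rw [hmB, ← hχmin]
    exact factorization_charDegree_le p χ
  have h2 : mb ≤ (Cfsg.charDegree θ'.1).factorization p := by
    rw [hmb]
    exact Nat.sInf_le ⟨θ', hθ'b', rfl⟩
  have h3 : (Cfsg.charDegree θ'.1).factorization p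
      ≤ (Nat.card (H.subgroupOf K)).factorization p := factorization_charDegree_le p θ'
  have h4 : (Cfsg.charDegree χ.1).factorization p = mB := by
    rw [hmB]
    exact hχmin
  have hidx0 : (conjStab (H.subgroupOf K) θ'.1).index ≠ 0 := Subgroup.index_ne_zero_of_finite
  have h5 : (Cfsg.charDegree χ.1).factorization p = e.factorization p
      + (conjStab (H.subgroupOf K) θ'.1).index.factorization p
      + (Cfsg.charDegree θ'.1).factorization p := by
    rw [hdeg, Nat.factorization_mul (mul_ne_zero he0 hidx0) (charDegree_ne_zero' θ'),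
      Nat.factorization_mul he0 hidx0, Finsupp.add_apply, Finsupp.add_apply]
  rw [hdB, hdb] at hF
  have h6 : (conjStab (H.subgroupOf K) θ'.1).index.factorization p = 0 := by omega
  have h7 : (Cfsg.charDegree θ'.1).factorization p = mb := by omega
  have ht1 : (conjStab (H.subgroupOf K) θ'.1).index = 1 := by
    have hdvd : (conjStab (H.subgroupOf K) θ'.1).index ∣ p ^ k := by
      rw [← hk]
      exact Subgroup.index_dvd_of_le
        (Cfsg.Agent.Lib.helper23.le_conjStab (H.subgroupOf K) (isClassFunction_irr θ'))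
    obtain ⟨j, -, hj⟩ := (Nat.dvd_prime_pow hp).mp hdvd
    rw [hj, Nat.Prime.factorization_pow hp, Finsupp.single_eq_same] at h6
    rw [hj, h6, pow_zero]
  have hstab : conjStab (H.subgroupOf K) θ'.1 = ⊤ := Subgroup.index_eq_one.mp ht1
  obtain ⟨θ, hθb, rfl⟩ := hθ'b'
  refine ⟨θ, hθb, ?_, ?_⟩
  · have e1 : Cfsg.blockHeight p b θ.1 = (Cfsg.charDegree θ.1).factorization p
        - sInf ((fun ψ : Cfsg.IrrCharacter H => (Cfsg.charDegree ψ.1).factorization p) '' b) :=
      rfl
    have e2 : (fun θ : Cfsg.IrrCharacter (H.subgroupOf K) =>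
          (Cfsg.charDegree θ.1).factorization p) ''
          (irrMap (Subgroup.subgroupOfEquivOfLe hHK) '' b)
        = (fun ψ : Cfsg.IrrCharacter H => (Cfsg.charDegree ψ.1).factorization p) '' b := by
      rw [Set.image_image]
      apply Set.image_congr
      intro ψ _
      show (Cfsg.charDegree (irrMap (Subgroup.subgroupOfEquivOfLe hHK) ψ).1).factorization p = _
      rw [charDegree_irrMap]
    rw [e1, ← e2, ← hmb, ← charDegree_irrMap (Subgroup.subgroupOfEquivOfLe hHK) θ, h7,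
      Nat.sub_self]
  · refine ⟨T ⊓ conjStab H θ.1, inf_le_left, ?_, ?_⟩
    · intro g
      rw [Subgroup.mem_inf, mem_conjStab]
      constructor
      · rintro ⟨hgT, hg⟩
        refine ⟨hgT, ?_⟩
        intro h h' hh'
        rw [← congrFun hg h]
        exact congrArg θ.1 (Subtype.ext hh')
      · rintro ⟨hgT, hg⟩
        refine ⟨hgT, ?_⟩
        funext h
        exact hg h ⟨g * h * g⁻¹, hHn.conj_mem h h.2 g⟩ rfl
    · have hKS : K ≤ T ⊓ conjStab H θ.1 := by
        intro g hg
        refine Subgroup.mem_inf.mpr ⟨hKT hg, ?_⟩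
        rw [mem_conjStab]
        have h1 : (⟨g, hg⟩ : K) ∈ conjStab (H.subgroupOf K)
            (irrMap (Subgroup.subgroupOfEquivOfLe hHK) θ).1 := by
          rw [hstab]
          exact Subgroup.mem_top _
        rw [mem_conjStab] at h1
        funext h
        have h2 := congrFun h1 ((Subgroup.subgroupOfEquivOfLe hHK).symm h)
        have h3 : (irrMap (Subgroup.subgroupOfEquivOfLe hHK) θ).1
            ((Subgroup.subgroupOfEquivOfLe hHK).symm h) = θ.1 h := by
          show θ.1 ((Subgroup.subgroupOfEquivOfLe hHK)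
            ((Subgroup.subgroupOfEquivOfLe hHK).symm h)) = θ.1 h
          rw [MulEquiv.apply_symm_apply]
        rw [h3] at h2
        rw [← h2]
        exact congrArg θ.1 (Subtype.ext rfl)
      intro hdvd
      apply hP'idx
      exact dvd_trans hdvd (Subgroup.relIndex_dvd_of_le_left T (hP'K.trans hKS))

end Cfsg.Agent.S4723
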