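import Cfsg.Statements.S4725
import Mathlib
import Cfsg.Agent.Lib.helper5.FongReynolds
import Cfsg.Agent.S4430
import Cfsg.Agent.Lib.helper23.PTrunc2

set_option autoImplicit false
open Cfsg

namespace Cfsg.Agent.S4725

open Cfsg.Agent.Lib.helper5 Cfsg.Agent.Lib.helper23 Cfsg.Agent.Lib.helper24
open scoped ComplexConjugate

/-- Let p be a prime, M a maximal ideal of the algebraic integers containing p, H a subgroup of the finite group G, and b a p-block of H inducing the p-block B of G, with b and B of the same defect. Then for every height-zero ζ ∈ b there is a height-zero χ ∈ B whose multiplicity in the character induced from ζ is not divisible by p. -/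
theorem result {G : Type*} [Group G] [Fintype G] (p : ℕ) [Fact p.Prime] (M : Ideal Cfsg.AlgInt) (hM : Cfsg.IsPModular p M) (H : Subgroup G) (b : Set (Cfsg.IrrCharacter ↥H)) (B : Set (Cfsg.IrrCharacter G)) (hind : Cfsg.IsInducedBlock M H b B) (hdef : Cfsg.blockDefect p b = Cfsg.blockDefect p B) (ζ : Cfsg.IrrCharacter ↥H) (hζ : ζ ∈ b) (hζ0 : Cfsg.blockHeight p b (ζ : ↥H → ℂ) = 0) : ∃ χ ∈ B, Cfsg.blockHeight p B (χ : G → ℂ) = 0 ∧ ∃ a : ℕ, Cfsg.classInner (Cfsg.indFun H (ζ : ↥H → ℂ)) (χ : G → ℂ) = (a : ℂ) ∧ ¬ p ∣ a := by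
  classical
  haveI := Fintype.ofFinite (Cfsg.IrrCharacter G)
  haveI : Fintype H := Fintype.ofFinite H
  have hp : p.Prime := Fact.out
  have hMp := isPModular_isPrime hM
  obtain ⟨⟨n, hn, hn0, hnfac⟩, -⟩ := Cfsg.Agent.S4430.result p M hM H b B hind ζ hζ
  have hind_char : Cfsg.IsCharacter G (Cfsg.indFun H ζ.1) :=
    isCharacter_indFun H (isCharacter_irr ζ)
  choose m hm using fun χ : Cfsg.IrrCharacter G => isCharacter_inner_irr_nat hind_char χ
  have hnsum : n = ∑ χ : Cfsg.IrrCharacter G, if χ ∈ B then m χ * Cfsg.charDegree χ.1 else 0 := by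
    apply Nat.cast_injective (R := ℂ)
    rw [← hn, blockPart_apply, finsum_mem_def, finsum_eq_sum_of_fintype, Nat.cast_sum]
    apply Finset.sum_congr rfl
    intro χ _
    by_cases hχ : χ ∈ B
    · rw [Set.indicator_of_mem hχ, if_pos hχ, hm, Nat.cast_mul, charDegree_cast]
    · rw [Set.indicator_of_notMem hχ, if_neg hχ, Nat.cast_zero]
  -- the minimal valuations
  set mB := sInf ((fun χ : Cfsg.IrrCharacter G => (Cfsg.charDegree (χ : G → ℂ)).factorization p) '' B)
    with hmB
  set mb := sInf ((fun χ : Cfsg.IrrCharacter H => (Cfsg.charDegree (χ : H → ℂ)).factorization p) '' b)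
    with hmb
  have hBle : ∀ χ ∈ B, mB ≤ (Cfsg.charDegree χ.1).factorization p := fun χ hχ =>
    Nat.sInf_le ⟨χ, hχ, rfl⟩
  have hble : ∀ χ ∈ b, mb ≤ (Cfsg.charDegree χ.1).factorization p := fun χ hχ =>
    Nat.sInf_le ⟨χ, hχ, rfl⟩
  obtain ⟨-, hBblock, -⟩ := hind
  obtain ⟨χ₀, rfl⟩ := hBblock
  have hχ₀ : χ₀ ∈ Cfsg.blockOf M χ₀.1 := mem_blockOf_self hMp.ne_top χ₀
  have hmBle : mB ≤ (Nat.card G).factorization p :=
    (hBle χ₀ hχ₀).trans (factorization_charDegree_le p χ₀)
  have hmble : mb ≤ (Nat.card H).factorization p :=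
    (hble ζ hζ).trans (factorization_charDegree_le p ζ)
  have hζfac : (Cfsg.charDegree ζ.1).factorization p = mb := by
    have h1 : (Cfsg.charDegree ζ.1).factorization p - mb = 0 := hζ0
    have h2 := hble ζ hζ
    omega
  have hdef' : (Nat.card H).factorization p - mb = (Nat.card G).factorization p - mB := hdef
  have hcard : (Nat.card G).factorization p
      = (Nat.card H).factorization p + H.index.factorization p := by
    rw [← Subgroup.card_mul_index H, Nat.factorization_mul Nat.card_pos.ne'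
      (Subgroup.index_ne_zero_of_finite)]
    rfl
  have hdeg : Cfsg.charDegree (Cfsg.indFun H ζ.1) = H.index * Cfsg.charDegree ζ.1 := by
    apply Cfsg.Agent.S4430.charDegree_of_eq
    rw [indFun_one, Nat.cast_mul, charDegree_cast]
  have hnfac' : n.factorization p = mB := by
    rw [hnfac, hdeg, Nat.factorization_mul Subgroup.index_ne_zero_of_finite
      (charDegree_ne_zero' ζ)]
    show H.index.factorization p + (Cfsg.charDegree ζ.1).factorization p = mB
    rw [hζfac]
    omega
  by_contra hcon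
  push Not at hcon
  have hdvd : p ^ (mB + 1) ∣ n := by
    rw [hnsum]
    apply Finset.dvd_sum
    intro χ _
    by_cases hχ : χ ∈ Cfsg.blockOf M χ₀.1
    · rw [if_pos hχ]
      by_cases hh : Cfsg.blockHeight p (Cfsg.blockOf M χ₀.1) χ.1 = 0
      · have h1 : p ∣ m χ := by
          by_contra h1
          exact h1 (hcon χ hχ hh (m χ) (hm χ))
        have h2 : p ^ mB ∣ Cfsg.charDegree χ.1 :=
          (Nat.Prime.pow_dvd_iff_le_factorization hp (charDegree_ne_zero' χ)).mpr (hBle χ hχ)
        rw [pow_succ, mul_comm]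
        exact mul_dvd_mul h1 h2
      · have h1 : (Cfsg.charDegree χ.1).factorization p - mB ≠ 0 := hh
        have h2 : p ^ (mB + 1) ∣ Cfsg.charDegree χ.1 :=
          (Nat.Prime.pow_dvd_iff_le_factorization hp (charDegree_ne_zero' χ)).mpr (by omega)
        exact Dvd.dvd.mul_left h2 _
    · rw [if_neg hχ]
      exact dvd_zero _
  have := (Nat.Prime.pow_dvd_iff_le_factorization hp hn0).mp hdvd
  omega

end Cfsg.Agent.S4725
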