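import Cfsg.Statements.S4726
import Cfsg.Agent.Lib.helper5.NS1

set_option autoImplicit false
open Cfsg

namespace Cfsg.Agent.S4726

open Cfsg.Agent.Lib.helper5 Cfsg.Agent.Lib.helper23 Cfsg.Agent.Lib.helper24
open scoped ComplexConjugate

/-- Let p be a prime, M a maximal ideal of the algebraic integers containing p, H a subgroup of the finite group G and b a p-block of H with defect group D₀ such that C_G(D₀) ≤ H. Then b induces a block of G, and for every block B of G induced by b there is a defect group D of B with Z(D) ≤ Z(D₀) ≤ D₀ ≤ D (as subgroups of G). In particular, if the defect groups of B are abelian then D₀ is a defect group of B. -/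
theorem result {G : Type*} [Group G] [Finite G] (p : ℕ) [Fact p.Prime] (M : Ideal Cfsg.AlgInt) (hM : Cfsg.IsPModular p M) (H : Subgroup G) (b : Set (Cfsg.IrrCharacter ↥H)) (hb : Cfsg.IsPBlock M b) (D₀ : Subgroup ↥H) (hD₀ : Cfsg.IsDefectGroup p M b D₀) (hC : Subgroup.centralizer ((D₀.map H.subtype : Subgroup G) : Set G) ≤ H) : Cfsg.InducedBlockDefined M H b ∧ ∀ B : Set (Cfsg.IrrCharacter G), Cfsg.IsInducedBlock M H b B → (∃ D : Subgroup G, Cfsg.IsDefectGroup p M B D ∧ (Subgroup.center ↥D).map D.subtype ≤ ((Subgroup.center ↥D₀).map D₀.subtype).map H.subtype ∧ ((Subgroup.center ↥D₀).map D₀.subtype).map H.subtype ≤ D₀.map H.subtype ∧ D₀.map H.subtype ≤ D) ∧ (∀ D : Subgroup G, Cfsg.IsDefectGroup p M B D → IsMulCommutative ↥D → Cfsg.IsDefectGroup p M B (D₀.map H.subtype)) := by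
  classical
  haveI := Fintype.ofFinite G
  haveI := Fintype.ofFinite (Cfsg.IrrCharacter G)
  have hMp := isPModular_isPrime hM
  obtain ⟨ψ, rfl⟩ := hb
  obtain ⟨P₀, hP₀⟩ : ∃ P₀ : Subgroup G, P₀ = D₀.map H.subtype := ⟨_, rfl⟩
  rw [← hP₀] at hC ⊢
  have hP₀H : P₀ ≤ H := by
    rw [hP₀]
    exact Subgroup.map_subtype_le _
  have hsub : P₀.subgroupOf H = D₀ := by
    rw [hP₀]
    exact Subgroup.comap_map_eq_self_of_injective H.subtype_injective D₀
  have hdef : Cfsg.IsDefectGroup p M (Cfsg.blockOf M ψ.1) (P₀.subgroupOf H) := by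
    rw [hsub]
    exact hD₀
  obtain ⟨χ₀, hind, -⟩ := nested_step hM H P₀ hP₀H hC ψ hdef
  refine ⟨⟨_, hind⟩, ?_⟩
  intro B hB
  have hBeq : B = Cfsg.blockOf M χ₀.1 := induced_unique hMp hB hind
  rw [hBeq]
  obtain ⟨D, hD, hP₀D, hDc⟩ := nested_main hM χ₀ _ H P₀ hP₀H hC ψ hdef hind rfl
  constructor
  · refine ⟨D, hD, ?_, (by rw [hP₀]; exact Subgroup.map_mono (Subgroup.map_subtype_le _)),
      hP₀D⟩
    rintro x ⟨z, hz, rfl⟩
    have hzc : ∀ w ∈ D, (z : G) * w = w * (z : G) := by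
      intro w hw
      have h1 := Subgroup.mem_center_iff.mp hz ⟨w, hw⟩
      exact (congrArg Subtype.val h1).symm
    have hzP₀ : (z : G) ∈ P₀ := hDc (z : G) z.2 hzc
    rw [hP₀] at hzP₀
    obtain ⟨d, hd, hdz⟩ := hzP₀
    have hdz' : (d : G) = (z : G) := hdz
    refine ⟨d, ⟨⟨d, hd⟩, ?_, rfl⟩, hdz⟩
    refine Subgroup.mem_center_iff.mpr ?_
    intro w
    apply Subtype.ext
    apply Subtype.ext
    show ((w : H) : G) * (d : G) = (d : G) * ((w : H) : G)
    have hwD : ((w : H) : G) ∈ D := hP₀D (by rw [hP₀]; exact ⟨(w : H), w.2, rfl⟩)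
    have h2 := hzc _ hwD
    rw [hdz']
    exact h2.symm
  · intro D' hD' hcomm
    obtain ⟨y, hy⟩ := Cfsg.Agent.Lib.helper22.defectGroup_conj_of hM χ₀ hD' hD
    have hDP₀ : D ≤ P₀ := by
      intro x hx
      apply hDc x hx
      intro w hw
      have hx' : y⁻¹ * x * y ∈ D' := by
        rw [hy] at hx
        exact mem_map_conj.mp hx
      have hw' : y⁻¹ * w * y ∈ D' := by
        rw [hy] at hw
        exact mem_map_conj.mp hw
      have h1 := isMulCommutative_iff.mp hcomm (⟨y⁻¹ * x * y, hx'⟩ : D') ⟨y⁻¹ * w * y, hw'⟩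
      have h2 : (y⁻¹ * x * y) * (y⁻¹ * w * y) = (y⁻¹ * w * y) * (y⁻¹ * x * y) :=
        congrArg Subtype.val h1
      have h3 : x * w = y * ((y⁻¹ * x * y) * (y⁻¹ * w * y)) * y⁻¹ := by group
      rw [h3, h2]
      group
    have hDeq : D = P₀ := le_antisymm hDP₀ hP₀D
    rw [← hDeq]
    exact hD

end Cfsg.Agent.S4726
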