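import Cfsg.Statements.S4731
import Cfsg.Agent.Lib.helper23.TwoPrimes
import Cfsg.Agent.Lib.helper23.BlockIndep
import Cfsg.Agent.Lib.helper23.GenDeg
import Cfsg.Agent.Lib.helper23.MinMax
import Cfsg.Agent.Lib.helper5.BlockOrth
import Cfsg.Agent.Lib.helper24.CharKer

set_option autoImplicit false
open Cfsg

namespace Cfsg.Agent.S4731

open Cfsg.Agent.Lib.helper5 Cfsg.Agent.Lib.helper23 Cfsg.Agent.Lib.helper24
open scoped ComplexConjugate

theorem algInt_of_local (q : ℕ) (hq : q.Prime) (b : ℕ) (S : ℂ) (hS : IsIntegral ℤ S)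
    (h : ∀ M' : Ideal Cfsg.AlgInt, Cfsg.IsPModular q M' →
      Cfsg.MemLocalRing M' (S / (q : ℂ) ^ b)) :
    ∃ ω : Cfsg.AlgInt, S = (q : ℂ) ^ b * (ω : ℂ) := by
  let S' : Cfsg.AlgInt := ⟨S, hS⟩
  let J : Ideal Cfsg.AlgInt := Ideal.span {(q : Cfsg.AlgInt) ^ b}
  let I : Ideal Cfsg.AlgInt := Submodule.comap (LinearMap.mulRight Cfsg.AlgInt S') J
  have hmem : ∀ r : Cfsg.AlgInt, r ∈ I ↔ r * S' ∈ J := by
    intro r
    rfl
  have hq0 : (q : ℂ) ^ b ≠ 0 := pow_ne_zero _ (by exact_mod_cast hq.ne_zero)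
  by_cases hI : I = ⊤
  · have h1 : (1 : Cfsg.AlgInt) ∈ I := by rw [hI]; exact Submodule.mem_top
    rw [hmem, one_mul] at h1
    obtain ⟨ω, hω⟩ := Ideal.mem_span_singleton'.mp h1
    refine ⟨ω, ?_⟩
    have h2 := congrArg (fun t : Cfsg.AlgInt => (t : ℂ)) hω
    simp only [MulMemClass.coe_mul, SubmonoidClass.coe_pow] at h2
    rw [mul_comm]
    have h3 : ((q : Cfsg.AlgInt) : ℂ) = (q : ℂ) := by simp
    rw [h3] at h2
    exact h2.symm
  · exfalso
    obtain ⟨M', hM', hle⟩ := Ideal.exists_le_maximal I hI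
    by_cases hqM : (q : Cfsg.AlgInt) ∈ M'
    · obtain ⟨a, s, hs, has⟩ := h M' ⟨hq, hM', hqM⟩
      apply hs
      apply hle
      rw [hmem]
      apply Ideal.mem_span_singleton'.mpr
      refine ⟨a, ?_⟩
      apply Subtype.ext
      have hs0 : (s : ℂ) ≠ 0 := by
        intro h0
        apply hs
        have : s = 0 := Subtype.ext h0
        rw [this]
        exact M'.zero_mem
      have h3 : ((q : Cfsg.AlgInt) : ℂ) = (q : ℂ) := by simp
      simp only [MulMemClass.coe_mul, SubmonoidClass.coe_pow, h3]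
      show (a : ℂ) * (q : ℂ) ^ b = (s : ℂ) * S
      field_simp at has
      linear_combination has
    · apply hqM
      have h1 : (q : Cfsg.AlgInt) ^ b ∈ I := by
        rw [hmem]
        exact Ideal.mul_mem_right _ _ (Ideal.subset_span rfl)
      exact hM'.isPrime.mem_of_pow_mem b (hle h1)

theorem not_dvd_card_centralizer {G : Type*} [Group G] [Finite G] (p q : ℕ) (hp : p.Prime)
    (hq : q.Prime) (hpq : p ≠ q) (hno : ∀ g : G, orderOf g ≠ p * q) (x : G)
    (hx : p ∣ orderOf x) : ¬ q ∣ Nat.card (Subgroup.centralizer ({x} : Set G)) := by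
  intro hd
  have : Fact q.Prime := ⟨hq⟩
  obtain ⟨c, hc⟩ := exists_prime_orderOf_dvd_card' q hd
  have hc' : orderOf (c : G) = q := by rw [Subgroup.orderOf_coe]; exact hc
  have hcomm : Commute x (c : G) := by
    have h1 := c.2
    rw [Subgroup.mem_centralizer_singleton_iff] at h1
    exact h1.symm
  by_cases hqx : q ∣ orderOf x
  · obtain ⟨z, hz⟩ := exists_orderOf_eq_mul_of_dvd p q hp hq hpq x hx hqx
    exact hno z hz
  · have hcop : Nat.Coprime (orderOf x) (orderOf (c : G)) := by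
      rw [hc']
      exact ((Nat.Prime.coprime_iff_not_dvd hq).mpr hqx).symm
    have ho := hcomm.orderOf_mul_eq_mul_orderOf_of_coprime hcop
    obtain ⟨z, hz⟩ := exists_orderOf_eq_mul_of_dvd p q hp hq hpq (x * (c : G))
      (by rw [ho]; exact Dvd.dvd.mul_right hx _) (by rw [ho, hc']; exact Dvd.intro_left _ rfl)
    exact hno z hz

theorem pow_dvd_index {G : Type*} [Group G] [Finite G] (p q : ℕ) (hp : p.Prime)
    (hq : q.Prime) (hpq : p ≠ q) (hno : ∀ g : G, orderOf g ≠ p * q) (x : G)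
    (hx : p ∣ orderOf x) :
    q ^ (Nat.card G).factorization q ∣ (Subgroup.centralizer ({x} : Set G)).index := by
  have h1 := not_dvd_card_centralizer p q hp hq hpq hno x hx
  have h2 : q ^ (Nat.card G).factorization q ∣ Nat.card G := Nat.ordProj_dvd _ _
  have h3 := Subgroup.card_mul_index (Subgroup.centralizer ({x} : Set G))
  obtain ⟨N, hN⟩ : ∃ N, N = (Nat.card G).factorization q := ⟨_, rfl⟩
  rw [← hN] at h2 ⊢
  rw [← h3] at h2
  exact (Nat.Coprime.pow_left _ ((Nat.Prime.coprime_iff_not_dvd hq).mpr h1)).dvd_of_dvd_mul_left h2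

theorem irr_isIntegral {G : Type*} [Group G] [Finite G] (χ : IrrCharacter G) (g : G) :
    IsIntegral ℤ (χ.1 g) := by
  obtain ⟨n, ρ, _, h⟩ := χ.2
  rw [← h]
  exact genrep_char_isIntegral ρ g (isOfFinOrder_of_finite g)

theorem natCast_isIntegral (n : ℕ) : IsIntegral ℤ (n : ℂ) := by
  have h : IsIntegral ℤ (algebraMap ℤ ℂ (n : ℤ)) := isIntegral_algebraMap
  simpa using h

theorem result {G : Type*} [Group G] [Finite G] (p q : ℕ) [Fact p.Prime] [Fact q.Prime] (hpq : p ≠ q) (Mp Mq : Ideal Cfsg.AlgInt) (hMp : Cfsg.IsPModular p Mp) (hMq : Cfsg.IsPModular q Mq) (hno : ∀ g : G, orderOf g ≠ p * q) (b : ℕ) (hb : (Nat.card G).factorization q = b) (Bp : Set (Cfsg.IrrCharacter G)) (hBp : Cfsg.IsPBlock Mp Bp) (Bq : Set (Cfsg.IrrCharacter G)) (hBq : Cfsg.IsPBlock Mq Bq) (y : G) (hy : p ∣ orderOf y) : ∃ ω : Cfsg.AlgInt, ∑ᶠ χ ∈ Bp ∩ Bq, (Cfsg.charDegree (χ : G → ℂ) : ℂ) * (χ : G → ℂ) y = (q : ℂ) ^ b * (ω : ℂ) := by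
  classical
  have := Fintype.ofFinite G
  have := Fintype.ofFinite (IrrCharacter G)
  have hp : p.Prime := hMp.1
  have hq : q.Prime := hMq.1
  obtain ⟨χp, rfl⟩ := hBp
  obtain ⟨χq, rfl⟩ := hBq
  have hq0 : (q : ℂ) ^ b ≠ 0 := pow_ne_zero _ (by exact_mod_cast hq.ne_zero)
  obtain ⟨Ψ, hΨ⟩ : ∃ Ψ : G → ℂ, Ψ = fun x => ∑ χ : IrrCharacter G,
      if χ ∈ Cfsg.blockOf Mp χp.1 then χ.1 x * χ.1 y else 0 := ⟨_, rfl⟩
  have hΨreg : ∀ x : G, ¬ p ∣ orderOf x → Ψ x = 0 := by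
    intro x hx
    have h := block_weak_orth hMp χp x y⁻¹ hx (by rw [orderOf_inv]; exact hy)
    rw [finsum_mem_eq_sum_ite] at h
    rw [hΨ]
    refine Eq.trans ?_ h
    apply Finset.sum_congr rfl
    intro χ _
    rw [irr_inv, Complex.conj_conj]
  have hΨint : ∀ x : G, IsIntegral ℤ (Ψ x) := by
    intro x
    rw [hΨ]
    apply IsIntegral.sum
    intro χ _
    split_ifs
    · exact (irr_isIntegral χ x).mul (irr_isIntegral χ y)
    · exact isIntegral_zero
  have hΨcl : ∀ g h : G, Ψ (h * g * h⁻¹) = Ψ g := by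
    intro g h
    rw [hΨ]
    apply Finset.sum_congr rfl
    intro χ _
    rw [isClassFunction_irr χ g h]
  have hS : ∑ᶠ χ ∈ Cfsg.blockOf Mp χp.1 ∩ Cfsg.blockOf Mq χq.1,
      (Cfsg.charDegree (χ : G → ℂ) : ℂ) * (χ : G → ℂ) y
      = ∑ x : G, Cfsg.blockCoeff (Cfsg.blockOf Mq χq.1) x * Ψ x := by
    rw [finsum_mem_eq_sum_ite, hΨ]
    simp only [Finset.mul_sum]
    rw [Finset.sum_comm]
    apply Finset.sum_congr rfl
    intro χ _
    have h1 := sum_coef_mul ((Cfsg.blockOf Mq χq.1).indicator (fun _ => (1 : ℂ))) χ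
    simp only [coef_indicator] at h1
    by_cases hχp : χ ∈ Cfsg.blockOf Mp χp.1
    · simp only [if_pos hχp]
      have h2 : ∑ x : G, Cfsg.blockCoeff (Cfsg.blockOf Mq χq.1) x * (χ.1 x * χ.1 y)
          = (∑ x : G, Cfsg.blockCoeff (Cfsg.blockOf Mq χq.1) x * χ.1 x) * χ.1 y := by
        rw [Finset.sum_mul]
        apply Finset.sum_congr rfl
        intro x _
        ring
      rw [h2, h1]
      by_cases hχq : χ ∈ Cfsg.blockOf Mq χq.1
      · rw [if_pos ⟨hχp, hχq⟩, Set.indicator_of_mem hχq, one_mul, charDegree_cast]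
      · rw [if_neg (fun h => hχq h.2), Set.indicator_of_notMem hχq, zero_mul, zero_mul]
    · simp only [if_neg hχp, mul_zero, Finset.sum_const_zero]
      rw [if_neg (fun h => hχp h.1)]
  have hSint : IsIntegral ℤ (∑ᶠ χ ∈ Cfsg.blockOf Mp χp.1 ∩ Cfsg.blockOf Mq χq.1,
      (Cfsg.charDegree (χ : G → ℂ) : ℂ) * (χ : G → ℂ) y) := by
    rw [finsum_mem_eq_sum_ite]
    apply IsIntegral.sum
    intro χ _
    split_ifs
    · exact (natCast_isIntegral _).mul (irr_isIntegral χ y)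
    · exact isIntegral_zero
  apply algInt_of_local q hq b _ hSint
  intro M' hM'
  have hM'p := Cfsg.Agent.Lib.helper23.isPModular_isPrime hM'
  have hBq' : Cfsg.blockOf Mq χq.1 = Cfsg.blockOf M' χq.1 := by
    ext χ
    exact ⟨fun h => sameBlock_indep q hMq hM' χq χ h, fun h => sameBlock_indep q hM' hMq χq χ h⟩
  rw [hS, sum_eq_sum_conjClasses (fun x => Cfsg.blockCoeff (Cfsg.blockOf Mq χq.1) x * Ψ x)
    (by
      intro g h
      rw [Cfsg.Agent.Lib.helper5.blockCoeff_conj, hΨcl])]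
  rw [Finset.sum_div]
  apply memLocalRing_sum hM'p
  intro c _
  by_cases hc : p ∣ orderOf (Quotient.out c)
  · obtain ⟨k, hk⟩ := pow_dvd_index p q hp hq hpq hno _ hc
    rw [hb] at hk
    rw [hk]
    push_cast
    rw [mul_assoc, mul_div_cancel_left₀ _ hq0]
    apply memLocalRing_mul hM'p (memLocalRing_natCast hM'p.ne_top k)
    apply memLocalRing_mul hM'p
    · rw [hBq']
      exact memLocalRing_blockCoeff hM' χq _
    · exact memLocalRing_of_isIntegral hM'p.ne_top (hΨint _)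
  · rw [hΨreg _ hc, mul_zero, mul_zero, zero_div]
    exact memLocalRing_of_isIntegral hM'p.ne_top isIntegral_zero

end Cfsg.Agent.S4731
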