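import Cfsg.Statements.S4748
import Mathlib
import Cfsg.Agent.Lib.helper23.TISmall
import Cfsg.Agent.Lib.helper10.LocalGlobal2
import Cfsg.Agent.Lib.helper16.PConstr
import Cfsg.Agent.Lib.helper16.Syl

set_option autoImplicit false
open scoped Pointwise
open Cfsg

namespace Cfsg.Agent.S4748

open scoped ComplexConjugate

/-- Dimension of the commutant of `ρ|_H` as an average of `|χ|²` over `H`. -/
theorem finrank_commutant {G : Type*} [Group G] [Fintype G] {V : Type*} [AddCommGroup V] [Module ℂ V]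
    [FiniteDimensional ℂ V] (ρ : Representation ℂ G V) (H : Subgroup G) :
    (Module.finrank ℂ (Representation.invariants
        (Representation.linHom (ρ.comp H.subtype) (ρ.comp H.subtype))) : ℂ)
      = (Nat.card H : ℂ)⁻¹ *
        ∑ g : G, (open Classical in if g ∈ H then ρ.character g * conj (ρ.character g) else 0) := by
  classical
  have : Invertible (Nat.card H : ℂ) := invertibleOfNonzero (by exact_mod_cast Nat.card_pos.ne')
  rw [← Representation.card_inv_mul_sum_char_eq_finrank]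
  congr 1
  rw [← Finset.sum_filter]
  rw [Finset.sum_subtype (Finset.univ.filter (· ∈ H)) (p := (· ∈ H)) (by simp)]
  apply Finset.sum_congr rfl
  intro h _
  rw [Representation.char_linHom]
  have e1 : Representation.character (ρ.comp H.subtype) h = ρ.character (h : G) := rfl
  have e2 : Representation.character (ρ.comp H.subtype) h⁻¹ = ρ.character (h : G)⁻¹ := rfl
  rw [e1, e2, Cfsg.Agent.Lib.helper24.char_inv_eq_conj, mul_comm]


/-- If the commutants of `ρ|_K` and `ρ|_C` (`C ≤ K`) have the same dimension, every endomorphism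
commuting with `ρ(C)` commutes with `ρ(K)`. -/
theorem comm_of_finrank_eq {G : Type*} [Group G] {V : Type*} [AddCommGroup V] [Module ℂ V]
    [FiniteDimensional ℂ V] (ρ : Representation ℂ G V) (K C : Subgroup G) (hCK : C ≤ K)
    (hfin : Module.finrank ℂ (Representation.invariants
        (Representation.linHom (ρ.comp K.subtype) (ρ.comp K.subtype)))
      = Module.finrank ℂ (Representation.invariants
        (Representation.linHom (ρ.comp C.subtype) (ρ.comp C.subtype))))
    (T : V →ₗ[ℂ] V) (hT : ∀ c ∈ C, ∀ v : V, ρ c (T v) = T (ρ c v)) :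
    ∀ k ∈ K, ∀ v : V, ρ k (T v) = T (ρ k v) := by
  have hle : Representation.invariants
        (Representation.linHom (ρ.comp K.subtype) (ρ.comp K.subtype)) ≤
      Representation.invariants
        (Representation.linHom (ρ.comp C.subtype) (ρ.comp C.subtype)) := by
    intro S hS
    rw [Representation.mem_invariants] at hS ⊢
    intro c
    exact hS ⟨c.1, hCK c.2⟩
  have heq := Submodule.eq_of_le_of_finrank_eq hle hfin
  have hinv : ∀ (g : G) (v : V), ρ g⁻¹ (ρ g v) = v := by
    intro g v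
    rw [← Module.End.mul_apply, ← map_mul, inv_mul_cancel, map_one]; rfl
  have hinv' : ∀ (g : G) (v : V), ρ g (ρ g⁻¹ v) = v := by
    intro g v
    rw [← Module.End.mul_apply, ← map_mul, mul_inv_cancel, map_one]; rfl
  have hTC : T ∈ Representation.invariants
      (Representation.linHom (ρ.comp C.subtype) (ρ.comp C.subtype)) := by
    rw [Representation.mem_invariants]
    intro c
    rw [Representation.linHom_apply]
    apply LinearMap.ext
    intro v
    show ρ (c : G) (T (ρ ((c : G)⁻¹) v)) = T v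
    rw [hT c.1 c.2, hinv']
  rw [← heq] at hTC
  intro k hk v
  have h2 := (Representation.mem_invariants _ _).mp hTC ⟨k, hk⟩
  rw [Representation.linHom_apply] at h2
  have h3 := congrArg (fun S : V →ₗ[ℂ] V => S (ρ k v)) h2
  have h4 : ρ k (T (ρ k⁻¹ (ρ k v))) = T (ρ k v) := h3
  rw [hinv] at h4
  exact h4


/-- Counting elements outside a normal subgroup `K` through conjugates of `N ∖ K`. -/
theorem count_key {G : Type*} [Group G] [Fintype G] (K : Subgroup G) [hK : K.Normal]
    (N : Subgroup G) (f : G → ℂ) (hf : ∀ a g : G, f (a⁻¹ * g * a) = f g)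
    (h1 : ∀ g : G, g ∉ K → ∃ a : G, a⁻¹ * g * a ∈ N)
    (h2 : ∀ h ∈ N, h ∉ K → ∀ b : G, b * h * b⁻¹ ∈ N → b ∈ N) :
    (Nat.card N : ℂ) * ∑ g : G, (open Classical in if g ∉ K then f g else 0) =
      (Nat.card G : ℂ) * ∑ g : G, (open Classical in if g ∈ N ∧ g ∉ K then f g else 0) := by
  classical
  have hKc : ∀ a g : G, a⁻¹ * g * a ∈ K ↔ g ∈ K := by
    intro a g
    constructor
    · intro h
      have := hK.conj_mem _ h a
      simpa [mul_assoc] using this
    · intro h
      have := hK.conj_mem _ h a⁻¹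
      simpa [mul_assoc] using this
  have step1 : (Nat.card G : ℂ) * ∑ g : G, (if g ∈ N ∧ g ∉ K then f g else 0)
      = ∑ a : G, ∑ g : G, (if a⁻¹ * g * a ∈ N ∧ g ∉ K then f g else 0) := by
    rw [Nat.card_eq_fintype_card, ← Finset.card_univ, ← nsmul_eq_mul, ← Finset.sum_const]
    apply Finset.sum_congr rfl
    intro a _
    rw [← Equiv.sum_comp (MulAut.conj a⁻¹).toEquiv]
    apply Finset.sum_congr rfl
    intro g _
    simp only [MulEquiv.toEquiv_eq_coe, EquivLike.coe_coe, MulAut.conj_apply, inv_inv]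
    rw [hKc, hf]
  rw [step1, Finset.sum_comm, Finset.mul_sum]
  apply Finset.sum_congr rfl
  intro g _
  by_cases hg : g ∈ K
  · simp [hg]
  · simp only [hg, not_false_eq_true, and_true, if_true]
    obtain ⟨a₀, ha₀⟩ := h1 g hg
    have hh0 : a₀⁻¹ * g * a₀ ∉ K := fun h => hg ((hKc a₀ g).mp h)
    have key : ∀ a : G, a⁻¹ * g * a ∈ N ↔ a₀⁻¹ * a ∈ N := by
      intro a
      constructor
      · intro h
        have e : (a⁻¹ * a₀) * (a₀⁻¹ * g * a₀) * (a⁻¹ * a₀)⁻¹ = a⁻¹ * g * a := by group
        have hb := h2 _ ha₀ hh0 (a⁻¹ * a₀) (by rw [e]; exact h)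
        have := N.inv_mem hb
        simpa using this
      · intro h
        have e : a⁻¹ * g * a = (a₀⁻¹ * a)⁻¹ * (a₀⁻¹ * g * a₀) * (a₀⁻¹ * a) := by group
        rw [e]
        exact N.mul_mem (N.mul_mem (N.inv_mem h) ha₀) h
    simp_rw [key]
    rw [← Equiv.sum_comp (Equiv.mulLeft a₀)]
    simp only [Equiv.coe_mulLeft, inv_mul_cancel_left]
    rw [← Finset.sum_filter, Finset.sum_const, nsmul_eq_mul]
    congr 1
    rw [Nat.card_eq_fintype_card, Fintype.card_subtype]


universe u

/-- Structure of a group `K ⋊ P` with `P` a TI Sylow subgroup and `K` a normal `p'`-subgroup. -/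
theorem ti_struct {G : Type u} [Group G] [Finite G] (p : ℕ) [Fact p.Prime]
    (K : Subgroup G) [hK : K.Normal] (hcop : (Nat.card K).Coprime p)
    (P : Sylow p G) (hKP : K ⊔ (P : Subgroup G) = ⊤)
    (hTI : ∀ g : G, g ∉ Subgroup.normalizer ((P : Subgroup G) : Set G) →
      (P : Subgroup G) ⊓ (MulAut.conj g • (P : Subgroup G)) = ⊥) :
    (∀ g : G, g ∉ K → ∃ a : G, a⁻¹ * g * a ∈ Subgroup.normalizer ((P : Subgroup G) : Set G)) ∧
    (∀ h ∈ Subgroup.normalizer ((P : Subgroup G) : Set G), h ∉ K → ∀ b : G,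
      b * h * b⁻¹ ∈ Subgroup.normalizer ((P : Subgroup G) : Set G) →
      b ∈ Subgroup.normalizer ((P : Subgroup G) : Set G)) ∧
    (∀ c ∈ K ⊓ Subgroup.normalizer ((P : Subgroup G) : Set G), ∀ x ∈ (P : Subgroup G),
      c * x = x * c) := by
  classical
  obtain ⟨N, hN⟩ : ∃ N : Subgroup G, N = Subgroup.normalizer ((P : Subgroup G) : Set G) :=
    ⟨_, rfl⟩
  rw [← hN]
  obtain ⟨e, he⟩ := IsPGroup.iff_card.mp P.isPGroup'
  obtain ⟨q, hq⟩ : ∃ q, q = Nat.card (P : Subgroup G) := ⟨_, rfl⟩
  obtain ⟨nK, hnK⟩ : ∃ nK, nK = Nat.card K := ⟨_, rfl⟩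
  have hxq : ∀ x ∈ (P : Subgroup G), x ^ q = 1 := by
    intro x hx
    have h := pow_card_eq_one' (G := (P : Subgroup G)) (x := ⟨x, hx⟩)
    rw [hq]
    have h2 := congrArg Subtype.val h
    rw [Subgroup.coe_pow] at h2
    exact h2
  have hkn : ∀ k ∈ K, k ^ nK = 1 := by
    intro k hk
    have h := pow_card_eq_one' (G := K) (x := ⟨k, hk⟩)
    rw [hnK]
    have h2 := congrArg Subtype.val h
    rw [Subgroup.coe_pow] at h2
    exact h2
  have hcop' : Nat.Coprime q nK := by
    rw [hq, he, hnK]; exact Nat.Coprime.pow_left e hcop.symm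
  have B1 : ∀ g : G, g ^ q ∈ K := by
    intro g
    have hg : g ∈ ((K ⊔ (P : Subgroup G) : Subgroup G) : Set G) := by rw [hKP]; trivial
    rw [Subgroup.normal_mul] at hg
    obtain ⟨k, hk, x, hx, rfl⟩ := Set.mem_mul.mp hg
    rw [← QuotientGroup.eq_one_iff]
    have h1 : ((k * x : G) : G ⧸ K) = ((x : G) : G ⧸ K) := by
      rw [QuotientGroup.mk_mul, (QuotientGroup.eq_one_iff k).mpr hk, one_mul]
    rw [QuotientGroup.mk_pow, h1, ← QuotientGroup.mk_pow, hxq x hx]; rfl
  have B2 : ∀ g : G, g ^ nK = 1 → g ∈ K := by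
    intro g hg
    rw [← QuotientGroup.eq_one_iff]
    have h1 : ((g : G) : G ⧸ K) ^ q = 1 := by
      rw [← QuotientGroup.mk_pow]; exact (QuotientGroup.eq_one_iff _).mpr (B1 g)
    have h2 : ((g : G) : G ⧸ K) ^ nK = 1 := by
      rw [← QuotientGroup.mk_pow, hg]; rfl
    have d1 := orderOf_dvd_of_pow_eq_one h1
    have d2 := orderOf_dvd_of_pow_eq_one h2
    have h3 := Nat.eq_one_of_dvd_coprimes hcop' d1 d2
    exact orderOf_eq_one_iff.mp h3
  have B3 : ∀ g : G, (g ^ nK) ^ q = 1 := by
    intro g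
    rw [← pow_mul, mul_comm, pow_mul]
    exact hkn _ (B1 g)
  have hpz : ∀ y : G, y ^ q = 1 → IsPGroup p (Subgroup.zpowers y) := by
    intro y hyq z
    refine ⟨e, ?_⟩
    obtain ⟨z, hz⟩ := z
    obtain ⟨m, rfl⟩ := Subgroup.mem_zpowers_iff.mp hz
    apply Subtype.ext
    simp only [Subgroup.coe_pow, Subgroup.coe_one]
    rw [← zpow_natCast, ← zpow_mul, mul_comm, zpow_mul, zpow_natCast, ← he, ← hq, hyq, one_zpow]
  have B4 : ∀ y ∈ N, y ^ q = 1 → y ∈ (P : Subgroup G) := by
    intro y hy hyq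
    have h := (hpz y hyq).inf_normalizer_sylow P
    have hy' : y ∈ Subgroup.zpowers y ⊓ Subgroup.normalizer ((P : Subgroup G) : Set G) :=
      ⟨Subgroup.mem_zpowers y, hN ▸ hy⟩
    exact (h.le hy').2
  have B5 : ∀ g ∈ K, g ∈ (P : Subgroup G) → g = 1 := fun g h1 h2 =>
    Cfsg.Agent.Lib.helper16.inter_eq_one K (P : Subgroup G) hcop P.isPGroup' h1 h2
  have B6 : ∀ b : G, ∀ x ∈ (P : Subgroup G), x ≠ 1 → b⁻¹ * x * b ∈ (P : Subgroup G) →
      b ∈ N := by
    intro b x hx hx1 hbx
    by_contra hb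
    have h := hTI b (hN ▸ hb)
    have hmem : x ∈ (P : Subgroup G) ⊓ (MulAut.conj b • (P : Subgroup G)) := by
      refine ⟨hx, ?_⟩
      show x ∈ MulAut.conj b • (P : Subgroup G)
      rw [Subgroup.mem_pointwise_smul_iff_inv_smul_mem]
      simpa [MulAut.smul_def, MulAut.conj_inv_apply] using hbx
    rw [h] at hmem
    exact hx1 (Subgroup.mem_bot.mp hmem)
  refine ⟨?_, ?_, ?_⟩
  · intro g hg
    have hy1 : g ^ nK ≠ 1 := fun h => hg (B2 g h)
    obtain ⟨h, hh⟩ := Cfsg.Agent.Lib.helper16.exists_conj_mem_sylow' P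
      (Subgroup.zpowers (g ^ nK)) (hpz _ (B3 g))
    have hx := hh _ (Subgroup.mem_zpowers _)
    rw [← conj_pow] at hx
    refine ⟨h⁻¹, ?_⟩
    rw [inv_inv]
    apply B6 (h * g * h⁻¹) ((h * g * h⁻¹) ^ nK) hx
    · intro h1
      apply hy1
      rw [conj_pow] at h1
      have e1 : g ^ nK = h⁻¹ * (h * g ^ nK * h⁻¹) * h := by group
      rw [e1, h1]; group
    · have e1 : (h * g * h⁻¹)⁻¹ * (h * g * h⁻¹) ^ nK * (h * g * h⁻¹) = (h * g * h⁻¹) ^ nK := by
        rw [mul_assoc, ← pow_succ, pow_succ', inv_mul_cancel_left]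
      rw [e1]; exact hx
  · intro h hh hhK b hb
    have hx : h ^ nK ∈ (P : Subgroup G) := B4 _ (N.pow_mem hh nK) (B3 h)
    have hx1 : h ^ nK ≠ 1 := fun h' => hhK (B2 h h')
    have hx' : (b * h * b⁻¹) ^ nK ∈ (P : Subgroup G) := B4 _ (N.pow_mem hb nK) (B3 _)
    rw [conj_pow] at hx'
    have h3 := B6 b⁻¹ (h ^ nK) hx hx1 (by simpa using hx')
    simpa using N.inv_mem h3
  · intro c hc x hx
    have h1 : c * x * c⁻¹ * x⁻¹ ∈ K := by
      have e1 : c * x * c⁻¹ * x⁻¹ = c * (x * c⁻¹ * x⁻¹) := by group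
      rw [e1]
      exact K.mul_mem hc.1 (hK.conj_mem _ (K.inv_mem hc.1) x)
    have h2 : c * x * c⁻¹ * x⁻¹ ∈ (P : Subgroup G) := by
      have hcN : c ∈ Subgroup.normalizer ((P : Subgroup G) : Set G) := hN ▸ hc.2
      have h4 := (Subgroup.mem_normalizer_iff.mp hcN x).mp hx
      exact (P : Subgroup G).mul_mem h4 ((P : Subgroup G).inv_mem hx)
    have h3 := B5 _ h1 h2
    have e2 : c * x = (c * x * c⁻¹ * x⁻¹) * (x * c) := by group
    rw [e2, h3, one_mul]


/-- The key lemma: in `K ⋊ P` with `P` a TI Sylow subgroup, a faithful representation of degree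
`n` with `n² ≤ |P|` forces `P` to centralize `K`. -/
theorem lemmaA {G : Type u} [Group G] [Finite G] (p : ℕ) [Fact p.Prime]
    (K : Subgroup G) [hK : K.Normal] (hcop : (Nat.card K).Coprime p)
    (P : Sylow p G) (hKP : K ⊔ (P : Subgroup G) = ⊤)
    (hTI : ∀ g : G, g ∉ Subgroup.normalizer ((P : Subgroup G) : Set G) →
      (P : Subgroup G) ⊓ (MulAut.conj g • (P : Subgroup G)) = ⊥)
    (n : ℕ) (ρ : Representation ℂ G (Fin n → ℂ))
    (hfaith : ∀ g : G, ρ.character g = ρ.character 1 → g = 1)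
    (hdeg : Cfsg.charDegree ρ.character ^ 2 ≤ Nat.card (P : Subgroup G)) :
    ∀ k ∈ K, ∀ x ∈ (P : Subgroup G), k * x = x * k := by
  classical
  have : Fintype G := Fintype.ofFinite G
  obtain ⟨h1, h2, h3⟩ := ti_struct p K hcop P hKP hTI
  obtain ⟨N, hN⟩ : ∃ N : Subgroup G, N = Subgroup.normalizer ((P : Subgroup G) : Set G) :=
    ⟨_, rfl⟩
  rw [← hN] at h1 h2 h3
  have hPN : (P : Subgroup G) ≤ N := by rw [hN]; exact Subgroup.le_normalizer
  obtain ⟨f, hf⟩ : ∃ f : G → ℂ, f = fun g => ρ.character g * conj (ρ.character g) := ⟨_, rfl⟩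
  have hfc : ∀ a g : G, f (a⁻¹ * g * a) = f g := by
    intro a g
    have h := Representation.char_conj ρ g a⁻¹
    rw [inv_inv] at h
    rw [hf]; simp only; rw [h]
  have hcount := count_key K N f hfc h1 h2
  have hS := Cfsg.Agent.Lib.helper23.ti_small_norm_restrict p P hTI ρ.character ⟨n, ρ, rfl⟩
    hdeg N (hN ▸ le_refl _)
  unfold Cfsg.classInner at hS
  have hSN : ∑ h : N, ρ.character (h : G) * conj (ρ.character (h : G)) =
      ∑ g : G, if g ∈ N then f g else 0 := by
    rw [← Finset.sum_filter, Finset.sum_subtype (Finset.univ.filter (· ∈ N)) (p := (· ∈ N))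
      (by simp)]
    rw [hf]
  have hSG : ∑ g : G, ρ.character g * conj (ρ.character g) = ∑ g : G, f g := by rw [hf]
  rw [hSN, hSG] at hS
  have hall : ∑ g : G, f g = (∑ g : G, if g ∈ K then f g else 0) +
      ∑ g : G, if g ∉ K then f g else 0 := by
    rw [← Finset.sum_add_distrib]
    apply Finset.sum_congr rfl
    intro g _
    by_cases h : g ∈ K <;> simp [h]
  have hNsplit : (∑ g : G, if g ∈ N then f g else 0) =
      (∑ g : G, if g ∈ K ⊓ N then f g else 0) +
        ∑ g : G, if g ∈ N ∧ g ∉ K then f g else 0 := by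
    rw [← Finset.sum_add_distrib]
    apply Finset.sum_congr rfl
    intro g _
    by_cases h : g ∈ K <;> by_cases h' : g ∈ N <;> simp [h, h', Subgroup.mem_inf]
  -- cardinalities
  have hcard : Nat.card G * Nat.card (K ⊓ N : Subgroup G) = Nat.card N * Nat.card K := by
    have hNK : N ⊔ K = ⊤ := by
      rw [eq_top_iff, ← hKP]
      exact sup_le le_sup_right (hPN.trans le_sup_left)
    have e1 : K.relIndex (N ⊔ K) = K.relIndex N := Subgroup.relIndex_sup_right N K
    rw [hNK, Subgroup.relIndex_top_right] at e1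
    have e2 : (K ⊓ N).relIndex N = K.relIndex N := Subgroup.inf_relIndex_right K N
    have e3 := Subgroup.relIndex_mul_index (show K ⊓ N ≤ N from inf_le_right)
    have e4 := Subgroup.card_mul_index (K ⊓ N)
    have e5 := Subgroup.card_mul_index N
    have e6 := Subgroup.card_mul_index K
    have hNi : N.index ≠ 0 := Subgroup.index_ne_zero_of_finite
    rw [e2, ← e1] at e3
    have e7 : Nat.card (K ⊓ N : Subgroup G) * K.index = Nat.card N := by
      apply Nat.eq_of_mul_eq_mul_right (Nat.pos_of_ne_zero hNi)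
      rw [e5, mul_assoc, e3, e4]
    rw [← e6, ← e7]; ring
  have hcardC : (Nat.card G : ℂ) * (Nat.card (K ⊓ N : Subgroup G) : ℂ) =
      (Nat.card N : ℂ) * (Nat.card K : ℂ) := by exact_mod_cast hcard
  have hG0 : (Nat.card G : ℂ) ≠ 0 := by exact_mod_cast Nat.card_pos.ne'
  have hN0 : (Nat.card N : ℂ) ≠ 0 := by exact_mod_cast Nat.card_pos.ne'
  have hK0 : (Nat.card K : ℂ) ≠ 0 := by exact_mod_cast Nat.card_pos.ne'
  have hC0 : (Nat.card (K ⊓ N : Subgroup G) : ℂ) ≠ 0 := by exact_mod_cast Nat.card_pos.ne'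
  have fK : (Module.finrank ℂ (Representation.invariants
        (Representation.linHom (ρ.comp K.subtype) (ρ.comp K.subtype))) : ℂ)
      = (Nat.card K : ℂ)⁻¹ * ∑ g : G, if g ∈ K then f g else 0 := by
    rw [hf]; exact finrank_commutant ρ K
  have fC : (Module.finrank ℂ (Representation.invariants
        (Representation.linHom (ρ.comp (K ⊓ N).subtype) (ρ.comp (K ⊓ N).subtype))) : ℂ)
      = (Nat.card (K ⊓ N : Subgroup G) : ℂ)⁻¹ * ∑ g : G, if g ∈ K ⊓ N then f g else 0 := by
    rw [hf]; exact finrank_commutant ρ (K ⊓ N)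
  have hfin : Module.finrank ℂ (Representation.invariants
        (Representation.linHom (ρ.comp K.subtype) (ρ.comp K.subtype)))
      = Module.finrank ℂ (Representation.invariants
        (Representation.linHom (ρ.comp (K ⊓ N).subtype) (ρ.comp (K ⊓ N).subtype))) := by
    apply Nat.cast_injective (R := ℂ)
    rw [fK, fC]
    obtain ⟨aK, haK⟩ : ∃ a : ℂ, a = ∑ g : G, if g ∈ K then f g else 0 := ⟨_, rfl⟩
    obtain ⟨anK, hanK⟩ : ∃ a : ℂ, a = ∑ g : G, if g ∉ K then f g else 0 := ⟨_, rfl⟩
    obtain ⟨aN, haN⟩ : ∃ a : ℂ, a = ∑ g : G, if g ∈ N then f g else 0 := ⟨_, rfl⟩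
    obtain ⟨aC, haC⟩ : ∃ a : ℂ, a = ∑ g : G, if g ∈ K ⊓ N then f g else 0 := ⟨_, rfl⟩
    obtain ⟨aNnK, haNnK⟩ : ∃ a : ℂ, a = ∑ g : G, if g ∈ N ∧ g ∉ K then f g else 0 := ⟨_, rfl⟩
    obtain ⟨aall, haall⟩ : ∃ a : ℂ, a = ∑ g : G, f g := ⟨_, rfl⟩
    rw [← haK, ← hanK, ← haall] at hall
    rw [← haN, ← haC, ← haNnK] at hNsplit
    rw [← haall, ← haN] at hS
    rw [← hanK, ← haNnK] at hcount
    rw [← haK, ← haC]
    have hS' : (Nat.card N : ℂ) * aall = (Nat.card G : ℂ) * aN := by
      field_simp at hS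
      linear_combination hS
    have key : (Nat.card N : ℂ) * aK = (Nat.card G : ℂ) * aC := by
      linear_combination hS' - (Nat.card N : ℂ) * hall - hcount + (Nat.card G : ℂ) * hNsplit
    rw [inv_mul_eq_div, inv_mul_eq_div, div_eq_div_iff hK0 hC0]
    apply mul_left_cancel₀ hN0
    linear_combination (Nat.card (K ⊓ N : Subgroup G) : ℂ) * key + aC * hcardC
  intro k hk x hx
  have hT : ∀ c ∈ K ⊓ N, ∀ v, ρ c (ρ x v) = ρ x (ρ c v) := by
    intro c hc v
    rw [← Module.End.mul_apply, ← Module.End.mul_apply, ← map_mul, ← map_mul, h3 c hc x hx]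
  have hcomm := comm_of_finrank_eq ρ K (K ⊓ N) inf_le_left hfin (ρ x) hT k hk
  have e1 : ρ (k * x) = ρ (x * k) := by
    rw [map_mul, map_mul]
    apply LinearMap.ext
    intro v
    exact hcomm v
  have e2 : ρ (k * x * (x * k)⁻¹) = ρ 1 := by
    rw [map_mul, e1, ← map_mul, mul_inv_cancel]
  have e3 : ρ.character (k * x * (x * k)⁻¹) = ρ.character 1 := by
    unfold Representation.character
    rw [e2]
  have e4 := hfaith _ e3
  exact mul_inv_eq_one.mp e4


theorem card_eq_mul_relIndex {G : Type*} [Group G] {A B : Subgroup G} (h : A ≤ B) :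
    Nat.card B = Nat.card A * A.relIndex B := by
  have h2 : (⊥ : Subgroup G).relIndex A * A.relIndex B = (⊥ : Subgroup G).relIndex B :=
    Subgroup.relIndex_mul_relIndex _ _ _ bot_le h
  rw [Subgroup.relIndex_bot_left, Subgroup.relIndex_bot_left] at h2
  exact h2.symm

/-- A `p`-solvable group with a TI Sylow `p`-subgroup `P` is `K · N_G(P)` for a normal
`p'`-subgroup `K`. -/
theorem exists_coprime_normal {G : Type u} [Group G] [Finite G] (p : ℕ) [Fact p.Prime]
    (hsolv : Cfsg.IsPSolvable p G) (P : Sylow p G)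
    (hTI : ∀ g : G, g ∉ Subgroup.normalizer ((P : Subgroup G) : Set G) →
      (P : Subgroup G) ⊓ (MulAut.conj g • (P : Subgroup G)) = ⊥) :
    ∃ K : Subgroup G, K.Normal ∧ (Nat.card K).Coprime p ∧
      Subgroup.normalizer ((P : Subgroup G) : Set G) ⊔ K = ⊤ := by
  classical
  obtain ⟨n, H, h0, hlast, hmono, hnorm, hstep⟩ := hsolv
  have hp : p.Prime := Fact.out
  have claim : ∀ i : ℕ, ∀ hi : i < n + 1, (Nat.card (H ⟨i, hi⟩)).Coprime p ∨
      ∃ K : Subgroup G, K.Normal ∧ (Nat.card K).Coprime p ∧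
        Subgroup.normalizer ((P : Subgroup G) : Set G) ⊔ K = ⊤ := by
    intro i
    induction i with
    | zero =>
      intro hi
      left
      have e : (⟨0, hi⟩ : Fin (n + 1)) = 0 := rfl
      rw [e, h0]
      simp
    | succ i ih =>
      intro hi
      rcases ih (by omega) with hc | hK
      · obtain ⟨j, hj⟩ : ∃ j : Fin n, j = ⟨i, by omega⟩ := ⟨_, rfl⟩
        have e1 : j.castSucc = ⟨i, by omega⟩ := by rw [hj]; rfl
        have e2 : j.succ = ⟨i + 1, hi⟩ := by rw [hj]; rfl
        obtain ⟨A, hA⟩ : ∃ A : Subgroup G, A = H j.castSucc := ⟨_, rfl⟩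
        obtain ⟨B, hB⟩ : ∃ B : Subgroup G, B = H j.succ := ⟨_, rfl⟩
        have hAB : A ≤ B := by
          rw [hA, hB]; exact hmono (Fin.castSucc_lt_succ (i := j)).le
        have hcA : (Nat.card A).Coprime p := by rw [hA, e1]; exact hc
        have hAn : A.Normal := by rw [hA]; exact hnorm _
        have hBn : B.Normal := by rw [hB]; exact hnorm _
        have hcard := card_eq_mul_relIndex hAB
        have hst := hstep j
        rw [← hA, ← hB] at hst
        rw [← e2, ← hB]
        rcases hst with ⟨m, hm⟩ | hcop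
        · rcases Nat.eq_zero_or_pos m with hm0 | hmpos
          · left
            rw [hcard, hm, hm0, pow_zero, mul_one]; exact hcA
          · right
            refine ⟨A, hAn, hcA, ?_⟩
            obtain ⟨D, hD⟩ := Cfsg.Agent.Lib.helper10.sylow_inf_normal_eq_map P B
            have hfr := Sylow.normalizer_sup_eq_top D
            rw [hD] at hfr
            obtain ⟨Q, hQ⟩ : ∃ Q : Subgroup G, Q = (P : Subgroup G) ⊓ B := ⟨_, rfl⟩
            rw [← hQ] at hfr hD
            have hQP : Q ≤ (P : Subgroup G) := by rw [hQ]; exact inf_le_left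
            have hQB : Q ≤ B := by rw [hQ]; exact inf_le_right
            have hpB : p ^ m ∣ Nat.card B := by rw [hcard, hm]; exact dvd_mul_left _ _
            have hcQ : Nat.card Q = Nat.card (D : Subgroup B) := by
              rw [← hD]; exact Subgroup.card_map_of_injective B.subtype_injective
            have hpQ : p ^ m ∣ Nat.card Q := by
              rw [hcQ]; exact D.pow_dvd_card_of_pow_dvd_card hpB
            have hQ1 : Q ≠ ⊥ := by
              intro h
              rw [h, Subgroup.card_bot] at hpQ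
              have h3 := Nat.le_of_dvd Nat.one_pos hpQ
              have h4 : 1 < p ^ m := Nat.one_lt_pow (Nat.pos_iff_ne_zero.mp hmpos) hp.one_lt
              omega
            -- `A ⊔ Q = B`
            have hAQ : Q ⊔ A = B := by
              apply Subgroup.eq_of_le_of_card_ge (sup_le hQB hAB)
              have e3 : A.relIndex (Q ⊔ A) = A.relIndex Q := Subgroup.relIndex_sup_right Q A
              have e4 : (A ⊓ Q).relIndex Q = A.relIndex Q := Subgroup.inf_relIndex_right A Q
              have e5 : A ⊓ Q = ⊥ := by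
                rw [eq_bot_iff]
                intro x hx
                exact Subgroup.mem_bot.mpr (Cfsg.Agent.Lib.helper16.inter_eq_one A (P : Subgroup G)
                  hcA P.isPGroup' hx.1 (hQP hx.2))
              rw [e5, Subgroup.relIndex_bot_left] at e4
              have e6 := card_eq_mul_relIndex (show A ≤ Q ⊔ A from le_sup_right)
              rw [e3, ← e4] at e6
              rw [e6, hcard, hm]
              exact Nat.mul_le_mul_left _ (Nat.le_of_dvd Nat.card_pos hpQ)
            -- `N_G(Q) ≤ N_G(P)`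
            have hNQ : Subgroup.normalizer (Q : Set G) ≤
                Subgroup.normalizer ((P : Subgroup G) : Set G) := by
              intro x hx
              by_contra hxn
              have h := hTI x hxn
              apply hQ1
              rw [eq_bot_iff]
              intro y hy
              rw [← h]
              refine ⟨hQP hy, ?_⟩
              show y ∈ MulAut.conj x • (P : Subgroup G)
              rw [Subgroup.mem_pointwise_smul_iff_inv_smul_mem]
              have h5 : x⁻¹ * y * x ∈ Q := by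
                rw [Subgroup.mem_normalizer_iff] at hx
                rw [hx (x⁻¹ * y * x)]
                have e7 : x * (x⁻¹ * y * x) * x⁻¹ = y := by group
                rw [e7]; exact hy
              simpa [MulAut.smul_def, MulAut.conj_inv_apply] using hQP h5
            rw [eq_top_iff, ← hfr]
            apply sup_le (hNQ.trans le_sup_left)
            rw [← hAQ]
            exact sup_le ((hQP.trans Subgroup.le_normalizer).trans le_sup_left) le_sup_right
        · left
          rw [hcard]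
          exact Nat.Coprime.mul_left hcA hcop
      · exact Or.inr hK
  rcases claim n (by omega) with hc | hK
  · have e : (⟨n, by omega⟩ : Fin (n + 1)) = Fin.last n := rfl
    rw [e, hlast] at hc
    refine ⟨⊤, inferInstance, hc, ?_⟩
    simp
  · exact hK

/-- Let G be a finite p-solvable group whose Sylow p-subgroup P meets each conjugate g P g⁻¹ with g outside N_G(P) trivially, and let χ be a faithful character of G (χ g = χ 1 only for g = 1) whose degree d satisfies d² ≤ |P|. Then P is normal in G. -/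
theorem result {G : Type*} [Group G] [Finite G] (p : ℕ) [Fact p.Prime] (hsolv : Cfsg.IsPSolvable p G) (P : Sylow p G) (hTI : ∀ g : G, g ∉ Subgroup.normalizer ((P : Subgroup G) : Set G) → (P : Subgroup G) ⊓ (MulAut.conj g • (P : Subgroup G)) = ⊥) (χ : G → ℂ) (hχ : Cfsg.IsCharacter G χ) (hfaith : ∀ g : G, χ g = χ 1 → g = 1) (hdeg : Cfsg.charDegree χ ^ 2 ≤ Nat.card ↥(P : Subgroup G)) : (P : Subgroup G).Normal := by
  classical
  obtain ⟨n, ρ, rfl⟩ := hχ
  obtain ⟨K, hKn, hKc, hKN⟩ := exists_coprime_normal p hsolv P hTI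
  obtain ⟨Γ, hΓ⟩ : ∃ Γ : Subgroup G, Γ = K ⊔ (P : Subgroup G) := ⟨_, rfl⟩
  have hKΓ : K ≤ Γ := by rw [hΓ]; exact le_sup_left
  have hPΓ : (P : Subgroup G) ≤ Γ := by rw [hΓ]; exact le_sup_right
  have : (K.subgroupOf Γ).Normal := hKn.subgroupOf Γ
  have hc' : (Nat.card (K.subgroupOf Γ)).Coprime p := by
    rw [Nat.card_congr (Subgroup.subgroupOfEquivOfLe hKΓ).toEquiv]; exact hKc
  have hKP' : K.subgroupOf Γ ⊔ ((P.subtype hPΓ : Sylow p Γ) : Subgroup Γ) = ⊤ := by
    rw [Sylow.coe_subtype, ← Subgroup.subgroupOf_sup hKΓ hPΓ, ← hΓ, Subgroup.subgroupOf_self]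
  have hTI' : ∀ g : Γ, g ∉ Subgroup.normalizer (((P.subtype hPΓ : Sylow p Γ) : Subgroup Γ) : Set Γ) →
      ((P.subtype hPΓ : Sylow p Γ) : Subgroup Γ) ⊓
        (MulAut.conj g • ((P.subtype hPΓ : Sylow p Γ) : Subgroup Γ)) = ⊥ := by
    intro g hg
    have hg' : (g : G) ∉ Subgroup.normalizer ((P : Subgroup G) : Set G) := by
      intro h
      apply hg
      rw [Subgroup.mem_normalizer_iff] at h ⊢
      intro x
      rw [Sylow.coe_subtype, Subgroup.mem_subgroupOf, Subgroup.mem_subgroupOf]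
      exact h x
    have h := hTI g hg'
    rw [eq_bot_iff]
    intro x hx
    obtain ⟨hx1, hx2⟩ := hx
    have hx1' : (x : G) ∈ (P : Subgroup G) := by
      have h3 : x ∈ ((P.subtype hPΓ : Sylow p Γ) : Subgroup Γ) := hx1
      rw [Sylow.coe_subtype, Subgroup.mem_subgroupOf] at h3
      exact h3
    have hx2' : (x : G) ∈ MulAut.conj (g : G) • (P : Subgroup G) := by
      have h3 : x ∈ MulAut.conj g • ((P.subtype hPΓ : Sylow p Γ) : Subgroup Γ) := hx2
      rw [Subgroup.mem_pointwise_smul_iff_inv_smul_mem] at h3 ⊢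
      rw [Sylow.coe_subtype, Subgroup.mem_subgroupOf] at h3
      simpa [MulAut.smul_def, MulAut.conj_inv_apply] using h3
    have h4 : (x : G) ∈ (P : Subgroup G) ⊓ (MulAut.conj (g : G) • (P : Subgroup G)) :=
      ⟨hx1', hx2'⟩
    rw [h] at h4
    exact Subgroup.mem_bot.mpr (Subtype.ext (Subgroup.mem_bot.mp h4))
  have hfaith' : ∀ g : Γ, Representation.character (ρ.comp Γ.subtype) g =
      Representation.character (ρ.comp Γ.subtype) 1 → g = 1 := by
    intro g hg
    have h := hfaith (g : G) hg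
    exact Subtype.ext h
  have hdeg' : Cfsg.charDegree (Representation.character (ρ.comp Γ.subtype)) ^ 2 ≤
      Nat.card ((P.subtype hPΓ : Sylow p Γ) : Subgroup Γ) := by
    rw [Sylow.coe_subtype, Nat.card_congr (Subgroup.subgroupOfEquivOfLe hPΓ).toEquiv]
    exact hdeg
  have hcomm' := lemmaA p (K.subgroupOf Γ) hc' (P.subtype hPΓ) hKP' hTI' n (ρ.comp Γ.subtype)
    hfaith' hdeg'
  have hcomm : ∀ k ∈ K, ∀ x ∈ (P : Subgroup G), k * x = x * k := by
    intro k hk x hx
    have h := hcomm' ⟨k, hKΓ hk⟩ (by rw [Subgroup.mem_subgroupOf]; exact hk) ⟨x, hPΓ hx⟩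
      (by rw [Sylow.coe_subtype, Subgroup.mem_subgroupOf]; exact hx)
    exact congrArg Subtype.val h
  constructor
  intro x hx g
  have hg : g ∈ ((Subgroup.normalizer ((P : Subgroup G) : Set G) ⊔ K : Subgroup G) : Set G) := by
    rw [hKN]; trivial
  rw [Subgroup.mul_normal] at hg
  obtain ⟨m, hm, k, hk, rfl⟩ := Set.mem_mul.mp hg
  have e : m * k * x * (m * k)⁻¹ = m * (k * x * k⁻¹) * m⁻¹ := by group
  have e2 : k * x * k⁻¹ = x := by rw [hcomm k hk x hx, mul_inv_cancel_right]
  rw [e, e2]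
  exact (Subgroup.mem_normalizer_iff.mp hm x).mp hx

end Cfsg.Agent.S4748
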