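import Cfsg.Statements.S4765
import Cfsg.Agent.Lib.helper12.PSL2DegGraph
-- import your own Cfsg.Agent.* helpers here

set_option autoImplicit false
open Cfsg

namespace Cfsg.Agent.S4765

open Cfsg.Agent.Lib.helper12 Cfsg.Agent.Lib.helper24

/-- Let F be a finite field of characteristic p with at least 4 elements. Then PSL(2,F) has exactly one irreducible complex character of degree divisible by p, and its degree is the order of F. -/
theorem result (p : ℕ) [Fact p.Prime] (F : Type*) [Field F] [Fintype F] [CharP F p] (hF : 4 ≤ Fintype.card F) : Nat.card {χ : Cfsg.IrrCharacter (Matrix.ProjectiveSpecialLinearGroup (Fin 2) F) // p ∣ Cfsg.charDegree (χ : Matrix.ProjectiveSpecialLinearGroup (Fin 2) F → ℂ)} = 1 ∧ ∀ χ : Cfsg.IrrCharacter (Matrix.ProjectiveSpecialLinearGroup (Fin 2) F), p ∣ Cfsg.charDegree (χ : Matrix.ProjectiveSpecialLinearGroup (Fin 2) F → ℂ) → Cfsg.charDegree (χ : Matrix.ProjectiveSpecialLinearGroup (Fin 2) F →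 ℂ) = Fintype.card F := by
  classical
  have key : ∀ ψ : Cfsg.IrrCharacter (Matrix.ProjectiveSpecialLinearGroup (Fin 2) F),
      p ∣ Cfsg.charDegree (ψ : Matrix.ProjectiveSpecialLinearGroup (Fin 2) F → ℂ) →
      irrInfl (Subgroup.center (Matrix.SpecialLinearGroup (Fin 2) F)) ψ = ⟨stSL F, stSL_isIrr⟩ ∧
        Cfsg.charDegree (ψ : Matrix.ProjectiveSpecialLinearGroup (Fin 2) F → ℂ) = Fintype.card F := by
    intro ψ hψ
    have h1 := charDegree_irrInfl (Subgroup.center (Matrix.SpecialLinearGroup (Fin 2) F)) ψ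
    rw [← h1] at hψ ⊢
    have h2 := SL2_charDegree_of_dvd p _ hψ
    refine ⟨?_, h2⟩
    apply Subtype.ext
    apply SL2_deg_q
    rw [← charDegree_cast, h2]
  obtain ⟨ψ₀, hψ₀⟩ := exists_irrInfl_eq (Subgroup.center (Matrix.SpecialLinearGroup (Fin 2) F))
    ⟨stSL F, stSL_isIrr⟩ stSL_apply_center
  have hψ₀d : p ∣ Cfsg.charDegree (ψ₀ : Matrix.ProjectiveSpecialLinearGroup (Fin 2) F → ℂ) := by
    rw [← charDegree_irrInfl (Subgroup.center (Matrix.SpecialLinearGroup (Fin 2) F)) ψ₀, hψ₀]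
    have : Cfsg.charDegree (stSL F) = Fintype.card F :=
      charDegree_eq_of_cast ⟨stSL F, stSL_isIrr⟩ _ stSL_apply_one
    show p ∣ Cfsg.charDegree (stSL F)
    rw [this]
    obtain ⟨n, -, hn⟩ := FiniteField.card F p
    rw [hn]
    exact dvd_pow_self p n.ne_zero
  refine ⟨?_, fun ψ hψ => (key ψ hψ).2⟩
  rw [Nat.card_eq_one_iff_unique]
  refine ⟨⟨?_⟩, ⟨⟨ψ₀, hψ₀d⟩⟩⟩
  rintro ⟨ψ₁, h1⟩ ⟨ψ₂, h2⟩
  apply Subtype.ext
  apply irrInfl_injective (Subgroup.center (Matrix.SpecialLinearGroup (Fin 2) F))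
  rw [(key ψ₁ h1).1, (key ψ₂ h2).1]

end Cfsg.Agent.S4765
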