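import Cfsg.Statements.S4774
import Cfsg.Agent.Lib.helper12.PSL2DegGraph
-- import your own Cfsg.Agent.* helpers here

set_option autoImplicit false
open Cfsg

namespace Cfsg.Agent.S4774

open Cfsg.Agent.Lib.helper12 Cfsg.Agent.Lib.helper24

/-- Let F be a finite field of odd characteristic t with q > 5 elements and let S be isomorphic to PSL(2,F) or to SL(2,F). Then the vertices of the character degree graph of S are the primes dividing q(q²−1); the prime t is adjacent to no vertex; two distinct primes dividing q² − 1 are adjacent exactly when one of them is 2, or both divide q + 1, or both divide q − 1. -/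
theorem result (F : Type*) [Field F] [Fintype F] (t : ℕ) [Fact t.Prime] [CharP F t] (ht : t ≠ 2) (q : ℕ) (hq : Fintype.card F = q) (h5 : 5 < q) {S : Type*} [Group S] [Finite S] (hS : Nonempty (S ≃* Matrix.ProjectiveSpecialLinearGroup (Fin 2) F) ∨ Nonempty (S ≃* Matrix.SpecialLinearGroup (Fin 2) F)) : Cfsg.degreePrimes S = {r : ℕ | r.Prime ∧ r ∣ q * (q ^ 2 - 1)} ∧ ∀ r s : ℕ, (Cfsg.degreeGraph S).Adj r s ↔ (r ≠ s ∧ r.Prime ∧ s.Prime ∧ r ∣ q ^ 2 - 1 ∧ s ∣ q ^ 2 - 1 ∧ (r = 2 ∨ s = 2 ∨ (r ∣ q + 1 ∧ s ∣ q + 1) ∨ (r ∣ q - 1 ∧ s ∣ q - 1))) := by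
  classical
  subst hq
  have hodd : Fintype.card F % 2 = 1 := by
    have hr : ringChar F = t := ringChar.eq F t
    exact FiniteField.odd_card_of_char_ne_two (by rw [hr]; exact ht)
  obtain ⟨hlist, hq0, hq1, hq2⟩ := SL2_PSL2_charDegrees (by omega) (Or.inr (by omega)) hS
  obtain ⟨f, htp, hf⟩ := FiniteField.card F t
  exact ⟨degree_vertices (by omega) hlist hq0 hq1 hq2,
    fun r s => degree_adj_odd htp hf hodd (by omega) hlist hq1 hq2 r s⟩

end Cfsg.Agent.S4774
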