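import Cfsg.Statements.S4784
import Cfsg.Agent.Lib.helper23.RealPerm

set_option autoImplicit false
open Cfsg

namespace Cfsg.Agent.S4784

/-- Let H be a subgroup of the finite group G and consider the permutation character of G on the cosets of H (the function induced from the principal character of H). Then exactly one irreducible constituent of it is real-valued with Frobenius–Schur indicator +1 (namely the principal character) if and only if the normal core of H has odd index in G. -/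
theorem result {G : Type*} [Group G] [Fintype G] (H : Subgroup G) : Nat.card {χ : Cfsg.IrrCharacter G // Cfsg.classInner (Cfsg.indFun H (fun _ : H => (1 : ℂ))) (χ : G → ℂ) ≠ 0 ∧ (∀ g : G, (starRingEnd ℂ) ((χ : G → ℂ) g) = (χ : G → ℂ) g) ∧ (Nat.card G : ℂ)⁻¹ * ∑ g : G, (χ : G → ℂ) (g * g) = 1} = 1 ↔ Odd H.normalCore.index := by
  have htriv : Cfsg.classInner (Cfsg.indFun H (fun _ : H => (1 : ℂ)))
        ((Cfsg.Agent.Lib.helper24.trivIrr G).1) ≠ 0 ∧
      (∀ g : G, (starRingEnd ℂ) ((Cfsg.Agent.Lib.helper24.trivIrr G).1 g)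
        = (Cfsg.Agent.Lib.helper24.trivIrr G).1 g) ∧
      (Nat.card G : ℂ)⁻¹ * ∑ g : G, (Cfsg.Agent.Lib.helper24.trivIrr G).1 (g * g) = 1 := by
    refine ⟨?_, fun g => ?_, Cfsg.Agent.Lib.helper23.trivIrr_fs⟩
    · rw [Cfsg.Agent.Lib.helper23.trivIrr_inner_indFun_one]
      exact one_ne_zero
    · rw [Cfsg.Agent.Lib.helper24.trivIrr_apply, map_one]
  constructor
  · intro h
    rw [Nat.card_eq_one_iff_unique] at h
    obtain ⟨hss, _⟩ := h
    apply Cfsg.Agent.Lib.helper23.odd_core_index_of_unique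
    intro χ h1 h2 h3
    have := @Subsingleton.elim _ hss ⟨χ, h1, h2, h3⟩ ⟨Cfsg.Agent.Lib.helper24.trivIrr G, htriv⟩
    exact congrArg Subtype.val this
  · intro hodd
    rw [Nat.card_eq_one_iff_unique]
    refine ⟨⟨fun a b => ?_⟩, ⟨⟨Cfsg.Agent.Lib.helper24.trivIrr G, htriv⟩⟩⟩
    apply Subtype.ext
    rw [Cfsg.Agent.Lib.helper23.eq_trivIrr_of_real_of_odd_core H hodd a.1 a.2.1 a.2.2.1,
      Cfsg.Agent.Lib.helper23.eq_trivIrr_of_real_of_odd_core H hodd b.1 b.2.1 b.2.2.1]

end Cfsg.Agent.S4784
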