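import Cfsg.Statements.S4873
import Cfsg.Agent.Lib.helper22.OddGal
import Cfsg.Agent.Lib.helper24.CharComplete

set_option autoImplicit false
open Cfsg

namespace Cfsg.Agent.S4873

open Cfsg.Agent.Lib.helper22 Cfsg.Agent.Lib.helper23 Cfsg.Agent.Lib.helper24
open scoped ComplexConjugate

theorem mem_of_sq_mem {G : Type*} [Group G] [Finite G] (N : Subgroup G) [N.Normal]
    (hodd : Odd N.index) {g : G} (hg : g * g ∈ N) : g ∈ N := by
  rw [← QuotientGroup.eq_one_iff] at hg ⊢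
  have h1 : orderOf (g : G ⧸ N) ∣ 2 := by
    apply orderOf_dvd_of_pow_eq_one
    rw [pow_two, ← QuotientGroup.mk_mul]
    exact hg
  have h2 : orderOf (g : G ⧸ N) ∣ N.index := by
    rw [Subgroup.index_eq_card]
    exact orderOf_dvd_natCard _
  have h3 : orderOf (g : G ⧸ N) = 1 :=
    Nat.eq_one_of_dvd_coprimes (Nat.coprime_two_left.mpr hodd) h1 h2
  exact orderOf_eq_one_iff.mp h3

theorem fs_indFun {G : Type*} [Group G] [Fintype G] (N : Subgroup G) [N.Normal] [Fintype N]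
    (hodd : Odd N.index) (φ : N → ℂ) :
    (Nat.card G : ℂ)⁻¹ * ∑ g : G, indFun N φ (g * g)
      = (Nat.card N : ℂ)⁻¹ * ∑ n : N, φ (n * n) := by
  classical
  have hG : (Nat.card G : ℂ) ≠ 0 := by exact_mod_cast Nat.card_pos.ne'
  have h1 : ∀ x : G, ∑ g : G, extendByZero N φ (x⁻¹ * (g * g) * x)
      = ∑ n : N, φ (n * n) := by
    intro x
    have h2 := Equiv.sum_comp (MulAut.conj x⁻¹).toEquiv (fun g : G => extendByZero N φ (g * g))
    have h3 : ∀ g : G, extendByZero N φ (x⁻¹ * (g * g) * x)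
        = extendByZero N φ ((MulAut.conj x⁻¹).toEquiv g * (MulAut.conj x⁻¹).toEquiv g) := by
      intro g
      congr 1
      simp only [MulEquiv.toEquiv_eq_coe, EquivLike.coe_coe, MulAut.conj_apply, inv_inv]
      group
    rw [Finset.sum_congr rfl (fun g _ => h3 g), h2, ← sum_extendByZero N (fun n : N => φ (n * n))]
    apply Finset.sum_congr rfl
    intro g _
    by_cases hg : g ∈ N
    · rw [extendByZero_apply_mem _ _ hg, extendByZero_apply_mem _ _ (Subgroup.mul_mem N hg hg)]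
      rfl
    · rw [extendByZero_apply_not_mem _ _ hg,
        extendByZero_apply_not_mem _ _ (fun h => hg (mem_of_sq_mem N hodd h))]
  unfold indFun
  rw [← Finset.mul_sum, Finset.sum_comm, Finset.sum_congr rfl (fun x _ => h1 x), Finset.sum_const,
    Finset.card_univ, nsmul_eq_mul, ← Nat.card_eq_fintype_card]
  field_simp

theorem result {G : Type*} [Group G] [Finite G] (N : Subgroup G) [N.Normal] (hodd : Odd N.index) (φ : Cfsg.IrrCharacter ↥N) (hφ : (Nat.card ↥N : ℂ)⁻¹ * ∑ᶠ g : ↥N, (φ : ↥N → ℂ) (g * g) = 1) : ∃! χ : Cfsg.IrrCharacter G, (Nat.card G : ℂ)⁻¹ * ∑ᶠ g : G, (χ : G → ℂ) (g * g) = 1 ∧ (∑ᶠ n : ↥N, (χ : G → ℂ) n * (starRingEnd ℂ) ((φ : ↥N → ℂ) n)) ≠ 0 := by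
  classical
  have := Fintype.ofFinite G
  have := Fintype.ofFinite N
  have := Fintype.ofFinite (IrrCharacter G)
  rw [finsum_eq_sum_of_fintype] at hφ
  have hcard : 0 < Nat.card G := Nat.card_pos
  obtain ⟨k, hkdef⟩ : ∃ k : ℕ, k + 1 = Nat.card G := ⟨Nat.card G - 1, by omega⟩
  have hk : Nat.Coprime k (Nat.card G) := by
    rw [← hkdef]
    simp
  have hkinv : ∀ g : G, g ^ k = g⁻¹ := by
    intro g
    have h1 : g ^ (k + 1) = 1 := by rw [hkdef]; exact pow_card_eq_one'
    rw [pow_succ] at h1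
    exact eq_inv_of_mul_eq_one_left h1
  have hreal_iff : ∀ χ : IrrCharacter G, (∀ g : G, χ.1 (g ^ k) = χ.1 g) ↔
      ∀ g : G, (χ.1 g).im = 0 := by
    intro χ
    constructor
    · intro h g
      have h1 := h g
      rw [hkinv, irr_inv] at h1
      exact Complex.conj_eq_iff_im.mp h1
    · intro h g
      rw [hkinv, irr_inv]
      exact Complex.conj_eq_iff_im.mpr (h g)
  have hφreal : ∀ n : N, (φ.1 n).im = 0 := by
    by_contra hcon
    push Not at hcon
    have h1 := (frobenius_schur' φ).2.mpr hcon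
    rw [hφ] at h1
    exact one_ne_zero h1
  have hφσ : ∀ n : N, φ.1 (n ^ k) = φ.1 n := by
    intro n
    have h1 : n ^ k = n⁻¹ := by
      apply Subtype.ext
      rw [Subgroup.coe_pow, Subgroup.coe_inv]
      exact hkinv n
    rw [h1, irr_inv]
    exact Complex.conj_eq_iff_im.mpr (hφreal n)
  obtain ⟨χ₀, hχ₀, hover, hσ, -, huniq⟩ :=
    exists_unique_fixed_over N hodd k hk (fun g _ => hkinv g) φ.1 φ.2 hφσ
  have hsumne : ∀ χ : IrrCharacter G,
      (∑ᶠ n : N, χ.1 n * (starRingEnd ℂ) (φ.1 n)) ≠ 0 ↔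
        classInner (fun n : N => χ.1 n) φ.1 ≠ 0 := by
    intro χ
    rw [finsum_eq_sum_of_fintype]
    unfold classInner
    have hN : (Nat.card N : ℂ)⁻¹ ≠ 0 := by
      apply inv_ne_zero
      exact_mod_cast Nat.card_pos.ne'
    constructor
    · intro h
      exact mul_ne_zero hN h
    · intro h h0
      apply h
      rw [h0, mul_zero]
  have hexp := fs_indFun N hodd φ.1
  rw [hφ] at hexp
  have hcoef : ∀ χ : IrrCharacter G, ∃ e : ℕ, classInner (indFun N φ.1) χ.1 = (e : ℂ) :=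
    fun χ => isCharacter_inner_irr_nat (isCharacter_indFun N (isCharacter_of_isIrrCharacter φ.2)) χ
  choose e he using hcoef
  have hsum : ∑ χ : IrrCharacter G, (e χ : ℂ) * ((Nat.card G : ℂ)⁻¹ * ∑ g : G, χ.1 (g * g)) = 1 := by
    rw [← hexp]
    have h1 : ∀ g : G, indFun N φ.1 (g * g)
        = ∑ χ : IrrCharacter G, (e χ : ℂ) * χ.1 (g * g) := by
      intro g
      rw [classFunction_expansion_apply (indFun_isClassFunction N φ.1) (g * g)]
      apply Finset.sum_congr rfl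
      intro χ _
      rw [he]
    rw [Finset.sum_congr rfl (fun g _ => h1 g), Finset.sum_comm, Finset.mul_sum]
    apply Finset.sum_congr rfl
    intro χ _
    rw [← Finset.mul_sum]
    ring
  have hzero : ∀ χ : IrrCharacter G, χ ≠ ⟨χ₀, hχ₀⟩ →
      (e χ : ℂ) * ((Nat.card G : ℂ)⁻¹ * ∑ g : G, χ.1 (g * g)) = 0 := by
    intro χ hne
    by_cases hov : classInner (fun n : N => χ.1 n) φ.1 = 0
    · have h1 : classInner (indFun N φ.1) χ.1 = 0 := by
        rw [frobenius_reciprocity N φ.1 (isClassFunction_irr χ), classInner_conj_symm, hov,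
          map_zero]
      rw [← he, h1, zero_mul]
    · have hnr : ¬ ∀ g : G, (χ.1 g).im = 0 := by
        intro h
        apply hne
        apply Subtype.ext
        exact huniq χ.1 χ.2 hov ((hreal_iff χ).mpr h)
      push Not at hnr
      rw [(frobenius_schur' χ).2.mpr hnr, mul_zero]
  rw [Finset.sum_eq_single (⟨χ₀, hχ₀⟩ : IrrCharacter G) (fun χ _ hne => hzero χ hne)
    (fun h => absurd (Finset.mem_univ _) h)] at hsum
  have hfs0 : (Nat.card G : ℂ)⁻¹ * ∑ g : G, χ₀ (g * g) = 1 := by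
    rcases (frobenius_schur' (⟨χ₀, hχ₀⟩ : IrrCharacter G)).1 with h | h | h
    · rw [h, mul_zero] at hsum
      exact absurd hsum zero_ne_one
    · exact h
    · rw [h] at hsum
      have h2 : ((e ⟨χ₀, hχ₀⟩ : ℂ)).re = -1 := by
        have h3 : (e ⟨χ₀, hχ₀⟩ : ℂ) = -1 := by linear_combination -hsum
        rw [h3]
        simp
      rw [Complex.natCast_re] at h2
      have h4 : (0 : ℝ) ≤ (e ⟨χ₀, hχ₀⟩ : ℝ) := Nat.cast_nonneg _
      linarith
  refine ⟨⟨χ₀, hχ₀⟩, ⟨?_, ?_⟩, ?_⟩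
  · rw [finsum_eq_sum_of_fintype]
    exact hfs0
  · exact (hsumne ⟨χ₀, hχ₀⟩).mpr hover
  · rintro χ ⟨hfs, hne⟩
    rw [finsum_eq_sum_of_fintype] at hfs
    apply Subtype.ext
    apply huniq χ.1 χ.2 ((hsumne χ).mp hne)
    apply (hreal_iff χ).mpr
    by_contra hcon
    push Not at hcon
    have h1 := (frobenius_schur' χ).2.mpr hcon
    rw [hfs] at h1
    exact one_ne_zero h1

end Cfsg.Agent.S4873
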