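import Cfsg.Statements.S4912
import Cfsg.Agent.Lib.helper22.FSInd
import Cfsg.Agent.Lib.helper24.MinNormLin
import Cfsg.Agent.Lib.helper24.CharFS

set_option autoImplicit false
open Cfsg

namespace Cfsg.Agent.S4912

open Cfsg.Agent.Lib.helper24 Cfsg.Agent.Lib.helper22
open scoped ComplexConjugate

universe u

theorem real_of_fs {G : Type u} [Group G] [Fintype G] (χ : IrrCharacter G)
    (h : (Nat.card G : ℂ)⁻¹ * ∑ s : G, χ.1 (s * s) = 1) (g : G) : conj (χ.1 g) = χ.1 g := by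
  have h1 := (frobenius_schur' χ).2
  rw [Complex.conj_eq_iff_im]
  by_contra hne
  have h2 := h1.mpr ⟨g, hne⟩
  rw [h] at h2
  exact one_ne_zero h2

theorem sq_of_fs {G : Type u} [Group G] [Fintype G] (lam : G →* ℂˣ)
    (h : (Nat.card G : ℂ)⁻¹ * ∑ s : G, ((lam (s * s) : ℂˣ) : ℂ) = 1) (g : G) :
    ((lam (g * g) : ℂˣ) : ℂ) = 1 := by
  have h1 := irr_orthonormal (⟨fun g => ((lam ^ 2) g : ℂ), isIrrCharacter_of_hom (lam ^ 2)⟩ :
    IrrCharacter G) (trivIrr G)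
  have h2 : classInner (fun g => ((lam ^ 2) g : ℂ)) (trivIrr G).1 = 1 := by
    unfold classInner
    rw [← h]
    congr 1
    apply Finset.sum_congr rfl
    intro s _
    rw [trivIrr_apply, map_one, mul_one, map_mul]
    show (((lam ^ 2) s : ℂˣ) : ℂ) = _
    rw [MonoidHom.pow_apply, pow_two]
  rw [h2] at h1
  by_cases heq : (⟨fun g => ((lam ^ 2) g : ℂ), isIrrCharacter_of_hom (lam ^ 2)⟩ :
    IrrCharacter G) = trivIrr G
  · have h3 := congrFun (congrArg Subtype.val heq) g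
    simp only [trivIrr_apply] at h3
    rw [map_mul, ← pow_two, ← MonoidHom.pow_apply]
    exact h3
  · rw [if_neg heq] at h1
    exact absurd h1 one_ne_zero

theorem result {G : Type*} [Group G] [Finite G] (N : Subgroup G) (hN : N.Normal) (hN1 : N ≠ ⊥) (hmin : ∀ M : Subgroup G, M.Normal → M ≤ N → M = ⊥ ∨ M = N) (hna : ¬ IsMulCommutative ↥N) (φ : Cfsg.IrrCharacter ↥N) (I : Subgroup G) (hI : ∀ g : G, g ∈ I ↔ ∀ n n' : ↥N, (n' : G) = g * (n : G) * g⁻¹ → (φ : ↥N → ℂ) n' = (φ : ↥N → ℂ) n) (hNI : N ≤ I) (hext : ∃ ψ : Cfsg.IrrCharacter ↥I, (Nat.card ↥I : ℂ)⁻¹ * ∑ᶠ g : ↥I, (ψ : ↥I → ℂ) (g * g) = 1 ∧ ∀ n : ↥N, (ψ : ↥I → ℂ) (Subgroup.inclusion hNI n) = (φ : ↥N → ℂ) n) : Nat.card {χ : Cfsg.IrrCharacter G // Cfsg.charDegree (χ : G → ℂ) = 1 ∧ (Nat.card G : ℂ)⁻¹ * ∑ᶠ g : G, (χ : G → ℂ) (g * g) = 1} ≤ I.index * Nat.card {χ : Cfsg.IrrCharacter G // Cfsg.charDegree (χ : G → ℂ) = Cfsg.charDegree (φ : ↥N → ℂ) * I.index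 ∧ (Nat.card G : ℂ)⁻¹ * ∑ᶠ g : G, (χ : G → ℂ) (g * g) = 1} := by
  classical
  have := hN
  have : Fintype G := Fintype.ofFinite _
  have : Fintype N := Fintype.ofFinite _
  have : Fintype I := Fintype.ofFinite _
  have : Fintype (IrrCharacter G) := Fintype.ofFinite _
  have : Fintype (IrrCharacter I) := Fintype.ofFinite _
  obtain ⟨ψ, hψfs, hψ⟩ := hext
  rw [finsum_eq_sum_of_fintype] at hψfs
  have hNcomm : N ≤ commutator G := by
    have hn : (⁅N, N⁆ : Subgroup G).Normal := inferInstance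
    have hle : ⁅N, N⁆ ≤ N := Subgroup.commutator_le_right N N
    rcases hmin ⁅N, N⁆ hn hle with h | h
    · exfalso
      apply hna
      rw [Subgroup.commutator_eq_bot_iff_le_centralizer] at h
      refine ⟨⟨fun a b => Subtype.ext ?_⟩⟩
      have := h a.2
      rw [Subgroup.mem_centralizer_iff] at this
      exact (this b b.2).symm
    · rw [← h, commutator_def]
      exact Subgroup.commutator_mono le_top le_top
  have hT : ∀ g : G, g ∈ I ↔
      ∀ n : N, φ.1 ⟨g * n * g⁻¹, hN.conj_mem (n : G) n.2 g⟩ = φ.1 n := by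
    intro g
    rw [hI g]
    constructor
    · intro h n
      exact h n _ rfl
    · intro h n n' hn'
      have e : n' = ⟨g * n * g⁻¹, hN.conj_mem n n.2 g⟩ := Subtype.ext hn'
      rw [e]
      exact h n
  obtain ⟨c, hc1, -, hc3, hc4⟩ := clifford_correspondence N φ.1 φ.2 I hT hNI
  have hresψ : (fun n : N => ψ.1 ⟨(n : G), hNI n.2⟩) = φ.1 := funext hψ
  have hcψ : c ψ = 1 := by
    have := hc1 ψ
    rw [hresψ, irr_inner_self φ] at this
    exact_mod_cast this.symm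
  have hχ₀irr : IsIrrCharacter G (indFun I ψ.1) := hc3 ψ (by rw [hcψ]; exact one_ne_zero)
  have hχ₀1 : indFun I ψ.1 1 = (I.index : ℂ) * φ.1 1 := by
    rw [indFun_one]
    congr 1
    have := hψ 1
    rw [map_one] at this
    exact this
  have hφreal : ∀ n : N, conj (φ.1 n) = φ.1 n := by
    intro n
    rw [← hψ n]
    exact real_of_fs ψ hψfs _
  have hχ₀fs : (Nat.card G : ℂ)⁻¹ * ∑ g : G, indFun I ψ.1 (g * g) = 1 := by
    rw [fs_indFun_clifford N φ hφreal I hT hNI ψ hψ]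
    exact hψfs
  have hG : ∀ μ : G →* ℂˣ, (∀ g, (μ g : ℂ) * indFun I ψ.1 g = indFun I ψ.1 g) →
      ∀ i : I, μ i = 1 := by
    intro μ hμ
    have hμN : ∀ n ∈ N, μ n = 1 := fun n hn =>
      MonoidHom.mem_ker.mp (Abelianization.commutator_subset_ker μ (hNcomm hn))
    have hηirr : IsIrrCharacter I (fun i : I => (μ i : ℂ) * ψ.1 i) :=
      isIrrCharacter_hom_mul (μ.comp I.subtype) ψ.2
    have hηres : (fun n : N => (fun i : I => (μ i : ℂ) * ψ.1 i) ⟨(n : G), hNI n.2⟩) = φ.1 := by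
      funext n
      show (μ (n : G) : ℂ) * ψ.1 ⟨(n : G), hNI n.2⟩ = φ.1 n
      rw [hμN n n.2, Units.val_one, one_mul]
      exact hψ n
    have hcη : c ⟨_, hηirr⟩ ≠ 0 := by
      have := hc1 ⟨_, hηirr⟩
      rw [hηres, irr_inner_self φ] at this
      intro h0
      rw [h0] at this
      simp at this
    have hind : indFun I (fun i : I => (μ i : ℂ) * ψ.1 i) = indFun I ψ.1 := by
      have h1 : (fun i : I => (μ i : ℂ) * ψ.1 i)
          = ψ.1 * (fun i : I => (fun g : G => (μ g : ℂ)) i) := by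
        funext i
        show (μ i : ℂ) * ψ.1 i = ψ.1 i * (μ i : ℂ)
        ring
      rw [h1, indFun_mul_restrict I ψ.1 (isCharacter_conj_class (isCharacter_of_hom_linear μ).1)]
      funext g
      show indFun I ψ.1 g * (μ g : ℂ) = indFun I ψ.1 g
      rw [mul_comm]
      exact hμ g
    have hηψ : (⟨_, hηirr⟩ : IrrCharacter I) = ψ := by
      by_contra hne
      have := hc4 ⟨_, hηirr⟩ ψ hcη (by rw [hcψ]; exact one_ne_zero) hne
      rw [hind] at this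
      have h2 : classInner (indFun I ψ.1) (indFun I ψ.1) = 1 := irr_inner_self ⟨_, hχ₀irr⟩
      rw [h2] at this
      exact one_ne_zero this
    have hηψ' : ∀ i : I, (μ i : ℂ) * ψ.1 i = ψ.1 i :=
      fun i => congrFun (congrArg Subtype.val hηψ) i
    have hN' : (N.subgroupOf I).Normal := hN.subgroupOf I
    have : Fintype (N.subgroupOf I) := Fintype.ofFinite _
    have hψN' : IsIrrCharacter (N.subgroupOf I) (fun n : N.subgroupOf I => ψ.1 n) := by
      have h := isIrrCharacter_comp_equiv (Subgroup.subgroupOfEquivOfLe hNI) φ.2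
      have e : (fun n : N.subgroupOf I => ψ.1 n) = φ.1 ∘ (Subgroup.subgroupOfEquivOfLe hNI) := by
        funext n
        show ψ.1 n = φ.1 (Subgroup.subgroupOfEquivOfLe hNI n)
        rw [← hψ]
        congr 1
      rw [e]
      exact h
    have hgal := gallagher_quotient (N.subgroupOf I) ψ.1 ψ.2 hψN'
    have hβ1 : (fun i : I => (μ i : ℂ)) ∈ {β : I → ℂ | IsIrrCharacter I β ∧
        ∀ n ∈ N.subgroupOf I, β n = β 1} := by
      refine ⟨isIrrCharacter_of_hom (μ.comp I.subtype), ?_⟩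
      intro n hn
      show (μ (n : G) : ℂ) = (μ ((1 : I) : G) : ℂ)
      rw [hμN n (Subgroup.mem_subgroupOf.mp hn)]
      simp
    have hβ2 : (fun _ : I => (1:ℂ)) ∈ {β : I → ℂ | IsIrrCharacter I β ∧
        ∀ n ∈ N.subgroupOf I, β n = β 1} := ⟨isIrrCharacter_trivial, fun _ _ => rfl⟩
    have := hgal.injOn hβ1 hβ2 (by
      funext i
      show (μ i : ℂ) * ψ.1 i = 1 * ψ.1 i
      rw [one_mul]
      exact hηψ' i)
    intro i
    have h3 := congrFun this i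
    exact Units.ext h3
  have : Fintype {χ : IrrCharacter G // charDegree (χ : G → ℂ) = 1 ∧
      (Nat.card G : ℂ)⁻¹ * ∑ᶠ g : G, (χ : G → ℂ) (g * g) = 1} := Fintype.ofFinite _
  have : Fintype {χ : IrrCharacter G // charDegree (χ : G → ℂ) = charDegree (φ : ↥N → ℂ) * I.index ∧
      (Nat.card G : ℂ)⁻¹ * ∑ᶠ g : G, (χ : G → ℂ) (g * g) = 1} := Fintype.ofFinite _
  have hlin1 : ∀ χ : {χ : IrrCharacter G // charDegree (χ : G → ℂ) = 1 ∧
      (Nat.card G : ℂ)⁻¹ * ∑ᶠ g : G, (χ : G → ℂ) (g * g) = 1}, χ.1.1 1 = 1 := by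
    intro χ
    rw [← charDegree_cast, χ.2.1]
    simp
  obtain ⟨lam, hlam⟩ : ∃ lam : {χ : IrrCharacter G // charDegree (χ : G → ℂ) = 1 ∧
      (Nat.card G : ℂ)⁻¹ * ∑ᶠ g : G, (χ : G → ℂ) (g * g) = 1} → (G →* ℂˣ),
      ∀ χ g, (lam χ g : ℂ) = χ.1.1 g :=
    ⟨fun χ => irrLinHom χ.1 (hlin1 χ), fun χ g => irrLinHom_apply χ.1 (hlin1 χ) g⟩
  have hlamsq : ∀ χ g, ((lam χ (g * g) : ℂˣ) : ℂ) = 1 := by
    intro χ g
    apply sq_of_fs (lam χ)
    have h1 := χ.2.2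
    rw [finsum_eq_sum_of_fintype] at h1
    rw [← h1]
    congr 1
    apply Finset.sum_congr rfl
    intro s _
    exact hlam χ (s * s)
  have hfirr : ∀ χ, IsIrrCharacter G (fun g => (lam χ g : ℂ) * indFun I ψ.1 g) :=
    fun χ => isIrrCharacter_hom_mul (lam χ) hχ₀irr
  have hfdeg : ∀ χ, charDegree (fun g => (lam χ g : ℂ) * indFun I ψ.1 g)
      = charDegree φ.1 * I.index := by
    intro χ
    have h1 : (charDegree (fun g => (lam χ g : ℂ) * indFun I ψ.1 g) : ℂ)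
        = ((charDegree φ.1 * I.index : ℕ) : ℂ) := by
      rw [charDegree_cast ⟨_, hfirr χ⟩]
      show (lam χ 1 : ℂ) * indFun I ψ.1 1 = _
      rw [map_one, Units.val_one, one_mul, hχ₀1, Nat.cast_mul, charDegree_cast φ, mul_comm]
    exact Nat.cast_injective h1
  have hffs : ∀ χ, (Nat.card G : ℂ)⁻¹ *
      ∑ᶠ g : G, (fun g => (lam χ g : ℂ) * indFun I ψ.1 g) (g * g) = 1 := by
    intro χ
    rw [finsum_eq_sum_of_fintype, ← hχ₀fs]
    congr 1
    apply Finset.sum_congr rfl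
    intro g _
    show (lam χ (g * g) : ℂ) * indFun I ψ.1 (g * g) = _
    rw [hlamsq, one_mul]
  obtain ⟨f, hf⟩ : ∃ f : {χ : IrrCharacter G // charDegree (χ : G → ℂ) = 1 ∧
      (Nat.card G : ℂ)⁻¹ * ∑ᶠ g : G, (χ : G → ℂ) (g * g) = 1} →
      {χ : IrrCharacter G // charDegree (χ : G → ℂ) = charDegree (φ : ↥N → ℂ) * I.index ∧
        (Nat.card G : ℂ)⁻¹ * ∑ᶠ g : G, (χ : G → ℂ) (g * g) = 1},
      ∀ χ g, (f χ).1.1 g = (lam χ g : ℂ) * indFun I ψ.1 g :=
    ⟨fun χ => ⟨⟨fun g => (lam χ g : ℂ) * indFun I ψ.1 g, hfirr χ⟩, hfdeg χ, hffs χ⟩,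
      fun _ _ => rfl⟩
  have hfib : ∀ a ∈ (Finset.univ : Finset {χ : IrrCharacter G // charDegree (χ : G → ℂ) = 1 ∧
      (Nat.card G : ℂ)⁻¹ * ∑ᶠ g : G, (χ : G → ℂ) (g * g) = 1}).image f,
      ((Finset.univ : Finset {χ : IrrCharacter G // charDegree (χ : G → ℂ) = 1 ∧
        (Nat.card G : ℂ)⁻¹ * ∑ᶠ g : G, (χ : G → ℂ) (g * g) = 1}).filter
        (fun x => f x = a)).card ≤ I.index := by
    intro a ha
    obtain ⟨χ₁, -, rfl⟩ := Finset.mem_image.mp ha
    refine le_trans ?_ (card_irr_trivial_on_le_index I)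
    apply Finset.card_le_card_of_injOn
      (fun χ => (⟨fun g => ((lam χ * (lam χ₁)⁻¹) g : ℂ), isIrrCharacter_of_hom _⟩ : IrrCharacter G))
    · intro χ hχ
      rw [Finset.mem_coe, Finset.mem_filter] at hχ
      rw [Finset.mem_coe, Finset.mem_filter]
      refine ⟨Finset.mem_univ _, ?_⟩
      have heq : ∀ g, (lam χ g : ℂ) * indFun I ψ.1 g = (lam χ₁ g : ℂ) * indFun I ψ.1 g := by
        intro g
        rw [← hf χ g, ← hf χ₁ g, hχ.2]
      have key := hG (lam χ * (lam χ₁)⁻¹) (fun g => by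
        have hb : (lam χ₁ g : ℂ) ≠ 0 := Units.ne_zero _
        show (((lam χ g) * (lam χ₁ g)⁻¹ : ℂˣ) : ℂ) * indFun I ψ.1 g = indFun I ψ.1 g
        rw [Units.val_mul, Units.val_inv_eq_inv_val]
        calc (lam χ g : ℂ) * (lam χ₁ g : ℂ)⁻¹ * indFun I ψ.1 g
            = (lam χ₁ g : ℂ)⁻¹ * ((lam χ g : ℂ) * indFun I ψ.1 g) := by ring
          _ = (lam χ₁ g : ℂ)⁻¹ * ((lam χ₁ g : ℂ) * indFun I ψ.1 g) := by rw [heq g]
          _ = indFun I ψ.1 g := by rw [← mul_assoc, inv_mul_cancel₀ hb, one_mul])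
      intro i
      show ((lam χ * (lam χ₁)⁻¹) (i : G) : ℂ) = 1
      rw [key i]
      rfl
    · intro χ hχ χ' hχ' h
      have h2 : ∀ g, ((lam χ * (lam χ₁)⁻¹) g : ℂ) = ((lam χ' * (lam χ₁)⁻¹) g : ℂ) :=
        fun g => congrFun (congrArg Subtype.val h) g
      apply Subtype.ext
      apply Subtype.ext
      funext g
      rw [← hlam χ g, ← hlam χ' g]
      have h3 : (lam χ g) * (lam χ₁ g)⁻¹ = (lam χ' g) * (lam χ₁ g)⁻¹ := Units.ext (h2 g)
      exact congrArg Units.val (mul_right_cancel h3)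
  have hmain := Finset.card_le_mul_card_image
    (Finset.univ : Finset {χ : IrrCharacter G // charDegree (χ : G → ℂ) = 1 ∧
      (Nat.card G : ℂ)⁻¹ * ∑ᶠ g : G, (χ : G → ℂ) (g * g) = 1}) I.index hfib
  have e1 : Nat.card {χ : IrrCharacter G // charDegree (χ : G → ℂ) = 1 ∧
      (Nat.card G : ℂ)⁻¹ * ∑ᶠ g : G, (χ : G → ℂ) (g * g) = 1}
      = Fintype.card {χ : IrrCharacter G // charDegree (χ : G → ℂ) = 1 ∧
        (Nat.card G : ℂ)⁻¹ * ∑ᶠ g : G, (χ : G → ℂ) (g * g) = 1} := Nat.card_eq_fintype_card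
  have e2 : Nat.card {χ : IrrCharacter G //
      charDegree (χ : G → ℂ) = charDegree (φ : ↥N → ℂ) * I.index ∧
      (Nat.card G : ℂ)⁻¹ * ∑ᶠ g : G, (χ : G → ℂ) (g * g) = 1}
      = Fintype.card {χ : IrrCharacter G //
        charDegree (χ : G → ℂ) = charDegree (φ : ↥N → ℂ) * I.index ∧
        (Nat.card G : ℂ)⁻¹ * ∑ᶠ g : G, (χ : G → ℂ) (g * g) = 1} := Nat.card_eq_fintype_card
  rw [e1, e2]
  calc Fintype.card {χ : IrrCharacter G // charDegree (χ : G → ℂ) = 1 ∧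
        (Nat.card G : ℂ)⁻¹ * ∑ᶠ g : G, (χ : G → ℂ) (g * g) = 1}
      = (Finset.univ : Finset {χ : IrrCharacter G // charDegree (χ : G → ℂ) = 1 ∧
          (Nat.card G : ℂ)⁻¹ * ∑ᶠ g : G, (χ : G → ℂ) (g * g) = 1}).card :=
        Finset.card_univ.symm
    _ ≤ I.index * ((Finset.univ : Finset {χ : IrrCharacter G //
          charDegree (χ : G → ℂ) = 1 ∧
          (Nat.card G : ℂ)⁻¹ * ∑ᶠ g : G, (χ : G → ℂ) (g * g) = 1}).image f).card := hmain
    _ ≤ I.index * Fintype.card {χ : IrrCharacter G //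
          charDegree (χ : G → ℂ) = charDegree (φ : ↥N → ℂ) * I.index ∧
          (Nat.card G : ℂ)⁻¹ * ∑ᶠ g : G, (χ : G → ℂ) (g * g) = 1} :=
        Nat.mul_le_mul_left _ (Finset.card_le_univ _)

end Cfsg.Agent.S4912
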