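import Cfsg.Statements.S4937
import Cfsg.Agent.Lib.helper22.PBExtB
import Cfsg.Agent.Lib.helper22.FSInd
import Cfsg.Agent.Lib.helper22.IndexP
import Cfsg.Agent.Lib.helper24.CharKer

set_option autoImplicit false
open Cfsg

namespace Cfsg.Agent.S4937

open Cfsg.Agent.Lib.helper22 Cfsg.Agent.Lib.helper22.PBExt Cfsg.Agent.Lib.helper23
  Cfsg.Agent.Lib.helper24

theorem result {G : Type*} [Group G] [Finite G] (p : ℕ) [Fact p.Prime] (M : Ideal Cfsg.AlgInt) (hM : Cfsg.IsPModular p M) (N : Subgroup G) [N.Normal] (P : Sylow p ↥N)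
    (hcov : N ⊔ Subgroup.centralizer (((P : Subgroup ↥N).map N.subtype : Subgroup G) : Set G) = ⊤)
    (θ : Cfsg.IrrCharacter ↥N) (hθ : θ ∈ Cfsg.principalBlock M ↥N)
    (hext : ∃ ψ : Cfsg.IrrCharacter G, ∀ x : ↥N, (ψ : G → ℂ) x = (θ : ↥N → ℂ) x) :
    ∃ χ : Cfsg.IrrCharacter G, χ ∈ Cfsg.principalBlock M G ∧ (∀ x : ↥N, (χ : G → ℂ) x = (θ : ↥N → ℂ) x) ∧
      ∀ J : Subgroup G, N ≤ J → ∃ ξ : Cfsg.IrrCharacter ↥J, ξ ∈ Cfsg.principalBlock M ↥J ∧ ∀ y : ↥J, (ξ : ↥J → ℂ) y = (χ : G → ℂ) y := by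
  classical
  haveI : Fintype G := Fintype.ofFinite G
  have hMprime : M.IsPrime := isPModular_isPrime hM
  obtain ⟨ψ, hψ⟩ := hext
  obtain ⟨d, ρ, hirr, hρ⟩ := ψ.2
  have hρg : ∀ g, ρ.character g = (ψ : G → ℂ) g := fun g => congrFun hρ g
  have hθch : Representation.character (ρ.comp N.subtype : Representation ℂ N (Fin d → ℂ)) =
      (θ : N → ℂ) := by
    funext x
    rw [← hψ x, ← hρg]
    rfl
  have hirrN : Representation.IsIrreducible
      (ρ.comp N.subtype : Representation ℂ N (Fin d → ℂ)) :=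
    irreducible_of_irr_character _ (hθch ▸ θ.2)
  have hSch : ∀ T : Module.End ℂ (Fin d → ℂ), (∀ n ∈ N, T ∘ₗ ρ n = ρ n ∘ₗ T) →
      ∃ c : ℂ, T = c • LinearMap.id := by
    intro T hT
    haveI := hirrN
    exact irr_commuting_scalar d (ρ.comp N.subtype : Representation ℂ N (Fin d → ℂ)) T
      (fun x => hT x x.2)
  have hd : d ≠ 0 := by
    haveI := hirr
    exact irr_dim_ne_zero d ρ
  have hd' : (d : ℂ) ≠ 0 := by exact_mod_cast hd
  have hψ1 : (ψ : G → ℂ) 1 = d := by rw [← hρg, rep_char_one]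
  have hB : ∀ g ∈ N, Cfsg.MemLocalIdeal M
      (((orbF N g).card : ℂ) * (ρ.character g / d - 1)) := by
    intro g hg
    have h1 := (mem_principalBlock_iff M θ).mp hθ ⟨g, hg⟩
    unfold Cfsg.centralChar at h1
    rw [← card_isConj_eq_index, card_isConj_eq_orbF] at h1
    have e1 : (θ : N → ℂ) ⟨g, hg⟩ = ρ.character g := by rw [hρg]; exact (hψ ⟨g, hg⟩).symm
    have e2 : (θ : N → ℂ) 1 = d := by rw [← hψ1]; exact (hψ 1).symm
    rw [e1, e2] at h1
    have h2 := memLocalIdeal_neg h1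
    have e3 : -(((orbF N ((⟨g, hg⟩ : N) : G)).card : ℂ) -
        ((orbF N ((⟨g, hg⟩ : N) : G)).card : ℂ) * ρ.character g / d) =
        ((orbF N g).card : ℂ) * (ρ.character g / d - 1) := by
      field_simp
      ring
    rw [e3] at h2
    exact h2
  have hC : ∀ g : G, ∃ n ∈ N, ∃ c : G, g = n * c ∧ ¬ p ∣ (orbF N c).card ∧
      ¬ p ∣ (orbF N c⁻¹).card := by
    intro g
    have hg : g ∈ N ⊔ Subgroup.centralizer
        (((P : Subgroup ↥N).map N.subtype : Subgroup G) : Set G) := by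
      rw [hcov]
      exact Subgroup.mem_top g
    rw [← SetLike.mem_coe, Subgroup.normal_mul] at hg
    obtain ⟨n, hn, c, hc, rfl⟩ := Set.mem_mul.mp hg
    exact ⟨n, hn, c, rfl, orb_not_dvd N P c hc, orb_not_dvd N P c⁻¹ (Subgroup.inv_mem _ hc)⟩
  obtain ⟨K, hK0, hKm, hKN, hKq⟩ := exists_K ρ N hM hSch hd hB hC
  obtain ⟨lam, hlint, hlK, hl1⟩ := exists_lift hM K hK0 hKm
  have hχirr : IsIrrCharacter G (twistFun (ψ : G → ℂ) lam) := twist_irr ψ.2 lam
  have hχ1 : twistFun (ψ : G → ℂ) lam 1 = d := by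
    rw [twistFun_apply, hψ1, map_one]
    simp
  have hχconj : ∀ (h y : G), ρ.character (h * y * h⁻¹) * ((lam (h * y * h⁻¹) : ℂˣ) : ℂ) =
      ρ.character y * ((lam y : ℂˣ) : ℂ) := by
    intro h y
    rw [Representation.char_conj ρ y h]
    have : lam (h * y * h⁻¹) = lam y := by
      rw [map_mul, map_mul, map_inv, mul_comm (lam h), mul_assoc, mul_inv_cancel, mul_one]
    rw [this]
  have hχN : ∀ x : N, twistFun (ψ : G → ℂ) lam x = (θ : N → ℂ) x := by
    intro x
    rw [twistFun_apply, hl1 x (hKN x x.2), hψ x]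
    simp
  refine ⟨⟨twistFun (ψ : G → ℂ) lam, hχirr⟩, ?_, hχN, ?_⟩
  · rw [mem_principalBlock_iff]
    intro g
    show Cfsg.MemLocalIdeal M (_ - Cfsg.centralChar (twistFun (ψ : G → ℂ) lam) g)
    unfold Cfsg.centralChar
    rw [hχ1, twistFun_apply, ← hρg, ← card_isConj_eq_index]
    have h1 := block_aux ρ N hM hSch hd K lam hlint hlK hKq
      (Finset.univ.filter (fun y : G => IsConj g y)) ?_ g ?_
    · have h2 := memLocalIdeal_neg h1
      have e3 : -(((Finset.univ.filter (fun y : G => IsConj g y)).card : ℂ) *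
          (ρ.character g * ((lam g : ℂˣ) : ℂ) / d - 1)) =
          ((Finset.univ.filter (fun y : G => IsConj g y)).card : ℂ) -
          ((Finset.univ.filter (fun y : G => IsConj g y)).card : ℂ) *
            (ρ.character g * ((lam g : ℂˣ) : ℂ)) / d := by
        field_simp
        ring
      rw [e3] at h2
      exact h2
    · intro n _ u hu
      rw [Finset.mem_filter] at hu ⊢
      exact ⟨Finset.mem_univ _, hu.2.trans (isConj_iff.mpr ⟨n, rfl⟩)⟩
    · intro u hu
      rw [Finset.mem_filter] at hu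
      obtain ⟨c, rfl⟩ := isConj_iff.mp hu.2
      exact hχconj c g
  · intro J hNJ
    obtain ⟨d', ρ', hirr', hρ'⟩ := hχirr
    have hρ'g : ∀ g, ρ'.character g = twistFun (ψ : G → ℂ) lam g := fun g => congrFun hρ' g
    obtain ⟨ρJ, hρJ⟩ : ∃ B : Representation ℂ J (Fin d' → ℂ), B = ρ'.comp J.subtype := ⟨_, rfl⟩
    have hρJy : ∀ y : J, ρJ y = ρ' (y : G) := fun y => by rw [hρJ]; rfl
    have hchN : Representation.character
        (ρJ.comp (Subgroup.inclusion hNJ) : Representation ℂ N (Fin d' → ℂ)) = (θ : N → ℂ) := by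
      funext x
      rw [← hχN x, ← hρ'g]
      show LinearMap.trace ℂ _ (ρJ (Subgroup.inclusion hNJ x)) = LinearMap.trace ℂ _ (ρ' (x : G))
      rw [hρJy]
      rfl
    have hirrJN : Representation.IsIrreducible
        (ρJ.comp (Subgroup.inclusion hNJ) : Representation ℂ N (Fin d' → ℂ)) :=
      irreducible_of_irr_character _ (hchN ▸ θ.2)
    have hirrJ : ρJ.IsIrreducible :=
      isIrreducible_of_comp ρJ (Subgroup.inclusion hNJ) hirrJN
    have hξfun : ρJ.character = fun y : J => twistFun (ψ : G → ℂ) lam y := by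
      funext y
      rw [← hρ'g]
      show LinearMap.trace ℂ _ (ρJ y) = LinearMap.trace ℂ _ (ρ' (y : G))
      rw [hρJy]
    have hξirr : IsIrrCharacter J (fun y : J => twistFun (ψ : G → ℂ) lam y) :=
      ⟨d', ρJ, hirrJ, hξfun⟩
    refine ⟨⟨fun y : J => twistFun (ψ : G → ℂ) lam y, hξirr⟩, ?_, fun y => rfl⟩
    rw [mem_principalBlock_iff]
    intro y
    show Cfsg.MemLocalIdeal M (_ - Cfsg.centralChar (fun y : J => twistFun (ψ : G → ℂ) lam y) y)
    unfold Cfsg.centralChar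
    beta_reduce
    have e1 : twistFun (ψ : G → ℂ) lam ((1 : J) : G) = d := hχ1
    rw [e1, twistFun_apply, ← hρg, ← card_isConj_eq_index, card_isConj_eq_orbF]
    have h1 := block_aux ρ N hM hSch hd K lam hlint hlK hKq
      (orbF J (y : G)) ?_ (y : G) ?_
    · have h2 := memLocalIdeal_neg h1
      have e3 : -(((orbF J (y : G)).card : ℂ) *
          (ρ.character (y : G) * ((lam (y : G) : ℂˣ) : ℂ) / d - 1)) =
          ((orbF J (y : G)).card : ℂ) -
          ((orbF J (y : G)).card : ℂ) *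
            (ρ.character (y : G) * ((lam (y : G) : ℂˣ) : ℂ)) / d := by
        field_simp
        ring
      rw [e3] at h2
      exact h2
    · intro n hn u hu
      exact conj_mem_orbF J _ u n (hNJ hn) hu
    · intro u hu
      obtain ⟨c, _, rfl⟩ := (mem_orbF J _ u).mp hu
      exact hχconj c y

end Cfsg.Agent.S4937
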