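import Cfsg.Statements.S4955
import Cfsg.Agent.Lib.helper24.CharSelfCent
import Cfsg.Agent.Lib.helper24.GlaubExt

set_option autoImplicit false
open Cfsg

namespace Cfsg.Agent.S4955

open Cfsg.Agent.Lib.helper23 Cfsg.Agent.Lib.helper24
open scoped ComplexConjugate

theorem result {X : Type*} [Group X] [Finite X] (p : ℕ) [Fact p.Prime] (V : Subgroup X) [V.Normal] (hVp : IsPGroup p V) (hidx : ¬ p ∣ V.index) (hab : ∀ a ∈ V, ∀ b ∈ V, a * b = b * a) (G : Subgroup X) (hGV : Subgroup.IsComplement' V G) (v : X) (hv : v ∈ V) : Nat.card (ConjClasses X) + Nat.card G ≤ Nat.card ↥(G ⊓ Subgroup.centralizer ({v} : Set X)) * Nat.card V + Nat.card (ConjClasses G) := by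
  classical
  have hp : p.Prime := Fact.out
  have : Fintype X := Fintype.ofFinite X
  have : Fintype (IrrCharacter X) := Fintype.ofFinite _
  have : NeZero (Nat.card X) := ⟨Nat.card_pos.ne'⟩
  have : Fintype (X ⧸ V) := Fintype.ofFinite _
  have : Fintype (IrrCharacter (X ⧸ V)) := Fintype.ofFinite _
  obtain ⟨P, hP⟩ : ∃ P : Sylow p X, (P : Subgroup X) = V :=
    ⟨hVp.toSylow hidx, IsPGroup.toSylow_coe hVp hidx⟩
  have hPn : (P : Subgroup X).Normal := by
    rw [hP]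
    infer_instance
  have hmemP : ∀ x : X, x ∈ P ↔ x ∈ V := by
    intro x
    rw [← hP]
    rfl
  have habP : ∀ a ∈ P, ∀ b ∈ P, a * b = b * a := by
    intro a ha b hb
    exact hab a ((hmemP a).mp ha) b ((hmemP b).mp hb)
  obtain ⟨F, hF⟩ : ∃ F : IrrCharacter X → (ZMod (Nat.card X))ˣ → ℝ,
      F = fun χ u => ‖χ.1 (v ^ (u : ZMod (Nat.card X)).val)‖ ^ 2 := ⟨_, rfl⟩
  obtain ⟨C, hC⟩ : ∃ C : Subgroup X, C = Subgroup.centralizer ({v} : Set X) := ⟨_, rfl⟩
  rw [← hC]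
  have hcol : ∀ u : (ZMod (Nat.card X))ˣ, ∑ χ : IrrCharacter X, F χ u = (Nat.card C : ℝ) := by
    intro u
    have h1 := second_orth_of_isConj (IsConj.refl (v ^ (u : ZMod (Nat.card X)).val))
    rw [centralizer_pow_coprime v _ (ZMod.val_coe_unit_coprime u), ← hC] at h1
    have h2 : ((∑ χ : IrrCharacter X, F χ u : ℝ) : ℂ) = ((Nat.card C : ℝ) : ℂ) := by
      push_cast
      rw [← h1, hF]
      refine Finset.sum_congr rfl (fun χ _ => ?_)
      rw [Complex.mul_conj, Complex.normSq_eq_norm_sq]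
    exact_mod_cast h2
  have hrow : ∀ χ : IrrCharacter X,
      (Fintype.card (ZMod (Nat.card X))ˣ : ℝ) ≤ ∑ u : (ZMod (Nat.card X))ˣ, F χ u := by
    intro χ
    obtain ⟨n, ρ, hρ, hχ⟩ := χ.2
    obtain ⟨z, hz⟩ := Cfsg.Agent.Lib.helper23.prod_units_char_int ρ v
    have hz0 : z ≠ 0 := by
      rintro rfl
      rw [Int.cast_zero, Finset.prod_eq_zero_iff] at hz
      obtain ⟨u, -, hu⟩ := hz
      rw [hχ] at hu
      exact irr_ne_zero_on_abelian_normal_sylow p P habP χ _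
        (Subgroup.pow_mem _ ((hmemP v).mpr hv) _) hu
    apply card_le_sum_of_one_le_prod
    · intro u
      rw [hF]
      positivity
    · have h1 : ∏ u : (ZMod (Nat.card X))ˣ, F χ u = ‖(z : ℂ)‖ ^ 2 := by
        rw [← hz, norm_prod, ← Finset.prod_pow, hχ, hF]
      rw [h1]
      have h2 : (1 : ℝ) ≤ ‖(z : ℂ)‖ := by
        rw [Complex.norm_intCast]
        exact_mod_cast Int.one_le_abs hz0
      nlinarith
  have hU : (0 : ℝ) < Fintype.card (ZMod (Nat.card X))ˣ := by exact_mod_cast Fintype.card_pos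
  have htot : ∑ χ : IrrCharacter X, ∑ u : (ZMod (Nat.card X))ˣ, F χ u
      = (Fintype.card (ZMod (Nat.card X))ˣ : ℝ) * (Nat.card C : ℝ) := by
    rw [Finset.sum_comm, Finset.sum_congr rfl (fun u _ => hcol u), Finset.sum_const,
      Finset.card_univ, nsmul_eq_mul]
  obtain ⟨S₁, hS₁⟩ : ∃ S₁ : Finset (IrrCharacter X),
      S₁ = Finset.univ.image (irrInfl V) := ⟨_, rfl⟩
  have hinj : Function.Injective (irrInfl V) := irrInfl_injective V
  obtain ⟨e⟩ : Nonempty (X ⧸ V ≃* G) := ⟨hGV.symm.QuotientMulEquiv⟩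
  have hS₁card : S₁.card = Nat.card (ConjClasses G) := by
    rw [hS₁, Finset.card_image_of_injective _ hinj, Finset.card_univ,
      ← Nat.card_eq_fintype_card, card_irr_eq_card_conjClasses]
    exact card_conjClasses_congr e
  have hS₁F : ∀ ψ : IrrCharacter (X ⧸ V), ∀ u : (ZMod (Nat.card X))ˣ,
      F (irrInfl V ψ) u = ‖ψ.1 1‖ ^ 2 := by
    intro ψ u
    rw [hF]
    show ‖(irrInfl V ψ).1 (v ^ (u : ZMod (Nat.card X)).val)‖ ^ 2 = _
    rw [irrInfl_apply]
    have h1 : ((v ^ (u : ZMod (Nat.card X)).val : X) : X ⧸ V) = 1 :=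
      (QuotientGroup.eq_one_iff _).2 (Subgroup.pow_mem _ hv _)
    rw [h1]
  have hdegsum : ∑ ψ : IrrCharacter (X ⧸ V), ‖ψ.1 1‖ ^ 2 = (Nat.card G : ℝ) := by
    have h1 := sum_degree_mul_one (G := X ⧸ V)
    have h2 : ((∑ ψ : IrrCharacter (X ⧸ V), ‖ψ.1 1‖ ^ 2 : ℝ) : ℂ) = ((Nat.card G : ℝ) : ℂ) := by
      push_cast
      rw [← Nat.card_congr e.toEquiv, ← h1]
      refine Finset.sum_congr rfl (fun ψ _ => ?_)
      rw [← charDegree_cast ψ, Complex.norm_natCast]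
      push_cast
      ring
    exact_mod_cast h2
  have hpart1 : ∑ χ ∈ S₁, ∑ u : (ZMod (Nat.card X))ˣ, F χ u
      = (Fintype.card (ZMod (Nat.card X))ˣ : ℝ) * (Nat.card G : ℝ) := by
    rw [hS₁, Finset.sum_image (fun a _ b _ h => hinj h)]
    rw [Finset.sum_congr rfl (fun ψ _ => Finset.sum_congr rfl (fun u _ => hS₁F ψ u))]
    simp only [Finset.sum_const, Finset.card_univ, nsmul_eq_mul]
    rw [← Finset.mul_sum, hdegsum]
  have hpart2 : (Fintype.card (ZMod (Nat.card X))ˣ : ℝ) * ((S₁ᶜ).card : ℝ)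
      ≤ ∑ χ ∈ S₁ᶜ, ∑ u : (ZMod (Nat.card X))ˣ, F χ u := by
    calc (Fintype.card (ZMod (Nat.card X))ˣ : ℝ) * ((S₁ᶜ).card : ℝ)
        = ∑ _χ ∈ S₁ᶜ, (Fintype.card (ZMod (Nat.card X))ˣ : ℝ) := by
          rw [Finset.sum_const, nsmul_eq_mul, mul_comm]
      _ ≤ _ := Finset.sum_le_sum (fun χ _ => hrow χ)
  have hsplit := Finset.sum_add_sum_compl S₁
    (fun χ : IrrCharacter X => ∑ u : (ZMod (Nat.card X))ˣ, F χ u)
  rw [htot, hpart1] at hsplit
  have hineq : (Nat.card G : ℝ) + ((S₁ᶜ).card : ℝ) ≤ (Nat.card C : ℝ) := by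
    have h3 : (Fintype.card (ZMod (Nat.card X))ˣ : ℝ) * ((Nat.card G : ℝ) + ((S₁ᶜ).card : ℝ))
        ≤ (Fintype.card (ZMod (Nat.card X))ˣ : ℝ) * (Nat.card C : ℝ) := by
      rw [mul_add, ← hsplit]
      linarith
    exact le_of_mul_le_mul_left h3 hU
  have hineq' : Nat.card G + (S₁ᶜ).card ≤ Nat.card C := by exact_mod_cast hineq
  have hcardIrr : Nat.card (ConjClasses X) = S₁.card + (S₁ᶜ).card := by
    rw [← card_irr_eq_card_conjClasses, Nat.card_eq_fintype_card, Finset.card_add_card_compl]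
  have hVC : V ≤ C := by
    intro a ha
    rw [hC, Subgroup.mem_centralizer_iff]
    intro y hy
    rw [Set.mem_singleton_iff] at hy
    rw [hy]
    exact hab v hv a ha
  have hCcard : Nat.card C = Nat.card ↥(G ⊓ C) * Nat.card V := by
    rw [mul_comm, ← Nat.card_prod]
    symm
    apply Nat.card_congr
    refine Equiv.ofBijective (fun x : V × ↥(G ⊓ C) =>
      (⟨(x.1 : X) * (x.2 : X), C.mul_mem (hVC x.1.2) x.2.2.2⟩ : C)) ⟨?_, ?_⟩
    · rintro ⟨a, g⟩ ⟨a', g'⟩ h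
      have h1 : (a : X) * (g : X) = (a' : X) * (g' : X) := congrArg Subtype.val h
      have h2 := hGV.1 (a₁ := ((⟨(a : X), a.2⟩, ⟨(g : X), g.2.1⟩) : Prod ↥(V : Set X) ↥(G : Set X)))
        (a₂ := ((⟨(a' : X), a'.2⟩, ⟨(g' : X), g'.2.1⟩) : Prod ↥(V : Set X) ↥(G : Set X))) h1
      have h3 : (a : X) = (a' : X) := congrArg (fun x : Prod ↥(V : Set X) ↥(G : Set X) => (x.1 : X)) h2
      have h4 : (g : X) = (g' : X) := congrArg (fun x : Prod ↥(V : Set X) ↥(G : Set X) => (x.2 : X)) h2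
      exact Prod.ext (Subtype.ext h3) (Subtype.ext h4)
    · intro x
      obtain ⟨⟨a, g⟩, hag⟩ := hGV.2 (x : X)
      have hag' : (a : X) * (g : X) = (x : X) := hag
      have hgC : (g : X) ∈ C := by
        have h5 : (g : X) = (a : X)⁻¹ * (x : X) := by
          rw [← hag']
          group
        rw [h5]
        exact C.mul_mem (C.inv_mem (hVC a.2)) x.2
      exact ⟨(⟨(a : X), a.2⟩, ⟨(g : X), ⟨g.2, hgC⟩⟩), Subtype.ext hag'⟩
  rw [hcardIrr, hS₁card, ← hCcard]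
  omega
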