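import Cfsg.Statements.S5005
import Cfsg.Agent.Lib.helper27.M22Blk5

set_option autoImplicit false
open Cfsg

namespace Cfsg.Agent.S5005

/-- All irreducible complex characters of the Mathieu group `M₂₂` lie in a single 2-block: any two of them lie in the same block relative to every maximal ideal of the algebraic integers containing 2. -/
theorem result (M : Ideal Cfsg.AlgInt) (hM : Cfsg.IsPModular 2 M)
    (χ ψ : Cfsg.IrrCharacter ↥Cfsg.Spor.M22) : Cfsg.SameBlock M (χ : ↥Cfsg.Spor.M22 → ℂ) (ψ : ↥Cfsg.Spor.M22 → ℂ) := by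
  have hMp := Cfsg.Agent.Lib.helper23.isPModular_isPrime hM
  have h1 : Cfsg.SameBlock M (fun _ : ↥Cfsg.Spor.M22 => (1 : ℂ)) (χ : ↥Cfsg.Spor.M22 → ℂ) :=
    Cfsg.Agent.Lib.helper27.B22.principal_M22 M hM χ
  have h2 : Cfsg.SameBlock M (fun _ : ↥Cfsg.Spor.M22 => (1 : ℂ)) (ψ : ↥Cfsg.Spor.M22 → ℂ) :=
    Cfsg.Agent.Lib.helper27.B22.principal_M22 M hM ψ
  exact Cfsg.Agent.Lib.helper23.sameBlock_trans hMp (Cfsg.Agent.Lib.helper23.sameBlock_symm h1) h2

end Cfsg.Agent.S5005
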