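import Cfsg.Statements.S5011
-- import your own Cfsg.Agent.* helpers here

set_option autoImplicit false
open Cfsg

namespace Cfsg.Agent.S5011

/-- Let G be a finite non-abelian simple group and ρ an irreducible complex representation of G on a space of dimension greater than one (irreducible in the sense that the only subspaces invariant under every ρ(x) are 0 and the whole space). Then for every non-identity element g of G, the centralizer of g does not act irreducibly: there is a non-zero proper subspace invariant under ρ(c) for every c commuting with g. -/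
theorem result {G : Type*} [Group G] [Finite G] [IsSimpleGroup G]
    (hG : ¬ IsMulCommutative G) {V : Type*} [AddCommGroup V] [Module ℂ V] [FiniteDimensional ℂ V]
    (ρ : Representation ℂ G V)
    (hirr : ∀ W : Submodule ℂ V, (∀ x : G, ∀ v ∈ W, ρ x v ∈ W) → W = ⊥ ∨ W = ⊤)
    (hdim : 1 < Module.finrank ℂ V) (g : G) (hg : g ≠ 1) :
    ∃ W : Submodule ℂ V, W ≠ ⊥ ∧ W ≠ ⊤ ∧ ∀ c ∈ Subgroup.centralizer ({g} : Set G), ∀ v ∈ W, ρ c v ∈ W := by
  have hfr : 0 < Module.finrank ℂ V := lt_trans Nat.zero_lt_one hdim
  have : Nontrivial V := Module.nontrivial_of_finrank_pos (R := ℂ) hfr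
  obtain ⟨μ, hμ⟩ := Module.End.exists_eigenvalue (ρ g)
  refine ⟨Module.End.eigenspace (ρ g) μ, Module.End.hasEigenvalue_iff.mp hμ, ?_, ?_⟩
  · intro htop
    have hscal : ∀ v : V, ρ g v = μ • v := by
      intro v
      have : v ∈ Module.End.eigenspace (ρ g) μ := by rw [htop]; trivial
      exact Module.End.mem_eigenspace_iff.mp this
    have hcomm : ∀ x : G, ρ (g * x) = ρ (x * g) := by
      intro x
      apply LinearMap.ext
      intro v
      rw [map_mul, map_mul]
      change ρ g (ρ x v) = ρ x (ρ g v)
      rw [hscal, hscal, map_smul]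
    have hker : ∀ x : G, g * x * g⁻¹ * x⁻¹ ∈ MonoidHom.ker ρ := by
      intro x
      rw [MonoidHom.mem_ker]
      have h1 : g * x * g⁻¹ * x⁻¹ = (g * x) * (x * g)⁻¹ := by group
      rw [h1, map_mul, hcomm x, ← map_mul, mul_inv_cancel, map_one]
    rcases (MonoidHom.normal_ker ρ).eq_bot_or_eq_top with hK | hK
    · have hcen : g ∈ Subgroup.center G := by
        rw [Subgroup.mem_center_iff]
        intro x
        have h2 := hker x
        rw [hK, Subgroup.mem_bot] at h2
        have h3 : g * x = x * g := by
          have := congrArg (fun t => t * x * g) h2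
          simpa [mul_assoc] using this
        exact h3.symm
      rcases (inferInstance : (Subgroup.center G).Normal).eq_bot_or_eq_top with hZ | hZ
      · rw [hZ, Subgroup.mem_bot] at hcen
        exact hg hcen
      · apply hG
        refine ⟨⟨fun a b => ?_⟩⟩
        have ha : a ∈ Subgroup.center G := by rw [hZ]; trivial
        exact (Subgroup.mem_center_iff.mp ha b).symm
    · obtain ⟨v, hv⟩ := exists_ne (0 : V)
      have hinv : ∀ x : G, ∀ w ∈ (ℂ ∙ v), ρ x w ∈ (ℂ ∙ v) := by
        intro x w hw
        have hx : x ∈ MonoidHom.ker ρ := by rw [hK]; trivial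
        rw [MonoidHom.mem_ker] at hx
        rw [hx]
        exact hw
      rcases hirr (ℂ ∙ v) hinv with h0 | h1
      · have : v ∈ (ℂ ∙ v) := Submodule.mem_span_singleton_self v
        rw [h0, Submodule.mem_bot] at this
        exact hv this
      · have hf1 : Module.finrank ℂ ↥(ℂ ∙ v) = 1 := finrank_span_singleton hv
        rw [h1, finrank_top] at hf1
        omega
  · intro c hc v hv
    rw [Subgroup.mem_centralizer_singleton_iff] at hc
    rw [Module.End.mem_eigenspace_iff] at hv ⊢
    have h1 : ρ g (ρ c v) = ρ (g * c) v := by rw [map_mul]; rfl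
    have h2 : ρ c (ρ g v) = ρ (c * g) v := by rw [map_mul]; rfl
    rw [h1, ← hc, ← h2, hv, map_smul]

end Cfsg.Agent.S5011
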