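import Cfsg.Statements.S5084
import Cfsg.Agent.Lib.helper26.Alperin
import Cfsg.Agent.Lib.helper25.FusionLocal

set_option autoImplicit false
open Cfsg

namespace Cfsg.Agent.S5084

open Cfsg.FusionSystem

/-- If no element of `Q` is conjugate in the system to another element, every map of the system fixes
the elements of `Q` in its source. -/
theorem map_fix {Ω : Type*} [Group Ω] {S : Subgroup Ω} (F : Cfsg.FusionSystem S) {Q : Subgroup Ω}
    (hfix : ∀ x ∈ Q, ∀ y : Ω, F.IsConjElt x y → y = x) {T : Subgroup Ω} {χ : T →* Ω}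
    (hχ : χ ∈ F.Hom T) (x : T) (hx : (x : Ω) ∈ Q) : χ x = x := by
  have hle : Subgroup.zpowers (x : Ω) ≤ T := by
    rw [Subgroup.zpowers_le]
    exact x.2
  exact hfix x hx (χ x)
    ⟨χ.comp (Subgroup.inclusion hle), Cfsg.Agent.Lib.helper26.restrict_mem F hχ hle, rfl⟩

theorem le_centralizerIn {Ω : Type*} [Group Ω] {S : Subgroup Ω} (F : Cfsg.FusionSystem S)
    {Q : Subgroup Ω} (hQ : Q ≤ S) (hfix : ∀ x ∈ Q, ∀ y : Ω, F.IsConjElt x y → y = x)
    (P : Subgroup Ω) (hP : P ≤ S) : Q ≤ centralizerIn S P := by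
  intro x hx
  refine ⟨hQ hx, ?_⟩
  show x ∈ Subgroup.centralizer (P : Set Ω)
  rw [Subgroup.mem_centralizer_iff]
  intro g hg
  have hle : Subgroup.zpowers x ≤ S := by
    rw [Subgroup.zpowers_le]
    exact hQ hx
  have h1 : g * x * g⁻¹ = x :=
    hfix x hx _ ⟨Cfsg.conjHom (Subgroup.zpowers x) g, F.conj_mem hle (hP hg), rfl⟩
  calc g * x = (g * x * g⁻¹) * g := by group
    _ = x * g := by rw [h1]

/-- In a saturated fusion system over a finite p-group S, a subgroup Q is central in the system if and only if Q ≤ S and no element of Q is conjugate in the system to any element other than itself. -/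
theorem result {Ω : Type*} [Group Ω] {S : Subgroup Ω} [Finite S] (p : ℕ) [Fact p.Prime] (hS : IsPGroup p S) (F : Cfsg.FusionSystem S) (hF : F.IsSaturated p) (Q : Subgroup Ω) : F.IsCentral Q ↔ (Q ≤ S ∧ ∀ x ∈ Q, ∀ y : Ω, F.IsConjElt x y → y = x) := by
  constructor
  · rintro ⟨hQ, hext⟩
    refine ⟨hQ, ?_⟩
    rintro x hx y ⟨φ, hφ, rfl⟩
    obtain ⟨ψ, -, hψ1, hψ2⟩ := hext _ φ hφ
    have h1 := hψ1 ⟨x, Subgroup.mem_zpowers x⟩
    have h2 := hψ2 ⟨x, hx⟩
    rw [← h1]
    exact h2
  · rintro ⟨hQ, hfix⟩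
    have key : ∀ (U : Subgroup Ω) (φ : U →* Ω), φ ∈ F.Hom U →
        ∃ ψ ∈ F.Hom (U ⊔ Q), ∀ x : U, ψ (Subgroup.inclusion le_sup_left x) = φ x := by
      apply Cfsg.Agent.Lib.helper26.alperin_induction hS F hF
        (fun U φ => ∃ ψ ∈ F.Hom (U ⊔ Q), ∀ x : U, ψ (Subgroup.inclusion le_sup_left x) = φ x)
      · rintro U V φ hUV _ ⟨ψ, hψ, hψx⟩
        have hle : U ⊔ Q ≤ V ⊔ Q := sup_le_sup_right hUV Q
        exact ⟨ψ.comp (Subgroup.inclusion hle), Cfsg.Agent.Lib.helper26.restrict_mem F hψ hle,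
          fun x => hψx (Subgroup.inclusion hUV x)⟩
      · rintro U V φ ψ hφV _ _ ⟨φ', hφ', hφ'x⟩ ⟨ψ', hψ', hψ'x⟩
        have hval : ∀ z : ↥(U ⊔ Q), φ' z ∈ V ⊔ Q := by
          apply Cfsg.Agent.Lib.helper25.forall_mem_of_sup
          · intro x
            rw [hφ'x]
            exact Subgroup.mem_sup_left (hφV x)
          · intro x
            rw [map_fix F hfix hφ' _ x.2]
            exact Subgroup.mem_sup_right x.2
        refine ⟨ψ'.comp (φ'.codRestrict (V ⊔ Q) hval), F.comp_mem hφ' hψ' hval, fun x => ?_⟩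
        show ψ' ⟨φ' (Subgroup.inclusion le_sup_left x), _⟩ = ψ ⟨φ x, hφV x⟩
        rw [← hψ'x ⟨φ x, hφV x⟩]
        congr 1
        exact Subtype.ext (hφ'x x)
      · intro W hW _ α hα
        have hWS : W ≤ S := hW.1
        have hrec := Cfsg.Agent.Lib.helper26.receptive_of_fullyNormalized hS F hF hW
        have hrange : (W.subtype.comp α.toMonoidHom).range = W := by
          ext y
          constructor
          · rintro ⟨x, rfl⟩
            exact (α x).2
          · intro hy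
            exact ⟨α.symm ⟨y, hy⟩, by simp⟩
        obtain ⟨ψ, hψ, hψx⟩ := hrec.2 W _ hα hrange
        have hle : W ⊔ Q ≤ extender S W (W.subtype.comp α.toMonoidHom) := by
          refine sup_le ?_ ?_
          · exact Cfsg.Agent.Lib.helper26.le_extender hWS (fun x => hWS (α x).2)
          · exact (le_centralizerIn F hQ hfix W hWS).trans
              Cfsg.Agent.Lib.helper26.centralizerIn_le_extender
        refine ⟨ψ.comp (Subgroup.inclusion hle), Cfsg.Agent.Lib.helper26.restrict_mem F hψ hle,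
          fun x => ?_⟩
        exact hψx x x.2 _
    refine ⟨hQ, fun P φ hφ => ?_⟩
    obtain ⟨ψ, hψ, hψx⟩ := key P φ hφ
    exact ⟨ψ, hψ, hψx, fun x => map_fix F hfix hψ _ x.2⟩

end Cfsg.Agent.S5084
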