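import Cfsg.Statements.S5106
import Cfsg.Agent.Lib.helper25.FusionStab

set_option autoImplicit false
open Cfsg

namespace Cfsg.Agent.S5106

open Cfsg.FusionSystem
open scoped commutatorElement

/-- In a saturated fusion system over a finite p-group S, a subgroup R ≤ S is normal in the system if and only if every map of the system whose source is a subgroup of R is the restriction of an element of Aut_F(R). -/
theorem result {Ω : Type*} [Group Ω] {S : Subgroup Ω} [Finite S] (p : ℕ) [Fact p.Prime] (hS : IsPGroup p S) (F : Cfsg.FusionSystem S) (hF : F.IsSaturated p) (R : Subgroup Ω) (hRS : R ≤ S) : F.IsNormal R ↔ ∀ (P : Subgroup Ω) (hPR : P ≤ R) (φ : P →* Ω), φ ∈ F.Hom P → ∃ α ∈ F.autGroup R, ∀ x : P, ((α (Subgroup.inclusion hPR x) : R) : Ω) = φ x := by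
  constructor
  · intro hR P hPR φ hφ
    exact Cfsg.Agent.Lib.helper25.exists_aut_of_isNormal F hR hPR hφ
  · intro hext
    have hsc : F.StronglyClosed R := by
      refine ⟨hRS, fun P hPR φ hφ x => ?_⟩
      obtain ⟨α, -, hα⟩ := hext P hPR φ hφ
      rw [← hα x]
      exact (α _).2
    apply Cfsg.Agent.Lib.helper25.isNormal_of_stronglyClosed_of_mem hS F hF hsc
    intro P hcen hrad t htR htN
    have hPS : P ≤ S := hcen.1
    have hinvR : ∀ β ∈ F.autGroup P, ∀ x : P, (x : Ω) ∈ R → ((β x : P) : Ω) ∈ R :=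
      fun β hβ x hx => Cfsg.Agent.Lib.helper26.stronglyClosed_aut_mem F hsc
        ((Cfsg.Agent.Lib.helper26.mem_autGroup_iff F hPS β).1 hβ) hx
    -- the subgroup of automorphisms acting on `P ∩ R` as an element of `R`
    let K : Subgroup (F.autGroup P) :=
      { carrier := {a | ∃ r ∈ R, ∀ x : P, (x : Ω) ∈ R → (((a : MulAut P) x : P) : Ω) = r * x * r⁻¹}
        mul_mem' := by
          rintro a b ⟨r, hr, har⟩ ⟨r', hr', hbr⟩
          refine ⟨r * r', R.mul_mem hr hr', fun x hx => ?_⟩
          have h1 : ((((b : MulAut P) x : P)) : Ω) ∈ R := hinvR _ b.2 x hx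
          rw [Subgroup.coe_mul, MulAut.mul_apply, har _ h1, hbr x hx]
          group
        one_mem' := ⟨1, R.one_mem, fun x _ => by simp⟩
        inv_mem' := by
          rintro a ⟨r, hr, har⟩
          refine ⟨r⁻¹, R.inv_mem hr, fun x hx => ?_⟩
          have h1 : (((((a⁻¹ : F.autGroup P) : MulAut P) x : P)) : Ω) ∈ R := hinvR _ (a⁻¹).2 x hx
          have h2 := har _ h1
          have h3 : (a : MulAut P) (((a⁻¹ : F.autGroup P) : MulAut P) x) = x := by simp
          rw [h3] at h2
          rw [h2]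
          group }
    have hKmem : ∀ a : F.autGroup P, a ∈ K ↔ ∃ r ∈ R, ∀ x : P, (x : Ω) ∈ R →
        (((a : MulAut P) x : P) : Ω) = r * x * r⁻¹ := fun a => Iff.rfl
    have hKn : K.Normal := by
      constructor
      intro a ha c
      rw [hKmem] at ha ⊢
      obtain ⟨r, hr, har⟩ := ha
      -- the restriction of `c` to `P ⊓ R` extends to an automorphism of `R`
      have hc := (Cfsg.Agent.Lib.helper26.mem_autGroup_iff F hPS _).1 c.2
      have hφ := Cfsg.Agent.Lib.helper26.restrict_mem F hc (inf_le_left : P ⊓ R ≤ P)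
      obtain ⟨δ, -, hδ⟩ := hext (P ⊓ R) inf_le_right _ hφ
      refine ⟨(δ ⟨r, hr⟩ : R), (δ ⟨r, hr⟩).2, fun x hx => ?_⟩
      have hy : (((((c⁻¹ : F.autGroup P) : MulAut P) x : P)) : Ω) ∈ R := hinvR _ (c⁻¹).2 x hx
      have h1 := har _ hy
      have hay : ((((a : MulAut P) (((c⁻¹ : F.autGroup P) : MulAut P) x) : P)) : Ω) ∈ R :=
        hinvR _ a.2 _ hy
      have h2 := hδ ⟨_, ((a : MulAut P) (((c⁻¹ : F.autGroup P) : MulAut P) x)).2, hay⟩
      have h3 := hδ ⟨_, (((c⁻¹ : F.autGroup P) : MulAut P) x).2, hy⟩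
      have h4 : (c : MulAut P) (((c⁻¹ : F.autGroup P) : MulAut P) x) = x := by simp
      have h5 : (Subgroup.inclusion (inf_le_right : P ⊓ R ≤ R)
            ⟨_, ((a : MulAut P) (((c⁻¹ : F.autGroup P) : MulAut P) x)).2, hay⟩ : R)
          = ⟨r, hr⟩ * Subgroup.inclusion (inf_le_right : P ⊓ R ≤ R)
              ⟨_, (((c⁻¹ : F.autGroup P) : MulAut P) x).2, hy⟩ * ⟨r, hr⟩⁻¹ :=
        Subtype.ext h1
      rw [h5, map_mul, map_mul, map_inv] at h2
      have h6 : (((c * a * c⁻¹ : F.autGroup P) : MulAut P) x : Ω)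
          = ((c : MulAut P) ((a : MulAut P) (((c⁻¹ : F.autGroup P) : MulAut P) x)) : Ω) := rfl
      rw [h6]
      have h7 : ((c : MulAut P) ((a : MulAut P) (((c⁻¹ : F.autGroup P) : MulAut P) x)) : Ω)
          = ((δ ⟨r, hr⟩ : R) : Ω)
            * ((δ (Subgroup.inclusion (inf_le_right : P ⊓ R ≤ R)
                ⟨_, (((c⁻¹ : F.autGroup P) : MulAut P) x).2, hy⟩) : R) : Ω)
            * ((δ ⟨r, hr⟩ : R) : Ω)⁻¹ := by
        rw [← Subgroup.coe_inv, ← Subgroup.coe_mul, ← Subgroup.coe_mul, h2]
        rfl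
      rw [h7, h3]
      have h8 : ((P.subtype.comp (c : MulAut P).toMonoidHom).comp
          (Subgroup.inclusion (inf_le_left : P ⊓ R ≤ P)))
            ⟨_, (((c⁻¹ : F.autGroup P) : MulAut P) x).2, hy⟩ = (x : Ω) := by
        show (((c : MulAut P) (((c⁻¹ : F.autGroup P) : MulAut P) x) : P) : Ω) = x
        rw [h4]
      rw [h8]
    apply Cfsg.Agent.Lib.helper25.mem_of_stab_chain hS F hcen hrad 1
      (fun i => if i = 0 then R else ⊤) K hKn (t := t) (ht := htN)
    · intro a ha m hm ham x hx
      have hx' : (x : Ω) ∈ R := by simpa using hx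
      obtain ⟨r, hr, har⟩ := (hKmem a).1 ha
      have hpow : ∀ k : ℕ, ∀ y : P, (y : Ω) ∈ R →
          ((((a : MulAut P) ^ k) y : P) : Ω) = r ^ k * y * (r ^ k)⁻¹ := by
        intro k
        induction k with
        | zero => intro y _; simp
        | succ k ih =>
          intro y hy
          rw [pow_succ, MulAut.mul_apply, ih _ (hinvR _ a.2 y hy), har y hy, pow_succ]
          group
      obtain ⟨j, hj⟩ := (hS.to_le hRS) ⟨r, hr⟩
      have hrj : r ^ p ^ j = 1 := by
        have := congrArg Subtype.val hj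
        simpa using this
      have ham' : (a : MulAut P) ^ m = 1 := by
        have := congrArg Subtype.val ham
        simpa using this
      -- `r ^ m` acts trivially on `x`, and so does `r ^ (p ^ j)`; hence so does `r`
      have h1 : ∀ y : P, (y : Ω) ∈ R → r ^ m * y * (r ^ m)⁻¹ = y := by
        intro y hy
        have := hpow m y hy
        rw [ham'] at this
        exact this.symm
      obtain ⟨u, v, huv⟩ : ∃ u v : ℤ, (m : ℤ) * u + (p ^ j : ℕ) * v = 1 := by
        have hc : Nat.Coprime m (p ^ j) := Nat.Coprime.pow_right j hm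
        have := Nat.gcd_eq_gcd_ab m (p ^ j)
        rw [hc] at this
        exact ⟨_, _, by exact_mod_cast this.symm⟩
      have hr1 : r = (r ^ m) ^ u := by
        have h2 : r ^ (1 : ℤ) = r ^ ((m : ℤ) * u + (p ^ j : ℕ) * v) := by rw [huv]
        rw [zpow_one, zpow_add, zpow_mul, zpow_mul, zpow_natCast, zpow_natCast, hrj, one_zpow,
          mul_one] at h2
        exact h2
      have hcomm : r ^ m * x = x * r ^ m := by
        have := h1 x hx'
        calc r ^ m * x = (r ^ m * x * (r ^ m)⁻¹) * r ^ m := by group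
          _ = x * r ^ m := by rw [this]
      have hcomm2 : r * x = x * r := by
        rw [hr1]
        exact (Commute.zpow_left (show Commute (r ^ m) (x : Ω) from hcomm) u).eq
      apply Subtype.ext
      rw [har x hx']
      calc r * x * r⁻¹ = (r * x) * r⁻¹ := rfl
        _ = x := by rw [hcomm2]; group
    · intro x
      simp
    · intro i β hβ x hx
      by_cases hi0 : i = 0
      · simp only [hi0, if_true] at hx ⊢
        exact hinvR β hβ x hx
      · simp only [hi0, if_false]
        exact Subgroup.mem_top _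
    · intro h
      exact (hKmem _).2 ⟨t, htR, fun x _ => rfl⟩
    · intro i hi x hx
      have hi' : i = 0 := by omega
      subst hi'
      simp only [if_true]
      have h2 := Cfsg.Agent.Lib.helper26.stronglyClosed_conj_mem F hsc
        (S.inv_mem (hPS x.2)) htR
      have h3 : (x : Ω)⁻¹ * (t * x * t⁻¹) = ((x : Ω)⁻¹ * t * (x : Ω)⁻¹⁻¹) * t⁻¹ := by group
      rw [h3]
      exact R.mul_mem h2 (R.inv_mem htR)

end Cfsg.Agent.S5106
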