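import Cfsg.Statements.S5342
-- import your own Cfsg.Agent.* helpers here
import Cfsg.Agent.Lib.helper25.FusionRadical
import Cfsg.Agent.Lib.helper25.FusionNormal

set_option autoImplicit false
open Cfsg

namespace Cfsg.Agent.S5342

section aux42

open Cfsg Cfsg.FusionSystem

theorem pow_apply_of_fix {P : Type*} [Group P] (β : MulAut P) (e c : P) (hc : β e = c * e)
    (hfix : β c = c) (j : ℕ) : (β ^ j) e = c ^ j * e := by
  induction j with
  | zero => simp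
  | succ j ih =>
    have e1 : (β ^ (j + 1)) e = β ((β ^ j) e) := by rw [pow_succ']; rfl
    rw [e1, ih, map_mul, map_pow, hfix, hc, pow_succ, mul_assoc]

/-- automorphisms in `A` centralizing `N₁` and `N₂/N₁` -/
def stab2 {P : Type*} [Group P] (A : Subgroup (MulAut P)) (N₁ N₂ : Subgroup P)
    (h₂ : ∀ a ∈ A, ∀ e ∈ N₂, a e ∈ N₂) : Subgroup A where
  carrier := {a | (∀ e ∈ N₁, (a : MulAut P) e = e) ∧ (∀ e ∈ N₂, (a : MulAut P) e * e⁻¹ ∈ N₁)}
  mul_mem' := by
    rintro a b ⟨ha1, ha2⟩ ⟨hb1, hb2⟩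
    refine ⟨fun e he => ?_, fun e he => ?_⟩
    · show (a : MulAut P) ((b : MulAut P) e) = e
      rw [hb1 e he, ha1 e he]
    · have h1 := ha2 _ (h₂ b b.2 e he)
      have h2 := hb2 e he
      have e1 : (a : MulAut P) ((b : MulAut P) e) * e⁻¹ =
          ((a : MulAut P) ((b : MulAut P) e) * ((b : MulAut P) e)⁻¹) * ((b : MulAut P) e * e⁻¹) := by
        group
      show (a : MulAut P) ((b : MulAut P) e) * e⁻¹ ∈ N₁
      rw [e1]
      exact N₁.mul_mem h1 h2
  one_mem' := by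
    refine ⟨fun e _ => rfl, fun e _ => ?_⟩
    show e * e⁻¹ ∈ N₁
    rw [mul_inv_cancel]; exact N₁.one_mem
  inv_mem' := by
    rintro a ⟨ha1, ha2⟩
    refine ⟨fun e he => ?_, fun e he => ?_⟩
    · show (a : MulAut P)⁻¹ e = e
      have h := ha1 e he
      have h2 : (a : MulAut P)⁻¹ ((a : MulAut P) e) = e := by simp
      rw [h] at h2
      exact h2
    · have hf : (a : MulAut P)⁻¹ e ∈ N₂ := h₂ _ (A.inv_mem a.2) e he
      have h1 := ha2 _ hf
      have h2 : (a : MulAut P) ((a : MulAut P)⁻¹ e) = e := by simp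
      rw [h2] at h1
      have h3 := N₁.inv_mem h1
      have e1 : (e * ((a : MulAut P)⁻¹ e)⁻¹)⁻¹ = (a : MulAut P)⁻¹ e * e⁻¹ := by group
      rw [e1] at h3
      exact h3

theorem stab2_normal {P : Type*} [Group P] (A : Subgroup (MulAut P)) (N₁ N₂ : Subgroup P)
    (h₁ : ∀ a ∈ A, ∀ e ∈ N₁, a e ∈ N₁) (h₂ : ∀ a ∈ A, ∀ e ∈ N₂, a e ∈ N₂) :
    (stab2 A N₁ N₂ h₂).Normal := by
  constructor
  rintro a ⟨ha1, ha2⟩ b
  have hb' : ((b : MulAut P)⁻¹) ∈ A := A.inv_mem b.2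
  refine ⟨fun e he => ?_, fun e he => ?_⟩
  · show (b : MulAut P) ((a : MulAut P) ((b : MulAut P)⁻¹ e)) = e
    rw [ha1 _ (h₁ _ hb' e he)]
    simp
  · show (b : MulAut P) ((a : MulAut P) ((b : MulAut P)⁻¹ e)) * e⁻¹ ∈ N₁
    have hf : (b : MulAut P)⁻¹ e ∈ N₂ := h₂ _ hb' e he
    have h1 := h₁ _ b.2 _ (ha2 _ hf)
    rw [map_mul, map_inv] at h1
    have h2 : (b : MulAut P) ((b : MulAut P)⁻¹ e) = e := by simp
    rw [h2] at h1
    exact h1

theorem stab2_pgroup {P : Type*} [Group P] (p : ℕ) (A : Subgroup (MulAut P)) (N₁ N₂ : Subgroup P)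
    (h₂ : ∀ a ∈ A, ∀ e ∈ N₂, a e ∈ N₂) (n : ℕ) (hexp : ∀ e : P, e ^ p ^ n = 1)
    (hconj : ∀ u : P, ∀ q ∈ N₂, u * q * u⁻¹ ∈ N₂)
    (hC : ∀ c : P, (∀ q ∈ N₂, c * q = q * c) → c ∈ N₂) :
    IsPGroup p (stab2 A N₁ N₂ h₂) := by
  intro a
  refine ⟨n + n, ?_⟩
  obtain ⟨ha1, ha2⟩ := a.2
  obtain ⟨α, hα⟩ : ∃ α : MulAut P, α = ((a : A) : MulAut P) := ⟨_, rfl⟩
  rw [← hα] at ha1 ha2
  have hfix2 : ∀ e ∈ N₂, (α ^ p ^ n) e = e := by
    intro e he
    have hc := ha2 e he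
    have h1 := pow_apply_of_fix α e (α e * e⁻¹) (by group) (ha1 _ hc) (p ^ n)
    rw [h1, hexp, one_mul]
  obtain ⟨γ, hγ⟩ : ∃ γ : MulAut P, γ = α ^ p ^ n := ⟨_, rfl⟩
  rw [← hγ] at hfix2
  have hall : ∀ u, (γ ^ p ^ n) u = u := by
    intro u
    have hcN : γ u * u⁻¹ ∈ N₂ := by
      apply hC
      intro q hq
      have h1 : γ (u⁻¹ * q * u) = u⁻¹ * q * u := hfix2 _ (by simpa using hconj u⁻¹ q hq)
      rw [map_mul, map_mul, map_inv, hfix2 q hq] at h1
      calc γ u * u⁻¹ * q = γ u * (u⁻¹ * q * u) * u⁻¹ := by group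
        _ = γ u * ((γ u)⁻¹ * q * γ u) * u⁻¹ := by rw [h1]
        _ = q * (γ u * u⁻¹) := by group
    have h1 := pow_apply_of_fix γ u (γ u * u⁻¹) (by group) (hfix2 _ hcN) (p ^ n)
    rw [h1, hexp, one_mul]
  apply Subtype.ext
  apply Subtype.ext
  show ((a : A) : MulAut P) ^ p ^ (n + n) = 1
  rw [← hα, pow_add, pow_mul, ← hγ]
  ext e
  exact hall e

theorem normal_constrained {Ω : Type*} [Group Ω] {S : Subgroup Ω} [Finite S] {p : ℕ}
    [Fact p.Prime] (hS : IsPGroup p S) (F : FusionSystem S) (hF : F.IsConstrained p)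
    {T : Subgroup Ω} (E : FusionSystem T) (hE : E.IsNormalIn F p) : E.IsConstrained p := by
  obtain ⟨hFsat, Q₀, hQ₀n, hQ₀c⟩ := hF
  obtain ⟨⟨hEsat, -, hEsub, hTsc, -, -⟩, -⟩ := hE
  have hTS : T ≤ S := hTsc.1
  have hfinT : Finite T := Cfsg.Agent.Lib.helper26.finite_of_le hTS
  have hT : IsPGroup p T := hS.to_le hTS
  obtain ⟨Q, hQdef⟩ : ∃ Q, Q = F.core := ⟨_, rfl⟩
  have hQn : F.IsNormal Q := hQdef ▸ Cfsg.Agent.Lib.helper25.isNormal_core F
  have hQS : Q ≤ S := hQn.1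
  have hQsc := Cfsg.Agent.Lib.helper25.stronglyClosed_of_isNormal F hQn
  have hQ₀Q : Q₀ ≤ Q := by rw [hQdef]; exact le_sSup hQ₀n
  have hQcen : centralizerIn S Q ≤ Q := by
    intro c hc
    apply hQ₀Q
    apply hQ₀c.2 Q₀ (Cfsg.Agent.Lib.helper26.isConj_refl F hQ₀c.1)
    exact ⟨hc.1, Subgroup.centralizer_le (SetLike.coe_subset_coe.2 hQ₀Q) hc.2⟩
  obtain ⟨R, hRdef⟩ : ∃ R, R = Q ⊓ T := ⟨_, rfl⟩
  have hRQ : R ≤ Q := hRdef ▸ inf_le_left
  have hRT : R ≤ T := hRdef ▸ inf_le_right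
  have hRS : R ≤ S := hRT.trans hTS
  have hRsc : F.StronglyClosed R := by
    refine ⟨hRS, fun R' hR' φ hφ x => ?_⟩
    rw [hRdef]
    exact ⟨hQsc.2 R' (hR'.trans hRQ) φ hφ x, hTsc.2 R' (hR'.trans hRT) φ hφ x⟩
  have hRscE : E.StronglyClosed R :=
    ⟨hRT, fun R' hR' φ hφ x => hRsc.2 R' hR' φ (hEsub R' hφ) x⟩
  have hQconj : ∀ s ∈ S, ∀ t ∈ Q, s * t * s⁻¹ ∈ Q := fun s hs t ht =>
    Cfsg.Agent.Lib.helper26.stronglyClosed_conj_mem F hQsc hs ht
  have hRconj : ∀ s ∈ S, ∀ t ∈ R, s * t * s⁻¹ ∈ R := fun s hs t ht =>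
    Cfsg.Agent.Lib.helper26.stronglyClosed_conj_mem F hRsc hs ht
  have hTconj : ∀ s ∈ S, ∀ t ∈ T, s * t * s⁻¹ ∈ T := fun s hs t ht =>
    Cfsg.Agent.Lib.helper26.stronglyClosed_conj_mem F hTsc hs ht
  obtain ⟨C, hCdef⟩ : ∃ C, C = centralizerIn T R := ⟨_, rfl⟩
  have hCT : C ≤ T := hCdef ▸ inf_le_left
  have hCS : C ≤ S := hCT.trans hTS
  have hCcomm : ∀ c ∈ C, ∀ r ∈ R, r * c = c * r := by
    intro c hc r hr
    rw [hCdef] at hc
    exact Subgroup.mem_centralizer_iff.1 hc.2 r hr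
  have hCmem : ∀ c, c ∈ T → (∀ r ∈ R, r * c = c * r) → c ∈ C := by
    intro c hcT hc
    rw [hCdef]
    exact ⟨hcT, Subgroup.mem_centralizer_iff.2 hc⟩
  have hCconj : ∀ s ∈ S, ∀ t ∈ C, s * t * s⁻¹ ∈ C := by
    intro s hs t ht
    apply hCmem _ (hTconj s hs t (hCT ht))
    intro r hr
    have h1 := hCcomm t ht (s⁻¹ * r * s) (by simpa using hRconj s⁻¹ (S.inv_mem hs) r hr)
    calc r * (s * t * s⁻¹) = s * (s⁻¹ * r * s * t) * s⁻¹ := by group
      _ = s * (t * (s⁻¹ * r * s)) * s⁻¹ := by rw [h1]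
      _ = s * t * s⁻¹ * r := by group
  -- Step A: `Q ⊔ C` is strongly closed, then normal in `F`
  have hQCsc : F.StronglyClosed (Q ⊔ C) := by
    refine ⟨sup_le hQS hCS, fun R' hR' φ hφ x => ?_⟩
    obtain ⟨ψ, hψ, agree, hmap⟩ := hQn.2 R' φ hφ
    obtain ⟨q, hq, c, hc, hxqc⟩ := Cfsg.Agent.Lib.helper26.mem_sup_of_normalizes
      (H := Q) (K := C) (fun k hk h hh => hQconj k (hCS hk) h hh) (hR' x.2)
    have hqm : q ∈ R' ⊔ Q := Subgroup.mem_sup_right hq
    have hxm : (x : Ω) ∈ R' ⊔ Q := Subgroup.mem_sup_left x.2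
    have hcm : c ∈ R' ⊔ Q := by
      have e : c = q⁻¹ * x := by rw [hxqc]; group
      rw [e]
      exact Subgroup.mul_mem _ (Subgroup.inv_mem _ hqm) hxm
    have hφx : φ x = ψ ⟨q, hqm⟩ * ψ ⟨c, hcm⟩ := by
      rw [← agree, ← map_mul]
      congr 1
      exact Subtype.ext hxqc
    have hψq : ψ ⟨q, hqm⟩ ∈ Q := by
      have h0 : ψ ⟨q, hqm⟩ ∈ (Q.subgroupOf (R' ⊔ Q)).map ψ :=
        (Cfsg.Agent.Lib.helper25.mem_map_subgroupOf ψ).2 ⟨_, hq, rfl⟩
      rwa [hmap] at h0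
    have hψT : ∀ (t : Ω) (ht : t ∈ R' ⊔ Q), t ∈ T → ψ ⟨t, ht⟩ ∈ T := by
      intro t ht htT
      exact hTsc.2 ((R' ⊔ Q) ⊓ T) inf_le_right _
        (Cfsg.Agent.Lib.helper26.restrict_mem F hψ inf_le_left) ⟨t, ht, htT⟩
    have hψR : ∀ r ∈ R, ∃ r' : ↥(R' ⊔ Q), (r' : Ω) ∈ R ∧ ψ r' = r := by
      have hle : (R.subgroupOf (R' ⊔ Q)).map ψ ≤ R := by
        rintro _ ⟨r', hr', rfl⟩
        have hr'' : (r' : Ω) ∈ R := Subgroup.mem_subgroupOf.1 hr'
        rw [hRdef] at hr'' ⊢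
        refine ⟨?_, hψT _ r'.2 hr''.2⟩
        have h0 : ψ r' ∈ (Q.subgroupOf (R' ⊔ Q)).map ψ :=
          (Cfsg.Agent.Lib.helper25.mem_map_subgroupOf ψ).2 ⟨_, hr''.1, rfl⟩
        rwa [hmap] at h0
      have hfinR : Finite R := Cfsg.Agent.Lib.helper26.finite_of_le hRS
      have heq : (R.subgroupOf (R' ⊔ Q)).map ψ = R := by
        apply Subgroup.eq_of_le_of_card_ge hle
        rw [Subgroup.card_map_of_injective (F.injective_of_mem hψ)]
        exact (Nat.card_congr (Subgroup.subgroupOfEquivOfLe (hRQ.trans le_sup_right)).toEquiv).ge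
      intro r hr
      rw [← heq] at hr
      obtain ⟨r', hr', rfl⟩ := hr
      exact ⟨r', Subgroup.mem_subgroupOf.1 hr', rfl⟩
    have hψc : ψ ⟨c, hcm⟩ ∈ C := by
      apply hCmem _ (hψT c hcm (hCT hc))
      intro r hr
      obtain ⟨r', hr', rfl⟩ := hψR r hr
      rw [← map_mul, ← map_mul]
      congr 1
      apply Subtype.ext
      exact hCcomm c hc _ hr'
    rw [hφx]
    exact Subgroup.mul_mem _ (Subgroup.mem_sup_left hψq) (Subgroup.mem_sup_right hψc)
  have hQCn : F.IsNormal (Q ⊔ C) := by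
    apply Cfsg.Agent.Lib.helper25.isNormal_of_essential_invariant hS F hFsat
    intro P hP
    have hPS : P ≤ S := by
      rcases hP with rfl | hP
      · exact le_rfl
      · exact hP.2.1.1
    refine ⟨?_, fun α hα =>
      Cfsg.Agent.Lib.helper25.map_aut_eq_of_stronglyClosed F hQCsc hPS hα⟩
    rcases hP with rfl | hP
    · exact sup_le hQS hCS
    have hcen := hP.1
    have hrad := Cfsg.Agent.Lib.helper25.isRadical_of_isEssential hS F hP
    have hQP : Q ≤ P :=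
      Cfsg.Agent.Lib.helper25.le_of_isNormal_of_centric_radical hS F hQn hcen hrad
    refine sup_le hQP ?_
    by_contra hCP
    obtain ⟨t, htC, htN, htP⟩ :=
      Cfsg.Agent.Lib.helper26.exists_mem_normalizer_not_mem_of_normal hS hPS hCS hCconj hCP
    apply htP
    have htS : t ∈ normalizerIn S P := ⟨hCS htC, htN⟩
    have h₁ : ∀ a ∈ F.autGroup P, ∀ e ∈ R.subgroupOf P, a e ∈ R.subgroupOf P := by
      intro a ha e he
      rw [Subgroup.mem_subgroupOf] at he ⊢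
      exact Cfsg.Agent.Lib.helper26.stronglyClosed_aut_mem F hRsc
        ((Cfsg.Agent.Lib.helper26.mem_autGroup_iff F hPS a).1 ha) he
    have h₂ : ∀ a ∈ F.autGroup P, ∀ e ∈ Q.subgroupOf P, a e ∈ Q.subgroupOf P := by
      intro a ha e he
      rw [Subgroup.mem_subgroupOf] at he ⊢
      exact Cfsg.Agent.Lib.helper26.stronglyClosed_aut_mem F hQsc
        ((Cfsg.Agent.Lib.helper26.mem_autGroup_iff F hPS a).1 ha) he
    have hKn := stab2_normal (F.autGroup P) (R.subgroupOf P) (Q.subgroupOf P) h₁ h₂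
    obtain ⟨n, hn⟩ := IsPGroup.iff_card.1 hS
    have hexp : ∀ e : P, e ^ p ^ n = 1 := by
      intro e
      have h1 : (⟨e, hPS e.2⟩ : S) ^ Nat.card S = 1 := pow_card_eq_one'
      rw [hn] at h1
      have h2 : ((e : Ω)) ^ p ^ n = 1 := congrArg Subtype.val h1
      apply Subtype.ext
      exact h2
    have hKp := stab2_pgroup p (F.autGroup P) (R.subgroupOf P) (Q.subgroupOf P) h₂ n hexp
      (fun u q hq => by
        rw [Subgroup.mem_subgroupOf] at hq ⊢
        exact hQconj u (hPS u.2) q hq)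
      (fun c hc => by
        rw [Subgroup.mem_subgroupOf]
        apply hQcen
        refine ⟨hPS c.2, ?_⟩
        show (c : Ω) ∈ Subgroup.centralizer (Q : Set Ω)
        rw [Subgroup.mem_centralizer_iff]
        intro q hq
        have h := hc ⟨q, hQP hq⟩ (Subgroup.mem_subgroupOf.2 hq)
        exact (congrArg Subtype.val h).symm)
    have hcore := Cfsg.Agent.Lib.helper26.le_pCore hKn hKp
    have hctA : Cfsg.Agent.Lib.helper26.conjAut S P ⟨t, htS⟩ ∈ F.autGroup P :=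
      Cfsg.Agent.Lib.helper26.autInducedBy_le_autGroup F hPS
        (Cfsg.Agent.Lib.helper26.conjAut_mem_autInducedBy S P ⟨t, htS⟩)
    have hctK : (⟨_, hctA⟩ : F.autGroup P) ∈
        stab2 (F.autGroup P) (R.subgroupOf P) (Q.subgroupOf P) h₂ := by
      refine ⟨fun e he => ?_, fun e he => ?_⟩
      · apply Subtype.ext
        show t * (e : Ω) * t⁻¹ = e
        have hc := hCcomm t htC e (Subgroup.mem_subgroupOf.1 he)
        rw [← hc]; group
      · rw [Subgroup.mem_subgroupOf]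
        show t * (e : Ω) * t⁻¹ * (e : Ω)⁻¹ ∈ R
        have heQ : (e : Ω) ∈ Q := Subgroup.mem_subgroupOf.1 he
        rw [hRdef]
        refine ⟨Q.mul_mem (hQconj t (hCS htC) e heQ) (Q.inv_mem heQ), ?_⟩
        have e1 : t * (e : Ω) * t⁻¹ * (e : Ω)⁻¹ = t * ((e : Ω) * t⁻¹ * (e : Ω)⁻¹) := by group
        rw [e1]
        exact T.mul_mem (hCT htC) (hTconj e (hQS heQ) t⁻¹ (T.inv_mem (hCT htC)))
    have hct' : Cfsg.Agent.Lib.helper26.conjAut S P ⟨t, htS⟩ ∈
        (pCore p (F.autGroup P)).map (F.autGroup P).subtype :=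
      ⟨⟨_, hctA⟩, hcore hctK, rfl⟩
    rw [hrad.2] at hct'
    exact Cfsg.Agent.Lib.helper25.mem_of_conjAut_mem_inn hPS
      (hcen.2 P (Cfsg.Agent.Lib.helper26.isConj_refl F hPS)) ⟨t, htS⟩ hct'
  have hCQ : C ≤ Q := by
    have h1 : Q ⊔ C ≤ F.core := le_sSup hQCn
    rw [← hQdef] at h1
    exact le_sup_right.trans h1
  have hCR : C ≤ R := by rw [hRdef]; exact le_inf hCQ hCT
  -- Step B: `R` is normal in `E`
  have hRn : E.IsNormal R := by
    apply Cfsg.Agent.Lib.helper25.isNormal_of_essential_invariant hT E hEsat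
    intro U hU
    have hUT : U ≤ T := by
      rcases hU with rfl | hU
      · exact le_rfl
      · exact hU.2.1.1
    refine ⟨?_, fun α hα =>
      Cfsg.Agent.Lib.helper25.map_aut_eq_of_stronglyClosed E hRscE hUT hα⟩
    rcases hU with rfl | hU
    · exact hRT
    have hcen := hU.1
    have hrad := Cfsg.Agent.Lib.helper25.isRadical_of_isEssential hT E hU
    by_contra hRU
    obtain ⟨t, htR, htN, htU⟩ :=
      Cfsg.Agent.Lib.helper26.exists_mem_normalizer_not_mem_of_normal hT hUT hRT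
        (fun s hs t ht => hRconj s (hTS hs) t ht) hRU
    apply htU
    have hfinU : Finite U := Cfsg.Agent.Lib.helper26.finite_of_le (hUT.trans hTS)
    have hDle : autInducedBy R U ≤ E.autGroup U :=
      (Cfsg.Agent.Lib.helper25.autInducedBy_mono hRT U).trans
        (Cfsg.Agent.Lib.helper26.autInducedBy_le_autGroup E hUT)
    have hDn : ((autInducedBy R U).subgroupOf (E.autGroup U)).Normal := by
      constructor
      intro d hd a
      rw [Subgroup.mem_subgroupOf] at hd ⊢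
      obtain ⟨g, hgR, hg⟩ := (Cfsg.Agent.Lib.helper26.mem_autInducedBy_iff _ _ _).1 hd
      have ha := hEsub U ((Cfsg.Agent.Lib.helper26.mem_autGroup_iff E hUT _).1 a.2)
      obtain ⟨ψ, hψ, agree, hmap⟩ := hQn.2 U _ ha
      have hgm : g ∈ U ⊔ Q := Subgroup.mem_sup_right (hRQ hgR)
      have hg' : ψ ⟨g, hgm⟩ ∈ R := by
        rw [hRdef]
        constructor
        · have h0 : ψ ⟨g, hgm⟩ ∈ (Q.subgroupOf (U ⊔ Q)).map ψ :=
            (Cfsg.Agent.Lib.helper25.mem_map_subgroupOf ψ).2 ⟨_, hRQ hgR, rfl⟩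
          rwa [hmap] at h0
        · exact hTsc.2 ((U ⊔ Q) ⊓ T) inf_le_right _
            (Cfsg.Agent.Lib.helper26.restrict_mem F hψ inf_le_left) ⟨g, hgm, hRT hgR⟩
      rw [Cfsg.Agent.Lib.helper26.mem_autInducedBy_iff]
      refine ⟨ψ ⟨g, hgm⟩, hg', fun y => ?_⟩
      have h2 : ψ (Subgroup.inclusion le_sup_left ((d : MulAut U) ((a : MulAut U)⁻¹ y)))
          = ψ ⟨g, hgm⟩ * ψ (Subgroup.inclusion le_sup_left ((a : MulAut U)⁻¹ y))
            * (ψ ⟨g, hgm⟩)⁻¹ := by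
        rw [← map_inv, ← map_mul, ← map_mul]
        congr 1
        exact Subtype.ext (hg _)
      rw [agree, agree] at h2
      have h3 : (((a : MulAut U) ((a : MulAut U)⁻¹ y) : U) : Ω) = y := by simp
      have h4 : (U.subtype.comp (a : MulAut U).toMonoidHom) ((a : MulAut U)⁻¹ y) = (y : Ω) := h3
      rw [h4] at h2
      exact h2
    have hDp : IsPGroup p ((autInducedBy R U).subgroupOf (E.autGroup U)) :=
      ((Cfsg.Agent.Lib.helper25.isPGroup_autInducedBy hS U).to_le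
        (Cfsg.Agent.Lib.helper25.autInducedBy_mono hRS U)).comap_subtype
    have hDcore := Cfsg.Agent.Lib.helper26.le_pCore hDn hDp
    have htT : t ∈ normalizerIn T U := ⟨hRT htR, htN⟩
    have hct : Cfsg.Agent.Lib.helper26.conjAut T U ⟨t, htT⟩ ∈ autInducedBy R U :=
      (Cfsg.Agent.Lib.helper26.mem_autInducedBy_iff _ _ _).2 ⟨t, htR, fun x => rfl⟩
    have hct' : Cfsg.Agent.Lib.helper26.conjAut T U ⟨t, htT⟩ ∈
        (pCore p (E.autGroup U)).map (E.autGroup U).subtype :=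
      ⟨⟨_, hDle hct⟩, hDcore (Subgroup.mem_subgroupOf.2 hct), rfl⟩
    rw [hrad.2] at hct'
    exact Cfsg.Agent.Lib.helper25.mem_of_conjAut_mem_inn hUT
      (hcen.2 U (Cfsg.Agent.Lib.helper26.isConj_refl E hUT)) ⟨t, htT⟩ hct'
  -- Step C
  refine ⟨hEsat, R, hRn, hRT, fun R' hc => ?_⟩
  obtain ⟨φ, hφ, hr⟩ := hc
  have hR'R : R' = R := by
    rw [← hr]
    have hfinR : Finite R := Cfsg.Agent.Lib.helper26.finite_of_le hRS
    apply Subgroup.eq_of_le_of_card_ge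
    · rintro _ ⟨x, rfl⟩
      exact hRscE.2 R le_rfl φ hφ x
    · rw [← Nat.card_congr (MonoidHom.ofInjective (E.injective_of_mem hφ)).toEquiv]
  rw [hR'R]
  intro c hc
  apply hCR
  rw [hCdef]
  exact hc

theorem subnormal_constrained {Ω : Type*} [Group Ω] {p : ℕ} {T S : Subgroup Ω}
    {E : FusionSystem T} {F : FusionSystem S} (h : E.IsSubnormalIn F p) :
    Fact p.Prime → Finite S → IsPGroup p S → F.IsConstrained p → E.IsConstrained p := by
  induction h with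
  | refl F p => exact fun _ _ _ h => h
  | step hED hDF ih =>
    intro hp hfin hS hF
    have hUS := hDF.1.2.2.2.1.1
    exact ih hp (Cfsg.Agent.Lib.helper26.finite_of_le hUS) (hS.to_le hUS)
      (normal_constrained hS _ hF _ hDF)

end aux42

/-- Let F be a constrained saturated fusion system over a finite p-group S. Then every subsystem of F that is subnormal in F (reached from F by a finite chain of successive normal subsystems) is constrained. -/
theorem result {Ω : Type*} [Group Ω] {S : Subgroup Ω} [Finite S] (p : ℕ) [Fact p.Prime] (hS : IsPGroup p S) (F : Cfsg.FusionSystem S) (hF : F.IsConstrained p) {T : Subgroup Ω} (E : Cfsg.FusionSystem T) (hE : E.IsSubnormalIn F p) : E.IsConstrained p := by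
  exact subnormal_constrained hE inferInstance inferInstance hS hF

end Cfsg.Agent.S5342
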