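import Cfsg.Statements.S5115
import Mathlib
import Cfsg.Agent.S5342
import Cfsg.Agent.Lib.helper26.RealNormal
import Cfsg.Agent.Lib.helper7.ModelC
import Cfsg.Agent.Lib.helper25.Realized

set_option autoImplicit false
set_option linter.style.haveILetI false
open Cfsg

namespace Cfsg.Agent.S5115

section aux15

open Cfsg Cfsg.FusionSystem Cfsg.Agent.Lib.helper26

universe u

/-- the fusion system of a group on a subgroup is realized by the inclusion -/
theorem gfs_realized {G : Type*} [Group G] (S : Subgroup G) :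
    (groupFusionSystem S).IsRealizedBy S.subtype := by
  refine ⟨Subgroup.subtype_injective S, fun P hP φ hφ => ⟨?_, ?_⟩⟩
  · rintro ⟨-, -, g, hg⟩
    exact ⟨g, hg⟩
  · rintro ⟨g, hg⟩
    exact ⟨hP, hφ, g, hg⟩

/-- the restriction of `θ` from the preimage of `S'` to the part of `S'` inside the range -/
def thetaRes {G' : Type*} [Group G'] (S' : Subgroup G') {Ω₂ : Type*} [Group Ω₂] (θ : Ω₂ →* G') :
    ↥(S'.comap θ) →* ↥(subT S'.subtype θ.range) :=
  (θ.comp (S'.comap θ).subtype).codRestrict _
    (fun x => (mem_subT S'.subtype θ.range ⟨θ x, x.2⟩).2 ⟨x, rfl⟩)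

theorem thetaRes_coe {G' : Type*} [Group G'] (S' : Subgroup G') {Ω₂ : Type*} [Group Ω₂]
    (θ : Ω₂ →* G') (x : ↥(S'.comap θ)) :
    ((thetaRes S' θ x : ↥(subT S'.subtype θ.range)) : G') = θ x := rfl

theorem thetaRes_inj {G' : Type*} [Group G'] (S' : Subgroup G') {Ω₂ : Type*} [Group Ω₂]
    (θ : Ω₂ →* G') (hθ : Function.Injective θ) : Function.Injective (thetaRes S' θ) := by
  intro a b hab
  have h1 : θ a = θ b := congrArg (fun w : ↥(subT S'.subtype θ.range) => (w : G')) hab
  exact Subtype.ext (hθ h1)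

theorem thetaRes_surj {G' : Type*} [Group G'] (S' : Subgroup G') {Ω₂ : Type*} [Group Ω₂]
    (θ : Ω₂ →* G') : Function.Surjective (thetaRes S' θ) := by
  intro t
  have h1 := mem_subT' S'.subtype θ.range t t.2
  obtain ⟨w, hw⟩ := h1
  have hw' : θ w = (t : G') := hw
  have hwS : w ∈ S'.comap θ := by
    show θ w ∈ S'
    rw [hw']
    exact subT_le S'.subtype θ.range t.2
  exact ⟨⟨w, hwS⟩, Subtype.ext hw'⟩

/-- a model of the fusion system of the normal subgroup `θ.range` (on its part of `S'`) is a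
model of the fusion system of `Ω₂` on the preimage of `S'` -/
theorem model_transfer {G' : Type*} [Group G'] {p : ℕ} (S' : Subgroup G')
    {Ω₂ : Type*} [Group Ω₂] (θ : Ω₂ →* G') (hθ : Function.Injective θ)
    {M : Type*} [Group M] (j : ↥(subT S'.subtype θ.range) →* M)
    (hM : (subE S'.subtype (Subgroup.subtype_injective S') θ.range).IsModel p M j) :
    (groupFusionSystem (S'.comap θ)).IsModel p M (j.comp (thetaRes S' θ)) := by
  obtain ⟨hfin, hrj, ⟨T, hT⟩, hC⟩ := hM
  have hinj : Function.Injective (j.comp (thetaRes S' θ)) := by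
    rw [MonoidHom.coe_comp]
    exact hrj.1.comp (thetaRes_inj S' θ hθ)
  refine ⟨hfin, ⟨hinj, ?_⟩, ⟨T, ?_⟩, hC⟩
  · intro P hP φ hφ
    have hP' : P.map θ ≤ subT S'.subtype θ.range := by
      rintro _ ⟨x, hx, rfl⟩
      exact (mem_subT S'.subtype θ.range ⟨θ x, hP hx⟩).2 ⟨x, rfl⟩
    obtain ⟨e, he⟩ : ∃ e : P ≃* ↥(P.map θ), ∀ x : P, ((e x : ↥(P.map θ)) : G') = θ x :=
      ⟨P.equivMapOfInjective θ hθ, fun x => Subgroup.coe_equivMapOfInjective_apply P θ hθ x⟩
    obtain ⟨φ', hφ'def⟩ : ∃ φ' : ↥(P.map θ) →* G', φ' = (θ.comp φ).comp e.symm.toMonoidHom :=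
      ⟨_, rfl⟩
    have hφ'e : ∀ x : P, φ' (e x) = θ (φ x) := by
      intro x
      rw [hφ'def]
      simp
    have hφ'T : ∀ y : ↥(P.map θ), φ' y ∈ subT S'.subtype θ.range := by
      intro y
      obtain ⟨x, rfl⟩ := e.surjective y
      rw [hφ'e]
      exact (mem_subT S'.subtype θ.range ⟨θ (φ x), hφ x⟩).2 ⟨φ x, rfl⟩
    have key := hrj.2 (P.map θ) hP' φ' hφ'T
    have key2 := mem_subE_iff S'.subtype (Subgroup.subtype_injective S') θ.range (P.map θ) φ'
    have e1 : ∀ x : P, (⟨φ' (e x), hφ'T (e x)⟩ : ↥(subT S'.subtype θ.range)) =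
        thetaRes S' θ ⟨φ x, hφ x⟩ := fun x => Subtype.ext (hφ'e x)
    have e2 : ∀ x : P, (⟨((e x : ↥(P.map θ)) : G'), hP' (e x).2⟩ :
        ↥(subT S'.subtype θ.range)) = thetaRes S' θ ⟨x, hP x.2⟩ := fun x => Subtype.ext (he x)
    constructor
    · rintro ⟨-, -, g, hg⟩
      have h1 : φ' ∈ (subE S'.subtype (Subgroup.subtype_injective S') θ.range).Hom (P.map θ) := by
        rw [key2]
        refine ⟨hP', hφ'T, θ g, ⟨g, rfl⟩, fun y => ?_⟩
        obtain ⟨x, rfl⟩ := e.surjective y
        show φ' (e x) = θ g * ((e x : ↥(P.map θ)) : G') * (θ g)⁻¹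
        rw [hφ'e, he, hg x, map_mul, map_mul, map_inv]
      obtain ⟨m, hm⟩ := key.1 h1
      refine ⟨m, fun x => ?_⟩
      have h2 := hm (e x)
      rw [e1, e2] at h2
      exact h2
    · rintro ⟨m, hm⟩
      have h1 : φ' ∈ (subE S'.subtype (Subgroup.subtype_injective S') θ.range).Hom (P.map θ) := by
        rw [key]
        refine ⟨m, fun y => ?_⟩
        obtain ⟨x, rfl⟩ := e.surjective y
        rw [e1, e2]
        exact hm x
      obtain ⟨hP2, hφ2, n, ⟨g, rfl⟩, hn⟩ := key2.1 h1
      refine ⟨hP, hφ, g, fun x => ?_⟩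
      apply hθ
      have h3 := hn (e x)
      have h4 : φ' (e x) = θ g * ((e x : ↥(P.map θ)) : G') * (θ g)⁻¹ := h3
      rw [hφ'e, he] at h4
      rw [h4, map_mul, map_mul, map_inv]
  · rw [hT]
    ext y
    constructor
    · rintro ⟨t, rfl⟩
      obtain ⟨x, rfl⟩ := thetaRes_surj S' θ t
      exact ⟨x, rfl⟩
    · rintro ⟨x, rfl⟩
      exact ⟨thetaRes S' θ x, rfl⟩

/-- the preimage of a Sylow subgroup under an injective homomorphism with normal range is a
Sylow subgroup -/
theorem sy {G' : Type*} [Group G'] [Finite G'] {p : ℕ} [Fact p.Prime] (S' : Sylow p G')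
    {Ω₂ : Type*} [Group Ω₂] (θ : Ω₂ →* G') (hθ : Function.Injective θ) (hn : θ.range.Normal) :
    ∃ P : Sylow p Ω₂, (P : Subgroup Ω₂) = (S' : Subgroup G').comap θ := by
  haveI := hn
  haveI : Finite Ω₂ := Finite.of_injective θ hθ
  have hScard : Nat.card (S' : Subgroup G') =
      p ^ (Nat.card (⊤ : Subgroup G')).factorization p := by
    rw [Subgroup.card_top]
    exact S'.card_eq_multiplicity
  have hTcard : Nat.card ↥((S' : Subgroup G') ⊓ θ.range) =
      p ^ (Nat.card θ.range).factorization p := by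
    refine Cfsg.Agent.Lib.helper25.sylCard_inf_of_le_normalizer le_top hScard le_top ?_
    rw [Subgroup.normalizer_eq_top]
  have h1 : Nat.card ↥((S' : Subgroup G').comap θ) =
      Nat.card ↥((S' : Subgroup G') ⊓ θ.range) := by
    rw [Nat.card_congr (((S' : Subgroup G').comap θ).equivMapOfInjective θ hθ).toEquiv,
      Subgroup.map_comap_eq, inf_comm]
  have h2 : Nat.card θ.range = Nat.card Ω₂ :=
    (Nat.card_congr (MonoidHom.ofInjective hθ).toEquiv).symm
  have hcard : Nat.card ↥((S' : Subgroup G').comap θ) = p ^ (Nat.card Ω₂).factorization p := by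
    rw [h1, hTcard, h2]
  exact ⟨Sylow.ofCard _ hcard, Sylow.coe_ofCard _ _⟩

/-- the normal step -/
theorem ns {G' : Type u} [Group G'] [Finite G'] {p : ℕ} [Fact p.Prime] (S' : Sylow p G')
    (hF : (groupFusionSystem (S' : Subgroup G')).IsConstrained p)
    {Ω₂ : Type u} [Group Ω₂] (θ : Ω₂ →* G') (hθ : Function.Injective θ) (hn : θ.range.Normal) :
    (groupFusionSystem ((S' : Subgroup G').comap θ)).IsConstrained p := by
  haveI := hn
  have hr : (groupFusionSystem (S' : Subgroup G')).IsRealizedBy (S' : Subgroup G').subtype :=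
    gfs_realized _
  have hP₀ : (S' : Subgroup G') = ((S' : Subgroup G').subtype).range := by
    rw [Subgroup.range_subtype]
  have hEn := subE_isNormalIn (groupFusionSystem (S' : Subgroup G')) hF.1
    (S' : Subgroup G').subtype hr S' hP₀ θ.range
  have hEc := Cfsg.Agent.S5342.normal_constrained S'.isPGroup' _ hF _ hEn
  obtain ⟨hEsat, Q, hQn, hQc⟩ := hEc
  have hTS := subT_le (S' : Subgroup G').subtype θ.range
  have hTp : IsPGroup p ↥(subT (S' : Subgroup G').subtype θ.range) := S'.isPGroup'.to_le hTS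
  obtain ⟨M, _, j, hM⟩ := Cfsg.Agent.Lib.helper7.Model.exists_model_of hTp _ hEsat Q hQn hQc
  exact Cfsg.Agent.Lib.helper25.isConstrained_of_isModel _ _
    (model_transfer (S' : Subgroup G') θ hθ j hM)

end aux15

/-- If the 2-fusion system of a finite group G on a Sylow 2-subgroup S is constrained, then for every subnormal subgroup H of G the 2-fusion system of H on S ∩ H is constrained. -/
theorem result {G : Type*} [Group G] [Finite G] (S : Sylow 2 G) (hF : (Cfsg.groupFusionSystem (S : Subgroup G)).IsConstrained 2) (H : Subgroup G) (hH : H.IsSubnormal) : (Cfsg.groupFusionSystem ((S : Subgroup G).subgroupOf H)).IsConstrained 2 := by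
  have main : ∃ P : Sylow 2 H, (P : Subgroup H) = (S : Subgroup G).subgroupOf H ∧
      (Cfsg.groupFusionSystem ((S : Subgroup G).subgroupOf H)).IsConstrained 2 := by
    induction hH with
    | top =>
      have hinj : Function.Injective (⊤ : Subgroup G).subtype := Subgroup.subtype_injective _
      have hn : ((⊤ : Subgroup G).subtype).range.Normal := by
        rw [Subgroup.range_subtype]
        infer_instance
      obtain ⟨P, hP⟩ := sy S (⊤ : Subgroup G).subtype hinj hn
      exact ⟨P, hP, ns S hF (⊤ : Subgroup G).subtype hinj hn⟩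
    | step H K h_le hK hN ih =>
      obtain ⟨PK, hPK, hFK⟩ := ih
      have hinj : Function.Injective (Subgroup.inclusion h_le) :=
        Subgroup.inclusion_injective h_le
      have hn : (Subgroup.inclusion h_le).range.Normal := by
        rw [Subgroup.inclusion_range]
        exact hN
      have hFK' : (Cfsg.groupFusionSystem (PK : Subgroup K)).IsConstrained 2 := by
        rw [hPK]
        exact hFK
      have e : (PK : Subgroup K).comap (Subgroup.inclusion h_le) =
          (S : Subgroup G).subgroupOf H := by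
        rw [hPK]
        ext x
        simp [Subgroup.mem_subgroupOf]
      obtain ⟨P, hP⟩ := sy PK (Subgroup.inclusion h_le) hinj hn
      have h1 := ns PK hFK' (Subgroup.inclusion h_le) hinj hn
      rw [e] at h1 hP
      exact ⟨P, hP, h1⟩
  obtain ⟨-, -, h⟩ := main
  exact h

end Cfsg.Agent.S5115
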