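import Cfsg.Statements.S5125
import Cfsg.Agent.Lib.helper25.FusionStab

set_option autoImplicit false
open Cfsg

namespace Cfsg.Agent.S5125

open Cfsg.FusionSystem
open scoped commutatorElement

/-- Let F be a saturated fusion system over a finite p-group S and Q a subgroup strongly closed in F. If Q has a subgroup Q₁ that is normal in F, with Q/Q₁ abelian and Aut_F(Q₁) a p-group, then Q is normal in F. -/
theorem result {Ω : Type*} [Group Ω] {S : Subgroup Ω} [Finite S] (p : ℕ) [Fact p.Prime] (hS : IsPGroup p S) (F : Cfsg.FusionSystem S) (hF : F.IsSaturated p) (Q Q₁ : Subgroup Ω) (hQ : F.StronglyClosed Q) (hQ₁Q : Q₁ ≤ Q) (hQ₁ : F.IsNormal Q₁) (hab : ⁅Q, Q⁆ ≤ Q₁) (hAut : IsPGroup p ↥(F.autGroup Q₁)) : F.IsNormal Q := by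
  apply Cfsg.Agent.Lib.helper25.isNormal_of_stronglyClosed_of_mem hS F hF hQ
  intro P hcen hrad t htQ htN
  have hPS : P ≤ S := hcen.1
  have hQ₁P : Q₁ ≤ P := Cfsg.Agent.Lib.helper25.le_of_isNormal_of_centric_radical hS F hQ₁ hcen hrad
  have hQ₁sc := Cfsg.Agent.Lib.helper25.stronglyClosed_of_isNormal F hQ₁
  apply Cfsg.Agent.Lib.helper25.mem_of_stab_chain hS F hcen hrad 2
    (fun i => if i = 0 then Q₁ else if i = 1 then Q else ⊤) ⊤ inferInstance (t := t) (ht := htN)
  · intro a _ m hm ham x hx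
    have hx' : (x : Ω) ∈ Q₁ := by simpa using hx
    have ha := (Cfsg.Agent.Lib.helper26.mem_autGroup_iff F hPS _).1 a.2
    have hφ := Cfsg.Agent.Lib.helper26.restrict_mem F ha hQ₁P
    obtain ⟨e, he, hex⟩ := Cfsg.Agent.Lib.helper25.exists_aut_of_isNormal F hQ₁ le_rfl hφ
    have hpow := Cfsg.Agent.Lib.helper25.restrict_pow hQ₁P (a : MulAut P) e
      (fun y => (hex y).symm) m
    have ham' : (a : MulAut P) ^ m = 1 := by
      have := congrArg Subtype.val ham
      simpa using this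
    have hem : e ^ m = 1 := by
      ext y
      have h1 := hpow y
      rw [ham'] at h1
      exact h1.symm
    obtain ⟨j, hj⟩ := hAut ⟨e, he⟩
    have hej : e ^ p ^ j = 1 := by
      have := congrArg Subtype.val hj
      simpa using this
    have h2 : e ^ (Nat.gcd m (p ^ j)) = 1 := pow_gcd_eq_one.2 ⟨hem, hej⟩
    rw [Nat.Coprime.pow_right j hm, pow_one] at h2
    have h3 := hex ⟨x, hx'⟩
    rw [h2] at h3
    exact Subtype.ext h3.symm
  · intro x
    simp
  · intro i β hβ x hx
    have hβ' := (Cfsg.Agent.Lib.helper26.mem_autGroup_iff F hPS β).1 hβ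
    by_cases hi0 : i = 0
    · simp only [hi0, if_true] at hx ⊢
      exact Cfsg.Agent.Lib.helper26.stronglyClosed_aut_mem F hQ₁sc hβ' hx
    · by_cases hi1 : i = 1
      · simp only [hi1, if_true, one_ne_zero, if_false] at hx ⊢
        exact Cfsg.Agent.Lib.helper26.stronglyClosed_aut_mem F hQ hβ' hx
      · simp only [hi0, hi1, if_false]
        exact Subgroup.mem_top _
  · intro _
    exact Subgroup.mem_top _
  · intro i hi x hx
    have hi' : i = 0 ∨ i = 1 := by omega
    rcases hi' with rfl | rfl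
    · simp only [zero_add, if_true, one_ne_zero, if_false] at hx ⊢
      have h2 : ⁅(x : Ω)⁻¹, t⁆ ∈ ⁅Q, Q⁆ :=
        Subgroup.commutator_mem_commutator (Subgroup.inv_mem _ hx) htQ
      have h4 : ⁅(x : Ω)⁻¹, t⁆ = (x : Ω)⁻¹ * (t * x * t⁻¹) := by
        rw [commutatorElement_def]
        group
      rw [h4] at h2
      exact hab h2
    · simp only [one_ne_zero, if_false, if_true]
      have h2 := Cfsg.Agent.Lib.helper26.stronglyClosed_conj_mem F hQ
        (S.inv_mem (hPS x.2)) htQ
      have h3 : (x : Ω)⁻¹ * (t * x * t⁻¹) = ((x : Ω)⁻¹ * t * (x : Ω)⁻¹⁻¹) * t⁻¹ := by group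
      rw [h3]
      exact Q.mul_mem h2 (Q.inv_mem htQ)

end Cfsg.Agent.S5125
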