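import Cfsg.Statements.S5135
import Cfsg.Agent.Lib.helper25.FusionFactor
import Cfsg.Agent.Lib.helper25.SylowAux

set_option autoImplicit false
open Cfsg

namespace Cfsg.Agent.S5135

open Cfsg.Agent.Lib.helper25

/-- Let G be a finite group, S a Sylow p-subgroup and H a normal subgroup of G. Then the fusion system of G/H on the image SH/H of S is the factor system of the fusion system of G on S modulo S ∩ H, read through the quotient map restricted to S: for each subgroup P' of SH/H, the conjugation maps by elements of G/H defined on P' with values in SH/H are exactly the homomorphisms induced by the conjugation maps by elements of G defined on the full preimage of P' in S with values in S. -/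
theorem result {G : Type*} [Group G] [Finite G] (p : ℕ) [Fact p.Prime] (S : Sylow p G) (H : Subgroup G) [H.Normal] : (Cfsg.groupFusionSystem (S : Subgroup G)).IsFactorSystem ((S : Subgroup G) ⊓ H) ((QuotientGroup.mk' H).comp (S : Subgroup G).subtype) (Cfsg.groupFusionSystem ((S : Subgroup G).map (QuotientGroup.mk' H))) := by
  classical
  have hp : p.Prime := Fact.out
  have hrange : ((QuotientGroup.mk' H).comp (S : Subgroup G).subtype).range =
      (S : Subgroup G).map (QuotientGroup.mk' H) := by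
    ext y
    constructor
    · rintro ⟨s, rfl⟩
      exact ⟨s, s.2, rfl⟩
    · rintro ⟨s, hs, rfl⟩
      exact ⟨⟨s, hs⟩, rfl⟩
  have hker : ∀ s : (S : Subgroup G), ((QuotientGroup.mk' H).comp (S : Subgroup G).subtype) s = 1 ↔
      (s : G) ∈ (S : Subgroup G) ⊓ H := by
    intro s
    show (QuotientGroup.mk' H) (s : G) = 1 ↔ _
    rw [QuotientGroup.mk'_apply, QuotientGroup.eq_one_iff]
    exact ⟨fun h => ⟨s.2, h⟩, fun h => h.2⟩
  refine ⟨inf_le_left, hker, hrange, fun P' φ' => ?_⟩
  constructor
  · rintro ⟨hP', hφ'S, gbar, hg⟩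
    obtain ⟨g, rfl⟩ := QuotientGroup.mk'_surjective H gbar
    refine ⟨hP', ?_⟩
    have hQS : Cfsg.FusionSystem.preimageAlong ((QuotientGroup.mk' H).comp (S : Subgroup G).subtype) P'
        ≤ (S : Subgroup G) := preimageAlong_le _ _
    have hXp : IsPGroup p ↥((Cfsg.FusionSystem.preimageAlong
        ((QuotientGroup.mk' H).comp (S : Subgroup G).subtype) P').map (MulAut.conj g).toMonoidHom) :=
      (S.isPGroup'.to_le hQS).map _
    have hXle : (Cfsg.FusionSystem.preimageAlong
        ((QuotientGroup.mk' H).comp (S : Subgroup G).subtype) P').map (MulAut.conj g).toMonoidHom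
        ≤ (S : Subgroup G) ⊔ H := by
      rintro _ ⟨x, hx, rfl⟩
      have hx' := (mem_preimageAlong.1 hx).2
      have h1 := hφ'S ⟨_, hx'⟩
      rw [hg] at h1
      obtain ⟨s, hs, hs'⟩ := h1
      have h2 : s⁻¹ * (g * x * g⁻¹) ∈ H := by
        rw [← QuotientGroup.eq_one_iff, ← QuotientGroup.mk'_apply, map_mul, map_inv, hs']
        show (_ : G ⧸ H)⁻¹ * (QuotientGroup.mk' H) (g * x * g⁻¹) = 1
        rw [map_mul, map_mul, map_inv]
        exact inv_mul_cancel _
      have h3 : (MulAut.conj g).toMonoidHom x = s * (s⁻¹ * (g * x * g⁻¹)) := by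
        simp [MulAut.conj_apply]
      rw [h3]
      exact Subgroup.mul_mem _ (Subgroup.mem_sup_left hs) (Subgroup.mem_sup_right h2)
    have hcard : Nat.card (S : Subgroup G) = p ^ (Nat.card ↥((S : Subgroup G) ⊔ H)).factorization p := by
      apply le_antisymm (card_le_of_isPGroup S.isPGroup' le_sup_left)
      rw [S.card_eq_multiplicity]
      apply Nat.pow_le_pow_right hp.pos
      have hdvd : Nat.card ↥((S : Subgroup G) ⊔ H) ∣ Nat.card G := Subgroup.card_subgroup_dvd_card _
      exact (Nat.factorization_le_iff_dvd Nat.card_pos.ne' Nat.card_pos.ne').2 hdvd p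
    obtain ⟨m, hm, hmle⟩ := exists_conj_le_of_sylCard le_sup_left hcard hXp hXle
    obtain ⟨s, hs, h, hh, rfl⟩ : ∃ s ∈ (S : Subgroup G), ∃ h ∈ H, s * h = m := by
      have hm' : m ∈ (((S : Subgroup G) ⊔ H : Subgroup G) : Set G) := hm
      rw [Subgroup.mul_normal] at hm'
      exact Set.mem_mul.1 hm'
    have hk : ∀ x : Cfsg.FusionSystem.preimageAlong
        ((QuotientGroup.mk' H).comp (S : Subgroup G).subtype) P',
        h * g * (x : G) * (h * g)⁻¹ ∈ (S : Subgroup G) := by
      intro x
      have h1 : (s * h) * (g * x * g⁻¹) * (s * h)⁻¹ ∈ (S : Subgroup G) :=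
        hmle ⟨g * x * g⁻¹, ⟨x, x.2, rfl⟩, rfl⟩
      have h2 : h * g * (x : G) * (h * g)⁻¹ = s⁻¹ * ((s * h) * (g * x * g⁻¹) * (s * h)⁻¹) * s := by
        group
      rw [h2]
      exact mul_mem (mul_mem (inv_mem hs) h1) hs
    refine ⟨Cfsg.conjHom _ (h * g), ⟨hQS, hk, h * g, fun x => rfl⟩, hQS, hk,
      fun x => map_mem_of_mem_preimageAlong x _, fun x => ?_⟩
    rw [hg]
    show (QuotientGroup.mk' H) g * (QuotientGroup.mk' H) (x : G) * ((QuotientGroup.mk' H) g)⁻¹ =
      (QuotientGroup.mk' H) (h * g * (x : G) * (h * g)⁻¹)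
    have h1 : (QuotientGroup.mk' H) h = 1 := by
      rw [QuotientGroup.mk'_apply]
      exact (QuotientGroup.eq_one_iff h).2 hh
    rw [map_mul, map_mul, map_mul, map_inv, map_mul, h1, one_mul]
  · rintro ⟨hP', φ, ⟨hQS, hφS, g, hg⟩, hP, hφS', hP'x, hind⟩
    refine ⟨hP', fun y => ?_, (QuotientGroup.mk' H) g, fun y => ?_⟩
    · obtain ⟨x, hxS, hxy⟩ := exists_preimage_of_le_range hrange hP' y
      have h1 := hind x
      have h2 : (⟨((QuotientGroup.mk' H).comp (S : Subgroup G).subtype) ⟨x, hP x.2⟩, hP'x x⟩ : P') = y :=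
        Subtype.ext hxy
      rw [h2] at h1
      rw [h1, ← hrange]
      exact ⟨_, rfl⟩
    · obtain ⟨x, hxS, hxy⟩ := exists_preimage_of_le_range hrange hP' y
      have h1 := hind x
      have h2 : (⟨((QuotientGroup.mk' H).comp (S : Subgroup G).subtype) ⟨x, hP x.2⟩, hP'x x⟩ : P') = y :=
        Subtype.ext hxy
      rw [h2] at h1
      rw [h1, ← hxy]
      show (QuotientGroup.mk' H) (φ x) = (QuotientGroup.mk' H) g * (QuotientGroup.mk' H) (x : G) *
        ((QuotientGroup.mk' H) g)⁻¹
      rw [hg, map_mul, map_mul, map_inv]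

end Cfsg.Agent.S5135
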