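import Cfsg.Statements.S5147
import Mathlib
import Cfsg.Agent.S5115
import Cfsg.Agent.Lib.helper25.Solvable2
import Cfsg.Agent.Lib.helper25.FusionFactor
import Cfsg.Agent.Lib.helper26.FusionIso

set_option autoImplicit false
set_option linter.style.haveILetI false
open Cfsg

namespace Cfsg.Agent.S5147

section aux47

open Cfsg Cfsg.FusionSystem Cfsg.Agent.Lib.helper25 Cfsg.Agent.Lib.helper26

universe u

theorem normal_of_le_center {M : Type*} [Group M] {W : Subgroup M}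
    (hW : W ≤ Subgroup.center M) : W.Normal :=
  ⟨fun n hn g => by
    have h1 := Subgroup.mem_center_iff.mp (hW hn) g
    rw [h1, mul_inv_cancel_right]
    exact hn⟩

/-- a `p`-element of the form `t * z`, `t` in the Sylow subgroup `T`, `z` central, lies in `T` -/
theorem mem_sylow_of_mul_central {L : Type*} [Group L] [Finite L] {p : ℕ} [Fact p.Prime]
    (T : Sylow p L) {t z : L} (ht : t ∈ (T : Subgroup L)) (hz : z ∈ Subgroup.center L)
    (hy : ∃ k : ℕ, (t * z) ^ p ^ k = 1) : t * z ∈ (T : Subgroup L) := by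
  obtain ⟨k, hk⟩ := hy
  obtain ⟨k', hk'⟩ := T.isPGroup' ⟨t, ht⟩
  have hk'' : t ^ p ^ k' = 1 := congrArg (fun w : ↥(T : Subgroup L) => (w : L)) hk'
  have hcomm : Commute t z := (Subgroup.mem_center_iff.mp hz t)
  have hzpow : z ^ p ^ (k + k') = 1 := by
    have h1 : (t * z) ^ p ^ (k + k') = 1 := by
      rw [pow_add, pow_mul, hk, one_pow]
    rw [hcomm.mul_pow] at h1
    have h2 : t ^ p ^ (k + k') = 1 := by
      rw [pow_add, mul_comm, pow_mul, hk'', one_pow]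
    rw [h2, one_mul] at h1
    exact h1
  have hzc : Subgroup.zpowers z ≤ Subgroup.center L := by
    rw [Subgroup.zpowers_le]
    exact hz
  haveI : (Subgroup.zpowers z).Normal := normal_of_le_center hzc
  have hp : IsPGroup p (Subgroup.zpowers z) := by
    rintro ⟨w, hw⟩
    obtain ⟨i, rfl⟩ := Subgroup.mem_zpowers_iff.mp hw
    refine ⟨k + k', Subtype.ext ?_⟩
    show (z ^ i) ^ p ^ (k + k') = 1
    rw [← zpow_natCast, ← zpow_mul, mul_comm, zpow_mul, zpow_natCast, hzpow, one_zpow]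
  have hzT : z ∈ (T : Subgroup L) := hp.le_sylow_of_normal T (Subgroup.mem_zpowers z)
  exact Subgroup.mul_mem _ ht hzT

/-- stability-group argument -/
theorem stab_pelt {M : Type*} [Group M] {p : ℕ} [Fact p.Prime] {O W : Subgroup M} [Finite O]
    (hO : IsPGroup p O) (hWO : W ≤ O) (hWc : W ≤ Subgroup.center M)
    (hC : Subgroup.centralizer (O : Set M) ≤ O) (y : M)
    (hy : ∀ q ∈ O, y * q * y⁻¹ * q⁻¹ ∈ W) : ∃ k : ℕ, y ^ p ^ k = 1 := by
  obtain ⟨a, ha⟩ := IsPGroup.iff_card.mp hO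
  have hpow : ∀ o ∈ O, o ^ p ^ a = 1 := by
    intro o ho
    have h1 : (⟨o, ho⟩ : O) ^ Nat.card O = 1 := pow_card_eq_one'
    rw [ha] at h1
    exact congrArg (fun w : O => (w : M)) h1
  have hconj : ∀ q ∈ O, ∀ n : ℕ, y ^ n * q * (y ^ n)⁻¹ = (y * q * y⁻¹ * q⁻¹) ^ n * q := by
    intro q hq n
    obtain ⟨c, hcdef⟩ : ∃ c, c = y * q * y⁻¹ * q⁻¹ := ⟨_, rfl⟩
    have hcW : c ∈ W := hcdef ▸ hy q hq
    have hcy : Commute y c := Subgroup.mem_center_iff.mp (hWc hcW) y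
    have hyq : y * q * y⁻¹ = c * q := by rw [hcdef]; group
    rw [← hcdef]
    induction n with
    | zero => simp
    | succ n ih =>
      have hcn : y * c ^ n = c ^ n * y := (hcy.pow_right n).eq
      calc y ^ (n + 1) * q * (y ^ (n + 1))⁻¹ = y * (y ^ n * q * (y ^ n)⁻¹) * y⁻¹ := by group
        _ = y * (c ^ n * q) * y⁻¹ := by rw [ih]
        _ = (y * c ^ n) * (q * y⁻¹) := by group
        _ = c ^ n * (y * q * y⁻¹) := by rw [hcn]; group
        _ = c ^ n * (c * q) := by rw [hyq]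
        _ = c ^ (n + 1) * q := by rw [pow_succ]; group
  have hcent : y ^ p ^ a ∈ Subgroup.centralizer (O : Set M) := by
    rw [Subgroup.mem_centralizer_iff]
    intro q hq
    have h1 := hconj q hq (p ^ a)
    rw [hpow _ (hWO (hy q hq)), one_mul] at h1
    calc q * y ^ p ^ a = (y ^ p ^ a * q * (y ^ p ^ a)⁻¹) * y ^ p ^ a := by rw [h1]
      _ = y ^ p ^ a * q := inv_mul_cancel_right _ _
  refine ⟨a + a, ?_⟩
  rw [pow_add, pow_mul]
  exact hpow _ (hC hcent)

/-- the image of a subgroup normal in `F_T(L)` is normal in the fusion system of a central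
quotient -/
theorem normal_quot {L : Type*} [Group L] [Finite L] {p : ℕ} [Fact p.Prime] (T : Sylow p L)
    {Q : Subgroup L} (hQn : (groupFusionSystem (T : Subgroup L)).IsNormal Q)
    (Z : Subgroup L) [Z.Normal] (hZ : Z ≤ Subgroup.center L) :
    (groupFusionSystem ((T : Subgroup L).map (QuotientGroup.mk' Z))).IsNormal
      (Q.map (QuotientGroup.mk' Z)) := by
  refine ⟨Subgroup.map_mono hQn.1, ?_⟩
  rintro Pb φb ⟨hPb, hφbT, gb, hgb⟩
  obtain ⟨g, rfl⟩ := QuotientGroup.mk'_surjective Z gb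
  obtain ⟨P, hPdef⟩ : ∃ P : Subgroup L,
      P = (T : Subgroup L) ⊓ Pb.comap (QuotientGroup.mk' Z) := ⟨_, rfl⟩
  have hPT : P ≤ (T : Subgroup L) := hPdef ▸ inf_le_left
  have hPPb : ∀ x ∈ P, QuotientGroup.mk' Z x ∈ Pb := by
    intro x hx
    rw [hPdef] at hx
    exact hx.2
  have hPmap : P.map (QuotientGroup.mk' Z) = Pb := by
    apply le_antisymm
    · rintro _ ⟨x, hx, rfl⟩
      exact hPPb x hx
    · intro xb hxb
      obtain ⟨t, ht, rfl⟩ := hPb hxb
      exact ⟨t, hPdef ▸ ⟨ht, hxb⟩, rfl⟩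
  have hgP : ∀ x : P, g * (x : L) * g⁻¹ ∈ (T : Subgroup L) := by
    intro x
    have h1 := hφbT ⟨_, hPPb x x.2⟩
    rw [hgb] at h1
    obtain ⟨t, ht, hte⟩ := h1
    have hte' : QuotientGroup.mk' Z t = QuotientGroup.mk' Z (g * (x : L) * g⁻¹) := by
      rw [hte, map_mul, map_mul, map_inv]
    have h2 : t⁻¹ * (g * (x : L) * g⁻¹) ∈ Z := QuotientGroup.eq.mp hte'
    have h3 : g * (x : L) * g⁻¹ = t * (t⁻¹ * (g * (x : L) * g⁻¹)) := by group
    rw [h3]
    refine mem_sylow_of_mul_central T ht (hZ h2) ?_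
    rw [← h3]
    obtain ⟨k, hk⟩ := T.isPGroup' ⟨x, hPT x.2⟩
    have hk' : (x : L) ^ p ^ k = 1 := congrArg (fun w : ↥(T : Subgroup L) => (w : L)) hk
    refine ⟨k, ?_⟩
    rw [conj_pow, hk']
    group
  have hφ : conjHom P g ∈ (groupFusionSystem (T : Subgroup L)).Hom P :=
    ⟨hPT, hgP, g, fun x => rfl⟩
  obtain ⟨ψ, hψ, hψP, hψQ⟩ := hQn.2 P (conjHom P g) hφ
  obtain ⟨hPQT, hψT, h, hh⟩ := hψ
  have ha : ∀ x ∈ P, h * x * h⁻¹ = g * x * g⁻¹ := by
    intro x hx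
    have h1 := hψP ⟨x, hx⟩
    rw [hh] at h1
    exact h1
  have hb : ∀ y ∈ P ⊔ Q, h * y * h⁻¹ ∈ (T : Subgroup L) := by
    intro y hy
    have h1 := hψT ⟨y, hy⟩
    rw [hh] at h1
    exact h1
  have hc : ∀ q ∈ Q, h * q * h⁻¹ ∈ Q := by
    intro q hq
    have h1 : ψ ⟨q, (le_sup_right : Q ≤ P ⊔ Q) hq⟩ ∈ (Q.subgroupOf (P ⊔ Q)).map ψ :=
      ⟨⟨q, (le_sup_right : Q ≤ P ⊔ Q) hq⟩, Subgroup.mem_subgroupOf.mpr hq, rfl⟩
    rw [hψQ, hh] at h1
    exact h1
  have hd : ∀ q ∈ Q, ∃ q' ∈ Q, h * q' * h⁻¹ = q := by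
    intro q hq
    rw [← hψQ] at hq
    obtain ⟨w, hw, hwe⟩ := hq
    refine ⟨(w : L), Subgroup.mem_subgroupOf.mp hw, ?_⟩
    rw [← hwe, hh]
  have hsup : Pb ⊔ Q.map (QuotientGroup.mk' Z) = (P ⊔ Q).map (QuotientGroup.mk' Z) := by
    rw [Subgroup.map_sup, hPmap]
  have hval : ∀ yb ∈ Pb ⊔ Q.map (QuotientGroup.mk' Z),
      QuotientGroup.mk' Z h * yb * (QuotientGroup.mk' Z h)⁻¹ ∈
        (T : Subgroup L).map (QuotientGroup.mk' Z) := by
    intro yb hyb
    rw [hsup] at hyb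
    obtain ⟨y, hy, rfl⟩ := hyb
    exact ⟨h * y * h⁻¹, hb y hy, by rw [map_mul, map_mul, map_inv]⟩
  refine ⟨conjHom (Pb ⊔ Q.map (QuotientGroup.mk' Z)) (QuotientGroup.mk' Z h), ⟨?_, ?_, ?_⟩, ?_, ?_⟩
  · rw [hsup]
    exact Subgroup.map_mono hPQT
  · intro yb
    exact hval yb yb.2
  · exact ⟨QuotientGroup.mk' Z h, fun x => rfl⟩
  · intro xb
    show QuotientGroup.mk' Z h * (xb : L ⧸ Z) * (QuotientGroup.mk' Z h)⁻¹ = φb xb
    rw [hgb xb]
    obtain ⟨x, hx, hxe⟩ : (xb : L ⧸ Z) ∈ P.map (QuotientGroup.mk' Z) := by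
      rw [hPmap]
      exact xb.2
    rw [← hxe, ← map_inv, ← map_mul, ← map_mul, ← map_inv, ← map_mul, ← map_mul, ha x hx]
  · ext yb
    constructor
    · rintro ⟨w, hw, rfl⟩
      obtain ⟨q, hq, hqe⟩ := Subgroup.mem_subgroupOf.mp hw
      show QuotientGroup.mk' Z h * (w : L ⧸ Z) * (QuotientGroup.mk' Z h)⁻¹ ∈
        Q.map (QuotientGroup.mk' Z)
      rw [← hqe]
      exact ⟨h * q * h⁻¹, hc q hq, by rw [map_mul, map_mul, map_inv]⟩
    · rintro ⟨q, hq, rfl⟩
      obtain ⟨q', hq', hqe⟩ := hd q hq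
      refine ⟨⟨QuotientGroup.mk' Z q', (le_sup_right : Q.map (QuotientGroup.mk' Z) ≤ _)
        ⟨q', hq', rfl⟩⟩, Subgroup.mem_subgroupOf.mpr ⟨q', hq', rfl⟩, ?_⟩
      show QuotientGroup.mk' Z h * QuotientGroup.mk' Z q' * (QuotientGroup.mk' Z h)⁻¹ =
        QuotientGroup.mk' Z q
      rw [← hqe, map_mul, map_mul, map_inv]

/-- central quotient step -/
theorem cq {L : Type u} [Group L] [Finite L] {p : ℕ} [Fact p.Prime] (T : Sylow p L)
    (hF : (groupFusionSystem (T : Subgroup L)).IsConstrained p)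
    (Z : Subgroup L) [Z.Normal] (hZ : Z ≤ Subgroup.center L) :
    (groupFusionSystem ((T : Subgroup L).map (QuotientGroup.mk' Z))).IsConstrained p := by
  obtain ⟨hsat, Q₀, hQ₀n, hQ₀c⟩ := hF
  obtain ⟨M, _, j, hM⟩ :=
    Cfsg.Agent.Lib.helper7.Model.exists_model_of T.isPGroup' _ hsat Q₀ hQ₀n hQ₀c
  obtain ⟨hfin, hr, ⟨TM, hTM⟩, hC⟩ := hM
  haveI := hfin
  have hQn0 := isNormal_preimage_pCore _ j hr TM hTM
  have hQc0 := isCentric_preimage_pCore _ j hr TM hTM hC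
  obtain ⟨Q, hQdef⟩ : ∃ Q : Subgroup L, Q = preimageAlong j (pCore p M) := ⟨_, rfl⟩
  rw [← hQdef] at hQn0 hQc0
  have hQT : Q ≤ (T : Subgroup L) := hQn0.1
  have hsatb : (groupFusionSystem ((T : Subgroup L).map (QuotientGroup.mk' Z))).IsSaturated p :=
    groupFusion_saturated (T.mapSurjective (QuotientGroup.mk'_surjective Z))
  have hnb := normal_quot T hQn0 Z hZ
  refine ⟨hsatb, _, hnb, isCentric_of_isNormal_of_centralizer_le _ hnb ?_⟩
  have hOn : (pCore p M).Normal := pCore_normal p M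
  have hOle : pCore p M ≤ j.range := hTM ▸ pCore_le_sylow TM
  have hOp : IsPGroup p (pCore p M) := TM.isPGroup'.to_le (pCore_le_sylow TM)
  have hmemQ : ∀ (x : L) (hx : x ∈ (T : Subgroup L)), x ∈ Q ↔ j ⟨x, hx⟩ ∈ pCore p M := by
    intro x hx
    rw [hQdef, mem_preimageAlong]
    exact ⟨fun ⟨_, h⟩ => h, fun h => ⟨hx, h⟩⟩
  have hZQ : ∀ s : ↥(T : Subgroup L), (s : L) ∈ Z → (s : L) ∈ Q := by
    intro s hs
    apply hQc0.2 Q (Cfsg.Agent.Lib.helper26.isConj_refl _ hQT)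
    refine ⟨s.2, ?_⟩
    show (s : L) ∈ Subgroup.centralizer (Q : Set L)
    rw [Subgroup.mem_centralizer_iff]
    intro q _
    exact Subgroup.mem_center_iff.mp (hZ hs) q
  obtain ⟨W, hWdef⟩ : ∃ W : Subgroup M,
      W = (((T : Subgroup L) ⊓ Z).subgroupOf (T : Subgroup L)).map j := ⟨_, rfl⟩
  have hWmem : ∀ (z : L) (hzT : z ∈ (T : Subgroup L)), z ∈ Z → j ⟨z, hzT⟩ ∈ W := by
    intro z hzT hzZ
    rw [hWdef]
    exact ⟨⟨z, hzT⟩, Subgroup.mem_subgroupOf.mpr ⟨hzT, hzZ⟩, rfl⟩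
  have hWO : W ≤ pCore p M := by
    rw [hWdef]
    rintro _ ⟨s, hs, rfl⟩
    have hs' : (s : L) ∈ (T : Subgroup L) ⊓ Z := Subgroup.mem_subgroupOf.mp hs
    exact (hmemQ s s.2).mp (hZQ s hs'.2)
  have hWc : W ≤ Subgroup.center M := by
    rw [hWdef]
    rintro _ ⟨s, hs, rfl⟩
    have hs' : (s : L) ∈ (T : Subgroup L) ⊓ Z := Subgroup.mem_subgroupOf.mp hs
    have hsQ : (s : L) ∈ Q := hZQ s hs'.2
    rw [Subgroup.mem_center_iff]
    intro m
    have hrange : ∀ x : Q, m * j ⟨x, hQT x.2⟩ * m⁻¹ ∈ j.range := by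
      intro x
      exact hOle (hOn.conj_mem _ ((hmemQ x (hQT x.2)).mp x.2) m)
    have hφ := realHom_mem _ j hr hQT m hrange
    obtain ⟨hφ1, hφT, l, hl⟩ := hφ
    have h1 := map_realHom j hr.1 hQT m hrange ⟨s, hsQ⟩
    have h2 : realHom j hr.1 hQT m hrange ⟨s, hsQ⟩ = (s : L) := by
      rw [hl ⟨s, hsQ⟩]
      show l * (s : L) * l⁻¹ = s
      rw [Subgroup.mem_center_iff.mp (hZ hs'.2) l, mul_inv_cancel_right]
    have h3 : j ⟨realHom j hr.1 hQT m hrange ⟨s, hsQ⟩,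
        realHom_mem_S j hr.1 hQT m hrange ⟨s, hsQ⟩⟩ = j s :=
      congrArg j (Subtype.ext h2)
    rw [h3] at h1
    have h4 : j ⟨(s : L), hQT hsQ⟩ = j s := rfl
    rw [h4] at h1
    calc m * j s = (m * j s * m⁻¹) * m := by group
      _ = j s * m := by rw [← h1]
  -- the centralizer condition
  intro xb hxb
  have hxb' : xb ∈ (T : Subgroup L).map (QuotientGroup.mk' Z) ⊓
      Subgroup.centralizer ((Q.map (QuotientGroup.mk' Z) : Subgroup (L ⧸ Z)) : Set (L ⧸ Z)) := hxb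
  obtain ⟨hxbT, hxbc⟩ := Subgroup.mem_inf.mp hxb'
  obtain ⟨x, hxT, rfl⟩ := hxbT
  refine ⟨x, (hmemQ x hxT).mpr ?_, rfl⟩
  have hcomm : ∀ q ∈ Q, x * q * x⁻¹ * q⁻¹ ∈ Z := by
    intro q hq
    have h1 := Subgroup.mem_centralizer_iff.mp hxbc (QuotientGroup.mk' Z q) ⟨q, hq, rfl⟩
    rw [← QuotientGroup.eq_one_iff]
    show QuotientGroup.mk' Z (x * q * x⁻¹ * q⁻¹) = 1
    rw [map_mul, map_mul, map_mul, map_inv, map_inv, ← h1]
    group
  have hyelt : ∀ q ∈ pCore p M, j ⟨x, hxT⟩ * q * (j ⟨x, hxT⟩)⁻¹ * q⁻¹ ∈ W := by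
    intro q hq
    obtain ⟨s, rfl⟩ := hOle hq
    have hsQ : (s : L) ∈ Q := (hmemQ s s.2).mpr hq
    have hc := hcomm s hsQ
    have hcT : x * (s : L) * x⁻¹ * (s : L)⁻¹ ∈ (T : Subgroup L) :=
      Subgroup.mul_mem _ (Subgroup.mul_mem _ (Subgroup.mul_mem _ hxT s.2)
        (Subgroup.inv_mem _ hxT)) (Subgroup.inv_mem _ s.2)
    have h5 := hWmem _ hcT hc
    have h6 : j ⟨x * (s : L) * x⁻¹ * (s : L)⁻¹, hcT⟩ =
        j ⟨x, hxT⟩ * j s * (j ⟨x, hxT⟩)⁻¹ * (j s)⁻¹ := by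
      rw [← map_inv, ← map_inv, ← map_mul, ← map_mul, ← map_mul]
      exact congrArg j (Subtype.ext rfl)
    rw [h6] at h5
    exact h5
  haveI hWn : W.Normal := normal_of_le_center hWc
  obtain ⟨k, hk⟩ := stab_pelt hOp hWO hWc hC _ hyelt
  -- the normal p-subgroup D
  haveI hOmapn : ((pCore p M).map (QuotientGroup.mk' W)).Normal :=
    hOn.map _ (QuotientGroup.mk'_surjective W)
  obtain ⟨D, hDdef⟩ : ∃ D : Subgroup M, D = (Subgroup.centralizer
      (((pCore p M).map (QuotientGroup.mk' W) : Subgroup (M ⧸ W)) : Set (M ⧸ W))).comap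
        (QuotientGroup.mk' W) := ⟨_, rfl⟩
  have hDmem : ∀ y : M, y ∈ D ↔ ∀ q ∈ pCore p M, y * q * y⁻¹ * q⁻¹ ∈ W := by
    intro y
    rw [hDdef, Subgroup.mem_comap, Subgroup.mem_centralizer_iff]
    constructor
    · intro h q hq
      have h1 := h (QuotientGroup.mk' W q) ⟨q, hq, rfl⟩
      rw [← QuotientGroup.eq_one_iff]
      show QuotientGroup.mk' W (y * q * y⁻¹ * q⁻¹) = 1
      rw [map_mul, map_mul, map_mul, map_inv, map_inv, ← h1]
      group
    · rintro h _ ⟨q, hq, rfl⟩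
      have h1 := (QuotientGroup.eq_one_iff (N := W) _).mpr (h q hq)
      have h2 : QuotientGroup.mk' W (y * q * y⁻¹ * q⁻¹) = 1 := h1
      rw [map_mul, map_mul, map_mul, map_inv, map_inv] at h2
      calc QuotientGroup.mk' W q * QuotientGroup.mk' W y
          = (QuotientGroup.mk' W y * QuotientGroup.mk' W q * (QuotientGroup.mk' W y)⁻¹ *
              (QuotientGroup.mk' W q)⁻¹)⁻¹ * (QuotientGroup.mk' W y * QuotientGroup.mk' W q) := by
            group
        _ = QuotientGroup.mk' W y * QuotientGroup.mk' W q := by rw [h2, inv_one, one_mul]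
  have hDn : D.Normal := by
    rw [hDdef]
    infer_instance
  have hDp : IsPGroup p D := by
    rintro ⟨y, hy⟩
    obtain ⟨k, hk⟩ := stab_pelt hOp hWO hWc hC y ((hDmem y).mp hy)
    exact ⟨k, Subtype.ext hk⟩
  exact le_pCore hDn hDp ((hDmem _).mpr hyelt)

/-- the subnormal induction of S5115, also giving the Sylow subgroup -/
theorem sub_main {G : Type*} [Group G] [Finite G] (S : Sylow 2 G)
    (hF : (Cfsg.groupFusionSystem (S : Subgroup G)).IsConstrained 2) (H : Subgroup G)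
    (hH : H.IsSubnormal) :
    ∃ P : Sylow 2 H, (P : Subgroup H) = (S : Subgroup G).subgroupOf H ∧
      (Cfsg.groupFusionSystem ((S : Subgroup G).subgroupOf H)).IsConstrained 2 := by
  induction hH with
  | top =>
    have hinj : Function.Injective (⊤ : Subgroup G).subtype := Subgroup.subtype_injective _
    have hn : ((⊤ : Subgroup G).subtype).range.Normal := by
      rw [Subgroup.range_subtype]
      infer_instance
    obtain ⟨P, hP⟩ := Cfsg.Agent.S5115.sy S (⊤ : Subgroup G).subtype hinj hn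
    exact ⟨P, hP, Cfsg.Agent.S5115.ns S hF (⊤ : Subgroup G).subtype hinj hn⟩
  | step H K h_le hK hN ih =>
    obtain ⟨PK, hPK, hFK⟩ := ih
    have hinj : Function.Injective (Subgroup.inclusion h_le) :=
      Subgroup.inclusion_injective h_le
    have hn : (Subgroup.inclusion h_le).range.Normal := by
      rw [Subgroup.inclusion_range]
      exact hN
    have hFK' : (Cfsg.groupFusionSystem (PK : Subgroup K)).IsConstrained 2 := by
      rw [hPK]
      exact hFK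
    have e : (PK : Subgroup K).comap (Subgroup.inclusion h_le) =
        (S : Subgroup G).subgroupOf H := by
      rw [hPK]
      ext x
      simp [Subgroup.mem_subgroupOf]
    obtain ⟨P, hP⟩ := Cfsg.Agent.S5115.sy PK (Subgroup.inclusion h_le) hinj hn
    have h1 := Cfsg.Agent.S5115.ns PK hFK' (Subgroup.inclusion h_le) hinj hn
    rw [e] at h1 hP
    exact ⟨P, hP, h1⟩

end aux47

/-- Let G be a finite group with Sylow 2-subgroup S whose 2-fusion system on S is constrained, and L a component of G (a subnormal quasisimple subgroup). Then the 2-fusion system of L/Z(L) on the image of S ∩ L is constrained. -/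
theorem result {G : Type*} [Group G] [Finite G] (S : Sylow 2 G) (hF : (Cfsg.groupFusionSystem (S : Subgroup G)).IsConstrained 2) (L : Subgroup G) (hL : Cfsg.IsComponent L) : (Cfsg.groupFusionSystem (((S : Subgroup G).subgroupOf L).map (QuotientGroup.mk' (Subgroup.center L)))).IsConstrained 2 := by
  obtain ⟨P, hP, hc⟩ := sub_main S hF L hL.1
  have hc' : (Cfsg.groupFusionSystem (P : Subgroup L)).IsConstrained 2 := by
    rw [hP]
    exact hc
  have h := cq P hc' (Subgroup.center L) le_rfl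
  rw [hP] at h
  exact h

end Cfsg.Agent.S5147
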