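import Cfsg.Statements.S5199
-- import your own Cfsg.Agent.* helpers here
import Cfsg.Agent.Lib.helper26.Alperin
import Cfsg.Agent.Lib.helper26.Saturation
import Cfsg.Agent.Lib.helper25.Hyperfocal

set_option autoImplicit false
open Cfsg

namespace Cfsg.Agent.S5199

section

open Cfsg.Agent.Lib.helper26 Cfsg.FusionSystem
open Cfsg.Agent.Lib.helper25 (exists_residual_mul_conj)

variable {Ω : Type*} [Group Ω] {S : Subgroup Ω}

theorem main [Finite S] (p : ℕ) [Fact p.Prime] (hS : IsPGroup p S) (F : Cfsg.FusionSystem S)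
    {T U : Subgroup Ω} (E : Cfsg.FusionSystem T) (hE : E.IsNormalIn F p)
    (F₀ : Cfsg.FusionSystem U) (hU : T ⊔ F.hyperfocalSubgroup p ≤ U)
    (hidx : F₀.HasPPowerIndexIn F p) : E.IsSubsystemOf F₀ := by
  obtain ⟨⟨hEsat, -, hsub, hT, -, -⟩, -⟩ := hE
  have hTS : T ≤ S := hT.1
  have hTU : T ≤ U := le_sup_left.trans hU
  haveI : Finite T := finite_of_le hTS
  have hTp : IsPGroup p T := hS.to_le hTS
  obtain ⟨-, -, hres⟩ := hidx
  intro P φ hφ
  refine alperin_induction hTp E hEsat (fun V ψ => ψ ∈ F₀.Hom V) ?_ ?_ ?_ P φ hφ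
  · intro V W ψ h _ hψ
    exact restrict_mem F₀ hψ h
  · intro V W ψ χ h _ _ hψ hχ
    exact F₀.comp_mem hψ hχ h
  · intro W hW _ α hα
    have hWT : W ≤ T := hW.1
    have hWU : W ≤ U := hWT.trans hTU
    have hWS : W ≤ S := hWT.trans hTS
    have hαE : α ∈ E.autGroup W := (mem_autGroup_iff E hWT α).2 hα
    have hfa := fullyAutomized_of_fullyNormalized hTp E hEsat hW
    obtain ⟨ρ, hρ, g, hαeq⟩ := exists_residual_mul_conj E hfa α hαE
    have hEF : E.autGroup W ≤ F.autGroup W := by
      intro β hβ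
      rw [mem_autGroup_iff E hWT] at hβ
      rw [mem_autGroup_iff F hWS]
      exact hsub _ hβ
    have hρ0 : ∀ ρ : E.autGroup W, ρ ∈ Cfsg.pResidual p (E.autGroup W) →
        (ρ : MulAut W) ∈ F₀.autGroup W := by
      intro ρ hρ
      have hρ' : ρ ∈ Subgroup.closure {g : E.autGroup W | Nat.Coprime (orderOf g) p} := hρ
      refine Subgroup.closure_induction
        (p := fun (x : E.autGroup W) _ => (x : MulAut W) ∈ F₀.autGroup W) ?_ ?_ ?_ ?_ hρ'
      · intro x hx
        have hx' : Nat.Coprime (orderOf x) p := hx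
        apply hres W hWU
        refine ⟨⟨(x : MulAut W), hEF x.2⟩, ?_, rfl⟩
        apply Subgroup.subset_closure
        show Nat.Coprime (orderOf (⟨(x : MulAut W), hEF x.2⟩ : F.autGroup W)) p
        have h1 : orderOf (⟨(x : MulAut W), hEF x.2⟩ : F.autGroup W) = orderOf x := by
          rw [← Subgroup.orderOf_coe, ← Subgroup.orderOf_coe x]
        rw [h1]
        exact hx'
      · exact one_mem _
      · intro x y _ _ hx hy
        exact mul_mem hx hy
      · intro x _ hx
        exact inv_mem hx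
    have hg : conjAut T W g ∈ F₀.autGroup W := by
      rw [mem_autGroup_iff F₀ hWU]
      have h1 : W.subtype.comp (conjAut T W g).toMonoidHom = Cfsg.conjHom W (g : Ω) := by
        ext x
        rfl
      rw [h1]
      exact F₀.conj_mem hWU (hTU g.2.1)
    have hαF₀ : α ∈ F₀.autGroup W := by
      rw [hαeq]
      exact mul_mem (hρ0 ρ hρ) hg
    exact (mem_autGroup_iff F₀ hWU α).1 hαF₀

end

/-- Let F be a saturated fusion system over a finite p-group S, E a normal subsystem of F over T, and F₀ a normal subsystem of F over a subgroup U containing both T and the hyperfocal subgroup of F, such that F₀ has p-power index in F. Then E is a subsystem of F₀. -/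
theorem result {Ω : Type*} [Group Ω] {S : Subgroup Ω} [Finite S] (p : ℕ) [Fact p.Prime] (hS : IsPGroup p S) (F : Cfsg.FusionSystem S) (hF : F.IsSaturated p) {T U : Subgroup Ω} (E : Cfsg.FusionSystem T) (hE : E.IsNormalIn F p) (F₀ : Cfsg.FusionSystem U) (hF₀ : F₀.IsNormalIn F p) (hU : T ⊔ F.hyperfocalSubgroup p ≤ U) (hidx : F₀.HasPPowerIndexIn F p) : E.IsSubsystemOf F₀ := by
  exact main p hS F E hE F₀ hU hidx

end Cfsg.Agent.S5199
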