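import Cfsg.Statements.S5218
-- import your own Cfsg.Agent.* helpers here
import Cfsg.Agent.Lib.helper25.FusionRadical

set_option autoImplicit false
open Cfsg

namespace Cfsg.Agent.S5218

section aux18


theorem binom_id {R : Type*} [CommRing R] (p : ℕ) (hp : p.Prime) (y : R) :
    ∃ w : R, (1 + y) ^ p = 1 + (p : R) * y * (1 + y * w) + y ^ p := by
  obtain ⟨r, rfl⟩ : ∃ r, p = r + 1 + 1 := ⟨p - 2, by have := hp.two_le; omega⟩
  refine ⟨∑ k ∈ Finset.range r, y ^ k * (((r + 1 + 1).choose (k + 1 + 1) / (r + 1 + 1) : ℕ) : R), ?_⟩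
  have key : ∑ k ∈ Finset.range r, y ^ (k + 1 + 1) * (((r + 1 + 1).choose (k + 1 + 1) : ℕ) : R)
      = ((r + 1 + 1 : ℕ) : R) * y * (y * ∑ k ∈ Finset.range r,
          y ^ k * (((r + 1 + 1).choose (k + 1 + 1) / (r + 1 + 1) : ℕ) : R)) := by
    rw [Finset.mul_sum, Finset.mul_sum]
    apply Finset.sum_congr rfl
    intro k hk
    have hk' := Finset.mem_range.1 hk
    obtain ⟨d, hd⟩ := hp.dvd_choose_self (k := k + 1 + 1) (by omega) (by omega)
    rw [hd, Nat.mul_div_cancel_left d (by omega : 0 < r + 1 + 1)]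
    push_cast
    ring
  rw [add_comm 1 y, add_pow]
  simp only [one_pow, mul_one]
  rw [Finset.sum_range_succ, Finset.sum_range_succ', Finset.sum_range_succ', key]
  simp only [Nat.choose_self, Nat.choose_zero_right, Nat.cast_one, pow_zero, zero_add, pow_one,
    mul_one, Nat.choose_one_right]
  push_cast
  ring

theorem kill_step {R : Type*} [CommRing R] (p : ℕ) (hp : p.Prime) (y : R) (hy : (1 + y) ^ p = 1)
    (t : R) (m : ℕ) (hm : p ≤ m) (ht : t * y ^ m = 0) : (p : R) * t * y ^ (m - p + 1) = 0 := by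
  obtain ⟨w, hw⟩ := binom_id p hp y
  have h0 : (p : R) * y * (1 + y * w) + y ^ p = 0 := by
    have h := hw.symm.trans hy
    linear_combination h
  obtain ⟨d, rfl⟩ : ∃ d, m = d + p := ⟨m - p, by omega⟩
  have e1 : d + p - p + 1 = d + 1 := by omega
  rw [e1]
  obtain ⟨s, hs⟩ : ∃ s, s = (p : R) * t * y ^ (d + 1) := ⟨_, rfl⟩
  rw [← hs]
  have h1 : s * (1 + y * w) = 0 := by
    have e : s * (1 + y * w) = t * y ^ d * ((p : R) * y * (1 + y * w) + y ^ p) - t * y ^ (d + p) := by
      rw [hs]; ring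
    rw [e, h0, ht]; ring
  have h2 : s * y ^ (p - 1) = 0 := by
    have e : s * y ^ (p - 1) = (p : R) * (t * y ^ (d + p)) := by
      have e3 : d + p = d + 1 + (p - 1) := by have := hp.two_le; omega
      rw [hs, e3]; ring
    rw [e, ht, mul_zero]
  have h3 : ∀ k : ℕ, s = s * (-(y * w)) ^ k := by
    intro k
    induction k with
    | zero => simp
    | succ k ih =>
      have e : s * (-(y * w)) ^ (k + 1) = (s * (-(y * w)) ^ k) * (-(y * w)) := by ring
      rw [e, ← ih]
      linear_combination h1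
  rw [h3 (p - 1)]
  have e : -(y * w) = y * (-w) := by ring
  rw [e, mul_pow, ← mul_assoc, h2, zero_mul]

theorem comm_kill {R : Type*} [CommRing R] (p : ℕ) (hp : p.Prime) (n : ℕ) (y : R)
    (hy : (1 + y) ^ p = 1) (hy0 : y ^ (n * (p - 1) + 1) = 0) : (p : R) ^ n * y = 0 := by
  have key : ∀ k j : ℕ, k + j = n → (p : R) ^ k * y ^ (j * (p - 1) + 1) = 0 := by
    intro k
    induction k with
    | zero =>
      intro j hj
      have : j = n := by omega
      subst this
      simpa using hy0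
    | succ k ih =>
      intro j hj
      have h1 := ih (j + 1) (by omega)
      have hm : p ≤ (j + 1) * (p - 1) + 1 := by
        have := hp.two_le
        have h2 : (j + 1) * (p - 1) = j * (p - 1) + (p - 1) := by ring
        omega
      have h2 := kill_step p hp y hy ((p : R) ^ k) ((j + 1) * (p - 1) + 1) hm h1
      have e : (j + 1) * (p - 1) + 1 - p + 1 = j * (p - 1) + 1 := by
        have := hp.two_le
        have h3 : (j + 1) * (p - 1) = j * (p - 1) + (p - 1) := by ring
        omega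
      rw [e] at h2
      rw [pow_succ]
      linear_combination h2
  have h := key n 0 (by omega)
  simpa using h

theorem end_kill {E : Type*} [Ring E] (p : ℕ) (hp : p.Prime) (n : ℕ) (Y : E)
    (h1 : (1 + Y) ^ p = 1) (h2 : Y ^ (n * (p - 1) + 1) = 0) : (p : E) ^ n * Y = 0 := by
  obtain ⟨I, hI⟩ : ∃ I : Ideal (Polynomial ℤ), I = Ideal.span
      {(1 + Polynomial.X) ^ p - 1, (Polynomial.X : Polynomial ℤ) ^ (n * (p - 1) + 1)} := ⟨_, rfl⟩
  have hm1 : (1 + Polynomial.X) ^ p - 1 ∈ I := by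
    rw [hI]; exact Ideal.subset_span (by simp)
  have hm2 : (Polynomial.X : Polynomial ℤ) ^ (n * (p - 1) + 1) ∈ I := by
    rw [hI]; exact Ideal.subset_span (by simp)
  have hmem : ((p : Polynomial ℤ) ^ n * Polynomial.X) ∈ I := by
    rw [← Ideal.Quotient.eq_zero_iff_mem]
    have h := comm_kill (R := Polynomial ℤ ⧸ I) p hp n (Ideal.Quotient.mk I Polynomial.X) ?_ ?_
    · simpa using h
    · have h3 := Ideal.Quotient.eq_zero_iff_mem.2 hm1
      rw [map_sub, map_pow, map_add, map_one, sub_eq_zero] at h3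
      exact h3
    · have h3 := Ideal.Quotient.eq_zero_iff_mem.2 hm2
      rw [map_pow] at h3
      exact h3
  rw [hI] at hmem
  obtain ⟨a, b, hab⟩ := Ideal.mem_span_pair.1 hmem
  have h := congrArg (Polynomial.aeval Y) hab
  simp only [map_add, map_mul, map_sub, map_pow, map_one, Polynomial.aeval_X, map_natCast] at h
  rw [h1, h2] at h
  simpa using h.symm

/-- endomorphism of a commutative group whose `p`-th iterate is the identity and whose
"commutator" map is nilpotent of index `n (p - 1) + 1` fixes all `p ^ n`-th powers -/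
theorem comm_group_kill {A : Type*} [CommGroup A] (p : ℕ) (hp : p.Prime) (n : ℕ) (φ : A →* A)
    (hφ : ∀ a, φ^[p] a = a) (hδ : ∀ a, (fun b : A => φ b * b⁻¹)^[n * (p - 1) + 1] a = 1) :
    ∀ a : A, φ (a ^ p ^ n) = a ^ p ^ n := by
  obtain ⟨X, hX⟩ : ∃ X : AddMonoid.End (Additive A), ∀ m, X m = Additive.ofMul (φ m.toMul) :=
    ⟨MonoidHom.toAdditive φ, fun m => rfl⟩
  have hXpow : ∀ (k : ℕ) (m : Additive A), (X ^ k) m = Additive.ofMul (φ^[k] m.toMul) := by
    intro k
    induction k with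
    | zero => intro m; rfl
    | succ k ih =>
      intro m
      have e : (X ^ (k + 1)) m = X ((X ^ k) m) := by rw [pow_succ']; rfl
      rw [e, ih, hX, Function.iterate_succ_apply']
      rfl
  have hY : ∀ m : Additive A, (X - 1) m = X m - m := fun m => rfl
  have hYpow : ∀ (k : ℕ) (m : Additive A),
      ((X - 1) ^ k) m = Additive.ofMul ((fun b : A => φ b * b⁻¹)^[k] m.toMul) := by
    intro k
    induction k with
    | zero => intro m; rfl
    | succ k ih =>
      intro m
      have e : ((X - 1) ^ (k + 1)) m = (X - 1) (((X - 1) ^ k) m) := by rw [pow_succ']; rfl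
      rw [e, ih, Function.iterate_succ_apply']
      rw [hY, hX, toMul_ofMul, ← ofMul_div, div_eq_mul_inv]
  have h1 : (1 + (X - 1)) ^ p = 1 := by
    rw [add_sub_cancel]
    ext m
    rw [hXpow, hφ]
    rfl
  have h2 : (X - 1) ^ (n * (p - 1) + 1) = 0 := by
    ext m
    rw [hYpow, hδ]
    rfl
  have h3 := end_kill p hp n (X - 1) h1 h2
  intro a
  have h4 := congrArg (fun f : AddMonoid.End (Additive A) => f (Additive.ofMul a)) h3
  have h5 : (((p : AddMonoid.End (Additive A)) ^ n * (X - 1)) (Additive.ofMul a))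
      = Additive.ofMul ((φ a * a⁻¹) ^ p ^ n) := by
    have e : (((p : AddMonoid.End (Additive A)) ^ n * (X - 1)) (Additive.ofMul a))
        = ((p ^ n : ℕ) : AddMonoid.End (Additive A)) ((X - 1) (Additive.ofMul a)) := by
      rw [Nat.cast_pow]; rfl
    rw [e, AddMonoid.End.natCast_apply, hY, hX, toMul_ofMul, ← ofMul_div, div_eq_mul_inv,
      ← ofMul_pow]
  have h6 : (φ a * a⁻¹) ^ p ^ n = 1 := by
    have h7 : Additive.ofMul ((φ a * a⁻¹) ^ p ^ n) = (0 : Additive A) := h5.symm.trans h4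
    exact h7
  rw [mul_pow, inv_pow, mul_inv_eq_one] at h6
  rw [map_pow, h6]


theorem group_kill {A : Type*} [Group A] (hcomm : ∀ a b : A, a * b = b * a) (p : ℕ)
    (hp : p.Prime) (n : ℕ) (φ : A →* A) (hφ : ∀ a, φ^[p] a = a)
    (hδ : ∀ a, (fun b : A => φ b * b⁻¹)^[n * (p - 1) + 1] a = 1) :
    ∀ a : A, φ (a ^ p ^ n) = a ^ p ^ n :=
  @comm_group_kill A { (inferInstance : Group A) with mul_comm := hcomm } p hp n φ hφ hδ

open Cfsg Cfsg.FusionSystem

theorem center_aut {P : Type*} [Group P] (γ : MulAut P) {a : P} (ha : a ∈ Subgroup.center P) :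
    γ a ∈ Subgroup.center P := by
  rw [Subgroup.mem_center_iff]
  intro g
  have h2 := Subgroup.mem_center_iff.1 ha (γ⁻¹ g)
  have h3 := congrArg γ h2
  rw [map_mul, map_mul] at h3
  simpa using h3

/-- automorphisms in `A` fixing the `p ^ n`-th powers of the central elements -/
def powStab (p n : ℕ) {P : Type*} [Group P] (A : Subgroup (MulAut P)) : Subgroup A where
  carrier := {β | ∀ a : P, a ∈ Subgroup.center P → (β : MulAut P) (a ^ p ^ n) = a ^ p ^ n}
  mul_mem' := by
    intro β γ hβ hγ a ha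
    show (β : MulAut P) ((γ : MulAut P) (a ^ p ^ n)) = a ^ p ^ n
    rw [hγ a ha, hβ a ha]
  one_mem' := fun a _ => rfl
  inv_mem' := by
    intro β hβ a ha
    show (β : MulAut P)⁻¹ (a ^ p ^ n) = a ^ p ^ n
    have h := hβ a ha
    have h2 : (β : MulAut P)⁻¹ ((β : MulAut P) (a ^ p ^ n)) = a ^ p ^ n := by simp
    rw [h] at h2
    exact h2

theorem powStab_normal (p n : ℕ) {P : Type*} [Group P] (A : Subgroup (MulAut P)) :
    (powStab p n A).Normal := by
  constructor
  intro β hβ g a ha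
  show (g : MulAut P) ((β : MulAut P) ((g : MulAut P)⁻¹ (a ^ p ^ n))) = a ^ p ^ n
  have hc : (g : MulAut P)⁻¹ a ∈ Subgroup.center P := center_aut _ ha
  rw [map_pow, hβ _ hc, ← map_pow]
  simp

/-- Frattini argument for the intersection of a Sylow subgroup with a normal subgroup -/
theorem frattini_inf {G : Type*} [Group G] [Finite G] {p : ℕ} [Fact p.Prime] (R : Sylow p G)
    (K : Subgroup G) [K.Normal] (g : G) :
    ∃ ν κ : G, g = ν * κ ∧ κ ∈ K ∧
      ∀ x, x ∈ (R : Subgroup G) ⊓ K → ν * x * ν⁻¹ ∈ (R : Subgroup G) ⊓ K := by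
  have hpg : IsPGroup p (((R : Subgroup G) ⊓ K).subgroupOf K) :=
    (R.isPGroup'.to_le inf_le_left).comap_subtype
  obtain ⟨P', hP'⟩ := hpg.exists_le_sylow
  have hQ : IsPGroup p ((P' : Subgroup K).map K.subtype) := P'.isPGroup'.map _
  obtain ⟨R', hR'⟩ := hQ.exists_le_sylow
  obtain ⟨h, hh⟩ := MulAction.exists_smul_eq G R' R
  -- conjugation by `h` maps `P'` into `R ⊓ K`
  have hconj : ∀ x : K, x ∈ P' → h * (x : G) * h⁻¹ ∈ (R : Subgroup G) ⊓ K := by
    intro x hx
    refine ⟨?_, ‹K.Normal›.conj_mem _ x.2 h⟩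
    have h1 : (x : G) ∈ (R' : Subgroup G) := hR' ⟨x, hx, rfl⟩
    have h2 : h * (x : G) * h⁻¹ ∈ ((h • R' : Sylow p G) : Subgroup G) := by
      rw [Sylow.coe_subgroup_smul]
      exact Subgroup.smul_mem_pointwise_smul (x : G) (MulAut.conj h) (R' : Subgroup G) h1
    rw [hh] at h2
    exact h2
  have hcard : Nat.card (P' : Subgroup K) ≤ Nat.card (((R : Subgroup G) ⊓ K).subgroupOf K) := by
    rw [Nat.card_congr (Subgroup.subgroupOfEquivOfLe (inf_le_right :
      (R : Subgroup G) ⊓ K ≤ K)).toEquiv]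
    apply Nat.card_le_card_of_injective
      (fun x : (P' : Subgroup K) => (⟨h * ((x : K) : G) * h⁻¹, hconj x x.2⟩ :
        ((R : Subgroup G) ⊓ K : Subgroup G)))
    intro x y hxy
    have h1 : h * ((x : K) : G) * h⁻¹ = h * ((y : K) : G) * h⁻¹ := congrArg Subtype.val hxy
    have h2 : ((x : K) : G) = ((y : K) : G) := by
      have := congrArg (fun t => h⁻¹ * t * h) h1
      simpa [mul_assoc] using this
    exact Subtype.ext (Subtype.ext h2)
  have heq : ((R : Subgroup G) ⊓ K).subgroupOf K = (P' : Subgroup K) :=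
    Subgroup.eq_of_le_of_card_ge hP' hcard
  have hfr := Sylow.normalizer_sup_eq_top P'
  rw [← heq, Subgroup.subgroupOf_map_subtype, inf_assoc, inf_idem] at hfr
  have hg : g ∈ (Subgroup.normalizer (((R : Subgroup G) ⊓ K : Subgroup G) : Set G) ⊔ K :
      Subgroup G) := by
    rw [hfr]; exact Subgroup.mem_top g
  rw [← SetLike.mem_coe, Subgroup.mul_normal] at hg
  obtain ⟨ν, hν, κ, hκ, rfl⟩ := Set.mem_mul.1 hg
  refine ⟨ν, κ, rfl, hκ, fun x hx => ?_⟩
  exact (Subgroup.mem_normalizer_iff.1 hν x).1 hx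

variable {Ω : Type*} [Group Ω] {S : Subgroup Ω}

/-- conjugation by `s ∈ N_S(P)` with `s ^ p ∈ P` fixes the `p ^ n`-th powers of central elements
of `P` when `S` has class at most `n (p - 1) + 1` -/
theorem conj_fix_pow (p : ℕ) (hp : p.Prime) (n : ℕ)
    (hcl : Subgroup.lowerCentralSeries S (n * (p - 1) + 1) = ⊥) {P : Subgroup Ω} (hPS : P ≤ S)
    {s : Ω} (hsS : s ∈ S) (hsN : s ∈ Subgroup.normalizer (P : Set Ω)) (hsp : s ^ p ∈ P)
    (a : P) (ha : a ∈ Subgroup.center P) :
    s * (a : Ω) ^ p ^ n * s⁻¹ = (a : Ω) ^ p ^ n := by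
  have hN : ∀ x ∈ P, s * x * s⁻¹ ∈ P := fun x hx => (Subgroup.mem_normalizer_iff.1 hsN x).1 hx
  have hN' : ∀ x ∈ P, s⁻¹ * x * s ∈ P := fun x hx =>
    (Subgroup.mem_normalizer_iff.1 hsN (s⁻¹ * x * s)).2 (by simpa [mul_assoc] using hx)
  have hcen : ∀ b : P, b ∈ Subgroup.center P →
      (⟨s * (b : Ω) * s⁻¹, hN b b.2⟩ : P) ∈ Subgroup.center P := by
    intro b hb
    rw [Subgroup.mem_center_iff]
    intro g
    apply Subtype.ext
    have h := congrArg Subtype.val (Subgroup.mem_center_iff.1 hb ⟨s⁻¹ * g * s, hN' g g.2⟩)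
    have h' : s⁻¹ * (g : Ω) * s * (b : Ω) = (b : Ω) * (s⁻¹ * (g : Ω) * s) := h
    show (g : Ω) * (s * (b : Ω) * s⁻¹) = s * (b : Ω) * s⁻¹ * (g : Ω)
    calc (g : Ω) * (s * (b : Ω) * s⁻¹) = s * (s⁻¹ * (g : Ω) * s * (b : Ω)) * s⁻¹ := by group
      _ = s * ((b : Ω) * (s⁻¹ * (g : Ω) * s)) * s⁻¹ := by rw [h']
      _ = s * (b : Ω) * s⁻¹ * (g : Ω) := by group
  obtain ⟨φ, hφ⟩ : ∃ φ : Subgroup.center P →* Subgroup.center P,
      ∀ b : Subgroup.center P, (((φ b : Subgroup.center P) : P) : Ω) = s * ((b : P) : Ω) * s⁻¹ :=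
    ⟨MonoidHom.mk' (fun b => ⟨⟨s * ((b : P) : Ω) * s⁻¹, hN _ (b : P).2⟩, hcen _ b.2⟩)
      (fun b b' => by
        apply Subtype.ext
        apply Subtype.ext
        show s * (((b : P) : Ω) * ((b' : P) : Ω)) * s⁻¹
          = (s * ((b : P) : Ω) * s⁻¹) * (s * ((b' : P) : Ω) * s⁻¹)
        group), fun b => rfl⟩
  have hiter : ∀ (k : ℕ) (b : Subgroup.center P),
      (((φ^[k] b : Subgroup.center P) : P) : Ω) = s ^ k * ((b : P) : Ω) * (s ^ k)⁻¹ := by
    intro k
    induction k with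
    | zero => intro b; simp
    | succ k ih =>
      intro b
      rw [Function.iterate_succ_apply', hφ, ih, pow_succ']
      group
  have hφp : ∀ b, φ^[p] b = b := by
    intro b
    apply Subtype.ext
    apply Subtype.ext
    rw [hiter]
    have h := congrArg Subtype.val (Subgroup.mem_center_iff.1 b.2 ⟨s ^ p, hsp⟩)
    have h' : s ^ p * ((b : P) : Ω) = ((b : P) : Ω) * s ^ p := h
    rw [h']; group
  have hlcs : ∀ (k : ℕ) (b : Subgroup.center P),
      ((((fun b : Subgroup.center P => φ b * b⁻¹)^[k] b : Subgroup.center P) : P) : Ω)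
        ∈ Subgroup.lowerCentralSeries S k := by
    intro k
    induction k with
    | zero =>
      intro b
      rw [Subgroup.lowerCentralSeries_zero]
      exact hPS (b : P).2
    | succ k ih =>
      intro b
      rw [Function.iterate_succ_apply', Subgroup.lowerCentralSeries_succ]
      obtain ⟨u, hu⟩ : ∃ u : Subgroup.center P,
          u = (fun b : Subgroup.center P => φ b * b⁻¹)^[k] b := ⟨_, rfl⟩
      rw [← hu]
      have hu' : ((u : P) : Ω) ∈ Subgroup.lowerCentralSeries S k := by rw [hu]; exact ih b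
      have h1 := Subgroup.commutator_mem_commutator hu' hsS
      have h2 := Subgroup.inv_mem _ h1
      rw [commutatorElement_def] at h2
      have e : (((φ u * u⁻¹ : Subgroup.center P) : P) : Ω)
          = (((u : P) : Ω) * s * (((u : P) : Ω))⁻¹ * s⁻¹)⁻¹ := by
        show (((φ u : Subgroup.center P) : P) : Ω) * (((u : P) : Ω))⁻¹ = _
        rw [hφ]
        group
      rw [e]
      exact h2
  have hδ : ∀ b, (fun b : Subgroup.center P => φ b * b⁻¹)^[n * (p - 1) + 1] b = 1 := by
    intro b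
    have h := hlcs (n * (p - 1) + 1) b
    rw [hcl, Subgroup.mem_bot] at h
    apply Subtype.ext
    apply Subtype.ext
    exact h
  have h := group_kill (A := Subgroup.center P)
    (fun x y => Subtype.ext (Subgroup.mem_center_iff.1 y.2 (x : P))) p hp n φ hφp hδ ⟨a, ha⟩
  have h2 := congrArg (fun t : Subgroup.center P => ((t : P) : Ω)) h
  have h3 : (((φ (⟨a, ha⟩ ^ p ^ n) : Subgroup.center P) : P) : Ω)
      = s * (a : Ω) ^ p ^ n * s⁻¹ := by
    rw [hφ]; rfl
  rw [← h3]
  exact h2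

theorem agemo_normal [Finite S] (p : ℕ) [Fact p.Prime] (hS : IsPGroup p S) (F : FusionSystem S)
    (hF : F.IsSaturated p) (n : ℕ)
    (hcl : Subgroup.lowerCentralSeries S (n * (p - 1) + 1) = ⊥) :
    F.IsNormal (Cfsg.powerClosure p n (S ⊓ Subgroup.centralizer (S : Set Ω))) := by
  classical
  have hp := (Fact.out : p.Prime)
  obtain ⟨Z, hZ⟩ : ∃ Z, Z = S ⊓ Subgroup.centralizer (S : Set Ω) := ⟨_, rfl⟩
  obtain ⟨V, hV⟩ : ∃ V, V = Cfsg.powerClosure p n Z := ⟨_, rfl⟩
  rw [← hZ, ← hV]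
  have hZS : Z ≤ S := hZ ▸ inf_le_left
  have hZc : ∀ z ∈ Z, ∀ x ∈ S, x * z = z * x := by
    intro z hz x hx
    rw [hZ] at hz
    exact Subgroup.mem_centralizer_iff.1 hz.2 x hx
  have hgen : ∀ z ∈ Z, z ^ p ^ n ∈ V := by
    intro z hz
    rw [hV]
    exact Subgroup.subset_closure ⟨z, hz, rfl⟩
  have hVZ : V ≤ Z := by
    rw [hV]
    unfold Cfsg.powerClosure
    rw [Subgroup.closure_le]
    rintro _ ⟨x, hx, rfl⟩
    exact Z.pow_mem hx _
  have hVS : V ≤ S := hVZ.trans hZS
  have hclos : ∀ (P : Subgroup Ω) (φ : P →* Ω),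
      (∀ z ∈ Z, ∃ hzP : z ^ p ^ n ∈ P, φ ⟨z ^ p ^ n, hzP⟩ ∈ V) →
      ∀ (v : Ω) (_ : v ∈ V) (hvP : v ∈ P), φ ⟨v, hvP⟩ ∈ V := by
    intro P φ hgenφ v hv hvP
    have hle : Cfsg.powerClosure p n Z ≤ (V.comap φ).map P.subtype := by
      unfold Cfsg.powerClosure
      rw [Subgroup.closure_le]
      rintro _ ⟨z, hz, rfl⟩
      obtain ⟨hzP, h1⟩ := hgenφ z hz
      exact ⟨⟨_, hzP⟩, h1, rfl⟩
    have hv' : v ∈ Cfsg.powerClosure p n Z := by rw [← hV]; exact hv
    obtain ⟨x, hx, hxv⟩ := hle hv'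
    have e : x = ⟨v, hvP⟩ := Subtype.ext hxv
    rw [← e]
    exact hx
  have hZP : ∀ P : Subgroup Ω, (P = S ∨ F.IsEssential p P) → Z ≤ P := by
    intro P hP
    rcases hP with rfl | hP
    · exact hZS
    · intro z hz
      have hPS : P ≤ S := hP.2.1.1
      apply hP.1.2 P (Cfsg.Agent.Lib.helper26.isConj_refl F hPS)
      rw [hZ] at hz
      exact ⟨hz.1, Subgroup.centralizer_le (SetLike.coe_subset_coe.2 hPS) hz.2⟩
  have main : ∀ (k : ℕ) (P : Subgroup Ω), (P = S ∨ F.IsEssential p P) →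
      Nat.card S - Nat.card P = k → ∀ α : MulAut P, α ∈ F.autGroup P →
      ∀ (v : Ω) (_ : v ∈ V) (hvP : v ∈ P), ((α ⟨v, hvP⟩ : P) : Ω) ∈ V := by
    intro k
    induction k using Nat.strong_induction_on with
    | _ k IH =>
    intro P hP hk α hα
    have hPS : P ≤ S := by
      rcases hP with rfl | hP
      · exact le_rfl
      · exact hP.2.1.1
    have hfinP : Finite P := Cfsg.Agent.Lib.helper26.finite_of_le hPS
    have hZP' := hZP P hP
    have hzcen : ∀ z (hz : z ∈ Z), (⟨z, hZP' hz⟩ : P) ∈ Subgroup.center P := by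
      intro z hz
      rw [Subgroup.mem_center_iff]
      intro g
      exact Subtype.ext (hZc z hz g (hPS g.2))
    by_cases hPeq : P = S
    · -- automorphisms of `S`
      apply hclos P (P.subtype.comp α.toMonoidHom)
      intro z hz
      refine ⟨P.pow_mem (hZP' hz) _, ?_⟩
      have hαz : ((α ⟨z, hZP' hz⟩ : P) : Ω) ∈ Z := by
        rw [hZ]
        refine ⟨hPS (α _).2, ?_⟩
        show _ ∈ Subgroup.centralizer (S : Set Ω)
        rw [Subgroup.mem_centralizer_iff]
        intro x hx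
        have hxP : x ∈ P := by rw [hPeq]; exact hx
        have h1 := Subgroup.mem_center_iff.1 (center_aut α (hzcen z hz)) ⟨x, hxP⟩
        exact congrArg Subtype.val h1
      have e : (P.subtype.comp α.toMonoidHom) ⟨z ^ p ^ n, P.pow_mem (hZP' hz) _⟩
          = ((α ⟨z, hZP' hz⟩ : P) : Ω) ^ p ^ n := by
        have e1 : (⟨z ^ p ^ n, P.pow_mem (hZP' hz) _⟩ : P) = ⟨z, hZP' hz⟩ ^ p ^ n := rfl
        rw [e1]
        show ((α (⟨z, hZP' hz⟩ ^ p ^ n) : P) : Ω) = _
        rw [map_pow]; rfl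
      rw [e]
      exact hgen _ hαz
    · -- essential subgroups
      have hess : F.IsEssential p P := hP.resolve_left hPeq
      have hcen := hess.1
      have hfn := hess.2.1
      obtain ⟨-, R, hR⟩ := Cfsg.Agent.Lib.helper26.fullyAutomized_of_fullyNormalized hS F hF hfn
      have hrec := Cfsg.Agent.Lib.helper26.receptive_of_fullyNormalized hS F hF hfn
      haveI : Finite (F.autGroup P) := inferInstance
      haveI := powStab_normal p n (F.autGroup P)
      -- an element `s ∈ N_S(P) \ P` with `s ^ p ∈ P`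
      obtain ⟨g₀, hg₀N, hg₀P⟩ := Cfsg.Agent.Lib.helper26.exists_normalizerIn_not_mem hS hPS hPeq
      obtain ⟨m, hm⟩ := IsPGroup.iff_card.1 hS
      have hex : ∃ j : ℕ, g₀ ^ p ^ j ∈ P := by
        refine ⟨m, ?_⟩
        have h1 : (⟨g₀, hg₀N.1⟩ : S) ^ Nat.card S = 1 := pow_card_eq_one'
        rw [hm] at h1
        have h2 : g₀ ^ p ^ m = 1 := congrArg Subtype.val h1
        rw [h2]; exact P.one_mem
      obtain ⟨j, hj⟩ : ∃ j, j = Nat.find hex := ⟨_, rfl⟩
      have hjspec : g₀ ^ p ^ j ∈ P := by rw [hj]; exact Nat.find_spec hex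
      have hj0 : j ≠ 0 := by
        intro h0
        rw [h0, pow_zero, pow_one] at hjspec
        exact hg₀P hjspec
      obtain ⟨s, hs⟩ : ∃ s, s = g₀ ^ p ^ (j - 1) := ⟨_, rfl⟩
      have hsP : s ∉ P := by
        rw [hs]
        have hlt : j - 1 < Nat.find hex := by rw [← hj]; omega
        exact Nat.find_min hex hlt
      have hsp : s ^ p ∈ P := by
        rw [hs, ← pow_mul, ← pow_succ]
        have e : j - 1 + 1 = j := by omega
        rw [e]; exact hjspec
      have hsN : s ∈ normalizerIn S P := by rw [hs]; exact Subgroup.pow_mem _ hg₀N _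
      -- `c_s` lies in `R ⊓ K`
      have hctA : Cfsg.Agent.Lib.helper26.conjAut S P ⟨s, hsN⟩ ∈ F.autGroup P :=
        Cfsg.Agent.Lib.helper26.autInducedBy_le_autGroup F hPS
          (Cfsg.Agent.Lib.helper26.conjAut_mem_autInducedBy S P ⟨s, hsN⟩)
      have hcsR : (⟨_, hctA⟩ : F.autGroup P) ∈ (R : Subgroup (F.autGroup P)) := by
        rw [hR, Subgroup.mem_subgroupOf]
        exact Cfsg.Agent.Lib.helper26.conjAut_mem_autInducedBy S P ⟨s, hsN⟩
      have hcsK : (⟨_, hctA⟩ : F.autGroup P) ∈ powStab p n (F.autGroup P) := by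
        intro a ha
        apply Subtype.ext
        show s * ((a ^ p ^ n : P) : Ω) * s⁻¹ = ((a ^ p ^ n : P) : Ω)
        exact conj_fix_pow p hp n hcl hPS hsN.1 hsN.2 hsp a ha
      -- Frattini decomposition of `α`
      obtain ⟨ν, κ, hνκ, hκ, hν⟩ := frattini_inf R (powStab p n (F.autGroup P)) ⟨α, hα⟩
      have hνcs : ν * ⟨_, hctA⟩ * ν⁻¹ ∈ (R : Subgroup (F.autGroup P)) := (hν _ ⟨hcsR, hcsK⟩).1
      rw [hR, Subgroup.mem_subgroupOf] at hνcs
      obtain ⟨h, hhS, hh⟩ := (Cfsg.Agent.Lib.helper26.mem_autInducedBy_iff _ _ _).1 hνcs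
      -- extend `ν`
      have hφν : P.subtype.comp (ν : MulAut P).toMonoidHom ∈ F.Hom P :=
        (Cfsg.Agent.Lib.helper26.mem_autGroup_iff F hPS _).1 ν.2
      have hrange : (P.subtype.comp (ν : MulAut P).toMonoidHom).range = P := by
        ext y
        constructor
        · rintro ⟨x, rfl⟩
          exact ((ν : MulAut P) x).2
        · intro hy
          exact ⟨(ν : MulAut P).symm ⟨y, hy⟩, by simp⟩
      obtain ⟨ψ, hψ, hψx⟩ := hrec.2 P _ hφν hrange
      have hsext : s ∈ extender S P (P.subtype.comp (ν : MulAut P).toMonoidHom) := by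
        refine Cfsg.Agent.Lib.helper26.mem_extender_of hsN.1 hsN.2 h hhS (fun x hx => ?_)
        have h1 := hh ((ν : MulAut P) x)
        have h2 : ((ν * ⟨_, hctA⟩ * ν⁻¹ : F.autGroup P) : MulAut P) ((ν : MulAut P) x)
            = (ν : MulAut P) (Cfsg.Agent.Lib.helper26.conjAut S P ⟨s, hsN⟩ x) := by
          show (ν : MulAut P) (Cfsg.Agent.Lib.helper26.conjAut S P ⟨s, hsN⟩
            ((ν : MulAut P)⁻¹ ((ν : MulAut P) x))) = _
          simp
        rw [h2] at h1
        have e : (⟨s * (x : Ω) * s⁻¹, hx⟩ : P) = Cfsg.Agent.Lib.helper26.conjAut S P ⟨s, hsN⟩ x :=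
          Subtype.ext rfl
        rw [e]
        exact h1
      have hPext : P ≤ extender S P (P.subtype.comp (ν : MulAut P).toMonoidHom) :=
        Cfsg.Agent.Lib.helper26.le_extender hPS (fun x => hPS ((ν : MulAut P) x).2)
      have hextS : extender S P (P.subtype.comp (ν : MulAut P).toMonoidHom) ≤ S :=
        (Cfsg.Agent.Lib.helper26.extender_le _ _).trans inf_le_left
      have hfinE : Finite (extender S P (P.subtype.comp (ν : MulAut P).toMonoidHom)) :=
        Cfsg.Agent.Lib.helper26.finite_of_le hextS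
      have hlt : Nat.card P < Nat.card (extender S P (P.subtype.comp (ν : MulAut P).toMonoidHom)) := by
        by_contra hcon
        have := Subgroup.eq_of_le_of_card_ge hPext (not_lt.1 hcon)
        rw [← this] at hsext
        exact hsP hsext
      have hcardPS : Nat.card P ≤ Nat.card S := Subgroup.card_le_of_le hPS
      have hPr := Cfsg.Agent.Lib.helper25.alperin_goldschmidt_induction hS F hF
        (fun U φ => Nat.card P < Nat.card U → ∀ (v : Ω) (_ : v ∈ V) (hvU : v ∈ U), φ ⟨v, hvU⟩ ∈ V)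
        (by
          intro U V' φ hUV hφ hPr hcard v hv hvU
          have hfinV' : Finite V' := Cfsg.Agent.Lib.helper26.finite_of_le (F.le_of_mem hφ).1
          exact hPr (hcard.trans_le (Subgroup.card_le_of_le hUV)) v hv (hUV hvU))
        (by
          intro U V' φ ψ' hval hφ hψ' hPrφ hPrψ hcard v hv hvU
          have hfinV' : Finite V' := Cfsg.Agent.Lib.helper26.finite_of_le (F.le_of_mem hψ').1
          have h1 := hPrφ hcard v hv hvU
          have hinj : Function.Injective (φ.codRestrict V' hval) := by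
            intro x y hxy
            exact F.injective_of_mem hφ (congrArg Subtype.val hxy)
          have hcard' : Nat.card P < Nat.card V' :=
            hcard.trans_le (Nat.card_le_card_of_injective _ hinj)
          exact hPrψ hcard' _ h1 (hval _))
        (by
          intro W hW α' hα' hcard v hv hvW
          have hWS : W ≤ S := (F.le_of_mem hα').1
          have hcardWS : Nat.card W ≤ Nat.card S := Subgroup.card_le_of_le hWS
          exact IH (Nat.card S - Nat.card W) (by omega) W hW rfl α'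
            ((Cfsg.Agent.Lib.helper26.mem_autGroup_iff F hWS α').2 hα') v hv hvW)
        _ ψ hψ hlt
      -- `ν` preserves `V`
      have hνV : ∀ (v : Ω) (_ : v ∈ V) (hvP : v ∈ P), (((ν : MulAut P) ⟨v, hvP⟩ : P) : Ω) ∈ V := by
        intro v hv hvP
        have h1 := hPr v hv (hPext hvP)
        rw [hψx v hvP (hPext hvP)] at h1
        exact h1
      apply hclos P (P.subtype.comp α.toMonoidHom)
      intro z hz
      refine ⟨P.pow_mem (hZP' hz) _, ?_⟩
      have hα' : α = (ν : MulAut P) * (κ : MulAut P) := congrArg Subtype.val hνκ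
      have e1 : (⟨z ^ p ^ n, P.pow_mem (hZP' hz) _⟩ : P) = ⟨z, hZP' hz⟩ ^ p ^ n := rfl
      have e2 : (κ : MulAut P) (⟨z, hZP' hz⟩ ^ p ^ n) = ⟨z, hZP' hz⟩ ^ p ^ n :=
        hκ _ (hzcen z hz)
      show ((α ⟨z ^ p ^ n, _⟩ : P) : Ω) ∈ V
      rw [hα', e1]
      show (((ν : MulAut P) ((κ : MulAut P) (⟨z, hZP' hz⟩ ^ p ^ n)) : P) : Ω) ∈ V
      rw [e2]
      exact hνV _ (hgen z hz) _
  apply Cfsg.Agent.Lib.helper25.isNormal_of_essential_invariant hS F hF
  intro P hP
  have hVP : V ≤ P := hVZ.trans (hZP P hP)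
  refine ⟨hVP, fun α hα => ?_⟩
  ext y
  constructor
  · rintro ⟨x, hx, rfl⟩
    have hx' : (x : Ω) ∈ V := Subgroup.mem_subgroupOf.1 hx
    exact Subgroup.mem_subgroupOf.2 (main _ P hP rfl α hα x hx' x.2)
  · intro hy
    have hy' : (y : Ω) ∈ V := Subgroup.mem_subgroupOf.1 hy
    refine ⟨α⁻¹ y, ?_, by simp⟩
    exact Subgroup.mem_subgroupOf.2 (main _ P hP rfl α⁻¹ (Subgroup.inv_mem _ hα) y hy' y.2)

end aux18

/-- Let p be a prime, n a natural number, S a nontrivial finite p-group of nilpotence class at most n(p−1)+1, and F a saturated fusion system over S. Then the subgroup generated by the pⁿ-th powers of the elements of Z(S) is normal in F. -/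
theorem result {Ω : Type*} [Group Ω] {S : Subgroup Ω} [Finite S] (p : ℕ) [Fact p.Prime] (hS : IsPGroup p S) (F : Cfsg.FusionSystem S) (hF : F.IsSaturated p) (n : ℕ) (hS1 : S ≠ ⊥) (hcl : Subgroup.lowerCentralSeries S (n * (p - 1) + 1) = ⊥) : F.IsNormal (Cfsg.powerClosure p n (S ⊓ Subgroup.centralizer (S : Set Ω))) := by
  exact agemo_normal p hS F hF n hcl

end Cfsg.Agent.S5218
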