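import Cfsg.Statements.S5219
-- import your own Cfsg.Agent.* helpers here
import Cfsg.Agent.S5218

set_option autoImplicit false
open Cfsg

namespace Cfsg.Agent.S5219

section aux19

open Cfsg Cfsg.FusionSystem

theorem ucs_pow {G : Type*} [Group G] (N : ℕ) (hZ : ∀ z ∈ Subgroup.center G, z ^ N = 1) :
    ∀ (i : ℕ) (x : G), x ∈ Subgroup.upperCentralSeries G (i + 1) →
      x ^ N ∈ Subgroup.upperCentralSeries G i := by
  intro i
  induction i with
  | zero =>
    intro x hx
    rw [zero_add, Subgroup.upperCentralSeries_one] at hx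
    rw [hZ x hx]
    exact Subgroup.one_mem _
  | succ i ih =>
    intro x hx
    rw [Subgroup.mem_upperCentralSeries_succ_iff] at hx ⊢
    intro s
    have hc := hx s
    have hcN := ih _ hc
    have hc' := Subgroup.mem_upperCentralSeries_succ_iff.1 hc
    simp only [commutatorElement_def] at hc hcN hc' ⊢
    obtain ⟨c, hcdef⟩ : ∃ c, c = x * s * x⁻¹ * s⁻¹ := ⟨_, rfl⟩
    rw [← hcdef] at hc hcN hc'
    obtain ⟨π, hπ⟩ : ∃ π : G →* G ⧸ Subgroup.upperCentralSeries G i,
        π = QuotientGroup.mk' (Subgroup.upperCentralSeries G i) := ⟨_, rfl⟩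
    have hker : ∀ g : G, π g = 1 ↔ g ∈ Subgroup.upperCentralSeries G i := by
      intro g
      rw [hπ]
      exact QuotientGroup.eq_one_iff g
    have hsurj : Function.Surjective π := by
      rw [hπ]; exact QuotientGroup.mk'_surjective _
    have hC : ∀ q : G ⧸ Subgroup.upperCentralSeries G i, q * π c = π c * q := by
      intro q
      obtain ⟨g, rfl⟩ := hsurj q
      have h1 := (hker _).2 (hc' g)
      rw [map_mul, map_mul, map_mul, map_inv, map_inv] at h1
      have h2 : π c * π g = π g * π c := by
        calc π c * π g = (π c * π g * (π c)⁻¹ * (π g)⁻¹) * (π g * π c) := by group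
          _ = π g * π c := by rw [h1, one_mul]
      exact h2.symm
    have hxs : π x * π s * (π x)⁻¹ = π c * π s := by
      rw [hcdef, map_mul, map_mul, map_mul, map_inv, map_inv]
      group
    have hpow : ∀ m : ℕ, π x ^ m * π s * (π x ^ m)⁻¹ = π c ^ m * π s := by
      intro m
      induction m with
      | zero => simp
      | succ m ihm =>
        calc π x ^ (m + 1) * π s * (π x ^ (m + 1))⁻¹
            = π x * (π x ^ m * π s * (π x ^ m)⁻¹) * (π x)⁻¹ := by rw [pow_succ']; group
          _ = π x * (π c ^ m * π s) * (π x)⁻¹ := by rw [ihm]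
          _ = (π x * π c ^ m) * π s * (π x)⁻¹ := by group
          _ = (π c ^ m * π x) * π s * (π x)⁻¹ := by
              have h3 : π x * π c ^ m = π c ^ m * π x := by
                induction m with
                | zero => simp
                | succ m' ih' =>
                  have h4 : π x * π c ^ m' = π c ^ m' * π x := by
                    clear ih' ihm
                    induction m' with
                    | zero => simp
                    | succ m'' ih'' =>
                      rw [pow_succ, ← mul_assoc, ih'', mul_assoc, hC (π x), ← mul_assoc]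
                  rw [pow_succ, ← mul_assoc, h4, mul_assoc, hC (π x), ← mul_assoc]
              rw [h3]
          _ = π c ^ m * (π x * π s * (π x)⁻¹) := by group
          _ = π c ^ (m + 1) * π s := by rw [hxs, pow_succ]; group
    apply (hker _).1
    rw [map_mul, map_mul, map_mul, map_inv, map_inv, map_pow, hpow N, ← map_pow, (hker _).2 hcN]
    group

theorem ucs_pow_iter {G : Type*} [Group G] (q n : ℕ)
    (hZ : ∀ z ∈ Subgroup.center G, z ^ q ^ n = 1) :
    ∀ (j i : ℕ) (x : G), x ∈ Subgroup.upperCentralSeries G (i + j) →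
      x ^ q ^ (n * j) ∈ Subgroup.upperCentralSeries G i := by
  intro j
  induction j with
  | zero =>
    intro i x hx
    simpa using hx
  | succ j ih =>
    intro i x hx
    have h1 := ucs_pow (q ^ n) hZ (i + j) x hx
    have h2 := ih i _ h1
    have e : q ^ (n * (j + 1)) = q ^ n * q ^ (n * j) := by
      rw [← pow_add]; congr 1; ring
    rw [e, pow_mul]
    exact h2

theorem lcs_le_ucs {Ω : Type*} [Group Ω] (S : Subgroup Ω) (c : ℕ)
    (hcl : Subgroup.lowerCentralSeries S c = ⊥) :
    ∀ (j k : ℕ), k + j = c → ∀ x : S, (x : Ω) ∈ Subgroup.lowerCentralSeries S k →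
      x ∈ Subgroup.upperCentralSeries S j := by
  intro j
  induction j with
  | zero =>
    intro k hk x hx
    have hkc : k = c := by omega
    rw [hkc, hcl, Subgroup.mem_bot] at hx
    have : x = 1 := Subtype.ext hx
    rw [this]
    exact Subgroup.one_mem _
  | succ j ih =>
    intro k hk x hx
    rw [Subgroup.mem_upperCentralSeries_succ_iff]
    intro y
    apply ih (k + 1) (by omega)
    rw [Subgroup.lowerCentralSeries_succ]
    have h1 := Subgroup.commutator_mem_commutator hx y.2
    rw [commutatorElement_def] at h1 ⊢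
    exact h1

end aux19

/-- Let p be a prime, n a natural number, S a nontrivial finite p-group of nilpotence class at most n(p−1)+1, and F a saturated fusion system over S with no nontrivial normal subgroup (O_p(F) = 1). Then S has exponent dividing p^(n²(p−1)+n). -/
theorem result {Ω : Type*} [Group Ω] {S : Subgroup Ω} [Finite S] (p : ℕ) [Fact p.Prime] (hS : IsPGroup p S) (F : Cfsg.FusionSystem S) (hF : F.IsSaturated p) (n : ℕ) (hS1 : S ≠ ⊥) (hcl : Subgroup.lowerCentralSeries S (n * (p - 1) + 1) = ⊥) (hcore : F.core = ⊥) : Monoid.exponent ↥S ∣ p ^ (n ^ 2 * (p - 1) + n) := by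
  have hV := Cfsg.Agent.S5218.agemo_normal p hS F hF n hcl
  have hVbot : Cfsg.powerClosure p n (S ⊓ Subgroup.centralizer (S : Set Ω)) = ⊥ := by
    apply le_antisymm _ bot_le
    rw [← hcore]
    exact le_sSup hV
  have hZ : ∀ z ∈ Subgroup.center S, z ^ p ^ n = 1 := by
    intro z hz
    have h1 : ((z : Ω)) ^ p ^ n ∈ Cfsg.powerClosure p n (S ⊓ Subgroup.centralizer (S : Set Ω)) := by
      apply Subgroup.subset_closure
      refine ⟨z, ⟨z.2, ?_⟩, rfl⟩
      show (z : Ω) ∈ Subgroup.centralizer (S : Set Ω)
      rw [Subgroup.mem_centralizer_iff]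
      intro h hh
      exact congrArg Subtype.val (Subgroup.mem_center_iff.1 hz ⟨h, hh⟩)
    rw [hVbot, Subgroup.mem_bot] at h1
    exact Subtype.ext h1
  apply Monoid.exponent_dvd_of_forall_pow_eq_one
  intro x
  have hx : x ∈ Subgroup.upperCentralSeries S (n * (p - 1) + 1) := by
    apply lcs_le_ucs S (n * (p - 1) + 1) hcl (n * (p - 1) + 1) 0 (by omega) x
    rw [Subgroup.lowerCentralSeries_zero]
    exact x.2
  have h2 := ucs_pow_iter p n hZ (n * (p - 1) + 1) 0 x (by rw [zero_add]; exact hx)
  rw [Subgroup.upperCentralSeries_zero, Subgroup.mem_bot] at h2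
  have e : n ^ 2 * (p - 1) + n = n * (n * (p - 1) + 1) := by ring
  rw [e]
  exact h2

end Cfsg.Agent.S5219
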