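import Cfsg.Statements.S5222
-- import your own Cfsg.Agent.* helpers here
import Cfsg.Agent.Lib.helper26.TateAux3
import Cfsg.Agent.Lib.helper26.Small
import Cfsg.Agent.Lib.helper25.ModelCore
import Cfsg.Agent.Lib.helper25.FusionStab

set_option autoImplicit false
open Cfsg

namespace Cfsg.Agent.S5222

section

open Cfsg.Agent.Lib.helper26 Cfsg Cfsg.FusionSystem
open scoped commutatorElement

variable {Ω : Type*} [Group Ω] {S : Subgroup Ω}

/-- a subgroup of `S` containing the derived subgroup is normalized by `S` -/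
theorem normalizer_of_comm_le {R : Subgroup Ω} (h1 : (commutator ↥S).map S.subtype ≤ R)
    (hRS : R ≤ S) : S ≤ Subgroup.normalizer (R : Set Ω) := by
  have key : ∀ g ∈ S, ∀ y ∈ R, g * y * g⁻¹ ∈ R := by
    intro g hg y hy
    have hc : g * y * g⁻¹ * y⁻¹ ∈ R := by
      apply h1
      refine ⟨⁅(⟨g, hg⟩ : S), ⟨y, hRS hy⟩⁆, ?_, ?_⟩
      · rw [commutator_def]
        exact Subgroup.commutator_mem_commutator (Subgroup.mem_top _) (Subgroup.mem_top _)
      · rw [commutatorElement_def]; rfl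
    have h : g * y * g⁻¹ = (g * y * g⁻¹ * y⁻¹) * y := by group
    rw [h]
    exact R.mul_mem hc hy
  intro g hg
  apply mem_normalizer_of_two_sided (key g hg)
  intro y hy
  have h := key g⁻¹ (S.inv_mem hg) y hy
  rwa [inv_inv] at h

/-- a map of the system from `V` into `V` is an automorphism of the system -/
theorem exists_aut_of_hom_self [Finite S] (F : FusionSystem S) {V : Subgroup Ω} (hV : V ≤ S)
    (ψ : V →* Ω) (hψ : ψ ∈ F.Hom V) (hmap : ∀ x : V, ψ x ∈ V) :
    ∃ γ : MulAut V, γ ∈ F.autGroup V ∧ ∀ x : V, ((γ x : V) : Ω) = ψ x := by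
  haveI : Finite V := finite_of_le hV
  have hinj : Function.Injective (ψ.codRestrict V hmap) := by
    intro a b hab
    exact F.injective_of_mem hψ (congrArg Subtype.val hab)
  have hbij : Function.Bijective (ψ.codRestrict V hmap) := Finite.injective_iff_bijective.1 hinj
  refine ⟨MulEquiv.ofBijective _ hbij, ?_, fun x => rfl⟩
  rw [mem_autGroup_iff F hV]
  have h : V.subtype.comp (MulEquiv.ofBijective _ hbij).toMonoidHom = ψ := by
    ext x; rfl
  rw [h]
  exact hψ

theorem pow_restrict {W V : Subgroup Ω} (hWV : W ≤ V) (γ : MulAut W) (γ' : MulAut V)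
    (h : ∀ x : W, ((γ' (Subgroup.inclusion hWV x) : V) : Ω) = γ x) (j : ℕ) :
    ∀ x : W, (((γ' ^ j) (Subgroup.inclusion hWV x) : V) : Ω) = (γ ^ j) x := by
  induction j with
  | zero => intro x; rfl
  | succ j ih =>
    intro x
    rw [pow_succ, pow_succ, MulAut.mul_apply, MulAut.mul_apply]
    have h1 : γ' (Subgroup.inclusion hWV x) = Subgroup.inclusion hWV (γ x) := Subtype.ext (h x)
    rw [h1, ih]

theorem pow_eq_one_restrict {W V : Subgroup Ω} (hWV : W ≤ V) (γ : MulAut W) (γ' : MulAut V)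
    (h : ∀ x : W, ((γ' (Subgroup.inclusion hWV x) : V) : Ω) = γ x) (j : ℕ) (hj : γ' ^ j = 1) :
    γ ^ j = 1 := by
  apply MulEquiv.ext
  intro x
  apply Subtype.ext
  rw [← pow_restrict hWV γ γ' h j x, hj]
  rfl

/-- conjugation action of `S` on a subgroup it normalizes -/
noncomputable def conjS (S R : Subgroup Ω) (hRn : S ≤ Subgroup.normalizer (R : Set Ω)) :
    S →* MulAut R :=
  (conjAut S R).comp (Subgroup.inclusion (fun _ hg => ⟨hg, hRn hg⟩ : S ≤ normalizerIn S R))

theorem conjS_apply (S R : Subgroup Ω) (hRn : S ≤ Subgroup.normalizer (R : Set Ω)) (g : S)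
    (x : R) : ((conjS S R hRn g x : R) : Ω) = g * x * (g : Ω)⁻¹ := rfl

theorem conjS_conj (S R : Subgroup Ω) (hRn : S ≤ Subgroup.normalizer (R : Set Ω)) (hRS : R ≤ S)
    (a : MulAut R) (r : R) :
    a * conjS S R hRn (Subgroup.inclusion hRS r) * a⁻¹
      = conjS S R hRn (Subgroup.inclusion hRS (a r)) := by
  apply MulEquiv.ext
  intro x
  have h1 : ∀ (s y : R), conjS S R hRn (Subgroup.inclusion hRS s) y = s * y * s⁻¹ :=
    fun s y => Subtype.ext rfl
  rw [MulAut.mul_apply, MulAut.mul_apply, h1, h1, map_mul, map_mul, MulAut.apply_inv_self,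
    map_inv]

theorem range_conjS (S R : Subgroup Ω) (hRn : S ≤ Subgroup.normalizer (R : Set Ω)) :
    (conjS S R hRn).range = autInducedBy S R := by
  ext a
  rw [mem_autInducedBy_iff_conjAut]
  constructor
  · rintro ⟨g, rfl⟩
    exact ⟨_, rfl⟩
  · rintro ⟨g, rfl⟩
    exact ⟨⟨g.1, g.2.1⟩, rfl⟩

theorem tate_fpf [Finite S] {p : ℕ} [Fact p.Prime]
    (N : FusionSystem S) {R : Subgroup Ω} (hRS : R ≤ S)
    (hRn : S ≤ Subgroup.normalizer (R : Set Ω)) (hrec : N.IsReceptive R)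
    (hind : ∀ V : Subgroup Ω, R ≤ V → V ≤ S → V ≠ R → IsPGroup p (N.autGroup V))
    (β : MulAut R) (hβ : β ∈ N.autGroup R) (m : ℕ) (hm : m.Coprime p) (hβm : β ^ m = 1)
    (hβ1 : β ≠ 1) (g₀ : S)
    (hall : ∀ i : ℕ, β ^ i * conjS S R hRn g₀ * (β ^ i)⁻¹ ∈ (conjS S R hRn).range) :
    (g₀ : Ω) ∈ R := by
  by_contra hg₀R
  let NB : Subgroup S := ⨅ i : ℕ, (conjS S R hRn).range.comap
    ((MulAut.conj (β ^ i)).toMonoidHom.comp (conjS S R hRn))
  have hNB : ∀ g : S, g ∈ NB ↔
      ∀ i : ℕ, β ^ i * conjS S R hRn g * (β ^ i)⁻¹ ∈ (conjS S R hRn).range := by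
    intro g
    simp only [NB, Subgroup.mem_iInf, Subgroup.mem_comap]
    rfl
  let V : Subgroup Ω := NB.map S.subtype
  have hVS : V ≤ S := by
    rintro _ ⟨g, -, rfl⟩
    exact g.2
  have hRV : R ≤ V := by
    intro r hr
    refine ⟨⟨r, hRS hr⟩, (hNB _).2 ?_, rfl⟩
    intro i
    have h3 : β ^ i * conjS S R hRn ⟨r, hRS hr⟩ * (β ^ i)⁻¹
        = conjS S R hRn (Subgroup.inclusion hRS ((β ^ i) ⟨r, hr⟩)) :=
      conjS_conj S R hRn hRS (β ^ i) ⟨r, hr⟩
    rw [h3]
    exact ⟨_, rfl⟩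
  have hg₀V : (g₀ : Ω) ∈ V := ⟨g₀, (hNB g₀).2 hall, rfl⟩
  have hVne : V ≠ R := fun h => hg₀R (h ▸ hg₀V)
  have hpV := hind V hRV hVS hVne
  have hφ : R.subtype.comp β.toMonoidHom ∈ N.Hom R := (mem_autGroup_iff N hRS β).1 hβ
  have hrange : (R.subtype.comp β.toMonoidHom).range = R := by
    ext y
    constructor
    · rintro ⟨x, rfl⟩
      exact (β x).2
    · intro hy
      exact ⟨β.symm ⟨y, hy⟩, by simp⟩
  obtain ⟨ψ, hψ, hagree⟩ := hrec.2 R _ hφ hrange
  have hVext : V ≤ extender S R (R.subtype.comp β.toMonoidHom) := by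
    rintro _ ⟨g, hg, rfl⟩
    obtain ⟨h, hh⟩ := (hNB g).1 hg 1
    rw [pow_one] at hh
    refine mem_extender_of g.2 (hRn g.2) (h : Ω) h.2 (fun x hx => ?_)
    have h1 : conjS S R hRn h * β = β * conjS S R hRn g := by rw [hh]; group
    have h2 := congrArg (fun a : MulAut R => ((a x : R) : Ω)) h1
    exact h2.symm
  have hψ' : ψ.comp (Subgroup.inclusion hVext) ∈ N.Hom V := restrict_mem N hψ hVext
  have hψR : ∀ x : R, ψ ⟨x, hVext (hRV x.2)⟩ = β x := fun x => hagree x x.2 _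
  have hmapV : ∀ x : V, (ψ.comp (Subgroup.inclusion hVext)) x ∈ V := by
    rintro ⟨_, g, hg, rfl⟩
    have hkS : ψ ⟨g, hVext ⟨g, hg, rfl⟩⟩ ∈ S := (N.le_of_mem hψ).2 _
    refine ⟨⟨_, hkS⟩, (hNB _).2 ?_, rfl⟩
    have hk : conjS S R hRn ⟨_, hkS⟩ = β * conjS S R hRn g * β⁻¹ := by
      apply MulEquiv.ext
      intro x
      apply Subtype.ext
      rw [MulAut.mul_apply, MulAut.mul_apply]
      have e2 : β (β⁻¹ x) = x := MulAut.apply_inv_self _ β x
      rw [← hψR (conjS S R hRn g (β⁻¹ x))]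
      have e1 : (⟨((conjS S R hRn g (β⁻¹ x) : R) : Ω),
            hVext (hRV (conjS S R hRn g (β⁻¹ x)).2)⟩ :
            extender S R (R.subtype.comp β.toMonoidHom))
          = ⟨g, hVext ⟨g, hg, rfl⟩⟩ * ⟨(β⁻¹ x : R), hVext (hRV (β⁻¹ x).2)⟩
            * ⟨g, hVext ⟨g, hg, rfl⟩⟩⁻¹ := Subtype.ext rfl
      rw [e1, map_mul, map_mul, map_inv, hψR (β⁻¹ x), e2]
      rfl
    intro i
    have hi := (hNB g).1 hg (i + 1)
    rw [hk]
    have e3 : β ^ i * (β * conjS S R hRn g * β⁻¹) * (β ^ i)⁻¹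
        = β ^ (i + 1) * conjS S R hRn g * (β ^ (i + 1))⁻¹ := by
      rw [pow_succ]; group
    rw [e3]
    exact hi
  obtain ⟨γ, hγ, hγψ⟩ := exists_aut_of_hom_self N hVS _ hψ' hmapV
  obtain ⟨k, hk⟩ := hpV ⟨γ, hγ⟩
  have hγk : γ ^ p ^ k = 1 := congrArg Subtype.val hk
  have hβk : β ^ p ^ k = 1 := by
    apply pow_eq_one_restrict hRV β γ _ _ hγk
    intro x
    rw [hγψ]
    exact hψR x
  exact hβ1 (eq_one_of_pow_coprime hβm hβk (Nat.Coprime.pow_right k hm))

theorem tate_step [Finite S] {p : ℕ} [Fact p.Prime] (hS : IsPGroup p S)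
    (N : FusionSystem S) (hNsat : N.IsSaturated p) (Q : Subgroup Ω) (hQn : N.IsNormal Q)
    (hAutS : ∀ α ∈ N.autGroup S, α ∈ autInducedBy S S)
    (h1 : (commutator ↥S).map S.subtype ≤ Q) (h2 : Q ≤ (frattini ↥S).map S.subtype) :
    ∀ n : ℕ, ∀ R : Subgroup Ω, Q ≤ R → R ≤ S → Nat.card S - Nat.card R ≤ n →
      IsPGroup p (N.autGroup R) := by
  intro n
  induction n using Nat.strong_induction_on with
  | _ n ih =>
  intro R hQR hRS hn
  have hQS : Q ≤ S := hQR.trans hRS
  have hRn : S ≤ Subgroup.normalizer (R : Set Ω) := normalizer_of_comm_le (h1.trans hQR) hRS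
  by_cases hRS' : R = S
  · rw [hRS']
    intro a
    obtain ⟨g, hg⟩ := (mem_autInducedBy_iff_conjAut (a : MulAut S)).1 (hAutS a a.2)
    obtain ⟨k, hk⟩ := (hS.to_le (inf_le_left : normalizerIn S S ≤ S)) g
    refine ⟨k, Subtype.ext ?_⟩
    show (a : MulAut S) ^ p ^ k = 1
    rw [← hg, ← map_pow]
    exact (congrArg (conjAut S S) hk).trans (map_one _)
  · have hfn : N.IsFullyNormalized R := by
      refine ⟨hRS, fun R' _ => ?_⟩
      have hT : normalizerIn S R = S := le_antisymm inf_le_left (le_inf le_rfl hRn)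
      rw [hT]
      exact Subgroup.card_le_of_le inf_le_left
    obtain ⟨-, Syl, hSyl₀⟩ := fullyAutomized_of_fullyNormalized hS N hNsat hfn
    have hrec := receptive_of_fullyNormalized hS N hNsat hfn
    haveI : Finite R := finite_of_le hRS
    have hcS : ∀ g : S, conjS S R hRn g ∈ N.autGroup R := fun g =>
      autInducedBy_le_autGroup N hRS (conjAut_mem_autInducedBy S R _)
    let c : S →* N.autGroup R := (conjS S R hRn).codRestrict (N.autGroup R) hcS
    have hQnS : S ≤ Subgroup.normalizer (Q : Set Ω) := normalizer_of_comm_le h1 hQS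
    haveI hQgn : (Q.subgroupOf S).Normal :=
      (Subgroup.normal_subgroupOf_iff_le_normalizer hQS).2 hQnS
    have hsc := Cfsg.Agent.Lib.helper25.stronglyClosed_of_isNormal N hQn
    apply tate_abstract hS (Subgroup.inclusion hRS) (Subgroup.inclusion_injective hRS) c
      (N.autGroup R).subtype (Subgroup.subtype_injective _) (fun g r => rfl) (Q.subgroupOf S)
      ?_ ?_ ?_ Syl ?_ ?_ ?_ ?_
    · intro x hx
      exact ⟨⟨x.1, hQR (Subgroup.mem_subgroupOf.1 hx)⟩, rfl⟩
    · exact Subgroup.map_le_iff_le_comap.1 h1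
    · intro x hx
      obtain ⟨y, hy, hyx⟩ := h2 (Subgroup.mem_subgroupOf.1 hx)
      have h : y = x := Subtype.ext hyx
      rw [← h]
      exact hy
    · rw [hSyl₀]
      ext a
      rw [Subgroup.mem_subgroupOf, ← range_conjS S R hRn]
      constructor
      · rintro ⟨g, hg⟩
        exact ⟨g, Subtype.ext hg⟩
      · rintro ⟨g, rfl⟩
        exact ⟨g, rfl⟩
    · intro a r hr
      have hφ : R.subtype.comp (a : MulAut R).toMonoidHom ∈ N.Hom R :=
        (mem_autGroup_iff N hRS _).1 a.2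
      have hφ' := restrict_mem N hφ hQR
      exact hsc.2 Q le_rfl _ hφ' ⟨r.1, hr⟩
    · intro β m hm hβm hβ1 g hall
      have hgR : (g : Ω) ∈ R := by
        apply tate_fpf N hRS hRn hrec ?_ (β : MulAut R) β.2 m hm ?_ ?_ g ?_
        · intro V hRV hVS hVne
          haveI : Finite V := finite_of_le hVS
          apply ih (Nat.card S - Nat.card V) ?_ V (hQR.trans hRV) hVS le_rfl
          have hlt : Nat.card R < Nat.card V := by
            by_contra h
            push Not at h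
            exact hVne (Subgroup.eq_of_le_of_card_ge hRV h).symm
          have hle : Nat.card V ≤ Nat.card S := Subgroup.card_le_of_le hVS
          omega
        · exact congrArg Subtype.val hβm
        · intro h
          exact hβ1 (Subtype.ext h)
        · intro i
          obtain ⟨h, hh⟩ := hall i
          exact ⟨h, congrArg Subtype.val hh⟩
      exact ⟨⟨g, hgR⟩, rfl⟩
    · by_contra hcon
      push Not at hcon
      apply hRS'
      apply le_antisymm hRS
      intro g hg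
      obtain ⟨r, hr⟩ := hcon ⟨g, hg⟩
      have h : (r : Ω) = g := congrArg Subtype.val hr
      rw [← h]
      exact r.2

theorem tate_core [Finite S] {p : ℕ} [Fact p.Prime] (hS : IsPGroup p S)
    (N : FusionSystem S) (hNsat : N.IsSaturated p) (Q : Subgroup Ω) (hQn : N.IsNormal Q)
    (hAutS : ∀ α ∈ N.autGroup S, α ∈ autInducedBy S S)
    (h1 : (commutator ↥S).map S.subtype ≤ Q) (h2 : Q ≤ (frattini ↥S).map S.subtype) :
    ∀ P : Subgroup Ω, N.Hom P = (innerFusionSystem S).Hom P := by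
  apply inner_of_pprime_trivial hS N hNsat
  intro W hW γ hγ m hm hγm
  have hQS : Q ≤ S := hQn.1
  have hφ : W.subtype.comp γ.toMonoidHom ∈ N.Hom W := (mem_autGroup_iff N hW γ).1 hγ
  obtain ⟨ψ, hψ, agree, hmap⟩ := hQn.2 W _ hφ
  have hmapsto : ∀ x : ↥(W ⊔ Q), ψ x ∈ W ⊔ Q := by
    apply Cfsg.Agent.Lib.helper25.forall_mem_of_sup ψ
    · intro x
      rw [agree]
      exact (le_sup_left : W ≤ W ⊔ Q) (γ x).2
    · intro x
      apply (le_sup_right : Q ≤ W ⊔ Q)
      have h3 : ψ (Subgroup.inclusion le_sup_right x) ∈ (Q.subgroupOf (W ⊔ Q)).map ψ :=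
        ⟨Subgroup.inclusion le_sup_right x, Subgroup.mem_subgroupOf.2 x.2, rfl⟩
      rw [hmap] at h3
      exact h3
  obtain ⟨γ', hγ', hγψ⟩ := exists_aut_of_hom_self N (sup_le hW hQS) ψ hψ hmapsto
  have hp := tate_step hS N hNsat Q hQn hAutS h1 h2 _ (W ⊔ Q) le_sup_right (sup_le hW hQS)
    le_rfl
  obtain ⟨k, hk⟩ := hp ⟨γ', hγ'⟩
  have hγk : γ' ^ p ^ k = 1 := congrArg Subtype.val hk
  have hγk' : γ ^ p ^ k = 1 := by
    apply pow_eq_one_restrict (le_sup_left : W ≤ W ⊔ Q) γ γ' _ _ hγk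
    intro x
    rw [hγψ, agree]
    rfl
  exact eq_one_of_pow_coprime hγm hγk' (Nat.Coprime.pow_right k hm)

theorem transport_aux [Finite S] {p : ℕ} [Fact p.Prime] (hS : IsPGroup p S) (F : FusionSystem S)
    (hAutF : ∀ α ∈ F.autGroup S, α ∈ autInducedBy S S) (Q : Subgroup Ω)
    (h1 : (commutator ↥S).map S.subtype ≤ Q) (h2 : Q ≤ (frattini ↥S).map S.subtype) :
    ∀ (T : Subgroup Ω) (_ : T = S) (N : FusionSystem T), N.IsSaturated p → N.IsNormal Q →
      (∀ (P : Subgroup Ω) (φ : P →* Ω), φ ∈ N.Hom P → φ ∈ F.Hom P) →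
      ∀ P : Subgroup Ω, N.Hom P = (innerFusionSystem T).Hom P := by
  intro T hT
  subst hT
  intro N hsat hnorm hsub
  apply tate_core hS N hsat Q hnorm ?_ h1 h2
  intro α hα
  apply hAutF
  rw [mem_autGroup_iff F le_rfl]
  exact hsub _ _ ((mem_autGroup_iff N le_rfl α).1 hα)

theorem main {Ω : Type*} [Group Ω] {S : Subgroup Ω} [Finite S] (p : ℕ) [Fact p.Prime]
    (hS : IsPGroup p S) (F : FusionSystem S) (hF : F.IsSaturated p)
    (hN : ∀ N : FusionSystem (normalizerIn S S), F.IsNormalizerSystem S N →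
      ∀ P : Subgroup Ω, N.Hom P = (innerFusionSystem (normalizerIn S S)).Hom P)
    (Q : Subgroup Ω) (h1 : (commutator ↥S).map S.subtype ≤ Q)
    (h2 : Q ≤ (frattini ↥S).map S.subtype) :
    ∀ N : FusionSystem (normalizerIn S Q), F.IsNormalizerSystem Q N →
      ∀ P : Subgroup Ω, N.Hom P = (innerFusionSystem (normalizerIn S Q)).Hom P := by
  have hQS : Q ≤ S := by
    intro x hx
    obtain ⟨y, -, rfl⟩ := h2 hx
    exact y.2
  have hQnS : S ≤ Subgroup.normalizer (Q : Set Ω) := normalizer_of_comm_le h1 hQS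
  have hT : normalizerIn S Q = S := le_antisymm inf_le_left (le_inf le_rfl hQnS)
  have hfnQ : F.IsFullyNormalized Q := by
    refine ⟨hQS, fun Q' _ => ?_⟩
    rw [hT]
    exact Subgroup.card_le_of_le inf_le_left
  have hAutF : ∀ α ∈ F.autGroup S, α ∈ autInducedBy S S := by
    intro α hα
    have hNS := Cfsg.Agent.Lib.helper25.isNormalizerSystem_normalizerSystem F S le_rfl
    have heq := Cfsg.Agent.Lib.helper25.autGroup_eq_of_isNormalizerSystem F le_rfl _ hNS
    rw [← heq] at hα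
    have hle : S ≤ normalizerIn S S := Cfsg.Agent.Lib.helper25.le_normalizerIn_self le_rfl
    have h3 := (mem_autGroup_iff _ hle α).1 hα
    rw [hN _ hNS S] at h3
    obtain ⟨-, g, hg, hgα⟩ := h3
    rw [mem_autInducedBy_iff]
    exact ⟨g, hg.1, fun x => hgα x⟩
  intro N hNs
  have hNsat := Cfsg.Agent.Lib.helper25.normalizerSystem_saturated hS F hF Q hfnQ N hNs
  have hQnorm := Cfsg.Agent.Lib.helper25.isNormal_of_isNormalizerSystem F hQS N hNs
  exact transport_aux hS F hAutF Q h1 h2 (normalizerIn S Q) hT N hNsat hQnorm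
    (fun P φ hφ => by rw [hNs P] at hφ; exact hφ.1)

end

/-- Let F be a saturated fusion system over a finite p-group S whose normalizer fusion system of S is the inner fusion system of S (Aut_F(S) is a p-group). Then for every subgroup Q of S with [S, S] ≤ Q ≤ Φ(S), the normalizer fusion system of Q in F is the inner fusion system of N_S(Q) = S. -/
theorem result {Ω : Type*} [Group Ω] {S : Subgroup Ω} [Finite S] (p : ℕ) [Fact p.Prime] (hS : IsPGroup p S) (F : Cfsg.FusionSystem S) (hF : F.IsSaturated p) (hN : ∀ N : Cfsg.FusionSystem (Cfsg.FusionSystem.normalizerIn S S), F.IsNormalizerSystem S N → ∀ P : Subgroup Ω, N.Hom P = (Cfsg.innerFusionSystem (Cfsg.FusionSystem.normalizerIn S S)).Hom P) (Q : Subgroup Ω) (h1 : (commutator ↥S).map S.subtype ≤ Q) (h2 : Q ≤ (frattini ↥S).map S.subtype) : ∀ N : Cfsg.FusionSystem (Cfsg.FusionSystem.normalizerIn S Q), F.IsNormalizerSystem Q N → ∀ P : Subgroup Ω, N.Hom P = (Cfsg.innerFusionSystem (Cfsg.FusionSystem.normalizerIn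 S Q)).Hom P := by
  exact main p hS F hF hN Q h1 h2

end Cfsg.Agent.S5222
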