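import Cfsg.Statements.S5223
-- import your own Cfsg.Agent.* helpers here
import Cfsg.Agent.Lib.helper26.Alperin

set_option autoImplicit false
open Cfsg

namespace Cfsg.Agent.S5223

open Cfsg.Agent.Lib.helper26 in
theorem aut_eq_one_of_chain {Ω : Type*} [Group Ω] {S : Subgroup Ω} [Finite S] (p : ℕ) [Fact p.Prime]
    (hS : IsPGroup p S) (F : Cfsg.FusionSystem S) (n : ℕ) (Q : Fin (n + 1) → Subgroup Ω)
    (hQ0 : Q 0 = S) (hQn : Q (Fin.last n) = ⊥)
    (hstep : ∀ i : Fin n, Subgroup.closure {y : Ω | ∃ x ∈ Q i.castSucc,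
      ∃ φ ∈ F.Hom (Subgroup.zpowers x), y = x⁻¹ * φ ⟨x, Subgroup.mem_zpowers x⟩} ≤ Q i.succ)
    (W : Subgroup Ω) (hW : W ≤ S) (γ : MulAut W) (hγ : W.subtype.comp γ.toMonoidHom ∈ F.Hom W)
    (m : ℕ) (hm : γ ^ m = 1) (hpm : Nat.Coprime p m) : γ = 1 := by
  have key : ∀ i : Fin (n + 1), ∀ x : W, (x : Ω) ∈ Q i → γ x = x := by
    intro i
    induction i using Fin.reverseInduction with
    | last =>
      intro x hx
      rw [hQn, Subgroup.mem_bot] at hx
      have : x = 1 := Subtype.ext hx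
      rw [this, map_one]
    | cast i ih =>
      intro x hx
      have hzQ : ((x⁻¹ * γ x : W) : Ω) ∈ Q i.succ := by
        apply hstep i
        apply Subgroup.subset_closure
        have hle : Subgroup.zpowers (x : Ω) ≤ W := by
          rw [Subgroup.zpowers_le]; exact x.2
        exact ⟨x, hx, (W.subtype.comp γ.toMonoidHom).comp (Subgroup.inclusion hle),
          restrict_mem F hγ hle, rfl⟩
      have hγz : γ (x⁻¹ * γ x) = x⁻¹ * γ x := ih _ hzQ
      have hpow : ∀ k : ℕ, (γ ^ k) x = x * (x⁻¹ * γ x) ^ k := by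
        intro k
        induction k with
        | zero => simp
        | succ k ihk =>
          rw [pow_succ', MulAut.mul_apply, ihk, map_mul, map_pow, hγz, pow_succ']
          rw [← mul_assoc x, mul_inv_cancel_left]
      have hzm : (x⁻¹ * γ x) ^ m = 1 := by
        have := hpow m
        rw [hm, MulAut.one_apply] at this
        exact (mul_eq_left.1 this.symm)
      obtain ⟨j, hj⟩ := (hS.to_le hW) (x⁻¹ * γ x)
      have h1 : orderOf (x⁻¹ * γ x) ∣ m := orderOf_dvd_of_pow_eq_one hzm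
      have h2 : orderOf (x⁻¹ * γ x) ∣ p ^ j := orderOf_dvd_of_pow_eq_one hj
      have h3 : orderOf (x⁻¹ * γ x) ∣ Nat.gcd (p ^ j) m := Nat.dvd_gcd h2 h1
      have h4 : Nat.gcd (p ^ j) m = 1 := Nat.Coprime.pow_left j hpm
      rw [h4, Nat.dvd_one, orderOf_eq_one_iff] at h3
      exact (inv_mul_eq_one.1 h3).symm
  ext x
  rw [key 0 x (by rw [hQ0]; exact hW x.2)]
  rfl

/-- Let F be a saturated fusion system over a finite p-group S. Suppose there are subgroups Q₀ = S, Q₁, …, Qₙ = 1 (not required to be nested) such that for each i < n the focal subgroup of Qᵢ (generated by the elements x⁻¹φ(x), x ∈ Qᵢ, φ a map of F defined on the cyclic group generated by x) lies in Qᵢ₊₁. Then F is the inner fusion system of S. -/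
theorem result {Ω : Type*} [Group Ω] {S : Subgroup Ω} [Finite S] (p : ℕ) [Fact p.Prime] (hS : IsPGroup p S) (F : Cfsg.FusionSystem S) (hF : F.IsSaturated p) (n : ℕ) (Q : Fin (n + 1) → Subgroup Ω) (hQ0 : Q 0 = S) (hQn : Q (Fin.last n) = ⊥) (hstep : ∀ i : Fin n, Subgroup.closure {y : Ω | ∃ x ∈ Q i.castSucc, ∃ φ ∈ F.Hom (Subgroup.zpowers x), y = x⁻¹ * φ ⟨x, Subgroup.mem_zpowers x⟩} ≤ Q i.succ) : ∀ P : Subgroup Ω, F.Hom P = (Cfsg.innerFusionSystem S).Hom P := by
  classical
  intro P
  apply Set.Subset.antisymm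
  · have hall := Cfsg.Agent.Lib.helper26.alperin_induction hS F hF
      (fun U φ => φ ∈ (Cfsg.innerFusionSystem S).Hom U) ?_ ?_ ?_
    · exact fun φ hφ => hall P φ hφ
    · intro U V φ h hφ hP
      exact Cfsg.Agent.Lib.helper26.restrict_mem (Cfsg.innerFusionSystem S) hP h
    · intro U V φ ψ h hφ hψ hP hP'
      exact (Cfsg.innerFusionSystem S).comp_mem hP hP' h
    · intro W hfn _ α hα
      have hW := hfn.1
      obtain ⟨-, R, hR⟩ := Cfsg.Agent.Lib.helper26.fullyAutomized_of_fullyNormalized hS F hF hfn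
      have hfinW : Finite W := Cfsg.Agent.Lib.helper26.finite_of_le hW
      have hpg : IsPGroup p (F.autGroup W) := by
        intro a
        obtain ⟨k, m, hpm, hord⟩ := Nat.exists_eq_pow_mul_and_not_dvd (orderOf_pos a).ne' p
          (Fact.out : p.Prime).ne_one
        refine ⟨k, ?_⟩
        have hγm : (a ^ p ^ k) ^ m = 1 := by rw [← pow_mul, ← hord, pow_orderOf_eq_one]
        have hγ : ((a ^ p ^ k : F.autGroup W) : MulAut W) = 1 := by
          apply aut_eq_one_of_chain p hS F n Q hQ0 hQn hstep W hW _ ?_ m ?_ ?_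
          · exact (Cfsg.Agent.Lib.helper26.mem_autGroup_iff F hW _).1 (a ^ p ^ k).2
          · have := congrArg Subtype.val hγm
            simpa using this
          · exact (Nat.Prime.coprime_iff_not_dvd Fact.out).2 hpm
        exact Subtype.ext hγ
      have htop : (⊤ : Subgroup (F.autGroup W)) = R := R.is_maximal' (hpg.to_subgroup ⊤) le_top
      have hαA : α ∈ F.autGroup W := (Cfsg.Agent.Lib.helper26.mem_autGroup_iff F hW α).2 hα
      have hmem : (⟨α, hαA⟩ : F.autGroup W) ∈ (R : Subgroup _) := by rw [← htop]; trivial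
      rw [hR] at hmem
      have h2 : α ∈ Cfsg.autInducedBy S W := Subgroup.mem_subgroupOf.1 hmem
      obtain ⟨g, hg, hgα⟩ := (Cfsg.Agent.Lib.helper26.mem_autInducedBy_iff _ _ _).1 h2
      exact ⟨hW, g, hg, fun x => hgα x⟩
  · rintro φ ⟨hP, g, hg, hgφ⟩
    have : φ = Cfsg.conjHom P g := by
      ext x; exact hgφ x
    rw [this]; exact F.conj_mem hP hg

end Cfsg.Agent.S5223
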