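import Cfsg.Statements.S5225
import Cfsg.Agent.Lib.helper7.FusTransfer
import Cfsg.Agent.Lib.helper7.YoshidaZ
import Cfsg.Agent.Lib.helper7.YoshidaWr

set_option autoImplicit false
open Cfsg

namespace Cfsg.Agent.S5225

open scoped commutatorElement
open Cfsg.FusionSystem Cfsg.Agent.Lib.helper25 Cfsg.Agent.Lib.helper7.Marks
open Cfsg.Agent.Lib.helper7.Biset Cfsg.Agent.Lib.helper7.CharBiset Cfsg.Agent.Lib.helper7.Yoshida

theorem aut_mem_normalizer_focal {Ω : Type*} [Group Ω] {S : Subgroup Ω}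
    (F : Cfsg.FusionSystem S) (N : Cfsg.FusionSystem (Cfsg.FusionSystem.normalizerIn S S))
    (hN : F.IsNormalizerSystem S N) (α : MulAut ↥S) (hα : α ∈ F.autGroup S) (u : ↥S) :
    (u : Ω)⁻¹ * ((α u : ↥S) : Ω) ∈ N.focalSubgroup := by
  have hφ := (Cfsg.Agent.Lib.helper26.mem_autGroup_iff F le_rfl α).mp hα
  have hSle : S ≤ Cfsg.FusionSystem.normalizerIn S S :=
    fun x hx => Subgroup.mem_inf.mpr ⟨hx, Subgroup.le_normalizer hx⟩
  have hsup : S ⊔ S ≤ S := sup_le le_rfl le_rfl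
  have hφN : S.subtype.comp α.toMonoidHom ∈ N.Hom S := by
    rw [hN S]
    refine ⟨hφ, hSle, fun x => hSle (α x).2,
      (S.subtype.comp α.toMonoidHom).comp (Subgroup.inclusion hsup),
      hom_restrict F hsup hφ, fun x => rfl, ?_⟩
    ext y
    constructor
    · rintro ⟨x, -, rfl⟩
      exact (α (Subgroup.inclusion hsup x)).2
    · intro hy
      refine ⟨⟨((α⁻¹ ⟨y, hy⟩ : ↥S) : Ω), (le_sup_left : S ≤ S ⊔ S) (α⁻¹ ⟨y, hy⟩).2⟩,
        Subgroup.mem_subgroupOf.mpr (α⁻¹ ⟨y, hy⟩).2, ?_⟩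
      show ((α (α⁻¹ ⟨y, hy⟩) : ↥S) : Ω) = y
      rw [MulAut.apply_inv_self]
  exact Subgroup.subset_closure ⟨S, S.subtype.comp α.toMonoidHom, u, hφN, rfl⟩

/-- Yoshida's Theorem for fusion systems. Let F be a saturated fusion system over a finite p-group S and N the normalizer fusion system of S in F. If the focal subgroups of F and N differ (N does not control transfer in F), then S has a quotient isomorphic to the wreath product C_p ≀ C_p (realised as a Sylow p-subgroup of the symmetric group of degree p²). -/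
theorem result {Ω : Type*} [Group Ω] {S : Subgroup Ω} [Finite S] (p : ℕ) [Fact p.Prime] (hS : IsPGroup p S) (F : Cfsg.FusionSystem S) (hF : F.IsSaturated p) (N : Cfsg.FusionSystem (Cfsg.FusionSystem.normalizerIn S S)) (hN : F.IsNormalizerSystem S N) (hne : N.focalSubgroup ≠ F.focalSubgroup) : ∃ (W : Sylow p (Equiv.Perm (Fin (p ^ 2)))) (f : ↥S →* ↥(W : Subgroup (Equiv.Perm (Fin (p ^ 2))))), Function.Surjective f := by
  classical
  have hp : p.Prime := Fact.out
  by_contra hcon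
  have hstar : ∀ x z : ↥S, ∀ M : Subgroup ↥S, IsCoatom M →
      (fun y : ↥S => y⁻¹ * z⁻¹ * y * z)^[p - 1] x ∈ M →
      (fun y : ↥S => y⁻¹ * z⁻¹ * y * z)^[p - 1] x ∈ (frattini ↥M).map M.subtype := by
    intro x z M hM hx
    by_contra hnot
    exact hcon (wreath_image hS M hM x z hx hnot)
  have hNF : N.focalSubgroup ≤ F.focalSubgroup := by
    apply Subgroup.closure_mono
    rintro y ⟨P, φ, x, hφ, rfl⟩
    refine ⟨P, φ, x, ?_, rfl⟩
    rw [hN P] at hφ
    exact hφ.1
  apply hne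
  apply le_antisymm hNF
  obtain ⟨n, ha, ⟨m, hm, hpm⟩, hc, hd⟩ := exists_char_biset hS F hF
  have hfree := free_of_elt F n ha
  haveI : Fintype (Yq ↥S (XS n)) := Fintype.ofFinite _
  have hf2 := aut_mem_normalizer_focal F N hN
  have hcomm : commutator ↥S ≤ N.focalSubgroup.subgroupOf S := by
    rw [commutator_def, Subgroup.commutator_le]
    intro a _ b _
    rw [Subgroup.mem_subgroupOf]
    have h1 := hf2 (MulAut.conj b) (conj_mem_aut F b) a⁻¹
    have e : ((⁅a, b⁆ : ↥S) : Ω) = ((a⁻¹ : ↥S) : Ω)⁻¹ * ((MulAut.conj b a⁻¹ : ↥S) : Ω) := by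
      rw [commutatorElement_def, MulAut.conj_apply]
      simp [mul_assoc]
    rw [e]
    exact h1
  let M₀ : Subgroup (Abelianization ↥S) := (N.focalSubgroup.subgroupOf S).map Abelianization.of
  let π : ↥S →* Abelianization ↥S ⧸ M₀ := (QuotientGroup.mk' M₀).comp Abelianization.of
  have hπker : ∀ u : ↥S, π u = 1 ↔ (u : Ω) ∈ N.focalSubgroup := by
    intro u
    show ((Abelianization.of u : Abelianization ↥S) : Abelianization ↥S ⧸ M₀) = 1 ↔ _
    rw [QuotientGroup.eq_one_iff]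
    constructor
    · rintro ⟨v, hv, hvu⟩
      have h1 : v⁻¹ * u ∈ commutator ↥S := by
        rw [← Abelianization.ker_of, MonoidHom.mem_ker, map_mul, map_inv, hvu, inv_mul_cancel]
      have h2 : v * (v⁻¹ * u) ∈ N.focalSubgroup.subgroupOf S := Subgroup.mul_mem _ hv (hcomm h1)
      rw [mul_inv_cancel_left] at h2
      exact Subgroup.mem_subgroupOf.mp h2
    · intro hu
      exact ⟨u, Subgroup.mem_subgroupOf.mpr hu, rfl⟩
  have hπsurj : Function.Surjective π := by
    intro b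
    obtain ⟨a, rfl⟩ := QuotientGroup.mk_surjective b
    obtain ⟨u, rfl⟩ := QuotientGroup.mk_surjective a
    exact ⟨u, rfl⟩
  have hπinv : ∀ α ∈ F.autGroup S, ∀ u : ↥S, π (α u) = π u := by
    intro α hα u
    have h1 : π (u⁻¹ * α u) = 1 := (hπker _).mpr (hf2 α hα u)
    rw [map_mul, map_inv] at h1
    exact (inv_mul_eq_one.mp h1).symm
  haveI : Finite (Abelianization ↥S ⧸ M₀) := Finite.of_surjective π hπsurj
  have hA₀p : IsPGroup p (Abelianization ↥S ⧸ M₀) := hS.of_surjective π hπsurj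
  have hV1 : ∀ u : ↥S, (u : Ω) ∈ F.focalSubgroup → tr hfree π u = 1 :=
    fun u hu => tr_focal F n hfree hc π u hu
  have hVsurj : (tr hfree π).range = ⊤ := by
    by_contra hne'
    obtain ⟨M', hM', hVM'⟩ := (eq_top_or_exists_le_coatom _).resolve_left hne'
    obtain ⟨-, hpow⟩ := Cfsg.Agent.Lib.helper1.coatom_commutator_le_and_pow_mem p hA₀p M' hM'
    let ψ : Abelianization ↥S ⧸ M₀ →* (Abelianization ↥S ⧸ M₀) ⧸ M' := QuotientGroup.mk' M'
    have hB : ∀ b : (Abelianization ↥S ⧸ M₀) ⧸ M', b ^ p = 1 := by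
      intro b
      obtain ⟨a, rfl⟩ := QuotientGroup.mk_surjective b
      rw [← QuotientGroup.mk_pow, QuotientGroup.eq_one_iff]
      exact hpow a
    let lam : ↥S →* (Abelianization ↥S ⧸ M₀) ⧸ M' := ψ.comp π
    have hb : ∀ (x : ↥S) (y : Yq ↥S (XS n)), x • y = y →
        ∃ x' : ↥S, orderOf x' = orderOf x ∧ bc lam x y = lam x' := by
      intro x y hxy
      refine ⟨(sg x y)⁻¹, ?_, ?_⟩
      · have h1 := sg_stab x y hxy
        have h3 := ce_order F (ha _ _ h1)
        rw [Subgroup.orderOf_coe, Subgroup.orderOf_coe] at h3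
        exact h3
      · show (lam (sg x y))⁻¹ = lam (sg x y)⁻¹
        rw [map_inv]
    have hfix : ∀ y : Yq ↥S (XS n), (∀ u : ↥S, u • y = y) → ∀ u, bc lam u y = lam u := by
      intro y hy u
      have hω : ∀ u : ↥S, ∃ t : ↥S, ((u, t) : ↥S × ↥S) • rho y = rho y :=
        fun u => ⟨(sg u y)⁻¹, sg_stab u y (hy u)⟩
      obtain ⟨κ, hκ, g₁, g₂, hκe⟩ := hd (rho y) hω
      have h1 := hκe u _ (sg_stab u y (hy u))
      show (lam (sg u y))⁻¹ = lam u
      rw [← map_inv, h1, map_mul, map_mul, map_inv, mul_comm (lam g₂), mul_inv_cancel_right]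
      show ψ (π (κ (g₁⁻¹ * u * g₁))) = ψ (π u)
      have h2 : π (g₁⁻¹ * u * g₁) = π u := by
        rw [map_mul, map_mul, map_inv, mul_comm, mul_inv_cancel_left]
      rw [hπinv κ hκ, h2]
    have hk : ¬ p ∣ Nat.card {y : Yq ↥S (XS n) // ∀ u : ↥S, u • y = y} := by
      have hY : Nat.card (Yq ↥S (XS n)) = m := by
        have h1 := card_eq hfree
        rw [hm, mul_comm] at h1
        exact (Nat.eq_of_mul_eq_mul_right Nat.card_pos h1).symm
      have hmod := hS.card_modEq_card_fixedPoints (Yq ↥S (XS n))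
      intro hdvd
      apply hpm
      rw [← hY]
      have hdvd' : p ∣ Nat.card (MulAction.fixedPoints ↥S (Yq ↥S (XS n))) := hdvd
      exact (Nat.modEq_zero_iff_dvd).mp (hmod.trans ((Nat.modEq_zero_iff_dvd).mpr hdvd'))
    have hVl : ∀ u : ↥S, ∏ y : Yq ↥S (XS n), bc lam u y = 1 := by
      intro u
      have h1 : ∏ y : Yq ↥S (XS n), bc lam u y = ψ (tr hfree π u) := by
        rw [tr_apply, map_prod]
        apply Finset.prod_congr rfl
        intro y _
        show (ψ (π (sg u y)))⁻¹ = ψ ((π (sg u y))⁻¹)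
        rw [map_inv]
      rw [h1]
      show ((tr hfree π u : Abelianization ↥S ⧸ M₀) : (Abelianization ↥S ⧸ M₀) ⧸ M') = 1
      rw [QuotientGroup.eq_one_iff]
      exact hVM' ⟨u, rfl⟩
    have hZ := thmZ' hS hB hstar (bc (X := XS n) lam) (bc_isCoc hfree lam) lam hb hfix hk hVl
    apply hM'.1
    rw [eq_top_iff]
    intro a _
    obtain ⟨u, rfl⟩ := hπsurj a
    have h1 : ψ (π u) = 1 := hZ u
    exact (QuotientGroup.eq_one_iff _).mp h1
  have hker_le : π.ker ≤ (tr hfree π).ker := by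
    intro u hu
    rw [MonoidHom.mem_ker] at hu ⊢
    exact hV1 u (hNF ((hπker u).mp hu))
  have hkeq : π.ker = (tr hfree π).ker := by
    apply Subgroup.eq_of_le_of_card_ge hker_le
    have h1 := Subgroup.card_mul_index π.ker
    have h2 := Subgroup.card_mul_index (tr hfree π).ker
    rw [Subgroup.index_ker] at h1 h2
    rw [hVsurj] at h2
    have h3 : π.range = ⊤ := MonoidHom.range_eq_top.mpr hπsurj
    rw [h3] at h1
    have h4 : 0 < Nat.card (⊤ : Subgroup (Abelianization ↥S ⧸ M₀)) := Nat.card_pos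
    have h5 : Nat.card (tr hfree π).ker * Nat.card (⊤ : Subgroup (Abelianization ↥S ⧸ M₀)) =
        Nat.card π.ker * Nat.card (⊤ : Subgroup (Abelianization ↥S ⧸ M₀)) := by rw [h1, h2]
    exact le_of_eq (Nat.eq_of_mul_eq_mul_right h4 h5)
  intro y hy
  have hyS : y ∈ S := focal_le_S F hy
  have h1 : (⟨y, hyS⟩ : ↥S) ∈ (tr hfree π).ker := MonoidHom.mem_ker.mpr (hV1 ⟨y, hyS⟩ hy)
  rw [← hkeq] at h1
  exact (hπker _).mp (MonoidHom.mem_ker.mp h1)

end Cfsg.Agent.S5225
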