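import Cfsg.Statements.S5226
-- import your own Cfsg.Agent.* helpers here
import Cfsg.Agent.S5088

set_option autoImplicit false
open Cfsg

namespace Cfsg.Agent.S5226

section

open Cfsg.Agent.Lib.helper26 Cfsg.FusionSystem
open Cfsg.Agent.Lib.helper25 (stronglyClosed_of_isNormal isNormal_bot)
open scoped commutatorElement

variable {Ω : Type*} [Group Ω] {S : Subgroup Ω}

theorem weaklyClosed_of_stronglyClosed [Finite S] (F : Cfsg.FusionSystem S) {P : Subgroup Ω}
    (hP : F.StronglyClosed P) : F.WeaklyClosed P := by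
  refine ⟨hP.1, fun φ hφ => ?_⟩
  haveI : Finite P := finite_of_le hP.1
  have hle : φ.range ≤ P := by
    rintro _ ⟨x, rfl⟩
    exact hP.2 P le_rfl φ hφ x
  have hcard : Nat.card P = Nat.card φ.range :=
    Nat.card_congr (MonoidHom.ofInjective (F.injective_of_mem hφ)).toEquiv
  exact Subgroup.eq_of_le_of_card_ge hle hcard.le

theorem conj_mem_of_commutator_le {A B R Q : Subgroup Ω} (hcomm : ⁅B, Q⁆ ≤ A) (hAR : A ≤ R)
    (hRQ : R ≤ Q) {b : Ω} (hb : b ∈ B) {r : Ω} (hr : r ∈ R) : b * r * b⁻¹ ∈ R := by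
  have h1 : ⁅b, r⁆ ∈ ⁅B, Q⁆ := Subgroup.commutator_mem_commutator hb (hRQ hr)
  have h2 : b * r * b⁻¹ = ⁅b, r⁆ * r := by
    rw [commutatorElement_def]; group
  rw [h2]
  exact R.mul_mem (hAR (hcomm h1)) hr

theorem le_normalizerIn_of_commutator_le {A B R Q : Subgroup Ω} (hBS : B ≤ S) (hcomm : ⁅B, Q⁆ ≤ A)
    (hAR : A ≤ R) (hRQ : R ≤ Q) : B ≤ normalizerIn S R := by
  intro b hb
  refine ⟨hBS hb, ?_⟩
  apply mem_normalizer_of_two_sided
  · intro y hy
    exact conj_mem_of_commutator_le hcomm hAR hRQ hb hy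
  · intro y hy
    have := conj_mem_of_commutator_le hcomm hAR hRQ (B.inv_mem hb) hy
    rwa [inv_inv] at this

/-- the key step: a weakly closed term above a normal one is strongly closed -/
theorem stronglyClosed_step [Finite S] {p : ℕ} [Fact p.Prime] (hS : IsPGroup p S)
    (F : Cfsg.FusionSystem S) (hF : F.IsSaturated p) {Q A B : Subgroup Ω}
    (hQ : F.StronglyClosed Q) (hA : F.IsNormal A) (hB : F.WeaklyClosed B) (hAB : A ≤ B)
    (hBQ : B ≤ Q) (hcomm : ⁅B, Q⁆ ≤ A) : F.StronglyClosed B := by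
  refine ⟨hB.1, fun R hRB φ hφ x => ?_⟩
  obtain ⟨φ', hφ', hφ'x, hφ'A⟩ := hA.2 R φ hφ
  have hR'B : R ⊔ A ≤ B := sup_le hRB hAB
  have hR'Q : R ⊔ A ≤ Q := hR'B.trans hBQ
  have hR'S : R ⊔ A ≤ S := hR'Q.trans hQ.1
  have hR₁Q : φ'.range ≤ Q := by
    rintro _ ⟨y, rfl⟩
    exact hQ.2 (R ⊔ A) hR'Q φ' hφ' y
  have hAR₁ : A ≤ φ'.range := by
    intro a ha
    rw [← hφ'A] at ha
    obtain ⟨y, -, rfl⟩ := ha
    exact ⟨y, rfl⟩
  have hBN : B ≤ normalizerIn S (R ⊔ A) :=
    le_normalizerIn_of_commutator_le hB.1 hcomm le_sup_right hR'Q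
  have hBN₁ : B ≤ normalizerIn S φ'.range :=
    le_normalizerIn_of_commutator_le hB.1 hcomm hAR₁ hR₁Q
  obtain ⟨R₂, hc, hfa, hrec⟩ := hF (R ⊔ A) hR'S
  have hc₁ : F.IsConj φ'.range R₂ := isConj_trans F (isConj_symm F ⟨φ', hφ', rfl⟩) hc
  obtain ⟨ψ, hψ, e, he, hψe⟩ := exists_extension_normalizer hS F hfa hrec hc
  obtain ⟨ψ₁, hψ₁, e₁, he₁, hψ₁e⟩ := exists_extension_normalizer hS F hfa hrec hc₁
  have hrange := hB.2 _ (restrict_mem F hψ hBN)
  have hrange₁ := hB.2 _ (restrict_mem F hψ₁ hBN₁)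
  have hR₂B : R₂ ≤ B := by
    intro y hy
    have h1 : ψ ⟨(e.symm ⟨y, hy⟩ : Ω), hBN (hR'B (e.symm ⟨y, hy⟩).2)⟩ = y := by
      rw [hψe (e.symm ⟨y, hy⟩) _, MulEquiv.apply_symm_apply]
    rw [← hrange, ← h1]
    exact ⟨⟨_, hR'B (e.symm ⟨y, hy⟩).2⟩, rfl⟩
  have hR₁B : φ'.range ≤ B := by
    intro r hr
    have hrN : r ∈ normalizerIn S φ'.range :=
      ⟨hQ.1 (hR₁Q hr), Subgroup.le_normalizer hr⟩
    have h1 : ψ₁ ⟨r, hrN⟩ ∈ B := by
      have h2 := hψ₁e ⟨r, hr⟩ hrN
      rw [h2]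
      exact hR₂B (e₁ ⟨r, hr⟩).2
    rw [← hrange₁] at h1
    obtain ⟨b, hb⟩ := h1
    have h3 : (⟨(b : Ω), hBN₁ b.2⟩ : normalizerIn S φ'.range) = ⟨r, hrN⟩ :=
      F.injective_of_mem hψ₁ hb
    have h4 : (b : Ω) = r := congrArg Subtype.val h3
    rw [← h4]
    exact b.2
  rw [← hφ'x x]
  exact hR₁B ⟨_, rfl⟩

theorem main [Finite S] (p : ℕ) [Fact p.Prime] (hS : IsPGroup p S)
    (F : Cfsg.FusionSystem S) (hF : F.IsSaturated p) (Q : Subgroup Ω) :
    F.IsNormal Q ↔ F.StronglyClosed Q ∧ ∃ (n : ℕ) (C : Fin (n + 1) → Subgroup Ω), C 0 = ⊥ ∧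
      C (Fin.last n) = Q ∧ Monotone C ∧ (∀ i : Fin n, ⁅C i.succ, Q⁆ ≤ C i.castSucc) ∧
      ∀ i : Fin n, F.WeaklyClosed (C i.castSucc) := by
  constructor
  · intro hN
    obtain ⟨n, Qs, h0, hlast, hmono, hstep⟩ := (Cfsg.Agent.S5088.result p hS F hF Q).1 hN
    refine ⟨stronglyClosed_of_isNormal F hN, n, Qs, h0, hlast, hmono, ?_, ?_⟩
    · intro i
      rw [Subgroup.commutator_comm]
      exact (hstep i).2
    · intro i
      rcases Fin.eq_zero_or_eq_succ i.castSucc with h | ⟨j, hj⟩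
      · rw [h, h0]
        exact weaklyClosed_of_stronglyClosed F (stronglyClosed_of_isNormal F (isNormal_bot F))
      · have hjn : (j : ℕ) < n := by
          have h1 : (i.castSucc : ℕ) = (j.succ : ℕ) := congrArg Fin.val hj
          simp at h1
          omega
        have h2 : j.succ = (⟨j, hjn⟩ : Fin n).succ := by
          ext; simp
        rw [hj, h2]
        exact weaklyClosed_of_stronglyClosed F (hstep ⟨j, hjn⟩).1
  · rintro ⟨hsc, n, C, h0, hlast, hmono, hcomm, hwc⟩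
    have hCQ : ∀ j : Fin (n + 1), C j ≤ Q := by
      intro j
      rw [← hlast]
      exact hmono (Fin.le_last j)
    have key : ∀ k : ℕ, ∀ j : ℕ, j ≤ k → ∀ hj : j < n + 1, F.StronglyClosed (C ⟨j, hj⟩) := by
      intro k
      induction k with
      | zero =>
        intro j hj0 hj
        have hj' : (⟨j, hj⟩ : Fin (n + 1)) = 0 := by
          ext; simp; omega
        rw [hj', h0]
        exact stronglyClosed_of_isNormal F (isNormal_bot F)
      | succ k ih =>
        intro j hjk hj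
        rcases Nat.lt_or_ge j (k + 1) with hlt | hge
        · exact ih j (by omega) hj
        · have hjeq : j = k + 1 := by omega
          subst hjeq
          -- `C k` is normal
          have hkn : k < n + 1 := by omega
          have hNk : F.IsNormal (C ⟨k, hkn⟩) := by
            apply (Cfsg.Agent.S5088.result p hS F hF (C ⟨k, hkn⟩)).2
            refine ⟨k, fun i => C ⟨i, by omega⟩, h0, rfl, ?_, ?_⟩
            · intro a b hab
              exact hmono (by simpa using hab)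
            · intro i
              refine ⟨ih (i + 1) (by omega) (by omega), ?_⟩
              have hin : (i : ℕ) < n := by omega
              have h1 := hcomm ⟨i, hin⟩
              rw [Subgroup.commutator_comm]
              exact (Subgroup.commutator_mono le_rfl (hCQ _)).trans h1
          by_cases hlastk : k + 1 = n
          · have : (⟨k + 1, hj⟩ : Fin (n + 1)) = Fin.last n := by
              ext; simp [hlastk]
            rw [this, hlast]
            exact hsc
          · have hk1n : k + 1 < n := by omega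
            have hkn' : k < n := by omega
            have h1 : F.WeaklyClosed (C ⟨k + 1, hj⟩) := hwc ⟨k + 1, hk1n⟩
            have h2 : ⁅C ⟨k + 1, hj⟩, Q⁆ ≤ C ⟨k, hkn⟩ := hcomm ⟨k, hkn'⟩
            exact stronglyClosed_step hS F hF hsc hNk h1 (hmono (by simp)) (hCQ _) h2
    apply (Cfsg.Agent.S5088.result p hS F hF Q).2
    refine ⟨n, C, h0, hlast, hmono, ?_⟩
    intro i
    refine ⟨key n _ (by omega) _, ?_⟩
    rw [Subgroup.commutator_comm]
    exact hcomm i

end

/-- Let F be a saturated fusion system over a finite p-group S and Q a subgroup of S. Then Q is normal in F (F equals the normalizer system of Q) if and only if Q is strongly closed in F and admits a central series 1 = Q₀ ≤ Q₁ ≤ ⋯ ≤ Qₙ = Q ([Qᵢ₊₁, Q] ≤ Qᵢ) all of whose proper terms are weakly closed in F. -/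
theorem result {Ω : Type*} [Group Ω] {S : Subgroup Ω} [Finite S] (p : ℕ) [Fact p.Prime] (hS : IsPGroup p S) (F : Cfsg.FusionSystem S) (hF : F.IsSaturated p) (Q : Subgroup Ω) : F.IsNormal Q ↔ F.StronglyClosed Q ∧ ∃ (n : ℕ) (C : Fin (n + 1) → Subgroup Ω), C 0 = ⊥ ∧ C (Fin.last n) = Q ∧ Monotone C ∧ (∀ i : Fin n, ⁅C i.succ, Q⁆ ≤ C i.castSucc) ∧ ∀ i : Fin n, F.WeaklyClosed (C i.castSucc) := by
  exact main p hS F hF Q

end Cfsg.Agent.S5226
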