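import Cfsg.Statements.S5236
-- import your own Cfsg.Agent.* helpers here
import Cfsg.Agent.Lib.helper26.OmegaAut
import Cfsg.Agent.Lib.helper25.FusionStab

set_option autoImplicit false
open Cfsg

namespace Cfsg.Agent.S5236

section

open Cfsg.Agent.Lib.helper26 Cfsg.FusionSystem
open Cfsg.Agent.Lib.helper25 (mem_of_stab_chain isNormal_of_stronglyClosed_of_mem aut_fix_of_coprime
  stronglyClosed_of_characteristic)
open scoped commutatorElement

variable {Ω : Type*} [Group Ω] {S : Subgroup Ω}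

theorem sc_inf (F : Cfsg.FusionSystem S) {A B : Subgroup Ω} (hA : F.StronglyClosed A)
    (hB : F.StronglyClosed B) : F.StronglyClosed (A ⊓ B) :=
  ⟨inf_le_left.trans hA.1, fun R hR φ hφ x =>
    ⟨hA.2 R (hR.trans inf_le_left) φ hφ x, hB.2 R (hR.trans inf_le_right) φ hφ x⟩⟩

theorem omega_char (p : ℕ) (P : Type*) [Group P] :
    (Subgroup.closure {x : P | x ^ p = 1}).Characteristic := by
  rw [Subgroup.characteristic_iff_map_le]
  intro φ
  rw [MonoidHom.map_closure]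
  apply Subgroup.closure_mono
  rintro _ ⟨x, hx, rfl⟩
  show (φ x) ^ p = 1
  have hx' : x ^ p = 1 := hx
  rw [← map_pow, hx', map_one]

theorem omegaOne_eq_map (p : ℕ) (P : Subgroup Ω) :
    Cfsg.omegaOne p P = (Subgroup.closure {x : P | x ^ p = 1}).map P.subtype := by
  rw [MonoidHom.map_closure]
  unfold Cfsg.omegaOne
  congr 1
  ext x
  constructor
  · rintro ⟨hx, hxp⟩
    exact ⟨⟨x, hx⟩, Subtype.ext hxp, rfl⟩
  · rintro ⟨y, hy, rfl⟩
    have hy' : y ^ p = 1 := hy
    exact ⟨y.2, by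
      show (y : Ω) ^ p = 1
      rw [← Subgroup.coe_pow, hy']
      rfl⟩

/-- the automorphisms of `R` in the system stabilizing the chain `Q` -/
def KQ (F : Cfsg.FusionSystem S) (R : Subgroup Ω) (hRS : R ≤ S) (n : ℕ)
    (Q : Fin (n + 1) → Subgroup Ω) (hsc : ∀ i, F.StronglyClosed (Q i)) :
    Subgroup (F.autGroup R) where
  carrier := {a | ∀ (j : Fin n) (x : R), (x : Ω) ∈ Q j.succ →
    (x : Ω)⁻¹ * (((a : MulAut R) x : R) : Ω) ∈ Q j.castSucc}
  one_mem' := by
    intro j x _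
    show (x : Ω)⁻¹ * (x : Ω) ∈ Q j.castSucc
    rw [inv_mul_cancel]
    exact one_mem _
  mul_mem' := by
    intro a b ha hb j x hx
    have h1 := hb j x hx
    have hbx : ((((b : MulAut R) x : R)) : Ω) ∈ Q j.succ :=
      stronglyClosed_aut_mem F (hsc _) ((mem_autGroup_iff F hRS (b : MulAut R)).1 b.2) hx
    have h2 := ha j _ hbx
    have h3 : (x : Ω)⁻¹ * ((((a * b : F.autGroup R) : MulAut R) x : R) : Ω) =
        ((x : Ω)⁻¹ * (((b : MulAut R) x : R) : Ω)) *
        ((((b : MulAut R) x : R) : Ω)⁻¹ * (((a : MulAut R) ((b : MulAut R) x) : R) : Ω)) := by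
      rw [Subgroup.coe_mul, MulAut.mul_apply]
      group
    show (x : Ω)⁻¹ * ((((a * b : F.autGroup R) : MulAut R) x : R) : Ω) ∈ Q j.castSucc
    rw [h3]
    exact mul_mem h1 h2
  inv_mem' := by
    intro a ha j x hx
    have hy : ((((a⁻¹ : F.autGroup R) : MulAut R) x : R) : Ω) ∈ Q j.succ :=
      stronglyClosed_aut_mem F (hsc _)
        ((mem_autGroup_iff F hRS ((a⁻¹ : F.autGroup R) : MulAut R)).1 (a⁻¹).2) hx
    have h1 := ha j _ hy
    have h2 := inv_mem h1
    have h3 : ((((a⁻¹ : F.autGroup R) : MulAut R) x : R) : Ω)⁻¹ *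
        (((a : MulAut R) (((a⁻¹ : F.autGroup R) : MulAut R) x) : R) : Ω) =
        ((x : Ω)⁻¹ * ((((a⁻¹ : F.autGroup R) : MulAut R) x : R) : Ω))⁻¹ := by
      rw [Subgroup.coe_inv, MulAut.apply_inv_self]
      group
    rw [h3, inv_inv] at h2
    exact h2

theorem KQ_normal (F : Cfsg.FusionSystem S) (R : Subgroup Ω) (hRS : R ≤ S) (n : ℕ)
    (Q : Fin (n + 1) → Subgroup Ω) (hsc : ∀ i, F.StronglyClosed (Q i)) :
    (KQ F R hRS n Q hsc).Normal := by
  constructor
  intro a ha g j x hx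
  have hy : ((((g⁻¹ : F.autGroup R) : MulAut R) x : R) : Ω) ∈ Q j.succ :=
    stronglyClosed_aut_mem F (hsc _)
      ((mem_autGroup_iff F hRS ((g⁻¹ : F.autGroup R) : MulAut R)).1 (g⁻¹).2) hx
  have h1 := ha j _ hy
  have hu : ((((g⁻¹ : F.autGroup R) : MulAut R) x)⁻¹ *
      (a : MulAut R) (((g⁻¹ : F.autGroup R) : MulAut R) x) : R).1 ∈ Q j.castSucc := h1
  have h2 := stronglyClosed_aut_mem F (hsc j.castSucc)
    ((mem_autGroup_iff F hRS (g : MulAut R)).1 g.2) hu
  have h3 : (g : MulAut R) ((((g⁻¹ : F.autGroup R) : MulAut R) x)⁻¹ *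
      (a : MulAut R) (((g⁻¹ : F.autGroup R) : MulAut R) x)) =
      x⁻¹ * ((g * a * g⁻¹ : F.autGroup R) : MulAut R) x := by
    rw [map_mul, map_inv, Subgroup.coe_inv, MulAut.apply_inv_self]
    rfl
  rw [h3] at h2
  exact h2

theorem KQ_trivial [Finite S] {p : ℕ} [Fact p.Prime] (hp : p ≠ 2) (hS : IsPGroup p S)
    (F : Cfsg.FusionSystem S) (P : Subgroup Ω) (hP : F.StronglyClosed P)
    (R : Subgroup Ω) (hRS : R ≤ S) (n : ℕ)
    (Q : Fin (n + 1) → Subgroup Ω) (hsc : ∀ i, F.StronglyClosed (Q i)) (h0 : Q 0 = ⊥)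
    (hlast : Q (Fin.last n) = Cfsg.omegaOne p P) (a : F.autGroup R)
    (ha : a ∈ KQ F R hRS n Q hsc) (m : ℕ) (hm : m.Coprime p) (ham : a ^ m = 1) (x : R)
    (hx : (x : Ω) ∈ P) : (a : MulAut R) x = x := by
  haveI : Finite R := finite_of_le hRS
  have hRp : IsPGroup p R := hS.to_le hRS
  have ham' : (a : MulAut R) ^ m = 1 := by
    rw [← Subgroup.coe_pow, ham]
    rfl
  have step1 : ∀ (i : Fin (n + 1)) (y : R), (y : Ω) ∈ Q i → (a : MulAut R) y = y := by
    intro i
    induction i using Fin.induction with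
    | zero =>
      intro y hy
      rw [h0, Subgroup.mem_bot] at hy
      have hy1 : y = 1 := Subtype.ext hy
      rw [hy1, map_one]
    | succ j ih =>
      intro y hy
      have h1 := ha j y hy
      have h2 : (a : MulAut R) (y⁻¹ * (a : MulAut R) y) = y⁻¹ * (a : MulAut R) y := ih _ h1
      exact aut_fix_of_coprime hRp (a : MulAut R) hm ham' h2
  have haF := (mem_autGroup_iff F hRS (a : MulAut R)).1 a.2
  have haiF := (mem_autGroup_iff F hRS ((a⁻¹ : F.autGroup R) : MulAut R)).1 (a⁻¹).2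
  refine aut_trivial_small_on hRp (P.subgroupOf R) (a : MulAut R) ?_ ?_ m hm ham' ?_ x
    (Subgroup.mem_subgroupOf.2 hx)
  · intro y hy
    exact Subgroup.mem_subgroupOf.2 (stronglyClosed_aut_mem F hP haF (Subgroup.mem_subgroupOf.1 hy))
  · intro y hy
    exact Subgroup.mem_subgroupOf.2 (stronglyClosed_aut_mem F hP haiF (Subgroup.mem_subgroupOf.1 hy))
  · rintro y hy (hyp | ⟨h2, -⟩)
    · apply step1 (Fin.last n) y
      rw [hlast]
      exact Subgroup.subset_closure ⟨Subgroup.mem_subgroupOf.1 hy, by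
        show (y : Ω) ^ p = 1
        rw [← Subgroup.coe_pow, hyp]
        rfl⟩
    · exact absurd h2 hp

/-- the chain `P ≤ ⊤` -/
def Dch (P : Subgroup Ω) : ℕ → Subgroup Ω
  | 0 => P
  | _ + 1 => ⊤

theorem main [Finite S] (p : ℕ) [Fact p.Prime] (hS : IsPGroup p S)
    (F : Cfsg.FusionSystem S) (hF : F.IsSaturated p) (hp : p ≠ 2) (P : Subgroup Ω)
    (hP : F.StronglyClosed P) :
    F.IsNormal P ↔ ∃ (n : ℕ) (Q : Fin (n + 1) → Subgroup Ω), Q 0 = ⊥ ∧
      Q (Fin.last n) = Cfsg.omegaOne p P ∧ Monotone Q ∧ (∀ i : Fin (n + 1), F.StronglyClosed (Q i)) ∧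
      ∀ i : Fin n, ⁅Q i.succ, P⁆ ≤ Q i.castSucc := by
  have hPS := hP.1
  constructor
  · intro hPn
    haveI : Finite P := finite_of_le hPS
    have hnil : Group.IsNilpotent P := (hS.to_le hPS).isNilpotent
    obtain ⟨n, hn⟩ := hnil.nilpotent'
    have hΩle : Cfsg.omegaOne p P ≤ P := by
      apply (Subgroup.closure_le _).2
      rintro x ⟨hx, -⟩
      exact hx
    haveI := omega_char p P
    have hΩsc : F.StronglyClosed (Cfsg.omegaOne p P) := by
      rw [omegaOne_eq_map]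
      exact stronglyClosed_of_characteristic F hPn _
    refine ⟨n, fun i => (Subgroup.upperCentralSeries P (i : ℕ)).map P.subtype ⊓ Cfsg.omegaOne p P,
      ?_, ?_, ?_, ?_, ?_⟩
    · simp
    · show (Subgroup.upperCentralSeries P ((Fin.last n : Fin (n + 1)) : ℕ)).map P.subtype ⊓
        Cfsg.omegaOne p P = Cfsg.omegaOne p P
      rw [Fin.val_last, hn, ← MonoidHom.range_eq_map, Subgroup.range_subtype]
      exact inf_eq_right.2 hΩle
    · intro i j hij
      exact inf_le_inf_right _ (Subgroup.map_mono (Subgroup.upperCentralSeries_mono P hij))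
    · intro i
      exact sc_inf F (stronglyClosed_of_characteristic F hPn _) hΩsc
    · intro i
      rw [Subgroup.commutator_le]
      rintro g₁ ⟨⟨z, hz, rfl⟩, hg₁o⟩ g₂ hg₂
      refine ⟨?_, ?_⟩
      · have h1 : ⁅z, (⟨g₂, hg₂⟩ : P)⁆ ∈ Subgroup.upperCentralSeries P (i : ℕ) :=
          (Subgroup.mem_upperCentralSeries_succ_iff).1 hz ⟨g₂, hg₂⟩
        exact ⟨_, h1, rfl⟩
      · have h2 := stronglyClosed_conj_mem F hΩsc (hPS hg₂) (inv_mem hg₁o)
        have h3 : ⁅(P.subtype z : Ω), g₂⁆ = (P.subtype z : Ω) * (g₂ * (P.subtype z : Ω)⁻¹ * g₂⁻¹) := by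
          rw [commutatorElement_def]
          group
        rw [h3]
        exact mul_mem hg₁o h2
  · rintro ⟨n, Q, h0, hlast, hmono, hsc, hcomm⟩
    apply isNormal_of_stronglyClosed_of_mem hS F hF hP
    intro R hcen hrad t htP ht
    have hRS := hcen.1
    refine mem_of_stab_chain hS F hcen hrad 1 (Dch P) (KQ F R hRS n Q hsc)
      (KQ_normal F R hRS n Q hsc) ?_ ?_ ?_ ht ?_ ?_
    · intro a ha m hm ham x hx
      exact KQ_trivial hp hS F P hP R hRS n Q hsc h0 hlast a ha m hm ham x hx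
    · intro x
      exact Subgroup.mem_top _
    · intro i β hβ x hx
      cases i with
      | zero => exact stronglyClosed_aut_mem F hP ((mem_autGroup_iff F hRS β).1 hβ) hx
      | succ i => exact Subgroup.mem_top _
    · intro h j x hx
      show (x : Ω)⁻¹ * ((conjAut S R ⟨t, ht⟩ x : R) : Ω) ∈ Q j.castSucc
      rw [conjAut_apply]
      have h2 : ⁅(x : Ω)⁻¹, t⁆ ∈ ⁅Q j.succ, P⁆ :=
        Subgroup.commutator_mem_commutator (Subgroup.inv_mem _ hx) htP
      have h3 := hcomm j h2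
      have h4 : ⁅(x : Ω)⁻¹, t⁆ = (x : Ω)⁻¹ * (t * x * t⁻¹) := by
        rw [commutatorElement_def]
        group
      rw [h4] at h3
      exact h3
    · intro i hi x _
      have hi0 : i = 0 := by omega
      subst hi0
      show (x : Ω)⁻¹ * (t * x * t⁻¹) ∈ P
      have h2 := stronglyClosed_conj_mem F hP (S.inv_mem (hRS x.2)) htP
      have h3 : (x : Ω)⁻¹ * (t * x * t⁻¹) = ((x : Ω)⁻¹ * t * (x : Ω)⁻¹⁻¹) * t⁻¹ := by group
      rw [h3]
      exact P.mul_mem h2 (P.inv_mem htP)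

end

/-- Let p be an odd prime, F a saturated fusion system over a finite p-group S and P a subgroup of S strongly closed in F. Then P is normal in F if and only if Ω₁(P) (the subgroup generated by the elements of order p of P) has a chain of subgroups 1 = Q₀ ≤ Q₁ ≤ ⋯ ≤ Qₙ = Ω₁(P), each strongly closed in F, with [Qᵢ₊₁, P] ≤ Qᵢ for all i. -/
theorem result {Ω : Type*} [Group Ω] {S : Subgroup Ω} [Finite S] (p : ℕ) [Fact p.Prime] (hS : IsPGroup p S) (F : Cfsg.FusionSystem S) (hF : F.IsSaturated p) (hp : p ≠ 2) (P : Subgroup Ω) (hP : F.StronglyClosed P) : F.IsNormal P ↔ ∃ (n : ℕ) (Q : Fin (n + 1) → Subgroup Ω), Q 0 = ⊥ ∧ Q (Fin.last n) = Cfsg.omegaOne p P ∧ Monotone Q ∧ (∀ i : Fin (n + 1), F.StronglyClosed (Q i)) ∧ ∀ i : Fin n, ⁅Q i.succ, P⁆ ≤ Q i.castSucc := by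
  exact main p hS F hF hp P hP

end Cfsg.Agent.S5236
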