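import Cfsg.Statements.S5245
-- import your own Cfsg.Agent.* helpers here
import Cfsg.Agent.Lib.helper26.Realize
import Cfsg.Agent.Lib.helper26.Small

set_option autoImplicit false
open Cfsg

namespace Cfsg.Agent.S5245

section
open Cfsg.Agent.Lib.helper26 Cfsg Cfsg.FusionSystem

variable {Ω : Type*} [Group Ω] {S : Subgroup Ω}

/-- `[S, β]` as a subgroup of the ambient group. -/
def commSub (β : MulAut S) : Subgroup Ω :=
  Subgroup.closure {y : Ω | ∃ x : S, y = (x : Ω)⁻¹ * (β x : S)}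

theorem commSub_le (β : MulAut S) : commSub β ≤ S := by
  unfold commSub
  rw [Subgroup.closure_le]
  rintro _ ⟨x, rfl⟩
  exact S.mul_mem (S.inv_mem x.2) (β x).2

theorem commSub_gen (β : MulAut S) (x : S) : (x : Ω)⁻¹ * (β x : S) ∈ commSub β :=
  Subgroup.subset_closure ⟨x, rfl⟩

theorem commSub_map (β α : MulAut S) (hα : ∀ x : S, ∃ x' : S, α (x⁻¹ * β x) = x'⁻¹ * β x') :
    ∀ y (hy : y ∈ commSub β), ((α ⟨y, commSub_le β hy⟩ : S) : Ω) ∈ commSub β := by
  intro y hy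
  unfold commSub at hy
  induction hy using Subgroup.closure_induction with
  | mem y hy =>
    obtain ⟨x, rfl⟩ := hy
    obtain ⟨x', hx'⟩ := hα x
    have h1 : (⟨(x : Ω)⁻¹ * (β x : S), commSub_le β (commSub_gen β x)⟩ : S) = x⁻¹ * β x :=
      Subtype.ext rfl
    have h2 : ((α ⟨(x : Ω)⁻¹ * (β x : S), commSub_le β (commSub_gen β x)⟩ : S) : Ω)
        = (x' : Ω)⁻¹ * (β x' : S) := by
      rw [h1, hx']; rfl
    rw [h2]
    exact commSub_gen β x'
  | one =>
    have h1 : (⟨1, commSub_le β (commSub β).one_mem⟩ : S) = 1 := Subtype.ext rfl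
    have h2 : ((α ⟨1, commSub_le β (commSub β).one_mem⟩ : S) : Ω) = 1 := by
      rw [h1, map_one]; rfl
    rw [h2]
    exact (commSub β).one_mem
  | mul x y hx hy ihx ihy =>
    have hx' : x ∈ commSub β := hx
    have hy' : y ∈ commSub β := hy
    have h1 : (⟨x * y, commSub_le β ((commSub β).mul_mem hx' hy')⟩ : S)
        = ⟨x, commSub_le β hx'⟩ * ⟨y, commSub_le β hy'⟩ := Subtype.ext rfl
    have h2 : ((α ⟨x * y, commSub_le β ((commSub β).mul_mem hx' hy')⟩ : S) : Ω)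
        = ((α ⟨x, commSub_le β hx'⟩ : S) : Ω) * ((α ⟨y, commSub_le β hy'⟩ : S) : Ω) := by
      rw [h1, map_mul]; rfl
    rw [h2]
    exact (commSub β).mul_mem ihx ihy
  | inv x hx ihx =>
    have hx' : x ∈ commSub β := hx
    have h1 : (⟨x⁻¹, commSub_le β ((commSub β).inv_mem hx')⟩ : S)
        = (⟨x, commSub_le β hx'⟩ : S)⁻¹ := Subtype.ext rfl
    have h2 : ((α ⟨x⁻¹, commSub_le β ((commSub β).inv_mem hx')⟩ : S) : Ω)
        = ((α ⟨x, commSub_le β hx'⟩ : S) : Ω)⁻¹ := by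
      rw [h1, map_inv]; rfl
    rw [h2]
    exact (commSub β).inv_mem ihx

theorem commSub_map_self (β : MulAut S) :
    ∀ y (hy : y ∈ commSub β), ((β ⟨y, commSub_le β hy⟩ : S) : Ω) ∈ commSub β :=
  commSub_map β β (fun x => ⟨β x, by rw [map_mul, map_inv]⟩)

theorem commSub_map_inv (β : MulAut S) :
    ∀ y (hy : y ∈ commSub β), ((β⁻¹ ⟨y, commSub_le β hy⟩ : S) : Ω) ∈ commSub β :=
  commSub_map β β⁻¹ (fun x => ⟨β⁻¹ x, by
    rw [map_mul, map_inv, MulAut.inv_apply_self, MulAut.apply_inv_self]⟩)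

/-- the restriction of `β` to `[S, β]` -/
def commAut (β : MulAut S) : MulAut (commSub β) where
  toFun y := ⟨((β ⟨y, commSub_le β y.2⟩ : S) : Ω), commSub_map_self β y y.2⟩
  invFun y := ⟨((β⁻¹ ⟨y, commSub_le β y.2⟩ : S) : Ω), commSub_map_inv β y y.2⟩
  left_inv y := by
    apply Subtype.ext
    show ((β⁻¹ ⟨((β ⟨y, _⟩ : S) : Ω), _⟩ : S) : Ω) = y
    have : (⟨((β ⟨y, commSub_le β y.2⟩ : S) : Ω), commSub_le β (commSub_map_self β y y.2)⟩ : S)
        = β ⟨y, commSub_le β y.2⟩ := Subtype.ext rfl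
    rw [this, MulAut.inv_apply_self]
  right_inv y := by
    apply Subtype.ext
    show ((β ⟨((β⁻¹ ⟨y, _⟩ : S) : Ω), _⟩ : S) : Ω) = y
    have : (⟨((β⁻¹ ⟨y, commSub_le β y.2⟩ : S) : Ω), commSub_le β (commSub_map_inv β y y.2)⟩ : S)
        = β⁻¹ ⟨y, commSub_le β y.2⟩ := Subtype.ext rfl
    rw [this, MulAut.apply_inv_self]
  map_mul' y z := by
    apply Subtype.ext
    show ((β ⟨((y * z : commSub β) : Ω), _⟩ : S) : Ω)
      = ((β ⟨y, commSub_le β y.2⟩ : S) : Ω) * ((β ⟨z, commSub_le β z.2⟩ : S) : Ω)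
    have : (⟨((y * z : commSub β) : Ω), commSub_le β (y * z).2⟩ : S)
        = ⟨y, commSub_le β y.2⟩ * ⟨z, commSub_le β z.2⟩ := Subtype.ext rfl
    rw [this, map_mul]; rfl

theorem commAut_apply (β : MulAut S) (y : commSub β) :
    ((commAut β y : commSub β) : Ω) = ((β ⟨y, commSub_le β y.2⟩ : S) : Ω) := rfl

theorem commAut_pow (β : MulAut S) (j : ℕ) (y : commSub β) :
    (((commAut β ^ j) y : commSub β) : Ω) = (((β ^ j) ⟨y, commSub_le β y.2⟩ : S) : Ω) := by
  induction j generalizing y with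
  | zero => rfl
  | succ j ih =>
    rw [pow_succ', pow_succ', MulAut.mul_apply, MulAut.mul_apply, commAut_apply]
    have h1 : (⟨(((commAut β ^ j) y : commSub β) : Ω), commSub_le β ((commAut β ^ j) y).2⟩ : S)
        = (β ^ j) ⟨y, commSub_le β y.2⟩ := Subtype.ext (ih y)
    rw [h1]

theorem core [Finite S] (p : ℕ) [Fact p.Prime] (hS : IsPGroup p S)
    (F : Cfsg.FusionSystem S)
    (hsp : ∀ (T : Subgroup Ω) (E : Cfsg.FusionSystem T), E.IsSaturated p → E.IsSubsystemOf F →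
        (T = S ∧ ∀ P : Subgroup Ω, E.Hom P = F.Hom P) ∨
        (∀ P : Subgroup Ω, E.Hom P = (Cfsg.innerFusionSystem T).Hom P))
    (q : ℕ) (β : MulAut S) (hq : q.Prime) (hqp : q ≠ p) (hβA : β ∈ F.autGroup S)
    (hβo : orderOf β = q)
    (hchar : ∀ (P : Subgroup Ω) (φ : P →* Ω), φ ∈ F.Hom P → ∃ (hP : P ≤ S), ∃ t ∈ S,
        ∃ z ∈ Subgroup.zpowers β, ∀ x : P, φ x = t * ((z ⟨x, hP x.2⟩ : S) : Ω) * t⁻¹) :
    F.IsNormal S ∧ F.focalSubgroup = S ∧ F.hyperfocalSubgroup p = S ∧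
      ∃ (q : ℕ) (β : MulAut ↥S), q.Prime ∧ q ≠ p ∧ β ∈ F.autGroup S ∧ orderOf β = q ∧
        (F.autGroup S : Subgroup (MulAut ↥S)) = Cfsg.Inn ↥S ⊔ Subgroup.zpowers β := by
  have hp := (Fact.out : p.Prime)
  have hβq : β ^ q = 1 := by rw [← hβo]; exact pow_orderOf_eq_one β
  have hβ1 : β ≠ 1 := by
    intro h
    rw [h, orderOf_one] at hβo
    exact hq.one_lt.ne hβo
  have hβS : S.subtype.comp β.toMonoidHom ∈ F.Hom S := (mem_autGroup_iff F le_rfl β).1 hβA
  have hnormal : F.IsNormal S := by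
    refine ⟨le_rfl, fun P φ hφ => ?_⟩
    obtain ⟨hP, t, ht, z, hz, hφx⟩ := hchar P φ hφ
    have hzA : z ∈ F.autGroup S := (Subgroup.zpowers_le.2 hβA) hz
    have h1 : S.subtype.comp z.toMonoidHom ∈ F.Hom S := (mem_autGroup_iff F le_rfl z).1 hzA
    have h3 : conjHom S t ∈ F.Hom S := F.conj_mem le_rfl ht
    have hPS : P ⊔ S ≤ S := sup_le hP le_rfl
    have h2 : (S.subtype.comp z.toMonoidHom).comp (Subgroup.inclusion hPS) ∈ F.Hom (P ⊔ S) :=
      restrict_mem F h1 hPS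
    obtain ⟨ψ, hψdef⟩ : ∃ ψ : ↥(P ⊔ S) →* Ω,
        ψ = (conjHom S t).comp ((z.toMonoidHom).comp (Subgroup.inclusion hPS)) := ⟨_, rfl⟩
    have hψx : ∀ y : ↥(P ⊔ S), ψ y = t * ((z ⟨y, hPS y.2⟩ : S) : Ω) * t⁻¹ := by
      intro y; rw [hψdef]; rfl
    have hψ : ψ ∈ F.Hom (P ⊔ S) :=
      comp_mem' F h2 h3 (fun y => (z ⟨y, hPS y.2⟩).2) ψ (fun y => by rw [hψx]; rfl)
    refine ⟨ψ, hψ, fun x => ?_, ?_⟩
    · rw [hψx, hφx]; rfl
    · ext y
      constructor
      · rintro ⟨w, -, rfl⟩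
        rw [hψx]
        exact S.mul_mem (S.mul_mem ht (z _).2) (S.inv_mem ht)
      · intro hy
        have hw : (t⁻¹ * y * t) ∈ S := S.mul_mem (S.mul_mem (S.inv_mem ht) hy) ht
        refine ⟨⟨((z⁻¹ ⟨t⁻¹ * y * t, hw⟩ : S) : Ω),
          (le_sup_right : S ≤ P ⊔ S) (z⁻¹ ⟨t⁻¹ * y * t, hw⟩).2⟩, ?_, ?_⟩
        · exact Subgroup.mem_subgroupOf.2 (z⁻¹ ⟨t⁻¹ * y * t, hw⟩).2
        · rw [hψx]
          have h4 : (z ⟨((z⁻¹ ⟨t⁻¹ * y * t, hw⟩ : S) : Ω), (z⁻¹ ⟨t⁻¹ * y * t, hw⟩).2⟩ : S)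
              = ⟨t⁻¹ * y * t, hw⟩ := MulAut.apply_inv_self _ _ _
          rw [h4]
          group
  have haut : (F.autGroup S : Subgroup (MulAut S)) = Inn S ⊔ Subgroup.zpowers β := by
    apply le_antisymm
    · intro α hα
      have h1 := (mem_autGroup_iff F le_rfl α).1 hα
      obtain ⟨hP, t, ht, z, hz, hx⟩ := hchar S _ h1
      have h2 : α = MulAut.conj (⟨t, ht⟩ : S) * z := by
        apply MulEquiv.ext
        intro x
        apply Subtype.ext
        rw [MulAut.mul_apply, MulAut.conj_apply]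
        exact hx x
      rw [h2]
      exact Subgroup.mul_mem _ (Subgroup.mem_sup_left ⟨_, rfl⟩) (Subgroup.mem_sup_right hz)
    · apply sup_le
      · rintro _ ⟨w, rfl⟩
        rw [mem_autGroup_iff F le_rfl]
        have h1 := F.conj_mem (P := S) le_rfl w.2
        have h2 : S.subtype.comp (MulAut.conj w).toMonoidHom = conjHom S (w : Ω) := by
          ext x
          rfl
        rw [h2]
        exact h1
      · exact Subgroup.zpowers_le.2 hβA
  -- the commutator subgroup is everything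
  have hT₂S := commSub_le β
  have hγA : commAut β ∈ F.autGroup (commSub β) := by
    rw [mem_autGroup_iff F hT₂S]
    exact restrict_mem' F hβS hT₂S _ (fun x => rfl)
  have hγq : commAut β ^ q = 1 := by
    apply MulEquiv.ext
    intro y
    apply Subtype.ext
    rw [commAut_pow, hβq]
    rfl
  have hγ1 : commAut β ≠ 1 := by
    intro h
    apply hβ1
    have hfix : ∀ t : S, (t : Ω) ∈ commSub β → β t = t := by
      intro t ht
      have h1 := commAut_apply β ⟨t, ht⟩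
      rw [h] at h1
      exact Subtype.ext h1.symm
    apply MulEquiv.ext
    intro x
    obtain ⟨t, ht_def⟩ : ∃ t : S, t = x⁻¹ * β x := ⟨_, rfl⟩
    have ht : (t : Ω) ∈ commSub β := by rw [ht_def]; exact commSub_gen β x
    have hβx : β x = x * t := by rw [ht_def]; group
    have hind : ∀ n : ℕ, (β ^ n) x = x * t ^ n := by
      intro n
      induction n with
      | zero => simp
      | succ n ih =>
        have h2 : (β ^ (n + 1)) x = β ((β ^ n) x) := by rw [pow_succ']; rfl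
        rw [h2, ih, map_mul, map_pow, hfix t ht, hβx, pow_succ', mul_assoc]
    have h3 := hind q
    rw [hβq] at h3
    have h4 : t ^ q = 1 := by
      have : x = x * t ^ q := h3
      exact (mul_eq_left.1 this.symm)
    obtain ⟨k, hk⟩ := hS t
    have h5 : t = 1 :=
      eq_one_of_pow_coprime hk h4 (Nat.Coprime.pow_left k ((Nat.coprime_primes hp hq).2 hqp.symm))
    rw [hβx, h5, mul_one]
    rfl
  obtain ⟨E, hEsat, hEsub, hEni, -⟩ := sparse_sub hS F hT₂S (commAut β) hγA hq hqp hγq hγ1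
  have hT₂ : commSub β = S := by
    rcases hsp _ E hEsat hEsub with ⟨h, -⟩ | h
    · exact h
    · exact absurd h hEni
  refine ⟨hnormal, ?_, ?_, q, β, hq, hqp, hβA, hβo, haut⟩
  · apply le_antisymm
    · unfold FusionSystem.focalSubgroup
      rw [Subgroup.closure_le]
      rintro _ ⟨P, φ, x, hφ, rfl⟩
      exact S.mul_mem (S.inv_mem ((F.le_of_mem hφ).1 x.2)) ((F.le_of_mem hφ).2 x)
    · refine le_of_eq_of_le hT₂.symm ?_
      unfold commSub FusionSystem.focalSubgroup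
      apply Subgroup.closure_mono
      rintro _ ⟨x, rfl⟩
      exact ⟨S, S.subtype.comp β.toMonoidHom, x, hβS, rfl⟩
  · apply le_antisymm
    · unfold FusionSystem.hyperfocalSubgroup
      rw [Subgroup.closure_le]
      rintro _ ⟨P, α, x, hP, -, rfl⟩
      exact S.mul_mem (S.inv_mem (hP x.2)) (hP ((α : MulAut P) x).2)
    · refine le_of_eq_of_le hT₂.symm ?_
      unfold commSub FusionSystem.hyperfocalSubgroup
      apply Subgroup.closure_mono
      rintro _ ⟨x, rfl⟩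
      refine ⟨S, ⟨β, hβA⟩, x, le_rfl, ?_, rfl⟩
      apply Subgroup.subset_closure
      show Nat.Coprime (orderOf (⟨β, hβA⟩ : F.autGroup S)) p
      rw [Subgroup.orderOf_mk, hβo]
      exact (Nat.coprime_primes hq hp).2 hqp

theorem main [Finite S] (p : ℕ) [Fact p.Prime] (hS : IsPGroup p S)
    (F : Cfsg.FusionSystem S) (hF : F.IsSaturated p)
    (hxs : ¬ (∀ P : Subgroup Ω, F.Hom P = (Cfsg.innerFusionSystem S).Hom P) ∧
      ∀ (T : Subgroup Ω) (E : Cfsg.FusionSystem T), E.IsSaturated p → E.IsSubsystemOf F →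
        (T = S ∧ ∀ P : Subgroup Ω, E.Hom P = F.Hom P) ∨
        (∀ P : Subgroup Ω, E.Hom P = (Cfsg.innerFusionSystem T).Hom P)) :
    F.IsNormal S ∧ F.focalSubgroup = S ∧ F.hyperfocalSubgroup p = S ∧
      ∃ (q : ℕ) (β : MulAut ↥S), q.Prime ∧ q ≠ p ∧ β ∈ F.autGroup S ∧ orderOf β = q ∧
        (F.autGroup S : Subgroup (MulAut ↥S)) = Cfsg.Inn ↥S ⊔ Subgroup.zpowers β := by
  have hp := (Fact.out : p.Prime)
  obtain ⟨hni, hsp⟩ := hxs
  have h1 : ∃ (W : Subgroup Ω), W ≤ S ∧ ∃ γ : MulAut W, γ ∈ F.autGroup W ∧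
      ∃ m : ℕ, m.Coprime p ∧ γ ^ m = 1 ∧ γ ≠ 1 := by
    by_contra hcon
    apply hni
    apply inner_of_pprime_trivial hS F hF
    intro W hW γ hγ m hm hγm
    by_contra hγ1
    exact hcon ⟨W, hW, γ, hγ, m, hm, hγm, hγ1⟩
  obtain ⟨W, hW, γ, hγ, m, hm, hγm, hγ1⟩ := h1
  haveI : Finite W := finite_of_le hW
  obtain ⟨q, hq, hqn⟩ := Nat.exists_prime_and_dvd (n := orderOf γ)
    (by rwa [Ne, orderOf_eq_one_iff])
  have hqm : q ∣ m := hqn.trans (orderOf_dvd_of_pow_eq_one hγm)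
  have hqp : q ≠ p := by
    rintro rfl
    have h2 : q ∣ Nat.gcd m q := Nat.dvd_gcd hqm dvd_rfl
    rw [hm] at h2
    exact hq.one_lt.ne' (Nat.dvd_one.1 h2)
  obtain ⟨β, hβdef⟩ : ∃ β : MulAut W, β = γ ^ (orderOf γ / q) := ⟨_, rfl⟩
  have hβo : orderOf β = q := by
    rw [hβdef]
    exact orderOf_pow_orderOf_div (orderOf_pos γ).ne' hqn
  have hβA : β ∈ F.autGroup W := hβdef ▸ (F.autGroup W).pow_mem hγ _
  have hβq : β ^ q = 1 := by rw [← hβo]; exact pow_orderOf_eq_one β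
  have hβ1 : β ≠ 1 := by
    intro h
    rw [h, orderOf_one] at hβo
    exact hq.one_lt.ne hβo
  obtain ⟨E, hEsat, hEsub, hEni, hEchar⟩ := sparse_sub hS F hW β hβA hq hqp hβq hβ1
  rcases hsp W E hEsat hEsub with ⟨hWS, hEF⟩ | hinn
  swap
  · exact absurd hinn hEni
  subst hWS
  exact core p hS F hsp q β hq hqp hβA hβo (fun P φ hφ => hEchar P φ ((hEF P).symm ▸ hφ))

end

/-- Let F be an extremely sparse fusion system over a finite p-group S (saturated, not the inner system, and every saturated fusion system over any subgroup T of S contained in F is F itself or the inner system of T). Then S is normal in F, the focal and hyperfocal subgroups of F are both S, and Aut_F(S) is generated by the inner automorphisms of S together with a single automorphism of prime order q ≠ p (F is the fusion system of the semidirect product of S by a cyclic group of prime order). -/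
theorem result {Ω : Type*} [Group Ω] {S : Subgroup Ω} [Finite S] (p : ℕ) [Fact p.Prime] (hS : IsPGroup p S) (F : Cfsg.FusionSystem S) (hF : F.IsSaturated p) (hxs : ¬ (∀ P : Subgroup Ω, F.Hom P = (Cfsg.innerFusionSystem S).Hom P) ∧ ∀ (T : Subgroup Ω) (E : Cfsg.FusionSystem T), E.IsSaturated p → E.IsSubsystemOf F → (T = S ∧ ∀ P : Subgroup Ω, E.Hom P = F.Hom P) ∨ (∀ P : Subgroup Ω, E.Hom P = (Cfsg.innerFusionSystem T).Hom P)) : F.IsNormal S ∧ F.focalSubgroup = S ∧ F.hyperfocalSubgroup p = S ∧ ∃ (q : ℕ) (β : MulAut ↥S), q.Prime ∧ q ≠ p ∧ β ∈ F.autGroup S ∧ orderOf β = q ∧ (F.autGroup S : Subgroup (MulAut ↥S)) = Cfsg.Inn ↥S ⊔ Subgroup.zpowers β := by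
  exact main p hS F hF hxs

end Cfsg.Agent.S5245
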