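import Cfsg.Statements.S5246
-- import your own Cfsg.Agent.* helpers here
import Cfsg.Agent.S5247
import Cfsg.Agent.Lib.helper25.SubgroupFusion
import Cfsg.Agent.Lib.helper25.GroupFusion
import Cfsg.Agent.Lib.helper25.KNorm1

set_option autoImplicit false
open Cfsg

namespace Cfsg.Agent.S5246

section
open Cfsg.Agent.Lib.helper26 Cfsg Cfsg.FusionSystem
open scoped commutatorElement

theorem comm_pow' {G : Type*} [Group G] (a g d : G) (hd : d = a * g * a⁻¹ * g⁻¹)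
    (hgd : g * d = d * g) (k : ℕ) : a * g ^ k * a⁻¹ * (g ^ k)⁻¹ = d ^ k := by
  induction k with
  | zero => simp
  | succ k ih =>
    have h1 : g ^ k * a⁻¹ * (g ^ k)⁻¹ = a⁻¹ * d ^ k := by rw [← ih]; group
    have hc : g * d ^ k = d ^ k * g := ((show Commute g d from hgd).pow_right k).eq
    calc a * g ^ (k + 1) * a⁻¹ * (g ^ (k + 1))⁻¹
        = a * g * (g ^ k * a⁻¹ * (g ^ k)⁻¹) * g⁻¹ := by rw [pow_succ']; group
      _ = a * g * (a⁻¹ * d ^ k) * g⁻¹ := by rw [h1]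
      _ = (a * g * a⁻¹ * g⁻¹) * (g * d ^ k) * g⁻¹ := by group
      _ = d * (d ^ k * g) * g⁻¹ := by rw [← hd, hc]
      _ = d ^ (k + 1) := by rw [pow_succ', mul_assoc, mul_inv_cancel_right]

/-- criterion for membership in `O_p(N(P)/C(P))` -/
theorem mk_mem_pCore_of {G : Type*} [Group G] {p : ℕ} [Fact p.Prime] (P' : Subgroup G)
    (D : Subgroup G)
    (hnorm : ∀ k ∈ Subgroup.normalizer (P' : Set G), ∀ d ∈ D, k * d * k⁻¹ ∈ D)
    (hp : ∀ d ∈ D, ∃ j : ℕ, d ^ p ^ j ∈ Subgroup.centralizer (P' : Set G)) (g : G)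
    (hg : g ∈ Subgroup.normalizer (P' : Set G)) (hgD : g ∈ D) :
    (QuotientGroup.mk (s := (Subgroup.centralizer (P' : Set G)).subgroupOf
        (Subgroup.normalizer (P' : Set G))) (⟨g, hg⟩ : ↥(Subgroup.normalizer (P' : Set G)))) ∈
      pCore p (↥(Subgroup.normalizer (P' : Set G)) ⧸
        (Subgroup.centralizer (P' : Set G)).subgroupOf (Subgroup.normalizer (P' : Set G))) := by
  have hn : (D.subgroupOf (Subgroup.normalizer (P' : Set G))).Normal := by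
    constructor
    intro d hd k
    rw [Subgroup.mem_subgroupOf] at hd ⊢
    exact hnorm k k.2 d hd
  have hn' := hn.map (QuotientGroup.mk' ((Subgroup.centralizer (P' : Set G)).subgroupOf
    (Subgroup.normalizer (P' : Set G)))) (QuotientGroup.mk'_surjective _)
  have hp' : IsPGroup p ((D.subgroupOf (Subgroup.normalizer (P' : Set G))).map
      (QuotientGroup.mk' ((Subgroup.centralizer (P' : Set G)).subgroupOf
        (Subgroup.normalizer (P' : Set G))))) := by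
    rintro ⟨_, ⟨d, hd, rfl⟩⟩
    obtain ⟨j, hj⟩ := hp d (Subgroup.mem_subgroupOf.1 hd)
    refine ⟨j, Subtype.ext ?_⟩
    show (QuotientGroup.mk' _ d) ^ p ^ j = 1
    rw [← map_pow]
    exact (QuotientGroup.eq_one_iff _).2 (Subgroup.mem_subgroupOf.2 hj)
  exact le_pCore hn' hp' ⟨⟨g, hg⟩, Subgroup.mem_subgroupOf.2 hgD, rfl⟩

theorem main {Ω : Type*} [Group Ω] [Finite Ω] {p : ℕ} [Fact p.Prime] (P : Sylow p Ω) :
    Cfsg.IsNormalizerPStable p Ω ↔ (∀ Q : Subgroup Ω,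
      (Cfsg.groupFusionSystem (P : Subgroup Ω)).IsFullyNormalized Q → ∀ χ : MulAut ↥Q,
      χ ∈ (Cfsg.groupFusionSystem (P : Subgroup Ω)).autGroup Q →
      (∀ a : ↥Q, (χ a⁻¹) * a * (χ a⁻¹) * (χ (χ a)) = 1) →
      χ ∈ ((Cfsg.pCore p ↥((Cfsg.groupFusionSystem (P : Subgroup Ω)).autGroup Q)).map
        ((Cfsg.groupFusionSystem (P : Subgroup Ω)).autGroup Q).subtype :
          Subgroup (MulAut ↥Q))) := by
  have hAut : ∀ Q : Subgroup Ω, Q ≤ (P : Subgroup Ω) →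
      (Cfsg.groupFusionSystem (P : Subgroup Ω)).autGroup Q = Q.normalizerMonoidHom.range := by
    intro Q hQ
    rw [Cfsg.Agent.Lib.helper25.groupFusionSystem_eq,
      Cfsg.Agent.Lib.helper25.subFusion_autGroup le_top hQ,
      Cfsg.Agent.Lib.helper25.autInducedBy_top_eq_range]
  constructor
  · intro hG Q hQ χ hχ hq
    have hQP : Q ≤ (P : Subgroup Ω) := hQ.1
    have hQp : IsPGroup p Q := P.isPGroup'.to_le hQP
    have hχ' := hχ
    rw [hAut Q hQP] at hχ'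
    obtain ⟨⟨g, hg⟩, rfl⟩ := hχ'
    have hcoe : ∀ x : Q, ((Q.normalizerMonoidHom ⟨g, hg⟩ x : Q) : Ω) = g * x * g⁻¹ :=
      fun x => rfl
    -- `g` commutes with the commutators `[a, g]`
    have hcomm1 : ∀ a ∈ Q, g * (a * g * a⁻¹ * g⁻¹) = (a * g * a⁻¹ * g⁻¹) * g := by
      intro a ha
      have h := congrArg Subtype.val (hq ⟨a, ha⟩⁻¹)
      simp only [Subgroup.coe_mul, Subgroup.coe_inv, Subgroup.coe_one, hcoe, inv_inv] at h
      have e : g * (a * g * a⁻¹ * g⁻¹) * g⁻¹ =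
          (a * g * a⁻¹ * g⁻¹) * (g * a * g⁻¹ * a⁻¹ * (g * a * g⁻¹) * (g * (g * a⁻¹ * g⁻¹) * g⁻¹)) := by
        group
      rw [h, mul_one] at e
      exact mul_inv_eq_iff_eq_mul.1 e
    have hcomm : ⁅⁅Q, Subgroup.zpowers g⁆, Subgroup.zpowers g⁆ = ⊥ := by
      rw [Subgroup.commutator_eq_bot_iff_le_centralizer, Subgroup.commutator_le]
      intro a ha h hh
      rw [← mem_powers_iff_mem_zpowers] at hh
      obtain ⟨k, rfl⟩ := hh
      rw [commutatorElement_def, comm_pow' a g _ rfl (hcomm1 a ha) k]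
      rw [Subgroup.mem_centralizer_iff]
      intro z hz
      obtain ⟨j, rfl⟩ := Subgroup.mem_zpowers_iff.1 hz
      exact (((show Commute g (a * g * a⁻¹ * g⁻¹) from hcomm1 a ha).zpow_left j).pow_right k).eq
    have h := hG Q hQp g hg hcomm
    rw [Cfsg.Agent.S5247.mem_pCoreOf_iff]
    have hker : (Subgroup.centralizer (Q : Set Ω)).subgroupOf (Subgroup.normalizer (Q : Set Ω)) ≤
        Q.normalizerMonoidHom.ker := by
      rw [Subgroup.normalizerMonoidHom_ker]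
    refine ⟨(pCore p _).map (QuotientGroup.lift _ Q.normalizerMonoidHom hker), ?_, ?_, ?_,
      ⟨_, h, rfl⟩⟩
    · rintro _ ⟨y, -, rfl⟩
      obtain ⟨n, rfl⟩ := QuotientGroup.mk_surjective y
      rw [hAut Q hQP]
      exact ⟨n, rfl⟩
    · rintro k hk _ ⟨y, hy, rfl⟩
      rw [hAut Q hQP] at hk
      obtain ⟨n₀, rfl⟩ := hk
      refine ⟨QuotientGroup.mk n₀ * y * (QuotientGroup.mk n₀)⁻¹,
        (pCore_normal p _).conj_mem y hy _, ?_⟩
      rw [map_mul, map_mul, map_inv]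
      rfl
    · obtain ⟨P₁⟩ : Nonempty (Sylow p (↥(Subgroup.normalizer (Q : Set Ω)) ⧸
        (Subgroup.centralizer (Q : Set Ω)).subgroupOf (Subgroup.normalizer (Q : Set Ω)))) :=
        inferInstance
      exact (P₁.isPGroup'.to_le (pCore_le_sylow P₁)).map _
  · intro hF P' hP' g hg hcomm
    have hScard : Nat.card (P : Subgroup Ω) = p ^ (Nat.card (⊤ : Subgroup Ω)).factorization p := by
      rw [Subgroup.card_top]
      exact P.card_eq_multiplicity
    obtain ⟨x, -, hx⟩ := Cfsg.Agent.Lib.helper25.exists_conj_le_of_sylCard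
      (le_top : (P : Subgroup Ω) ≤ ⊤) hScard hP' le_top
    obtain ⟨Q, hconj, hfn⟩ := Cfsg.Agent.Lib.helper25.exists_fullyNormalized_isConj
      (Cfsg.groupFusionSystem (P : Subgroup Ω)) hx
    rw [Cfsg.Agent.Lib.helper25.groupFusionSystem_eq,
      Cfsg.Agent.Lib.helper25.subFusion_isConj_iff] at hconj
    obtain ⟨-, hQP, y, -, hy⟩ := hconj
    rw [Cfsg.Agent.Lib.helper25.map_cj_map_cj] at hy
    obtain ⟨t, ht⟩ : ∃ t, t = y * x := ⟨_, rfl⟩
    rw [← ht] at hy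
    have hA : ∀ a ∈ P', t * a * t⁻¹ ∈ Q := by
      intro a ha
      rw [← hy]
      exact ⟨a, ha, rfl⟩
    have hB : ∀ b ∈ Q, t⁻¹ * b * t ∈ P' := by
      intro b hb
      rw [← hy] at hb
      obtain ⟨a, ha, rfl⟩ := hb
      have e : t⁻¹ * (MulAut.conj t).toMonoidHom a * t = a := by
        show t⁻¹ * (t * a * t⁻¹) * t = a
        group
      rw [e]
      exact ha
    -- transport of normalizers and centralizers
    have hN1 : ∀ n ∈ Subgroup.normalizer (P' : Set Ω), t * n * t⁻¹ ∈ Subgroup.normalizer (Q : Set Ω) := by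
      intro n hn
      apply Cfsg.Agent.Lib.helper25.mem_normalizer_of_forall_mem
      intro b hb
      have h1 := (Subgroup.mem_normalizer_iff.1 hn _).1 (hB b hb)
      have h2 := hA _ h1
      have e : t * n * t⁻¹ * b * (t * n * t⁻¹)⁻¹ = t * (n * (t⁻¹ * b * t) * n⁻¹) * t⁻¹ := by group
      rw [e]
      exact h2
    have hN2 : ∀ m ∈ Subgroup.normalizer (Q : Set Ω), t⁻¹ * m * t ∈ Subgroup.normalizer (P' : Set Ω) := by
      intro m hm
      apply Cfsg.Agent.Lib.helper25.mem_normalizer_of_forall_mem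
      intro a ha
      have h1 := (Subgroup.mem_normalizer_iff.1 hm _).1 (hA a ha)
      have h2 := hB _ h1
      have e : t⁻¹ * m * t * a * (t⁻¹ * m * t)⁻¹ = t⁻¹ * (m * (t * a * t⁻¹) * m⁻¹) * t := by group
      rw [e]
      exact h2
    have hg' := hN1 g hg
    -- the quadratic condition
    have hcg : ∀ a ∈ P', g * (a * g * a⁻¹ * g⁻¹) = (a * g * a⁻¹ * g⁻¹) * g := by
      intro a ha
      have h1 : ⁅a, g⁆ ∈ ⁅P', Subgroup.zpowers g⁆ :=
        Subgroup.commutator_mem_commutator ha (Subgroup.mem_zpowers g)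
      have h2 : ⁅⁅a, g⁆, g⁆ ∈ ⁅⁅P', Subgroup.zpowers g⁆, Subgroup.zpowers g⁆ :=
        Subgroup.commutator_mem_commutator h1 (Subgroup.mem_zpowers g)
      rw [hcomm, Subgroup.mem_bot, commutatorElement_eq_one_iff_mul_comm, commutatorElement_def] at h2
      exact h2.symm
    have hχ : Q.normalizerMonoidHom ⟨t * g * t⁻¹, hg'⟩ ∈
        (Cfsg.groupFusionSystem (P : Subgroup Ω)).autGroup Q := by
      rw [hAut Q hQP]
      exact ⟨_, rfl⟩
    have hq : ∀ b : ↥Q, (Q.normalizerMonoidHom ⟨t * g * t⁻¹, hg'⟩ b⁻¹) * b *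
        (Q.normalizerMonoidHom ⟨t * g * t⁻¹, hg'⟩ b⁻¹) *
        (Q.normalizerMonoidHom ⟨t * g * t⁻¹, hg'⟩ (Q.normalizerMonoidHom ⟨t * g * t⁻¹, hg'⟩ b)) = 1 := by
      rintro ⟨b, hb⟩
      apply Subtype.ext
      show (t * g * t⁻¹) * b⁻¹ * (t * g * t⁻¹)⁻¹ * b * ((t * g * t⁻¹) * b⁻¹ * (t * g * t⁻¹)⁻¹) *
        ((t * g * t⁻¹) * ((t * g * t⁻¹) * b * (t * g * t⁻¹)⁻¹) * (t * g * t⁻¹)⁻¹) = 1
      have h1 := hcg _ (hB b hb)
      obtain ⟨c, hc⟩ : ∃ c, c = (t⁻¹ * b * t) * g * (t⁻¹ * b * t)⁻¹ * g⁻¹ := ⟨_, rfl⟩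
      rw [← hc] at h1
      have h2 : g * c⁻¹ = c⁻¹ * g := ((show Commute g c from h1).inv_right).eq
      have e1 : (t * g * t⁻¹) * b⁻¹ * (t * g * t⁻¹)⁻¹ * b * ((t * g * t⁻¹) * b⁻¹ * (t * g * t⁻¹)⁻¹) *
          ((t * g * t⁻¹) * ((t * g * t⁻¹) * b * (t * g * t⁻¹)⁻¹) * (t * g * t⁻¹)⁻¹) =
          t * ((t⁻¹ * b * t)⁻¹ * c * c * (g * c⁻¹) * (t⁻¹ * b * t) * g⁻¹) * t⁻¹ := by
        rw [hc]
        group
      rw [e1, h2, hc]
      group
    have h3 := hF Q hfn _ hχ hq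
    rw [Cfsg.Agent.S5247.mem_pCoreOf_iff] at h3
    obtain ⟨M, hMA, hMnorm, hMp, hMmem⟩ := h3
    -- the subgroup `D`
    obtain ⟨D, hD⟩ : ∃ D : Subgroup Ω, D =
        ((M.comap Q.normalizerMonoidHom).map (Subgroup.normalizer (Q : Set Ω)).subtype).comap
          (MulAut.conj t).toMonoidHom := ⟨_, rfl⟩
    have hDmem : ∀ d : Ω, d ∈ D ↔ ∃ m : ↥(Subgroup.normalizer (Q : Set Ω)),
        Q.normalizerMonoidHom m ∈ M ∧ (m : Ω) = t * d * t⁻¹ := by
      intro d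
      rw [hD]
      constructor
      · rintro ⟨m, hm, hmd⟩
        exact ⟨m, hm, hmd⟩
      · rintro ⟨m, hm, hmd⟩
        exact ⟨m, hm, hmd⟩
    refine mk_mem_pCore_of P' D ?_ ?_ g hg ((hDmem g).2 ⟨⟨t * g * t⁻¹, hg'⟩, hMmem, rfl⟩)
    · intro k hk d hd
      obtain ⟨m, hm, hmd⟩ := (hDmem d).1 hd
      refine (hDmem _).2 ⟨⟨t * k * t⁻¹, hN1 k hk⟩ * m * ⟨t * k * t⁻¹, hN1 k hk⟩⁻¹, ?_, ?_⟩
      · rw [map_mul, map_mul, map_inv]
        refine hMnorm _ ?_ _ hm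
        rw [hAut Q hQP]
        exact ⟨_, rfl⟩
      · show (t * k * t⁻¹) * (m : Ω) * (t * k * t⁻¹)⁻¹ = t * (k * d * k⁻¹) * t⁻¹
        rw [hmd]
        group
    · intro d hd
      obtain ⟨m, hm, hmd⟩ := (hDmem d).1 hd
      obtain ⟨j, hj⟩ := hMp ⟨Q.normalizerMonoidHom m, hm⟩
      refine ⟨j, ?_⟩
      have h4 : Q.normalizerMonoidHom (m ^ p ^ j) = 1 := by
        rw [map_pow]
        exact congrArg Subtype.val hj
      have h5 : m ^ p ^ j ∈ Q.normalizerMonoidHom.ker := h4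
      rw [Subgroup.normalizerMonoidHom_ker, Subgroup.mem_subgroupOf] at h5
      have h6 : d ^ p ^ j = t⁻¹ * ((m ^ p ^ j : ↥(Subgroup.normalizer (Q : Set Ω))) : Ω) * t := by
        rw [Subgroup.coe_pow, hmd, conj_pow]
        group
      rw [h6, Subgroup.mem_centralizer_iff]
      intro a ha
      have h7 := Subgroup.mem_centralizer_iff.1 h5 _ (hA a ha)
      have e2 : a * (t⁻¹ * ((m ^ p ^ j : ↥(Subgroup.normalizer (Q : Set Ω))) : Ω) * t) =
          t⁻¹ * ((t * a * t⁻¹) * ((m ^ p ^ j : ↥(Subgroup.normalizer (Q : Set Ω))) : Ω)) * t := by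
        group
      rw [e2, h7]
      group
end

/-- Let p be an odd prime, G a finite group and P a Sylow p-subgroup. Call a fusion system F p-stable when, for every fully normalized subgroup Q and every χ ∈ Aut_F(Q) acting quadratically on Q (that is, χ fixes a⁻¹χ(a) for every a ∈ Q; equivalently χ(a⁻¹)·a·χ(a⁻¹)·χ(χ(a)) = 1), χ lies in O_p(Aut_F(Q)). Then G is p-stable in the normalizer form (for every p-subgroup Q and x ∈ N_G(Q) with [Q, x, x] = 1, the image of x lies in O_p(N_G(Q)/C_G(Q))) if and only if the fusion system of G on P is p-stable. -/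
theorem result {Ω : Type*} [Group Ω] [Finite Ω] {p : ℕ} [Fact p.Prime] (hp : p ≠ 2) (P : Sylow p Ω) : Cfsg.IsNormalizerPStable p Ω ↔ (∀ Q : Subgroup Ω, (Cfsg.groupFusionSystem (P : Subgroup Ω)).IsFullyNormalized Q → ∀ χ : MulAut ↥Q, χ ∈ (Cfsg.groupFusionSystem (P : Subgroup Ω)).autGroup Q → (∀ a : ↥Q, (χ a⁻¹) * a * (χ a⁻¹) * (χ (χ a)) = 1) → χ ∈ ((Cfsg.pCore p ↥((Cfsg.groupFusionSystem (P : Subgroup Ω)).autGroup Q)).map ((Cfsg.groupFusionSystem (P : Subgroup Ω)).autGroup Q).subtype : Subgroup (MulAut ↥Q))) := by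
  exact main P

end Cfsg.Agent.S5246
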