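import Cfsg.Statements.S5251
-- import your own Cfsg.Agent.* helpers here
import Cfsg.Agent.Lib.helper26.Chain
import Cfsg.Agent.Lib.helper26.Closed
import Cfsg.Agent.Lib.helper26.Saturation
import Cfsg.Agent.Lib.helper25.FusionQuot
import Cfsg.Agent.Lib.helper25.FusionRadical

set_option autoImplicit false
open Cfsg

namespace Cfsg.Agent.S5251

section

open Cfsg.Agent.Lib.helper26 Cfsg.FusionSystem
open Cfsg.Agent.Lib.helper25 (stronglyClosed_map_mem mem_of_conjAut_mem_inn)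

variable {Ω : Type*} [Group Ω] {S : Subgroup Ω}

/-- preimages of elements of a strongly closed subgroup lie in it -/
theorem sc_preimage (F : Cfsg.FusionSystem S) {T : Subgroup Ω} (hT : F.StronglyClosed T)
    {V : Subgroup Ω} {ψ : V →* Ω} (hψ : ψ ∈ F.Hom V) (x : V) (hx : ψ x ∈ T) : (x : Ω) ∈ T := by
  obtain ⟨χ, hχ, hχx⟩ := F.inv_mem hψ
  have h1 := stronglyClosed_map_mem F hT hχ ⟨ψ x, ⟨x, rfl⟩⟩ hx
  rw [hχx] at h1
  exact h1

theorem main [Finite S] (p : ℕ) [Fact p.Prime] (hS : IsPGroup p S) (F : Cfsg.FusionSystem S)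
    (hF : F.IsSaturated p) {T : Subgroup Ω} (E : Cfsg.FusionSystem T) (hE : E.IsNormalIn F p)
    (P : Subgroup Ω) (hP : F.IsCentric P) (hPT : ¬ E.IsCentric (P ⊓ T)) :
    (∃ φ ∈ F.Hom P, ∃ x ∈ S ⊓ Subgroup.normalizer (φ.range : Set Ω), x ∉ φ.range ∧
      ∃ α ∈ ((Cfsg.pCore p ↥(F.autGroup φ.range)).map (F.autGroup φ.range).subtype :
        Subgroup (MulAut ↥φ.range)),
        ∀ y : ↥φ.range, ((α y : ↥φ.range) : Ω) = x * (y : Ω) * x⁻¹) ∧ ¬ F.IsRadical p P := by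
  obtain ⟨⟨-, -, hsub, hT, -, -⟩, -⟩ := hE
  have hTS : T ≤ S := hT.1
  have hPS : P ≤ S := hP.1
  have hTn : ∀ s ∈ S, ∀ t ∈ T, s * t * s⁻¹ ∈ T := fun s hs t ht =>
    stronglyClosed_conj_mem F hT hs ht
  -- the E-conjugate with a large centralizer
  have hQS : P ⊓ T ≤ S := inf_le_left.trans hPS
  obtain ⟨Q', hQ'c, hQ'⟩ : ∃ Q', E.IsConj (P ⊓ T) Q' ∧ ¬ centralizerIn T Q' ≤ Q' := by
    by_contra hcon
    push Not at hcon
    exact hPT ⟨inf_le_right, hcon⟩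
  have hQ'F : F.IsConj (P ⊓ T) Q' := by
    obtain ⟨φ, hφ, hr⟩ := hQ'c
    exact ⟨φ, hsub _ hφ, hr⟩
  obtain ⟨Q₁, hc, hfa, hrec⟩ := hF (P ⊓ T) hQS
  have hc' : F.IsConj Q' Q₁ := isConj_trans F (isConj_symm F hQ'F) hc
  have hQ'S : Q' ≤ S := isConj_le_left F hc'
  -- a centralizing element of `Q₁` in `T` outside `Q₁`
  obtain ⟨c₁, hc₁C, hc₁Q⟩ : ∃ c₁, c₁ ∈ centralizerIn T Q₁ ∧ c₁ ∉ Q₁ := by
    obtain ⟨ψ', hψ', e', he', hψe'⟩ := exists_extension_normalizer hS F hfa hrec hc'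
    obtain ⟨c, hcC, hcQ⟩ := SetLike.not_le_iff_exists.1 hQ'
    have hcS : c ∈ centralizerIn S Q' := ⟨hTS hcC.1, hcC.2⟩
    have hcN : c ∈ normalizerIn S Q' := centralizerIn_le_normalizerIn S Q' hcS
    have h1 := extension_mem_centralizerIn F hψ' hQ'S hψe' ⟨c, hcN⟩ hcS
    have h2 : ψ' ⟨c, hcN⟩ ∈ T := stronglyClosed_map_mem F hT hψ' ⟨c, hcN⟩ hcC.1
    refine ⟨ψ' ⟨c, hcN⟩, ⟨h2, h1.2⟩, fun hin => hcQ ?_⟩
    have h3 : ((e' (e'.symm ⟨ψ' ⟨c, hcN⟩, hin⟩) : Q₁) : Ω) = ψ' ⟨c, hcN⟩ := by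
      rw [MulEquiv.apply_symm_apply]
    have hyN : ((e'.symm ⟨ψ' ⟨c, hcN⟩, hin⟩ : Q') : Ω) ∈ normalizerIn S Q' :=
      ⟨hQ'S (e'.symm ⟨ψ' ⟨c, hcN⟩, hin⟩).2, Subgroup.le_normalizer (e'.symm ⟨ψ' ⟨c, hcN⟩, hin⟩).2⟩
    rw [← hψe' _ hyN] at h3
    have h4 := F.injective_of_mem hψ' h3
    have h5 : ((e'.symm ⟨ψ' ⟨c, hcN⟩, hin⟩ : Q') : Ω) = c := congrArg Subtype.val h4
    rw [← h5]
    exact (e'.symm ⟨ψ' ⟨c, hcN⟩, hin⟩).2
  -- move `P`
  obtain ⟨ψ, hψ, e, he, hψe⟩ := exists_extension_normalizer hS F hfa hrec hc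
  have hPN : P ≤ normalizerIn S (P ⊓ T) := by
    intro x hx
    refine ⟨hPS hx, ?_⟩
    apply mem_normalizer_of_two_sided
    · intro y hy
      exact ⟨P.mul_mem (P.mul_mem hx hy.1) (P.inv_mem hx), hTn x (hPS hx) y hy.2⟩
    · intro y hy
      have h1 := hTn x⁻¹ (S.inv_mem (hPS hx)) y hy.2
      rw [inv_inv] at h1
      exact ⟨P.mul_mem (P.mul_mem (P.inv_mem hx) hy.1) hx, h1⟩
  have hQN : P ⊓ T ≤ normalizerIn S (P ⊓ T) := inf_le_left.trans hPN
  have hφ : ψ.comp (Subgroup.inclusion hPN) ∈ F.Hom P := restrict_mem F hψ hPN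
  obtain ⟨Ps, hPsdef⟩ : ∃ Ps : Subgroup Ω, Ps = (ψ.comp (Subgroup.inclusion hPN)).range := ⟨_, rfl⟩
  have hPsS : Ps ≤ S := by
    rw [hPsdef]
    rintro _ ⟨x, rfl⟩
    exact (F.le_of_mem hφ).2 x
  have hQ₁T : Q₁ ≤ T := by
    intro y hy
    have h1 : ((e (e.symm ⟨y, hy⟩) : Q₁) : Ω) = y := by rw [MulEquiv.apply_symm_apply]
    rw [← hψe _ (hQN (e.symm ⟨y, hy⟩).2)] at h1
    rw [← h1]
    exact stronglyClosed_map_mem F hT hψ _ (e.symm ⟨y, hy⟩).2.2
  have hPsT : ∀ y ∈ Ps, y ∈ T → y ∈ Q₁ := by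
    intro y hy hyT
    rw [hPsdef] at hy
    obtain ⟨x, rfl⟩ := hy
    have hxT : ((Subgroup.inclusion hPN x : normalizerIn S (P ⊓ T)) : Ω) ∈ T :=
      sc_preimage F hT hψ _ hyT
    have hxQ : (x : Ω) ∈ P ⊓ T := ⟨x.2, hxT⟩
    have h1 := hψe ⟨x, hxQ⟩ (hQN hxQ)
    have h2 : (ψ.comp (Subgroup.inclusion hPN)) x = ψ ⟨(x : Ω), hQN hxQ⟩ := rfl
    rw [h2, h1]
    exact (e _).2
  have hc₁T : c₁ ∈ T := hc₁C.1
  have hc₁cen : ∀ q ∈ Q₁, c₁ * q = q * c₁ := by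
    intro q hq
    have := Subgroup.mem_centralizer_iff.1 hc₁C.2 q hq
    exact this.symm
  -- the subgroup `C_T(Q₁)` is normalized by `Ps`
  have hnorm : ∀ s ∈ Ps ⊔ centralizerIn T Q₁, ∀ t ∈ centralizerIn T Q₁,
      s * t * s⁻¹ ∈ centralizerIn T Q₁ := by
    have hle : Ps ⊔ centralizerIn T Q₁ ≤ Subgroup.normalizer (centralizerIn T Q₁ : Set Ω) := by
      apply sup_le
      · intro s hs
        have key : ∀ u ∈ Ps, ∀ y ∈ centralizerIn T Q₁, u * y * u⁻¹ ∈ centralizerIn T Q₁ := by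
          intro u hu y hy
          refine ⟨hTn u (hPsS hu) y hy.1, ?_⟩
          refine Subgroup.mem_centralizer_iff.2 ?_
          intro q hq
          have hq' : u⁻¹ * q * u ∈ Q₁ := by
            apply hPsT
            · exact Ps.mul_mem (Ps.mul_mem (Ps.inv_mem hu) (by
                rw [hPsdef]
                have h1 : ((e (e.symm ⟨q, hq⟩) : Q₁) : Ω) = q := by
                  rw [MulEquiv.apply_symm_apply]
                rw [← hψe _ (hQN (e.symm ⟨q, hq⟩).2)] at h1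
                exact ⟨⟨(e.symm ⟨q, hq⟩ : ↥(P ⊓ T)), (e.symm ⟨q, hq⟩).2.1⟩, h1⟩)) hu
            · have h1 := hTn u⁻¹ (S.inv_mem (hPsS hu)) q (hQ₁T hq)
              rw [inv_inv] at h1
              exact h1
          have h3 := Subgroup.mem_centralizer_iff.1 hy.2 _ hq'
          calc q * (u * y * u⁻¹) = u * ((u⁻¹ * q * u) * y) * u⁻¹ := by group
            _ = u * (y * (u⁻¹ * q * u)) * u⁻¹ := by rw [h3]
            _ = u * y * u⁻¹ * q := by group
        apply mem_normalizer_of_two_sided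
        · exact key s hs
        · intro y hy
          have := key s⁻¹ (Ps.inv_mem hs) y hy
          rw [inv_inv] at this
          exact this
      · exact Subgroup.le_normalizer
    intro s hs t ht
    exact (Subgroup.mem_normalizer_iff.1 (hle hs) t).1 ht
  have hSle : Ps ⊔ centralizerIn T Q₁ ≤ S := sup_le hPsS (inf_le_left.trans hTS)
  haveI : Finite ↥(Ps ⊔ centralizerIn T Q₁) := finite_of_le hSle
  have hnot : ¬ centralizerIn T Q₁ ≤ Ps := fun hle => hc₁Q (hPsT c₁ (hle hc₁C) hc₁T)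
  obtain ⟨t, htC, htN, htP⟩ := exists_mem_normalizer_not_mem_of_normal
    (S := Ps ⊔ centralizerIn T Q₁) (hS.to_le hSle) le_sup_left le_sup_right hnorm hnot
  have htS : t ∈ S := hTS htC.1
  have htNS : t ∈ normalizerIn S Ps := ⟨htS, htN⟩
  have htcen : ∀ y : Ps, (y : Ω) ∈ T → conjAut S Ps ⟨t, htNS⟩ y = y := by
    intro y hyT
    apply Subtype.ext
    rw [conjAut_apply]
    have hyQ := hPsT y y.2 hyT
    have h1 := Subgroup.mem_centralizer_iff.1 htC.2 _ hyQ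
    show t * (y : Ω) * t⁻¹ = y
    rw [← h1]
    group
  have hcA : conjAut S Ps ⟨t, htNS⟩ ∈ F.autGroup Ps :=
    autInducedBy_le_autGroup F hPsS (conjAut_mem_autInducedBy S Ps _)
  have hcore : conjAut S Ps ⟨t, htNS⟩ ∈
      (Cfsg.pCore p (F.autGroup Ps)).map (F.autGroup Ps).subtype := by
    apply stab_mem_pCore hS F hPsS hT _ hcA htcen
    intro y
    rw [conjAut_apply]
    show (y : Ω)⁻¹ * (t * (y : Ω) * t⁻¹) ∈ T
    have h1 := hTn (y : Ω)⁻¹ (S.inv_mem (hPsS y.2)) t htC.1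
    rw [inv_inv] at h1
    have h2 : (y : Ω)⁻¹ * (t * (y : Ω) * t⁻¹) = ((y : Ω)⁻¹ * t * (y : Ω)) * t⁻¹ := by group
    rw [h2]
    exact T.mul_mem h1 (T.inv_mem htC.1)
  have hcenPs : centralizerIn S Ps ≤ Ps := hP.2 Ps ⟨_, hφ, hPsdef.symm⟩
  constructor
  · subst hPsdef
    exact ⟨_, hφ, t, ⟨htS, htN⟩, htP, conjAut S _ ⟨t, htNS⟩, hcore, fun y => rfl⟩
  · intro hrad
    -- transport to `P`
    obtain ⟨e₀, he₀, he₀x⟩ := exists_iso_of_mem F hφ hPsdef.symm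
    have haA : MulAut.congr e₀.symm (conjAut S Ps ⟨t, htNS⟩) ∈ F.autGroup P :=
      he₀.symm.congr_mem hcA
    have happly : ∀ x : P, ((e₀ (MulAut.congr e₀.symm (conjAut S Ps ⟨t, htNS⟩) x) : Ps) : Ω) =
        t * ((e₀ x : Ps) : Ω) * t⁻¹ := by
      intro x
      have h1 : MulAut.congr e₀.symm (conjAut S Ps ⟨t, htNS⟩) x =
          e₀.symm (conjAut S Ps ⟨t, htNS⟩ (e₀ x)) := rfl
      rw [h1, MulEquiv.apply_symm_apply, conjAut_apply]
    have hcoreP : MulAut.congr e₀.symm (conjAut S Ps ⟨t, htNS⟩) ∈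
        (Cfsg.pCore p (F.autGroup P)).map (F.autGroup P).subtype := by
      apply stab_mem_pCore hS F hPS hT _ haA
      · intro x hxT
        apply e₀.injective
        apply Subtype.ext
        rw [happly]
        have h1 : ((e₀ x : Ps) : Ω) ∈ T := by
          rw [he₀x]
          exact stronglyClosed_map_mem F hT hφ x hxT
        have h2 := htcen (e₀ x) h1
        have h3 := congrArg Subtype.val h2
        rw [conjAut_apply] at h3
        exact h3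
      · intro x
        have h1 : ((e₀ (x⁻¹ * MulAut.congr e₀.symm (conjAut S Ps ⟨t, htNS⟩) x) : Ps) : Ω) ∈ T := by
          rw [map_mul, map_inv, Subgroup.coe_mul, Subgroup.coe_inv, happly]
          have h1 := hTn ((e₀ x : Ps) : Ω)⁻¹ (S.inv_mem (hPsS (e₀ x).2)) t htC.1
          rw [inv_inv] at h1
          have h2 : ((e₀ x : Ps) : Ω)⁻¹ * (t * ((e₀ x : Ps) : Ω) * t⁻¹) =
              (((e₀ x : Ps) : Ω)⁻¹ * t * ((e₀ x : Ps) : Ω)) * t⁻¹ := by group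
          rw [h2]
          exact T.mul_mem h1 (T.inv_mem htC.1)
        rw [he₀x] at h1
        exact sc_preimage F hT hφ _ h1
    rw [hrad.2] at hcoreP
    obtain ⟨w, hw⟩ := hcoreP
    -- then conjugation by `t` on `Ps` is inner
    have hinn : conjAut S Ps ⟨t, htNS⟩ ∈ Inn Ps := by
      refine ⟨e₀ w, ?_⟩
      ext y
      have h1 := happly (e₀.symm y)
      rw [MulEquiv.apply_symm_apply] at h1
      rw [conjAut_apply, ← h1, ← hw]
      show (((e₀ w) * y * (e₀ w)⁻¹ : Ps) : Ω) = ((e₀ (w * e₀.symm y * w⁻¹) : Ps) : Ω)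
      rw [map_mul, map_mul, map_inv, MulEquiv.apply_symm_apply]
    exact htP (mem_of_conjAut_mem_inn hPsS hcenPs ⟨t, htNS⟩ hinn)

end

/-- Let F be a saturated fusion system over a finite p-group S, E a normal subsystem of F over T, and P an F-centric subgroup of S such that P ∩ T is not E-centric. Then some F-conjugate P* of P satisfies Out_S(P*) ∩ O_p(Out_F(P*)) ≠ 1: there is an element of N_S(P*) outside P* whose conjugation action on P* lies in O_p(Aut_F(P*)). In particular P is not both centric and radical in F. -/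
theorem result {Ω : Type*} [Group Ω] {S : Subgroup Ω} [Finite S] (p : ℕ) [Fact p.Prime] (hS : IsPGroup p S) (F : Cfsg.FusionSystem S) (hF : F.IsSaturated p) {T : Subgroup Ω} (E : Cfsg.FusionSystem T) (hE : E.IsNormalIn F p) (P : Subgroup Ω) (hP : F.IsCentric P) (hPT : ¬ E.IsCentric (P ⊓ T)) : (∃ φ ∈ F.Hom P, ∃ x ∈ S ⊓ Subgroup.normalizer (φ.range : Set Ω), x ∉ φ.range ∧ ∃ α ∈ ((Cfsg.pCore p ↥(F.autGroup φ.range)).map (F.autGroup φ.range).subtype : Subgroup (MulAut ↥φ.range)), ∀ y : ↥φ.range, ((α y : ↥φ.range) : Ω) = x * (y : Ω) * x⁻¹) ∧ ¬ F.IsRadical p P := by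
  exact main p hS F hF E hE P hP hPT

end Cfsg.Agent.S5251
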