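import Cfsg.Statements.S5255
-- import your own Cfsg.Agent.* helpers here
import Cfsg.Agent.Lib.helper26.Closed

set_option autoImplicit false
open Cfsg

namespace Cfsg.Agent.S5255

/-- automorphisms of `W` acting trivially modulo `T` -/
def DT {Ω : Type*} [Group Ω] (T W : Subgroup Ω) : Subgroup (MulAut W) where
  carrier := {β | ∀ x : W, ((x⁻¹ * β x : W) : Ω) ∈ T}
  one_mem' := by
    intro x
    simp
  mul_mem' := by
    intro β γ hβ hγ x
    have h1 := hγ x
    have h2 := hβ (γ x)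
    have h3 : (x⁻¹ * (β * γ) x : W) = (x⁻¹ * γ x) * ((γ x)⁻¹ * β (γ x)) := by
      rw [MulAut.mul_apply]; group
    rw [h3]
    exact T.mul_mem h1 h2
  inv_mem' := by
    intro β hβ x
    have h1 := hβ (β⁻¹ x)
    rw [MulAut.apply_inv_self] at h1
    have h3 : (x⁻¹ * β⁻¹ x : W) = ((β⁻¹ x)⁻¹ * x)⁻¹ := by group
    rw [h3]
    exact T.inv_mem h1

theorem mem_DT {Ω : Type*} [Group Ω] (T W : Subgroup Ω) (β : MulAut W) :
    β ∈ DT T W ↔ ∀ x : W, ((x⁻¹ * β x : W) : Ω) ∈ T := Iff.rfl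

open Cfsg.Agent.Lib.helper26 in
theorem key {Ω : Type*} [Group Ω] {S : Subgroup Ω} [Finite S] (p : ℕ) [Fact p.Prime]
    (hS : IsPGroup p S) (F : Cfsg.FusionSystem S) (hF : F.IsSaturated p) (T : Subgroup Ω)
    (hT : F.StronglyClosed T) :
    ∀ (U : Subgroup Ω) (φ : U →* Ω), φ ∈ F.Hom U →
      ∀ x : U, (x : Ω) ∈ T ⊔ Cfsg.FusionSystem.centralizerIn S T →
        φ x ∈ T ⊔ Cfsg.FusionSystem.centralizerIn S T := by
  apply alperin_induction hS F hF (fun U φ => ∀ x : U,
    (x : Ω) ∈ T ⊔ Cfsg.FusionSystem.centralizerIn S T →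
      φ x ∈ T ⊔ Cfsg.FusionSystem.centralizerIn S T)
  · intro U V φ h hφ hP x hx
    exact hP (Subgroup.inclusion h x) hx
  · intro U V φ ψ h hφ hψ hP hP' x hx
    exact hP' ⟨φ x, h x⟩ (hP x hx)
  · intro W hfn IH α hα
    have hW := hfn.1
    have hTS : T ≤ S := hT.1
    have hαA : α ∈ F.autGroup W := (mem_autGroup_iff F hW α).2 hα
    by_cases hTW : T ≤ W
    · intro x hx
      have hcn : ∀ k ∈ Cfsg.FusionSystem.centralizerIn S T, ∀ h ∈ T, k * h * k⁻¹ ∈ T := by
        intro k hk h hh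
        have hkc : k ∈ Subgroup.centralizer (T : Set Ω) := hk.2
        rw [Subgroup.mem_centralizer_iff] at hkc
        rw [← hkc h hh]; simpa using hh
      obtain ⟨t, ht, c, hc, hxe⟩ := mem_sup_of_normalizes hcn hx
      have hcW : c ∈ W := by
        have : c = t⁻¹ * x := by rw [hxe]; group
        rw [this]
        exact W.mul_mem (W.inv_mem (hTW ht)) x.2
      have hxe' : x = ⟨t, hTW ht⟩ * ⟨c, hcW⟩ := Subtype.ext hxe
      have h1 : ((α ⟨t, hTW ht⟩ : W) : Ω) ∈ T := stronglyClosed_aut_mem F hT hα ht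
      have h2 : ((α ⟨c, hcW⟩ : W) : Ω) ∈ Cfsg.FusionSystem.centralizerIn S T := by
        refine ⟨hW (α _).2, ?_⟩
        show _ ∈ Subgroup.centralizer (T : Set Ω)
        rw [Subgroup.mem_centralizer_iff]
        intro y hy
        have hαinv : W.subtype.comp (α⁻¹).toMonoidHom ∈ F.Hom W :=
          (mem_autGroup_iff F hW _).1 (Subgroup.inv_mem _ hαA)
        have hy' : ((α⁻¹ ⟨y, hTW hy⟩ : W) : Ω) ∈ T := stronglyClosed_aut_mem F hT hαinv hy
        have hcc : c ∈ Subgroup.centralizer (T : Set Ω) := hc.2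
        rw [Subgroup.mem_centralizer_iff] at hcc
        have h3 : α⁻¹ ⟨y, hTW hy⟩ * ⟨c, hcW⟩ = ⟨c, hcW⟩ * α⁻¹ ⟨y, hTW hy⟩ :=
          Subtype.ext (hcc _ hy')
        have h4 := congrArg (fun z => ((α z : W) : Ω)) h3
        simpa using h4
      show ((α x : W) : Ω) ∈ _
      rw [hxe', map_mul]
      exact Subgroup.mul_mem _ (Subgroup.mem_sup_left h1) (Subgroup.mem_sup_right h2)
    · have hfa := fullyAutomized_of_fullyNormalized hS F hF hfn
      have hrec := receptive_of_fullyNormalized hS F hF hfn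
      have hD : ∀ a ∈ F.autGroup W, ∀ d ∈ DT T W, a * d * a⁻¹ ∈ DT T W := by
        intro a ha d hd x
        have ha' := (mem_autGroup_iff F hW a).1 ha
        have h1 := hd (a⁻¹ x)
        have h2 : ((a ((a⁻¹ x)⁻¹ * d (a⁻¹ x)) : W) : Ω) ∈ T := stronglyClosed_aut_mem F hT ha' h1
        have h3 : x⁻¹ * (a * d * a⁻¹) x = a ((a⁻¹ x)⁻¹ * d (a⁻¹ x)) := by
          simp [MulAut.mul_apply]
        rw [h3]
        exact h2
      obtain ⟨ν, hνA, d, hd, hαeq, hνnorm⟩ := frattini_autGroup F hfa (DT T W) hD α hαA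
      have hXN : Cfsg.FusionSystem.normalizerIn T W ≤ Cfsg.FusionSystem.normalizerIn S W :=
        fun g hg => ⟨hTS hg.1, hg.2⟩
      have hνX : ∀ (g : Ω) (hg : g ∈ Cfsg.FusionSystem.normalizerIn T W),
          ν * conjAut S W ⟨g, hXN hg⟩ * ν⁻¹ ∈ Cfsg.autInducedBy S W := by
        intro g hg
        refine (hνnorm _ ⟨conjAut_mem_autInducedBy S W _, ?_⟩).1
        intro x
        show (x : Ω)⁻¹ * (g * x * g⁻¹) ∈ T
        have h1 : (x : Ω)⁻¹ * g * (x : Ω)⁻¹⁻¹ ∈ T :=
          stronglyClosed_conj_mem F hT (S.inv_mem (hW x.2)) hg.1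
        have h2 : (x : Ω)⁻¹ * (g * x * g⁻¹) = ((x : Ω)⁻¹ * g * (x : Ω)⁻¹⁻¹) * g⁻¹ := by group
        rw [h2]
        exact T.mul_mem h1 (T.inv_mem hg.1)
      obtain ⟨Y, hWY, hXY, hYN, ψ, hψ, hψx⟩ := exists_extension_of_normalizes F hrec ν hνA _ hXN hνX
      have hfinY : Finite Y := finite_of_le (hYN.trans inf_le_left)
      obtain ⟨t, ht, htN, htW⟩ := exists_mem_normalizer_not_mem_of_normal hS hW hTS
        (fun s hs t ht => stronglyClosed_conj_mem F hT hs ht) hTW
      have hcard : Nat.card W < Nat.card Y := by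
        by_contra hcon
        have := Subgroup.eq_of_le_of_card_ge hWY (not_lt.1 hcon)
        rw [← this] at hXY
        exact htW (hXY ⟨ht, htN⟩)
      have hPY := IH Y ψ hψ hcard
      have hν : ∀ x : W, (x : Ω) ∈ T ⊔ Cfsg.FusionSystem.centralizerIn S T →
          ((ν x : W) : Ω) ∈ T ⊔ Cfsg.FusionSystem.centralizerIn S T := by
        intro x hx
        rw [← hψx x (hWY x.2)]
        exact hPY ⟨x, hWY x.2⟩ hx
      intro x hx
      show ((α x : W) : Ω) ∈ _
      rw [hαeq, MulAut.mul_apply]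
      apply hν
      have h1 : ((x⁻¹ * d x : W) : Ω) ∈ T := hd.1 x
      have h2 : ((d x : W) : Ω) = (x : Ω) * ((x⁻¹ * d x : W) : Ω) := by
        simp
      rw [h2]
      exact Subgroup.mul_mem _ hx (Subgroup.mem_sup_left h1)

/-- Let F be a saturated fusion system over a finite p-group S and T a subgroup of S strongly closed in F. Then T·C_S(T) is strongly closed in F. -/
theorem result {Ω : Type*} [Group Ω] {S : Subgroup Ω} [Finite S] (p : ℕ) [Fact p.Prime] (hS : IsPGroup p S) (F : Cfsg.FusionSystem S) (hF : F.IsSaturated p) (T : Subgroup Ω) (hT : F.StronglyClosed T) : F.StronglyClosed (T ⊔ Cfsg.FusionSystem.centralizerIn S T) := by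
  refine ⟨sup_le hT.1 inf_le_left, fun R hR φ hφ x => ?_⟩
  exact key p hS F hF T hT R φ hφ x (hR x.2)

end Cfsg.Agent.S5255
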