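import Cfsg.Statements.S5274
-- import your own Cfsg.Agent.* helpers here
import Cfsg.Agent.Lib.helper25.FusionRadical

set_option autoImplicit false
open Cfsg

namespace Cfsg.Agent.S5274

section aux74

open Cfsg Cfsg.FusionSystem

theorem pow_apply_of_fix {P : Type*} [Group P] (β : MulAut P) (e c : P) (hc : β e = c * e)
    (hfix : β c = c) (j : ℕ) : (β ^ j) e = c ^ j * e := by
  induction j with
  | zero => simp
  | succ j ih =>
    have e1 : (β ^ (j + 1)) e = β ((β ^ j) e) := by rw [pow_succ']; rfl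
    rw [e1, ih, map_mul, map_pow, hfix, hc, pow_succ, mul_assoc]

/-- the stabilizer of a chain `1 ≤ N₁ ≤ N₂ ≤ P` inside a group `A` of automorphisms -/
def chainStab {P : Type*} [Group P] (A : Subgroup (MulAut P)) (N₁ N₂ : Subgroup P)
    (h₂ : ∀ a ∈ A, ∀ e ∈ N₂, a e ∈ N₂) : Subgroup A where
  carrier := {a | (∀ e ∈ N₁, (a : MulAut P) e = e) ∧ (∀ e ∈ N₂, (a : MulAut P) e * e⁻¹ ∈ N₁) ∧
    (∀ e, (a : MulAut P) e * e⁻¹ ∈ N₂)}
  mul_mem' := by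
    rintro a b ⟨ha1, ha2, ha3⟩ ⟨hb1, hb2, hb3⟩
    refine ⟨fun e he => ?_, fun e he => ?_, fun e => ?_⟩
    · show (a : MulAut P) ((b : MulAut P) e) = e
      rw [hb1 e he, ha1 e he]
    · have h1 := ha2 _ (h₂ b b.2 e he)
      have h2 := hb2 e he
      have e1 : (a : MulAut P) ((b : MulAut P) e) * e⁻¹ =
          ((a : MulAut P) ((b : MulAut P) e) * ((b : MulAut P) e)⁻¹) * ((b : MulAut P) e * e⁻¹) := by
        group
      show (a : MulAut P) ((b : MulAut P) e) * e⁻¹ ∈ N₁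
      rw [e1]
      exact N₁.mul_mem h1 h2
    · have h1 := ha3 ((b : MulAut P) e)
      have h2 := hb3 e
      have e1 : (a : MulAut P) ((b : MulAut P) e) * e⁻¹ =
          ((a : MulAut P) ((b : MulAut P) e) * ((b : MulAut P) e)⁻¹) * ((b : MulAut P) e * e⁻¹) := by
        group
      show (a : MulAut P) ((b : MulAut P) e) * e⁻¹ ∈ N₂
      rw [e1]
      exact N₂.mul_mem h1 h2
  one_mem' := by
    refine ⟨fun e _ => rfl, fun e _ => ?_, fun e => ?_⟩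
    · show e * e⁻¹ ∈ N₁
      rw [mul_inv_cancel]; exact N₁.one_mem
    · show e * e⁻¹ ∈ N₂
      rw [mul_inv_cancel]; exact N₂.one_mem
  inv_mem' := by
    rintro a ⟨ha1, ha2, ha3⟩
    refine ⟨fun e he => ?_, fun e he => ?_, fun e => ?_⟩
    · show (a : MulAut P)⁻¹ e = e
      have h := ha1 e he
      have h2 : (a : MulAut P)⁻¹ ((a : MulAut P) e) = e := by simp
      rw [h] at h2
      exact h2
    · have hf : (a : MulAut P)⁻¹ e ∈ N₂ := h₂ _ (A.inv_mem a.2) e he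
      have h1 := ha2 _ hf
      have h2 : (a : MulAut P) ((a : MulAut P)⁻¹ e) = e := by simp
      rw [h2] at h1
      have h3 := N₁.inv_mem h1
      have e1 : (e * ((a : MulAut P)⁻¹ e)⁻¹)⁻¹ = (a : MulAut P)⁻¹ e * e⁻¹ := by group
      rw [e1] at h3
      exact h3
    · have h1 := ha3 ((a : MulAut P)⁻¹ e)
      have h2 : (a : MulAut P) ((a : MulAut P)⁻¹ e) = e := by simp
      rw [h2] at h1
      have h3 := N₂.inv_mem h1
      have e1 : (e * ((a : MulAut P)⁻¹ e)⁻¹)⁻¹ = (a : MulAut P)⁻¹ e * e⁻¹ := by group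
      rw [e1] at h3
      exact h3

theorem chainStab_normal {P : Type*} [Group P] (A : Subgroup (MulAut P)) (N₁ N₂ : Subgroup P)
    (h₁ : ∀ a ∈ A, ∀ e ∈ N₁, a e ∈ N₁) (h₂ : ∀ a ∈ A, ∀ e ∈ N₂, a e ∈ N₂) :
    (chainStab A N₁ N₂ h₂).Normal := by
  constructor
  rintro a ⟨ha1, ha2, ha3⟩ b
  have hb' : ((b : MulAut P)⁻¹) ∈ A := A.inv_mem b.2
  refine ⟨fun e he => ?_, fun e he => ?_, fun e => ?_⟩
  · show (b : MulAut P) ((a : MulAut P) ((b : MulAut P)⁻¹ e)) = e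
    rw [ha1 _ (h₁ _ hb' e he)]
    simp
  · show (b : MulAut P) ((a : MulAut P) ((b : MulAut P)⁻¹ e)) * e⁻¹ ∈ N₁
    have hf : (b : MulAut P)⁻¹ e ∈ N₂ := h₂ _ hb' e he
    have h1 := h₁ _ b.2 _ (ha2 _ hf)
    rw [map_mul, map_inv] at h1
    have h2 : (b : MulAut P) ((b : MulAut P)⁻¹ e) = e := by simp
    rw [h2] at h1
    exact h1
  · show (b : MulAut P) ((a : MulAut P) ((b : MulAut P)⁻¹ e)) * e⁻¹ ∈ N₂
    have h1 := h₂ _ b.2 _ (ha3 ((b : MulAut P)⁻¹ e))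
    rw [map_mul, map_inv] at h1
    have h2 : (b : MulAut P) ((b : MulAut P)⁻¹ e) = e := by simp
    rw [h2] at h1
    exact h1

theorem chainStab_pgroup {P : Type*} [Group P] (A : Subgroup (MulAut P)) (N₁ N₂ : Subgroup P)
    (h₂ : ∀ a ∈ A, ∀ e ∈ N₂, a e ∈ N₂) (k l : ℕ) (hk : ∀ e ∈ N₁, e ^ 2 ^ k = 1)
    (hl : ∀ e ∈ N₂, e ^ 2 ^ l = 1) : IsPGroup 2 (chainStab A N₁ N₂ h₂) := by
  intro a
  refine ⟨k + l, ?_⟩
  obtain ⟨ha1, ha2, ha3⟩ := a.2
  obtain ⟨α, hα⟩ : ∃ α : MulAut P, α = ((a : A) : MulAut P) := ⟨_, rfl⟩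
  rw [← hα] at ha1 ha2 ha3
  have hfix2 : ∀ e ∈ N₂, (α ^ 2 ^ k) e = e := by
    intro e he
    have hc := ha2 e he
    have h1 := pow_apply_of_fix α e (α e * e⁻¹) (by group) (ha1 _ hc) (2 ^ k)
    rw [h1, hk _ hc, one_mul]
  have hb3 : ∀ e, (α ^ 2 ^ k) e * e⁻¹ ∈ N₂ := by
    have hmem := (chainStab A N₁ N₂ h₂).pow_mem a.2 (2 ^ k)
    intro e
    have h := hmem.2.2 e
    rw [hα]
    exact h
  have hall : ∀ e, ((α ^ 2 ^ k) ^ 2 ^ l) e = e := by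
    intro e
    have hd := hb3 e
    have h1 := pow_apply_of_fix (α ^ 2 ^ k) e ((α ^ 2 ^ k) e * e⁻¹) (by group) (hfix2 _ hd) (2 ^ l)
    rw [h1, hl _ hd, one_mul]
  apply Subtype.ext
  apply Subtype.ext
  show ((a : A) : MulAut P) ^ 2 ^ (k + l) = 1
  rw [← hα, pow_add, pow_mul]
  ext e
  exact hall e

theorem odd_orbit_sq {G : Type*} [Group G] (W : Subgroup G) (α : MulAut G)
    (hW : ∀ c ∈ W, α c ∈ W) (w : G) (hw : w ∈ Subgroup.center G) (h1 : w * α w ∈ W)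
    (m : ℕ) (hm : Odd m) (hfix : (α ^ m) w = w) : w * w ∈ W := by
  have key : ∀ (n : ℕ) (x : G), (α ^ (n + 1)) x = α ((α ^ n) x) := fun n x => by
    rw [pow_succ']; rfl
  have hc : ∀ i : ℕ, (α ^ i) w ∈ Subgroup.center G := by
    intro i
    induction i with
    | zero => simpa using hw
    | succ i ih =>
      rw [key i w, Subgroup.mem_center_iff]
      intro g
      have h2 := Subgroup.mem_center_iff.1 ih (α⁻¹ g)
      have h3 := congrArg α h2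
      rw [map_mul, map_mul] at h3
      simpa using h3
  have hW' : ∀ i : ℕ, (α ^ i) w * (α ^ (i + 1)) w ∈ W := by
    intro i
    induction i with
    | zero => simpa using h1
    | succ i ih =>
      have h2 := hW _ ih
      rw [map_mul] at h2
      have hb : (α ^ (i + 1)) w = α ((α ^ i) w) := key i w
      have hc' : (α ^ (i + 1 + 1)) w = α ((α ^ (i + 1)) w) := key (i + 1) w
      rw [hc']
      rw [← hb] at h2
      exact h2
  have hQ : ∀ j : ℕ, w * (α ^ (2 * j + 1)) w ∈ W := by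
    intro j
    induction j with
    | zero => simpa using h1
    | succ j ih =>
      obtain ⟨u1, hu1⟩ : ∃ u, u = (α ^ (2 * j + 1)) w := ⟨_, rfl⟩
      obtain ⟨u2, hu2⟩ : ∃ u, u = (α ^ (2 * j + 1 + 1)) w := ⟨_, rfl⟩
      obtain ⟨u3, hu3⟩ : ∃ u, u = (α ^ (2 * j + 1 + 1 + 1)) w := ⟨_, rfl⟩
      have ha := hW' (2 * j + 1)
      have hb := hW' (2 * j + 1 + 1)
      rw [← hu1, ← hu2] at ha
      rw [← hu2, ← hu3] at hb
      rw [← hu1] at ih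
      have hcomm : u1 * u2 = u2 * u1 := by
        have h := Subgroup.mem_center_iff.1 (hc (2 * j + 1 + 1)) u1
        rw [← hu2] at h
        exact h
      have e : w * u3 = (w * u1) * (u1 * u2)⁻¹ * (u2 * u3) := by
        rw [hcomm]; group
      have e2 : 2 * (j + 1) + 1 = 2 * j + 1 + 1 + 1 := by ring
      rw [e2, ← hu3, e]
      exact W.mul_mem (W.mul_mem ih (W.inv_mem ha)) hb
  obtain ⟨j, rfl⟩ := hm
  have h := hQ j
  rw [hfix] at h
  exact h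

variable {Ω : Type*} [Group Ω] {S : Subgroup Ω}

theorem conjElt_of_mem (F : FusionSystem S) {P : Subgroup Ω} {φ : P →* Ω} (hφ : φ ∈ F.Hom P)
    {x : Ω} (hx : x ∈ P) : F.IsConjElt x (φ ⟨x, hx⟩) :=
  ⟨φ.comp (Subgroup.inclusion (Subgroup.zpowers_le.2 hx)),
    Cfsg.Agent.Lib.helper26.restrict_mem F hφ _, rfl⟩

theorem conjElt_symm (F : FusionSystem S) {x y : Ω} (h : F.IsConjElt x y) : F.IsConjElt y x := by
  obtain ⟨φ, hφ, hxy⟩ := h
  obtain ⟨ψ, hψ, hψx⟩ := F.inv_mem hφ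
  have hy : y ∈ φ.range := ⟨⟨x, Subgroup.mem_zpowers x⟩, hxy⟩
  have h1 := conjElt_of_mem F hψ hy
  have h2 : ψ ⟨y, hy⟩ = x := by
    have h3 := hψx ⟨x, Subgroup.mem_zpowers x⟩
    exact (congrArg ψ (Subtype.ext hxy.symm)).trans h3
  rwa [h2] at h1

theorem conjElt_trans (F : FusionSystem S) {x y z : Ω} (h1 : F.IsConjElt x y)
    (h2 : F.IsConjElt y z) : F.IsConjElt x z := by
  obtain ⟨φ, hφ, hxy⟩ := h1
  obtain ⟨ψ, hψ, hyz⟩ := h2
  have hr : ∀ t : Subgroup.zpowers x, φ t ∈ Subgroup.zpowers y := by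
    rintro ⟨t, ht⟩
    obtain ⟨n, rfl⟩ := Subgroup.mem_zpowers_iff.1 ht
    have e : (⟨x ^ n, ht⟩ : Subgroup.zpowers x) =
        (⟨x, Subgroup.mem_zpowers x⟩ : Subgroup.zpowers x) ^ n := rfl
    rw [e, map_zpow, hxy]
    exact ⟨n, rfl⟩
  refine ⟨ψ.comp (φ.codRestrict _ hr), F.comp_mem hφ hψ hr, ?_⟩
  show ψ ⟨φ ⟨x, _⟩, _⟩ = z
  rw [← hyz]
  congr 1
  exact Subtype.ext hxy

theorem conjElt_conj (F : FusionSystem S) {g s : Ω} (hg : g ∈ S) (hs : s ∈ S) :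
    F.IsConjElt g (s * g * s⁻¹) :=
  ⟨conjHom _ s, F.conj_mem (Subgroup.zpowers_le.2 hg) hs, rfl⟩

theorem central_conj_aut [Finite S] (hS : IsPGroup 2 S) (F : FusionSystem S)
    (hF : F.IsSaturated 2) {w w' : Ω} (hw : w ∈ S ⊓ Subgroup.centralizer (S : Set Ω))
    (hw' : w' ∈ S ⊓ Subgroup.centralizer (S : Set Ω)) (h : F.IsConjElt w w') :
    ∃ α : MulAut S, α ∈ F.autGroup S ∧ ((α ⟨w, hw.1⟩ : S) : Ω) = w' := by
  haveI : Fact (Nat.Prime 2) := ⟨Nat.prime_two⟩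
  obtain ⟨φ, hφ, hφw⟩ := h
  have hcw : Subgroup.zpowers w ≤ Subgroup.centralizer (S : Set Ω) := Subgroup.zpowers_le.2 hw.2
  have hcw' : Subgroup.zpowers w' ≤ Subgroup.centralizer (S : Set Ω) :=
    Subgroup.zpowers_le.2 hw'.2
  have hQS : Subgroup.zpowers w' ≤ S := Subgroup.zpowers_le.2 hw'.1
  have hrange : φ.range = Subgroup.zpowers w' := by
    ext y
    constructor
    · rintro ⟨⟨t, ht⟩, rfl⟩
      obtain ⟨n, rfl⟩ := Subgroup.mem_zpowers_iff.1 ht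
      have e : (⟨w ^ n, ht⟩ : Subgroup.zpowers w) =
          (⟨w, Subgroup.mem_zpowers w⟩ : Subgroup.zpowers w) ^ n := rfl
      rw [e, map_zpow, hφw]
      exact ⟨n, rfl⟩
    · intro hy
      obtain ⟨n, rfl⟩ := Subgroup.mem_zpowers_iff.1 hy
      refine ⟨(⟨w, Subgroup.mem_zpowers w⟩ : Subgroup.zpowers w) ^ n, ?_⟩
      rw [map_zpow, hφw]
  have hNQ : normalizerIn S (Subgroup.zpowers w') = S := by
    apply le_antisymm inf_le_left
    intro g hg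
    refine ⟨hg, ?_⟩
    apply Cfsg.Agent.Lib.helper26.mem_normalizer_of_two_sided
    · intro y hy
      have hc := Subgroup.mem_centralizer_iff.1 (hcw' hy) g hg
      rw [hc]; simpa using hy
    · intro y hy
      have hc := Subgroup.mem_centralizer_iff.1 (hcw' hy) g hg
      rw [mul_assoc, ← hc]; simpa using hy
  have hfn : F.IsFullyNormalized (Subgroup.zpowers w') := by
    refine ⟨hQS, fun Q' _ => ?_⟩
    rw [hNQ]
    exact Subgroup.card_le_of_le inf_le_left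
  have hrec := Cfsg.Agent.Lib.helper26.receptive_of_fullyNormalized hS F hF hfn
  obtain ⟨ψ, hψ, hψx⟩ := hrec.2 _ φ hφ hrange
  have hSle : S ≤ extender S (Subgroup.zpowers w) φ := by
    intro g hg
    apply Cfsg.Agent.Lib.helper26.centralizerIn_le_extender
    refine ⟨hg, ?_⟩
    show g ∈ Subgroup.centralizer ((Subgroup.zpowers w : Subgroup Ω) : Set Ω)
    rw [Subgroup.mem_centralizer_iff]
    intro y hy
    exact (Subgroup.mem_centralizer_iff.1 (hcw hy) g hg).symm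
  have hψ' := Cfsg.Agent.Lib.helper26.restrict_mem F hψ hSle
  obtain ⟨α, hα⟩ := Cfsg.Agent.Lib.helper26.exists_aut_of_mem_top F hψ'
  refine ⟨α, (Cfsg.Agent.Lib.helper26.mem_autGroup_iff F le_rfl α).2 (by rw [← hα]; exact hψ'), ?_⟩
  have h1 : ((α ⟨w, hw.1⟩ : S) : Ω) = (ψ.comp (Subgroup.inclusion hSle)) ⟨w, hw.1⟩ := by
    rw [hα]; rfl
  rw [h1]
  show ψ ⟨w, _⟩ = w'
  rw [hψx w (Subgroup.mem_zpowers w) (hSle hw.1), hφw]

theorem aut_odd_fix [Finite S] (hS : IsPGroup 2 S) (F : FusionSystem S) (hF : F.IsSaturated 2)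
    (α : MulAut S) (hα : α ∈ F.autGroup S) :
    ∃ m : ℕ, Odd m ∧ ∀ z : S, (z : Ω) ∈ Subgroup.centralizer (S : Set Ω) → (α ^ m) z = z := by
  haveI : Fact (Nat.Prime 2) := ⟨Nat.prime_two⟩
  obtain ⟨-, R, hR⟩ := Cfsg.Agent.Lib.helper26.fullyAutomized_of_fullyNormalized hS F hF
    (Cfsg.Agent.Lib.helper26.fullyNormalized_top F)
  have hN : ((autInducedBy S S).subgroupOf (F.autGroup S)).Normal := by
    constructor
    intro d hd a
    rw [Subgroup.mem_subgroupOf] at hd ⊢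
    obtain ⟨g, hgS, hg⟩ := (Cfsg.Agent.Lib.helper26.mem_autInducedBy_iff _ _ _).1 hd
    rw [Cfsg.Agent.Lib.helper26.mem_autInducedBy_iff]
    refine ⟨((a : MulAut S) ⟨g, hgS⟩ : S), ((a : MulAut S) ⟨g, hgS⟩).2, fun x => ?_⟩
    show (((a : MulAut S) ((d : MulAut S) ((a : MulAut S)⁻¹ x)) : S) : Ω) = _
    have h1 : (d : MulAut S) ((a : MulAut S)⁻¹ x) =
        ⟨g, hgS⟩ * ((a : MulAut S)⁻¹ x) * (⟨g, hgS⟩ : S)⁻¹ := Subtype.ext (hg _)
    rw [h1, map_mul, map_mul, map_inv]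
    simp
  haveI : Finite (F.autGroup S) := inferInstance
  obtain ⟨m, hm⟩ : ∃ m, m = (R : Subgroup (F.autGroup S)).index := ⟨_, rfl⟩
  have hodd : ¬ 2 ∣ m := by
    rw [hm]
    exact R.not_dvd_index
  have hRn : (R : Subgroup (F.autGroup S)).Normal := by rw [hR]; exact hN
  have hmem : (⟨α, hα⟩ : F.autGroup S) ^ m ∈ (R : Subgroup (F.autGroup S)) := by
    rw [hm]
    exact Subgroup.pow_index_mem _ _
  refine ⟨m, Nat.not_even_iff_odd.1 (fun h => hodd (even_iff_two_dvd.1 h)), fun z hz => ?_⟩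
  rw [hR, Subgroup.mem_subgroupOf] at hmem
  obtain ⟨g, hgS, hg⟩ := (Cfsg.Agent.Lib.helper26.mem_autInducedBy_iff _ _ _).1 hmem
  apply Subtype.ext
  have h2 := hg z
  have h3 : (((⟨α, hα⟩ : F.autGroup S) ^ m : F.autGroup S) : MulAut S) = α ^ m := rfl
  rw [h3] at h2
  rw [h2]
  have hc := Subgroup.mem_centralizer_iff.1 hz g hgS
  rw [hc]; group

theorem normal_le_center (F : FusionSystem S)
    (h : ∀ x ∈ S, ∃ z ∈ S ⊓ Subgroup.centralizer (S : Set Ω), F.IsConjElt x z)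
    {N : Subgroup Ω} (hN : F.IsNormal N) : N ≤ Subgroup.centralizer (S : Set Ω) := by
  intro n hn
  rw [Subgroup.mem_centralizer_iff]
  intro x hx
  obtain ⟨z, hz, φ, hφ, hφx⟩ := h x hx
  obtain ⟨ψ, hψ, agree, hmap⟩ := hN.2 _ φ hφ
  obtain ⟨X, hX⟩ : ∃ X : ↥(Subgroup.zpowers x ⊔ N),
      X = ⟨x, Subgroup.mem_sup_left (Subgroup.mem_zpowers x)⟩ := ⟨_, rfl⟩
  obtain ⟨Y, hY⟩ : ∃ Y : ↥(Subgroup.zpowers x ⊔ N), Y = ⟨n, Subgroup.mem_sup_right hn⟩ :=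
    ⟨_, rfl⟩
  have hψX : ψ X = z := by
    rw [hX, ← hφx, ← agree]; rfl
  have hψY : ψ Y ∈ N := by
    have h0 : ψ Y ∈ (N.subgroupOf (Subgroup.zpowers x ⊔ N)).map ψ :=
      ⟨Y, by rw [hY]; exact Subgroup.mem_subgroupOf.2 hn, rfl⟩
    rwa [hmap] at h0
  have hc := Subgroup.mem_centralizer_iff.1 hz.2 (ψ Y) (hN.1 hψY)
  have h1 : ψ (X * Y) = ψ (Y * X) := by
    rw [map_mul, map_mul, hψX, hc]
  have h2 := F.injective_of_mem hψ h1
  have h3 := congrArg (fun t : ↥(Subgroup.zpowers x ⊔ N) => (t : Ω)) h2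
  rw [hX, hY] at h3
  exact h3

theorem mul_closed [Finite S] (hS : IsPGroup 2 S) (F : FusionSystem S) (hF : F.IsSaturated 2)
    (h : ∀ x ∈ S, ∃ z ∈ S ⊓ Subgroup.centralizer (S : Set Ω), F.IsConjElt x z)
    (k : ℕ) (W : Subgroup Ω) (hWmem : ∀ x, x ∈ W ↔ x ∈ S ∧ x ^ 2 ^ k = 1) (hW : F.IsNormal W)
    {x y : Ω} (hx : x ∈ S) (hy : y ∈ S) (hxk : x ^ 2 ^ (k + 1) = 1) (hyk : y ^ 2 ^ (k + 1) = 1) :
    (x * y) ^ 2 ^ (k + 1) = 1 := by
  have hWc := normal_le_center F h hW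
  have e2k : 2 ^ (k + 1) = 2 * 2 ^ k := pow_succ' 2 k
  have hsq : ∀ t ∈ S, t ^ 2 ^ (k + 1) = 1 → t * t ∈ W := by
    intro t ht htk
    rw [hWmem]
    refine ⟨S.mul_mem ht ht, ?_⟩
    rw [← pow_two, ← pow_mul, ← e2k]
    exact htk
  obtain ⟨g, hg⟩ : ∃ g, g = x * y := ⟨_, rfl⟩
  have hgS : g ∈ S := hg ▸ S.mul_mem hx hy
  obtain ⟨w, hw, hgw⟩ := h g hgS
  obtain ⟨φ, hφ, hφg⟩ := hgw
  obtain ⟨ψ, hψ, agree, hmap⟩ := hW.2 _ φ hφ
  obtain ⟨ζ, hζ⟩ : ∃ ζ, ζ = (x * x) * (y * y) := ⟨_, rfl⟩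
  have hζW : ζ ∈ W := hζ ▸ W.mul_mem (hsq x hx hxk) (hsq y hy hyk)
  have hid : x * g * x⁻¹ = ζ * g⁻¹ := by rw [hζ, hg]; group
  obtain ⟨G', hG'⟩ : ∃ G' : ↥(Subgroup.zpowers g ⊔ W),
      G' = ⟨g, Subgroup.mem_sup_left (Subgroup.mem_zpowers g)⟩ := ⟨_, rfl⟩
  obtain ⟨Z', hZ'⟩ : ∃ Z' : ↥(Subgroup.zpowers g ⊔ W), Z' = ⟨ζ, Subgroup.mem_sup_right hζW⟩ :=
    ⟨_, rfl⟩
  have hψG : ψ G' = w := by rw [hG', ← hφg, ← agree]; rfl
  have hψZ : ψ Z' ∈ W := by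
    have h0 : ψ Z' ∈ (W.subgroupOf (Subgroup.zpowers g ⊔ W)).map ψ :=
      ⟨Z', by rw [hZ']; exact Subgroup.mem_subgroupOf.2 hζW, rfl⟩
    rwa [hmap] at h0
  have hmem : x * g * x⁻¹ ∈ Subgroup.zpowers g ⊔ W := by
    rw [hid]
    exact Subgroup.mul_mem _ (Subgroup.mem_sup_right hζW)
      (Subgroup.inv_mem _ (Subgroup.mem_sup_left (Subgroup.mem_zpowers g)))
  have hval : ψ ⟨x * g * x⁻¹, hmem⟩ = ψ Z' * w⁻¹ := by
    have e : (⟨x * g * x⁻¹, hmem⟩ : ↥(Subgroup.zpowers g ⊔ W)) = Z' * G'⁻¹ := by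
      apply Subtype.ext
      rw [hZ', hG']
      exact hid
    rw [e, map_mul, map_inv, hψG]
  have c1 : F.IsConjElt w g := conjElt_symm F ⟨φ, hφ, hφg⟩
  have c2 : F.IsConjElt g (x * g * x⁻¹) := conjElt_conj F hgS hx
  have c3 : F.IsConjElt (x * g * x⁻¹) (ψ Z' * w⁻¹) := by
    rw [← hval]
    exact conjElt_of_mem F hψ hmem
  have c4 := conjElt_trans F (conjElt_trans F c1 c2) c3
  have hcen : ψ Z' * w⁻¹ ∈ S ⊓ Subgroup.centralizer (S : Set Ω) :=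
    ⟨S.mul_mem (hW.1 hψZ) (S.inv_mem hw.1),
      Subgroup.mul_mem _ (hWc hψZ) (Subgroup.inv_mem _ hw.2)⟩
  obtain ⟨α, hα, hαw⟩ := central_conj_aut hS F hF hw hcen c4
  obtain ⟨m, hm, hfix⟩ := aut_odd_fix hS F hF α hα
  have hinv : ∀ c ∈ W.subgroupOf S, α c ∈ W.subgroupOf S := by
    intro c hc
    rw [Subgroup.mem_subgroupOf, hWmem] at hc ⊢
    refine ⟨(α c).2, ?_⟩
    have hc1 : c ^ 2 ^ k = 1 := Subtype.ext hc.2
    have hc2 : (α c) ^ 2 ^ k = 1 := by rw [← map_pow, hc1, map_one]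
    exact congrArg Subtype.val hc2
  have hwc : (⟨w, hw.1⟩ : S) ∈ Subgroup.center S := by
    rw [Subgroup.mem_center_iff]
    intro s
    apply Subtype.ext
    exact Subgroup.mem_centralizer_iff.1 hw.2 s s.2
  have hwα : (⟨w, hw.1⟩ : S) * α ⟨w, hw.1⟩ ∈ W.subgroupOf S := by
    rw [Subgroup.mem_subgroupOf]
    show w * ((α ⟨w, hw.1⟩ : S) : Ω) ∈ W
    rw [hαw]
    have e : w * (ψ Z' * w⁻¹) = ψ Z' := by
      have hc := Subgroup.mem_centralizer_iff.1 hw.2 _ (hW.1 hψZ)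
      rw [← mul_assoc, ← hc]; group
    rw [e]; exact hψZ
  have key := odd_orbit_sq (W.subgroupOf S) α hinv ⟨w, hw.1⟩ hwc hwα m hm (hfix _ hw.2)
  have hww : w * w ∈ W := Subgroup.mem_subgroupOf.1 key
  have hw2 : (w * w) ^ 2 ^ k = 1 := ((hWmem _).1 hww).2
  have hwk : w ^ 2 ^ (k + 1) = 1 := by
    rw [e2k, pow_mul, pow_two]; exact hw2
  have h5 : φ ((⟨g, Subgroup.mem_zpowers g⟩ : Subgroup.zpowers g) ^ 2 ^ (k + 1)) = φ 1 := by
    rw [map_pow, hφg, hwk, map_one]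
  have h6 := F.injective_of_mem hφ h5
  have h7 := congrArg (fun t : Subgroup.zpowers g => (t : Ω)) h6
  rw [← hg]
  exact h7

theorem step74 [Finite S] (hS : IsPGroup 2 S) (F : FusionSystem S) (hF : F.IsSaturated 2)
    (h : ∀ x ∈ S, ∃ z ∈ S ⊓ Subgroup.centralizer (S : Set Ω), F.IsConjElt x z)
    (k : ℕ) (W : Subgroup Ω) (hWmem : ∀ x, x ∈ W ↔ x ∈ S ∧ x ^ 2 ^ k = 1) (hW : F.IsNormal W) :
    ∃ U : Subgroup Ω, (∀ x, x ∈ U ↔ x ∈ S ∧ x ^ 2 ^ (k + 1) = 1) ∧ F.IsNormal U := by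
  haveI : Fact (Nat.Prime 2) := ⟨Nat.prime_two⟩
  have hWc := normal_le_center F h hW
  have e2k : 2 ^ (k + 1) = 2 * 2 ^ k := pow_succ' 2 k
  obtain ⟨U, hUmem⟩ : ∃ U : Subgroup Ω, ∀ x, x ∈ U ↔ x ∈ S ∧ x ^ 2 ^ (k + 1) = 1 :=
    ⟨{ carrier := {x | x ∈ S ∧ x ^ 2 ^ (k + 1) = 1}
       mul_mem' := fun {a b} ha hb => ⟨S.mul_mem ha.1 hb.1,
         mul_closed hS F hF h k W hWmem hW ha.1 hb.1 ha.2 hb.2⟩
       one_mem' := ⟨S.one_mem, one_pow _⟩
       inv_mem' := fun {a} ha => ⟨S.inv_mem ha.1, by rw [inv_pow, ha.2, inv_one]⟩ },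
      fun x => Iff.rfl⟩
  refine ⟨U, hUmem, ?_⟩
  have hUS : U ≤ S := fun x hx => ((hUmem x).1 hx).1
  have hsq : ∀ t ∈ U, t * t ∈ W := by
    intro t ht
    rw [hUmem] at ht
    rw [hWmem]
    refine ⟨S.mul_mem ht.1 ht.1, ?_⟩
    rw [← pow_two, ← pow_mul, ← e2k]
    exact ht.2
  have hcomm : ∀ u ∈ U, ∀ v ∈ U, u * v * u⁻¹ * v⁻¹ ∈ W := by
    intro u hu v hv
    have h1 := hsq (u * v) (U.mul_mem hu hv)
    have h2 := W.inv_mem (hsq u hu)
    have h3 := W.inv_mem (hsq v hv)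
    have hc := Subgroup.mem_centralizer_iff.1 (hWc h2) v⁻¹ (S.inv_mem (hUS hv))
    have e : u * v * u⁻¹ * v⁻¹ = (u * v) * (u * v) * ((v⁻¹ * (u * u)⁻¹) * v⁻¹) := by group
    rw [e, hc]
    have e2 : (u * u)⁻¹ * v⁻¹ * v⁻¹ = (u * u)⁻¹ * (v * v)⁻¹ := by group
    rw [e2]
    exact W.mul_mem h1 (W.mul_mem h2 h3)
  have hord : ∀ (P : Subgroup Ω) (β : MulAut P) (e : P) (n : ℕ), (e : Ω) ^ n = 1 →
      ((β e : P) : Ω) ^ n = 1 := by
    intro P β e n he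
    have h1 : e ^ n = 1 := Subtype.ext he
    have h2 : (β e) ^ n = 1 := by rw [← map_pow, h1, map_one]
    exact congrArg Subtype.val h2
  have hUn : ∀ s ∈ S, ∀ t ∈ U, s * t * s⁻¹ ∈ U := by
    intro s hs t ht
    rw [hUmem] at ht ⊢
    refine ⟨S.mul_mem (S.mul_mem hs ht.1) (S.inv_mem hs), ?_⟩
    rw [conj_pow, ht.2]; group
  apply Cfsg.Agent.Lib.helper25.isNormal_of_essential_invariant hS F hF
  intro P hP
  have hPS : P ≤ S := by
    rcases hP with rfl | hP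
    · exact le_rfl
    · exact hP.2.1.1
  have hinvU : ∀ α ∈ F.autGroup P, (U.subgroupOf P).map α.toMonoidHom = U.subgroupOf P := by
    intro α _
    ext y
    constructor
    · rintro ⟨e, he, rfl⟩
      have he' : e ∈ U.subgroupOf P := he
      rw [Subgroup.mem_subgroupOf, hUmem] at he' ⊢
      exact ⟨hPS (α e).2, hord P α e _ he'.2⟩
    · intro hy
      rw [Subgroup.mem_subgroupOf, hUmem] at hy
      refine ⟨α⁻¹ y, ?_, by simp⟩
      show α⁻¹ y ∈ U.subgroupOf P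
      rw [Subgroup.mem_subgroupOf, hUmem]
      exact ⟨hPS (α⁻¹ y).2, hord P α⁻¹ y _ hy.2⟩
  refine ⟨?_, hinvU⟩
  rcases hP with rfl | hP
  · exact hUS
  by_contra hUP
  obtain ⟨t, htU, htN, htP⟩ :=
    Cfsg.Agent.Lib.helper26.exists_mem_normalizer_not_mem_of_normal hS hPS hUS hUn hUP
  apply htP
  have hcen := hP.1
  have hrad := Cfsg.Agent.Lib.helper25.isRadical_of_isEssential hS F hP
  have htS : t ∈ normalizerIn S P := ⟨hUS htU, htN⟩
  have h₁ : ∀ a ∈ F.autGroup P, ∀ e ∈ W.subgroupOf P, a e ∈ W.subgroupOf P := by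
    intro a _ e he
    rw [Subgroup.mem_subgroupOf, hWmem] at he ⊢
    exact ⟨hPS (a e).2, hord P a e _ he.2⟩
  have h₂ : ∀ a ∈ F.autGroup P, ∀ e ∈ U.subgroupOf P, a e ∈ U.subgroupOf P := by
    intro a _ e he
    rw [Subgroup.mem_subgroupOf, hUmem] at he ⊢
    exact ⟨hPS (a e).2, hord P a e _ he.2⟩
  have hKn := chainStab_normal (F.autGroup P) (W.subgroupOf P) (U.subgroupOf P) h₁ h₂
  have hKp := chainStab_pgroup (F.autGroup P) (W.subgroupOf P) (U.subgroupOf P) h₂ k (k + 1)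
    (fun e he => Subtype.ext ((hWmem _).1 (Subgroup.mem_subgroupOf.1 he)).2)
    (fun e he => Subtype.ext ((hUmem _).1 (Subgroup.mem_subgroupOf.1 he)).2)
  have hcore := Cfsg.Agent.Lib.helper26.le_pCore hKn hKp
  have hctA : Cfsg.Agent.Lib.helper26.conjAut S P ⟨t, htS⟩ ∈ F.autGroup P :=
    Cfsg.Agent.Lib.helper26.autInducedBy_le_autGroup F hPS
      (Cfsg.Agent.Lib.helper26.conjAut_mem_autInducedBy S P ⟨t, htS⟩)
  have hctK : (⟨_, hctA⟩ : F.autGroup P) ∈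
      chainStab (F.autGroup P) (W.subgroupOf P) (U.subgroupOf P) h₂ := by
    refine ⟨fun e he => ?_, fun e he => ?_, fun e => ?_⟩
    · apply Subtype.ext
      show t * (e : Ω) * t⁻¹ = e
      have hc := Subgroup.mem_centralizer_iff.1 (hWc (Subgroup.mem_subgroupOf.1 he)) t (hUS htU)
      rw [hc]; group
    · rw [Subgroup.mem_subgroupOf]
      show t * (e : Ω) * t⁻¹ * (e : Ω)⁻¹ ∈ W
      exact hcomm t htU e (Subgroup.mem_subgroupOf.1 he)
    · rw [Subgroup.mem_subgroupOf]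
      show t * (e : Ω) * t⁻¹ * (e : Ω)⁻¹ ∈ U
      have e1 : t * (e : Ω) * t⁻¹ * (e : Ω)⁻¹ = t * ((e : Ω) * t⁻¹ * (e : Ω)⁻¹) := by group
      rw [e1]
      exact U.mul_mem htU (hUn e (hPS e.2) t⁻¹ (U.inv_mem htU))
  have hct' : Cfsg.Agent.Lib.helper26.conjAut S P ⟨t, htS⟩ ∈
      (pCore 2 (F.autGroup P)).map (F.autGroup P).subtype :=
    ⟨⟨_, hctA⟩, hcore hctK, rfl⟩
  rw [hrad.2] at hct'
  exact Cfsg.Agent.Lib.helper25.mem_of_conjAut_mem_inn hPS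
    (hcen.2 P (Cfsg.Agent.Lib.helper26.isConj_refl F hPS)) ⟨t, htS⟩ hct'

end aux74

/-- Let F be a saturated fusion system over a finite 2-group S. Suppose that every element of S is F-conjugate to an element of the centre Z(S) (some map of F defined on the cyclic subgroup it generates sends it into Z(S)). Then S is abelian. -/
theorem result {Ω : Type*} [Group Ω] {S : Subgroup Ω} [Finite S] (hS : IsPGroup 2 ↥S) (F : Cfsg.FusionSystem S) (hF : F.IsSaturated 2) (h : ∀ x ∈ S, ∃ z ∈ S ⊓ Subgroup.centralizer (S : Set Ω), F.IsConjElt x z) : IsMulCommutative ↥S := by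
  haveI : Fact (Nat.Prime 2) := ⟨Nat.prime_two⟩
  have hall : ∀ k : ℕ, ∃ W : Subgroup Ω, (∀ x, x ∈ W ↔ x ∈ S ∧ x ^ 2 ^ k = 1) ∧ F.IsNormal W := by
    intro k
    induction k with
    | zero =>
      refine ⟨⊥, fun x => ?_, Cfsg.Agent.Lib.helper25.isNormal_bot F⟩
      constructor
      · intro hx
        rw [Subgroup.mem_bot] at hx
        subst hx
        exact ⟨S.one_mem, one_pow _⟩
      · rintro ⟨_, hx⟩
        rw [pow_zero, pow_one] at hx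
        exact Subgroup.mem_bot.2 hx
    | succ k ih =>
      obtain ⟨W, hWmem, hW⟩ := ih
      exact step74 hS F hF h k W hWmem hW
  obtain ⟨n, hn⟩ := IsPGroup.iff_card.1 hS
  obtain ⟨W, hWmem, hW⟩ := hall n
  have hWc := normal_le_center F h hW
  have hSW : S ≤ W := by
    intro x hx
    rw [hWmem]
    refine ⟨hx, ?_⟩
    have h1 : (⟨x, hx⟩ : S) ^ Nat.card S = 1 := pow_card_eq_one'
    rw [hn] at h1
    exact congrArg Subtype.val h1
  refine ⟨⟨fun a b => ?_⟩⟩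
  apply Subtype.ext
  exact Subgroup.mem_centralizer_iff.1 (hWc (hSW b.2)) a a.2

end Cfsg.Agent.S5274
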