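import Cfsg.Statements.S5290
-- import your own Cfsg.Agent.* helpers here
import Cfsg.Agent.S5106
import Cfsg.Agent.Lib.helper26.Abelian

set_option autoImplicit false
open Cfsg

namespace Cfsg.Agent.S5290

open Cfsg.Agent.Lib.helper26 Cfsg.Agent.Lib.helper25 Cfsg.FusionSystem in
theorem main {Ω : Type*} [Group Ω] {S : Subgroup Ω} [Finite S] (p : ℕ) [Fact p.Prime]
    (hS : IsPGroup p S) (F : Cfsg.FusionSystem S) (hF : F.IsSaturated p) (Q : Subgroup Ω)
    (hQ : Q ≤ S) :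
    F.IsNormal Q ↔ (Cfsg.innerFusionSystem Q).IsWeaklyNormalIn F p := by
  haveI : Finite Q := finite_of_le hQ
  have hconjQ : ∀ g (hg : g ∈ Q), (MulAut.conj (⟨g, hg⟩ : Q)) ∈ F.autGroup Q := by
    intro g hg
    apply autInducedBy_le_autGroup F hQ
    rw [mem_autInducedBy_iff]
    exact ⟨g, hQ hg, fun x => rfl⟩
  constructor
  · intro hN
    refine ⟨inner_saturated (hS.to_le hQ), hF, ?_, stronglyClosed_of_isNormal F hN, ?_, ?_⟩
    · -- subsystem
      intro P φ hφ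
      rw [mem_inner_iff] at hφ
      obtain ⟨hPQ, g, hg, hφx⟩ := hφ
      exact restrict_mem' F (F.conj_mem (hPQ.trans hQ) (hQ hg)) (le_refl P) φ (fun x => hφx x)
    · -- invariance
      intro P hPQ φ hφ α hα
      rw [mem_inner_iff] at hφ
      obtain ⟨-, g, hg, hφx⟩ := hφ
      refine ⟨conjHom _ (α ⟨g, hg⟩ : Q), ?_, ?_⟩
      · rw [mem_inner_iff]
        refine ⟨?_, (α ⟨g, hg⟩ : Q), (α ⟨g, hg⟩).2, fun x => rfl⟩
        rintro _ ⟨y, -, rfl⟩
        exact (α y).2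
      · intro x hφx' hαx
        show ((α ⟨g, hg⟩ : Q) : Ω) * (α ⟨x, hPQ x.2⟩ : Q) * ((α ⟨g, hg⟩ : Q) : Ω)⁻¹ =
          (α ⟨φ x, hφx'⟩ : Q)
        have h1 : (⟨φ x, hφx'⟩ : Q) = ⟨g, hg⟩ * ⟨x, hPQ x.2⟩ * (⟨g, hg⟩ : Q)⁻¹ :=
          Subtype.ext (hφx x)
        rw [h1, map_mul, map_mul, map_inv]
        rfl
    · -- Frattini
      intro P hPQ φ hφ
      obtain ⟨e, he, hex⟩ := exists_aut_of_isNormal F hN hPQ hφ
      refine ⟨e, he, P.subtype, ?_, ?_⟩
      · rw [mem_inner_iff]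
        exact ⟨hPQ, 1, Q.one_mem, fun x => by simp⟩
      · intro x hx
        exact (hex x).symm
  · rintro ⟨-, -, -, hsc, -, hfr⟩
    apply (Cfsg.Agent.S5106.result p hS F hF Q hQ).2
    intro P hPQ φ hφ
    obtain ⟨α, hα, φ₀, hφ₀, hx⟩ := hfr P hPQ φ hφ
    rw [mem_inner_iff] at hφ₀
    obtain ⟨-, g, hg, hφ₀x⟩ := hφ₀
    refine ⟨α * MulAut.conj (⟨g, hg⟩ : Q), mul_mem hα (hconjQ g hg), ?_⟩
    intro x
    have hmem : φ₀ x ∈ Q := by
      rw [hφ₀x]; exact Q.mul_mem (Q.mul_mem hg (hPQ x.2)) (Q.inv_mem hg)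
    rw [hx x hmem]
    show ((α (⟨g, hg⟩ * ⟨x, hPQ x.2⟩ * (⟨g, hg⟩ : Q)⁻¹) : Q) : Ω) = (α ⟨φ₀ x, hmem⟩ : Q)
    congr 2
    exact Subtype.ext (hφ₀x x).symm

/-- Let F be a saturated fusion system over a finite p-group S and Q a subgroup of S. Then Q is normal in F (F = N_F(Q)) if and only if the inner fusion system of Q, consisting of the conjugations by elements of Q on subgroups of Q, is a weakly normal subsystem of F (both saturated, Q strongly closed, invariant under F-conjugation, with the Frattini property). -/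
theorem result {Ω : Type*} [Group Ω] {S : Subgroup Ω} [Finite S] (p : ℕ) [Fact p.Prime] (hS : IsPGroup p S)
    (F : Cfsg.FusionSystem S) (hF : F.IsSaturated p)
    (Q : Subgroup Ω) (hQ : Q ≤ S) :
    F.IsNormal Q ↔ (Cfsg.innerFusionSystem Q).IsWeaklyNormalIn F p := by
  exact main p hS F hF Q hQ

end Cfsg.Agent.S5290
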