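import Cfsg.Statements.S5291
-- import your own Cfsg.Agent.* helpers here
import Cfsg.Agent.S5088
import Cfsg.Agent.Lib.helper26.Saturation
import Cfsg.Agent.Lib.helper25.FusionStab
import Cfsg.Agent.Lib.helper25.FusionNormal

set_option autoImplicit false
open Cfsg

namespace Cfsg.Agent.S5291

section

open Cfsg.Agent.Lib.helper26 Cfsg Cfsg.FusionSystem
open scoped commutatorElement

variable {Ω : Type*} [Group Ω] {S T : Subgroup Ω}

/-- image of a subgroup under an automorphism of `T` -/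
abbrev img (α : MulAut T) (P : Subgroup Ω) : Subgroup Ω :=
  (P.subgroupOf T).map (T.subtype.comp α.toMonoidHom)

theorem mem_img (α : MulAut T) (P : Subgroup Ω) {y : Ω} :
    y ∈ img α P ↔ ∃ x : T, (x : Ω) ∈ P ∧ ((α x : T) : Ω) = y :=
  Cfsg.Agent.Lib.helper25.mem_map_subgroupOf _

theorem img_le (α : MulAut T) (P : Subgroup Ω) : img α P ≤ T := by
  rintro _ ⟨x, -, rfl⟩
  exact (α x).2

theorem img_img_inv (α : MulAut T) {P : Subgroup Ω} (hPT : P ≤ T) : img α (img α⁻¹ P) = P := by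
  ext y
  rw [mem_img]
  constructor
  · rintro ⟨x, hx, rfl⟩
    obtain ⟨x', hx', h⟩ := (mem_img _ _).1 hx
    have h1 : x = α⁻¹ x' := Subtype.ext h.symm
    rw [h1, MulAut.apply_inv_self]
    exact hx'
  · intro hy
    refine ⟨α⁻¹ ⟨y, hPT hy⟩, (mem_img _ _).2 ⟨⟨y, hPT hy⟩, hy, rfl⟩, ?_⟩
    rw [MulAut.apply_inv_self]

/-- invariance of `E` under the automorphism `α` of `T` -/
def InvAt (E : FusionSystem T) (α : MulAut T) : Prop :=
  ∀ (P : Subgroup Ω) (hPT : P ≤ T) (φ : P →* Ω), φ ∈ E.Hom P →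
      ∃ χ ∈ E.Hom (img α P),
        ∀ (x : P) (hφx : φ x ∈ T) (hαx : ((α ⟨x, hPT x.2⟩ : T) : Ω) ∈ img α P),
          χ ⟨(α ⟨x, hPT x.2⟩ : T), hαx⟩ = ((α ⟨φ x, hφx⟩ : T) : Ω)

theorem isNormal_img (E : FusionSystem T) (α : MulAut T) (h1 : InvAt E α) (h2 : InvAt E α⁻¹)
    {R : Subgroup Ω} (hR : E.IsNormal R) : E.IsNormal (img α R) := by
  have hRT : R ≤ T := hR.1
  refine ⟨img_le α R, fun P φ hφ => ?_⟩
  have hPT : P ≤ T := (E.le_of_mem hφ).1
  have hφT : ∀ x : P, φ x ∈ T := (E.le_of_mem hφ).2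
  obtain ⟨χ, hχ, hχx⟩ := h2 P hPT φ hφ
  obtain ⟨ψ', hψ', agree', hmap'⟩ := hR.2 (img α⁻¹ P) χ hχ
  have hP'RT : img α⁻¹ P ⊔ R ≤ T := sup_le (img_le _ _) hRT
  have hψ'T : ∀ y : ↥(img α⁻¹ P ⊔ R), ψ' y ∈ T := (E.le_of_mem hψ').2
  obtain ⟨χ', hχ', hχ'x⟩ := h1 (img α⁻¹ P ⊔ R) hP'RT ψ' hψ'
  have heq : P ⊔ img α R = img α (img α⁻¹ P ⊔ R) := by
    show _ = ((img α⁻¹ P ⊔ R).subgroupOf T).map (T.subtype.comp α.toMonoidHom)
    rw [Cfsg.Agent.Lib.helper25.map_subgroupOf_sup (img_le _ _) hRT]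
    show _ = img α (img α⁻¹ P) ⊔ img α R
    rw [img_img_inv α hPT]
  -- value of χ' at α y
  have key : ∀ (y : ↥(img α⁻¹ P ⊔ R)) (w : ↥(img α (img α⁻¹ P ⊔ R))),
      (w : Ω) = ((α ⟨y, hP'RT y.2⟩ : T) : Ω) → χ' w = ((α ⟨ψ' y, hψ'T y⟩ : T) : Ω) := by
    intro y w hw
    have hmem : ((α ⟨y, hP'RT y.2⟩ : T) : Ω) ∈ img α (img α⁻¹ P ⊔ R) := by
      rw [← hw]; exact w.2
    have h3 := hχ'x y (hψ'T y) hmem
    rw [← h3]
    congr 1
    exact Subtype.ext hw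
  refine ⟨χ'.comp (Subgroup.inclusion heq.le), Cfsg.Agent.Lib.helper25.hom_cast E heq hχ', ?_, ?_⟩
  · intro x
    have ha : ((α⁻¹ ⟨x, hPT x.2⟩ : T) : Ω) ∈ img α⁻¹ P := (mem_img _ _).2 ⟨⟨x, hPT x.2⟩, x.2, rfl⟩
    have h4 := key (Subgroup.inclusion le_sup_left ⟨((α⁻¹ ⟨x, hPT x.2⟩ : T) : Ω), ha⟩)
      (Subgroup.inclusion heq.le (Subgroup.inclusion le_sup_left x)) (by
        show (x : Ω) = ((α (α⁻¹ ⟨x, hPT x.2⟩) : T) : Ω)
        rw [MulAut.apply_inv_self])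
    show χ' (Subgroup.inclusion heq.le (Subgroup.inclusion le_sup_left x)) = φ x
    rw [h4]
    have h5 : (⟨ψ' (Subgroup.inclusion le_sup_left ⟨((α⁻¹ ⟨x, hPT x.2⟩ : T) : Ω), ha⟩),
        hψ'T _⟩ : T) = α⁻¹ ⟨φ x, hφT x⟩ := by
      apply Subtype.ext
      show ψ' (Subgroup.inclusion le_sup_left ⟨((α⁻¹ ⟨x, hPT x.2⟩ : T) : Ω), ha⟩) = _
      rw [agree']
      exact hχx x (hφT x) ha
    rw [h5, MulAut.apply_inv_self]
  · ext z
    constructor
    · rintro ⟨w, hw, rfl⟩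
      obtain ⟨r, hr, hrw⟩ := (mem_img _ _).1 (Subgroup.mem_subgroupOf.1 hw)
      have h4 := key ⟨(r : Ω), (le_sup_right : R ≤ img α⁻¹ P ⊔ R) hr⟩
        (Subgroup.inclusion heq.le w) hrw.symm
      show χ' (Subgroup.inclusion heq.le w) ∈ img α R
      rw [h4]
      refine (mem_img _ _).2 ⟨_, ?_, rfl⟩
      show ψ' ⟨(r : Ω), _⟩ ∈ R
      have h6 : ψ' ⟨(r : Ω), (le_sup_right : R ≤ img α⁻¹ P ⊔ R) hr⟩
          ∈ (R.subgroupOf (img α⁻¹ P ⊔ R)).map ψ' :=
        ⟨_, Subgroup.mem_subgroupOf.2 hr, rfl⟩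
      rw [hmap'] at h6
      exact h6
    · intro hz
      obtain ⟨r', hr', rfl⟩ := (mem_img _ _).1 hz
      have h6 : (r' : Ω) ∈ (R.subgroupOf (img α⁻¹ P ⊔ R)).map ψ' := by rw [hmap']; exact hr'
      obtain ⟨y, hy, hyr⟩ := h6
      have hyR : (y : Ω) ∈ R := Subgroup.mem_subgroupOf.1 hy
      have hmem : ((α ⟨y, hP'RT y.2⟩ : T) : Ω) ∈ img α R :=
        (mem_img _ _).2 ⟨⟨y, hP'RT y.2⟩, hyR, rfl⟩
      have hmem2 : ((α ⟨y, hP'RT y.2⟩ : T) : Ω) ∈ P ⊔ img α R :=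
        (le_sup_right : img α R ≤ P ⊔ img α R) hmem
      refine ⟨⟨_, hmem2⟩, Subgroup.mem_subgroupOf.2 hmem, ?_⟩
      have h4 := key y (Subgroup.inclusion heq.le ⟨_, hmem2⟩) rfl
      show χ' (Subgroup.inclusion heq.le ⟨_, hmem2⟩) = _
      rw [h4]
      have h7 : (⟨ψ' y, hψ'T y⟩ : T) = r' := Subtype.ext hyr
      rw [h7]

theorem uc_map' {G : Type*} [Group G] [Finite G] (σ : G →* G) (hσ : Function.Injective σ) (i : ℕ)
    (z : G) (hz : z ∈ Subgroup.upperCentralSeries G i) :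
    σ z ∈ Subgroup.upperCentralSeries G i := by
  have hbij : Function.Bijective σ := ⟨hσ, Finite.injective_iff_surjective.1 hσ⟩
  have hchar : (Subgroup.upperCentralSeries G i).Characteristic := inferInstance
  have h1 := hchar.fixed (MulEquiv.ofBijective σ hbij)
  rw [← h1] at hz
  exact hz

/-- strongly closed in `E` and invariant under `Aut_F(T)` implies strongly closed in `F` -/
theorem stronglyClosed_of_inv (F : FusionSystem S) (E : FusionSystem T) (hEF : E.IsInvariantIn F)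
    {X : Subgroup Ω} (hXE : E.StronglyClosed X)
    (hinv : ∀ α ∈ F.autGroup T, ∀ x : T, (x : Ω) ∈ X → ((α x : T) : Ω) ∈ X) :
    F.StronglyClosed X := by
  obtain ⟨hsub, hTsc, -, hfrat⟩ := hEF
  have hXT : X ≤ T := hXE.1
  refine ⟨hXT.trans hTsc.1, fun P hPX φ hφ x => ?_⟩
  obtain ⟨α, hα, φ₀, hφ₀, h⟩ := hfrat P (hPX.trans hXT) φ hφ
  have h1 : φ₀ x ∈ X := hXE.2 P hPX φ₀ hφ₀ x
  rw [h x (hXT h1)]
  exact hinv α hα _ h1

theorem main [Finite S] (p : ℕ) [Fact p.Prime] (hS : IsPGroup p S)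
    (F : FusionSystem S) (hF : F.IsSaturated p) (E : FusionSystem T)
    (hE : E.IsWeaklyNormalIn F p) (R : Subgroup Ω) (hR : E.IsNormal R) :
    F.IsNormal (Subgroup.closure {x : Ω | ∃ φ ∈ F.Hom R, ∃ r : R, x = φ r}) := by
  obtain ⟨hEsat, -, hEF⟩ := hE
  have hsub := hEF.1
  have hTsc := hEF.2.1
  have hTS : T ≤ S := hTsc.1
  have hRT : R ≤ T := hR.1
  haveI : Finite T := finite_of_le hTS
  have hinvAt : ∀ α ∈ F.autGroup T, InvAt E α :=
    fun α hα P hPT φ hφ => hEF.2.2.1 P hPT φ hφ α hα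
  have hRsc := Cfsg.Agent.Lib.helper25.stronglyClosed_of_isNormal E hR
  obtain ⟨Rs, hRs⟩ : ∃ Rs : Subgroup Ω,
      Rs = Subgroup.closure {x : Ω | ∃ φ ∈ F.Hom R, ∃ r : R, x = φ r} := ⟨_, rfl⟩
  rw [← hRs]
  have hRs_eq : Rs = sSup {Q : Subgroup Ω | ∃ α ∈ F.autGroup T, Q = img α R} := by
    apply le_antisymm
    · rw [hRs, Subgroup.closure_le]
      rintro _ ⟨φ, hφ, r, rfl⟩
      obtain ⟨α, hα, φ₀, hφ₀, h⟩ := hEF.2.2.2 R hRT φ hφ
      have h1 : φ₀ r ∈ R := hRsc.2 R le_rfl φ₀ hφ₀ r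
      have hle : img α R ≤ sSup {Q : Subgroup Ω | ∃ α ∈ F.autGroup T, Q = img α R} :=
        le_sSup ⟨α, hα, rfl⟩
      apply hle
      show φ r ∈ img α R
      rw [h r (hRT h1)]
      exact (mem_img _ _).2 ⟨⟨φ₀ r, hRT h1⟩, h1, rfl⟩
    · apply sSup_le
      rintro _ ⟨α, hα, rfl⟩
      intro y hy
      obtain ⟨x, hx, rfl⟩ := (mem_img _ _).1 hy
      rw [hRs]
      apply Subgroup.subset_closure
      have hαF : T.subtype.comp α.toMonoidHom ∈ F.Hom T := (mem_autGroup_iff F hTS α).1 hα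
      exact ⟨_, restrict_mem F hαF hRT, ⟨x, hx⟩, rfl⟩
  have hRsn : E.IsNormal Rs := by
    rw [hRs_eq]
    apply Cfsg.Agent.Lib.helper25.isNormal_sSup E
    rintro _ ⟨α, hα, rfl⟩
    exact isNormal_img E α (hinvAt α hα) (hinvAt α⁻¹ (Subgroup.inv_mem _ hα)) hR
  have hRsT : Rs ≤ T := hRsn.1
  have hRsS : Rs ≤ S := hRsT.trans hTS
  have hRsinv : ∀ α ∈ F.autGroup T, ∀ x : T, (x : Ω) ∈ Rs → ((α x : T) : Ω) ∈ Rs := by
    intro α hα x hx
    have hαF : T.subtype.comp α.toMonoidHom ∈ F.Hom T := (mem_autGroup_iff F hTS α).1 hα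
    have key : ∀ y ∈ Subgroup.closure {x : Ω | ∃ φ ∈ F.Hom R, ∃ r : R, x = φ r},
        ∃ hy : y ∈ T, ((α ⟨y, hy⟩ : T) : Ω) ∈ Rs := by
      intro y hy
      induction hy using Subgroup.closure_induction with
      | mem y hy =>
        obtain ⟨φ, hφ, r, rfl⟩ := hy
        have hφT : ∀ r : R, φ r ∈ T := fun r => hTsc.2 R hRT φ hφ r
        refine ⟨hφT r, ?_⟩
        rw [hRs]
        apply Subgroup.subset_closure
        exact ⟨(T.subtype.comp α.toMonoidHom).comp (φ.codRestrict T hφT),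
          comp_mem' F hφ hαF hφT _ (fun z => rfl), r, rfl⟩
      | one =>
        refine ⟨T.one_mem, ?_⟩
        have h : (⟨1, T.one_mem⟩ : T) = 1 := rfl
        rw [h, map_one]
        exact Rs.one_mem
      | mul a b _ _ ha hb =>
        obtain ⟨ha1, ha2⟩ := ha
        obtain ⟨hb1, hb2⟩ := hb
        refine ⟨T.mul_mem ha1 hb1, ?_⟩
        have h : (⟨a * b, T.mul_mem ha1 hb1⟩ : T) = ⟨a, ha1⟩ * ⟨b, hb1⟩ := rfl
        rw [h, map_mul]
        exact Rs.mul_mem ha2 hb2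
      | inv a _ ha =>
        obtain ⟨ha1, ha2⟩ := ha
        refine ⟨T.inv_mem ha1, ?_⟩
        have h : (⟨a⁻¹, T.inv_mem ha1⟩ : T) = ⟨a, ha1⟩⁻¹ := rfl
        rw [h, map_inv]
        exact Rs.inv_mem ha2
    obtain ⟨_, h⟩ := key x (hRs ▸ hx)
    exact h
  haveI : Finite Rs := finite_of_le hRsS
  have hnil : Group.IsNilpotent Rs := (hS.to_le hRsS).isNilpotent
  obtain ⟨n, hn⟩ := hnil.nilpotent'
  -- the chain
  have hZsc : ∀ j : ℕ, F.StronglyClosed ((Subgroup.upperCentralSeries Rs j).map Rs.subtype) := by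
    intro j
    apply stronglyClosed_of_inv F E hEF
      (Cfsg.Agent.Lib.helper25.stronglyClosed_of_characteristic E hRsn
        (Subgroup.upperCentralSeries Rs j))
    rintro α hα x ⟨z, hz, hzx⟩
    have hσinj : Function.Injective
        (((T.subtype.comp α.toMonoidHom).comp (Subgroup.inclusion hRsT)).codRestrict Rs
          (fun w => hRsinv α hα _ w.2)) := by
      intro a b hab
      have h1 : ((α (Subgroup.inclusion hRsT a) : T) : Ω) = ((α (Subgroup.inclusion hRsT b) : T) : Ω) :=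
        congrArg (fun w : Rs => (w : Ω)) hab
      exact Subgroup.inclusion_injective hRsT (α.injective (Subtype.ext h1))
    have h5 := uc_map' _ hσinj j z hz
    refine ⟨_, h5, ?_⟩
    show ((α (Subgroup.inclusion hRsT z) : T) : Ω) = ((α x : T) : Ω)
    congr 2
    exact Subtype.ext hzx
  have hZcomm : ∀ j : ℕ, ⁅Rs, (Subgroup.upperCentralSeries Rs (j + 1)).map Rs.subtype⁆
      ≤ (Subgroup.upperCentralSeries Rs j).map Rs.subtype := by
    intro j
    have hc : ⁅(⊤ : Subgroup Rs), Subgroup.upperCentralSeries Rs (j + 1)⁆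
        ≤ Subgroup.upperCentralSeries Rs j := by
      rw [Subgroup.commutator_le]
      intro g₁ _ g₂ hg₂
      have h3 := (Subgroup.mem_upperCentralSeries_succ_iff).1 hg₂ g₁
      have h4 : ⁅g₁, g₂⁆ = (g₂ * g₁ * g₂⁻¹ * g₁⁻¹)⁻¹ := by
        rw [commutatorElement_def]; group
      rw [h4]
      exact Subgroup.inv_mem _ h3
    have e : ⁅Rs, (Subgroup.upperCentralSeries Rs (j + 1)).map Rs.subtype⁆
        = (⁅(⊤ : Subgroup Rs), Subgroup.upperCentralSeries Rs (j + 1)⁆).map Rs.subtype := by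
      rw [Subgroup.map_commutator, ← MonoidHom.range_eq_map, Subgroup.range_subtype]
    rw [e]
    exact Subgroup.map_mono hc
  apply (Cfsg.Agent.S5088.result p hS F hF Rs).2
  refine ⟨n, fun i => (Subgroup.upperCentralSeries Rs (i : ℕ)).map Rs.subtype, ?_, ?_, ?_, ?_⟩
  · show (Subgroup.upperCentralSeries Rs ((0 : Fin (n + 1)) : ℕ)).map Rs.subtype = ⊥
    rw [Fin.val_zero, Subgroup.upperCentralSeries_zero, Subgroup.map_bot]
  · show (Subgroup.upperCentralSeries Rs ((Fin.last n : Fin (n + 1)) : ℕ)).map Rs.subtype = Rs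
    rw [Fin.val_last, hn, ← MonoidHom.range_eq_map, Subgroup.range_subtype]
  · intro a b hab
    exact Subgroup.map_mono (Subgroup.upperCentralSeries_mono Rs hab)
  · intro i
    refine ⟨hZsc _, ?_⟩
    show ⁅Rs, (Subgroup.upperCentralSeries Rs (i.succ : ℕ)).map Rs.subtype⁆
      ≤ (Subgroup.upperCentralSeries Rs (i.castSucc : ℕ)).map Rs.subtype
    rw [Fin.val_succ, Fin.val_castSucc]
    exact hZcomm i

end

/-- Let F be a saturated fusion system over a finite p-group S and E a weakly normal subsystem of F over a subgroup T. Suppose a subgroup R of T is normal in E (E = N_E(R)), and let R* be the subgroup of T generated by the images of R under all maps of F with source R. Then R* is normal in F (F = N_F(R*)). -/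
theorem result {Ω : Type*} [Group Ω] {S : Subgroup Ω} [Finite S] (p : ℕ) [Fact p.Prime] (hS : IsPGroup p S)
    (F : Cfsg.FusionSystem S) (hF : F.IsSaturated p)
    {T : Subgroup Ω} (E : Cfsg.FusionSystem T) (hE : E.IsWeaklyNormalIn F p)
    (R : Subgroup Ω) (hR : E.IsNormal R) :
    F.IsNormal (Subgroup.closure {x : Ω | ∃ φ ∈ F.Hom R, ∃ r : R, x = φ r}) := by
  exact main p hS F hF E hE R hR

end Cfsg.Agent.S5291
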