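import Cfsg.Statements.S5298
-- import your own Cfsg.Agent.* helpers here
import Cfsg.Agent.Lib.helper26.Small
import Cfsg.Agent.Lib.helper25.Hyperfocal
import Cfsg.Agent.Lib.helper25.FusionStab

set_option autoImplicit false
universe u
open Cfsg

namespace Cfsg.Agent.S5298

section

open Cfsg.Agent.Lib.helper26 Cfsg.FusionSystem
open Cfsg.Agent.Lib.helper25 (mem_hyperfocal aut_fix_of_coprime)
open scoped commutatorElement

variable {Ω : Type*} [Group Ω] {S : Subgroup Ω}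

theorem comm_mem_hyp (F : Cfsg.FusionSystem S) (p : ℕ) {W : Subgroup Ω} (hW : W ≤ S)
    (γ : MulAut W) (hγ : γ ∈ F.autGroup W) (m : ℕ) (hm : m.Coprime p) (hγm : γ ^ m = 1) (x : W) :
    (x : Ω)⁻¹ * ((γ x : W) : Ω) ∈ F.hyperfocalSubgroup p := by
  have hres : (⟨γ, hγ⟩ : F.autGroup W) ∈ pResidual p (F.autGroup W) := by
    refine Subgroup.subset_closure ?_
    show Nat.Coprime (orderOf (⟨γ, hγ⟩ : F.autGroup W)) p
    have h1 : (⟨γ, hγ⟩ : F.autGroup W) ^ m = 1 := Subtype.ext hγm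
    exact Nat.Coprime.coprime_dvd_left (orderOf_dvd_of_pow_eq_one h1) hm
  exact mem_hyperfocal F p hW ⟨γ, hγ⟩ hres x

theorem cyc_hom (F : Cfsg.FusionSystem S) {W : Subgroup Ω} (hW : W ≤ S) (γ : MulAut W)
    (hγ : γ ∈ F.autGroup W) (y : W) :
    ∃ φ : ↥(Subgroup.zpowers (y : Ω)) →* Ω,
      φ ∈ F.homSet (Subgroup.zpowers (y : Ω)) (Subgroup.zpowers ((γ y : W) : Ω)) ∧
      φ ⟨y, Subgroup.mem_zpowers _⟩ = ((γ y : W) : Ω) := by
  have hle : Subgroup.zpowers (y : Ω) ≤ W := Subgroup.zpowers_le.2 y.2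
  refine ⟨(W.subtype.comp γ.toMonoidHom).comp (Subgroup.inclusion hle),
    ⟨restrict_mem F ((mem_autGroup_iff F hW γ).1 hγ) hle, fun w => ?_⟩, rfl⟩
  obtain ⟨k, hk⟩ := Subgroup.mem_zpowers_iff.1 w.2
  have h1 : Subgroup.inclusion hle w = y ^ k := by
    apply Subtype.ext
    rw [Subgroup.coe_zpow]
    exact hk.symm
  show ((γ (Subgroup.inclusion hle w) : W) : Ω) ∈ Subgroup.zpowers ((γ y : W) : Ω)
  rw [h1, map_zpow, Subgroup.coe_zpow]
  exact Subgroup.zpow_mem _ (Subgroup.mem_zpowers _) k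

theorem pprime_trivial [Finite S] (p : ℕ) [Fact p.Prime] (hS : IsPGroup p S)
    (F : Cfsg.FusionSystem S)
    (h : ∀ A B : Subgroup Ω, A ≤ (F.hyperfocalSubgroup p) → B ≤ (F.hyperfocalSubgroup p) →
      IsCyclic ↥A → (Nat.card ↥A = p ∨ Nat.card ↥A = 4) → IsCyclic ↥B →
      (Nat.card ↥B = p ∨ Nat.card ↥B = 4) →
      F.homSet A B ⊆ (Cfsg.innerFusionSystem S).Hom A)
    (W : Subgroup Ω) (hW : W ≤ S) (γ : MulAut W) (hγ : γ ∈ F.autGroup W) (m : ℕ)
    (hm : m.Coprime p) (hγm : γ ^ m = 1) : γ = 1 := by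
  haveI : Finite W := finite_of_le hW
  have hWp : IsPGroup p W := hS.to_le hW
  have hγi : γ⁻¹ ∈ F.autGroup W := inv_mem hγ
  have hγim : γ⁻¹ ^ m = 1 := by rw [inv_pow, hγm, inv_one]
  obtain ⟨X, hXdef⟩ : ∃ X : Subgroup W, X = (F.hyperfocalSubgroup p).subgroupOf W := ⟨_, rfl⟩
  have hXmem : ∀ y : W, y ∈ X ↔ (y : Ω) ∈ F.hyperfocalSubgroup p := by
    intro y
    rw [hXdef]
    exact Subgroup.mem_subgroupOf
  have hX : ∀ y ∈ X, γ y ∈ X := by
    intro y hy
    rw [hXmem] at hy ⊢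
    have h1 := comm_mem_hyp F p hW γ hγ m hm hγm y
    have h2 : ((γ y : W) : Ω) = (y : Ω) * ((y : Ω)⁻¹ * ((γ y : W) : Ω)) := by group
    rw [h2]
    exact mul_mem hy h1
  have hX' : ∀ y ∈ X, γ⁻¹ y ∈ X := by
    intro y hy
    rw [hXmem] at hy ⊢
    have h1 := comm_mem_hyp F p hW γ⁻¹ hγi m hm hγim y
    have h2 : ((γ⁻¹ y : W) : Ω) = (y : Ω) * ((y : Ω)⁻¹ * ((γ⁻¹ y : W) : Ω)) := by group
    rw [h2]
    exact mul_mem hy h1
  obtain ⟨γX, hγXdef⟩ : ∃ g : MulAut X, g = restrictAut γ X hX hX' := ⟨_, rfl⟩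
  have hγXm : γX ^ m = 1 := by
    rw [hγXdef]
    exact restrictAut_pow_eq_one γ X hX hX' hγm
  have hγXa : ∀ y : X, ((γX y : X) : W) = γ y := by
    intro y
    rw [hγXdef]
    rfl
  have hXp : IsPGroup p X := hWp.to_subgroup X
  obtain ⟨B, hBchar, hBexp, hBfaith⟩ := crit_small hXp
  have hBinv : ∀ y ∈ B, γX y ∈ B := by
    intro y hy
    have := hBchar.fixed γX
    rw [← this] at hy
    exact hy
  have hnil : Group.IsNilpotent S := hS.isNilpotent
  obtain ⟨n, hn⟩ := hnil.nilpotent'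
  have key : ∀ i : ℕ, ∀ y : X, y ∈ B →
      (⟨((y : W) : Ω), hW (y : W).2⟩ : S) ∈ Subgroup.upperCentralSeries S i → γX y = y := by
    intro i
    induction i with
    | zero =>
      intro y hy hyZ
      rw [Subgroup.upperCentralSeries_zero, Subgroup.mem_bot] at hyZ
      have h0 : ((y : W) : Ω) = 1 := congrArg (fun z : S => (z : Ω)) hyZ
      have h2 : y = 1 := Subtype.ext (Subtype.ext h0)
      rw [h2, map_one]
    | succ i ih =>
      intro y hy hyZ
      by_cases hy1 : y = 1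
      · rw [hy1, map_one]
      have hyS : ((y : W) : Ω) ∈ S := hW (y : W).2
      have hyK : ((y : W) : Ω) ∈ F.hyperfocalSubgroup p := (hXmem _).1 y.2
      have hγyK : (((γ (y : W) : W)) : Ω) ∈ F.hyperfocalSubgroup p := (hXmem _).1 (hX _ y.2)
      have hyq : ((y : W) : Ω) ^ qq p = 1 := by
        have h1 := hBexp y hy
        exact congrArg (fun z : X => ((z : W) : Ω)) h1
      have hy1' : ((y : W) : Ω) ≠ 1 := fun h0 => hy1 (Subtype.ext (Subtype.ext h0))
      have hγyq : ((γ (y : W) : W) : Ω) ^ qq p = 1 := by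
        have h1 : (y : W) ^ qq p = 1 := Subtype.ext hyq
        have h2 : (γ (y : W)) ^ qq p = 1 := by rw [← map_pow, h1, map_one]
        exact congrArg Subtype.val h2
      have hγy1 : ((γ (y : W) : W) : Ω) ≠ 1 := by
        intro h0
        apply hy1'
        have h1 : γ (y : W) = 1 := Subtype.ext h0
        have h3 : (y : W) = 1 := (MulEquiv.map_eq_one_iff γ).1 h1
        rw [h3]
        rfl
      obtain ⟨φ, hφ, hφy⟩ := cyc_hom F hW γ hγ (y : W)
      have hin := h _ _ (Subgroup.zpowers_le.2 hyK) (Subgroup.zpowers_le.2 hγyK) inferInstance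
        (card_small _ hyq hy1') inferInstance (card_small _ hγyq hγy1) hφ
      obtain ⟨-, s, hs, hsφ⟩ := hin
      have hγy : ((γ (y : W) : W) : Ω) = s * (y : W) * s⁻¹ := by
        rw [← hφy]
        exact hsφ _
      have hzB : y⁻¹ * γX y ∈ B := mul_mem (inv_mem hy) (hBinv y hy)
      have hz : γX (y⁻¹ * γX y) = y⁻¹ * γX y := by
        apply ih _ hzB
        have h2 : (⟨((y : W) : Ω), hyS⟩ : S)⁻¹ ∈ Subgroup.upperCentralSeries S (i + 1) :=
          inv_mem hyZ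
        have h3 := (Subgroup.mem_upperCentralSeries_succ_iff).1 h2 ⟨s, hs⟩
        have h4 : (⟨(((y⁻¹ * γX y : X) : W) : Ω), hW ((y⁻¹ * γX y : X) : W).2⟩ : S) =
            (⟨((y : W) : Ω), hyS⟩ : S)⁻¹ * ⟨s, hs⟩ * ((⟨((y : W) : Ω), hyS⟩ : S)⁻¹)⁻¹ *
              (⟨s, hs⟩ : S)⁻¹ := by
          apply Subtype.ext
          show ((y : W) : Ω)⁻¹ * (((γX y : X) : W) : Ω) =
            ((y : W) : Ω)⁻¹ * s * (((y : W) : Ω)⁻¹)⁻¹ * s⁻¹
          rw [hγXa, hγy]
          group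
        rw [h4]
        exact h3
      exact aut_fix_of_coprime hXp γX hm hγXm hz
  have hγX1 : γX = 1 := by
    apply hBfaith γX (Nat.Coprime.coprime_dvd_left (orderOf_dvd_of_pow_eq_one hγXm) hm)
    intro y hy
    apply key n y hy
    rw [hn]
    exact Subgroup.mem_top _
  ext x
  have hu : (x⁻¹ * γ x) ∈ X := by
    rw [hXmem]
    exact comm_mem_hyp F p hW γ hγ m hm hγm x
  have h1 : γ (x⁻¹ * γ x) = x⁻¹ * γ x := by
    have h2 := hγXa ⟨_, hu⟩
    rw [hγX1] at h2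
    exact h2.symm
  have h3 := aut_fix_of_coprime hWp γ hm hγm h1
  rw [h3]
  rfl

end

/-- Let F be a saturated fusion system over a finite p-group S. If every map of F between cyclic subgroups of the hyperfocal subgroup of F of order p or 4 is conjugation by an element of S, then F is the inner fusion system of S. -/
theorem result {Ω : Type u} [Group Ω] {S : Subgroup Ω} [Finite S] (p : ℕ) [Fact p.Prime] (hS : IsPGroup p S)
    (F : Cfsg.FusionSystem S) (hF : F.IsSaturated p)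
    (h : ∀ A B : Subgroup Ω, A ≤ (F.hyperfocalSubgroup p) → B ≤ (F.hyperfocalSubgroup p) → IsCyclic ↥A → (Nat.card ↥A = p ∨ Nat.card ↥A = 4) → IsCyclic ↥B → (Nat.card ↥B = p ∨ Nat.card ↥B = 4) →
      F.homSet A B ⊆ (Cfsg.innerFusionSystem S).Hom A) :
    ∀ P : Subgroup Ω, F.Hom P = (Cfsg.innerFusionSystem S).Hom P := by
  exact Cfsg.Agent.Lib.helper26.inner_of_pprime_trivial hS F hF
    (fun W hW γ hγ m hm hγm => pprime_trivial p hS F h W hW γ hγ m hm hγm)

end Cfsg.Agent.S5298
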