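import Cfsg.Statements.S5297
-- import your own Cfsg.Agent.* helpers here
import Cfsg.Agent.Lib.helper26.Small
import Cfsg.Agent.Lib.helper25.Hyperfocal
import Cfsg.Agent.Lib.helper25.FusionStab
import Cfsg.Agent.Lib.helper25.FusionQuot
import Cfsg.Agent.S5298

set_option autoImplicit false
universe u
open Cfsg

namespace Cfsg.Agent.S5297

section

open Cfsg.Agent.Lib.helper26 Cfsg.FusionSystem
open Cfsg.Agent.Lib.helper25 (mem_hyperfocal aut_fix_of_coprime hyperfocal_stronglyClosed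
  stronglyClosed_map_mem isNormal_of_stronglyClosed_of_mem mem_of_stab_chain)
open Cfsg.Agent.S5298 (comm_mem_hyp cyc_hom)
open scoped commutatorElement

variable {Ω : Type*} [Group Ω] {S : Subgroup Ω}

theorem uc_map {G : Type*} [Group G] [Finite G] (σ : G →* G) (hσ : Function.Injective σ) (i : ℕ)
    (z : G) (hz : z ∈ Subgroup.upperCentralSeries G i) :
    σ z ∈ Subgroup.upperCentralSeries G i := by
  have hbij : Function.Bijective σ := ⟨hσ, Finite.injective_iff_surjective.1 hσ⟩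
  have hchar : (Subgroup.upperCentralSeries G i).Characteristic := inferInstance
  have h1 := hchar.fixed (MulEquiv.ofBijective σ hbij)
  rw [← h1] at hz
  exact hz

theorem main [Finite S] (p : ℕ) [Fact p.Prime] (hS : IsPGroup p S)
    (F : Cfsg.FusionSystem S) (hF : F.IsSaturated p)
    (h : ∀ A B : Subgroup Ω, A ≤ (F.hyperfocalSubgroup p) → B ≤ (F.hyperfocalSubgroup p) →
      IsCyclic ↥A → (Nat.card ↥A = p ∨ Nat.card ↥A = 4) → IsCyclic ↥B →
      (Nat.card ↥B = p ∨ Nat.card ↥B = 4) →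
      F.homSet A B ⊆ F.normalizerHom S A) :
    F.IsNormal S := by
  have hsc : F.StronglyClosed S := ⟨le_rfl, fun R hR φ hφ x => (F.le_of_mem hφ).2 x⟩
  apply isNormal_of_stronglyClosed_of_mem hS F hF hsc
  intro R hcen hrad t htS htN
  have hRS : R ≤ S := hcen.1
  haveI : Finite R := finite_of_le hRS
  have hRp : IsPGroup p R := hS.to_le hRS
  have hhyp := hyperfocal_stronglyClosed hS F hF
  obtain ⟨X, hXdef⟩ : ∃ X : Subgroup R, X = (F.hyperfocalSubgroup p).subgroupOf R := ⟨_, rfl⟩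
  have hXmem : ∀ y : R, y ∈ X ↔ (y : Ω) ∈ F.hyperfocalSubgroup p := by
    intro y
    rw [hXdef]
    exact Subgroup.mem_subgroupOf
  have hXinv : ∀ a ∈ F.autGroup R, ∀ y ∈ X, a y ∈ X := by
    intro a ha y hy
    rw [hXmem] at hy ⊢
    exact stronglyClosed_map_mem F hhyp ((mem_autGroup_iff F hRS a).1 ha) y hy
  have hXp : IsPGroup p X := hRp.to_subgroup X
  obtain ⟨B, hBchar, hBexp, hBfaith⟩ := crit_small hXp
  obtain ⟨BR, hBRdef⟩ : ∃ BR : Subgroup R, BR = B.map X.subtype := ⟨_, rfl⟩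
  have hBRmem : ∀ x : R, x ∈ BR ↔ ∃ hx : x ∈ X, (⟨x, hx⟩ : X) ∈ B := by
    intro x
    rw [hBRdef]
    constructor
    · rintro ⟨y, hy, rfl⟩
      exact ⟨y.2, hy⟩
    · rintro ⟨hx, hxB⟩
      exact ⟨⟨x, hx⟩, hxB, rfl⟩
  have hBRinv : ∀ a ∈ F.autGroup R, ∀ x ∈ BR, a x ∈ BR := by
    intro a ha x hx
    rw [hBRmem] at hx ⊢
    obtain ⟨hxX, hxB⟩ := hx
    have hX1 : ∀ y ∈ X, a y ∈ X := hXinv a ha
    have hX2 : ∀ y ∈ X, a⁻¹ y ∈ X := hXinv a⁻¹ (inv_mem ha)
    have h1 := hBchar.fixed (restrictAut a X hX1 hX2)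
    rw [← h1] at hxB
    exact ⟨hX1 x hxX, hxB⟩
  obtain ⟨n, hn⟩ := (hS.isNilpotent).nilpotent'
  obtain ⟨Zc, hZcdef⟩ : ∃ Zc : ℕ → Subgroup R, Zc = fun i =>
    (Subgroup.upperCentralSeries S i).comap (Subgroup.inclusion hRS) := ⟨_, rfl⟩
  have hZcmem : ∀ i (x : R), x ∈ Zc i ↔
      (⟨(x : Ω), hRS x.2⟩ : S) ∈ Subgroup.upperCentralSeries S i := by
    intro i x
    rw [hZcdef]
    exact Iff.rfl
  have hZcinv : ∀ i, ∀ a ∈ F.autGroup R, ∀ x ∈ BR, x ∈ Zc i → a x ∈ Zc i := by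
    intro i a ha x hxB hxZ
    by_cases hx1 : x = 1
    · rw [hx1, map_one]
      exact one_mem _
    rw [hZcmem] at hxZ ⊢
    obtain ⟨hxX, hxB'⟩ := (hBRmem x).1 hxB
    have hxK : (x : Ω) ∈ F.hyperfocalSubgroup p := (hXmem x).1 hxX
    have haxK : ((a x : R) : Ω) ∈ F.hyperfocalSubgroup p := (hXmem _).1 (hXinv a ha x hxX)
    have hxq : (x : Ω) ^ qq p = 1 := by
      have h1 := hBexp _ hxB'
      exact congrArg (fun z : X => ((z : R) : Ω)) h1
    have hx1' : (x : Ω) ≠ 1 := fun h0 => hx1 (Subtype.ext h0)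
    have haxq : ((a x : R) : Ω) ^ qq p = 1 := by
      have h1 : x ^ qq p = 1 := Subtype.ext hxq
      have h2 : (a x) ^ qq p = 1 := by rw [← map_pow, h1, map_one]
      exact congrArg Subtype.val h2
    have hax1 : ((a x : R) : Ω) ≠ 1 := by
      intro h0
      apply hx1
      have h1 : a x = 1 := Subtype.ext h0
      exact (MulEquiv.map_eq_one_iff a).1 h1
    obtain ⟨φ, hφ, hφx⟩ := cyc_hom F hRS a ha x
    have hin := h _ _ (Subgroup.zpowers_le.2 hxK) (Subgroup.zpowers_le.2 haxK) inferInstance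
      (card_small _ hxq hx1') inferInstance (card_small _ haxq hax1) hφ
    obtain ⟨-, -, -, ψ, hψ, hψφ, hψS⟩ := hin
    have hψSmem : ∀ s : S, ψ (Subgroup.inclusion le_sup_right s) ∈ S := by
      intro s
      have h0 : ψ (Subgroup.inclusion le_sup_right s) ∈
          (S.subgroupOf (Subgroup.zpowers (x : Ω) ⊔ S)).map ψ := by
        refine ⟨Subgroup.inclusion le_sup_right s, ?_, rfl⟩
        rw [SetLike.mem_coe, Subgroup.mem_subgroupOf]
        exact s.2
      exact hψS.le h0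
    have hσinj : Function.Injective
        ((ψ.comp (Subgroup.inclusion le_sup_right)).codRestrict S (fun s => hψSmem s)) := by
      intro s s' hss
      have h1 : ψ (Subgroup.inclusion le_sup_right s) = ψ (Subgroup.inclusion le_sup_right s') :=
        congrArg Subtype.val hss
      have h2 := F.injective_of_mem hψ h1
      exact Subgroup.inclusion_injective _ h2
    have h5 := uc_map _ hσinj i _ hxZ
    have h6 : ((ψ.comp (Subgroup.inclusion le_sup_right)).codRestrict S (fun s => hψSmem s))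
        ⟨(x : Ω), hRS x.2⟩ = ⟨((a x : R) : Ω), hRS (a x).2⟩ := by
      apply Subtype.ext
      show ψ (Subgroup.inclusion le_sup_right ⟨(x : Ω), hRS x.2⟩) = ((a x : R) : Ω)
      rw [← hφx, ← hψφ]
      rfl
    rw [h6] at h5
    exact h5
  have hL : ∀ i, ∀ a ∈ F.autGroup R, ∀ x ∈ BR ⊓ Zc i, a x ∈ BR ⊓ Zc i := by
    intro i a ha x hx
    exact ⟨hBRinv a ha x hx.1, hZcinv i a ha x hx.1 hx.2⟩
  have hL0 : BR ⊓ Zc 0 = ⊥ := by
    rw [eq_bot_iff]
    intro x hx
    have h1 := (hZcmem 0 x).1 hx.2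
    rw [Subgroup.upperCentralSeries_zero, Subgroup.mem_bot] at h1
    rw [Subgroup.mem_bot]
    exact Subtype.ext (congrArg (fun z : S => (z : Ω)) h1)
  refine mem_of_stab_chain hS F hcen hrad 0 (fun _ => ⊤)
    (chainStab (F.autGroup R) (fun i => BR ⊓ Zc i) hL) (chainStab_normal _ _ hL) ?_
    (fun _ => Subgroup.mem_top _) (fun _ _ _ _ _ => Subgroup.mem_top _) htN ?_
    (fun i hi => absurd hi (Nat.not_lt_zero i))
  · intro a ha m hm ham x _
    have ham' : (a : MulAut R) ^ m = 1 := by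
      have h0 := congrArg Subtype.val ham
      simpa using h0
    have hfix := chainStab_fix hRp (F.autGroup R) (fun i => BR ⊓ Zc i) hL hL0 a ha m hm ham' n
    have hX1 : ∀ y ∈ X, (a : MulAut R) y ∈ X := hXinv a a.2
    have hX2 : ∀ y ∈ X, (a : MulAut R)⁻¹ y ∈ X := hXinv _ (inv_mem a.2)
    have hresm : (restrictAut (a : MulAut R) X hX1 hX2) ^ m = 1 :=
      restrictAut_pow_eq_one _ X hX1 hX2 ham'
    have hres : restrictAut (a : MulAut R) X hX1 hX2 = 1 := by
      apply hBfaith _ (Nat.Coprime.coprime_dvd_left (orderOf_dvd_of_pow_eq_one hresm) hm)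
      intro y hy
      apply Subtype.ext
      show (a : MulAut R) y = y
      apply hfix
      refine ⟨(hBRmem _).2 ⟨y.2, hy⟩, ?_⟩
      refine (hZcmem n _).2 ?_
      rw [hn]
      exact Subgroup.mem_top _
    have hu : x⁻¹ * (a : MulAut R) x ∈ X := by
      rw [hXmem]
      exact comm_mem_hyp F p hRS a a.2 m hm ham' x
    have h1 : (a : MulAut R) (x⁻¹ * (a : MulAut R) x) = x⁻¹ * (a : MulAut R) x := by
      have h2 := congrArg (fun g : MulAut X => ((g ⟨_, hu⟩ : X) : R)) hres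
      exact h2
    exact aut_fix_of_coprime hRp _ hm ham' h1
  · intro hc i x hx
    show x⁻¹ * (conjAut S R ⟨t, htN⟩) x ∈ BR ⊓ Zc i
    have hxB : x ∈ BR := hx.1
    have hxZ : x ∈ Zc (i + 1) := hx.2
    refine Subgroup.mem_inf.2 ⟨BR.mul_mem (BR.inv_mem hxB) (hBRinv _ hc x hxB), ?_⟩
    refine (hZcmem i _).2 ?_
    have h1 := (hZcmem (i + 1) x).1 hxZ
    have h2 := (Subgroup.mem_upperCentralSeries_succ_iff).1
      ((Subgroup.upperCentralSeries S (i + 1)).inv_mem h1) ⟨t, htS⟩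
    have h4 : (⟨((x⁻¹ * (conjAut S R ⟨t, htN⟩) x : R) : Ω), hRS (x⁻¹ * (conjAut S R ⟨t, htN⟩) x).2⟩ : S)
        = (⟨(x : Ω), hRS x.2⟩ : S)⁻¹ * ⟨t, htS⟩ * ((⟨(x : Ω), hRS x.2⟩ : S)⁻¹)⁻¹ * (⟨t, htS⟩ : S)⁻¹ := by
      apply Subtype.ext
      show (x : Ω)⁻¹ * (t * (x : Ω) * t⁻¹) = (x : Ω)⁻¹ * t * ((x : Ω)⁻¹)⁻¹ * t⁻¹
      group
    rw [h4]
    exact h2

end

/-- Let F be a saturated fusion system over a finite p-group S. If every map of F between cyclic subgroups of the hyperfocal subgroup of F of order p or 4 is a map of the normalizer system of S (it extends to a map of F defined on all of S), then S is normal in F. -/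
theorem result {Ω : Type u} [Group Ω] {S : Subgroup Ω} [Finite S] (p : ℕ) [Fact p.Prime] (hS : IsPGroup p S)
    (F : Cfsg.FusionSystem S) (hF : F.IsSaturated p)
    (h : ∀ A B : Subgroup Ω, A ≤ (F.hyperfocalSubgroup p) → B ≤ (F.hyperfocalSubgroup p) → IsCyclic ↥A → (Nat.card ↥A = p ∨ Nat.card ↥A = 4) → IsCyclic ↥B → (Nat.card ↥B = p ∨ Nat.card ↥B = 4) →
      F.homSet A B ⊆ F.normalizerHom S A) :
    F.IsNormal S := by
  exact main p hS F hF h

end Cfsg.Agent.S5297
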