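import Cfsg.Statements.S5300
-- import your own Cfsg.Agent.* helpers here
import Cfsg.Agent.Lib.helper26.OmegaAut
import Cfsg.Agent.Lib.helper25.FusionStab

set_option autoImplicit false
universe u
open Cfsg

namespace Cfsg.Agent.S5300

section

open Cfsg.Agent.Lib.helper26 Cfsg.FusionSystem
open Cfsg.Agent.Lib.helper25 (mem_of_stab_chain isNormal_of_stronglyClosed_of_mem aut_fix_of_coprime)

variable {Ω : Type*} [Group Ω] {S : Subgroup Ω}

theorem conj_fix_of_order_p {p : ℕ} [Fact p.Prime] (hS : IsPGroup p S) {x t : Ω}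
    (ht : t ∈ S) (hx : x ^ p = 1) (hnorm : ∀ s ∈ S, s * x * s⁻¹ ∈ Subgroup.zpowers x) :
    t * x * t⁻¹ = x := by
  by_cases hx1 : x = 1
  · rw [hx1]
    group
  have ho : orderOf x = p := orderOf_eq_prime hx hx1
  have hfin : IsOfFinOrder x := by
    rw [← orderOf_pos_iff, ho]
    exact (Fact.out : p.Prime).pos
  obtain ⟨k, hk⟩ : ∃ k : ℕ, x ^ k = t * x * t⁻¹ :=
    (Submonoid.mem_powers_iff _ _).1 (hfin.mem_powers_iff_mem_zpowers.2 (hnorm t ht))
  have hpow : ∀ n : ℕ, t ^ n * x * (t ^ n)⁻¹ = x ^ (k ^ n) := by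
    intro n
    induction n with
    | zero => simp
    | succ n ih =>
      have h1 : t ^ (n + 1) * x * (t ^ (n + 1))⁻¹ = t * (t ^ n * x * (t ^ n)⁻¹) * t⁻¹ := by
        rw [pow_succ']
        group
      rw [h1, ih, ← conj_pow, ← hk, ← pow_mul, ← pow_succ']
  obtain ⟨j, hj⟩ := hS ⟨t, ht⟩
  have htj : t ^ (p ^ j) = 1 := congrArg Subtype.val hj
  have h2 := hpow (p ^ j)
  rw [htj] at h2
  have h3 : x ^ (k ^ (p ^ j)) = x ^ 1 := by
    rw [← h2]
    simp
  rw [pow_eq_pow_iff_modEq, ho, ← ZMod.natCast_eq_natCast_iff] at h3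
  have h4 : (k : ZMod p) = 1 := by
    have h5 : ((k ^ (p ^ j) : ℕ) : ZMod p) = (k : ZMod p) := by
      rw [Nat.cast_pow, ZMod.pow_card_pow]
    rw [← h5, h3, Nat.cast_one]
  have h6 : x ^ k = x ^ 1 := by
    rw [pow_eq_pow_iff_modEq, ho, ← ZMod.natCast_eq_natCast_iff, h4, Nat.cast_one]
  rw [← hk, h6, pow_one]

theorem foc_inv (F : Cfsg.FusionSystem S) {P : Subgroup Ω} (hPS : P ≤ S) (β : MulAut P)
    (hβ : β ∈ F.autGroup P) (x : P) (hx : (x : Ω) ∈ F.focalSubgroup) :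
    ((β x : P) : Ω) ∈ F.focalSubgroup := by
  have h1 : (x : Ω)⁻¹ * ((β x : P) : Ω) ∈ F.focalSubgroup :=
    Subgroup.subset_closure ⟨P, P.subtype.comp β.toMonoidHom, x,
      (mem_autGroup_iff F hPS β).1 hβ, rfl⟩
  have h2 : ((β x : P) : Ω) = (x : Ω) * ((x : Ω)⁻¹ * ((β x : P) : Ω)) := by group
  rw [h2]
  exact mul_mem hx h1

/-- the automorphisms of `P` in the system that fix the elements of order `p` of the focal subgroup
and normalize its cyclic subgroups of order 4 -/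
def KS (F : Cfsg.FusionSystem S) (p : ℕ) (P : Subgroup Ω) : Subgroup (F.autGroup P) where
  carrier := {a | ∀ x : P, (x : Ω) ∈ F.focalSubgroup →
    (x ^ p = 1 → (a : MulAut P) x = x) ∧
    (p = 2 → x ^ 4 = 1 → (a : MulAut P) x ∈ Subgroup.zpowers x ∧
      (a : MulAut P)⁻¹ x ∈ Subgroup.zpowers x)}
  one_mem' := by
    intro x _
    exact ⟨fun _ => rfl, fun _ _ => ⟨Subgroup.mem_zpowers x, by
      show (1 : MulAut P)⁻¹ x ∈ Subgroup.zpowers x
      rw [inv_one]
      exact Subgroup.mem_zpowers x⟩⟩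
  mul_mem' := by
    intro a b ha hb x hx
    obtain ⟨ha1, ha2⟩ := ha x hx
    obtain ⟨hb1, hb2⟩ := hb x hx
    refine ⟨fun hxp => ?_, fun hp hx4 => ⟨?_, ?_⟩⟩
    · show (a : MulAut P) ((b : MulAut P) x) = x
      rw [hb1 hxp, ha1 hxp]
    · show (a : MulAut P) ((b : MulAut P) x) ∈ Subgroup.zpowers x
      obtain ⟨j, hj⟩ := Subgroup.mem_zpowers_iff.1 (hb2 hp hx4).1
      rw [← hj, map_zpow]
      exact Subgroup.zpow_mem _ (ha2 hp hx4).1 j
    · show ((a : MulAut P) * (b : MulAut P))⁻¹ x ∈ Subgroup.zpowers x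
      rw [mul_inv_rev]
      show (b : MulAut P)⁻¹ ((a : MulAut P)⁻¹ x) ∈ Subgroup.zpowers x
      obtain ⟨j, hj⟩ := Subgroup.mem_zpowers_iff.1 (ha2 hp hx4).2
      rw [← hj, map_zpow]
      exact Subgroup.zpow_mem _ (hb2 hp hx4).2 j
  inv_mem' := by
    intro a ha x hx
    obtain ⟨ha1, ha2⟩ := ha x hx
    refine ⟨fun hxp => ?_, fun hp hx4 => ⟨?_, ?_⟩⟩
    · show (a : MulAut P)⁻¹ x = x
      have h := ha1 hxp
      exact (MulEquiv.symm_apply_eq (a : MulAut P)).2 h.symm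
    · exact (ha2 hp hx4).2
    · show ((a : MulAut P)⁻¹)⁻¹ x ∈ Subgroup.zpowers x
      rw [inv_inv]
      exact (ha2 hp hx4).1

theorem KS_normal (F : Cfsg.FusionSystem S) (p : ℕ) {P : Subgroup Ω} (hPS : P ≤ S) :
    (KS F p P).Normal := by
  constructor
  intro a ha g x hx
  have hy : (((g : MulAut P)⁻¹ x : P) : Ω) ∈ F.focalSubgroup :=
    foc_inv F hPS _ (inv_mem g.2) x hx
  obtain ⟨ha1, ha2⟩ := ha _ hy
  have hgy : (g : MulAut P) ((g : MulAut P)⁻¹ x) = x := by simp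
  refine ⟨fun hxp => ?_, fun hp hx4 => ⟨?_, ?_⟩⟩
  · show (g : MulAut P) ((a : MulAut P) ((g : MulAut P)⁻¹ x)) = x
    rw [ha1 (by rw [← map_pow, hxp, map_one]), hgy]
  · show (g : MulAut P) ((a : MulAut P) ((g : MulAut P)⁻¹ x)) ∈ Subgroup.zpowers x
    obtain ⟨j, hj⟩ := Subgroup.mem_zpowers_iff.1
      (ha2 hp (by rw [← map_pow, hx4, map_one])).1
    rw [← hj, map_zpow, hgy]
    exact Subgroup.zpow_mem _ (Subgroup.mem_zpowers x) j
  · show ((g : MulAut P) * (a : MulAut P) * (g : MulAut P)⁻¹)⁻¹ x ∈ Subgroup.zpowers x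
    rw [mul_inv_rev, mul_inv_rev, inv_inv]
    show (g : MulAut P) ((a : MulAut P)⁻¹ ((g : MulAut P)⁻¹ x)) ∈ Subgroup.zpowers x
    obtain ⟨j, hj⟩ := Subgroup.mem_zpowers_iff.1
      (ha2 hp (by rw [← map_pow, hx4, map_one])).2
    rw [← hj, map_zpow, hgy]
    exact Subgroup.zpow_mem _ (Subgroup.mem_zpowers x) j

theorem KS_trivial [Finite S] {p : ℕ} [Fact p.Prime] (hS : IsPGroup p S)
    (F : Cfsg.FusionSystem S) {P : Subgroup Ω} (hPS : P ≤ S) (a : F.autGroup P)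
    (ha : a ∈ KS F p P) (m : ℕ) (hm : m.Coprime p) (ham : a ^ m = 1) (x : P)
    (hx : (x : Ω) ∈ F.focalSubgroup) : (a : MulAut P) x = x := by
  haveI : Finite P := finite_of_le hPS
  have hPp : IsPGroup p P := hS.to_le hPS
  have ham' : (a : MulAut P) ^ m = 1 := by
    rw [← Subgroup.coe_pow, ham]
    rfl
  have hf1 : ∀ y : P, (y : Ω) ∈ F.focalSubgroup → (((a : MulAut P) y : P) : Ω) ∈ F.focalSubgroup :=
    fun y hy => foc_inv F hPS _ a.2 y hy
  have hf2 : ∀ y : P, (y : Ω) ∈ F.focalSubgroup →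
      (((a : MulAut P)⁻¹ y : P) : Ω) ∈ F.focalSubgroup :=
    fun y hy => foc_inv F hPS _ (inv_mem a.2) y hy
  -- the restriction to `X`
  let aX : MulAut ↥(F.focalSubgroup.subgroupOf P) :=
    { toFun := fun y => ⟨(a : MulAut P) y, hf1 _ y.2⟩
      invFun := fun y => ⟨(a : MulAut P)⁻¹ y, hf2 _ y.2⟩
      left_inv := fun y => Subtype.ext (by simp)
      right_inv := fun y => Subtype.ext (by simp)
      map_mul' := fun y z => Subtype.ext (by simp) }
  have haX : ∀ y, ((aX y : ↥(F.focalSubgroup.subgroupOf P)) : P) = (a : MulAut P) y := fun y => rfl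
  have hpow : ∀ (j : ℕ) (y : ↥(F.focalSubgroup.subgroupOf P)),
      (((aX ^ j) y : ↥(F.focalSubgroup.subgroupOf P)) : P) = ((a : MulAut P) ^ j) y := by
    intro j
    induction j with
    | zero =>
      intro y
      rfl
    | succ j ih =>
      intro y
      rw [pow_succ', pow_succ', MulAut.mul_apply, MulAut.mul_apply, haX, ih]
  have haXm : aX ^ m = 1 := by
    ext y
    rw [hpow, ham']
    rfl
  have hcop : Nat.Coprime (orderOf aX) p :=
    Nat.Coprime.coprime_dvd_left (orderOf_dvd_of_pow_eq_one haXm) hm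
  have hXp : IsPGroup p ↥(F.focalSubgroup.subgroupOf P) := hPp.to_subgroup _
  have h1 : aX = 1 := by
    apply aut_trivial_small hXp aX hcop
    rintro y (hy | ⟨hp, hy⟩)
    · apply Subtype.ext
      rw [haX]
      exact (ha y y.2).1 (by rw [← Subgroup.coe_pow, hy]; rfl)
    · apply Subtype.ext
      rw [haX]
      have hy4 : (y : P) ^ 4 = 1 := by
        rw [← Subgroup.coe_pow, hy]
        rfl
      obtain ⟨j, hj⟩ := Subgroup.mem_zpowers_iff.1 ((ha y y.2).2 hp hy4).1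
      have hy2 : (a : MulAut P) ((y : P) ^ 2) = (y : P) ^ 2 := by
        refine (ha ((y : P) ^ 2) ?_).1 ?_
        · rw [Subgroup.coe_pow]
          exact Subgroup.pow_mem _ y.2 2
        · rw [hp, ← pow_mul]
          exact hy4
      have hu2 : ((y : P)⁻¹ * (a : MulAut P) y) ^ p = 1 := by
        rw [hp, ← hj]
        have hc : Commute (y : P)⁻¹ ((y : P) ^ j) := ((Commute.refl (y : P)).inv_left).zpow_right j
        rw [hc.mul_pow, hj, ← map_pow, hy2, inv_pow, inv_mul_cancel]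
      have hu : (a : MulAut P) ((y : P)⁻¹ * (a : MulAut P) y) = (y : P)⁻¹ * (a : MulAut P) y := by
        refine (ha _ ?_).1 hu2
        rw [Subgroup.coe_mul, Subgroup.coe_inv]
        exact mul_mem (inv_mem y.2) (hf1 _ y.2)
      exact aut_fix_of_coprime hPp (a : MulAut P) hm ham' hu
  have h2 := congrArg (fun f : MulAut ↥(F.focalSubgroup.subgroupOf P) => ((f ⟨x, hx⟩ :
    ↥(F.focalSubgroup.subgroupOf P)) : P)) h1
  exact h2

/-- the chain `foc(F) ≤ ⊤` -/
def Dch (F : Cfsg.FusionSystem S) : ℕ → Subgroup Ω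
  | 0 => F.focalSubgroup
  | _ + 1 => ⊤

theorem main [Finite S] (p : ℕ) [Fact p.Prime] (hS : IsPGroup p S)
    (F : Cfsg.FusionSystem S) (hF : F.IsSaturated p)
    (hnorm : ∀ x ∈ F.focalSubgroup, (x ^ p = 1 ∨ (p = 2 ∧ x ^ 4 = 1)) →
      ∀ s ∈ S, s * x * s⁻¹ ∈ Subgroup.zpowers x) :
    F.IsNormal S := by
  have hsc : F.StronglyClosed S := ⟨le_rfl, fun R _ φ hφ x => (F.le_of_mem hφ).2 x⟩
  apply isNormal_of_stronglyClosed_of_mem hS F hF hsc
  intro P hcen hrad t htS ht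
  have hPS := hcen.1
  refine mem_of_stab_chain hS F hcen hrad 1 (Dch F) (KS F p P) (KS_normal F p hPS) ?_ ?_ ?_ ht ?_ ?_
  · intro a ha m hm ham x hx
    exact KS_trivial hS F hPS a ha m hm ham x hx
  · intro x
    exact Subgroup.mem_top _
  · intro i β hβ x hx
    cases i with
    | zero => exact foc_inv F hPS β hβ x hx
    | succ i => exact Subgroup.mem_top _
  · intro h x hx
    have hinvS : t⁻¹ ∈ S := S.inv_mem htS
    have hcinv : ∀ w : P, (((conjAut S P ⟨t, ht⟩)⁻¹ w : P) : Ω) = t⁻¹ * w * t := by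
      intro w
      rw [← map_inv, conjAut_apply]
      show t⁻¹ * w * (t⁻¹)⁻¹ = _
      rw [inv_inv]
    refine ⟨fun hxp => ?_, fun hp hx4 => ⟨?_, ?_⟩⟩
    · apply Subtype.ext
      show ((conjAut S P ⟨t, ht⟩ x : P) : Ω) = x
      rw [conjAut_apply]
      have hxp' : (x : Ω) ^ p = 1 := by
        rw [← Subgroup.coe_pow, hxp]
        rfl
      exact conj_fix_of_order_p hS htS hxp' (hnorm x hx (Or.inl hxp'))
    · have hx4' : (x : Ω) ^ 4 = 1 := by
        rw [← Subgroup.coe_pow, hx4]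
        rfl
      obtain ⟨j, hj⟩ := Subgroup.mem_zpowers_iff.1 (hnorm x hx (Or.inr ⟨hp, hx4'⟩) t htS)
      refine Subgroup.mem_zpowers_iff.2 ⟨j, Subtype.ext ?_⟩
      rw [Subgroup.coe_zpow, hj]
      rfl
    · have hx4' : (x : Ω) ^ 4 = 1 := by
        rw [← Subgroup.coe_pow, hx4]
        rfl
      obtain ⟨j, hj⟩ := Subgroup.mem_zpowers_iff.1 (hnorm x hx (Or.inr ⟨hp, hx4'⟩) t⁻¹ hinvS)
      refine Subgroup.mem_zpowers_iff.2 ⟨j, Subtype.ext ?_⟩
      rw [Subgroup.coe_zpow, hj, inv_inv]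
      exact (hcinv x).symm
  · intro i hi x _
    have hi0 : i = 0 := by omega
    subst hi0
    exact Subgroup.subset_closure ⟨P, conjHom P t, x, F.conj_mem hPS htS, rfl⟩

end

/-- Let F be a saturated fusion system over a finite p-group S. If every cyclic subgroup of the focal subgroup of F of order p (of order 2 or 4 when p = 2) is normal in S, then S is normal in F. -/
theorem result {Ω : Type u} [Group Ω] {S : Subgroup Ω} [Finite S] (p : ℕ) [Fact p.Prime] (hS : IsPGroup p S)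
    (F : Cfsg.FusionSystem S) (hF : F.IsSaturated p)
    (hnorm : ∀ x ∈ F.focalSubgroup, (x ^ p = 1 ∨ (p = 2 ∧ x ^ 4 = 1)) → ∀ s ∈ S, s * x * s⁻¹ ∈ Subgroup.zpowers x) :
    F.IsNormal S := by
  exact main p hS F hF hnorm

end Cfsg.Agent.S5300
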