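import Cfsg.Statements.S5329
import Cfsg.Agent.Lib.helper7.FusTransfer
import Cfsg.Agent.Lib.helper25.FusionNormal
import Cfsg.Agent.S5084

set_option autoImplicit false
open Cfsg

namespace Cfsg.Agent.S5329

open scoped commutatorElement
open Cfsg.FusionSystem Cfsg.Agent.Lib.helper25 Cfsg.Agent.Lib.helper7.Marks
open Cfsg.Agent.Lib.helper7.Biset Cfsg.Agent.Lib.helper7.CharBiset Cfsg.Agent.Lib.helper7.Yoshida

/-- For a saturated fusion system F over a finite p-group S, the focal subgroup and the derived subgroup of S meet the centre Z(F) of the system in the same subgroup: foc(F) ∩ Z(F) = S′ ∩ Z(F). -/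
theorem result {Ω : Type*} [Group Ω] {S : Subgroup Ω} [Finite S] (p : ℕ) [Fact p.Prime] (hS : IsPGroup p S) (F : Cfsg.FusionSystem S) (hF : F.IsSaturated p) : F.focalSubgroup ⊓ F.center = ⁅(S : Subgroup Ω), (S : Subgroup Ω)⁆ ⊓ F.center := by
  classical
  have hp : p.Prime := Fact.out
  have hcommle : ⁅(S : Subgroup Ω), (S : Subgroup Ω)⁆ ≤ F.focalSubgroup := by
    rw [Subgroup.commutator_le]
    intro a ha b hb
    have h1 : ⁅a, b⁆ = ((⟨a⁻¹, S.inv_mem ha⟩ : ↥S) : Ω)⁻¹ *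
        Cfsg.conjHom S b ⟨a⁻¹, S.inv_mem ha⟩ := by
      rw [conjHom_apply, commutatorElement_def]
      simp [mul_assoc]
    rw [h1]
    exact Subgroup.subset_closure ⟨S, Cfsg.conjHom S b, ⟨a⁻¹, S.inv_mem ha⟩,
      F.conj_mem le_rfl hb, rfl⟩
  apply le_antisymm _ (inf_le_inf_right _ hcommle)
  intro z hz
  obtain ⟨hz1, hz2⟩ := Subgroup.mem_inf.mp hz
  refine Subgroup.mem_inf.mpr ⟨?_, hz2⟩
  have hzS : z ∈ S := focal_le_S F hz1
  have hcen : F.IsCentral F.center := isCentral_center F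
  have hfixc := ((Cfsg.Agent.S5084.result p hS F hF F.center).mp hcen).2
  obtain ⟨n, ha, ⟨m, hm, hpm⟩, hc, hd⟩ := exists_char_biset hS F hF
  have hfree := free_of_elt F n ha
  haveI : Fintype (Yq ↥S (XS n)) := Fintype.ofFinite _
  let π : ↥S →* Abelianization ↥S := Abelianization.of
  have hV : tr hfree π ⟨z, hzS⟩ = 1 := tr_focal F n hfree hc π ⟨z, hzS⟩ hz1
  have hcoc : IsCoc (fun (u : ↥S) (y : Yq ↥S (XS n)) => bc π u y * (π u)⁻¹) := by
    intro u u' y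
    show bc π (u * u') y * (π (u * u'))⁻¹ = bc π u (u' • y) * (π u)⁻¹ * (bc π u' y * (π u')⁻¹)
    rw [bc_isCoc hfree π u u' y, map_mul, mul_inv, mul_mul_mul_comm]
  have hev : ∏ y : Yq ↥S (XS n), bc π (⟨z, hzS⟩ : ↥S) y * (π ⟨z, hzS⟩)⁻¹ = 1 := by
    apply pt_eval0 hcoc ⟨z, hzS⟩ (Finset.univ : Finset (Yq ↥S (XS n))).card Finset.univ le_rfl
      (fun _ _ => Finset.mem_univ _)
    intro ω _ k _ hfix'
    have h1 := sg_stab ((⟨z, hzS⟩ : ↥S) ^ k) ω hfix'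
    have h2 := ha _ _ h1
    have h3 : (((⟨z, hzS⟩ : ↥S) ^ k : ↥S) : Ω) ∈ F.center := by
      rw [Subgroup.coe_pow]
      exact Subgroup.pow_mem _ hz2 k
    have h4 := hfixc _ h3 _ h2
    have h5 : (sg ((⟨z, hzS⟩ : ↥S) ^ k) ω)⁻¹ = (⟨z, hzS⟩ : ↥S) ^ k := Subtype.ext h4
    show (π (sg ((⟨z, hzS⟩ : ↥S) ^ k) ω))⁻¹ * (π ((⟨z, hzS⟩ : ↥S) ^ k))⁻¹ = 1
    rw [← map_inv, h5, mul_inv_cancel]
  rw [Finset.prod_mul_distrib, Finset.prod_const, Finset.card_univ] at hev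
  have hpow : π ⟨z, hzS⟩ ^ Fintype.card (Yq ↥S (XS n)) = 1 := by
    have h1 : ∏ y : Yq ↥S (XS n), bc π (⟨z, hzS⟩ : ↥S) y = 1 := hV
    rw [h1, one_mul, inv_pow, inv_eq_one] at hev
    exact hev
  have hY : Fintype.card (Yq ↥S (XS n)) = m := by
    have h1 := card_eq hfree
    rw [hm, mul_comm, Nat.card_eq_fintype_card (α := Yq ↥S (XS n))] at h1
    exact (Nat.eq_of_mul_eq_mul_right Nat.card_pos h1).symm
  rw [hY] at hpow
  have hpow2 : π ⟨z, hzS⟩ ^ Nat.card S = 1 := by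
    rw [← map_pow, pow_card_eq_one', map_one]
  obtain ⟨a, hcard⟩ := IsPGroup.iff_card.mp hS
  have h5 : orderOf (π ⟨z, hzS⟩) ∣ m := orderOf_dvd_of_pow_eq_one hpow
  have h6 : orderOf (π ⟨z, hzS⟩) ∣ p ^ a := hcard ▸ orderOf_dvd_of_pow_eq_one hpow2
  have hcop : Nat.Coprime m (p ^ a) :=
    Nat.Coprime.pow_right a ((Nat.coprime_comm.mp ((hp.coprime_iff_not_dvd).mpr hpm)))
  have h7 : orderOf (π ⟨z, hzS⟩) ∣ Nat.gcd m (p ^ a) := Nat.dvd_gcd h5 h6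
  rw [hcop.gcd_eq_one] at h7
  have h8 : π ⟨z, hzS⟩ = 1 := orderOf_eq_one_iff.mp (Nat.dvd_one.mp h7)
  have h9 : (⟨z, hzS⟩ : ↥S) ∈ commutator ↥S := by
    rw [← Abelianization.ker_of]
    exact h8
  rw [← Subgroup.map_subtype_commutator]
  exact ⟨⟨z, hzS⟩, h9, rfl⟩

end Cfsg.Agent.S5329
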