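import Cfsg.Statements.S5330
-- import your own Cfsg.Agent.* helpers here
import Cfsg.Agent.Lib.helper26.Abelian
import Cfsg.Agent.Lib.helper26.CoprimeAbelian

set_option autoImplicit false
open Cfsg

namespace Cfsg.Agent.S5330

/-- fixed points of `Aut_F(S)` on `S`, as a subgroup of the ambient group -/
def fixS {Ω : Type*} [Group Ω] {S : Subgroup Ω} (F : Cfsg.FusionSystem S) : Subgroup Ω where
  carrier := {s | ∃ h : s ∈ S, ∀ α ∈ F.autGroup S, α ⟨s, h⟩ = ⟨s, h⟩}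
  one_mem' := ⟨S.one_mem, fun α _ => map_one α⟩
  mul_mem' := by
    rintro a b ⟨ha, hfa⟩ ⟨hb, hfb⟩
    refine ⟨S.mul_mem ha hb, fun α hα => ?_⟩
    have : (⟨a * b, S.mul_mem ha hb⟩ : S) = ⟨a, ha⟩ * ⟨b, hb⟩ := rfl
    rw [this, map_mul, hfa α hα, hfb α hα]
  inv_mem' := by
    rintro a ⟨ha, hfa⟩
    refine ⟨S.inv_mem ha, fun α hα => ?_⟩
    have : (⟨a⁻¹, S.inv_mem ha⟩ : S) = ⟨a, ha⟩⁻¹ := rfl
    rw [this, map_inv, hfa α hα]

/-- Let F be a saturated fusion system over a finite abelian p-group S. Then S is the internal direct product of the centre of the system and the focal subgroup: Z(F) ∩ foc(F) = 1 and Z(F)·foc(F) = S. -/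
theorem result {Ω : Type*} [Group Ω] {S : Subgroup Ω} [Finite S] (p : ℕ) [Fact p.Prime] (hS : IsPGroup p S) (F : Cfsg.FusionSystem S) (hF : F.IsSaturated p) (hab : ∀ x ∈ S, ∀ y ∈ S, x * y = y * x) : F.center ⊓ F.focalSubgroup = ⊥ ∧ F.center ⊔ F.focalSubgroup = S := by
  classical
  have hext := Cfsg.Agent.Lib.helper26.extends_to_top_of_abelian hS F hF hab
  have hext' : ∀ (U : Subgroup Ω) (φ : U →* Ω), φ ∈ F.Hom U → ∃ α ∈ F.autGroup S,
      ∀ x : U, ∃ h : (x : Ω) ∈ S, ((α ⟨x, h⟩ : S) : Ω) = φ x := by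
    intro U φ hφ
    obtain ⟨ψ₀, hψ₀, hx⟩ := hext U φ hφ
    obtain ⟨α, rfl⟩ := Cfsg.Agent.Lib.helper26.exists_aut_of_mem_top F hψ₀
    exact ⟨α, (Cfsg.Agent.Lib.helper26.mem_autGroup_iff F le_rfl α).2 hψ₀, hx⟩
  have hcen_le : F.center ≤ fixS F := by
    apply sSup_le
    rintro Q ⟨hQS, hQ⟩ x hx
    refine ⟨hQS hx, fun α hα => ?_⟩
    have hα' := (Cfsg.Agent.Lib.helper26.mem_autGroup_iff F le_rfl α).1 hα
    obtain ⟨ψ, hψ, h1, h2⟩ := hQ S _ hα'
    have e1 := h1 ⟨x, hQS hx⟩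
    have e2 := h2 ⟨x, hx⟩
    apply Subtype.ext
    show ((α ⟨x, hQS hx⟩ : S) : Ω) = x
    exact e1.symm.trans e2
  have hfix_le : fixS F ≤ F.center := by
    apply le_sSup
    refine ⟨fun x hx => hx.1, fun P φ hφ => ?_⟩
    obtain ⟨α, hα, hαx⟩ := hext' P φ hφ
    have hP := (F.le_of_mem hφ).1
    have hle : P ⊔ fixS F ≤ S := sup_le hP (fun x hx => hx.1)
    have hα' := (Cfsg.Agent.Lib.helper26.mem_autGroup_iff F le_rfl α).1 hα
    refine ⟨(S.subtype.comp α.toMonoidHom).comp (Subgroup.inclusion hle),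
      Cfsg.Agent.Lib.helper26.restrict_mem F hα' hle, fun x => ?_, fun x => ?_⟩
    · obtain ⟨h, e⟩ := hαx x
      exact e
    · obtain ⟨h, hf⟩ := x.2
      show ((α ⟨x, _⟩ : S) : Ω) = x
      rw [hf α hα]
  have hfoc_le : F.focalSubgroup ≤ S := by
    unfold Cfsg.FusionSystem.focalSubgroup
    rw [Subgroup.closure_le]
    rintro _ ⟨P, φ, x, hφ, rfl⟩
    exact S.mul_mem (S.inv_mem ((F.le_of_mem hφ).1 x.2)) ((F.le_of_mem hφ).2 x)
  have hpA : ¬ p ∣ Nat.card (F.autGroup S) := by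
    intro hdvd
    obtain ⟨-, R, hR⟩ := Cfsg.Agent.Lib.helper26.fullyAutomized_of_fullyNormalized hS F hF
      (Cfsg.Agent.Lib.helper26.fullyNormalized_top F)
    apply R.ne_bot_of_dvd_card hdvd
    rw [hR, eq_bot_iff]
    intro a ha
    rw [Subgroup.mem_subgroupOf, Cfsg.Agent.Lib.helper26.mem_autInducedBy_iff] at ha
    obtain ⟨g, hg, hgx⟩ := ha
    rw [Subgroup.mem_bot]
    apply Subtype.ext
    ext x
    rw [hgx, hab g hg x x.2]; simp
  obtain ⟨hdec, hint⟩ := Cfsg.Agent.Lib.helper26.coprime_abelian_decomp (G := S)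
    (fun a b => Subtype.ext (hab a a.2 b b.2)) hS (F.autGroup S) hpA
  have hK_le : (Subgroup.closure {y : S | ∃ (x : S) (α : MulAut S), α ∈ F.autGroup S ∧
      y = x⁻¹ * α x}).map S.subtype ≤ F.focalSubgroup := by
    rw [Subgroup.map_le_iff_le_comap, Subgroup.closure_le]
    rintro _ ⟨x, α, hα, rfl⟩
    apply Subgroup.subset_closure
    exact ⟨S, S.subtype.comp α.toMonoidHom, x,
      (Cfsg.Agent.Lib.helper26.mem_autGroup_iff F le_rfl α).1 hα, rfl⟩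
  have hfoc_K : F.focalSubgroup ≤ (Subgroup.closure {y : S | ∃ (x : S) (α : MulAut S),
      α ∈ F.autGroup S ∧ y = x⁻¹ * α x}).map S.subtype := by
    unfold Cfsg.FusionSystem.focalSubgroup
    rw [Subgroup.closure_le]
    rintro _ ⟨P, φ, x, hφ, rfl⟩
    obtain ⟨α, hα, hαx⟩ := hext' P φ hφ
    obtain ⟨h, e⟩ := hαx x
    refine ⟨(⟨x, h⟩ : S)⁻¹ * α ⟨x, h⟩, Subgroup.subset_closure ⟨⟨x, h⟩, α, hα, rfl⟩, ?_⟩
    rw [← e]; rfl
  constructor
  · rw [eq_bot_iff]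
    rintro x ⟨hx1, hx2⟩
    obtain ⟨h, hf⟩ := hcen_le hx1
    obtain ⟨y, hy, rfl⟩ := hfoc_K hx2
    have := hint y (fun α hα => hf α hα) hy
    rw [this]; simp
  · apply le_antisymm (sup_le (hcen_le.trans (fun x hx => hx.1)) hfoc_le)
    intro x hx
    obtain ⟨c, k, hc, hk, hxe⟩ := hdec ⟨x, hx⟩
    have h1 : (c : Ω) ∈ F.center := hfix_le ⟨c.2, fun α hα => hc α hα⟩
    have h2 : (k : Ω) ∈ F.focalSubgroup := hK_le ⟨k, hk, rfl⟩
    have h3 : x = (c : Ω) * k := congrArg Subtype.val hxe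
    rw [h3]
    exact Subgroup.mul_mem _ (Subgroup.mem_sup_left h1) (Subgroup.mem_sup_right h2)

end Cfsg.Agent.S5330
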