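import Cfsg.Statements.S5331
-- import your own Cfsg.Agent.* helpers here
import Cfsg.Agent.Lib.helper26.Abelian

set_option autoImplicit false
open Cfsg

namespace Cfsg.Agent.S5331

section

open Cfsg.Agent.Lib.helper26 Cfsg.FusionSystem

theorem pow_smul_eq_zero {a c : ℕ} (h : a ≤ c) (u : ZMod (2 ^ a)) : (2 ^ c : ℕ) • u = 0 := by
  rw [nsmul_eq_mul]
  have h1 : ((2 ^ c : ℕ) : ZMod (2 ^ a)) = 0 := by
    rw [ZMod.natCast_eq_zero_iff]
    exact pow_dvd_pow 2 h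
  rw [h1, zero_mul]

/-- `2^c u` is divisible by `2^(c+1)` -/
def Ev (c : ℕ) {a : ℕ} (u : ZMod (2 ^ a)) : Prop :=
  ∃ v : ZMod (2 ^ a), (2 ^ c : ℕ) • u = (2 ^ (c + 1) : ℕ) • v

theorem ev_of_le {a c : ℕ} (h : a ≤ c) (u : ZMod (2 ^ a)) : Ev c u :=
  ⟨0, by rw [pow_smul_eq_zero h, smul_zero]⟩

theorem ev_sub {a c : ℕ} {u u' : ZMod (2 ^ a)} (hu : Ev c u) (hu' : Ev c u') : Ev c (u - u') := by
  obtain ⟨v, hv⟩ := hu
  obtain ⟨v', hv'⟩ := hu'
  exact ⟨v - v', by rw [smul_sub, smul_sub, hv, hv']⟩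

theorem ev_down {a c : ℕ} (h : c + 2 ≤ a) (u : ZMod (2 ^ a)) (hu : Ev (c + 1) u) : Ev c u := by
  obtain ⟨w, hw⟩ := hu
  haveI : NeZero (2 ^ a) := ⟨by positivity⟩
  obtain ⟨z, hz⟩ : ∃ z, z = u - (2 : ℕ) • w := ⟨_, rfl⟩
  have h1 : (2 ^ (c + 1) : ℕ) • z = 0 := by
    rw [hz, smul_sub, hw, smul_smul]
    rw [show 2 ^ (c + 1) * 2 = 2 ^ (c + 1 + 1) by ring, sub_self]
  have h2 : ((2 ^ (c + 1) * z.val : ℕ) : ZMod (2 ^ a)) = 0 := by
    rw [Nat.cast_mul, ZMod.natCast_zmod_val, ← nsmul_eq_mul]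
    exact h1
  rw [ZMod.natCast_eq_zero_iff] at h2
  have h3 : 2 ^ (c + 1) * 2 ∣ 2 ^ (c + 1) * z.val := by
    refine Dvd.dvd.trans ?_ h2
    rw [← pow_succ]
    exact pow_dvd_pow 2 h
  have h4 : 2 ∣ z.val := (Nat.mul_dvd_mul_iff_left (by positivity)).1 h3
  obtain ⟨k, hk⟩ := h4
  refine ⟨w + (k : ZMod (2 ^ a)), ?_⟩
  have hz2 : z = (2 : ℕ) • (k : ZMod (2 ^ a)) := by
    rw [← ZMod.natCast_zmod_val z, hk, nsmul_eq_mul]
    push_cast
    rfl
  have h5 : u = (2 : ℕ) • (w + (k : ZMod (2 ^ a))) := by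
    rw [smul_add, ← hz2, hz]
    abel
  rw [h5, smul_smul, ← pow_succ]

theorem two_cases (c : ℕ) (u : ZMod (2 ^ (c + 1))) :
    (2 ^ c : ℕ) • u = 0 ∨ (2 ^ c : ℕ) • u = (2 ^ c : ℕ) • (1 : ZMod (2 ^ (c + 1))) := by
  haveI : NeZero (2 ^ (c + 1)) := ⟨by positivity⟩
  obtain ⟨n, rfl⟩ : ∃ n : ℕ, u = (n : ZMod (2 ^ (c + 1))) :=
    ⟨u.val, (ZMod.natCast_zmod_val u).symm⟩
  rcases Nat.even_or_odd' n with ⟨k, hk | hk⟩
  · left
    rw [hk, nsmul_eq_mul, ← Nat.cast_mul, ZMod.natCast_eq_zero_iff]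
    exact ⟨k, by ring⟩
  · right
    rw [hk, nsmul_eq_mul, nsmul_eq_mul, mul_one, ← Nat.cast_mul]
    rw [show 2 ^ c * (2 * k + 1) = 2 ^ (c + 1) * k + 2 ^ c by ring, Nat.cast_add]
    have h0 : ((2 ^ (c + 1) * k : ℕ) : ZMod (2 ^ (c + 1))) = 0 :=
      (ZMod.natCast_eq_zero_iff _ _).2 ⟨k, rfl⟩
    rw [h0, zero_add]

theorem ev_sub_of_not (c : ℕ) {a : ℕ} (h : a = c + 1) (u u' : ZMod (2 ^ a)) (hu : ¬ Ev c u)
    (hu' : ¬ Ev c u') : Ev c (u - u') := by
  subst h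
  have key : ∀ v : ZMod (2 ^ (c + 1)), ¬ Ev c v →
      (2 ^ c : ℕ) • v = (2 ^ c : ℕ) • (1 : ZMod (2 ^ (c + 1))) := by
    intro v hv
    rcases two_cases c v with h0 | h1
    · exact absurd ⟨0, by rw [h0, smul_zero]⟩ hv
    · exact h1
  exact ⟨0, by rw [smul_sub, key u hu, key u' hu', sub_self, smul_zero]⟩

theorem mem_L_iff (n : ℕ) (a : Fin n → ℕ) (c : ℕ) (x : (i : Fin n) → ZMod (2 ^ a i)) :
    (∃ w : (i : Fin n) → ZMod (2 ^ a i), (2 ^ c : ℕ) • x = (2 ^ (c + 1) : ℕ) • w) ↔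
      ∀ i, Ev c (x i) := by
  constructor
  · rintro ⟨w, hw⟩ i
    exact ⟨w i, congrFun hw i⟩
  · intro h
    choose w hw using h
    exact ⟨w, funext hw⟩

theorem step_add (n : ℕ) (a : Fin n → ℕ) (ha : Function.Injective a) (c : ℕ)
    (x y : (i : Fin n) → ZMod (2 ^ a i))
    (hx : ∃ w : (i : Fin n) → ZMod (2 ^ a i), (2 ^ (c + 1) : ℕ) • x = (2 ^ (c + 1 + 1) : ℕ) • w)
    (hy : ∃ w : (i : Fin n) → ZMod (2 ^ a i), (2 ^ (c + 1) : ℕ) • y = (2 ^ (c + 1 + 1) : ℕ) • w)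
    (hx' : ¬ ∃ w : (i : Fin n) → ZMod (2 ^ a i), (2 ^ c : ℕ) • x = (2 ^ (c + 1) : ℕ) • w)
    (hy' : ¬ ∃ w : (i : Fin n) → ZMod (2 ^ a i), (2 ^ c : ℕ) • y = (2 ^ (c + 1) : ℕ) • w) :
    ∃ w : (i : Fin n) → ZMod (2 ^ a i), (2 ^ c : ℕ) • (x - y) = (2 ^ (c + 1) : ℕ) • w := by
  rw [mem_L_iff] at hx hy hx' hy' ⊢
  have gen : ∀ z : (i : Fin n) → ZMod (2 ^ a i), (∀ i, Ev (c + 1) (z i)) →
      ∀ j, a j ≠ c + 1 → Ev c (z j) := by
    intro z hz j hj
    rcases Nat.lt_or_ge c (a j) with h1 | h1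
    · exact ev_down (by omega) _ (hz j)
    · exact ev_of_le h1 _
  have special : ∀ z : (i : Fin n) → ZMod (2 ^ a i), (∀ i, Ev (c + 1) (z i)) →
      (¬ ∀ i, Ev c (z i)) → ∀ i, a i = c + 1 → ¬ Ev c (z i) := by
    intro z hz hz' i hi hev
    apply hz'
    intro j
    by_cases hji : j = i
    · rw [hji]
      exact hev
    · exact gen z hz j (fun h => hji (ha (h.trans hi.symm)))
  intro i
  by_cases hi : a i = c + 1
  · exact ev_sub_of_not c hi _ _ (special x hx hx' i hi) (special y hy hy' i hi)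
  · exact ev_sub (gen x hx i hi) (gen y hy i hi)

theorem step_mul (n : ℕ) (a : Fin n → ℕ) (ha : Function.Injective a) (c : ℕ)
    (x y : Multiplicative ((i : Fin n) → ZMod (2 ^ a i)))
    (hx : ∃ w : Multiplicative ((i : Fin n) → ZMod (2 ^ a i)),
      x ^ (2 ^ (c + 1)) = w ^ (2 ^ (c + 1 + 1)))
    (hy : ∃ w : Multiplicative ((i : Fin n) → ZMod (2 ^ a i)),
      y ^ (2 ^ (c + 1)) = w ^ (2 ^ (c + 1 + 1)))
    (hx' : ¬ ∃ w : Multiplicative ((i : Fin n) → ZMod (2 ^ a i)), x ^ (2 ^ c) = w ^ (2 ^ (c + 1)))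
    (hy' : ¬ ∃ w : Multiplicative ((i : Fin n) → ZMod (2 ^ a i)), y ^ (2 ^ c) = w ^ (2 ^ (c + 1))) :
    ∃ w : Multiplicative ((i : Fin n) → ZMod (2 ^ a i)), (x / y) ^ (2 ^ c) = w ^ (2 ^ (c + 1)) :=
  step_add n a ha c (Multiplicative.toAdd x) (Multiplicative.toAdd y) hx hy hx' hy'

theorem odd_aut_trivial {M : Type*} [CommGroup M] (K : ℕ) (hK : ∀ x : M, x ^ (2 ^ K) = 1)
    (hstep : ∀ (c : ℕ) (x y : M), (∃ w : M, x ^ (2 ^ (c + 1)) = w ^ (2 ^ (c + 1 + 1))) →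
      (∃ w : M, y ^ (2 ^ (c + 1)) = w ^ (2 ^ (c + 1 + 1))) →
      (¬ ∃ w : M, x ^ (2 ^ c) = w ^ (2 ^ (c + 1))) →
      (¬ ∃ w : M, y ^ (2 ^ c) = w ^ (2 ^ (c + 1))) →
      ∃ w : M, (x / y) ^ (2 ^ c) = w ^ (2 ^ (c + 1)))
    (α : MulAut M) (m : ℕ) (hm : Odd m) (hα : α ^ m = 1) : α = 1 := by
  have hdown : ∀ k : ℕ, (∀ x : M, α (x ^ (2 ^ (k + 1))) = x ^ (2 ^ (k + 1))) →
      ∀ x : M, α (x ^ (2 ^ k)) = x ^ (2 ^ k) := by
    intro k hQ
    have hR : ∀ c : ℕ, ∀ x : M, (∃ w : M, x ^ (2 ^ c) = w ^ (2 ^ (c + 1))) →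
        α (x ^ (2 ^ k)) = x ^ (2 ^ k) := by
      intro c
      induction c with
      | zero =>
        rintro x ⟨w, hw⟩
        rw [pow_zero, pow_one, zero_add, pow_one] at hw
        rw [hw, ← pow_mul, ← pow_succ']
        exact hQ w
      | succ c ih =>
        rintro x ⟨w, hw⟩
        by_cases hx : ∃ w : M, x ^ (2 ^ c) = w ^ (2 ^ (c + 1))
        · exact ih x hx
        · have h1 : ∃ w' : M, (α x) ^ (2 ^ (c + 1)) = w' ^ (2 ^ (c + 1 + 1)) :=
            ⟨α w, by rw [← map_pow, hw, map_pow]⟩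
          have h2 : ¬ ∃ w' : M, (α x) ^ (2 ^ c) = w' ^ (2 ^ (c + 1)) := by
            rintro ⟨w', hw'⟩
            apply hx
            refine ⟨α⁻¹ w', ?_⟩
            rw [← map_pow, ← hw', map_pow]
            simp
          have hd := hstep c (α x) x h1 ⟨w, hw⟩ h2 hx
          have h3 := ih _ hd
          have hb' : α (x ^ (2 ^ k)) = x ^ (2 ^ k) * (α x / x) ^ (2 ^ k) := by
            rw [div_pow, map_pow, mul_div_cancel]
          generalize x ^ (2 ^ k) = X at hb' ⊢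
          generalize (α x / x) ^ (2 ^ k) = b at hb' h3
          have hpow : ∀ j : ℕ, (α ^ j) X = X * b ^ j := by
            intro j
            induction j with
            | zero => simp
            | succ j ihj =>
              calc (α ^ (j + 1)) X = α ((α ^ j) X) := by rw [pow_succ', MulAut.mul_apply]
                _ = α (X * b ^ j) := by rw [ihj]
                _ = α X * (α b) ^ j := by rw [map_mul, map_pow α b j]
                _ = X * b * b ^ j := by rw [h3, hb']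
                _ = X * b ^ (j + 1) := by rw [pow_succ', mul_assoc]
          have h4 := hpow m
          rw [hα] at h4
          have h5 : b ^ m = 1 := by
            have h4' : X = X * b ^ m := h4
            exact left_eq_mul.1 h4'
          have h6 : orderOf b = 1 := Nat.eq_one_of_dvd_coprimes
            (Nat.Coprime.pow_right K (Nat.coprime_two_right.2 hm))
            (orderOf_dvd_of_pow_eq_one h5) (orderOf_dvd_of_pow_eq_one (hK b))
          rw [orderOf_eq_one_iff] at h6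
          rw [hb', h6, mul_one]
    intro x
    exact hR K x ⟨1, by rw [hK, one_pow]⟩
  have hall : ∀ j : ℕ, j ≤ K → ∀ x : M, α (x ^ (2 ^ (K - j))) = x ^ (2 ^ (K - j)) := by
    intro j
    induction j with
    | zero =>
      intro _ x
      rw [Nat.sub_zero, hK, map_one]
    | succ j ih =>
      intro hj x
      have h1 : K - j = (K - (j + 1)) + 1 := by omega
      have h2 := ih (by omega)
      rw [h1] at h2
      exact hdown _ h2 x
  ext x
  have := hall K le_rfl x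
  rw [Nat.sub_self, pow_zero, pow_one] at this
  exact this

variable {Ω : Type*} [Group Ω] {S : Subgroup Ω}

theorem main [Finite S] (n : ℕ) (a : Fin n → ℕ) (ha : StrictMono a)
    (e : ↥S ≃* Multiplicative ((i : Fin n) → ZMod (2 ^ a i))) (F : Cfsg.FusionSystem S)
    (hF : F.IsSaturated 2) (P : Subgroup Ω) :
    F.Hom P = (Cfsg.innerFusionSystem S).Hom P := by
  haveI : Fact (Nat.Prime 2) := ⟨Nat.prime_two⟩
  obtain ⟨K, hKdef⟩ : ∃ K, K = ∑ i, a i := ⟨_, rfl⟩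
  have hKM : ∀ x : Multiplicative ((i : Fin n) → ZMod (2 ^ a i)), x ^ (2 ^ K) = 1 := by
    intro x
    have h0 : (2 ^ K : ℕ) • (Multiplicative.toAdd x) = 0 := by
      funext i
      refine pow_smul_eq_zero ?_ _
      rw [hKdef]
      exact Finset.single_le_sum (f := a) (fun _ _ => Nat.zero_le _) (Finset.mem_univ i)
    exact congrArg Multiplicative.ofAdd h0
  have hS : IsPGroup 2 S := by
    intro g
    refine ⟨K, e.injective ?_⟩
    rw [map_pow, map_one]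
    exact hKM _
  have hab : ∀ x ∈ S, ∀ y ∈ S, x * y = y * x := by
    intro x hx y hy
    have h : (⟨x, hx⟩ : S) * ⟨y, hy⟩ = ⟨y, hy⟩ * ⟨x, hx⟩ := by
      apply e.injective
      rw [map_mul, map_mul, mul_comm]
    exact congrArg Subtype.val h
  ext φ
  constructor
  · intro hφ
    have hPS := (F.le_of_mem hφ).1
    obtain ⟨ψ₀, hψ₀, hext⟩ := extends_to_top_of_abelian hS F hF hab P φ hφ
    obtain ⟨α, rfl⟩ := exists_aut_of_mem_top F hψ₀
    have hαA : α ∈ F.autGroup S := (mem_autGroup_iff F le_rfl α).2 hψ₀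
    obtain ⟨-, R, hR⟩ := fullyAutomized_of_fullyNormalized hS F hF (fullyNormalized_top F)
    have hRbot : (R : Subgroup (F.autGroup S)) = ⊥ := by
      rw [hR, eq_bot_iff]
      intro b hb
      rw [Subgroup.mem_subgroupOf] at hb
      obtain ⟨g, hg, hgb⟩ := (mem_autInducedBy_iff S S _).1 hb
      rw [Subgroup.mem_bot]
      apply Subtype.ext
      ext x
      show (((b : MulAut S) x : S) : Ω) = x
      rw [hgb, hab g hg x x.2]
      group
    have hodd : ¬ 2 ∣ Nat.card (F.autGroup S) := by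
      have := R.not_dvd_index
      rwa [hRbot, Subgroup.index_bot] at this
    obtain ⟨m, hm⟩ : ∃ m, m = orderOf (⟨α, hαA⟩ : F.autGroup S) := ⟨_, rfl⟩
    have hmodd : Odd m := by
      rw [← Nat.not_even_iff_odd, even_iff_two_dvd]
      intro h2
      apply hodd
      rw [hm] at h2
      exact h2.trans (orderOf_dvd_natCard _)
    have hαm : α ^ m = 1 := by
      have := pow_orderOf_eq_one (⟨α, hαA⟩ : F.autGroup S)
      rw [← hm] at this
      exact congrArg Subtype.val this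
    have h1 : MulAut.congr e α = 1 := by
      apply odd_aut_trivial K hKM (step_mul n a ha.injective) _ m hmodd
      rw [← map_pow, hαm, map_one]
    have hα1 : α = 1 := (MulAut.congr e).injective (h1.trans (map_one _).symm)
    refine ⟨hPS, 1, S.one_mem, fun x => ?_⟩
    obtain ⟨h, hx⟩ := hext x
    rw [← hx, hα1]
    simp
  · rintro ⟨hPS, g, hg, hgx⟩
    have h : φ = conjHom P g := by
      ext x
      exact hgx x
    rw [h]
    exact F.conj_mem hPS hg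

end

/-- Let S be a finite abelian 2-group that is a direct product of cyclic groups of pairwise distinct orders 2^{a_1} < 2^{a_2} < ⋯ < 2^{a_n} (all a_i ≥ 1). Then every saturated fusion system over S is the inner one: its maps are exactly the conjugations by elements of S. -/
theorem result {Ω : Type*} [Group Ω] {S : Subgroup Ω} [Finite S] (n : ℕ) (a : Fin n → ℕ) (ha : StrictMono a) (ha1 : ∀ i, 1 ≤ a i) (e : ↥S ≃* Multiplicative ((i : Fin n) → ZMod (2 ^ a i))) (F : Cfsg.FusionSystem S) (hF : F.IsSaturated 2) (P : Subgroup Ω) : F.Hom P = (Cfsg.innerFusionSystem S).Hom P := by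
  exact main n a ha e F hF P

end Cfsg.Agent.S5331
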