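import Cfsg.Statements.S5350
-- import your own Cfsg.Agent.* helpers here
import Cfsg.Agent.Lib.helper26.TTZ
import Cfsg.Agent.S5247

set_option autoImplicit false
open Cfsg

namespace Cfsg.Agent.S5350

section
open Cfsg.Agent.Lib.helper26 Cfsg
open Cfsg.Agent.Lib.helper14 (isPGroup_pCore pCore_normal')

variable {G : Type*} [Group G]

theorem commute_of_sq {D : Set G} (hS : IsThreeTranspositionSet D) {a b : G} (ha : a ∈ D)
    (hb : b ∈ D) (h : (a * b) ^ 2 = 1) : Commute a b := by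
  have h1 : a * b * (a * b) = 1 := by rw [← pow_two]; exact h
  have h2 : a * b = (a * b)⁻¹ := eq_inv_of_mul_eq_one_left h1
  rw [mul_inv_rev, tt_inv hS ha, tt_inv hS hb] at h2
  exact h2

/-- an element of a `3`-group squaring to `1` is trivial -/
theorem eq_one_of_sq_of_mem_pCore {x : G} (hx : x ∈ pCore 3 G) (hxx : x * x = 1) : x = 1 := by
  obtain ⟨k, hk⟩ := isPGroup_pCore 3 G ⟨x, hx⟩
  have hk' : x ^ 3 ^ k = 1 := by simpa using congrArg Subtype.val hk
  have h2 : x ^ 2 = 1 := by rw [pow_two]; exact hxx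
  have h3 := pow_gcd_eq_one.2 ⟨hk', h2⟩
  rwa [Nat.Coprime.pow_left k (by norm_num : Nat.Coprime 3 2), pow_one] at h3

/-- the members of `D` other than `x` commuting with `x` -/
def Aset (D : Set G) (x : G) : Set G := {y | y ∈ D ∧ y ≠ x ∧ Commute x y}

/-- two members of `D` commuting with the same other members of `D` -/
def Rel (D : Set G) (a b : G) : Prop := a ∈ D ∧ b ∈ D ∧ Aset D a = Aset D b

theorem Rel.symm {D : Set G} {a b : G} (h : Rel D a b) : Rel D b a := ⟨h.2.1, h.1, h.2.2.symm⟩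

theorem Rel.trans {D : Set G} {a b c : G} (h : Rel D a b) (h' : Rel D b c) : Rel D a c :=
  ⟨h.1, h'.2.1, h.2.2.trans h'.2.2⟩

theorem Rel.refl' {D : Set G} {a : G} (h : a ∈ D) : Rel D a a := ⟨h, h, rfl⟩

theorem mem_Aset_conj {D : Set G} (hconj : ∀ g : G, ∀ a ∈ D, g * a * g⁻¹ ∈ D) (g a y : G) :
    y ∈ Aset D (g * a * g⁻¹) ↔ g⁻¹ * y * g ∈ Aset D a := by
  constructor
  · rintro ⟨hy, hne, hc⟩
    refine ⟨?_, ?_, ?_⟩
    · have := hconj g⁻¹ y hy
      rwa [inv_inv] at this
    · intro h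
      apply hne
      rw [← h]
      group
    · have h1 := (Commute.conj_iff g⁻¹).2 hc
      have e1 : g⁻¹ * (g * a * g⁻¹) * g⁻¹⁻¹ = a := by group
      rw [e1, inv_inv] at h1
      exact h1
  · rintro ⟨hy, hne, hc⟩
    refine ⟨?_, ?_, ?_⟩
    · have := hconj g _ hy
      have e1 : g * (g⁻¹ * y * g) * g⁻¹ = y := by group
      rwa [e1] at this
    · intro h
      apply hne
      rw [h]
      group
    · have h1 := (Commute.conj_iff g).2 hc
      have e1 : g * (g⁻¹ * y * g) * g⁻¹ = y := by group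
      rw [e1] at h1
      exact h1

theorem Rel.conj {D : Set G} (hconj : ∀ g : G, ∀ a ∈ D, g * a * g⁻¹ ∈ D) {a b : G}
    (h : Rel D a b) (g : G) : Rel D (g * a * g⁻¹) (g * b * g⁻¹) := by
  refine ⟨hconj g a h.1, hconj g b h.2.1, ?_⟩
  ext y
  rw [mem_Aset_conj hconj, mem_Aset_conj hconj, h.2.2]

theorem Rel.not_commute {D : Set G} {a b : G} (h : Rel D a b) (hne : a ≠ b) : ¬ Commute a b := by
  intro hc
  have hb : b ∈ Aset D a := ⟨h.2.1, Ne.symm hne, hc⟩
  rw [h.2.2] at hb
  exact hb.2.1 rfl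

theorem Rel.self_conj {D : Set G} (hconj : ∀ g : G, ∀ a ∈ D, g * a * g⁻¹ ∈ D) {a b : G}
    (h : Rel D a b) : Rel D a (a * b * a⁻¹) := by
  have h1 := (h.symm).conj hconj a
  have e : a * a * a⁻¹ = a := by group
  rw [e] at h1
  exact h1.symm

theorem Rel.cube {D : Set G} (hS : IsThreeTranspositionSet D) {a b : G} (h : Rel D a b) :
    (a * b) ^ 3 = 1 := by
  by_cases hab : a = b
  · subst hab
    rw [tt_sq hS h.1, one_pow]
  · rcases hS.2 a h.1 b h.2.1 with h2 | h3
    · exact absurd (commute_of_sq hS h.1 h.2.1 h2) (h.not_commute hab)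
    · exact h3

/-- the product of two equivalent members stabilises `Aset D b` when `b` is neither equivalent to
nor commuting with them -/
theorem Aset_stable {D : Set G} (hS : IsThreeTranspositionSet D)
    (hconj : ∀ g : G, ∀ a ∈ D, g * a * g⁻¹ ∈ D) {a a' b y : G} (h : Rel D a a') (hb : b ∈ D)
    (hnab : ¬ Commute a b) (hnR : ¬ Rel D a b) (hy : y ∈ Aset D b) :
    (a * a') * y * (a * a')⁻¹ ∈ Aset D b := by
  obtain ⟨hyD, hyb, hby⟩ := hy
  have ha := h.1
  have ha' := h.2.1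
  have hai := tt_inv hS ha
  have ha'i := tt_inv hS ha'
  have hyi := tt_inv hS hyD
  by_cases haa : a = a'
  · subst haa
    have e : (a * a) * y * (a * a)⁻¹ = y := by rw [tt_sq hS ha]; group
    rw [e]
    exact ⟨hyD, hyb, hby⟩
  have hnaa := h.not_commute haa
  have hna'b : ¬ Commute a' b := by
    intro hc
    have hne : b ≠ a' := by
      rintro rfl
      exact hnR h
    have h1 : b ∈ Aset D a' := ⟨hb, hne, hc⟩
    rw [← h.2.2] at h1
    exact hnab h1.2.2
  by_cases hay : Commute a y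
  · have hne : y ≠ a := by
      rintro rfl
      exact hnab hby.symm
    have h1 : y ∈ Aset D a := ⟨hyD, hne, hay⟩
    rw [h.2.2] at h1
    have ha'y : Commute a' y := h1.2.2
    have e : (a * a') * y * (a * a')⁻¹ = y := by
      have h2 : Commute (a * a') y := hay.mul_left ha'y
      rw [h2.eq, mul_inv_cancel_right]
    rw [e]
    exact ⟨hyD, hyb, hby⟩
  · have hna'y : ¬ Commute a' y := by
      intro hc
      have hne : y ≠ a' := by
        rintro rfl
        exact hna'b hby.symm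
      have h1 : y ∈ Aset D a' := ⟨hyD, hne, hc⟩
      rw [← h.2.2] at h1
      exact hay h1.2.2
    have hbr_ab : a * b * a = b * a * b := (tt_braid hS ha hb).resolve_left hnab
    have hbr_ay : a * y * a = y * a * y := (tt_braid hS ha hyD).resolve_left hay
    have hbr_a'y : a' * y * a' = y * a' * y := (tt_braid hS ha' hyD).resolve_left hna'y
    obtain ⟨c, hcdef⟩ : ∃ c, c = (a * y)⁻¹ * b * (a * y) := ⟨_, rfl⟩
    have hcD : c ∈ D := by
      rw [hcdef]
      have := hconj (a * y)⁻¹ b hb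
      rwa [inv_inv] at this
    have hc_eq : c = b * y * a * y * b := by
      rw [hcdef, mul_inv_rev, hyi, hai]
      calc y * a * b * (a * y) = y * (a * b * a) * y := by group
        _ = y * (b * a * b) * y := by rw [hbr_ab]
        _ = (y * b) * a * (b * y) := by group
        _ = (b * y) * a * (y * b) := by rw [hby.eq]
        _ = b * y * a * y * b := by group
    have hac : Commute a c := by
      have h1 := tt_conj_commute (tt_sq hS hb) hby.eq hbr_ab.symm hbr_ay.symm
      rw [← hc_eq] at h1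
      show a * c = c * a
      calc a * c = a * c * a * a := by rw [mul_assoc (a * c) a a, tt_sq hS ha, mul_one]
        _ = c * a := by rw [h1]
    have hb' : b = (a * y) * c * (a * y)⁻¹ := by rw [hcdef]; group
    have hca : c ≠ a := by
      intro hca
      apply hyb
      rw [hca] at hb'
      rw [hb', mul_inv_rev, hyi, hai]
      calc y = a * (a * y * a) * a := by
              have e : a * (a * y * a) * a = (a * a) * y * (a * a) := by group
              rw [e, tt_sq hS ha]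
              group
        _ = a * (y * a * y) * a := by rw [hbr_ay]
        _ = a * y * a * (y * a) := by group
    have hc_mem : c ∈ Aset D a := ⟨hcD, hca, hac⟩
    rw [h.2.2] at hc_mem
    have ha'c : Commute a' c := hc_mem.2.2
    have hw : (a * a') * y * (a * a')⁻¹ = (a * y) * a' * (a * y)⁻¹ := by
      have h2 : a' * y * a'⁻¹ = y * a' * y⁻¹ := by rw [ha'i, hyi]; exact hbr_a'y
      calc (a * a') * y * (a * a')⁻¹ = a * (a' * y * a'⁻¹) * a⁻¹ := by group
        _ = a * (y * a' * y⁻¹) * a⁻¹ := by rw [h2]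
        _ = (a * y) * a' * (a * y)⁻¹ := by group
    refine ⟨hconj _ y hyD, ?_, ?_⟩
    · rw [hw]
      intro heq
      have h3 : a' = c := by
        have h4 : (a * y) * a' * (a * y)⁻¹ = (a * y) * c * (a * y)⁻¹ := heq.trans hb'
        have h5 := congrArg (fun t => (a * y)⁻¹ * t * (a * y)) h4
        have e1 : (a * y)⁻¹ * ((a * y) * a' * (a * y)⁻¹) * (a * y) = a' := by group
        have e2 : (a * y)⁻¹ * ((a * y) * c * (a * y)⁻¹) * (a * y) = c := by group
        simp only [e1, e2] at h5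
        exact h5
      rw [← h3] at hac
      exact hnaa hac
    · rw [hw]
      have h6 : Commute ((a * y) * c * (a * y)⁻¹) ((a * y) * a' * (a * y)⁻¹) :=
        (Commute.conj_iff (a * y)).2 ha'c.symm
      rw [← hb'] at h6
      exact h6

theorem Rel.conj_mul {D : Set G} (hS : IsThreeTranspositionSet D)
    (hconj : ∀ g : G, ∀ a ∈ D, g * a * g⁻¹ ∈ D) {a a' b : G} (h : Rel D a a') (hb : b ∈ D) :
    Rel D b ((a * a') * b * (a * a')⁻¹) := by
  have ha := h.1
  have ha' := h.2.1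
  by_cases hR : Rel D a b
  · have h1 : Rel D a' (a' * b * a'⁻¹) := (h.symm.trans hR).self_conj hconj
    have h2 : Rel D a (a * (a' * b * a'⁻¹) * a⁻¹) := (h.trans h1).self_conj hconj
    have e : (a * a') * b * (a * a')⁻¹ = a * (a' * b * a'⁻¹) * a⁻¹ := by group
    rw [e]
    exact hR.symm.trans h2
  by_cases hab : Commute a b
  · have hne : b ≠ a := by
      rintro rfl
      exact hR (Rel.refl' ha)
    have h1 : b ∈ Aset D a := ⟨hb, hne, hab⟩
    rw [h.2.2] at h1
    have e : (a * a') * b * (a * a')⁻¹ = b := by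
      have h2 : Commute (a * a') b := hab.mul_left h1.2.2
      rw [h2.eq, mul_inv_cancel_right]
    rw [e]
    exact Rel.refl' hb
  · refine ⟨hb, hconj _ b hb, ?_⟩
    have hR' : ¬ Rel D a' b := fun hR' => hR (h.trans hR')
    have hna'b : ¬ Commute a' b := by
      intro hc
      have hne : b ≠ a' := by
        rintro rfl
        exact hR h
      have h1 : b ∈ Aset D a' := ⟨hb, hne, hc⟩
      rw [← h.2.2] at h1
      exact hab h1.2.2
    ext y
    rw [mem_Aset_conj hconj]
    constructor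
    · intro hy
      have h1 := Aset_stable hS hconj h.symm hb hna'b hR' hy
      have e : (a * a')⁻¹ * y * (a * a') = (a' * a) * y * (a' * a)⁻¹ := by
        rw [mul_inv_rev, mul_inv_rev, tt_inv hS ha, tt_inv hS ha']
      rw [e]
      exact h1
    · intro hy
      have h1 := Aset_stable hS hconj h hb hab hR hy
      have e : (a * a') * ((a * a')⁻¹ * y * (a * a')) * (a * a')⁻¹ = y := by group
      rw [e] at h1
      exact h1

theorem closure_conj_mem {S T : Set G}
    (h : ∀ g ∈ S, ∀ t ∈ T, g * t * g⁻¹ ∈ T ∧ g⁻¹ * t * g ∈ T) :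
    ∀ g ∈ Subgroup.closure S, ∀ t ∈ T, g * t * g⁻¹ ∈ T ∧ g⁻¹ * t * g ∈ T := by
  intro g hg
  induction hg using Subgroup.closure_induction with
  | mem x hx => exact h x hx
  | one =>
    intro t ht
    simpa using ht
  | mul x y _ _ hx hy =>
    intro t ht
    constructor
    · have e : x * y * t * (x * y)⁻¹ = x * (y * t * y⁻¹) * x⁻¹ := by group
      rw [e]
      exact (hx _ (hy t ht).1).1
    · have e : (x * y)⁻¹ * t * (x * y) = y⁻¹ * (x⁻¹ * t * x) * y := by group
      rw [e]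
      exact (hy _ (hx t ht).2).2
  | inv x _ hx =>
    intro t ht
    constructor
    · have := (hx t ht).2
      rwa [inv_inv]
    · have := (hx t ht).1
      rwa [inv_inv]

theorem conj_closure_mem {S : Set G} {k : G} (h : ∀ s ∈ S, k * s * k⁻¹ ∈ Subgroup.closure S) :
    ∀ m ∈ Subgroup.closure S, k * m * k⁻¹ ∈ Subgroup.closure S := by
  intro m hm
  induction hm using Subgroup.closure_induction with
  | mem x hx => exact h x hx
  | one =>
    have e : k * 1 * k⁻¹ = 1 := by group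
    rw [e]
    exact Subgroup.one_mem _
  | mul x y _ _ hx hy =>
    have e : k * (x * y) * k⁻¹ = (k * x * k⁻¹) * (k * y * k⁻¹) := by group
    rw [e]
    exact Subgroup.mul_mem _ hx hy
  | inv x _ hx =>
    have e : k * x⁻¹ * k⁻¹ = (k * x * k⁻¹)⁻¹ := by group
    rw [e]
    exact Subgroup.inv_mem _ hx

/-- the subgroup generated by an equivalence class -/
def clsGroup (D : Set G) (b : G) : Subgroup G := Subgroup.closure {x | Rel D b x}

/-- the class as a subset of its subgroup -/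
def clsSet (D : Set G) (b : G) : Set (clsGroup D b) := {h | Rel D b (h : G)}

theorem clsGroup_conj {D : Set G} (hS : IsThreeTranspositionSet D)
    (hconj : ∀ g : G, ∀ a ∈ D, g * a * g⁻¹ ∈ D) (b : G) :
    ∀ g ∈ clsGroup D b, ∀ t ∈ {x | Rel D b x},
      g * t * g⁻¹ ∈ {x | Rel D b x} ∧ g⁻¹ * t * g ∈ {x | Rel D b x} := by
  unfold clsGroup
  apply closure_conj_mem
  intro g hg t ht
  have hg' : Rel D b g := hg
  have ht' : Rel D b t := ht
  have h1 : Rel D g (g * t * g⁻¹) := (hg'.symm.trans ht').self_conj hconj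
  refine ⟨hg'.trans h1, ?_⟩
  have e : g⁻¹ * t * g = g * t * g⁻¹ := by rw [tt_inv hS hg'.2.1]
  rw [e]
  exact hg'.trans h1

theorem clsSet_cube {D : Set G} (hS : IsThreeTranspositionSet D) {b : G}
    {h k : clsGroup D b} (hh : h ∈ clsSet D b) (hk : k ∈ clsSet D b) : (h * k) ^ 3 = 1 := by
  apply Subtype.ext
  have := (Rel.symm hh).trans hk
  simpa using this.cube hS

theorem clsSet_tt {D : Set G} (hS : IsThreeTranspositionSet D)
    (hconj : ∀ g : G, ∀ a ∈ D, g * a * g⁻¹ ∈ D) (b : G) :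
    IsThreeTranspositionGroup (clsSet D b) := by
  refine ⟨⟨?_, ?_⟩, ?_, ?_⟩
  · intro h hh
    have hh' : Rel D b (h : G) := hh
    rw [← Subgroup.orderOf_coe]
    exact hS.1 _ hh'.2.1
  · intro h hh k hk
    exact Or.inr (clsSet_cube hS hh hk)
  · intro g h hh
    exact (clsGroup_conj hS hconj b g g.2 h hh).1
  · exact Subgroup.closure_closure_coe_preimage

/-- products of two members of one class generate a `3`-group -/
theorem class_pgroup [Finite G] {D : Set G} (hS : IsThreeTranspositionSet D)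
    (hconj : ∀ g : G, ∀ a ∈ D, g * a * g⁻¹ ∈ D) {b : G} (hb : b ∈ D) :
    IsPGroup 3 (Subgroup.closure {z : G | ∃ b₁ b₂, Rel D b b₁ ∧ Rel D b b₂ ∧ z = b₁ * b₂}) := by
  have hle : Subgroup.closure {z : G | ∃ b₁ b₂, Rel D b b₁ ∧ Rel D b b₂ ∧ z = b₁ * b₂} ≤
      (pCore 3 (clsGroup D b)).map (clsGroup D b).subtype := by
    rw [Subgroup.closure_le]
    rintro z ⟨b₁, b₂, h1, h2, rfl⟩
    have m1 : b₁ ∈ clsGroup D b := Subgroup.subset_closure h1
    have m2 : b₂ ∈ clsGroup D b := Subgroup.subset_closure h2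
    have mb : b ∈ clsGroup D b := Subgroup.subset_closure (Rel.refl' hb)
    have hx : ((⟨b₁, m1⟩ : clsGroup D b) * ⟨b₂, m2⟩) ^ 3 ^ 1 = 1 := by
      rw [pow_one]
      exact clsSet_cube hS (b := b) (h := ⟨b₁, m1⟩) (k := ⟨b₂, m2⟩) h1 h2
    have h3 := tt_odd_mem (clsSet_tt hS hconj b) (fun h hh k hk => clsSet_cube hS hh hk)
      (d := ⟨b, mb⟩) (Rel.refl' hb) hx
    exact ⟨_, h3, rfl⟩
  exact ((isPGroup_pCore 3 (clsGroup D b)).map _).to_le hle

/-- the product of two equivalent members lies in `O₃(G)` -/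
theorem rel_mul_mem_pCore [Finite G] {D : Set G} (hS : IsThreeTranspositionSet D)
    (hconj : ∀ g : G, ∀ a ∈ D, g * a * g⁻¹ ∈ D) {d w : G} (h : Rel D d w) :
    d * w ∈ pCore 3 G := by
  haveI : Fact (Nat.Prime 3) := ⟨Nat.prime_three⟩
  obtain ⟨K, hKdef⟩ : ∃ K : Subgroup G,
      K = Subgroup.closure {z | ∃ a a', Rel D a a' ∧ z = a * a'} := ⟨_, rfl⟩
  have hKcl : ∀ b ∈ D, ∀ k ∈ K, ∀ t ∈ {x | Rel D b x},
      k * t * k⁻¹ ∈ {x | Rel D b x} ∧ k⁻¹ * t * k ∈ {x | Rel D b x} := by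
    intro b hb
    rw [hKdef]
    apply closure_conj_mem
    rintro g ⟨a, a', haa, rfl⟩ t ht
    have ht' : Rel D b t := ht
    constructor
    · exact ht'.trans (haa.conj_mul hS hconj ht'.2.1)
    · have e : (a * a')⁻¹ * t * (a * a') = (a' * a) * t * (a' * a)⁻¹ := by
        rw [mul_inv_rev, mul_inv_rev, tt_inv hS haa.1, tt_inv hS haa.2.1]
      rw [e]
      exact ht'.trans (haa.symm.conj_mul hS hconj ht'.2.1)
  have hKnorm : ∀ b ∈ D, ∀ k ∈ K,
      ∀ m ∈ Subgroup.closure {z : G | ∃ b₁ b₂, Rel D b b₁ ∧ Rel D b b₂ ∧ z = b₁ * b₂},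
      k * m * k⁻¹ ∈ Subgroup.closure {z : G | ∃ b₁ b₂, Rel D b b₁ ∧ Rel D b b₂ ∧ z = b₁ * b₂} := by
    intro b hb k hk
    apply conj_closure_mem
    rintro s ⟨b₁, b₂, h1, h2, rfl⟩
    apply Subgroup.subset_closure
    exact ⟨k * b₁ * k⁻¹, k * b₂ * k⁻¹, (hKcl b hb k hk b₁ h1).1, (hKcl b hb k hk b₂ h2).1,
      by group⟩
  have hKb_le : ∀ b ∈ D,
      Subgroup.closure {z : G | ∃ b₁ b₂, Rel D b b₁ ∧ Rel D b b₂ ∧ z = b₁ * b₂} ≤ K := by
    intro b hb
    rw [hKdef]
    apply Subgroup.closure_mono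
    rintro z ⟨b₁, b₂, h1, h2, rfl⟩
    exact ⟨b₁, b₂, h1.symm.trans h2, rfl⟩
  have hKle : K ≤ (pCore 3 K).map K.subtype := by
    conv_lhs => rw [hKdef]
    rw [Subgroup.closure_le]
    rintro z ⟨a, a', haa, rfl⟩
    rw [SetLike.mem_coe, Cfsg.Agent.S5247.mem_pCoreOf_iff]
    refine ⟨_, hKb_le a haa.1, hKnorm a haa.1, class_pgroup hS hconj haa.1, ?_⟩
    exact Subgroup.subset_closure ⟨a, a', Rel.refl' haa.1, haa, rfl⟩
  have hKp : IsPGroup 3 K := by
    have h1 : IsPGroup 3 ((pCore 3 K).map K.subtype) := (isPGroup_pCore 3 K).map _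
    exact h1.to_le hKle
  have hKn : K.Normal := by
    constructor
    intro n hn g
    rw [hKdef] at hn ⊢
    refine conj_closure_mem ?_ n hn
    rintro s ⟨a, a', haa, rfl⟩
    apply Subgroup.subset_closure
    exact ⟨g * a * g⁻¹, g * a' * g⁻¹, haa.conj hconj g, by group⟩
  exact Cfsg.Agent.Lib.helper14.le_pCore hKn hKp (by rw [hKdef]; exact Subgroup.subset_closure ⟨d, w, h, rfl⟩)

/-- congruence modulo `O₃(G)` preserves the commuting sets -/
theorem Aset_subset_of_mem [Finite G] {D : Set G} (hS : IsThreeTranspositionSet D) {d w : G}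
    (hd : d ∈ D) (hw : w ∈ D) (hdw : d * w ∈ pCore 3 G) : Aset D d ⊆ Aset D w := by
  haveI := pCore_normal' 3 G
  rintro y ⟨hy, hyd, hdy⟩
  have hdi := tt_inv hS hd
  have hsq : (y * d) * (y * d) = 1 := by
    calc (y * d) * (y * d) = y * (d * y) * d := by group
      _ = y * (y * d) * d := by rw [hdy.eq]
      _ = (y * y) * (d * d) := by group
      _ = 1 := by rw [tt_sq hS hy, tt_sq hS hd, one_mul]
  have hyd1 : y * d ≠ 1 := by
    intro h1
    have := eq_inv_of_mul_eq_one_left h1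
    rw [hdi] at this
    exact hyd this
  rcases hS.2 y hy w hw with h2 | h3
  · have hc : Commute y w := commute_of_sq hS hy hw h2
    refine ⟨hy, ?_, hc.symm⟩
    rintro rfl
    have e : y * d = (d * y)⁻¹ := by rw [mul_inv_rev, hdi, tt_inv hS hy]
    have h4 : y * d ∈ pCore 3 G := by rw [e]; exact Subgroup.inv_mem _ hdw
    exact hyd1 (eq_one_of_sq_of_mem_pCore h4 hsq)
  · exfalso
    have e : ((y * d : G) : G ⧸ pCore 3 G) = ((y * w : G) : G ⧸ pCore 3 G) := by
      rw [QuotientGroup.eq]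
      have e2 : (y * d)⁻¹ * (y * w) = d * w := by rw [mul_inv_rev, hdi]; group
      rw [e2]
      exact hdw
    have h5 : ((y * d : G) : G ⧸ pCore 3 G) ^ 3 = 1 := by
      rw [e, ← QuotientGroup.mk_pow, h3, QuotientGroup.mk_one]
    have h6 : ((y * d : G) : G ⧸ pCore 3 G) ^ 2 = 1 := by
      rw [← QuotientGroup.mk_pow, pow_two, hsq, QuotientGroup.mk_one]
    have h7 := pow_gcd_eq_one.2 ⟨h5, h6⟩
    have hg : Nat.gcd 3 2 = 1 := by norm_num
    rw [hg, pow_one] at h7
    exact hyd1 (eq_one_of_sq_of_mem_pCore ((QuotientGroup.eq_one_iff _).1 h7) hsq)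

theorem main [Finite G] {D : Set G} (hD : Cfsg.IsThreeTranspositionClass D) {d : G}
    (hd : d ∈ D) :
    {w : G | w ∈ D ∧ Aset D d = Aset D w} = {w : G | w ∈ D ∧ d⁻¹ * w ∈ Cfsg.pCore 3 G} ∧
    {w : G | w ∈ D ∧ Aset D d = Aset D w} = {w : G | ∃ g ∈ Cfsg.pCore 3 G, w = g * d * g⁻¹} := by
  have hS := hD.1
  have hconj : ∀ g : G, ∀ a ∈ D, g * a * g⁻¹ ∈ D := fun g a ha => tt_conj_mem hD ha g
  haveI := pCore_normal' 3 G
  have hdi := tt_inv hS hd
  have h12 : {w : G | w ∈ D ∧ Aset D d = Aset D w} ⊆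
      {w : G | w ∈ D ∧ d⁻¹ * w ∈ Cfsg.pCore 3 G} := by
    rintro w ⟨hw, hA⟩
    refine ⟨hw, ?_⟩
    rw [hdi]
    exact rel_mul_mem_pCore hS hconj ⟨hd, hw, hA⟩
  have h21 : {w : G | w ∈ D ∧ d⁻¹ * w ∈ Cfsg.pCore 3 G} ⊆
      {w : G | w ∈ D ∧ Aset D d = Aset D w} := by
    rintro w ⟨hw, hdw⟩
    rw [hdi] at hdw
    refine ⟨hw, Set.Subset.antisymm (Aset_subset_of_mem hS hd hw hdw)
      (Aset_subset_of_mem hS hw hd ?_)⟩
    have e : w * d = (d * w)⁻¹ := by rw [mul_inv_rev, hdi, tt_inv hS hw]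
    rw [e]
    exact Subgroup.inv_mem _ hdw
  have h23 : {w : G | w ∈ D ∧ d⁻¹ * w ∈ Cfsg.pCore 3 G} ⊆
      {w : G | ∃ g ∈ Cfsg.pCore 3 G, w = g * d * g⁻¹} := by
    rintro w ⟨hw, hdw⟩
    rw [hdi] at hdw
    refine ⟨d * w, hdw, ?_⟩
    have h3 : (d * w) ^ 3 = 1 := by
      rcases hS.2 d hd w hw with h2 | h3
      · have h4 : d * w = 1 := by
          apply eq_one_of_sq_of_mem_pCore hdw
          rw [← pow_two]
          exact h2
        rw [h4, one_pow]
      · exact h3
    have h4 : d * w * d * w * d * w = 1 := by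
      rw [← h3, pow_succ, pow_two]
      group
    have h5 := eq_inv_of_mul_eq_one_left h4
    rw [tt_inv hS hw] at h5
    rw [mul_inv_rev, tt_inv hS hw, hdi]
    calc w = d * w * d * w * d := h5.symm
      _ = d * w * d * (w * d) := by group
  have h32 : {w : G | ∃ g ∈ Cfsg.pCore 3 G, w = g * d * g⁻¹} ⊆
      {w : G | w ∈ D ∧ d⁻¹ * w ∈ Cfsg.pCore 3 G} := by
    rintro w ⟨g, hg, rfl⟩
    refine ⟨hconj g d hd, ?_⟩
    have e : d⁻¹ * (g * d * g⁻¹) = (d⁻¹ * g * d⁻¹⁻¹) * g⁻¹ := by group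
    rw [e]
    exact Subgroup.mul_mem _ (Subgroup.Normal.conj_mem inferInstance g hg d⁻¹)
      (Subgroup.inv_mem _ hg)
  exact ⟨Set.Subset.antisymm h12 h21,
    Set.Subset.antisymm (h12.trans h23) (h32.trans h21)⟩

end

/-- Let D be a conjugacy class of 3-transpositions generating the finite group G, with at least two members, and d a member of D. Then the set of members w of D whose commuting partners in D (other than w) are exactly those of d (other than d) coincides with the set of members of D lying in the coset of d modulo the largest normal 3-subgroup of G, and also with the orbit of d under conjugation by that normal 3-subgroup. -/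
theorem result {G : Type*} [Group G] [Finite G] {D : Set G} (hD : Cfsg.IsThreeTranspositionClass D) (hD2 : ∃ a ∈ D, ∃ b ∈ D, a ≠ b) {d : G} (hd : d ∈ D) : {w : G | w ∈ D ∧ {y : G | y ∈ D ∧ y ≠ d ∧ Commute d y} = {y : G | y ∈ D ∧ y ≠ w ∧ Commute w y}} = {w : G | w ∈ D ∧ d⁻¹ * w ∈ Cfsg.pCore 3 G} ∧ {w : G | w ∈ D ∧ {y : G | y ∈ D ∧ y ≠ d ∧ Commute d y} = {y : G | y ∈ D ∧ y ≠ w ∧ Commute w y}} = {w : G | ∃ g ∈ Cfsg.pCore 3 G, w = g * d * g⁻¹} := by
  exact main hD hd

end Cfsg.Agent.S5350
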