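import Cfsg.Statements.S5560
import Cfsg.Agent.S1618
import Cfsg.Agent.Lib.helper16.ZStar
import Cfsg.Agent.Lib.helper8.CoprimeAction
import Cfsg.Agent.Lib.helper9.PPrimeCore

set_option autoImplicit false
open Cfsg

namespace Cfsg.Agent.S5560

/-- A Z*-type result for an odd prime p. Let G be a finite group and d an involution of G such that the product of any two conjugates of d has order a power of p. Then the product of any two conjugates of d lies in the largest normal p-subgroup O_p(G); in other words the conjugacy class of d lies in the coset O_p(G)d, and d is central modulo O_p(G). -/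
theorem result {G : Type*} [Group G] [Finite G] {p : ℕ} (hp : p.Prime) (hp2 : p ≠ 2)
    (d : G) (hd : orderOf d = 2)
    (hprod : ∀ a ∈ conjugatesOf d, ∀ b ∈ conjugatesOf d, ∃ k : ℕ, orderOf (a * b) = p ^ k) :
    ∀ a ∈ conjugatesOf d, ∀ b ∈ conjugatesOf d, a * b ∈ Cfsg.pCore p G := by
  classical
  haveI : Fact p.Prime := ⟨hp⟩
  obtain ⟨D, hDeq⟩ : ∃ D : Set G, D = conjugatesOf d := ⟨_, rfl⟩
  have hdD : d ∈ D := by rw [hDeq]; exact mem_conjugatesOf_self
  rw [← hDeq] at hprod ⊢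
  have hd2 : orderOf d = 2 := hd
  have hdd : d * d = 1 := by rw [← sq, ← hd2]; exact pow_orderOf_eq_one d
  have hdinv : d⁻¹ = d := inv_eq_of_mul_eq_one_left hdd
  have hDconj : ∀ g : G, g * d * g⁻¹ ∈ D := by
    intro g; rw [hDeq]; exact isConj_iff.mpr ⟨g, rfl⟩
  have hDform : ∀ x ∈ D, ∃ g : G, g * d * g⁻¹ = x := by
    intro x hx; rw [hDeq] at hx; exact isConj_iff.mp hx
  have hxx : ∀ x ∈ D, x * x = 1 := by
    intro x hx
    obtain ⟨g, rfl⟩ := hDform x hx
    calc g * d * g⁻¹ * (g * d * g⁻¹) = g * (d * d) * g⁻¹ := by group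
      _ = 1 := by rw [hdd]; group
  have hpodd : Odd p := hp.odd_of_ne_two hp2
  have hprodOdd : ∀ x ∈ D, Odd (orderOf (d * x)) := by
    intro x hx
    obtain ⟨k, hk⟩ := hprod d hdD x hx
    rw [hk]; exact hpodd.pow
  have hcomm : ∀ g : G, d * g * d⁻¹ * g⁻¹ = d * (g * d * g⁻¹) := by
    intro g; rw [hdinv]; group
  have hZ : ∀ g : G, d * (g * d * g⁻¹) ∈ Cfsg.pPrimeCore 2 G := by
    intro g
    rw [← hcomm]
    apply Cfsg.Agent.Lib.helper16.ZStar.zstar d hd2
    intro g'
    rw [hcomm]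
    exact hprodOdd _ (hDconj g')
  have hKodd : Odd (Nat.card (Cfsg.pPrimeCore 2 G)) :=
    Nat.coprime_two_right.mp (Cfsg.Agent.Lib.helper9.pPrimeCore_coprime 2 G)
  obtain ⟨M, hMdef⟩ : ∃ M : Subgroup G, M = Subgroup.closure {a : G | ∃ x ∈ D, a = d * x} :=
    ⟨_, rfl⟩
  have hIM : ∀ x ∈ D, d * x ∈ M := fun x hx => by
    rw [hMdef]; exact Subgroup.subset_closure ⟨x, hx, rfl⟩
  have hMK : M ≤ Cfsg.pPrimeCore 2 G := by
    rw [hMdef, Subgroup.closure_le]
    rintro a ⟨x, hx, rfl⟩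
    obtain ⟨g, rfl⟩ := hDform x hx
    exact hZ g
  have hModd : Odd (Nat.card M) := Odd.of_dvd_nat hKodd (Subgroup.card_dvd_of_le hMK)
  have hinvgen : ∀ x ∈ D, d * (d * x) * d⁻¹ = (d * x)⁻¹ := by
    intro x hx
    have hxinv : x⁻¹ = x := inv_eq_of_mul_eq_one_left (hxx x hx)
    rw [mul_inv_rev, hxinv, hdinv]
    calc d * (d * x) * d = (d * d) * x * d := by group
      _ = x * d := by rw [hdd, one_mul]
  have hdM : ∀ m ∈ M, d * m * d⁻¹ ∈ M := by
    intro m hm
    rw [hMdef] at hm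
    induction hm using Subgroup.closure_induction with
    | mem a ha =>
      obtain ⟨x, hx, rfl⟩ := ha
      rw [hinvgen x hx]; exact M.inv_mem (hIM x hx)
    | one => rw [mul_one, mul_inv_cancel]; exact M.one_mem
    | mul a b _ _ iha ihb =>
      have : d * (a * b) * d⁻¹ = (d * a * d⁻¹) * (d * b * d⁻¹) := by group
      rw [this]; exact M.mul_mem iha ihb
    | inv a _ iha =>
      have : d * a⁻¹ * d⁻¹ = (d * a * d⁻¹)⁻¹ := by group
      rw [this]; exact M.inv_mem iha
  have hab : ∀ a ∈ D, ∀ b ∈ D, a * b ∈ M := by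
    intro a ha b hb
    have hainv : a⁻¹ = a := inv_eq_of_mul_eq_one_left (hxx a ha)
    have e : a * b = (d * a)⁻¹ * (d * b) := by
      rw [mul_inv_rev, hainv, hdinv]
      calc a * b = a * (d * d) * b := by rw [hdd, mul_one]
        _ = a * d * (d * b) := by group
    rw [e]
    exact M.mul_mem (M.inv_mem (hIM a ha)) (hIM b hb)
  have hDG : ∀ x ∈ D, ∀ g : G, g * x * g⁻¹ ∈ D := by
    intro x hx g
    obtain ⟨h, rfl⟩ := hDform x hx
    have : g * (h * d * h⁻¹) * g⁻¹ = (g * h) * d * (g * h)⁻¹ := by group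
    rw [this]; exact hDconj _
  have hnormal : M.Normal := by
    constructor
    intro n hn g
    rw [hMdef] at hn
    induction hn using Subgroup.closure_induction with
    | mem a ha =>
      obtain ⟨x, hx, rfl⟩ := ha
      have : g * (d * x) * g⁻¹ = (g * d * g⁻¹) * (g * x * g⁻¹) := by group
      rw [this]
      exact hab _ (hDconj g) _ (hDG x hx g)
    | one => rw [mul_one, mul_inv_cancel]; exact M.one_mem
    | mul a b _ _ iha ihb =>
      have : g * (a * b) * g⁻¹ = (g * a * g⁻¹) * (g * b * g⁻¹) := by group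
      rw [this]; exact M.mul_mem iha ihb
    | inv a _ iha =>
      have : g * a⁻¹ * g⁻¹ = (g * a * g⁻¹)⁻¹ := by group
      rw [this]; exact M.inv_mem iha
  have hMp : IsPGroup p M := by
    have hinvM : ∀ a ∈ M, d * a * d⁻¹ = a⁻¹ → ∃ x ∈ D, a = d * x := by
      intro a ha hai
      obtain ⟨m, hm⟩ := hModd
      have hpow : a ^ (2 * m + 1) = 1 := by
        have := pow_card_eq_one' (G := ↥M) (x := ⟨a, ha⟩)
        rw [hm] at this
        exact congrArg Subtype.val this
      obtain ⟨b, hbdef⟩ : ∃ b, b = a⁻¹ ^ (m + 1) := ⟨_, rfl⟩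
      have hbb : b * b = a⁻¹ := by
        rw [hbdef, ← pow_add]
        have : m + 1 + (m + 1) = (2 * m + 1) + 1 := by ring
        rw [this, pow_succ, inv_pow, hpow, inv_one, one_mul]
      have hbi : d * b * d⁻¹ = b⁻¹ := by
        rw [hbdef]
        have h1 : d * a⁻¹ ^ (m + 1) * d⁻¹ = (d * a⁻¹ * d⁻¹) ^ (m + 1) := by rw [conj_pow]
        have h2 : d * a⁻¹ * d⁻¹ = a := by
          calc d * a⁻¹ * d⁻¹ = (d * a * d⁻¹)⁻¹ := by group
            _ = a := by rw [hai, inv_inv]
        rw [h1, h2, inv_pow, inv_inv]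
      refine ⟨d * a, ?_, by rw [← mul_assoc, hdd, one_mul]⟩
      rw [hDeq]
      refine isConj_iff.mpr ⟨b, ?_⟩
      have h3 : d * b⁻¹ = b * d := by
        calc d * b⁻¹ = (d * b * d⁻¹)⁻¹ * d := by group
          _ = b * d := by rw [hbi, inv_inv]
      have h4 : d * a = a⁻¹ * d := by
        calc d * a = (d * a * d⁻¹) * d := by group
          _ = a⁻¹ * d := by rw [hai]
      calc b * d * b⁻¹ = b * (d * b⁻¹) := by group
        _ = b * (b * d) := by rw [h3]
        _ = (b * b) * d := by group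
        _ = d * a := by rw [hbb, h4]
    have hppow : ∀ a ∈ M, d * a * d⁻¹ = a⁻¹ → ∃ k : ℕ, orderOf a = p ^ k := by
      intro a ha hai
      obtain ⟨x, hx, rfl⟩ := hinvM a ha hai
      exact hprod d hdD x hx
    have hcount := Cfsg.Agent.S1618.card_inverted M d hdd hdM hModd
    obtain ⟨IM, hIMdef⟩ : ∃ n : ℕ, n = Nat.card {a : G // a ∈ M ∧ d * a * d⁻¹ = a⁻¹} := ⟨_, rfl⟩
    obtain ⟨cC, hcC⟩ : ∃ n : ℕ, n = Nat.card ↥(M ⊓ Subgroup.centralizer ({d} : Set G)) :=
      ⟨_, rfl⟩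
    rw [← hIMdef, ← hcC] at hcount
    have hMpos : 0 < Nat.card M := Nat.card_pos
    have hIMpos : IM ≠ 0 := by rintro rfl; rw [zero_mul] at hcount; omega
    have hcCpos : cC ≠ 0 := by rintro rfl; rw [mul_zero] at hcount; omega
    have hzn : Subgroup.zpowers d ≤ Subgroup.normalizer (M : Set G) := by
      rw [Subgroup.normalizer_eq_top_iff.mpr hnormal]; exact le_top
    have hzc : Nat.card (Subgroup.zpowers d) = 2 := by rw [Nat.card_zpowers, hd2]
    have hzcop : (Nat.card (Subgroup.zpowers d)).Coprime (Nat.card M) := by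
      rw [hzc]; exact Nat.coprime_two_left.mpr hModd
    have hzsolv : Group.IsSolvable ↥(Subgroup.zpowers d) := by
      apply Group.isSolvable_of_comm
      rintro ⟨a, ha⟩ ⟨b, hb⟩
      apply Subtype.ext
      obtain ⟨i, rfl⟩ := Subgroup.mem_zpowers_iff.mp ha
      obtain ⟨j, rfl⟩ := Subgroup.mem_zpowers_iff.mp hb
      exact zpow_mul_comm d i j
    have hIMp : ∀ q : ℕ, q.Prime → q ∣ IM → q = p := by
      intro q hq hqd
      by_contra hqp
      haveI : Fact q.Prime := ⟨hq⟩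
      obtain ⟨Q, hQ⟩ := Cfsg.Agent.Lib.helper8.exists_invariant_sylow (p := q)
        (Subgroup.zpowers d) M hzn hzcop (Or.inl hzsolv)
      obtain ⟨Q₀, hQ₀⟩ : ∃ Q₀ : Subgroup G, Q₀ = (Q : Subgroup M).map M.subtype := ⟨_, rfl⟩
      rw [← hQ₀] at hQ
      have hQ₀M : Q₀ ≤ M := by rw [hQ₀]; exact Subgroup.map_subtype_le _
      have hQ₀card : Nat.card Q₀ = q ^ (Nat.card M).factorization q := by
        rw [hQ₀]; exact Cfsg.Agent.Lib.helper8.card_sylow_map M Q
      have hQ₀p : IsPGroup q Q₀ := by rw [hQ₀]; exact Q.isPGroup'.map _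
      have hdQ : ∀ y ∈ Q₀, d * y * d⁻¹ ∈ Q₀ := fun y hy =>
        Cfsg.Agent.Lib.helper8.conj_mem_of_mem_normalizer (hQ (Subgroup.mem_zpowers d)) hy
      have hQC : Q₀ ≤ M ⊓ Subgroup.centralizer ({d} : Set G) := by
        intro y hy
        refine Subgroup.mem_inf.mpr ⟨hQ₀M hy, ?_⟩
        have ht : y * (d * y⁻¹ * d⁻¹) ∈ Q₀ := Q₀.mul_mem hy (hdQ _ (Q₀.inv_mem hy))
        have hti : d * (y * (d * y⁻¹ * d⁻¹)) * d⁻¹ = (y * (d * y⁻¹ * d⁻¹))⁻¹ := by
          rw [hdinv]
          have : (y * (d * y⁻¹ * d))⁻¹ = d⁻¹ * y * d⁻¹ * y⁻¹ := by group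
          rw [this, hdinv]
          calc d * (y * (d * y⁻¹ * d)) * d = d * y * d * y⁻¹ * (d * d) := by group
            _ = d * y * d * y⁻¹ := by rw [hdd, mul_one]
        obtain ⟨k, hk⟩ := hppow _ (hQ₀M ht) hti
        obtain ⟨j, hj⟩ := (IsPGroup.iff_orderOf.mp hQ₀p) ⟨_, ht⟩
        rw [Subgroup.orderOf_mk, hk] at hj
        have hk0 : k = 0 := by
          by_contra hk0
          have h1 : p ∣ q ^ j := by rw [← hj]; exact dvd_pow_self p hk0
          exact hqp ((Nat.prime_dvd_prime_iff_eq hp hq).mp (hp.dvd_of_dvd_pow h1)).symm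
        rw [hk0, pow_zero, orderOf_eq_one_iff] at hk
        rw [Subgroup.mem_centralizer_singleton_iff]
        calc y * d = y * (d * y⁻¹ * d⁻¹) * (d * y) := by group
          _ = d * y := by rw [hk, one_mul]
      have hdvd : q ^ (Nat.card M).factorization q ∣ cC := by
        rw [← hQ₀card, hcC]; exact Subgroup.card_dvd_of_le hQC
      have h1 : (Nat.card M).factorization q ≤ cC.factorization q :=
        (hq.pow_dvd_iff_le_factorization hcCpos).mp hdvd
      have h2 : (Nat.card M).factorization q = IM.factorization q + cC.factorization q := by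
        rw [hcount, Nat.factorization_mul hIMpos hcCpos]; rfl
      have h3 : 0 < IM.factorization q := hq.factorization_pos_of_dvd hIMpos hqd
      omega
    obtain ⟨n, hn⟩ : ∃ n : ℕ, IM = p ^ n :=
      ⟨_, Nat.eq_prime_pow_of_unique_prime_dvd hIMpos (fun {q} hq hqd => hIMp q hq hqd)⟩
    obtain ⟨P, hP⟩ := Cfsg.Agent.Lib.helper8.exists_invariant_sylow (p := p)
      (Subgroup.zpowers d) M hzn hzcop (Or.inl hzsolv)
    obtain ⟨P₀, hP₀⟩ : ∃ P₀ : Subgroup G, P₀ = (P : Subgroup M).map M.subtype := ⟨_, rfl⟩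
    rw [← hP₀] at hP
    have hP₀M : P₀ ≤ M := by rw [hP₀]; exact Subgroup.map_subtype_le _
    have hP₀card : Nat.card P₀ = p ^ (Nat.card M).factorization p := by
      rw [hP₀]; exact Cfsg.Agent.Lib.helper8.card_sylow_map M P
    have hP₀p : IsPGroup p P₀ := by rw [hP₀]; exact P.isPGroup'.map _
    have hdP : ∀ y ∈ P₀, d * y * d⁻¹ ∈ P₀ := fun y hy =>
      Cfsg.Agent.Lib.helper8.conj_mem_of_mem_normalizer (hP (Subgroup.mem_zpowers d)) hy
    have hP₀odd : Odd (Nat.card P₀) := Odd.of_dvd_nat hModd (Subgroup.card_dvd_of_le hP₀M)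
    have hcountP := Cfsg.Agent.S1618.card_inverted P₀ d hdd hdP hP₀odd
    have hCP : Nat.card ↥(P₀ ⊓ Subgroup.centralizer ({d} : Set G)) ∣ cC := by
      rw [hcC]; exact Subgroup.card_dvd_of_le (inf_le_inf_right _ hP₀M)
    obtain ⟨c, hc⟩ : ∃ c : ℕ, Nat.card ↥(P₀ ⊓ Subgroup.centralizer ({d} : Set G)) = p ^ c := by
      have : IsPGroup p ↥(P₀ ⊓ Subgroup.centralizer ({d} : Set G)) := hP₀p.to_le inf_le_left
      exact (IsPGroup.iff_card.mp this)
    have hc_le : c ≤ cC.factorization p := by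
      rw [hc] at hCP
      exact (hp.pow_dvd_iff_le_factorization hcCpos).mp hCP
    have hvM : (Nat.card M).factorization p = n + cC.factorization p := by
      rw [hcount, Nat.factorization_mul hIMpos hcCpos, hn, hp.factorization_pow]
      simp
    have hIPge : IM ≤ Nat.card {a : G // a ∈ P₀ ∧ d * a * d⁻¹ = a⁻¹} := by
      rw [hP₀card, hvM, hc] at hcountP
      have e : p ^ (n + cC.factorization p) = p ^ (n + cC.factorization p - c) * p ^ c := by
        rw [← pow_add]; congr 1; omega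
      rw [e] at hcountP
      have hX := Nat.eq_of_mul_eq_mul_right (pow_pos hp.pos c) hcountP
      rw [hn, ← hX]
      exact Nat.pow_le_pow_right hp.pos (by omega)
    have hinj : Function.Injective (fun a : {a : G // a ∈ P₀ ∧ d * a * d⁻¹ = a⁻¹} =>
        (⟨a.1, hP₀M a.2.1, a.2.2⟩ : {a : G // a ∈ M ∧ d * a * d⁻¹ = a⁻¹})) := by
      intro a b h
      have h' := congrArg (fun z : {a : G // a ∈ M ∧ d * a * d⁻¹ = a⁻¹} => (z : G)) h
      exact Subtype.ext h'
    have hbij := hinj.bijective_of_nat_card_le (by rw [← hIMdef]; exact hIPge)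
    have hMP : M ≤ P₀ := by
      rw [hMdef, Subgroup.closure_le]
      rintro a ⟨x, hx, rfl⟩
      obtain ⟨⟨a', ha'⟩, h⟩ := hbij.2 ⟨d * x, hIM x hx, hinvgen x hx⟩
      have : a' = d * x := congrArg Subtype.val h
      rw [← this]; exact ha'.1
    exact hP₀p.to_le hMP
  have hMle : M ≤ Cfsg.pCore p G := le_sSup ⟨hnormal, hMp⟩
  intro a ha b hb
  exact hMle (hab a ha b hb)

end Cfsg.Agent.S5560
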