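import Cfsg.Statements.S5562

set_option autoImplicit false
open Cfsg

namespace Cfsg.Agent.S5562

theorem sq_of_order_two {G : Type*} [Group G] {g : G} (h : orderOf g = 2) : g * g = 1 := by
  have := pow_orderOf_eq_one g
  rw [h, pow_two] at this
  exact this

theorem inv_of_sq {G : Type*} [Group G] {g : G} (h : g * g = 1) : g⁻¹ = g :=
  inv_eq_of_mul_eq_one_left h

theorem conj_pow_swap {G : Type*} [Group G] (e x : G) (n : ℕ) :
    x * (e * x) ^ n = (x * e) ^ n * x := by
  induction n with
  | zero => simp
  | succ n ih =>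
    rw [pow_succ, ← mul_assoc, ih, pow_succ]
    group

theorem conj_pow_swap' {G : Type*} [Group G] (e x : G) (n : ℕ) :
    e * (x * e) ^ n = (e * x) ^ n * e := conj_pow_swap x e n

/-- Let G be a finite group, d an involution of G whose conjugates pairwise have products of odd order, and x any involution of G. Then the conjugacy class of d is the disjoint union, over the conjugates a of d commuting with x, of the sets of conjugates of d commuting with ax: every conjugate of d commutes with ax for exactly one conjugate a of d that commutes with x. -/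
theorem result {G : Type*} [Group G] [Finite G] (d : G) (hd : orderOf d = 2)
    (hodd : ∀ a ∈ conjugatesOf d, ∀ b ∈ conjugatesOf d, Odd (orderOf (a * b)))
    (x : G) (hx : orderOf x = 2) :
    ∀ e ∈ conjugatesOf d,
      ∃! a : G, a ∈ conjugatesOf d ∧ Commute a x ∧ Commute e (a * x) := by
  intro e he
  have hxx : x * x = 1 := sq_of_order_two hx
  have hxi : x⁻¹ = x := inv_of_sq hxx
  have hconj_ord : ∀ a ∈ conjugatesOf d, a * a = 1 := by
    intro a ha
    obtain ⟨c, rfl⟩ := isConj_iff.mp ha
    have hdd : d * d = 1 := sq_of_order_two hd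
    calc c * d * c⁻¹ * (c * d * c⁻¹) = c * (d * d) * c⁻¹ := by group
      _ = 1 := by rw [hdd]; group
  have hee : e * e = 1 := hconj_ord e he
  have hei : e⁻¹ = e := inv_of_sq hee
  have hconj_mem : ∀ g : G, g * e * g⁻¹ ∈ conjugatesOf d := by
    intro g
    exact IsConj.trans he (isConj_iff.mpr ⟨g, rfl⟩)
  have hxex : x * e * x⁻¹ ∈ conjugatesOf d := hconj_mem x
  have hy : e * (x * e * x⁻¹) = (e * x) ^ 2 := by
    rw [hxi, pow_two]; group
  have hyodd : Odd (orderOf ((e * x) ^ 2)) := by
    rw [← hy]; exact hodd e he _ hxex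
  obtain ⟨j, hj⟩ := hyodd
  set m := orderOf ((e * x) ^ 2) with hm
  set u := (e * x) ^ m with hu
  have huu : u * u = 1 := by
    rw [hu, ← pow_add, ← two_mul, pow_mul, hm]
    exact pow_orderOf_eq_one _
  have hxe_inv : (e * x)⁻¹ = x * e := by
    rw [mul_inv_rev, hxi, hei]
  have hex_inv : (x * e)⁻¹ = e * x := by
    rw [mul_inv_rev, hxi, hei]
  -- x u = u x
  have hxu : x * u = u * x := by
    have h1 : x * u = (x * e) ^ m * x := conj_pow_swap e x m
    have h2 : (x * e) ^ m = u := by
      rw [← hxe_inv, inv_pow, ← hu]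
      exact inv_of_sq huu
    rw [h1, h2]
  have heu : e * u = u * e := by
    have h1 : e * (x * e) ^ m = (e * x) ^ m * e := conj_pow_swap' e x m
    have h2 : (x * e) ^ m = u := by
      rw [← hxe_inv, inv_pow, ← hu]
      exact inv_of_sq huu
    rw [h2] at h1
    exact h1
  have ha_mem : x * u ∈ conjugatesOf d := by
    have : x * u = (x * e) ^ j * e * ((x * e) ^ j)⁻¹ ∨ x * u = (x * e) ^ j * (x * e * x⁻¹) * ((x * e) ^ j)⁻¹ := by
      right
      rw [← inv_pow, hex_inv, hxi, hu, hj]
      have h1 : (x * e) ^ j * (x * e * x) = x * (e * x) ^ (j + 1) := by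
        rw [pow_succ, ← mul_assoc x, conj_pow_swap e x j]
        group
      rw [h1, mul_assoc, ← pow_add]
      congr 2
      omega
    rcases this with h | h
    · rw [h]; exact hconj_mem _
    · rw [h]
      have := hconj_mem ((x * e) ^ j * x)
      have h3 : (x * e) ^ j * x * e * ((x * e) ^ j * x)⁻¹ = (x * e) ^ j * (x * e * x⁻¹) * ((x * e) ^ j)⁻¹ := by
        group
      rw [h3] at this
      exact this
  refine ⟨x * u, ⟨ha_mem, ?_, ?_⟩, ?_⟩
  · show x * u * x = x * (x * u)
    rw [← mul_assoc, hxx, one_mul, hxu, mul_assoc, hxx, mul_one]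
  · show e * (x * u * x) = x * u * x * e
    have : x * u * x = u := by rw [hxu, mul_assoc, hxx, mul_one]
    rw [this, heu]
  · rintro a' ⟨ha', hca, hce⟩
    have haa : a' * a' = 1 := hconj_ord a' ha'
    have hca' : a' * x = x * a' := hca
    obtain ⟨t, ht⟩ : ∃ t, t = a' * x := ⟨_, rfl⟩
    have hce' : Commute e t := by rw [ht]; exact hce
    have htt : t * t = 1 := by
      rw [ht]
      calc a' * x * (a' * x) = a' * (x * a') * x := by group
        _ = a' * (a' * x) * x := by rw [hca']
        _ = (a' * a') * (x * x) := by group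
        _ = 1 := by rw [haa, hxx, one_mul]
    have hex : e * x = (e * a') * t := by
      rw [ht]
      calc e * x = e * (a' * a') * x := by rw [haa, mul_one]
        _ = e * a' * (a' * x) := by group
    have hat : a' * t = t * a' := by
      rw [ht]
      calc a' * (a' * x) = a' * (x * a') := by rw [hca']
        _ = a' * x * a' := by group
    have hcomm : Commute (e * a') t := by
      have h1 : Commute e t := hce'
      have h2 : Commute a' t := hat
      exact h1.mul_left h2
    have hpow : ∀ n : ℕ, (e * x) ^ n = (e * a') ^ n * t ^ n := by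
      intro n
      rw [hex, hcomm.mul_pow]
    have ht2 : t ^ 2 = 1 := by rw [pow_two, htt]
    have hkodd : Odd (orderOf (e * a')) := hodd e he a' ha'
    have hm_eq : m = orderOf (e * a') := by
      rw [hm, hpow 2, ht2, mul_one]
      apply Nat.Coprime.orderOf_pow
      exact Nat.coprime_two_right.mpr hkodd
    have hu_eq : u = t := by
      rw [hu, hpow m]
      have h1 : (e * a') ^ m = 1 := by rw [hm_eq]; exact pow_orderOf_eq_one _
      have h2 : t ^ m = t := by
        rw [hj, pow_succ, pow_mul, ht2, one_pow, one_mul]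
      rw [h1, h2, one_mul]
    calc a' = a' * x * x := by rw [mul_assoc, hxx, mul_one]
      _ = u * x := by rw [hu_eq, ht]
      _ = x * u := hxu.symm

end Cfsg.Agent.S5562
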