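import Cfsg.Statements.S5729
-- import your own Cfsg.Agent.* helpers here

set_option autoImplicit false
open Cfsg

namespace Cfsg.Agent.S5729

/-- Let a finite group G act faithfully and transitively on a set with n ≥ 3 points. Then either G is a Frobenius permutation group (Frobenius as a permutation group: transitive, some non-identity element fixes a point, and no non-identity element fixes two points) of order n(n − 1) and exactly |G|/n of its elements are derangements (fix no point), or the number of derangements is greater than |G|/n. -/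
theorem result {G Ω : Type*} [Group G] [Finite G] [MulAction G Ω] [FaithfulSMul G Ω] [Fintype Ω] (htr : MulAction.IsPretransitive G Ω) (hn : 3 ≤ Fintype.card Ω) :
    ((MulAction.IsPretransitive G Ω ∧ (∃ g : G, g ≠ 1 ∧ ∃ ω : Ω, g • ω = ω) ∧ ∀ g : G, g ≠ 1 → Nat.card (MulAction.fixedBy Ω g) ≤ 1) ∧ Nat.card G = Fintype.card Ω * (Fintype.card Ω - 1) ∧ Fintype.card Ω * Nat.card {g : G // ∀ ω : Ω, g • ω ≠ ω} = Nat.card G) ∨
    Nat.card G < Fintype.card Ω * Nat.card {g : G // ∀ ω : Ω, g • ω ≠ ω} := by
  classical
  have hfin : Fintype G := Fintype.ofFinite G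
  have hne : Nonempty Ω := Fintype.card_pos_iff.mp (by omega)
  have hA : ∑ g : G, Nat.card (MulAction.fixedBy Ω g) = Nat.card G := by
    have h := MulAction.sum_card_fixedBy_eq_card_orbits_mul_card_group G Ω
    have h1 : Fintype.card (Quotient (MulAction.orbitRel G Ω)) = 1 := by
      rw [Fintype.card_eq_one_iff_nonempty_unique]
      exact (MulAction.pretransitive_iff_unique_quotient_of_nonempty G Ω).mp htr
    rw [h1, one_mul] at h
    simp only [Nat.card_eq_fintype_card]
    exact h
  have hB : 2 * Nat.card G ≤ ∑ g : G, Nat.card (MulAction.fixedBy Ω g) ^ 2 := by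
    have h := MulAction.sum_card_fixedBy_eq_card_orbits_mul_card_group G (Ω × Ω)
    have h1 : ∀ g : G, Fintype.card (MulAction.fixedBy (Ω × Ω) g) =
        Nat.card (MulAction.fixedBy Ω g) ^ 2 := by
      intro g
      rw [sq, ← Nat.card_prod, ← Nat.card_eq_fintype_card]
      apply Nat.card_congr
      exact
        { toFun := fun x => (⟨x.1.1, congrArg Prod.fst x.2⟩, ⟨x.1.2, congrArg Prod.snd x.2⟩)
          invFun := fun y => ⟨(y.1.1, y.2.1), Prod.ext y.1.2 y.2.2⟩
          left_inv := fun x => rfl
          right_inv := fun y => rfl }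
    have h2 : 2 ≤ Fintype.card (Quotient (MulAction.orbitRel G (Ω × Ω))) := by
      obtain ⟨a, b, hab⟩ : ∃ a b : Ω, a ≠ b := Fintype.one_lt_card_iff.mp (by omega)
      apply Fintype.one_lt_card_iff.mpr
      refine ⟨Quotient.mk _ (a, a), Quotient.mk _ (a, b), ?_⟩
      intro heq
      obtain ⟨g, hg⟩ := Quotient.exact heq
      have h3 : g • a = a := congrArg Prod.fst hg
      have h4 : g • b = a := congrArg Prod.snd hg
      apply hab
      have h5 : g • a = g • b := by rw [h3, h4]
      exact (MulAction.injective g) h5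
    calc 2 * Nat.card G ≤ Fintype.card (Quotient (MulAction.orbitRel G (Ω × Ω))) * Nat.card G :=
          Nat.mul_le_mul_right _ h2
      _ = ∑ g : G, Nat.card (MulAction.fixedBy Ω g) ^ 2 := by
          rw [Nat.card_eq_fintype_card, ← h]
          exact Finset.sum_congr rfl (fun g _ => h1 g)
  have hle : ∀ g : G, Nat.card (MulAction.fixedBy Ω g) ≤ Fintype.card Ω := by
    intro g
    rw [← Nat.card_eq_fintype_card]
    exact Nat.card_le_card_of_injective _ Subtype.val_injective
  have hlt : ∀ g : G, g ≠ 1 → Nat.card (MulAction.fixedBy Ω g) < Fintype.card Ω := by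
    intro g hg
    obtain ⟨ω, hω⟩ : ∃ ω : Ω, g • ω ≠ ω := by
      by_contra hcon
      push Not at hcon
      apply hg
      apply FaithfulSMul.eq_of_smul_eq_smul (α := Ω)
      intro a
      rw [hcon a, one_smul]
    rw [Nat.card_eq_fintype_card]
    exact Fintype.card_subtype_lt (x := ω) hω
  have hzero : ∀ g : G, Nat.card (MulAction.fixedBy Ω g) = 0 ↔ ∀ ω : Ω, g • ω ≠ ω := by
    intro g
    rw [Nat.card_eq_fintype_card, Fintype.card_eq_zero_iff]
    constructor
    · intro h ω hω
      exact h.false ⟨ω, hω⟩
    · intro h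
      exact ⟨fun x => h x.1 x.2⟩
  have hd : Nat.card {g : G // ∀ ω : Ω, g • ω ≠ ω} =
      ∑ g : G, (if Nat.card (MulAction.fixedBy Ω g) = 0 then 1 else 0) := by
    rw [Nat.card_eq_fintype_card, Fintype.card_subtype, Finset.card_filter]
    apply Finset.sum_congr rfl
    intro g _
    simp only [hzero g]
  have hterm : ∀ g : G, Nat.card (MulAction.fixedBy Ω g) ^ 2 + Fintype.card Ω ≤
      (Fintype.card Ω + 1) * Nat.card (MulAction.fixedBy Ω g) +
        Fintype.card Ω * (if Nat.card (MulAction.fixedBy Ω g) = 0 then 1 else 0) := by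
    intro g
    by_cases h0 : Nat.card (MulAction.fixedBy Ω g) = 0
    · rw [if_pos h0, h0]
      omega
    · rw [if_neg h0]
      obtain ⟨k, hk⟩ : ∃ k, Nat.card (MulAction.fixedBy Ω g) = k + 1 :=
        Nat.exists_eq_succ_of_ne_zero h0
      obtain ⟨m, hm⟩ : ∃ m, Fintype.card Ω = Nat.card (MulAction.fixedBy Ω g) + m :=
        Nat.exists_eq_add_of_le (hle g)
      rw [hm, hk]
      nlinarith [Nat.zero_le (m * k)]
  have hsum := Finset.sum_le_sum (fun g (_ : g ∈ (Finset.univ : Finset G)) => hterm g)
  rw [Finset.sum_add_distrib, Finset.sum_add_distrib, ← Finset.mul_sum, ← Finset.mul_sum, ← hd,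
    hA, Finset.sum_const, Finset.card_univ, smul_eq_mul, ← Nat.card_eq_fintype_card (α := G)]
    at hsum
  have hNd : Nat.card G ≤ Fintype.card Ω * Nat.card {g : G // ∀ ω : Ω, g • ω ≠ ω} := by
    nlinarith
  rcases lt_or_eq_of_le hNd with hlt' | heq
  · right
    exact hlt'
  · left
    have hB2 : ∑ g : G, Nat.card (MulAction.fixedBy Ω g) ^ 2 = 2 * Nat.card G := by
      nlinarith
    have hsumeq : ∑ g : G, (Nat.card (MulAction.fixedBy Ω g) ^ 2 + Fintype.card Ω) =
        ∑ g : G, ((Fintype.card Ω + 1) * Nat.card (MulAction.fixedBy Ω g) +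
          Fintype.card Ω * (if Nat.card (MulAction.fixedBy Ω g) = 0 then 1 else 0)) := by
      rw [Finset.sum_add_distrib, Finset.sum_add_distrib, ← Finset.mul_sum, ← Finset.mul_sum,
        ← hd, hA, Finset.sum_const, Finset.card_univ, smul_eq_mul,
        ← Nat.card_eq_fintype_card (α := G), hB2]
      nlinarith
    have hterm_eq := (Finset.sum_eq_sum_iff_of_le
      (fun g (_ : g ∈ (Finset.univ : Finset G)) => hterm g)).mp hsumeq
    have hcases : ∀ g : G, g ≠ 1 → Nat.card (MulAction.fixedBy Ω g) ≤ 1 := by
      intro g hg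
      have h1 := hterm_eq g (Finset.mem_univ g)
      have h2 := hlt g hg
      by_cases h0 : Nat.card (MulAction.fixedBy Ω g) = 0
      · omega
      · rw [if_neg h0] at h1
        obtain ⟨k, hk⟩ : ∃ k, Nat.card (MulAction.fixedBy Ω g) = k + 1 :=
          Nat.exists_eq_succ_of_ne_zero h0
        obtain ⟨m, hm⟩ : ∃ m, Fintype.card Ω = Nat.card (MulAction.fixedBy Ω g) + m :=
          Nat.exists_eq_add_of_le (hle g)
        rw [hm, hk] at h1
        have h3 : m * k = 0 := by nlinarith
        rcases Nat.eq_zero_or_pos k with hk0 | hkpos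
        · omega
        · have hm0 : m = 0 := by
            rcases Nat.eq_zero_or_pos m with h | h
            · exact h
            · exfalso
              have := Nat.mul_pos h hkpos
              omega
          omega
    have hone : Nat.card (MulAction.fixedBy Ω (1 : G)) = Fintype.card Ω := by
      rw [← Nat.card_eq_fintype_card]
      apply Nat.card_congr
      exact
        { toFun := fun x => x.1
          invFun := fun y => ⟨y, one_smul G y⟩
          left_inv := fun x => rfl
          right_inv := fun y => rfl }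
    have hcardG : Nat.card G = Fintype.card Ω * (Fintype.card Ω - 1) := by
      have h1 : ∑ g : G, Nat.card (MulAction.fixedBy Ω g) ^ 2 =
          ∑ g : G, (Nat.card (MulAction.fixedBy Ω g) +
            (if g = 1 then Fintype.card Ω * (Fintype.card Ω - 1) else 0)) := by
        apply Finset.sum_congr rfl
        intro g _
        by_cases hg : g = 1
        · subst hg
          rw [if_pos rfl, hone]
          obtain ⟨k, hk⟩ : ∃ k, Fintype.card Ω = k + 1 := ⟨Fintype.card Ω - 1, by omega⟩
          rw [hk, Nat.add_sub_cancel]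
          ring
        · rw [if_neg hg, add_zero]
          have h2 := hcases g hg
          have h3 : Nat.card (MulAction.fixedBy Ω g) = 0 ∨ Nat.card (MulAction.fixedBy Ω g) = 1 := by
            omega
          rcases h3 with h3 | h3 <;> rw [h3] <;> norm_num
      rw [Finset.sum_add_distrib, hA, Finset.sum_ite_eq' Finset.univ (1 : G), if_pos (Finset.mem_univ _)] at h1
      omega
    refine ⟨⟨htr, ?_, hcases⟩, hcardG, heq.symm⟩
    by_contra hcon
    push Not at hcon
    have h1 : ∀ g : G, g ≠ 1 → Nat.card (MulAction.fixedBy Ω g) = 0 := by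
      intro g hg
      rw [hzero]
      intro ω
      exact hcon g hg ω
    have h2 : Nat.card G ≤ Nat.card {g : G // ∀ ω : Ω, g • ω ≠ ω} + 1 := by
      rw [hd, Nat.card_eq_fintype_card, ← Finset.card_univ, Finset.card_eq_sum_ones]
      have h3 : ∑ g : G, (1 : ℕ) ≤ ∑ g : G, ((if Nat.card (MulAction.fixedBy Ω g) = 0 then 1 else 0) +
          (if g = 1 then 1 else 0)) := by
        apply Finset.sum_le_sum
        intro g _
        by_cases hg : g = 1
        · rw [if_pos hg]
          omega
        · rw [if_pos (h1 g hg)]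
          omega
      rw [Finset.sum_add_distrib, Finset.sum_ite_eq' Finset.univ (1 : G), if_pos (Finset.mem_univ _)] at h3
      exact h3
    have h4 : 0 < Nat.card G := Nat.card_pos
    have h5 : 3 * Nat.card {g : G // ∀ ω : Ω, g • ω ≠ ω} ≤
        Fintype.card Ω * Nat.card {g : G // ∀ ω : Ω, g • ω ≠ ω} := Nat.mul_le_mul_right _ hn
    have h6 : 0 < Nat.card {g : G // ∀ ω : Ω, g • ω ≠ ω} := by
      rcases Nat.eq_zero_or_pos (Nat.card {g : G // ∀ ω : Ω, g • ω ≠ ω}) with h | h
      · rw [h, mul_zero] at heq
        omega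
      · exact h
    omega

end Cfsg.Agent.S5729
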