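import Cfsg.Statements.S5738
-- import your own Cfsg.Agent.* helpers here

set_option autoImplicit false
open Cfsg

namespace Cfsg.Agent.S5738

/-- Let F ⊆ K be finite fields with |F| = q and [K : F] = n ≥ 2, so |K| = q^n. Regard K as an n-dimensional F-vector space; the multiplications by non-zero elements of K form a cyclic subgroup of GL_F(K) of order q^n − 1 acting regularly on the non-zero vectors (a Singer group). Its normaliser in GL_F(K) has order n·(q^n − 1). -/
theorem result {F K : Type*} [Field F] [Fintype F] [Field K] [Fintype K] [Algebra F K] (n : ℕ) (hn : 2 ≤ n) (hdim : Module.finrank F K = n) :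
    Nat.card (Subgroup.normalizer (((Units.map ((Algebra.lmul F K : K →ₐ[F] Module.End F K) : K →* Module.End F K)).range : Subgroup (Module.End F K)ˣ) : Set (Module.End F K)ˣ)) = n * (Fintype.card K - 1) := by
  classical
  have hfin : Finite (Module.End F K) :=
    Finite.of_injective (fun f : Module.End F K => (f : K → K)) DFunLike.coe_injective
  set L : K →* Module.End F K := ((Algebra.lmul F K : K →ₐ[F] Module.End F K) : K →* Module.End F K) with hL
  set M : Subgroup (Module.End F K)ˣ := (Units.map L).range with hM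
  have hLapp : ∀ a x : K, L a x = a * x := fun a x => rfl
  have hunit : ∀ (c : Kˣ) (σ : K ≃ₐ[F] K), ∃ u : (Module.End F K)ˣ,
      (∀ x, (u : Module.End F K) x = c * σ x) ∧
      (∀ x, ((u⁻¹ : (Module.End F K)ˣ) : Module.End F K) x = σ.symm (((c⁻¹ : Kˣ) : K) * x)) := by
    intro c σ
    refine ⟨⟨Algebra.lmul F K c * σ.toLinearMap, σ.symm.toLinearMap * Algebra.lmul F K ((c⁻¹ : Kˣ) : K),
      ?_, ?_⟩, fun x => rfl, fun x => rfl⟩
    · apply LinearMap.ext; intro x
      show (c : K) * σ (σ.symm (((c⁻¹ : Kˣ) : K) * x)) = x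
      rw [AlgEquiv.apply_symm_apply, ← mul_assoc, Units.mul_inv, one_mul]
    · apply LinearMap.ext; intro x
      show σ.symm (((c⁻¹ : Kˣ) : K) * ((c : K) * σ x)) = x
      rw [← mul_assoc, Units.inv_mul, one_mul, AlgEquiv.symm_apply_apply]
  choose U hU1 hU2 using hunit
  have hmemN : ∀ c σ, U c σ ∈ Subgroup.normalizer (M : Set (Module.End F K)ˣ) := by
    intro c σ
    rw [Subgroup.mem_normalizer_iff]
    intro h
    constructor
    · rintro ⟨a, rfl⟩
      have ha0 : σ (a : K) ≠ 0 := by
        intro h0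
        exact a.ne_zero ((map_eq_zero σ).mp h0)
      refine ⟨Units.mk0 (σ (a : K)) ha0, ?_⟩
      apply Units.ext
      apply LinearMap.ext; intro x
      show L (σ (a : K)) x = (U c σ : Module.End F K) (L (a : K) ((((U c σ)⁻¹ : (Module.End F K)ˣ) : Module.End F K) x))
      rw [hU1, hU2, hLapp, hLapp, map_mul, AlgEquiv.apply_symm_apply]
      rw [mul_left_comm (c : K), ← mul_assoc (c : K), Units.mul_inv, one_mul]
    · rintro ⟨b, hb⟩
      have hb0 : σ.symm (b : K) ≠ 0 := by
        intro h0
        exact b.ne_zero ((map_eq_zero σ.symm).mp h0)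
      refine ⟨Units.mk0 (σ.symm (b : K)) hb0, ?_⟩
      have h1 : h = (U c σ)⁻¹ * Units.map L b * U c σ := by
        rw [hb]; group
      rw [h1]
      apply Units.ext
      apply LinearMap.ext; intro x
      show L (σ.symm (b : K)) x = (((U c σ)⁻¹ : (Module.End F K)ˣ) : Module.End F K) (L (b : K) ((U c σ : Module.End F K) x))
      rw [hU1, hU2, hLapp, hLapp]
      have e : ((c⁻¹ : Kˣ) : K) * ((b : K) * ((c : K) * σ x)) = (b : K) * σ x := by
        rw [mul_left_comm, ← mul_assoc ((c⁻¹ : Kˣ) : K), Units.inv_mul, one_mul]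
      rw [e, map_mul, AlgEquiv.symm_apply_apply]
  let ψ : Kˣ × (K ≃ₐ[F] K) → ↥(Subgroup.normalizer (M : Set (Module.End F K)ˣ)) :=
    fun p => ⟨U p.1 p.2, hmemN p.1 p.2⟩
  have hinj : Function.Injective ψ := by
    rintro ⟨c, σ⟩ ⟨c', σ'⟩ h
    have h1 : U c σ = U c' σ' := congrArg Subtype.val h
    have h2 : ∀ x, (c : K) * σ x = (c' : K) * σ' x := by
      intro x
      rw [← hU1, ← hU1, h1]
    have h3 : c = c' := by
      apply Units.ext
      have := h2 1
      rwa [map_one, map_one, mul_one, mul_one] at this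
    subst h3
    have h4 : σ = σ' := by
      apply AlgEquiv.ext
      intro x
      exact mul_left_cancel₀ c.ne_zero (h2 x)
    rw [h4]
  have hsurj : Function.Surjective ψ := by
    rintro ⟨g, hg⟩
    rw [Subgroup.mem_normalizer_iff] at hg
    have hg1 : (g : Module.End F K) 1 ≠ 0 := by
      intro h0
      have h1 : ((g⁻¹ : (Module.End F K)ˣ) : Module.End F K) ((g : Module.End F K) 1) = 1 := by
        rw [← Module.End.mul_apply, Units.inv_mul]; rfl
      rw [h0, map_zero] at h1
      exact zero_ne_one h1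
    -- the key property
    have hkey : ∀ a x : K, (g : Module.End F K) (a * x)
        = (g : Module.End F K) a * ((g : Module.End F K) 1)⁻¹ * (g : Module.End F K) x := by
      intro a x
      by_cases ha : a = 0
      · rw [ha, zero_mul, map_zero, zero_mul, zero_mul]
      obtain ⟨u, hu⟩ := (hg (Units.map L (Units.mk0 a ha))).mp ⟨_, rfl⟩
      have h1 : Units.map L u * g = g * Units.map L (Units.mk0 a ha) := by
        rw [hu]; group
      have h2 : ∀ y, (u : K) * (g : Module.End F K) y = (g : Module.End F K) (a * y) := by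
        intro y
        have := congrArg (fun T : (Module.End F K)ˣ => (T : Module.End F K) y) h1
        exact this
      have h3 := h2 1
      rw [mul_one] at h3
      rw [← h3, mul_assoc (u : K), mul_inv_cancel₀ hg1, mul_one, h2]
    let σ₀ : K →ₗ[F] K :=
      (Algebra.lmul F K (((g : Module.End F K) 1)⁻¹) : K →ₗ[F] K) ∘ₗ (g : Module.End F K)
    have hσ₀ : ∀ a, σ₀ a = (g : Module.End F K) a * ((g : Module.End F K) 1)⁻¹ := by
      intro a
      show ((g : Module.End F K) 1)⁻¹ * (g : Module.End F K) a = _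
      rw [mul_comm]
    let σ₁ : K →ₐ[F] K := AlgHom.ofLinearMap σ₀
      (by rw [hσ₀, mul_inv_cancel₀ hg1])
      (by
        intro x y
        rw [hσ₀, hσ₀, hσ₀, hkey x y]
        ring)
    have hσ₁ : ∀ a, σ₁ a = (g : Module.End F K) a * ((g : Module.End F K) 1)⁻¹ := hσ₀
    have hbij : Function.Bijective σ₁ := by
      have hi : Function.Injective σ₁ := (σ₁ : K →+* K).injective
      exact ⟨hi, Finite.injective_iff_surjective.mp hi⟩
    let σ : K ≃ₐ[F] K := AlgEquiv.ofBijective σ₁ hbij
    have hσ : ∀ a, σ a = (g : Module.End F K) a * ((g : Module.End F K) 1)⁻¹ := hσ₁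
    refine ⟨(Units.mk0 _ hg1, σ), ?_⟩
    apply Subtype.ext
    apply Units.ext
    apply LinearMap.ext; intro x
    show (U (Units.mk0 _ hg1) σ : Module.End F K) x = (g : Module.End F K) x
    rw [hU1, hσ, Units.val_mk0, mul_comm ((g : Module.End F K) x), ← mul_assoc,
      mul_inv_cancel₀ hg1, one_mul]
  rw [← Nat.card_congr (Equiv.ofBijective ψ ⟨hinj, hsurj⟩), Nat.card_prod, Nat.card_units,
    IsGalois.card_aut_eq_finrank, hdim, Nat.card_eq_fintype_card, mul_comm]

end Cfsg.Agent.S5738
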