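import Cfsg.Statements.S5739
-- import your own Cfsg.Agent.* helpers here

set_option autoImplicit false
open Cfsg

namespace Cfsg.Agent.S5739

/-- the set of `a ∈ K` whose multiplication map is conjugated by `g⁻¹` to a multiplication map. -/
noncomputable def singerField {F K : Type*} [Field F] [Field K] [Algebra F K]
    (g : (Module.End F K)ˣ) : IntermediateField F K :=
  { carrier := {a | ∃ b : K, ((g⁻¹ : (Module.End F K)ˣ) : Module.End F K) * Algebra.lmul F K a
        * (g : Module.End F K) = Algebra.lmul F K b}
    mul_mem' := by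
      rintro a a' ⟨b, hb⟩ ⟨b', hb'⟩
      refine ⟨b * b', ?_⟩
      rw [map_mul, map_mul, ← hb, ← hb']
      simp only [mul_assoc]
      rw [Units.mul_inv_cancel_left]
    one_mem' := ⟨1, by rw [map_one, mul_one, Units.inv_mul]⟩
    add_mem' := by
      rintro a a' ⟨b, hb⟩ ⟨b', hb'⟩
      exact ⟨b + b', by rw [map_add, map_add, mul_add, add_mul, hb, hb']⟩
    zero_mem' := ⟨0, by rw [map_zero, mul_zero, zero_mul]⟩
    algebraMap_mem' := by
      intro c
      refine ⟨algebraMap F K c, ?_⟩
      rw [AlgHom.commutes, mul_assoc, Algebra.commutes, ← mul_assoc, Units.inv_mul, one_mul]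
    inv_mem' := by
      rintro a ⟨b, hb⟩
      by_cases ha : a = 0
      · exact ⟨0, by rw [ha, inv_zero, map_zero, mul_zero, zero_mul]⟩
      have hb0 : b ≠ 0 := by
        rintro rfl
        rw [map_zero] at hb
        have h1 : Algebra.lmul F K a = 0 := by
          have := congrArg (fun T => (g : Module.End F K) * T * ((g⁻¹ : (Module.End F K)ˣ) : Module.End F K)) hb
          simp only [mul_zero, zero_mul] at this
          simpa [mul_assoc] using this
        exact ha (Algebra.lmul_injective (by rw [h1, map_zero]))
      refine ⟨b⁻¹, ?_⟩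
      have h1 : (((g⁻¹ : (Module.End F K)ˣ) : Module.End F K) * Algebra.lmul F K a⁻¹
          * (g : Module.End F K)) * Algebra.lmul F K b = 1 := by
        rw [← hb]
        simp only [mul_assoc]
        rw [Units.mul_inv_cancel_left, ← mul_assoc (Algebra.lmul F K a⁻¹), ← map_mul,
          inv_mul_cancel₀ ha, map_one, one_mul, Units.inv_mul]
      have h2 : Algebra.lmul F K b * Algebra.lmul F K b⁻¹ = 1 := by
        rw [← map_mul, mul_inv_cancel₀ hb0, map_one]
      calc ((g⁻¹ : (Module.End F K)ˣ) : Module.End F K) * Algebra.lmul F K a⁻¹ * (g : Module.End F K)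
          = (((g⁻¹ : (Module.End F K)ˣ) : Module.End F K) * Algebra.lmul F K a⁻¹ * (g : Module.End F K))
              * (Algebra.lmul F K b * Algebra.lmul F K b⁻¹) := by rw [h2, mul_one]
        _ = Algebra.lmul F K b⁻¹ := by rw [← mul_assoc, h1, one_mul] }

lemma mem_singerField {F K : Type*} [Field F] [Field K] [Algebra F K]
    (g : (Module.End F K)ˣ) (a : K) : a ∈ singerField g ↔
      ∃ b : K, ((g⁻¹ : (Module.End F K)ˣ) : Module.End F K) * Algebra.lmul F K a
        * (g : Module.End F K) = Algebra.lmul F K b := Iff.rfl

/-- Let F ⊆ K be finite fields with |F| = q and [K : F] = n ≥ 2, and let M ≤ GL_F(K) be the Singer group of multiplications by non-zero elements of K. If g ∈ GL_F(K) does not normalise M, then the order of M ∩ gMg⁻¹ divides q^r − 1 for some proper divisor r of n. In particular, when n is prime, that order divides q − 1. -/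
theorem result {F K : Type*} [Field F] [Fintype F] [Field K] [Fintype K] [Algebra F K] (n : ℕ) (hn : 2 ≤ n) (hdim : Module.finrank F K = n)
    (g : (Module.End F K)ˣ) (hg : ((Units.map ((Algebra.lmul F K : K →ₐ[F] Module.End F K) : K →* Module.End F K)).range).map (MulAut.conj g).toMonoidHom ≠ (Units.map ((Algebra.lmul F K : K →ₐ[F] Module.End F K) : K →* Module.End F K)).range) :
    ∃ r : ℕ, 1 ≤ r ∧ r ∣ n ∧ r < n ∧ Nat.card ↥(((Units.map ((Algebra.lmul F K : K →ₐ[F] Module.End F K) : K →* Module.End F K)).range).map (MulAut.conj g).toMonoidHom ⊓ (Units.map ((Algebra.lmul F K : K →ₐ[F] Module.End F K) : K →* Module.End F K)).range) ∣ Fintype.card F ^ r - 1 := by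
  classical
  have : Finite (Module.End F K) :=
    Finite.of_injective (fun f : Module.End F K => (f : K → K)) DFunLike.coe_injective
  set L : K →* Module.End F K := ((Algebra.lmul F K : K →ₐ[F] Module.End F K) : K →* Module.End F K) with hL
  set M : Subgroup (Module.End F K)ˣ := (Units.map L).range with hM
  set E := singerField g with hE
  have hLinj : Function.Injective (Units.map L) := by
    intro x y hxy
    apply Units.ext
    have := congrArg Units.val hxy
    exact Algebra.lmul_injective this
  -- bijection between Eˣ and the intersection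
  have hmemI : ∀ u : Eˣ, Units.map L (Units.map (algebraMap E K : E →* K) u) ∈
      M.map (MulAut.conj g).toMonoidHom ⊓ M := by
    intro u
    refine ⟨?_, ⟨_, rfl⟩⟩
    obtain ⟨b, hb⟩ := (mem_singerField g (u : E)).mp (u : E).2
    have hb0 : b ≠ 0 := by
      rintro rfl
      rw [map_zero] at hb
      have h1 : Algebra.lmul F K ((u : E) : K) = 0 := by
        have := congrArg (fun T => (g : Module.End F K) * T * ((g⁻¹ : (Module.End F K)ˣ) : Module.End F K)) hb
        simp only [mul_zero, zero_mul] at this
        simpa [mul_assoc] using this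
      have h2 : ((u : E) : K) = 0 := Algebra.lmul_injective (by rw [h1, map_zero])
      have h3 : (u : E) = 0 := Subtype.ext h2
      exact u.ne_zero h3
    refine ⟨Units.map L (Units.mk0 b hb0), ⟨_, rfl⟩, ?_⟩
    apply Units.ext
    show (g : Module.End F K) * Algebra.lmul F K b * ((g⁻¹ : (Module.End F K)ˣ) : Module.End F K)
      = Algebra.lmul F K ((u : E) : K)
    rw [← hb]
    simp only [mul_assoc]
    rw [Units.mul_inv, mul_one, Units.mul_inv_cancel_left]
  let f : Eˣ → ↥(M.map (MulAut.conj g).toMonoidHom ⊓ M) := fun u => ⟨_, hmemI u⟩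
  have hfinj : Function.Injective f := by
    intro u v huv
    have h1 := congrArg Subtype.val huv
    have h2 := hLinj h1
    have h3 := congrArg Units.val h2
    apply Units.ext
    exact Subtype.ext h3
  have hfsurj : Function.Surjective f := by
    rintro ⟨x, hx1, hx2⟩
    obtain ⟨u, rfl⟩ := hx2
    obtain ⟨y, ⟨w, rfl⟩, hy⟩ := hx1
    have hmem : (u : K) ∈ E := by
      rw [hE, mem_singerField]
      refine ⟨(w : K), ?_⟩
      have := congrArg Units.val hy
      have h4 : (g : Module.End F K) * Algebra.lmul F K (w : K) * ((g⁻¹ : (Module.End F K)ˣ) : Module.End F K)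
          = Algebra.lmul F K (u : K) := this
      rw [← h4]
      simp only [mul_assoc]
      rw [Units.inv_mul, mul_one, Units.inv_mul_cancel_left]
    have hne : (⟨(u : K), hmem⟩ : E) ≠ 0 := by
      intro h0
      exact u.ne_zero (congrArg Subtype.val h0)
    refine ⟨Units.mk0 ⟨(u : K), hmem⟩ hne, ?_⟩
    apply Subtype.ext
    apply Units.ext
    rfl
  have hcard : Nat.card ↥(M.map (MulAut.conj g).toMonoidHom ⊓ M) = Nat.card E - 1 := by
    rw [← Nat.card_congr (Equiv.ofBijective f ⟨hfinj, hfsurj⟩), Nat.card_units]
  have hcardE : Nat.card E = Fintype.card F ^ Module.finrank F E := by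
    have : Fintype E := Fintype.ofFinite E
    rw [Nat.card_eq_fintype_card, Module.card_eq_pow_finrank (K := F) (V := E)]
  have hmul : Module.finrank F E * Module.finrank E K = n := by
    rw [Module.finrank_mul_finrank, hdim]
  have hpos : 0 < Module.finrank F E := Module.finrank_pos
  refine ⟨Module.finrank F E, hpos, Dvd.intro _ hmul, ?_, ?_⟩
  · -- strictness
    rcases Nat.lt_or_ge (Module.finrank F E) n with h | h
    · exact h
    exfalso
    have hle : Module.finrank F E ≤ n := Nat.le_of_dvd (by omega) (Dvd.intro _ hmul)
    have heq : Module.finrank F E = Module.finrank F K := by omega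
    have htop : E = ⊤ := IntermediateField.eq_of_le_of_finrank_eq le_top (by
      rw [heq]; exact (IntermediateField.finrank_top').symm)
    apply hg
    have hsub : M ≤ M.map (MulAut.conj g).toMonoidHom := by
      rintro x ⟨u, rfl⟩
      have hu : (u : K) ∈ E := by rw [htop]; exact IntermediateField.mem_top
      obtain ⟨b, hb⟩ := (mem_singerField g (u : K)).mp hu
      have hb0 : b ≠ 0 := by
        rintro rfl
        rw [map_zero] at hb
        have h1 : Algebra.lmul F K (u : K) = 0 := by
          have := congrArg (fun T => (g : Module.End F K) * T * ((g⁻¹ : (Module.End F K)ˣ) : Module.End F K)) hb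
          simp only [mul_zero, zero_mul] at this
          simpa [mul_assoc] using this
        exact u.ne_zero (Algebra.lmul_injective (by rw [h1, map_zero]))
      refine ⟨Units.map L (Units.mk0 b hb0), ⟨_, rfl⟩, ?_⟩
      apply Units.ext
      show (g : Module.End F K) * Algebra.lmul F K b * ((g⁻¹ : (Module.End F K)ˣ) : Module.End F K)
        = Algebra.lmul F K (u : K)
      rw [← hb]
      simp only [mul_assoc]
      rw [Units.mul_inv, mul_one, Units.mul_inv_cancel_left]
    refine (Subgroup.eq_of_le_of_card_ge hsub ?_).symm
    rw [Subgroup.card_map_of_injective (MulAut.conj g).injective]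
  · rw [hcard, hcardE]

end Cfsg.Agent.S5739
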