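import Cfsg.Statements.S5747
-- import your own Cfsg.Agent.* helpers here

set_option autoImplicit false
open Cfsg

namespace Cfsg.Agent.S5747

section
variable (G : Type*) {Ω : Type*} [Group G] [MulAction G Ω]

def IsBase {t : ℕ} (f : Fin t → Ω) : Prop := ∀ g : G, (∀ i : Fin t, g • f i = f i) → g = 1

def Irr {t : ℕ} (f : Fin t → Ω) : Prop :=
  ∀ i : Fin t, ∃ g : G, (∀ j : Fin t, j < i → g • f j = f j) ∧ g • f i ≠ f i

def PropB : Prop :=
  ∀ (t : ℕ) (f : Fin t → Ω) (σ : Equiv.Perm (Fin t)), (IsBase G f ∧ Irr G f) →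
    (IsBase G (f ∘ σ) ∧ Irr G (f ∘ σ))

def SetB [DecidableEq Ω] (S : Finset Ω) : Prop :=
  (∀ g : G, (∀ x ∈ S, g • x = x) → g = 1) ∧
    ∀ x ∈ S, ∃ g : G, (∀ y ∈ S, y ≠ x → g • y = y) ∧ g • x ≠ x

variable {G}

theorem irr_snoc {t : ℕ} (f : Fin t → Ω) (y : Ω) (hf : Irr G f)
    (hy : ∃ g : G, (∀ j, g • f j = f j) ∧ g • y ≠ y) :
    Irr G (Fin.snoc (α := fun _ => Ω) f y) := by
  intro i
  induction i using Fin.lastCases with
  | last =>
    obtain ⟨g, hg1, hg2⟩ := hy
    refine ⟨g, ?_, ?_⟩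
    · intro j hj
      obtain ⟨j', rfl⟩ : ∃ j' : Fin t, j = j'.castSucc := ⟨j.castLT hj, by simp⟩
      rw [Fin.snoc_castSucc]
      exact hg1 j'
    · rw [Fin.snoc_last]
      exact hg2
  | cast i =>
    obtain ⟨g, hg1, hg2⟩ := hf i
    refine ⟨g, ?_, ?_⟩
    · intro j hj
      have hj' : j < Fin.last t := lt_of_lt_of_le hj (Fin.le_last _)
      obtain ⟨j', rfl⟩ : ∃ j' : Fin t, j = j'.castSucc := ⟨j.castLT hj', by simp⟩
      rw [Fin.snoc_castSucc]
      exact hg1 j' (Fin.castSucc_lt_castSucc_iff.mp hj)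
    · rw [Fin.snoc_castSucc]
      exact hg2

theorem sirr_of_propB (hB : PropB G (Ω := Ω)) {t : ℕ} (f : Fin t → Ω) (hf : IsBase G f ∧ Irr G f)
    (i : Fin t) : ∃ g : G, (∀ j, j ≠ i → g • f j = f j) ∧ g • f i ≠ f i := by
  obtain ⟨m, rfl⟩ : ∃ m, t = m + 1 := ⟨t - 1, by have := i.pos; omega⟩
  obtain ⟨-, h2⟩ := hB (m + 1) f (Equiv.swap i (Fin.last m)) hf
  obtain ⟨g, hg1, hg2⟩ := h2 (Fin.last m)
  simp only [Function.comp_apply, Equiv.swap_apply_right] at hg1 hg2
  refine ⟨g, ?_, hg2⟩
  intro j hj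
  have h3 : Equiv.swap i (Fin.last m) j ≠ Fin.last m := by
    intro h
    apply hj
    have h4 := congrArg (Equiv.swap i (Fin.last m)) h
    rw [Equiv.swap_apply_self, Equiv.swap_apply_right] at h4
    exact h4
  have h5 := hg1 (Equiv.swap i (Fin.last m) j) (Fin.lt_last_iff_ne_last.mpr h3)
  rw [Equiv.swap_apply_self] at h5
  exact h5

theorem inj_of_propB (hB : PropB G (Ω := Ω)) {t : ℕ} (f : Fin t → Ω) (hf : IsBase G f ∧ Irr G f) :
    Function.Injective f := by
  intro i j hij
  by_contra hne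
  obtain ⟨g, hg1, hg2⟩ := sirr_of_propB hB f hf i
  apply hg2
  have := hg1 j (fun h => hne h.symm)
  rw [hij]
  exact this

theorem setB_of_seq [DecidableEq Ω] (hB : PropB G (Ω := Ω)) {t : ℕ} (f : Fin t → Ω)
    (hf : IsBase G f ∧ Irr G f) (S : Finset Ω) (h1 : ∀ i, f i ∈ S) (h2 : ∀ y ∈ S, ∃ i, f i = y) :
    SetB G S := by
  constructor
  · intro g hg
    exact hf.1 g (fun i => hg _ (h1 i))
  · intro x hx
    obtain ⟨i, rfl⟩ := h2 x hx
    obtain ⟨g, hg1, hg2⟩ := sirr_of_propB hB f hf i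
    refine ⟨g, ?_, hg2⟩
    intro y hy hne
    obtain ⟨j, rfl⟩ := h2 y hy
    exact hg1 j (fun h => hne (by rw [h]))

theorem exchange [DecidableEq Ω] (hB : PropB G (Ω := Ω)) (A B : Finset Ω) (hA : SetB G A)
    (hBB : SetB G B) (a : Ω) (ha : a ∈ A) (haB : a ∉ B) :
    ∃ x ∈ B, x ∉ A ∧ SetB G (insert x (A.erase a)) := by
  obtain ⟨g₀, hg₀1, hg₀2⟩ := hA.2 a ha
  have hg₀ne : g₀ ≠ 1 := by
    intro h
    apply hg₀2
    rw [h, one_smul]
  obtain ⟨x, hxB, hx⟩ : ∃ x ∈ B, g₀ • x ≠ x := by
    by_contra hcon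
    push Not at hcon
    exact hg₀ne (hBB.1 g₀ hcon)
  have hxA : x ∉ A := by
    intro hxA
    by_cases hxa : x = a
    · rw [hxa] at hxB
      exact haB hxB
    · exact hx (hg₀1 x hxA hxa)
  refine ⟨x, hxB, hxA, ?_⟩
  set m := (A.erase a).card with hm
  let e₀ : Fin m ≃ ↥(A.erase a) := (A.erase a).equivFin.symm
  let f₀ : Fin m → Ω := fun i => (e₀ i : Ω)
  have hf₀mem : ∀ i, f₀ i ∈ A.erase a := fun i => (e₀ i).2
  have hf₀surj : ∀ y ∈ A.erase a, ∃ i, f₀ i = y := by
    intro y hy
    refine ⟨e₀.symm ⟨y, hy⟩, ?_⟩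
    change ((e₀ (e₀.symm ⟨y, hy⟩) : ↥(A.erase a)) : Ω) = y
    rw [Equiv.apply_symm_apply]
  have hf₀inj : Function.Injective f₀ := by
    intro i j hij
    exact e₀.injective (Subtype.ext hij)
  have hf₀irr : Irr G f₀ := by
    intro i
    have hmem := Finset.mem_erase.mp (hf₀mem i)
    obtain ⟨g, hg1, hg2⟩ := hA.2 (f₀ i) hmem.2
    refine ⟨g, ?_, hg2⟩
    intro j hj
    apply hg1 _ (Finset.mem_erase.mp (hf₀mem j)).2
    intro h
    exact (ne_of_lt hj) (hf₀inj h)
  have hf₁irr : Irr G (Fin.snoc (α := fun _ => Ω) f₀ x) := by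
    apply irr_snoc f₀ x hf₀irr
    refine ⟨g₀, ?_, hx⟩
    intro j
    have hmem := Finset.mem_erase.mp (hf₀mem j)
    exact hg₀1 _ hmem.2 hmem.1
  have hf₁mem : ∀ j, (Fin.snoc (α := fun _ => Ω) f₀ x : Fin (m + 1) → Ω) j ∈
      insert x (A.erase a) := by
    intro j
    induction j using Fin.lastCases with
    | last =>
      rw [Fin.snoc_last]
      exact Finset.mem_insert_self _ _
    | cast j =>
      rw [Fin.snoc_castSucc]
      exact Finset.mem_insert_of_mem (hf₀mem j)
  have hf₁surj : ∀ y ∈ insert x (A.erase a),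
      ∃ j, (Fin.snoc (α := fun _ => Ω) f₀ x : Fin (m + 1) → Ω) j = y := by
    intro y hy
    rcases Finset.mem_insert.mp hy with h | h
    · exact ⟨Fin.last m, by rw [Fin.snoc_last, h]⟩
    · obtain ⟨i, hi⟩ := hf₀surj y h
      exact ⟨i.castSucc, by rw [Fin.snoc_castSucc, hi]⟩
  have hbase : ∀ g : G, (∀ y ∈ insert x (A.erase a), g • y = y) → g = 1 := by
    intro g hg
    by_contra hne
    have hga : g • a ≠ a := by
      intro h
      apply hne
      apply hA.1
      intro y hy
      by_cases hya : y = a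
      · rw [hya]
        exact h
      · exact hg y (Finset.mem_insert_of_mem (Finset.mem_erase.mpr ⟨hya, hy⟩))
    have hf₂irr : Irr G (Fin.snoc (α := fun _ => Ω)
        (Fin.snoc (α := fun _ => Ω) f₀ x : Fin (m + 1) → Ω) a) := by
      apply irr_snoc _ a hf₁irr
      exact ⟨g, fun j => hg _ (hf₁mem j), hga⟩
    have hAfix : ∀ h : G, (∀ j : Fin (m + 1 + 1), j ≠ (Fin.last m).castSucc →
        h • (Fin.snoc (α := fun _ => Ω)
          (Fin.snoc (α := fun _ => Ω) f₀ x : Fin (m + 1) → Ω) a : Fin (m + 1 + 1) → Ω) j =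
          (Fin.snoc (α := fun _ => Ω)
          (Fin.snoc (α := fun _ => Ω) f₀ x : Fin (m + 1) → Ω) a : Fin (m + 1 + 1) → Ω) j) →
        h = 1 := by
      intro h hh
      apply hA.1
      intro y hy
      by_cases hya : y = a
      · have h1 := hh (Fin.last (m + 1)) (by
          intro h2
          have := congrArg Fin.val h2
          simp at this)
        rw [Fin.snoc_last] at h1
        rw [hya]
        exact h1
      · obtain ⟨i, hi⟩ := hf₀surj y (Finset.mem_erase.mpr ⟨hya, hy⟩)
        have h1 := hh (i.castSucc.castSucc) (by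
          intro h2
          have := congrArg Fin.val h2
          simp at this
          exact absurd this (ne_of_lt i.2))
        rw [Fin.snoc_castSucc, Fin.snoc_castSucc, hi] at h1
        exact h1
    have hf₂base : IsBase G (Fin.snoc (α := fun _ => Ω)
        (Fin.snoc (α := fun _ => Ω) f₀ x : Fin (m + 1) → Ω) a : Fin (m + 1 + 1) → Ω) := by
      intro h hh
      exact hAfix h (fun j _ => hh j)
    obtain ⟨h, hh1, hh2⟩ := sirr_of_propB hB _ ⟨hf₂base, hf₂irr⟩ (Fin.last m).castSucc
    apply hh2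
    rw [hAfix h hh1, one_smul]
  have hf₁base : IsBase G (Fin.snoc (α := fun _ => Ω) f₀ x : Fin (m + 1) → Ω) := by
    intro g hg
    apply hbase
    intro y hy
    obtain ⟨j, rfl⟩ := hf₁surj y hy
    exact hg j
  exact setB_of_seq hB _ ⟨hf₁base, hf₁irr⟩ _ hf₁mem hf₁surj

theorem card_le_of_propB [DecidableEq Ω] (hB : PropB G (Ω := Ω)) (m : ℕ) :
    ∀ A B : Finset Ω, SetB G A → SetB G B → (A \ B).card = m → B.card ≤ A.card := by
  induction m with
  | zero =>
    intro A B hA hBB h0
    have hsub : A ⊆ B := by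
      rw [Finset.card_eq_zero, Finset.sdiff_eq_empty_iff_subset] at h0
      exact h0
    apply Finset.card_le_card
    intro y hy
    by_contra hyA
    obtain ⟨g, hg1, hg2⟩ := hBB.2 y hy
    apply hg2
    have hg : g = 1 := by
      apply hA.1
      intro z hz
      apply hg1 z (hsub hz)
      intro h
      rw [h] at hz
      exact hyA hz
    rw [hg, one_smul]
  | succ m ih =>
    intro A B hA hBB hcard
    obtain ⟨a, ha⟩ : (A \ B).Nonempty := Finset.card_pos.mp (by omega)
    obtain ⟨haA, haB⟩ := Finset.mem_sdiff.mp ha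
    obtain ⟨x, hxB, hxA, hA'⟩ := exchange hB A B hA hBB a haA haB
    have h1 : (insert x (A.erase a)) \ B = (A \ B).erase a := by
      ext y
      simp only [Finset.mem_sdiff, Finset.mem_insert, Finset.mem_erase]
      constructor
      · rintro ⟨h | ⟨h1, h2⟩, h3⟩
        · rw [h] at h3
          exact absurd hxB h3
        · exact ⟨h1, h2, h3⟩
      · rintro ⟨h1, h2, h3⟩
        exact ⟨Or.inr ⟨h1, h2⟩, h3⟩
    have h2 : ((insert x (A.erase a)) \ B).card = m := by
      rw [h1, Finset.card_erase_of_mem ha, hcard]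
      rfl
    have h3 := ih _ B hA' hBB h2
    have h4 : (insert x (A.erase a)).card = A.card := by
      rw [Finset.card_insert_of_notMem (fun h => hxA (Finset.mem_of_mem_erase h)),
        Finset.card_erase_of_mem haA]
      have := Finset.card_pos.mpr ⟨a, haA⟩
      omega
    rw [h4] at h3
    exact h3

end


/-- Let a finite group G act on a finite set Ω. An irredundant base is a sequence of points ω₁, …, ω_t whose pointwise stabiliser is trivial and in which each ω_i is moved by some element fixing ω₁, …, ω_{i−1}. Then all irredundant bases have the same length if and only if every reordering of an irredundant base is again an irredundant base. -/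
theorem result {G Ω : Type*} [Group G] [Finite G] [MulAction G Ω] [Fintype Ω] :
    (∀ (t t' : ℕ) (f : Fin t → Ω) (f' : Fin t' → Ω), ((∀ g : G, (∀ i : Fin t, g • f i = f i) → g = 1) ∧ ∀ i : Fin t, ∃ g : G, (∀ j : Fin t, j < i → g • f j = f j) ∧ g • f i ≠ f i) → ((∀ g : G, (∀ i : Fin t', g • f' i = f' i) → g = 1) ∧ ∀ i : Fin t', ∃ g : G, (∀ j : Fin t', j < i → g • f' j = f' j) ∧ g • f' i ≠ f' i) → t = t') ↔
    (∀ (t : ℕ) (f : Fin t → Ω) (σ : Equiv.Perm (Fin t)), ((∀ g : G, (∀ i : Fin t, g • f i = f i) → g = 1) ∧ ∀ i : Fin t, ∃ g : G, (∀ j : Fin t, j < i → g • f j = f j) ∧ g • f i ≠ f i) → ((∀ g : G, (∀ i : Fin t, g • (f ∘ σ) i = (f ∘ σ) i) → g = 1) ∧ ∀ i : Fin t, ∃ g : G, (∀ j : Fin t, j < i → g • (f ∘ σ) j = (f ∘ σ) j) ∧ g • (f ∘ σ) i ≠ (f ∘ σ) i)) := by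
  classical
  constructor
  · intro hA t f σ hf
    have hbase : IsBase G (f ∘ σ) := by
      intro g hg
      apply hf.1
      intro i
      have := hg (σ.symm i)
      simpa using this
    refine ⟨hbase, ?_⟩
    set f' : Fin t → Ω := f ∘ σ with hf'
    set I : Finset (Fin t) := Finset.univ.filter
      (fun i => ∃ g : G, (∀ j : Fin t, j < i → g • f' j = f' j) ∧ g • f' i ≠ f' i) with hI
    have hbase'' : IsBase G (f' ∘ (I.orderEmbOfFin rfl)) := by
      intro g hg
      apply hbase
      intro i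
      induction i using WellFoundedLT.induction with
      | ind i ih =>
        by_cases hiI : i ∈ I
        · have hr : i ∈ Set.range (I.orderEmbOfFin rfl) := by
            rw [Finset.range_orderEmbOfFin]
            exact hiI
          obtain ⟨i', rfl⟩ := hr
          exact hg i'
        · by_contra hne
          apply hiI
          rw [hI, Finset.mem_filter]
          exact ⟨Finset.mem_univ _, g, fun j hj => ih j hj, hne⟩
    have hirr'' : Irr G (f' ∘ (I.orderEmbOfFin rfl)) := by
      intro i'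
      have hmem := Finset.orderEmbOfFin_mem I rfl i'
      obtain ⟨g, hg1, hg2⟩ := (Finset.mem_filter.mp hmem).2
      refine ⟨g, ?_, hg2⟩
      intro j' hj'
      exact hg1 _ ((I.orderEmbOfFin rfl).lt_iff_lt.mpr hj')
    have hcard : t = I.card := hA t I.card f (f' ∘ (I.orderEmbOfFin rfl)) hf ⟨hbase'', hirr''⟩
    have huniv : I = Finset.univ := by
      apply Finset.eq_univ_of_card
      rw [Fintype.card_fin]
      exact hcard.symm
    intro i
    have hi : i ∈ I := by
      rw [huniv]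
      exact Finset.mem_univ i
    rw [hI, Finset.mem_filter] at hi
    exact hi.2
  · intro hB t t' f f' hf hf'
    have hB' : PropB G (Ω := Ω) := hB
    have h1 := setB_of_seq hB' f hf (Finset.univ.image f)
      (fun i => Finset.mem_image_of_mem f (Finset.mem_univ i))
      (fun y hy => by
        obtain ⟨i, -, hi⟩ := Finset.mem_image.mp hy
        exact ⟨i, hi⟩)
    have h2 := setB_of_seq hB' f' hf' (Finset.univ.image f')
      (fun i => Finset.mem_image_of_mem f' (Finset.mem_univ i))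
      (fun y hy => by
        obtain ⟨i, -, hi⟩ := Finset.mem_image.mp hy
        exact ⟨i, hi⟩)
    have hc1 : (Finset.univ.image f).card = t := by
      rw [Finset.card_image_of_injective _ (inj_of_propB hB' f hf), Finset.card_univ,
        Fintype.card_fin]
    have hc2 : (Finset.univ.image f').card = t' := by
      rw [Finset.card_image_of_injective _ (inj_of_propB hB' f' hf'), Finset.card_univ,
        Fintype.card_fin]
    have h3 := card_le_of_propB hB' _ _ _ h1 h2 rfl
    have h4 := card_le_of_propB hB' _ _ _ h2 h1 rfl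
    rw [hc1, hc2] at h3 h4
    omega

end Cfsg.Agent.S5747
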