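import Cfsg.Statements.S5754
-- import your own Cfsg.Agent.* helpers here

set_option autoImplicit false
open Cfsg

namespace Cfsg.Agent.S5754

noncomputable def rlin {F V : Type*} [Field F] [AddCommGroup V] [Module F V]
    (Q : QuadraticForm F V) (a : V) : V →ₗ[F] V :=
  LinearMap.id - (((Q a)⁻¹ • (QuadraticMap.polarBilin Q).flip a)).smulRight a

lemma rlin_apply {F V : Type*} [Field F] [AddCommGroup V] [Module F V]
    (Q : QuadraticForm F V) (a x : V) :
    rlin Q a x = x - ((Q a)⁻¹ * QuadraticMap.polar Q x a) • a := by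
  simp [rlin]

lemma q_sub {F V : Type*} [Field F] [AddCommGroup V] [Module F V]
    (Q : QuadraticForm F V) (x y : V) :
    Q (x - y) = Q x + Q y - QuadraticMap.polar Q x y := by
  have h := QuadraticMap.map_add Q x (-y)
  rw [QuadraticMap.polar_neg_right, QuadraticMap.map_neg] at h
  rw [sub_eq_add_neg, h]; ring

lemma q_rlin {F V : Type*} [Field F] [AddCommGroup V] [Module F V]
    (Q : QuadraticForm F V) (a : V) (ha : Q a ≠ 0) (x : V) : Q (rlin Q a x) = Q x := by
  rw [rlin_apply, q_sub, QuadraticMap.map_smul, QuadraticMap.polar_smul_right]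
  simp only [smul_eq_mul]
  field_simp
  ring

lemma rlin_invol {F V : Type*} [Field F] [AddCommGroup V] [Module F V]
    (Q : QuadraticForm F V) (a : V) (ha : Q a ≠ 0) : Function.Involutive (rlin Q a) := by
  intro x
  rw [rlin_apply, rlin_apply, QuadraticMap.polar_sub_left, QuadraticMap.polar_smul_left,
    QuadraticMap.polar_self]
  simp only [smul_eq_mul, nsmul_eq_mul, Nat.cast_ofNat]
  have : (Q a)⁻¹ * (QuadraticMap.polar Q x a - (Q a)⁻¹ * QuadraticMap.polar Q x a * (2 * Q a))
      = - ((Q a)⁻¹ * QuadraticMap.polar Q x a) := by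
    field_simp
    ring
  rw [this]
  module

noncomputable def rEquiv {F V : Type*} [Field F] [AddCommGroup V] [Module F V]
    (Q : QuadraticForm F V) (a : V) (ha : Q a ≠ 0) : Q.IsometryEquiv Q :=
  { LinearEquiv.ofInvolutive (rlin Q a) (rlin_invol Q a ha) with
    map_app' := fun m => q_rlin Q a ha m }

lemma rEquiv_apply {F V : Type*} [Field F] [AddCommGroup V] [Module F V]
    (Q : QuadraticForm F V) (a : V) (ha : Q a ≠ 0) (x : V) :
    rEquiv Q a ha x = x - ((Q a)⁻¹ * QuadraticMap.polar Q x a) • a := rlin_apply Q a x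

lemma polar_iso {F V : Type*} [Field F] [AddCommGroup V] [Module F V]
    (Q : QuadraticForm F V) (φ : Q.IsometryEquiv Q) (x y : V) :
    QuadraticMap.polar Q (φ x) (φ y) = QuadraticMap.polar Q x y := by
  unfold QuadraticMap.polar
  rw [← map_add, QuadraticMap.IsometryEquiv.map_app, QuadraticMap.IsometryEquiv.map_app,
    QuadraticMap.IsometryEquiv.map_app]

lemma key {F V : Type*} [Field F] [AddCommGroup V] [Module F V]
    (Q : QuadraticForm F V) (hQ : Q.Anisotropic) (n : ℕ) (v v' : Fin n → V)
    (hq : ∀ i, Q (v i) = Q (v' i))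
    (hp : ∀ i j, QuadraticMap.polar Q (v i) (v j) = QuadraticMap.polar Q (v' i) (v' j)) :
    ∀ k, k ≤ n → ∃ φ : Q.IsometryEquiv Q, ∀ i : Fin n, i.val < k → φ (v i) = v' i := by
  intro k
  induction k with
  | zero => intro _; exact ⟨QuadraticMap.IsometryEquiv.refl Q, fun i hi => absurd hi (Nat.not_lt_zero _)⟩
  | succ k ih =>
    intro hk
    obtain ⟨φ, hφ⟩ := ih (by omega)
    set j : Fin n := ⟨k, by omega⟩ with hj
    by_cases hx : φ (v j) = v' j
    · refine ⟨φ, fun i hi => ?_⟩
      rcases Nat.lt_succ_iff_lt_or_eq.mp hi with h | h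
      · exact hφ i h
      · have : i = j := Fin.ext h
        rw [this]; exact hx
    · have ha : Q (φ (v j) - v' j) ≠ 0 := by
        intro h0
        exact hx (sub_eq_zero.mp (hQ _ h0))
      have hQx : Q (φ (v j)) = Q (v' j) := by
        rw [QuadraticMap.IsometryEquiv.map_app]; exact hq j
      refine ⟨φ.trans (rEquiv Q _ ha), fun i hi => ?_⟩
      show rEquiv Q _ ha (φ (v i)) = v' i
      rcases Nat.lt_succ_iff_lt_or_eq.mp hi with h | h
      · rw [hφ i h, rEquiv_apply, QuadraticMap.polar_sub_right]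
        have h1 : QuadraticMap.polar Q (v' i) (φ (v j)) = QuadraticMap.polar Q (v' i) (v' j) := by
          have h0 := polar_iso Q φ (v i) (v j)
          rw [hφ i h] at h0
          rw [h0, hp]
        rw [h1, sub_self, mul_zero, zero_smul, sub_zero]
      · have : i = j := Fin.ext h
        rw [this, rEquiv_apply, QuadraticMap.polar_sub_right, QuadraticMap.polar_self]
        have h2 : Q (φ (v j) - v' j) = 2 * Q (φ (v j)) - QuadraticMap.polar Q (φ (v j)) (v' j) := by
          rw [q_sub, ← hQx]; ring
        have h3 : (Q (φ (v j) - v' j))⁻¹ * (2 • Q (φ (v j)) - QuadraticMap.polar Q (φ (v j)) (v' j)) = 1 := by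
          rw [nsmul_eq_mul, Nat.cast_ofNat, ← h2]
          exact inv_mul_cancel₀ ha
        rw [h3, one_smul]; abel

/-- Let V be a finite-dimensional vector space over a finite field F carrying an anisotropic quadratic form Q (Q(v) = 0 only for v = 0). Then the group of all maps v ↦ φ(v) + c, with φ an isometry of Q and c ∈ V, acts on V as a binary permutation group: given n ≥ 2 and two n-tuples u, u' of vectors such that every pair of corresponding entries of u is carried to that of u' by such a map, one such map carries u to u'. -/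
theorem result {F V : Type*} [Field F] [Finite F] [AddCommGroup V] [Module F V] [Module.Finite F V]
    (Q : QuadraticForm F V) (hQ : Q.Anisotropic) (n : ℕ) (hn : 2 ≤ n) (u u' : Fin n → V)
    (h2 : ∀ i j : Fin n, i ≠ j → ∃ (φ : Q.IsometryEquiv Q) (c : V), φ (u i) + c = u' i ∧ φ (u j) + c = u' j) :
    ∃ (φ : Q.IsometryEquiv Q) (c : V), ∀ i, φ (u i) + c = u' i := by
  have hd : ∀ i j : Fin n, Q (u i - u j) = Q (u' i - u' j) := by
    intro i j
    by_cases hij : i = j
    · rw [hij, sub_self, sub_self]
    · obtain ⟨φ, c, h1, h2'⟩ := h2 i j hij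
      rw [← h1, ← h2', add_sub_add_right_eq_sub, ← map_sub, QuadraticMap.IsometryEquiv.map_app]
  set i₀ : Fin n := ⟨0, by omega⟩ with hi₀
  have hq : ∀ i, Q (u i - u i₀) = Q (u' i - u' i₀) := fun i => hd i i₀
  have hp : ∀ i j, QuadraticMap.polar Q (u i - u i₀) (u j - u i₀)
      = QuadraticMap.polar Q (u' i - u' i₀) (u' j - u' i₀) := by
    intro i j
    have e1 := q_sub Q (u i - u i₀) (u j - u i₀)
    have e2 := q_sub Q (u' i - u' i₀) (u' j - u' i₀)
    rw [sub_sub_sub_cancel_right] at e1 e2
    have := hd i j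
    have a1 := hq i
    have a2 := hq j
    linear_combination e1 - e2 - this + a1 + a2
  obtain ⟨φ, hφ⟩ := key Q hQ n (fun i => u i - u i₀) (fun i => u' i - u' i₀) hq hp n le_rfl
  refine ⟨φ, u' i₀ - φ (u i₀), fun i => ?_⟩
  have := hφ i i.isLt
  simp only [map_sub] at this
  rw [← sub_eq_zero]
  rw [sub_eq_iff_eq_add] at this
  rw [this]; abel

end Cfsg.Agent.S5754
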