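import Mathlib
import Cfsg.Statements.S5763

set_option autoImplicit false
open Cfsg

namespace Cfsg.Agent.S5763

/-- index of the pair containing a point -/
def pr (i : Fin 8) : ℕ := i.val / 2

/-- index of the block of four containing a point -/
def bk (i : Fin 8) : ℕ := i.val / 4

/-- the function with given values -/
def sel (a0 a1 a2 a3 a4 a5 a6 a7 : Fin 8) (i : Fin 8) : Fin 8 :=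
  match i with
  | 0 => a0 | 1 => a1 | 2 => a2 | 3 => a3 | 4 => a4 | 5 => a5 | 6 => a6 | 7 => a7

theorem sel_eq (y : Fin 8 → Fin 8) : sel (y 0) (y 1) (y 2) (y 3) (y 4) (y 5) (y 6) (y 7) = y := by
  funext i
  fin_cases i <;> rfl

/-- `c` preserves the pairs and blocks pulled back along `a` -/
def K (c : Fin 8 → Fin 8) (a : Fin 8 → Fin 8) : Prop :=
  ∀ i j : Fin 8, (pr (a i) = pr (a j) ↔ pr (a (c i)) = pr (a (c j))) ∧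
    (bk (a i) = bk (a j) ↔ bk (a (c i)) = bk (a (c j)))

instance K.instDecidable (c a : Fin 8 → Fin 8) : Decidable (K c a) := by
  unfold K
  infer_instance

theorem perm_apply_inv (p : Equiv.Perm (Fin 8)) (k : Fin 8) : p (p⁻¹ k) = k := by
  rw [← Equiv.Perm.mul_apply, mul_inv_cancel, Equiv.Perm.one_apply]

/-- the permutations preserving the pairs and the blocks -/
def S : Subgroup (Equiv.Perm (Fin 8)) where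
  carrier := {p | K p id}
  one_mem' := fun i j => ⟨Iff.rfl, Iff.rfl⟩
  mul_mem' := by
    intro p q hp hq i j
    exact ⟨(hq i j).1.trans (hp (q i) (q j)).1, (hq i j).2.trans (hp (q i) (q j)).2⟩
  inv_mem' := by
    intro p hp i j
    have h := hp (p⁻¹ i) (p⁻¹ j)
    simp only [id, perm_apply_inv] at h
    exact ⟨h.1.symm, h.2.symm⟩

theorem mem_S (p : Equiv.Perm (Fin 8)) : p ∈ S ↔ K p id := Iff.rfl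

/-- tuples, as a type without enumeration -/
structure T8 where
  a0 : Fin 8
  a1 : Fin 8
  a2 : Fin 8
  a3 : Fin 8
  a4 : Fin 8
  a5 : Fin 8
  a6 : Fin 8
  a7 : Fin 8
  deriving DecidableEq

/-- the function of a tuple -/
def T8.fn (t : T8) : Fin 8 → Fin 8 := sel t.a0 t.a1 t.a2 t.a3 t.a4 t.a5 t.a6 t.a7

/-- the tuple of a permutation -/
def enc (p : Equiv.Perm (Fin 8)) : T8 := ⟨p 0, p 1, p 2, p 3, p 4, p 5, p 6, p 7⟩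

theorem enc_fn (p : Equiv.Perm (Fin 8)) : (enc p).fn = ⇑p := sel_eq _

theorem enc_injective : Function.Injective enc := by
  intro p q h
  apply DFunLike.coe_injective
  rw [← enc_fn, ← enc_fn, h]

/-- the elements of `S` -/
def L : List T8 :=
  [⟨0, 1, 2, 3, 4, 5, 6, 7⟩,
  ⟨0, 1, 2, 3, 4, 5, 7, 6⟩,
  ⟨0, 1, 2, 3, 5, 4, 6, 7⟩,
  ⟨0, 1, 2, 3, 5, 4, 7, 6⟩,
  ⟨0, 1, 2, 3, 6, 7, 4, 5⟩,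
  ⟨0, 1, 2, 3, 6, 7, 5, 4⟩,
  ⟨0, 1, 2, 3, 7, 6, 4, 5⟩,
  ⟨0, 1, 2, 3, 7, 6, 5, 4⟩,
  ⟨0, 1, 3, 2, 4, 5, 6, 7⟩,
  ⟨0, 1, 3, 2, 4, 5, 7, 6⟩,
  ⟨0, 1, 3, 2, 5, 4, 6, 7⟩,
  ⟨0, 1, 3, 2, 5, 4, 7, 6⟩,
  ⟨0, 1, 3, 2, 6, 7, 4, 5⟩,
  ⟨0, 1, 3, 2, 6, 7, 5, 4⟩,
  ⟨0, 1, 3, 2, 7, 6, 4, 5⟩,
  ⟨0, 1, 3, 2, 7, 6, 5, 4⟩,
  ⟨1, 0, 2, 3, 4, 5, 6, 7⟩,
  ⟨1, 0, 2, 3, 4, 5, 7, 6⟩,
  ⟨1, 0, 2, 3, 5, 4, 6, 7⟩,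
  ⟨1, 0, 2, 3, 5, 4, 7, 6⟩,
  ⟨1, 0, 2, 3, 6, 7, 4, 5⟩,
  ⟨1, 0, 2, 3, 6, 7, 5, 4⟩,
  ⟨1, 0, 2, 3, 7, 6, 4, 5⟩,
  ⟨1, 0, 2, 3, 7, 6, 5, 4⟩,
  ⟨1, 0, 3, 2, 4, 5, 6, 7⟩,
  ⟨1, 0, 3, 2, 4, 5, 7, 6⟩,
  ⟨1, 0, 3, 2, 5, 4, 6, 7⟩,
  ⟨1, 0, 3, 2, 5, 4, 7, 6⟩,
  ⟨1, 0, 3, 2, 6, 7, 4, 5⟩,
  ⟨1, 0, 3, 2, 6, 7, 5, 4⟩,
  ⟨1, 0, 3, 2, 7, 6, 4, 5⟩,
  ⟨1, 0, 3, 2, 7, 6, 5, 4⟩,
  ⟨2, 3, 0, 1, 4, 5, 6, 7⟩,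
  ⟨2, 3, 0, 1, 4, 5, 7, 6⟩,
  ⟨2, 3, 0, 1, 5, 4, 6, 7⟩,
  ⟨2, 3, 0, 1, 5, 4, 7, 6⟩,
  ⟨2, 3, 0, 1, 6, 7, 4, 5⟩,
  ⟨2, 3, 0, 1, 6, 7, 5, 4⟩,
  ⟨2, 3, 0, 1, 7, 6, 4, 5⟩,
  ⟨2, 3, 0, 1, 7, 6, 5, 4⟩,
  ⟨2, 3, 1, 0, 4, 5, 6, 7⟩,
  ⟨2, 3, 1, 0, 4, 5, 7, 6⟩,
  ⟨2, 3, 1, 0, 5, 4, 6, 7⟩,
  ⟨2, 3, 1, 0, 5, 4, 7, 6⟩,
  ⟨2, 3, 1, 0, 6, 7, 4, 5⟩,
  ⟨2, 3, 1, 0, 6, 7, 5, 4⟩,
  ⟨2, 3, 1, 0, 7, 6, 4, 5⟩,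
  ⟨2, 3, 1, 0, 7, 6, 5, 4⟩,
  ⟨3, 2, 0, 1, 4, 5, 6, 7⟩,
  ⟨3, 2, 0, 1, 4, 5, 7, 6⟩,
  ⟨3, 2, 0, 1, 5, 4, 6, 7⟩,
  ⟨3, 2, 0, 1, 5, 4, 7, 6⟩,
  ⟨3, 2, 0, 1, 6, 7, 4, 5⟩,
  ⟨3, 2, 0, 1, 6, 7, 5, 4⟩,
  ⟨3, 2, 0, 1, 7, 6, 4, 5⟩,
  ⟨3, 2, 0, 1, 7, 6, 5, 4⟩,
  ⟨3, 2, 1, 0, 4, 5, 6, 7⟩,
  ⟨3, 2, 1, 0, 4, 5, 7, 6⟩,
  ⟨3, 2, 1, 0, 5, 4, 6, 7⟩,
  ⟨3, 2, 1, 0, 5, 4, 7, 6⟩,
  ⟨3, 2, 1, 0, 6, 7, 4, 5⟩,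
  ⟨3, 2, 1, 0, 6, 7, 5, 4⟩,
  ⟨3, 2, 1, 0, 7, 6, 4, 5⟩,
  ⟨3, 2, 1, 0, 7, 6, 5, 4⟩,
  ⟨4, 5, 6, 7, 0, 1, 2, 3⟩,
  ⟨4, 5, 6, 7, 0, 1, 3, 2⟩,
  ⟨4, 5, 6, 7, 1, 0, 2, 3⟩,
  ⟨4, 5, 6, 7, 1, 0, 3, 2⟩,
  ⟨4, 5, 6, 7, 2, 3, 0, 1⟩,
  ⟨4, 5, 6, 7, 2, 3, 1, 0⟩,
  ⟨4, 5, 6, 7, 3, 2, 0, 1⟩,
  ⟨4, 5, 6, 7, 3, 2, 1, 0⟩,
  ⟨4, 5, 7, 6, 0, 1, 2, 3⟩,
  ⟨4, 5, 7, 6, 0, 1, 3, 2⟩,
  ⟨4, 5, 7, 6, 1, 0, 2, 3⟩,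
  ⟨4, 5, 7, 6, 1, 0, 3, 2⟩,
  ⟨4, 5, 7, 6, 2, 3, 0, 1⟩,
  ⟨4, 5, 7, 6, 2, 3, 1, 0⟩,
  ⟨4, 5, 7, 6, 3, 2, 0, 1⟩,
  ⟨4, 5, 7, 6, 3, 2, 1, 0⟩,
  ⟨5, 4, 6, 7, 0, 1, 2, 3⟩,
  ⟨5, 4, 6, 7, 0, 1, 3, 2⟩,
  ⟨5, 4, 6, 7, 1, 0, 2, 3⟩,
  ⟨5, 4, 6, 7, 1, 0, 3, 2⟩,
  ⟨5, 4, 6, 7, 2, 3, 0, 1⟩,
  ⟨5, 4, 6, 7, 2, 3, 1, 0⟩,
  ⟨5, 4, 6, 7, 3, 2, 0, 1⟩,
  ⟨5, 4, 6, 7, 3, 2, 1, 0⟩,
  ⟨5, 4, 7, 6, 0, 1, 2, 3⟩,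
  ⟨5, 4, 7, 6, 0, 1, 3, 2⟩,
  ⟨5, 4, 7, 6, 1, 0, 2, 3⟩,
  ⟨5, 4, 7, 6, 1, 0, 3, 2⟩,
  ⟨5, 4, 7, 6, 2, 3, 0, 1⟩,
  ⟨5, 4, 7, 6, 2, 3, 1, 0⟩,
  ⟨5, 4, 7, 6, 3, 2, 0, 1⟩,
  ⟨5, 4, 7, 6, 3, 2, 1, 0⟩,
  ⟨6, 7, 4, 5, 0, 1, 2, 3⟩,
  ⟨6, 7, 4, 5, 0, 1, 3, 2⟩,
  ⟨6, 7, 4, 5, 1, 0, 2, 3⟩,
  ⟨6, 7, 4, 5, 1, 0, 3, 2⟩,
  ⟨6, 7, 4, 5, 2, 3, 0, 1⟩,
  ⟨6, 7, 4, 5, 2, 3, 1, 0⟩,
  ⟨6, 7, 4, 5, 3, 2, 0, 1⟩,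
  ⟨6, 7, 4, 5, 3, 2, 1, 0⟩,
  ⟨6, 7, 5, 4, 0, 1, 2, 3⟩,
  ⟨6, 7, 5, 4, 0, 1, 3, 2⟩,
  ⟨6, 7, 5, 4, 1, 0, 2, 3⟩,
  ⟨6, 7, 5, 4, 1, 0, 3, 2⟩,
  ⟨6, 7, 5, 4, 2, 3, 0, 1⟩,
  ⟨6, 7, 5, 4, 2, 3, 1, 0⟩,
  ⟨6, 7, 5, 4, 3, 2, 0, 1⟩,
  ⟨6, 7, 5, 4, 3, 2, 1, 0⟩,
  ⟨7, 6, 4, 5, 0, 1, 2, 3⟩,
  ⟨7, 6, 4, 5, 0, 1, 3, 2⟩,
  ⟨7, 6, 4, 5, 1, 0, 2, 3⟩,
  ⟨7, 6, 4, 5, 1, 0, 3, 2⟩,
  ⟨7, 6, 4, 5, 2, 3, 0, 1⟩,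
  ⟨7, 6, 4, 5, 2, 3, 1, 0⟩,
  ⟨7, 6, 4, 5, 3, 2, 0, 1⟩,
  ⟨7, 6, 4, 5, 3, 2, 1, 0⟩,
  ⟨7, 6, 5, 4, 0, 1, 2, 3⟩,
  ⟨7, 6, 5, 4, 0, 1, 3, 2⟩,
  ⟨7, 6, 5, 4, 1, 0, 2, 3⟩,
  ⟨7, 6, 5, 4, 1, 0, 3, 2⟩,
  ⟨7, 6, 5, 4, 2, 3, 0, 1⟩,
  ⟨7, 6, 5, 4, 2, 3, 1, 0⟩,
  ⟨7, 6, 5, 4, 3, 2, 0, 1⟩,
  ⟨7, 6, 5, 4, 3, 2, 1, 0⟩]

/-- the candidates -/
def cands : List T8 :=
  [⟨1, 0, 3, 2, 5, 4, 7, 6⟩,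
  ⟨2, 3, 0, 1, 5, 4, 7, 6⟩,
  ⟨3, 2, 1, 0, 5, 4, 7, 6⟩,
  ⟨1, 0, 2, 3, 4, 5, 6, 7⟩,
  ⟨0, 1, 3, 2, 4, 5, 6, 7⟩,
  ⟨5, 4, 7, 6, 1, 0, 3, 2⟩,
  ⟨5, 4, 6, 7, 1, 0, 2, 3⟩,
  ⟨4, 5, 7, 6, 0, 1, 3, 2⟩,
  ⟨4, 5, 6, 7, 0, 1, 2, 3⟩,
  ⟨0, 1, 2, 3, 5, 4, 6, 7⟩,
  ⟨0, 1, 2, 3, 4, 5, 7, 6⟩,
  ⟨7, 6, 5, 4, 3, 2, 1, 0⟩,
  ⟨6, 7, 5, 4, 3, 2, 0, 1⟩,
  ⟨6, 7, 4, 5, 2, 3, 0, 1⟩,
  ⟨7, 6, 4, 5, 2, 3, 1, 0⟩]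

theorem L_length : L.length = 128 := by decide +kernel

set_option maxRecDepth 100000 in
theorem L_nodup : L.Nodup := by decide +kernel

set_option maxRecDepth 100000 in
theorem L_spec : ∀ t ∈ L, Function.Injective t.fn ∧ K t.fn id := by decide +kernel

set_option maxRecDepth 100000 in
set_option synthInstance.maxSize 4096 in
set_option synthInstance.maxHeartbeats 400000 in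
theorem L_complete : ∀ a0 a1 : Fin 8, (pr a0 = pr a1 ∧ a0 ≠ a1) →
    ∀ a2 a3 : Fin 8, (pr a2 = pr a3 ∧ a2 ≠ a3 ∧ bk a2 = bk a0 ∧ pr a2 ≠ pr a0) →
    ∀ a4 a5 : Fin 8, (pr a4 = pr a5 ∧ a4 ≠ a5 ∧ bk a4 ≠ bk a0) →
    ∀ a6 a7 : Fin 8, (pr a6 = pr a7 ∧ a6 ≠ a7 ∧ bk a6 ≠ bk a0 ∧ pr a6 ≠ pr a4) →
    (⟨a0, a1, a2, a3, a4, a5, a6, a7⟩ : T8) ∈ L := by decide +kernel

set_option maxRecDepth 100000 in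
theorem L_trans : ∀ v0 v1 : Fin 8, v0 ≠ v1 →
    ∃ s ∈ L, s.fn v0 = 0 ∧ (s.fn v1 = 1 ∨ s.fn v1 = 2 ∨ s.fn v1 = 4) := by decide +kernel

set_option maxRecDepth 100000 in
theorem cands_spec : ∀ c ∈ cands, Function.Injective c.fn ∧ K c.fn id ∧ ∃ i : Fin 8, c.fn i ≠ i := by
  decide +kernel

set_option maxRecDepth 100000 in
set_option synthInstance.maxSize 4096 in
set_option synthInstance.maxHeartbeats 400000 in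
theorem brute : ∀ a1 : Fin 8, (a1 = 1 ∨ a1 = 2 ∨ a1 = 4) →
    ∀ a2 : Fin 8, (a2 ≠ 0 ∧ a2 ≠ a1) →
    ∀ a3 : Fin 8, (a3 ≠ 0 ∧ a3 ≠ a1 ∧ a3 ≠ a2) →
    ∀ a4 : Fin 8, (a4 ≠ 0 ∧ a4 ≠ a1 ∧ a4 ≠ a2 ∧ a4 ≠ a3) →
    ∀ a5 : Fin 8, (a5 ≠ 0 ∧ a5 ≠ a1 ∧ a5 ≠ a2 ∧ a5 ≠ a3 ∧ a5 ≠ a4) →
    ∀ a6 : Fin 8, (a6 ≠ 0 ∧ a6 ≠ a1 ∧ a6 ≠ a2 ∧ a6 ≠ a3 ∧ a6 ≠ a4 ∧ a6 ≠ a5) →
    ∀ a7 : Fin 8, (a7 ≠ 0 ∧ a7 ≠ a1 ∧ a7 ≠ a2 ∧ a7 ≠ a3 ∧ a7 ≠ a4 ∧ a7 ≠ a5 ∧ a7 ≠ a6) →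
    ∃ c ∈ cands, K c.fn (sel 0 a1 a2 a3 a4 a5 a6 a7) := by
  decide +kernel

/-- a permutation from an injective function -/
noncomputable def toPerm (t : Fin 8 → Fin 8) (h : Function.Injective t) : Equiv.Perm (Fin 8) :=
  Equiv.ofBijective t ⟨h, Finite.surjective_of_injective h⟩

theorem toPerm_coe (t : Fin 8 → Fin 8) (h : Function.Injective t) : ⇑(toPerm t h) = t := rfl

theorem K_conj (y c : Equiv.Perm (Fin 8)) (h : K c y) : y * c * y⁻¹ ∈ S := by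
  intro i j
  have h1 := h (y⁻¹ i) (y⁻¹ j)
  simp only [perm_apply_inv] at h1
  simp only [id, Equiv.Perm.mul_apply]
  exact h1

theorem mem_S_iff (p : Equiv.Perm (Fin 8)) : p ∈ S ↔ enc p ∈ L := by
  constructor
  · intro hp
    have hp' : K p id := hp
    have hinj := p.injective
    have h := L_complete (p 0) (p 1) ⟨(hp' 0 1).1.mp (by decide), hinj.ne (by decide)⟩
      (p 2) (p 3) ⟨(hp' 2 3).1.mp (by decide), hinj.ne (by decide), (hp' 2 0).2.mp (by decide),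
        fun h => absurd ((hp' 2 0).1.mpr h) (by decide)⟩
      (p 4) (p 5) ⟨(hp' 4 5).1.mp (by decide), hinj.ne (by decide),
        fun h => absurd ((hp' 4 0).2.mpr h) (by decide)⟩
      (p 6) (p 7) ⟨(hp' 6 7).1.mp (by decide), hinj.ne (by decide),
        fun h => absurd ((hp' 6 0).2.mpr h) (by decide), fun h => absurd ((hp' 6 4).1.mpr h) (by decide)⟩
    exact h
  · intro h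
    have h2 := (L_spec _ h).2
    rwa [enc_fn] at h2

/-- counting a set through an injective encoding into a list -/
theorem card_of_list {T M : Type*} [DecidableEq M] (enc : T → M) (henc : Function.Injective enc)
    (A : Set T) (l : List M) (hl : l.Nodup) (h1 : ∀ x, x ∈ A ↔ enc x ∈ l)
    (h2 : ∀ m ∈ l, ∃ x, enc x = m) : Nat.card A = l.length := by
  have e : A ≃ {m // m ∈ l} := by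
    refine Equiv.ofBijective (fun x => ⟨enc x.1, (h1 x.1).mp x.2⟩) ⟨?_, ?_⟩
    · intro x y hxy
      apply Subtype.ext
      apply henc
      exact congrArg Subtype.val hxy
    · rintro ⟨m, hm⟩
      obtain ⟨x, rfl⟩ := h2 m hm
      exact ⟨⟨x, (h1 x).mpr hm⟩, rfl⟩
  rw [Nat.card_congr e, Nat.card_eq_fintype_card, Fintype.card_of_subtype l.toFinset (by simp),
    List.toFinset_card_of_nodup hl]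

theorem card_S : Nat.card S = 128 := by
  have h := card_of_list enc enc_injective (S : Set (Equiv.Perm (Fin 8))) L L_nodup mem_S_iff
    (fun m hm => ⟨toPerm m.fn (L_spec m hm).1, by
      obtain ⟨b0, b1, b2, b3, b4, b5, b6, b7⟩ := m
      rfl⟩)
  rw [L_length] at h
  exact h

theorem card_perm8 : Nat.card (Equiv.Perm (Fin 8)) = 2 ^ 7 * 315 := by
  rw [Nat.card_eq_fintype_card, Fintype.card_perm, Fintype.card_fin]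
  rfl

theorem fact2 : (Nat.card (Equiv.Perm (Fin 8))).factorization 2 = 7 := by
  rw [card_perm8, Nat.factorization_mul (by norm_num) (by norm_num), Nat.factorization_pow]
  simp [Nat.Prime.factorization_self Nat.prime_two,
    Nat.factorization_eq_zero_of_not_dvd (show ¬ 2 ∣ 315 by norm_num)]

/-- `S` as a Sylow subgroup -/
noncomputable def S2 : Sylow 2 (Equiv.Perm (Fin 8)) := Sylow.ofCard S (by rw [card_S, fact2]; norm_num)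

theorem coe_S2 : (S2 : Subgroup (Equiv.Perm (Fin 8))) = S := Sylow.coe_ofCard _ _

theorem key (y : Equiv.Perm (Fin 8)) : ∃ c : Equiv.Perm (Fin 8), c ≠ 1 ∧ c ∈ S ∧ y * c * y⁻¹ ∈ S := by
  obtain ⟨s, hsL, hs0, hs1⟩ := L_trans (y 0) (y 1) (y.injective.ne (by decide))
  obtain ⟨hsinj, hsK⟩ := L_spec s hsL
  obtain ⟨sp, hsp⟩ : ∃ sp : Equiv.Perm (Fin 8), ⇑sp = s.fn := ⟨toPerm s.fn hsinj, rfl⟩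
  have hspS : sp ∈ S := by
    rw [mem_S, hsp]
    exact hsK
  obtain ⟨y', hy'⟩ : ∃ y' : Equiv.Perm (Fin 8), y' = sp * y := ⟨_, rfl⟩
  have hy'a : ∀ k, y' k = s.fn (y k) := by
    intro k
    rw [hy', Equiv.Perm.mul_apply, hsp]
  have hinj := y'.injective
  have h0 : y' 0 = 0 := by rw [hy'a, hs0]
  have hne : ∀ k : Fin 8, k ≠ 0 → y' k ≠ 0 := by
    intro k hk h
    exact hk (hinj (h.trans h0.symm))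
  have hb := brute (y' 1) (by rw [hy'a]; exact hs1)
    (y' 2) ⟨hne 2 (by decide), hinj.ne (by decide)⟩
    (y' 3) ⟨hne 3 (by decide), hinj.ne (by decide), hinj.ne (by decide)⟩
    (y' 4) ⟨hne 4 (by decide), hinj.ne (by decide), hinj.ne (by decide), hinj.ne (by decide)⟩
    (y' 5) ⟨hne 5 (by decide), hinj.ne (by decide), hinj.ne (by decide), hinj.ne (by decide),
      hinj.ne (by decide)⟩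
    (y' 6) ⟨hne 6 (by decide), hinj.ne (by decide), hinj.ne (by decide), hinj.ne (by decide),
      hinj.ne (by decide), hinj.ne (by decide)⟩
    (y' 7) ⟨hne 7 (by decide), hinj.ne (by decide), hinj.ne (by decide), hinj.ne (by decide),
      hinj.ne (by decide), hinj.ne (by decide), hinj.ne (by decide)⟩
  obtain ⟨c, hcL, hcK⟩ := hb
  rw [← h0, sel_eq] at hcK
  obtain ⟨hcinj, hcS, i, hci⟩ := cands_spec c hcL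
  obtain ⟨cp, hcp⟩ : ∃ cp : Equiv.Perm (Fin 8), ⇑cp = c.fn := ⟨toPerm c.fn hcinj, rfl⟩
  refine ⟨cp, ?_, ?_, ?_⟩
  · intro h1
    apply hci
    rw [← hcp, h1, Equiv.Perm.one_apply]
  · rw [mem_S, hcp]
    exact hcS
  · have h2 : y' * cp * y'⁻¹ ∈ S := K_conj y' cp (by rw [hcp]; exact hcK)
    have h3 : y * cp * y⁻¹ = sp⁻¹ * (y' * cp * y'⁻¹) * sp := by
      rw [hy']
      group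
    rw [h3]
    exact S.mul_mem (S.mul_mem (S.inv_mem hspS) h2) hspS

/-- In the symmetric group on 8 letters any two Sylow 2-subgroups have non-trivial intersection: for a Sylow 2-subgroup H and every element x, H ∩ xHx⁻¹ ≠ 1. -/
theorem result (H : Sylow 2 (Equiv.Perm (Fin 8))) (x : Equiv.Perm (Fin 8)) :
    (H : Subgroup (Equiv.Perm (Fin 8))) ⊓ (H : Subgroup (Equiv.Perm (Fin 8))).map (MulAut.conj x).toMonoidHom ≠ ⊥ := by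
  obtain ⟨g, hg⟩ := MulAction.exists_smul_eq (Equiv.Perm (Fin 8)) S2 H
  have hH : ∀ h : Equiv.Perm (Fin 8), h ∈ (H : Subgroup (Equiv.Perm (Fin 8))) ↔ g⁻¹ * h * g ∈ S := by
    intro h
    rw [← hg, Sylow.coe_subgroup_smul, coe_S2, Subgroup.mem_pointwise_smul_iff_inv_smul_mem,
      MulAut.smul_def, MulAut.conj_inv_apply]
  obtain ⟨c, hc1, hcS, hcconj⟩ := key (g⁻¹ * x * g)
  intro hbot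
  have hmem : x * (g * c * g⁻¹) * x⁻¹ ∈ (H : Subgroup (Equiv.Perm (Fin 8))) ⊓
      (H : Subgroup (Equiv.Perm (Fin 8))).map (MulAut.conj x).toMonoidHom := by
    refine Subgroup.mem_inf.mpr ⟨(hH _).mpr ?_, ⟨g * c * g⁻¹, (hH _).mpr ?_, rfl⟩⟩
    · have e : g⁻¹ * (x * (g * c * g⁻¹) * x⁻¹) * g = g⁻¹ * x * g * c * (g⁻¹ * x * g)⁻¹ := by group
      rw [e]
      exact hcconj
    · have e : g⁻¹ * (g * c * g⁻¹) * g = c := by group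
      rw [e]
      exact hcS
  rw [hbot, Subgroup.mem_bot, conj_eq_one_iff, conj_eq_one_iff] at hmem
  exact hc1 hmem

end Cfsg.Agent.S5763
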