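import Cfsg.Statements.S5887
import Mathlib

-- import your own Cfsg.Agent.* helpers here

set_option autoImplicit false
open Cfsg

namespace Cfsg.Agent.S5887

open scoped Matrix

section helpers

variable {F : Type*} [Field F] [Fintype F] {n : ℕ}

theorem unip_e1 (N : Matrix (Fin n) (Fin n) F) (h : N * N = 0) : (1 + N) * (1 - N) = 1 := by
  have : (1 + N) * (1 - N) = 1 - N * N := by noncomm_ring
  rw [this, h, sub_zero]

theorem unip_e2 (N : Matrix (Fin n) (Fin n) F) (h : N * N = 0) : (1 - N) * (1 + N) = 1 := by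
  have : (1 - N) * (1 + N) = 1 - N * N := by noncomm_ring
  rw [this, h, sub_zero]

/-- `1 + N` as an element of `GL` when `N * N = 0`. -/
def unip (N : Matrix (Fin n) (Fin n) F) (h : N * N = 0) : GL (Fin n) F :=
  ⟨1 + N, 1 - N, unip_e1 N h, unip_e2 N h⟩

theorem unip_pow (N : Matrix (Fin n) (Fin n) F) (h : N * N = 0) (k : ℕ) :
    (1 + N) ^ k = 1 + k • N := by
  induction k with
  | zero => simp
  | succ k ih =>
    rw [pow_succ, ih, add_mul, mul_add, mul_add, one_mul, mul_one, smul_mul_assoc, h, smul_zero,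
      add_zero, succ_nsmul, one_mul]
    abel

theorem unip_det (N : Matrix (Fin n) (Fin n) F) (h : N * N = 0) :
    unip N h ∈ Cfsg.Geo.specialLinear (Fin n) F := by
  have h1 : (1 + N) ^ (Fintype.card F) = 1 := by
    rw [unip_pow N h, ← Nat.cast_smul_eq_nsmul F, FiniteField.cast_card_eq_zero, zero_smul,
      add_zero]
  have h2 : (1 + N).det = 1 := by
    have := congrArg Matrix.det h1
    rw [Matrix.det_pow, FiniteField.pow_card, Matrix.det_one] at this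
    exact this
  show Matrix.GeneralLinearGroup.det (unip N h) = 1
  apply Units.ext
  exact h2

theorem unip_not_mem (K' : Subalgebra F (Matrix (Fin n) (Fin n) F))
    (hinv : ∀ x ∈ K', x ≠ 0 → ∃ y, x * y = 1)
    (N : Matrix (Fin n) (Fin n) F) (h : N * N = 0) (Z : Matrix (Fin n) (Fin n) F) (hZ : Z ∈ K')
    (v : Fin n → F) (hv : v ≠ 0) (hC0 : (N * Z - Z * N) *ᵥ v = 0) (hC : N * Z - Z * N ≠ 0) :
    unip N h ∉ Cfsg.Geo.subalgebraNormalizer K' := by
  intro hg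
  have h1 : (1 + N) * Z * (1 - N) ∈ K' := (hg Z).1 hZ
  have hD : (1 + N) * Z * (1 - N) - Z ∈ K' := K'.sub_mem h1 hZ
  have e : (1 - N) * (1 + N) = 1 := unip_e2 N h
  have hDg : ((1 + N) * Z * (1 - N) - Z) * (1 + N) = N * Z - Z * N := by
    rw [sub_mul, mul_assoc, e, mul_one, add_mul, mul_add, one_mul, mul_one]; abel
  by_cases hD0 : (1 + N) * Z * (1 - N) - Z = 0
  · rw [hD0, zero_mul] at hDg
    exact hC hDg.symm
  · obtain ⟨y, hy⟩ := hinv _ hD hD0
    have hy' : y * ((1 + N) * Z * (1 - N) - Z) = 1 := mul_eq_one_comm.1 hy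
    have h3 : ((1 + N) * Z * (1 - N) - Z) *ᵥ ((1 + N) *ᵥ v) = 0 := by
      rw [Matrix.mulVec_mulVec, hDg, hC0]
    have h4 : (1 + N) *ᵥ v = 0 := by
      have h6 : y *ᵥ (((1 + N) * Z * (1 - N) - Z) *ᵥ ((1 + N) *ᵥ v)) = y *ᵥ 0 := by rw [h3]
      rw [Matrix.mulVec_mulVec, hy', Matrix.one_mulVec, Matrix.mulVec_zero] at h6
      exact h6
    have h5 : v = 0 := by
      have h6 : (1 - N) *ᵥ ((1 + N) *ᵥ v) = (1 - N) *ᵥ 0 := by rw [h4]
      rw [Matrix.mulVec_mulVec, e, Matrix.one_mulVec, Matrix.mulVec_zero] at h6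
      exact h6
    exact hv h5

theorem unip_mem_of_comm (K' : Subalgebra F (Matrix (Fin n) (Fin n) F))
    (N : Matrix (Fin n) (Fin n) F) (h : N * N = 0) (hcomm : ∀ k ∈ K', N * k = k * N) :
    unip N h ∈ Cfsg.Geo.subalgebraNormalizer K' := by
  have e : (1 + N) * (1 - N) = 1 := unip_e1 N h
  have e' : (1 - N) * (1 + N) = 1 := unip_e2 N h
  have key : ∀ k ∈ K', (1 + N) * k * (1 - N) = k := by
    intro k hk
    have : (1 + N) * k = k * (1 + N) := by
      rw [add_mul, mul_add, one_mul, mul_one, hcomm k hk]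
    rw [this, mul_assoc, e, mul_one]
  intro k
  show k ∈ K' ↔ (1 + N) * k * (1 - N) ∈ K'
  constructor
  · intro hk
    rw [key k hk]; exact hk
  · intro hk
    have hc : ∀ Y : Matrix (Fin n) (Fin n) F, (1 - N) * ((1 + N) * Y) = Y := fun Y => by
      rw [← mul_assoc, e', one_mul]
    have hc' : ∀ Y : Matrix (Fin n) (Fin n) F, Y * (1 - N) * (1 + N) = Y := fun Y => by
      rw [mul_assoc, e', mul_one]
    have h2 : (1 - N) * ((1 + N) * k * (1 - N)) * (1 + N) = k := by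
      rw [mul_assoc (1 + N) k, hc, hc']
    have h3 := key _ hk
    have h4 : (1 - N) * ((1 + N) * ((1 + N) * k * (1 - N)) * (1 - N)) * (1 + N)
        = (1 + N) * k * (1 - N) := by
      rw [mul_assoc (1 + N) ((1 + N) * k * (1 - N)), hc, hc']
    rw [h3, h2] at h4
    rw [h4]; exact hk

/-- The fixed subalgebra of the `Q`-th power map on a commutative subalgebra. -/
def sub0 (K : Subalgebra F (Matrix (Fin n) (Fin n) F))
    (hcomm : ∀ x ∈ K, ∀ y ∈ K, x * y = y * x) (Q : ℕ)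
    (hQ : ∀ x ∈ K, ∀ y ∈ K, (x + y) ^ Q = x ^ Q + y ^ Q) (hQF : ∀ c : F, c ^ Q = c) :
    Subalgebra F (Matrix (Fin n) (Fin n) F) where
  carrier := {x | x ∈ K ∧ x ^ Q = x}
  mul_mem' := fun {a b} ha hb => ⟨K.mul_mem ha.1 hb.1, by
    show (a * b) ^ Q = a * b
    rw [(show Commute a b from hcomm a ha.1 b hb.1).mul_pow, ha.2, hb.2]⟩
  add_mem' := fun {a b} ha hb => ⟨K.add_mem ha.1 hb.1, by
    show (a + b) ^ Q = a + b
    rw [hQ a ha.1 b hb.1, ha.2, hb.2]⟩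
  algebraMap_mem' := fun c => ⟨K.algebraMap_mem c, by
    show (algebraMap F (Matrix (Fin n) (Fin n) F) c) ^ Q = _
    rw [← map_pow, hQF]⟩

theorem norm_le (K : Subalgebra F (Matrix (Fin n) (Fin n) F))
    (hcomm : ∀ x ∈ K, ∀ y ∈ K, x * y = y * x) (Q : ℕ)
    (hQ : ∀ x ∈ K, ∀ y ∈ K, (x + y) ^ Q = x ^ Q + y ^ Q) (hQF : ∀ c : F, c ^ Q = c) :
    Cfsg.Geo.subalgebraNormalizer K ≤ Cfsg.Geo.subalgebraNormalizer (sub0 K hcomm Q hQ hQF) := by
  intro g hg k
  have hpow : ∀ x : Matrix (Fin n) (Fin n) F,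
      ((g : Matrix (Fin n) (Fin n) F) * x * ((g⁻¹ : GL (Fin n) F) : Matrix (Fin n) (Fin n) F)) ^ Q
        = (g : Matrix (Fin n) (Fin n) F) * x ^ Q * ((g⁻¹ : GL (Fin n) F) : Matrix (Fin n) (Fin n) F) :=
    fun x => Units.conj_pow g x Q
  constructor
  · rintro ⟨hk, hkQ⟩
    exact ⟨(hg k).1 hk, by rw [hpow, hkQ]⟩
  · rintro ⟨hk, hkQ⟩
    refine ⟨(hg k).2 hk, ?_⟩
    rw [hpow] at hkQ
    exact (Units.mul_right_inj g).1 ((Units.mul_left_inj _).1 hkQ)

theorem exists_prim (L : Type*) [Field L] [Finite L] :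
    ∃ ζ : L, ζ ^ (Nat.card L - 1) = 1 ∧ ∀ d, 0 < d → d < Nat.card L - 1 → ζ ^ d ≠ 1 := by
  obtain ⟨g, hg⟩ := IsCyclic.exists_generator (α := Lˣ)
  have ho : orderOf g = Nat.card Lˣ := orderOf_eq_card_of_forall_mem_zpowers hg
  have hc : Nat.card Lˣ = Nat.card L - 1 := Nat.card_units L
  refine ⟨(g : L), ?_, ?_⟩
  · rw [← hc, ← ho, ← Units.val_pow_eq_pow_val, pow_orderOf_eq_one]; rfl
  · intro d hd hlt h
    have h1 : g ^ d = 1 := Units.ext (by rw [Units.val_pow_eq_pow_val, h]; rfl)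
    exact pow_ne_one_of_lt_orderOf hd.ne' (by omega) h1

theorem funcpack {L : Type*} [Field L] (φ : L → Matrix (Fin n) (Fin n) F)
    (h1 : φ 1 = 1) (hmul : ∀ a b, φ (a * b) = φ a * φ b) (hadd : ∀ a b, φ (a + b) = φ a + φ b)
    (h0 : φ 0 = 0)
    (u : Fin n → F) (hu : ¬ ∀ v, ∃ k : L, φ k *ᵥ u = v) :
    ∃ c : (Fin n → F) → L, (∀ w w', c (w + w') = c w + c w') ∧
      (∀ k w, c (φ k *ᵥ w) = k * c w) ∧ c u = 0 ∧ ∃ w₀, c w₀ = 1 := by
  letI : Module L (Fin n → F) :=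
    { smul := fun k v => φ k *ᵥ v
      one_smul := fun v => by show φ 1 *ᵥ v = v; rw [h1, Matrix.one_mulVec]
      mul_smul := fun a b v => by
        show φ (a * b) *ᵥ v = φ a *ᵥ (φ b *ᵥ v); rw [hmul, Matrix.mulVec_mulVec]
      smul_zero := fun a => Matrix.mulVec_zero _
      smul_add := fun a v w => Matrix.mulVec_add _ v w
      add_smul := fun a b v => by
        show φ (a + b) *ᵥ v = φ a *ᵥ v + φ b *ᵥ v; rw [hadd, Matrix.add_mulVec]
      zero_smul := fun v => by show φ 0 *ᵥ v = 0; rw [h0, Matrix.zero_mulVec] }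
  have hsm : ∀ (k : L) (v : Fin n → F), k • v = φ k *ᵥ v := fun _ _ => rfl
  have hp : Submodule.span L {u} ≠ ⊤ := by
    intro htop
    apply hu
    intro v
    have hv : v ∈ Submodule.span L {u} := by rw [htop]; exact Submodule.mem_top
    obtain ⟨k, hk⟩ := Submodule.mem_span_singleton.1 hv
    exact ⟨k, by rw [← hsm, hk]⟩
  obtain ⟨f, hf, hpf⟩ := Submodule.exists_le_ker_of_lt_top _ (lt_top_iff_ne_top.2 hp)
  obtain ⟨w, hw⟩ : ∃ w, f w ≠ 0 := by
    by_contra h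
    push Not at h
    exact hf (LinearMap.ext h)
  refine ⟨fun x => f x, fun w w' => map_add f w w', fun k w => ?_, ?_, (f w)⁻¹ • w, ?_⟩
  · show f (φ k *ᵥ w) = k * f w
    rw [← hsm, map_smul, smul_eq_mul]
  · exact hpf (Submodule.mem_span_singleton_self u)
  · show f ((f w)⁻¹ • w) = 1
    rw [map_smul, smul_eq_mul, inv_mul_cancel₀ hw]

theorem isField_of [NeZero n] (K : Subalgebra F (Matrix (Fin n) (Fin n) F))
    (hcomm : ∀ x ∈ K, ∀ y ∈ K, x * y = y * x) (hinv : ∀ x ∈ K, x ≠ 0 → ∃ y ∈ K, x * y = 1) :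
    IsField ↥K := by
  refine ⟨⟨0, 1, ?_⟩, fun x y => Subtype.ext (hcomm x.1 x.2 y.1 y.2), ?_⟩
  · intro h
    have h1 : (0 : Matrix (Fin n) (Fin n) F) = 1 := congrArg Subtype.val h
    exact zero_ne_one h1
  · intro a ha
    obtain ⟨y, hy, hay⟩ := hinv a.1 a.2 (fun h => ha (Subtype.ext h))
    exact ⟨⟨y, hy⟩, Subtype.ext hay⟩

theorem packZ [NeZero n] (K : Subalgebra F (Matrix (Fin n) (Fin n) F))
    (hcomm : ∀ x ∈ K, ∀ y ∈ K, x * y = y * x) (hinv : ∀ x ∈ K, x ≠ 0 → ∃ y ∈ K, x * y = 1) :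
    ∃ Z ∈ K, Z ^ (Nat.card K - 1) = 1 ∧ ∀ d, 0 < d → d < Nat.card K - 1 → Z ^ d ≠ 1 := by
  letI : Field ↥K := (isField_of K hcomm hinv).toField
  obtain ⟨ζ, h1, h2⟩ := exists_prim ↥K
  refine ⟨ζ.1, ζ.2, congrArg Subtype.val h1, fun d hd hlt h => h2 d hd hlt (Subtype.ext h)⟩

theorem packC [NeZero n] (K : Subalgebra F (Matrix (Fin n) (Fin n) F))
    (hcomm : ∀ x ∈ K, ∀ y ∈ K, x * y = y * x) (hinv : ∀ x ∈ K, x ≠ 0 → ∃ y ∈ K, x * y = 1)
    (u : Fin n → F) (hu : ¬ ∀ v, ∃ k ∈ K, k *ᵥ u = v) :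
    ∃ C : (Fin n → F) → Matrix (Fin n) (Fin n) F, (∀ w, C w ∈ K) ∧
      (∀ w w', C (w + w') = C w + C w') ∧ (∀ k ∈ K, ∀ w, C (k *ᵥ w) = k * C w) ∧ C u = 0 ∧
      ∃ w₀, C w₀ = 1 := by
  letI : Field ↥K := (isField_of K hcomm hinv).toField
  obtain ⟨c, hcadd, hcmul, hcu, w₀, hw₀⟩ :=
    funcpack (L := ↥K) (fun k => (k : Matrix (Fin n) (Fin n) F)) rfl (fun _ _ => rfl)
      (fun _ _ => rfl) rfl u
      (fun h => hu (fun v => by obtain ⟨k, hk⟩ := h v; exact ⟨k.1, k.2, hk⟩))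
  exact ⟨fun w => (c w).1, fun w => (c w).2, fun w w' => congrArg Subtype.val (hcadd w w'),
    fun k hk w => congrArg Subtype.val (hcmul ⟨k, hk⟩ w), congrArg Subtype.val hcu, w₀,
    congrArg Subtype.val hw₀⟩


theorem W [NeZero n] (K : Subalgebra F (Matrix (Fin n) (Fin n) F))
    (hcomm : ∀ x ∈ K, ∀ y ∈ K, x * y = y * x) (hinv : ∀ x ∈ K, x ≠ 0 → ∃ y ∈ K, x * y = 1)
    (Q : ℕ) (hQ0 : Q ≠ 0) (hQ : ∀ x ∈ K, ∀ y ∈ K, (x + y) ^ Q = x ^ Q + y ^ Q)
    (hQF : ∀ a : F, a ^ Q = a)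
    (Z : Matrix (Fin n) (Fin n) F) (hZ : Z ∈ K) (hZQ : Z ^ Q ≠ Z)
    (u : Fin n → F) (hu0 : u ≠ 0) (hu : ¬ ∀ v, ∃ k ∈ K, k *ᵥ u = v) :
    ∃ (N : Matrix (Fin n) (Fin n) F) (h : N * N = 0), (∀ k ∈ K, k ^ Q = k → N * k = k * N) ∧
      unip N h ∉ Cfsg.Geo.subalgebraNormalizer K := by
  obtain ⟨C, hCK, hCadd, hCmul, hCu, w₀, hw₀⟩ := packC K hcomm hinv u hu
  have hCsmul : ∀ (a : F) (w : Fin n → F), C (a • w) = a • C w := by
    intro a w
    have h1 : a • w = (a • (1 : Matrix (Fin n) (Fin n) F)) *ᵥ w := by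
      rw [Matrix.smul_mulVec, Matrix.one_mulVec]
    rw [h1, hCmul _ (K.smul_mem K.one_mem a), smul_mul_assoc, one_mul]
  let Nl : (Fin n → F) →ₗ[F] (Fin n → F) :=
    { toFun := fun w => (C w ^ Q - C w) *ᵥ u
      map_add' := fun w w' => by
        show (C (w + w') ^ Q - C (w + w')) *ᵥ u = (C w ^ Q - C w) *ᵥ u + (C w' ^ Q - C w') *ᵥ u
        rw [hCadd, hQ _ (hCK w) _ (hCK w'), ← Matrix.add_mulVec]
        congr 1
        abel
      map_smul' := fun a w => by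
        show (C (a • w) ^ Q - C (a • w)) *ᵥ u = a • ((C w ^ Q - C w) *ᵥ u)
        rw [hCsmul, smul_pow, hQF, ← smul_sub, Matrix.smul_mulVec] }
  have hNl : ∀ w, Nl w = (C w ^ Q - C w) *ᵥ u := fun w => rfl
  have hN : ∀ w, (LinearMap.toMatrix' Nl) *ᵥ w = (C w ^ Q - C w) *ᵥ u := fun w => by
    rw [← hNl]; exact LinearMap.toMatrix'_mulVec Nl w
  generalize LinearMap.toMatrix' Nl = N at hN
  have hext : ∀ A B : Matrix (Fin n) (Fin n) F, (∀ w, A *ᵥ w = B *ᵥ w) → A = B := by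
    intro A B h
    apply Matrix.toLin'.injective
    apply LinearMap.ext
    intro w
    rw [Matrix.toLin'_apply, Matrix.toLin'_apply, h]
  have hCy : ∀ y ∈ K, C (y *ᵥ u) = 0 := fun y hy => by rw [hCmul y hy, hCu, mul_zero]
  have hNy : ∀ y ∈ K, N *ᵥ (y *ᵥ u) = 0 := fun y hy => by
    rw [hN, hCy y hy, zero_pow hQ0, sub_zero, Matrix.zero_mulVec]
  have hNN : N * N = 0 := by
    apply hext
    intro w
    rw [← Matrix.mulVec_mulVec, hN w, hNy _ (K.sub_mem (K.pow_mem (hCK w) Q) (hCK w)),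
      Matrix.zero_mulVec]
  refine ⟨N, hNN, ?_, ?_⟩
  · intro k hk hkQ
    apply hext
    intro w
    rw [← Matrix.mulVec_mulVec, ← Matrix.mulVec_mulVec, hN, hN, hCmul k hk,
      (show Commute k (C w) from hcomm k hk _ (hCK w)).mul_pow, hkQ, ← mul_sub,
      Matrix.mulVec_mulVec]
  · apply unip_not_mem K (fun x hx hx0 => by
      obtain ⟨y, -, hy⟩ := hinv x hx hx0; exact ⟨y, hy⟩) N hNN Z hZ u hu0
    · rw [Matrix.sub_mulVec, ← Matrix.mulVec_mulVec, ← Matrix.mulVec_mulVec, hNy Z hZ]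
      have h2 : N *ᵥ u = 0 := by
        have := hNy 1 K.one_mem
        rwa [Matrix.one_mulVec] at this
      rw [h2, Matrix.mulVec_zero, sub_zero]
    · intro hC
      have h1 : (N * Z - Z * N) *ᵥ w₀ = (Z ^ Q - Z) *ᵥ u := by
        rw [Matrix.sub_mulVec, ← Matrix.mulVec_mulVec, ← Matrix.mulVec_mulVec, hN, hN,
          hCmul Z hZ, hw₀, mul_one, one_pow, sub_self, Matrix.zero_mulVec, Matrix.mulVec_zero,
          sub_zero]
      rw [hC, Matrix.zero_mulVec] at h1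
      obtain ⟨y, -, hy⟩ := hinv (Z ^ Q - Z) (K.sub_mem (K.pow_mem hZ Q) hZ) (sub_ne_zero.2 hZQ)
      have hy' : y * (Z ^ Q - Z) = 1 := mul_eq_one_comm.1 hy
      apply hu0
      have h6 : y *ᵥ ((Z ^ Q - Z) *ᵥ u) = y *ᵥ 0 := by rw [← h1]
      rw [Matrix.mulVec_mulVec, hy', Matrix.one_mulVec, Matrix.mulVec_zero] at h6
      exact h6

theorem pow_pred_of_pow_eq {M : Type*} [Monoid M] (Z : M) (A B : ℕ) (hB : 0 < B) (hA : 0 < A)
    (h1 : Z ^ B = 1) (h2 : Z ^ A = Z) : Z ^ (A - 1) = 1 := by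
  obtain ⟨B, rfl⟩ : ∃ b, B = b + 1 := ⟨B - 1, by omega⟩
  obtain ⟨A, rfl⟩ : ∃ a, A = a + 1 := ⟨A - 1, by omega⟩
  rw [Nat.add_sub_cancel]
  rw [pow_succ'] at h1
  calc Z ^ A = Z ^ A * (Z * Z ^ B) := by rw [h1, mul_one]
    _ = Z ^ (A + 1) * Z ^ B := by rw [pow_succ, mul_assoc]
    _ = Z * Z ^ B := by rw [h2]
    _ = 1 := h1

theorem main (n r : ℕ) (hr1 : 1 < r) (hrp : ¬ r.Prime) (hrn : r ∣ n) (hlt : r < n)
    (K : Subalgebra F (Matrix (Fin n) (Fin n) F)) (hK : Cfsg.Geo.IsFieldSubalgebra r K) :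
    ¬ IsCoatom (Cfsg.Geo.subalgebraNormalizer K) ∧
      ¬ Cfsg.Geo.IsMaximalIn (Cfsg.Geo.specialLinear (Fin n) F)
        (Cfsg.Geo.subalgebraNormalizer K ⊓ Cfsg.Geo.specialLinear (Fin n) F) := by
  classical
  haveI : NeZero n := ⟨by omega⟩
  have hq2 : 2 ≤ Fintype.card F := Fintype.one_lt_card
  obtain ⟨p, hp⟩ := CharP.exists F
  haveI : CharP F p := hp
  obtain ⟨a, hpp, hqa⟩ := FiniteField.card F p
  haveI : Fact p.Prime := ⟨hpp⟩
  obtain ⟨s, hsr, hs2, hslt⟩ := Nat.exists_dvd_of_not_prime2 hr1 hrp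
  obtain ⟨m, rfl⟩ := hsr
  generalize hq : Fintype.card F = q at hq2 hqa
  have hfrob : ∀ (j : ℕ) (x y : Matrix (Fin n) (Fin n) F), x * y = y * x →
      (x + y) ^ (q ^ j) = x ^ (q ^ j) + y ^ (q ^ j) := by
    intro j x y hxy
    rw [hqa, ← pow_mul]
    exact add_pow_char_pow_of_commute _ _ (show Commute x y from hxy)
  have hFq : ∀ (j : ℕ) (c : F), c ^ (q ^ j) = c := fun j c => by
    rw [← hq]; exact FiniteField.pow_card_pow j c
  have hcardK : Nat.card ↥K = q ^ (s * m) := by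
    rw [Module.natCard_eq_pow_finrank (K := F) (V := ↥K), hK.finrank_eq, Nat.card_eq_fintype_card,
      hq]
  have hcardV : Nat.card (Fin n → F) = q ^ n := by
    rw [Nat.card_eq_fintype_card, Fintype.card_fun, Fintype.card_fin, hq]
  obtain ⟨u, hu0⟩ := exists_ne (0 : Fin n → F)
  have hu : ¬ ∀ v, ∃ k ∈ K, k *ᵥ u = v := by
    intro h
    have hsurj : Function.Surjective (fun k : ↥K => (k : Matrix (Fin n) (Fin n) F) *ᵥ u) := by
      intro v
      obtain ⟨k, hk, hkv⟩ := h v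
      exact ⟨⟨k, hk⟩, hkv⟩
    have hle := Nat.card_le_card_of_surjective _ hsurj
    rw [hcardK, hcardV] at hle
    have := (Nat.pow_le_pow_iff_right (by omega : 1 < q)).1 hle
    omega
  obtain ⟨Z, hZK, hZ1, hZ2⟩ := packZ K hK.comm hK.inv
  rw [hcardK] at hZ1 hZ2
  have hqs : q ^ 1 < q ^ s := Nat.pow_lt_pow_right (by omega) (by omega)
  have hqsm : q ^ s < q ^ (s * m) := Nat.pow_lt_pow_right (by omega) hslt
  rw [pow_one] at hqs
  -- the intermediate subalgebra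
  have hK₀comm : ∀ x ∈ sub0 K hK.comm (q ^ s)
      (fun x hx y hy => hfrob s x y (hK.comm x hx y hy)) (hFq s),
      ∀ y ∈ sub0 K hK.comm (q ^ s) (fun x hx y hy => hfrob s x y (hK.comm x hx y hy)) (hFq s),
      x * y = y * x := fun x hx y hy => hK.comm x hx.1 y hy.1
  have hK₀inv : ∀ x ∈ sub0 K hK.comm (q ^ s)
      (fun x hx y hy => hfrob s x y (hK.comm x hx y hy)) (hFq s), x ≠ 0 →
      ∃ y ∈ sub0 K hK.comm (q ^ s) (fun x hx y hy => hfrob s x y (hK.comm x hx y hy)) (hFq s),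
      x * y = 1 := by
    intro x hx hx0
    obtain ⟨y, hyK, hxy⟩ := hK.inv x hx.1 hx0
    refine ⟨y, ⟨hyK, ?_⟩, hxy⟩
    have h1 : x * y ^ (q ^ s) = 1 := by
      have := congrArg (fun X => X ^ (q ^ s)) hxy
      simp only [one_pow] at this
      rw [(show Commute x y from hK.comm x hx.1 y hyK).mul_pow, hx.2] at this
      exact this
    have h2 : y * x = 1 := by rw [hK.comm y hyK x hx.1]; exact hxy
    calc y ^ (q ^ s) = (y * x) * y ^ (q ^ s) := by rw [h2, one_mul]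
      _ = y * (x * y ^ (q ^ s)) := mul_assoc _ _ _
      _ = y := by rw [h1, mul_one]
  generalize hK₀ : sub0 K hK.comm (q ^ s)
      (fun x hx y hy => hfrob s x y (hK.comm x hx y hy)) (hFq s) = K₀ at hK₀comm hK₀inv
  have hmem₀ : ∀ x, x ∈ K₀ ↔ x ∈ K ∧ x ^ (q ^ s) = x := fun x => by rw [← hK₀]; rfl
  have hle : Cfsg.Geo.subalgebraNormalizer K ≤ Cfsg.Geo.subalgebraNormalizer K₀ := by
    rw [← hK₀]; exact norm_le K hK.comm (q ^ s) _ _
  -- the first witness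
  have hZQ : Z ^ (q ^ s) ≠ Z := by
    intro h
    have := pow_pred_of_pow_eq Z (q ^ s) (q ^ (s * m) - 1) (by omega) (by omega) hZ1 h
    exact hZ2 (q ^ s - 1) (by omega) (by omega) this
  obtain ⟨Ng, hNg, hNgc, hgN⟩ := W K hK.comm hK.inv (q ^ s) (by omega)
    (fun x hx y hy => hfrob s x y (hK.comm x hx y hy)) (hFq s) Z hZK hZQ u hu0 hu
  -- the second witness
  obtain ⟨e, he⟩ : ∃ e, q ^ (s * m) - 1 = (q ^ s - 1) * e := by
    have := Nat.sub_dvd_pow_sub_pow (q ^ s) 1 m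
    rw [one_pow, ← pow_mul] at this
    exact this
  have he0 : 0 < e := by
    rcases Nat.eq_zero_or_pos e with h | h
    · rw [h, mul_zero] at he; omega
    · exact h
  have hα1 : (Z ^ e) ^ (q ^ s - 1) = 1 := by
    rw [← pow_mul, mul_comm, ← he, hZ1]
  have hα : Z ^ e ∈ K₀ := by
    rw [hmem₀]
    refine ⟨K.pow_mem hZK e, ?_⟩
    have : q ^ s = (q ^ s - 1) + 1 := by omega
    rw [this, pow_succ, hα1, one_mul]
  have hαq : (Z ^ e) ^ q ≠ Z ^ e := by
    intro h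
    have h1 := pow_pred_of_pow_eq (Z ^ e) q (q ^ s - 1) (by omega) (by omega) hα1 h
    rw [← pow_mul] at h1
    refine hZ2 (e * (q - 1)) (Nat.mul_pos he0 (by omega)) ?_ h1
    rw [he, mul_comm]
    exact Nat.mul_lt_mul_of_pos_right (by omega) he0
  obtain ⟨Nt, hNt, -, htN⟩ := W K₀ hK₀comm hK₀inv q (by omega)
    (fun x hx y hy => by simpa using hfrob 1 x y (hK₀comm x hx y hy))
    (fun c => by simpa using hFq 1 c) (Z ^ e) hα hαq u hu0
    (fun h => hu (fun v => by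
      obtain ⟨k, hk, hkv⟩ := h v; exact ⟨k, ((hmem₀ k).1 hk).1, hkv⟩))
  have hg0 : unip Ng hNg ∈ Cfsg.Geo.subalgebraNormalizer K₀ :=
    unip_mem_of_comm K₀ Ng hNg (fun k hk => hNgc k ((hmem₀ k).1 hk).1 ((hmem₀ k).1 hk).2)
  have hgS := unip_det Ng hNg
  have htS := unip_det Nt hNt
  refine ⟨fun hco => ?_, ?_⟩
  · have hlt' : Cfsg.Geo.subalgebraNormalizer K < Cfsg.Geo.subalgebraNormalizer K₀ :=
      lt_of_le_of_ne hle (fun h => hgN (h ▸ hg0))
    have h1 := hco.2 _ hlt'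
    exact htN (h1 ▸ Subgroup.mem_top _)
  · rintro ⟨-, hmax⟩
    rcases hmax (Cfsg.Geo.subalgebraNormalizer K₀ ⊓ Cfsg.Geo.specialLinear (Fin n) F)
      (inf_le_inf_right _ hle) inf_le_right with h | h
    · have h1 : unip Ng hNg ∈
          Cfsg.Geo.subalgebraNormalizer K ⊓ Cfsg.Geo.specialLinear (Fin n) F :=
        h ▸ (⟨hg0, hgS⟩ : unip Ng hNg ∈
          Cfsg.Geo.subalgebraNormalizer K₀ ⊓ Cfsg.Geo.specialLinear (Fin n) F)
      exact hgN h1.1
    · have h1 : unip Nt hNt ∈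
          Cfsg.Geo.subalgebraNormalizer K₀ ⊓ Cfsg.Geo.specialLinear (Fin n) F :=
        h.symm ▸ htS
      exact htN h1.1

end helpers

/-- Let F be a finite field, n a positive integer and r a composite number (r > 1, not prime) that divides n with r < n. Let K be a subalgebra of the algebra of n × n matrices over F which is a field of degree r over F (commutative, every non-zero element invertible, of dimension r over F). Then the normaliser N of K in GL_n(F) (a group of type ΓL_{n/r}(F_{q^r})) is not a maximal subgroup of GL_n(F), and N ∩ SL_n(F) is not a maximal subgroup of SL_n(F): both lie properly inside the normaliser of an intermediate subfield of prime degree over F. -/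
theorem result {F : Type*} [Field F]
    [Fintype F] (n r : ℕ) (hr1 : 1 < r) (hrp : ¬ r.Prime) (hrn : r ∣ n) (hlt : r < n)
    (K : Subalgebra F (Matrix (Fin n) (Fin n) F)) (hK : Cfsg.Geo.IsFieldSubalgebra r K) :
    ¬ IsCoatom (Cfsg.Geo.subalgebraNormalizer K) ∧
      ¬ Cfsg.Geo.IsMaximalIn (Cfsg.Geo.specialLinear (Fin n) F)
        (Cfsg.Geo.subalgebraNormalizer K ⊓ Cfsg.Geo.specialLinear (Fin n) F) := by
  exact main n r hr1 hrp hrn hlt K hK

end Cfsg.Agent.S5887
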