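import Cfsg.Statements.S5893
import Cfsg.Agent.Lib.helper12.DkEven
-- import your own Cfsg.Agent.* helpers here

set_option autoImplicit false
open Cfsg

namespace Cfsg.Agent.S5893

open Cfsg.Agent.Lib.helper12
open scoped MatrixGroups

/-- Let F be a finite field of even order q ≥ 4 and let M be a maximal subgroup of PSL₂(F) (= SL₂(F) = PGL₂(F)). Then one of the following holds: |M| = q(q − 1) (the stabiliser of a point of the projective line, elementary abelian of order q extended by a cyclic group of order q − 1); M is dihedral of order 2(q − 1); M is dihedral of order 2(q + 1); or q = q₀^r for a prime r with q₀ ≠ 2 and M ≅ PSL₂(F₀) with |F₀| = q₀. -/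
theorem result {F : Type*} [Field F] [Fintype F]
    (heven : Even (Fintype.card F)) (h4 : 4 ≤ Fintype.card F) (M : Subgroup (Matrix.ProjectiveSpecialLinearGroup (Fin 2) F)) (hM : IsCoatom M) :
    Nat.card M = Fintype.card F * (Fintype.card F - 1) ∨
    Nonempty (M ≃* DihedralGroup (Fintype.card F - 1)) ∨
    Nonempty (M ≃* DihedralGroup (Fintype.card F + 1)) ∨
    (∃ (F₀ : Type) (_ : Field F₀) (_ : Fintype F₀) (r : ℕ), r.Prime ∧ Fintype.card F₀ ≠ 2 ∧
        Fintype.card F = Fintype.card F₀ ^ r ∧ Nonempty (M ≃* Matrix.ProjectiveSpecialLinearGroup (Fin 2) F₀)) := by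
  classical
  have h2 : (2 : F) = 0 := by
    rcases card_parity_cases (F := F) with ⟨-, h, -⟩ | ⟨h, -, -⟩
    · exfalso
      obtain ⟨k, hk⟩ := heven
      omega
    · exact h
  haveI : CharP F 2 := CharTwo.of_one_ne_zero_of_two_eq_zero one_ne_zero h2
  haveI : Fact (Nat.Prime 2) := ⟨Nat.prime_two⟩
  rcases dk_finalS 2 M with h | ⟨x, hx, hs, hle⟩ | ⟨x, hx, ht, hle⟩ | ⟨⟨f⟩⟩ | ⟨⟨f⟩⟩ | ⟨⟨f⟩⟩ | h
  · exact absurd h (even_not_bot h2 h4 M hM)
  · rcases even_semi h2 h4 M hM x hx hs hle with h | h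
    · exact Or.inr (Or.inl h)
    · exact Or.inr (Or.inr (Or.inl h))
  · exact Or.inl (even_borel h2 h4 M hM x hx ht hle)
  · obtain ⟨x, hx, ht, hle⟩ := even_a4 h2 M f
    exact Or.inl (even_borel h2 h4 M hM x hx ht hle)
  · exact (even_s4 h2 M f).elim
  · rcases even_dks h2 h4 M hM (even_a5 h2 M f) with (h | h) | h
    · exact Or.inr (Or.inl h)
    · exact Or.inr (Or.inr (Or.inl h))
    · exact Or.inr (Or.inr (Or.inr h))
  · rcases even_dks h2 h4 M hM h with (h | h) | h
    · exact Or.inr (Or.inl h)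
    · exact Or.inr (Or.inr (Or.inl h))
    · exact Or.inr (Or.inr (Or.inr h))

end Cfsg.Agent.S5893
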