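import Cfsg.Statements.S5902
import Cfsg.Agent.S5901

set_option autoImplicit false
open Cfsg

namespace Cfsg.Agent.S5902

theorem interval_of_complemented {G : Type*} [Group G] (X : Subgroup G)
    (hK : ComplementedLattice (Subgroup X)) :
    ∀ Y : Subgroup G, ⊥ ≤ Y → Y ≤ X → ∃ C : Subgroup G, ⊥ ≤ C ∧ C ≤ X ∧ Y ⊔ C = X ∧ Y ⊓ C = ⊥ := by
  intro Y _ hYX
  obtain ⟨C', hC'⟩ := hK.exists_isCompl (Y.subgroupOf X)
  refine ⟨C'.map X.subtype, bot_le, Subgroup.map_subtype_le C', ?_, ?_⟩
  · have h1 : (Y.subgroupOf X ⊔ C').map X.subtype = X := by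
      rw [hC'.sup_eq_top, ← MonoidHom.range_eq_map, Subgroup.range_subtype]
    rw [Subgroup.map_sup, Subgroup.map_subgroupOf_eq_of_le hYX] at h1
    exact h1
  · have h1 : (Y.subgroupOf X ⊓ C').map X.subtype = ⊥ := by
      rw [hC'.inf_eq_bot, Subgroup.map_bot]
    rw [Subgroup.map_inf _ _ _ X.subtype_injective, Subgroup.map_subgroupOf_eq_of_le hYX] at h1
    exact h1

theorem part_one {G : Type*} [Group G] [Finite G] (X M : Subgroup G)
    (hK : ComplementedLattice (Subgroup X))
    (hM : IsCoatom M) (hXM : X ≤ M) (huniq : ∀ M' : Subgroup G, IsCoatom M' → X ≤ M' → M' = M) :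
    ∀ H : Subgroup G, ¬ H ≤ M.normalCore → ∃ C : Subgroup G, H ⊔ C = ⊤ ∧ H ⊓ C = ⊥ := by
  intro H hH
  obtain ⟨h, hhH, hhN⟩ : ∃ h ∈ H, h ∉ M.normalCore := by
    by_contra hcon
    push Not at hcon
    exact hH hcon
  obtain ⟨g, hg⟩ : ∃ g : G, g * h * g⁻¹ ∉ M := by
    by_contra hcon
    push Not at hcon
    exact hhN hcon
  have hXtop : X ≠ ⊤ := fun h => hM.1 (top_le_iff.mp (h ▸ hXM))
  have hH' : ¬ (MulEquiv.mapSubgroup (MulAut.conj g)) H ≤ M := by
    intro hle
    apply hg
    apply hle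
    exact ⟨h, hhH, by simp⟩
  obtain ⟨C₀, h1, h2⟩ := Cfsg.Agent.S5901.result ⊥ X M bot_le hXtop (interval_of_complemented X hK)
    hM hXM huniq _ hH' (inf_bot_eq _)
  refine ⟨(MulEquiv.mapSubgroup (MulAut.conj g)).symm C₀, ?_, ?_⟩
  · apply (MulEquiv.mapSubgroup (MulAut.conj g)).injective
    rw [OrderIso.map_sup, OrderIso.apply_symm_apply, OrderIso.map_top]
    exact h1
  · apply (MulEquiv.mapSubgroup (MulAut.conj g)).injective
    rw [OrderIso.map_inf, OrderIso.apply_symm_apply, OrderIso.map_bot]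
    exact h2


/-- Let G be a finite group, X a subgroup whose own subgroup lattice is complemented, and suppose X lies in exactly one maximal subgroup M of G. Then every subgroup H of G not contained in the normal core of M has a complement in the subgroup lattice of G (some C with H ⊔ C = G and H ⊓ C = 1); in particular the subgroup lattice of G modulo the normal core of M is complemented. -/
theorem result {G : Type*} [Group G] [Finite G] (X M : Subgroup G)
    (hK : ComplementedLattice (Subgroup X))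
    (hM : IsCoatom M) (hXM : X ≤ M) (huniq : ∀ M' : Subgroup G, IsCoatom M' → X ≤ M' → M' = M) :
    (∀ H : Subgroup G, ¬ H ≤ M.normalCore → ∃ C : Subgroup G, H ⊔ C = ⊤ ∧ H ⊓ C = ⊥) ∧
    ComplementedLattice (Subgroup (G ⧸ M.normalCore)) := by
  have h1 := part_one X M hK hM hXM huniq
  refine ⟨h1, ⟨fun Kb => ?_⟩⟩
  by_cases hKb : Kb = ⊥
  · subst hKb
    exact ⟨⊤, isCompl_bot_top⟩
  · have hsurj : Function.Surjective (QuotientGroup.mk' M.normalCore) := QuotientGroup.mk'_surjective _
    have hnle : ¬ Kb.comap (QuotientGroup.mk' M.normalCore) ≤ M.normalCore := by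
      intro hle
      apply hKb
      rw [eq_bot_iff]
      intro x hx
      obtain ⟨k, rfl⟩ := hsurj x
      have hk : k ∈ M.normalCore := hle hx
      rw [Subgroup.mem_bot]
      exact (QuotientGroup.eq_one_iff k).mpr hk
    obtain ⟨C, hC1, hC2⟩ := h1 _ hnle
    refine ⟨C.map (QuotientGroup.mk' M.normalCore), IsCompl.of_eq ?_ ?_⟩
    · rw [eq_bot_iff]
      rintro x ⟨hxK, c, hcC, rfl⟩
      have hcK : c ∈ Kb.comap (QuotientGroup.mk' M.normalCore) := hxK
      have : c ∈ Kb.comap (QuotientGroup.mk' M.normalCore) ⊓ C := Subgroup.mem_inf.mpr ⟨hcK, hcC⟩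
      rw [hC2, Subgroup.mem_bot] at this
      rw [this, map_one]
      exact one_mem _
    · have h2 : (Kb.comap (QuotientGroup.mk' M.normalCore) ⊔ C).map (QuotientGroup.mk' M.normalCore) = ⊤ := by
        rw [hC1, Subgroup.map_top_of_surjective _ hsurj]
      rw [Subgroup.map_sup, Subgroup.map_comap_eq_self_of_surjective hsurj] at h2
      exact h2

end Cfsg.Agent.S5902
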