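import Cfsg.Statements.S5903
import Cfsg.Agent.S5901

set_option autoImplicit false
open Cfsg

namespace Cfsg.Agent.S5903

theorem interval_of_quotient {G : Type*} [Group G] (X N : Subgroup G) (hNX : N ≤ X)
    [(N.subgroupOf X).Normal] (hK : ComplementedLattice (Subgroup (X ⧸ N.subgroupOf X))) :
    ∀ Y : Subgroup G, N ≤ Y → Y ≤ X → ∃ C : Subgroup G, N ≤ C ∧ C ≤ X ∧ Y ⊔ C = X ∧ Y ⊓ C = N := by
  intro Y hNY hYX
  set π := QuotientGroup.mk' (N.subgroupOf X) with hπ
  have hsurj : Function.Surjective π := QuotientGroup.mk'_surjective _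
  have hker : π.ker = N.subgroupOf X := QuotientGroup.ker_mk' _
  obtain ⟨Cb, hCb⟩ := hK.exists_isCompl ((Y.subgroupOf X).map π)
  have hNC : N.subgroupOf X ≤ Cb.comap π := hker.symm.le.trans (Subgroup.ker_le_comap π Cb)
  have hYY : ((Y.subgroupOf X).map π).comap π = Y.subgroupOf X := by
    apply Subgroup.comap_map_eq_self
    exact hker.le.trans (Subgroup.comap_mono hNY)
  refine ⟨(Cb.comap π).map X.subtype, ?_, Subgroup.map_subtype_le _, ?_, ?_⟩
  · have := Subgroup.map_mono (f := X.subtype) hNC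
    rwa [Subgroup.map_subgroupOf_eq_of_le hNX] at this
  · have h1 : ((Y.subgroupOf X).map π).comap π ⊔ Cb.comap π = ⊤ := by
      rw [Subgroup.comap_sup_eq π _ _ hsurj, hCb.sup_eq_top, Subgroup.comap_top]
    rw [hYY] at h1
    have h2 : (Y.subgroupOf X ⊔ Cb.comap π).map X.subtype = X := by
      rw [h1, ← MonoidHom.range_eq_map, Subgroup.range_subtype]
    rw [Subgroup.map_sup, Subgroup.map_subgroupOf_eq_of_le hYX] at h2
    exact h2
  · have h1 : ((Y.subgroupOf X).map π).comap π ⊓ Cb.comap π = N.subgroupOf X := by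
      rw [← Subgroup.comap_inf, hCb.inf_eq_bot]
      exact hker
    rw [hYY] at h1
    have h2 : (Y.subgroupOf X ⊓ Cb.comap π).map X.subtype = N := by
      rw [h1, Subgroup.map_subgroupOf_eq_of_le hNX]
    rw [Subgroup.map_inf _ _ _ X.subtype_injective, Subgroup.map_subgroupOf_eq_of_le hYX] at h2
    exact h2

theorem mem_conj_iff {G : Type*} [Group G] (g : G) (A : Subgroup G) (x : G) :
    x ∈ (MulEquiv.mapSubgroup (MulAut.conj g)) A ↔ ∃ a ∈ A, x = g * a * g⁻¹ := by
  constructor
  · rintro ⟨a, ha, rfl⟩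
    exact ⟨a, ha, by simp⟩
  · rintro ⟨a, ha, rfl⟩
    exact ⟨a, ha, by simp⟩

theorem exists_good_conj {G : Type*} [Group G] [Finite G] [IsSimpleGroup G] (M N : Subgroup G)
    (hN : N ≠ ⊥) (hcen : ∀ n ∈ N, ∀ m ∈ M, m * n = n * m)
    (H : Subgroup G) (hHbot : H ≠ ⊥) (hHtop : H ≠ ⊤) :
    ∃ g : G, ¬ H ≤ (MulEquiv.mapSubgroup (MulAut.conj g)) M ∧
      ¬ (MulEquiv.mapSubgroup (MulAut.conj g)) N ≤ H := by
  by_contra hcon
  push Not at hcon
  have hcon' : ∀ g : G, ¬ (MulEquiv.mapSubgroup (MulAut.conj g)) N ≤ H →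
      H ≤ (MulEquiv.mapSubgroup (MulAut.conj g)) M := by
    intro g hg
    by_contra h
    exact hg (hcon g h)
  set S : Set G := {y | ∃ g : G, ¬ (MulEquiv.mapSubgroup (MulAut.conj g)) N ≤ H ∧
    y ∈ (MulEquiv.mapSubgroup (MulAut.conj g)) N} with hS
  set B : Subgroup G := Subgroup.closure S with hB
  have hcomm : ∀ h ∈ H, ∀ y ∈ B, y * h = h * y := by
    intro h hh y hy
    have hle : B ≤ Subgroup.centralizer {h} := by
      rw [hB, Subgroup.closure_le]
      rintro y ⟨g, hg, hyg⟩
      have hhM := hcon' g hg hh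
      rw [mem_conj_iff] at hhM hyg
      obtain ⟨m, hm, rfl⟩ := hhM
      obtain ⟨n, hn, rfl⟩ := hyg
      rw [SetLike.mem_coe, Subgroup.mem_centralizer_iff]
      intro z hz
      rw [Set.mem_singleton_iff] at hz
      subst hz
      have := hcen n hn m hm
      calc g * m * g⁻¹ * (g * n * g⁻¹) = g * (m * n) * g⁻¹ := by group
        _ = g * (n * m) * g⁻¹ := by rw [this]
        _ = g * n * g⁻¹ * (g * m * g⁻¹) := by group
    have := hle hy
    rw [Subgroup.mem_centralizer_iff] at this
    exact (this h rfl).symm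
  have hHnorm : H ≤ Subgroup.normalizer (B : Set G) := by
    intro h hh
    rw [Subgroup.mem_normalizer_iff]
    intro y
    constructor
    · intro hy
      have := hcomm h hh y hy
      have e : h * y * h⁻¹ = y := by rw [← this]; group
      rw [e]; exact hy
    · intro hy
      have := hcomm h hh _ hy
      have e : y = h * y * h⁻¹ := by
        have h2 : h * y * h⁻¹ * h = h * (h * y * h⁻¹) := this
        have h3 : h * y = h * (h * y * h⁻¹) := by rw [← h2]; group
        exact mul_left_cancel h3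
      rw [e]; exact hy
  have hconjnorm : ∀ g : G, (MulEquiv.mapSubgroup (MulAut.conj g)) N ≤ Subgroup.normalizer (B : Set G) := by
    intro g
    by_cases hg : (MulEquiv.mapSubgroup (MulAut.conj g)) N ≤ H
    · exact hg.trans hHnorm
    · intro y hy
      exact Subgroup.le_normalizer (Subgroup.subset_closure ⟨g, hg, hy⟩)
  have hncl : Subgroup.normalClosure (N : Set G) = ⊤ := by
    refine ((inferInstance : (Subgroup.normalClosure (N : Set G)).Normal).eq_bot_or_eq_top).resolve_left ?_
    intro hbot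
    apply hN
    rw [eq_bot_iff, ← hbot]
    exact Subgroup.le_normalClosure
  have hnormtop : Subgroup.normalizer (B : Set G) = ⊤ := by
    rw [eq_top_iff, ← hncl, Subgroup.normalClosure, Subgroup.closure_le]
    intro a ha
    rw [Group.mem_conjugatesOfSet_iff] at ha
    obtain ⟨n, hn, hconj⟩ := ha
    rw [isConj_iff] at hconj
    obtain ⟨c, rfl⟩ := hconj
    exact hconjnorm c ((mem_conj_iff c N _).mpr ⟨n, hn, rfl⟩)
  have hBnormal : B.Normal := Subgroup.normalizer_eq_top_iff.mp hnormtop
  rcases hBnormal.eq_bot_or_eq_top with hb | hb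
  · -- all conjugates of N lie in H
    have hall : ∀ g : G, (MulEquiv.mapSubgroup (MulAut.conj g)) N ≤ H := by
      intro g
      by_contra hg
      apply hN
      rw [eq_bot_iff]
      intro n hn
      have : g * n * g⁻¹ ∈ B := Subgroup.subset_closure ⟨g, hg, (mem_conj_iff g N _).mpr ⟨n, hn, rfl⟩⟩
      rw [hb, Subgroup.mem_bot] at this
      rw [Subgroup.mem_bot]
      have h2 : g * n * g⁻¹ = g * 1 * g⁻¹ := by rw [this]; group
      exact mul_left_cancel (mul_right_cancel h2)
    apply hHtop
    rw [eq_top_iff, ← hncl, Subgroup.normalClosure, Subgroup.closure_le]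
    intro a ha
    rw [Group.mem_conjugatesOfSet_iff] at ha
    obtain ⟨n, hn, hconj⟩ := ha
    rw [isConj_iff] at hconj
    obtain ⟨c, rfl⟩ := hconj
    exact hall c ((mem_conj_iff c N _).mpr ⟨n, hn, rfl⟩)
  · -- H is central
    have hHcen : H ≤ Subgroup.center G := by
      intro h hh
      rw [Subgroup.mem_center_iff]
      intro y
      exact hcomm h hh y (hb ▸ Subgroup.mem_top y)
    rcases (inferInstance : (Subgroup.center G).Normal).eq_bot_or_eq_top with hc | hc
    · apply hHbot
      rw [eq_bot_iff, ← hc]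
      exact hHcen
    · have hHn : H.Normal := by
        refine ⟨fun n hn g => ?_⟩
        have hg : g ∈ Subgroup.center G := hc ▸ Subgroup.mem_top g
        rw [Subgroup.mem_center_iff] at hg
        have e : g * n * g⁻¹ = n := by rw [← hg n]; group
        rw [e]; exact hn
      rcases hHn.eq_bot_or_eq_top with h | h
      · exact hHbot h
      · exact hHtop h


/-- Let G be a finite simple group, X a subgroup lying in exactly one maximal subgroup M of G, and N a subgroup of prime order with N ≤ X that is central in M. If the subgroup lattice of X/N is complemented, then the subgroup lattice of G is complemented. -/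
theorem result {G : Type*} [Group G] [Finite G] [IsSimpleGroup G] (X M N : Subgroup G)
    (hM : IsCoatom M) (hXM : X ≤ M) (huniq : ∀ M' : Subgroup G, IsCoatom M' → X ≤ M' → M' = M)
    (hNX : N ≤ X) (hN : (Nat.card N).Prime) (hcen : ∀ n ∈ N, ∀ m ∈ M, m * n = n * m)
    [(N.subgroupOf X).Normal] (hK : ComplementedLattice (Subgroup (X ⧸ N.subgroupOf X))) :
    ComplementedLattice (Subgroup G) := by
  refine ⟨fun H => ?_⟩
  by_cases hHbot : H = ⊥
  · subst hHbot
    exact ⟨⊤, isCompl_bot_top⟩
  by_cases hHtop : H = ⊤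
  · subst hHtop
    exact ⟨⊥, isCompl_top_bot⟩
  have hNbot : N ≠ ⊥ := by
    intro h
    rw [h] at hN
    simp at hN
    exact Nat.not_prime_one hN
  have hXtop : X ≠ ⊤ := fun h => hM.1 (top_le_iff.mp (h ▸ hXM))
  obtain ⟨g, hg1, hg2⟩ := exists_good_conj M N hNbot hcen H hHbot hHtop
  have hH' : ¬ (MulEquiv.mapSubgroup (MulAut.conj g)).symm H ≤ M := by
    intro hle
    apply hg1
    have := (MulEquiv.mapSubgroup (MulAut.conj g)).monotone hle
    rwa [OrderIso.apply_symm_apply] at this
  have hH'' : (MulEquiv.mapSubgroup (MulAut.conj g)).symm H ⊓ N = ⊥ := by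
    rw [eq_bot_iff]
    intro x hx
    obtain ⟨hx1, hx2⟩ := Subgroup.mem_inf.mp hx
    rw [Subgroup.mem_bot]
    by_contra hx1ne
    apply hg2
    haveI : Fact (Nat.card N).Prime := ⟨hN⟩
    have hz : Subgroup.zpowers (⟨x, hx2⟩ : N) = ⊤ :=
      zpowers_eq_top_of_prime_card rfl (fun h => hx1ne (congrArg Subtype.val h))
    have hNle : N ≤ (MulEquiv.mapSubgroup (MulAut.conj g)).symm H := by
      intro n hn
      have hmem : (⟨n, hn⟩ : N) ∈ Subgroup.zpowers (⟨x, hx2⟩ : N) := hz ▸ Subgroup.mem_top _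
      obtain ⟨k, hk⟩ := Subgroup.mem_zpowers_iff.mp hmem
      have hk' : x ^ k = n := by
        have := congrArg Subtype.val hk
        simpa using this
      rw [← hk']
      exact zpow_mem hx1 k
    have := (MulEquiv.mapSubgroup (MulAut.conj g)).monotone hNle
    rwa [OrderIso.apply_symm_apply] at this
  obtain ⟨C₀, h1, h2⟩ := Cfsg.Agent.S5901.result N X M hNX hXtop (interval_of_quotient X N hNX hK)
    hM hXM huniq _ hH' hH''
  refine ⟨(MulEquiv.mapSubgroup (MulAut.conj g)) C₀, IsCompl.of_eq ?_ ?_⟩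
  · apply (MulEquiv.mapSubgroup (MulAut.conj g)).symm.injective
    rw [OrderIso.map_inf, OrderIso.symm_apply_apply, OrderIso.map_bot]
    exact h2
  · apply (MulEquiv.mapSubgroup (MulAut.conj g)).symm.injective
    rw [OrderIso.map_sup, OrderIso.symm_apply_apply, OrderIso.map_top]
    exact h1

end Cfsg.Agent.S5903
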