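import Cfsg.Statements.S5904
-- import your own Cfsg.Agent.* helpers here

set_option autoImplicit false
open scoped Pointwise
open Cfsg

namespace Cfsg.Agent.S5904

/-- Let Ω be a finite set with more than two elements and O ⊆ Ω a subset with exactly as many elements as its complement. Then the setwise stabilizer of O in the symmetric group on Ω is not a maximal subgroup (it is properly contained in the stabilizer of the partition {O, Ω ∖ O}, which is proper). -/
theorem result {Ω : Type*} [Fintype Ω] [DecidableEq Ω] (hΩ : 2 < Fintype.card Ω)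
    (O : Set Ω) (hO : Nat.card O = Nat.card ↥Oᶜ) :
    ¬ IsCoatom (MulAction.stabilizer (Equiv.Perm Ω) O) := by
  classical
  intro hco
  have hcard : Nat.card O + Nat.card ↥Oᶜ = Fintype.card Ω := by
    have h := Set.ncard_add_ncard_compl O
    rw [Nat.card_eq_fintype_card] at h
    rw [Nat.card_coe_set_eq, Nat.card_coe_set_eq]
    exact h
  have hO2 : 1 < O.ncard := by
    rw [← Nat.card_coe_set_eq]
    omega
  have hOc : 0 < Oᶜ.ncard := by
    rw [← Nat.card_coe_set_eq]
    omega
  obtain ⟨a, ha, a', ha', haa'⟩ := (Set.one_lt_ncard (Set.toFinite O)).mp hO2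
  obtain ⟨b, hb⟩ := (Set.ncard_pos (Set.toFinite Oᶜ)).mp hOc
  obtain ⟨σ, hσ⟩ := Equiv.Perm.exists_map_finset_eq O.toFinset Oᶜ.toFinset (by
    rw [Set.toFinset_card, Set.toFinset_card, ← Nat.card_eq_fintype_card, ← Nat.card_eq_fintype_card]
    exact hO)
  have hσO : σ • O = Oᶜ := by
    ext y
    have h1 : y ∈ Oᶜ.toFinset ↔ y ∈ O.toFinset.map σ.toEmbedding := by rw [hσ]
    rw [Set.mem_toFinset, Finset.mem_map] at h1
    rw [h1, Set.mem_smul_set]
    constructor
    · rintro ⟨x, hx, rfl⟩
      exact ⟨x, Set.mem_toFinset.mpr hx, rfl⟩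
    · rintro ⟨x, hx, rfl⟩
      exact ⟨x, Set.mem_toFinset.mp hx, rfl⟩
  have hσn : σ ∉ MulAction.stabilizer (Equiv.Perm Ω) O := by
    intro h
    rw [MulAction.mem_stabilizer_iff, hσO] at h
    have : a ∈ Oᶜ := by rw [h]; exact ha
    exact this ha
  set L : Subgroup (Equiv.Perm Ω) :=
    Subgroup.closure ((MulAction.stabilizer (Equiv.Perm Ω) O : Set (Equiv.Perm Ω)) ∪ {σ}) with hL
  have hle : MulAction.stabilizer (Equiv.Perm Ω) O ≤ L := fun g hg =>
    Subgroup.subset_closure (Or.inl hg)
  have hσL : σ ∈ L := Subgroup.subset_closure (Or.inr rfl)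
  have hlt : MulAction.stabilizer (Equiv.Perm Ω) O < L :=
    lt_of_le_of_ne hle (fun h => hσn (h ▸ hσL))
  have htop : L = ⊤ := hco.2 L hlt
  have hinv : ∀ g ∈ L, g • O = O ∨ g • O = Oᶜ := by
    intro g hg
    induction hg using Subgroup.closure_induction with
    | mem x hx =>
      rcases hx with hx | hx
      · left
        exact hx
      · right
        rw [Set.mem_singleton_iff] at hx
        rw [hx, hσO]
    | one => left; simp
    | mul x y _ _ hx hy =>
      rcases hy with hy | hy
      · rw [mul_smul, hy]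
        exact hx
      · rw [mul_smul, hy, Set.smul_set_compl]
        rcases hx with hx | hx
        · right; rw [hx]
        · left; rw [hx, compl_compl]
    | inv x _ hx =>
      rcases hx with hx | hx
      · left
        rw [inv_smul_eq_iff, hx]
      · right
        rw [inv_smul_eq_iff, Set.smul_set_compl, hx, compl_compl]
  have hτ := hinv (Equiv.swap a b) (htop ▸ Subgroup.mem_top _)
  have hb' : b ∈ Equiv.swap a b • O := ⟨a, ha, by simp⟩
  have hab : a ≠ b := fun h => hb (h ▸ ha)
  have ha'b : a' ≠ b := fun h => hb (h ▸ ha')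
  have ha'' : a' ∈ Equiv.swap a b • O :=
    ⟨a', ha', by
      change Equiv.swap a b a' = a'
      exact Equiv.swap_apply_of_ne_of_ne (Ne.symm haa') ha'b⟩
  rcases hτ with h | h
  · rw [h] at hb'
    exact hb hb'
  · rw [h] at ha''
    exact ha'' ha'

end Cfsg.Agent.S5904
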