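import Mathlib
import Cfsg.Statements.S5908
import Cfsg.Agent.Lib.helper17.U32d

set_option autoImplicit false
open Cfsg

namespace Cfsg.Agent.S5908

theorem q8_key : ∀ x : QuaternionGroup 2, x ≠ 1 →
    x = QuaternionGroup.a 2 ∨ x * x = QuaternionGroup.a 2 := by decide

theorem q8_a2 : (QuaternionGroup.a 2 : QuaternionGroup 2) ^ (2 : ℤ) = 1 := by decide

theorem q8_xa : (QuaternionGroup.xa 0 : QuaternionGroup 2) * QuaternionGroup.xa 0 ≠ 1 := by decide

theorem q8_a2_ne : (QuaternionGroup.a 2 : QuaternionGroup 2) ≠ 1 := by decide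

/-- a group with a quaternion quotient does not have a complemented subgroup lattice -/
theorem not_compl {G : Type*} [Group G] (N : Subgroup G) [N.Normal]
    (φ : G ⧸ N ≃* QuaternionGroup 2) : ¬ ComplementedLattice (Subgroup G) := by
  intro hc
  obtain ⟨z, hz⟩ : ∃ z : G ⧸ N, z = φ.symm (QuaternionGroup.a 2) := ⟨_, rfl⟩
  have hφz : φ z = QuaternionGroup.a 2 := by rw [hz, MulEquiv.apply_symm_apply]
  obtain ⟨H, hH⟩ : ∃ H : Subgroup G, H = (Subgroup.zpowers z).comap (QuotientGroup.mk' N) :=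
    ⟨_, rfl⟩
  have hmemH : ∀ x : G, x ∈ H ↔ (x : G ⧸ N) ∈ Subgroup.zpowers z := by
    intro x
    rw [hH]
    rfl
  obtain ⟨X, hX⟩ := hc.exists_isCompl H
  have hdisj : H ⊓ X = ⊥ := hX.inf_eq_bot
  have hsup : H ⊔ X = ⊤ := hX.sup_eq_top
  have hXN : ∀ x ∈ X, x ∈ N := by
    intro x hx
    by_contra hxN
    have h1 : φ (x : G ⧸ N) ≠ 1 := by
      intro h
      apply hxN
      rw [← QuotientGroup.eq_one_iff]
      exact φ.map_eq_one_iff.mp h
    rcases q8_key _ h1 with h2 | h2
    · have hxz : (x : G ⧸ N) = z := by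
        apply φ.injective
        rw [hφz, h2]
      have hxH : x ∈ H := by
        rw [hmemH, hxz]
        exact Subgroup.mem_zpowers z
      have h3 : x ∈ H ⊓ X := ⟨hxH, hx⟩
      rw [hdisj, Subgroup.mem_bot] at h3
      apply hxN
      rw [h3]
      exact N.one_mem
    · have hxz : ((x * x : G) : G ⧸ N) = z := by
        apply φ.injective
        rw [hφz, QuotientGroup.mk_mul, map_mul, h2]
      have hxH : x * x ∈ H := by
        rw [hmemH, hxz]
        exact Subgroup.mem_zpowers z
      have h3 : x * x ∈ H ⊓ X := ⟨hxH, X.mul_mem hx hx⟩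
      rw [hdisj, Subgroup.mem_bot] at h3
      rw [h3] at hxz
      have h4 : φ z = 1 := by
        rw [← hxz]
        exact map_one φ
      rw [hφz] at h4
      exact q8_a2_ne h4
  have hNH : N ≤ H := by
    intro n hn
    rw [hmemH, (QuotientGroup.eq_one_iff n).mpr hn]
    exact one_mem _
  have hXH : X ≤ H := fun x hx => hNH (hXN x hx)
  have hHtop : H = ⊤ := by
    rw [← hsup]
    exact (sup_eq_left.mpr hXH).symm
  obtain ⟨g, hg⟩ := QuotientGroup.mk_surjective (φ.symm (QuaternionGroup.xa 0))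
  have hgH : g ∈ H := by
    rw [hHtop]
    trivial
  rw [hmemH, hg] at hgH
  obtain ⟨k, hk⟩ := Subgroup.mem_zpowers_iff.mp hgH
  have h5 : (QuaternionGroup.a 2 : QuaternionGroup 2) ^ k = QuaternionGroup.xa 0 := by
    have := congrArg φ hk
    rwa [map_zpow, hφz, MulEquiv.apply_symm_apply] at this
  apply q8_xa
  rw [← h5, ← zpow_add, ← two_mul, zpow_mul, q8_a2, one_zpow]

/-- The subgroup lattice of PSU₃(2) (the solvable group of order 72, realised over the field with 4 elements) is not complemented: some subgroup H has no subgroup X with H ⊔ X = ⊤ and H ⊓ X = ⊥. -/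
theorem result {F : Type*} [Field F] [Fintype F] (hF : Fintype.card F = 4) :
    ¬ ComplementedLattice (Subgroup (Cfsg.PSU 3 F 2)) := by
  obtain ⟨N, hN, -, -, ⟨φ⟩⟩ := Cfsg.Agent.Lib.helper17.U32.psu32_structure hF
  exact not_compl N φ

end Cfsg.Agent.S5908
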