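import Cfsg.Statements.S5909
import Mathlib
import Cfsg.Agent.S5905

set_option autoImplicit false
open Cfsg

namespace Cfsg.Agent.S5909

open Cfsg.Agent.S5905

section
variable {Ω : Type*} [Fintype Ω] [DecidableEq Ω]

omit [Fintype Ω] in
theorem c_rot {u v w : Ω} (huw : u ≠ w) (hvw : v ≠ w) :
    Equiv.swap u v * Equiv.swap u w = Equiv.swap v w * Equiv.swap v u := by
  have h := Equiv.swap_mul_swap_mul_swap (x := w) (y := u) (z := v) huw.symm hvw.symm
  rw [← h, Equiv.swap_comm v u, mul_assoc, Equiv.swap_mul_self, mul_one, Equiv.swap_comm w u]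

omit [Fintype Ω] in
theorem c_conj (k : Equiv.Perm Ω) (u v w : Ω) :
    k * (Equiv.swap u v * Equiv.swap u w) * k⁻¹ =
      Equiv.swap (k u) (k v) * Equiv.swap (k u) (k w) := by
  rw [Equiv.swap_apply_apply, Equiv.swap_apply_apply]
  group

theorem c_mem_alt {u v w : Ω} (huv : u ≠ v) (huw : u ≠ w) :
    Equiv.swap u v * Equiv.swap u w ∈ alternatingGroup Ω := by
  rw [Equiv.Perm.mem_alternatingGroup, map_mul, Equiv.Perm.sign_swap huv,
    Equiv.Perm.sign_swap huw]
  rfl

theorem dswap_mem_alt {x y z w : Ω} (hxy : x ≠ y) (hzw : z ≠ w) :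
    Equiv.swap x y * Equiv.swap z w ∈ alternatingGroup Ω := by
  rw [Equiv.Perm.mem_alternatingGroup, map_mul, Equiv.Perm.sign_swap hxy,
    Equiv.Perm.sign_swap hzw]
  rfl

theorem exists_partner (a b : ℕ) (ha : 2 ≤ a) (f : Ω → Fin b)
    (hf : ∀ i : Fin b, Nat.card {x : Ω // f x = i} = a) (x : Ω) :
    ∃ x₂, x₂ ≠ x ∧ f x₂ = f x := by
  have h1 : 1 < Nat.card {z : Ω // f z = f x} := by
    rw [hf]
    omega
  rw [Finite.one_lt_card_iff_nontrivial] at h1
  obtain ⟨y, hy⟩ := exists_ne (⟨x, rfl⟩ : {z : Ω // f z = f x})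
  exact ⟨y.1, fun h => hy (Subtype.ext h), y.2⟩

theorem exists_other_block (a b : ℕ) (ha : 2 ≤ a) (hb : 2 ≤ b) (f : Ω → Fin b)
    (hf : ∀ i : Fin b, Nat.card {x : Ω // f x = i} = a) (i : Fin b) :
    ∃ u, f u ≠ i := by
  haveI : Nontrivial (Fin b) := Fin.nontrivial_iff_two_le.mpr hb
  obtain ⟨j, hj⟩ := exists_ne i
  have h1 : 0 < Nat.card {z : Ω // f z = j} := by
    rw [hf]
    omega
  rw [Nat.card_pos_iff] at h1
  obtain ⟨⟨u, hu⟩⟩ := h1.1
  exact ⟨u, by rw [hu]; exact hj⟩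

/-- Generation: a subgroup containing the even part of `W f` and one 3-cycle that is
not inside a block contains the alternating group. -/
theorem alt_le_of_three_cycle (a b : ℕ) (ha : 2 ≤ a) (hb : 2 ≤ b) (f : Ω → Fin b)
    (hf : ∀ i : Fin b, Nat.card {x : Ω // f x = i} = a) (M : Subgroup (Equiv.Perm Ω))
    (hWM : W f ⊓ alternatingGroup Ω ≤ M) (u v w : Ω) (huv : u ≠ v) (huw : u ≠ w) (hvw : v ≠ w)
    (hT : Equiv.swap u v * Equiv.swap u w ∈ M) (hfuv : f u ≠ f v) :
    alternatingGroup Ω ≤ M := by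
  have hrot : ∀ x y z : Ω, x ≠ z → y ≠ z → Equiv.swap x y * Equiv.swap x z ∈ M →
      Equiv.swap y z * Equiv.swap y x ∈ M := by
    intro x y z hxz hyz h
    rw [← c_rot hxz hyz]
    exact h
  have hinv : ∀ x y z : Ω, Equiv.swap x y * Equiv.swap x z ∈ M →
      Equiv.swap x z * Equiv.swap x y ∈ M := by
    intro x y z h
    have h1 := M.inv_mem h
    rw [mul_inv_rev, Equiv.swap_inv, Equiv.swap_inv] at h1
    exact h1
  have h6 : ∀ x y z : Ω, x ≠ y → x ≠ z → y ≠ z → Equiv.swap x y * Equiv.swap x z ∈ M →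
      Equiv.swap x z * Equiv.swap x y ∈ M ∧ Equiv.swap y x * Equiv.swap y z ∈ M ∧
      Equiv.swap y z * Equiv.swap y x ∈ M ∧ Equiv.swap z x * Equiv.swap z y ∈ M ∧
      Equiv.swap z y * Equiv.swap z x ∈ M := by
    intro x y z hxy hxz hyz h
    have h1 := hinv _ _ _ h
    have h2 := hrot x y z hxz hyz h
    have h3 := hrot y z x hxy.symm hxz.symm h2
    have h4 := hrot x z y hxy hyz.symm h1
    have h5 := hrot z y x hxz.symm hxy.symm h4
    exact ⟨h1, h5, h2, h3, h4⟩
  have hconj : ∀ (k : Equiv.Perm Ω), k ∈ M → ∀ x y z : Ω,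
      Equiv.swap x y * Equiv.swap x z ∈ M →
      Equiv.swap (k x) (k y) * Equiv.swap (k x) (k z) ∈ M := by
    intro k hk x y z h
    rw [← c_conj]
    exact M.mul_mem (M.mul_mem hk h) (M.inv_mem hk)
  have hR1 : ∀ p q r s : Ω, Equiv.swap p q * Equiv.swap p r ∈ M →
      Equiv.swap p s * Equiv.swap p q ∈ M → Equiv.swap p s * Equiv.swap p r ∈ M := by
    intro p q r s h1 h2
    have h3 := M.mul_mem h2 h1
    have h4 : Equiv.swap p s * Equiv.swap p q * (Equiv.swap p q * Equiv.swap p r) =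
        Equiv.swap p s * Equiv.swap p r := by
      rw [mul_assoc, ← mul_assoc (Equiv.swap p q), Equiv.swap_mul_self, one_mul]
    rw [h4] at h3
    exact h3
  -- Step A: a triple with two points in one block and the third outside
  obtain ⟨p, q, q', hqq', hfqq', hfpq, hTpqq'⟩ : ∃ p q q' : Ω, q ≠ q' ∧ f q = f q' ∧ f p ≠ f q ∧
      Equiv.swap p q * Equiv.swap p q' ∈ M := by
    by_cases hwu : f w = f u
    · exact ⟨v, u, w, huw, hwu.symm, fun h => hfuv h.symm, (h6 u v w huv huw hvw hT).2.1⟩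
    by_cases hwv : f w = f v
    · exact ⟨u, v, w, hvw, hwv.symm, hfuv, hT⟩
    obtain ⟨u₂, hu₂, hfu₂⟩ := exists_partner a b ha f hf u
    obtain ⟨v₂, hv₂, hfv₂⟩ := exists_partner a b ha f hf v
    have hu₂v : u₂ ≠ v := fun h => hfuv (by rw [← hfu₂, h])
    have hu₂w : u₂ ≠ w := fun h => hwu (by rw [← hfu₂, h])
    have hv₂u : v₂ ≠ u := fun h => hfuv (by rw [← hfv₂, h])
    have hv₂w : v₂ ≠ w := fun h => hwv (by rw [← hfv₂, h])
    have hu₂v₂ : u₂ ≠ v₂ := fun h => hfuv (by rw [← hfu₂, ← hfv₂, h])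
    have hk : Equiv.swap u u₂ * Equiv.swap v v₂ ∈ M :=
      hWM ⟨(W f).mul_mem (swap_mem_W f hfu₂.symm) (swap_mem_W f hfv₂.symm),
        dswap_mem_alt hu₂.symm hv₂.symm⟩
    have h1 := hconj _ hk u v w hT
    have e1 : (Equiv.swap u u₂ * Equiv.swap v v₂) u = u₂ := by
      rw [Equiv.Perm.mul_apply, Equiv.swap_apply_of_ne_of_ne huv hv₂u.symm,
        Equiv.swap_apply_left]
    have e2 : (Equiv.swap u u₂ * Equiv.swap v v₂) v = v₂ := by
      rw [Equiv.Perm.mul_apply, Equiv.swap_apply_left,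
        Equiv.swap_apply_of_ne_of_ne hv₂u hu₂v₂.symm]
    have e3 : (Equiv.swap u u₂ * Equiv.swap v v₂) w = w := by
      rw [Equiv.Perm.mul_apply, Equiv.swap_apply_of_ne_of_ne hvw.symm hv₂w.symm,
        Equiv.swap_apply_of_ne_of_ne huw.symm hu₂w.symm]
    rw [e1, e2, e3] at h1
    -- h1 : T u₂ v₂ w
    have h2 := (h6 u₂ v₂ w hu₂v₂ hu₂w hv₂w h1).2.2.2.1
    -- h2 : T w u₂ v₂
    have hk₁ := hinv _ _ _ hT
    have h3 := hconj _ hk₁ w u₂ v₂ h2
    have e4 : (Equiv.swap u w * Equiv.swap u v) w = u := by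
      rw [Equiv.Perm.mul_apply, Equiv.swap_apply_of_ne_of_ne huw.symm hvw.symm,
        Equiv.swap_apply_right]
    have e5 : (Equiv.swap u w * Equiv.swap u v) u₂ = u₂ := by
      rw [Equiv.Perm.mul_apply, Equiv.swap_apply_of_ne_of_ne hu₂ hu₂v,
        Equiv.swap_apply_of_ne_of_ne hu₂ hu₂w]
    have e6 : (Equiv.swap u w * Equiv.swap u v) v₂ = v₂ := by
      rw [Equiv.Perm.mul_apply, Equiv.swap_apply_of_ne_of_ne hv₂u hv₂,
        Equiv.swap_apply_of_ne_of_ne hv₂u hv₂w]
    rw [e4, e5, e6] at h3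
    -- h3 : T u u₂ v₂
    have h4 := (h6 u u₂ v₂ hu₂.symm hv₂u.symm hu₂v₂ h3).2.1
    -- h4 : T u₂ u v₂
    have h5 := hR1 u₂ v₂ w u h1 h4
    -- h5 : T u₂ u w
    exact ⟨w, u, u₂, hu₂.symm, hfu₂.symm, hwu,
      (h6 u₂ u w hu₂ hu₂w huw h5).2.2.2.2⟩
  -- Step B
  have hB : ∀ p₂ q₂ q₂' : Ω, q₂ ≠ q₂' → f q₂ = f q₂' → f p₂ ≠ f q₂ →
      Equiv.swap p₂ q₂ * Equiv.swap p₂ q₂' ∈ M := by
    intro p₂ q₂ q₂' hq₂ hfq₂ hfp₂
    obtain ⟨k, hkW, hkp, hkq⟩ := exists_mem_W_map a b f hf p q p₂ q₂ hfpq hfp₂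
    have hfq₃ : f q₂ = f (k q') := by
      have h1 := (hkW q q').mp hfqq'
      rw [hkq] at h1
      exact h1
    have hq₃ : k q' ≠ q₂ := by
      intro h
      rw [← hkq] at h
      exact hqq' (k.injective h).symm
    have hpq : p ≠ q := fun h => hfpq (by rw [h])
    have hpq' : p ≠ q' := fun h => hfpq (by rw [h, hfqq'])
    have hp₂q₂ : p₂ ≠ q₂ := fun h => hfp₂ (by rw [h])
    have hp₂q₂' : p₂ ≠ q₂' := fun h => hfp₂ (by rw [h, hfq₂])
    obtain ⟨k₂, hk₂W, hk₂p, hk₂q, hk₂q'⟩ : ∃ k₂ ∈ W f, k₂ p = p₂ ∧ k₂ q = q₂ ∧ k₂ q' = q₂' := by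
      by_cases h : k q' = q₂'
      · exact ⟨k, hkW, hkp, hkq, h⟩
      · refine ⟨Equiv.swap (k q') q₂' * k, (W f).mul_mem (swap_mem_W f ?_) hkW, ?_, ?_, ?_⟩
        · rw [← hfq₃, hfq₂]
        · rw [Equiv.Perm.mul_apply, hkp, Equiv.swap_apply_of_ne_of_ne _ hp₂q₂']
          intro h'
          exact hfp₂ (by rw [h', hfq₃])
        · rw [Equiv.Perm.mul_apply, hkq, Equiv.swap_apply_of_ne_of_ne hq₃.symm hq₂]
        · rw [Equiv.Perm.mul_apply, Equiv.swap_apply_left]
    by_cases hsign : k₂ ∈ alternatingGroup Ω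
    · have h1 := hconj k₂ (hWM ⟨hk₂W, hsign⟩) p q q' hTpqq'
      rw [hk₂p, hk₂q, hk₂q'] at h1
      exact h1
    · have hk₃alt : k₂ * Equiv.swap q q' ∈ alternatingGroup Ω := by
        rw [Equiv.Perm.mem_alternatingGroup] at hsign ⊢
        rw [map_mul, Equiv.Perm.sign_swap hqq']
        rcases Int.units_eq_one_or (Equiv.Perm.sign k₂) with h | h
        · exact absurd h hsign
        · rw [h]
          rfl
      have hk₃ : k₂ * Equiv.swap q q' ∈ M :=
        hWM ⟨(W f).mul_mem hk₂W (swap_mem_W f hfqq'), hk₃alt⟩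
      have h1 := hconj _ hk₃ p q q' hTpqq'
      have e1 : (k₂ * Equiv.swap q q') p = p₂ := by
        rw [Equiv.Perm.mul_apply, Equiv.swap_apply_of_ne_of_ne hpq hpq', hk₂p]
      have e2 : (k₂ * Equiv.swap q q') q = q₂' := by
        rw [Equiv.Perm.mul_apply, Equiv.swap_apply_left, hk₂q']
      have e3 : (k₂ * Equiv.swap q q') q' = q₂ := by
        rw [Equiv.Perm.mul_apply, Equiv.swap_apply_right, hk₂q]
      rw [e1, e2, e3] at h1
      exact hinv _ _ _ h1
  -- Step C
  have hC : ∀ x y z : Ω, x ≠ y → x ≠ z → y ≠ z → Equiv.swap x y * Equiv.swap x z ∈ M := by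
    intro x y z hxy hxz hyz
    by_cases hfxy : f x = f y
    · by_cases hfxz : f x = f z
      · obtain ⟨u₀, hu₀⟩ := exists_other_block a b ha hb f hf (f x)
        have hu₀x : u₀ ≠ x := fun h => hu₀ (by rw [h])
        have hu₀y : u₀ ≠ y := fun h => hu₀ (by rw [h, hfxy])
        have hu₀z : u₀ ≠ z := fun h => hu₀ (by rw [h, hfxz])
        have h1 := hB u₀ x z hxz hfxz hu₀
        have h2 := hB u₀ x y hxy hfxy hu₀
        have h1' := (h6 u₀ x z hu₀x hu₀z hxz h1).2.1
        have h2' := (h6 u₀ x y hu₀x hu₀y hxy h2).2.2.1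
        exact hR1 x u₀ z y h1' h2'
      · have h1 := hB z x y hxy hfxy (fun h => hfxz h.symm)
        exact (h6 z x y hxz.symm hyz.symm hxy h1).2.2.1
    · by_cases hfxz : f x = f z
      · have h1 := hB y x z hxz hfxz (fun h => hfxy h.symm)
        exact (h6 y x z hxy.symm hyz hxz h1).2.1
      · by_cases hfyz : f y = f z
        · exact hB x y z hyz hfyz hfxy
        · obtain ⟨y₂, hy₂, hfy₂⟩ := exists_partner a b ha f hf y
          have hy₂x : y₂ ≠ x := fun h => hfxy (by rw [← hfy₂, h])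
          have hy₂z : y₂ ≠ z := fun h => hfyz (by rw [← hfy₂, h])
          have h1 := hB z y y₂ hy₂.symm hfy₂.symm (fun h => hfyz h.symm)
          have h2 := hB x y y₂ hy₂.symm hfy₂.symm hfxy
          have h1' := (h6 z y y₂ hyz.symm hy₂z.symm hy₂.symm h1).2.2.1
          have h2' := (h6 x y y₂ hxy hy₂x.symm hy₂.symm h2).2.1
          have h3 := hR1 y y₂ z x h1' h2'
          exact (h6 y x z hxy.symm hyz hxz h3).2.1
  -- Step D
  rw [← Equiv.Perm.closure_three_cycles_eq_alternating, Subgroup.closure_le]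
  intro σ hσ
  have h3 : σ.IsThreeCycle := hσ
  obtain ⟨a₀, ha₀⟩ : ∃ a₀, a₀ ∈ σ.support := by
    have h : 0 < σ.support.card := by
      rw [h3.card_support]
      norm_num
    exact Finset.card_pos.mp h
  have heq := h3.eq_swap_mul_swap_iff_mem_support.mpr ha₀
  have hnd := h3.nodup_iff_mem_support.mpr ha₀
  simp only [List.nodup_cons, List.mem_cons, List.mem_singleton, not_or, List.not_mem_nil,
    not_false_eq_true, List.nodup_nil, and_true] at hnd
  obtain ⟨⟨h12, h13⟩, h23⟩ := hnd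
  rw [SetLike.mem_coe, heq, Equiv.swap_comm a₀ (σ a₀)]
  exact hC (σ a₀) a₀ (σ (σ a₀)) (Ne.symm h12) h23 h13

omit [Fintype Ω] in
theorem swap_conj_fix {r s c d : Ω} (hcr : c ≠ r) (hcs : c ≠ s) (hdr : d ≠ r) (hds : d ≠ s) :
    Equiv.swap r s * Equiv.swap c d * Equiv.swap r s = Equiv.swap c d := by
  have h := Equiv.swap_apply_apply (Equiv.swap r s) c d
  rw [Equiv.swap_apply_of_ne_of_ne hcr hcs, Equiv.swap_apply_of_ne_of_ne hdr hds,
    Equiv.swap_inv] at h
  exact h.symm

omit [DecidableEq Ω] in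
theorem block_two {b : ℕ} (f : Ω → Fin b) (hf : ∀ i : Fin b, Nat.card {x : Ω // f x = i} = 2)
    (s t : Ω) (hst : s ≠ t) (hfst : f s = f t) (z : Ω) (hz : f z = f s) : z = s ∨ z = t := by
  obtain ⟨y₀, hy₀, hy₀'⟩ :=
    (Nat.card_eq_two_iff' (⟨s, rfl⟩ : {z : Ω // f z = f s})).mp (hf (f s))
  have ht : (⟨t, hfst.symm⟩ : {z : Ω // f z = f s}) = y₀ :=
    hy₀' _ (fun h => hst (congrArg Subtype.val h).symm)
  by_cases hzs : z = s
  · exact Or.inl hzs
  · right
    have hz' : (⟨z, hz⟩ : {z : Ω // f z = f s}) = y₀ :=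
      hy₀' _ (fun h => hzs (congrArg Subtype.val h))
    exact congrArg Subtype.val (hz'.trans ht.symm)

omit [DecidableEq Ω] in
theorem ne_block_two {b : ℕ} (f : Ω → Fin b) (hf : ∀ i : Fin b, Nat.card {x : Ω // f x = i} = 2)
    (s t z : Ω) (hst : s ≠ t) (hfst : f s = f t) (hzs : z ≠ s) (hzt : z ≠ t) : f z ≠ f s := by
  intro h
  rcases block_two f hf s t hst hfst z h with h' | h'
  · exact hzs h'
  · exact hzt h'

theorem blockswap_mem_W {b : ℕ} (f : Ω → Fin b)
    (hf : ∀ i : Fin b, Nat.card {x : Ω // f x = i} = 2)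
    (p p' q q' : Ω) (hpp' : p ≠ p') (hfp : f p = f p') (hqq' : q ≠ q') (hfq : f q = f q')
    (hfpq : f p ≠ f q) : Equiv.swap p q * Equiv.swap p' q' ∈ W f := by
  have hpq : p ≠ q := fun h => hfpq (by rw [h])
  have hpq' : p ≠ q' := fun h => hfpq (by rw [h, hfq])
  have hp'q : p' ≠ q := fun h => hfpq (by rw [hfp, h])
  have hp'q' : p' ≠ q' := fun h => hfpq (by rw [hfp, h, hfq])
  have key : ∀ z, f ((Equiv.swap p q * Equiv.swap p' q') z) =
      Equiv.swap (f p) (f q) (f z) := by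
    intro z
    rw [Equiv.Perm.mul_apply]
    by_cases hzp : z = p
    · rw [hzp, Equiv.swap_apply_of_ne_of_ne hpp' hpq', Equiv.swap_apply_left,
        Equiv.swap_apply_left]
    by_cases hzq : z = q
    · rw [hzq, Equiv.swap_apply_of_ne_of_ne hp'q.symm hqq', Equiv.swap_apply_right,
        Equiv.swap_apply_right]
    by_cases hzp' : z = p'
    · rw [hzp', Equiv.swap_apply_left, Equiv.swap_apply_of_ne_of_ne hpq'.symm hqq'.symm,
        ← hfp, Equiv.swap_apply_left, hfq]
    by_cases hzq' : z = q'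
    · rw [hzq', Equiv.swap_apply_right, Equiv.swap_apply_of_ne_of_ne hpp'.symm hp'q,
        ← hfq, Equiv.swap_apply_right, hfp]
    · rw [Equiv.swap_apply_of_ne_of_ne hzp' hzq', Equiv.swap_apply_of_ne_of_ne hzp hzq,
        Equiv.swap_apply_of_ne_of_ne]
      · exact ne_block_two f hf p p' z hpp' hfp hzp hzp'
      · exact ne_block_two f hf q q' z hqq' hfq hzq hzq'
  intro z₁ z₂
  rw [key, key]
  exact (Equiv.swap (f p) (f q)).injective.eq_iff.symm

theorem exists_third (a b : ℕ) (ha : 3 ≤ a) (f : Ω → Fin b)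
    (hf : ∀ i : Fin b, Nat.card {x : Ω // f x = i} = a) (x y : Ω) :
    ∃ z, z ≠ x ∧ z ≠ y ∧ f z = f x := by
  by_contra hcon
  push Not at hcon
  have h1 := hf (f x)
  rw [Nat.card_eq_fintype_card, Fintype.card_subtype] at h1
  have h2 : (Finset.univ.filter (fun z => f z = f x)) ⊆ {x, y} := by
    intro z hz
    rw [Finset.mem_filter] at hz
    rw [Finset.mem_insert, Finset.mem_singleton]
    by_contra h
    push Not at h
    exact hcon z h.1 h.2 hz.2
  have h3 := Finset.card_le_card h2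
  have h4 := Finset.card_le_two (a := x) (b := y)
  omega

theorem three_cycle_of_two (b : ℕ) (hb : 3 ≤ b) (hb4 : b ≠ 4) (f : Ω → Fin b)
    (hf : ∀ i : Fin b, Nat.card {x : Ω // f x = i} = 2) (M : Subgroup (Equiv.Perm Ω))
    (hWM : W f ⊓ alternatingGroup Ω ≤ M) (g : Equiv.Perm Ω) (hg : g ∈ M) (x y : Ω) (hxy : x ≠ y)
    (hfxy : f x = f y) (hgxy : f (g x) ≠ f (g y)) :
    ∃ u v w : Ω, u ≠ v ∧ u ≠ w ∧ v ≠ w ∧ f u ≠ f v ∧ Equiv.swap u v * Equiv.swap u w ∈ M := by
  obtain ⟨p, hp⟩ : ∃ p, p = g x := ⟨_, rfl⟩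
  obtain ⟨q, hq⟩ : ∃ q, q = g y := ⟨_, rfl⟩
  rw [← hp, ← hq] at hgxy
  obtain ⟨p', hp'p, hfp'⟩ := exists_partner 2 b le_rfl f hf p
  obtain ⟨q', hq'q, hfq'⟩ := exists_partner 2 b le_rfl f hf q
  have hpq : p ≠ q := fun h => hgxy (by rw [h])
  have hpq' : p ≠ q' := fun h => hgxy (by rw [h, hfq'])
  have hp'q : p' ≠ q := fun h => hgxy (by rw [← hfp', h])
  have hp'q' : p' ≠ q' := fun h => hgxy (by rw [← hfp', h, hfq'])
  obtain ⟨u, hu⟩ : ∃ u, g u = p' := ⟨g⁻¹ p', by simp⟩
  have hux : u ≠ x := fun h => hp'p (by rw [← hu, h, hp])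
  have huy : u ≠ y := fun h => hp'q (by rw [← hu, h, hq])
  obtain ⟨u', hu'u, hfu'⟩ := exists_partner 2 b le_rfl f hf u
  have hfux : f u ≠ f x := ne_block_two f hf x y u hxy hfxy hux huy
  have hu'x : u' ≠ x := fun h => hfux (by rw [← hfu', h])
  have hu'y : u' ≠ y := fun h => hfux (by rw [← hfu', h, hfxy])
  obtain ⟨s₁, hs₁⟩ : ∃ s₁, s₁ = g u' := ⟨_, rfl⟩
  have hs₁p : s₁ ≠ p := by
    rw [hs₁, hp]
    exact fun h => hu'x (g.injective h)
  have hs₁q : s₁ ≠ q := by
    rw [hs₁, hq]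
    exact fun h => hu'y (g.injective h)
  have hs₁p' : s₁ ≠ p' := by
    rw [hs₁, ← hu]
    exact fun h => hu'u (g.injective h)
  have hconj2 : ∀ c d c' d' : Ω, c ≠ d → c' ≠ d' → f c = f d → f c' = f d' →
      Equiv.swap (g c) (g d) * Equiv.swap (g c') (g d') ∈ M := by
    intro c d c' d' hcd hcd' hfcd hfcd'
    have h1 : Equiv.swap c d * Equiv.swap c' d' ∈ M :=
      hWM ⟨(W f).mul_mem (swap_mem_W f hfcd) (swap_mem_W f hfcd'), dswap_mem_alt hcd hcd'⟩
    have h2 := M.mul_mem (M.mul_mem hg h1) (M.inv_mem hg)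
    have h3 : g * (Equiv.swap c d * Equiv.swap c' d') * g⁻¹ =
        Equiv.swap (g c) (g d) * Equiv.swap (g c') (g d') := by
      rw [Equiv.swap_apply_apply, Equiv.swap_apply_apply]
      group
    rw [h3] at h2
    exact h2
  by_cases hs₁q' : s₁ = q'
  · -- a third block
    obtain ⟨v, hfvx, hfvu⟩ : ∃ v, f v ≠ f x ∧ f v ≠ f u := by
      obtain ⟨i, hi⟩ : ∃ i : Fin b, i ∉ ({f x, f u} : Finset (Fin b)) := by
        by_contra hcon
        push Not at hcon
        have h1 : (Finset.univ : Finset (Fin b)) ⊆ {f x, f u} := fun i _ => hcon i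
        have h2 := Finset.card_le_card h1
        rw [Finset.card_univ, Fintype.card_fin] at h2
        have h3 := Finset.card_le_two (a := f x) (b := f u)
        omega
      simp only [Finset.mem_insert, Finset.mem_singleton, not_or] at hi
      have h1 : 0 < Nat.card {z : Ω // f z = i} := by
        rw [hf]
        norm_num
      rw [Nat.card_pos_iff] at h1
      obtain ⟨⟨v, hv⟩⟩ := h1.1
      exact ⟨v, by rw [hv]; exact hi.1, by rw [hv]; exact hi.2⟩
    obtain ⟨v', hv'v, hfv'⟩ := exists_partner 2 b le_rfl f hf v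
    obtain ⟨r, hr⟩ : ∃ r, r = g v := ⟨_, rfl⟩
    obtain ⟨s, hs⟩ : ∃ s, s = g v' := ⟨_, rfl⟩
    have hvx : v ≠ x := fun h => hfvx (by rw [h])
    have hvy : v ≠ y := fun h => hfvx (by rw [h, hfxy])
    have hvu : v ≠ u := fun h => hfvu (by rw [h])
    have hvu' : v ≠ u' := fun h => hfvu (by rw [h, hfu'])
    have hv'x : v' ≠ x := fun h => hfvx (by rw [← hfv', h])
    have hv'y : v' ≠ y := fun h => hfvx (by rw [← hfv', h, hfxy])
    have hv'u : v' ≠ u := fun h => hfvu (by rw [← hfv', h])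
    have hv'u' : v' ≠ u' := fun h => hfvu (by rw [← hfv', h, hfu'])
    have hrp : r ≠ p := by
      rw [hr, hp]
      exact fun h => hvx (g.injective h)
    have hrq : r ≠ q := by
      rw [hr, hq]
      exact fun h => hvy (g.injective h)
    have hrp' : r ≠ p' := by
      rw [hr, ← hu]
      exact fun h => hvu (g.injective h)
    have hrq' : r ≠ q' := by
      rw [hr, ← hs₁q', hs₁]
      exact fun h => hvu' (g.injective h)
    have hsp : s ≠ p := by
      rw [hs, hp]
      exact fun h => hv'x (g.injective h)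
    have hsq : s ≠ q := by
      rw [hs, hq]
      exact fun h => hv'y (g.injective h)
    have hsp' : s ≠ p' := by
      rw [hs, ← hu]
      exact fun h => hv'u (g.injective h)
    have hsq' : s ≠ q' := by
      rw [hs, ← hs₁q', hs₁]
      exact fun h => hv'u' (g.injective h)
    have hrs : r ≠ s := by
      rw [hr, hs]
      exact fun h => hv'v (g.injective h).symm
    have ht' := hconj2 x y v v' hxy hv'v.symm hfxy hfv'.symm
    rw [← hp, ← hq, ← hr, ← hs] at ht'
    by_cases hfrs : f r = f s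
    · have hw : Equiv.swap p p' * Equiv.swap r s ∈ M :=
        hWM ⟨(W f).mul_mem (swap_mem_W f hfp'.symm) (swap_mem_W f hfrs),
          dswap_mem_alt hp'p.symm hrs⟩
      have h1 := M.mul_mem ht' hw
      have h2 : Equiv.swap p q * Equiv.swap r s * (Equiv.swap p p' * Equiv.swap r s) =
          Equiv.swap p q * Equiv.swap p p' := by
        rw [mul_assoc, ← mul_assoc (Equiv.swap r s),
          swap_conj_fix hrp.symm hsp.symm hrp'.symm hsp'.symm]
      rw [h2] at h1
      exact ⟨p, q, p', hpq, hp'p.symm, hp'q.symm, hgxy, h1⟩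
    · have hfrp : f r ≠ f p := ne_block_two f hf p p' r hp'p.symm hfp'.symm hrp hrp'
      have hfrq : f r ≠ f q := ne_block_two f hf q q' r hq'q.symm hfq'.symm hrq hrq'
      have hfsp : f s ≠ f p := ne_block_two f hf p p' s hp'p.symm hfp'.symm hsp hsp'
      have hfsq : f s ≠ f q := ne_block_two f hf q q' s hq'q.symm hfq'.symm hsq hsq'
      obtain ⟨z, hzp, hzq, hzr, hzs⟩ : ∃ z, f z ≠ f p ∧ f z ≠ f q ∧ f z ≠ f r ∧ f z ≠ f s := by
        obtain ⟨i, hi⟩ : ∃ i : Fin b, i ∉ ({f p, f q, f r, f s} : Finset (Fin b)) := by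
          by_contra hcon
          push Not at hcon
          have h1 : (Finset.univ : Finset (Fin b)) ⊆ {f p, f q, f r, f s} := fun i _ => hcon i
          have h2 := Finset.card_le_card h1
          rw [Finset.card_univ, Fintype.card_fin] at h2
          have h3 := Finset.card_le_four (a := f p) (b := f q) (c := f r) (d := f s)
          have h4 : ({f p, f q, f r, f s} : Finset (Fin b)).card = 4 := by
            rw [Finset.card_insert_of_notMem, Finset.card_insert_of_notMem,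
              Finset.card_insert_of_notMem, Finset.card_singleton]
            · simpa using hfrs
            · simp only [Finset.mem_insert, Finset.mem_singleton, not_or]
              exact ⟨fun h => hfrq h.symm, fun h => hfsq h.symm⟩
            · simp only [Finset.mem_insert, Finset.mem_singleton, not_or]
              exact ⟨hgxy, fun h => hfrp h.symm, fun h => hfsp h.symm⟩
          have h5 := Finset.card_le_univ ({f p, f q, f r, f s} : Finset (Fin b))
          rw [Fintype.card_fin] at h5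
          omega
        simp only [Finset.mem_insert, Finset.mem_singleton, not_or] at hi
        have h1 : 0 < Nat.card {z : Ω // f z = i} := by
          rw [hf]
          norm_num
        rw [Nat.card_pos_iff] at h1
        obtain ⟨⟨z, hz⟩⟩ := h1.1
        exact ⟨z, by rw [hz]; exact hi.1, by rw [hz]; exact hi.2.1, by rw [hz]; exact hi.2.2.1,
          by rw [hz]; exact hi.2.2.2⟩
      obtain ⟨z', hz'z, hfz'⟩ := exists_partner 2 b le_rfl f hf z
      have hpz : p ≠ z := fun h => hzp (by rw [h])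
      have hpz' : p ≠ z' := fun h => hzp (by rw [← hfz', h])
      have hqz : q ≠ z := fun h => hzq (by rw [h])
      have hqz' : q ≠ z' := fun h => hzq (by rw [← hfz', h])
      have hrz : r ≠ z := fun h => hzr (by rw [h])
      have hrz' : r ≠ z' := fun h => hzr (by rw [← hfz', h])
      have hsz : s ≠ z := fun h => hzs (by rw [h])
      have hsz' : s ≠ z' := fun h => hzs (by rw [← hfz', h])
      have hw : Equiv.swap q q' * Equiv.swap z z' ∈ M :=
        hWM ⟨(W f).mul_mem (swap_mem_W f hfq'.symm) (swap_mem_W f hfz'.symm),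
          dswap_mem_alt hq'q.symm hz'z.symm⟩
      have h1 := M.mul_mem (M.mul_mem hw ht') (M.inv_mem hw)
      have h2 : Equiv.swap q q' * Equiv.swap z z' * (Equiv.swap p q * Equiv.swap r s) *
          (Equiv.swap q q' * Equiv.swap z z')⁻¹ = Equiv.swap p q' * Equiv.swap r s := by
        have h3 : ∀ c d : Ω, (Equiv.swap q q' * Equiv.swap z z') * Equiv.swap c d *
            (Equiv.swap q q' * Equiv.swap z z')⁻¹ =
            Equiv.swap ((Equiv.swap q q' * Equiv.swap z z') c)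
              ((Equiv.swap q q' * Equiv.swap z z') d) :=
          fun c d => (Equiv.swap_apply_apply _ c d).symm
        have h4 : Equiv.swap q q' * Equiv.swap z z' * (Equiv.swap p q * Equiv.swap r s) *
            (Equiv.swap q q' * Equiv.swap z z')⁻¹ =
            (Equiv.swap q q' * Equiv.swap z z' * Equiv.swap p q *
              (Equiv.swap q q' * Equiv.swap z z')⁻¹) *
            (Equiv.swap q q' * Equiv.swap z z' * Equiv.swap r s *
              (Equiv.swap q q' * Equiv.swap z z')⁻¹) := by group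
        rw [h4, h3, h3]
        have e1 : (Equiv.swap q q' * Equiv.swap z z') p = p := by
          rw [Equiv.Perm.mul_apply, Equiv.swap_apply_of_ne_of_ne hpz hpz',
            Equiv.swap_apply_of_ne_of_ne hpq hpq']
        have e2 : (Equiv.swap q q' * Equiv.swap z z') q = q' := by
          rw [Equiv.Perm.mul_apply, Equiv.swap_apply_of_ne_of_ne hqz hqz',
            Equiv.swap_apply_left]
        have e3 : (Equiv.swap q q' * Equiv.swap z z') r = r := by
          rw [Equiv.Perm.mul_apply, Equiv.swap_apply_of_ne_of_ne hrz hrz',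
            Equiv.swap_apply_of_ne_of_ne hrq hrq']
        have e4 : (Equiv.swap q q' * Equiv.swap z z') s = s := by
          rw [Equiv.Perm.mul_apply, Equiv.swap_apply_of_ne_of_ne hsz hsz',
            Equiv.swap_apply_of_ne_of_ne hsq hsq']
        rw [e1, e2, e3, e4]
      rw [h2] at h1
      have h5 := M.mul_mem ht' h1
      have h6 : Equiv.swap p q * Equiv.swap r s * (Equiv.swap p q' * Equiv.swap r s) =
          Equiv.swap p q * Equiv.swap p q' := by
        rw [mul_assoc, ← mul_assoc (Equiv.swap r s),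
          swap_conj_fix hrp.symm hsp.symm hrq'.symm hsq'.symm]
      rw [h6] at h5
      exact ⟨p, q, q', hpq, hpq', hq'q.symm, hgxy, h5⟩
  · have ht' := hconj2 x y u u' hxy hu'u.symm hfxy hfu'.symm
    rw [← hp, ← hq, hu, ← hs₁] at ht'
    have hw : Equiv.swap p q * Equiv.swap p' q' ∈ M :=
      hWM ⟨blockswap_mem_W f hf p p' q q' hp'p.symm hfp'.symm hq'q.symm hfq'.symm hgxy,
        dswap_mem_alt hpq hp'q'⟩
    have h1 := M.mul_mem ht' hw
    have h2 : Equiv.swap p q * Equiv.swap p' s₁ * (Equiv.swap p q * Equiv.swap p' q') =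
        Equiv.swap p' s₁ * Equiv.swap p' q' := by
      rw [← mul_assoc, swap_conj_fix hp'p hp'q hs₁p hs₁q]
    rw [h2] at h1
    refine ⟨p', s₁, q', hs₁p'.symm, hp'q', hs₁q', ?_, h1⟩
    intro h
    exact ne_block_two f hf p p' s₁ hp'p.symm hfp'.symm hs₁p hs₁p' (by rw [← h, hfp'])


theorem three_cycle_of_two_two (f : Ω → Fin 2)
    (hf : ∀ i : Fin 2, Nat.card {x : Ω // f x = i} = 2) (M : Subgroup (Equiv.Perm Ω))
    (hWM : W f ⊓ alternatingGroup Ω ≤ M) (hMA : M ≤ alternatingGroup Ω) (g : Equiv.Perm Ω)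
    (hg : g ∈ M) (x y : Ω) (hxy : x ≠ y) (hfxy : f x = f y) (hgxy : f (g x) ≠ f (g y)) :
    ∃ u v w : Ω, u ≠ v ∧ u ≠ w ∧ v ≠ w ∧ f u ≠ f v ∧ Equiv.swap u v * Equiv.swap u w ∈ M := by
  have hcard : Fintype.card Ω = 4 := by
    obtain ⟨e, -⟩ := exists_equiv 2 2 f hf
    rw [Fintype.card_congr e, Fintype.card_prod, Fintype.card_fin]
  obtain ⟨p, hp⟩ : ∃ p, p = g x := ⟨_, rfl⟩
  obtain ⟨q, hq⟩ : ∃ q, q = g y := ⟨_, rfl⟩
  rw [← hp, ← hq] at hgxy
  obtain ⟨w₁, hw₁M, hw₁W, hw₁p⟩ : ∃ w₁ ∈ M, w₁ ∈ W f ∧ w₁ p = x := by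
    by_cases hpx : p = x
    · exact ⟨1, M.one_mem, (W f).one_mem, by rw [hpx]; rfl⟩
    by_cases hfpx : f p = f x
    · obtain ⟨v, hv⟩ := exists_other_block 2 2 le_rfl le_rfl f hf (f x)
      obtain ⟨v', hv'v, hfv'⟩ := exists_partner 2 2 le_rfl f hf v
      have hpv : p ≠ v := fun h => hv (by rw [← h, hfpx])
      have hpv' : p ≠ v' := fun h => hv (by rw [← hfv', ← h, hfpx])
      have hmemW : Equiv.swap p x * Equiv.swap v v' ∈ W f :=
        (W f).mul_mem (swap_mem_W f hfpx) (swap_mem_W f hfv'.symm)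
      refine ⟨Equiv.swap p x * Equiv.swap v v', hWM ⟨hmemW, dswap_mem_alt hpx hv'v.symm⟩,
        hmemW, ?_⟩
      rw [Equiv.Perm.mul_apply, Equiv.swap_apply_of_ne_of_ne hpv hpv', Equiv.swap_apply_left]
    · obtain ⟨p', hp'p, hfp'⟩ := exists_partner 2 2 le_rfl f hf p
      have hmemW : Equiv.swap p x * Equiv.swap p' y ∈ W f :=
        blockswap_mem_W f hf p p' x y hp'p.symm hfp'.symm hxy hfxy hfpx
      have hp'y : p' ≠ y := fun h => hfpx (by rw [← hfp', h, hfxy])
      have hpy : p ≠ y := fun h => hfpx (by rw [h, hfxy])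
      refine ⟨_, hWM ⟨hmemW, dswap_mem_alt hpx hp'y⟩, hmemW, ?_⟩
      rw [Equiv.Perm.mul_apply, Equiv.swap_apply_of_ne_of_ne hp'p.symm hpy,
        Equiv.swap_apply_left]
  obtain ⟨g₁, hg₁⟩ : ∃ g₁, g₁ = w₁ * g := ⟨_, rfl⟩
  have hg₁M : g₁ ∈ M := by
    rw [hg₁]
    exact M.mul_mem hw₁M hg
  have hg₁x : g₁ x = x := by
    rw [hg₁, Equiv.Perm.mul_apply, ← hp, hw₁p]
  have hg₁y : g₁ y ≠ y := by
    rw [hg₁, Equiv.Perm.mul_apply, ← hq]
    intro h
    have h1 := (hw₁W p q).mpr (by rw [hw₁p, h, hfxy])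
    exact hgxy h1
  have hg₁ne : g₁ ≠ 1 := by
    intro h
    rw [h] at hg₁y
    exact hg₁y rfl
  have hsupp : g₁.support.card ≤ 3 := by
    have h1 : g₁.support ⊆ Finset.univ.erase x := by
      intro z hz
      rw [Finset.mem_erase]
      refine ⟨?_, Finset.mem_univ _⟩
      rintro rfl
      rw [Equiv.Perm.mem_support] at hz
      exact hz hg₁x
    have h2 := Finset.card_le_card h1
    rw [Finset.card_erase_of_mem (Finset.mem_univ _), Finset.card_univ, hcard] at h2
    exact h2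
  have h3c : g₁.IsThreeCycle := by
    rw [← card_support_eq_three_iff]
    have h0 : g₁.support.card ≠ 0 := by
      rw [Ne, Equiv.Perm.card_support_eq_zero]
      exact hg₁ne
    have h1 := Equiv.Perm.card_support_ne_one g₁
    have h2 : g₁.support.card ≠ 2 := by
      intro h
      rw [Equiv.Perm.card_support_eq_two] at h
      have h' := hMA hg₁M
      rw [Equiv.Perm.mem_alternatingGroup, h.sign_eq] at h'
      exact absurd h' (by decide)
    omega
  obtain ⟨a₀, ha₀⟩ : ∃ a₀, a₀ ∈ g₁.support := by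
    have h : 0 < g₁.support.card := by
      rw [h3c.card_support]
      norm_num
    exact Finset.card_pos.mp h
  have heq := h3c.eq_swap_mul_swap_iff_mem_support.mpr ha₀
  have hnd := h3c.nodup_iff_mem_support.mpr ha₀
  simp only [List.nodup_cons, List.mem_cons, List.mem_singleton, not_or, List.not_mem_nil,
    not_false_eq_true, List.nodup_nil, and_true] at hnd
  obtain ⟨⟨h12, h13⟩, h23⟩ := hnd
  have hmem : Equiv.swap (g₁ a₀) a₀ * Equiv.swap (g₁ a₀) (g₁ (g₁ a₀)) ∈ M := by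
    rw [Equiv.swap_comm (g₁ a₀) a₀, ← heq]
    exact hg₁M
  by_cases hf12 : f (g₁ a₀) = f a₀
  · refine ⟨g₁ a₀, g₁ (g₁ a₀), a₀, h23, Ne.symm h12, Ne.symm h13, ?_, ?_⟩
    · intro h
      exact ne_block_two f hf (g₁ a₀) a₀ (g₁ (g₁ a₀)) (Ne.symm h12) hf12 (Ne.symm h23)
        (Ne.symm h13) h.symm
    · have h := M.inv_mem hmem
      rw [mul_inv_rev, Equiv.swap_inv, Equiv.swap_inv] at h
      exact h
  · exact ⟨g₁ a₀, a₀, g₁ (g₁ a₀), Ne.symm h12, h23, h13, hf12, hmem⟩

end


/-- Let Ω be a finite set whose size is not 8, and f : Ω → Fin b a labelling with b ≥ 2 whose fibres all have the same size a ≥ 2 (a partition into b blocks of size a). Then the even permutations preserving the partition — the intersection of the imprimitive wreath product S_a ≀ S_b with the alternating group — form a maximal subgroup of the alternating group on Ω. -/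
theorem result {Ω : Type*} [Fintype Ω] [DecidableEq Ω] (h8 : Fintype.card Ω ≠ 8) (a b : ℕ) (ha : 2 ≤ a) (hb : 2 ≤ b)
    (f : Ω → Fin b) (hf : ∀ i : Fin b, Nat.card {x : Ω // f x = i} = a) :
    IsCoatom ((Subgroup.closure {g : Equiv.Perm Ω | ∀ x y : Ω, f x = f y ↔ f (g x) = f (g y)} ⊓ alternatingGroup Ω).subgroupOf (alternatingGroup Ω)) := by
  rw [closure_eq_W]
  have hcard : Fintype.card Ω = b * a := by
    obtain ⟨e, -⟩ := exists_equiv a b f hf
    rw [Fintype.card_congr e, Fintype.card_prod, Fintype.card_fin, Fintype.card_fin]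
  constructor
  · intro htop
    haveI : Nonempty Ω := by
      rw [← Fintype.card_pos_iff, hcard]
      positivity
    obtain ⟨x⟩ := ‹Nonempty Ω›
    obtain ⟨x₂, hx₂, hfx₂⟩ := exists_partner a b ha f hf x
    obtain ⟨y, hy⟩ := exists_other_block a b ha hb f hf (f x)
    have hyx : y ≠ x := fun h => hy (by rw [h])
    have hyx₂ : y ≠ x₂ := fun h => hy (by rw [h, hfx₂])
    have hmem : Equiv.swap x y * Equiv.swap x x₂ ∈ alternatingGroup Ω :=
      c_mem_alt hyx.symm hx₂.symm
    have h1 : (⟨_, hmem⟩ : alternatingGroup Ω) ∈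
        (W f ⊓ alternatingGroup Ω).subgroupOf (alternatingGroup Ω) := by
      rw [htop]
      exact Subgroup.mem_top _
    rw [Subgroup.mem_subgroupOf] at h1
    have h2 : Equiv.swap x y * Equiv.swap x x₂ ∈ W f := h1.1
    have h3 := (h2 x x₂).mp hfx₂.symm
    rw [Equiv.Perm.mul_apply, Equiv.Perm.mul_apply, Equiv.swap_apply_left,
      Equiv.swap_apply_right, Equiv.swap_apply_of_ne_of_ne hx₂ hyx₂.symm,
      Equiv.swap_apply_left] at h3
    exact hy (by rw [← h3, hfx₂])
  · intro L hL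
    obtain ⟨l, hlL, hlW⟩ : ∃ l ∈ L,
        l ∉ (W f ⊓ alternatingGroup Ω).subgroupOf (alternatingGroup Ω) := by
      by_contra hcon
      push Not at hcon
      exact hL.ne (le_antisymm hL.le hcon)
    obtain ⟨M, hM⟩ : ∃ M : Subgroup (Equiv.Perm Ω),
        M = L.map (alternatingGroup Ω).subtype := ⟨_, rfl⟩
    have hWM : W f ⊓ alternatingGroup Ω ≤ M := by
      intro k hk
      rw [hM, Subgroup.mem_map]
      refine ⟨⟨k, hk.2⟩, hL.le ?_, rfl⟩
      rw [Subgroup.mem_subgroupOf]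
      exact hk
    have hMA : M ≤ alternatingGroup Ω := by
      rw [hM]
      rintro _ ⟨k, -, rfl⟩
      exact k.2
    have hgM : (l : Equiv.Perm Ω) ∈ M := by
      rw [hM]
      exact Subgroup.mem_map_of_mem _ hlL
    have hgW : (l : Equiv.Perm Ω) ∉ W f := by
      intro h
      apply hlW
      rw [Subgroup.mem_subgroupOf]
      exact ⟨h, l.2⟩
    have hAM : alternatingGroup Ω ≤ M := by
      obtain ⟨g, hg, x, y, hxy, hfxy, hgxy⟩ : ∃ g ∈ M, ∃ x y, x ≠ y ∧ f x = f y ∧
          f (g x) ≠ f (g y) := by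
        rw [mem_W] at hgW
        push Not at hgW
        obtain ⟨x, y, h⟩ := hgW
        rcases h with ⟨h1, h2⟩ | ⟨h1, h2⟩
        · exact ⟨l, hgM, x, y, fun h => h2 (by rw [h]), h1, h2⟩
        · refine ⟨(l : Equiv.Perm Ω)⁻¹, M.inv_mem hgM, (l : Equiv.Perm Ω) x,
            (l : Equiv.Perm Ω) y,
            fun h => h1 (by rw [(l : Equiv.Perm Ω).injective h]), h2, ?_⟩
          simp only [Equiv.Perm.inv_def, Equiv.symm_apply_apply]
          exact h1
      obtain ⟨u, v, w, huv, huw, hvw, hfuv, hT⟩ : ∃ u v w : Ω, u ≠ v ∧ u ≠ w ∧ v ≠ w ∧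
          f u ≠ f v ∧ Equiv.swap u v * Equiv.swap u w ∈ M := by
        by_cases ha3 : 3 ≤ a
        · obtain ⟨z, hzx, hzy, hfz⟩ := exists_third a b ha3 f hf x y
          have hc : Equiv.swap x y * Equiv.swap x z ∈ M :=
            hWM ⟨(W f).mul_mem (swap_mem_W f hfxy) (swap_mem_W f hfz.symm),
              c_mem_alt hxy hzx.symm⟩
          have h1 := M.mul_mem (M.mul_mem hg hc) (M.inv_mem hg)
          rw [c_conj] at h1
          exact ⟨g x, g y, g z, fun h => hxy (g.injective h),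
            fun h => hzx (g.injective h).symm, fun h => hzy (g.injective h).symm, hgxy, h1⟩
        · have ha2 : a = 2 := by omega
          subst ha2
          by_cases hb2 : b = 2
          · subst hb2
            exact three_cycle_of_two_two f hf M hWM hMA g hg x y hxy hfxy hgxy
          · have hb4 : b ≠ 4 := by
              rintro rfl
              exact h8 (by rw [hcard])
            exact three_cycle_of_two b (by omega) hb4 f hf M hWM g hg x y hxy hfxy hgxy
      exact alt_le_of_three_cycle a b ha hb f hf M hWM u v w huv huw hvw hT hfuv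
    rw [eq_top_iff]
    intro k _
    have h1 := hAM k.2
    rw [hM, Subgroup.mem_map] at h1
    obtain ⟨k', hk'L, hk'⟩ := h1
    have h2 : k' = k := Subtype.ext hk'
    rw [← h2]
    exact hk'L

end Cfsg.Agent.S5909
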