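import Cfsg.Statements.S5910
import Cfsg.Agent.S5905

set_option autoImplicit false
open Cfsg

namespace Cfsg.Agent.S5910

open Cfsg.Agent.S5905

abbrev U := ZMod 2 × ZMod 2
abbrev V := U × ZMod 2

theorem sum4 : ∀ a b c d : U, a ≠ b → a ≠ c → a ≠ d → b ≠ c → b ≠ d → c ≠ d →
    a + b + c + d = 0 := by
  decide

theorem char2 : ∀ a : U, a + a = 0 := by decide

theorem char2' : ∀ a : ZMod 2, a + a = 0 := by decide

theorem z2ne : ∀ a b : ZMod 2, a ≠ b → a = 1 + b := by decide

theorem z2cases : ∀ a : ZMod 2, a = 0 ∨ a = 1 := by decide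

def sgn (a : ZMod 2) : ℤˣ := if a = 0 then 1 else -1

theorem sgn4 : ∀ a b c d : ZMod 2, sgn a * sgn b * sgn c * sgn d = 1 → a + b + c + d = 0 := by
  decide

def Hf (a b c d : ZMod 2) (u : U) : ZMod 2 :=
  if u = (0, 0) then a else if u = (0, 1) then b else if u = (1, 0) then c else d

theorem hf_affine : ∀ a b c d : ZMod 2, a + b + c + d = 0 →
    ∀ u v w : U, Hf a b c d (u + v + w) = Hf a b c d u + Hf a b c d v + Hf a b c d w := by
  decide

theorem hf_eq (h : U → ZMod 2) : h = Hf (h (0, 0)) (h (0, 1)) (h (1, 0)) (h (1, 1)) := by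
  funext u
  have hu : u = (0, 0) ∨ u = (0, 1) ∨ u = (1, 0) ∨ u = (1, 1) := by
    revert u
    decide
  rcases hu with rfl | rfl | rfl | rfl <;> simp [Hf]

def kap : Equiv.Perm V := Equiv.swap ((0, 0), 1) ((0, 1), 0) * Equiv.swap ((1, 0), 1) ((1, 1), 0)

theorem kap_affine : ∀ x y z : V, kap (x + y + z) = kap x + kap y + kap z := by
  decide

def gam : Equiv.Perm V := Equiv.swap ((0, 0), 0) ((0, 0), 1) * Equiv.swap ((0, 0), 1) ((0, 1), 0)

theorem gam_not_affine : ¬ ∀ x y z : V, gam (x + y + z) = gam x + gam y + gam z := by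
  decide

def LV : Subgroup (Equiv.Perm V) where
  carrier := {g | ∀ x y z : V, g (x + y + z) = g x + g y + g z}
  mul_mem' := by
    intro g k hg hk x y z
    change g (k (x + y + z)) = g (k x) + g (k y) + g (k z)
    rw [hk, hg]
  one_mem' := by
    intro x y z
    rfl
  inv_mem' := by
    intro g hg x y z
    apply g.injective
    rw [hg]
    simp only [Equiv.Perm.inv_def, Equiv.apply_symm_apply]

theorem prod_zmod2 {M : Type*} [CommMonoid M] (F : ZMod 2 → M) : ∏ x, F x = F 0 * F 1 :=
  Fin.prod_univ_two F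

theorem sign_addRight (a : ZMod 2) : Equiv.Perm.sign (Equiv.addRight a) = sgn a := by
  rcases z2cases a with rfl | rfl
  · have h1 : Equiv.addRight (0 : ZMod 2) = 1 := by
      ext x
      simp
    rw [h1, Equiv.Perm.sign_one]
    rfl
  · have h1 : Equiv.addRight (1 : ZMod 2) = Equiv.swap 0 1 := by
      ext x
      rcases z2cases x with rfl | rfl <;> rfl
    rw [h1, Equiv.Perm.sign_swap (by decide)]
    rfl

theorem main1 (g : Equiv.Perm V) (hg : ∀ x y : V, x.1 = y.1 ↔ (g x).1 = (g y).1)
    (hs : Equiv.Perm.sign g = 1) : g ∈ LV := by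
  have hA : ∀ (u : U) (t : ZMod 2), g (u, t) = ((g (u, 0)).1, t + (g (u, 0)).2) := by
    intro u t
    apply Prod.ext
    · exact ((hg (u, t) (u, 0)).mp rfl)
    · rcases z2cases t with rfl | rfl
      · simp
      · apply z2ne
        intro h2
        have h1 : (g (u, 1)).1 = (g (u, 0)).1 := (hg (u, 1) (u, 0)).mp rfl
        have h3 : g (u, 1) = g (u, 0) := Prod.ext h1 h2
        have h4 := g.injective h3
        have h5 : (1 : ZMod 2) = 0 := congrArg Prod.snd h4
        exact absurd h5 (by decide)
  have hB : Function.Injective (fun u : U => (g (u, 0)).1) := by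
    intro u u' h
    exact (hg (u, 0) (u', 0)).mpr h
  have hC : ∀ u v w : U, (g (u + v + w, 0)).1 = (g (u, 0)).1 + (g (v, 0)).1 + (g (w, 0)).1 := by
    intro u v w
    by_cases huv : u = v
    · subst huv
      rw [char2 u, zero_add, char2, zero_add]
    by_cases huw : u = w
    · subst huw
      have e1 : u + v + u = v := by
        rw [add_comm u v, add_assoc, char2, add_zero]
      have e2 : (g (u, 0)).1 + (g (v, 0)).1 + (g (u, 0)).1 = (g (v, 0)).1 := by
        rw [add_comm (g (u, 0)).1, add_assoc, char2, add_zero]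
      rw [e1, e2]
    by_cases hvw : v = w
    · subst hvw
      rw [add_assoc, char2, add_zero, add_assoc, char2, add_zero]
    have hd1 : u ≠ u + v + w := by
      intro h
      apply hvw
      have h2 : v + w = 0 := by
        have h3 : u + (v + w) = u + 0 := by rw [← add_assoc, ← h, add_zero]
        exact add_left_cancel h3
      have h4 : v + w + w = w := by rw [h2, zero_add]
      rw [add_assoc, char2, add_zero] at h4
      exact h4
    have hd2 : v ≠ u + v + w := by
      intro h
      apply huw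
      have h2 : u + w = 0 := by
        have h3 : v + (u + w) = v + 0 := by
          rw [add_zero]
          rw [← add_assoc, add_comm v u]
          exact h.symm
        exact add_left_cancel h3
      have h4 : u + w + w = w := by rw [h2, zero_add]
      rw [add_assoc, char2, add_zero] at h4
      exact h4
    have hd3 : w ≠ u + v + w := by
      intro h
      apply huv
      have h2 : u + v = 0 := by
        have h3 : (u + v) + w = 0 + w := by rw [zero_add]; exact h.symm
        exact add_right_cancel h3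
      have h4 : u + v + v = v := by rw [h2, zero_add]
      rw [add_assoc, char2, add_zero] at h4
      exact h4
    have h1 := sum4 (g (u, 0)).1 (g (v, 0)).1 (g (w, 0)).1 (g (u + v + w, 0)).1
      (fun h => huv (hB h)) (fun h => huw (hB h)) (fun h => hd1 (hB h)) (fun h => hvw (hB h))
      (fun h => hd2 (hB h)) (fun h => hd3 (hB h))
    have h2 : (g (u + v + w, 0)).1 =
        (g (u, 0)).1 + (g (v, 0)).1 + (g (w, 0)).1 + ((g (u, 0)).1 + (g (v, 0)).1 + (g (w, 0)).1 +
          (g (u + v + w, 0)).1) := by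
      rw [← add_assoc, char2, zero_add]
    rw [h1, add_zero] at h2
    exact h2
  have hsum : (g ((0, 0), 0)).2 + (g ((0, 1), 0)).2 + (g ((1, 0), 0)).2 + (g ((1, 1), 0)).2 = 0 := by
    have hdec : g = (Equiv.prodCongrLeft (fun _ : ZMod 2 =>
        Equiv.ofBijective (fun u : U => (g (u, 0)).1)
          ⟨hB, Finite.injective_iff_surjective.mp hB⟩)) *
        (Equiv.prodCongrRight (fun u : U => Equiv.addRight (g (u, 0)).2)) := by
      ext ⟨u, t⟩ : 1
      rw [hA u t]
      rfl
    rw [hdec, Equiv.Perm.sign_mul, Equiv.Perm.sign_prodCongrLeft,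
      Equiv.Perm.sign_prodCongrRight] at hs
    simp only [sign_addRight, Finset.prod_const, Finset.card_univ, ZMod.card,
      Fintype.prod_prod_type, prod_zmod2] at hs
    rw [pow_two, Int.units_mul_self, one_mul] at hs
    apply sgn4
    rw [← hs]
    simp only [mul_assoc]
  have hE := hf_affine _ _ _ _ hsum
  rw [← hf_eq (fun u : U => (g (u, 0)).2)] at hE
  intro x y z
  obtain ⟨u, s⟩ := x
  obtain ⟨v, t⟩ := y
  obtain ⟨w, r⟩ := z
  change g (u + v + w, s + t + r) = g (u, s) + g (v, t) + g (w, r)
  rw [hA (u + v + w), hA u, hA v, hA w]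
  apply Prod.ext
  · exact hC u v w
  · change s + t + r + (g (u + v + w, 0)).2 =
      s + (g (u, 0)).2 + (t + (g (v, 0)).2) + (r + (g (w, 0)).2)
    have h1 := hE u v w
    simp only at h1
    rw [h1]
    abel


/-- Let Ω be a set with 8 elements and f : Ω → Fin 4 a labelling whose four fibres all have size 2 (a partition of the 8 points into 4 pairs). Then the group of even permutations preserving this partition, (S₂ ≀ S₄) ∩ A₈, is not a maximal subgroup of the alternating group A₈ (it lies in a subgroup isomorphic to the affine group AGL₃(2)). -/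
theorem result {Ω : Type*} [Fintype Ω] [DecidableEq Ω] (h8 : Fintype.card Ω = 8)
    (f : Ω → Fin 4) (hf : ∀ i : Fin 4, Nat.card {x : Ω // f x = i} = 2) :
    ¬ IsCoatom ((Subgroup.closure {g : Equiv.Perm Ω | ∀ x y : Ω, f x = f y ↔ f (g x) = f (g y)} ⊓ alternatingGroup Ω).subgroupOf (alternatingGroup Ω)) := by
  classical
  obtain ⟨e₀, he₀⟩ := exists_equiv 2 4 f hf
  obtain ⟨β⟩ : Nonempty (Fin 4 ≃ U) := Fintype.card_eq.mp (by simp [ZMod.card])
  obtain ⟨β₂⟩ : Nonempty (Fin 2 ≃ ZMod 2) := Fintype.card_eq.mp (by simp [ZMod.card])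
  obtain ⟨e, he⟩ : ∃ e : Ω ≃ V, ∀ x, (e x).1 = β (e₀ x).1 :=
    ⟨e₀.trans (Equiv.prodCongr β β₂), fun x => rfl⟩
  have hE : ∀ x y : Ω, f x = f y ↔ (e x).1 = (e y).1 := by
    intro x y
    rw [he, he, β.apply_eq_iff_eq, he₀, he₀]
  rw [closure_eq_W]
  intro hco
  have hperm : ∀ σ : Equiv.Perm V, e.permCongr (e.symm.permCongr σ) = σ := by
    intro σ
    ext v : 1
    simp [Equiv.permCongr_apply]
  have h1 : (W f ⊓ alternatingGroup Ω).subgroupOf (alternatingGroup Ω) ≤
      ((LV.comap (e.permCongrHom).toMonoidHom) ⊓ alternatingGroup Ω).subgroupOf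
        (alternatingGroup Ω) := by
    rintro ⟨x, hxA⟩ hx
    rw [Subgroup.mem_subgroupOf] at hx ⊢
    refine Subgroup.mem_inf.mpr ⟨?_, hx.2⟩
    change e.permCongr x ∈ LV
    apply main1
    · intro a b
      change a.1 = b.1 ↔ (e (x (e.symm a))).1 = (e (x (e.symm b))).1
      rw [← hE, ← (mem_W f x).mp hx.1, hE, e.apply_symm_apply, e.apply_symm_apply]
    · rw [Equiv.Perm.sign_permCongr]
      exact Equiv.Perm.mem_alternatingGroup.mp hxA
  have hk_L : e.symm.permCongr kap ∈ LV.comap (e.permCongrHom).toMonoidHom := by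
    change e.permCongr (e.symm.permCongr kap) ∈ LV
    rw [hperm]
    exact kap_affine
  have hk_A : e.symm.permCongr kap ∈ alternatingGroup Ω := by
    rw [Equiv.Perm.mem_alternatingGroup, Equiv.Perm.sign_permCongr]
    unfold kap
    rw [Equiv.Perm.sign_mul, Equiv.Perm.sign_swap (by decide), Equiv.Perm.sign_swap (by decide)]
    rfl
  have hk_W : e.symm.permCongr kap ∉ W f := by
    intro hk
    have h2 := (mem_W f _).mp hk (e.symm ((0, 0), 0)) (e.symm ((0, 0), 1))
    rw [hE, hE] at h2
    simp only [Equiv.permCongr_apply, Equiv.symm_symm, Equiv.apply_symm_apply] at h2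
    revert h2
    decide
  have hlt : (W f ⊓ alternatingGroup Ω).subgroupOf (alternatingGroup Ω) <
      ((LV.comap (e.permCongrHom).toMonoidHom) ⊓ alternatingGroup Ω).subgroupOf
        (alternatingGroup Ω) := by
    refine lt_of_le_of_ne h1 ?_
    intro heq
    have h2 : (⟨e.symm.permCongr kap, hk_A⟩ : alternatingGroup Ω) ∈
        ((LV.comap (e.permCongrHom).toMonoidHom) ⊓ alternatingGroup Ω).subgroupOf
          (alternatingGroup Ω) := by
      rw [Subgroup.mem_subgroupOf]
      exact Subgroup.mem_inf.mpr ⟨hk_L, hk_A⟩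
    rw [← heq, Subgroup.mem_subgroupOf] at h2
    exact hk_W h2.1
  have htop := hco.2 _ hlt
  have hc_A : e.symm.permCongr gam ∈ alternatingGroup Ω := by
    rw [Equiv.Perm.mem_alternatingGroup, Equiv.Perm.sign_permCongr]
    unfold gam
    rw [Equiv.Perm.sign_mul, Equiv.Perm.sign_swap (by decide), Equiv.Perm.sign_swap (by decide)]
    rfl
  have h3 : (⟨e.symm.permCongr gam, hc_A⟩ : alternatingGroup Ω) ∈
      ((LV.comap (e.permCongrHom).toMonoidHom) ⊓ alternatingGroup Ω).subgroupOf
        (alternatingGroup Ω) := by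
    rw [htop]
    exact Subgroup.mem_top _
  rw [Subgroup.mem_subgroupOf] at h3
  have h4 : e.permCongr (e.symm.permCongr gam) ∈ LV := h3.1
  rw [hperm] at h4
  exact gam_not_affine h4

end Cfsg.Agent.S5910
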