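import Cfsg.Statements.S5911
-- import your own Cfsg.Agent.* helpers here

set_option autoImplicit false
open Cfsg

namespace Cfsg.Agent.S5911

theorem pair_of_mem {Ω : Type*} [DecidableEq Ω] (A : Finset Ω) (hA : A.card = 2) (a : Ω)
    (ha : a ∈ A) : ∃ z, z ≠ a ∧ A = {a, z} := by
  obtain ⟨x, y, hxy, rfl⟩ := Finset.card_eq_two.mp hA
  simp only [Finset.mem_insert, Finset.mem_singleton] at ha
  rcases ha with rfl | rfl
  · exact ⟨y, hxy.symm, rfl⟩
  · exact ⟨x, hxy, Finset.pair_comm x a⟩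

theorem star {Ω ι : Type*} [DecidableEq Ω] (A : ι → Finset Ω) (hcard : ∀ i, (A i).card = 2)
    (hne : ∀ i j, i ≠ j → A i ≠ A j) (hint : ∀ i j, (A i ∩ A j).Nonempty)
    (i₁ i₂ i₃ i₄ : ι) (h12 : i₁ ≠ i₂) (h13 : i₁ ≠ i₃) (h14 : i₁ ≠ i₄) (h23 : i₂ ≠ i₃)
    (h24 : i₂ ≠ i₄) (h34 : i₃ ≠ i₄) : ∃ a, ∀ i, a ∈ A i := by
  obtain ⟨a, ha⟩ := hint i₁ i₂
  rw [Finset.mem_inter] at ha
  obtain ⟨v, hva, hv⟩ := pair_of_mem _ (hcard i₁) a ha.1
  obtain ⟨w, hwa, hw⟩ := pair_of_mem _ (hcard i₂) a ha.2
  have hvw : v ≠ w := by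
    rintro rfl
    exact hne i₁ i₂ h12 (hv.trans hw.symm)
  refine ⟨a, ?_⟩
  by_contra hcon
  push Not at hcon
  obtain ⟨i, hi⟩ := hcon
  have hvi : v ∈ A i := by
    obtain ⟨x, hx⟩ := hint i₁ i
    rw [Finset.mem_inter, hv] at hx
    grind
  have hwi : w ∈ A i := by
    obtain ⟨x, hx⟩ := hint i₂ i
    rw [Finset.mem_inter, hw] at hx
    grind
  have hAi : A i = {v, w} := by
    symm
    apply Finset.eq_of_subset_of_card_le
    · intro x hx
      grind
    · rw [hcard i, Finset.card_pair hvw]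
  have key : ∀ j, j = i ∨ j = i₁ ∨ j = i₂ := by
    intro j
    by_cases haj : a ∈ A j
    · obtain ⟨z, hza, hz⟩ := pair_of_mem _ (hcard j) a haj
      obtain ⟨x, hx⟩ := hint j i
      rw [Finset.mem_inter, hz, hAi] at hx
      have hz' : z = v ∨ z = w := by grind
      rcases hz' with rfl | rfl
      · right
        left
        by_contra hj
        exact hne j i₁ hj (hz.trans hv.symm)
      · right
        right
        by_contra hj
        exact hne j i₂ hj (hz.trans hw.symm)
    · left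
      by_contra hj
      apply hne j i hj
      have hvj : v ∈ A j := by
        obtain ⟨x, hx⟩ := hint i₁ j
        rw [Finset.mem_inter, hv] at hx
        grind
      have hwj : w ∈ A j := by
        obtain ⟨x, hx⟩ := hint i₂ j
        rw [Finset.mem_inter, hw] at hx
        grind
      rw [hAi]
      symm
      apply Finset.eq_of_subset_of_card_le
      · intro x hx
        grind
      · rw [hcard j, Finset.card_pair hvw]
  have h3 := key i₃
  have h4 := key i₄
  grind

theorem fact_ineq : ∀ k : ℕ, 3 ≤ k → 2 ^ k * (k + 1).factorial < (2 * k).factorial := by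
  intro k hk
  induction k, hk using Nat.le_induction with
  | base => decide
  | succ k hk ih =>
    have h1 : (2 * (k + 1)).factorial = (2 * k + 2) * (2 * k + 1) * (2 * k).factorial := by
      rw [show 2 * (k + 1) = (2 * k + 1) + 1 by ring, Nat.factorial_succ, Nat.factorial_succ]
      ring
    have h2 : (k + 1 + 1).factorial = (k + 2) * (k + 1).factorial := Nat.factorial_succ (k + 1)
    rw [h1, h2, pow_succ]
    have h3 : 2 * (k + 2) ≤ (2 * k + 2) * (2 * k + 1) := by nlinarith
    calc 2 ^ k * 2 * ((k + 2) * (k + 1).factorial)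
        = (2 * (k + 2)) * (2 ^ k * (k + 1).factorial) := by ring
      _ ≤ (2 * k + 2) * (2 * k + 1) * (2 ^ k * (k + 1).factorial) := Nat.mul_le_mul_right _ h3
      _ < (2 * k + 2) * (2 * k + 1) * (2 * k).factorial :=
          Nat.mul_lt_mul_of_pos_left ih (by positivity)

theorem count_lemma (m k : ℕ)
    (h : m.factorial * 2 ^ (k + 1) * (k + 1).factorial = (m + 2 * k).factorial * 2) :
    k = 0 ∨ (k = 2 ∧ m = 0) := by
  have hm : 0 < m.factorial := Nat.factorial_pos m
  rcases k with _ | _ | _ | k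
  · left
    rfl
  · exfalso
    have h1 : (m + 2 * 1).factorial = (m + 2) * (m + 1) * m.factorial := by
      rw [show m + 2 * 1 = (m + 1) + 1 by ring, Nat.factorial_succ, Nat.factorial_succ]
      ring
    rw [h1] at h
    have h2 : (2 : ℕ) ^ (0 + 1 + 1) * (0 + 1 + 1).factorial = 8 := by decide
    have h3 : m.factorial * 8 = m.factorial * ((m + 2) * (m + 1) * 2) := by
      rw [← h2, ← mul_assoc, h]
      ring
    have h4 := Nat.eq_of_mul_eq_mul_left hm h3
    rcases m with _ | m
    · omega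
    · nlinarith
  · right
    refine ⟨rfl, ?_⟩
    have h1 : (m + 2 * 2).factorial = (m + 4) * (m + 3) * (m + 2) * (m + 1) * m.factorial := by
      rw [show m + 2 * 2 = (((m + 1) + 1) + 1) + 1 by ring, Nat.factorial_succ,
        Nat.factorial_succ, Nat.factorial_succ, Nat.factorial_succ]
      ring
    rw [h1] at h
    have h2 : (2 : ℕ) ^ (0 + 1 + 1 + 1) * (0 + 1 + 1 + 1).factorial = 48 := by decide
    have h3 : m.factorial * 48 = m.factorial * ((m + 4) * (m + 3) * (m + 2) * (m + 1) * 2) := by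
      rw [← h2, ← mul_assoc, h]
      ring
    have h4 := Nat.eq_of_mul_eq_mul_left hm h3
    by_contra hm0
    have h5 : 1 ≤ m := Nat.one_le_iff_ne_zero.mpr hm0
    have h6 : 5 * 4 ≤ (m + 4) * (m + 3) := Nat.mul_le_mul (by omega) (by omega)
    have h7 : 5 * 4 * 3 ≤ (m + 4) * (m + 3) * (m + 2) := Nat.mul_le_mul h6 (by omega)
    have h8 : 5 * 4 * 3 * 2 ≤ (m + 4) * (m + 3) * (m + 2) * (m + 1) :=
      Nat.mul_le_mul h7 (by omega)
    omega
  · exfalso
    have h1 := fact_ineq (k + 3) (by omega)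
    have h2 : m.factorial * (2 * (k + 3)).factorial ≤ (m + 2 * (k + 3)).factorial :=
      Nat.le_of_dvd (Nat.factorial_pos _) (Nat.factorial_mul_factorial_dvd_factorial_add _ _)
    have h3 : m.factorial * (2 ^ (k + 3) * (k + 3 + 1).factorial) <
        m.factorial * (2 * (k + 3)).factorial := Nat.mul_lt_mul_of_pos_left h1 hm
    have h4 : m.factorial * 2 ^ (k + 3 + 1) * (k + 3 + 1).factorial =
        (m.factorial * (2 ^ (k + 3) * (k + 3 + 1).factorial)) * 2 := by
      rw [pow_succ]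
      ring
    rw [h4] at h
    have h5 := Nat.eq_of_mul_eq_mul_right (by norm_num : 0 < 2) h
    have h2' : m.factorial * (2 * (k + 3)).factorial ≤ (m + 2 * (k + 1 + 1 + 1)).factorial := h2
    rw [← h5] at h2'
    exact absurd h3 (not_lt.mpr h2')

theorem card_centralizer_iso {A B : Type*} [Group A] [Group B] (ψ : A ≃* B) (τ : A) :
    Nat.card (Subgroup.centralizer ({ψ τ} : Set B)) =
      Nat.card (Subgroup.centralizer ({τ} : Set A)) := by
  symm
  refine Nat.card_congr
    { toFun := fun g => ⟨ψ g.1, ?_⟩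
      invFun := fun g => ⟨ψ.symm g.1, ?_⟩
      left_inv := fun g => Subtype.ext (ψ.symm_apply_apply g.1)
      right_inv := fun g => Subtype.ext (ψ.apply_symm_apply g.1) }
  · have h := Subgroup.mem_centralizer_singleton_iff.mp g.2
    rw [Subgroup.mem_centralizer_singleton_iff, ← map_mul, ← map_mul, h]
  · have h := Subgroup.mem_centralizer_singleton_iff.mp g.2
    rw [Subgroup.mem_centralizer_singleton_iff]
    apply ψ.injective
    rw [map_mul, map_mul, ψ.apply_symm_apply]
    exact h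

theorem iso_swap {X Ω : Type*} [Fintype X] [DecidableEq X] [Fintype Ω] [DecidableEq Ω]
    (hcard : Fintype.card X = Fintype.card Ω) (h6 : Fintype.card Ω ≠ 6)
    (ψ : Equiv.Perm X ≃* Equiv.Perm Ω) (τ : Equiv.Perm X) (hτ : τ.IsSwap) : (ψ τ).IsSwap := by
  have ho : orderOf (ψ τ) = 2 := by rw [MulEquiv.orderOf_eq, hτ.orderOf]
  obtain ⟨k, hk⟩ := Equiv.Perm.cycleType_prime_order (σ := ψ τ) (by
    rw [ho]
    exact Nat.prime_two)
  rw [ho] at hk
  have hc1 := Equiv.Perm.nat_card_centralizer τ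
  have hc2 := Equiv.Perm.nat_card_centralizer (ψ τ)
  rw [Equiv.Perm.isSwap_iff_cycleType.mp hτ] at hc1
  rw [hk, card_centralizer_iso ψ τ, hc1] at hc2
  have hsum : (ψ τ).cycleType.sum ≤ Fintype.card Ω := Equiv.Perm.sum_cycleType_le _
  rw [hk, Multiset.sum_replicate, smul_eq_mul] at hsum
  have e1 : (Multiset.replicate (k + 1) 2).toFinset = {2} := by
    rw [Multiset.toFinset_replicate, if_neg (Nat.succ_ne_zero k)]
  rw [Multiset.sum_replicate, Multiset.prod_replicate, e1, Finset.prod_singleton,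
    Multiset.count_replicate_self, smul_eq_mul] at hc2
  simp only [Multiset.sum_singleton, Multiset.prod_singleton, Multiset.toFinset_singleton,
    Finset.prod_singleton, Multiset.count_singleton_self, Nat.factorial_one, mul_one] at hc2
  have e2 : Fintype.card X - 2 = (Fintype.card Ω - (k + 1) * 2) + 2 * k := by omega
  rw [e2] at hc2
  rcases count_lemma _ k hc2.symm with h0 | ⟨h2, hm⟩
  · subst h0
    rw [Equiv.Perm.isSwap_iff_cycleType, hk]
    rfl
  · exfalso
    subst h2
    omega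

theorem swap_eq_of_support_eq {Ω : Type*} [Fintype Ω] [DecidableEq Ω] {σ τ : Equiv.Perm Ω}
    (hσ : σ.IsSwap) (hτ : τ.IsSwap) (h : σ.support = τ.support) : σ = τ := by
  obtain ⟨a, b, hab, rfl⟩ := hσ
  obtain ⟨c, d, hcd, rfl⟩ := hτ
  rw [Equiv.Perm.support_swap hab, Equiv.Perm.support_swap hcd] at h
  have ha : a ∈ ({c, d} : Finset Ω) := by
    rw [← h]
    simp
  have hb : b ∈ ({c, d} : Finset Ω) := by
    rw [← h]
    simp
  simp only [Finset.mem_insert, Finset.mem_singleton] at ha hb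
  rcases ha with rfl | rfl
  · rcases hb with rfl | rfl
    · exact absurd rfl hab
    · rfl
  · rcases hb with rfl | rfl
    · exact Equiv.swap_comm _ _
    · exact absurd rfl hab

theorem eq_of_le_of_index_eq {G : Type*} [Group G] [Finite G] {H K : Subgroup G} (hle : H ≤ K)
    (h : H.index = K.index) : H = K := by
  apply le_antisymm hle
  rw [← Subgroup.relIndex_eq_one]
  have h1 := Subgroup.relIndex_mul_index hle
  rw [h] at h1
  have h2 : K.index ≠ 0 := Subgroup.index_ne_zero_of_finite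
  have h3 : H.relIndex K * K.index = 1 * K.index := by rw [h1, one_mul]
  exact Nat.eq_of_mul_eq_mul_right (Nat.pos_of_ne_zero h2) h3

theorem main_large {Ω : Type*} [Fintype Ω] [DecidableEq Ω] (h5 : 5 ≤ Fintype.card Ω)
    (h6 : Fintype.card Ω ≠ 6) (H : Subgroup (Equiv.Perm Ω)) (hH : H.index = Fintype.card Ω) :
    ∃ x : Ω, H = MulAction.stabilizer (Equiv.Perm Ω) x := by
  classical
  haveI : Nontrivial Ω := Fintype.one_lt_card_iff_nontrivial.mp (by omega)
  letI : Fintype (Equiv.Perm Ω ⧸ H) := Fintype.ofFinite _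
  have hX : Fintype.card (Equiv.Perm Ω ⧸ H) = Fintype.card Ω := by
    rw [← Nat.card_eq_fintype_card]
    exact hH
  have hker : (MulAction.toPermHom (Equiv.Perm Ω) (Equiv.Perm Ω ⧸ H)).ker = ⊥ := by
    rw [← Subgroup.normalCore_eq_ker]
    by_contra hne
    have hnt : Nontrivial H.normalCore := (Subgroup.nontrivial_iff_ne_bot _).mpr hne
    have h1 : alternatingGroup Ω ≤ H :=
      (Equiv.Perm.alternatingGroup_le_of_normal (by rw [Nat.card_eq_fintype_card]; exact h5)
        hnt).trans H.normalCore_le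
    have h2 := Subgroup.index_dvd_of_le h1
    rw [alternatingGroup.index_eq_two, hH] at h2
    have h3 := Nat.le_of_dvd (by norm_num) h2
    omega
  have hinj : Function.Injective (MulAction.toPermHom (Equiv.Perm Ω) (Equiv.Perm Ω ⧸ H)) :=
    (MonoidHom.ker_eq_bot_iff _).mp hker
  have hbij : Function.Bijective (MulAction.toPermHom (Equiv.Perm Ω) (Equiv.Perm Ω ⧸ H)) := by
    refine (Fintype.bijective_iff_injective_and_card _).mpr ⟨hinj, ?_⟩
    rw [Fintype.card_perm, Fintype.card_perm, hX]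
  obtain ⟨φ, hφ⟩ : ∃ φ : Equiv.Perm Ω ≃* Equiv.Perm (Equiv.Perm Ω ⧸ H),
      ∀ g, φ g = MulAction.toPermHom (Equiv.Perm Ω) (Equiv.Perm Ω ⧸ H) g :=
    ⟨MulEquiv.ofBijective _ hbij, fun g => rfl⟩
  obtain ⟨x₀, hx₀⟩ : ∃ x₀ : Equiv.Perm Ω ⧸ H, ∀ g : Equiv.Perm Ω, g ∈ H ↔ φ g x₀ = x₀ := by
    refine ⟨((1 : Equiv.Perm Ω) : Equiv.Perm Ω ⧸ H), fun g => ?_⟩
    rw [hφ]
    have h1 := MulAction.stabilizer_quotient H
    constructor
    · intro hg
      rw [← h1] at hg
      exact hg
    · intro hg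
      rw [← h1]
      exact hg
  have hsw : ∀ y : {y : Equiv.Perm Ω ⧸ H // y ≠ x₀}, (φ.symm (Equiv.swap x₀ y.1)).IsSwap :=
    fun y => iso_swap hX h6 φ.symm _ ⟨x₀, y.1, y.2.symm, rfl⟩
  have hcard : ∀ y : {y : Equiv.Perm Ω ⧸ H // y ≠ x₀},
      (φ.symm (Equiv.swap x₀ y.1)).support.card = 2 :=
    fun y => Equiv.Perm.card_support_eq_two.mpr (hsw y)
  have hne : ∀ y z : {y : Equiv.Perm Ω ⧸ H // y ≠ x₀}, y ≠ z →
      (φ.symm (Equiv.swap x₀ y.1)).support ≠ (φ.symm (Equiv.swap x₀ z.1)).support := by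
    intro y z hyz h
    apply hyz
    have h1 := φ.symm.injective (swap_eq_of_support_eq (hsw y) (hsw z) h)
    have h2 := congrArg (fun s : Equiv.Perm (Equiv.Perm Ω ⧸ H) => s x₀) h1
    simp only [Equiv.swap_apply_left] at h2
    exact Subtype.ext h2
  have hint : ∀ y z : {y : Equiv.Perm Ω ⧸ H // y ≠ x₀},
      ((φ.symm (Equiv.swap x₀ y.1)).support ∩ (φ.symm (Equiv.swap x₀ z.1)).support).Nonempty := by
    intro y z
    by_cases hyz : y = z
    · subst hyz
      rw [Finset.inter_self, ← Finset.card_pos, hcard y]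
      norm_num
    · by_contra hemp
      rw [Finset.not_nonempty_iff_eq_empty] at hemp
      have hdisj : Equiv.Perm.Disjoint (φ.symm (Equiv.swap x₀ y.1))
          (φ.symm (Equiv.swap x₀ z.1)) :=
        Equiv.Perm.disjoint_iff_disjoint_support.mpr (Finset.disjoint_iff_inter_eq_empty.mpr hemp)
      have hcomm := hdisj.commute
      have h1 : Equiv.swap x₀ y.1 * Equiv.swap x₀ z.1 = Equiv.swap x₀ z.1 * Equiv.swap x₀ y.1 := by
        apply φ.symm.injective
        rw [map_mul, map_mul]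
        exact hcomm
      have h2 := congrArg (fun s : Equiv.Perm (Equiv.Perm Ω ⧸ H) => s z.1) h1
      simp only [Equiv.Perm.mul_apply, Equiv.swap_apply_right, Equiv.swap_apply_left] at h2
      have hzy : z.1 ≠ y.1 := fun h => hyz (Subtype.ext h.symm)
      rw [Equiv.swap_apply_of_ne_of_ne z.2 hzy] at h2
      rw [Equiv.swap_apply_right] at h2
      exact y.2 h2
  have hι : 4 ≤ Fintype.card {y : Equiv.Perm Ω ⧸ H // y ≠ x₀} := by
    have h1 : Fintype.card {y : Equiv.Perm Ω ⧸ H // ¬ (y = x₀)} =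
        Fintype.card (Equiv.Perm Ω ⧸ H) - Fintype.card {y : Equiv.Perm Ω ⧸ H // y = x₀} :=
      Fintype.card_subtype_compl _
    rw [Fintype.card_subtype_eq, hX] at h1
    have h2 : Fintype.card {y : Equiv.Perm Ω ⧸ H // y ≠ x₀} =
        Fintype.card {y : Equiv.Perm Ω ⧸ H // ¬ (y = x₀)} := rfl
    omega
  obtain ⟨e⟩ : Nonempty (Fin 4 ↪ {y : Equiv.Perm Ω ⧸ H // y ≠ x₀}) :=
    Function.Embedding.nonempty_of_card_le (by rw [Fintype.card_fin]; exact hι)
  have hdist : ∀ i j : Fin 4, i ≠ j → e i ≠ e j := fun i j hij h => hij (e.injective h)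
  obtain ⟨a, ha⟩ := star (fun y : {y : Equiv.Perm Ω ⧸ H // y ≠ x₀} =>
    (φ.symm (Equiv.swap x₀ y.1)).support) hcard hne hint (e 0) (e 1) (e 2) (e 3)
    (hdist _ _ (by decide)) (hdist _ _ (by decide)) (hdist _ _ (by decide))
    (hdist _ _ (by decide)) (hdist _ _ (by decide)) (hdist _ _ (by decide))
  refine ⟨a, ?_⟩
  have hle : H ≤ MulAction.stabilizer (Equiv.Perm Ω) a := by
    intro h hh
    rw [MulAction.mem_stabilizer_iff]
    by_contra hcon
    have hη : φ h x₀ = x₀ := (hx₀ h).mp hh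
    have hmem : ∀ y : {y : Equiv.Perm Ω ⧸ H // y ≠ x₀},
        h⁻¹ a ∈ (φ.symm (Equiv.swap x₀ y.1)).support := by
      intro y
      have hy' : φ h y.1 ≠ x₀ := by
        intro h'
        apply y.2
        apply (φ h).injective
        rw [h', hη]
      have hconj : h * φ.symm (Equiv.swap x₀ y.1) * h⁻¹ =
          φ.symm (Equiv.swap x₀ (φ h y.1)) := by
        apply φ.injective
        rw [map_mul, map_mul, map_inv, φ.apply_symm_apply, φ.apply_symm_apply,
          ← Equiv.swap_apply_apply, hη]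
      have h1 := ha ⟨φ h y.1, hy'⟩
      rw [Equiv.Perm.mem_support] at h1 ⊢
      rw [← hconj] at h1
      intro hfix
      apply h1
      simp only [Equiv.Perm.mul_apply]
      rw [hfix, Equiv.Perm.inv_def, Equiv.apply_symm_apply]
    have hne' : h⁻¹ a ≠ a := by
      intro h'
      apply hcon
      have h2 := congrArg h h'
      rw [Equiv.Perm.inv_def, Equiv.apply_symm_apply] at h2
      exact h2.symm
    apply hne (e 0) (e 1) (hdist _ _ (by decide))
    have hpair : ∀ y : {y : Equiv.Perm Ω ⧸ H // y ≠ x₀},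
        (φ.symm (Equiv.swap x₀ y.1)).support = {a, h⁻¹ a} := by
      intro y
      symm
      apply Finset.eq_of_subset_of_card_le
      · intro x hx
        simp only [Finset.mem_insert, Finset.mem_singleton] at hx
        rcases hx with rfl | rfl
        · exact ha y
        · exact hmem y
      · rw [hcard y, Finset.card_pair hne'.symm]
    rw [hpair, hpair]
  apply eq_of_le_of_index_eq hle
  rw [hH, MulAction.index_stabilizer_of_transitive, Nat.card_eq_fintype_card]

theorem fixed_unique {Ω : Type*} [Fintype Ω] [DecidableEq Ω] (p : ℕ) (hp : p.Prime)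
    (hn : Fintype.card Ω = p + 1) (c : Equiv.Perm Ω) (hc : orderOf c = p) :
    ∃ a, c a = a ∧ ∀ b, c b = b → b = a := by
  obtain ⟨k, hk⟩ := Equiv.Perm.cycleType_prime_order (σ := c) (by
    rw [hc]
    exact hp)
  rw [hc] at hk
  have hsum : c.cycleType.sum ≤ Fintype.card Ω := Equiv.Perm.sum_cycleType_le _
  rw [hk, Multiset.sum_replicate, smul_eq_mul, hn] at hsum
  have hp2 := hp.two_le
  have hk0 : k = 0 := by
    by_contra hk0
    have h1 : 2 * p ≤ (k + 1) * p := Nat.mul_le_mul_right p (by omega)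
    omega
  subst hk0
  have hfix := Equiv.Perm.card_fixedPoints c
  rw [hk, Multiset.sum_replicate, smul_eq_mul, hn] at hfix
  have hfix1 : Fintype.card (Function.fixedPoints c) = 1 := by
    rw [hfix]
    omega
  obtain ⟨x, hx⟩ := Fintype.card_eq_one_iff.mp hfix1
  refine ⟨x.1, x.2, fun b hb => ?_⟩
  have h2 := hx ⟨b, hb⟩
  exact congrArg Subtype.val h2

theorem small_aux {Ω : Type*} [Fintype Ω] [DecidableEq Ω] (p : ℕ) (hp : p.Prime)
    (hn : Fintype.card Ω = p + 1) (H : Subgroup (Equiv.Perm Ω)) (hH : H.index = Fintype.card Ω)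
    (c : Equiv.Perm Ω) (hc : orderOf c = p)
    (hnorm : ∀ h ∈ H, h * c * h⁻¹ ∈ Subgroup.zpowers c) :
    ∃ x : Ω, H = MulAction.stabilizer (Equiv.Perm Ω) x := by
  haveI : Nontrivial Ω := Fintype.one_lt_card_iff_nontrivial.mp (by
    have := hp.two_le
    omega)
  obtain ⟨a, hca, huniq⟩ := fixed_unique p hp hn c hc
  refine ⟨a, ?_⟩
  have hle : H ≤ MulAction.stabilizer (Equiv.Perm Ω) a := by
    intro h hh
    rw [MulAction.mem_stabilizer_iff]
    apply huniq
    have h1 := hnorm h⁻¹ (H.inv_mem hh)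
    rw [inv_inv] at h1
    obtain ⟨j, hj⟩ := Subgroup.mem_zpowers_iff.mp h1
    have h2 : c * h = h * c ^ j := by
      rw [hj]
      group
    have h3 := congrArg (fun s : Equiv.Perm Ω => s a) h2
    simp only [Equiv.Perm.mul_apply] at h3
    rw [Equiv.Perm.zpow_apply_eq_self_of_apply_eq_self hca] at h3
    exact h3
  apply eq_of_le_of_index_eq hle
  rw [hH, MulAction.index_stabilizer_of_transitive, Nat.card_eq_fintype_card]

theorem main_three {Ω : Type*} [Fintype Ω] [DecidableEq Ω] (hn : Fintype.card Ω = 3)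
    (H : Subgroup (Equiv.Perm Ω)) (hH : H.index = Fintype.card Ω) :
    ∃ x : Ω, H = MulAction.stabilizer (Equiv.Perm Ω) x := by
  have hcardH : Nat.card H = 2 := by
    have h1 := Subgroup.card_mul_index H
    rw [hH, Nat.card_perm, Nat.card_eq_fintype_card (α := Ω), hn] at h1
    have h2 : Nat.factorial 3 = 6 := by decide
    omega
  haveI : Fact (Nat.Prime 2) := ⟨Nat.prime_two⟩
  obtain ⟨c', hc'⟩ := exists_prime_orderOf_dvd_card' (G := H) 2 (by rw [hcardH])
  have hc : orderOf (c' : Equiv.Perm Ω) = 2 := by rw [Subgroup.orderOf_coe, hc']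
  have hZ : Subgroup.zpowers (c' : Equiv.Perm Ω) = H := by
    apply Subgroup.eq_of_le_of_card_ge
    · rw [Subgroup.zpowers_le]
      exact c'.2
    · rw [Nat.card_zpowers, hc, hcardH]
  refine small_aux 2 Nat.prime_two (by rw [hn]) H hH c' hc ?_
  intro h hh
  rw [hZ]
  exact H.mul_mem (H.mul_mem hh c'.2) (H.inv_mem hh)

theorem main_four {Ω : Type*} [Fintype Ω] [DecidableEq Ω] (hn : Fintype.card Ω = 4)
    (H : Subgroup (Equiv.Perm Ω)) (hH : H.index = Fintype.card Ω) :
    ∃ x : Ω, H = MulAction.stabilizer (Equiv.Perm Ω) x := by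
  have hcardH : Nat.card H = 6 := by
    have h1 := Subgroup.card_mul_index H
    rw [hH, Nat.card_perm, Nat.card_eq_fintype_card (α := Ω), hn] at h1
    have h2 : Nat.factorial 4 = 24 := by decide
    omega
  haveI : Fact (Nat.Prime 3) := ⟨Nat.prime_three⟩
  obtain ⟨c', hc'⟩ := exists_prime_orderOf_dvd_card' (G := H) 3 (by
    rw [hcardH]
    norm_num)
  have hc : orderOf (c' : Equiv.Perm Ω) = 3 := by rw [Subgroup.orderOf_coe, hc']
  have hZle : Subgroup.zpowers (c' : Equiv.Perm Ω) ≤ H := by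
    rw [Subgroup.zpowers_le]
    exact c'.2
  have hidx : ((Subgroup.zpowers (c' : Equiv.Perm Ω)).subgroupOf H).index = 2 := by
    have h1 := Subgroup.card_mul_index ((Subgroup.zpowers (c' : Equiv.Perm Ω)).subgroupOf H)
    rw [Nat.card_congr (Subgroup.subgroupOfEquivOfLe hZle).toEquiv, Nat.card_zpowers, hc,
      hcardH] at h1
    omega
  have hnormal := Subgroup.normal_of_index_eq_two hidx
  refine small_aux 3 Nat.prime_three (by rw [hn]) H hH c' hc ?_
  intro h hh
  have h1 := hnormal.conj_mem ⟨(c' : Equiv.Perm Ω), c'.2⟩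
    (by
      rw [Subgroup.mem_subgroupOf]
      exact Subgroup.mem_zpowers _) ⟨h, hh⟩
  rw [Subgroup.mem_subgroupOf] at h1
  exact h1

theorem main_two {Ω : Type*} [Fintype Ω] [DecidableEq Ω] (hn : Fintype.card Ω = 2)
    (H : Subgroup (Equiv.Perm Ω)) (hH : H.index = Fintype.card Ω) :
    ∃ x : Ω, H = MulAction.stabilizer (Equiv.Perm Ω) x := by
  haveI : Nontrivial Ω := Fintype.one_lt_card_iff_nontrivial.mp (by omega)
  obtain ⟨a⟩ : Nonempty Ω := inferInstance
  refine ⟨a, ?_⟩
  have hbot : ∀ K : Subgroup (Equiv.Perm Ω), K.index = Fintype.card Ω → K = ⊥ := by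
    intro K hK
    have h1 := Subgroup.card_mul_index K
    rw [hK, Nat.card_perm, Nat.card_eq_fintype_card (α := Ω), hn] at h1
    have h2 : Nat.factorial 2 = 2 := by decide
    rw [← Subgroup.card_eq_one]
    omega
  rw [hbot H hH, hbot (MulAction.stabilizer (Equiv.Perm Ω) a) (by
    rw [MulAction.index_stabilizer_of_transitive, Nat.card_eq_fintype_card])]

theorem main_one {Ω : Type*} [Fintype Ω] [DecidableEq Ω] (hn : Fintype.card Ω = 1)
    (H : Subgroup (Equiv.Perm Ω)) :
    ∃ x : Ω, H = MulAction.stabilizer (Equiv.Perm Ω) x := by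
  obtain ⟨a, ha⟩ := Fintype.card_eq_one_iff.mp hn
  refine ⟨a, ?_⟩
  have h1 : ∀ g : Equiv.Perm Ω, g = 1 := by
    intro g
    ext x
    rw [ha x, ha (g a)]
    rfl
  ext g
  rw [h1 g]
  exact ⟨fun _ => Subgroup.one_mem _, fun _ => Subgroup.one_mem _⟩


/-- Let Ω be a finite set whose size n is not 6. Then every subgroup of the symmetric group on Ω of index n is the stabilizer of a point. -/
theorem result {Ω : Type*} [Fintype Ω] [DecidableEq Ω] (h6 : Fintype.card Ω ≠ 6)
    (H : Subgroup (Equiv.Perm Ω)) (hH : H.index = Fintype.card Ω) :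
    ∃ x : Ω, H = MulAction.stabilizer (Equiv.Perm Ω) x := by
  have h0 : Fintype.card Ω ≠ 0 := by
    intro h
    rw [h] at hH
    exact Subgroup.index_ne_zero_of_finite hH
  by_cases h5 : 5 ≤ Fintype.card Ω
  · exact main_large h5 h6 H hH
  · have hcases : Fintype.card Ω = 1 ∨ Fintype.card Ω = 2 ∨ Fintype.card Ω = 3 ∨
        Fintype.card Ω = 4 := by omega
    rcases hcases with h | h | h | h
    · exact main_one h H
    · exact main_two h H hH
    · exact main_three h H hH
    · exact main_four h H hH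

end Cfsg.Agent.S5911
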