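import Cfsg.Statements.S5912
import Cfsg.Agent.S5911

set_option autoImplicit false
open Cfsg

namespace Cfsg.Agent.S5912

open Cfsg.Agent.S5911

theorem iso_swap_cases {X Ω : Type*} [Fintype X] [DecidableEq X] [Fintype Ω] [DecidableEq Ω]
    (hcard : Fintype.card X = Fintype.card Ω)
    (ψ : Equiv.Perm X ≃* Equiv.Perm Ω) (τ : Equiv.Perm X) (hτ : τ.IsSwap) :
    (ψ τ).IsSwap ∨ (ψ τ).cycleType = Multiset.replicate 3 2 := by
  have ho : orderOf (ψ τ) = 2 := by rw [MulEquiv.orderOf_eq, hτ.orderOf]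
  obtain ⟨k, hk⟩ := Equiv.Perm.cycleType_prime_order (σ := ψ τ) (by
    rw [ho]
    exact Nat.prime_two)
  rw [ho] at hk
  have hc1 := Equiv.Perm.nat_card_centralizer τ
  have hc2 := Equiv.Perm.nat_card_centralizer (ψ τ)
  rw [Equiv.Perm.isSwap_iff_cycleType.mp hτ] at hc1
  rw [hk, card_centralizer_iso ψ τ, hc1] at hc2
  have hsum : (ψ τ).cycleType.sum ≤ Fintype.card Ω := Equiv.Perm.sum_cycleType_le _
  rw [hk, Multiset.sum_replicate, smul_eq_mul] at hsum
  have e1 : (Multiset.replicate (k + 1) 2).toFinset = {2} := by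
    rw [Multiset.toFinset_replicate, if_neg (Nat.succ_ne_zero k)]
  rw [Multiset.sum_replicate, Multiset.prod_replicate, e1, Finset.prod_singleton,
    Multiset.count_replicate_self, smul_eq_mul] at hc2
  simp only [Multiset.sum_singleton, Multiset.prod_singleton, Multiset.toFinset_singleton,
    Finset.prod_singleton, Multiset.count_singleton_self, Nat.factorial_one, mul_one] at hc2
  have e2 : Fintype.card X - 2 = (Fintype.card Ω - (k + 1) * 2) + 2 * k := by omega
  rw [e2] at hc2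
  rcases count_lemma _ k hc2.symm with h0 | ⟨h2, hm⟩
  · subst h0
    left
    rw [Equiv.Perm.isSwap_iff_cycleType, hk]
    rfl
  · subst h2
    right
    exact hk

theorem dichotomy {X Ω : Type*} [Fintype X] [DecidableEq X] [Fintype Ω] [DecidableEq Ω]
    (hcard : Fintype.card X = Fintype.card Ω) (ψ : Equiv.Perm X ≃* Equiv.Perm Ω) :
    (∀ τ : Equiv.Perm X, τ.IsSwap → (ψ τ).IsSwap) ∨
      (∀ τ : Equiv.Perm X, τ.IsSwap → (ψ τ).cycleType = Multiset.replicate 3 2) := by
  by_cases h : ∀ τ : Equiv.Perm X, τ.IsSwap → (ψ τ).IsSwap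
  · exact Or.inl h
  · right
    push Not at h
    obtain ⟨τ₀, hτ₀, hn⟩ := h
    have h0 : (ψ τ₀).cycleType = Multiset.replicate 3 2 :=
      (iso_swap_cases hcard ψ τ₀ hτ₀).resolve_left hn
    intro τ hτ
    have hconj : IsConj τ τ₀ := by
      rw [Equiv.Perm.isConj_iff_cycleType_eq, Equiv.Perm.isSwap_iff_cycleType.mp hτ,
        Equiv.Perm.isSwap_iff_cycleType.mp hτ₀]
    have hconj' : IsConj (ψ τ) (ψ τ₀) := by
      obtain ⟨c, hc⟩ := isConj_iff.mp hconj
      rw [isConj_iff]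
      refine ⟨ψ c, ?_⟩
      rw [← map_mul, ← map_inv, ← map_mul, hc]
    rw [Equiv.Perm.isConj_iff_cycleType_eq.mp hconj', h0]

theorem stab_of_swaps {X Y : Type*} [Fintype X] [DecidableEq X] [Fintype Y] [DecidableEq Y]
    (h5 : 5 ≤ Fintype.card X) (θ : Equiv.Perm X ≃* Equiv.Perm Y)
    (hθ : ∀ τ : Equiv.Perm X, τ.IsSwap → (θ τ).IsSwap) (x₀ : X) :
    ∃ a : Y, ∀ h : Equiv.Perm X, h x₀ = x₀ → θ h a = a := by
  have hsw : ∀ y : {y : X // y ≠ x₀}, (θ (Equiv.swap x₀ y.1)).IsSwap :=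
    fun y => hθ _ ⟨x₀, y.1, y.2.symm, rfl⟩
  have hcard : ∀ y : {y : X // y ≠ x₀}, (θ (Equiv.swap x₀ y.1)).support.card = 2 :=
    fun y => Equiv.Perm.card_support_eq_two.mpr (hsw y)
  have hne : ∀ y z : {y : X // y ≠ x₀}, y ≠ z →
      (θ (Equiv.swap x₀ y.1)).support ≠ (θ (Equiv.swap x₀ z.1)).support := by
    intro y z hyz h
    apply hyz
    have h1 := θ.injective (swap_eq_of_support_eq (hsw y) (hsw z) h)
    have h2 := congrArg (fun s : Equiv.Perm X => s x₀) h1
    simp only [Equiv.swap_apply_left] at h2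
    exact Subtype.ext h2
  have hint : ∀ y z : {y : X // y ≠ x₀},
      ((θ (Equiv.swap x₀ y.1)).support ∩ (θ (Equiv.swap x₀ z.1)).support).Nonempty := by
    intro y z
    by_cases hyz : y = z
    · subst hyz
      rw [Finset.inter_self, ← Finset.card_pos, hcard y]
      norm_num
    · by_contra hemp
      rw [Finset.not_nonempty_iff_eq_empty] at hemp
      have hdisj : Equiv.Perm.Disjoint (θ (Equiv.swap x₀ y.1)) (θ (Equiv.swap x₀ z.1)) :=
        Equiv.Perm.disjoint_iff_disjoint_support.mpr (Finset.disjoint_iff_inter_eq_empty.mpr hemp)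
      have hcomm := hdisj.commute
      have h1 : Equiv.swap x₀ y.1 * Equiv.swap x₀ z.1 = Equiv.swap x₀ z.1 * Equiv.swap x₀ y.1 := by
        apply θ.injective
        rw [map_mul, map_mul]
        exact hcomm
      have h2 := congrArg (fun s : Equiv.Perm X => s z.1) h1
      simp only [Equiv.Perm.mul_apply, Equiv.swap_apply_right, Equiv.swap_apply_left] at h2
      have hzy : z.1 ≠ y.1 := fun h => hyz (Subtype.ext h.symm)
      rw [Equiv.swap_apply_of_ne_of_ne z.2 hzy] at h2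
      rw [Equiv.swap_apply_right] at h2
      exact y.2 h2
  have hι : 4 ≤ Fintype.card {y : X // y ≠ x₀} := by
    have h1 : Fintype.card {y : X // ¬ (y = x₀)} =
        Fintype.card X - Fintype.card {y : X // y = x₀} :=
      Fintype.card_subtype_compl _
    rw [Fintype.card_subtype_eq] at h1
    have h2 : Fintype.card {y : X // y ≠ x₀} = Fintype.card {y : X // ¬ (y = x₀)} := rfl
    omega
  obtain ⟨e⟩ : Nonempty (Fin 4 ↪ {y : X // y ≠ x₀}) :=
    Function.Embedding.nonempty_of_card_le (by rw [Fintype.card_fin]; exact hι)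
  have hdist : ∀ i j : Fin 4, i ≠ j → e i ≠ e j := fun i j hij h => hij (e.injective h)
  obtain ⟨a, ha⟩ := star (fun y : {y : X // y ≠ x₀} =>
    (θ (Equiv.swap x₀ y.1)).support) hcard hne hint (e 0) (e 1) (e 2) (e 3)
    (hdist _ _ (by decide)) (hdist _ _ (by decide)) (hdist _ _ (by decide))
    (hdist _ _ (by decide)) (hdist _ _ (by decide)) (hdist _ _ (by decide))
  refine ⟨a, ?_⟩
  intro h hη
  by_contra hcon
  have hmem : ∀ y : {y : X // y ≠ x₀},
      (θ h)⁻¹ a ∈ (θ (Equiv.swap x₀ y.1)).support := by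
    intro y
    have hy' : h y.1 ≠ x₀ := by
      intro h'
      apply y.2
      apply h.injective
      rw [h', hη]
    have hconj : θ h * θ (Equiv.swap x₀ y.1) * (θ h)⁻¹ = θ (Equiv.swap x₀ (h y.1)) := by
      rw [← map_inv, ← map_mul, ← map_mul, ← Equiv.swap_apply_apply, hη]
    have h1 := ha ⟨h y.1, hy'⟩
    rw [Equiv.Perm.mem_support] at h1 ⊢
    rw [← hconj] at h1
    intro hfix
    apply h1
    simp only [Equiv.Perm.mul_apply]
    rw [hfix, Equiv.Perm.inv_def, Equiv.apply_symm_apply]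
  have hne' : (θ h)⁻¹ a ≠ a := by
    intro h'
    apply hcon
    have h2 := congrArg (θ h) h'
    rw [Equiv.Perm.inv_def, Equiv.apply_symm_apply] at h2
    exact h2.symm
  apply hne (e 0) (e 1) (hdist _ _ (by decide))
  have hpair : ∀ y : {y : X // y ≠ x₀},
      (θ (Equiv.swap x₀ y.1)).support = {a, (θ h)⁻¹ a} := by
    intro y
    symm
    apply Finset.eq_of_subset_of_card_le
    · intro x hx
      simp only [Finset.mem_insert, Finset.mem_singleton] at hx
      rcases hx with rfl | rfl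
      · exact ha y
      · exact hmem y
    · rw [hcard y, Finset.card_pair hne'.symm]
  rw [hpair, hpair]

theorem coset_iso {Ω : Type*} [Fintype Ω] [DecidableEq Ω] (h5 : 5 ≤ Fintype.card Ω)
    (H : Subgroup (Equiv.Perm Ω)) (hH : H.index = Fintype.card Ω)
    [Fintype (Equiv.Perm Ω ⧸ H)] [DecidableEq (Equiv.Perm Ω ⧸ H)] :
    Fintype.card (Equiv.Perm Ω ⧸ H) = Fintype.card Ω ∧
    ∃ φ : Equiv.Perm Ω ≃* Equiv.Perm (Equiv.Perm Ω ⧸ H),
      (∀ g, g ∈ H ↔ φ g ((1 : Equiv.Perm Ω) : Equiv.Perm Ω ⧸ H) =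
        ((1 : Equiv.Perm Ω) : Equiv.Perm Ω ⧸ H)) ∧
      (∀ x : Equiv.Perm Ω ⧸ H, ∃ g, φ g ((1 : Equiv.Perm Ω) : Equiv.Perm Ω ⧸ H) = x) := by
  haveI : Nontrivial Ω := Fintype.one_lt_card_iff_nontrivial.mp (by omega)
  have hX : Fintype.card (Equiv.Perm Ω ⧸ H) = Fintype.card Ω := by
    rw [← Nat.card_eq_fintype_card]
    exact hH
  have hker : (MulAction.toPermHom (Equiv.Perm Ω) (Equiv.Perm Ω ⧸ H)).ker = ⊥ := by
    rw [← Subgroup.normalCore_eq_ker]
    by_contra hne
    have hnt : Nontrivial H.normalCore := (Subgroup.nontrivial_iff_ne_bot _).mpr hne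
    have h1 : alternatingGroup Ω ≤ H :=
      (Equiv.Perm.alternatingGroup_le_of_normal (by rw [Nat.card_eq_fintype_card]; exact h5)
        hnt).trans H.normalCore_le
    have h2 := Subgroup.index_dvd_of_le h1
    rw [alternatingGroup.index_eq_two, hH] at h2
    have h3 := Nat.le_of_dvd (by norm_num) h2
    omega
  have hinj : Function.Injective (MulAction.toPermHom (Equiv.Perm Ω) (Equiv.Perm Ω ⧸ H)) :=
    (MonoidHom.ker_eq_bot_iff _).mp hker
  have hbij : Function.Bijective (MulAction.toPermHom (Equiv.Perm Ω) (Equiv.Perm Ω ⧸ H)) := by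
    refine (Fintype.bijective_iff_injective_and_card _).mpr ⟨hinj, ?_⟩
    rw [Fintype.card_perm, Fintype.card_perm, hX]
  refine ⟨hX, MulEquiv.ofBijective _ hbij, ?_, ?_⟩
  · intro g
    have h1 := MulAction.stabilizer_quotient H
    constructor
    · intro hg
      rw [← h1] at hg
      exact hg
    · intro hg
      rw [← h1]
      exact hg
  · intro x
    obtain ⟨g, rfl⟩ := QuotientGroup.mk_surjective x
    refine ⟨g, ?_⟩
    change g • ((1 : Equiv.Perm Ω) : Equiv.Perm Ω ⧸ H) = (g : Equiv.Perm Ω ⧸ H)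
    rw [MulAction.Quotient.smul_coe, smul_eq_mul, mul_one]

theorem card_sylow_five : Nat.card (Sylow 5 (Equiv.Perm (Fin 5))) = 6 := by
  haveI : Fact (Nat.Prime 5) := ⟨by norm_num⟩
  obtain ⟨P⟩ : Nonempty (Sylow 5 (Equiv.Perm (Fin 5))) := inferInstance
  have hfac : (Nat.factorial 5).factorization 5 = 1 := by
    rw [Nat.factorization_def _ (by norm_num : Nat.Prime 5)]
    have h120 : Nat.factorial 5 = 5 ^ 1 * 24 := by decide
    rw [h120, padicValNat.mul (by norm_num) (by norm_num), padicValNat.prime_pow]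
    simp [padicValNat.eq_zero_of_not_dvd]
  have hcardP : Nat.card P = 5 := by
    rw [Sylow.card_eq_multiplicity, Nat.card_perm, Nat.card_fin, hfac, pow_one]
  have hidx : (P : Subgroup (Equiv.Perm (Fin 5))).index = 24 := by
    have h1 := Subgroup.card_mul_index (P : Subgroup (Equiv.Perm (Fin 5)))
    rw [hcardP, Nat.card_perm, Nat.card_fin] at h1
    have h2 : Nat.factorial 5 = 120 := by decide
    omega
  have hdvd := Sylow.card_dvd_index P
  rw [hidx] at hdvd
  have hmod := card_sylow_modEq_one 5 (Equiv.Perm (Fin 5))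
  have hle := Nat.le_of_dvd (by norm_num) hdvd
  have hne1 : Nat.card (Sylow 5 (Equiv.Perm (Fin 5))) ≠ 1 := by
    intro h1
    haveI : Subsingleton (Sylow 5 (Equiv.Perm (Fin 5))) := (Nat.card_eq_one_iff_unique.mp h1).1
    haveI hn : (P : Subgroup (Equiv.Perm (Fin 5))).Normal := Sylow.normal_of_subsingleton P
    have hnt : Nontrivial (P : Subgroup (Equiv.Perm (Fin 5))) := by
      rw [← Finite.one_lt_card_iff_nontrivial, hcardP]
      norm_num
    have h2 := Equiv.Perm.alternatingGroup_le_of_normal (α := Fin 5) (by simp) hnt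
    have h3 := Subgroup.card_le_of_le h2
    rw [hcardP, nat_card_alternatingGroup, Nat.card_fin] at h3
    have h4 : Nat.factorial 5 = 120 := by decide
    omega
  unfold Nat.ModEq at hmod
  generalize Nat.card (Sylow 5 (Equiv.Perm (Fin 5))) = n at *
  interval_cases n <;> simp_all <;> omega

theorem sylow_action_injective :
    Function.Injective
      (MulAction.toPermHom (Equiv.Perm (Fin 5)) (Sylow 5 (Equiv.Perm (Fin 5)))) := by
  haveI : Fact (Nat.Prime 5) := ⟨by norm_num⟩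
  rw [← MonoidHom.ker_eq_bot_iff]
  by_contra hne
  have hnt : Nontrivial
      (MulAction.toPermHom (Equiv.Perm (Fin 5)) (Sylow 5 (Equiv.Perm (Fin 5)))).ker :=
    (Subgroup.nontrivial_iff_ne_bot _).mpr hne
  have h1 := Equiv.Perm.alternatingGroup_le_of_normal (α := Fin 5) (by simp) hnt
  obtain ⟨P⟩ : Nonempty (Sylow 5 (Equiv.Perm (Fin 5))) := inferInstance
  have h2 : (MulAction.toPermHom (Equiv.Perm (Fin 5)) (Sylow 5 (Equiv.Perm (Fin 5)))).ker ≤
      MulAction.stabilizer (Equiv.Perm (Fin 5)) P := by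
    intro g hg
    rw [MulAction.mem_stabilizer_iff]
    have h3 := congrArg (fun f : Equiv.Perm (Sylow 5 (Equiv.Perm (Fin 5))) => f P)
      (MonoidHom.mem_ker.mp hg)
    exact h3
  have h3 : (MulAction.stabilizer (Equiv.Perm (Fin 5)) P).index = 6 := by
    rw [MulAction.index_stabilizer_of_transitive, card_sylow_five]
  have h4 := Subgroup.index_dvd_of_le (h1.trans h2)
  rw [alternatingGroup.index_eq_two, h3] at h4
  omega

theorem exists_exotic {Ω : Type*} [Fintype Ω] [DecidableEq Ω] (h6 : Fintype.card Ω = 6) :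
    ∃ H₂ : Subgroup (Equiv.Perm Ω), H₂.index = 6 ∧ (∀ a : Ω, ∃ h ∈ H₂, h a ≠ a) ∧
      Nonempty (H₂ ≃* Equiv.Perm (Fin 5)) := by
  haveI : Fact (Nat.Prime 5) := ⟨by norm_num⟩
  have hc : Nat.card (Sylow 5 (Equiv.Perm (Fin 5))) = Nat.card Ω := by
    rw [card_sylow_five, Nat.card_eq_fintype_card, h6]
  obtain ⟨e⟩ : Nonempty (Sylow 5 (Equiv.Perm (Fin 5)) ≃ Ω) := Finite.card_eq.mp hc
  have hinj : Function.Injective ((e.permCongrHom).toMonoidHom.comp
      (MulAction.toPermHom (Equiv.Perm (Fin 5)) (Sylow 5 (Equiv.Perm (Fin 5))))) :=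
    e.permCongrHom.injective.comp sylow_action_injective
  refine ⟨((e.permCongrHom).toMonoidHom.comp
      (MulAction.toPermHom (Equiv.Perm (Fin 5)) (Sylow 5 (Equiv.Perm (Fin 5))))).range, ?_, ?_,
    ⟨(MonoidHom.ofInjective hinj).symm⟩⟩
  · have h1 := Subgroup.card_mul_index ((e.permCongrHom).toMonoidHom.comp
      (MulAction.toPermHom (Equiv.Perm (Fin 5)) (Sylow 5 (Equiv.Perm (Fin 5))))).range
    rw [Nat.card_congr (MonoidHom.ofInjective hinj).symm.toEquiv, Nat.card_perm, Nat.card_perm,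
      Nat.card_fin, Nat.card_eq_fintype_card (α := Ω), h6] at h1
    have h2 : Nat.factorial 5 = 120 := by decide
    have h3 : Nat.factorial 6 = 720 := by decide
    rw [h2, h3] at h1
    omega
  · intro a
    haveI : Nontrivial (Sylow 5 (Equiv.Perm (Fin 5))) := by
      rw [← Finite.one_lt_card_iff_nontrivial, card_sylow_five]
      norm_num
    obtain ⟨s', hs'⟩ := exists_ne (e.symm a)
    obtain ⟨g, hg⟩ := MulAction.exists_smul_eq (Equiv.Perm (Fin 5)) (e.symm a) s'
    refine ⟨_, ⟨g, rfl⟩, ?_⟩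
    change e (g • e.symm a) ≠ a
    rw [hg]
    intro h
    apply hs'
    rw [← h, e.symm_apply_apply]

theorem exotic_of_nofix {Ω X₂ : Type*} [Fintype Ω] [DecidableEq Ω] [Fintype X₂] [DecidableEq X₂]
    (hX₂ : 5 ≤ Fintype.card X₂)
    (H₂ : Subgroup (Equiv.Perm Ω)) (hfix : ∀ a : Ω, ∃ h ∈ H₂, h a ≠ a)
    (φ₂ : Equiv.Perm Ω ≃* Equiv.Perm X₂) (x₂ : X₂) (hmem₂ : ∀ g, g ∈ H₂ ↔ φ₂ g x₂ = x₂) :
    ¬ ∀ τ : Equiv.Perm X₂, τ.IsSwap → (φ₂.symm τ).IsSwap := by
  intro hA
  obtain ⟨a, ha⟩ := stab_of_swaps hX₂ φ₂.symm hA x₂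
  obtain ⟨h, hh, hne⟩ := hfix a
  apply hne
  have h1 := ha (φ₂ h) ((hmem₂ h).mp hh)
  rw [φ₂.symm_apply_apply] at h1
  exact h1

theorem classify {Ω X₂ : Type*} [Fintype Ω] [DecidableEq Ω] [Fintype X₂] [DecidableEq X₂]
    (h6 : Fintype.card Ω = 6) (hX₂ : Fintype.card X₂ = 6) (φ₂ : Equiv.Perm Ω ≃* Equiv.Perm X₂)
    (hexo : ¬ ∀ τ : Equiv.Perm X₂, τ.IsSwap → (φ₂.symm τ).IsSwap)
    (H : Subgroup (Equiv.Perm Ω)) (hH : H.index = 6) :
    (∃ a : Ω, H = MulAction.stabilizer (Equiv.Perm Ω) a) ∨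
      (∃ b : X₂, ∀ k, k ∈ H ↔ φ₂ k b = b) := by
  classical
  haveI : Nontrivial Ω := Fintype.one_lt_card_iff_nontrivial.mp (by omega)
  letI : Fintype (Equiv.Perm Ω ⧸ H) := Fintype.ofFinite _
  obtain ⟨hX, φ, hmem, -⟩ := coset_iso (by omega) H (by rw [hH, h6])
  rcases dichotomy (by rw [hX]) φ.symm with hA | hB
  · left
    obtain ⟨a, ha⟩ := stab_of_swaps (by omega) φ.symm hA
      ((1 : Equiv.Perm Ω) : Equiv.Perm Ω ⧸ H)
    refine ⟨a, eq_of_le_of_index_eq ?_ ?_⟩
    · intro g hg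
      rw [MulAction.mem_stabilizer_iff]
      have h1 := ha (φ g) ((hmem g).mp hg)
      rw [φ.symm_apply_apply] at h1
      exact h1
    · rw [hH, MulAction.index_stabilizer_of_transitive, Nat.card_eq_fintype_card, h6]
  · right
    have hB₂ : ∀ τ : Equiv.Perm X₂, τ.IsSwap → (φ₂.symm τ).cycleType = Multiset.replicate 3 2 :=
      (dichotomy (by rw [hX₂, h6]) φ₂.symm).resolve_left hexo
    have hθ : ∀ τ : Equiv.Perm (Equiv.Perm Ω ⧸ H), τ.IsSwap →
        ((φ.symm.trans φ₂) τ).IsSwap := by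
      intro τ hτ
      haveI : Nontrivial X₂ := Fintype.one_lt_card_iff_nontrivial.mp (by omega)
      obtain ⟨u, v, huv⟩ := exists_pair_ne X₂
      have hτ₂ : (Equiv.swap u v).IsSwap := ⟨u, v, huv, rfl⟩
      have hc : IsConj (φ.symm τ) (φ₂.symm (Equiv.swap u v)) := by
        rw [Equiv.Perm.isConj_iff_cycleType_eq, hB τ hτ, hB₂ _ hτ₂]
      obtain ⟨c, hc⟩ := isConj_iff.mp hc
      have hc' : IsConj (φ₂ (φ.symm τ)) (Equiv.swap u v) := by
        rw [isConj_iff]
        refine ⟨φ₂ c, ?_⟩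
        rw [← map_inv, ← map_mul, ← map_mul, hc, φ₂.apply_symm_apply]
      rw [Equiv.Perm.isSwap_iff_cycleType]
      change (φ₂ (φ.symm τ)).cycleType = {2}
      rw [Equiv.Perm.isConj_iff_cycleType_eq.mp hc', Equiv.Perm.isSwap_iff_cycleType.mp hτ₂]
    obtain ⟨b, hb⟩ := stab_of_swaps (by omega) (φ.symm.trans φ₂) hθ
      ((1 : Equiv.Perm Ω) : Equiv.Perm Ω ⧸ H)
    refine ⟨b, ?_⟩
    have hle : H ≤ (MulAction.stabilizer (Equiv.Perm X₂) b).comap φ₂.toMonoidHom := by
      intro k hk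
      have h1 := hb (φ k) ((hmem k).mp hk)
      change φ₂ (φ.symm (φ k)) b = b at h1
      rw [φ.symm_apply_apply] at h1
      exact h1
    have hidx : ((MulAction.stabilizer (Equiv.Perm X₂) b).comap φ₂.toMonoidHom).index = 6 := by
      haveI : Nontrivial X₂ := Fintype.one_lt_card_iff_nontrivial.mp (by omega)
      rw [Subgroup.index_comap_of_surjective _ φ₂.surjective,
        MulAction.index_stabilizer_of_transitive, Nat.card_eq_fintype_card, hX₂]
    have heq := eq_of_le_of_index_eq hle (by rw [hH, hidx])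
    intro k
    rw [heq]
    rfl


/-- The symmetric group on a 6-element set Ω has exactly two conjugacy classes of subgroups of index 6: there are two non-conjugate subgroups of index 6 (a point stabilizer and a transitive subgroup isomorphic to S₅), and every subgroup of index 6 is conjugate to one of them. -/
theorem result {Ω : Type*} [Fintype Ω] [DecidableEq Ω] (h6 : Fintype.card Ω = 6) :
    ∃ H₁ H₂ : Subgroup (Equiv.Perm Ω), H₁.index = 6 ∧ H₂.index = 6 ∧
      (¬ ∃ g : Equiv.Perm Ω, Subgroup.map (MulAut.conj g).toMonoidHom H₁ = H₂) ∧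
      ∀ H : Subgroup (Equiv.Perm Ω), H.index = 6 →
        ∃ g : Equiv.Perm Ω, Subgroup.map (MulAut.conj g).toMonoidHom H₁ = H ∨ Subgroup.map (MulAut.conj g).toMonoidHom H₂ = H := by
  classical
  obtain ⟨H₂, hH₂, hfix, -⟩ := exists_exotic h6
  letI : Fintype (Equiv.Perm Ω ⧸ H₂) := Fintype.ofFinite _
  obtain ⟨hX₂, φ₂, hmem₂, htrans₂⟩ := coset_iso (by omega) H₂ (by rw [hH₂, h6])
  have hexo := exotic_of_nofix (by omega) H₂ hfix φ₂ _ hmem₂
  haveI : Nontrivial Ω := Fintype.one_lt_card_iff_nontrivial.mp (by omega)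
  obtain ⟨a₀⟩ : Nonempty Ω := inferInstance
  refine ⟨MulAction.stabilizer (Equiv.Perm Ω) a₀, H₂, ?_, hH₂, ?_, ?_⟩
  · rw [MulAction.index_stabilizer_of_transitive, Nat.card_eq_fintype_card, h6]
  · rintro ⟨g, hg⟩
    rw [← MulAction.stabilizer_smul_eq_stabilizer_map_conj] at hg
    obtain ⟨h, hh, hne⟩ := hfix (g • a₀)
    rw [← hg] at hh
    exact hne hh
  · intro H hH
    rcases classify h6 (by rw [hX₂, h6]) φ₂ hexo H hH with ⟨a, rfl⟩ | ⟨b, hb⟩
    · obtain ⟨g, hg⟩ := MulAction.exists_smul_eq (Equiv.Perm Ω) a₀ a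
      exact ⟨g, Or.inl (by rw [← MulAction.stabilizer_smul_eq_stabilizer_map_conj, hg])⟩
    · obtain ⟨g, hg⟩ := htrans₂ b
      refine ⟨g, Or.inr ?_⟩
      ext k
      rw [hb k, Subgroup.mem_map]
      constructor
      · rintro ⟨h, hh, rfl⟩
        change φ₂ (g * h * g⁻¹) b = b
        rw [map_mul, map_mul, map_inv, ← hg]
        simp only [Equiv.Perm.mul_apply]
        rw [Equiv.Perm.inv_def, Equiv.symm_apply_apply, (hmem₂ h).mp hh]
      · intro hk
        refine ⟨g⁻¹ * k * g, ?_, ?_⟩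
        · rw [hmem₂, map_mul, map_mul, map_inv]
          simp only [Equiv.Perm.mul_apply]
          rw [hg, hk, ← hg, Equiv.Perm.inv_def, Equiv.symm_apply_apply]
        · change g * (g⁻¹ * k * g) * g⁻¹ = k
          group

end Cfsg.Agent.S5912
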