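import Cfsg.Statements.S5913
-- import your own Cfsg.Agent.* helpers here

set_option autoImplicit false
open Cfsg

namespace Cfsg.Agent.S5913

/-- Let S be a non-abelian simple group and n a natural number. Every normal subgroup N of the direct power S^n (functions Fin n → S) is a subproduct: there is a set T of coordinates such that N consists exactly of the elements whose coordinates outside T are trivial. In particular the minimal normal subgroups of S^n are its n factors. -/
theorem result {S : Type*} [Group S] [IsSimpleGroup S] (hS : ¬ IsMulCommutative S) (n : ℕ)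
    (N : Subgroup (Fin n → S)) [N.Normal] :
    ∃ T : Finset (Fin n), ∀ x : Fin n → S, x ∈ N ↔ ∀ i, i ∉ T → x i = 1 := by
  classical
  refine ⟨Finset.univ.filter (fun i => ∃ x ∈ N, x i ≠ 1), fun x => ⟨?_, ?_⟩⟩
  · intro hx i hi
    by_contra hne
    exact hi (Finset.mem_filter.mpr ⟨Finset.mem_univ i, x, hx, hne⟩)
  · intro hx
    apply Subgroup.pi_mem_of_mulSingle_mem
    intro i
    by_cases hi : i ∈ Finset.univ.filter (fun i => ∃ x ∈ N, x i ≠ 1)
    · obtain ⟨-, y, hyN, hyi⟩ := Finset.mem_filter.mp hi
      have hcomp : (N.comap (MonoidHom.mulSingle (fun _ : Fin n => S) i)) = ⊤ := by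
        refine ((inferInstance : (N.comap (MonoidHom.mulSingle (fun _ : Fin n => S) i)).Normal).eq_bot_or_eq_top).resolve_left ?_
        intro hbot
        have hnc : ∃ s : S, y i * s ≠ s * y i := by
          by_contra hcon
          push Not at hcon
          have hcen : y i ∈ Subgroup.center S := by
            rw [Subgroup.mem_center_iff]
            intro g
            exact (hcon g).symm
          rcases (inferInstance : (Subgroup.center S).Normal).eq_bot_or_eq_top with h | h
          · rw [h, Subgroup.mem_bot] at hcen
            exact hyi hcen
          · apply hS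
            rw [isMulCommutative_iff]
            intro a b
            have ha : a ∈ Subgroup.center S := h ▸ Subgroup.mem_top a
            rw [Subgroup.mem_center_iff] at ha
            exact (ha b).symm
        obtain ⟨s, hs⟩ := hnc
        have hmem : y * (Pi.mulSingle i s * y⁻¹ * (Pi.mulSingle i s)⁻¹) ∈ N :=
          mul_mem hyN (Subgroup.Normal.conj_mem inferInstance _ (inv_mem hyN) _)
        have heq : y * (Pi.mulSingle i s * y⁻¹ * (Pi.mulSingle i s)⁻¹) =
            Pi.mulSingle i (y i * (s * (y i)⁻¹ * s⁻¹)) := by
          funext j
          by_cases hj : j = i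
          · subst hj
            simp
          · simp [Pi.mulSingle_eq_of_ne hj]
        rw [heq] at hmem
        have h1 : y i * (s * (y i)⁻¹ * s⁻¹) ∈ N.comap (MonoidHom.mulSingle (fun _ : Fin n => S) i) := hmem
        rw [hbot, Subgroup.mem_bot] at h1
        apply hs
        calc y i * s = y i * (s * (y i)⁻¹ * s⁻¹) * (s * y i) := by group
          _ = s * y i := by rw [h1, one_mul]
      have : x i ∈ N.comap (MonoidHom.mulSingle (fun _ : Fin n => S) i) := hcomp ▸ Subgroup.mem_top _
      exact this
    · rw [hx i hi, Pi.mulSingle_one]
      exact one_mem N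

end Cfsg.Agent.S5913
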