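import Cfsg.Statements.S5939
import Cfsg.Agent.Lib.helper12.DkA5
-- import your own Cfsg.Agent.* helpers here

set_option autoImplicit false
open Cfsg

namespace Cfsg.Agent.S5939

open Cfsg.Agent.Lib.helper12
open scoped MatrixGroups

/-- Let p be a prime and F a finite field of characteristic p such that either F has p elements and p ≡ ±1 (mod 10), or F has p² elements and p ≡ ±3 (mod 10). Then PSL_2(F) has a maximal subgroup isomorphic to the alternating group A_5. -/
theorem result {F : Type*} [Field F] [Fintype F] (p : ℕ) [Fact p.Prime] [CharP F p] (h : (Fintype.card F = p ∧ (p % 10 = 1 ∨ p % 10 = 9)) ∨ (Fintype.card F = p ^ 2 ∧ (p % 10 = 3 ∨ p % 10 = 7))) : ∃ H : Subgroup (Matrix.ProjectiveSpecialLinearGroup (Fin 2) F), IsCoatom H ∧ Nonempty (H ≃* alternatingGroup (Fin 5)) := by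
  classical
  have hpp : p.Prime := Fact.out
  have hp2 : p ≠ 2 := by
    rintro rfl
    omega
  have hpodd : p % 2 = 1 := by omega
  have hp3 : 3 ≤ p := by
    have := hpp.two_le
    omega
  have hsq5 : ∀ r : ℕ, r < 5 → (r ^ 2 % 5 = 1 ↔ (r = 1 ∨ r = 4)) := by decide
  have hp5 : p ^ 2 % 5 = 1 ↔ (p % 5 = 1 ∨ p % 5 = 4) := by
    rw [Nat.pow_mod]
    exact hsq5 _ (Nat.mod_lt _ (by norm_num))
  have hp1 : 1 ≤ p ^ 2 := Nat.one_le_pow _ _ (by omega)
  have hoddF : Fintype.card F % 2 = 1 := by
    rcases h with ⟨hF, -⟩ | ⟨hF, -⟩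
    · rw [hF]; exact hpodd
    · rw [hF, Nat.pow_mod, hpodd]
  have hgcd : Nat.gcd 2 (Fintype.card F - 1) = 2 := by
    rcases card_parity_cases (F := F) with ⟨-, -, h⟩ | ⟨-, h, -⟩
    · exact h
    · omega
  have h5 : 5 ∣ Fintype.card F * (Fintype.card F ^ 2 - 1) := by
    apply Dvd.dvd.mul_left
    rcases h with ⟨hF, hm⟩ | ⟨hF, hm⟩
    · rw [hF]
      have : p ^ 2 % 5 = 1 := hp5.mpr (by omega)
      omega
    · rw [hF]
      have h4 : p ^ 2 % 5 = 4 := by
        rw [Nat.pow_mod]
        have : p % 5 = 3 ∨ p % 5 = 2 := by omega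
        rcases this with h | h <;> rw [h]
      have : (p ^ 2) ^ 2 % 5 = 1 := by rw [Nat.pow_mod, h4]
      have : 1 ≤ (p ^ 2) ^ 2 := Nat.one_le_pow _ _ (by omega)
      omega
  obtain ⟨M, ⟨e⟩⟩ := PSL2_exists_A5 h5
  refine ⟨M, ?_, ⟨e⟩⟩
  have hM60 : Nat.card M = 60 := by rw [Nat.card_congr e.toEquiv, card_alt5]
  have hG := card_PSL2_gen (F := F)
  rw [hgcd] at hG
  apply coatom_of_card
  · intro htop
    rw [htop, Subgroup.card_top] at hM60
    rw [hM60] at hG
    rcases h with ⟨hF, hm⟩ | ⟨hF, hm⟩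
    · rw [hF] at hG
      have hp9 : 9 ≤ p := by omega
      have h1 : 80 ≤ p ^ 2 - 1 := by
        have : 81 ≤ p ^ 2 := by nlinarith
        omega
      have h3 : 9 * 80 ≤ p * (p ^ 2 - 1) := Nat.mul_le_mul hp9 h1
      omega
    · rw [hF] at hG
      have h9 : 9 ≤ p ^ 2 := by nlinarith
      have h1 : 80 ≤ (p ^ 2) ^ 2 - 1 := by
        have : 81 ≤ (p ^ 2) ^ 2 := by nlinarith
        omega
      have h3 : 9 * 80 ≤ p ^ 2 * ((p ^ 2) ^ 2 - 1) := Nat.mul_le_mul h9 h1
      omega
  · intro H hMH hH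
    have hdvd : Nat.card M ∣ Nat.card H := Subgroup.card_dvd_of_le hMH
    have hle : Nat.card M ≤ Nat.card H := Subgroup.card_le_of_le hMH
    rw [hM60] at hdvd hle ⊢
    rcases dk_cases_F12 p hp2 H hH (hasF12_alt5.of_le M H hMH e) with
      ⟨h12, -⟩ | ⟨h24, -⟩ | ⟨h60, -⟩ | ⟨K', iK, iF, m', hm2, hm', hcase⟩
    · omega
    · omega
    · omega
    · exfalso
      rcases h with ⟨hF, hm⟩ | ⟨hF, hm⟩
      · rw [hF] at hm'
        have := (hpp.pow_eq_iff).mp hm'
        omega
      · rw [hF] at hm'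
        have hk : Fintype.card K' = p := by
          have hkd : Fintype.card K' ∣ p ^ 2 := by
            rw [← hm']
            exact dvd_pow_self _ (by omega)
          obtain ⟨j, hj2, hj⟩ := (Nat.dvd_prime_pow hpp).mp hkd
          rw [hj, ← pow_mul] at hm'
          have hjm : j * m' = 2 := Nat.pow_right_injective hpp.two_le hm'
          have hj1 : j = 1 := by
            interval_cases j
            · omega
            · rfl
            · omega
          rw [hj, hj1, pow_one]
        rw [hk] at hcase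
        have hg' : Nat.gcd 2 (p - 1) = 2 := by
          have : 2 ∣ p - 1 := by omega
          exact Nat.gcd_eq_left this
        rw [hg'] at hcase
        have h5p : 5 ∣ p * (p ^ 2 - 1) := by
          rcases hcase with ⟨hc, -⟩ | ⟨hc, -⟩
          · rw [← hc]
            exact Dvd.dvd.mul_left (Dvd.dvd.trans (by norm_num) hdvd) 2
          · rw [← hc]
            exact Dvd.dvd.trans (by norm_num) hdvd
        rcases (Nat.Prime.dvd_mul Nat.prime_five).mp h5p with h | h
        · have : 5 = p := (Nat.prime_dvd_prime_iff_eq Nat.prime_five hpp).mp h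
          omega
        · have : p ^ 2 % 5 = 1 := by omega
          have := hp5.mp this
          omega

end Cfsg.Agent.S5939
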