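import Cfsg.Statements.S5940
import Cfsg.Agent.Lib.helper12.DkMax3
-- import your own Cfsg.Agent.* helpers here

set_option autoImplicit false
open Cfsg

namespace Cfsg.Agent.S5940

open Cfsg.Agent.Lib.helper12
open scoped MatrixGroups

/-- Let p ≥ 5 be a prime with p ≡ ±3 (mod 8) and p ≢ ±1 (mod 10), and F a field with p elements. Then PSL_2(F) has a maximal subgroup isomorphic to the alternating group A_4. -/
theorem result {F : Type*} [Field F] [Fintype F] (p : ℕ) [Fact p.Prime] (hF : Fintype.card F = p) (h5 : 5 ≤ p) (h8 : p % 8 = 3 ∨ p % 8 = 5) (h10 : p % 10 ≠ 1 ∧ p % 10 ≠ 9) : ∃ H : Subgroup (Matrix.ProjectiveSpecialLinearGroup (Fin 2) F), IsCoatom H ∧ Nonempty (H ≃* alternatingGroup (Fin 4)) := by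
  classical
  have hpp : p.Prime := Fact.out
  obtain ⟨p', hp'⟩ := CharP.exists F
  haveI := hp'
  haveI : Fact p'.Prime := ⟨CharP.char_is_prime F p'⟩
  have hodd : Fintype.card F % 2 = 1 := by rw [hF]; omega
  have h2 : (2 : F) ≠ 0 := by
    rcases card_parity_cases (F := F) with ⟨h, -, -⟩ | ⟨-, h, -⟩
    · exact h
    · omega
  have hgcd : Nat.gcd 2 (Fintype.card F - 1) = 2 := by
    rcases card_parity_cases (F := F) with ⟨-, -, h⟩ | ⟨-, h, -⟩
    · exact h
    · omega
  have hp'2 : p' ≠ 2 := by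
    rintro rfl
    apply h2
    have := CharP.cast_eq_zero F 2
    exact_mod_cast this
  have h16 : Fintype.card F ^ 2 % 16 = 9 := by
    rw [hF, Nat.pow_mod]
    have : p % 16 = 3 ∨ p % 16 = 5 ∨ p % 16 = 11 ∨ p % 16 = 13 := by omega
    rcases this with h | h | h | h <;> rw [h]
  have hn8 : ¬ 8 ∣ Nat.card PSL(2, F) := by
    rw [PSL2_eight_dvd_iff hodd, h16]
    norm_num
  obtain ⟨M, hM12, ⟨e⟩⟩ := PSL2_exists_A4_norm h2 hn8
  refine ⟨M, ?_, ⟨e⟩⟩
  have hG := card_PSL2_gen (F := F)
  rw [hgcd, hF] at hG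
  have hp1 : 1 ≤ p ^ 2 := Nat.one_le_pow _ _ (by omega)
  apply coatom_of_card
  · intro htop
    rw [htop, Subgroup.card_top] at hM12
    rw [hM12] at hG
    have h1 : 24 ≤ p ^ 2 - 1 := by
      have : 25 ≤ p ^ 2 := by nlinarith
      omega
    have h3 : 5 * 24 ≤ p * (p ^ 2 - 1) := Nat.mul_le_mul h5 h1
    omega
  · intro H hMH hH
    have hdvd : Nat.card M ∣ Nat.card H := Subgroup.card_dvd_of_le hMH
    have hle : Nat.card M ≤ Nat.card H := Subgroup.card_le_of_le hMH
    have hHG := Subgroup.card_subgroup_dvd_card H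
    rw [hM12] at hdvd hle ⊢
    rcases dk_cases_F12 p' hp'2 H hH (hasF12_alt4.of_le M H hMH e) with
      ⟨h12, -⟩ | ⟨h24, -⟩ | ⟨h60, -⟩ | ⟨K', iK, iF, m', hm2, hm', -⟩
    · omega
    · exfalso
      apply hn8
      rw [h24] at hHG
      exact Dvd.dvd.trans (by norm_num) hHG
    · exfalso
      rw [h60] at hHG
      have h5dvd : 5 ∣ p * (p ^ 2 - 1) := by
        rw [← hG]
        exact Dvd.dvd.mul_left (Dvd.dvd.trans (by norm_num) hHG) 2
      rcases (Nat.Prime.dvd_mul Nat.prime_five).mp h5dvd with h | h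
      · have hp5 : 5 = p := (Nat.prime_dvd_prime_iff_eq Nat.prime_five hpp).mp h
        subst hp5
        apply hH
        apply Subgroup.eq_top_of_card_eq
        rw [h60]
        simp only [Nat.reducePow, Nat.reduceSub, Nat.reduceMul] at hG
        omega
      · have h5' : p % 5 = 1 ∨ p % 5 = 4 := by
          have hlt : p % 5 < 5 := Nat.mod_lt _ (by norm_num)
          have hsq : (p % 5) ^ 2 % 5 = 1 := by
            rw [← Nat.pow_mod]
            omega
          generalize p % 5 = r at hlt hsq ⊢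
          interval_cases r <;> simp_all
        omega
    · exfalso
      rw [hF] at hm'
      have := (hpp.pow_eq_iff).mp hm'
      omega

end Cfsg.Agent.S5940
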