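import Cfsg.Statements.S5945
import Cfsg.Agent.S5912

set_option autoImplicit false
open Cfsg

namespace Cfsg.Agent.S5945

open Cfsg.Agent.S5911 Cfsg.Agent.S5912

theorem stab_eq_range {Y : Type*} [Fintype Y] [DecidableEq Y] (a : Y) :
    MulAction.stabilizer (Equiv.Perm Y) a =
      (Equiv.Perm.ofSubtype : Equiv.Perm {x : Y // x ≠ a} →* Equiv.Perm Y).range := by
  ext f
  rw [MulAction.mem_stabilizer_iff]
  constructor
  · intro hf
    have hf' : f a = a := hf
    have h₁ : ∀ x, f x ≠ a ↔ x ≠ a := by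
      intro x
      constructor
      · intro h hx
        apply h
        rw [hx, hf']
      · intro h hx
        apply h
        apply f.injective
        rw [hx, hf']
    have h₂ : ∀ x, f x ≠ x → x ≠ a := by
      intro x hx hxa
      apply hx
      rw [hxa, hf']
    exact ⟨f.subtypePerm h₁, Equiv.Perm.ofSubtype_subtypePerm h₁ h₂⟩
  · rintro ⟨g, rfl⟩
    exact Equiv.Perm.ofSubtype_apply_of_not_mem g (by simp)

theorem stab_iso {Y : Type*} [Fintype Y] [DecidableEq Y] (hY : Fintype.card Y = 6) (a : Y) :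
    Nonempty (MulAction.stabilizer (Equiv.Perm Y) a ≃* Equiv.Perm (Fin 5)) := by
  have hc : Fintype.card {x : Y // x ≠ a} = Fintype.card (Fin 5) := by
    have h1 : Fintype.card {y : Y // ¬ (y = a)} =
        Fintype.card Y - Fintype.card {y : Y // y = a} :=
      Fintype.card_subtype_compl _
    rw [Fintype.card_subtype_eq] at h1
    have h2 : Fintype.card {y : Y // y ≠ a} = Fintype.card {y : Y // ¬ (y = a)} := rfl
    rw [Fintype.card_fin]
    omega
  obtain ⟨e⟩ : Nonempty ({x : Y // x ≠ a} ≃ Fin 5) := Fintype.card_eq.mp hc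
  exact ⟨(MulEquiv.subgroupCongr (stab_eq_range a)).trans
    ((MonoidHom.ofInjective Equiv.Perm.ofSubtype_injective).symm.trans e.permCongrHom)⟩

theorem stab_inj {Y : Type*} [Fintype Y] [DecidableEq Y] (hY : 3 ≤ Fintype.card Y) (a a' : Y)
    (h : MulAction.stabilizer (Equiv.Perm Y) a = MulAction.stabilizer (Equiv.Perm Y) a') :
    a = a' := by
  by_contra hne
  obtain ⟨c, hca, hca'⟩ : ∃ c, c ≠ a ∧ c ≠ a' := by
    by_contra hcon
    push Not at hcon
    have h1 : (Finset.univ : Finset Y) ⊆ {a, a'} := by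
      intro b _
      by_cases hb : b = a
      · simp [hb]
      · simp [hcon b hb]
    have h2 := Finset.card_le_card h1
    have h3 : ({a, a'} : Finset Y).card ≤ 2 := Finset.card_le_two
    rw [Finset.card_univ] at h2
    omega
  have h1 : Equiv.swap a' c ∈ MulAction.stabilizer (Equiv.Perm Y) a := by
    rw [MulAction.mem_stabilizer_iff]
    exact Equiv.swap_apply_of_ne_of_ne hne hca.symm
  rw [h] at h1
  rw [MulAction.mem_stabilizer_iff] at h1
  have h2 : Equiv.swap a' c a' = a' := h1
  rw [Equiv.swap_apply_left] at h2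
  exact hca' h2

def comapEquiv {G G' : Type*} [Group G] [Group G'] (φ : G ≃* G') (K : Subgroup G') :
    K.comap φ.toMonoidHom ≃* K where
  toFun x := ⟨φ x.1, x.2⟩
  invFun y := ⟨φ.symm y.1, by
    rw [Subgroup.mem_comap]
    change φ (φ.symm y.1) ∈ K
    rw [φ.apply_symm_apply]
    exact y.2⟩
  left_inv x := Subtype.ext (φ.symm_apply_apply x.1)
  right_inv y := Subtype.ext (φ.apply_symm_apply y.1)
  map_mul' x y := Subtype.ext (map_mul φ x.1 y.1)


/-- The symmetric group S_6 has exactly 12 subgroups of index 6; each of them is isomorphic to S_5, and at least one of them is not the stabilizer of any point. -/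
theorem result : Nat.card {H : Subgroup (Equiv.Perm (Fin 6)) // H.index = 6} = 12 ∧ (∀ H : Subgroup (Equiv.Perm (Fin 6)), H.index = 6 → Nonempty (H ≃* Equiv.Perm (Fin 5))) ∧ ∃ H : Subgroup (Equiv.Perm (Fin 6)), H.index = 6 ∧ ∀ a : Fin 6, H ≠ MulAction.stabilizer (Equiv.Perm (Fin 6)) a := by
  classical
  have h6 : Fintype.card (Fin 6) = 6 := Fintype.card_fin 6
  obtain ⟨H₂, hH₂, hfix, ⟨iso₂⟩⟩ := exists_exotic h6
  letI : Fintype (Equiv.Perm (Fin 6) ⧸ H₂) := Fintype.ofFinite _
  obtain ⟨hX₂, φ₂, hmem₂, htrans₂⟩ := coset_iso (by omega) H₂ (by rw [hH₂, h6])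
  have hX₂' : Fintype.card (Equiv.Perm (Fin 6) ⧸ H₂) = 6 := by rw [hX₂, h6]
  have hexo := exotic_of_nofix (by omega) H₂ hfix φ₂ _ hmem₂
  have hB₂ : ∀ τ : Equiv.Perm (Equiv.Perm (Fin 6) ⧸ H₂), τ.IsSwap →
      (φ₂.symm τ).cycleType = Multiset.replicate 3 2 :=
    (dichotomy (by rw [hX₂]) φ₂.symm).resolve_left hexo
  haveI : Nontrivial (Equiv.Perm (Fin 6) ⧸ H₂) :=
    Fintype.one_lt_card_iff_nontrivial.mp (by omega)
  have hidxK : ∀ b : Equiv.Perm (Fin 6) ⧸ H₂,
      ((MulAction.stabilizer (Equiv.Perm (Equiv.Perm (Fin 6) ⧸ H₂)) b).comap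
        φ₂.toMonoidHom).index = 6 := by
    intro b
    rw [Subgroup.index_comap_of_surjective _ φ₂.surjective,
      MulAction.index_stabilizer_of_transitive, Nat.card_eq_fintype_card, hX₂']
  have hidxS : ∀ a : Fin 6, (MulAction.stabilizer (Equiv.Perm (Fin 6)) a).index = 6 := by
    intro a
    rw [MulAction.index_stabilizer_of_transitive, Nat.card_fin]
  have hdisj : ∀ (a : Fin 6) (b : Equiv.Perm (Fin 6) ⧸ H₂),
      MulAction.stabilizer (Equiv.Perm (Fin 6)) a ≠
        (MulAction.stabilizer (Equiv.Perm (Equiv.Perm (Fin 6) ⧸ H₂)) b).comap φ₂.toMonoidHom := by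
    intro a b heq
    obtain ⟨u, hub, v, hvb, huv⟩ : ∃ u, u ≠ b ∧ ∃ v, v ≠ b ∧ u ≠ v := by
      by_contra hcon
      push Not at hcon
      obtain ⟨u, hu⟩ := exists_ne b
      have h1 : (Finset.univ : Finset (Equiv.Perm (Fin 6) ⧸ H₂)) ⊆ {b, u} := by
        intro w _
        by_cases hw : w = b
        · simp [hw]
        · have := hcon u hu w hw
          simp [this]
      have h2 := Finset.card_le_card h1
      have h3 : ({b, u} : Finset (Equiv.Perm (Fin 6) ⧸ H₂)).card ≤ 2 := Finset.card_le_two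
      rw [Finset.card_univ] at h2
      omega
    have hτ : (Equiv.swap u v).IsSwap := ⟨u, v, huv, rfl⟩
    have h1 : φ₂.symm (Equiv.swap u v) ∈
        (MulAction.stabilizer (Equiv.Perm (Equiv.Perm (Fin 6) ⧸ H₂)) b).comap φ₂.toMonoidHom := by
      rw [Subgroup.mem_comap, MulAction.mem_stabilizer_iff]
      change φ₂ (φ₂.symm (Equiv.swap u v)) b = b
      rw [φ₂.apply_symm_apply]
      exact Equiv.swap_apply_of_ne_of_ne hub.symm hvb.symm
    rw [← heq, MulAction.mem_stabilizer_iff] at h1
    have h2 : (φ₂.symm (Equiv.swap u v)).support.card = 6 := by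
      rw [← Equiv.Perm.sum_cycleType, hB₂ _ hτ]
      rfl
    have h3 : (φ₂.symm (Equiv.swap u v)).support = Finset.univ := by
      apply Finset.eq_univ_of_card
      rw [h2, h6]
    have h4 : a ∈ (φ₂.symm (Equiv.swap u v)).support := by
      rw [h3]
      exact Finset.mem_univ a
    rw [Equiv.Perm.mem_support] at h4
    exact h4 h1
  refine ⟨?_, ?_, ⟨H₂, hH₂, fun a heq => ?_⟩⟩
  · have hbij : Function.Bijective (fun s : Fin 6 ⊕ (Equiv.Perm (Fin 6) ⧸ H₂) =>
        (Sum.elim (fun a => ⟨MulAction.stabilizer (Equiv.Perm (Fin 6)) a, hidxS a⟩)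
          (fun b => ⟨(MulAction.stabilizer (Equiv.Perm (Equiv.Perm (Fin 6) ⧸ H₂)) b).comap
            φ₂.toMonoidHom, hidxK b⟩) s :
          {H : Subgroup (Equiv.Perm (Fin 6)) // H.index = 6})) := by
      constructor
      · rintro (a | b) (a' | b') h
        · have h1 := congrArg Subtype.val h
          simp only [Sum.elim_inl] at h1
          rw [stab_inj (by omega) a a' h1]
        · have h1 := congrArg Subtype.val h
          simp only [Sum.elim_inl, Sum.elim_inr] at h1
          exact absurd h1 (hdisj a b')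
        · have h1 := congrArg Subtype.val h
          simp only [Sum.elim_inl, Sum.elim_inr] at h1
          exact absurd h1.symm (hdisj a' b)
        · have h1 := congrArg Subtype.val h
          simp only [Sum.elim_inr] at h1
          have h2 := Subgroup.comap_injective (f := φ₂.toMonoidHom) φ₂.surjective h1
          rw [stab_inj (by omega) b b' h2]
      · rintro ⟨H, hH⟩
        rcases classify h6 hX₂' φ₂ hexo H hH with ⟨a, rfl⟩ | ⟨b, hb⟩
        · exact ⟨Sum.inl a, rfl⟩
        · refine ⟨Sum.inr b, Subtype.ext ?_⟩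
          simp only [Sum.elim_inr]
          ext k
          rw [hb k]
          rfl
    rw [← Nat.card_congr (Equiv.ofBijective _ hbij), Nat.card_sum, Nat.card_fin,
      Nat.card_eq_fintype_card, hX₂']
  · intro H hH
    rcases classify h6 hX₂' φ₂ hexo H hH with ⟨a, rfl⟩ | ⟨b, hb⟩
    · exact stab_iso h6 a
    · obtain ⟨e⟩ := stab_iso hX₂' b
      have heq : H = (MulAction.stabilizer (Equiv.Perm (Equiv.Perm (Fin 6) ⧸ H₂)) b).comap
          φ₂.toMonoidHom := by
        ext k
        rw [hb k]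
        rfl
      exact ⟨(MulEquiv.subgroupCongr heq).trans ((comapEquiv φ₂ _).trans e)⟩
  · obtain ⟨h, hh, hne⟩ := hfix a
    rw [heq] at hh
    exact hne hh

end Cfsg.Agent.S5945
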